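import Cfsg.Statements.S3058
import Cfsg.Agent.LocEven.SEmbNormal
import Cfsg.Agent.Transfer.Tate
import Cfsg.Agent.Modules.ElemAb
import Cfsg.Agent.Signalizer.Generation
import Cfsg.Agent.Coprime.Conj

set_option autoImplicit false
open Cfsg

namespace Cfsg.Agent.S3058

/-- Let p be a prime and G a finite group whose Sylow p-subgroups are not chain-connected through nontrivial intersections (so G has a strongly p-embedded subgroup). If N and M are normal subgroups of G whose orders are both divisible by p, then the order of N ∩ M is divisible by p. Consequently, among the normal subgroups of G whose order is divisible by p there is a smallest one (the intersection of all of them). -/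
theorem result {G : Type*} [Group G] [Finite G]
    (p : ℕ) [Fact p.Prime] (hG : ¬ Cfsg.IsSylowChainConnected p G)
    (N M : Subgroup G) [N.Normal] [M.Normal] (hN : p ∣ Nat.card N) (hM : p ∣ Nat.card M) :
    p ∣ Nat.card ↥(N ⊓ M) := by
  classical
  by_contra hD
  obtain ⟨H, hne, hpH, hH⟩ := LocEven.exists_sEmb_of_not_chainConnected hG
  obtain ⟨P, hP⟩ := hH.exists_sylow_le hpH
  set D := N ⊓ M with hDdef
  -- central elements of order `p` of `P` in `N` and in `M`
  have hcentral : ∀ L : Subgroup G, L.Normal → p ∣ Nat.card L →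
      ∃ z : G, z ∈ L ∧ z ∈ P ∧ orderOf z = p ∧ ∀ u ∈ P, u * z = z * u := by
    intro L hL hpL
    have : L.Normal := hL
    have hLP : L.subgroupOf (P : Subgroup G) ≠ ⊥ := by
      rw [Ne, Subgroup.subgroupOf_eq_bot, disjoint_iff, inf_comm]
      exact LocEven.sylow_inf_normal_ne_bot P L hpL
    obtain ⟨z, hz, hzc, hzo⟩ := Transfer.exists_central_orderOf_eq_prime P.2 _ hLP
    exact ⟨z, hz, z.2, by rw [Subgroup.orderOf_coe, hzo],
      fun u hu => congrArg Subtype.val (Subgroup.mem_center_iff.1 hzc ⟨u, hu⟩)⟩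
  obtain ⟨a, haN, haP, hao, hac⟩ := hcentral N inferInstance hN
  obtain ⟨b, hbM, hbP, hbo, hbc⟩ := hcentral M inferInstance hM
  set A := Subgroup.zpowers a ⊔ Subgroup.zpowers b with hA
  have hAP : A ≤ (P : Subgroup G) :=
    sup_le (Subgroup.zpowers_le.2 haP) (Subgroup.zpowers_le.2 hbP)
  have hAel : Cfsg.IsElementaryAbelian p A := by
    refine Modules.elemAb_sup (Modules.elemAb_zpowers (hao ▸ pow_orderOf_eq_one a))
      (Modules.elemAb_zpowers (hbo ▸ pow_orderOf_eq_one b)) ?_
    rw [Subgroup.zpowers_le, Subgroup.mem_centralizer_iff]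
    intro x hx
    obtain ⟨k, rfl⟩ := Subgroup.mem_zpowers_iff.1 hx
    exact (Commute.zpow_left (show Commute a b from hbc a haP) k).eq
  have hAcyc : ∀ B : Subgroup G, B.relIndex A ≤ p → B ≠ ⊥ := by
    rintro B hB rfl
    rw [Subgroup.relIndex_bot_left] at hB
    have hle : Subgroup.zpowers a ≤ A := le_sup_left
    have heq := Subgroup.eq_of_le_of_card_ge hle (by rw [Nat.card_zpowers, hao]; exact hB)
    have hba : b ∈ Subgroup.zpowers a := heq ▸ Subgroup.mem_sup_right (Subgroup.mem_zpowers b)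
    have hbD : b ∈ D := ⟨Subgroup.zpowers_le.2 haN hba, hbM⟩
    exact hD (hbo ▸ Subgroup.orderOf_mk b hbD ▸ orderOf_dvd_natCard _)
  -- `D ≤ H`
  have hAD : A ≤ Subgroup.normalizer (D : Set G) := Subgroup.normalizer_eq_top D ▸ le_top
  have hDH : D ≤ H := by
    refine Signalizer.le_of_forall_hyperplane hAel hAD hD ?_
    intro B hBA hB
    obtain ⟨x, hxB, hx1, hxp⟩ := LocEven.exists_orderOf_of_ne_bot (P.2.to_le (le_trans hBA hAP)) (hAcyc B hB)
    refine le_trans inf_le_right (le_trans (Subgroup.centralizer_le ?_)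
      (hH.centralizer_le hxp (hP (hAP (hBA hxB)))))
    simpa using hxB
  -- `N ≤ H ⊔ D`
  have hPM : IsPGroup p ↥((P : Subgroup G) ⊓ M) := P.2.to_le inf_le_left
  set U := ((P : Subgroup G) ⊓ M) ⊔ D with hU
  have hcomm : ∀ n ∈ N, ∀ u ∈ (P : Subgroup G) ⊓ M, n * u * n⁻¹ ∈ U := by
    intro n hn u hu
    have h1 : n * u * n⁻¹ * u⁻¹ ∈ D := by
      refine ⟨?_, M.mul_mem ((inferInstance : M.Normal).conj_mem u hu.2 n) (M.inv_mem hu.2)⟩
      rw [mul_assoc n u, mul_assoc n]
      exact N.mul_mem hn ((inferInstance : N.Normal).conj_mem _ (N.inv_mem hn) u)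
    have h2 := U.mul_mem (Subgroup.mem_sup_right h1) (Subgroup.mem_sup_left hu : u ∈ U)
    simpa using h2
  have hrelU : ¬ p ∣ ((P : Subgroup G) ⊓ M).relIndex U := by
    intro h
    obtain ⟨k, hk⟩ := IsPGroup.iff_card.1 hPM
    have hcop : (Nat.card ↥((P : Subgroup G) ⊓ M)).Coprime (Nat.card D) := by
      rw [hk]; exact Nat.Coprime.pow_left _ ((Fact.out : p.Prime).coprime_iff_not_dvd.2 hD)
    have hnn : (P : Subgroup G) ⊓ M ≤ Subgroup.normalizer (D : Set G) :=
      Subgroup.normalizer_eq_top D ▸ le_top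
    have h3 := Subgroup.relIndex_mul_relIndex ⊥ ((P : Subgroup G) ⊓ M) U bot_le le_sup_left
    rw [Subgroup.relIndex_bot_left, Subgroup.relIndex_bot_left, hU,
      Coprime.card_sup_of_coprime hnn hcop] at h3
    exact hD ((Nat.eq_of_mul_eq_mul_left Nat.card_pos h3) ▸ h)
  have hUH : U ≤ H := sup_le (le_trans inf_le_left hP) hDH
  have hNH : N ≤ H := by
    intro n hn
    have hle : Fusion.cj n ((P : Subgroup G) ⊓ M) ≤ U := by
      rintro _ ⟨u, hu, rfl⟩; exact hcomm n hn u hu
    have hrel2 : ¬ p ∣ (Fusion.cj n ((P : Subgroup G) ⊓ M)).relIndex U := by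
      intro h
      apply hrelU
      have e1 := Subgroup.relIndex_mul_relIndex ⊥ _ U bot_le hle
      have e2 := Subgroup.relIndex_mul_relIndex ⊥ ((P : Subgroup G) ⊓ M) U bot_le le_sup_left
      rw [Subgroup.relIndex_bot_left, Fusion.card_cj, ← e2, Subgroup.relIndex_bot_left] at e1
      exact (Nat.eq_of_mul_eq_mul_left Nat.card_pos e1) ▸ h
    obtain ⟨y, hy, hyn⟩ := Fusion.exists_conj_of_relIndex hPM (Fusion.isPGroup_cj hPM n) le_sup_left hle hrelU hrel2
    have hmem : y⁻¹ * n ∈ Subgroup.normalizer (((P : Subgroup G) ⊓ M : Subgroup G) : Set G) := by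
      rw [← Fusion.cj_eq_iff_mem_normalizer, ← Fusion.cj_cj, ← hyn, Fusion.cj_inv_cj]
    have h4 := H.mul_mem (hUH hy) (hH.normalizer_sylow_inf_le P hP M hM hmem)
    simpa using h4
  exact hne (top_le_iff.1 (by rw [← hH.sup_normal_eq_top P hP N hN]; exact sup_le le_rfl hNH))

end Cfsg.Agent.S3058
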