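import Cfsg.Statements.S0618
import Cfsg.Agent.FF.Realize
import Cfsg.Agent.PSolv.OmegaCenter

set_option autoImplicit false
open Cfsg

namespace Cfsg.Agent.S0618

/-- A p-separable group with trivial p'-core in which the Thompson factorization fails has p = 2 or 3, and J(G) induces on the normal closure of Ω₁(Z(S)) a group containing a normal SL(2, p). -/
theorem result {G : Type*} [Group G] [Finite G] {p : ℕ} [Fact p.Prime] (hsep : Cfsg.IsPSolvable p G) (hO : Cfsg.pPrimeCore p G = ⊥) (hnf : ¬ Cfsg.IsThompsonFactorizable p G) : (p = 2 ∨ p = 3) ∧ ∃ E : Subgroup G, Subgroup.centralizer ((⨆ S : Sylow p G, Cfsg.omegaOne p ((S : Subgroup G) ⊓ Subgroup.centralizer ((S : Subgroup G) : Set G))) : Set G) ≤ E ∧ E ≤ Cfsg.thompsonSubgroup p G ⊔ Subgroup.centralizer ((⨆ S : Sylow p G, Cfsg.omegaOne p ((S : Subgroup G) ⊓ Subgroup.centralizer ((S : Subgroup G) : Set G))) : Set G) ∧ Cfsg.thompsonSubgroup p G ⊔ Subgroup.centralizer ((⨆ S : Sylow p G, Cfsg.omegaOne p ((S : Subgroup G) ⊓ Subgroup.centralizer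 ((S : Subgroup G) : Set G))) : Set G) ≤ Subgroup.normalizer (E : Set G) ∧ ∃ hn : ((Subgroup.centralizer ((⨆ S : Sylow p G, Cfsg.omegaOne p ((S : Subgroup G) ⊓ Subgroup.centralizer ((S : Subgroup G) : Set G))) : Set G)).subgroupOf E).Normal, Nonempty ((↥E ⧸ (Subgroup.centralizer ((⨆ S : Sylow p G, Cfsg.omegaOne p ((S : Subgroup G) ⊓ Subgroup.centralizer ((S : Subgroup G) : Set G))) : Set G)).subgroupOf E) ≃* Matrix.SpecialLinearGroup (Fin 2) (ZMod p)) := by
  set V := ⨆ S : Sylow p G, Cfsg.omegaOne p ((S : Subgroup G) ⊓ Subgroup.centralizer ((S : Subgroup G) : Set G)) with hVdef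
  haveI : V.Normal := PSolv.iSup_omegaCenter_normal
  have hV := PSolv.iSup_omegaCenter_elemAb (PSolv.centralizer_pCore_le hsep hO)
  have hJ : ¬ Cfsg.thompsonSubgroup p G ≤ Subgroup.centralizer (V : Set G) := fun h =>
    hnf ((PSolv.thompsonFactorizable_iff hO).2 h)
  have hOp : Cfsg.pCore p (G ⧸ Subgroup.centralizer (V : Set G)) = ⊥ := by
    set π := QuotientGroup.mk' (Subgroup.centralizer (V : Set G))
    set K := Cfsg.pCore p (G ⧸ Subgroup.centralizer (V : Set G))
    have hKn : (K.comap π).Normal := (Cfsg.pCore_normal p _).comap π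
    obtain ⟨k, hk⟩ := IsPGroup.iff_card.1 (PSolv.isPGroup_pCore p (G ⧸ Subgroup.centralizer (V : Set G)))
    have h := PSolv.le_centralizer_of_relIndex_pow V (K.comap π) PSolv.iSup_omegaCenter_gen
      (QuotientGroup.le_comap_mk' _ _) (k := k) (by rw [← PSolv.card_map_mk_eq_relIndex,
        Subgroup.map_comap_eq_self_of_surjective (QuotientGroup.mk'_surjective _)]; exact hk)
    have h1 := Subgroup.map_mono (f := π) h
    rw [Subgroup.map_comap_eq_self_of_surjective (QuotientGroup.mk'_surjective _),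
      QuotientGroup.map_mk'_self] at h1
    exact le_bot_iff.1 h1
  have hset : Subgroup.centralizer ((⨆ S : Sylow p G, Cfsg.omegaOne p ((S : Subgroup G) ⊓ Subgroup.centralizer ((S : Subgroup G) : Set G))) : Set G) = Subgroup.centralizer (V : Set G) := by
    rw [hVdef, Subgroup.iSup_eq_closure, Subgroup.centralizer_closure, Set.iSup_eq_iUnion]
  have hmain := FF.exists_SL2_of_moves hsep V hV hOp hJ
  rw [← hset] at hmain
  exact hmain

end Cfsg.Agent.S0618
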