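import Cfsg.Statements.S4681
import Cfsg.Agent.BrauerPairs.BlockSaturation
-- import your own Cfsg.Agent.* helpers here

set_option autoImplicit false
open Cfsg

namespace Cfsg.Agent.S4681

/-- Fix a prime p and a maximal ideal M of the algebraic integers containing p. Let B₀ be the principal p-block of the finite group G, P a Sylow p-subgroup and e₀ the principal p-block of C_G(P). Then (P, e₀) is a maximal Brauer pair of B₀, and the fusion system of B₀ on (P, e₀) is the fusion system of G on P: its maps from each subgroup of P are exactly the conjugation maps into P by elements of G. -/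
theorem result {G : Type*} [Group G] [Fintype G] (p : ℕ) [Fact p.Prime] (M : Ideal Cfsg.AlgInt) (hM : Cfsg.IsPModular p M) (S : Sylow p G) : Cfsg.IsMaximalBrauerPair p M (Cfsg.principalBlock M G) (S : Subgroup G) (Cfsg.principalBlock M (Subgroup.centralizer ((S : Subgroup G) : Set G))) ∧ ∀ F : Cfsg.FusionSystem (S : Subgroup G), Cfsg.IsBlockFusionSystemOn p M (Cfsg.principalBlock M G) (S : Subgroup G) (Cfsg.principalBlock M (Subgroup.centralizer ((S : Subgroup G) : Set G))) F → ∀ Q : Subgroup G, F.Hom Q = (Cfsg.groupFusionSystem (S : Subgroup G)).Hom Q := by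
  haveI : M.IsPrime := Cfsg.Agent.Block.isPrime_of_isPModular hM
  haveI := Cfsg.Agent.Block.charP_resF hM
  have hmax : Cfsg.IsMaximalBrauerPair p M (Cfsg.principalBlock M G) (S : Subgroup G)
      (Cfsg.principalBlock M (Subgroup.centralizer ((S : Subgroup G) : Set G))) := by
    refine ⟨(Cfsg.Agent.BrauerPairs.isBrauerPairOf_iff (Cfsg.Agent.BrauerPairs.princBlk M G) _
      (Cfsg.Agent.BrauerPairs.princBlk M _)).2 (Cfsg.Agent.BrauerPairs.pairOf_principal
        (S₀ := Cfsg.Agent.BrauerPairs.blockSysTop M) (S := Cfsg.Agent.BrauerPairs.pairSys M G)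
        (B₀ := Cfsg.Agent.BrauerPairs.princBlk M G)
        (fun a ha => Cfsg.Agent.BrauerPairs.lam_principal_top ha)
        (fun P => Cfsg.Agent.BrauerPairs.princBlk M (Subgroup.centralizer (P : Set G)))
        (fun P a ha => Cfsg.Agent.BrauerPairs.lam_principal_sub ha) S.isPGroup'), ?_⟩
    intro R g hR hle
    obtain ⟨hg, hsle⟩ := Cfsg.Agent.BrauerPairs.exists_sle_of_subpairLE (b := ⟨R, ⟨g, hR.1.2⟩⟩) hle
    exact S.is_maximal' hR.1.1 hsle.le
  refine ⟨hmax, fun F hF Q => Set.ext fun φ => ?_⟩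
  have hF' := fun {Q : Subgroup G} {φ : Q →* G} => Cfsg.Agent.BrauerPairs.mem_hom_iff
    (e := Cfsg.Agent.BrauerPairs.princBlk M _) (φ := φ) hF
  constructor
  · intro h
    obtain ⟨hQ, g, hg, f, hf, b, hb, hb'⟩ := hF'.1 h
    refine ⟨hQ, fun x => hb'.le ?_, g, hg⟩
    rw [← hb.1]
    exact ⟨x, x.2, by simp [hg]⟩
  · rintro ⟨hQ, hφ, g, hg⟩
    have key : ∀ R : Subgroup G, R ≤ (S : Subgroup G) →
        Cfsg.Agent.BrauerPairs.SLE (Cfsg.Agent.BrauerPairs.pairSys M G) p
          ⟨R, Cfsg.Agent.BrauerPairs.princBlk M _⟩ ⟨(S : Subgroup G), Cfsg.Agent.BrauerPairs.princBlk M _⟩ := by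
      intro R hR
      obtain ⟨f, hf, -⟩ := Cfsg.Agent.BrauerPairs.existsUnique_sle
        (S := Cfsg.Agent.BrauerPairs.pairSys M G) (p := p)
        (b := ⟨(S : Subgroup G), Cfsg.Agent.BrauerPairs.princBlk M _⟩) (Q := R) S.isPGroup' hR
      have h0 := hf.pairOf_iff (S₀ := Cfsg.Agent.BrauerPairs.blockSysTop M)
        (B := Cfsg.Agent.BrauerPairs.princBlk M G)
      have h1 := h0.1 ((Cfsg.Agent.BrauerPairs.isBrauerPairOf_iff _ _ _).1 hmax.1)
      obtain rfl := Cfsg.Agent.BrauerPairs.eq_principal_of_pairOf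
        (S₀ := Cfsg.Agent.BrauerPairs.blockSysTop M) (S := Cfsg.Agent.BrauerPairs.pairSys M G) (p := p)
        (B₀ := Cfsg.Agent.BrauerPairs.princBlk M G) (Q := R) (e := f)
        (fun a ha => Cfsg.Agent.BrauerPairs.lam_principal_top ha)
        (fun P => Cfsg.Agent.BrauerPairs.princBlk M (Subgroup.centralizer (P : Set G)))
        (fun P a ha => Cfsg.Agent.BrauerPairs.lam_principal_sub ha) h1
      exact hf
    refine hF'.2 ⟨hQ, g, hg, Cfsg.Agent.BrauerPairs.princBlk M _, key Q hQ, _,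
      Cfsg.Agent.BrauerPairs.cjRel_principal (S := Cfsg.Agent.BrauerPairs.pairSys M G)
        (fun P => Cfsg.Agent.BrauerPairs.princBlk M (Subgroup.centralizer (P : Set G)))
        (fun P a ha => Cfsg.Agent.BrauerPairs.lam_principal_sub ha) g Q, key _ ?_⟩
    rintro _ ⟨x, hx, rfl⟩
    have := hφ ⟨x, hx⟩
    rwa [hg] at this

end Cfsg.Agent.S4681
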