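import Cfsg.Statements.S0925
import Cfsg.Agent.Block.SecondMain
-- import your own Cfsg.Agent.* helpers here

set_option autoImplicit false
open Cfsg

namespace Cfsg.Agent.S0925

open Cfsg.Agent.Block
open scoped ComplexConjugate

/-- (i) Let ϑ be a class function on the finite group G and x a p-element, and suppose ϑ vanishes at every element whose p-part is conjugate to x. Then for every block B (relative to a maximal ideal M of the algebraic integers containing p) the B-part of ϑ — the sum over χ ∈ B of the inner product of ϑ with χ, times χ — also vanishes at every such element. (ii) Block orthogonality, its corollary: if the p-parts of g and h are not conjugate, then the sum over χ ∈ B of χ g * χ h⁻¹ is zero for every block B. -/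
theorem result {G : Type*} [Group G] [Finite G] (p : ℕ) [Fact p.Prime] (M : Ideal Cfsg.AlgInt) (hM : Cfsg.IsPModular p M) : (∀ (ϑ : G → ℂ), Cfsg.IsClassFunction G ϑ → ∀ x : G, (∃ k : ℕ, orderOf x = p ^ k) → (∀ u z : G, Cfsg.IsPPart p u z → IsConj x z → ϑ u = 0) → ∀ B : Set (Cfsg.IrrCharacter G), Cfsg.IsPBlock M B → ∀ u z : G, Cfsg.IsPPart p u z → IsConj x z → Cfsg.blockPart B ϑ u = 0) ∧ (∀ g h x y : G, Cfsg.IsPPart p g x → Cfsg.IsPPart p h y → ¬ IsConj x y → ∀ B : Set (Cfsg.IrrCharacter G), Cfsg.IsPBlock M B → ∑ᶠ χ ∈ B, (χ : G → ℂ) g * (χ : G → ℂ) h⁻¹ = 0) := by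
  classical
  haveI := Fintype.ofFinite G
  haveI : M.IsPrime := hM.2.1.isPrime
  have orth : ∀ g h x y : G, IsPPart p g x → IsPPart p h y → ¬ IsConj x y →
      ∀ B : Set (IrrCharacter G), IsPBlock M B →
        ∑ᶠ χ ∈ B, (χ : G → ℂ) g * (χ : G → ℂ) h⁻¹ = 0 := by
    intro g h x y hx hy hxy B hB
    refine blockOrth_of_integral hM (blockCoeff_memLocalRing hB) fun w k hk => ?_
    by_contra hpk
    apply hxy
    rw [pPart_eq_of_isPPart hM.1 hx, pPart_eq_of_isPPart hM.1 hy]
    have hconj : g ^ k = w * h ^ k * w⁻¹ := by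
      calc g ^ k = (g ^ k * w * (h ^ k)⁻¹) * h ^ k * w⁻¹ := by group
        _ = w * h ^ k * w⁻¹ := by rw [hk]
    exact pPart_isConj_of_zpow_isConj hM.1 hpk hconj
  refine ⟨fun ϑ hϑ x hx hvan B hB u z hu hxz => ?_, orth⟩
  simp only [blockPart, classInner, finsum_mem_eq_toFinset_sum, Finset.mul_sum, Finset.sum_mul]
  rw [Finset.sum_comm]
  refine Finset.sum_eq_zero fun v _ => ?_
  by_cases hv : IsConj x (Element.pPart p v)
  · exact Finset.sum_eq_zero fun ξ _ => by rw [hvan v _ (isPPart_pPart hM.1 v) hv]; simp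
  · have h0 := orth u v z _ hu (isPPart_pPart hM.1 v) (fun h => hv (hxz.trans h)) B hB
    rw [finsum_mem_eq_toFinset_sum] at h0
    calc _ = (Nat.card G : ℂ)⁻¹ * ϑ v *
          ∑ ξ ∈ B.toFinset, (ξ : G → ℂ) u * (ξ : G → ℂ) v⁻¹ := by
            rw [Finset.mul_sum]
            refine Finset.sum_congr (by ext; simp) fun ξ _ => ?_
            rw [Char.irr_inv ξ.2 v]
            ring
      _ = 0 := by rw [h0, mul_zero]

end Cfsg.Agent.S0925
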