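import Cfsg.Prelude.Def_Blocks
import Cfsg.Agent.Brauer.Covering

set_option autoImplicit false
open Cfsg

namespace Cfsg.Agent.S0971

open Cfsg.Agent.Brauer Cfsg.Agent.Block

theorem result {G : Type*} [Group G] [Fintype G] (p : ℕ) [Fact p.Prime] (M : Ideal Cfsg.AlgInt) (hM : Cfsg.IsPModular p M) (Q : Subgroup G) [Q.Normal] (hQ : IsPGroup p Q) [Fintype ↥(Q ⊔ Subgroup.centralizer (Q : Set G))] (b : Set (Cfsg.IrrCharacter ↥(Q ⊔ Subgroup.centralizer (Q : Set G)))) (hb : Cfsg.IsPBlock M b) : Cfsg.InducedBlockDefined M (Q ⊔ Subgroup.centralizer (Q : Set G)) b ∧ ∀ B : Set (Cfsg.IrrCharacter G), Cfsg.IsPBlock M B → (∃ χ ∈ B, ∃ θ ∈ b, Cfsg.classInner (fun n : ↥(Q ⊔ Subgroup.centralizer (Q : Set G)) => (χ : G → ℂ) n) (θ : ↥(Q ⊔ Subgroup.centralizer (Q : Set G)) → ℂ) ≠ 0) → Cfsg.IsInducedBlock M (Q ⊔ Subgroup.centralizer (Q : Set G)) b B := by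
  haveI : M.IsPrime := hM.2.1.isPrime
  haveI hN : (Q ⊔ Subgroup.centralizer (Q : Set G)).Normal := inferInstance
  have key : ∀ B : Set (Cfsg.IrrCharacter G), Cfsg.IsPBlock M B → (∃ χ ∈ B, ∃ θ ∈ b, Cfsg.classInner (fun n : ↥(Q ⊔ Subgroup.centralizer (Q : Set G)) => (χ : G → ℂ) n) (θ : ↥(Q ⊔ Subgroup.centralizer (Q : Set G)) → ℂ) ≠ 0) → Cfsg.IsInducedBlock M (Q ⊔ Subgroup.centralizer (Q : Set G)) b B := by
    rintro B hB ⟨χ₀, hχ₀, θ₀, hθ₀, h0⟩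
    refine ⟨hb, hB, fun ξ hξ χ hχ g => ?_⟩
    by_cases hg : g ∈ Q ⊔ Subgroup.centralizer (Q : Set G)
    · have h := centralChar_congr_of_covers (Q ⊔ Subgroup.centralizer (Q : Set G)) hM hB hb hχ₀
        hθ₀ h0 hχ hξ ⟨g, hg⟩
      simpa using memLocalIdeal_neg h
    · have h1 : Cfsg.inducedCentralChar (Q ⊔ Subgroup.centralizer (Q : Set G))
          (ξ : ↥(Q ⊔ Subgroup.centralizer (Q : Set G)) → ℂ) g = 0 := by
        refine finsum_mem_eq_zero_of_forall_eq_zero fun h hh => absurd ?_ hg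
        obtain ⟨c, hc⟩ := isConj_iff.1 (hh : IsConj g (h : G))
        have h2 := hN.conj_mem _ h.2 c⁻¹
        rw [← hc] at h2
        simpa [mul_assoc] using h2
      rw [h1, zero_sub]
      exact memLocalIdeal_neg (centralChar_mem_of_class_avoids_centralizer hM hQ χ.2
        fun h => hg (Subgroup.mem_sup_right h))
  refine ⟨?_, key⟩
  obtain ⟨θ, hθ⟩ := pBlock_nonempty hb
  obtain ⟨χ, hχ⟩ := exists_irr_over (Q ⊔ Subgroup.centralizer (Q : Set G)) θ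
  exact ⟨_, key _ (isPBlock_blockOf χ) ⟨χ, mem_blockOf_self χ, θ, hθ, hχ⟩⟩

end Cfsg.Agent.S0971
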