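import Cfsg.Statements.S4169
import Cfsg.Agent.FGSev.SmallClass
import Cfsg.Agent.PGroup.Basic
-- import your own Cfsg.Agent.* helpers here

set_option autoImplicit false
open Cfsg

namespace Cfsg.Agent.S4169

/-- Let P be a finite p-group whose conjugacy classes have exactly two sizes (1 and one other value). Then P has nilpotency class at most 3. -/
theorem result {P : Type*} [Group P] [Finite P] {p : ℕ} [Fact p.Prime] (hP : IsPGroup p P)
    (m : ℕ) (hm : 1 < m) (h : ∀ x : P, (Subgroup.centralizer ({x} : Set P)).index = 1 ∨ (Subgroup.centralizer ({x} : Set P)).index = m) :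
    upperCentralSeries P 3 = ⊤ := by
  classical
  haveI : IsMulCommutative (⊥ : Subgroup P) := ⟨⟨fun a b => Subsingleton.elim _ _⟩⟩
  obtain ⟨A, hAn, hA, -, hCA⟩ :=
    Cfsg.Agent.PGroup.exists_self_centralizing_normal_abelian hP (A := ⊥) inferInstance
  haveI := hAn
  have hz : ∀ x ∈ (Set.univ : Set P), ∀ a ∈ A, a * x * a⁻¹ * x⁻¹ ∈ Subgroup.center P := by
    intro x _ a ha
    rcases h x with h1 | hm'
    · have hxc := (Cfsg.Agent.ClassSize.index_centralizer_eq_one_iff x).mp h1
      rw [Subgroup.mem_center_iff.mp hxc a, mul_inv_cancel_right, mul_inv_cancel]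
      exact one_mem _
    · refine Cfsg.Agent.FGSev.comm_mem_center_of_minimal A hA hm' (fun y hy => ?_) ha
      rcases h y with h2 | h2
      · omega
      · exact h2.ge
  have h' := Cfsg.Agent.FGSev.lowerCentralSeries_small_class_eq_bot A hA hCA Set.univ hz
  rw [Subgroup.closure_univ] at h'
  exact Subgroup.lowerCentralSeries_eq_bot_iff_upperCentralSeries_eq_top.mp h'

end Cfsg.Agent.S4169
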