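import Cfsg.Statements.S4134
import Cfsg.Agent.FGSev.TwoSizes

set_option autoImplicit false
open Cfsg
open Subgroup

namespace Cfsg.Agent.S4134

/-- Let G be a finite group whose conjugacy classes have exactly two sizes, 1 and n > 1. Then n is a power of a prime p and G is the direct product of a p-group and an abelian group of order prime to p: its Sylow p-subgroup P is normal with an abelian normal complement centralizing it; moreover P has an abelian normal subgroup A with P/A of exponent dividing p. -/
theorem result {G : Type*} [Group G] [Finite G] (n : ℕ) (hn : 1 < n)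
    (h : ∀ x : G, (Subgroup.centralizer ({x} : Set G)).index = 1 ∨ (Subgroup.centralizer ({x} : Set G)).index = n) (hex : ∃ x : G, (Subgroup.centralizer ({x} : Set G)).index = n) :
    ∃ (p : ℕ) (_ : Fact p.Prime) (a : ℕ), n = p ^ a ∧ ∀ P : Sylow p G, (P : Subgroup G).Normal ∧
      (∃ N : Subgroup G, N.Normal ∧ N.IsComplement' (P : Subgroup G) ∧ IsMulCommutative N ∧
        ∀ x ∈ N, ∀ y ∈ (P : Subgroup G), x * y = y * x) ∧
      ∃ A : Subgroup (P : Subgroup G), A.Normal ∧ IsMulCommutative A ∧ ∀ y : (P : Subgroup G), y ^ p ∈ A := by
  classical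
  obtain ⟨x, hx⟩ := hex
  have hxZ : x ∉ center G := fun hc => by
    rw [(ClassSize.index_centralizer_eq_one_iff x).2 hc] at hx
    omega
  obtain ⟨p, hp, hpu⟩ := FGSev.center_index_isPrimePow h hn hxZ
  haveI := Fact.mk hp
  have hidx : (center G).index = p ^ (center G).index.factorization p := by
    have h1 := Nat.eq_prime_pow_of_unique_prime_dvd (p := p) (n := (center G).index)
      index_ne_zero_of_finite (fun {d} hd hdi => hpu d hd hdi)
    conv_rhs => rw [h1, hp.factorization_pow, Finsupp.single_eq_same]
    exact h1
  have hnd : n ∣ p ^ (center G).index.factorization p := by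
    rw [← hidx, ← hx]; exact index_dvd_of_le (center_le_centralizer _)
  obtain ⟨a, -, ha⟩ := (Nat.dvd_prime_pow hp).1 hnd
  refine ⟨p, ⟨hp⟩, a, ha, fun P => ?_⟩
  have hPZ : (P : Subgroup G) ⊔ center G = ⊤ := by
    rw [← index_eq_one]
    refine Nat.eq_one_of_dvd_coprimes (a := p ^ (center G).index.factorization p)
      (b := (P : Subgroup G).index) ?_ (hidx ▸ index_dvd_of_le le_sup_right)
      (index_dvd_of_le le_sup_left)
    exact (hp.coprime_iff_not_dvd.2 P.not_dvd_index).pow_left _
  have hPn : (P : Subgroup G).Normal := by
    rw [← normalizer_eq_top_iff, eq_top_iff, ← hPZ]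
    exact sup_le le_normalizer (center_le_centralizer _ |>.trans (centralizer_le_normalizer _))
  haveI := hPn
  refine ⟨hPn, ?_, ?_⟩
  · obtain ⟨N, hN⟩ := exists_right_complement'_of_coprime (N := (P : Subgroup G)) P.card_coprime_index
    have hNZ : N ≤ center G := by
      intro u hu
      refine Element.mem_of_coprime_index (N := center G) ?_
      rw [hidx]
      refine Nat.Coprime.pow_right _ ((hp.coprime_iff_not_dvd.2 fun hd => P.not_dvd_index ?_).symm)
      rw [hN.symm.index_eq_card]
      exact hd.trans (N.orderOf_dvd_natCard hu)
    refine ⟨N, ⟨fun u hu g => ?_⟩, hN.symm, ⟨⟨fun u v => Subtype.ext ?_⟩⟩, fun u hu v _ => ?_⟩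
    · rw [mem_center_iff.1 (hNZ hu) g, mul_inv_cancel_right]; exact hu
    · exact mem_center_iff.1 (hNZ v.2) u
    · exact (mem_center_iff.1 (hNZ hu) v).symm
  · -- class sizes inside `P`
    have hidxP : ∀ u : (P : Subgroup G), (centralizer ({u} : Set (P : Subgroup G))).index =
        (centralizer ({(u : G)} : Set G)).index := by
      intro u
      have e1 : centralizer ({u} : Set (P : Subgroup G)) =
          (centralizer ({(u : G)} : Set G)).comap (P : Subgroup G).subtype := by
        ext v
        rw [mem_centralizer_singleton_iff, mem_comap, mem_centralizer_singleton_iff]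
        exact Subtype.ext_iff
      rw [e1, index_comap, range_subtype]
      have key : (centralizer ({(u : G)} : Set G)) ⊔ (P : Subgroup G) = ⊤ := by
        rw [eq_top_iff, ← hPZ]
        exact sup_le le_sup_right ((center_le_centralizer _).trans le_sup_left)
      -- the product formula
      set C := centralizer ({(u : G)} : Set G)
      have f1 : Nat.card ↥(C ⊓ (P : Subgroup G)) * C.relIndex (P : Subgroup G) =
          Nat.card (P : Subgroup G) := by
        rw [← relIndex_bot_left, ← inf_relIndex_right C, ← relIndex_bot_left,
          relIndex_mul_relIndex _ _ _ bot_le inf_le_right]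
      have f2 : Nat.card ↥(C ⊓ (P : Subgroup G)) * (P : Subgroup G).relIndex C = Nat.card C := by
        rw [inf_comm, ← relIndex_bot_left, ← inf_relIndex_right (P : Subgroup G), ← relIndex_bot_left,
          relIndex_mul_relIndex _ _ _ bot_le inf_le_right]
      have f3 : Nat.card (P : Subgroup G) * (P : Subgroup G).relIndex C = Nat.card G := by
        rw [← relIndex_sup_right C (P : Subgroup G), key, relIndex_top_right, card_mul_index]
      rw [← C.card_mul_index] at f3
      have hpos : 0 < Nat.card C := Nat.card_pos
      have f4 : Nat.card (P : Subgroup G) * (P : Subgroup G).relIndex C =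
          C.relIndex (P : Subgroup G) * Nat.card C := by
        rw [← f1, ← f2]; ring
      rw [f4, mul_comm] at f3
      exact Nat.eq_of_mul_eq_mul_left hpos f3
    exact FGSev.exists_abelian_pow_mem P.2 hn (fun u => by rw [hidxP]; exact h u)

end Cfsg.Agent.S4134
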