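import Cfsg.Statements.S4127
import Cfsg.Agent.FGSev.PPowerIndex
import Cfsg.Agent.Transfer.Frobenius
import Cfsg.Agent.LocalEven.CoprimeLemmas
import Cfsg.Agent.Lib.ClassSize
-- import your own Cfsg.Agent.* helpers here

set_option autoImplicit false
open Cfsg

namespace Cfsg.Agent.S4127

/-- Let G be a finite group, p a prime and p^a the largest power of p dividing the size of any conjugacy class of G. If some element of p-power order has a conjugacy class of size exactly p^a, then G has a normal p-complement. -/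
theorem result {G : Type*} [Group G] [Finite G] (p : ℕ) [Fact p.Prime]
    (a : ℕ) (hmax : ∀ y : G, ¬ p ^ (a + 1) ∣ (Subgroup.centralizer ({y} : Set G)).index)
    (hx : ∃ x : G, (∃ k : ℕ, orderOf x = p ^ k) ∧ (Subgroup.centralizer ({x} : Set G)).index = p ^ a) :
    Cfsg.HasNormalPComplement p G := by
  classical
  obtain ⟨x, hxp, hxi⟩ := hx
  have hp : p.Prime := Fact.out
  set C := Subgroup.centralizer ({x} : Set G) with hC
  set N := Cfsg.pCore p G with hN
  have hxN : x ∈ N := Cfsg.Agent.FGSev.mem_pCore_of_index_pow hxp hxi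
  -- every `p'`-element of `C` centralises a Sylow subgroup of `C`
  have hsyl : ∀ y : C, (orderOf y).Coprime p →
      ∃ S : Sylow p C, (S : Subgroup C) ≤ Subgroup.centralizer {y} := by
    intro y hy
    rw [← Cfsg.Agent.ClassSize.coprime_index_centralizer_iff]
    have hcomm : Commute x (y : G) := (Subgroup.mem_centralizer_singleton_iff.mp y.2).symm
    have hcop : (orderOf x).Coprime (orderOf (y : G)) := by
      obtain ⟨k, hk⟩ := hxp
      rw [hk, Subgroup.orderOf_coe]; exact (hy.pow_right k).symm
    have hxy := Cfsg.Agent.Element.centralizer_mul_of_coprime hcomm hcop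
    rw [← hC] at hxy
    have hidx := Subgroup.relIndex_mul_index (show C ⊓ Subgroup.centralizer {(y : G)} ≤ C from inf_le_left)
    rw [← hxy, hxi, hxy, Subgroup.inf_relIndex_left] at hidx
    have heq : (Subgroup.centralizer ({y} : Set C)) =
        (Subgroup.centralizer ({(y : G)} : Set G)).subgroupOf C := by
      ext z
      simp only [Subgroup.mem_centralizer_singleton_iff, Subgroup.mem_subgroupOf]
      exact Subtype.ext_iff
    rw [heq, Nat.coprime_comm, hp.coprime_iff_not_dvd]
    intro hd
    apply hmax (x * (y : G))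
    rw [hxy, ← hidx, pow_succ, mul_comm]
    exact Nat.mul_dvd_mul hd dvd_rfl
  obtain ⟨hSn, hcent⟩ := Cfsg.Agent.FGSev.sylow_normal_of_forall_centralize hsyl default
  set S : Sylow p C := default with hS
  haveI := hSn
  -- the `p'`-elements of `C` centralise `O_p(G)`
  have hN' : ∀ y : G, y ∈ C → (orderOf y).Coprime p → ∀ q ∈ N, Commute y q := by
    intro y hyC hy
    have hNp : IsPGroup p N := Cfsg.Agent.Cores.pCore_isPGroup
    have htop : ∀ g : G, g ∈ Subgroup.normalizer (N : Set G) := fun g => by
      rw [Subgroup.normalizer_eq_top]; exact Subgroup.mem_top g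
    refine Cfsg.Agent.LocalEven.aXb_lemma hNp ((Cfsg.Agent.FGSev.pElem_iff_isPGroup p x).mp hxp)
      (fun z _ => htop z) (htop y) (hp.coprime_iff_not_dvd.mp hy.symm) (fun z hz => ?_) (fun q hq hzq => ?_)
    · obtain ⟨i, rfl⟩ := Subgroup.mem_zpowers_iff.mp hz
      exact (show Commute y x from Subgroup.mem_centralizer_singleton_iff.mp hyC).zpow_right i
    · have hqC : q ∈ C := Subgroup.mem_centralizer_singleton_iff.mpr
        (hzq x (Subgroup.mem_zpowers x)).eq.symm
      have hqS : (⟨q, hqC⟩ : C) ∈ (S : Subgroup C) := by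
        haveI : (N.subgroupOf C).Normal := Subgroup.Normal.subgroupOf inferInstance C
        have h1 : N.subgroupOf C ≤ Cfsg.pCore p C := Cfsg.Agent.Cores.le_pCore inferInstance
          (hNp.comap_of_injective C.subtype C.subtype_injective)
        exact Cfsg.Agent.Cores.pCore_le_sylow S (h1 hq)
      have h2 := Subgroup.mem_centralizer_iff.mp (hcent ⟨y, hyC⟩ (by rwa [Subgroup.orderOf_mk])) _ hqS
      exact (congrArg Subtype.val h2).symm
  -- all `p'`-elements lie in `C`
  set K := Subgroup.centralizer (N : Set G) with hK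
  haveI : K.Normal := inferInstance
  have hKidx : ∀ r : ℕ, r.Prime → r ≠ p → ¬ r ∣ K.index := by
    intro r hr hrp
    haveI := Fact.mk hr
    let R : Sylow r C := default
    obtain ⟨T, hT⟩ := (R.2.map C.subtype).exists_le_sylow
    have hRT : (R : Subgroup C).map C.subtype = (T : Subgroup G) := by
      refine Subgroup.eq_of_le_of_card_ge hT ?_
      rw [T.card_eq_multiplicity, Subgroup.card_map_of_injective C.subtype_injective,
        R.card_eq_multiplicity, ← C.card_mul_index, hxi,
        Nat.factorization_mul Nat.card_pos.ne' (pow_ne_zero _ hp.ne_zero), Finsupp.add_apply,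
        hp.factorization_pow, Finsupp.single_eq_of_ne hrp, add_zero]
    have hle : (T : Subgroup G) ≤ K := by
      rw [← hRT]
      rintro _ ⟨z, hz, rfl⟩
      refine Subgroup.mem_centralizer_iff.mpr fun q hq => ?_
      refine (hN' z z.2 ?_ q hq).eq.symm
      obtain ⟨k, hk⟩ := Cfsg.Agent.Element.orderOf_eq_pow_of_mem_isPGroup R.2 hz
      rw [Subgroup.orderOf_coe, hk]
      exact ((Nat.coprime_primes hr hp).mpr hrp).pow_left k
    exact fun hd => T.not_dvd_index (hd.trans (Subgroup.index_dvd_of_le hle))
  have hall : ∀ y : G, (orderOf y).Coprime p → y ∈ C := by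
    intro y hy
    have hyK : y ∈ K := by
      refine Cfsg.Agent.Element.mem_of_coprime_index (Nat.coprime_of_dvd fun r hr hry hrK => ?_)
      refine hKidx r hr ?_ hrK
      rintro rfl
      exact hr.one_lt.ne' (Nat.eq_one_of_dvd_coprimes hy hry dvd_rfl)
    exact Subgroup.mem_centralizer_singleton_iff.mpr (Subgroup.mem_centralizer_iff.mp hyK x hxN).symm
  -- the normal `p`-complement of `C`
  have hCc : Cfsg.HasNormalPComplement p C := by
    refine Cfsg.Agent.Transfer.hasNormalPComplement_of_coprime_centralize fun Q hQ _ y _ hy => ?_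
    obtain ⟨S', hS'⟩ := hQ.exists_le_sylow
    haveI := Sylow.unique_of_normal S hSn
    rw [Subsingleton.elim S' S] at hS'
    exact Subgroup.centralizer_le hS' (hcent y hy)
  obtain ⟨P₀, T₀, hT₀n, hT₀⟩ := hCc
  haveI := hT₀n
  have hT₀i : T₀.index = Nat.card (P₀ : Subgroup C) := hT₀.symm.index_eq_card
  have hT₀c : (Nat.card T₀).Coprime p := by
    rw [Nat.coprime_comm, hp.coprime_iff_not_dvd, ← hT₀.index_eq_card]
    exact P₀.not_dvd_index
  have hmem : ∀ y : C, y ∈ T₀ ↔ (orderOf y).Coprime p := by
    refine fun y => ⟨fun h => Cfsg.Agent.Element.coprime_orderOf_of_mem hT₀c h, fun h => ?_⟩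
    refine Cfsg.Agent.Element.mem_of_coprime_index ?_
    rw [hT₀i, P₀.card_eq_multiplicity]
    exact h.pow_right _
  set T := T₀.map C.subtype with hT
  have hTn : T.Normal := by
    refine ⟨fun n hn g => ?_⟩
    obtain ⟨z, hz, rfl⟩ := hn
    have ho : (orderOf (g * (z : G) * g⁻¹)).Coprime p := by
      rw [show g * (z : G) * g⁻¹ = (MulAut.conj g).toMonoidHom (z : G) from rfl,
        orderOf_injective (MulAut.conj g).toMonoidHom (MulAut.conj g).injective, Subgroup.orderOf_coe]
      exact (hmem z).mp hz
    exact ⟨⟨_, hall _ ho⟩, (hmem _).mpr (by rwa [Subgroup.orderOf_mk]), rfl⟩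
  let P : Sylow p G := default
  refine ⟨P, T, hTn, Subgroup.isComplement'_of_coprime ?_ ?_⟩
  · rw [hT, Subgroup.card_map_of_injective C.subtype_injective, P.card_eq_multiplicity,
      ← C.card_mul_index, hxi, Nat.factorization_mul Nat.card_pos.ne' (pow_ne_zero _ hp.ne_zero),
      Finsupp.add_apply, hp.factorization_pow, Finsupp.single_eq_same, pow_add,
      ← P₀.card_eq_multiplicity, ← mul_assoc, hT₀.card_mul]
  · rw [hT, Subgroup.card_map_of_injective C.subtype_injective, P.card_eq_multiplicity]
    exact hT₀c.pow_right _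

end Cfsg.Agent.S4127
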