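import Cfsg.Statements.S5379
import Cfsg.Agent.SuzType.Setup
import Cfsg.Agent.SuzType.Classes
-- import your own Cfsg.Agent.* helpers here

set_option autoImplicit false
open Cfsg

namespace Cfsg.Agent.S5379

open Cfsg.Agent.ExtraTwo Cfsg.Agent.LargeExtra Cfsg.Agent.SuzType

/-- Every involution has a conjugate centralising `z`. -/
theorem exists_conj_centralizing {G : Type*} [Group G] [Finite G] {z : G} {Q : Subgroup G}
    (h : CentralInvolution Q z) (hcent : Subgroup.centralizer (Q : Set G) ≤ Subgroup.zpowers z)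
    {x : G} (hx : orderOf x = 2) : ∃ k : G, k * x * k⁻¹ * z = z * (k * x * k⁻¹) := by
  haveI : Fact (Nat.Prime 2) := ⟨Nat.prime_two⟩
  obtain ⟨S, hS⟩ := h.isPGroup.exists_le_sylow
  haveI : Nontrivial (S : Subgroup G) :=
    ⟨⟨⟨z, hS h.mem⟩, 1, fun e => h.ne_one (congrArg Subtype.val e)⟩⟩
  haveI := S.isPGroup'.center_nontrivial
  obtain ⟨c, hc⟩ := exists_ne (1 : Subgroup.center (S : Subgroup G))
  have hcc := Subgroup.mem_center_iff.1 c.2
  have hm : ((c : (S : Subgroup G)) : G) ∈ Subgroup.centralizer (Q : Set G) := fun q hq =>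
    congrArg Subtype.val (hcc ⟨q, hS hq⟩)
  rcases h.mem_zpowers_iff.1 (hcent hm) with e | e
  · exact absurd (Subtype.ext (Subtype.ext e)) hc
  · have hP : IsPGroup 2 (Subgroup.zpowers x) :=
      IsPGroup.of_card (n := 1) (by rw [Nat.card_zpowers, hx, pow_one])
    obtain ⟨T, hT⟩ := hP.exists_le_sylow
    obtain ⟨k, hk⟩ := MulAction.exists_smul_eq G T S
    refine ⟨k, ?_⟩
    have hxS : k * x * k⁻¹ ∈ (S : Subgroup G) := by
      rw [← hk, Sylow.coe_subgroup_smul, Subgroup.mem_pointwise_smul_iff_inv_smul_mem]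
      simpa [MulAut.smul_def, mul_assoc] using hT (Subgroup.mem_zpowers x)
    rw [← e]
    exact (congrArg Subtype.val (hcc ⟨_, hxS⟩))

/-- Let G be a finite group of Suzuki sporadic type: it has an involution z whose centralizer C has generalized Fitting subgroup Q extraspecial of order 2^7 with C/Q isomorphic to the commutator subgroup of the isometry group of the elliptic quadratic form in dimension 6 over the field with two elements, and some conjugate of z other than z lies in Q. Then G has exactly two conjugacy classes of involutions. -/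
theorem result {G : Type*} [Group G] [Finite G] (z : G) (hz : orderOf z = 2) (Q : Subgroup (Subgroup.centralizer ({z} : Set G))) [Q.Normal] (hF : Cfsg.generalizedFittingSubgroup (Subgroup.centralizer ({z} : Set G)) = Q) (hQ : Cfsg.IsExtraspecial 2 Q) (hcard : Nat.card Q = 2 ^ 7) (e : (Subgroup.centralizer ({z} : Set G)) ⧸ Q ≃* Cfsg.Omega (ZMod 2) (Cfsg.quadFormMinus 2 (ZMod 2) 1 1)) (hnwc : ∃ g : G, (∃ hq : g * z * g⁻¹ ∈ Subgroup.centralizer ({z} : Set G), (⟨g * z * g⁻¹, hq⟩ : Subgroup.centralizer ({z} : Set G)) ∈ Q) ∧ g * z * g⁻¹ ≠ z) : ∃ a b : G, orderOf a = 2 ∧ orderOf b = 2 ∧ ¬ IsConj a b ∧ ∀ x : G, orderOf x = 2 → IsConj x a ∨ IsConj x b := by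
  classical
  obtain ⟨φ, h, hax⟩ := exists_frame z hz Q hF hQ hcard e
  have hn : ∃ g : G, g * z * g⁻¹ ∈ Q.map (Subgroup.centralizer ({z} : Set G)).subtype ∧
      g * z * g⁻¹ ≠ z := by
    obtain ⟨g, ⟨hq, hm⟩, hne⟩ := hnwc
    exact ⟨g, ⟨_, hm, rfl⟩, hne⟩
  obtain ⟨g, s, hA⟩ := exists_at h hn
  obtain ⟨y, hy⟩ := hA.exists_lift consts.1
  obtain ⟨v0, hv0, hv0d⟩ := h.map_surj d6
  obtain ⟨-, hsq, htQ, -, -⟩ := base_props h hA hy hv0 hv0d
  have htne : y * v0 ≠ 1 := fun e' => htQ (e' ▸ one_mem _)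
  refine ⟨z, y * v0, hz, orderOf_eq_prime (by rw [pow_two, hsq]) htne,
    not_conj h hA hy hv0 hv0d hax, fun x hx => ?_⟩
  obtain ⟨k, hkz⟩ := exists_conj_centralizing h.ci h.cent hx
  have hkx : IsConj x (k * x * k⁻¹) := isConj_iff.2 ⟨k, rfl⟩
  have hx1 : k * x * k⁻¹ ≠ 1 := fun e' => by
    rw [conj_eq_one_iff.1 e'] at hx
    simp at hx
  have hx2 : k * x * k⁻¹ * (k * x * k⁻¹) = 1 := by
    have : x * x = 1 := by rw [← pow_two, ← hx, pow_orderOf_eq_one]
    rw [show k * x * k⁻¹ * (k * x * k⁻¹) = k * (x * x) * k⁻¹ by group, this]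
    group
  by_cases hmem : k * x * k⁻¹ ∈ Q.map (Subgroup.centralizer ({z} : Set G)).subtype
  · refine Or.inl (hkx.trans ?_)
    by_cases hxz : k * x * k⁻¹ = z
    · rw [hxz]
    · obtain ⟨j, hj⟩ := exists_conj_of_mem h hA hmem hx2 hx1 hxz
      exact (isConj_iff.2 ⟨j, hj⟩).symm
  · rcases classify h hA hy hv0 hv0d hax hkz hx2 hmem with hnr | ⟨c, -, hce⟩
    · exact Or.inl (hkx.trans (isConj_of_near h hA hx2 hx1 hnr).symm)
    · exact Or.inr (hkx.trans (isConj_iff.2 ⟨c, hce⟩))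

end Cfsg.Agent.S5379
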