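import Cfsg.Statements.S5378
import Cfsg.Agent.Co1Type.Setup
import Cfsg.Agent.Co1Type.Separate
import Cfsg.Agent.S5379
-- import your own Cfsg.Agent.* helpers here

set_option autoImplicit false
open Cfsg

namespace Cfsg.Agent.S5378

open Cfsg.Agent.ExtraTwo Cfsg.Agent.LargeExtra Cfsg.Agent.Co1Type

/-- Let G be a finite group of Conway type: it has an involution z whose centralizer C has generalized Fitting subgroup Q extraspecial of order 2^9 with C/Q isomorphic to the commutator subgroup of the isometry group of the hyperbolic quadratic form in dimension 8 over the field with two elements, and some conjugate of z other than z lies in Q. Then G has exactly three conjugacy classes of involutions. -/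
theorem result {G : Type*} [Group G] [Finite G] (z : G) (hz : orderOf z = 2) (Q : Subgroup (Subgroup.centralizer ({z} : Set G))) [Q.Normal] (hF : Cfsg.generalizedFittingSubgroup (Subgroup.centralizer ({z} : Set G)) = Q) (hQ : Cfsg.IsExtraspecial 2 Q) (hcard : Nat.card Q = 2 ^ 9) (e : (Subgroup.centralizer ({z} : Set G)) ⧸ Q ≃* Cfsg.Omega (ZMod 2) (Cfsg.quadFormPlus 4 (ZMod 2))) (hnwc : ∃ g : G, (∃ hq : g * z * g⁻¹ ∈ Subgroup.centralizer ({z} : Set G), (⟨g * z * g⁻¹, hq⟩ : Subgroup.centralizer ({z} : Set G)) ∈ Q) ∧ g * z * g⁻¹ ≠ z) : ∃ a b c : G, orderOf a = 2 ∧ orderOf b = 2 ∧ orderOf c = 2 ∧ ¬ IsConj a b ∧ ¬ IsConj a c ∧ ¬ IsConj b c ∧ ∀ x : G, orderOf x = 2 → IsConj x a ∨ IsConj x b ∨ IsConj x c := by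
  classical
  obtain ⟨φ, h, hdich⟩ := exists_frame z hz Q hF hQ hcard e
  have hn : ∃ g : G, g * z * g⁻¹ ∈ Q.map (Subgroup.centralizer ({z} : Set G)).subtype ∧
      g * z * g⁻¹ ≠ z := by
    obtain ⟨g, ⟨hq, hm⟩, hne⟩ := hnwc
    exact ⟨g, ⟨_, hm, rfl⟩, hne⟩
  obtain ⟨g, s, hA⟩ := h.exists_at model hn
  obtain ⟨ua, va, yc, vc, hb⟩ := exists_base hA
  obtain ⟨-, haa, haQ, -, -⟩ := base_a hb
  obtain ⟨-, hcc, hcQ, -, -⟩ := base_c hb
  refine ⟨z, ua * va, yc * vc, hz,
    orderOf_eq_prime (by rw [pow_two, haa]) (fun e' => haQ (e' ▸ one_mem _)),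
    orderOf_eq_prime (by rw [pow_two, hcc]) (fun e' => hcQ (e' ▸ one_mem _)),
    not_conj_a hb, not_conj_c hb, not_conj_ac hb hdich, ?_⟩
  -- an involution centralising `z` without four-dimensional displacement
  have main : ∀ x, x * z = z * x → x * x = 1 → x ≠ 1 → ¬ IsFour h x →
      IsConj x z ∨ IsConj x (ua * va) ∨ IsConj x (yc * vc) := by
    intro x hxz hx2 hx1 hnf
    by_cases hmem : x ∈ Q.map (Subgroup.centralizer ({z} : Set G)).subtype
    · left
      by_cases hzx : x = z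
      · rw [hzx]
      · obtain ⟨j, hj⟩ := hA.conj_of_mem hmem hx2 hx1 hzx
        exact (isConj_iff.2 ⟨j, hj⟩).symm
    · obtain ⟨a, hqa, ha0, hxa, -, htr⟩ :=
        (hdich x hxz hmem (by rw [hx2]; exact one_mem _)).resolve_right hnf
      rcases classify_axis hb hxz hx2 hmem hqa ha0 hxa htr with hnr | ⟨c, -, -, hce | hce⟩
      · exact Or.inl (hA.isConj_nearQ hx2 hx1 hnr).symm
      · exact Or.inr (Or.inl (isConj_iff.2 ⟨c, hce⟩))
      · exact Or.inr (Or.inr (isConj_iff.2 ⟨c, hce⟩))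
  intro x hx
  obtain ⟨k, hkz⟩ := S5379.exists_conj_centralizing h.ci h.cent hx
  have hkx : IsConj x (k * x * k⁻¹) := isConj_iff.2 ⟨k, rfl⟩
  have hx2 : k * x * k⁻¹ * (k * x * k⁻¹) = 1 := by
    have : x * x = 1 := by rw [← pow_two, ← hx, pow_orderOf_eq_one]
    rw [show k * x * k⁻¹ * (k * x * k⁻¹) = k * (x * x) * k⁻¹ by group, this]
    group
  have hx1 : k * x * k⁻¹ ≠ 1 := fun e' => by
    rw [conj_eq_one_iff.1 e'] at hx
    simp at hx
  by_cases h4 : IsFour h (k * x * k⁻¹)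
  · obtain ⟨j, hjz, hj4⟩ := reduce hA hdich hkz hx2 h4
    have hjx : IsConj x (j * (k * x * k⁻¹) * j⁻¹) := hkx.trans (isConj_iff.2 ⟨j, rfl⟩)
    exact (main _ hjz
      (by rw [show j * (k * x * k⁻¹) * j⁻¹ * (j * (k * x * k⁻¹) * j⁻¹) =
        j * (k * x * k⁻¹ * (k * x * k⁻¹)) * j⁻¹ by group, hx2]; group)
      (fun e' => hx1 (conj_eq_one_iff.1 e')) hj4).imp hjx.trans (Or.imp hjx.trans hjx.trans)
  · exact (main _ hkz hx2 hx1 h4).imp hkx.trans (Or.imp hkx.trans hkx.trans)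

end Cfsg.Agent.S5378
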