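import Cfsg.Statements.S5388
import Cfsg.Agent.Co1Invol.Quotient

set_option autoImplicit false
open Cfsg

namespace Cfsg.Agent.S5388

/-- The first Conway group, the automorphism group of the Leech lattice modulo its centre, satisfies the large extraspecial hypothesis of plus type in dimension 8: it has an involution z whose centralizer C has generalized Fitting subgroup Q extraspecial of order 2^9, with C/Q isomorphic to the commutator subgroup of the isometry group of the hyperbolic quadratic form in dimension 8 over the field with two elements, and some conjugate of z other than z lies in Q. -/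
theorem result : ∃ z : Cfsg.Spor.Co1, orderOf z = 2 ∧ ∃ (Q : Subgroup (Subgroup.centralizer ({z} : Set Cfsg.Spor.Co1))) (_ : Q.Normal), Cfsg.generalizedFittingSubgroup (Subgroup.centralizer ({z} : Set Cfsg.Spor.Co1)) = Q ∧ Cfsg.IsExtraspecial 2 Q ∧ Nat.card Q = 2 ^ 9 ∧ Nonempty ((Subgroup.centralizer ({z} : Set Cfsg.Spor.Co1)) ⧸ Q ≃* Cfsg.Omega (ZMod 2) (Cfsg.quadFormPlus 4 (ZMod 2))) ∧ ∃ g : Cfsg.Spor.Co1, (∃ hq : g * z * g⁻¹ ∈ Subgroup.centralizer ({z} : Set Cfsg.Spor.Co1), (⟨g * z * g⁻¹, hq⟩ : Subgroup.centralizer ({z} : Set Cfsg.Spor.Co1)) ∈ Q) ∧ g * z * g⁻¹ ≠ z := by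
  have : Finite ↥Cfsg.Co0 := Leech.finite_Co0
  have : Fact (Nat.Prime 2) := ⟨Nat.prime_two⟩
  have : Finite ↥Co2Invol.rho.ker := Nat.finite_of_card_ne_zero (by rw [Co2Invol.card_ker]; norm_num)
  have hz : orderOf Co1Invol.zBar = 2 := by
    refine orderOf_eq_prime ?_ fun h => ?_
    · rw [pow_two, Co1Invol.zBar, ← QuotientGroup.mk_mul, Co2Invol.invT_sq]; rfl
    · have h' : Co1Invol.qHom Co2Invol.invTKer = 1 := Subtype.ext h
      rw [← map_one Co1Invol.qHom] at h'
      exact Co2Invol.invTKer_ne_one (Co1Invol.qHom_injective h')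
  have := Co1Invol.kerBar_normal
  refine ⟨Co1Invol.zBar, hz, Co1Invol.kerBar, Co1Invol.kerBar_normal, ?_, ?_, ?_, ⟨?_⟩, ?_⟩
  · rw [← Co1Invol.pCore_eq]
    refine Components.genFitting_eq_pCore_of_centralizer_le ?_
    rw [Co1Invol.pCore_eq]
    exact Co1Invol.centralizer_kerBar
  · exact LargeExtra.isExtraspecial_map_equiv Co2Invol.isExtraspecial_ker Co1Invol.qEquiv
  · rw [← Nat.card_congr Co1Invol.qEquiv.toEquiv, Co2Invol.card_ker]
  · exact (QuotientGroup.quotientMulEquivOfEq Co1Invol.barHom_ker.symm).trans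
      (QuotientGroup.quotientKerEquivOfSurjective _ Co1Invol.barHom_surjective)
  · obtain ⟨g, q, hg, hne⟩ := Co1Invol.exists_conjugate
    refine ⟨g, ⟨?_, ?_⟩, hne⟩
    · rw [hg]; exact (Co1Invol.qHom q).2
    · rw [← Co1Invol.qHom_range]
      exact ⟨q, Subtype.ext hg.symm⟩

end Cfsg.Agent.S5388
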