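import Cfsg.Statements.S4020
import Cfsg.Agent.ConjPSub.Exponent
import Cfsg.Agent.ConjPSub.Inverting
-- import your own Cfsg.Agent.* helpers here

set_option autoImplicit false
open Cfsg

namespace Cfsg.Agent.S4020

open Cfsg.Agent.ConjPSub

theorem quat_two_facts : (∀ g : QuaternionGroup 2, g ^ 4 = 1) ∧
    ∀ g h : QuaternionGroup 2, g ^ 2 = 1 → h ^ 2 = 1 → g ≠ 1 → h ≠ 1 → g = h := by
  refine ⟨?_, ?_⟩ <;> decide +kernel

theorem mulComm_of_square {G : Type*} [Group G] (S : Subgroup G) (h : ∀ s ∈ S, s ^ 2 = 1) :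
    IsMulCommutative ↥S := by
  refine ⟨⟨fun a b => Subtype.ext ?_⟩⟩
  have inv : ∀ s ∈ S, s⁻¹ = s := fun s hs =>
    inv_eq_of_mul_eq_one_right (by rw [← pow_two]; exact h s hs)
  show (a : G) * b = (b : G) * a
  rw [← inv _ (S.mul_mem a.2 b.2), mul_inv_rev, inv _ a.2, inv _ b.2]

/-- Let G be a finite group in which, for every prime p, any two p-subgroups of the same order are conjugate. Then every Sylow subgroup of G is cyclic, elementary abelian, or a quaternion group of order 8. -/
theorem result {G : Type*} [Group G] [Finite G]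
    (hD : ∀ p : ℕ, p.Prime → ∀ H K : Subgroup G, IsPGroup p H → IsPGroup p K → Nat.card H = Nat.card K →
      ∃ g : G, K = H.map (MulAut.conj g).toMonoidHom) {p : ℕ} [Fact p.Prime] (P : Sylow p G) :
    IsCyclic P ∨ Cfsg.IsElementaryAbelian p (P : Subgroup G) ∨ Nonempty ((P : Subgroup G) ≃* QuaternionGroup 2) := by
  rcases shape (hD p Fact.out) (P : Subgroup G) P.2 with h | h | ⟨-, hq⟩
  · exact Or.inl h
  swap
  · exact Or.inr (Or.inr hq)
  by_cases hc : IsMulCommutative ↥(P : Subgroup G)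
  · exact Or.inr (Or.inl ⟨hc, h⟩)
  exfalso
  have hp2 : p ≠ 2 := by
    rintro rfl
    exact hc (mulComm_of_square _ h)
  refine no_nonabelian_cubed ((Fact.out : p.Prime).odd_of_ne_two hp2) P
    (cubed (hD p Fact.out) (P : Subgroup G) P.2 h hc) h hc (hD p Fact.out) fun S => ?_
  haveI : Fact (Nat.Prime 2) := ⟨Nat.prime_two⟩
  rcases shape (hD 2 Nat.prime_two) (S : Subgroup G) S.2 with h2 | h2 | ⟨-, ⟨e⟩⟩
  · exact Or.inl h2
  · exact Or.inr (Or.inl h2)
  refine Or.inr (Or.inr ⟨fun s hs => ?_, fun s hs t ht hs2 ht2 hs1 ht1 => ?_⟩)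
  · have := congrArg (fun x : ↥(S : Subgroup G) => (x : G))
      (e.injective (show e ((⟨s, hs⟩ : ↥(S : Subgroup G)) ^ 4) = e 1 by
        rw [map_pow, map_one]; exact quat_two_facts.1 _))
    simpa using this
  · have := e.injective (quat_two_facts.2 (e ⟨s, hs⟩) (e ⟨t, ht⟩)
      (by rw [← map_pow, ← map_one e]; exact congrArg e (Subtype.ext (by simpa using hs2)))
      (by rw [← map_pow, ← map_one e]; exact congrArg e (Subtype.ext (by simpa using ht2)))
      (fun he => hs1 (congrArg Subtype.val (e.injective (he.trans (map_one e).symm))))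
      (fun he => ht1 (congrArg Subtype.val (e.injective (he.trans (map_one e).symm)))))
    exact congrArg Subtype.val this

end Cfsg.Agent.S4020
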