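import Cfsg.Statements.S0992
import Cfsg.Agent.SmallGroups.Basic

set_option autoImplicit false
open Cfsg

namespace Cfsg.Agent.S0992
open Subgroup

theorem card_mulAut_dvd_six (V : Type*) [Group V] [Finite V] (hV : Nat.card V = 4) :
    Nat.card (MulAut V) ∣ 6 := by
  classical
  have := Fintype.ofFinite V
  let f : MulAut V →* Equiv.Perm {x : V // x ≠ 1} :=
  { toFun := fun e => e.toEquiv.subtypeEquiv (fun x => not_congr (map_eq_one_iff e e.injective).symm)
    map_one' := Equiv.ext fun x => rfl
    map_mul' := fun a b => Equiv.ext fun x => rfl }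
  have hf : Function.Injective f := by
    intro a b h
    ext x
    by_cases hx : x = 1
    · simp [hx]
    · exact congrArg Subtype.val (Equiv.congr_fun h ⟨x, hx⟩)
  refine (Subgroup.card_dvd_of_injective f hf).trans ?_
  rw [Nat.card_perm, Nat.card_eq_fintype_card, Fintype.card_subtype_compl,
    Fintype.card_subtype_eq, ← Nat.card_eq_fintype_card, hV]
  rfl

/-- Let G be a non-abelian finite simple group of even order not divisible by 8, and T a Sylow 2-subgroup. Then T is a Klein four-group and the centralizer of T has index 3 in the normalizer of T. -/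
theorem result {G : Type*} [Group G] [Finite G] [IsSimpleGroup G] (hG : ¬ IsMulCommutative G) (h2 : Even (Nat.card G)) (h8 : ¬ 8 ∣ Nat.card G) (T : Sylow 2 G) : IsKleinFour ↥(T : Subgroup G) ∧ (Subgroup.centralizer ((T : Subgroup G) : Set G)).relIndex (Subgroup.normalizer ((T : Subgroup G) : Set G)) = 3 := by
  have h4 : 4 ∣ Nat.card G := SmallGroups.four_dvd_card hG h2.two_dvd
  obtain ⟨m, hm⟩ := h4
  have hodd : ¬ 2 ∣ m := fun ⟨k, hk⟩ => h8 ⟨k, by omega⟩
  have hT : Nat.card ↥(T : Subgroup G) = 4 :=
    SmallGroups.card_sylow_subgroup (a := 2) (by rw [hm]; norm_num) hodd T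
  have hnc := SmallGroups.not_isCyclic_sylow_two hG h2.two_dvd T
  have hexp : ∀ x : ↥(T : Subgroup G), x ^ 2 = 1 := by
    intro x
    have hd : orderOf x ∣ 2 ^ 2 := by
      have := orderOf_dvd_natCard x; rwa [hT] at this
    obtain ⟨i, hi, hx⟩ := (Nat.dvd_prime_pow Nat.prime_two).mp hd
    interval_cases i
    · rw [orderOf_eq_one_iff.mp hx, one_pow]
    · exact orderOf_dvd_iff_pow_eq_one.mp (by rw [hx]; norm_num)
    · exact absurd (isCyclic_of_orderOf_eq_card x (by rw [hx, hT]; norm_num)) hnc
  have : Nontrivial ↥(T : Subgroup G) := Finite.one_lt_card_iff_nontrivial.mp (by omega)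
  have hK : IsKleinFour ↥(T : Subgroup G) :=
    ⟨hT, (Monoid.exponent_eq_prime_iff Nat.prime_two).mpr fun x hx => orderOf_eq_prime (hexp x) hx⟩
  refine ⟨hK, ?_⟩
  have : IsMulCommutative ↥(T : Subgroup G) := IsKleinFour.isMulCommutative
  have h6 := (SmallGroups.relIndex_centralizer_dvd (T : Subgroup G)).trans (card_mulAut_dvd_six _ hT)
  have hco := SmallGroups.relIndex_centralizer_coprime T
  have hne : (centralizer ((T : Subgroup G) : Set G)).relIndex (normalizer ((T : Subgroup G) : Set G)) ≠ 1 :=
    fun h => SmallGroups.not_normalizer_le_centralizer hG h2.two_dvd T (relIndex_eq_one.mp h)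
  have hle := Nat.le_of_dvd (by norm_num) h6
  interval_cases hr : (centralizer ((T : Subgroup G) : Set G)).relIndex (normalizer ((T : Subgroup G) : Set G)) <;> omega

end Cfsg.Agent.S0992
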