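import Cfsg.Statements.S4500
import Cfsg.Agent.BrauerPairs.BrauerFeit
import Cfsg.Agent.Block.Idempotent
import Cfsg.Agent.Block.Degrees
import Cfsg.Agent.Char.Linear
import Cfsg.Agent.Char.Integrality
import Cfsg.Agent.Char.Burnside
import Cfsg.Agent.Brauer.WeakOrth
import Cfsg.Agent.BlkChar.PModular

set_option autoImplicit false
open Cfsg

namespace Cfsg.Agent.S4500

theorem linear_of_solvable {G : Type*} [Group G] [Finite G] [Nontrivial G] (hs : Group.IsSolvable G) :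
    ∃ χ : Cfsg.IrrCharacter G, (χ : G → ℂ) ≠ (fun _ => 1) ∧ (χ : G → ℂ) 1 = 1 := by
  haveI := hs
  have hlt : commutator G < ⊤ := Group.IsSolvable.commutator_lt_top_of_nontrivial (G := G)
  have hidx : 1 < (commutator G).index := by
    refine lt_of_le_of_ne (Nat.one_le_iff_ne_zero.2 Subgroup.index_ne_zero_of_finite) fun h => ?_
    exact hlt.ne (Subgroup.index_eq_one.1 h.symm)
  rw [← Char.card_linear_irr] at hidx
  haveI := Finite.one_lt_card_iff_nontrivial.1 hidx
  obtain ⟨χ, hχ⟩ := exists_ne (⟨Char.trivialIrr G, rfl⟩ :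
    {χ : Cfsg.IrrCharacter G // (χ : G → ℂ) 1 = 1})
  exact ⟨χ.1, fun h => hχ (Subtype.ext (Subtype.ext h)), χ.2⟩

theorem aux {G : Type*} [Group G] [Finite G] [Nontrivial G] (p q r a b c : ℕ) (hp : p.Prime)
    (hq : q.Prime) (hr : r.Prime) (hpq : p ≠ q) (hpr : p ≠ r) (hqr : q ≠ r) (ha : a ≤ 2)
    (hG : Nat.card G = p ^ a * q ^ b * r ^ c) :
    ∃ χ : Cfsg.IrrCharacter G, (χ : G → ℂ) ≠ (fun _ => 1) ∧
      ∃ k : ℕ, Cfsg.charDegree (χ : G → ℂ) = q ^ k := by
  classical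
  haveI := Fintype.ofFinite G
  rcases Nat.eq_zero_or_pos a with rfl | ha0
  · rw [pow_zero, one_mul] at hG
    have hs : Group.IsSolvable G := Char.solvable_of_card_eq_pow_mul_pow q r hq hr _ hG
      fun s hs hd => by
        rcases hs.dvd_mul.1 hd with h | h
        · exact Or.inl ((Nat.prime_dvd_prime_iff_eq hs hq).1 (hs.dvd_of_dvd_pow h))
        · exact Or.inr ((Nat.prime_dvd_prime_iff_eq hs hr).1 (hs.dvd_of_dvd_pow h))
    obtain ⟨χ, hne, h1⟩ := linear_of_solvable hs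
    refine ⟨χ, hne, 0, ?_⟩
    have := (Block.irr_one_eq_charDegree χ.2).1
    rw [h1] at this
    rw [pow_zero]
    exact_mod_cast this.symm
  haveI : Fact p.Prime := ⟨hp⟩
  obtain ⟨M, hM⟩ : ∃ M : Ideal Cfsg.AlgInt, Cfsg.IsPModular p M := BlkChar.exists_isPModular p hp
  haveI : M.IsPrime := hM.2.1.isPrime
  have hB : Cfsg.IsPBlock M (Cfsg.principalBlock M G) := ⟨Char.trivialIrr G, rfl⟩
  have h1mem : Char.trivialIrr G ∈ Cfsg.principalBlock M G := Block.sameBlock_refl _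
  have hvG : (Nat.card G).factorization p = a := by
    have hq0 : (q ^ b).factorization p = 0 := by
      rw [hq.factorization_pow, Finsupp.single_eq_of_ne hpq]
    have hr0 : (r ^ c).factorization p = 0 := by
      rw [hr.factorization_pow, Finsupp.single_eq_of_ne hpr]
    rw [hG, Nat.factorization_mul (mul_ne_zero (pow_ne_zero _ hp.ne_zero) (pow_ne_zero _ hq.ne_zero))
      (pow_ne_zero _ hr.ne_zero), Nat.factorization_mul (pow_ne_zero _ hp.ne_zero)
      (pow_ne_zero _ hq.ne_zero), Finsupp.add_apply, Finsupp.add_apply, hq0, hr0,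
      hp.factorization_pow, Finsupp.single_eq_same, add_zero, add_zero]
  have hmin : sInf ((fun χ : Cfsg.IrrCharacter G => (Cfsg.charDegree (χ : G → ℂ)).factorization p) ''
      Cfsg.principalBlock M G) = 0 := by
    refine Nat.le_zero.1 (Nat.sInf_le ⟨_, h1mem, ?_⟩)
    have h := (Block.irr_one_eq_charDegree (Char.trivialIrr G).2).1
    have h1 : Cfsg.charDegree ((Char.trivialIrr G : Cfsg.IrrCharacter G) : G → ℂ) = 1 := by
      have e : ((Char.trivialIrr G : Cfsg.IrrCharacter G) : G → ℂ) 1 = 1 := rfl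
      rw [e] at h
      exact_mod_cast h.symm
    simp [h1]
  have hpd : ∀ χ ∈ Cfsg.principalBlock M G, ¬ p ∣ Cfsg.charDegree (χ : G → ℂ) := by
    intro χ hχ hdvd
    have hpos := hp.factorization_pos_of_dvd (Block.irr_one_eq_charDegree χ.2).2.1.ne' hdvd
    have h := BrauerPairs.height_le hM hB hχ (by rw [Cfsg.blockHeight, hmin]; omega)
    rw [Cfsg.blockHeight, Cfsg.blockDefect, hmin, hvG] at h
    omega
  obtain ⟨y, hy⟩ : ∃ y : G, orderOf y = p :=
    exists_prime_orderOf_dvd_card' p (hG ▸ Dvd.dvd.mul_right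
      (Dvd.dvd.mul_right (dvd_pow_self p ha0.ne') _) _)
  have horth : ∑ᶠ χ ∈ Cfsg.principalBlock M G, (χ : G → ℂ) 1 * (starRingEnd ℂ) ((χ : G → ℂ) y) = 0 :=
    Brauer.weakOrth_of_integral hM _ (Block.blockCoeff_memLocalRing hB)
      (by simpa using hp.ne_one) (by rw [hy])
  obtain ⟨χ, hχ, hne, hrd⟩ : ∃ χ ∈ Cfsg.principalBlock M G,
      (χ : G → ℂ) ≠ (fun _ => 1) ∧ ¬ r ∣ Cfsg.charDegree (χ : G → ℂ) := by
    by_contra hall
    push Not at hall
    rw [finsum_mem_eq_toFinset_sum, ← Finset.add_sum_erase _ _ (Set.mem_toFinset.2 h1mem)] at horth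
    have e1 : ((Char.trivialIrr G : Cfsg.IrrCharacter G) : G → ℂ) = fun _ => 1 := rfl
    simp only [e1, map_one, mul_one] at horth
    have hr0 : (r : ℂ) ≠ 0 := Nat.cast_ne_zero.2 hr.ne_zero
    have hint : IsIntegral ℤ (((1 : ℕ) : ℂ) / (r : ℂ)) := by
      have e2 : ((1 : ℕ) : ℂ) / (r : ℂ) = -∑ χ ∈ (Cfsg.principalBlock M G).toFinset.erase
          (Char.trivialIrr G), ((Cfsg.charDegree (χ : G → ℂ) / r : ℕ) : ℂ) *
            (starRingEnd ℂ) ((χ : G → ℂ) y) := by
        rw [div_eq_iff hr0, neg_mul, Finset.sum_mul]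
        rw [← eq_neg_iff_add_eq_zero] at horth
        rw [Nat.cast_one]
        refine horth.trans (neg_inj.2 (Finset.sum_congr rfl fun χ hχ => ?_))
        obtain ⟨hne, hmem⟩ := Finset.mem_erase.1 hχ
        have hd := hall χ (Set.mem_toFinset.1 hmem) fun h => hne (Subtype.ext h)
        rw [(Block.irr_one_eq_charDegree χ.2).1]
        conv_lhs => rw [← Nat.div_mul_cancel hd]
        push_cast
        ring
      rw [e2]
      refine (IsIntegral.sum _ fun χ _ => IsIntegral.mul (Char.isIntegral_of_nat _) ?_).neg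
      rw [← Char.irr_inv χ.2]
      exact Char.isCharacter_isIntegral (Char.isCharacter_of_irr χ.2) _
    exact hr.one_lt.ne' (Nat.dvd_one.1 (Char.dvd_of_isIntegral_div hr.ne_zero hint))
  refine ⟨χ, hne, ?_⟩
  set d := Cfsg.charDegree (χ : G → ℂ)
  have hd : d ∣ Nat.card G := (Block.irr_one_eq_charDegree χ.2).2.2
  rw [hG, mul_assoc] at hd
  have hd' : d ∣ q ^ b := by
    have h1 : d ∣ q ^ b * r ^ c :=
      (Nat.Coprime.pow_right a ((hp.coprime_iff_not_dvd.2 (hpd χ hχ)).symm)).dvd_of_dvd_mul_left hd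
    exact (Nat.Coprime.pow_right c ((hr.coprime_iff_not_dvd.2 hrd).symm)).dvd_of_dvd_mul_right h1
  obtain ⟨k, -, hk⟩ := (Nat.dvd_prime_pow hq).1 hd'
  exact ⟨k, hk⟩


/-- Let G be a non-trivial finite group of order p^a · q^b · r^c with p, q, r distinct primes and a ≤ 2. Then G has a non-principal irreducible character whose degree is a power of q, and a non-principal irreducible character whose degree is a power of r; the power may be the zeroth, so a non-principal linear character serves for both. -/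
theorem result {G : Type*} [Group G] [Finite G] [Nontrivial G] (p q r a b c : ℕ) (hp : p.Prime) (hq : q.Prime) (hr : r.Prime) (hpq : p ≠ q) (hpr : p ≠ r) (hqr : q ≠ r) (ha : a ≤ 2) (hG : Nat.card G = p ^ a * q ^ b * r ^ c) : (∃ χ : Cfsg.IrrCharacter G, (χ : G → ℂ) ≠ (fun _ => 1) ∧ ∃ k : ℕ, Cfsg.charDegree (χ : G → ℂ) = q ^ k) ∧ ∃ χ : Cfsg.IrrCharacter G, (χ : G → ℂ) ≠ (fun _ => 1) ∧ ∃ k : ℕ, Cfsg.charDegree (χ : G → ℂ) = r ^ k := by
  obtain ⟨h1, h2⟩ : (∃ χ : IrrCharacter G, (χ : G → ℂ) ≠ (fun _ => 1) ∧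
      ∃ k : ℕ, charDegree (χ : G → ℂ) = q ^ k) ∧ (∃ χ : IrrCharacter G, (χ : G → ℂ) ≠ (fun _ => 1) ∧
      ∃ k : ℕ, charDegree (χ : G → ℂ) = r ^ k) :=
    ⟨aux p q r a b c hp hq hr hpq hpr hqr ha hG,
      aux p r q a c b hp hr hq hpr hpq (Ne.symm hqr) ha (by rw [hG]; ring)⟩
  exact ⟨h1, h2⟩

end Cfsg.Agent.S4500
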