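import Cfsg.Statements.S1147
import Cfsg.Agent.SuzukiZ.Odd

set_option autoImplicit false
open Cfsg

namespace Cfsg.Agent.S1147

/-- Let a finite simple Zassenhaus group `G` on `Ω` have a normal subgroup `U` of `G_a`, regular on `Ω` minus `a`, which is a non-abelian 2-group. Then `|Ω| = 2^(2n) + 1` with `n` odd, `n > 1`, a two-point stabiliser `G_a ⊓ G_b` is cyclic of order `2^n - 1`, and `U` is isomorphic to the type-A group over a field with `2^n` elements for some field automorphism `φ`. -/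
theorem result {G Ω : Type*} [Group G] [Finite G] [MulAction G Ω] [Finite Ω]
    (hZ : Cfsg.IsZassenhausGroup G Ω) [IsSimpleGroup G] {a b : Ω} (hab : a ≠ b)
    (U : Subgroup G) (hUle : U ≤ MulAction.stabilizer G a)
    (hUn : ∀ h ∈ MulAction.stabilizer G a, ∀ u ∈ U, h * u * h⁻¹ ∈ U)
    (hreg : ∀ c d : Ω, c ≠ a → d ≠ a → ∃! u : U, (u : G) • c = d)
    (hU2 : IsPGroup 2 U) (hUna : ∃ u ∈ U, ∃ v ∈ U, u * v ≠ v * u) :
    ∃ n : ℕ, Odd n ∧ 1 < n ∧ Nat.card Ω = 2 ^ (2 * n) + 1 ∧
      IsCyclic ↥(MulAction.stabilizer G a ⊓ MulAction.stabilizer G b) ∧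
      Nat.card ↥(MulAction.stabilizer G a ⊓ MulAction.stabilizer G b) = 2 ^ n - 1 ∧
      ∃ (F : Type) (_ : Field F) (_ : Fintype F) (φ : F ≃+* F), Fintype.card F = 2 ^ n ∧
        Nonempty (U ≃* Cfsg.suzukiTypeA F (φ : F →+* F)) := by
  classical
  letI := Fintype.ofFinite G
  have hz := PermB.zData_of_isZassenhausGroup hZ
  obtain ⟨s, hs, hsa, -⟩ := PermB.ZData.exists_involution_swap hz hab
  subst hsa
  have hne1 : ∃ u ∈ U, u ≠ (1 : G) := by
    obtain ⟨u, hu, v, hv, huv⟩ := hUna
    exact ⟨u, hu, fun e => huv (by rw [e, one_mul, mul_one])⟩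
  have h : SuzukiZ.Setup G a s U :=
    { z := hz
      tsq := by rw [← sq, ← hs, pow_orderOf_eq_one]
      tne := fun e => by rw [e, orderOf_one] at hs; omega
      tmov := fun e => hab e.symm
      le := hUle
      normal := hUn
      reg := hreg
      pgroup := hU2
      noncomm := hUna
      fix2 := hZ.2.2.2.1
      perfect := by
        rcases (inferInstance : (commutator G).Normal).eq_bot_or_eq_top with e | e
        · exfalso
          obtain ⟨u, _, v, _, huv⟩ := hUna
          refine huv (commutatorElement_eq_one_iff_mul_comm.1 ((Subgroup.eq_bot_iff_forall _).1 e _ ?_))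
          exact Subgroup.commutator_mem_commutator (Subgroup.mem_top u) (Subgroup.mem_top v)
        · exact e }
  obtain ⟨n, hn2, hn⟩ := h.exists_q_eq
  have hQ := h.card_U_sq
  have hodd := h.odd_exponent hn
  have hD := h.card_D_eq
  have hcyc := h.D_cyclic
  obtain ⟨F, iF, iT, φ, hF, -, -, hiso⟩ := h.exists_model_A hQ
  refine ⟨n, hodd, by omega, ?_, hcyc, ?_, F, iF, iT, φ, hF.trans hn, hiso⟩
  · rw [← h.card_omega, hQ, hn, ← pow_mul, mul_comm]
  · rw [hn] at hD
    exact Nat.eq_sub_of_add_eq hD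

end Cfsg.Agent.S1147
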