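import Cfsg.Statements.S4292
import Cfsg.Agent.FGS.FrobLift

set_option autoImplicit false
open Cfsg

namespace Cfsg.Agent.S4292

open Cfsg.Agent.FGS.FC

theorem isFC_of_injective {A B : Type*} [Group A] [Finite A] [Nontrivial A] [Group B] [Finite B] (h : IsFC B) (ι : A →* B)
    (hι : Function.Injective ι) : IsFC A := by
  obtain ⟨r, -, -, V, _, _, _, _, f, hf⟩ := exists_module_of_isFC h
  exact isFC_of_fpf (f.comp ι) fun a ha v hv => hf (ι a) (fun h1 => ha (hι (by rw [h1, map_one]))) v hv

theorem isFC_prod {A B : Type*} [Group A] [Finite A] [Nontrivial A] [Group B] [Finite B] [Nontrivial B]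
    (hA : IsFC A) (hB : IsFC B) (hcop : (Nat.card A).Coprime (Nat.card B)) : IsFC (A × B) := by
  obtain ⟨BA, hBA⟩ := exists_fpf_large hA
  obtain ⟨BB, hBB⟩ := exists_fpf_large hB
  obtain ⟨l, hlge, hl⟩ := Nat.exists_infinite_primes (max BA BB + 1)
  haveI := Fact.mk hl
  obtain ⟨V, _, _, _, _, f, hf⟩ := hBA l hl (by omega)
  obtain ⟨W, _, _, _, _, g, hg⟩ := hBB l hl (by omega)
  haveI : Finite (W →ₗ[ZMod l] V) := Finite.of_injective _ DFunLike.coe_injective
  haveI : Nontrivial (W →ₗ[ZMod l] V) := by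
    obtain ⟨w, hw⟩ := exists_ne (0 : W)
    obtain ⟨v, hv⟩ := exists_ne (0 : V)
    obtain ⟨φ, hφ⟩ : ∃ φ : Module.Dual (ZMod l) W, φ w ≠ 0 := by
      by_contra h
      push Not at h
      exact hw (Module.forall_dual_apply_eq_zero_iff (ZMod l) w |>.1 h)
    refine ⟨φ.smulRight v, 0, fun h => ?_⟩
    have := congrArg (fun ψ : W →ₗ[ZMod l] V => ψ w) h
    simp only [LinearMap.smulRight_apply, LinearMap.zero_apply, smul_eq_zero] at this
    exact this.elim hφ hv
  let F : A × B →* AddMonoid.End (W →ₗ[ZMod l] V) :=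
    { toFun := fun ab => AddMonoidHom.mk' (fun ψ =>
          ((f ab.1).toZModLinearMap l).comp (ψ.comp ((g ab.2⁻¹).toZModLinearMap l)))
        (fun ψ χ => by rw [LinearMap.add_comp, LinearMap.comp_add])
      map_one' := AddMonoidHom.ext fun ψ => LinearMap.ext fun w => by
        change f (1 : A) (ψ (g (1 : B)⁻¹ w)) = ψ w
        rw [inv_one, map_one, map_one]; rfl
      map_mul' := fun x y => AddMonoidHom.ext fun ψ => LinearMap.ext fun w => by
        change f (x.1 * y.1) (ψ (g (x.2 * y.2)⁻¹ w)) = f x.1 (f y.1 (ψ (g y.2⁻¹ (g x.2⁻¹ w))))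
        rw [map_mul, mul_inv_rev, map_mul]; rfl }
  refine isFC_of_fpf F ?_
  intro ab hab ψ hψ
  have key : ∀ n : ℕ, F (ab ^ n) ψ = ψ := by
    intro n
    induction n with
    | zero => rw [pow_zero, map_one]; rfl
    | succ n ih => rw [pow_succ, map_mul]; change F (ab ^ n) (F ab ψ) = ψ; rw [hψ, ih]
  refine LinearMap.ext fun w => ?_
  by_cases ha : ab.1 = 1
  · have hb : ab.2 ≠ 1 := fun hb => hab (Prod.ext ha hb)
    have hinj : Function.Injective ((g ab.2⁻¹) - 1 : AddMonoid.End W) := by
      refine (injective_iff_map_eq_zero _).2 fun u hu => hg ab.2⁻¹ (inv_ne_one.2 hb) u ?_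
      exact sub_eq_zero.1 hu
    obtain ⟨u, rfl⟩ := Finite.surjective_of_injective hinj w
    have h1 := congrArg (fun χ : W →ₗ[ZMod l] V => χ u) hψ
    change f ab.1 (ψ (g ab.2⁻¹ u)) = ψ u at h1
    rw [ha, map_one] at h1
    change ψ (g ab.2⁻¹ u - u) = 0
    rw [map_sub, sub_eq_zero]
    exact h1
  · have hd : (orderOf ab.2).Coprime (orderOf ab.1) :=
      (hcop.coprime_dvd_left (orderOf_dvd_natCard _)).coprime_dvd_right (orderOf_dvd_natCard _) |>.symm
    have hne : ab.1 ^ orderOf ab.2 ≠ 1 := fun h => by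
      have h1 := Nat.eq_one_of_dvd_coprimes hd (orderOf_dvd_of_pow_eq_one h) dvd_rfl
      exact ha (orderOf_eq_one_iff.1 h1)
    refine hf _ hne _ ?_
    have h1 := congrArg (fun χ : W →ₗ[ZMod l] V => χ w) (key (orderOf ab.2))
    change f (ab ^ orderOf ab.2).1 (ψ (g ((ab ^ orderOf ab.2).2)⁻¹ w)) = ψ w at h1
    rw [Prod.pow_fst, Prod.pow_snd, pow_orderOf_eq_one, inv_one, map_one] at h1
    exact h1

/-- Let A and B be nontrivial finite groups. Then the direct product A × B occurs as a Frobenius complement if and only if A and B both occur as Frobenius complements and the orders of A and B are coprime. -/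
theorem result {A B : Type*} [Group A] [Finite A] [Nontrivial A] [Group B] [Finite B] [Nontrivial B] :
    (∃ (L : Type) (_ : Group L) (_ : Finite L) (H : Subgroup L), Cfsg.IsFrobeniusComplement H ∧ Nonempty ((A × B) ≃* H)) ↔
    ((∃ (L : Type) (_ : Group L) (_ : Finite L) (H : Subgroup L), Cfsg.IsFrobeniusComplement H ∧ Nonempty (A ≃* H)) ∧
     (∃ (L : Type) (_ : Group L) (_ : Finite L) (H : Subgroup L), Cfsg.IsFrobeniusComplement H ∧ Nonempty (B ≃* H)) ∧
     (Nat.card A).Coprime (Nat.card B)) := by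
  constructor
  · rintro ⟨L, _, _, H, hH, ⟨e⟩⟩
    refine ⟨?_, ?_, ?_⟩
    · exact isFC_of_injective ⟨L, inferInstance, inferInstance, H, hH, ⟨e⟩⟩ (MonoidHom.inl A B)
        (fun a b h => congrArg Prod.fst h)
    · exact isFC_of_injective ⟨L, inferInstance, inferInstance, H, hH, ⟨e⟩⟩ (MonoidHom.inr A B)
        (fun a b h => congrArg Prod.snd h)
    · refine Nat.coprime_of_dvd fun p hp hpA hpB => ?_
      haveI := Fact.mk hp
      obtain ⟨a, ha⟩ := exists_prime_orderOf_dvd_card' (G := A) p hpA
      obtain ⟨b, hb⟩ := exists_prime_orderOf_dvd_card' (G := B) p hpB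
      set ψ : Subgroup.zpowers a × Subgroup.zpowers b →* L :=
        H.subtype.comp (e.toMonoidHom.comp ((Subgroup.zpowers a).subtype.prodMap (Subgroup.zpowers b).subtype))
      have hψ : Function.Injective ψ := H.subtype_injective.comp
        (e.injective.comp (Function.Injective.prodMap (Subgroup.subtype_injective _) (Subgroup.subtype_injective _)))
      have hcomm : IsMulCommutative ψ.range := ⟨⟨by
        rintro ⟨_, u, rfl⟩ ⟨_, v, rfl⟩
        apply Subtype.ext
        change ψ u * ψ v = ψ v * ψ u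
        rw [← map_mul, ← map_mul]
        congr 1
        exact Prod.ext (mul_comm' u.1 v.1) (mul_comm' u.2 v.2)⟩⟩
      haveI := Cfsg.Agent.FGS.FC.isCyclic_of_isMulCommutative hH ψ.range
        (by rintro _ ⟨u, rfl⟩; exact (e _).2) hcomm
      haveI : IsCyclic (Subgroup.zpowers a × Subgroup.zpowers b) :=
        isCyclic_of_injective (MonoidHom.ofInjective hψ).toMonoidHom (MulEquiv.injective _)
      haveI := Fintype.ofFinite (Subgroup.zpowers a × Subgroup.zpowers b)
      classical
      have h1 := IsCyclic.card_pow_eq_one_le (α := Subgroup.zpowers a × Subgroup.zpowers b) hp.pos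
      have hall : ∀ u : Subgroup.zpowers a × Subgroup.zpowers b, u ^ p = 1 := fun u =>
        Prod.ext (by
          have : u.1 ^ Nat.card (Subgroup.zpowers a) = 1 := pow_card_eq_one'
          rw [Nat.card_zpowers, ha] at this; exact this) (by
          have : u.2 ^ Nat.card (Subgroup.zpowers b) = 1 := pow_card_eq_one'
          rw [Nat.card_zpowers, hb] at this; exact this)
      simp only [hall, Finset.filter_true, Finset.card_univ, ← Nat.card_eq_fintype_card, Nat.card_prod,
        Nat.card_zpowers, ha, hb] at h1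
      have := hp.two_le
      nlinarith
  · rintro ⟨hA, hB, hcop⟩
    exact isFC_prod hA hB hcop

end Cfsg.Agent.S4292
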