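import Cfsg.Statements.S3359
import Cfsg.Agent.PermP.ZassFC

set_option autoImplicit false
open Cfsg

namespace Cfsg.Agent.S3359

/-- Structure of non-solvable Frobenius complements. Let G be a finite non-solvable group that occurs as a Frobenius complement. Then G has a normal subgroup G₀ of index 1 or 2 which is the direct product of a subgroup isomorphic to SL(2,5) and a subgroup M of order prime to 30 all of whose Sylow subgroups are cyclic. -/
theorem result {G : Type*} [Group G] [Finite G] (hns : ¬ Group.IsSolvable G)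
    (hFC : ∃ (L : Type) (_ : Group L) (_ : Finite L) (H : Subgroup L), Cfsg.IsFrobeniusComplement H ∧ Nonempty (G ≃* H)) :
    ∃ G₀ : Subgroup G, G₀.Normal ∧ (G₀.index = 1 ∨ G₀.index = 2) ∧
      ∃ S M : Subgroup G, S ⊔ M = G₀ ∧ S ⊓ M = ⊥ ∧ (∀ s ∈ S, ∀ x ∈ M, s * x = x * s) ∧
        Nonempty (S ≃* Matrix.SpecialLinearGroup (Fin 2) (ZMod 5)) ∧
        (∀ (p : ℕ) [Fact p.Prime] (P : Sylow p M), IsCyclic P) ∧ (Nat.card M).Coprime 30 := by
  classical
  obtain ⟨D⟩ := Cfsg.Agent.PermP.Zass.exists_slData (G := G) hFC hns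
  obtain ⟨M, hMC, hSM, hcov, hZ, hcop⟩ := D.exists_odd_complement hFC
  have hcomm : ∀ s ∈ D.S, ∀ x ∈ M, s * x = x * s := fun s hs x hx =>
    Subgroup.mem_centralizer_iff.1 (hMC hx) s hs
  haveI := D.normal
  have hG0 : D.S ⊔ M = D.S ⊔ D.C := by
    refine le_antisymm (sup_le_sup_left hMC _) (sup_le le_sup_left fun x hx => ?_)
    rcases hcov x hx with h | h
    · exact Subgroup.mem_sup_right h
    · have : x = x * D.z * D.z := by rw [mul_assoc, D.z_sq, mul_one]
      rw [this]
      exact mul_mem (Subgroup.mem_sup_right h) (Subgroup.mem_sup_left D.z_mem)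
  have hidx : (D.S ⊔ M).index = 1 ∨ (D.S ⊔ M).index = 2 := by
    rw [hG0]
    have : (D.S ⊔ D.C).index ≤ 2 := D.index_le
    have h0 : (D.S ⊔ D.C).index ≠ 0 := Subgroup.index_ne_zero_of_finite
    omega
  refine ⟨D.S ⊔ M, ?_, hidx, D.S, M, rfl, hSM, hcomm, ⟨D.e⟩, fun p hp P => ?_, hcop⟩
  · rcases hidx with h | h
    · rw [Subgroup.index_eq_one.1 h]; infer_instance
    · exact Subgroup.normal_of_index_eq_two h
  · haveI := hZ
    infer_instance

end Cfsg.Agent.S3359
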