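import Cfsg.Statements.S0017
import Cfsg.Agent.Cores.Fitting

set_option autoImplicit false
open Cfsg

namespace Cfsg.Agent.S0017

/-- In a finite solvable group whose largest normal subgroup of order prime to p is trivial, the centralizer of the p-core is contained in the p-core. -/
theorem result {G : Type*} [Group G] [Finite G] [Group.IsSolvable G] (p : ℕ) [Fact p.Prime]
    (h : Cfsg.pPrimeCore p G = ⊥) :
    Subgroup.centralizer (Cfsg.pCore p G : Set G) ≤ Cfsg.pCore p G := by
  have hF : Cfsg.fittingSubgroup G = Cfsg.pCore p G := by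
    refine le_antisymm ?_ Cfsg.Agent.Cores.pCore_le_fittingSubgroup
    rw [Cfsg.Agent.Cores.fittingSubgroup_eq_iSup_pCore]
    refine iSup_le fun q => ?_
    rcases eq_or_ne (q : ℕ) p with hq | hq
    · rw [hq]
    · have : Fact (q : ℕ).Prime := ⟨q.2⟩
      obtain ⟨n, hn⟩ := IsPGroup.iff_card.1 (Cfsg.Agent.Cores.pCore_isPGroup (p := (q : ℕ)) (G := G))
      have hle : Cfsg.pCore (q : ℕ) G ≤ Cfsg.pPrimeCore p G :=
        Cfsg.Agent.Cores.le_pPrimeCore inferInstance
          (hn ▸ Nat.Coprime.pow_left n ((Nat.coprime_primes q.2 Fact.out).2 hq))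
      exact (hle.trans h.le).trans bot_le
  exact hF ▸ Cfsg.Agent.Cores.centralizer_fittingSubgroup_le

end Cfsg.Agent.S0017
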