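import Cfsg.Statements.S0018
import Cfsg.Agent.S0017

set_option autoImplicit false
open Cfsg

namespace Cfsg.Agent.S0018

/-- A finite solvable group whose Sylow p-subgroups are abelian has p-length one: a Sylow p-subgroup together with the largest normal subgroup of order prime to p generates a normal subgroup. -/
theorem result {G : Type*} [Group G] [Finite G] [Group.IsSolvable G]
    (p : ℕ) [Fact p.Prime] (P : Sylow p G) (hP : IsMulCommutative P) :
    ((P : Subgroup G) ⊔ Cfsg.pPrimeCore p G).Normal := by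
  set K := Cfsg.pPrimeCore p G
  set π := QuotientGroup.mk' K with hπ
  have hbot : Cfsg.pPrimeCore p (G ⧸ K) = ⊥ := Cfsg.Agent.Cores.pPrimeCore_quotient_pPrimeCore_eq_bot
  let Q : Sylow p (G ⧸ K) := P.mapSurjective (QuotientGroup.mk'_surjective K)
  have hQP : (Q : Subgroup (G ⧸ K)) = (P : Subgroup G).map π := rfl
  have hle : (Q : Subgroup (G ⧸ K)) ≤ Cfsg.pCore p (G ⧸ K) := by
    refine le_trans ?_ (Cfsg.Agent.S0017.result p hbot)
    intro x hx y hy
    have hy' : y ∈ (P : Subgroup G).map π := hQP ▸ Cfsg.Agent.Cores.pCore_le_sylow Q hy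
    obtain ⟨a, ha, rfl⟩ := hQP ▸ hx
    obtain ⟨b, hb, rfl⟩ := hy'
    rw [← map_mul, ← map_mul]
    exact congrArg π (congrArg Subtype.val (mul_comm' (⟨b, hb⟩ : (P : Subgroup G)) ⟨a, ha⟩))
  have heq : (Q : Subgroup (G ⧸ K)) = Cfsg.pCore p (G ⧸ K) :=
    le_antisymm hle (Cfsg.Agent.Cores.pCore_le_sylow Q)
  have h1 : (P : Subgroup G) ⊔ K = (Q : Subgroup (G ⧸ K)).comap π := by
    rw [hQP, Subgroup.comap_map_eq, QuotientGroup.ker_mk']
  rw [h1, heq]
  infer_instance

end Cfsg.Agent.S0018
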