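import Cfsg.Statements.S0501
import Cfsg.Agent.MacWilliams.Index
-- import your own Cfsg.Agent.* helpers here

set_option autoImplicit false
open Cfsg

namespace Cfsg.Agent.S0501

/-- A finite 2-group in which every normal elementary abelian subgroup has order at most 4 has sectional rank at most
4: every quotient of every subgroup has no elementary abelian subgroup of order exceeding 16. -/
theorem result {P : Type*} [Group P] [Finite P] (hP : IsPGroup 2 P)
    (h : ∀ A : Subgroup P, A.Normal → IsMulCommutative A → (∀ a ∈ A, a ^ 2 = 1) → Nat.card A ≤ 4) :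
    Cfsg.SectionalPRankLE 2 4 P := by
  intro H N hN B hB hB2
  haveI := hN
  let π := QuotientGroup.mk' N
  set B' := B.comap π with hB'
  have hker : π.ker = N := QuotientGroup.ker_mk' N
  have hmap : B'.map π = B := Subgroup.map_comap_eq_self_of_surjective (QuotientGroup.mk'_surjective N) B
  have h1 := MacWilliams.card_eq_ker_mul_map π B'
  rw [hmap, hker] at h1
  have h2 : N.relIndex B' * Nat.card (N.subgroupOf B') = Nat.card B' :=
    (N.subgroupOf B').index_mul_card
  have h3 : N.relIndex B' = Nat.card B :=
    Nat.eq_of_mul_eq_mul_right (Nat.card_pos (α := N.subgroupOf B')) (by rw [h2, h1, mul_comm])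
  rw [← h3, ← Subgroup.relIndex_map_map_of_injective N B' H.subtype_injective]
  refine MacWilliams.relIndex_le_sixteen hP h _ _ ?_ ?_
  · rintro _ ⟨y, hy, rfl⟩
    refine ⟨y * y, ?_, rfl⟩
    have h4 : π (y * y) = 1 := by
      rw [map_mul, ← pow_two]
      exact hB2 _ hy
    exact (QuotientGroup.eq_one_iff (y * y)).1 h4
  · refine ⟨fun x hx g => ?_⟩
    obtain ⟨n, hn, hnx⟩ := hx
    obtain ⟨y, hy, hyg⟩ := g.2
    refine ⟨y * n * y⁻¹, hN.conj_mem n hn y, ?_⟩
    have hnx' : (n : P) = x.1 := hnx
    have hyg' : (y : P) = g.1 := hyg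
    simp [hnx', hyg']

end Cfsg.Agent.S0501
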