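import Cfsg.Statements.S2807
import Cfsg.Agent.LocalP.Yoshida
import Cfsg.Agent.Tech.WreathQuotient

set_option autoImplicit false
open Cfsg

namespace Cfsg.Agent.S2807



/-- Let S be a Sylow p-subgroup of the finite group G. If S ∩ G' ≠ S ∩ (N_G(S))' (derived subgroups), then the wreath product Z_p ≀ Z_p — realised as a Sylow p-subgroup of the symmetric group of degree p² — is a homomorphic image of S. -/
theorem result {G : Type*} [Group G] [Finite G] {p : ℕ} [Fact p.Prime] (S : Sylow p G) (h : (S : Subgroup G) ⊓ commutator G ≠ (S : Subgroup G) ⊓ ⁅Subgroup.normalizer ((S : Subgroup G) : Set G), Subgroup.normalizer ((S : Subgroup G) : Set G)⁆) : ∃ (P : Sylow p (Equiv.Perm (Fin (p ^ 2)))) (f : ↥(S : Subgroup G) →* ↥(P : Subgroup (Equiv.Perm (Fin (p ^ 2))))), Function.Surjective f := by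
  classical
  obtain ⟨x, hxS, z, hzS, U, F, hUS, hxU, hzn, hSn, hzU, hidx, -, hmul, hne⟩ :=
    LocalP.Yoshida.exists_config S (S : Subgroup G)
      ⟨le_rfl, fun g hg => Subgroup.eq_of_le_of_card_ge hg
        (Subgroup.card_map_of_injective (MulEquiv.injective _)).ge⟩ h
  haveI hUn : (U.subgroupOf (S : Subgroup G)).Normal :=
    (Subgroup.normal_subgroupOf_iff_le_normalizer hUS).2 hSn
  set U' := U.subgroupOf (S : Subgroup G) with hU'
  have hUi : U'.index = p := by
    have h2 := hidx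
    rw [Subgroup.inf_relIndex_left] at h2
    exact h2
  have hF1 : F 1 = 1 := by
    have h2 := hmul 1 U.one_mem 1 U.one_mem
    rw [one_mul] at h2
    exact left_eq_mul.1 h2
  let F₀ : ↥U' →* Multiplicative (ZMod p) :=
    { toFun := fun v => F ((v : ↥(S : Subgroup G)) : G)
      map_one' := hF1
      map_mul' := fun u v => hmul _ u.2 _ v.2 }
  set K := F₀.ker.map U'.subtype with hK
  have hKU : K ≤ U' := Subgroup.map_subtype_le _
  set D := K.normalCore with hD
  have hDU : D ≤ U' := K.normalCore_le.trans hKU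
  set f := QuotientGroup.mk' D with hf
  haveI : (U'.map f).Normal := hUn.map f (QuotientGroup.mk'_surjective D)
  have hP : IsPGroup p (↥(S : Subgroup G) ⧸ D) := S.2.to_quotient D
  have hexp : ∀ a : Multiplicative (ZMod p), a ^ p = 1 := fun a => by
    apply Multiplicative.toAdd.injective
    simp
  have hconj : ∀ (g : ↥(S : Subgroup G)) {u}, u ∈ U' → g * u * g⁻¹ ∈ U' := fun g u hu =>
    hUn.conj_mem u hu g
  have hA : Cfsg.IsElementaryAbelian p (U'.map f) := by
    refine ⟨⟨⟨?_⟩⟩, ?_⟩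
    · rintro ⟨_, u, hu, rfl⟩ ⟨_, v, hv, rfl⟩
      refine Subtype.ext ?_
      show f u * f v = f v * f u
      rw [← map_mul, ← map_mul]
      refine (QuotientGroup.eq).2 fun g => ?_
      change g * _ * g⁻¹ ∈ K
      refine ⟨⟨g * ((u * v)⁻¹ * (v * u)) * g⁻¹,
        hconj g (mul_mem (inv_mem (mul_mem hu hv)) (mul_mem hv hu))⟩, ?_, rfl⟩
      have e : (⟨g * ((u * v)⁻¹ * (v * u)) * g⁻¹,
            hconj g (mul_mem (inv_mem (mul_mem hu hv)) (mul_mem hv hu))⟩ : ↥U') =
          ((⟨g * u * g⁻¹, hconj g hu⟩ : ↥U') * ⟨g * v * g⁻¹, hconj g hv⟩)⁻¹ *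
            ((⟨g * v * g⁻¹, hconj g hv⟩ : ↥U') * ⟨g * u * g⁻¹, hconj g hu⟩) := by
        refine Subtype.ext ?_
        simp only [Subgroup.coe_mul, InvMemClass.coe_inv]
        group
      show F₀ _ = 1
      rw [e]
      rw [map_mul, map_inv, map_mul, map_mul, mul_comm (F₀ ⟨g * u * g⁻¹, hconj g hu⟩), inv_mul_cancel]
    · rintro _ ⟨u, hu, rfl⟩
      rw [← map_pow]
      refine (QuotientGroup.eq_one_iff _).2 fun g => ?_
      refine ⟨⟨g * u ^ p * g⁻¹, hconj g (pow_mem hu p)⟩, ?_, rfl⟩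
      have e : (⟨g * u ^ p * g⁻¹, hconj g (pow_mem hu p)⟩ : ↥U') =
          (⟨g * u * g⁻¹, hconj g hu⟩ : ↥U') ^ p := by
        refine Subtype.ext ?_
        simp only [SubmonoidClass.coe_pow, conj_pow]
      show F₀ _ = 1
      rw [e, map_pow, hexp]
  have hidx' : (U'.map f).index = p := by
    rw [Subgroup.index_map, QuotientGroup.ker_mk', sup_eq_left.2 hDU,
      MonoidHom.range_eq_top.2 (QuotientGroup.mk'_surjective D), Subgroup.index_top, mul_one, hUi]
  set x' : ↥(S : Subgroup G) := ⟨x, hxS⟩ with hx'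
  set z' : ↥(S : Subgroup G) := ⟨z, hzS⟩ with hz'
  have hxU' : x' ∈ U' := hxU
  have hterm : ∀ i : ℕ, (z' ^ i)⁻¹ * x' * z' ^ i ∈ U' := fun i => by
    simpa using hconj (z' ^ i)⁻¹ hxU'
  have hprod : ((List.range p).map
      (fun i => ((f z') ^ i)⁻¹ * f x' * (f z') ^ i)).prod ≠ 1 := by
    intro h1
    apply hne
    set l : List ↥U' := (List.range p).map (fun i => ⟨_, hterm i⟩) with hl
    have h2 : (l.prod : ↥(S : Subgroup G)) ∈ D := by
      rw [← QuotientGroup.eq_one_iff, ← h1, ← QuotientGroup.mk'_apply, SubmonoidClass.coe_list_prod,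
        hl, List.map_map, map_list_prod, List.map_map]
      simp [Function.comp_def, hf]
    obtain ⟨w, hw, hwe⟩ := K.normalCore_le h2
    have h3 : F₀ l.prod = 1 := by
      rw [show l.prod = w from Subtype.ext hwe.symm]; exact hw
    rw [map_list_prod, hl, List.map_map] at h3
    rw [← h3, Finset.prod, Finset.range_val, Multiset.range, Multiset.map_coe, Multiset.prod_coe]
    rfl
  obtain ⟨Q, g, hg⟩ := Tech.wreath_quotient hP (U'.map f) hA hidx' (f x') (f z')
    (Subgroup.mem_map_of_mem f hxU') hprod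
  exact ⟨Q, g.comp f, hg.comp (QuotientGroup.mk'_surjective D)⟩

end Cfsg.Agent.S2807
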