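import Cfsg.Statements.S3788
import Cfsg.Agent.Lib.CyclicNormal
import Cfsg.Agent.PSolv.HallHigman
-- import your own Cfsg.Agent.* helpers here

set_option autoImplicit false
open Cfsg

open scoped commutatorElement

namespace Cfsg.Agent.S3788

open Cfsg

variable {G : Type*} [Group G] [Finite G] {p : ℕ} [Fact p.Prime]

/-- The quotient of a group with `O_{p'} = 1` by the Frattini subgroup of `O_p`. -/
theorem exists_reduction (hG : IsPSolvable p G) (hO : pPrimeCore p G = ⊥) :
    ∃ (N : Subgroup G) (_ : N.Normal), N ≤ pCore p G ∧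
      (∀ v ∈ (pCore p G).map (QuotientGroup.mk' N), v ^ p = 1) ∧
      (∀ v ∈ (pCore p G).map (QuotientGroup.mk' N), ∀ w ∈ (pCore p G).map (QuotientGroup.mk' N), v * w = w * v) ∧
      Subgroup.centralizer ((pCore p G).map (QuotientGroup.mk' N) : Set (G ⧸ N)) ≤ (pCore p G).map (QuotientGroup.mk' N) ∧
      (pCore p G).map (QuotientGroup.mk' N) = pCore p (G ⧸ N) := by
  have hp : p.Prime := Fact.out
  set P := pCore p G with hP
  have hPp : IsPGroup p P := PSolv.isPGroup_pCore p G
  haveI hPc : P.Characteristic := PSolv.pCore_characteristic p G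
  haveI hfc : (frattini ↥P).Characteristic := frattini_characteristic
  set N := (frattini ↥P).map P.subtype with hN
  haveI hNn : N.Normal := PSolv.map_subtype_normal hfc
  have hNP : N ≤ P := Subgroup.map_subtype_le _
  have hπ := QuotientGroup.mk'_surjective N
  refine ⟨N, hNn, hNP, ?_, ?_, ?_, ?_⟩
  · rintro _ ⟨x, hx, rfl⟩
    rw [← map_pow]
    exact (QuotientGroup.eq_one_iff _).mpr ⟨_, PGroup.pow_mem_frattini hPp ⟨x, hx⟩, rfl⟩
  · rintro _ ⟨x, hx, rfl⟩ _ ⟨y, hy, rfl⟩
    rw [← commutatorElement_eq_one_iff_mul_comm, ← map_commutatorElement]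
    exact (QuotientGroup.eq_one_iff _).mpr
      ⟨_, PGroup.commutatorElement_mem_frattini hPp ⟨x, hx⟩ ⟨y, hy⟩, rfl⟩
  · haveI : (P.map (QuotientGroup.mk' N)).Normal := (inferInstance : P.Normal).map _ hπ
    set C := (Subgroup.centralizer (P.map (QuotientGroup.mk' N) : Set (G ⧸ N))).comap (QuotientGroup.mk' N) with hC
    haveI : C.Normal := Subgroup.normal_centralizer.comap _
    have hCp : IsPGroup p C := by
      have htriv : ∀ x ∈ C, (orderOf x).Coprime p → x = 1 := by
        intro x hx hxo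
        have hxP : Subgroup.zpowers x ≤ Subgroup.centralizer (P : Set G) := by
          refine Coprime.le_centralizer_of_frattini (by rw [Subgroup.normalizer_eq_top]; exact le_top) ?_ ?_
          · obtain ⟨k, hk⟩ := IsPGroup.iff_card.mp (hPp.to_subgroup (frattini ↥P))
            rw [hk, Nat.card_zpowers]; exact hxo.pow_right k
          · rintro a ⟨i, rfl⟩ k hk
            rw [← hN]
            refine (QuotientGroup.eq_one_iff _).mp ?_
            have hc := Subgroup.mem_centralizer_iff.mp (Subgroup.zpow_mem _ (Subgroup.mem_comap.mp hx) i)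
              (QuotientGroup.mk' N k) ⟨k, hk, rfl⟩
            have e1 : QuotientGroup.mk' N (k⁻¹ * x ^ i * k * (x ^ i)⁻¹) = 1 := by
              simp only [map_mul, map_inv, map_zpow]
              rw [mul_assoc (QuotientGroup.mk' N k)⁻¹, ← hc, inv_mul_cancel_left, mul_inv_cancel]
            exact e1
        have h1 : x ∈ P := PSolv.centralizer_pCore_le hG hO (hxP (Subgroup.mem_zpowers x))
        obtain ⟨k, hk⟩ := IsPGroup.iff_card.mp hPp
        exact orderOf_eq_one_iff.mp (Nat.eq_one_of_dvd_coprimes (hxo.pow_right k) dvd_rfl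
          (hk ▸ Subgroup.orderOf_dvd_natCard P h1))
      intro ⟨x, hx⟩
      obtain ⟨k, m, hm, hkm⟩ := Nat.exists_eq_pow_mul_and_not_dvd (orderOf_pos x).ne' p hp.ne_one
      refine ⟨k, Subtype.ext ?_⟩
      refine htriv _ (pow_mem hx _) ?_
      show (orderOf (x ^ p ^ k)).Coprime p
      rw [orderOf_pow' x (pow_ne_zero k hp.ne_zero), hkm, Nat.gcd_mul_right_left, Nat.mul_div_cancel_left _ (pow_pos hp.pos k)]
      exact (hp.coprime_iff_not_dvd.mpr hm).symm
    intro y hy
    obtain ⟨x, rfl⟩ := hπ y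
    exact Subgroup.mem_map_of_mem _ (PSolv.le_pCore inferInstance hCp hy)
  · refine le_antisymm (PSolv.map_pCore_le _ hπ) ?_
    intro y hy
    obtain ⟨x, rfl⟩ := hπ y
    haveI : ((pCore p (G ⧸ N)).comap (QuotientGroup.mk' N)).Normal := (pCore_normal p _).comap _
    refine Subgroup.mem_map_of_mem _ (PSolv.le_pCore (N := (pCore p (G ⧸ N)).comap (QuotientGroup.mk' N)) inferInstance ?_ hy)
    refine IsPGroup.comap_of_ker_isPGroup (PSolv.isPGroup_pCore p _) _ ?_
    rw [QuotientGroup.ker_mk']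
    exact hPp.to_le hNP

/-- The statement in a group with a normal elementary abelian self-centralizing `O_p`. -/
theorem cyclic_le_core {X : Type*} [Group X] [Finite X] {V : Subgroup X} [V.Normal] (hX : IsPSolvable p X)
    (hexp : ∀ v ∈ V, v ^ p = 1) (hcomm : ∀ v ∈ V, ∀ w ∈ V, v * w = w * v)
    (hC : Subgroup.centralizer (V : Set X) ≤ V) (hO : pCore p (X ⧸ V) = ⊥)
    {B : Subgroup X} (hBp : IsPGroup p B) (hB : IsCyclic B) (hVB : V ≤ Subgroup.normalizer (B : Set X))
    (h : p ≠ 2 ∨ ¬ Cfsg.Involves (Equiv.Perm (Fin 4)) X) : B ≤ V := by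
  classical
  have hp : p.Prime := Fact.out
  by_contra hBV
  obtain ⟨g, hg⟩ := hB.exists_generator
  have hgV : (g : X) ∉ V := fun hgV => hBV fun x hx => by
    obtain ⟨k, hk⟩ := hg ⟨x, hx⟩
    have : (g : X) ^ k = x := congrArg Subtype.val hk
    rw [← this]; exact V.zpow_mem hgV k
  have hex : ∃ i, (g : X) ^ p ^ i ∈ V := by
    obtain ⟨n, hn⟩ := hBp g
    exact ⟨n, by rw [← Subgroup.coe_pow, hn]; exact one_mem V⟩
  obtain ⟨i, hi⟩ : ∃ i, Nat.find hex = i + 1 := ⟨Nat.find hex - 1, by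
    have : Nat.find hex ≠ 0 := fun h0 => hgV (by have := Nat.find_spec hex; rwa [h0, pow_zero, pow_one] at this)
    omega⟩
  set a := (g : X) ^ p ^ i with ha
  have haV : a ∉ V := Nat.find_min hex (by omega)
  have hap : a ^ p ∈ V := by
    have := Nat.find_spec hex
    rwa [hi, pow_succ, pow_mul] at this
  have haB : a ∈ B := pow_mem g.2 _
  refine absurd (CyclicNormal.false_or_involves hX hexp hcomm hC hO haV hap fun v hv => ?_) (fun h' => h.elim (fun h2 => h2 h'.1) (fun h2 => h2 h'.2))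
  set e := a * v * a⁻¹ * v⁻¹ with he
  have heV : e ∈ V := mul_mem ((inferInstance : V.Normal).conj_mem v hv a) (V.inv_mem hv)
  have heB : e ∈ B := by
    rw [he, show a * v * a⁻¹ * v⁻¹ = a * (v * a⁻¹ * v⁻¹) by group]
    exact mul_mem haB ((Subgroup.mem_normalizer_iff.mp (hVB hv) a⁻¹).mp (B.inv_mem haB))
  by_cases he1 : e = 1
  · rw [he1]; exact one_mem _
  have heo : orderOf e = p := orderOf_eq_prime (hexp e heV) he1
  by_cases hu1 : a ^ p = 1
  · exfalso
    have hao : orderOf a = p := orderOf_eq_prime hu1 (fun h1 => haV (h1 ▸ one_mem V))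
    have := OddLocal.eq_of_le_cyclic_of_card_eq (W := B) (Subgroup.zpowers_le.mpr haB) (Subgroup.zpowers_le.mpr heB)
      (by rw [Nat.card_zpowers, Nat.card_zpowers, hao, heo])
    exact haV (Subgroup.zpowers_le.mpr heV (this ▸ Subgroup.mem_zpowers a))
  · have huo : orderOf (a ^ p) = p := orderOf_eq_prime (hexp _ hap) hu1
    have := OddLocal.eq_of_le_cyclic_of_card_eq (W := B) (Subgroup.zpowers_le.mpr (pow_mem haB p)) (Subgroup.zpowers_le.mpr heB)
      (by rw [Nat.card_zpowers, Nat.card_zpowers, huo, heo])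
    exact this ▸ Subgroup.mem_zpowers e

end Cfsg.Agent.S3788

namespace Cfsg.Agent.S3788

/-- Let G be a finite p-soluble group, P a Sylow p-subgroup of G and A a cyclic normal subgroup of P. If p is odd, or if no section of G is isomorphic to the symmetric group of degree 4, then A ≤ O_{p',p}(G). -/
theorem result {G : Type*} [Group G] [Finite G] {p : ℕ} [Fact p.Prime] (hG : Cfsg.IsPSolvable p G) (P : Sylow p G) (A : Subgroup G) (hAP : A ≤ (P : Subgroup G)) (hAn : (P : Subgroup G) ≤ Subgroup.normalizer (A : Set G)) (hA : IsCyclic A) (h : p ≠ 2 ∨ ¬ Cfsg.Involves (Equiv.Perm (Fin 4)) G) : A ≤ Cfsg.pPrimePCore p G := by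
  set N := Cfsg.pPrimeCore p G with hN
  have hG' := PSolv.isPSolvable_quotient hG N
  obtain ⟨F, hFn, hFP, hexp, hcomm, hC, hcore⟩ := exists_reduction hG' (PSolv.pPrimeCore_quotient_eq_bot p G)
  let π₁ := QuotientGroup.mk' N
  let π₂ := QuotientGroup.mk' F
  let π : G →* ((G ⧸ N) ⧸ F) := π₂.comp π₁
  have hπ : Function.Surjective π := (QuotientGroup.mk'_surjective F).comp (QuotientGroup.mk'_surjective N)
  set V := (Cfsg.pCore p (G ⧸ N)).map π₂ with hV
  haveI : V.Normal := by rw [hcore]; exact pCore_normal p _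
  have hO : Cfsg.pCore p (((G ⧸ N) ⧸ F) ⧸ V) = ⊥ := by
    have key : ∀ W : Subgroup ((G ⧸ N) ⧸ F), W = Cfsg.pCore p ((G ⧸ N) ⧸ F) → ∀ [W.Normal],
        Cfsg.pCore p (((G ⧸ N) ⧸ F) ⧸ W) = ⊥ := by
      rintro W rfl _; exact PSolv.pCore_quotient_eq_bot p _
    exact key V hcore
  have hA' : (A.map π) ≤ V := by
    refine cyclic_le_core (PSolv.isPSolvable_quotient hG' F) hexp hcomm hC hO ((P.isPGroup'.to_le hAP).map π) ?_ ?_ ?_
    · exact isCyclic_of_surjective (π.subgroupMap A) (π.subgroupMap_surjective A)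
    · have h1 : V ≤ (P : Subgroup G).map π := by
        rw [hcore]
        exact PSolv.pCore_le_sylow (P.mapSurjective hπ)
      refine h1.trans ((Subgroup.map_mono hAn).trans ?_)
      exact Subgroup.le_normalizer_map π
    · refine h.imp id fun h2 h3 => h2 (EvenLocal.involves_of_involves_image (A := ⊤) (π.comp (⊤ : Subgroup G).subtype) ?_ h3)
      intro y
      obtain ⟨x, rfl⟩ := hπ y
      exact ⟨⟨x, Subgroup.mem_top x⟩, rfl⟩
  intro x hx
  show π₁ x ∈ Cfsg.pCore p (G ⧸ N)
  obtain ⟨z, hz, hzx⟩ := hA' ⟨x, hx, rfl⟩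
  have h1 : z⁻¹ * π₁ x ∈ F := (QuotientGroup.eq).mp hzx
  rw [show π₁ x = z * (z⁻¹ * π₁ x) by group]
  exact mul_mem hz (hFP h1)

end Cfsg.Agent.S3788
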