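import Cfsg.Statements.S0011
import Mathlib.GroupTheory.Nilpotent
import Mathlib.GroupTheory.Frattini

set_option autoImplicit false
open Cfsg

namespace Cfsg.Agent.S0011

/-- If the Frattini quotient of a finite group is nilpotent then the group is nilpotent. -/
theorem result {G : Type*} [Group G] [Finite G]
    (h : Group.IsNilpotent (G ⧸ frattini G)) : Group.IsNilpotent G := by
  refine (Group.isNilpotent_of_finite_tfae.out 0 2 rfl rfl).2 fun H hH => ?_
  have hn := (Group.isNilpotent_of_finite_tfae.out 0 2 rfl rfl).1 h
  have hle : (QuotientGroup.mk' (frattini G)).ker ≤ H := by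
    rw [QuotientGroup.ker_mk']
    exact frattini_le_coatom hH
  have hcm : (H.map (QuotientGroup.mk' (frattini G))).comap (QuotientGroup.mk' (frattini G)) = H :=
    by rw [Subgroup.comap_map_eq, sup_eq_left.2 hle]
  rw [← hcm]
  refine Subgroup.Normal.comap (hn _ ⟨fun htop => hH.1 ?_, fun K hK => ?_⟩) _
  · rw [← hcm, htop, Subgroup.comap_top]
  · have h1 : H < K.comap (QuotientGroup.mk' (frattini G)) := by
      rw [← hcm]
      exact Subgroup.comap_lt_comap_of_surjective (QuotientGroup.mk'_surjective _) |>.2 hK
    rw [← Subgroup.map_comap_eq_self_of_surjective (QuotientGroup.mk'_surjective _) K, hH.2 _ h1]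
    exact Subgroup.map_top_of_surjective _ (QuotientGroup.mk'_surjective _)

end Cfsg.Agent.S0011
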