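import Cfsg.Statements.S3908
import Mathlib
import Cfsg.Agent.S0016
-- import your own Cfsg.Agent.* helpers here

set_option autoImplicit false
open Cfsg

set_option linter.style.haveILetI false

namespace Cfsg.Agent.S3908

open Subgroup in
theorem main {G : Type*} [Group G] [Finite G] {p : ℕ} [Fact p.Prime]
    (hB : ∀ A B : Subgroup G, IsMulCommutative ↥A → IsMulCommutative ↥B → Nat.card ↥A = Nat.card ↥B →
      ∃ g : G, B = A.map (MulAut.conj g).toMonoidHom) (P : Sylow p G) :
    (∀ H K : Subgroup (P : Subgroup G), Nat.card H = p → Nat.card K = p → H = K) ∨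
      ∀ x ∈ (P : Subgroup G), x ^ p = 1 := by
  classical
  have hp : p.Prime := Fact.out
  by_contra hcon
  push Not at hcon
  obtain ⟨⟨H, K, hH, hK, hHK⟩, x, hx, hxp⟩ := hcon
  -- a cyclic subgroup of order `p ^ 2`
  obtain ⟨y, hy⟩ : ∃ y : G, orderOf y = p ^ 2 := by
    obtain ⟨k, hk⟩ := P.2 ⟨x, hx⟩
    obtain ⟨i, -, hi⟩ := (Nat.dvd_prime_pow hp).1
      (orderOf_dvd_of_pow_eq_one (congrArg Subtype.val hk : x ^ p ^ k = 1))
    have hi2 : 2 ≤ i := by
      by_contra h
      push Not at h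
      apply hxp
      rw [← orderOf_dvd_iff_pow_eq_one, hi]
      calc p ^ i ∣ p ^ 1 := pow_dvd_pow p (by omega)
        _ = p := pow_one p
    refine ⟨x ^ p ^ (i - 2), ?_⟩
    rw [orderOf_pow_of_dvd (pow_ne_zero _ hp.ne_zero) (hi ▸ pow_dvd_pow p (Nat.sub_le _ _)), hi,
      Nat.pow_div (Nat.sub_le _ _) hp.pos]
    congr 1
    omega
  -- an elementary abelian subgroup of order `p ^ 2`
  haveI : Nontrivial (P : Subgroup G) := (nontrivial_iff_ne_bot _).2 (by
    rintro h
    rw [h, mem_bot] at hx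
    exact hxp (by rw [hx, one_pow]))
  haveI := P.2.center_nontrivial
  obtain ⟨z, hz⟩ : ∃ z : center (P : Subgroup G), orderOf z = p := by
    refine exists_prime_orderOf_dvd_card' p ?_
    obtain ⟨n, hn, he⟩ := (P.2.to_subgroup (center (P : Subgroup G))).nontrivial_iff_card.1 inferInstance
    exact he ▸ dvd_pow_self p hn.ne'
  set Z := zpowers (z : (P : Subgroup G)) with hZ
  have hZc : Nat.card Z = p := by rw [hZ, Nat.card_zpowers, orderOf_coe, hz]
  obtain ⟨L, hL, hLZ⟩ : ∃ L : Subgroup (P : Subgroup G), Nat.card L = p ∧ L ≠ Z := by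
    by_cases h : H = Z
    · exact ⟨K, hK, fun e => hHK (h.trans e.symm)⟩
    · exact ⟨H, hH, h⟩
  obtain ⟨l, hl, hlg⟩ : ∃ l ∈ L, l ∉ Z := SetLike.not_le_iff_exists.1 fun h =>
    hLZ (eq_of_le_of_card_ge h (le_of_eq (hZc.trans hL.symm)))
  have hlp : l ^ p = 1 := by
    rw [← orderOf_dvd_iff_pow_eq_one]
    have := L.orderOf_dvd_natCard hl
    rwa [hL] at this
  have hzp : (z : (P : Subgroup G)) ^ p = 1 := by
    have := pow_orderOf_eq_one (z : (P : Subgroup G))
    rwa [orderOf_coe, hz] at this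
  have hcz : Commute (z : (P : Subgroup G)) l := (mem_center_iff.1 z.2 l).symm
  have hcomm : IsMulCommutative ↥(closure ({(z : (P : Subgroup G)), l} : Set (P : Subgroup G))) :=
    Subgroup.isMulCommutative_closure (by
      rintro a (rfl | rfl) b (rfl | rfl)
      exacts [rfl, hcz.eq, hcz.eq.symm, rfl])
  set E := closure ({(z : (P : Subgroup G)), l} : Set (P : Subgroup G)) with hE
  have hEexp : ∀ e ∈ E, e ^ p = 1 := by
    intro e he
    induction he using closure_induction with
    | mem e he => rcases he with rfl | rfl <;> assumption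
    | one => exact one_pow p
    | mul a b ha hb iha ihb =>
      have hab : Commute a b := congrArg Subtype.val (mul_comm' (⟨a, ha⟩ : E) ⟨b, hb⟩)
      rw [hab.mul_pow, iha, ihb, one_mul]
    | inv a _ ih => rw [inv_pow, ih, inv_one]
  have hlt : p < Nat.card E := by
    refine hZc.symm.trans_lt ?_
    have hle : Z ≤ E := zpowers_le.2 (subset_closure (Or.inl rfl))
    refine lt_of_le_of_ne (card_le_of_le hle) fun h => hlg ?_
    rw [eq_of_le_of_card_ge hle h.ge]
    exact subset_closure (Or.inr rfl)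
  have hEp : IsPGroup p E := P.2.to_subgroup E
  obtain ⟨n, hn⟩ := hEp.exists_card_eq
  have hn2 : 2 ≤ n := by
    by_contra h
    push Not at h
    rw [hn] at hlt
    exact (Nat.pow_le_pow_right hp.pos (show n ≤ 1 by omega)).not_gt (by rwa [pow_one])
  obtain ⟨F, hFE, hF⟩ := Sylow.exists_subgroup_card_pow_prime_of_le_card (n := 2) hp hEp
    (hn ▸ Nat.pow_le_pow_right hp.pos hn2) |>.elim (fun F hF => (⟨F.map E.subtype, map_subtype_le F,
      by rw [card_map_of_injective E.subtype_injective, hF]⟩ :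
      ∃ F : Subgroup (P : Subgroup G), F ≤ E ∧ Nat.card F = p ^ 2))
  set A := F.map (P : Subgroup G).subtype with hA
  have hAc : IsMulCommutative A := ⟨⟨fun a b => by
    obtain ⟨a', ha, hae⟩ := a.2
    obtain ⟨b', hb, hbe⟩ := b.2
    apply Subtype.ext
    show (a : G) * b = b * a
    rw [← hae, ← hbe, ← map_mul, ← map_mul]
    exact congrArg _ (congrArg Subtype.val (mul_comm' (⟨a', hFE ha⟩ : E) ⟨b', hFE hb⟩))⟩⟩
  obtain ⟨g, hg⟩ := hB A (zpowers y) hAc inferInstance
    (by rw [hA, card_map_of_injective Subtype.val_injective, hF, Nat.card_zpowers, hy])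
  obtain ⟨a, ha, hay⟩ : y ∈ A.map (MulAut.conj g).toMonoidHom := hg ▸ mem_zpowers y
  obtain ⟨a', ha', rfl⟩ := ha
  have h1 : ((a' : (P : Subgroup G)) : G) ^ p = 1 := congrArg Subtype.val (hEexp a' (hFE ha'))
  have h2 : y ^ p = 1 := by
    rw [← hay]
    show ((MulAut.conj g).toMonoidHom ((P : Subgroup G).subtype a')) ^ p = 1
    rw [← map_pow, ← map_pow, show a' ^ p = 1 from Subtype.ext h1, map_one, map_one]
  have h3 := orderOf_dvd_of_pow_eq_one h2
  rw [hy] at h3
  have h4 := Nat.le_of_dvd hp.pos h3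
  nlinarith [hp.two_le]


/-- Let G be a finite group in which any two abelian subgroups of the same order are conjugate. Then a Sylow 2-subgroup of G is cyclic, elementary abelian or generalized quaternion, and for an odd prime p a Sylow p-subgroup of G is cyclic or has exponent dividing p. -/
theorem result {G : Type*} [Group G] [Finite G] (hB : ∀ A B : Subgroup G, IsMulCommutative ↥A → IsMulCommutative ↥B → Nat.card ↥A = Nat.card ↥B → ∃ g : G, B = A.map (MulAut.conj g).toMonoidHom) :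
    (∀ P : Sylow 2 G, IsCyclic ↥(P : Subgroup G) ∨ Cfsg.IsElementaryAbelian 2 (P : Subgroup G) ∨ ∃ k : ℕ, Nonempty (↥(P : Subgroup G) ≃* QuaternionGroup (2 ^ k))) ∧
    ∀ (p : ℕ) [Fact p.Prime], p ≠ 2 → ∀ P : Sylow p G, IsCyclic ↥(P : Subgroup G) ∨ ∀ x ∈ (P : Subgroup G), x ^ p = 1 := by
  classical
  refine ⟨fun P => ?_, fun p _ hp2 P => ?_⟩
  · rcases Cfsg.Agent.S3908.main hB P with h | h
    · exact (Cfsg.Agent.S0016.result 2 P.2 h).imp id (fun ⟨_, n, hn⟩ => Or.inr ⟨n, hn⟩)
    · refine Or.inr (Or.inl ⟨⟨⟨fun a b => Subtype.ext ?_⟩⟩, h⟩)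
      have ha := h _ a.2
      have hb := h _ b.2
      have hab := h _ (mul_mem a.2 b.2)
      rw [pow_two] at ha hb hab
      have e1 := eq_inv_of_mul_eq_one_left ha
      have e2 := eq_inv_of_mul_eq_one_left hb
      have e3 := eq_inv_of_mul_eq_one_left hab
      show (a : G) * b = b * a
      calc (a : G) * b = (b : G)⁻¹ * (a : G)⁻¹ := by rw [← mul_inv_rev]; exact e3
        _ = b * a := by rw [← e1, ← e2]
  · rcases Cfsg.Agent.S3908.main hB P with h | h
    · exact (Cfsg.Agent.S0016.result p P.2 h).imp id (fun ⟨h2, _⟩ => absurd h2 hp2)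
    · exact Or.inr h

end Cfsg.Agent.S3908
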