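import Cfsg.Statements.S3912
import Mathlib
import Cfsg.Agent.H73.BGroup
-- import your own Cfsg.Agent.* helpers here

set_option autoImplicit false
open Cfsg

set_option linter.style.haveILetI false

namespace Cfsg.Agent.S3912

open Subgroup
open scoped Pointwise

theorem four_case {H : Type*} [Group H] [Finite H] (A B : Subgroup H) (hA : IsMulCommutative A)
    (hBc : IsMulCommutative B) (hcard : Nat.card A = Nat.card B) (h4 : 4 ∣ Nat.card A)
    (hT : ∀ T : Sylow 2 H, Nat.card (T : Subgroup H) = 4)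
    (hodd : ∀ R R' : Subgroup H, IsMulCommutative R → IsMulCommutative R' → Nat.card R = Nat.card R' →
      ¬ 4 ∣ Nat.card R → ∃ g : H, R' = R.map (MulAut.conj g).toMonoidHom) :
    ∃ g : H, B = A.map (MulAut.conj g).toMonoidHom := by
  classical
  haveI : Fact (Nat.Prime 2) := ⟨Nat.prime_two⟩
  have hdec : ∀ A : Subgroup H, IsMulCommutative A → 4 ∣ Nat.card A →
      ∃ V R : Subgroup H, Nat.card V = 4 ∧ IsPGroup 2 V ∧ IsMulCommutative R ∧
        Nat.card R * 4 = Nat.card A ∧ ¬ 4 ∣ Nat.card R ∧ V ⊔ R = A ∧ V ≤ centralizer (R : Set H) := by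
    intro A hA h4
    haveI := hA
    let V : Sylow 2 A := default
    have hVn : (V : Subgroup A).Normal := ⟨fun a ha g => by
      rw [mul_comm' g a, mul_inv_cancel_right]; exact ha⟩
    haveI := hVn
    have hVc : Nat.card (V : Subgroup A) = 4 := by
      refine Nat.dvd_antisymm ?_ ?_
      · obtain ⟨T, hT'⟩ := (V.2.map A.subtype).exists_le_sylow
        have := card_dvd_of_le hT'
        rwa [card_map_of_injective A.subtype_injective, hT T] at this
      · rw [V.card_eq_multiplicity]
        exact pow_dvd_pow (m := 2) 2 ((Nat.prime_two.pow_dvd_iff_le_factorization Nat.card_pos.ne').1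
          (show 2 ^ 2 ∣ Nat.card A from h4))
    obtain ⟨R, hR⟩ := exists_right_complement'_of_coprime (N := (V : Subgroup A)) V.card_coprime_index
    refine ⟨(V : Subgroup A).map A.subtype, R.map A.subtype, ?_, V.2.map _, ?_, ?_, ?_, ?_, ?_⟩
    · rw [card_map_of_injective A.subtype_injective, hVc]
    · refine ⟨⟨fun a b => Subtype.ext ?_⟩⟩
      have h1 := congrArg Subtype.val (mul_comm' (⟨a, map_subtype_le _ a.2⟩ : A) ⟨b, map_subtype_le _ b.2⟩)
      exact h1
    · rw [card_map_of_injective A.subtype_injective, mul_comm, ← hVc, hR.card_mul]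
    · rw [card_map_of_injective A.subtype_injective, ← hR.symm.index_eq_card]
      exact fun h => V.not_dvd_index ((show 2 ∣ 4 by norm_num).trans h)
    · rw [← Subgroup.map_sup, hR.sup_eq_top, ← MonoidHom.range_eq_map, range_subtype]
    · rintro _ ⟨v, -, rfl⟩ _ ⟨r, -, rfl⟩
      exact congrArg Subtype.val (mul_comm' r v)
  obtain ⟨V, R, hV, hVp, hR, hRc, hR4, hVR, hVC⟩ := hdec A hA h4
  obtain ⟨V', R', hV', hV'p, hR', hR'c, -, hVR', hV'C⟩ := hdec B hBc (hcard ▸ h4)
  obtain ⟨g, hg⟩ := hodd R R' hR hR' (by omega) hR4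
  set C := centralizer (R' : Set H) with hC
  set W := V.map (MulAut.conj g).toMonoidHom with hW
  have hWC : W ≤ C := by
    rintro _ ⟨v, hv, rfl⟩ r hr
    rw [SetLike.mem_coe, hg] at hr
    obtain ⟨r₀, hr₀, rfl⟩ := hr
    rw [← map_mul, ← map_mul, hVC hv r₀ hr₀]
  have hsyl : ∀ V : Subgroup H, Nat.card V = 4 → IsPGroup 2 V → V ≤ C →
      ∃ S : Sylow 2 C, (S : Subgroup C).map C.subtype = V := by
    intro V hV hVp hVC
    obtain ⟨S, hS⟩ := (hVp.comap_subtype : IsPGroup 2 (V.subgroupOf C)).exists_le_sylow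
    have hle : V ≤ (S : Subgroup C).map C.subtype := fun v hv => ⟨⟨v, hVC hv⟩, hS hv, rfl⟩
    refine ⟨S, (eq_of_le_of_card_ge hle ?_).symm⟩
    obtain ⟨T, hT'⟩ := (S.2.map C.subtype).exists_le_sylow
    rw [hV, ← hT T]
    exact card_le_of_le hT'
  obtain ⟨S₁, hS₁⟩ := hsyl W (by rw [hW, card_map_of_injective (MulAut.conj g).injective, hV]) (hVp.map _) hWC
  obtain ⟨S₂, hS₂⟩ := hsyl V' hV' hV'p hV'C
  obtain ⟨c, hc⟩ := MulAction.exists_smul_eq C S₁ S₂
  have hVW : V' = W.map (MulAut.conj (c : H)).toMonoidHom := by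
    rw [← hS₂, ← hc, ← hS₁, Sylow.coe_subgroup_smul]
    change (((S₁ : Subgroup C).map (MulAut.conj c).toMonoidHom)).map C.subtype = _
    rw [map_map, map_map]
    congr 1
  have hR'e : R' = R'.map (MulAut.conj (c : H)).toMonoidHom := by
    ext r
    constructor
    · intro hr
      exact ⟨r, hr, by rw [MulEquiv.coe_toMonoidHom, MulAut.conj_apply, ← c.2 r hr, mul_inv_cancel_right]⟩
    · rintro ⟨r₀, hr₀, rfl⟩
      rw [MulEquiv.coe_toMonoidHom, MulAut.conj_apply, ← c.2 r₀ hr₀, mul_inv_cancel_right]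
      exact hr₀
  refine ⟨(c : H) * g, ?_⟩
  rw [← hVR', ← hVR, Subgroup.map_sup, hVW, hR'e, hg, hW, map_map, map_map]
  congr 2 <;> (ext x; simp [mul_assoc])


/-- Let G be a finite solvable group in which any two abelian subgroups of the same order are conjugate. Then every quotient of G has the same property: any two abelian subgroups of the quotient of the same order are conjugate. -/
theorem result {G : Type*} [Group G] [Finite G] (hB : ∀ A B : Subgroup G, IsMulCommutative ↥A → IsMulCommutative ↥B → Nat.card ↥A = Nat.card ↥B → ∃ g : G, B = A.map (MulAut.conj g).toMonoidHom) (hsol : Group.IsSolvable G) (M : Subgroup G) [M.Normal] :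
    ∀ A B : Subgroup (G ⧸ M), IsMulCommutative ↥A → IsMulCommutative ↥B → Nat.card ↥A = Nat.card ↥B →
      ∃ g : G ⧸ M, B = A.map (MulAut.conj g).toMonoidHom := by
  classical
  intro A B hA hBc hcard
  open Subgroup Pointwise in
  have hidx : ∀ {q : ℕ} {C : Subgroup (G ⧸ M)}, q ∣ Nat.card C → q ∣ M.index := fun {q C} h =>
    h.trans (M.index_eq_card.symm ▸ C.card_subgroup_dvd_card)
  haveI : Fact (Nat.Prime 2) := ⟨Nat.prime_two⟩
  -- subgroups whose order is not divisible by four, or with cyclic Sylow two-subgroups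
  have hgen : ∀ A B : Subgroup (G ⧸ M), IsMulCommutative A → IsMulCommutative B → Nat.card A = Nat.card B →
      ((∀ S : Sylow 2 G, IsCyclic (S : Subgroup G)) ∨ ¬ (2 ∣ Nat.card M) ∨ ¬ 4 ∣ Nat.card A) →
      ∃ g : G ⧸ M, B = A.map (MulAut.conj g).toMonoidHom := by
    intro A B hA hBc hcard hcase
    refine Cfsg.Agent.H73.conj_of_lift hB M A B hA hBc hcard fun q hq hqM hqA Q hQ hQM hQAB => ?_
    haveI := Fact.mk hq
    by_cases hq2 : q = 2
    swap
    · exact Cfsg.Agent.H73.lift_cond_of_cyclic M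
        (Cfsg.Agent.H73.cyclic_of_dvd hB M hqM (hidx hqA) hq2) Q hQ hQM
    subst hq2
    by_cases hc : ∀ S : Sylow 2 G, IsCyclic (S : Subgroup G)
    · exact Cfsg.Agent.H73.lift_cond_of_cyclic M hc Q hQ hQM
    have h8 := (Cfsg.Agent.H73.two_case hB hsol M hqM (hidx hqA)).resolve_left hc
    have h4A : ¬ 4 ∣ Nat.card A := (hcase.resolve_left hc).resolve_left (not_not.2 hqM)
    obtain ⟨S, hQS⟩ := hQ.exists_le_sylow
    obtain ⟨hS8, hin, hout, hcap⟩ := h8 S
    obtain ⟨x, hxQ, hxM⟩ := SetLike.not_le_iff_exists.1 hQM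
    have hx2 : x ^ 2 ≠ 1 := fun h => hxM (hin x (hQS hxQ) h)
    have himg : Nat.card (Q.map (QuotientGroup.mk' M)) ≤ 2 := by
      obtain ⟨i, hi⟩ := (hQ.map (QuotientGroup.mk' M)).exists_card_eq
      have hd : Nat.card (Q.map (QuotientGroup.mk' M)) ∣ Nat.card A := by
        rcases hQAB with h | h
        · exact Subgroup.card_dvd_of_le h
        · exact hcard.symm ▸ Subgroup.card_dvd_of_le h
      rw [hi] at hd ⊢
      by_contra hlt
      rcases i with _ | _ | i
      · simp at hlt
      · simp at hlt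
      · exact h4A ((pow_dvd_pow 2 (show 2 ≤ i + 2 by omega)).trans hd)
    have hinf : Nat.card ↥(Q ⊓ M) ∣ 2 := by
      have := Subgroup.card_dvd_of_le (inf_le_inf_right M hQS)
      rwa [hcap] at this
    have hQc : Nat.card Q ≤ 4 := by
      have h1 := Subgroup.card_mul_index (M.subgroupOf Q)
      have h2 : (M.subgroupOf Q).index = Nat.card (Q.map (QuotientGroup.mk' M)) := by
        have h3 := Subgroup.relIndex_ker (f := QuotientGroup.mk' M) Q
        simp only [QuotientGroup.ker_mk'] at h3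
        exact h3
      have h4 : Nat.card (M.subgroupOf Q) = Nat.card ↥(Q ⊓ M) := by
        rw [← Subgroup.card_map_of_injective (K := M.subgroupOf Q) Q.subtype_injective,
          Subgroup.subgroupOf_map_subtype, inf_comm]
      rw [← h1, h4, h2]
      calc _ ≤ 2 * 2 := Nat.mul_le_mul (Nat.le_of_dvd two_pos hinf) himg
        _ = 4 := rfl
    have hzp : Q = Subgroup.zpowers x := by
      refine (Subgroup.eq_of_le_of_card_ge (Subgroup.zpowers_le.2 hxQ) ?_).symm
      refine hQc.trans ?_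
      rw [Nat.card_zpowers]
      obtain ⟨i, -, hi⟩ := (Nat.dvd_prime_pow Nat.prime_two).1
        (show orderOf x ∣ 2 ^ 3 by
            have := (S : Subgroup G).orderOf_dvd_natCard (hQS hxQ)
            rwa [hS8] at this)
      rcases i with _ | _ | i
      · exact absurd (by rw [← orderOf_dvd_iff_pow_eq_one, hi, pow_zero]; exact one_dvd 2) hx2
      · exact absurd (by rw [← orderOf_dvd_iff_pow_eq_one, hi]; simp) hx2
      · rw [hi]
        calc 4 = 2 ^ 2 := rfl
          _ ≤ 2 ^ (i + 1 + 1) := Nat.pow_le_pow_right two_pos (by omega)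
    refine ⟨hzp ▸ inferInstance, ?_⟩
    have hv : (Nat.card M).factorization 2 ≤ 1 := by
      have := Cfsg.Agent.H73.exists_pow_dvd_card_inf M S
      rw [hcap] at this
      exact (Nat.pow_dvd_pow_iff_le_right (one_lt_two)).1 (this.trans (pow_one 2).symm.dvd)
    refine (pow_dvd_pow 2 hv).trans ?_
    rw [pow_one]
    have hy : x ^ 2 ∈ Q ⊓ M := by
      refine ⟨pow_mem hxQ 2, hin _ (pow_mem (hQS hxQ) 2) ?_⟩
      rw [← pow_mul]
      have h8' : x ^ (2 * 2) = 1 := by
        rw [← orderOf_dvd_iff_pow_eq_one]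
        have hle : orderOf x ≤ 4 := by
          rw [← Nat.card_zpowers, ← hzp]; exact hQc
        obtain ⟨i, -, hi⟩ := (Nat.dvd_prime_pow Nat.prime_two).1
          (show orderOf x ∣ 2 ^ 3 by
            have := (S : Subgroup G).orderOf_dvd_natCard (hQS hxQ)
            rwa [hS8] at this)
        rw [hi] at hle ⊢
        exact pow_dvd_pow 2 ((Nat.pow_le_pow_iff_right one_lt_two).1 (show 2 ^ i ≤ 2 ^ 2 from hle))
      exact h8'
    have hy2 : orderOf (x ^ 2) = 2 := orderOf_eq_prime (hout _ (pow_mem (hQS hxQ) 2) hy.2) hx2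
    exact hy2 ▸ Subgroup.orderOf_dvd_natCard _ hy
  by_cases h2M : 2 ∣ Nat.card M
  swap
  · exact hgen A B hA hBc hcard (Or.inr (Or.inl h2M))
  by_cases h4 : 4 ∣ Nat.card A
  swap
  · exact hgen A B hA hBc hcard (Or.inr (Or.inr h4))
  rcases Cfsg.Agent.H73.two_case hB hsol M h2M (hidx (dvd_trans (by norm_num) h4)) with hc | h8
  · exact hgen A B hA hBc hcard (Or.inl hc)
  refine Cfsg.Agent.S3912.four_case A B hA hBc hcard h4 ?_ (fun R R' h1 h2 h3 h4 => hgen R R' h1 h2 h3 (Or.inr (Or.inr h4)))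
  intro T
  obtain ⟨S, rfl⟩ := Sylow.mapSurjective_surjective (QuotientGroup.mk'_surjective M) 2 T
  obtain ⟨hS8, -, -, hcap⟩ := h8 S
  show Nat.card ((S : Subgroup G).map (QuotientGroup.mk' M)) = 4
  have h3 := Subgroup.relIndex_ker (f := QuotientGroup.mk' M) (S : Subgroup G)
  simp only [QuotientGroup.ker_mk'] at h3
  rw [← h3]
  have h1 := Subgroup.card_mul_index (M.subgroupOf (S : Subgroup G))
  rw [← Subgroup.card_map_of_injective (K := M.subgroupOf (S : Subgroup G)) (S : Subgroup G).subtype_injective,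
    Subgroup.subgroupOf_map_subtype, inf_comm, hcap, hS8] at h1
  show (M.subgroupOf (S : Subgroup G)).index = 4
  omega

end Cfsg.Agent.S3912
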