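import Cfsg.Statements.S3734
import Cfsg.Agent.Coprime.Generation

set_option linter.style.haveILetI false

set_option autoImplicit false
open Cfsg
open scoped commutatorElement

namespace Cfsg.Agent.S3734

theorem mem_normalizer_biSup {X : Type*} [Group X] {ι : Type*} {S : Set ι} {H : ι → Subgroup X}
    {g : X} (h : ∀ i ∈ S, g ∈ Subgroup.normalizer (H i : Set X)) :
    g ∈ Subgroup.normalizer ((⨆ i ∈ S, H i : Subgroup X) : Set X) := by
  have e : ∀ i ∈ S, (H i).map (MulAut.conj g).toMonoidHom = H i := by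
    intro i hi
    ext y
    simp only [Subgroup.mem_map_equiv, MulAut.conj_symm_apply]
    rw [Subgroup.mem_normalizer_iff.mp (h i hi) (g⁻¹ * y * g)]
    simp [mul_assoc]
  have hW : (⨆ i ∈ S, H i).map (MulAut.conj g).toMonoidHom = ⨆ i ∈ S, H i := by
    simp only [Subgroup.map_iSup]
    exact iSup_congr fun i => iSup_congr fun hi => e i hi
  refine Subgroup.mem_normalizer_iff.mpr fun y => ?_
  conv_rhs => rw [← hW]
  simp only [Subgroup.mem_map_equiv, MulAut.conj_symm_apply]
  simp [mul_assoc]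

/-- Let A and G be subgroups of a finite group with A abelian, A normalizing G and the orders of A and G coprime. Then G is generated by the fixed-point subgroups C_G(B) of those subgroups B of A for which A/B is cyclic (that is, A = ⟨B, a⟩ for some a), and [G, A] is generated by the commutator subgroups [C_G(B), A] over the same subgroups B. -/
theorem result {X : Type*} [Group X] [Finite X] (A G : Subgroup X) (hAab : IsMulCommutative A) (hAG : A ≤ Subgroup.normalizer (G : Set X)) (hcop : (Nat.card A).Coprime (Nat.card G)) : (⨆ B ∈ {B : Subgroup X | B ≤ A ∧ ∃ a ∈ A, B ⊔ Subgroup.zpowers a = A}, G ⊓ Subgroup.centralizer (B : Set X)) = G ∧ (⨆ B ∈ {B : Subgroup X | B ≤ A ∧ ∃ a ∈ A, B ⊔ Subgroup.zpowers a = A}, ⁅G ⊓ Subgroup.centralizer (B : Set X), A⁆) = ⁅G, A⁆ := by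
  classical
  haveI : IsMulCommutative A := hAab
  have hcomm : ∀ a ∈ A, ∀ b ∈ A, a * b = b * a := fun a ha b hb =>
    congrArg Subtype.val (hAab.is_comm.comm ⟨a, ha⟩ ⟨b, hb⟩)
  set S := {B : Subgroup X | B ≤ A ∧ ∃ a ∈ A, B ⊔ Subgroup.zpowers a = A} with hS
  -- generation, relative to a subgroup of `A` centralizing `K`
  have key : ∀ n, ∀ A₀ : Subgroup X, A₀ ≤ A → Nat.card A - Nat.card A₀ ≤ n →
      ∀ K : Subgroup X, A ≤ Subgroup.normalizer (K : Set X) →
      (Nat.card A).Coprime (Nat.card K) → K ≤ Subgroup.centralizer (A₀ : Set X) →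
      K ≤ ⨆ B ∈ S, K ⊓ Subgroup.centralizer (B : Set X) := by
    intro n
    induction n using Nat.strong_induction_on with
    | _ n ih =>
      intro A₀ hA₀ hn K hAK hK hK₀
      by_cases hmem : A₀ ∈ S
      · exact le_iSup₂_of_le A₀ hmem (le_inf le_rfl hK₀)
      set C := Subgroup.centralizer (A₀ : Set X) with hC
      have hAC : A ≤ C := fun a ha =>
        Subgroup.mem_centralizer_iff.mpr fun b hb => hcomm b (hA₀ hb) a ha
      have hA₀C : A₀ ≤ C := hA₀.trans hAC
      set Z := A₀.subgroupOf C with hZ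
      haveI : Z.Normal := ⟨fun z hz g => by
        have h : (z : X) * g = g * z := Subgroup.mem_centralizer_iff.mp g.2 z hz
        show ((g * z * g⁻¹ : C) : X) ∈ A₀
        have e : ((g * z * g⁻¹ : C) : X) = z := by simp [← h]
        rw [e]; exact hz⟩
      let π := QuotientGroup.mk' Z
      set A' := (A.subgroupOf C).map π with hA'
      set K' := (K.subgroupOf C).map π with hK'
      haveI : IsMulCommutative A' := ⟨⟨by
        rintro ⟨_, a, ha, rfl⟩ ⟨_, b, hb, rfl⟩
        apply Subtype.ext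
        show π a * π b = π b * π a
        rw [← map_mul, ← map_mul]
        exact congrArg π (Subtype.ext (hcomm _ ha _ hb))⟩⟩
      have hA'cyc : ¬ IsCyclic A' := by
        rintro ⟨⟨⟨_, a, ha, rfl⟩, hgen⟩⟩
        refine hmem ⟨hA₀, a, ha, le_antisymm (sup_le hA₀ (Subgroup.zpowers_le.mpr ha)) fun b hb => ?_⟩
        obtain ⟨i, hi⟩ := Subgroup.mem_zpowers_iff.mp (hgen ⟨_, ⟨⟨b, hAC hb⟩, hb, rfl⟩⟩)
        have hi' : π (a ^ i) = π ⟨b, hAC hb⟩ := by
          rw [map_zpow]; simpa using congrArg Subtype.val hi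
        have hz : (a ^ i)⁻¹ * ⟨b, hAC hb⟩ ∈ Z := QuotientGroup.eq.mp hi'
        rw [← mul_inv_cancel_left ((a : X) ^ i) b]
        exact mul_mem (Subgroup.mem_sup_right (zpow_mem (Subgroup.mem_zpowers _) i))
          (Subgroup.mem_sup_left (by simpa [Subgroup.mem_subgroupOf, hZ] using hz))
      have hA'K' : A' ≤ Subgroup.normalizer (K' : Set (C ⧸ Z)) := by
        refine le_trans ?_ (Subgroup.le_normalizer_map π)
        refine Subgroup.map_mono fun a ha => Subgroup.mem_normalizer_iff.mpr fun k => ?_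
        exact Subgroup.mem_normalizer_iff.mp (hAK ha) k
      have hdA : Nat.card A' ∣ Nat.card A :=
        (Subgroup.card_map_dvd _ _).trans (Nat.card_congr (Subgroup.subgroupOfEquivOfLe hAC).toEquiv).dvd
      have hdK : Nat.card K' ∣ Nat.card K :=
        (Subgroup.card_map_dvd _ _).trans (Nat.card_congr (Subgroup.subgroupOfEquivOfLe hK₀).toEquiv).dvd
      have hgen := Cfsg.Agent.Coprime.iSup_centralizer_eq hA'cyc hA'K'
        ((hK.coprime_dvd_left hdA).coprime_dvd_right hdK)
      set W := ⨆ B ∈ S, K ⊓ Subgroup.centralizer (B : Set X) with hW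
      have hWK : W ≤ K := iSup₂_le fun B _ => inf_le_left
      have hinf : K ⊓ A₀ = ⊥ := (disjoint_iff.mp (Subgroup.disjoint_of_coprime_natCard
        (hK.symm.coprime_dvd_right (Subgroup.card_dvd_of_le hA₀))))
      have hle : K' ≤ (W.subgroupOf C).map π := by
        rw [← hgen]
        refine iSup₂_le fun x hx => ?_
        obtain ⟨⟨a, ha, rfl⟩, hx1⟩ := hx
        rintro _ ⟨⟨k, hk, rfl⟩, hkx⟩
        refine Subgroup.mem_map_of_mem π (show (k : X) ∈ W from ?_)
        have hcm : π k * π a = π a * π k :=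
          Subgroup.mem_centralizer_singleton_iff.mp hkx
        rw [← map_mul, ← map_mul] at hcm
        have hz : ((k * a)⁻¹ * (a * k) : C) ∈ Z := QuotientGroup.eq.mp hcm
        have hkK : (k : X)⁻¹ * ((a : X) * k * (a : X)⁻¹) ∈ K :=
          mul_mem (inv_mem hk) ((Subgroup.mem_normalizer_iff.mp (hAK ha) _).mp hk)
        have hzX : (a : X)⁻¹ * (k : X)⁻¹ * ((a : X) * k) ∈ A₀ := by
          simpa [Subgroup.mem_subgroupOf, hZ, mul_assoc] using hz
        have h2 : (k : X)⁻¹ * ((a : X) * k * (a : X)⁻¹) ∈ A₀ := by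
          have : (k : X)⁻¹ * ((a : X) * k * (a : X)⁻¹) =
              a * ((a : X)⁻¹ * (k : X)⁻¹ * ((a : X) * k)) * (a : X)⁻¹ := by group
          rw [this, hcomm a ha _ (hA₀ hzX), mul_inv_cancel_right]
          exact hzX
        have h1 : (k : X)⁻¹ * ((a : X) * k * (a : X)⁻¹) = 1 :=
          Subgroup.mem_bot.mp (hinf ▸ Subgroup.mem_inf.mpr ⟨hkK, h2⟩)
        have haka : (a : X) * k * (a : X)⁻¹ = k := (inv_mul_eq_one.mp h1).symm
        have hka : (k : X) * a = a * k := by
          calc (k : X) * a = a * k * (a : X)⁻¹ * a := by rw [haka]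
            _ = a * k := by group
        have ha0 : (a : X) ∉ A₀ := fun h => hx1 ((QuotientGroup.eq_one_iff a).mpr h)
        set A₁ := A₀ ⊔ Subgroup.zpowers (a : X) with hA₁
        have hA₁A : A₁ ≤ A := sup_le hA₀ (Subgroup.zpowers_le.mpr ha)
        have hlt : A₀ < A₁ :=
          lt_of_le_of_ne le_sup_left fun h => ha0 (h ▸ Subgroup.mem_sup_right (Subgroup.mem_zpowers _))
        have hcard : Nat.card A₀ < Nat.card A₁ := lt_of_le_of_ne (Subgroup.card_le_of_le hlt.le)
          fun h => hlt.ne (Subgroup.eq_of_le_of_card_ge hlt.le h.ge)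
        have hA₁c := Subgroup.card_le_of_le hA₁A
        have hK₁n : A ≤ Subgroup.normalizer ((K ⊓ Subgroup.centralizer (A₁ : Set X) : Subgroup X) : Set X) :=
          fun b hb => Subgroup.mem_normalizer_iff.mpr fun y => by
            have hbc : ∀ c ∈ A₁, c * b = b * c := fun c hc => hcomm c (hA₁A hc) b hb
            rw [Subgroup.mem_inf, Subgroup.mem_inf, ← Subgroup.mem_normalizer_iff.mp (hAK hb) y]
            refine and_congr_right fun _ => ?_
            rw [Subgroup.mem_centralizer_iff, Subgroup.mem_centralizer_iff]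
            refine ⟨fun h c hc => ?_, fun h c hc => ?_⟩
            · rw [← mul_assoc, ← mul_assoc, hbc c hc, mul_assoc b, h c hc, ← mul_assoc]
              have hcb : c * b⁻¹ = b⁻¹ * c := hcomm c (hA₁A hc) b⁻¹ (inv_mem hb)
              rw [mul_assoc (b * y) c, hcb, ← mul_assoc]
            · have h' := h c hc
              have hcb : c * b⁻¹ = b⁻¹ * c := hcomm c (hA₁A hc) b⁻¹ (inv_mem hb)
              calc c * y = b⁻¹ * (c * (b * y * b⁻¹)) * b := by
                    rw [← mul_assoc c, ← mul_assoc c, hbc c hc]; group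
                _ = b⁻¹ * (b * y * b⁻¹ * c) * b := by rw [h']
                _ = y * c := by rw [mul_assoc (b * y) b⁻¹ c, ← hcb]; group
        have hkK₁ : (k : X) ∈ K ⊓ Subgroup.centralizer (A₁ : Set X) := by
          refine ⟨hk, ?_⟩
          have : A₁ ≤ Subgroup.centralizer ({(k : X)} : Set X) := sup_le
            (fun c hc => Subgroup.mem_centralizer_singleton_iff.mpr
              (Subgroup.mem_centralizer_iff.mp k.2 c hc))
            (Subgroup.zpowers_le.mpr (Subgroup.mem_centralizer_singleton_iff.mpr hka.symm))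
          exact Subgroup.mem_centralizer_iff.mpr fun c hc =>
            Subgroup.mem_centralizer_singleton_iff.mp (this hc)
        have hmono : (⨆ B ∈ S, K ⊓ Subgroup.centralizer (A₁ : Set X) ⊓ Subgroup.centralizer (B : Set X)) ≤ W :=
          iSup₂_mono fun B _ => inf_le_inf_right _ inf_le_left
        exact hmono
          (ih (Nat.card A - Nat.card A₁) (by omega) A₁ hA₁A le_rfl _ hK₁n
            (hK.coprime_dvd_right (Subgroup.card_dvd_of_le inf_le_left)) inf_le_right hkK₁)
      intro k hk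
      obtain ⟨w, hw, hwk⟩ := hle (Subgroup.mem_map_of_mem π (show (⟨k, hK₀ hk⟩ : C) ∈ K.subgroupOf C from hk))
      have hz : w⁻¹ * ⟨k, hK₀ hk⟩ ∈ Z := QuotientGroup.eq.mp hwk
      have h2 : (w : X)⁻¹ * k ∈ A₀ := by simpa [Subgroup.mem_subgroupOf, hZ] using hz
      have h1 := Subgroup.mem_bot.mp (hinf ▸ Subgroup.mem_inf.mpr
        ⟨mul_mem (inv_mem (hWK hw)) hk, h2⟩)
      rw [← inv_mul_eq_one.mp h1]
      exact hw
  have gen : ∀ K : Subgroup X, A ≤ Subgroup.normalizer (K : Set X) →
      (Nat.card A).Coprime (Nat.card K) → K ≤ ⨆ B ∈ S, K ⊓ Subgroup.centralizer (B : Set X) :=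
    fun K h1 h2 => key _ ⊥ bot_le le_rfl K h1 h2 (by
      intro k _
      rw [Subgroup.mem_centralizer_iff]
      intro c hc
      rw [Subgroup.mem_bot.mp hc, one_mul, mul_one])
  refine ⟨le_antisymm (iSup₂_le fun B _ => inf_le_left) (gen G hAG hcop), ?_⟩
  set W := ⨆ B ∈ S, ⁅G ⊓ Subgroup.centralizer (B : Set X), A⁆ with hW
  refine le_antisymm (iSup₂_le fun B _ => Subgroup.commutator_mono inf_le_left le_rfl) ?_
  have hKG : ⁅G, A⁆ ≤ G := Cfsg.Agent.Coprime.commutator_le_of_le_normalizer hAG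
  have hAn : A ≤ Subgroup.normalizer ((⁅G, A⁆ : Subgroup X) : Set X) :=
    Cfsg.Agent.Coprime.le_normalizer_commutator_right G A
  have hCn : ∀ B ∈ S, A ≤ Subgroup.normalizer ((G ⊓ Subgroup.centralizer (B : Set X) : Subgroup X) : Set X) :=
    fun B hB b hb => by
      have hbC : b ∈ Subgroup.centralizer (B : Set X) :=
        Subgroup.mem_centralizer_iff.mpr fun c hc => hcomm c (hB.1 hc) b hb
      exact Subgroup.mem_normalizer_iff.mpr fun y => by
        rw [Subgroup.mem_inf, Subgroup.mem_inf, Subgroup.mem_normalizer_iff.mp (hAG hb) y,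
          Subgroup.mem_normalizer_iff.mp (Subgroup.le_normalizer hbC) y]
  set C := G ⊓ Subgroup.centralizer (A : Set X) with hC
  have hAW : A ≤ Subgroup.normalizer (W : Set X) := fun b hb => by
    refine mem_normalizer_biSup fun B hB => ?_
    exact Cfsg.Agent.Coprime.le_normalizer_commutator_right _ A hb
  have hCW : C ≤ Subgroup.normalizer (W : Set X) := fun c hc => by
    refine mem_normalizer_biSup fun B hB => ?_
    refine Cfsg.Agent.Coprime.le_normalizer_commutator_left _ A ⟨hc.1, ?_⟩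
    exact Subgroup.centralizer_le hB.1 hc.2
  have hsup : ⁅G, A⁆ ≤ C ⊔ W := by
    refine (gen _ hAn (hcop.coprime_dvd_right (Subgroup.card_dvd_of_le hKG))).trans
      (iSup₂_le fun B hB => ?_)
    refine (inf_le_inf_right _ hKG).trans ?_
    rw [← Cfsg.Agent.Coprime.commutator_sup_centralizer (hCn B hB)
      (hcop.coprime_dvd_right (Subgroup.card_dvd_of_le inf_le_left))
      (Or.inl (Group.isSolvable_of_comm fun a b => hAab.is_comm.comm a b))]
    exact sup_le ((le_iSup₂ (f := fun B (_ : B ∈ S) => ⁅G ⊓ Subgroup.centralizer (B : Set X), A⁆) B hB).trans le_sup_right)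
      (le_trans (inf_le_inf_right _ inf_le_left) le_sup_left)
  rw [← Cfsg.Agent.Coprime.commutator_commutator_eq hAG hcop, Subgroup.commutator_le]
  intro x hx a ha
  have hx' : x ∈ ((C ⊔ W : Subgroup X) : Set X) := hsup hx
  rw [Subgroup.coe_mul_of_left_le_normalizer_right C W hCW] at hx'
  obtain ⟨c, hc, w, hw, rfl⟩ := hx'
  have e : ⁅c * w, a⁆ = c * ⁅w, a⁆ * c⁻¹ := by
    have h : a * c = c * a := Subgroup.mem_centralizer_iff.mp hc.2 a ha
    calc ⁅c * w, a⁆ = c * w * a * w⁻¹ * (c⁻¹ * a⁻¹) := by simp only [commutatorElement_def]; group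
      _ = c * w * a * w⁻¹ * (a⁻¹ * c⁻¹) := by rw [← mul_inv_rev, ← mul_inv_rev, h]
      _ = _ := by simp only [commutatorElement_def]; group
  rw [e]
  refine (Subgroup.mem_normalizer_iff.mp (hCW hc) _).mp ?_
  have : ⁅w, a⁆ = w * (a * w⁻¹ * a⁻¹) := by simp only [commutatorElement_def]; group
  rw [this]
  exact mul_mem hw ((Subgroup.mem_normalizer_iff.mp (hAW ha) _).mp (inv_mem hw))

end Cfsg.Agent.S3734
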