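import Cfsg.Statements.S2402
import Cfsg.Agent.Spec.SLGen
-- import your own Cfsg.Agent.* helpers here

set_option autoImplicit false
open Cfsg

namespace Cfsg.Agent.S2402

/-- Explicit two-element generation of `PSL_{n+1}(K)` for a finite field `K` with more than three elements: let `k` generate the multiplicative group of `K`, `h = diag(k, k⁻¹, 1, …, 1)`, `x = 1 + E₁₂` (the elementary transvection) and `w` the monomial matrix with entries `1` in positions `(i, i+1)` and `(−1)^n` in position `(n+1, 1)`. Then `h` and `x·w` generate `SL_{n+1}(K)` modulo its centre: the subgroup they generate together with the centre is everything. -/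
theorem result {K : Type*} [Field K] [Fintype K] (hK : 3 < Fintype.card K) (n : ℕ) (hn : 1 ≤ n)
    (k : Kˣ) (hk : ∀ u : Kˣ, u ∈ Subgroup.zpowers k)
    (h x w : Matrix.SpecialLinearGroup (Fin (n + 1)) K)
    (hh : (h : Matrix (Fin (n + 1)) (Fin (n + 1)) K) =
      Matrix.diagonal (fun i => if i.val = 0 then (k : K) else if i.val = 1 then ((k⁻¹ : Kˣ) : K) else 1))
    (hx : (x : Matrix (Fin (n + 1)) (Fin (n + 1)) K) = Matrix.transvection (0 : Fin (n + 1)) (1 : Fin (n + 1)) 1)
    (hw : (w : Matrix (Fin (n + 1)) (Fin (n + 1)) K) =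
      Matrix.of (fun i j => if j.val = i.val + 1 then 1 else if i.val = n ∧ j.val = 0 then (-1) ^ n else 0)) :
    Subgroup.closure ({h, x * w} : Set (Matrix.SpecialLinearGroup (Fin (n + 1)) K)) ⊔
      Subgroup.center (Matrix.SpecialLinearGroup (Fin (n + 1)) K) = ⊤ := by
  classical
  have hw' := hw.trans Agent.Spec.SLGen.cycMat_eq.symm
  set H := Subgroup.closure ({h, x * w} : Set (Matrix.SpecialLinearGroup (Fin (n + 1)) K))
  suffices hH : H = ⊤ by rw [hH, top_sup_eq]
  have hhH : h ∈ H := Subgroup.subset_closure (by simp)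
  have haH : x * w ∈ H := Subgroup.subset_closure (by simp)
  have hn0 : ((0 : Fin (n + 1)) : ℕ) = 0 := rfl
  have hn1 : ((1 : Fin (n + 1)) : ℕ) = 1 := by
    rw [Fin.val_one']; exact Nat.mod_eq_of_lt (by omega)
  have h01 : (0 : Fin (n + 1)) ≠ 1 := fun e => by have := congrArg Fin.val e; omega
  let d : Fin (n + 1) → K := fun i => if i.val = 0 then (k : K) else if i.val = 1 then ((k⁻¹ : Kˣ) : K) else 1
  have hd0 : d 0 = (k : K) := if_pos rfl
  have hd1 : d 1 = ((k⁻¹ : Kˣ) : K) := (if_neg (by omega)).trans (if_pos hn1)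
  have hd2 : d (1 + 1) = if n = 1 then (k : K) else 1 := by
    have hv : ((1 + 1 : Fin (n + 1)) : ℕ) = (1 + 1) % (n + 1) := by rw [Fin.val_add, hn1]
    split_ifs with e
    · exact if_pos (by rw [hv, e])
    · rw [Nat.mod_eq_of_lt (by omega)] at hv
      exact (if_neg (by omega)).trans (if_neg (by omega))
  have hord : orderOf k = Fintype.card K - 1 := by
    rw [orderOf_eq_card_of_forall_mem_zpowers hk, Nat.card_units, Nat.card_eq_fintype_card]
  have hk2 : (k : K) ^ 2 ≠ 1 := by
    intro e
    have : k ^ 2 = 1 := Units.ext (by simpa using e)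
    have := Nat.le_of_dvd (by norm_num) (orderOf_dvd_of_pow_eq_one this)
    omega
  have hk1 : (k : K) ≠ 1 := fun e => hk2 (by rw [e, one_pow])
  have hk0 : (k : K) ≠ 0 := k.ne_zero
  -- conjugates of `h`
  set h' := w * h * w⁻¹ with hh'def
  have hh' : (h' : Matrix (Fin (n + 1)) (Fin (n + 1)) K) = Matrix.diagonal (fun i => d (i + 1)) := by
    have hdet : Matrix.det (Matrix.diagonal (fun i => d (i + 1))) = 1 := by
      rw [Matrix.det_diagonal, Fintype.prod_equiv (Equiv.addRight (1 : Fin (n + 1))) (fun i => d (i + 1)) d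
        (fun _ => rfl), ← Matrix.det_diagonal]
      exact (congrArg Matrix.det hh.symm).trans h.det_coe
    have : h' = ⟨Matrix.diagonal (fun i => d (i + 1)), hdet⟩ := by
      rw [hh'def]
      apply mul_inv_eq_of_eq_mul
      apply Subtype.ext
      show (w : Matrix (Fin (n + 1)) (Fin (n + 1)) K) * (h : Matrix (Fin (n + 1)) (Fin (n + 1)) K) =
        Matrix.diagonal (fun i => d (i + 1)) * (w : Matrix (Fin (n + 1)) (Fin (n + 1)) K)
      rw [hw', hh]
      ext i j
      rw [Agent.Spec.SLGen.cycMat_mul, Agent.Spec.SLGen.mul_cycMat, Matrix.diagonal_apply, Matrix.diagonal_apply]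
      by_cases hij : i + 1 = j
      · subst hij; simp [d, mul_comm]
      · rw [if_neg hij, if_neg (fun e => hij (by rw [e, sub_add_cancel]))]
        simp
    rw [this]
  obtain ⟨c, hc, hc1⟩ : ∃ c : K, c * d (1 + 1) = d (0 + 1) ∧ c ≠ 1 := by
    rw [hd2, zero_add, hd1, Units.val_inv_eq_inv_val]
    split_ifs
    · refine ⟨((k : K) ^ 2)⁻¹, ?_, by simpa using hk2⟩
      field_simp
    · exact ⟨(k : K)⁻¹, mul_one _, by simpa using hk1⟩
  have hx' : x = Matrix.SpecialLinearGroup.transvection h01 (1 : K) :=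
    Subtype.ext (by rw [hx, Matrix.SpecialLinearGroup.transvection_coe]; rfl)
  set T : K → Matrix.SpecialLinearGroup (Fin (n + 1)) K := fun t => Matrix.SpecialLinearGroup.transvection h01 t
  set A := Agent.Spec.SLGen.rootParams h01 H
  have Tadd : ∀ a b : K, T (a + b) = T a * T b := fun a b => Subtype.ext (by
    simp [T, Matrix.SpecialLinearGroup.transvection_coe, Agent.Linear.val_mul, mul_add, add_mul,
      Matrix.single_mul_single_of_ne _ _ _ _ h01.symm, Matrix.single_add, add_assoc])
  have hconjh : ∀ t, h * T t * h⁻¹ = T ((k : K) ^ 2 * t) := fun t =>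
    Agent.Spec.SLGen.diag_mul_transvection h01 h d hh _ t (by
      rw [hd0, hd1, Units.val_inv_eq_inv_val]; field_simp)
  have hconjh' : ∀ t, h' * T t * h'⁻¹ = T (c * t) := fun t =>
    Agent.Spec.SLGen.diag_mul_transvection h01 h' _ hh' c t hc
  have hcomm : h * h' = h' * h := Subtype.ext (by
    show (h : Matrix (Fin (n + 1)) (Fin (n + 1)) K) * (h' : Matrix (Fin (n + 1)) (Fin (n + 1)) K) =
      (h' : Matrix (Fin (n + 1)) (Fin (n + 1)) K) * (h : Matrix (Fin (n + 1)) (Fin (n + 1)) K)
    rw [hh, hh', Matrix.diagonal_mul_diagonal, Matrix.diagonal_mul_diagonal]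
    simp_rw [mul_comm])
  have hy : T (1 - c) * h' ∈ H := by
    have e : T (1 - c) * h' = (x * w) * h * (x * w)⁻¹ := by
      calc T (1 - c) * h' = T 1 * T (c * -1) * h' := by rw [← Tadd]; congr 2; ring
        _ = T 1 * h' * T (-1) := by rw [← hconjh']; group
        _ = x * h' * x⁻¹ := by rw [hx', Matrix.SpecialLinearGroup.transvection_inv]
        _ = _ := by rw [hh'def]; group
    rw [e]; exact mul_mem (mul_mem haH hhH) (inv_mem haH)
  have hs : ((k : K) ^ 2 - 1) * (1 - c) ∈ A := by
    show T (((k : K) ^ 2 - 1) * (1 - c)) ∈ H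
    have e : T (((k : K) ^ 2 - 1) * (1 - c)) = h * (T (1 - c) * h') * h⁻¹ * (T (1 - c) * h')⁻¹ := by
      have e0 : h * (T (1 - c) * h') * h⁻¹ = T ((k : K) ^ 2 * (1 - c)) * h' := by
        have hc' : h' * h⁻¹ = h⁻¹ * h' := (Commute.inv_left (show Commute h h' from hcomm)).eq.symm
        rw [← hconjh]
        calc h * (T (1 - c) * h') * h⁻¹ = h * T (1 - c) * (h' * h⁻¹) := by simp only [mul_assoc]
          _ = _ := by rw [hc']; simp only [mul_assoc]
      rw [e0, show ((k : K) ^ 2 - 1) * (1 - c) = (k : K) ^ 2 * (1 - c) + -(1 - c) by ring, Tadd]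
      simp only [T, ← Matrix.SpecialLinearGroup.transvection_inv]
      group
    rw [e]; exact mul_mem (mul_mem (mul_mem hhH hy) (inv_mem hhH)) (inv_mem hy)
  have hA : A = ⊤ := by
    refine Agent.Spec.SLGen.addSubgroup_eq_top_of_sq A hs
      (mul_ne_zero (sub_ne_zero.2 hk2) (sub_ne_zero.2 (Ne.symm hc1))) ?_
    have step : ∀ t ∈ A, (k : K) ^ 2 * t ∈ A := fun t ht => by
      show T ((k : K) ^ 2 * t) ∈ H
      rw [← hconjh]; exact mul_mem (mul_mem hhH ht) (inv_mem hhH)
    intro u hu t ht
    obtain ⟨m, hm⟩ := (mem_powers_iff_mem_zpowers (x := k)).2 (hk (Units.mk0 u hu))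
    have hmu : u = (k : K) ^ m := by
      have := congrArg Units.val hm
      simpa using this.symm
    have : ∀ m : ℕ, ((k : K) ^ m) ^ 2 * t ∈ A := by
      intro m
      induction m with
      | zero => simpa using ht
      | succ m ih =>
        have := step _ ih
        convert this using 1
        ring
    rw [hmu]; exact this m
  have hall : ∀ t, T t ∈ H := fun t => by
    have : t ∈ A := by rw [hA]; trivial
    exact this
  have hxH : x ∈ H := by rw [hx']; exact hall 1
  refine Agent.Spec.SLGen.eq_top_of_root_mem hn w hw' H ?_ (fun _ t => hall t)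
  have : w = x⁻¹ * (x * w) := by group
  rw [this]; exact mul_mem (inv_mem hxH) haH
end Cfsg.Agent.S2402
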