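import Cfsg.Statements.S2403
import Cfsg.Agent.Spec.SLGen
-- import your own Cfsg.Agent.* helpers here

set_option autoImplicit false
open Cfsg

namespace Cfsg.Agent.S2403

/-- Explicit two-element generation of `PSL_{n+1}(K)` over the fields with two or three elements: with `x = 1 + E₁₂` and `w` the monomial matrix with entries `1` in positions `(i, i+1)` and `(−1)^n` in position `(n+1, 1)`, the elements `x` and `w` generate `SL_{n+1}(K)` modulo its centre. -/
theorem result {K : Type*} [Field K] [Fintype K] (hK : Fintype.card K ≤ 3) (n : ℕ) (hn : 1 ≤ n)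
    (x w : Matrix.SpecialLinearGroup (Fin (n + 1)) K)
    (hx : (x : Matrix (Fin (n + 1)) (Fin (n + 1)) K) = Matrix.transvection (0 : Fin (n + 1)) (1 : Fin (n + 1)) 1)
    (hw : (w : Matrix (Fin (n + 1)) (Fin (n + 1)) K) =
      Matrix.of (fun i j => if j.val = i.val + 1 then 1 else if i.val = n ∧ j.val = 0 then (-1) ^ n else 0)) :
    Subgroup.closure ({x, w} : Set (Matrix.SpecialLinearGroup (Fin (n + 1)) K)) ⊔
      Subgroup.center (Matrix.SpecialLinearGroup (Fin (n + 1)) K) = ⊤ := by
  classical
  set H := Subgroup.closure ({x, w} : Set (Matrix.SpecialLinearGroup (Fin (n + 1)) K))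
  suffices hH : H = ⊤ by rw [hH, top_sup_eq]
  have hw' := hw.trans Agent.Spec.SLGen.cycMat_eq.symm
  refine Agent.Spec.SLGen.eq_top_of_root_mem hn w hw' H (Subgroup.subset_closure (by simp)) ?_
  intro h t
  have h1 : (1 : K) ∈ Agent.Spec.SLGen.rootParams h H := by
    show Matrix.SpecialLinearGroup.transvection h (1 : K) ∈ H
    have : Matrix.SpecialLinearGroup.transvection h (1 : K) = x :=
      Subtype.ext (by rw [hx, Matrix.SpecialLinearGroup.transvection_coe]; rfl)
    rw [this]
    exact Subgroup.subset_closure (by simp)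
  have hp : (Nat.card K).Prime := by
    rw [Nat.card_eq_fintype_card]
    have := Fintype.one_lt_card (α := K)
    rcases (by omega : Fintype.card K = 2 ∨ Fintype.card K = 3) with e | e <;> rw [e] <;> norm_num
  haveI := Fact.mk hp
  have hne : Agent.Spec.SLGen.rootParams h H ≠ ⊥ := fun e => one_ne_zero ((AddSubgroup.mem_bot).1 (e ▸ h1))
  have := ((Agent.Spec.SLGen.rootParams h H).eq_bot_or_eq_top_of_prime_card).resolve_left hne
  have ht : t ∈ Agent.Spec.SLGen.rootParams h H := by rw [this]; trivial
  exact ht
end Cfsg.Agent.S2403
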