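import Cfsg.Statements.S5395
import Cfsg.Agent.PGroup.Extraspecial

set_option autoImplicit false
set_option linter.style.longLine false
open Cfsg

namespace Cfsg.Agent.S5395

/-- For a finite extraspecial 2-group E, an automorphism of E that induces the identity on E modulo its centre is inner (so these automorphisms form exactly the inner automorphism group, an elementary abelian 2-group of order |E|/2). -/
theorem result {E : Type*} [Group E] [Finite E] (hE : Cfsg.IsExtraspecial 2 E) (φ : E ≃* E) (hφ : ∀ x : E, φ x * x⁻¹ ∈ Subgroup.center E) : ∃ g : E, ∀ x : E, φ x = g * x * g⁻¹ := by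
  haveI : Fact (Nat.Prime 2) := ⟨Nat.prime_two⟩
  obtain ⟨g, hg⟩ := Cfsg.Agent.PGroup.extraspecial_exists_conj hE φ (fun x => by
    have h := hφ x
    have e : x⁻¹ * φ x = φ x * x⁻¹ := by
      calc x⁻¹ * φ x = x⁻¹ * (φ x * x⁻¹ * x) := by group
        _ = x⁻¹ * (x * (φ x * x⁻¹)) := by rw [Subgroup.mem_center_iff.1 h x]
        _ = φ x * x⁻¹ := by group
    rw [e]
    exact h)
  exact ⟨g, fun x => by rw [hg]; rfl⟩

end Cfsg.Agent.S5395
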