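import Cfsg.Statements.S3060
import Cfsg.Agent.LocEven.DStar
-- import your own Cfsg.Agent.* helpers here

set_option autoImplicit false
open Cfsg

namespace Cfsg.Agent.S3060

/-- The D*-Theorem. For a finite p-group S let D*(S) be the subgroup generated by the abelian subgroups A of S such that every x ∈ S with ⟨A, x⟩ of nilpotency class at most two centralizes A. Let p be an odd prime and H a finite p-stable group with Sylow p-subgroup S. Here H is p-stable in the following sense: the largest normal p-subgroup O_p(H) contains its centralizer in H, and for every normal p-subgroup P of H, every element acting quadratically on P has image in O_p(H/C_H(P)). Then D*(S) is a normal subgroup of H. -/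
theorem result {G : Type*} [Group G] [Finite G] {p : ℕ} [Fact p.Prime] (hp : p ≠ 2)
    (hc : Subgroup.centralizer (Cfsg.pCore p G : Set G) ≤ Cfsg.pCore p G)
    (hst : ∀ (P : Subgroup G) [P.Normal], IsPGroup p P → Cfsg.IsPStableOn p P) (S : Sylow p G) :
    (Cfsg.dStarOf (S : Subgroup G)).Normal := by
  exact LocEven.DStar.dStar_theorem hc hst S

end Cfsg.Agent.S3060
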