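import Cfsg.Statements.S2363
import Cfsg.Agent.KSG.OrderBoundCases
-- import your own Cfsg.Agent.* helpers here

set_option autoImplicit false
open Cfsg

namespace Cfsg.Agent.S2363

/-- Let G be a finite simple group of Lie type in characteristic p and let p^k be the exact power of p dividing the order of G. Then the order of G is less than p^(3k); and unless G is isomorphic to PSL(2, F) for the field F with p^k elements, the cube of the order of G is less than p^(8k) (that is, the order is below p^(8k/3)). -/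
theorem result {G : Type*} [Group G] [Finite G] (p : ℕ) (hp : p.Prime) (hG : Cfsg.IsLieTypeChar p G) :
    Nat.card G < p ^ (3 * (Nat.card G).factorization p) ∧
      ((¬ ∃ (F : Type) (_ : Field F) (_ : Fintype F), Fintype.card F = p ^ (Nat.card G).factorization p ∧
          Nonempty (G ≃* Matrix.ProjectiveSpecialLinearGroup (Fin 2) F)) →
        Nat.card G ^ 3 < p ^ (8 * (Nat.card G).factorization p)) := by
  have key : ∀ {H : Type} [Group H], Nonempty (G ≃* H) →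
      Cfsg.Agent.KSG.OrdBound.Bounds p (Nat.card H) → Cfsg.Agent.KSG.OrdBound.Bounds p (Nat.card G) := by
    intro H _ he hB
    obtain ⟨e⟩ := he
    rwa [Nat.card_congr e.toEquiv]
  rcases hG with ⟨F, _, _, _, n, hn, -, he⟩ | ⟨F, _, _, _, m, hm, -, he⟩ |
    ⟨F, _, _, _, n, q, hF, hn, -, he⟩ | ⟨F, _, _, _, m, hm, hodd, he⟩ | ⟨F, _, _, _, m, hm, he⟩ |
    ⟨F, _, _, _, m, a, b, hm, hab, he⟩ | ⟨F, _, _, _, h⟩ | ⟨K, _, _, _, q, hq, h⟩ |
    ⟨rfl, F, _, _, m, hm, hF, he⟩ | ⟨rfl, K, _, _, m, -, hK, he⟩ | ⟨rfl, K, _, _, m, -, hK, he⟩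
  · obtain ⟨e⟩ := he
    rcases Cfsg.Agent.KSG.OrdBound.bounds_PSL hp F n hn with ⟨rfl, h1, h2⟩ | h
    · rw [← Nat.card_congr e.toEquiv] at h1 h2
      exact ⟨h2, fun hne => absurd ⟨F, _, _, h1, ⟨e⟩⟩ hne⟩
    · have := key ⟨e⟩ h
      exact ⟨this.1, fun _ => this.2⟩
  · exact (fun h : Cfsg.Agent.KSG.OrdBound.Bounds p _ => ⟨h.1, fun _ => h.2⟩)
      (key he (Cfsg.Agent.KSG.OrdBound.bounds_PSp hp F m hm))
  · exact (fun h : Cfsg.Agent.KSG.OrdBound.Bounds p _ => ⟨h.1, fun _ => h.2⟩)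
      (key he (Cfsg.Agent.KSG.OrdBound.bounds_PSU hp F n q hF hn))
  · exact (fun h : Cfsg.Agent.KSG.OrdBound.Bounds p _ => ⟨h.1, fun _ => h.2⟩)
      (key he (Cfsg.Agent.KSG.OrdBound.bounds_odd hp F m hm hodd))
  · exact (fun h : Cfsg.Agent.KSG.OrdBound.Bounds p _ => ⟨h.1, fun _ => h.2⟩)
      (key he (Cfsg.Agent.KSG.OrdBound.bounds_plus hp F m hm))
  · exact (fun h : Cfsg.Agent.KSG.OrdBound.Bounds p _ => ⟨h.1, fun _ => h.2⟩)
      (key he (Cfsg.Agent.KSG.OrdBound.bounds_minus hp F m a b hm hab))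
  · obtain ⟨b1, b2, b3, b4, b5⟩ := Cfsg.Agent.KSG.OrdBound.bounds_exceptional hp F
    have h' : Cfsg.Agent.KSG.OrdBound.Bounds p (Nat.card G) := by
      rcases h with ⟨-, he⟩ | he | he | he | he
      exacts [key he b1, key he b2, key he b3, key he b4, key he b5]
    exact ⟨h'.1, fun _ => h'.2⟩
  · obtain ⟨b1, b2⟩ := Cfsg.Agent.KSG.OrdBound.bounds_E6D4 hp K q hq
    have h' : Cfsg.Agent.KSG.OrdBound.Bounds p (Nat.card G) := by
      rcases h with ⟨hK, he⟩ | ⟨hK, he⟩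
      exacts [key he (b1 hK), key he (b2 hK)]
    exact ⟨h'.1, fun _ => h'.2⟩
  · exact (fun h : Cfsg.Agent.KSG.OrdBound.Bounds 2 _ => ⟨h.1, fun _ => h.2⟩)
      (key he (Cfsg.Agent.KSG.OrdBound.bounds_suzuki F m hm hF))
  · exact (fun h : Cfsg.Agent.KSG.OrdBound.Bounds 2 _ => ⟨h.1, fun _ => h.2⟩)
      (key he (Cfsg.Agent.KSG.OrdBound.bounds_twistedF4 K m hK))
  · exact (fun h : Cfsg.Agent.KSG.OrdBound.Bounds 3 _ => ⟨h.1, fun _ => h.2⟩)
      (key he (Cfsg.Agent.KSG.OrdBound.bounds_twistedG2 K m hK))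

end Cfsg.Agent.S2363
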