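import Cfsg.Statements.S3495
import Cfsg.Agent.RecogA.Manning

set_option autoImplicit false
open Cfsg

namespace Cfsg.Agent.S3495

/-- Let a finite group G act faithfully and primitively on a finite set Ω with non-trivial point stabilizers, each acting primitively on every one of its orbits (an extremely primitive group), and suppose G has an elementary abelian normal p-subgroup N acting regularly on Ω (affine type). Then every non-trivial subgroup M of a point stabilizer G_α that is normal in G_α has the same orbits on Ω as G_α, and normalizes no subgroup of N other than 1 and N. -/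
theorem result {G : Type*} [Group G] [Finite G] {Ω : Type*} [Fintype Ω] [MulAction G Ω] [FaithfulSMul G Ω] (hprim : MulAction.IsPreprimitive G Ω) (hH : ∀ α : Ω, MulAction.stabilizer G α ≠ ⊥) (hep : ∀ (α : Ω) (ω : Ω), MulAction.IsPreprimitive (MulAction.stabilizer G α) (MulAction.orbit (MulAction.stabilizer G α) ω))
    (N : Subgroup G) [N.Normal] (hNc : IsMulCommutative N) (p : ℕ) (hp : p.Prime) (hNp : ∀ n ∈ N, n ^ p = 1)
    (hNtr : MulAction.IsPretransitive N Ω) (hNreg : ∀ ω : Ω, MulAction.stabilizer N ω = ⊥) (α : Ω) (M : Subgroup G) (hM : M ≠ ⊥) (hMle : M ≤ MulAction.stabilizer G α)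
    (hMn : MulAction.stabilizer G α ≤ Subgroup.normalizer (M : Set G)) :
    (∀ ω : Ω, MulAction.orbit M ω = MulAction.orbit (MulAction.stabilizer G α) ω) ∧
    (∀ L : Subgroup G, L ≤ N → M ≤ Subgroup.normalizer (L : Set G) → L = ⊥ ∨ L = N) := by
  classical
  have horb := fun ω => Cfsg.Agent.RecogA.orbit_normal_eq hprim hH hep hM hMle hMn ω
  refine ⟨horb, fun L hLN hML => ?_⟩
  haveI := hNtr
  haveI := hprim
  haveI : MulAction.IsPretransitive G Ω := hprim.toIsPretransitive
  have hinj := (Cfsg.Agent.PermLib.smul_bijective_of_regular (hNreg α)).1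
  -- `L` is normalized by the point stabilizer
  have hLn : ∀ h ∈ MulAction.stabilizer G α, ∀ l ∈ L, h * l * h⁻¹ ∈ L := by
    intro h hh l hl
    have h1 : h • l • α ∈ MulAction.orbit M (l • α) := (horb _).symm ▸ ⟨⟨h, hh⟩, rfl⟩
    obtain ⟨⟨m, hm⟩, hme⟩ := h1
    have hme' : m • l • α = h • l • α := hme
    have e : (⟨h * l * h⁻¹, Subgroup.Normal.conj_mem inferInstance l (hLN hl) h⟩ : N) =
        ⟨m * l * m⁻¹, Subgroup.Normal.conj_mem inferInstance l (hLN hl) m⟩ := hinj (by
      show (h * l * h⁻¹) • α = (m * l * m⁻¹) • α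
      rw [Cfsg.Agent.PermLib.conj_smul_of_mem_stabilizer hh,
        Cfsg.Agent.PermLib.conj_smul_of_mem_stabilizer (hMle hm), hme'])
    rw [show h * l * h⁻¹ = m * l * m⁻¹ from congrArg Subtype.val e]
    exact (Subgroup.mem_normalizer_iff.1 (hML hm) l).1 hl
  haveI hLnormal : L.Normal := by
    refine ⟨fun l hl g => ?_⟩
    obtain ⟨n, hn, h, hh, rfl⟩ :=
      Cfsg.Agent.PermLib.exists_mem_mul_mem_stabilizer N α g
    have h2 := hLn h hh l hl
    have hc : n * (h * l * h⁻¹) = (h * l * h⁻¹) * n :=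
      congrArg Subtype.val (hNc.is_comm.comm (⟨n, hn⟩ : N) ⟨_, hLN h2⟩)
    rw [mul_inv_rev, show n * h * l * (h⁻¹ * n⁻¹) = n * (h * l * h⁻¹) * n⁻¹ by group, hc,
      mul_inv_cancel_right]
    exact h2
  by_cases hL : L = ⊥
  · exact Or.inl hL
  right
  refine le_antisymm hLN fun n hn => ?_
  haveI := Cfsg.Agent.PermLib.isPretransitive_of_normal_ne_bot (G := G) (α := Ω) hL
  obtain ⟨⟨l, hl⟩, hle⟩ := MulAction.exists_smul_eq L α (n • α)
  have : (⟨l, hLN hl⟩ : N) = ⟨n, hn⟩ := hinj (show l • α = n • α from hle)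
  obtain rfl : l = n := congrArg Subtype.val this
  exact hl

end Cfsg.Agent.S3495
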