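import Cfsg.Statements.S2455
import Cfsg.Agent.Spec.PSLTwoProducts
-- import your own Cfsg.Agent.* helpers here

set_option autoImplicit false
open Cfsg

namespace Cfsg.Agent.S2455

/-- A strong covering result in the direction of Thompson's conjecture (non-identity elements) for PSL(2,q), q odd: let F be a finite field of odd characteristic p with at least 5 elements and let x ∈ PSL(2,F) have order greater than 2 and not divisible by p (so x is not unipotent). Then every non-identity element of PSL(2,F) is a product of two conjugates of x. -/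
theorem result {F : Type*} [Field F] [Fintype F] (p : ℕ) [Fact p.Prime] [CharP F p] (hp : p ≠ 2) (h5 : 5 ≤ Fintype.card F)
    (x : Matrix.ProjectiveSpecialLinearGroup (Fin 2) F) (hx2 : 2 < orderOf x) (hxp : ¬ p ∣ orderOf x) : ∀ g : Matrix.ProjectiveSpecialLinearGroup (Fin 2) F, g ≠ 1 → ∃ u v : Matrix.ProjectiveSpecialLinearGroup (Fin 2) F, g = (u * x * u⁻¹) * (v * x * v⁻¹) := by
  intro g hg
  obtain ⟨A, rfl⟩ := Spec.Two.π_surjective x
  obtain ⟨G, rfl⟩ := Spec.Two.π_surjective g
  have hAns : Spec.Two.NS (A : Matrix (Fin 2) (Fin 2) F) :=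
    Spec.Two.ns_of_π_ne_one fun h => by rw [h, orderOf_one] at hx2; omega
  have ht4 : (A : Matrix (Fin 2) (Fin 2) F).trace ^ 2 ≠ 4 := by
    intro h
    have h' := orderOf_dvd_of_pow_eq_one (Spec.Two.π_pow_char_of_trace_sq p A h)
    rcases (Nat.dvd_prime Fact.out).1 h' with e | e <;> rw [e] at hx2
    · omega
    · exact hxp e.symm.dvd
  have push : ∀ G' : Matrix.SpecialLinearGroup (Fin 2) F,
      (∃ u v : Matrix.SpecialLinearGroup (Fin 2) F, G' = (u * A * u⁻¹) * (v * A * v⁻¹)) →
      ∃ u v, Spec.Two.π G' = (u * Spec.Two.π A * u⁻¹) * (v * Spec.Two.π A * v⁻¹) := by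
    rintro G' ⟨u, v, rfl⟩
    exact ⟨Spec.Two.π u, Spec.Two.π v, by simp only [map_mul, map_inv]⟩
  have hGns := Spec.Two.ns_of_π_ne_one hg
  have h2 : (2 : F) ≠ 0 := by
    intro h
    obtain ⟨k, hpp, hk⟩ := FiniteField.card F p
    have h' := (Spec.Two.two_eq_zero_iff.1 h)
    rw [hk] at h'
    exact hp ((Nat.prime_dvd_prime_iff_eq Nat.prime_two hpp).1 (Nat.prime_two.dvd_of_dvd_pow h')).symm
  have ht0 : (A : Matrix (Fin 2) (Fin 2) F).trace ≠ 0 := by
    intro h
    have : Spec.Two.π A ^ 2 = 1 := by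
      rw [← map_pow, Spec.Two.π_eq_one_iff]
      refine ⟨-1, ?_⟩
      have hdet := A.2
      rw [Matrix.det_fin_two] at hdet
      rw [Matrix.trace_fin_two] at h
      rw [Matrix.SpecialLinearGroup.coe_pow, pow_two]
      ext i j
      fin_cases i <;> fin_cases j <;> simp [Matrix.mul_apply, Fin.sum_univ_two]
      · linear_combination (A : Matrix (Fin 2) (Fin 2) F) 0 0 * h - hdet
      · linear_combination (A : Matrix (Fin 2) (Fin 2) F) 0 1 * h
      · linear_combination (A : Matrix (Fin 2) (Fin 2) F) 1 0 * h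
      · linear_combination (A : Matrix (Fin 2) (Fin 2) F) 1 1 * h - hdet
    have := Nat.le_of_dvd two_pos (orderOf_dvd_of_pow_eq_one this)
    omega
  by_cases hs : (G : Matrix (Fin 2) (Fin 2) F).trace ^ 2 = 4
  swap
  · exact push G (Spec.Two.exists_product A G ht4 hGns (Or.inl hs))
  rcases mul_eq_zero.1 (show ((G : Matrix (Fin 2) (Fin 2) F).trace - 2) *
      ((G : Matrix (Fin 2) (Fin 2) F).trace + 2) = 0 by linear_combination hs) with h | h
  · let G' : Matrix.SpecialLinearGroup (Fin 2) F :=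
      Spec.Two.mk (-(G : Matrix (Fin 2) (Fin 2) F)) (by rw [Matrix.det_neg]; simp)
    have hGG' : Spec.Two.π G = Spec.Two.π G' :=
      Spec.Two.π_eq_iff.2 ⟨-1, by ring, by rw [neg_one_smul]; rfl⟩
    rw [hGG']
    refine push G' (Spec.Two.exists_product A G' ht4 (fun z hz => hGns (-z) ?_) (Or.inr (Or.inr ⟨?_, h2, ht0⟩)))
    · rw [neg_smul, ← hz, Spec.Two.coe_mk, neg_neg]
    · rw [Spec.Two.coe_mk, Matrix.trace_neg, sub_eq_zero.1 h]
  · exact push G (Spec.Two.exists_product A G ht4 hGns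
      (Or.inr (Or.inr ⟨eq_neg_of_add_eq_zero_left h, h2, ht0⟩)))

end Cfsg.Agent.S2455
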