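import Cfsg.Statements.S0007
import Mathlib.GroupTheory.Index
import Mathlib.Tactic.Group

set_option autoImplicit false
open Cfsg

namespace Cfsg.Agent.S0007

/-- Subgroups of coprime index: the intersection has index equal to the product of the indices, and every element is a product of an element of the first subgroup and an element of the second. -/
theorem result {G : Type*} [Group G] [Finite G] (H K : Subgroup G)
    (h : H.index.Coprime K.index) :
    (H ⊓ K).index = H.index * K.index ∧ ∀ g : G, ∃ x ∈ H, ∃ y ∈ K, g = x * y := by
  have h1 : (H ⊓ K).index = K.relIndex H * H.index := by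
    rw [← Subgroup.relIndex_mul_index (inf_le_left : H ⊓ K ≤ H), Subgroup.inf_relIndex_left]
  have h2 : K.index ∣ K.relIndex H * H.index := by
    rw [← h1]
    exact Subgroup.index_dvd_of_le inf_le_right
  let f : H ⧸ K.subgroupOf H → G ⧸ K := Quotient.map' (fun x => (x : G)) fun a b hab => by
    rw [QuotientGroup.leftRel_apply] at hab ⊢
    simpa [Subgroup.mem_subgroupOf] using hab
  have hf : Function.Injective f := Quotient.ind₂' fun a b hab => by
    refine Quotient.eq''.2 ?_
    have := Quotient.eq''.1 hab
    rw [QuotientGroup.leftRel_apply] at this ⊢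
    simpa [Subgroup.mem_subgroupOf] using this
  have h4 : K.relIndex H = K.index :=
    le_antisymm (Nat.card_le_card_of_injective f hf)
      (Nat.le_of_dvd (Nat.pos_of_ne_zero Subgroup.index_ne_zero_of_finite)
      (h.symm.dvd_of_dvd_mul_right h2))
  refine ⟨by rw [h1, h4, mul_comm], fun g => ?_⟩
  have hs : Function.Surjective f := (hf.bijective_of_nat_card_le (le_of_eq h4.symm)).2
  obtain ⟨q, hq⟩ := hs (g : G ⧸ K)
  induction q using Quotient.inductionOn' with
  | h x =>
    refine ⟨x, x.2, (x : G)⁻¹ * g, ?_, by group⟩
    exact QuotientGroup.eq.1 hq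

end Cfsg.Agent.S0007
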