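import Cfsg.Statements.S0089
import Cfsg.Agent.Transfer.Hall
-- import your own Cfsg.Agent.* helpers here

set_option autoImplicit false
open Cfsg

namespace Cfsg.Agent.S0089

/-- When all Sylow subgroups are abelian, the derived subgroup meets the centre trivially. -/
theorem result {G : Type*} [Group G] [Finite G] (h : ∀ p : ℕ, p.Prime → ∀ P : Sylow p G, IsMulCommutative P) : commutator G ⊓ Subgroup.center G = ⊥ := by
  by_contra hne
  obtain ⟨q, hq, hdvd⟩ := Nat.exists_prime_and_dvd (mt Subgroup.card_eq_one.mp hne)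
  have := Fact.mk hq
  obtain ⟨z, hz⟩ := exists_prime_orderOf_dvd_card' q hdvd
  obtain ⟨P, hP⟩ := (IsPGroup.of_card (p := q) (n := 1)
    (show Nat.card (Subgroup.zpowers (z : G)) = q ^ 1 by
      rw [Nat.card_zpowers, Subgroup.orderOf_coe, hz, pow_one])).exists_le_sylow
  have hbot := Cfsg.Agent.Transfer.abelian_hall_inf_commutator_inf_center (P : Subgroup G)
    (h q hq P) P.card_coprime_index
  have hz1 : (z : G) ∈ (⊥ : Subgroup G) := by
    rw [← hbot]
    exact ⟨⟨hP (Subgroup.mem_zpowers _), z.2.1⟩, z.2.2⟩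
  rw [Subgroup.mem_bot] at hz1
  rw [← Subgroup.orderOf_coe, hz1, orderOf_one] at hz
  exact hq.one_lt.ne hz

end Cfsg.Agent.S0089
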