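import Cfsg.Statements.S0191
import Cfsg.Agent.BlkChar.GalAvg
import Cfsg.Agent.Char.Orthogonality

set_option autoImplicit false
open Cfsg

namespace Cfsg.Agent.S0191

/-- An irreducible complex representation of a finite group of degree greater than 1 has a character that vanishes somewhere. -/
theorem result {G : Type*} [Group G] [Finite G] {V : Type*} [AddCommGroup V] [Module ℂ V] [FiniteDimensional ℂ V] (ρ : Representation ℂ G V) [ρ.IsIrreducible] (hdeg : 1 < Module.finrank ℂ V) : ∃ g : G, ρ.character g = 0 := by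
  classical
  letI := Fintype.ofFinite G
  by_contra hne
  push Not at hne
  haveI : NeZero (Nat.card G) := ⟨Nat.card_pos.ne'⟩
  have hirr := Cfsg.Agent.Char.isIrrCharacter_character ρ
  let f : G → ℝ := fun g => ‖ρ.character g‖ ^ 2
  have hsum : ∑ g, f g = (Nat.card G : ℝ) := by
    have h : (Nat.card G : ℂ) * Cfsg.classInner ρ.character ρ.character = Nat.card G := by
      rw [Cfsg.Agent.Char.classInner_irr_self hirr, mul_one]
    rw [Cfsg.classInner, mul_inv_cancel_left₀ (Nat.cast_ne_zero.2 Nat.card_pos.ne')] at h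
    simp only [Complex.mul_conj'] at h
    exact_mod_cast h
  have hge : ∀ g : G, (Fintype.card (ZMod (Nat.card G))ˣ : ℝ) ≤
      ∑ a : (ZMod (Nat.card G))ˣ, f (g ^ (a : ZMod (Nat.card G)).val) := fun g =>
    Cfsg.Agent.GalAvg.card_le_sum_norm_sq
      (Cfsg.Agent.GalAvg.character_pow_mem ρ g pow_card_eq_one') ⟨1, hne _⟩
  have hlt : (Fintype.card (ZMod (Nat.card G))ˣ : ℝ) <
      ∑ a : (ZMod (Nat.card G))ˣ, f ((1 : G) ^ (a : ZMod (Nat.card G)).val) := by
    simp only [one_pow, f, Representation.char_one, Complex.norm_natCast, Finset.sum_const,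
      Finset.card_univ, nsmul_eq_mul]
    have h2 : (2 : ℝ) ≤ Module.finrank ℂ V := by exact_mod_cast hdeg
    have h3 : (0 : ℝ) < (Fintype.card (ZMod (Nat.card G))ˣ : ℝ) := by
      exact_mod_cast Fintype.card_pos
    nlinarith [mul_le_mul h2 h2 (by norm_num) (by linarith)]
  have key := Finset.sum_lt_sum (s := Finset.univ) (fun g (_ : g ∈ Finset.univ) => hge g)
    ⟨1, Finset.mem_univ _, hlt⟩
  rw [Finset.sum_comm] at key
  have hbij : ∀ a : (ZMod (Nat.card G))ˣ,
      ∑ g : G, f (g ^ (a : ZMod (Nat.card G)).val) = ∑ g : G, f g := fun a =>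
    Fintype.sum_equiv (Cfsg.Agent.GalAvg.powUnit a) _ _
      (fun g => by rw [Cfsg.Agent.GalAvg.powUnit_apply])
  simp only [hbij, hsum, Finset.sum_const, Finset.card_univ, nsmul_eq_mul,
    ← Nat.card_eq_fintype_card (α := G)] at key
  linarith

end Cfsg.Agent.S0191
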