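import Cfsg.Statements.S0330
import Cfsg.Agent.Suzuki.Sylow

set_option autoImplicit false
open Cfsg

namespace Cfsg.Agent.S0330

/-- A Sylow 2-subgroup `P` of the Suzuki group (field with `q = 2^(2m+1)` elements, `m ≥ 1`) has order `q²` and
exponent `4`; its centre coincides with its commutator subgroup and has order `q`. -/
theorem result {F : Type*} [Field F] [Fintype F] {m : ℕ} (hm : 1 ≤ m)
    (hF : Fintype.card F = 2 ^ (2 * m + 1)) (P : Sylow 2 (Cfsg.Sz F m)) :
    Nat.card P = (2 ^ (2 * m + 1)) ^ 2 ∧ Monoid.exponent P = 4 ∧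
      Subgroup.center P = commutator P ∧ Nat.card (Subgroup.center P) = 2 ^ (2 * m + 1) := by
  haveI : Cfsg.Agent.Suzuki.SuzukiField F m := ⟨hm, hF⟩
  haveI : Fact (Nat.Prime 2) := ⟨Nat.prime_two⟩
  let e : (P : Subgroup (Cfsg.Sz F m)) ≃* ↥(Cfsg.Agent.Suzuki.unip F m) :=
    P.equiv (Cfsg.Agent.Suzuki.unipSylow F m)
  have hz : Subgroup.center (Cfsg.Agent.Suzuki.unip F m) = commutator _ :=
    Cfsg.Agent.Suzuki.center_unip.trans Cfsg.Agent.Suzuki.commutator_unip.symm
  have hc : (Subgroup.center ↥(P : Subgroup (Cfsg.Sz F m))).map e.toMonoidHom =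
      Subgroup.center _ := by
    refine le_antisymm ?_ fun x hx => ⟨e.symm x, ?_, by simp⟩
    · rintro _ ⟨x, hx, rfl⟩
      refine Subgroup.mem_center_iff.2 fun y => ?_
      obtain ⟨y, rfl⟩ := e.surjective y
      simpa [← map_mul] using congrArg e (Subgroup.mem_center_iff.1 hx y)
    exact Subgroup.mem_center_iff.2 fun y => e.injective (by
      simp only [map_mul, MulEquiv.apply_symm_apply]; exact Subgroup.mem_center_iff.1 hx _)
  have hcm : (commutator ↥(P : Subgroup (Cfsg.Sz F m))).map e.toMonoidHom = commutator _ := by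
    rw [commutator_def, Subgroup.map_commutator, Subgroup.map_top_of_surjective _ e.surjective,
      ← commutator_def]
  refine ⟨?_, ?_, ?_, ?_⟩
  · rw [Nat.card_congr e.toEquiv, Cfsg.Agent.Suzuki.card_unip, hF]
  · rw [Monoid.exponent_eq_of_mulEquiv e, Cfsg.Agent.Suzuki.exponent_unip]
  · exact Subgroup.map_injective (f := e.toMonoidHom) e.injective (hc.trans (hz.trans hcm.symm))
  · rw [← Subgroup.card_map_of_injective (f := e.toMonoidHom) e.injective, hc,
      Cfsg.Agent.Suzuki.center_unip,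
      Nat.card_congr (Subgroup.subgroupOfEquivOfLe Cfsg.Agent.Suzuki.unipZ_le_unip).toEquiv,
      Cfsg.Agent.Suzuki.card_unipZ, hF]

end Cfsg.Agent.S0330
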