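import Cfsg.Statements.S0447
import Cfsg.Agent.SporB.DoubleCoverAlt
import Cfsg.Agent.SporB.DoubleCoverSmall

set_option autoImplicit false
open Cfsg

namespace Cfsg.Agent.S0447

/-- Involutions in double covers of alternating groups: for n ≤ 7, a finite non-split double cover of the alternating group of degree n has exactly one element of order 2 (the central one); for degree 8 there is a non-split double cover with two distinct involutions. -/
theorem result : (∀ (n : ℕ) (H : Type) (_ : Group H) (_ : Finite H), n ≤ 7 → Cfsg.IsNonsplitDoubleCover H (alternatingGroup (Fin n)) → ∀ x y : H, orderOf x = 2 → orderOf y = 2 → x = y) ∧ ∃ (H : Type) (_ : Group H) (_ : Finite H), Cfsg.IsNonsplitDoubleCover H (alternatingGroup (Fin 8)) ∧ ∃ x y : H, x ≠ y ∧ orderOf x = 2 ∧ orderOf y = 2 := by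
  refine ⟨?_, ?_⟩
  · intro n H _ _ hn hH x y hx hy
    obtain ⟨hZ, ⟨e⟩, hns⟩ := hH
    have hxc := Cfsg.Agent.SporB.DoubleCover.involution_mem_center hn hZ e hns hx
    have hyc := Cfsg.Agent.SporB.DoubleCover.involution_mem_center hn hZ e hns hy
    obtain ⟨w, hw, huniq⟩ := (Nat.card_eq_two_iff' (1 : Subgroup.center H)).1 hZ
    have hne : ∀ (u : H) (hu : u ∈ Subgroup.center H), orderOf u = 2 →
        (⟨u, hu⟩ : Subgroup.center H) ≠ 1 := by
      intro u hu ho h
      rw [show u = 1 from congrArg Subtype.val h, orderOf_one] at ho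
      omega
    exact congrArg Subtype.val ((huniq _ (hne x hxc hx)).trans (huniq _ (hne y hyc hy)).symm)
  · obtain ⟨H, _, _, z, π, hz, hzc, hπ, hker, hcen, ⟨u, v, hu, hu1, -⟩, hw⟩ :=
      Cfsg.Agent.SporB.DoubleCover.exists_cover 8 (by norm_num)
    obtain ⟨w, hw2, hw1⟩ := hw le_rfl
    have hcard : Nat.card (Subgroup.center H) = 2 := by rw [hcen, Nat.card_zpowers, hz]
    refine ⟨H, inferInstance, inferInstance, ⟨hcard, ?_, ?_⟩, z, w, ?_, hz, ?_⟩
    · exact ⟨(QuotientGroup.quotientMulEquivOfEq (hcen.trans hker.symm)).trans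
        (QuotientGroup.quotientKerEquivOfSurjective π hπ)⟩
    · intro L hL
      obtain ⟨⟨⟨c, hc⟩, ⟨l, hl⟩⟩, hcl⟩ := hL.2 u
      have hcl' : c * l = u := hcl
      have hc2 : c * c = 1 := by
        have := pow_card_eq_one' (G := Subgroup.center H) (x := ⟨c, hc⟩)
        rw [hcard, pow_two] at this
        exact congrArg Subtype.val this
      have hll : l * l = z := by
        rw [← hu, ← hcl', mul_assoc, ← mul_assoc l c, ← (Subgroup.mem_center_iff.1 hc l).symm]
        rw [← mul_assoc, ← mul_assoc, hc2, one_mul]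
      have hzL : z ∈ L := hll ▸ L.mul_mem hl hl
      have : z = 1 := Subgroup.disjoint_def.1 hL.disjoint hzc hzL
      rw [this, orderOf_one] at hz
      omega
    · intro h
      apply hw1
      rw [← h, ← MonoidHom.mem_ker, hker]
      exact Subgroup.mem_zpowers z
    · exact orderOf_eq_prime (by rw [pow_two, hw2]) fun h => hw1 (by rw [h, map_one])

end Cfsg.Agent.S0447
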