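import Cfsg.Statements.S0550
import Cfsg.Agent.SolvStruct.Basic

set_option autoImplicit false
open Cfsg

namespace Cfsg.Agent.S0550

/-- Let U be a maximal subgroup with trivial normal core in a finite group G, and A ≠ B two minimal normal subgroups. Then A is the centralizer of B and B that of A, U complements each of them, A and B are non-abelian, and A, B and (A ⊔ B) ∩ U are pairwise isomorphic. -/
theorem result {G : Type*} [Group G] [Finite G] (U : Subgroup G) (hU : IsCoatom U) (hcore : U.normalCore = ⊥) (A B : Subgroup G) [A.Normal] [B.Normal] (hA : A ≠ ⊥) (hB : B ≠ ⊥) (hAmin : ∀ K : Subgroup G, K.Normal → K ≤ A → K = ⊥ ∨ K = A) (hBmin : ∀ K : Subgroup G, K.Normal → K ≤ B → K = ⊥ ∨ K = B) (hAB : A ≠ B) : Subgroup.centralizer (B : Set G) = A ∧ Subgroup.centralizer (A : Set G) = B ∧ Subgroup.IsComplement' A U ∧ Subgroup.IsComplement' B U ∧ ¬ IsMulCommutative A ∧ Nonempty (A ≃* B) ∧ Nonempty (A ≃* ↥((A ⊔ B) ⊓ U)) := by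
  have hAB' : A ⊓ B = ⊥ := by
    rcases hAmin (A ⊓ B) inferInstance inf_le_left with h | h
    · exact h
    · rcases hBmin A inferInstance (h ▸ inf_le_right) with h' | h'
      · exact absurd h' hA
      · exact absurd h' hAB
  have hcomm : ∀ a ∈ A, ∀ b ∈ B, a * b = b * a := fun a ha b hb =>
    Subgroup.commute_of_normal_of_disjoint A B inferInstance inferInstance
      (disjoint_iff.2 hAB') a b ha hb
  have hAC : A ≤ Subgroup.centralizer (B : Set G) := fun a ha =>
    Subgroup.mem_centralizer_iff.2 fun b hb => (hcomm a ha b hb).symm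
  have hBC : B ≤ Subgroup.centralizer (A : Set G) := fun b hb =>
    Subgroup.mem_centralizer_iff.2 fun a ha => hcomm a ha b hb
  have h1 : Subgroup.centralizer (B : Set G) = A :=
    ((SolvStruct.corefree_centralizer_minimal hU hcore hB A inferInstance hAC).resolve_left hA).symm
  have h2 : Subgroup.centralizer (A : Set G) = B :=
    ((SolvStruct.corefree_centralizer_minimal hU hcore hA B inferInstance hBC).resolve_left hB).symm
  have hAU : A ⊓ U = ⊥ := h1 ▸ SolvStruct.centralizer_inf_corefree_eq_bot hU hcore hB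
  have hBU : B ⊓ U = ⊥ := h2 ▸ SolvStruct.centralizer_inf_corefree_eq_bot hU hcore hA
  have hAtop := SolvStruct.sup_normal_eq_top_of_corefree (N := A) hU hcore hA
  have hBtop := SolvStruct.sup_normal_eq_top_of_corefree (N := B) hU hcore hB
  have hcA : Subgroup.IsComplement' A U :=
    Subgroup.isComplement'_of_disjoint_and_mul_eq_univ (disjoint_iff.2 hAU)
      (by rw [← Subgroup.normal_mul, sup_comm, hAtop, Subgroup.coe_top])
  have hcB : Subgroup.IsComplement' B U :=
    Subgroup.isComplement'_of_disjoint_and_mul_eq_univ (disjoint_iff.2 hBU)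
      (by rw [← Subgroup.normal_mul, sup_comm, hBtop, Subgroup.coe_top])
  let W : Subgroup G := (A ⊔ B) ⊓ U
  have hdec : ∀ a ∈ A, ∀ u : G, u ∈ U → ∀ b ∈ B, a = b * u → u ∈ A ⊔ B := fun a ha u _ b hb h => by
    have : u = b⁻¹ * a := by rw [h, inv_mul_cancel_left]
    rw [this]
    exact (A ⊔ B).mul_mem (Subgroup.inv_mem _ (Subgroup.mem_sup_right hb)) (Subgroup.mem_sup_left ha)
  let projA : W →* (G ⧸ B) := (QuotientGroup.mk' B).comp W.subtype
  let iA : A →* (G ⧸ B) := (QuotientGroup.mk' B).comp A.subtype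
  have hiA : Function.Injective iA := by
    rw [← MonoidHom.ker_eq_bot_iff, eq_bot_iff]
    intro a ha
    have : (a : G) ∈ A ⊓ B := ⟨a.2, (QuotientGroup.eq_one_iff _).1 ha⟩
    rw [hAB', Subgroup.mem_bot] at this
    exact Subgroup.mem_bot.2 (Subtype.ext this)
  have hpA : Function.Injective projA := by
    rw [← MonoidHom.ker_eq_bot_iff, eq_bot_iff]
    intro a ha
    have : (a : G) ∈ B ⊓ U := ⟨(QuotientGroup.eq_one_iff _).1 ha, a.2.2⟩
    rw [hBU, Subgroup.mem_bot] at this
    exact Subgroup.mem_bot.2 (Subtype.ext this)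
  have hrange : iA.range = projA.range := by
    apply le_antisymm
    · rintro _ ⟨a, rfl⟩
      have : (a : G) ∈ ((B ⊔ U : Subgroup G) : Set G) := by
        rw [sup_comm, hBtop]; exact Subgroup.mem_top _
      rw [Subgroup.normal_mul] at this
      obtain ⟨b, hb, u, hu, hbu⟩ := this
      refine ⟨⟨u, hdec a a.2 u hu b hb hbu.symm, hu⟩, ?_⟩
      show ((u : G) : G ⧸ B) = ((a : G) : G ⧸ B)
      rw [← hbu, QuotientGroup.mk_mul, (QuotientGroup.eq_one_iff b).2 hb, one_mul]
    · rintro _ ⟨⟨u, huW, huU⟩, rfl⟩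
      have : u ∈ ((A ⊔ B : Subgroup G) : Set G) := huW
      rw [Subgroup.normal_mul] at this
      obtain ⟨a, ha, b, hb, hab⟩ := this
      refine ⟨⟨a, ha⟩, ?_⟩
      show ((a : G) : G ⧸ B) = ((u : G) : G ⧸ B)
      rw [← hab, QuotientGroup.mk_mul, (QuotientGroup.eq_one_iff b).2 hb, mul_one]
  have eAW : A ≃* W :=
    (MonoidHom.ofInjective hiA).trans ((MulEquiv.subgroupCongr hrange).trans
      (MonoidHom.ofInjective hpA).symm)
  let jB : B →* (G ⧸ A) := (QuotientGroup.mk' A).comp B.subtype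
  let projB : W →* (G ⧸ A) := (QuotientGroup.mk' A).comp W.subtype
  have hjB : Function.Injective jB := by
    rw [← MonoidHom.ker_eq_bot_iff, eq_bot_iff]
    intro b hb
    have : (b : G) ∈ A ⊓ B := ⟨(QuotientGroup.eq_one_iff _).1 hb, b.2⟩
    rw [hAB', Subgroup.mem_bot] at this
    exact Subgroup.mem_bot.2 (Subtype.ext this)
  have hpB : Function.Injective projB := by
    rw [← MonoidHom.ker_eq_bot_iff, eq_bot_iff]
    intro a ha
    have : (a : G) ∈ A ⊓ U := ⟨(QuotientGroup.eq_one_iff _).1 ha, a.2.2⟩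
    rw [hAU, Subgroup.mem_bot] at this
    exact Subgroup.mem_bot.2 (Subtype.ext this)
  have hrangeB : jB.range = projB.range := by
    apply le_antisymm
    · rintro _ ⟨b, rfl⟩
      have : (b : G) ∈ ((A ⊔ U : Subgroup G) : Set G) := by
        rw [sup_comm, hAtop]; exact Subgroup.mem_top _
      rw [Subgroup.normal_mul] at this
      obtain ⟨a, ha, u, hu, hau⟩ := this
      have huW : u ∈ A ⊔ B := by
        have : u = a⁻¹ * b := by rw [← hau, inv_mul_cancel_left]
        rw [this]
        exact (A ⊔ B).mul_mem (Subgroup.inv_mem _ (Subgroup.mem_sup_left ha))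
          (Subgroup.mem_sup_right b.2)
      refine ⟨⟨u, huW, hu⟩, ?_⟩
      show ((u : G) : G ⧸ A) = ((b : G) : G ⧸ A)
      rw [← hau, QuotientGroup.mk_mul, (QuotientGroup.eq_one_iff a).2 ha, one_mul]
    · rintro _ ⟨⟨u, huW, huU⟩, rfl⟩
      have : u ∈ ((A ⊔ B : Subgroup G) : Set G) := huW
      rw [Subgroup.normal_mul] at this
      obtain ⟨a, ha, b, hb, hab⟩ := this
      refine ⟨⟨b, hb⟩, ?_⟩
      show ((b : G) : G ⧸ A) = ((u : G) : G ⧸ A)
      rw [← hab, QuotientGroup.mk_mul, (QuotientGroup.eq_one_iff a).2 ha, one_mul]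
  have eBW : B ≃* W :=
    (MonoidHom.ofInjective hjB).trans ((MulEquiv.subgroupCongr hrangeB).trans
      (MonoidHom.ofInjective hpB).symm)
  refine ⟨h1, h2, hcA, hcB, fun hc => hAB ?_, ⟨eAW.trans eBW.symm⟩, ⟨eAW⟩⟩
  have : A ≤ B := h2 ▸ Subgroup.le_centralizer_iff_isMulCommutative.2 hc
  exact (hBmin A inferInstance this).resolve_left hA

end Cfsg.Agent.S0550
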