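import Cfsg.Statements.S0737

import Cfsg.Agent.S0735
import Cfsg.Agent.Perm.Regular
import Cfsg.Agent.Lib.MinimalNormal
import Cfsg.Agent.PermB.HalfSemilinear
import Cfsg.Agent.S0205

set_option autoImplicit false
set_option linter.style.haveILetI false
open Cfsg

namespace Cfsg.Agent.S0737

/-- A non-trivial 2-homogeneous permutation group that is not doubly transitive has odd order and degree `p^f ≡ 3 (mod 4)`, and is permutation-isomorphic to a group of semi-affine transformations `x ↦ a φ(x) + b` of the field with `p^f` elements containing all translations. -/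
theorem result {α : Type*} [Fintype α] [DecidableEq α] (G : Subgroup (Equiv.Perm α)) (hne : G ≠ ⊥) (h2 : MulAction.IsPretransitive G (Set.powersetCard α 2)) (hn2 : ¬ MulAction.IsMultiplyPretransitive G α 2) : Odd (Nat.card G) ∧ ∃ (p f : ℕ) (_ : Fact p.Prime), p ≠ 2 ∧ Fintype.card α = p ^ f ∧ p ^ f % 4 = 3 ∧ ∃ e : α ≃ GaloisField p f, (∀ g : G, e.symm.trans (((g : Equiv.Perm α)).trans e) ∈ Cfsg.semiaffineGroup (GaloisField p f)) ∧ ∀ b : GaloisField p f, ∃ g : G, ∀ x : α, e ((g : Equiv.Perm α) x) = e x + b := by
  classical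
  have hα : 3 ≤ Fintype.card α := by
    by_contra hlt
    push Not at hlt
    haveI : Fintype G := Fintype.ofFinite G
    have hcase : Fintype.card α ≤ 1 ∨ Fintype.card α = 2 := by omega
    rcases hcase with h1 | h1
    · haveI := Fintype.card_le_one_iff_subsingleton.1 h1
      exact hne (Subgroup.eq_bot_of_subsingleton G)
    · refine hn2 ?_
      obtain ⟨g, hg, hg1⟩ := (Subgroup.bot_or_exists_ne_one G).resolve_left hne
      rw [MulAction.is_two_pretransitive_iff]
      intro a b c d hab hcd
      have two : ∀ x y z : α, x ≠ y → z = x ∨ z = y := by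
        intro x y z hxy
        by_contra hc
        push Not at hc
        have : ({x, y, z} : Finset α).card = 3 :=
          Finset.card_eq_three.2 ⟨x, y, z, hxy, hc.1.symm, hc.2.symm, rfl⟩
        have := Finset.card_le_univ ({x, y, z} : Finset α)
        omega
      have hga : g a = b := by
        obtain ⟨u, hu⟩ : ∃ u, g u ≠ u := by
          by_contra hc
          push Not at hc
          exact hg1 (Equiv.ext hc)
        rcases two a b u hab with rfl | rfl
        · exact (two u b (g u) hab).resolve_left hu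
        · have hua : g u = a := (two u a (g u) hab.symm).resolve_left hu
          exact (two u a (g a) hab.symm).resolve_right
            (fun e => hab (g.injective (e.trans hua.symm)))
      have hgb : g b = a := (two a b (g b) hab).resolve_right
        (fun e => hab (g.injective (hga.trans e.symm)))
      rcases two a b c hab with rfl | rfl
      · refine ⟨1, one_smul _ _, ?_⟩
        rw [one_smul]
        exact ((two c b d hab).resolve_left hcd.symm).symm
      · exact ⟨⟨g, hg⟩, hga, hgb.trans ((two a c d hab).resolve_right hcd.symm).symm⟩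
  obtain ⟨h2trans, hprim'⟩ := S0735.result G h2 hα
  have hodd : Odd (Nat.card G) := Nat.not_even_iff_odd.1 fun he => hn2 (h2trans he)
  refine ⟨hodd, ?_⟩
  haveI : MulAction.IsPreprimitive G α := hprim' hne
  haveI : Group.IsSolvable G := Cfsg.Agent.S0205.result hodd
  haveI : Nontrivial G := (Subgroup.nontrivial_iff_ne_bot G).2 hne
  obtain ⟨M, hMn, hMne, hMmin⟩ := MinNormal.exists_minimal_normal (G := G)
  obtain ⟨hab, p, hp, hpow, hpg⟩ := MinNormal.elementary_abelian' M hMne hMmin
  haveI hpf : Fact p.Prime := ⟨hp⟩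
  haveI : MulAction.IsPretransitive M α := PermLib.isPretransitive_of_normal_ne_bot (G := G) hMne
  haveI : Nonempty α := Fintype.card_pos_iff.1 (by omega)
  obtain ⟨a⟩ := ‹Nonempty α›
  have hreg : MulAction.stabilizer M a = ⊥ := PermLib.stabilizer_eq_bot_of_isMulCommutative hab a
  have hbij := PermLib.smul_bijective_of_regular hreg
  obtain ⟨f, hf⟩ := hpg.exists_card_eq
  have hcα : Fintype.card α = p ^ f := by
    rw [← Nat.card_eq_fintype_card, ← PermLib.card_eq_of_regular hreg, hf]
  have hf0 : f ≠ 0 := by rintro rfl; rw [pow_zero] at hcα; omega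
  have hp2 : p ≠ 2 := by
    rintro rfl
    have h1 := Subgroup.card_subgroup_dvd_card M
    rw [hf] at h1
    exact Nat.not_even_iff_odd.2 hodd (even_iff_two_dvd.2 ((dvd_pow_self 2 hf0).trans h1))
  letI : CommGroup M :=
    { (inferInstance : Group M) with mul_comm := fun u v => hab.is_comm.comm u v }
  haveI : Finite (Additive M) := inferInstanceAs (Finite M)
  have hVc : Nat.card (Additive M) = p ^ f := hf
  haveI : Nontrivial (Additive M) := Finite.one_lt_card_iff_nontrivial.1 (by
    rw [hVc]; exact Nat.one_lt_pow hf0 hp.one_lt)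
  have hext : ∀ v w : Additive M,
      ((v.toMul : M) : G) • a = ((w.toMul : M) : G) • a → v = w :=
    fun v w e => Additive.toMul.injective (hbij.1 e)
  let H : Subgroup G := MulAction.stabilizer G a
  letI : SMul H (Additive M) :=
    ⟨fun h v => Additive.ofMul (MulAut.conjNormal (h : G) v.toMul)⟩
  have hpt : ∀ (h : H) (v : Additive M),
      (((h • v).toMul : M) : G) • a = (h : G) • ((v.toMul : G) • a) := fun h v => by
    show ((MulAut.conjNormal (H := M) (h : G) v.toMul : M) : G) • a = _
    rw [MulAut.conjNormal_apply, PermLib.conj_smul_of_mem_stabilizer h.2]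
  letI : DistribMulAction H (Additive M) :=
    { one_smul := fun v => hext _ _ (by rw [hpt]; simp)
      mul_smul := fun h k v => hext _ _ (by rw [hpt, hpt, hpt, Subgroup.coe_mul, mul_smul])
      smul_zero := fun h => congrArg Additive.ofMul (map_one (MulAut.conjNormal (h : G)))
      smul_add := fun h v w => congrArg Additive.ofMul (map_mul (MulAut.conjNormal (h : G)) _ _) }
  haveI : FaithfulSMul H (Additive M) := by
    refine ⟨fun {h k} hhk => Subtype.ext (FaithfulSMul.eq_of_smul_eq_smul (α := α) fun z => ?_)⟩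
    obtain ⟨m, rfl⟩ := hbij.2 z
    show (h : G) • ((m : G) • a) = (k : G) • ((m : G) • a)
    have h1 := hpt h (Additive.ofMul m)
    have h2 := hpt k (Additive.ofMul m)
    rw [hhk (Additive.ofMul m)] at h1
    exact h1.symm.trans h2
  have hpt0 : ∀ v : Additive M, v ≠ 0 → ((v.toMul : M) : G) • a ≠ a := fun v hv e =>
    hv (hext v 0 (by rw [e]; exact (one_smul G a).symm))
  have htrH : ∀ v w : Additive M, v ≠ 0 → w ≠ 0 → ∃ h : H, h • v = w ∨ h • v = -w := by
    intro v w hv hw
    obtain ⟨g, hg⟩ := PermB.exists_image_eq h2 {a, ((v.toMul : M) : G) • a}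
      {a, ((w.toMul : M) : G) • a} (Finset.card_pair (hpt0 v hv).symm)
      (Finset.card_pair (hpt0 w hw).symm)
    rw [Finset.image_insert, Finset.image_singleton] at hg
    set x := ((v.toMul : M) : G) • a with hx
    set y := ((w.toMul : M) : G) • a with hy
    have h1 : g • a ∈ ({a, y} : Finset α) := hg ▸ Finset.mem_insert_self _ _
    have h2' : g • x ∈ ({a, y} : Finset α) :=
      hg ▸ Finset.mem_insert_of_mem (Finset.mem_singleton_self _)
    have hne' : g • a ≠ g • x := fun e => hpt0 v hv (MulAction.injective g e).symm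
    simp only [Finset.mem_insert, Finset.mem_singleton] at h1 h2'
    rcases h1 with h1 | h1 <;> rcases h2' with h2' | h2'
    · exact absurd (h1.trans h2'.symm) hne'
    · exact ⟨⟨g, h1⟩, Or.inl (hext _ _ (by rw [hpt]; exact h2'))⟩
    · refine ⟨⟨((w.toMul : M) : G)⁻¹ * g, ?_⟩, Or.inr (hext _ _ ?_)⟩
      · rw [MulAction.mem_stabilizer_iff, mul_smul, inv_smul_eq_iff]; exact h1
      · rw [hpt]
        show (((w.toMul : M) : G)⁻¹ * g) • x = _
        rw [mul_smul, h2', toMul_neg, InvMemClass.coe_inv]
    · exact absurd (h1.trans h2'.symm) hne'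
  have hexp : ∀ v : Additive M, p • v = 0 := fun v =>
    Additive.toMul.injective (Subtype.ext (by
      show (((v.toMul : M) ^ p : M) : G) = 1
      rw [SubgroupClass.coe_pow]
      exact hpow _ v.toMul.2))
  have hHodd : Odd (Nat.card H) := hodd.of_dvd_nat (Subgroup.card_subgroup_dvd_card H)
  have hmod := PermB.HalfSemi.card_mod_four hVc hp2 hHodd htrH
  obtain ⟨e, he⟩ := PermB.HalfSemi.semilinear inferInstance hVc hexp hp2 hHodd htrH
  let E : α ≃ GaloisField p f :=
    (Equiv.ofBijective _ hbij).symm.trans (Additive.ofMul.trans e.toEquiv)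
  have hE : ∀ m : M, E ((m : G) • a) = e (Additive.ofMul m) := fun m => by
    show e (Additive.ofMul ((Equiv.ofBijective _ hbij).symm (m • a))) = _
    rw [show (m • a) = Equiv.ofBijective _ hbij m from rfl, Equiv.symm_apply_apply]
  refine ⟨p, f, hpf, hp2, hcα, hmod, E, ?_, ?_⟩
  · intro g
    obtain ⟨n, hn, h, hh, hg⟩ := PermLib.exists_mem_mul_mem_stabilizer M a g
    obtain ⟨c, σ, hc⟩ := he ⟨h, hh⟩
    refine ⟨c, e (Additive.ofMul ⟨n, hn⟩), σ, fun z => ?_⟩
    obtain ⟨x, rfl⟩ := E.surjective z
    obtain ⟨m, rfl⟩ := hbij.2 x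
    simp only [Equiv.trans_apply, Equiv.symm_apply_apply]
    show E (g • ((m : G) • a)) = c * σ (E ((m : G) • a)) + _
    have h1 : g • ((m : G) • a)
        = (((⟨n, hn⟩ : M) * ((⟨h, hh⟩ : H) • Additive.ofMul m).toMul : M) : G) • a := by
      rw [Subgroup.coe_mul, mul_smul, hpt, hg, mul_smul]
      rfl
    rw [h1, hE, hE, ofMul_mul, ofMul_toMul, map_add, hc, add_comm]
  · intro b
    refine ⟨((Equiv.ofBijective _ hbij).symm (E.symm b) : M), fun x => ?_⟩
    obtain ⟨m, rfl⟩ := hbij.2 x
    set n := (Equiv.ofBijective _ hbij).symm (E.symm b) with hn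
    have hb : b = E ((n : G) • a) := by
      show b = E (Equiv.ofBijective _ hbij n)
      rw [hn, Equiv.apply_symm_apply, Equiv.apply_symm_apply]
    show E ((n : G) • ((m : G) • a)) = E ((m : G) • a) + b
    rw [← mul_smul, ← Subgroup.coe_mul, hb, hE, hE, hE, ofMul_mul, map_add, add_comm]

end Cfsg.Agent.S0737
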