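import Cfsg.Statements.S0802
import Cfsg.Agent.PSLTwoSub.Platonic

set_option autoImplicit false
open Cfsg

namespace Cfsg.Agent.S0802

/-- PSL_2(p^n) has a subgroup isomorphic to A_4 if and only if it is not the case that p = 2 and n is odd. -/
theorem result {F : Type*} [Field F] [Fintype F] (p n : ℕ) [Fact p.Prime] [CharP F p] (hF : Fintype.card F = p ^ n) : (∃ H : Subgroup (Matrix.ProjectiveSpecialLinearGroup (Fin 2) F), Nonempty (H ≃* alternatingGroup (Fin 4))) ↔ ¬ (p = 2 ∧ Odd n) := by
  constructor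
  · rintro ⟨H, ⟨e⟩⟩ ⟨rfl, hn⟩
    have h2 : (2 : F) = 0 := CharTwo.two_eq_zero
    let f : alternatingGroup (Fin 4) →* Matrix.ProjectiveSpecialLinearGroup (Fin 2) F :=
      H.subtype.comp e.symm.toMonoidHom
    have hf : Function.Injective f := Subtype.val_injective.comp e.symm.injective
    let U : alternatingGroup (Fin 4) := ⟨Equiv.swap 0 1 * Equiv.swap 2 3, Equiv.Perm.mem_alternatingGroup.2 (by decide)⟩
    let V : alternatingGroup (Fin 4) := ⟨Equiv.swap 0 2 * Equiv.swap 1 3, Equiv.Perm.mem_alternatingGroup.2 (by decide)⟩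
    let X : alternatingGroup (Fin 4) := ⟨Equiv.swap 1 2 * Equiv.swap 2 3, Equiv.Perm.mem_alternatingGroup.2 (by decide)⟩
    obtain ⟨u, hu⟩ := QuotientGroup.mk_surjective (f U)
    obtain ⟨x, hx⟩ := QuotientGroup.mk_surjective (f X)
    have inj := PSLTwoSub.mk_injective_of_two_eq_zero (F := F) h2
    have lift : ∀ a : Matrix.SpecialLinearGroup (Fin 2) F, ∀ A : alternatingGroup (Fin 4),
        QuotientGroup.mk a = f A → A = 1 → a = 1 := by
      intro a A ha hA
      apply inj
      rw [ha, hA, map_one, QuotientGroup.mk_one]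
    have hu2 : u ^ 2 = 1 := lift _ (U ^ 2) (by rw [QuotientGroup.mk_pow, hu, map_pow]) (by decide +kernel)
    have hx3 : x ^ 3 = 1 := lift _ (X ^ 3) (by rw [QuotientGroup.mk_pow, hx, map_pow]) (by decide +kernel)
    have hv2 : (x * u * x⁻¹) ^ 2 = 1 := by rw [conj_pow, hu2, mul_one, mul_inv_cancel]
    have huv : (u * (x * u * x⁻¹)) ^ 2 = 1 := lift _ ((U * (X * U * X⁻¹)) ^ 2)
      (by simp only [QuotientGroup.mk_pow, QuotientGroup.mk_mul, QuotientGroup.mk_inv, hu, hx, map_pow, map_mul, map_inv])
      (by decide +kernel)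
    have hu1 : u ≠ 1 := by
      intro h
      rw [h, QuotientGroup.mk_one] at hu
      have : U = 1 := hf (by rw [map_one]; exact hu.symm)
      revert this
      decide +kernel
    have hx1 : x ≠ 1 := by
      intro h
      rw [h, QuotientGroup.mk_one] at hx
      have : X = 1 := hf (by rw [map_one]; exact hx.symm)
      revert this
      decide +kernel
    obtain ⟨w, hw⟩ := PSLTwoSub.exists_omega_of_alt_four h2 hu2 hu1 hv2 huv hx3 hx1
      (by simp [mul_assoc])
    have hw0 : w ≠ 0 := by rintro rfl; simp at hw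
    have hw1 : w ≠ 1 := by
      rintro rfl
      exact one_ne_zero (show (1 : F) = 0 by linear_combination hw - h2)
    have hord : orderOf (Units.mk0 w hw0) = 3 := by
      haveI : Fact (Nat.Prime 3) := ⟨Nat.prime_three⟩
      refine orderOf_eq_prime ?_ ?_
      · apply Units.ext
        simp only [Units.val_pow_eq_pow_val, Units.val_mk0, Units.val_one]
        linear_combination (w - 1) * hw
      · intro h
        exact hw1 (by simpa using congrArg Units.val h)
    have h3 := orderOf_dvd_natCard (Units.mk0 w hw0)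
    rw [hord, Linear.card_units_eq, hF] at h3
    obtain ⟨k, rfl⟩ := hn
    have : 2 ^ (2 * k + 1) % 3 = 2 := by
      rw [pow_succ, pow_mul, Nat.mul_mod, Nat.pow_mod]; norm_num
    generalize 2 ^ (2 * k + 1) = m at h3 this ⊢; have := Nat.mod_eq_zero_of_dvd h3; omega
  · intro h
    by_cases hp : p = 2
    · subst hp
      obtain ⟨k, rfl⟩ : ∃ k, n = k + k := Nat.not_odd_iff_even.1 (fun hn => h ⟨rfl, hn⟩)
      haveI : Fact (Nat.Prime 3) := ⟨Nat.prime_three⟩
      obtain ⟨w, hw⟩ := exists_prime_orderOf_dvd_card' (G := Fˣ) 3 (by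
        rw [Linear.card_units_eq, hF, ← two_mul, pow_mul]
        have : (2 ^ 2) ^ k % 3 = 1 := by rw [Nat.pow_mod]; norm_num
        omega)
      refine PSLTwoSub.exists_alt_four (Or.inr ⟨(w : F), ?_⟩)
      have h3 : (w : F) ^ 3 = 1 := by
        rw [← Units.val_pow_eq_pow_val, ← hw, pow_orderOf_eq_one, Units.val_one]
      have h1 : (w : F) - 1 ≠ 0 := fun h0 => by
        have : w = 1 := Units.ext (by simpa [sub_eq_zero] using h0)
        rw [this, orderOf_one] at hw
        omega
      exact (mul_eq_zero.1 (show ((w : F) - 1) * ((w : F) ^ 2 + w + 1) = 0 by linear_combination h3)).resolve_left h1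
    · refine PSLTwoSub.exists_alt_four (Or.inl ?_)
      refine Ring.two_ne_zero ?_
      rwa [← (ringChar.eq F p)] at hp

end Cfsg.Agent.S0802
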