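import Cfsg.Statements.S0803
import Cfsg.Agent.PSLTwoSub.Platonic

set_option autoImplicit false
open Cfsg

namespace Cfsg.Agent.S0803

/-- PSL_2(q) has a subgroup isomorphic to S_4 iff q² ≡ 1 (mod 16). -/
theorem result {F : Type*} [Field F] [Fintype F] {q : ℕ} (hF : Fintype.card F = q) : (∃ H : Subgroup (Matrix.ProjectiveSpecialLinearGroup (Fin 2) F), Nonempty (H ≃* Equiv.Perm (Fin 4))) ↔ q ^ 2 % 16 = 1 := by
  have hq : 1 < q := hF ▸ Fintype.one_lt_card
  rcases Nat.even_or_odd q with hev | hodd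
  · have h2 : (2 : F) = 0 := by
      have h := (FiniteField.even_card_iff_char_two (F := F)).2 (by rw [hF]; exact Nat.even_iff.1 hev)
      have : CharP F 2 := h ▸ ringChar.charP F
      exact CharTwo.two_eq_zero
    refine iff_of_false ?_ ?_
    · rintro ⟨H, ⟨e⟩⟩
      let c : Equiv.Perm (Fin 4) := finRotate 4
      have hc4 : c ^ 4 = 1 := by decide +kernel
      have hc2 : c ^ 2 ≠ 1 := by decide +kernel
      obtain ⟨g, hg⟩ := QuotientGroup.mk_surjective ((e.symm c : H) : Matrix.ProjectiveSpecialLinearGroup (Fin 2) F)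
      have hg4 : g ^ 4 = 1 := PSLTwoSub.mk_injective_of_two_eq_zero h2 (by
        rw [QuotientGroup.mk_pow, hg, ← Subgroup.coe_pow, ← map_pow, hc4, map_one]; rfl)
      have hg2 := congrArg (QuotientGroup.mk : _ → Matrix.ProjectiveSpecialLinearGroup (Fin 2) F)
        (PSLTwoSub.sq_eq_one_of_pow_four h2 g hg4)
      rw [QuotientGroup.mk_pow, hg, ← Subgroup.coe_pow, QuotientGroup.mk_one, OneMemClass.coe_eq_one,
        ← map_pow, MulEquiv.map_eq_one_iff] at hg2
      exact hc2 hg2
    · intro h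
      obtain ⟨k, rfl⟩ := hev
      have : (k + k) ^ 2 = 2 * (2 * k * k) := by ring
      omega
  · have hchar : ringChar F ≠ 2 := fun h => by
      have := (FiniteField.even_card_iff_char_two (F := F)).1 h
      rw [hF] at this
      exact (Nat.not_even_iff_odd.2 hodd) (Nat.even_iff.2 this)
    constructor
    · rintro ⟨H, ⟨e⟩⟩
      have h24 : Nat.card H = 24 := by
        rw [Nat.card_congr e.toEquiv, Nat.card_perm, Nat.card_eq_fintype_card, Fintype.card_fin]; rfl
      have h1 : 24 ∣ Nat.card (Matrix.ProjectiveSpecialLinearGroup (Fin 2) F) :=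
        h24 ▸ Subgroup.card_subgroup_dvd_card H
      have h2 := mul_dvd_mul_left 2 h1
      have h3 := Linear.card_PSL_two_mul (F := F)
      rw [Linear.gcd_two_of_odd (hF ▸ hodd)] at h3
      rw [h3, hF] at h2
      have h4 : 16 ∣ (q - 1) * (q + 1) := by
        have h5 : 16 ∣ q * ((q - 1) * (q + 1)) := by
          rw [← mul_assoc]; exact (by norm_num : 16 ∣ 2 * 24).trans h2
        refine Nat.Coprime.dvd_of_dvd_mul_left ?_ h5
        exact Nat.Coprime.pow_left 4 (Nat.coprime_two_left.2 hodd)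
      obtain ⟨m, hm⟩ : ∃ m, q = m + 1 := ⟨q - 1, by omega⟩
      subst hm
      rw [Nat.add_sub_cancel] at h4
      obtain ⟨c, hc⟩ := h4
      have : (m + 1) ^ 2 = m * (m + 1 + 1) + 1 := by ring
      omega
    · intro h
      have h8 : q % 8 = 1 ∨ q % 8 = 7 := by
        have := Nat.pow_mod q 2 16
        have hlt := Nat.mod_lt q (show 16 > 0 by norm_num)
        have hm : q % 16 % 2 = 1 := by
          rw [Nat.mod_mod_of_dvd q (by norm_num : 2 ∣ 16)]; exact Nat.odd_iff.1 hodd
        have h16 : q % 8 = q % 16 % 8 := (Nat.mod_mod_of_dvd q (by norm_num : 8 ∣ 16)).symm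
        generalize q % 16 = r at this hlt hm h16
        interval_cases r <;> omega
      obtain ⟨r, hr⟩ := (FiniteField.isSquare_two_iff (F := F)).2 (by rw [hF]; omega)
      exact PSLTwoSub.exists_sym_four (Ring.two_ne_zero hchar) r (by rw [hr]; ring)

end Cfsg.Agent.S0803
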