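import Cfsg.Statements.S0804
import Cfsg.Agent.PSLTwoSub.Platonic

set_option autoImplicit false
open Cfsg

namespace Cfsg.Agent.S0804

/-- PSL_2(q) has a subgroup isomorphic to A_5 iff 5 ∣ q(q² − 1). -/
theorem result {F : Type*} [Field F] [Fintype F] {q : ℕ} (hF : Fintype.card F = q) : (∃ H : Subgroup (Matrix.ProjectiveSpecialLinearGroup (Fin 2) F), Nonempty (H ≃* alternatingGroup (Fin 5))) ↔ 5 ∣ q * (q ^ 2 - 1) := by
  have hsl : Nat.card (Matrix.SpecialLinearGroup (Fin 2) F) = q * (q ^ 2 - 1) := by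
    rw [Linear.card_SL_two, hF, show q ^ 2 - 1 = (q + 1) * (q - 1) by
      rw [← Nat.sq_sub_sq q 1, one_pow]]
    ring
  constructor
  · rintro ⟨H, ⟨e⟩⟩
    rw [← hsl]
    have h60 : Nat.card H = 60 := by
      rw [Nat.card_congr e.toEquiv, nat_card_alternatingGroup]; simp [Nat.factorial]
    exact ((by norm_num : 5 ∣ 60).trans ((h60 ▸ Subgroup.card_subgroup_dvd_card H))).trans
      (Subgroup.card_quotient_dvd_card _)
  · intro h
    exact PSLTwoSub.exists_alt_five (PSLTwoSub.exists_trace_root (hsl ▸ h))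

end Cfsg.Agent.S0804
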