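import Cfsg.Agent.CharExt.Extension
import Cfsg.Statements.S0867
-- import your own Cfsg.Agent.* helpers here

set_option autoImplicit false
open Cfsg

namespace Cfsg.Agent.S0867

/-- Let N be a normal subgroup of the finite group G and ϑ an irreducible character of N of degree d, invariant under conjugation by G, such that the index of N is coprime to the product of d and the determinantal order of ϑ. Then there is an irreducible character χ of G restricting to ϑ whose determinantal order equals that of ϑ, and χ is the only irreducible character of G restricting to ϑ whose determinantal order is coprime to the index of N. -/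
theorem result {G : Type*} [Group G] [Finite G] (N : Subgroup G) [hN : N.Normal] (ϑ : N → ℂ) (hϑ : Cfsg.IsIrrCharacter N ϑ) (hinv : ∀ (g : G) (n : N), ϑ ⟨g * n * g⁻¹, hN.conj_mem (n : G) n.2 g⟩ = ϑ n) (d : ℕ) (hd : ϑ 1 = d) (hcop : Nat.Coprime N.index (Cfsg.detOrder ϑ * d)) : ∃ χ : G → ℂ, (Cfsg.IsIrrCharacter G χ ∧ (∀ n : N, χ n = ϑ n) ∧ Cfsg.detOrder χ = Cfsg.detOrder ϑ) ∧ ∀ χ' : G → ℂ, Cfsg.IsIrrCharacter G χ' → (∀ n : N, χ' n = ϑ n) → Nat.Coprime N.index (Cfsg.detOrder χ') → χ' = χ := by
  have hdI : ∀ (g : G) (n : N), Cfsg.detChar ϑ (CharExt.cj N g n) = Cfsg.detChar ϑ n :=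
    CharExt.detChar_inv N (Char.isCharacter_of_irr hϑ) hinv
  have hl := CharExt.detChar_isLin ϑ
  have hcd : Nat.Coprime N.index d := hcop.coprime_mul_left_right
  have hco : Nat.Coprime N.index (orderOf hl.toHom) := by
    have := hcop.coprime_mul_right_right
    rwa [Cfsg.detOrder, hl.orderOf_eq] at this
  obtain ⟨μ, ⟨hμ, ho⟩, huniq⟩ := CharExt.exists_unique_coprime_extension N hl.toHom
    (fun g n => Units.ext (hdI g n)) hco
  have hord : orderOf (CharExt.homVal μ) = orderOf μ :=
    orderOf_injective CharExt.homVal CharExt.homVal_injective μ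
  obtain ⟨χ, hχ, hχN, hχd⟩ := CharExt.exists_char_extension N ϑ hϑ hinv d hd hcd
    (CharExt.homVal μ) (CharExt.homVal_isLin μ) (fun n => congrArg Units.val (hμ n))
  refine ⟨χ, ⟨hχ, hχN, ?_⟩, fun χ' h' hN' hc' => ?_⟩
  · rw [Cfsg.detOrder, hχd, hord, ho, ← hl.orderOf_eq, Cfsg.detOrder]
  · have hl' := CharExt.detChar_isLin χ'
    rw [Cfsg.detOrder, hl'.orderOf_eq] at hc'
    have h := huniq hl'.toHom
      (fun n => Units.ext (CharExt.detChar_restrict N (Char.isCharacter_of_irr h') hN' n)) hc'
    refine CharExt.char_eq_of_restrict_eq_of_det_eq N ϑ hϑ d hd hcd χ' χ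
      (Char.isCharacter_of_irr h') (Char.isCharacter_of_irr hχ) hN' hχN ?_
    rw [hχd, ← h]
    rfl

end Cfsg.Agent.S0867
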