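import Cfsg.Statements.S0877
import Cfsg.Agent.CharDeep.Section
import Cfsg.Agent.CharInd.GenChar
import Cfsg.Agent.Char.Kernel

set_option autoImplicit false
open Cfsg

namespace Cfsg.Agent.S0877

/-- Let H be a subgroup of the finite group G whose order is coprime to its index. Suppose that elements of H conjugate in G are conjugate in H, and that every subgroup E of G that is elementary for some prime (in the sense used for Brauer's characterisation of characters) and whose order divides the order of H is conjugate to a subgroup of H. Then there is a normal subgroup K with K ⊔ H = ⊤ and K ⊓ H trivial. -/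
theorem result {G : Type*} [Group G] [Finite G] (H : Subgroup G) (hHall : Nat.Coprime (Nat.card H) H.index) (hfus : ∀ x ∈ H, ∀ y ∈ H, IsConj x y → ∃ h ∈ H, h * x * h⁻¹ = y) (helem : ∀ (E : Subgroup G) (p : ℕ), p.Prime → Cfsg.IsElementary p E → Nat.card E ∣ Nat.card H → ∃ g : G, E.map (MulAut.conj g).toMonoidHom ≤ H) : ∃ K : Subgroup G, K.Normal ∧ K ⊔ H = ⊤ ∧ K ⊓ H = ⊥ := by
  classical
  let _ : Fintype G := Fintype.ofFinite G
  let _ : Fintype H := Fintype.ofFinite H
  set n := Nat.card H with hn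
  set m := H.index with hm
  have hmn : Nat.card G = m * n := by rw [mul_comm]; exact H.card_mul_index.symm
  have hcop : Nat.Coprime m n := hHall.symm
  set t := Cfsg.Agent.CharDeep.sectionExp hcop with ht
  have hHt : ∀ h : H, (h : G) ^ t = h := fun h =>
    Cfsg.Agent.CharDeep.pow_sectionExp_of_dvd_right hcop
      (by rw [Subgroup.orderOf_coe]; exact orderOf_dvd_natCard h)
  -- every π-element is conjugate into `H`
  have hinto : ∀ x : G, ∃ h : H, IsConj (x ^ t) (h : G) := by
    intro x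
    obtain ⟨p, hpbig, hp⟩ := Nat.exists_infinite_primes (Nat.card G + 1)
    have hnp : Nat.Coprime (orderOf (x ^ t)) p := by
      refine (hp.coprime_iff_not_dvd.2 fun hdvd => ?_).symm
      have := Nat.le_of_dvd Nat.card_pos (hdvd.trans (orderOf_dvd_natCard _))
      omega
    have hel : Cfsg.IsElementary p (Subgroup.zpowers (x ^ t)) := by
      refine ⟨⟨x ^ t, Subgroup.mem_zpowers _⟩, ?_, by rwa [Subgroup.orderOf_mk], 0, ?_⟩
      · rw [Subgroup.mem_center_iff]
        exact fun e => mul_comm' e _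
      · rw [pow_zero, Subgroup.index_eq_one, Subgroup.eq_top_iff']
        intro e
        obtain ⟨j, hj⟩ := e.2
        exact ⟨j, Subtype.ext (by simpa using hj)⟩
    obtain ⟨c, hc⟩ := helem _ p hp hel (by
      rw [Nat.card_zpowers]; exact Cfsg.Agent.CharDeep.orderOf_pow_sectionExp hmn hcop x)
    exact ⟨⟨c * x ^ t * c⁻¹, hc ⟨x ^ t, Subgroup.mem_zpowers _, rfl⟩⟩, isConj_iff.2 ⟨c, rfl⟩⟩
  choose r hr using hinto
  have hfus' : ∀ (a b : H), IsConj (a : G) b → IsConj a b := by
    intro a b hab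
    obtain ⟨h, hh, he⟩ := hfus a a.2 b b.2 hab
    exact isConj_iff.2 ⟨⟨h, hh⟩, Subtype.ext he⟩
  -- the extension of a class function
  let ext : (H → ℂ) → G → ℂ := fun φ x => φ (r x)
  have hext : ∀ φ, Cfsg.IsClassFunction H φ → ∀ (x : G) (h : H), IsConj (x ^ t) (h : G) →
      ext φ x = φ h := fun φ hφ x h hxh =>
    Cfsg.Agent.Char.isClassFunction_eq_of_isConj hφ (hfus' _ _ ((hr x).symm.trans hxh))
  have hextcl : ∀ φ, Cfsg.IsClassFunction H φ → Cfsg.IsClassFunction G (ext φ) := by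
    intro φ hφ x c
    have e : (c * x * c⁻¹) ^ t = c * x ^ t * c⁻¹ := by
      have := map_pow (MulAut.conj c) x t
      simpa [MulAut.conj_apply] using this.symm
    apply hext φ hφ
    rw [e]
    exact (IsConj.symm (isConj_iff.2 ⟨c, rfl⟩)).trans (hr x)
  have hgen : ∀ φ, Cfsg.IsGeneralizedCharacter H φ → Cfsg.IsGeneralizedCharacter G (ext φ) := by
    intro φ hφ
    have hφc := Cfsg.Agent.Char.isGeneralizedCharacter_isClassFunction hφ
    let S : AddSubgroup (G → ℂ) :=
      { carrier := {f | Cfsg.IsGeneralizedCharacter G f}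
        add_mem' := fun ha hb => Cfsg.Agent.CharInd.genChar_add ha hb
        zero_mem' := Cfsg.Agent.CharInd.genChar_zero
        neg_mem' := fun ha => Cfsg.Agent.CharInd.genChar_neg ha }
    refine Cfsg.Agent.CharDeep.mem_of_forall_elementary (hextcl φ hφc) S fun p E η hp hE hη => ?_
    apply Cfsg.Agent.CharInd.genChar_indFun
    apply Cfsg.Agent.CharInd.genChar_mul (Cfsg.Agent.CharInd.genChar_of_isCharacter hη)
    obtain ⟨V, hV, hVcard, π, hπ⟩ := Cfsg.Agent.CharDeep.exists_sectionHom hmn hcop hp E hE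
    obtain ⟨c, hc⟩ := helem V p hp hV hVcard
    let j : V →* H :=
      { toFun := fun v => ⟨c * v * c⁻¹, hc ⟨v, v.2, rfl⟩⟩
        map_one' := Subtype.ext (by simp)
        map_mul' := fun a b => Subtype.ext (by simp [mul_assoc]) }
    have e : (fun e : E => ext φ e) = φ ∘ (j.comp π) := by
      funext e
      show ext φ e = φ (j (π e))
      refine hext φ hφc _ _ ?_
      rw [← hπ e]
      exact isConj_iff.2 ⟨c, rfl⟩
    rw [e]
    obtain ⟨f₁, f₂, ⟨d₁, ρ₁, h₁⟩, ⟨d₂, ρ₂, h₂⟩, he⟩ := hφ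
    subst h₁ h₂ he
    exact ⟨_, _, ⟨d₁, ρ₁.comp (j.comp π), rfl⟩, ⟨d₂, ρ₂.comp (j.comp π), rfl⟩, rfl⟩
  -- the weight
  let N : H → ℕ := fun h => (Finset.univ.filter fun x : G => IsConj (x ^ t) (h : G)).card
  let k : H → ℕ := fun h => (Finset.univ.filter fun h' : H => IsConj (h' : G) (h : G)).card
  let W : H → ℂ := fun h =>
    ((((n * N h : ℕ) : ℚ) / ((k h * Nat.card G : ℕ) : ℚ) : ℚ) : ℂ)
  have hkpos : ∀ h, 0 < k h := fun h =>
    Finset.card_pos.2 ⟨h, Finset.mem_filter.2 ⟨Finset.mem_univ _, IsConj.refl _⟩⟩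
  have hNpos : ∀ h, 0 < N h := fun h => Finset.card_pos.2
    ⟨(h : G), Finset.mem_filter.2 ⟨Finset.mem_univ _, by rw [hHt]⟩⟩
  have hWconj : ∀ h, (starRingEnd ℂ) (W h) = W h := fun h => by
    simp only [W]; exact map_ratCast _ _
  have hWcl : Cfsg.IsClassFunction H W := by
    intro a c
    have hc : IsConj (a : G) ((c * a * c⁻¹ : H) : G) := isConj_iff.2 ⟨c, by simp⟩
    have e1 : N (c * a * c⁻¹) = N a := congrArg Finset.card
      (Finset.filter_congr fun x _ => ⟨fun h => h.trans hc.symm, fun h => h.trans hc⟩)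
    have e2 : k (c * a * c⁻¹) = k a := congrArg Finset.card
      (Finset.filter_congr fun x _ => ⟨fun h => h.trans hc.symm, fun h => h.trans hc⟩)
    simp only [W, e1, e2]
  have hinner : ∀ φ, Cfsg.IsClassFunction H φ →
      Cfsg.classInner (ext φ) (fun _ => 1) = Cfsg.classInner φ W := by
    intro φ hφ
    have hx : ∀ x : G, ext φ x =
        ∑ h : H, if IsConj (x ^ t) (h : G) then φ h / (k h : ℂ) else 0 := by
      intro x
      have hk0 : (k (r x) : ℂ) ≠ 0 := Nat.cast_ne_zero.2 (hkpos _).ne'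
      have e : ∀ h : H, (if IsConj (x ^ t) (h : G) then φ h / (k h : ℂ) else 0) =
          if IsConj (h : G) (r x : G) then φ (r x) / (k (r x) : ℂ) else 0 := by
        intro h
        by_cases hh : IsConj (x ^ t) (h : G)
        · have h1 : IsConj (h : G) (r x : G) := hh.symm.trans (hr x)
          have h2 : k h = k (r x) := congrArg Finset.card
            (Finset.filter_congr fun y _ => ⟨fun h => h.trans h1, fun h => h.trans h1.symm⟩)
          rw [if_pos hh, if_pos h1, h2,
            Cfsg.Agent.Char.isClassFunction_eq_of_isConj hφ (hfus' _ _ h1)]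
        · rw [if_neg hh, if_neg fun h1 => hh ((hr x).trans h1.symm)]
      simp only [e, ← Finset.sum_filter, Finset.sum_const, nsmul_eq_mul]
      exact (mul_div_cancel₀ _ hk0).symm
    simp only [Cfsg.classInner, map_one, mul_one, hx, hWconj]
    rw [Finset.sum_comm, Finset.mul_sum, Finset.mul_sum]
    refine Finset.sum_congr rfl fun h _ => ?_
    rw [← Finset.sum_filter, Finset.sum_const, nsmul_eq_mul]
    have h1 : (k h : ℂ) ≠ 0 := Nat.cast_ne_zero.2 (hkpos h).ne'
    have h2 : (Nat.card G : ℂ) ≠ 0 := Nat.cast_ne_zero.2 Nat.card_pos.ne'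
    have h3 : (n : ℂ) ≠ 0 := Nat.cast_ne_zero.2 (Nat.card_pos : 0 < Nat.card H).ne'
    show _ = (n : ℂ)⁻¹ * (φ h * W h)
    simp only [W, N, Rat.cast_div, Rat.cast_natCast, Nat.cast_mul]
    simp only [Rat.cast_mul, Rat.cast_natCast]
    field_simp
  have hone : Cfsg.classInner (fun _ : G => (1 : ℂ)) (fun _ => 1) = 1 :=
    Cfsg.Agent.Char.classInner_irr_self Cfsg.Agent.CharInd.irr_one_const
  have hW1 : W = fun _ => 1 := by
    have hWgen : Cfsg.IsGeneralizedCharacter H W := by
      refine Cfsg.Agent.Char.isGeneralizedCharacter_iff_classInner_int.2 ⟨hWcl, fun ψ => ?_⟩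
      obtain ⟨z, hz⟩ := Cfsg.Agent.Char.classInner_generalized_int
        (hgen _ (Cfsg.Agent.CharInd.genChar_irr ψ.2))
        (Cfsg.Agent.CharInd.genChar_irr (Cfsg.Agent.CharInd.irr_one_const (G := G)))
      refine ⟨z, ?_⟩
      rw [← Cfsg.Agent.Char.classInner_conj, ← hinner _ (Cfsg.Agent.Char.irr_isClassFunction ψ.2),
        hz, map_intCast]
    have hint : ∀ h : H, ∃ z : ℤ, 0 < z ∧ W h = (z : ℂ) := by
      intro h
      set q : ℚ := (((n * N h : ℕ) : ℚ) / ((k h * Nat.card G : ℕ) : ℚ)) with hq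
      have hI : IsIntegral ℤ (algebraMap ℚ ℂ q) := by
        rw [eq_ratCast]
        exact Cfsg.Agent.Char.isGeneralizedCharacter_isIntegral hWgen h
      obtain ⟨z, hz⟩ := IsIntegrallyClosed.isIntegral_iff.1
        ((isIntegral_algebraMap_iff (algebraMap ℚ ℂ).injective).1 hI)
      have hqpos : (0 : ℚ) < q := div_pos
        (Nat.cast_pos.2 (Nat.mul_pos Nat.card_pos (hNpos h)))
        (Nat.cast_pos.2 (Nat.mul_pos (hkpos h) Nat.card_pos))
      rw [eq_intCast] at hz
      refine ⟨z, by rw [← hz] at hqpos; exact_mod_cast hqpos, ?_⟩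
      show (q : ℂ) = _
      rw [← hz, Rat.cast_intCast]
    choose z hz0 hz using hint
    have hsum : ∑ h : H, W h = (n : ℂ) := by
      have h1 := hinner (fun _ => 1) (fun _ _ => rfl)
      rw [show ext (fun _ : H => (1 : ℂ)) = fun _ => 1 from rfl, hone] at h1
      simp only [Cfsg.classInner, one_mul, hWconj] at h1
      have h2 : (n : ℂ) ≠ 0 := Nat.cast_ne_zero.2 (Nat.card_pos : 0 < Nat.card H).ne'
      change (1 : ℂ) = (n : ℂ)⁻¹ * ∑ h : H, W h at h1
      rw [eq_inv_mul_iff_mul_eq₀ h2, mul_one] at h1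
      exact h1.symm
    have hsumz : ∑ h : H, z h = ∑ _h : H, (1 : ℤ) := by
      simp only [Finset.sum_const, Finset.card_univ, nsmul_eq_mul, mul_one]
      rw [← Nat.card_eq_fintype_card]
      simp only [hz] at hsum
      exact_mod_cast hsum
    funext h
    have h3 := (Finset.sum_eq_sum_iff_of_le (fun i _ => (hz0 i : (1 : ℤ) ≤ z i))).1 hsumz.symm h
      (Finset.mem_univ h)
    rw [hz, ← h3, Int.cast_one]
  have hinner1 : ∀ φ, Cfsg.IsClassFunction H φ →
      Cfsg.classInner (ext φ) (fun _ => 1) = Cfsg.classInner φ (fun _ => 1) := fun φ hφ => by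
    rw [hinner φ hφ, hW1]
  have hext1 : ∀ φ, Cfsg.IsClassFunction H φ → ext φ 1 = φ 1 := fun φ hφ =>
    hext φ hφ 1 1 (by rw [one_pow, Subgroup.coe_one])
  have hirr : ∀ ψ : Cfsg.IrrCharacter H, Cfsg.IsIrrCharacter G (ext (ψ : H → ℂ)) := by
    intro ψ
    have hψ := Cfsg.Agent.Char.irr_isClassFunction ψ.2
    refine Cfsg.Agent.CharInd.genChar_norm_one_pos
      (hgen _ (Cfsg.Agent.CharInd.genChar_irr ψ.2)) ?_ ?_
    · let φ : H → ℂ := fun h => (ψ : H → ℂ) h * (starRingEnd ℂ) ((ψ : H → ℂ) h)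
      have hφ : Cfsg.IsClassFunction H φ := fun a c => by simp only [φ, hψ a c]
      have h1 := hinner1 φ hφ
      have h2 : Cfsg.classInner φ (fun _ => 1) = 1 := by
        refine Eq.trans ?_ (Cfsg.Agent.Char.classInner_irr_self ψ.2)
        simp only [Cfsg.classInner, φ, map_one, mul_one]
      rw [← h2, ← h1]
      simp [Cfsg.classInner, ext, φ]
    · obtain ⟨d, hd, he⟩ := Cfsg.Agent.Char.irr_one_pos ψ.2
      rw [hext1 _ hψ, he, Complex.natCast_re]
      exact_mod_cast hd
  choose deg hdeg using fun ψ : Cfsg.IrrCharacter H =>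
    Cfsg.Agent.Char.isCharacter_one_nat (Cfsg.Agent.Char.isCharacter_of_irr ψ.2)
  let R : G → ℂ := ∑ ψ : Cfsg.IrrCharacter H, deg ψ • ext (ψ : H → ℂ)
  have hR : Cfsg.IsCharacter G R := Cfsg.Agent.Char.isCharacter_sum _ fun ψ _ =>
    Cfsg.Agent.Char.isCharacter_nsmul (Cfsg.Agent.Char.isCharacter_of_irr (hirr ψ)) _
  have hRval : ∀ x, R x = if r x = 1 then (n : ℂ) else 0 := by
    intro x
    simp only [R, Finset.sum_apply, Pi.smul_apply, nsmul_eq_mul, ← hdeg]
    simp only [Pi.mul_apply, Pi.natCast_apply, ext, ← hdeg]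
    exact Cfsg.Agent.Char.sum_irr_degree_mul (r x)
  obtain ⟨K, hK, hKmem⟩ := Cfsg.Agent.Char.isCharacter_exists_kernel hR
  have hn0 : (n : ℂ) ≠ 0 := Nat.cast_ne_zero.2 (Nat.card_pos : 0 < Nat.card H).ne'
  have hr1 : r 1 = 1 := by
    have := hr 1
    rw [one_pow, isConj_one_right] at this
    exact Subtype.ext this
  have hKiff : ∀ x, x ∈ K ↔ r x = 1 := by
    intro x
    rw [hKmem, hRval, hRval, hr1, if_pos rfl]
    by_cases hx : r x = 1
    · simp [hx]
    · simp [hx, hn0.symm]
  have hKH : K ⊓ H = ⊥ := by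
    rw [eq_bot_iff]
    rintro x ⟨hx, hxH⟩
    have h1 := hr x
    rw [(hKiff x).1 hx, show x ^ t = x from hHt ⟨x, hxH⟩, Subgroup.coe_one, isConj_one_left] at h1
    exact Subgroup.mem_bot.2 h1
  have hKcard : Nat.card K * Nat.card H = Nat.card G := by
    have hcl : Cfsg.IsClassFunction H (fun h : H => if h = 1 then (n : ℂ) else 0) := by
      intro a c
      simp [mul_inv_eq_one]
    have h1 := hinner1 _ hcl
    have e2 : Cfsg.classInner (fun h : H => if h = 1 then (n : ℂ) else 0) (fun _ => 1) = 1 := by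
      simp only [Cfsg.classInner, map_one, mul_one, Finset.sum_ite_eq', Finset.mem_univ, if_true]
      exact inv_mul_cancel₀ hn0
    rw [e2] at h1
    simp only [Cfsg.classInner, map_one, mul_one, ext, ← Finset.sum_filter, Finset.sum_const,
      nsmul_eq_mul] at h1
    have e3 : (Finset.univ.filter fun x : G => r x = 1).card = Nat.card K := by
      rw [← Fintype.card_subtype, ← Nat.card_eq_fintype_card]
      exact Nat.card_congr (Equiv.subtypeEquivRight fun x => (hKiff x).symm)
    rw [e3, inv_mul_eq_one₀ (Nat.cast_ne_zero.2 Nat.card_pos.ne')] at h1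
    exact_mod_cast h1.symm
  refine ⟨K, hK, ?_, hKH⟩
  exact (Subgroup.isComplement'_of_card_mul_and_disjoint hKcard (disjoint_iff.2 hKH)).sup_eq_top

end Cfsg.Agent.S0877
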