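import Cfsg.Prelude.Def_Local
import Cfsg.Agent.Brauer.Sections
import Cfsg.Agent.Cores.Basic

namespace Cfsg.Agent.S0942

theorem result {G : Type*} [Group G] [Finite G] (p : ℕ) [Fact p.Prime] (M : Ideal Cfsg.AlgInt) (hM : Cfsg.IsPModular p M) (u : G) (hu : ∃ k : ℕ, orderOf u = p ^ k) (v : G) (hv : v ∈ Cfsg.centralizerPPrimeCore p u) (χ : Cfsg.IrrCharacter G) (hχ : χ ∈ Cfsg.principalBlock M G) : (χ : G → ℂ) (u * v) = (χ : G → ℂ) u := by
  haveI := Fintype.ofFinite G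
  obtain ⟨k, hk⟩ := hu
  set C := Subgroup.centralizer ({u} : Set G) with hC
  have hn : (Cfsg.pPrimeCore p C).Normal := inferInstance
  refine Cfsg.Agent.Brauer.principalBlock_apply_mul hM hk (Cfsg.centralizerPPrimeCore p u)
    (Subgroup.map_subtype_le _) ?_ ?_ hχ hv
  · rintro c hc w ⟨w', hw', rfl⟩
    exact ⟨⟨c, hc⟩ * w' * (⟨c, hc⟩ : C)⁻¹, hn.conj_mem w' hw' ⟨c, hc⟩, rfl⟩
  · rw [Cfsg.centralizerPPrimeCore, Subgroup.card_map_of_injective (Subgroup.subtype_injective _)]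
    exact Cfsg.Agent.Cores.not_dvd_card_pPrimeCore

end Cfsg.Agent.S0942
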