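import Cfsg.Statements.S0975
import Cfsg.Agent.SmallGroups.Exceptional

set_option autoImplicit false
open Cfsg

namespace Cfsg.Agent.S0975


/-- No finite simple group has order 3744 = 2^5 * 3^2 * 13. -/
theorem result {G : Type*} [Group G] [Finite G] [IsSimpleGroup G] : Nat.card G ≠ 3744 := by
  intro hc
  let := Fintype.ofFinite G
  have := Fact.mk (by norm_num : Nat.Prime 13)
  have hG : ¬ IsMulCommutative G := SmallGroups.not_isMulCommutative (by rw [hc]; norm_num)
  obtain ⟨ε, d, L, hε, ⟨hd1, hd, hdp⟩, hL, hn, hs, hsq⟩ :=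
    SmallGroups.exists_degree_data_sylow (p := 13) (m := 288) (e := 2) (t := 6) hG
      (by rw [hc]) (by norm_num) (by decide +kernel) (by norm_num) (by norm_num) (by norm_num)
  obtain ⟨f, a, rfl, ha⟩ :=
    SmallGroups.list_sq_sum_one (fun x hx => (hL x hx).2.2.2) (by simpa using hn)
  obtain ⟨hf1, hf, hfp, -⟩ := hL (f, a) (by simp)
  simp only [List.map_cons, List.map_nil, List.sum_cons, List.sum_nil, add_zero, Nat.cast_ofNat] at *
  rw [hc] at hd hf hsq
  have hdlt : d < 26 := by nlinarith
  interval_cases d <;> (try omega) <;> rcases hε with rfl | rfl <;> rcases ha with rfl | rfl <;>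
    first | omega | (obtain rfl : f = 25 := by omega); norm_num at hf

end Cfsg.Agent.S0975
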