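import Cfsg.Statements.S0982
import Cfsg.Agent.SmallGroups.PSLPrimeOrders

set_option autoImplicit false
open Cfsg

namespace Cfsg.Agent.S0982
open SmallGroups

/-- A simple group of order 6072 is isomorphic to the projective special linear group of dimension 2 over the field with 23 elements. -/
theorem result {G : Type*} [Group G] [Finite G] [IsSimpleGroup G] (h : Nat.card G = 6072) {F : Type*} [Field F] [Fintype F] (hF : Fintype.card F = 23) : Nonempty (G ≃* Matrix.ProjectiveSpecialLinearGroup (Fin 2) F) := by
  have hG : ¬ IsMulCommutative G := not_isMulCommutative (by rw [h]; norm_num)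
  have : Fact (Nat.Prime 23) := ⟨by norm_num⟩
  have hn : Nat.card (Sylow 23 G) = 23 + 1 := by
    have h1 := card_sylow_mem hG (p := 23) (a := 0) (m := 264) (by rw [h]; norm_num) (by norm_num)
    rw [show ((264 : ℕ).divisors.filter fun n => n % 23 = 1 ∧ 1 < n) = {23 + 1} by decide +kernel] at h1
    simpa using h1
  have hP : ∀ P : Sylow 23 G, Nat.card ↥(P : Subgroup G) = 23 := fun P =>
    (card_sylow_subgroup (a := 1) (m := 264) (by rw [h]; norm_num) (by norm_num) P).trans (pow_one _)
  refine nonempty_equiv_psl_three_mod_four hG hn hP (d := 11) (by norm_num) (by rw [h]) (by decide)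
    (fun P Q t x hPQ hta htb htt h1 h2 hc => ?_) hF
  exact eq_one_of_commute_swapper hG hn hP (d := 11) (r := 11) (k := 1) (m := 552) (by norm_num) (by norm_num)
    one_ne_zero (by decide) (by rw [h]) (by rw [h]; norm_num) (by norm_num) (by decide)
    P Q t x hPQ hta htb htt h1 h2 hc

end Cfsg.Agent.S0982
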