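import Cfsg.Statements.S0985
import Cfsg.Agent.SmallGroups.Basic

set_option autoImplicit false
open Cfsg

namespace Cfsg.Agent.S0985
open Subgroup

/-- If the number of Sylow p-subgroups of a finite group is not congruent to 1 modulo p^k, then there are two distinct Sylow p-subgroups P and R such that the index of P ∩ R in P is at most p^(k-1). -/
theorem result {G : Type*} [Group G] [Finite G] (p k : ℕ) [Fact p.Prime] (h : ¬ Nat.card (Sylow p G) ≡ 1 [MOD p ^ k]) : ∃ P R : Sylow p G, P ≠ R ∧ ((R : Subgroup G).subgroupOf (P : Subgroup G)).index ≤ p ^ (k - 1) := by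
  classical
  have hp : p.Prime := Fact.out
  have := Fintype.ofFinite (Sylow p G)
  have := Fintype.ofFinite G
  by_contra hcon
  push Not at hcon
  refine h ?_
  let P : Sylow p G := default
  have hsz : ∀ R : Sylow p G, R ≠ P → p ^ k ∣ Nat.card (MulAction.orbit ↥(P : Subgroup G) R) := by
    intro R hR
    have hst : MulAction.stabilizer ↥(P : Subgroup G) R = (R : Subgroup G).subgroupOf (P : Subgroup G) := by
      ext x
      rw [MulAction.mem_stabilizer_iff, Subgroup.mem_subgroupOf]
      show (x : G) • R = R ↔ _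
      rw [Sylow.smul_eq_iff_mem_normalizer]
      refine ⟨fun hx => ?_, fun hx => Subgroup.le_normalizer hx⟩
      have hz : IsPGroup p (Subgroup.zpowers (x : G)) :=
        P.2.to_le (Subgroup.zpowers_le.mpr x.2)
      have h2 := hz.inf_normalizer_sylow R
      have h3 : (x : G) ∈ Subgroup.zpowers (x : G) ⊓ normalizer ((R : Subgroup G) : Set G) :=
        ⟨Subgroup.mem_zpowers _, hx⟩
      rw [show Subgroup.zpowers (x : G) ⊓ normalizer ((R : Subgroup G) : Set G) =
        Subgroup.zpowers (x : G) ⊓ (R : Subgroup G) from h2] at h3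
      exact h3.2
    have hidx : Nat.card (MulAction.orbit ↥(P : Subgroup G) R) =
        ((R : Subgroup G).subgroupOf (P : Subgroup G)).index := by
      rw [← hst, MulAction.index_stabilizer, Nat.card_coe_set_eq]
    have hlt := hcon P R (Ne.symm hR)
    obtain ⟨j, hj⟩ := P.2.index ((R : Subgroup G).subgroupOf (P : Subgroup G))
    rw [hidx, hj]
    rw [hj] at hlt
    refine pow_dvd_pow p ?_
    have := (Nat.pow_lt_pow_iff_right hp.one_lt).mp hlt
    omega
  have hdec := MulAction.selfEquivSigmaOrbits ↥(P : Subgroup G) (Sylow p G)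
  have := Fintype.ofFinite (MulAction.orbitRel.Quotient ↥(P : Subgroup G) (Sylow p G))
  rw [Nat.card_congr hdec, Nat.card_sigma]
  set q₀ : MulAction.orbitRel.Quotient ↥(P : Subgroup G) (Sylow p G) := Quotient.mk'' P with hq₀
  have hfixP : ∀ x : ↥(P : Subgroup G), x • P = P := fun x => by
    show (x : G) • P = P
    exact Sylow.smul_eq_iff_mem_normalizer.mpr (Subgroup.le_normalizer x.2)
  have horbP : MulAction.orbit ↥(P : Subgroup G) P = {P} := by
    ext R
    constructor
    · rintro ⟨x, rfl⟩
      exact hfixP x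
    · rintro rfl
      exact MulAction.mem_orbit_self _
  rw [← Finset.add_sum_erase _ _ (Finset.mem_univ q₀)]
  have h1 : Nat.card (MulAction.orbit ↥(P : Subgroup G) (Quotient.out q₀)) = 1 := by
    have : Quotient.out q₀ ∈ MulAction.orbit ↥(P : Subgroup G) P :=
      MulAction.orbitRel_apply.mp (Quotient.exact (Quotient.out_eq q₀))
    rw [MulAction.orbit_eq_iff.mpr this, horbP]
    simp
  rw [h1]
  have h2 : p ^ k ∣ ∑ q ∈ Finset.univ.erase q₀,
      Nat.card (MulAction.orbit ↥(P : Subgroup G) (Quotient.out q)) := by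
    refine Finset.dvd_sum fun q hq => hsz _ fun hP => ?_
    exact Finset.ne_of_mem_erase hq ((Quotient.out_eq q).symm.trans (congrArg Quotient.mk'' hP))
  obtain ⟨c, hc⟩ := h2
  rw [hc]
  exact (Nat.modEq_iff_dvd' (Nat.le_add_right 1 _)).mpr (by simp) |>.symm

end Cfsg.Agent.S0985
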