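import Cfsg.Statements.S1133
import Cfsg.Agent.OddPre.RankOneK
import Cfsg.Agent.S0205
-- import your own Cfsg.Agent.* helpers here

set_option autoImplicit false
open Cfsg

namespace Cfsg.Agent.S1133

/-- In the rank-one set-up (`G` finite and doubly transitive on `Ω`, `t` an involution moving `a`, `Q` normal in `G_a` with `G_a = Q D`, `Q ⊓ D = 1` for the two-point stabiliser `D = G_a ⊓ G_{t • a}`, `|Q|` even, `|D|` odd), with the action faithful and `G` containing two distinct commuting involutions, with `V = C_D(t)`, `K` the elements of `D` inverted by `t` and `W = C_V(K)`: `V/W` is cyclic, i.e. `V = W ⟨v⟩` for some `v ∈ V`. -/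
theorem result {G Ω : Type*} [Group G] [Finite G] [MulAction G Ω] [FaithfulSMul G Ω] {a : Ω} {t : G} {Q : Subgroup G}
    (hS : Cfsg.IsRankOneSetup G Ω a t Q)
    (h2 : ∃ x y : G, x ≠ 1 ∧ y ≠ 1 ∧ x ≠ y ∧ x * x = 1 ∧ y * y = 1 ∧ x * y = y * x) :
    ∃ v ∈ (MulAction.stabilizer G a ⊓ MulAction.stabilizer G (t • a)) ⊓ Subgroup.centralizer {t},
      ((MulAction.stabilizer G a ⊓ MulAction.stabilizer G (t • a)) ⊓ Subgroup.centralizer {t} ⊓ Subgroup.centralizer (Cfsg.invertedBy (MulAction.stabilizer G a ⊓ MulAction.stabilizer G (t • a)) t)) ⊔ Subgroup.closure {v} =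
        (MulAction.stabilizer G a ⊓ MulAction.stabilizer G (t • a)) ⊓ Subgroup.centralizer {t} := by
  have : Group.IsSolvable (Cfsg.Agent.RankOne.D a t) := Cfsg.Agent.S0205.result hS.odd_card
  obtain ⟨-, v, hv, hvt, hall⟩ := Cfsg.Agent.OddPre.RankOneK.structure_K hS h2
  have hcent : ∀ y : G, y ∈ Subgroup.centralizer ({t} : Set G) ↔ t * y = y * t := fun y =>
    Subgroup.mem_centralizer_iff.trans ⟨fun h => h t rfl, fun h w hw => by
      rw [Set.mem_singleton_iff.1 hw]; exact h⟩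
  have hvV : v ∈ (MulAction.stabilizer G a ⊓ MulAction.stabilizer G (t • a)) ⊓
      Subgroup.centralizer {t} := Subgroup.mem_inf.2 ⟨hv, (hcent v).2 hvt⟩
  refine ⟨v, hvV, ?_⟩
  set D := MulAction.stabilizer G a ⊓ MulAction.stabilizer G (t • a) with hD
  set V := D ⊓ Subgroup.centralizer {t} with hVdef
  refine le_antisymm (sup_le inf_le_left ?_) fun y hy => ?_
  · rw [Subgroup.closure_le, Set.singleton_subset_iff]
    exact hvV
  obtain ⟨hyD, hyt⟩ := Subgroup.mem_inf.1 hy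
  obtain ⟨n, hn⟩ := hall y hyD ((hcent y).1 hyt)
  have hvn : v ^ n ∈ V := V.zpow_mem hvV n
  have h1 : y * (v ^ n)⁻¹ ∈ V := V.mul_mem hy (V.inv_mem hvn)
  have h2 : y * (v ^ n)⁻¹ ∈ Subgroup.centralizer (Cfsg.invertedBy D t) :=
    Subgroup.mem_centralizer_iff.2 hn
  have h3 : v ^ n ∈ Subgroup.closure ({v} : Set G) :=
    (Subgroup.closure {v}).zpow_mem (Subgroup.subset_closure rfl) n
  have key : ∀ (A B : Subgroup G) (p q : G), p ∈ A → q ∈ B → p * q ∈ A ⊔ B := fun A B p q hp hq =>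
    (A ⊔ B).mul_mem (Subgroup.mem_sup_left hp) (Subgroup.mem_sup_right hq)
  have h4 := key _ _ _ _ (Subgroup.mem_inf.2 ⟨h1, h2⟩) h3
  rwa [inv_mul_cancel_right] at h4

end Cfsg.Agent.S1133
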