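import Cfsg.Agent.ReeG2.Cosets

set_option autoImplicit false
open Cfsg

namespace Cfsg.Agent.S1153

theorem result {K : Type*} [Field K] [Fintype K] {m : ℕ} (hK : Fintype.card K = 3 ^ (2 * m + 1)) :
    (∀ x y z : ↥(Cfsg.Lie.twistedG2 K (3 ^ m)) ⧸ ((Cfsg.Lie.chevG2.borelSubgroup K ⊓ Cfsg.Lie.twistedG2 K (3 ^ m))).subgroupOf (Cfsg.Lie.twistedG2 K (3 ^ m)), x ≠ y → x ≠ z → y ≠ z →
        Nat.card ↥(MulAction.stabilizer ↥(Cfsg.Lie.twistedG2 K (3 ^ m)) x ⊓ MulAction.stabilizer ↥(Cfsg.Lie.twistedG2 K (3 ^ m)) y ⊓ MulAction.stabilizer ↥(Cfsg.Lie.twistedG2 K (3 ^ m)) z) ≤ 2) ∧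
      ∃ x y z : ↥(Cfsg.Lie.twistedG2 K (3 ^ m)) ⧸ ((Cfsg.Lie.chevG2.borelSubgroup K ⊓ Cfsg.Lie.twistedG2 K (3 ^ m))).subgroupOf (Cfsg.Lie.twistedG2 K (3 ^ m)), x ≠ y ∧ x ≠ z ∧ y ≠ z ∧
        Nat.card ↥(MulAction.stabilizer ↥(Cfsg.Lie.twistedG2 K (3 ^ m)) x ⊓ MulAction.stabilizer ↥(Cfsg.Lie.twistedG2 K (3 ^ m)) y ⊓ MulAction.stabilizer ↥(Cfsg.Lie.twistedG2 K (3 ^ m)) z) = 2 :=
  ⟨fun x y z hxy hxz hyz => ReeG2.card_stab_three K hK x y z hxy hxz hyz, ReeG2.exists_stab_three K hK⟩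

end Cfsg.Agent.S1153
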