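import Cfsg.Statements.S1330
import Cfsg.Agent.S0205
import Cfsg.Agent.Signalizer.CoreSeparated
-- import your own Cfsg.Agent.* helpers here

set_option autoImplicit false
open Cfsg

namespace Cfsg.Agent.S1330

/-- Let A₁, A₂ be core-separated four-subgroups of the finite group G and A = A₁A₂. For a ∈ G put O_a = O(C_G(a)) and θ a = ⋂_{i=1,2} ( ⁅O_a, A_i⁆ · (O_a ∩ O(C_G(A_i))) ). Then θ is an A-signalizer functor for the prime 2. -/
theorem result {G : Type*} [Group G] [Finite G] (A₁ A₂ : Subgroup G) (hcs : Cfsg.IsCoreSeparated A₁ A₂) : Cfsg.IsSignalizerFunctor 2 (A₁ ⊔ A₂) (fun a => (⁅Cfsg.centralizerPPrimeCore 2 a, A₁⁆ ⊔ (Cfsg.centralizerPPrimeCore 2 a ⊓ ((Cfsg.oddCore ↥(Subgroup.centralizer ((A₁ : Subgroup G) : Set G))).map (Subgroup.centralizer ((A₁ : Subgroup G) : Set G)).subtype))) ⊓ (⁅Cfsg.centralizerPPrimeCore 2 a, A₂⁆ ⊔ (Cfsg.centralizerPPrimeCore 2 a ⊓ ((Cfsg.oddCore ↥(Subgroup.centralizer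 ((A₂ : Subgroup G) : Set G))).map (Subgroup.centralizer ((A₂ : Subgroup G) : Set G)).subtype)))) := by
  haveI : Fact (Nat.Prime 2) := ⟨Nat.prime_two⟩
  obtain ⟨he₁, he₂, hc₁, hc₂, -, -, hcm, hsep⟩ := hcs
  have h : Signalizer.CoreSepData G A₁ A₂ :=
    ⟨he₁, he₂, hc₁, hc₂, hcm, hsep, fun H hH => Cfsg.Agent.S0205.result hH⟩
  have hswap : ∀ {x : G}, x ∈ A₁ ⊔ A₂ → x ∈ A₂ ⊔ A₁ := fun hx => sup_comm A₁ A₂ ▸ hx
  refine ⟨fun a ha _ => (inf_le_left.trans (h.coreSepPart_le ha)).trans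
    (Components.centralizerPPrimeCore_le a), fun a ha _ => ?_, fun a ha _ b hb x hx => ?_,
    fun a ha ha1 b hb hb1 => ?_⟩
  · exact ((Signalizer.odd_centralizerPPrimeCore a).of_dvd_nat
      (Subgroup.card_dvd_of_le (inf_le_left.trans (h.coreSepPart_le ha)))).not_two_dvd_nat
  · refine ⟨(Subgroup.mem_normalizer_iff.1 (h.le_normalizer_coreSepPart ha hb) x).1 hx.1, ?_⟩
    exact (Subgroup.mem_normalizer_iff.1
      (h.symm.le_normalizer_coreSepPart (hswap ha) (hswap hb)) x).1 hx.2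
  · refine le_inf (h.theta_inf_le ha ha1 hb hb1) ?_
    refine le_trans (le_of_eq ?_) (h.symm.theta_inf_le (hswap ha) ha1 (hswap hb) hb1)
    exact congrArg (fun K => K ⊓ Subgroup.centralizer ({b} : Set G)) (inf_comm _ _)

end Cfsg.Agent.S1330
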