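import Cfsg.Statements.S1337
import Cfsg.Agent.OddLocal.UniqueRank
import Cfsg.Agent.OddLocal.SCN3Setup
import Cfsg.Agent.Invol.FourGroup
import Cfsg.Agent.Known.NormalRankTwo
import Cfsg.Agent.Modules.ElemAb
import Cfsg.Agent.PGroup.Rank

set_option autoImplicit false
open Cfsg

namespace Cfsg.Agent.S1337

/-- Let P be a finite p-group of p-rank greater than 2. Then P has a normal elementary abelian subgroup U of order p², and for every elementary abelian X ≤ P with |X| ≥ p²: X is joined to U by a chain of pairwise commuting elementary abelian subgroups of order ≥ p² if and only if C_P(X) has p-rank greater than 2. -/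
theorem result {P : Type*} [Group P] [Finite P] (p : ℕ) [Fact p.Prime] (hP : IsPGroup p P) (hrk : ¬ Cfsg.PRankLE p 2 P) : ∃ U : Subgroup P, U.Normal ∧ Cfsg.IsElementaryAbelian p U ∧ Nat.card ↥U = p ^ 2 ∧ ∀ X : Subgroup P, Cfsg.IsElementaryAbelian p X → p ^ 2 ≤ Nat.card ↥X → (Relation.ReflTransGen (fun A B : Subgroup P => Cfsg.IsElementaryAbelian p A ∧ p ^ 2 ≤ Nat.card ↥A ∧ Cfsg.IsElementaryAbelian p B ∧ p ^ 2 ≤ Nat.card ↥B ∧ ∀ a ∈ A, ∀ b ∈ B, a * b = b * a) X U ↔ ¬ Cfsg.PRankLE p 2 ↥(Subgroup.centralizer (X : Set P))) := by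
  classical
  obtain ⟨E₀, -, hE₀e, hE₀⟩ := OddLocal.exists_elemAb_of_not_pRankLE
    (K := (⊤ : Subgroup P)) (fun h => hrk (fun F hF hFe => by
      have := h (F.subgroupOf ⊤) (OddLocal.isMulComm_subgroupOf hF ⊤)
        (fun a ha => Subtype.ext (hFe _ ha))
      rwa [Nat.card_congr (Subgroup.subgroupOfEquivOfLe le_top).toEquiv] at this))
  obtain ⟨U, hUn, hUe, hU⟩ :
      ∃ U : Subgroup P, U.Normal ∧ Cfsg.IsElementaryAbelian p U ∧ Nat.card U = p ^ 2 := by
    by_cases hp2 : p = 2
    · subst hp2
      obtain ⟨E8, -, hE8e, hE8⟩ := PGroup.exists_elemAb_card_eq hE₀e (m := 3) hE₀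
      obtain ⟨U, h1, h2, h3⟩ := Invol.exists_normal_four hP E8 hE8 hE8e.2
      refine ⟨U, h1, ⟨⟨⟨fun x y => Subtype.ext ?_⟩⟩, h3⟩, h2⟩
      exact congrArg Subtype.val ((IsPGroup.commutative_of_card_eq_prime_sq (p := 2) h2) x y)
    · obtain ⟨U, h1, h2, h3, h4⟩ := Known.exists_normal_elemAb_sq hp2 hP fun hc => by
        haveI := hc
        exact OddLocal.SCN3.not_isCyclic_of_elemAb hE₀e
          ((Nat.pow_le_pow_right (Fact.out : p.Prime).pos (by norm_num)).trans hE₀)
          inferInstance
      exact ⟨U, h1, ⟨h3, h4⟩, h2⟩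
  refine ⟨U, hUn, hUe, hU, fun X hX hX2 => ?_⟩
  have key : ∀ E : Subgroup P, Nat.card E ≤ p * Nat.card ↥(E ⊓ Subgroup.centralizer (U : Set P)) :=
    fun E => OddLocal.card_inf_centralizer_ge (p := p) (P := (⊤ : Subgroup P))
      (hP.to_subgroup ⊤) le_top (by rw [Subgroup.normalizer_eq_top]) hUe hU le_top
  have hcomm : ∀ K : Subgroup P, Cfsg.IsElementaryAbelian p K →
      K ≤ Subgroup.centralizer (K : Set P) := fun K hK => by
    haveI := hK.1
    exact Subgroup.le_centralizer K
  -- rank of a centralizer from a large elementary abelian subgroup inside it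
  have hrank : ∀ Y F : Subgroup P, Cfsg.IsElementaryAbelian p F → p ^ 3 ≤ Nat.card F →
      F ≤ Subgroup.centralizer (Y : Set P) →
      ¬ Cfsg.PRankLE p 2 ↥(Subgroup.centralizer (Y : Set P)) := by
    intro Y F hF hF3 hle h
    have := h (F.subgroupOf _) (OddLocal.isMulComm_subgroupOf hF.1 _)
      (fun a ha => Subtype.ext (hF.2 _ ha))
    rw [Nat.card_congr (Subgroup.subgroupOfEquivOfLe hle).toEquiv] at this
    exact absurd (hF3.trans this) (not_le.2
      (Nat.pow_lt_pow_right (Fact.out : p.Prime).one_lt (by norm_num)))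
  constructor
  · intro h
    induction h using Relation.ReflTransGen.head_induction_on with
    | refl =>
      set C := E₀ ⊓ Subgroup.centralizer (U : Set P)
      have hCe : Cfsg.IsElementaryAbelian p C := Signalizer.elemAb_mono hE₀e inf_le_left
      have hT := Modules.elemAb_sup hUe hCe inf_le_right
      by_cases hle : p ^ 3 ≤ Nat.card ↥(U ⊔ C)
      · exact hrank U _ hT hle (sup_le (hcomm U hUe) inf_le_right)
      · have hCU : C ≤ U := by
          by_contra hnot
          have := Signalizer.mul_prime_le_card_of_lt (p := p) (hP.to_subgroup (U ⊔ C))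
            (lt_of_le_not_ge (le_sup_left : U ≤ U ⊔ C) fun h' => hnot (le_sup_right.trans h'))
          rw [hU, ← pow_succ] at this
          exact hle this
        have hC2 : p ^ 2 ≤ Nat.card C := by
          refine Nat.le_of_mul_le_mul_left ?_ (Fact.out : p.Prime).pos
          rw [← pow_succ']
          exact hE₀.trans (key E₀)
        have hUE : U ≤ E₀ :=
          (Subgroup.eq_of_le_of_card_ge hCU (hU ▸ hC2)).ge.trans inf_le_left
        exact hrank U E₀ hE₀e hE₀ ((hcomm E₀ hE₀e).trans
          (Subgroup.centralizer_le (SetLike.coe_subset_coe.2 hUE)))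
    | @head A B hab _ ih =>
      obtain ⟨hA, hA2', hB, hB2, hcm⟩ := hab
      have hBc : B ≤ Subgroup.centralizer (A : Set P) := fun b hb =>
        Subgroup.mem_centralizer_iff.2 fun a ha => hcm a ha b hb
      have hT := Modules.elemAb_sup hA hB hBc
      have hTc : A ⊔ B ≤ Subgroup.centralizer (A : Set P) := sup_le (hcomm A hA) hBc
      by_cases hle : p ^ 3 ≤ Nat.card ↥(A ⊔ B)
      · exact hrank A _ hT hle hTc
      · have hBA : B ≤ A := by
          by_contra hnot
          have := Signalizer.mul_prime_le_card_of_lt (p := p) (hP.to_subgroup (A ⊔ B))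
            (lt_of_le_not_ge (le_sup_left : A ≤ A ⊔ B) fun h' => hnot (le_sup_right.trans h'))
          exact hle ((pow_succ p 2).le.trans ((Nat.mul_le_mul_right p hA2').trans this))
        have hAc : ¬ p ^ 3 ≤ Nat.card A := fun h' =>
          hle (h'.trans (Subgroup.card_le_of_le le_sup_left))
        have heq : B = A := by
          refine Subgroup.eq_of_le_of_card_ge hBA ?_
          by_contra hlt
          have := Signalizer.mul_prime_le_card_of_lt (p := p) (hP.to_subgroup A)
            (lt_of_le_of_ne hBA fun e => hlt (e ▸ le_rfl))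
          exact hAc ((pow_succ p 2).le.trans ((Nat.mul_le_mul_right p hB2).trans this))
        exact heq ▸ ih hB hB2
  · intro h
    obtain ⟨E, hE, hEe, hE3⟩ := OddLocal.exists_elemAb_of_not_pRankLE h
    have hT := Modules.elemAb_sup hX hEe hE
    set T := X ⊔ E
    set C := T ⊓ Subgroup.centralizer (U : Set P)
    have hCe : Cfsg.IsElementaryAbelian p C := Signalizer.elemAb_mono hT inf_le_left
    have hT2 : p ^ 2 ≤ Nat.card T := hX2.trans (Subgroup.card_le_of_le le_sup_left)
    have hC2 : p ^ 2 ≤ Nat.card C := by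
      refine Nat.le_of_mul_le_mul_left ?_ (Fact.out : p.Prime).pos
      rw [← pow_succ']
      exact (hE3.trans (Subgroup.card_le_of_le le_sup_right)).trans (key T)
    have hcomT : ∀ a ∈ T, ∀ b ∈ T, a * b = b * a := fun a ha b hb =>
      congrArg Subtype.val (hT.1.is_comm.comm (⟨a, ha⟩ : T) ⟨b, hb⟩)
    refine ((Relation.ReflTransGen.single ?_).tail (b := T) (c := C) ?_).tail (b := C) (c := U) ?_
    · exact ⟨hX, hX2, hT, hT2, fun a ha b hb => hcomT a (Subgroup.mem_sup_left ha) b hb⟩
    · exact ⟨hT, hT2, hCe, hC2, fun a ha b hb => hcomT a ha b hb.1⟩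
    · exact ⟨hCe, hC2, hUe, hU.ge, fun a ha b hb =>
        (Subgroup.mem_centralizer_iff.1 ha.2 b hb).symm⟩

end Cfsg.Agent.S1337
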