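import Cfsg.Statements.S1338
import Cfsg.Agent.S1337
import Cfsg.Agent.PGroup.NormalRankFour

set_option autoImplicit false
open Cfsg

namespace Cfsg.Agent.S1338

open Subgroup in
/-- An element of order 3 fixes at least 9 elements of an invariant elementary abelian group of
order 81. -/
theorem fixed_card {P : Type*} [Group P] [Finite P] {A : Subgroup P} [A.Normal]
    (hA : Cfsg.IsElementaryAbelian 3 A) (hA4 : Nat.card A = 3 ^ 4) {x : P} (hx : x ^ 3 = 1) :
    3 ^ 2 ≤ Nat.card ↥(A ⊓ centralizer ({x} : Set P)) := by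
  letI : CommGroup A := { (inferInstance : Group A) with mul_comm := hA.1.is_comm.comm }
  let c : A →* A :=
    (MulAut.conjNormal (H := A) x).toMonoidHom
  have hc : ∀ a : A, (c a : P) = x * a * x⁻¹ := fun a => MulAut.conjNormal_apply x a
  let d : A →* A := MonoidHom.mk' (fun a => c a * a⁻¹) fun a b => by
    rw [map_mul, mul_inv_rev, mul_comm b⁻¹ a⁻¹, mul_mul_mul_comm]
  have hd : ∀ a : A, d a = c a * a⁻¹ := fun a => rfl
  have hA3 : ∀ a : A, a * a * a = 1 := fun a => by
    have := hA.2 a a.2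
    exact Subtype.ext (by simpa [pow_succ] using this)
  have hc3 : ∀ a : A, c (c (c a)) = a := fun a => Subtype.ext (by
    rw [hc, hc, hc, show x * (x * (x * (a : P) * x⁻¹) * x⁻¹) * x⁻¹
      = x ^ 3 * a * (x ^ 3)⁻¹ by simp [pow_succ, mul_inv_rev, mul_assoc], hx]
    simp)
  have hd3 : ∀ a : A, d (d (d a)) = 1 := fun a => by
    simp only [hd, map_mul, map_inv, mul_inv_rev, inv_inv, hc3]
    calc _ = (c a * c a * c a) * (c (c a) * c (c a) * c (c a))⁻¹ := by
          apply Additive.ofMul.injective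
          simp only [ofMul_mul, ofMul_inv]
          abel
      _ = 1 := by rw [hA3, hA3]; simp
  have hker : ∀ (f g : A →* A), Nat.card (f.comp g).ker ≤ Nat.card f.ker * Nat.card g.ker := by
    intro f g
    let r : (f.comp g).ker →* f.ker :=
      MonoidHom.mk' (fun a => ⟨g (a : A), a.2⟩) fun a b => Subtype.ext (map_mul g (a : A) (b : A))
    rw [← card_mul_index r.ker, index_ker, mul_comm]
    refine Nat.mul_le_mul (Nat.le_of_dvd Nat.card_pos r.range.card_subgroup_dvd_card) ?_
    refine Nat.card_le_card_of_injective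
      (fun a : r.ker => (⟨(a.1 : A), congrArg Subtype.val (a.2 : r a.1 = 1)⟩ : g.ker)) ?_
    intro a b h
    exact Subtype.ext (Subtype.ext (congrArg Subtype.val h :))
  have htop : (d.comp (d.comp d)).ker = ⊤ := eq_top_iff.2 fun a _ => hd3 a
  have h81 : 3 ^ 4 ≤ Nat.card d.ker * (Nat.card d.ker * Nat.card d.ker) := by
    have h := (hker d (d.comp d)).trans (Nat.mul_le_mul_left _ (hker d d))
    rwa [htop, card_top, hA4] at h
  have hle : Nat.card d.ker ≤ Nat.card ↥(A ⊓ centralizer ({x} : Set P)) := by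
    rw [← card_map_of_injective (f := A.subtype) A.subtype_injective]
    refine card_le_of_le ?_
    rintro _ ⟨a, ha, rfl⟩
    refine ⟨a.2, mem_centralizer_singleton_iff.2 ?_⟩
    have h : c a = a := mul_inv_eq_one.1 ha
    have h' := congrArg Subtype.val h
    rw [hc] at h'
    exact (mul_inv_eq_iff_eq_mul.1 h').symm
  refine le_trans ?_ hle
  by_contra hlt
  have h5 : Nat.card d.ker ≤ 3 := by
    have hdvd : Nat.card d.ker ∣ 3 ^ 4 := hA4 ▸ d.ker.card_subgroup_dvd_card
    obtain ⟨i, hi, hi'⟩ := (Nat.dvd_prime_pow (by norm_num : Nat.Prime 3)).1 hdvd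
    interval_cases i <;> omega
  have := h81.trans (Nat.mul_le_mul h5 (Nat.mul_le_mul h5 h5))
  norm_num at this

open Subgroup in
theorem rank_centralizer {P : Type*} [Group P] [Finite P] (hP : IsPGroup 3 P)
    (hrk : ¬ Cfsg.PRankLE 3 3 P) {X : Subgroup P} (hX : Cfsg.IsElementaryAbelian 3 X)
    (hX2 : 3 ^ 2 ≤ Nat.card X) : ¬ Cfsg.PRankLE 3 2 ↥(centralizer (X : Set P)) := by
  haveI : Fact (Nat.Prime 3) := ⟨by norm_num⟩
  intro h
  haveI := hX.1
  have key : ∀ T : Subgroup P, Cfsg.IsElementaryAbelian 3 T → T ≤ centralizer (X : Set P) →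
      Nat.card T ≤ 3 ^ 2 := by
    intro T hT hle
    have := h (T.subgroupOf _) (OddLocal.isMulComm_subgroupOf hT.1 _)
      (fun a ha => Subtype.ext (hT.2 _ ha))
    rwa [Nat.card_congr (subgroupOfEquivOfLe hle).toEquiv] at this
  obtain ⟨E, -, hEe, hE4⟩ := OddLocal.exists_elemAb_of_not_pRankLE (K := (⊤ : Subgroup P))
    (fun h' => hrk (fun F hF hFe => by
      have := h' (F.subgroupOf ⊤) (OddLocal.isMulComm_subgroupOf hF ⊤)
        (fun a ha => Subtype.ext (hFe _ ha))
      rwa [Nat.card_congr (subgroupOfEquivOfLe le_top).toEquiv] at this))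
  obtain ⟨E', -, hE'e, hE'⟩ := PGroup.exists_elemAb_card_eq hEe hE4
  obtain ⟨A, hAn, hA, hA4⟩ :=
    PGroup.RankFour.exists_normal_elemAb_four (by norm_num) _ rfl hP E' hE'e hE'
  haveI := hAn
  have hX9 : Nat.card X = 3 ^ 2 := le_antisymm (key X hX (le_centralizer X)) hX2
  have hfix : A ⊓ centralizer (X : Set P) ≤ X := by
    intro a ha
    have h3 : a ^ 3 = 1 := hA.2 a ha.1
    have hle : zpowers a ≤ centralizer (X : Set P) := zpowers_le.2 ha.2
    have hT := Modules.elemAb_sup hX (PGroup.RankFour.elemAb_zpowers h3) hle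
    have heq := eq_of_le_of_card_ge (le_sup_left : X ≤ X ⊔ zpowers a)
      (hX9 ▸ key _ hT (sup_le (le_centralizer X) hle))
    exact heq.ge (mem_sup_right (mem_zpowers _))
  haveI := hA.1
  by_cases hXA : X ≤ A
  · have := key A hA ((le_centralizer A).trans (centralizer_le (SetLike.coe_subset_coe.2 hXA)))
    rw [hA4] at this
    norm_num at this
  obtain ⟨x, hxX, hxA⟩ := SetLike.not_le_iff_exists.1 hXA
  by_cases hbot : X ⊓ A = ⊥
  · have hne : A ⊓ centralizer (X : Set P) ≠ ⊥ := by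
      intro hb
      obtain ⟨y, ⟨hy, hy1⟩, hyc⟩ := Signalizer.exists_fixed_of_isPGroup (hP.to_subgroup X)
        ((A : Set P) \ {1}) (fun g _ y hy => ⟨hAn.conj_mem y hy.1 g, fun h => hy.2 (by
          simpa [mul_inv_eq_one, mul_inv_eq_iff_eq_mul] using h)⟩) (by
          rw [Nat.card_coe_set_eq, Set.ncard_sdiff_singleton_of_mem (one_mem A),
            ← Nat.card_coe_set_eq]
          show ¬ 3 ∣ Nat.card A - 1
          rw [hA4]
          norm_num)
      have hm : y ∈ A ⊓ centralizer (X : Set P) := ⟨hy, hyc⟩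
      rw [hb, mem_bot] at hm
      exact hy1 (Set.mem_singleton_iff.2 hm)
    exact hne (le_bot_iff.1 (hbot ▸ le_inf hfix inf_le_left))
  · have hsup : zpowers x ⊔ (X ⊓ A) = X := by
      refine eq_of_le_of_card_ge (sup_le (zpowers_le.2 hxX) inf_le_left) ?_
      have hlt : X ⊓ A < zpowers x ⊔ (X ⊓ A) := lt_of_le_not_ge le_sup_right fun h =>
        hxA (h (mem_sup_left (mem_zpowers x))).2
      have h1 := Signalizer.mul_prime_le_card_of_lt (p := 3) (hP.to_subgroup _) hlt
      have h2 : 3 ≤ Nat.card ↥(X ⊓ A) := by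
        obtain ⟨k, hk⟩ := (hP.to_subgroup (X ⊓ A)).exists_card_eq
        rw [hk]
        refine Nat.le_self_pow ?_ 3
        intro hk0
        exact hbot (card_eq_one.1 (by rw [hk, hk0, pow_zero]))
      omega
    have hle : A ⊓ centralizer ({x} : Set P) ≤ X ⊓ A := by
      refine le_inf (le_trans (le_inf inf_le_left ?_) hfix) inf_le_left
      rw [← hsup, Signalizer.centralizer_sup, Signalizer.centralizer_zpowers]
      exact le_inf inf_le_right
        (inf_le_left.trans ((le_centralizer A).trans (centralizer_le (SetLike.coe_subset_coe.2 inf_le_right))))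
    have h9 := (fixed_card hA hA4 (hX.2 x hxX)).trans (card_le_of_le hle)
    have hlt : X ⊓ A < X := lt_of_le_of_ne inf_le_left fun h => hxA (inf_eq_left.1 h hxX)
    have h1 := Signalizer.mul_prime_le_card_of_lt (p := 3) (hP.to_subgroup X) hlt
    rw [hX9] at h1
    omega

/-- A finite 3-group of 3-rank at least 4 is 2-connected for the prime 3: its commuting graph on elementary abelian subgroups of order ≥ 9 is connected. -/
theorem result {P : Type*} [Group P] [Finite P] (hP : IsPGroup 3 P) (hrk : ¬ Cfsg.PRankLE 3 3 P) : Cfsg.IsKConnected 3 2 P := by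
  haveI : Fact (Nat.Prime 3) := ⟨by norm_num⟩
  have hrk2 : ¬ Cfsg.PRankLE 3 2 P := fun h => hrk fun F hF hFe => (h F hF hFe).trans (by norm_num)
  obtain ⟨U, -, -, -, hU⟩ := Cfsg.Agent.S1337.result 3 hP hrk2
  intro X Y hX hX2 hY hY2
  have hsym : ∀ {A B : Subgroup P}, Relation.ReflTransGen (fun A B : Subgroup P =>
      Cfsg.IsElementaryAbelian 3 A ∧ 3 ^ 2 ≤ Nat.card ↥A ∧ Cfsg.IsElementaryAbelian 3 B ∧
        3 ^ 2 ≤ Nat.card ↥B ∧ ∀ a ∈ A, ∀ b ∈ B, a * b = b * a) A B →
      Relation.ReflTransGen (fun A B : Subgroup P =>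
      Cfsg.IsElementaryAbelian 3 A ∧ 3 ^ 2 ≤ Nat.card ↥A ∧ Cfsg.IsElementaryAbelian 3 B ∧
        3 ^ 2 ≤ Nat.card ↥B ∧ ∀ a ∈ A, ∀ b ∈ B, a * b = b * a) B A := by
    intro A B h
    induction h with
    | refl => exact Relation.ReflTransGen.refl
    | tail _ h2 ih =>
      obtain ⟨h1, h1', h3, h3', h4⟩ := h2
      exact Relation.ReflTransGen.head ⟨h3, h3', h1, h1', fun a ha b hb => (h4 b hb a ha).symm⟩ ih
  exact ((hU X hX hX2).2 (rank_centralizer hP hrk hX hX2)).trans
    (hsym ((hU Y hY hY2).2 (rank_centralizer hP hrk hY hY2)))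

end Cfsg.Agent.S1338
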