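import Cfsg.Statements.S1347
import Cfsg.Agent.S0205
import Cfsg.Agent.Components.Trichotomy
import Cfsg.Agent.S1301
-- import your own Cfsg.Agent.* helpers here

set_option autoImplicit false
open Cfsg

open Subgroup Cfsg.Agent.Components
open scoped commutatorElement

namespace Cfsg.Agent.S1347

/-- Let A be a standard subgroup of the finite group G with O(G) = 1, and t an involution of C_G(A). Then (i) A is normal in G; or (ii) there is a non-abelian simple subgroup X ≅ A with X and tXt⁻¹ commuting, meeting trivially and generating E(G), and C_G(A) = ⟨t⟩; or (iii) A ≤ E(G) and E(G) is non-abelian simple. -/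
theorem result {G : Type*} [Group G] [Finite G] (A : Subgroup G) (hA : Cfsg.IsStandardSubgroup A) (hO : Cfsg.oddCore G = ⊥) (t : G) (ht : orderOf t = 2) (htA : t ∈ Subgroup.centralizer (A : Set G)) : A.Normal ∨ (∃ X : Subgroup G, IsSimpleGroup ↥X ∧ ¬ IsMulCommutative ↥X ∧ Nonempty (↥X ≃* ↥A) ∧ (∀ a ∈ X, ∀ b ∈ X.map (MulAut.conj t).toMonoidHom, a * b = b * a) ∧ X ⊓ X.map (MulAut.conj t).toMonoidHom = ⊥ ∧ X ⊔ X.map (MulAut.conj t).toMonoidHom = Cfsg.layer G ∧ Subgroup.centralizer (A : Set G) = Subgroup.zpowers t) ∨ (A ≤ Cfsg.layer G ∧ IsSimpleGroup ↥(Cfsg.layer G) ∧ ¬ IsMulCommutative ↥(Cfsg.layer G)) := by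
  haveI : Fact (Nat.Prime 2) := ⟨Nat.prime_two⟩
  obtain ⟨hAq, ⟨hCeven, htight⟩, hAconj, hN⟩ := hA
  by_cases hAn : A.Normal
  · exact Or.inl hAn
  refine Or.inr ?_
  set C := centralizer (A : Set G) with hC
  -- an involution of `C(A)` is centralized only by elements normalizing `A`
  have hinv : ∀ r ∈ C, orderOf r = 2 → centralizer ({r} : Set G) ≤ normalizer (A : Set G) := by
    intro r hr hr2 g hg
    rw [hN]
    by_contra hgn
    refine (htight g hgn).not_two_dvd_nat ?_
    have hmem : r ∈ C ⊓ C.map (MulAut.conj g).toMonoidHom := ⟨hr, r, hr, by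
      show g * r * g⁻¹ = r
      rw [mem_centralizer_singleton_iff.1 hg, mul_inv_cancel_right]⟩
    exact (hr2 ▸ Subgroup.orderOf_dvd_natCard _ hmem : 2 ∣ _)
  -- `A` is normalized by no nontrivial subnormal overgroup
  have hkey : ∀ X : Subgroup G, X.IsSubnormal → A ≤ X → ¬ X ≤ normalizer (A : Set G) := by
    intro X hX hAX hXA
    have hAc : Cfsg.IsComponent A :=
      ⟨IsSubnormal.step _ X hAX hX (normal_subgroupOf_of_le_normalizer hXA), hAq⟩
    refine hAn ⟨fun a ha g => ?_⟩
    have hg : A.map (MulAut.conj g).toMonoidHom = A := by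
      by_contra hne
      exact hAconj g hne (component_commute hAc (component_conj g hAc) (Ne.symm hne))
    exact hg ▸ (⟨a, ha, rfl⟩ : g * a * g⁻¹ ∈ A.map (MulAut.conj g).toMonoidHom)
  set Ct := centralizer ({t} : Set G) with hCt
  have hACt : A ≤ Ct := fun a ha =>
    mem_centralizer_singleton_iff.2 (mem_centralizer_iff.1 htA a ha)
  have hAcomp : Cfsg.IsComponent (A.subgroupOf Ct) :=
    ⟨(normal_subgroupOf_of_le_normalizer (hinv t htA ht)).isSubnormal,
      quasisimple_of_mulEquiv (subgroupOfEquivOfLe hACt).symm hAq⟩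
  have hA2 : 2 ∣ Nat.card (A.subgroupOf Ct) := by
    rw [Nat.card_congr (subgroupOfEquivOfLe hACt).toEquiv]
    by_contra h
    exact quasisimple_not_solvable hAq
      (Cfsg.Agent.S0205.result (Nat.odd_iff.2 (by omega)))
  have hAE : A ≤ Cfsg.layer G := by
    have h1 := pComponent_le_pLayer (component_isPComponent hAcomp hA2)
    have hT : IsPGroup 2 (zpowers t) :=
      IsPGroup.of_card (n := 1) (by rw [Nat.card_zpowers, ht, pow_one])
    have h2 := Cfsg.Agent.S1301.result (zpowers t) hT
    rw [Components.centralizer_zpowers_eq] at h2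
    intro a ha
    have h3 : a ∈ Cfsg.pLayer 2 G := h2 ⟨⟨a, hACt ha⟩, h1 (mem_subgroupOf.2 ha), rfl⟩
    have hinj : Function.Injective (QuotientGroup.mk' (Cfsg.pPrimeCore 2 G)) := by
      rw [← MonoidHom.ker_eq_bot_iff, QuotientGroup.ker_mk']
      exact hO
    set e := MulEquiv.ofBijective (QuotientGroup.mk' (Cfsg.pPrimeCore 2 G))
      ⟨hinj, QuotientGroup.mk'_surjective _⟩ with he
    have h4 := pLayer_map_eq.le (mem_map_of_mem (QuotientGroup.mk' (Cfsg.pPrimeCore 2 G)) h3)
    rw [← layer_map_equiv e] at h4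
    obtain ⟨b, hb, hba⟩ := h4
    exact hinj hba ▸ hb
  -- no involution of `C(A)` centralizes the layer
  have hEno : ∀ r ∈ C, orderOf r = 2 → ¬ Cfsg.layer G ≤ centralizer ({r} : Set G) :=
    fun r hr hr2 h => hkey _ layer_normal.isSubnormal hAE (h.trans (hinv r hr hr2))
  -- the layer has trivial centralizer
  have hR : centralizer ((Cfsg.layer G : Subgroup G) : Set G) = ⊥ := by
    haveI := layer_normal (G := G)
    set R := centralizer ((Cfsg.layer G : Subgroup G) : Set G) with hRdef
    rw [eq_bot_iff, ← hO]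
    refine Cores.le_pPrimeCore inferInstance ?_
    rw [Nat.coprime_two_right, Nat.odd_iff]
    by_contra hodd
    obtain ⟨r, hr⟩ := exists_prime_orderOf_dvd_card' (G := R) 2 (by omega)
    have hr2 : orderOf (r : G) = 2 := by rw [Subgroup.orderOf_coe, hr]
    exact hEno r (mem_centralizer_iff.2 fun a ha => mem_centralizer_iff.1 r.2 a (hAE ha)) hr2
      fun e he => mem_centralizer_singleton_iff.2 (mem_centralizer_iff.1 r.2 e he)
  -- another component would centralize `A` and contain an involution of `C`
  have hout : ∀ K : Subgroup G, Cfsg.IsComponent K → ∀ X : Subgroup G, X.IsSubnormal → A ≤ X →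
      X ≤ centralizer (K : Set G) → False := by
    intro K hK X hX hAX hXK
    obtain ⟨r, hr⟩ := exists_prime_orderOf_dvd_card' (G := K) 2
      (component_card_dvd_of_pPrimeCore_eq_bot hO hK)
    have hr2 : orderOf (r : G) = 2 := by rw [Subgroup.orderOf_coe, hr]
    refine hkey X hX hAX (le_trans (show X ≤ centralizer ({(r : G)} : Set G) from fun x hx =>
      mem_centralizer_singleton_iff.2 (mem_centralizer_iff.1 (hXK hx) r r.2).symm)
      (hinv r ?_ hr2))
    exact mem_centralizer_iff.2 fun a ha => (mem_centralizer_iff.1 (hXK (hAX ha)) r r.2).symm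
  -- components of the layer are simple
  have hsimple : ∀ D : Subgroup G, Cfsg.IsComponent D →
      (∀ d ∈ D, (∀ x ∈ D, x * d = d * x) → d = 1) → IsSimpleGroup D ∧ ¬ IsMulCommutative D := by
    intro D hD hz
    have hZ : center ↥D = ⊥ := by
      rw [eq_bot_iff]
      intro d hd
      exact Subtype.ext (hz d d.2 fun x hx => congrArg Subtype.val (mem_center_iff.1 hd ⟨x, hx⟩))
    refine ⟨?_, fun hc => quasisimple_center_ne_top hD.2 ?_⟩
    · haveI := hD.2.2
      haveI : Nontrivial D := quasisimple_nontrivial hD.2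
      exact IsSimpleGroup.isSimpleGroup_of_surjective
        (((QuotientGroup.quotientMulEquivOfEq hZ).trans QuotientGroup.quotientBot).toMonoidHom)
        (MulEquiv.surjective _)
    · exact eq_top_iff.2 fun x _ => mem_center_iff.2 fun y => hc.is_comm.comm y x
  have hZlayer : ∀ d : G, d ∈ centralizer ((Cfsg.layer G : Subgroup G) : Set G) → d = 1 := fun d hd =>
    mem_bot.1 (hR ▸ hd)
  obtain ⟨D, hD, -, htri⟩ :=
    component_trichotomy (by rw [← sq, ← ht, pow_orderOf_eq_one]) hACt hAcomp hAE
  rcases htri with rfl | ⟨hlt, -⟩ | ⟨hne, hmem, hall, -⟩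
  · exact absurd (Subgroup.le_normalizer) (hkey _ hD.1 le_rfl)
  · right
    have huniq : Cfsg.layer G = D := by
      refine le_antisymm (layer_le_iff.2 fun K hK => ?_) (component_le_layer hD)
      rcases eq_or_ne K D with rfl | hKD
      · exact le_rfl
      · exact (hout K hK D hD.1 hlt.le (le_centralizer_iff.1
          (commutator_eq_bot_iff_le_centralizer.1 (component_commute hK hD hKD)))).elim
    rw [huniq]
    refine ⟨hlt.le, hsimple D hD fun d hd hc => hZlayer d ?_⟩
    rw [huniq]
    exact mem_centralizer_iff.2 hc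
  · left
    set Y := D.map (MulAut.conj t).toMonoidHom with hY
    have hYc : Cfsg.IsComponent Y := component_conj t hD
    have hDY : ∀ d ∈ D, ∀ y ∈ Y, d * y = y * d := fun d hd y hy =>
      commutatorElement_eq_one_iff_mul_comm.mp
        (mem_bot.mp (component_commute hD hYc (Ne.symm hne) ▸ commutator_mem_commutator hd hy))
    have hAX : A ≤ D ⊔ Y := fun a ha => by
      obtain ⟨d, hd, rfl⟩ := hall a ha
      exact mul_mem (mem_sup_left hd) (mem_sup_right ⟨d, hd, rfl⟩)
    have hEeq : Cfsg.layer G = D ⊔ Y := by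
      refine le_antisymm (layer_le_iff.2 fun K hK => ?_)
        (sup_le (component_le_layer hD) (component_le_layer hYc))
      by_cases hKX : K = D ∨ K = Y
      · rcases hKX with rfl | rfl
        · exact le_sup_left
        · exact le_sup_right
      · rw [not_or] at hKX
        have hc : D ⊔ Y ≤ centralizer (K : Set G) := sup_le
          (le_centralizer_iff.1
            (commutator_eq_bot_iff_le_centralizer.1 (component_commute hK hD hKX.1)))
          (le_centralizer_iff.1
            (commutator_eq_bot_iff_le_centralizer.1 (component_commute hK hYc hKX.2)))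
        have hXs : (D ⊔ Y).IsSubnormal :=
          IsSubnormal.step _ _ (sup_le (component_le_layer hD) (component_le_layer hYc))
            layer_normal.isSubnormal (normal_subgroupOf_of_le_normalizer (fun x hx =>
              normalizer_inf_normalizer_le_normalizer_sup _ _ ⟨layer_le_normalizer_component hD hx,
                layer_le_normalizer_component hYc hx⟩))
        exact (hout K hK _ hXs hAX hc).elim
    have hcentre : ∀ g : G, (∀ x ∈ D, x * g = g * x) → (∀ y ∈ Y, y * g = g * y) → g = 1 :=
      fun g h1 h2 => hZlayer g (by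
        rw [hEeq]
        refine mem_centralizer_iff.2 fun x hx => ?_
        have hle : D ⊔ Y ≤ centralizer ({g} : Set G) := sup_le
          (fun z hz => mem_centralizer_singleton_iff.2 (h1 z hz))
          (fun z hz => mem_centralizer_singleton_iff.2 (h2 z hz))
        exact mem_centralizer_singleton_iff.1 (hle hx))
    have hinf : D ⊓ Y = ⊥ := eq_bot_iff.2 fun g hg => mem_bot.2 (hcentre g
      (fun x hx => hDY x hx g hg.2) (fun y hy => (hDY g hg.1 y hy).symm))
    let φ : D →* A :=
      { toFun := fun d => ⟨d * (t * d * t⁻¹), hmem d d.2⟩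
        map_one' := Subtype.ext (by simp)
        map_mul' := fun a b => Subtype.ext (by
          show (a : G) * b * (t * ((a : G) * b) * t⁻¹) =
            (a : G) * (t * a * t⁻¹) * ((b : G) * (t * b * t⁻¹))
          have h := hDY b b.2 _ (⟨a, a.2, rfl⟩ : t * (a : G) * t⁻¹ ∈ Y)
          calc (a : G) * b * (t * ((a : G) * b) * t⁻¹)
              = (a : G) * ((b : G) * (t * a * t⁻¹)) * (t * b * t⁻¹) := by group
            _ = _ := by rw [h]; group) }
    have hsplit : ∀ x ∈ D, ∀ x' ∈ D, ∀ y ∈ Y, ∀ y' ∈ Y, x * y = x' * y' → x = x' ∧ y = y' := by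
      intro x hx x' hx' y hy y' hy' he
      have h : x'⁻¹ * x = y' * y⁻¹ := by
        rw [inv_mul_eq_iff_eq_mul, ← mul_assoc, ← he, mul_inv_cancel_right]
      have hm : x'⁻¹ * x ∈ D ⊓ Y :=
        ⟨D.mul_mem (D.inv_mem hx') hx, h ▸ Y.mul_mem hy' (Y.inv_mem hy)⟩
      rw [hinf, mem_bot, inv_mul_eq_one] at hm
      subst hm
      exact ⟨rfl, mul_left_cancel he⟩
    have hφ : Function.Bijective φ := by
      refine ⟨fun a b hab => ?_, fun a => ?_⟩
      · exact Subtype.ext (hsplit a a.2 b b.2 _ ⟨a, a.2, rfl⟩ _ ⟨b, b.2, rfl⟩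
          (congrArg Subtype.val hab)).1
      · obtain ⟨d, hd, he⟩ := hall a a.2
        exact ⟨⟨d, hd⟩, Subtype.ext he.symm⟩
    obtain ⟨hDs, hDna⟩ := hsimple D hD fun d hd hc => hcentre d hc
      fun y hy => (hDY d hd y hy).symm
    refine ⟨D, hDs, hDna, ⟨MulEquiv.ofBijective φ hφ⟩, hDY, hinf, hEeq.symm, ?_⟩
    refine le_antisymm (fun g hg => ?_) (zpowers_le.2 htA)
    -- an element of `C(A)` fixing `D` and `Y` is trivial
    have hfix : ∀ h ∈ C, (D.map (MulAut.conj h).toMonoidHom = D) → h = 1 := by
      intro h hh hhD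
      have hhY : Y.map (MulAut.conj h).toMonoidHom = Y := by
        have hc' := component_conj h hYc
        by_contra hne'
        have hle : Y.map (MulAut.conj h).toMonoidHom ≤ D ⊔ Y := hEeq ▸ component_le_layer hc'
        refine component_ne_bot hc' ?_
        have hne'' : Y.map (MulAut.conj h).toMonoidHom ≠ D := fun he =>
          hne (map_injective (MulAut.conj h).injective (he.trans hhD.symm))
        have hcl : Y.map (MulAut.conj h).toMonoidHom ≤ centralizer (((D ⊔ Y : Subgroup G)) : Set G) := by
          rw [le_centralizer_iff]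
          exact sup_le
            (le_centralizer_iff.1
              (commutator_eq_bot_iff_le_centralizer.1 (component_commute hc' hD hne'')))
            (le_centralizer_iff.1
              (commutator_eq_bot_iff_le_centralizer.1 (component_commute hc' hYc hne')))
        rw [← le_bot_iff, ← hR, hEeq]
        exact hcl
      have key : ∀ d ∈ D, h * d * h⁻¹ = d ∧ h * (t * d * t⁻¹) * h⁻¹ = t * d * t⁻¹ := by
        intro d hd
        refine hsplit _ (hhD.le ⟨d, hd, rfl⟩) d hd _ (hhY.le ⟨_, ⟨d, hd, rfl⟩, rfl⟩) _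
          ⟨d, hd, rfl⟩ ?_
        show h * d * h⁻¹ * (h * (t * d * t⁻¹) * h⁻¹) = d * (t * d * t⁻¹)
        rw [show h * d * h⁻¹ * (h * (t * d * t⁻¹) * h⁻¹) = h * (d * (t * d * t⁻¹)) * h⁻¹ by group,
          ← mem_centralizer_iff.1 hh _ (hmem d hd), mul_inv_cancel_right]
      refine hcentre h (fun x hx => ?_) ?_
      · exact (mul_inv_eq_iff_eq_mul.1 (key x hx).1).symm
      · rintro _ ⟨d, hd, rfl⟩
        exact (mul_inv_eq_iff_eq_mul.1 (key d hd).2).symm
    by_cases hgD : D.map (MulAut.conj g).toMonoidHom = D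
    · rw [hfix g hg hgD]; exact one_mem _
    · have hgY : D.map (MulAut.conj g).toMonoidHom = Y := by
        by_contra hne'
        refine component_ne_bot (component_conj g hD) ?_
        rw [← le_bot_iff, ← hR, hEeq, le_centralizer_iff]
        exact sup_le
          (le_centralizer_iff.1
            (commutator_eq_bot_iff_le_centralizer.1 (component_commute (component_conj g hD) hD hgD)))
          (le_centralizer_iff.1
            (commutator_eq_bot_iff_le_centralizer.1 (component_commute (component_conj g hD) hYc hne')))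
      have htinv : t⁻¹ = t := inv_eq_of_mul_eq_one_right (by rw [← sq, ← ht, pow_orderOf_eq_one])
      have h1 : t * g = 1 := hfix _ (mul_mem htA hg) (by
        rw [← map_conj_mul, hgY, hY, map_conj_mul, ← sq, ← ht, pow_orderOf_eq_one, map_one]
        exact map_id D)
      rw [eq_inv_of_mul_eq_one_right h1]
      exact inv_mem (mem_zpowers t)

end Cfsg.Agent.S1347
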