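import Cfsg.Statements.S1349
import Cfsg.Agent.Signalizer.ThompsonDihedral

set_option autoImplicit false
open Cfsg

namespace Cfsg.Agent.S1349

/-- Let G be finite, L ≤ G solvable of odd order, and A an elementary abelian 2-subgroup of order 2^d (d ≥ 1) normalizing L with C_A(L) = 1. Then there are subgroups A_1, …, A_d of A of order 2 generating A and subgroups L_1, …, L_d of L such that each A_i ⊔ L_i is dihedral of order 2 n_i with n_i odd and at least 3, and A_i ⊔ L_i commutes elementwise with A_j ⊔ L_j for i ≠ j. -/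
theorem result {G : Type*} [Group G] [Finite G] (L A : Subgroup G) (hLs : Group.IsSolvable ↥L) (hLodd : Odd (Nat.card ↥L)) (hA : Cfsg.IsElementaryAbelian 2 A) (d : ℕ) (hd : 1 ≤ d) (hAd : Nat.card ↥A = 2 ^ d) (hAL : A ≤ Subgroup.normalizer (L : Set G)) (hfaith : A ⊓ Subgroup.centralizer (L : Set G) = ⊥) : ∃ (Ai : Fin d → Subgroup G) (Li : Fin d → Subgroup G) (n : Fin d → ℕ), (∀ i, Ai i ≤ A ∧ Nat.card ↥(Ai i) = 2 ∧ Li i ≤ L ∧ Odd (n i) ∧ 3 ≤ n i ∧ Nonempty (↥(Ai i ⊔ Li i) ≃* DihedralGroup (n i))) ∧ (⨆ i, Ai i) = A ∧ ∀ i j, i ≠ j → ∀ x ∈ Ai i ⊔ Li i, ∀ y ∈ Ai j ⊔ Li j, x * y = y * x := by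
  exact Cfsg.Agent.Signalizer.ThompsonDihedral.dihedral_lemma hLs hLodd hA d hAd hAL hfaith

end Cfsg.Agent.S1349
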