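import Cfsg.Statements.S1617
import Cfsg.Agent.OddTwoP.RankThree

set_option autoImplicit false
open Cfsg
open scoped Pointwise commutatorElement

namespace Cfsg.Agent.S1617

/-- A generating conjugacy class of involutions on which the group (with trivial solvable radical) acts with rank 3 is a class of 3-transpositions. -/
theorem result {G : Type*} [Group G] [Finite G] (hsol : ∀ N : Subgroup G, N.Normal → Group.IsSolvable ↥N → N = ⊥) {D : Set G} (hinv : ∀ d ∈ D, orderOf d = 2) (hconj : ∃ d ∈ D, D = conjugatesOf d) (hgen : Subgroup.closure D = ⊤) (hrank : ∀ x ∈ D, ∃ y ∈ D, ∃ z ∈ D, {w : G | ∃ g : G, Commute g x ∧ g * y * g⁻¹ = w} ≠ {w : G | ∃ g : G, Commute g x ∧ g * x * g⁻¹ = w} ∧ {w : G | ∃ g : G, Commute g x ∧ g * z * g⁻¹ = w} ≠ {w : G | ∃ g : G, Commute g x ∧ g * x * g⁻¹ = w} ∧ {w : G | ∃ g : G, Commute g x ∧ g * y * g⁻¹ = w} ≠ {w : G | ∃ g : G, Commute g x ∧ g * z * g⁻¹ = w} ∧ D = {w : G | ∃ g : G, Commute g x ∧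 g * x * g⁻¹ = w} ∪ {w : G | ∃ g : G, Commute g x ∧ g * y * g⁻¹ = w} ∪ {w : G | ∃ g : G, Commute g x ∧ g * z * g⁻¹ = w}) : Cfsg.IsThreeTranspositionClass D := by
  classical
  have hconjD : ∀ d ∈ D, ∀ g : G, g * d * g⁻¹ ∈ D := by
    obtain ⟨d₀, -, hD⟩ := hconj
    intro d hd g
    rw [hD] at hd ⊢
    exact IsConj.trans hd (isConj_iff.2 ⟨g, rfl⟩)
  have hconjmem : ∀ a ∈ D, ∀ b ∈ D, ∃ g : G, g * a * g⁻¹ = b := by
    obtain ⟨d₀, -, hD⟩ := hconj
    intro a ha b hb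
    rw [hD] at ha hb
    exact isConj_iff.1 (IsConj.trans (IsConj.symm ha) hb)
  obtain ⟨x₀, hx₀, -⟩ := hconj
  obtain ⟨y, hy, z, hz, hyx, hzx, -, hunion⟩ := hrank x₀ hx₀
  -- every member is in one of the three orbits
  have horb : ∀ w ∈ D, w = x₀ ∨ (∃ g : G, Commute g x₀ ∧ g * y * g⁻¹ = w) ∨
      (∃ g : G, Commute g x₀ ∧ g * z * g⁻¹ = w) := by
    intro w hw
    rw [hunion] at hw
    rcases hw with (⟨g, hg, rfl⟩ | h) | h
    · left; rw [hg.eq, mul_inv_cancel_right]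
    · exact Or.inr (Or.inl h)
    · exact Or.inr (Or.inr h)
  have hinvar : ∀ g u : G, Commute g x₀ →
      (Commute x₀ (g * u * g⁻¹) ↔ Commute x₀ u) ∧ orderOf (x₀ * (g * u * g⁻¹)) = orderOf (x₀ * u) := by
    intro g u hg
    have e : g * x₀ * g⁻¹ = x₀ := by rw [hg.eq, mul_inv_cancel_right]
    refine ⟨⟨fun h => ?_, fun h => ?_⟩, ?_⟩
    · rw [← e] at h
      simpa [mul_assoc] using h.map (MulAut.conj g⁻¹).toMonoidHom
    · rw [← e]
      simpa using h.map (MulAut.conj g).toMonoidHom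
    · conv_lhs => arg 1; arg 1; rw [← e]
      rw [← Cfsg.Agent.Invol.orderOf_conj g (x₀ * u)]
      congr 1
      group
  -- some other member commutes with `x₀`
  obtain ⟨c, hc, hcne, hcx⟩ :=
    Cfsg.Agent.OddTwoP.exists_commuting_of_noSolvable hsol hinv hconjD hgen hx₀
  -- not all commute
  have hnall : ∃ w ∈ D, ¬ Commute x₀ w := by
    by_contra h
    push Not at h
    have hle : (⊤ : Subgroup G) ≤ Subgroup.centralizer {x₀} := by
      rw [← hgen, Subgroup.closure_le]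
      intro w hw
      exact Subgroup.mem_centralizer_singleton_iff.2 (h w hw).symm.eq
    have hcen : x₀ ∈ Subgroup.center G := Subgroup.mem_center_iff.2 fun g =>
      Subgroup.mem_centralizer_singleton_iff.1 (hle (Subgroup.mem_top g))
    have hb := hsol (Subgroup.center G) inferInstance
      (Group.isSolvable_of_comm fun a b => Subtype.ext (Subgroup.mem_center_iff.1 b.2 a.1))
    rw [hb, Subgroup.mem_bot] at hcen
    exact Cfsg.Agent.Invol.inv_ne_one (hinv x₀ hx₀) hcen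
  obtain ⟨w₀, hw₀, hw₀x⟩ := hnall
  -- all non-commuting products at `x₀` have one order
  have hconst : ∀ w ∈ D, ¬ Commute x₀ w → orderOf (x₀ * w) = orderOf (x₀ * w₀) := by
    intro w hw hwx
    have hcases : ∀ v ∈ D, v ≠ x₀ →
        ((Commute x₀ v ↔ Commute x₀ y) ∧ orderOf (x₀ * v) = orderOf (x₀ * y)) ∨
        ((Commute x₀ v ↔ Commute x₀ z) ∧ orderOf (x₀ * v) = orderOf (x₀ * z)) := by
      intro v hv hne
      rcases horb v hv with h | ⟨g, hg, rfl⟩ | ⟨g, hg, rfl⟩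
      · exact absurd h hne
      · exact Or.inl (hinvar g y hg)
      · exact Or.inr (hinvar g z hg)
    have hne1 : w ≠ x₀ := fun h => hwx (h ▸ Commute.refl _)
    have hne2 : w₀ ≠ x₀ := fun h => hw₀x (h ▸ Commute.refl _)
    rcases hcases c hc hcne with ⟨i1, -⟩ | ⟨i1, -⟩
    · have hyc : Commute x₀ y := i1.1 hcx.symm
      have hto : ∀ v ∈ D, v ≠ x₀ → ¬ Commute x₀ v → orderOf (x₀ * v) = orderOf (x₀ * z) :=
        fun v hv hne hnc => (hcases v hv hne).elim (fun h => absurd (h.1.2 hyc) hnc) (fun h => h.2)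
      rw [hto w hw hne1 hwx, hto w₀ hw₀ hne2 hw₀x]
    · have hzc : Commute x₀ z := i1.1 hcx.symm
      have hto : ∀ v ∈ D, v ≠ x₀ → ¬ Commute x₀ v → orderOf (x₀ * v) = orderOf (x₀ * y) :=
        fun v hv hne hnc => (hcases v hv hne).elim (fun h => h.2) (fun h => absurd (h.1.2 hzc) hnc)
      rw [hto w hw hne1 hwx, hto w₀ hw₀ hne2 hw₀x]
  have hn : ∀ a ∈ D, ∀ b ∈ D, Commute a b ∨ orderOf (a * b) = orderOf (x₀ * w₀) := by
    intro a ha b hb
    by_cases hab : Commute a b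
    · exact Or.inl hab
    · right
      obtain ⟨g, hg⟩ := hconjmem a ha x₀ hx₀
      rw [← hconst (g * b * g⁻¹) (hconjD b hb g) ?_, ← hg, ← Cfsg.Agent.Invol.orderOf_conj g (a * b)]
      · congr 1; group
      · intro h
        rw [← hg] at h
        exact hab (by simpa [mul_assoc] using h.map (MulAut.conj g⁻¹).toMonoidHom)
  refine ⟨⟨hinv, Cfsg.Agent.OddTwoP.isThreeTransposition_of_const hsol hinv hconjD hgen hn⟩, ?_, hgen⟩
  obtain ⟨y', -, z', -, -, -, -, -⟩ := hrank x₀ hx₀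
  exact ⟨x₀, hx₀, Set.ext fun w => ⟨fun hw => isConj_iff.2 (hconjmem x₀ hx₀ w hw), fun hw => by
    obtain ⟨g, rfl⟩ := isConj_iff.1 hw
    exact hconjD x₀ hx₀ g⟩⟩

end Cfsg.Agent.S1617
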