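import Cfsg.Statements.S1708
import Cfsg.Agent.HNBound.Cover
import Cfsg.Agent.HNRep.Hom
-- import your own Cfsg.Agent.* helpers here

set_option autoImplicit false
open Cfsg

namespace Cfsg.Agent.S1708

theorem words_rev : ∀ u ∈ HNBound.stepP.words, (u.reverse ∈ HNRep.relWords ∨ (8 :: u.reverse.tail) ∈ HNRep.relWords ∧ u.reverse.head? = some 5) ∧ ∀ l ∈ u, l < 6 := by
  decide +kernel

theorem relators_hold : ∀ u ∈ HNBound.stepP.words,
    CosetCert.pval (HNBound.lett (PresentedGroup.of Spor.HN.Gen.x : Spor.HN) (PresentedGroup.of Spor.HN.Gen.y)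
      (PresentedGroup.of Spor.HN.Gen.z)) u = 1 := by
  intro u hu
  obtain ⟨hr, hlt⟩ := words_rev u hu
  set mk := PresentedGroup.mk (Spor.coxRelators Spor.HN.edges ∪ {r | r ∈ Spor.HN.extra}) with hmk
  have one : ∀ w ∈ HNRep.relWords, mk ((w.map HNRep.freeLetter).prod) = 1 := by
    intro w hw
    refine PresentedGroup.one_of_mem (Or.inr ?_)
    show _ ∈ Spor.HN.extra
    rw [HNRep.extra_eq]
    exact List.mem_map_of_mem hw
  have hz : mk Spor.HN.z⁻¹ = mk Spor.HN.z := by
    rw [map_inv]
    refine inv_eq_of_mul_eq_one_left ?_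
    have h2 := one [5, 5] (by decide +kernel)
    simpa [HNRep.freeLetter] using h2
  have h1 : mk ((u.reverse.map HNRep.freeLetter).prod) = 1 := by
    rcases hr with hr | ⟨hr, hhead⟩
    · exact one _ hr
    · obtain ⟨v, hv⟩ : ∃ v, u.reverse = 5 :: v := by
        rcases hcase : u.reverse with _ | ⟨a, v⟩
        · rw [hcase] at hhead; exact absurd hhead (by simp)
        · rw [hcase] at hhead; exact ⟨v, by simpa using hhead⟩
      rw [hv, List.tail_cons] at hr
      have h2 := one _ hr
      rw [List.map_cons, List.prod_cons, map_mul] at h2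
      rw [hv, List.map_cons, List.prod_cons, map_mul]
      have e8 : mk (HNRep.freeLetter 8) = mk (HNRep.freeLetter 5) := hz
      rwa [e8] at h2
  rw [CosetCert.pval_eq_prod, ← h1, map_list_prod, List.map_map]
  refine congrArg List.prod (List.map_congr_left fun l hl => ?_)
  have h := hlt l (List.mem_reverse.1 hl)
  interval_cases l <;> simp [HNBound.lett, HNRep.freeLetter, PresentedGroup.of, hmk]

/-- In the presented Harada–Norton group, the subgroup N generated by the images of x, y, z has a normal subgroup of index 2 which is a non-split double cover of the Higman–Sims group. -/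
theorem result : ∃ K : Subgroup (((Subgroup.closure ({Cfsg.Spor.HN.x, Cfsg.Spor.HN.y, Cfsg.Spor.HN.z} : Set (FreeGroup Cfsg.Spor.HN.Gen))).map (PresentedGroup.mk (Cfsg.Spor.coxRelators Cfsg.Spor.HN.edges ∪ {r | r ∈ Cfsg.Spor.HN.extra})))), K.Normal ∧ K.index = 2 ∧ Cfsg.IsNonsplitDoubleCover K Cfsg.Spor.HS := by
  rw [MonoidHom.map_closure, Set.image_insert_eq, Set.image_insert_eq, Set.image_singleton]
  exact HNBound.exists_cover _ _ _ relators_hold HNRep.x_sq_ne_one

end Cfsg.Agent.S1708
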