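import Cfsg.Statements.S1892
import Cfsg.Agent.PSolv.HallHigman
import Cfsg.Agent.Coprime.Action
-- import your own Cfsg.Agent.* helpers here

set_option autoImplicit false
open Cfsg

namespace Cfsg.Agent.S1892

open Cfsg.Agent
open scoped commutatorElement

/-- Let S be a finite p-solvable group with no nontrivial normal subgroup of order prime to p, A a p-subgroup of S, and Q a nontrivial A-invariant subgroup of order prime to p with [A, Q] = Q. Then the commutator [O_p(S), A, Q] is nontrivial. -/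
theorem result {S : Type*} [Group S] [Finite S] {p : ℕ} [Fact p.Prime]
    (hS : Cfsg.IsPSolvable p S) (hred : Cfsg.pPrimeCore p S = ⊥)
    (A Q : Subgroup S) (hA : IsPGroup p A) (hQ : ¬ p ∣ Nat.card Q) (hQ1 : Q ≠ ⊥)
    (hinv : ∀ a ∈ A, ∀ x ∈ Q, a * x * a⁻¹ ∈ Q) (hAQ : ⁅A, Q⁆ = Q) :
    ⁅⁅Cfsg.pCore p S, A⁆, Q⁆ ≠ ⊥ := by
  intro h
  set R := Cfsg.pCore p S with hR
  set C := R ⊓ Subgroup.centralizer (Q : Set S) with hC
  have hRn : R.Normal := Cfsg.pCore_normal p S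
  have hD : ⁅R, A⁆ ≤ C := le_inf (Subgroup.commutator_le_left R A)
    (Subgroup.commutator_eq_bot_iff_le_centralizer.mp h)
  have hQc : ∀ c ∈ C, ∀ q ∈ Q, q * c = c * q := fun c hc q hq =>
    Subgroup.mem_centralizer_iff.mp hc.2 q hq
  have hinv' : ∀ a ∈ A, ∀ q ∈ Q, a⁻¹ * q * a ∈ Q := fun a ha q hq => by
    simpa using hinv a⁻¹ (A.inv_mem ha) q hq
  have hAC : ∀ a ∈ A, ∀ c ∈ C, a * c * a⁻¹ ∈ C := by
    intro a ha c hc
    refine ⟨hRn.conj_mem c hc.1 a, Subgroup.mem_centralizer_iff.mpr fun q hq => ?_⟩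
    have h1 := hQc c hc _ (hinv' a ha q hq)
    calc q * (a * c * a⁻¹) = a * (a⁻¹ * q * a * c) * a⁻¹ := by group
      _ = a * (c * (a⁻¹ * q * a)) * a⁻¹ := by rw [h1]
      _ = a * c * a⁻¹ * q := by group
  set N := R ⊓ Subgroup.normalizer (C : Set S) with hN
  have hQC : ∀ q ∈ Q, q ∈ Subgroup.centralizer (C : Set S) := fun q hq =>
    Subgroup.mem_centralizer_iff.mpr fun c hc => (hQc c hc q hq).symm
  have hQN : Q ≤ Subgroup.normalizer (N : Set S) := by
    intro q hq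
    have hqC : q ∈ Subgroup.normalizer (C : Set S) :=
      Coprime.centralizer_le_normalizer' C (hQC q hq)
    rw [Subgroup.mem_normalizer_iff]
    intro n
    constructor
    · exact fun hn => ⟨hRn.conj_mem n hn.1 q,
        Subgroup.mul_mem _ (Subgroup.mul_mem _ hqC hn.2) (Subgroup.inv_mem _ hqC)⟩
    · intro hn
      refine ⟨?_, ?_⟩
      · simpa [mul_assoc] using hRn.conj_mem _ hn.1 q⁻¹
      · have := Subgroup.mul_mem _ (Subgroup.mul_mem _ (Subgroup.inv_mem _ hqC) hn.2) hqC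
        simpa [mul_assoc] using this
  -- the commutators of `A` and `Q` act trivially on `N` modulo `C`
  let Z : Subgroup S :=
    { carrier := {x | x ∈ Q ∧ ∀ n ∈ N, n⁻¹ * (x * n * x⁻¹) ∈ C}
      one_mem' := ⟨Q.one_mem, fun n _ => by simpa using C.one_mem⟩
      mul_mem' := by
        rintro x y ⟨hx, hx'⟩ ⟨hy, hy'⟩
        refine ⟨Q.mul_mem hx hy, fun n hn => ?_⟩
        have h1 := hy' n hn
        have h2 := hx' n hn
        have h3 : x * (n⁻¹ * (y * n * y⁻¹)) * x⁻¹ = n⁻¹ * (y * n * y⁻¹) := by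
          rw [hQc _ h1 x hx, mul_inv_cancel_right]
        have h4 : n⁻¹ * (x * y * n * (x * y)⁻¹) =
            n⁻¹ * (x * n * x⁻¹) * (x * (n⁻¹ * (y * n * y⁻¹)) * x⁻¹) := by group
        rw [h4, h3]
        exact C.mul_mem h2 h1
      inv_mem' := by
        rintro x ⟨hx, hx'⟩
        refine ⟨Q.inv_mem hx, fun n hn => ?_⟩
        have h1 := C.inv_mem (hx' n hn)
        have h2 := hQc _ h1 x⁻¹ (Q.inv_mem hx)
        have h3 : n⁻¹ * (x⁻¹ * n * x⁻¹⁻¹) =
            n⁻¹ * x⁻¹ * n * x := by group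
        rw [h3]
        have h4 : x⁻¹ * (n⁻¹ * (x * n * x⁻¹))⁻¹ * x = (n⁻¹ * (x * n * x⁻¹))⁻¹ := by
          rw [h2, inv_mul_cancel_right]
        have h6 : x⁻¹ * (n⁻¹ * (x * n * x⁻¹))⁻¹ * x = n⁻¹ * x⁻¹ * n * x := by group
        rw [← h6, h4]
        exact h1 }
  have hQZ : Q ≤ Z := by
    conv_lhs => rw [← hAQ]
    rw [Subgroup.commutator_le]
    intro a ha q hq
    refine ⟨by rw [← hAQ]; exact Subgroup.commutator_mem_commutator ha hq, fun n hn => ?_⟩
    -- `a` and `a⁻¹` are trivial modulo `C`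
    have key : ∀ b ∈ A, ∀ m ∈ R, m⁻¹ * (b * m * b⁻¹) ∈ C := by
      intro b hb m hm
      have : m⁻¹ * (b * m * b⁻¹) = ⁅m⁻¹, b⁆ := by rw [commutatorElement_def]; group
      rw [this]
      exact hD (Subgroup.commutator_mem_commutator (R.inv_mem hm) hb)
    set m := q⁻¹ * n * q with hm
    have hmR : m ∈ R := by simpa [hm] using hRn.conj_mem n hn.1 q⁻¹
    set c₁ := m⁻¹ * (a⁻¹ * m * a⁻¹⁻¹) with hc₁
    have hc₁C : c₁ ∈ C := key a⁻¹ (A.inv_mem ha) m hmR
    have hqc : q * c₁ * q⁻¹ = c₁ := by rw [hQc c₁ hc₁C q hq, mul_inv_cancel_right]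
    have he : n⁻¹ * (⁅a, q⁆ * n * ⁅a, q⁆⁻¹) =
        n⁻¹ * (a * n * a⁻¹) * (a * (q * c₁ * q⁻¹) * a⁻¹) := by
      rw [commutatorElement_def, hc₁, hm]; group
    rw [he, hqc]
    exact C.mul_mem (key a ha n hn.1) (hAC a ha c₁ hc₁C)
  have hcomm : ⁅N, Q⁆ ≤ C := by
    rw [Subgroup.commutator_le]
    intro n hn q hq
    have h1 := (hQZ hq).2 n⁻¹ (N.inv_mem hn)
    rw [inv_inv] at h1
    have : ⁅n, q⁆ = n * (q * n⁻¹ * q⁻¹) := by rw [commutatorElement_def]; group
    rw [this]; exact h1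
  have hcop : (Nat.card Q).Coprime (Nat.card N) := by
    obtain ⟨m, hm⟩ := ((PSolv.isPGroup_pCore p S).to_le (inf_le_left : N ≤ R)).exists_card_eq
    rw [hm]
    exact Nat.Coprime.pow_right _ ((Nat.Prime.coprime_iff_not_dvd Fact.out).mpr hQ).symm
  have hQN' := Coprime.le_centralizer_of_stabilizes hQN hcop hcomm hQC
  have hNC : N ≤ C := le_inf inf_le_left (Subgroup.le_centralizer_iff.mp hQN')
  have hCR : R ≤ C := by
    have : Group.IsNilpotent R := (PSolv.isPGroup_pCore p S).isNilpotent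
    by_contra hne
    have hlt : C.subgroupOf R < ⊤ := by
      rw [lt_top_iff_ne_top]
      exact fun h => hne (Subgroup.subgroupOf_eq_top.mp h)
    obtain ⟨r, hr, hrn⟩ := SetLike.exists_of_lt (Group.normalizerCondition_of_isNilpotent _ hlt)
    refine hrn (Subgroup.mem_subgroupOf.mpr (hNC ⟨r.2, ?_⟩))
    change (r : S) ∈ Subgroup.normalizer (C : Set S)
    have hmem : ∀ c ∈ C, (r : S) * c * (r : S)⁻¹ ∈ C := fun c hc => by
      have := (Subgroup.mem_normalizer_iff.mp hr ⟨c, hc.1⟩).mp hc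
      simpa [Subgroup.mem_subgroupOf] using this
    rw [Subgroup.mem_normalizer_iff]
    intro c
    refine ⟨hmem c, fun hc => ?_⟩
    have hcR : c ∈ R := by simpa [mul_assoc] using hRn.conj_mem _ hc.1 (r : S)⁻¹
    exact Subgroup.mem_subgroupOf.mp ((Subgroup.mem_normalizer_iff.mp hr ⟨c, hcR⟩).mpr
      (Subgroup.mem_subgroupOf.mpr hc))
  have hQR : Q ≤ R := (Subgroup.le_centralizer_iff.mp (hCR.trans inf_le_right)).trans
    (PSolv.centralizer_pCore_le hS hred)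
  obtain ⟨m, hm⟩ := ((PSolv.isPGroup_pCore p S).to_le hQR).exists_card_eq
  rcases Nat.eq_zero_or_pos m with rfl | hpos
  · exact hQ1 (Subgroup.card_eq_one.mp (by simpa using hm))
  · exact hQ (hm ▸ dvd_pow_self p hpos.ne')

end Cfsg.Agent.S1892
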