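import Cfsg.Statements.S1898
-- import your own Cfsg.Agent.* helpers here

set_option autoImplicit false
open Cfsg

namespace Cfsg.Agent.S1898

open scoped commutatorElement

/-- Let X be a finite 2-group whose derived subgroup is elementary abelian and central. Then the subgroup generated by the elements of order dividing 4 has exponent dividing 4, and every automorphism of X fixing each element of order dividing 4 has 2-power order. -/
theorem result {X : Type*} [Group X] [Finite X] (hX : IsPGroup 2 X)
    (hel : Cfsg.IsElementaryAbelian 2 (commutator X)) (hcen : commutator X ≤ Subgroup.center X) :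
    (∀ x ∈ Subgroup.closure {g : X | g ^ 4 = 1}, x ^ 4 = 1) ∧
      ∀ φ : MulAut X, (∀ g : X, g ^ 4 = 1 → φ g = g) → ∃ k : ℕ, φ ^ (2 ^ k) = 1 := by
  classical
  have hsq : ∀ c ∈ commutator X, c ^ 2 = 1 := fun c hc => hel.2 c hc
  have hz : ∀ c ∈ commutator X, ∀ x : X, x * c = c * x :=
    fun c hc x => Subgroup.mem_center_iff.mp (hcen hc) x
  -- squares are central
  have hsqz : ∀ g h : X, g * g * h = h * (g * g) := by
    intro g h
    set c := ⁅g, h⁆ with hc
    have hcm : c ∈ commutator X := by
      rw [hc, commutator_def]
      exact Subgroup.commutator_mem_commutator (Subgroup.mem_top _) (Subgroup.mem_top _)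
    have hgh : g * h = c * (h * g) := by rw [hc, commutatorElement_def]; group
    calc g * g * h = g * (g * h) := by group
      _ = g * c * (h * g) := by rw [hgh]; group
      _ = c * (g * h) * g := by rw [hz c hcm g]; group
      _ = c * (c * (h * g)) * g := by rw [hgh]
      _ = c ^ 2 * (h * (g * g)) := by rw [pow_two]; group
      _ = h * (g * g) := by rw [hsq c hcm, one_mul]
  have hmul : ∀ g h : X, g ^ 4 = 1 → h ^ 4 = 1 → (g * h) ^ 4 = 1 := by
    intro g h hg hh
    set c := ⁅h, g⁆ with hc
    have hcm : c ∈ commutator X := by
      rw [hc, commutator_def]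
      exact Subgroup.commutator_mem_commutator (Subgroup.mem_top _) (Subgroup.mem_top _)
    have hhg : h * g = c * (g * h) := by rw [hc, commutatorElement_def]; group
    have e2 : (g * h) ^ 2 = c * (g * g * (h * h)) := by
      calc (g * h) ^ 2 = g * (h * g) * h := by rw [pow_two]; group
        _ = g * c * (g * h) * h := by rw [hhg]; group
        _ = c * (g * g * (h * h)) := by rw [hz c hcm g]; group
    have hcomm : Commute (g * g) (h * h) := hsqz g (h * h)
    have hcc : Commute c (g * g * (h * h)) := (hz c hcm _).symm
    calc (g * h) ^ 4 = ((g * h) ^ 2) ^ 2 := by rw [← pow_mul]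
      _ = (c * (g * g * (h * h))) ^ 2 := by rw [e2]
      _ = c ^ 2 * ((g * g) ^ 2 * (h * h) ^ 2) := by rw [hcc.mul_pow, hcomm.mul_pow]
      _ = 1 := by rw [← pow_two, ← pow_two, ← pow_mul, ← pow_mul]; simp [hg, hh, hsq c hcm]
  refine ⟨?_, ?_⟩
  · intro x hx
    induction hx using Subgroup.closure_induction with
    | mem y hy => exact hy
    | one => simp
    | mul y z _ _ hy hz => exact hmul y z hy hz
    | inv y _ hy => rw [inv_pow, hy, inv_one]
  · intro φ hφ
    obtain ⟨k, m, hm, hk⟩ := Nat.exists_eq_two_pow_mul_odd (orderOf_pos φ).ne'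
    refine ⟨k, ?_⟩
    set ψ := φ ^ (2 ^ k) with hψ
    have hψm : ψ ^ m = 1 := by rw [hψ, ← pow_mul, ← hk, pow_orderOf_eq_one]
    have hψf : ∀ g : X, g ^ 4 = 1 → ψ g = g := by
      intro g hg
      rw [hψ]
      generalize 2 ^ k = j
      induction j with
      | zero => simp
      | succ j ih => rw [pow_succ, MulAut.mul_apply, hφ g hg, ih]
    have main : ∀ (j : ℕ) (x : X), x ^ (2 ^ j) = 1 → ψ x = x := by
      intro j
      induction j with
      | zero => intro x hx; simp only [pow_zero, pow_one] at hx; subst hx; exact map_one ψ
      | succ j ih =>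
        intro x hx
        have hx2 : ψ (x ^ 2) = x ^ 2 := ih _ (by rw [← pow_mul, ← pow_succ']; exact hx)
        set c := x⁻¹ * ψ x with hc
        have hψx : ψ x = x * c := by rw [hc]; group
        rw [map_pow, hψx] at hx2
        -- squares are central, so `c` squares to a commutator
        have hinvc : x⁻¹ * c * x = c⁻¹ := by
          have h' : c * x * c = x := by
            apply mul_left_cancel (a := x)
            rw [← pow_two x, ← hx2, pow_two]; group
          calc x⁻¹ * c * x = x⁻¹ * (c * x * c) * c⁻¹ := by group
            _ = c⁻¹ := by rw [h']; group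
        have hc2 : c ^ 2 ∈ commutator X := by
          have he : c ^ 2 = ⁅c, x⁻¹⁆ := by
            rw [commutatorElement_def, inv_inv]
            calc c ^ 2 = c * (c⁻¹)⁻¹ := by rw [pow_two]; group
              _ = c * (x⁻¹ * c * x)⁻¹ := by rw [hinvc]
              _ = c * x⁻¹ * c⁻¹ * x := by group
          rw [he, commutator_def]
          exact Subgroup.commutator_mem_commutator (Subgroup.mem_top _) (Subgroup.mem_top _)
        have hc4 : c ^ 4 = 1 := by
          rw [show (4 : ℕ) = 2 * 2 from rfl, pow_mul]; exact hsq _ hc2
        have hiter : ∀ i : ℕ, (ψ ^ i) x = x * c ^ i := by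
          intro i
          induction i with
          | zero => simp
          | succ i ih' =>
            rw [pow_succ', MulAut.mul_apply, ih', map_mul, map_pow, hψf c hc4, hψx, mul_assoc,
              ← pow_succ']
        have hcm : c ^ m = 1 := by
          have h := hiter m
          rw [hψm, MulAut.one_apply] at h
          exact mul_left_cancel (a := x) (by rw [mul_one]; exact h.symm)
        have hg : Nat.Coprime m 4 := by
          rw [show (4 : ℕ) = 2 ^ 2 from rfl]
          exact Nat.Coprime.pow_right _ (Nat.coprime_two_right.mpr hm)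
        have hc1 : c = 1 := by
          have h := pow_gcd_eq_one.mpr ⟨hcm, hc4⟩
          simpa [hg.gcd_eq_one] using h
        rw [hψx, hc1, mul_one]
    ext x
    obtain ⟨j, hj⟩ := hX x
    rw [MulAut.one_apply]
    exact main j x hj

end Cfsg.Agent.S1898
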