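import Cfsg.Statements.S1899
-- import your own Cfsg.Agent.* helpers here

set_option autoImplicit false
open Cfsg

namespace Cfsg.Agent.S1899

/-- Let a dihedral group of order 2n, n odd and n > 1, act on a finite abelian 2-group A through automorphisms d and t with d^n = 1, t² = 1 and t d t⁻¹ = d⁻¹, and suppose that d fixes only the identity. Then A is the internal direct product of C_A(t) and its image under d. -/
theorem result {A : Type*} [CommGroup A] [Finite A] (hA : IsPGroup 2 A)
    {n : ℕ} (hn : Odd n) (hn1 : 1 < n) (d t : MulAut A) (hd : d ^ n = 1) (ht : t ^ 2 = 1) (hdt : t * d * t⁻¹ = d⁻¹)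
    (hfix : ∀ a : A, d a = a → a = 1) :
    (MulEquiv.toMonoidHom t).eqLocus (MonoidHom.id A) ⊓ ((MulEquiv.toMonoidHom t).eqLocus (MonoidHom.id A)).map d.toMonoidHom = ⊥ ∧
      (MulEquiv.toMonoidHom t).eqLocus (MonoidHom.id A) ⊔ ((MulEquiv.toMonoidHom t).eqLocus (MonoidHom.id A)).map d.toMonoidHom = ⊤ := by
  classical
  have hinj : Function.Injective (fun a : A => d a / d⁻¹ a) := by
    intro a b h
    have h' : d (a / b) = d⁻¹ (a / b) := by
      rw [map_div, map_div, div_eq_div_iff_div_eq_div]
      exact h
    have h2 : (d ^ 2) (a / b) = a / b := by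
      rw [pow_two, MulAut.mul_apply, h']
      exact MulAut.apply_inv_self A d _
    have h3 : ∀ k : ℕ, (d ^ (2 * k)) (a / b) = a / b := by
      intro k
      induction k with
      | zero => simp
      | succ k ih => rw [Nat.mul_succ, pow_add, MulAut.mul_apply, h2, ih]
    obtain ⟨k, hk⟩ := hn
    have h4 : d (a / b) = a / b := by
      have := h3 (k + 1)
      rwa [show 2 * (k + 1) = n + 1 by omega, pow_succ, hd, one_mul] at this
    exact div_eq_one.mp (hfix _ h4)
  have htd : ∀ a, t (d a) = d⁻¹ (t a) := by
    intro a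
    have h := congrArg (fun f : MulAut A => f (t a)) hdt
    simpa using h
  have htd' : ∀ a, t (d⁻¹ a) = d (t a) := by
    intro a
    have h := htd (d⁻¹ a)
    rw [MulAut.apply_inv_self] at h
    rw [h, MulAut.apply_inv_self]
  have htt : ∀ a, t (t a) = a := by
    intro a
    have h := congrArg (fun f : MulAut A => f a) ht
    simpa [pow_two] using h
  refine ⟨?_, ?_⟩
  · rw [Subgroup.eq_bot_iff_forall]
    rintro a ⟨ha, b, hb, rfl⟩
    change t b = b at hb
    change t (d b) = d b at ha
    change d b = 1
    rw [htd, hb] at ha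
    have hb1 : b = 1 := hinj (by simp [ha])
    rw [hb1, map_one]
  · rw [eq_top_iff]
    intro a _
    obtain ⟨y, hy⟩ := (Finite.injective_iff_surjective.mp hinj) (a / t a)
    change d y / d⁻¹ y = a / t a at hy
    have hty : t y = y := by
      apply hinj
      change d (t y) / d⁻¹ (t y) = d y / d⁻¹ y
      rw [← htd' y, ← htd y, ← map_div, ← inv_div (d y) (d⁻¹ y), hy, map_inv, map_div, htt,
        inv_div]
    have hx : t (a / d y) = a / d y := by
      rw [map_div, htd, hty, div_eq_div_iff_div_eq_div]
      calc t a / a = (a / t a)⁻¹ := by rw [inv_div]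
        _ = (d y / d⁻¹ y)⁻¹ := by rw [hy]
        _ = d⁻¹ y / d y := by rw [inv_div]
    have he : a = (a / d y) * d y := (div_mul_cancel a (d y)).symm
    rw [he]
    exact Subgroup.mul_mem_sup hx ⟨y, hty, rfl⟩

end Cfsg.Agent.S1899
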