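import Cfsg.Statements.S1900
import Cfsg.Agent.Coprime.Action
import Cfsg.Agent.Coprime.Generation
-- import your own Cfsg.Agent.* helpers here

set_option autoImplicit false
open Cfsg

namespace Cfsg.Agent.S1900

open Subgroup
open scoped commutatorElement

theorem inf_two_eq_bot {S : Type*} [Group S] [Finite S] {q : ℕ} [Fact q.Prime] {P Q X₁ X₂ : Subgroup S}
    (hQ : Cfsg.IsElementaryAbelian q Q) (h₁ : X₁ ≤ Q) (h₂ : X₂ ≤ Q) (h₁₂ : X₁ ≠ X₂)
    (hc₁ : Nat.card X₁ = q) (hc₂ : Nat.card X₂ = q)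
    (honly : ∀ X : Subgroup S, X ≤ Q → Nat.card X = q →
      P ⊓ centralizer (X : Set S) ≠ ⊥ → X = X₁ ∨ X = X₂) :
    (P ⊓ centralizer (X₁ : Set S)) ⊓ (P ⊓ centralizer (X₂ : Set S)) = ⊥ := by
  by_contra hne
  have hd : X₁ ⊓ X₂ = ⊥ := by
    by_contra h
    rcases (Nat.dvd_prime (Fact.out : q.Prime)).mp
      (hc₁ ▸ card_dvd_of_le (inf_le_left : X₁ ⊓ X₂ ≤ X₁)) with h' | h'
    · exact h (Subgroup.card_eq_one.mp h')
    · have e1 := eq_of_le_of_card_ge (inf_le_left : X₁ ⊓ X₂ ≤ X₁) (h'.ge.trans' hc₁.le)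
      have e2 := eq_of_le_of_card_ge (inf_le_right : X₁ ⊓ X₂ ≤ X₂) (h'.ge.trans' hc₂.le)
      exact h₁₂ (e1.symm.trans e2)
  obtain ⟨a, ha⟩ := exists_prime_orderOf_dvd_card' (G := X₁) q hc₁.symm.dvd
  obtain ⟨b, hb⟩ := exists_prime_orderOf_dvd_card' (G := X₂) q hc₂.symm.dvd
  have ha1 : (a : S) ≠ 1 := fun h => (Fact.out : q.Prime).ne_one
    (by rw [← ha, ← Subgroup.orderOf_coe, h, orderOf_one])
  have hb1 : (b : S) ≠ 1 := fun h => (Fact.out : q.Prime).ne_one
    (by rw [← hb, ← Subgroup.orderOf_coe, h, orderOf_one])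
  have habQ : (a : S) * b ∈ Q := Q.mul_mem (h₁ a.2) (h₂ b.2)
  have hab1 : (a : S) * b ≠ 1 := fun h => by
    have hb' : (b : S) ∈ X₁ := by rw [eq_inv_of_mul_eq_one_right h]; exact X₁.inv_mem a.2
    exact hb1 (mem_bot.mp (hd ▸ (⟨hb', b.2⟩ : (b : S) ∈ X₁ ⊓ X₂)))
  have hcard : Nat.card (zpowers ((a : S) * b)) = q := by
    rw [Nat.card_zpowers]; exact orderOf_eq_prime (hQ.2 _ habQ) hab1
  have hle : (P ⊓ centralizer (X₁ : Set S)) ⊓ (P ⊓ centralizer (X₂ : Set S)) ≤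
      P ⊓ centralizer ((zpowers ((a : S) * b) : Subgroup S) : Set S) := by
    intro z hz
    refine ⟨hz.1.1, mem_centralizer_iff.mpr ?_⟩
    rintro _ ⟨k, rfl⟩
    have h1 : Commute (a : S) z := mem_centralizer_iff.mp hz.1.2 a a.2
    have h2 : Commute (b : S) z := mem_centralizer_iff.mp hz.2.2 b b.2
    exact ((h1.mul_left h2).zpow_left k).eq
  rcases honly _ (zpowers_le.mpr habQ) hcard (fun h => hne (le_bot_iff.mp (h ▸ hle))) with h | h
  · have hm : (a : S) * b ∈ X₁ := h.le (mem_zpowers _)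
    have hb' : (b : S) ∈ X₁ := by simpa using X₁.mul_mem (X₁.inv_mem a.2) hm
    exact hb1 (mem_bot.mp (hd ▸ (⟨hb', b.2⟩ : (b : S) ∈ X₁ ⊓ X₂)))
  · have hm : (a : S) * b ∈ X₂ := h.le (mem_zpowers _)
    have ha' : (a : S) ∈ X₂ := by simpa using X₂.mul_mem hm (X₂.inv_mem b.2)
    exact ha1 (mem_bot.mp (hd ▸ (⟨a.2, ha'⟩ : (a : S) ∈ X₁ ⊓ X₂)))

theorem sup_two_eq {S : Type*} [Group S] [Finite S] {p q : ℕ} [Fact p.Prime] [Fact q.Prime]
    (hpq : p ≠ q) {P Q X₁ X₂ : Subgroup S} (hP : IsPGroup p P) (hQP : Q ≤ normalizer (P : Set S))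
    (hQ : Cfsg.IsElementaryAbelian q Q) (hQc : Nat.card Q = q ^ 2)
    (honly : ∀ X : Subgroup S, X ≤ Q → Nat.card X = q →
      P ⊓ centralizer (X : Set S) ≠ ⊥ → X = X₁ ∨ X = X₂) :
    (P ⊓ centralizer (X₁ : Set S)) ⊔ (P ⊓ centralizer (X₂ : Set S)) = P := by
  refine le_antisymm (sup_le inf_le_left inf_le_left) ?_
  have := hQ.1
  have hcyc : ¬ IsCyclic Q := by
    intro hc
    obtain ⟨g, hg⟩ := IsCyclic.exists_generator (α := Q)
    have h1 : orderOf g = q ^ 2 := hQc ▸ orderOf_eq_card_of_forall_mem_zpowers hg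
    have h2 : orderOf g ∣ q := orderOf_dvd_of_pow_eq_one (Subtype.ext (hQ.2 g g.2))
    rw [h1] at h2
    have h3 := Nat.le_of_dvd (Fact.out : q.Prime).pos h2
    have h4 := (Fact.out : q.Prime).one_lt
    nlinarith
  obtain ⟨n, hn⟩ := IsPGroup.iff_card.mp hP
  have hcop : (Nat.card Q).Coprime (Nat.card P) := by
    rw [hQc, hn]
    exact Nat.Coprime.pow _ _ ((Nat.coprime_primes Fact.out Fact.out).mpr hpq.symm)
  conv_lhs => rw [← Coprime.iSup_centralizer_eq hcyc hQP hcop]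
  refine iSup₂_le fun a ha => ?_
  have hXc : Nat.card (zpowers a) = q := by
    rw [Nat.card_zpowers]; exact orderOf_eq_prime (hQ.2 a ha.1) ha.2
  have he : P ⊓ centralizer {a} = P ⊓ centralizer ((zpowers a : Subgroup S) : Set S) := by
    rw [zpowers_eq_closure, centralizer_closure]
  rw [he]
  by_cases hb : P ⊓ centralizer ((zpowers a : Subgroup S) : Set S) = ⊥
  · rw [hb]; exact bot_le
  rcases honly _ (zpowers_le.mpr ha.1) hXc hb with h | h
  · rw [h]; exact le_sup_left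
  · rw [h]; exact le_sup_right

theorem commute_two.{u} {p q : ℕ} [Fact p.Prime] [Fact q.Prime] (hpq : p ≠ q) (n : ℕ) :
    ∀ {S : Type u} [Group S] [Finite S] (P Q X₁ X₂ : Subgroup S), Nat.card P ≤ n → P.Normal →
    IsPGroup p P → Cfsg.IsElementaryAbelian q Q → Nat.card Q = q ^ 2 →
    X₁ ≤ Q → X₂ ≤ Q → X₁ ≠ X₂ → Nat.card X₁ = q → Nat.card X₂ = q →
    (∀ X : Subgroup S, X ≤ Q → Nat.card X = q →
      P ⊓ centralizer (X : Set S) ≠ ⊥ → X = X₁ ∨ X = X₂) →
    ⁅P ⊓ centralizer (X₁ : Set S), P ⊓ centralizer (X₂ : Set S)⁆ = ⊥ := by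
  induction n with
  | zero =>
    intro S _ _ P _ _ _ h
    exact absurd h (not_le.mpr Nat.card_pos)
  | succ n ih =>
    intro S _ _ P Q X₁ X₂ hn hPn hP hQ hQc h₁ h₂ h₁₂ hc₁ hc₂ honly
    rcases eq_or_ne P ⊥ with rfl | hP1
    · rw [bot_inf_eq, bot_inf_eq, commutator_eq_bot_iff_le_centralizer]; exact bot_le
    set Z := (center ↥P).map P.subtype with hZ
    have hZP : Z ≤ P := map_subtype_le _
    have hZn : Z.Normal := inferInstance
    have hQP : Q ≤ normalizer (P : Set S) := le_normalizer_of_normal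
    obtain ⟨k, hk⟩ := IsPGroup.iff_card.mp hP
    have hcopP : ∀ A : Subgroup S, A ≤ Q → (Nat.card A).Coprime (Nat.card P) := fun A hA => by
      refine Nat.Coprime.coprime_dvd_left (card_dvd_of_le hA) ?_
      rw [hQc, hk]
      exact Nat.Coprime.pow _ _ ((Nat.coprime_primes Fact.out Fact.out).mpr hpq.symm)
    have hsolv : ∀ A : Subgroup S, A ≤ Q → Group.IsSolvable A := fun A hA => by
      have := hQ.1
      exact Coprime.isSolvable_of_le hA
        (Group.isSolvable_of_comm fun a b => (IsMulCommutative.is_comm (M := Q)).comm a b)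
    set π := QuotientGroup.mk' Z
    have hinj : ∀ A : Subgroup S, A ≤ Q → Nat.card (A.map π) = Nat.card A := fun A hA => by
      have hd : A ⊓ Z = ⊥ := inf_eq_bot_of_coprime
        ((hcopP A hA).coprime_dvd_right (card_dvd_of_le hZP))
      have hi : Function.Injective (π.comp A.subtype) := by
        rw [← MonoidHom.ker_eq_bot_iff, eq_bot_iff]
        intro a ha
        exact Subtype.ext (mem_bot.mp (hd ▸ (⟨a.2, (QuotientGroup.eq_one_iff _).mp ha⟩ : (a : S) ∈ A ⊓ Z)))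
      have e : (π.comp A.subtype).range = A.map π := by rw [MonoidHom.range_comp, range_subtype]
      rw [← e]
      exact (Nat.card_congr (MonoidHom.ofInjective hi).toEquiv).symm
    have hmapC : ∀ A : Subgroup S, A ≤ Q →
        P.map π ⊓ centralizer ((A.map π : Subgroup (S ⧸ Z)) : Set (S ⧸ Z)) =
          (P ⊓ centralizer (A : Set S)).map π := fun A hA =>
      Coprime.inf_centralizer_map_mk' A P Z hZP ((hcopP A hA).coprime_dvd_right (card_dvd_of_le hZP))
        (Or.inl (hsolv A hA))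
    have hcard : Nat.card (P.map π) ≤ n := by
      have : Nontrivial P := (nontrivial_iff_ne_bot P).mpr hP1
      have hZ1 : Z ≠ ⊥ := fun h => by
        have := hP.isNilpotent
        exact Group.IsNilpotent.center_ne_bot (G := P)
          ((Subgroup.map_eq_bot_iff_of_injective _ P.subtype_injective).mp h)
      have h2 : Nat.card (P.map π) * Nat.card Z = Nat.card P := by
        have h := card_eq_card_quotient_mul_card_subgroup (π.comp P.subtype).ker
        rw [Nat.card_congr (QuotientGroup.quotientKerEquivRange _).toEquiv,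
          MonoidHom.range_comp, range_subtype, ← MonoidHom.comap_ker, QuotientGroup.ker_mk'] at h
        rw [h, ← Nat.card_congr (subgroupOfEquivOfLe hZP).toEquiv]
        rfl
      have h3 : 1 < Nat.card Z := (one_lt_card_iff_ne_bot Z).mpr hZ1
      have h4 : 0 < Nat.card (P.map π) := Nat.card_pos
      nlinarith
    have hIH := ih (P.map π) (Q.map π) (X₁.map π) (X₂.map π) hcard
      (Subgroup.Normal.map hPn π (QuotientGroup.mk'_surjective _)) (hP.map π)
      ⟨⟨⟨by rintro ⟨_, a, ha, rfl⟩ ⟨_, b, hb, rfl⟩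
            exact Subtype.ext (show π a * π b = π b * π a by
              rw [← map_mul, ← map_mul]
              exact congrArg π (congrArg Subtype.val (hQ.1.is_comm.comm ⟨a, ha⟩ ⟨b, hb⟩)))⟩⟩,
        by rintro _ ⟨a, ha, rfl⟩; rw [← map_pow, hQ.2 a ha, map_one]⟩
      ((hinj Q le_rfl).trans hQc) (map_mono h₁) (map_mono h₂) ?_
      ((hinj _ h₁).trans hc₁) ((hinj _ h₂).trans hc₂) ?_
    rotate_left
    · intro h
      have h' := congrArg (fun A : Subgroup (S ⧸ Z) => A.comap π ⊓ Q) h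
      have key : ∀ A : Subgroup S, A ≤ Q → (A.map π).comap π ⊓ Q = A := fun A hA => by
        refine le_antisymm ?_ (le_inf (le_comap_map _ _) hA)
        rintro x ⟨⟨a, ha, hax⟩, hxQ⟩
        have hz : a⁻¹ * x ∈ Q ⊓ Z := ⟨Q.mul_mem (Q.inv_mem (hA ha)) hxQ, QuotientGroup.eq.mp hax⟩
        rw [inf_eq_bot_of_coprime ((hcopP Q le_rfl).coprime_dvd_right (card_dvd_of_le hZP)),
          mem_bot, inv_mul_eq_one] at hz
        exact hz ▸ ha
      simp only [key _ h₁, key _ h₂] at h'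
      exact h₁₂ h'
    · intro Xb hXb hXc hne
      set X := Xb.comap π ⊓ Q with hX
      have hXm : X.map π = Xb := by
        refine le_antisymm ((map_mono inf_le_left).trans (map_comap_le _ _)) fun y hy => ?_
        obtain ⟨a, ha, rfl⟩ := hXb hy
        exact ⟨a, ⟨hy, ha⟩, rfl⟩
      have hXq : Nat.card X = q := by rw [← hinj X inf_le_right, hXm, hXc]
      rw [← hXm, hmapC X inf_le_right] at hne
      rcases honly X inf_le_right hXq (fun h => hne (by rw [h, Subgroup.map_bot])) with h | h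
      · exact Or.inl (by rw [← hXm, h])
      · exact Or.inr (by rw [← hXm, h])
    rw [hmapC _ h₁, hmapC _ h₂, ← Subgroup.map_commutator, Subgroup.map_eq_bot_iff,
      QuotientGroup.ker_mk'] at hIH
    -- the commutator map is trivial
    set C₁ := P ⊓ centralizer (X₁ : Set S) with hC₁
    set C₂ := P ⊓ centralizer (X₂ : Set S) with hC₂
    have hC12 : C₁ ⊓ C₂ = ⊥ := inf_two_eq_bot hQ h₁ h₂ h₁₂ hc₁ hc₂ honly
    have hZc : ∀ z ∈ Z, ∀ a ∈ P, Commute z a := by
      rintro _ ⟨z, hz, rfl⟩ a ha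
      exact (congrArg Subtype.val (mem_center_iff.mp hz ⟨a, ha⟩)).symm
    have hQab : ∀ a ∈ Q, ∀ b ∈ Q, Commute a b := fun a ha b hb =>
      congrArg Subtype.val (hQ.1.is_comm.comm (⟨a, ha⟩ : Q) ⟨b, hb⟩)
    have hinv : ∀ X : Subgroup S, X ≤ Q → ∀ a ∈ Q, ∀ y ∈ P ⊓ centralizer (X : Set S),
        a * y * a⁻¹ ∈ P ⊓ centralizer (X : Set S) := fun X hX a ha y hy => by
      refine ⟨hPn.conj_mem y hy.1 a, mem_centralizer_iff.mpr fun b hb => ?_⟩
      have h1 : Commute b y := mem_centralizer_iff.mp hy.2 b hb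
      exact (((hQab b (hX hb) a ha).mul_right h1).mul_right (hQab b (hX hb) a ha).inv_right).eq
    have half : ∀ (A B : Subgroup S), A ≤ Q → B ≤ Q →
        (P ⊓ centralizer (A : Set S)) ⊓ (P ⊓ centralizer (B : Set S)) = ⊥ →
        ⁅P ⊓ centralizer (A : Set S), P ⊓ centralizer (B : Set S)⁆ ≤ Z →
        Z ≤ (Z ⊓ centralizer (A : Set S)) ⊔ (Z ⊓ centralizer (B : Set S)) →
        ∀ c ∈ P ⊓ centralizer (A : Set S), ∀ d ∈ P ⊓ centralizer (B : Set S),
          ⁅c, d⁆ ∈ centralizer (B : Set S) := by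
      intro A B hA hB hAB hcomm hsplit c hc
      set CB := P ⊓ centralizer (B : Set S)
      have hzd : ∀ d ∈ CB, ⁅c, d⁆ ∈ Z := fun d hd => hcomm (commutator_mem_commutator hc hd)
      have hmul : ∀ d ∈ CB, ∀ e ∈ CB, ⁅c, d * e⁆ = ⁅c, d⁆ * ⁅c, e⁆ := fun d hd e he => by
        calc ⁅c, d * e⁆ = ⁅c, d⁆ * (d * ⁅c, e⁆ * d⁻¹) := by simp only [commutatorElement_def]; group
          _ = ⁅c, d⁆ * ⁅c, e⁆ := by
            rw [((hZc _ (hzd e he) d hd.1).symm).eq, mul_inv_cancel_right]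
      let T : Subgroup S :=
        { carrier := {d | d ∈ CB ∧ ⁅c, d⁆ ∈ centralizer (B : Set S)}
          one_mem' := ⟨one_mem _, by rw [commutatorElement_one_right]; exact one_mem _⟩
          mul_mem' := fun {a b} ha hb => ⟨CB.mul_mem ha.1 hb.1, by
            rw [hmul a ha.1 b hb.1]; exact mul_mem ha.2 hb.2⟩
          inv_mem' := fun {a} ha => ⟨CB.inv_mem ha.1, by
            have h := hmul a ha.1 a⁻¹ (CB.inv_mem ha.1)
            rw [mul_inv_cancel, commutatorElement_one_right] at h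
            rw [← inv_eq_of_mul_eq_one_right h.symm]; exact inv_mem ha.2⟩ }
      have hCBn : A ≤ normalizer (CB : Set S) := fun a ha => by
        refine mem_normalizer_iff.mpr fun y => ⟨hinv B hB a (hA ha) y, fun hy => ?_⟩
        have h := hinv B hB a⁻¹ (Q.inv_mem (hA ha)) _ hy
        rwa [show a⁻¹ * (a * y * a⁻¹) * a⁻¹⁻¹ = y by group] at h
      intro d hd
      obtain ⟨c', hc', e, he, rfl⟩ := Coprime.exists_mul_commutator hCBn
        ((hcopP A hA).coprime_dvd_right (card_dvd_of_le inf_le_left)) (Or.inl (hsolv A hA)) hd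
      rw [show c' = 1 from mem_bot.mp (hAB ▸ ⟨⟨hc'.1.1, hc'.2⟩, hc'.1⟩), one_mul]
      refine ((?_ : ⁅CB, A⁆ ≤ T) he).2
      rw [commutator_le]
      intro d hd a ha
      have hd' : a * d⁻¹ * a⁻¹ ∈ CB := hinv B hB a (hA ha) _ (CB.inv_mem hd)
      have hmem : ⁅d, a⁆ ∈ CB := by
        have := CB.mul_mem hd hd'
        rwa [commutatorElement_def, mul_assoc d a, mul_assoc d]
      refine ⟨hmem, ?_⟩
      have hca : Commute a c := mem_centralizer_iff.mp hc.2 a ha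
      have h1 : ⁅c, d * (a * d⁻¹ * a⁻¹)⁆ = ⁅c, d⁆ * (a * ⁅c, d⁻¹⁆ * a⁻¹) := by
        rw [hmul d hd _ hd']
        congr 1
        calc ⁅c, a * d⁻¹ * a⁻¹⁆ = ⁅a * c * a⁻¹, a * d⁻¹ * a⁻¹⁆ := by
              rw [hca.eq, mul_inv_cancel_right]
          _ = a * ⁅c, d⁻¹⁆ * a⁻¹ := by simp only [commutatorElement_def]; group
      rw [show ⁅d, a⁆ = d * (a * d⁻¹ * a⁻¹) by simp only [commutatorElement_def]; group, h1]
      have h2 : ⁅c, d⁻¹⁆ = ⁅c, d⁆⁻¹ := by
        have h := hmul d hd d⁻¹ (CB.inv_mem hd)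
        rw [mul_inv_cancel, commutatorElement_one_right] at h
        exact (inv_eq_of_mul_eq_one_right h.symm).symm
      rw [h2]
      obtain ⟨z₁, hz₁, z₂, hz₂, hz⟩ := Coprime.exists_mul_of_mem_sup
        (show Z ⊓ centralizer (A : Set S) ≤ normalizer ((Z ⊓ centralizer (B : Set S) : Subgroup S) : Set S)
          from fun z hz => Coprime.centralizer_le_normalizer' _ (mem_centralizer_iff.mpr fun w hw =>
            (hZc w hw.1 z (hZP hz.1)).eq))
        (hsplit (hzd d hd))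
      have haz : a * z₁⁻¹ * a⁻¹ = z₁⁻¹ := by
        rw [mem_centralizer_iff.mp (inv_mem hz₁.2) a ha, mul_inv_cancel_right]
      have haz2 : a * z₂⁻¹ * a⁻¹ ∈ CB :=
        hinv B hB a (hA ha) _ (CB.inv_mem ⟨hZP hz₂.1, hz₂.2⟩)
      have e : ⁅c, d⁆ * (a * ⁅c, d⁆⁻¹ * a⁻¹) = z₁ * (z₂ * (a * z₂⁻¹ * a⁻¹)) * z₁⁻¹ := by
        calc ⁅c, d⁆ * (a * ⁅c, d⁆⁻¹ * a⁻¹) = z₁ * z₂ * (a * z₂⁻¹ * a⁻¹) * (a * z₁⁻¹ * a⁻¹) := by
              rw [hz]; group
          _ = _ := by rw [haz]; group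
      rw [e, ((hZc z₁ hz₁.1 _ (P.mul_mem (hZP hz₂.1) haz2.1))).eq, mul_inv_cancel_right]
      exact mul_mem hz₂.2 haz2.2
    have hsplit : Z ≤ (Z ⊓ centralizer (X₁ : Set S)) ⊔ (Z ⊓ centralizer (X₂ : Set S)) :=
      (sup_two_eq hpq (hP.to_le hZP) le_normalizer_of_normal hQ hQc (fun X hX hXc hne =>
        honly X hX hXc fun h => hne (le_bot_iff.mp (h ▸ inf_le_inf_right _ hZP)))).ge
    rw [eq_bot_iff, commutator_le]
    intro c hc d hd
    rw [← hC12]
    have hzd : ⁅c, d⁆ ∈ Z := hIH (commutator_mem_commutator hc hd)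
    refine ⟨⟨hZP hzd, ?_⟩, hZP hzd, half X₁ X₂ h₁ h₂ hC12 hIH hsplit c hc d hd⟩
    refine (Subgroup.inv_mem_iff _).mp ?_
    rw [commutatorElement_inv]
    exact half X₂ X₁ h₂ h₁ (inf_comm C₁ C₂ ▸ hC12) ((commutator_comm C₂ C₁).le.trans hIH)
      (sup_comm (Z ⊓ centralizer (X₁ : Set S)) _ ▸ hsplit) d hd c hc

/-- Let S = PQ be a finite group with P a normal Sylow p-subgroup and Q elementary abelian of order q², q a prime different from p. If exactly two subgroups X₁, X₂ of order q in Q have a nontrivial centralizer in P, then P is the internal direct product of C_P(X₁) and C_P(X₂): they commute elementwise, meet trivially and generate P. -/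
theorem result {S : Type*} [Group S] [Finite S] {p q : ℕ} [Fact p.Prime] [Fact q.Prime] (hpq : p ≠ q)
    (P : Sylow p S) [(P : Subgroup S).Normal] (Q : Subgroup S) (hQ : Cfsg.IsElementaryAbelian q Q) (hQc : Nat.card Q = q ^ 2)
    (hS : (P : Subgroup S) ⊔ Q = ⊤)
    (X₁ X₂ : Subgroup S) (h₁ : X₁ ≤ Q) (h₂ : X₂ ≤ Q) (h₁₂ : X₁ ≠ X₂) (hc₁ : Nat.card X₁ = q) (hc₂ : Nat.card X₂ = q)
    (hf₁ : (P : Subgroup S) ⊓ Subgroup.centralizer (X₁ : Set S) ≠ ⊥)
    (hf₂ : (P : Subgroup S) ⊓ Subgroup.centralizer (X₂ : Set S) ≠ ⊥)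
    (honly : ∀ X : Subgroup S, X ≤ Q → Nat.card X = q →
      (P : Subgroup S) ⊓ Subgroup.centralizer (X : Set S) ≠ ⊥ → X = X₁ ∨ X = X₂) :
    ⁅(P : Subgroup S) ⊓ Subgroup.centralizer (X₁ : Set S), (P : Subgroup S) ⊓ Subgroup.centralizer (X₂ : Set S)⁆ = ⊥ ∧
      ((P : Subgroup S) ⊓ Subgroup.centralizer (X₁ : Set S)) ⊓ ((P : Subgroup S) ⊓ Subgroup.centralizer (X₂ : Set S)) = ⊥ ∧
      ((P : Subgroup S) ⊓ Subgroup.centralizer (X₁ : Set S)) ⊔ ((P : Subgroup S) ⊓ Subgroup.centralizer (X₂ : Set S)) = P := by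
  have hQP : Q ≤ normalizer ((P : Subgroup S) : Set S) := le_normalizer_of_normal
  exact ⟨commute_two hpq _ (P : Subgroup S) Q X₁ X₂ le_rfl inferInstance P.2 hQ hQc h₁ h₂ h₁₂ hc₁ hc₂ honly,
    inf_two_eq_bot hQ h₁ h₂ h₁₂ hc₁ hc₂ honly, sup_two_eq hpq P.2 hQP hQ hQc honly⟩

end Cfsg.Agent.S1900
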