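import Cfsg.Statements.S1901
import Cfsg.Agent.PSolv.Basic
import Cfsg.Agent.Coprime.Action
-- import your own Cfsg.Agent.* helpers here

set_option autoImplicit false
open Cfsg

namespace Cfsg.Agent.S1901

open Cfsg.Agent
open scoped commutatorElement
universe u
private theorem centralizes_of_normalizes_sylow {p : ℕ} [Fact p.Prime] :
    ∀ (n : ℕ) (G : Type u) [Group G] [Finite G], Nat.card G ≤ n → Cfsg.IsPSolvable p G →
      ∀ (Q P : Subgroup G), (Nat.card Q).Coprime p → IsPGroup p P → ¬ p ∣ P.index →
        Q ≤ Subgroup.normalizer (P : Set G) →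
        ∀ x : G, IsPGroup p (Subgroup.zpowers x) → x ∈ Subgroup.normalizer (Q : Set G) →
          x ∈ Subgroup.centralizer (Q : Set G) := by
  intro n
  induction n with
  | zero => intro G _ _ h; exact absurd h (Nat.not_le.mpr Nat.card_pos)
  | succ n ih =>
    intro G _ _ hcard hG Q P hQ hP hPi hQP x hx hxQ
    rcases subsingleton_or_nontrivial G with hs | hs
    · intro q _
      exact Subsingleton.elim _ _
    obtain ⟨N, hN, -, hN1, hNt⟩ :=
      Cfsg.Agent.PSolv.exists_normal_le_of_isPSolvable hG ⊤ top_ne_bot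
    have := hN
    have hcq : Nat.card (G ⧸ N) ≤ n := by
      have h1 := Subgroup.card_eq_card_quotient_mul_card_subgroup N
      have h2 : 2 ≤ Nat.card N := by
        have := Nat.card_pos (α := N)
        by_contra h
        exact hN1 (Subgroup.card_eq_one.mp (by omega))
      have h3 : 0 < Nat.card (G ⧸ N) := Nat.card_pos
      nlinarith
    set π := QuotientGroup.mk' N with hπ
    have hπs : Function.Surjective π := QuotientGroup.mk'_surjective N
    have hxq := ih (G ⧸ N) hcq (Cfsg.Agent.PSolv.isPSolvable_quotient hG N) (Q.map π) (P.map π)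
      (hQ.coprime_dvd_left (Q.card_map_dvd π)) (hP.map π)
      (fun h => hPi (h.trans (P.index_map_dvd hπs)))
      ((Subgroup.map_mono hQP).trans (Subgroup.le_normalizer_map π)) (π x)
      (by rw [← MonoidHom.map_zpowers]; exact hx.map π)
      (Subgroup.le_normalizer_map π ⟨x, hxQ, rfl⟩)
    have hcomm : ∀ q ∈ Q, q⁻¹ * x * q * x⁻¹ ∈ Q ⊓ N := by
      intro q hq
      refine ⟨?_, ?_⟩
      · have h := (Subgroup.mem_normalizer_iff.mp hxQ q).mp hq
        have : q⁻¹ * x * q * x⁻¹ = q⁻¹ * (x * q * x⁻¹) := by group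
        rw [this]
        exact Q.mul_mem (Q.inv_mem hq) h
      · have h := hxq (π q) ⟨q, hq, rfl⟩
        apply (QuotientGroup.eq_one_iff (N := N) _).mp
        change π (q⁻¹ * x * q * x⁻¹) = 1
        simp only [map_mul, map_inv]
        rw [mul_assoc (π q)⁻¹ (π x) (π q), ← h]
        group
    have hxA : Subgroup.zpowers x ≤ Subgroup.normalizer (Q : Set G) := Subgroup.zpowers_le.mpr hxQ
    have hcop : (Nat.card (Subgroup.zpowers x)).Coprime (Nat.card Q) := by
      obtain ⟨m, hm⟩ := hx.exists_card_eq
      rw [hm]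
      exact Nat.Coprime.pow_left _ hQ.symm
    suffices h0 : x ∈ Subgroup.centralizer ((Q ⊓ N : Subgroup G) : Set G) by
      refine (Cfsg.Agent.Coprime.le_centralizer_of_stabilizes hxA hcop (N := Q ⊓ N) ?_
        (Subgroup.zpowers_le.mpr h0)) (Subgroup.mem_zpowers x)
      rw [Subgroup.commutator_le]
      intro q hq a ha
      -- every power of `x` is trivial on `Q` modulo `N`
      refine ⟨?_, ?_⟩
      · rw [commutatorElement_def]
        have h := (Subgroup.mem_normalizer_iff.mp (hxA ha) q⁻¹).mp (Q.inv_mem hq)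
        have : q * a * q⁻¹ * a⁻¹ = q * (a * q⁻¹ * a⁻¹) := by group
        rw [this]
        exact Q.mul_mem hq h
      · apply (QuotientGroup.eq_one_iff (N := N) _).mp
        change π ⁅q, a⁆ = 1
        rw [map_commutatorElement, commutatorElement_eq_one_iff_mul_comm]
        obtain ⟨k, rfl⟩ := Subgroup.mem_zpowers_iff.mp ha
        rw [map_zpow]
        exact (Commute.zpow_right (hxq (π q) ⟨q, hq, rfl⟩ : Commute (π q) (π x)) k).eq
    rcases hNt with hNp | hNp
    · have : Q ⊓ N = ⊥ := by
        obtain ⟨m, hm⟩ := hNp.exists_card_eq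
        refine disjoint_iff.1 (Subgroup.disjoint_of_coprime_natCard ?_)
        rw [hm]; exact Nat.Coprime.pow_right _ hQ
      rw [this]
      intro q hq
      rw [Subgroup.mem_bot.mp hq, one_mul, mul_one]
    · set Q₀ := Q ⊓ N with hQ₀
      have hPC : P ≤ Subgroup.centralizer (Q₀ : Set G) := by
        intro a ha q hq
        have hPN : P ⊓ N = ⊥ := by
          obtain ⟨m, hm⟩ := hP.exists_card_eq
          refine disjoint_iff.1 (Subgroup.disjoint_of_coprime_natCard ?_)
          rw [hm]; exact Nat.Coprime.pow_left _ hNp.symm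
        have h1 : q * a * q⁻¹ * a⁻¹ ∈ P ⊓ N := by
          refine ⟨P.mul_mem ((Subgroup.mem_normalizer_iff.mp (hQP hq.1) a).mp ha) (P.inv_mem ha), ?_⟩
          have : q * a * q⁻¹ * a⁻¹ = q * (a * q⁻¹ * a⁻¹) := by group
          rw [this]
          exact N.mul_mem hq.2 (hN.conj_mem _ (N.inv_mem hq.2) a)
        rw [hPN, Subgroup.mem_bot] at h1
        calc q * a = q * a * q⁻¹ * a⁻¹ * (a * q) := by group
          _ = a * q := by rw [h1, one_mul]
      set L := Subgroup.normalizer (Q₀ : Set G) with hL
      set C := (Subgroup.centralizer (Q₀ : Set G)).subgroupOf L with hC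
      have hxL : x ∈ L := by
        rw [hL, hQ₀, Subgroup.mem_normalizer_iff]
        intro q
        constructor
        · exact fun h => ⟨(Subgroup.mem_normalizer_iff.mp hxQ q).mp h.1, hN.conj_mem _ h.2 x⟩
        · intro h
          refine ⟨(Subgroup.mem_normalizer_iff.mp hxQ q).mpr h.1, ?_⟩
          have := hN.conj_mem _ h.2 x⁻¹
          simpa [mul_assoc] using this
      have : C.Normal := by
        rw [hC, hL]; infer_instance
      have hidx : (C.index).Coprime p := by
        refine ((Nat.Prime.coprime_iff_not_dvd Fact.out).mpr ?_).symm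
        intro h
        exact hPi (h.trans ((Subgroup.relIndex_dvd_of_le_left L hPC).trans
          (Subgroup.relIndex_dvd_index_of_le (hPC.trans (Coprime.centralizer_le_normalizer' Q₀)))))
      have hord : orderOf (QuotientGroup.mk' C ⟨x, hxL⟩) = 1 := by
        refine Nat.eq_one_of_dvd_coprimes hidx ?_ ?_ (k := orderOf (QuotientGroup.mk' C ⟨x, hxL⟩))
        · exact orderOf_dvd_natCard _
        · have h1 := orderOf_map_dvd (QuotientGroup.mk' C) ⟨x, hxL⟩
          rw [← Subgroup.orderOf_coe] at h1
          obtain ⟨m, hm⟩ := hx.exists_card_eq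
          rw [Nat.card_zpowers] at hm
          simp only [hm] at h1
          obtain ⟨i, -, hi⟩ := (Nat.dvd_prime_pow Fact.out).mp h1
          rcases Nat.eq_zero_or_pos i with rfl | hpos
          · rw [hi, pow_zero]; exact one_dvd _
          · exfalso
            apply hPi
            have h2 : p ∣ C.index := (dvd_pow_self p hpos.ne').trans (hi ▸ orderOf_dvd_natCard _)
            exact h2.trans ((Subgroup.relIndex_dvd_of_le_left L hPC).trans
              (Subgroup.relIndex_dvd_index_of_le (hPC.trans (Coprime.centralizer_le_normalizer' Q₀))))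
      rw [orderOf_eq_one_iff] at hord
      exact Subgroup.mem_subgroupOf.mp ((QuotientGroup.eq_one_iff (N := C) (⟨x, hxL⟩ : L)).mp hord)

/-- Let G be a finite p-solvable group and Q a subgroup of order prime to p such that p divides the index of C_G(Q) in N_G(Q). Then Q normalizes no Sylow p-subgroup of G. -/
theorem result {G : Type*} [Group G] [Finite G] {p : ℕ} [Fact p.Prime]
    (hG : Cfsg.IsPSolvable p G) (Q : Subgroup G) (hQ : ¬ p ∣ Nat.card Q)
    (hA : p ∣ (Subgroup.centralizer (Q : Set G)).relIndex (Subgroup.normalizer (Q : Set G)))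
    (P : Sylow p G) : ¬ Q ≤ Subgroup.normalizer ((P : Subgroup G) : Set G) := by
  intro hle
  set L := Subgroup.normalizer (Q : Set G) with hL
  obtain ⟨T⟩ := (inferInstance : Nonempty (Sylow p L))
  have hT : (T : Subgroup L) ≤ (Subgroup.centralizer (Q : Set G)).subgroupOf L := by
    intro t ht
    refine centralizes_of_normalizes_sylow (Nat.card G) G le_rfl hG Q P
      ((Nat.Prime.coprime_iff_not_dvd Fact.out).mpr hQ).symm P.2 P.not_dvd_index hle (t : G) ?_ t.2
    have := (T.2.to_le (Subgroup.zpowers_le.mpr ht)).map L.subtype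
    rwa [MonoidHom.map_zpowers] at this
  exact T.not_dvd_index (hA.trans (Subgroup.index_dvd_of_le hT))

end Cfsg.Agent.S1901
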