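import Cfsg.Statements.S1902
import Cfsg.Agent.Tech.RankTwoSignalizer
-- import your own Cfsg.Agent.* helpers here

set_option autoImplicit false
open Cfsg

namespace Cfsg.Agent.S1902

/-- Let p be an odd prime, G a finite p-solvable group, and B an elementary abelian subgroup of order p² such that B is the subgroup generated by the elements of order p of some Sylow p-subgroup of C_G(b₀), for some nontrivial b₀ ∈ B. Then every B-invariant subgroup of G of order prime to p lies in O_{p'}(G). -/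
theorem result {G : Type*} [Group G] [Finite G] {p : ℕ} [Fact p.Prime] (hp : p ≠ 2)
    (hG : Cfsg.IsPSolvable p G) (B : Subgroup G) (hB : Cfsg.IsElementaryAbelian p B) (hBc : Nat.card B = p ^ 2)
    (b₀ : G) (hb₀ : b₀ ∈ B) (hb₁ : b₀ ≠ 1) (P : Sylow p ↥(Subgroup.centralizer ({b₀} : Set G)))
    (hBP : B = Subgroup.closure {x : G | x ∈ ((P : Subgroup ↥(Subgroup.centralizer ({b₀} : Set G))).map
      (Subgroup.centralizer ({b₀} : Set G)).subtype : Subgroup G) ∧ orderOf x = p})
    (Q : Subgroup G) (hQ : ¬ p ∣ Nat.card Q) (hinv : ∀ b ∈ B, ∀ x ∈ Q, b * x * b⁻¹ ∈ Q) :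
    Q ≤ Cfsg.pPrimeCore p G := by
  have hd : ∀ x : G, x ∈ (B : Subgroup G) → x ^ p = 1 := fun x hx => hB.2 x hx
  refine Tech.RankTwoSignalizer.le_pPrimeCore hp hG
    (fun a ha c hc => congrArg Subtype.val (hB.1.is_comm.comm ⟨a, ha⟩ ⟨c, hc⟩)) hd hBc hb₀ hb₁ ?_
    ((Nat.Prime.coprime_iff_not_dvd Fact.out).2 hQ).symm ?_
  · -- elements of order `p` of a `p`-subgroup of `C(b₀)` containing `B`
    intro U hU hBU hUC x hx hxp
    let Pg : Subgroup G := (P : Subgroup _).map (Subgroup.centralizer ({b₀} : Set G)).subtype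
    have homega : ∀ y ∈ Pg, y ^ p = 1 → y ∈ B := by
      intro y hy hyp
      rcases eq_or_ne y 1 with rfl | hy1
      · exact B.one_mem
      · rw [hBP]
        exact Subgroup.subset_closure ⟨hy, orderOf_eq_prime hyp hy1⟩
    have hBPg : B ≤ Pg := by
      rw [hBP, Subgroup.closure_le]
      exact fun y hy => hy.1
    obtain ⟨Q', hQ'⟩ := (hU.comap_subtype (K := Subgroup.centralizer ({b₀} : Set G))).exists_le_sylow
    obtain ⟨c, hc⟩ := MulAction.exists_smul_eq (Subgroup.centralizer ({b₀} : Set G)) Q' P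
    have key : ∀ z ∈ U, (c : G) * z * (c : G)⁻¹ ∈ Pg := by
      intro z hz
      refine ⟨c * ⟨z, hUC hz⟩ * c⁻¹, ?_, rfl⟩
      have := Subgroup.smul_mem_pointwise_smul (⟨z, hUC hz⟩ : Subgroup.centralizer ({b₀} : Set G)) (MulAut.conj c)
        (Q' : Subgroup _) (hQ' hz)
      rw [← hc]
      exact this
    let f : B → B := fun a => ⟨(c : G) * a * (c : G)⁻¹, homega _ (key a (hBU a.2))
      (by rw [conj_pow, hd a a.2, mul_one, mul_inv_cancel])⟩
    have hf : Function.Injective f := fun a a' h =>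
      Subtype.ext (mul_left_cancel (mul_right_cancel (congrArg Subtype.val h)))
    obtain ⟨a, ha⟩ := Finite.surjective_of_injective hf
      ⟨(c : G) * x * (c : G)⁻¹, homega _ (key x hx)
        (by rw [conj_pow, hxp, mul_one, mul_inv_cancel])⟩
    have : (a : G) = x := mul_left_cancel (mul_right_cancel (congrArg Subtype.val ha))
    exact this ▸ a.2
  · intro b hb
    rw [Subgroup.mem_normalizer_iff]
    refine fun x => ⟨hinv b hb x, fun hx => ?_⟩
    have := hinv b⁻¹ (B.inv_mem hb) _ hx
    simpa [mul_assoc] using this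

end Cfsg.Agent.S1902
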