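import Cfsg.Statements.S1903
import Cfsg.Agent.Tech.OrderThreeTwenty
import Cfsg.Agent.Tech.UnitaryFourCentralizer
-- import your own Cfsg.Agent.* helpers here

set_option autoImplicit false
open Cfsg

namespace Cfsg.Agent.S1903

/-- A finite group of order 320 whose derived subgroup has order 64 and has centre a Klein four-group is isomorphic to the centralizer of an involution in PSU₃(4). -/
theorem result {G : Type*} [Group G] [Finite G] (hG : Nat.card G = 320) (hD : Nat.card (commutator G) = 64)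
    (hZ : IsKleinFour (Subgroup.center (commutator G)))
    {F : Type*} [Field F] [Fintype F] (hF : Fintype.card F = 16) :
    ∃ t : Cfsg.PSU 3 F 4, orderOf t = 2 ∧ Nonempty (G ≃* Subgroup.centralizer ({t} : Set (Cfsg.PSU 3 F 4))) := by
  classical
  have : Fact (Nat.Prime 5) := ⟨by norm_num⟩
  have : Fact (Nat.Prime 2) := ⟨Nat.prime_two⟩
  have : CharP F 2 := charP_of_card_eq_prime_pow (f := 4) (by rw [hF]; norm_num)
  have hS : Cfsg.Agent.Classical.U.SqField F 4 :=
    Cfsg.Agent.Classical.U.sqField_of_fintype (by rw [hF]; norm_num)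
  obtain ⟨u, hu⟩ := exists_prime_orderOf_dvd_card' (G := Fˣ) 5
    (by rw [Nat.card_units, Nat.card_eq_fintype_card, hF]; norm_num)
  have h5 : (u : F) ^ 5 = 1 := by
    rw [← Units.val_pow_eq_pow_val, ← hu, pow_orderOf_eq_one, Units.val_one]
  have hne : (u : F) ≠ 1 := fun h => by
    rw [Units.val_eq_one.1 h, orderOf_one] at hu
    omega
  obtain ⟨x, c, hr, hgen⟩ := Tech.ThreeTwenty.exists_rel hG hD hZ
  obtain ⟨x', c', hr', hgen', hC⟩ := Tech.UnitaryFour.exists_gens hS h5 hne
    (by rw [Nat.card_eq_fintype_card, hF])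
  obtain ⟨e⟩ := Tech.ThreeTwenty.nonempty_mulEquiv hr hr' hgen hgen' hG hC
  have hb : Subgroup.center (Cfsg.SU 3 F 4) = ⊥ := Subgroup.eq_bot_of_card_eq _ (by
    rw [Cfsg.Agent.Classical.U.card_center_SU hS (by norm_num)]; norm_num)
  let π : Cfsg.SU 3 F 4 →* Cfsg.PSU 3 F 4 := QuotientGroup.mk' _
  have hπi : Function.Injective π := by
    rw [injective_iff_map_eq_one]
    intro g hg
    exact (Subgroup.mem_bot.1 (hb.le ((QuotientGroup.eq_one_iff g).1 hg)))
  let s : Cfsg.SU 3 F 4 := ⟨Tech.UnitaryFour.sw F, Tech.UnitaryFour.M_mem hS (by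
    rw [one_pow, CharTwo.add_self_eq_zero, zero_pow (by norm_num)])⟩
  refine ⟨π s, ?_, ⟨e.trans ?_⟩⟩
  · rw [orderOf_injective π hπi]
    refine orderOf_eq_prime (Subtype.ext ?_) (fun h => ?_)
    · show Tech.UnitaryFour.sw F ^ 2 = 1
      rw [Tech.UnitaryFour.sw, pow_two, Tech.UnitaryFour.M_mul hS]
      simp [CharTwo.add_self_eq_zero, Tech.UnitaryFour.M_one]
    · have h' : Tech.UnitaryFour.M (0 : F) 1 = Tech.UnitaryFour.M (0 : F) 0 := by
        rw [Tech.UnitaryFour.M_one]; exact congrArg Subtype.val h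
      exact one_ne_zero (Tech.UnitaryFour.M_inj h').2
  · let f : Tech.UnitaryFour.cen F →* Subgroup.centralizer ({π s} : Set (Cfsg.PSU 3 F 4)) :=
      MonoidHom.codRestrict
        (π.comp (Subgroup.inclusion (inf_le_left : Tech.UnitaryFour.cen F ≤ Cfsg.SU 3 F 4))) _
        fun g => Subgroup.mem_centralizer_singleton_iff.2 (by
          show π _ * π s = π s * π _
          rw [← map_mul, ← map_mul]
          exact congrArg π (Subtype.ext (Subgroup.mem_centralizer_singleton_iff.1 g.2.2)))
    refine MulEquiv.ofBijective f ⟨?_, ?_⟩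
    · intro a b hab
      exact Subgroup.inclusion_injective _ (hπi (congrArg Subtype.val hab))
    · intro y
      obtain ⟨g, hg⟩ := QuotientGroup.mk'_surjective _ (y : Cfsg.PSU 3 F 4)
      have hcm : g * s = s * g := hπi (by
        show π (g * s) = π (s * g)
        rw [map_mul, map_mul, show π g = (y : Cfsg.PSU 3 F 4) from hg]
        exact Subgroup.mem_centralizer_singleton_iff.1 y.2)
      exact ⟨⟨g, g.2, Subgroup.mem_centralizer_singleton_iff.2 (congrArg Subtype.val hcm)⟩,
        Subtype.ext hg⟩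

end Cfsg.Agent.S1903
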