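import Cfsg.Statements.S1905
import Mathlib.GroupTheory.Nilpotent
import Cfsg.Agent.Invol.Basic
import Cfsg.Agent.S1225
-- import your own Cfsg.Agent.* helpers here

set_option autoImplicit false
open Cfsg

namespace Cfsg.Agent.S1905

/-- Let M be a subgroup of even order of a finite group S such that M contains the centralizer in S of each of its involutions and the normal core of M in S has odd order. Then all involutions of S are conjugate. If moreover N_S(X) ≤ M for a Sylow 2-subgroup X of M and I is an involution in the centre of X, then all involutions of M are conjugate in M and M = M₀ C_M(I) for some subgroup M₀ of M of odd order. -/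
theorem result {S : Type*} [Group S] [Finite S] (M : Subgroup S) (hM : Even (Nat.card M))
    (hC : ∀ i ∈ M, orderOf i = 2 → Subgroup.centralizer ({i} : Set S) ≤ M) (hcore : Odd (Nat.card M.normalCore)) :
    (∀ x y : S, orderOf x = 2 → orderOf y = 2 → IsConj x y) ∧
      ∀ (X : Sylow 2 M) (I : M), I ∈ (Subgroup.center ↥(X : Subgroup ↥M)).map (X : Subgroup ↥M).subtype → orderOf I = 2 →
        Subgroup.normalizer (((X : Subgroup M).map M.subtype : Subgroup S) : Set S) ≤ M →
        (∀ x y : M, orderOf x = 2 → orderOf y = 2 → IsConj x y) ∧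
          ∃ M₀ : Subgroup M, Odd (Nat.card M₀) ∧
            ∀ m : M, ∃ a ∈ M₀, ∃ c ∈ Subgroup.centralizer ({I} : Set M), m = a * c := by
  classical
  obtain ⟨i, hi⟩ := exists_prime_orderOf_dvd_card' (G := M) 2 (even_iff_two_dvd.1 hM)
  have hiS : orderOf (i : S) = 2 := by rw [Subgroup.orderOf_coe]; exact hi
  have hmix : ∀ a b : S, orderOf a = 2 → a ∈ M → orderOf b = 2 → b ∉ M → IsConj a b := by
    intro a b ha haM hb hbM
    by_contra hne
    obtain ⟨z, hz, hza, hzb⟩ := Cfsg.Agent.Invol.exists_common_of_not_isConj ha hb hne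
    have hzM : z ∈ M := hC a haM ha (Subgroup.mem_centralizer_singleton_iff.mpr hza.eq)
    exact hbM (hC z hzM hz (Subgroup.mem_centralizer_singleton_iff.mpr hzb.symm.eq))
  obtain ⟨u, hu, huM⟩ : ∃ u : S, orderOf u = 2 ∧ u ∉ M := by
    by_contra hcon
    have hall : ∀ u : S, orderOf u = 2 → u ∈ M := fun u hu => by
      by_contra h; exact hcon ⟨u, hu, h⟩
    have hicore : (i : S) ∈ M.normalCore := by
      intro g
      exact hall _ (by rw [Cfsg.Agent.Invol.orderOf_conj]; exact hiS)
    have h2 : 2 ∣ Nat.card M.normalCore := by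
      rw [← hiS]; exact Subgroup.orderOf_dvd_natCard _ hicore
    exact Nat.not_even_iff_odd.mpr hcore (even_iff_two_dvd.2 h2)
  have hall : ∀ x y : S, orderOf x = 2 → orderOf y = 2 → IsConj x y := by
    have hto : ∀ x : S, orderOf x = 2 → IsConj x u := by
      intro x hx
      by_cases hxM : x ∈ M
      · exact hmix x u hx hxM hu huM
      · exact (hmix _ x hiS i.2 hx hxM).symm.trans (hmix _ u hiS i.2 hu huM)
    exact fun x y hx hy => (hto x hx).trans (hto y hy).symm
  refine ⟨hall, ?_⟩
  intro X I hI hIord hN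
  obtain ⟨I', hI', hII⟩ := hI
  have hIS : orderOf (I : S) = 2 := by rw [Subgroup.orderOf_coe]; exact hIord
  set X' : Subgroup S := (X : Subgroup M).map M.subtype with hX'
  have hX'M : X' ≤ M := Subgroup.map_subtype_le _
  have hX'p : IsPGroup 2 X' := X.2.map _
  -- a 2-subgroup of `M` has order at most that of `X`
  have hcard : ∀ T : Subgroup S, T ≤ M → IsPGroup 2 T → Nat.card T ≤ Nat.card X' := by
    intro T hT hTp
    obtain ⟨R, hR⟩ := (hTp.of_equiv (Subgroup.subgroupOfEquivOfLe hT).symm).exists_le_sylow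
    have hRX : Nat.card (R : Subgroup M) = Nat.card (X : Subgroup M) := by
      rw [R.card_eq_multiplicity, X.card_eq_multiplicity]
    rw [hX', Subgroup.card_map_of_injective M.subtype_injective, ← hRX,
      ← Nat.card_congr (Subgroup.subgroupOfEquivOfLe hT).toEquiv]
    exact Nat.card_le_card_of_injective _ (Subgroup.inclusion_injective hR)
  -- `X'` is a Sylow 2-subgroup of `S`
  obtain ⟨P, hP⟩ := hX'p.exists_le_sylow
  have hPX : (P : Subgroup S) = X' := by
    by_contra hne
    have : Group.IsNilpotent (P : Subgroup S) := P.2.isNilpotent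
    have hlt : X'.subgroupOf P < ⊤ := by
      rw [lt_top_iff_ne_top]
      exact fun h => hne (le_antisymm (Subgroup.subgroupOf_eq_top.mp h) hP)
    obtain ⟨q, hq, hqn⟩ := SetLike.exists_of_lt (Group.normalizerCondition_of_isNilpotent _ hlt)
    set Q := (P : Subgroup S) ⊓ Subgroup.normalizer (X' : Set S) with hQ
    have hQM : Q ≤ M := inf_le_right.trans hN
    have hXQ : X' < Q := by
      refine lt_of_le_of_ne (le_inf hP Subgroup.le_normalizer) (fun h => hqn ?_)
      show (q : S) ∈ X'
      rw [h, hQ]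
      refine ⟨q.2, ?_⟩
      show (q : S) ∈ Subgroup.normalizer (X' : Set S)
      rw [Subgroup.mem_normalizer_iff]
      intro y
      constructor
      · intro hy
        simpa [Subgroup.mem_subgroupOf] using
          (Subgroup.mem_normalizer_iff.mp hq ⟨y, hP hy⟩).mp (Subgroup.mem_subgroupOf.mpr hy)
      · intro hy
        have hyP : y ∈ (P : Subgroup S) := by
          have h2 := Subgroup.mul_mem _ (Subgroup.mul_mem _ (Subgroup.inv_mem _ q.2) (hP hy)) q.2
          simpa [mul_assoc] using h2
        simpa [Subgroup.mem_subgroupOf] using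
          (Subgroup.mem_normalizer_iff.mp hq ⟨y, hyP⟩).mpr (by simpa [Subgroup.mem_subgroupOf] using hy)
    have h1 := hcard Q hQM (P.2.to_le inf_le_left)
    exact hXQ.ne (Subgroup.eq_of_le_of_card_ge hXQ.le h1)
  -- an element moving `I` into `M` lies in `M`
  have key : ∀ g : S, g * (I : S) * g⁻¹ ∈ M → g ∈ M := by
    intro g hg
    have hgX : X'.map (MulAut.conj g).toMonoidHom ≤ M := by
      rintro _ ⟨x, ⟨x', hx', rfl⟩, rfl⟩
      refine hC _ hg (by rw [Cfsg.Agent.Invol.orderOf_conj]; exact hIS) ?_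
      rw [Subgroup.mem_centralizer_singleton_iff]
      have hc : (x' : S) * (I : S) = (I : S) * (x' : S) := by
        rw [← hII]
        exact congrArg (fun v : ↥(X : Subgroup M) => ((v : M) : S))
          (Subgroup.mem_center_iff.mp hI' ⟨x', hx'⟩)
      change g * (x' : S) * g⁻¹ * (g * (I : S) * g⁻¹) = g * (I : S) * g⁻¹ * (g * (x' : S) * g⁻¹)
      calc g * (x' : S) * g⁻¹ * (g * (I : S) * g⁻¹) = g * ((x' : S) * (I : S)) * g⁻¹ := by group
        _ = g * ((I : S) * (x' : S)) * g⁻¹ := by rw [hc]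
        _ = g * (I : S) * g⁻¹ * (g * (x' : S) * g⁻¹) := by group
    set T := X'.map (MulAut.conj g).toMonoidHom with hT
    have hTp : IsPGroup 2 T := hX'p.map _
    obtain ⟨R, hR⟩ := (hTp.of_equiv (Subgroup.subgroupOfEquivOfLe hgX).symm).exists_le_sylow
    have hTR : T.subgroupOf M = (R : Subgroup M) := by
      refine Subgroup.eq_of_le_of_card_ge hR ?_
      rw [Nat.card_congr (Subgroup.subgroupOfEquivOfLe hgX).toEquiv, hT,
        Subgroup.card_map_of_injective (MulAut.conj g).injective, hX',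
        Subgroup.card_map_of_injective M.subtype_injective, R.card_eq_multiplicity,
        X.card_eq_multiplicity]
    obtain ⟨m, hm⟩ := MulAction.exists_smul_eq M R X
    have hnorm : (m : S) * g ∈ Subgroup.normalizer (X' : Set S) := by
      rw [Subgroup.mem_normalizer_iff]
      have hfin : ∀ y ∈ X', (m : S) * g * y * ((m : S) * g)⁻¹ ∈ X' := by
        intro y hy
        have hyT : g * y * g⁻¹ ∈ T := ⟨y, hy, rfl⟩
        have hyR : (⟨g * y * g⁻¹, hgX hyT⟩ : M) ∈ (R : Subgroup M) := by
          rw [← hTR]; exact hyT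
        have h2 : MulAut.conj m (⟨g * y * g⁻¹, hgX hyT⟩ : M) ∈ (X : Subgroup M) := by
          rw [← hm, Sylow.smul_def, Sylow.pointwise_smul_def]
          exact Subgroup.smul_mem_pointwise_smul _ _ _ hyR
        refine ⟨_, h2, ?_⟩
        simp [mul_assoc]
      intro y
      refine ⟨hfin y, fun hy => ?_⟩
      have hmap : X'.map (MulAut.conj ((m : S) * g)).toMonoidHom = X' :=
        Subgroup.eq_of_le_of_card_ge (by rintro _ ⟨w, hw, rfl⟩; exact hfin w hw)
          (Subgroup.card_map_of_injective (MulAut.conj _).injective).ge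
      rw [← hmap] at hy
      obtain ⟨w, hw, hwe⟩ := hy
      have : w = y := (MulAut.conj ((m : S) * g)).injective hwe
      exact this ▸ hw
    have := M.mul_mem (M.inv_mem m.2) (hN hnorm)
    rwa [inv_mul_cancel_left] at this
  have hse : Cfsg.IsStronglyEmbedded M := by
    refine ⟨fun h => huM (h ▸ Subgroup.mem_top u), hM, fun g hg => ?_⟩
    rw [← Nat.not_even_iff_odd]
    intro hev
    set D := M ⊓ M.map (MulAut.conj g).toMonoidHom
    obtain ⟨t, ht⟩ := exists_prime_orderOf_dvd_card' (G := D) 2 (even_iff_two_dvd.1 hev)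
    have htS : orderOf (t : S) = 2 := by rw [Subgroup.orderOf_coe]; exact ht
    obtain ⟨w, hw, hwt⟩ := t.2.2
    obtain ⟨a, ha⟩ := isConj_iff.mp (hall (I : S) (t : S) hIS htS)
    have haM : a ∈ M := key a (by rw [ha]; exact t.2.1)
    have : g⁻¹ * a ∈ M := key _ (by
      have : g⁻¹ * a * (I : S) * (g⁻¹ * a)⁻¹ = w := by
        calc g⁻¹ * a * (I : S) * (g⁻¹ * a)⁻¹ = g⁻¹ * (a * (I : S) * a⁻¹) * g := by group
          _ = g⁻¹ * (g * w * g⁻¹) * g := by rw [ha, ← hwt]; rfl
          _ = w := by group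
      rw [this]; exact hw)
    have h3 := M.mul_mem haM (M.inv_mem this)
    rw [mul_inv_rev, inv_inv, mul_inv_cancel_left] at h3
    exact hg h3
  have hD : Odd (Nat.card ↥(M ⊓ M.map (MulAut.conj u).toMonoidHom)) := hse.2.2 u huM
  have htrans : ∀ s t : M, orderOf s = 2 → orderOf t = 2 →
      ∃ d ∈ (M ⊓ M.map (MulAut.conj u).toMonoidHom).subgroupOf M, d * s * d⁻¹ = t := by
    intro s t hs ht
    obtain ⟨d, hd, hdst⟩ := (Cfsg.Agent.S1225.result M hse u hu huM (s : S) (t : S)
      (by rw [Subgroup.orderOf_coe]; exact hs) s.2 (by rw [Subgroup.orderOf_coe]; exact ht) t.2).1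
    exact ⟨⟨d, hd.1⟩, hd, Subtype.ext hdst⟩
  refine ⟨fun x y hx hy => ?_, (M ⊓ M.map (MulAut.conj u).toMonoidHom).subgroupOf M, ?_, fun m => ?_⟩
  · obtain ⟨d, -, hd⟩ := htrans x y hx hy
    exact isConj_iff.mpr ⟨d, hd⟩
  · rwa [Nat.card_congr (Subgroup.subgroupOfEquivOfLe inf_le_left).toEquiv]
  · obtain ⟨d, hd, hdI⟩ := htrans I (m * I * m⁻¹) hIord
      (by rw [Cfsg.Agent.Invol.orderOf_conj]; exact hIord)
    refine ⟨d, hd, d⁻¹ * m, ?_, (mul_inv_cancel_left d m).symm⟩
    rw [Subgroup.mem_centralizer_singleton_iff]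
    calc d⁻¹ * m * I = d⁻¹ * (m * I * m⁻¹) * m := by group
      _ = d⁻¹ * (d * I * d⁻¹) * m := by rw [hdI]
      _ = I * (d⁻¹ * m) := by group

end Cfsg.Agent.S1905
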