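import Cfsg.Statements.S1906
import Cfsg.Agent.OddPre.GLThreeEight
import Cfsg.Agent.OddPre.CentralTransfer
import Cfsg.Agent.PGroup.Basic
-- import your own Cfsg.Agent.* helpers here

set_option autoImplicit false
open Cfsg

namespace Cfsg.Agent.S1906

/-- Let G be a finite group with no subgroup of index 2 whose Sylow 2-subgroup X embeds in GL₃(F) for a finite field F of odd order. If X contains an elementary abelian subgroup of order 8, then X is abelian. -/
theorem result {G : Type*} [Group G] [Finite G] (hG : ∀ H : Subgroup G, H.index ≠ 2) (X : Sylow 2 G)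
    {F : Type*} [Field F] [Fintype F] (hF : Odd (Fintype.card F))
    (f : ↥(X : Subgroup G) →* GL (Fin 3) F) (hf : Function.Injective f)
    (E : Subgroup G) (hE : E ≤ (X : Subgroup G)) (hEa : Cfsg.IsElementaryAbelian 2 E) (hE8 : Nat.card E = 8) :
    IsMulCommutative (X : Subgroup G) := by
  classical
  haveI : Fact (Nat.Prime 2) := ⟨Nat.prime_two⟩
  have h2 : (2 : F) ≠ 0 := Known.two_ne_zero_of_odd_card hF
  by_contra hna
  let H : Subgroup G := (X : Subgroup G)
  have hX : IsPGroup 2 H := X.isPGroup'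
  -- the linear representation
  let ψ : H →* Module.End F (Fin 3 → F) :=
    ((Matrix.toLinAlgEquiv' (R := F) (n := Fin 3)).toAlgHom.toRingHom.toMonoidHom.comp
      (Units.coeHom _)).comp f
  have hψinj : Function.Injective ψ := by
    intro a b hab
    exact hf (Units.ext ((Matrix.toLinAlgEquiv' (R := F) (n := Fin 3)).injective hab))
  have hψdet : ∀ a, LinearMap.det (ψ a) = ((f a : GL (Fin 3) F) : Matrix (Fin 3) (Fin 3) F).det :=
    fun a => LinearMap.det_toLin' _
  let E' : Subgroup H := E.subgroupOf H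
  have hE'8 : Nat.card E' = 8 := by
    rw [Nat.card_congr (Subgroup.subgroupOfEquivOfLe hE).toEquiv, hE8]
  have hE'comm : ∀ a ∈ E', ∀ b ∈ E', a * b = b * a := by
    intro a ha b hb
    haveI := hEa.1
    exact Subtype.ext (congrArg (fun x : E => (x : G)) (mul_comm' (⟨(a : G), ha⟩ : E) ⟨(b : G), hb⟩))
  have hE'sq : ∀ a ∈ E', a * a = 1 := by
    intro a ha
    refine Subtype.ext ?_
    have := hEa.2 (a : G) ha
    rwa [pow_two] at this
  obtain ⟨hcommC, hinvol⟩ := OddPre.GLThreeEight.centralizer_facts h2 (by simp) (α := E') hE'8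
    (fun a => ψ (a : H)) (fun a b h => Subtype.ext (hψinj h))
    (fun a b v => by
      rw [← Module.End.mul_apply, ← map_mul, hE'comm _ a.2 _ b.2, map_mul, Module.End.mul_apply])
    (fun a v => by
      rw [← Module.End.mul_apply, ← map_mul, hE'sq _ a.2, map_one, Module.End.one_apply])
  have hswap : ∀ a b : H, a * b = b * a → ∀ v, ψ a (ψ b v) = ψ b (ψ a v) := fun a b h v => by
    rw [← Module.End.mul_apply, ← map_mul, h, map_mul, Module.End.mul_apply]
  have hnotcent : ¬ E' ≤ Subgroup.center H := by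
    intro hle
    refine hna ⟨⟨fun a b => ?_⟩⟩
    have hc : ∀ (c : H) (e : E') (v), ψ c (ψ (e : H) v) = ψ (e : H) (ψ c v) := fun c e v =>
      hswap _ _ (Subgroup.mem_center_iff.1 (hle e.2) c) v
    refine hψinj (LinearMap.ext fun v => ?_)
    rw [map_mul, map_mul, Module.End.mul_apply, Module.End.mul_apply]
    exact hcommC (ψ a) (ψ b) (hc a) (hc b) v
  have hcentE : ∀ v ∈ Subgroup.center H, v * v = 1 → v ∈ E' := by
    intro v hv hv2
    obtain ⟨e, he⟩ := hinvol (ψ v) (fun e w => hswap _ _ (Subgroup.mem_center_iff.1 hv (e : H)).symm w)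
      (fun w => by rw [← Module.End.mul_apply, ← map_mul, hv2, map_one, Module.End.one_apply])
    exact hψinj he ▸ e.2
  -- `-1` is realised by an element of `E'`
  obtain ⟨⟨z, hzE⟩, hz⟩ := hinvol (-LinearMap.id) (fun e w => by simp) (fun w => by simp)
  replace hz : ψ z = -LinearMap.id := hz
  have hzc : z ∈ Subgroup.center H := by
    refine Subgroup.mem_center_iff.2 fun a => hψinj ?_
    rw [map_mul, map_mul, hz]
    refine LinearMap.ext fun v => ?_
    simp [Module.End.mul_apply]
  let δ : H →* F := (Matrix.detMonoidHom.comp (Units.coeHom _)).comp f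
  let φ : H →* Fˣ := δ.toHomUnits
  have hφz : φ z = -1 := by
    apply Units.ext
    show ((f z : GL (Fin 3) F) : Matrix (Fin 3) (Fin 3) F).det = _
    rw [← hψdet, hz, show -LinearMap.id = (-1 : F) • (LinearMap.id : (Fin 3 → F) →ₗ[F] (Fin 3 → F)) from (neg_one_smul F _).symm,
      LinearMap.det_smul, LinearMap.det_id]
    simp; ring
  have hm1 : (-1 : Fˣ) ≠ 1 := fun h => h2 (by
    have := congrArg (fun u : Fˣ => (u : F)) h
    simp at this
    linear_combination -this)
  -- a central involution inside the derived subgroup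
  have hD : commutator H ≠ ⊥ := fun h => hna ⟨⟨fun a b => by
    rw [← commutatorElement_eq_one_iff_mul_comm, ← Subgroup.mem_bot, ← h]
    exact Subgroup.commutator_mem_commutator (Subgroup.mem_top a) (Subgroup.mem_top b)⟩⟩
  have hDne := PGroup.inf_center_ne_bot hX (commutator H) hD
  have hp2 : 2 ∣ Nat.card (commutator H ⊓ Subgroup.center H : Subgroup H) :=
    ((hX.to_subgroup _).card_eq_or_dvd).resolve_left fun h => hDne (Subgroup.card_eq_one.1 h)
  obtain ⟨⟨w, hwD, hwc⟩, hw⟩ := exists_prime_orderOf_dvd_card' 2 hp2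
  have hw1 : w ≠ 1 := by
    rintro rfl
    rw [show (⟨1, _⟩ : (commutator H ⊓ Subgroup.center H : Subgroup H)) = 1 from rfl, orderOf_one] at hw
    omega
  have hw2 : w * w = 1 := by
    have := pow_orderOf_eq_one (⟨w, hwD, hwc⟩ : (commutator H ⊓ Subgroup.center H : Subgroup H))
    rw [hw, pow_two] at this
    exact congrArg Subtype.val this
  have hφD : ∀ d ∈ commutator H, φ d = 1 := fun d hd =>
    MonoidHom.mem_ker.1 (Abelianization.commutator_subset_ker φ hd)
  have hzD : z ∉ commutator H := fun h => hm1 (hφz ▸ hφD z h)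
  have hz1 : z ≠ 1 := fun h => hzD (h ▸ one_mem _)
  have hzw : z ≠ w := fun h => hzD (h ▸ hwD)
  have hzwz : z * w ≠ z := fun h => hw1 (mul_eq_left.1 h)
  have hzww : z * w ≠ w := fun h => hz1 (mul_eq_right.1 h)
  have hzw1 : z * w ≠ 1 := fun h => hzw (mul_left_injective w (h.trans hw2.symm))
  have hz2 : z * z = 1 := hE'sq z hzE
  -- all central involutions
  have hfour : ∀ v ∈ Subgroup.center H, v * v = 1 → v = 1 ∨ v = w ∨ v = z ∨ v = z * w := by
    intro v hv hv2
    by_contra hcon
    push Not at hcon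
    obtain ⟨n1, n2, n3, n4⟩ := hcon
    let D : Subgroup H := Subgroup.center H ⊓ E'
    have hwE : w ∈ E' := hcentE w hwc hw2
    have hmem : ∀ u ∈ ({1, w, z, z * w, v} : Finset H), u ∈ D := by
      intro u hu
      simp only [Finset.mem_insert, Finset.mem_singleton] at hu
      rcases hu with rfl | rfl | rfl | rfl | rfl
      · exact one_mem _
      · exact Subgroup.mem_inf.2 ⟨hwc, hwE⟩
      · exact Subgroup.mem_inf.2 ⟨hzc, hzE⟩
      · exact Subgroup.mem_inf.2 ⟨mul_mem hzc hwc, mul_mem hzE hwE⟩
      · exact Subgroup.mem_inf.2 ⟨hv, hcentE u hv hv2⟩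
    have h5 : ({1, w, z, z * w, v} : Finset H).card = 5 := by
      simp [hw1.symm, hz1.symm, hzw1.symm, n1.symm, hzw.symm, hzww.symm, n2.symm, hzwz.symm,
        n3.symm, n4.symm]
    have hge : 5 ≤ Nat.card D := by
      rw [← h5, ← Nat.card_eq_finsetCard]
      exact Nat.card_le_card_of_injective
        (fun u => (⟨u.1, hmem u.1 u.2⟩ : D))
        (fun a b h => Subtype.ext (congrArg (fun x : D => (x : H)) h))
    have hdvd := Subgroup.card_dvd_of_le (inf_le_right : D ≤ E')
    rw [hE'8] at hdvd
    have h8 : Nat.card D = 8 := by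
      have := Nat.le_of_dvd (by norm_num) hdvd
      interval_cases Nat.card D <;> omega
    have := Subgroup.eq_of_le_of_card_ge (inf_le_right : D ≤ E') (by rw [hE'8, h8])
    exact hnotcent (this ▸ inf_le_left)
  -- conjugates of `z` under the normaliser
  have hN : ∀ g ∈ Subgroup.normalizer ((X : Subgroup G) : Set G),
      ∃ h : g⁻¹ * (z : G) * g ∈ H, φ ⟨g⁻¹ * (z : G) * g, h⟩ = -1 := by
    intro g hg
    have hgX : ∀ a ∈ H, g⁻¹ * a * g ∈ H := fun a ha => (Subgroup.mem_normalizer_iff''.1 hg a).1 ha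
    have hgX' : ∀ a ∈ H, g * a * g⁻¹ ∈ H := fun a ha => (Subgroup.mem_normalizer_iff.1 hg a).1 ha
    refine ⟨hgX _ z.2, ?_⟩
    set v : H := ⟨g⁻¹ * (z : G) * g, hgX _ z.2⟩ with hv
    have hvc : v ∈ Subgroup.center H := by
      refine Subgroup.mem_center_iff.2 fun a => Subtype.ext ?_
      have h := congrArg Subtype.val (Subgroup.mem_center_iff.1 hzc ⟨g * a * g⁻¹, hgX' _ a.2⟩)
      simp only [Subgroup.coe_mul] at h
      show (a : G) * (g⁻¹ * (z : G) * g) = g⁻¹ * (z : G) * g * a
      calc (a : G) * (g⁻¹ * (z : G) * g) = g⁻¹ * ((g * a * g⁻¹) * z) * g := by group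
        _ = g⁻¹ * (z * (g * a * g⁻¹)) * g := by rw [h]
        _ = _ := by group
    have hv2 : v * v = 1 := by
      refine Subtype.ext ?_
      show g⁻¹ * (z : G) * g * (g⁻¹ * z * g) = 1
      calc g⁻¹ * (z : G) * g * (g⁻¹ * z * g) = g⁻¹ * ((z * z : H) : G) * g := by
            rw [Subgroup.coe_mul]; group
        _ = 1 := by rw [hz2]; simp
    -- conjugation by `g` preserves the derived subgroup
    let c : H →* H :=
      { toFun := fun a => ⟨g * a * g⁻¹, hgX' _ a.2⟩
        map_one' := Subtype.ext (by simp)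
        map_mul' := fun a b => Subtype.ext (by simp [mul_assoc]) }
    have hcD : ∀ d ∈ commutator H, c d ∈ commutator H := by
      intro d hd
      have h : (commutator H).map c ≤ commutator H := by
        rw [commutator_def, Subgroup.map_commutator]
        exact Subgroup.commutator_mono le_top le_top
      exact h ⟨d, hd, rfl⟩
    have hvD : v ∉ commutator H := by
      intro h
      have hcv : c v = z := Subtype.ext (by
        show g * (g⁻¹ * (z : G) * g) * g⁻¹ = z
        group)
      exact hzD (hcv ▸ hcD v h)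
    rcases hfour v hvc hv2 with h | h | h | h
    · exact absurd (h ▸ one_mem _) hvD
    · exact absurd (h ▸ hwD) hvD
    · rw [h, hφz]
    · rw [h, map_mul, hφz, hφD w hwD, mul_one]
  obtain ⟨K, hK⟩ := OddPre.CentralTransfer.exists_index_two X φ
    (fun x hx => congrArg Subtype.val (Subgroup.mem_center_iff.1 hzc ⟨x, hx⟩))
    (congrArg Subtype.val hz2) hm1 (by simp) hN
  exact hG K hK

end Cfsg.Agent.S1906
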