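import Cfsg.Statements.S1924
import Cfsg.Agent.Tech.DihedralTransfer

set_option autoImplicit false
open Cfsg

namespace Cfsg.Agent.S1924

/-- A consequence of Thompson's transfer lemma. Let G be a finite group, L a subgroup with O²(L) = L, T a Sylow 2-subgroup of L and S a Sylow 2-subgroup of G containing T. Suppose D ≤ S is a dihedral subgroup of order at least 4 (the four-group counts) with D ∩ T = 1 and S = TD as a set of products (so |S| = |T|·|D|), and C ≤ D is cyclic of index 2 in D. If no involution of D outside C is G-conjugate to an involution of the subgroup generated by T and C, and the involution of C is not G-conjugate to any involution of T, then G has a normal subgroup K, containing every Sylow 2-subgroup of L as a Sylow 2-subgroup, with G = KD. -/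
theorem result {G : Type*} [Group G] [Finite G] (L T S D C : Subgroup G) (hL : Cfsg.pResidual 2 ↥L = ⊤)
    (hTL : T ≤ L) (hT2 : IsPGroup 2 T) (hTsyl : ¬ 2 ∣ T.relIndex L)
    (hS2 : IsPGroup 2 S) (hSsyl : ¬ 2 ∣ S.index) (hTS : T ≤ S)
    (hDS : D ≤ S) (hDih : ∃ n : ℕ, 2 ≤ n ∧ Nonempty (↥D ≃* DihedralGroup n)) (hDT : D ⊓ T = ⊥) (hTD : T ⊔ D = S) (hTDc : Nat.card T * Nat.card D = Nat.card S)
    (hCD : C ≤ D) (hC : IsCyclic ↥C) (hCi : C.relIndex D = 2)
    (h1 : ∀ x ∈ D, x ∉ C → orderOf x = 2 → ∀ g : G, g * x * g⁻¹ ∈ T ⊔ C → False)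
    (h2 : ∀ c ∈ C, orderOf c = 2 → ∀ g : G, g * c * g⁻¹ ∈ T → False) :
    ∃ K : Subgroup G, K.Normal ∧ K ⊔ D = ⊤ ∧
      ∀ T' : Subgroup G, T' ≤ L → IsPGroup 2 T' → ¬ 2 ∣ T'.relIndex L → T' ≤ K ∧ ¬ 2 ∣ T'.relIndex K := by
  exact Tech.DihTransfer.exists_complement L T S D C hL hTL hT2 hTsyl hS2 hSsyl hTS hDS hDih hDT hTD hTDc
    hCD hC hCi h1 h2

end Cfsg.Agent.S1924
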