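import Cfsg.Statements.S1935
import Cfsg.Agent.Tech.QuadOffender
import Cfsg.Agent.Modules.Replacement
-- import your own Cfsg.Agent.* helpers here

set_option autoImplicit false
open Cfsg

namespace Cfsg.Agent.S1935

open Subgroup
open Cfsg.Agent
open scoped commutatorElement

/-- Let p ≥ 5 be a prime and, inside an ambient finite group, let G be a p-subgroup acting faithfully by conjugation on an elementary abelian p-subgroup V that it normalizes (only the identity of G centralizes V). Suppose V is an F-module for G: some nontrivial elementary abelian subgroup E of G satisfies #E · #C_V(E) ≥ #V. Then G contains such an offender A that moreover acts quadratically on V ([V, A, A] = 1) and is normal in its normal closure in G. -/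
theorem result {Ω : Type*} [Group Ω] [Finite Ω] (p : ℕ) [Fact p.Prime] (hp : 5 ≤ p) (V G : Subgroup Ω) (hV : Cfsg.IsElementaryAbelian p V) (hG : IsPGroup p ↥G) (hGV : G ≤ Subgroup.normalizer (V : Set Ω)) (hfaith : G ⊓ Subgroup.centralizer (V : Set Ω) = ⊥) (hF : ∃ E : Subgroup Ω, E ≤ G ∧ E ≠ ⊥ ∧ Cfsg.IsElementaryAbelian p E ∧ Nat.card ↥V ≤ Nat.card ↥E * Nat.card ↥(V ⊓ Subgroup.centralizer (E : Set Ω))) : ∃ A : Subgroup Ω, A ≤ G ∧ A ≠ ⊥ ∧ Cfsg.IsElementaryAbelian p A ∧ Nat.card ↥V ≤ Nat.card ↥A * Nat.card ↥(V ⊓ Subgroup.centralizer (A : Set Ω)) ∧ ⁅⁅V, A⁆, A⁆ = ⊥ ∧ ∀ g ∈ Subgroup.closure {x : Ω | ∃ h ∈ G, ∃ a ∈ A, x = h * a * h⁻¹}, ∀ a ∈ A, g * a * g⁻¹ ∈ A := by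
  classical
  obtain ⟨E0, hE0G, hE0ne, hE0, hE0w⟩ := hF
  have hVp : ∀ v : ↥V, v ^ p = 1 := fun v => Subtype.ext (by simpa using hV.2 _ v.2)
  letI : CommGroup ↥V :=
    { (inferInstance : Group ↥V) with mul_comm := fun a b => Subtype.ext (Modules.elemAb_comm hV a.2 b.2) }
  letI : Module (ZMod p) (Additive ↥V) := AddCommGroup.zmodModule (n := p)
    fun v => congrArg Additive.ofMul (hVp (Additive.toMul v))
  -- a quadratic offender
  haveI : Fintype (Subgroup Ω) := Fintype.ofFinite _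
  obtain ⟨A0, hA0, hA0max⟩ := (Finset.univ.filter fun A : Subgroup Ω =>
      A ≤ G ∧ A ≠ ⊥ ∧ Cfsg.IsElementaryAbelian p A).exists_max_image (Modules.offenderWeight V)
      ⟨E0, Finset.mem_filter.2 ⟨Finset.mem_univ _, hE0G, hE0ne, hE0⟩⟩
  obtain ⟨-, hA0G, hA0ne, hA0e⟩ := Finset.mem_filter.1 hA0
  have hwV : Nat.card ↥V ≤ Modules.offenderWeight V A0 :=
    hE0w.trans (hA0max E0 (Finset.mem_filter.2 ⟨Finset.mem_univ _, hE0G, hE0ne, hE0⟩))
  have hmax : ∀ B ≤ A0, Modules.offenderWeight V B ≤ Modules.offenderWeight V A0 := by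
    intro B hB
    by_cases h : B = ⊥
    · subst h
      refine le_trans ?_ hwV
      rw [Modules.offenderWeight, Subgroup.card_bot, one_mul]
      exact Nat.card_le_card_of_injective _ (Subgroup.inclusion_injective inf_le_left)
    · exact hA0max B (Finset.mem_filter.2 ⟨Finset.mem_univ _, hB.trans hA0G, h,
        Modules.elemAb_mono hB hA0e⟩)
  have hA0V := hA0G.trans hGV
  have hab : ⁅A0, A0⁆ ≤ centralizer (V : Set Ω) := by
    rw [commutator_eq_bot_iff_le_centralizer.2 (Modules.elemAb_le_centralizer hA0e)]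
    exact bot_le
  have hcne : ⁅V, A0⁆ ≠ ⊥ := fun h => hA0ne (eq_bot_iff.2 fun a ha => hfaith.le
    ⟨hA0G ha, le_centralizer_iff.1 (commutator_eq_bot_iff_le_centralizer.1 h) ha⟩)
  obtain ⟨B, hB⟩ : ∃ B, B = A0 ⊓ centralizer ((⁅V, A0⁆ : Subgroup Ω) : Set Ω) := ⟨_, rfl⟩
  have hBw := (Modules.timmesfeld_replacement hV.1 hA0V hab hmax le_rfl).2
  have hBne := Modules.inf_centralizer_commutator_ne_bot (Modules.elemAb_isPGroup hV) hV.1 hA0V hab
    (fun a ha => ⟨1, by rw [pow_one, hA0e.2 a ha]; exact one_mem _⟩) hmax le_rfl hcne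
  rw [← hB] at hBw hBne
  have hBG : B ≤ G := hB.le.trans (inf_le_left.trans hA0G)
  -- the representation
  let lin : MulAut ↥V →* Module.End (ZMod p) (Additive ↥V) :=
    { toFun := fun ψ => AddMonoidHom.toZModLinearMap p (MonoidHom.toAdditive ψ.toMonoidHom)
      map_one' := LinearMap.ext fun v => by simp
      map_mul' := fun ψ ψ' => LinearMap.ext fun v => by simp }
  let cj : ↥G →* MulAut ↥V :=
    { toFun := fun g =>
        { toFun := fun v => ⟨(g : Ω) * v * (g : Ω)⁻¹, (mem_normalizer_iff.1 (hGV g.2) _).1 v.2⟩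
          invFun := fun v => ⟨(g : Ω)⁻¹ * v * g, (mem_normalizer_iff''.1 (hGV g.2) _).1 v.2⟩
          left_inv := fun v => Subtype.ext (by simp [mul_assoc])
          right_inv := fun v => Subtype.ext (by simp [mul_assoc])
          map_mul' := fun v w => Subtype.ext (by simp [mul_assoc]) }
      map_one' := MulEquiv.ext fun v => Subtype.ext (by simp)
      map_mul' := fun g h => MulEquiv.ext fun v => Subtype.ext (by simp [mul_assoc]) }
  let ψ : ↥G →* (Module.End (ZMod p) (Additive ↥V))ˣ := (lin.comp cj).toHomUnits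
  have happ : ∀ (g : ↥G) (v : ↥V), Additive.toMul
      ((ψ g : Module.End (ZMod p) (Additive ↥V)) (Additive.ofMul v)) =
      ⟨(g : Ω) * v * (g : Ω)⁻¹, (mem_normalizer_iff.1 (hGV g.2) _).1 v.2⟩ := fun g v => by
    simp [ψ, lin, cj]
  have happ' : ∀ (g : ↥G) (v : ↥V), (ψ g : Module.End (ZMod p) (Additive ↥V)) (Additive.ofMul v) =
      Additive.ofMul ⟨(g : Ω) * v * (g : Ω)⁻¹, (mem_normalizer_iff.1 (hGV g.2) _).1 v.2⟩ := fun g v =>
    Additive.toMul.injective (by rw [happ, toMul_ofMul])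
  have hinj : Function.Injective ψ := by
    refine (injective_iff_map_eq_one ψ).2 fun g hg => Subtype.ext (mem_bot.1 (hfaith.le ⟨g.2,
      mem_centralizer_iff.2 fun v hv => ?_⟩))
    have h := happ g ⟨v, hv⟩
    rw [hg] at h
    have h' : v = (g : Ω) * v * (g : Ω)⁻¹ := congrArg Subtype.val h
    calc v * (g : Ω) = (g : Ω) * v * (g : Ω)⁻¹ * g := by rw [← h']
      _ = (g : Ω) * v := by group
  -- translation of quadratic action and of fixed points
  have hquad : ∀ C : Subgroup ↥G, Tech.QuadOffender.Quad (C.map ψ) ↔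
      ∀ a ∈ C, ∀ b ∈ C, ∀ v ∈ V, (a : Ω) * ((b : Ω) * v * (b : Ω)⁻¹ * v⁻¹) * (a : Ω)⁻¹ =
        (b : Ω) * v * (b : Ω)⁻¹ * v⁻¹ := by
    intro C
    have hpt : ∀ (a b : ↥G) (v : ↥V), (((ψ a : Module.End (ZMod p) (Additive ↥V)) - 1) *
        ((ψ b : Module.End (ZMod p) (Additive ↥V)) - 1)) (Additive.ofMul v) = 0 ↔
        (a : Ω) * ((b : Ω) * v * (b : Ω)⁻¹ * (v : Ω)⁻¹) * (a : Ω)⁻¹ =
          (b : Ω) * v * (b : Ω)⁻¹ * (v : Ω)⁻¹ := by
      intro a b v
      rw [Module.End.mul_apply, LinearMap.sub_apply (ψ b : Module.End (ZMod p) (Additive ↥V)),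
        Module.End.one_apply, happ', ← ofMul_div, LinearMap.sub_apply, Module.End.one_apply,
        happ', sub_eq_zero, Additive.ofMul.apply_eq_iff_eq, Subtype.ext_iff]
      simp [div_eq_mul_inv]
    constructor
    · intro h a ha b hb v hv
      exact (hpt a b ⟨v, hv⟩).1 (by rw [h _ ⟨a, ha, rfl⟩ _ ⟨b, hb, rfl⟩]; rfl)
    · rintro h _ ⟨a, ha, rfl⟩ _ ⟨b, hb, rfl⟩
      exact LinearMap.ext fun v => (hpt a b (Additive.toMul v)).2 (h a ha b hb _ (Additive.toMul v).2)
  have hfixc : ∀ C : Subgroup ↥G, Nat.card (Tech.QuadOffender.fix (C.map ψ)) =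
      Nat.card ↥(V ⊓ centralizer ((C.map G.subtype : Subgroup Ω) : Set Ω)) := by
    intro C
    refine Nat.card_congr
      { toFun := fun v => ⟨(Additive.toMul (v : Additive ↥V) : ↥V), (Additive.toMul (v : Additive ↥V)).2,
          mem_centralizer_iff.2 ?_⟩
        invFun := fun v => ⟨Additive.ofMul ⟨v, v.2.1⟩, ?_⟩
        left_inv := fun v => rfl
        right_inv := fun v => rfl }
    · rintro _ ⟨a, ha, rfl⟩
      have h := congrArg (fun x => ((Additive.toMul x : ↥V) : Ω))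
        (v.2 _ ⟨a, ha, rfl⟩)
      rw [← ofMul_toMul (v : Additive ↥V), happ' a] at h
      simp only [toMul_ofMul] at h
      exact mul_inv_eq_iff_eq_mul.1 h
    · rintro _ ⟨a, ha, rfl⟩
      rw [happ']
      refine congrArg Additive.ofMul (Subtype.ext ?_)
      exact mul_inv_eq_iff_eq_mul.2 (mem_centralizer_iff.1 v.2.2 _ ⟨a, ha, rfl⟩)
  have hcards : ∀ C : Subgroup ↥G, Nat.card ↥(C.map ψ) = Nat.card ↥(C.map G.subtype) := fun C => by
    rw [Subgroup.card_map_of_injective hinj, Subgroup.card_map_of_injective G.subtype_injective]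
  have hgood0 : Tech.QuadOffender.Good ψ.range ((B.subgroupOf G).map ψ) := by
    have hmap : (B.subgroupOf G).map G.subtype = B := by
      rw [subgroupOf_map_subtype, inf_eq_left.2 hBG]
    refine ⟨map_le_range _ _, ?_, (hquad _).2 fun a ha b hb v hv => ?_, ?_⟩
    · rw [Ne, Subgroup.map_eq_bot_iff_of_injective _ hinj]
      intro h
      refine hBne ?_
      rw [← hmap, h, Subgroup.map_bot, commutator_bot_right]
    · have hbA := (hB ▸ mem_subgroupOf.1 hb : (b : Ω) ∈ A0 ⊓ _).1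
      have hc : v * (b : Ω) * v⁻¹ * (b : Ω)⁻¹ ∈ ⁅V, A0⁆ := commutator_mem_commutator hv hbA
      have hc' : (b : Ω) * v * (b : Ω)⁻¹ * v⁻¹ ∈ ⁅V, A0⁆ := by
        simpa [mul_assoc] using inv_mem hc
      have := mem_centralizer_iff.1 (hB ▸ mem_subgroupOf.1 ha : (a : Ω) ∈ A0 ⊓ _).2 _ hc'
      exact mul_inv_eq_iff_eq_mul.2 this.symm
    · rw [hcards, hfixc, hmap, ← Nat.card_congr (Additive.ofMul (α := ↥V))]
      exact hwV.trans hBw.ge
  haveI : Fintype (Additive ↥V) := Fintype.ofFinite _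
  obtain ⟨A', hA', hnorm⟩ := Tech.QuadOffender.exists_normal_in_closure hp
    (show IsPGroup p ↥ψ.range from fun x => by
      obtain ⟨_, g, rfl⟩ := x
      obtain ⟨k, hk⟩ := hG g
      exact ⟨k, Subtype.ext (by simp only [SubmonoidClass.coe_pow]; rw [← map_pow, hk, map_one]; rfl)⟩) hgood0
  obtain ⟨C, rfl⟩ : ∃ C : Subgroup ↥G, C.map ψ = A' :=
    ⟨A'.comap ψ, Subgroup.map_comap_eq_self hA'.1⟩
  obtain ⟨-, hC1, hCq, hCw⟩ := hA'
  have hq := (hquad C).1 hCq
  refine ⟨C.map G.subtype, map_subtype_le _, ?_, ⟨?_, ?_⟩, ?_, ?_, ?_⟩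
  · rw [Ne, Subgroup.map_eq_bot_iff_of_injective _ G.subtype_injective]
    exact fun h => hC1 (by rw [h, Subgroup.map_bot])
  · refine ⟨⟨?_⟩⟩
    rintro ⟨_, a, ha, rfl⟩ ⟨_, b, hb, rfl⟩
    refine Subtype.ext (congrArg (fun x : ↥G => (x : Ω)) (hinj (a₁ := a * b) (a₂ := b * a) ?_))
    rw [map_mul, map_mul]
    exact hCq.comm ⟨a, ha, rfl⟩ ⟨b, hb, rfl⟩
  · rintro _ ⟨a, ha, rfl⟩
    have hm : ∀ n : ℕ, ((ψ a ^ n : (Module.End (ZMod p) (Additive ↥V))ˣ) :
        Module.End (ZMod p) (Additive ↥V)) - 1 = n • ((ψ a : Module.End (ZMod p) (Additive ↥V)) - 1) := by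
      intro n
      induction n with
      | zero => simp
      | succ n ih =>
        rw [pow_succ, hCq.sub_one_mul (Subgroup.pow_mem _ (Subgroup.mem_map_of_mem ψ ha) n) (Subgroup.mem_map_of_mem ψ ha), ih, succ_nsmul]
    have h1 : ψ a ^ p = 1 := Units.ext (sub_eq_zero.1 (by
      rw [Units.val_one, hm p, ← Nat.cast_smul_eq_nsmul (ZMod p), ZMod.natCast_self, zero_smul]))
    show (a : Ω) ^ p = 1
    rw [← SubgroupClass.coe_pow, hinj (a₁ := a ^ p) (a₂ := 1) (by rw [map_pow, h1, map_one])]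
    rfl
  · rw [← hcards, ← hfixc]
    exact le_of_eq_of_le (Nat.card_congr Additive.ofMul) hCw
  · rw [commutator_eq_bot_iff_le_centralizer, commutator_le]
    intro v hv x hx
    obtain ⟨b, hb, rfl⟩ := hx
    refine mem_centralizer_iff.2 ?_
    rintro _ ⟨a, ha, rfl⟩
    have h := congrArg (·⁻¹) (mul_inv_eq_iff_eq_mul.1 (hq a⁻¹ (inv_mem ha) b hb v hv))
    simpa [commutatorElement_def, mul_assoc] using h.symm
  · intro g hg
    have hle : closure {x : Ω | ∃ h ∈ G, ∃ a ∈ C.map G.subtype, x = h * a * h⁻¹} ≤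
        normalizer ((C.map G.subtype : Subgroup Ω) : Set Ω) := by
      refine (closure_le _).2 ?_
      rintro _ ⟨h, hh, _, ⟨a, ha, rfl⟩, rfl⟩
      refine mem_normalizer_iff.2 fun x => ?_
      have key : ∀ (a : ↥G), a ∈ C → ∀ x ∈ C.map G.subtype,
          (h * (a : Ω) * h⁻¹) * x * (h * (a : Ω) * h⁻¹)⁻¹ ∈ C.map G.subtype := by
        rintro a ha _ ⟨c, hc, rfl⟩
        obtain ⟨d, hd, e⟩ := hnorm (ψ ⟨h, hh⟩) ⟨_, rfl⟩ (ψ a) ⟨a, ha, rfl⟩ (ψ c) ⟨c, hc, rfl⟩
        refine ⟨d, hd, ?_⟩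
        rw [← map_inv, ← map_mul, ← map_mul, ← map_inv, ← map_mul, ← map_mul] at e
        rw [hinj e]
        rfl
      refine ⟨fun hx => key a ha x hx, fun hx => ?_⟩
      have := key a⁻¹ (inv_mem ha) _ hx
      simpa [mul_assoc] using this
    exact fun a ha => (mem_normalizer_iff.1 (hle hg) a).1 ha

end Cfsg.Agent.S1935
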