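import Cfsg.Statements.S1939
-- import your own Cfsg.Agent.* helpers here

set_option autoImplicit false
open Cfsg

namespace Cfsg.Agent.S1939

/-- Let S be a Sylow p-subgroup of the finite group G and a an element of S that is the only G-conjugate of a lying in S. Then every power of a has the same property: for every n, the only G-conjugate of a^n lying in S is a^n. -/
theorem result {G : Type*} [Group G] [Finite G] {p : ℕ} [Fact p.Prime] (S : Sylow p G) (a : G)
    (haS : a ∈ (S : Subgroup G)) (hwc : ∀ g : G, g * a * g⁻¹ ∈ (S : Subgroup G) → g * a * g⁻¹ = a) (n : ℕ) :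
    ∀ g : G, g * a ^ n * g⁻¹ ∈ (S : Subgroup G) → g * a ^ n * g⁻¹ = a ^ n := by
  intro g hu
  have hcen : ∀ s ∈ (S : Subgroup G), s * a = a * s := by
    intro s hs
    have h := hwc s (mul_mem (mul_mem hs haS) (inv_mem hs))
    exact mul_inv_eq_iff_eq_mul.mp h
  set u := g * a ^ n * g⁻¹ with hudef
  set C := Subgroup.centralizer ({u} : Set G) with hC
  have haC : a ∈ C := Subgroup.mem_centralizer_singleton_iff.mpr ((hcen u hu).symm)
  have hgaC : g * a * g⁻¹ ∈ C := by
    rw [hC, Subgroup.mem_centralizer_singleton_iff, hudef]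
    simp only [mul_assoc, inv_mul_cancel_left]
    rw [← mul_assoc a, ← pow_succ', ← mul_assoc (a^n), ← pow_succ]
  have hap : IsPGroup p (Subgroup.zpowers (⟨a, haC⟩ : C)) := by
    refine (S.2.to_le ((Subgroup.zpowers_le).mpr haS)).of_injective
      ((C.subtype.comp (Subgroup.zpowers (⟨a, haC⟩ : C)).subtype).codRestrict (Subgroup.zpowers a) ?_) ?_
    · rintro ⟨x, k, rfl⟩
      exact ⟨k, by simp⟩
    · intro x y hxy
      apply Subtype.ext; apply Subtype.ext
      exact congrArg (fun z : Subgroup.zpowers a => (z : G)) hxy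
  have hgap : IsPGroup p (Subgroup.zpowers (⟨g * a * g⁻¹, hgaC⟩ : C)) := by
    obtain ⟨k, hk⟩ : ∃ k, a ^ p ^ k = 1 := by
      obtain ⟨k, hk⟩ := S.2 ⟨a, haS⟩
      exact ⟨k, congrArg Subtype.val hk⟩
    rintro ⟨x, j, rfl⟩
    refine ⟨k, Subtype.ext (Subtype.ext ?_)⟩
    simp only [SubmonoidClass.coe_pow, SubgroupClass.coe_zpow, OneMemClass.coe_one]
    rw [← zpow_natCast, ← zpow_mul, mul_comm, zpow_mul, zpow_natCast, conj_pow, hk]
    simp
  obtain ⟨R, hR⟩ := hap.exists_le_sylow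
  obtain ⟨R', hR'⟩ := hgap.exists_le_sylow
  obtain ⟨c, hc⟩ := MulAction.exists_smul_eq C R' R
  obtain ⟨T, hT⟩ := (R.2.map C.subtype).exists_le_sylow
  obtain ⟨h, hh⟩ := MulAction.exists_smul_eq G T S
  have key : ∀ x : C, x ∈ R → h * (x : G) * h⁻¹ ∈ (S : Subgroup G) := by
    intro x hx
    rw [← hh]
    exact ⟨x, hT ⟨x, hx, rfl⟩, rfl⟩
  have h1 := key _ (hR (Subgroup.mem_zpowers _))
  have hha : h * a * h⁻¹ = a := hwc h h1
  have h2 : h * ((c : G) * (g * a * g⁻¹) * (c : G)⁻¹) * h⁻¹ ∈ (S : Subgroup G) := by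
    apply key (c * ⟨g * a * g⁻¹, hgaC⟩ * c⁻¹)
    rw [← hc]
    exact ⟨_, hR' (Subgroup.mem_zpowers _), rfl⟩
  have h3 := hwc (h * (c : G) * g) (by simpa [mul_assoc] using h2)
  have h4 : (c : G) * (g * a * g⁻¹) * (c : G)⁻¹ = a := by
    have e : h * ((c : G) * (g * a * g⁻¹) * (c : G)⁻¹) * h⁻¹ = h * a * h⁻¹ := by
      rw [hha]; simpa [mul_assoc] using h3
    simpa using e
  have h5 : (c : G) * (g * a ^ n * g⁻¹) * (c : G)⁻¹ = a ^ n := by
    rw [← conj_pow, ← conj_pow, h4]
  have h6 : (c : G) * u = u * (c : G) := Subgroup.mem_centralizer_singleton_iff.mp c.2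
  have h7 : (c : G) * u * (c : G)⁻¹ = u := by rw [h6, mul_inv_cancel_right]
  exact (h7.symm.trans h5)

end Cfsg.Agent.S1939
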