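import Cfsg.Statements.S1940
-- import your own Cfsg.Agent.* helpers here

set_option autoImplicit false
open Cfsg

namespace Cfsg.Agent.S1940

/-- Let the finite group L act by automorphisms on the finite abelian group M, and let N be an L-invariant subgroup of M such that M/N is a p-group on which L acts trivially (every l • m lies in the coset mN). If every element of M is a product of an element of N and an element fixed by a Sylow p-subgroup T of L, then every element of M is a product of an element of N and an element fixed by all of L. -/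
theorem result {L : Type*} [Group L] [Finite L] {M : Type*} [CommGroup M] [Finite M] [MulDistribMulAction L M]
    {p : ℕ} [Fact p.Prime] (N : Subgroup M) (hN : ∀ (l : L) (m : M), m ∈ N → l • m ∈ N)
    (hquot : IsPGroup p (M ⧸ N)) (htriv : ∀ (l : L) (m : M), (l • m) * m⁻¹ ∈ N) (T : Sylow p L)
    (hT : ∀ m : M, ∃ n ∈ N, ∃ c : M, (∀ t ∈ (T : Subgroup L), t • c = c) ∧ m = n * c) :
    ∀ m : M, ∃ n ∈ N, ∃ c : M, (∀ l : L, l • c = c) ∧ m = n * c := by
  classical
  intro m
  obtain ⟨n, hn, c, hc, hm⟩ := hT m
  letI := Fintype.ofFinite (L ⧸ (T : Subgroup L))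
  let f : L ⧸ (T : Subgroup L) → M := Quotient.lift (fun l : L => l • c) (by
    intro a b hab
    have h := QuotientGroup.leftRel_apply.mp hab
    have h2 := hc _ h
    calc a • c = a • (a⁻¹ * b) • c := by rw [h2]
      _ = b • c := by rw [smul_smul, mul_inv_cancel_left])
  let N' := ∏ q, f q
  have hfix : ∀ l : L, l • N' = N' := by
    intro l
    show l • (∏ q, f q) = ∏ q, f q
    rw [Finset.smul_prod']
    refine Fintype.prod_equiv (MulAction.toPerm l) _ _ (fun q => ?_)
    induction q using QuotientGroup.induction_on with
    | H x => exact (mul_smul l x c).symm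
  let π := QuotientGroup.mk' N
  have hπl : ∀ (l : L) (x : M), π (l • x) = π x := by
    intro l x
    have := htriv l x
    rw [← (QuotientGroup.eq_one_iff (N := N) _)] at this
    rw [← mul_inv_eq_one]
    simpa [π] using this
  have hπN : π N' = π c ^ (T : Subgroup L).index := by
    have h1 : ∀ q, π (f q) = π c := by
      intro q
      induction q using QuotientGroup.induction_on with
      | H x => exact hπl x c
    rw [show π N' = ∏ q, π (f q) from map_prod π _ _]
    simp only [h1, Finset.prod_const, Finset.card_univ]
    rw [Subgroup.index, Nat.card_eq_fintype_card]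
  obtain ⟨e, he⟩ := hquot (π c)
  have hcop : Nat.Coprime (T : Subgroup L).index (p ^ e) :=
    (((Nat.Prime.coprime_iff_not_dvd (Fact.out)).mpr T.not_dvd_index).symm).pow_right _
  have hdvd : orderOf (π c) ∣ p ^ e := orderOf_dvd_of_pow_eq_one he
  obtain ⟨j, hj⟩ := exists_pow_eq_self_of_coprime (Nat.Coprime.coprime_dvd_right hdvd hcop)
  refine ⟨m * (N' ^ j)⁻¹, ?_, N' ^ j, ?_, by simp⟩
  · rw [← QuotientGroup.eq_one_iff]
    show π (m * (N' ^ j)⁻¹) = 1
    have hn1 : π n = 1 := (QuotientGroup.eq_one_iff n).mpr hn
    rw [map_mul, map_inv, map_pow, hπN, hj, hm, map_mul, hn1, one_mul, mul_inv_cancel]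
  · intro l; rw [smul_pow', hfix]

end Cfsg.Agent.S1940
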