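import Cfsg.Statements.S1941
import Cfsg.Agent.Tech.LocalBalance
import Cfsg.Agent.Components.FStar
-- import your own Cfsg.Agent.* helpers here

set_option autoImplicit false
open Cfsg

namespace Cfsg.Agent.S1941

/-- Let G be a finite group with no nontrivial normal subgroup of order prime to p, T a Sylow p-subgroup of G and E(G) the layer of G (the subgroup generated by its components). An automorphism of G of p-power order that fixes T and E(G) elementwise is inner. -/
theorem result {G : Type*} [Group G] [Finite G] {p : ℕ} [Fact p.Prime] (hcore : Cfsg.pPrimeCore p G = ⊥)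
    (T : Sylow p G) (α : MulAut G) (hα : ∃ j : ℕ, orderOf α = p ^ j) (hfixT : ∀ x ∈ (T : Subgroup G), α x = x)
    (hfixE : ∀ x ∈ Cfsg.layer G, α x = x) : ∃ g : G, ∀ x : G, α x = g * x * g⁻¹ := by
  classical
  set E := Cfsg.layer G with hE
  set F := Cfsg.generalizedFittingSubgroup G with hF
  haveI hFn : F.Normal := Components.genFitting_normal
  have hfit : Cfsg.fittingSubgroup G = Cfsg.pCore p G := Tech.fitting_eq_pCore hcore
  have hfixF : ∀ x ∈ F, α x = x := by
    suffices h : F ≤ α.toMonoidHom.eqLocus (MonoidHom.id G) from fun x hx => h hx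
    refine sup_le (fun x hx => hfixE x hx) ?_
    rw [hfit]
    exact fun x hx => hfixT x (Cores.pCore_le_sylow T hx)
  set Z := F ⊓ Subgroup.centralizer (F : Set G) with hZ
  haveI hZn : Z.Normal := inferInstance
  have hZp : IsPGroup p Z := by
    refine Cores.pCore_isPGroup.to_le ?_
    rw [← hfit]
    refine Components.subnormal_nilpotent_le_fitting hZn.isSubnormal ?_
    refine Components.nilpotent_of_commutator_le_center fun d _ => ?_
    exact Subgroup.mem_center_iff.mpr fun y => Subtype.ext (d.2.2 _ y.2.1)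
  letI : CommGroup Z :=
    { (inferInstance : Group Z) with mul_comm := fun a b => Subtype.ext (b.2.2 (a : G) a.2.1) }
  have hu : ∀ g : G, α g * g⁻¹ ∈ Z := by
    intro g
    have hc : α g * g⁻¹ ∈ Subgroup.centralizer (F : Set G) := by
      intro x hx
      have hxg : g⁻¹ * x * g ∈ F := by simpa using hFn.conj_mem x hx g⁻¹
      have h1 : (α g)⁻¹ * x * α g = g⁻¹ * x * g := by
        have := hfixF _ hxg
        rwa [map_mul, map_mul, map_inv, hfixF x hx] at this
      calc x * (α g * g⁻¹) = α g * ((α g)⁻¹ * x * α g) * g⁻¹ := by group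
        _ = α g * g⁻¹ * x := by rw [h1]; group
    exact ⟨Components.centralizer_genFitting_le hc, hc⟩
  let f : G ⧸ (T : Subgroup G) → Z := Quotient.lift (fun g : G => (⟨α g * g⁻¹, hu g⟩ : Z)) (by
    intro a b hab
    have h : a⁻¹ * b ∈ (T : Subgroup G) := QuotientGroup.leftRel_apply.mp hab
    have h2 := hfixT _ h
    rw [map_mul, map_inv, inv_mul_eq_iff_eq_mul] at h2
    apply Subtype.ext
    show α a * a⁻¹ = α b * b⁻¹
    rw [h2]; group)
  letI := Fintype.ofFinite (G ⧸ (T : Subgroup G))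
  set S : Z := ∏ q, f q with hS
  have hkey : ∀ g : G, (⟨g * (S : G) * g⁻¹, hZn.conj_mem _ S.2 g⟩ : Z) * (⟨α g * g⁻¹, hu g⟩ : Z) ^ (T : Subgroup G).index = S := by
    intro g
    let cg : Z →* Z := MonoidHom.mk' (fun v => ⟨g * v * g⁻¹, hZn.conj_mem _ v.2 g⟩) (fun a b => by
      apply Subtype.ext; show g * (a * b : G) * g⁻¹ = (g * a * g⁻¹) * (g * b * g⁻¹); group)
    show cg S * _ = S
    rw [hS, map_prod, Subgroup.index, Nat.card_eq_fintype_card, ← Finset.card_univ,
      ← Finset.prod_const, ← Finset.prod_mul_distrib]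
    refine Fintype.prod_equiv (MulAction.toPerm g) _ _ (fun q => ?_)
    induction q using QuotientGroup.induction_on with
    | H x =>
      rw [mul_comm]
      apply Subtype.ext
      show (α g * g⁻¹) * (g * (α x * x⁻¹) * g⁻¹) = α (g * x) * (g * x)⁻¹
      rw [map_mul]; group
  obtain ⟨e, he⟩ := hZp S
  obtain ⟨e', he'⟩ := IsPGroup.iff_card.mp hZp
  have hcop : ((T : Subgroup G).index).Coprime (Nat.card Z) := by
    rw [he']
    exact (((Nat.Prime.coprime_iff_not_dvd Fact.out).mpr T.not_dvd_index).symm).pow_right _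
  obtain ⟨z, hz⟩ := (powCoprime (G := Z) hcop.symm).surjective S
  have hz' : z ^ (T : Subgroup G).index = S := hz
  refine ⟨(z : G), fun g => ?_⟩
  have h1 := hkey g
  rw [← hz'] at h1
  have h2 : (⟨g * (z : G) * g⁻¹, hZn.conj_mem _ z.2 g⟩ : Z) ^ (T : Subgroup G).index =
      ⟨g * ((z ^ (T : Subgroup G).index : Z) : G) * g⁻¹, hZn.conj_mem _ (z ^ _).2 g⟩ := by
    apply Subtype.ext
    simp [conj_pow]
  simp only [← h2, ← mul_pow] at h1
  have h3 := (powCoprime (G := Z) hcop.symm).injective h1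
  have h4 : (g * (z : G) * g⁻¹) * (α g * g⁻¹) = z := congrArg Subtype.val h3
  calc α g = g * (z : G)⁻¹ * g⁻¹ * ((g * (z : G) * g⁻¹) * (α g * g⁻¹)) * g := by group
    _ = g * (z : G)⁻¹ * g⁻¹ * (z : G) * g := by rw [h4]
    _ = (z : G) * g * (z : G)⁻¹ := by
      have h5 : (z : G) * (α g * g⁻¹) = (α g * g⁻¹) * z := (hu g).2 _ z.2.1
      have h6 : α g * g⁻¹ = g * (z : G)⁻¹ * g⁻¹ * z := by
        calc α g * g⁻¹ = g * (z : G)⁻¹ * g⁻¹ * ((g * (z : G) * g⁻¹) * (α g * g⁻¹)) := by group
          _ = _ := by rw [h4]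
      rw [h6] at h5
      have h7 : g * (z : G)⁻¹ * g⁻¹ * (z : G) = z * (g * (z : G)⁻¹ * g⁻¹) := by
        calc g * (z : G)⁻¹ * g⁻¹ * (z : G) = (g * (z : G)⁻¹ * g⁻¹ * z * z) * (z : G)⁻¹ := by group
          _ = _ := by rw [← h5]; group
      rw [h7]; group

end Cfsg.Agent.S1941
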