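import Cfsg.Statements.S1946
import Cfsg.Agent.Transfer.Frobenius
import Cfsg.Agent.Transfer.Fusion
import Cfsg.Agent.LocEven.CoprimeOmega
import Cfsg.Agent.LocalP.Basic
import Cfsg.Agent.Fusion.Basic
-- import your own Cfsg.Agent.* helpers here

set_option autoImplicit false
open Cfsg

namespace Cfsg.Agent.S1946

/-- Let P be a Sylow p-subgroup of the finite group G. Then G has a normal p-complement if and only if P controls the fusion of its elements of order dividing p (dividing 4 when p = 2): whenever such an element a of P has a G-conjugate g a g⁻¹ in P, that conjugate is already x a x⁻¹ for some x in P. -/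
theorem result {G : Type*} [Group G] [Finite G] {p : ℕ} [Fact p.Prime] (P : Sylow p G) :
    Cfsg.HasNormalPComplement p G ↔
      ∀ a ∈ (P : Subgroup G), (a ^ p = 1 ∨ (p = 2 ∧ a ^ 4 = 1)) → ∀ g : G, g * a * g⁻¹ ∈ (P : Subgroup G) →
        ∃ x ∈ (P : Subgroup G), g * a * g⁻¹ = x * a * x⁻¹ := by
  constructor
  · intro hG a ha _ g hg
    obtain ⟨x, hx, he⟩ := Transfer.controlsFusion_self_of_hasNormalPComplement P hG a ha g hg
    exact ⟨x, hx, he.symm⟩
  intro h
  refine Transfer.hasNormalPComplement_of_coprime_centralize fun U hU hU1 r hr hro => ?_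
  suffices key : ∀ m : ℕ, ∀ U : Subgroup G, IsPGroup p U → Nat.card U ≤ m → ∀ r ∈ Subgroup.normalizer (U : Set G),
      (orderOf r).Coprime p → r ∈ Subgroup.centralizer (U : Set G) from key _ U hU le_rfl r hr hro
  clear hr hro hU1 hU U r
  intro m
  induction m with
  | zero => intro U _ hc; exact absurd hc (Nat.card_pos.ne' ∘ Nat.le_zero.mp)
  | succ m ih =>
    intro U hU hcard r hr hro
    -- move `U` into `P`
    obtain ⟨T, hT⟩ := hU.exists_le_sylow
    obtain ⟨g, hg⟩ := Fusion.exists_cj_sylow T P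
    set V := Fusion.cj g U with hVdef
    set s := g * r * g⁻¹ with hsdef
    have hVP : V ≤ (P : Subgroup G) := (Fusion.cj_mono g hT).trans hg.le
    have hVp : IsPGroup p V := Fusion.isPGroup_cj hU g
    have hs : s ∈ Subgroup.normalizer (V : Set G) := by
      rw [hVdef, ← Fusion.cj_normalizer]; exact Fusion.conj_mem_cj.mpr hr
    have hso : (orderOf s).Coprime p := by
      have e : orderOf s = orderOf r :=
        orderOf_injective (MulAut.conj g).toMonoidHom (MulAut.conj g).injective r
      rwa [e]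
    have hVc : Nat.card V ≤ m + 1 := (Fusion.card_cj g U).le.trans hcard
    suffices hV : s ∈ Subgroup.centralizer (V : Set G) by
      intro u hu
      have h1 := hV (g * u * g⁻¹) (Fusion.conj_mem_cj.mpr hu)
      simp [hsdef, mul_assoc] at h1
      rw [← mul_assoc, ← mul_assoc] at h1
      exact mul_right_cancel h1
    clear_value V s
    clear hVdef hsdef hcard hU hr hro hT
    refine LocEven.centralizes_of_fix_small hso V hVp hs ?_
    set X := {u : G | u ∈ V ∧ u ^ LocEven.smallExp p = 1} with hX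
    have hD : Subgroup.closure X ≤ V := (Subgroup.closure_le _).mpr fun u hu => hu.1
    have hXinv : ∀ u ∈ X, s * u * s⁻¹ ∈ X := fun u hu =>
      ⟨(Subgroup.mem_normalizer_iff.mp hs u).mp hu.1, by rw [conj_pow, hu.2]; simp⟩
    have hsmall : ∀ u ∈ X, (u ^ p = 1 ∨ (p = 2 ∧ u ^ 4 = 1)) := by
      intro u hu
      have h1 := hu.2
      unfold LocEven.smallExp at h1
      by_cases hp2 : p = 2
      · rw [if_pos hp2] at h1; exact Or.inr ⟨hp2, h1⟩
      · rw [if_neg hp2] at h1; exact Or.inl h1
    have hnormW : ∀ W : Subgroup G, W < V → (∀ w ∈ W, s * w * s⁻¹ ∈ W) →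
        ∀ w ∈ W, Commute s w := by
      intro W hW hinv w hw
      have hsW : s ∈ Subgroup.normalizer (W : Set G) := by
        rw [← Fusion.cj_eq_iff_mem_normalizer]
        refine Subgroup.eq_of_le_of_card_ge ?_ (Fusion.card_cj s W).ge
        rintro _ ⟨x, hx, rfl⟩
        exact hinv x hx
      have hlt : Nat.card W < Nat.card V :=
        lt_of_le_of_ne (Subgroup.card_le_of_le hW.le)
          fun e => hW.ne (Subgroup.eq_of_le_of_card_ge hW.le e.ge)
      exact ((ih W (hVp.to_le hW.le) (by omega) s hsW hso) w hw).symm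
    intro u hu hu'
    by_cases hDV : Subgroup.closure X = V
    swap
    · refine hnormW _ (lt_of_le_of_ne hD hDV) ?_ u (Subgroup.subset_closure ⟨hu, hu'⟩)
      intro w hw
      refine Subgroup.mem_comap.mp ((Subgroup.closure_le
        ((Subgroup.closure X).comap (MulAut.conj s).toMonoidHom)).mpr ?_ hw)
      exact fun v hv => Subgroup.subset_closure (hXinv v hv)
    by_cases hu1 : u = 1
    · subst hu1; simp
    have hVne : V ≠ ⊥ := fun e => hu1 (Subgroup.mem_bot.mp (e ▸ hu))
    have hnil : Group.IsNilpotent (P : Subgroup G) := P.2.isNilpotent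
    obtain ⟨N, hN⟩ := (Subgroup.isNilpotent_iff_lowerCentralSeries (S := (P : Subgroup G))).mp hnil
    -- the last term of the lower central series containing `V`
    obtain ⟨n, hn1, hn2⟩ : ∃ n, V ≤ (P : Subgroup G).lowerCentralSeries n ∧
        ¬ V ≤ (P : Subgroup G).lowerCentralSeries (n + 1) := by
      by_contra hcon
      push Not at hcon
      have hall : ∀ n, V ≤ (P : Subgroup G).lowerCentralSeries n := by
        intro n
        induction n with
        | zero => exact hVP
        | succ n ihn => exact hcon n ihn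
      exact hVne (le_bot_iff.mp (hN ▸ hall N))
    set L := (P : Subgroup G).lowerCentralSeries (n + 1) with hL
    have hPL : (P : Subgroup G) ≤ Subgroup.normalizer (L : Set G) :=
      Subgroup.self_le_normalizer_lowerCentralSeries _ _
    have hgen : ∀ w ∈ X, s * w * s⁻¹ * w⁻¹ ∈ L := by
      intro w hw
      obtain ⟨x, hx, hxw⟩ := h w (hVP hw.1) (hsmall w hw) s (hVP (hXinv w hw).1)
      rw [hxw, hL, Subgroup.lowerCentralSeries_succ]
      have h1 := inv_mem (Subgroup.commutator_mem_commutator (hn1 hw.1) hx)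
      simpa [commutatorElement_def, mul_assoc] using h1
    let M : Subgroup G :=
      { carrier := {w | w ∈ V ∧ s * w * s⁻¹ * w⁻¹ ∈ L}
        one_mem' := ⟨one_mem _, by simp⟩
        mul_mem' := fun {a b} ha hb => ⟨mul_mem ha.1 hb.1, by
          have h1 : s * a * s⁻¹ ∈ V := (Subgroup.mem_normalizer_iff.mp hs a).mp ha.1
          have e : s * (a * b) * s⁻¹ * (a * b)⁻¹ =
              (s * a * s⁻¹) * (s * b * s⁻¹ * b⁻¹) * (s * a * s⁻¹)⁻¹ * (s * a * s⁻¹ * a⁻¹) := by group
          rw [e]
          exact mul_mem ((Subgroup.mem_normalizer_iff.mp (hPL (hVP h1)) _).mp hb.2) ha.2⟩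
        inv_mem' := fun {a} ha => ⟨inv_mem ha.1, by
          have h1 : s * a * s⁻¹ ∈ V := (Subgroup.mem_normalizer_iff.mp hs a).mp ha.1
          have e : s * a⁻¹ * s⁻¹ * a⁻¹⁻¹ =
              (s * a * s⁻¹)⁻¹ * (s * a * s⁻¹ * a⁻¹)⁻¹ * (s * a * s⁻¹)⁻¹⁻¹ := by group
          rw [e]
          exact (Subgroup.mem_normalizer_iff.mp (hPL (hVP (inv_mem h1))) _).mp (inv_mem ha.2)⟩ }
    have hVM : ∀ v ∈ V, s * v * s⁻¹ * v⁻¹ ∈ L := by
      intro v hv
      exact (((Subgroup.closure_le M).mpr fun w hw => ⟨hw.1, hgen w hw⟩) (hDV.symm ▸ hv)).2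
    set W := V ⊓ L with hW
    have hWlt : W < V := lt_of_le_of_ne inf_le_left fun e => hn2 (e ▸ inf_le_right)
    have hWinv : ∀ w ∈ W, s * w * s⁻¹ ∈ W := by
      intro w hw
      refine ⟨(Subgroup.mem_normalizer_iff.mp hs w).mp hw.1, ?_⟩
      have := mul_mem (hVM w hw.1) hw.2
      simpa using this
    have hc : s * u * s⁻¹ * u⁻¹ ∈ W :=
      ⟨V.mul_mem ((Subgroup.mem_normalizer_iff.mp hs u).mp hu) (V.inv_mem hu), hVM u hu⟩
    refine LocalP.commute_of_step (hnormW W hWlt hWinv _ hc) ?_
    obtain ⟨k, hk⟩ := hVp ⟨_, hc.1⟩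
    have hk' : (s * u * s⁻¹ * u⁻¹) ^ p ^ k = 1 := congrArg Subtype.val hk
    exact (hso.pow_right k).coprime_dvd_right (orderOf_dvd_of_pow_eq_one hk')

end Cfsg.Agent.S1946
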