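import Cfsg.Statements.S1947
import Cfsg.Agent.Transfer.Frobenius
import Cfsg.Agent.LocEven.CoprimeOmega
import Cfsg.Agent.LocalP.Basic
-- import your own Cfsg.Agent.* helpers here

set_option autoImplicit false
open Cfsg

namespace Cfsg.Agent.S1947

/-- Let G be a finite group and p a prime. If every element of G of order dividing p (dividing 4 when p = 2) lies in some fixed term Z_n(G) of the upper central series, then G has a normal p-complement. -/
theorem result {G : Type*} [Group G] [Finite G] {p : ℕ} [Fact p.Prime] (n : ℕ)
    (h : ∀ a : G, (a ^ p = 1 ∨ (p = 2 ∧ a ^ 4 = 1)) → a ∈ Subgroup.upperCentralSeries G n) : Cfsg.HasNormalPComplement p G := by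
  refine Transfer.hasNormalPComplement_of_coprime_centralize fun U hU _ r hr hro => ?_
  refine LocEven.centralizes_of_fix_small hro U hU hr fun u hu husmall => ?_
  have key : ∀ i, ∀ v ∈ U, v ∈ Subgroup.upperCentralSeries G i → Commute r v := by
    intro i
    induction i with
    | zero =>
      intro v _ hv
      rw [Subgroup.upperCentralSeries_zero, Subgroup.mem_bot] at hv
      rw [hv]; exact Commute.one_right r
    | succ i ih =>
      intro v hv hvi
      have hc : r * v * r⁻¹ * v⁻¹ ∈ U :=
        mul_mem ((Subgroup.mem_normalizer_iff.mp hr v).mp hv) (inv_mem hv)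
      have hci : r * v * r⁻¹ * v⁻¹ ∈ Subgroup.upperCentralSeries G i := by
        have h1 := (Subgroup.mem_upperCentralSeries_succ_iff.mp hvi) r
        have h2 := inv_mem h1
        simpa [commutatorElement_def, mul_assoc] using h2
      refine LocalP.commute_of_step (ih _ hc hci) ?_
      obtain ⟨k, hk⟩ := hU ⟨_, hc⟩
      have hk' : (r * v * r⁻¹ * v⁻¹) ^ p ^ k = 1 := congrArg Subtype.val hk
      exact (hro.pow_right k).coprime_dvd_right (orderOf_dvd_of_pow_eq_one hk')
  refine key n u hu (h u ?_)
  unfold LocEven.smallExp at husmall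
  by_cases hp2 : p = 2
  · rw [if_pos hp2] at husmall; exact Or.inr ⟨hp2, husmall⟩
  · rw [if_neg hp2] at husmall; exact Or.inl husmall

end Cfsg.Agent.S1947
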