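import Cfsg.Statements.S1948
import Cfsg.Agent.Tech.Basic
import Cfsg.Agent.CharTwo.Constrained
-- import your own Cfsg.Agent.* helpers here

set_option autoImplicit false
open Cfsg

namespace Cfsg.Agent.S1948

/-- Let S be a Sylow p-subgroup of the finite group G. Then G = N_G(S)·O_{p'}(G) if and only if G is p-constrained and N_G(S) controls fusion in S, in the sense that whenever a subgroup Q of S has a conjugate g Q g⁻¹ inside S, the element g is a product n c with n normalizing S and c centralizing Q. -/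
theorem result {G : Type*} [Group G] [Finite G] {p : ℕ} [Fact p.Prime] (S : Sylow p G) :
    Subgroup.normalizer ((S : Subgroup G) : Set G) ⊔ Cfsg.pPrimeCore p G = ⊤ ↔
      (Cfsg.IsPConstrained p G ∧
        ∀ Q : Subgroup G, Q ≤ (S : Subgroup G) → ∀ g : G, Q.map (MulAut.conj g).toMonoidHom ≤ (S : Subgroup G) →
          ∃ n ∈ Subgroup.normalizer ((S : Subgroup G) : Set G), ∃ c ∈ Subgroup.centralizer (Q : Set G), g = n * c) := by
  haveI hDn : (Cfsg.pPrimeCore p G).Normal := inferInstance
  haveI := PSolv.pPrimePCore_normal p G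
  set D := Cfsg.pPrimeCore p G with hD
  set N := Subgroup.normalizer ((S : Subgroup G) : Set G) with hN
  set π := QuotientGroup.mk' D with hπ
  have hπsurj : Function.Surjective π := QuotientGroup.mk'_surjective D
  constructor
  · intro htop
    have hNimg : N.map π = ⊤ := by
      have h1 := congrArg (Subgroup.map π) htop
      rw [Subgroup.map_sup, Subgroup.map_top_of_surjective π hπsurj, QuotientGroup.map_mk'_self,
        sup_bot_eq] at h1
      exact h1
    set S' := S.mapSurjective hπsurj with hS'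
    have hS'n : (S' : Subgroup (G ⧸ D)).Normal := by
      rw [← Subgroup.normalizer_eq_top_iff, eq_top_iff, ← hNimg]
      rintro _ ⟨n, hn, rfl⟩
      rw [← Fusion.cj_eq_iff_mem_normalizer]
      show Fusion.cj (π n) ((S : Subgroup G).map π) = (S : Subgroup G).map π
      conv_rhs => rw [← Fusion.cj_eq_of_mem hn]
      ext y
      simp only [Fusion.cj, Subgroup.mem_map]
      constructor
      · rintro ⟨_, ⟨x, hx, rfl⟩, rfl⟩; exact ⟨_, ⟨x, hx, rfl⟩, by simp⟩
      · rintro ⟨_, ⟨x, hx, rfl⟩, rfl⟩; exact ⟨_, ⟨x, hx, rfl⟩, by simp⟩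
    refine ⟨?_, ?_⟩
    · refine (CharTwo.isPConstrained_iff (G := G)).mpr ?_
      have hP' : Cfsg.pCore p (G ⧸ D) = S' :=
        le_antisymm (Cores.pCore_le_sylow S') (Cores.le_pCore hS'n S'.2)
      show Subgroup.centralizer (Cfsg.pCore p (G ⧸ D) : Set (G ⧸ D)) ≤ Cfsg.pCore p (G ⧸ D)
      rw [hP']
      set C := Subgroup.centralizer ((S' : Subgroup (G ⧸ D)) : Set (G ⧸ D)) with hC
      haveI : C.Normal := Subgroup.normal_centralizer
      set Z := (S' : Subgroup (G ⧸ D)).subgroupOf C with hZ
      have hZc : Z ≤ Subgroup.center C := fun z hz =>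
        Subgroup.mem_center_iff.mpr fun c => Subtype.ext (c.2 (z : G ⧸ D) hz).symm
      have hi : Z.index.Coprime p := by
        rw [Cores.coprime_iff_not_dvd_prime Fact.out]
        intro hd
        exact S'.not_dvd_index (hd.trans (Subgroup.relIndex_dvd_index_of_normal _ _))
      have hO : Cfsg.pPrimeCore p C = ⊥ := by
        have h1 := Cores.map_subtype_pPrimeCore_le (p := p) (N := C)
        rw [Cores.pPrimeCore_quotient_pPrimeCore_eq_bot, le_bot_iff,
          Subgroup.map_eq_bot_iff_of_injective _ C.subtype_injective] at h1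
        exact h1
      have hZtop := PSolv.eq_top_of_central_coprime_index Z hZc S'.2.comap_subtype hi hO
      exact Subgroup.subgroupOf_eq_top.mp hZtop
    · intro Q hQ g hg
      have hgm : g ∈ N ⊔ D := by rw [htop]; exact Subgroup.mem_top g
      rw [Subgroup.mem_sup_of_normal_right] at hgm
      obtain ⟨n, hn, d, hd, rfl⟩ := hgm
      refine ⟨n, hn, d, fun x hx => ?_, rfl⟩
      have h1 : n * (d * x * d⁻¹) * n⁻¹ ∈ (S : Subgroup G) := by
        have := hg (Fusion.conj_mem_cj.mpr hx)
        simpa [mul_assoc] using this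
      have h2 : d * x * d⁻¹ ∈ (S : Subgroup G) := (Subgroup.mem_normalizer_iff.mp hn _).mpr h1
      have h3 : d * x * d⁻¹ * x⁻¹ ∈ D := by
        have e : d * x * d⁻¹ * x⁻¹ = d * (x * d⁻¹ * x⁻¹) := by group
        rw [e]; exact mul_mem hd (hDn.conj_mem _ (inv_mem hd) x)
      have h4 := Tech.eq_one_of_mem_pPrimeCore_of_isPGroup S.2 (mul_mem h2 (inv_mem (hQ hx))) h3
      exact (mul_inv_eq_iff_eq_mul.mp (mul_inv_eq_one.mp h4)).symm
  · rintro ⟨hcon, hfus⟩
    set O := Cfsg.pPrimePCore p G with hO
    set H := (S : Subgroup G) ⊓ O with hH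
    rw [eq_top_iff, ← Tech.pPrimeCore_sup_normalizer S]
    refine sup_le le_sup_right fun g hg => ?_
    obtain ⟨n, hn, c, hc, rfl⟩ := hfus H inf_le_left g
      (by rw [show H.map (MulAut.conj g).toMonoidHom = H from Fusion.cj_eq_of_mem hg]; exact inf_le_left)
    obtain ⟨Q, hQ⟩ := Tech.exists_sylow_of_inf_normal S O
    have hcO : c ∈ O := hcon Q (by rw [hQ]; exact hc)
    refine mul_mem (Subgroup.mem_sup_left hn) ?_
    rw [hO, ← Tech.sup_inf_pPrimePCore S] at hcO
    exact (sup_le le_sup_right ((inf_le_left.trans Subgroup.le_normalizer).trans le_sup_left)) hcO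

end Cfsg.Agent.S1948
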