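import Cfsg.Statements.S1951
import Cfsg.Agent.CycPairs.Elementary

set_option autoImplicit false
open Cfsg

namespace Cfsg.Agent.S1951

/-- Let p be a prime and P a nontrivial elementary abelian Sylow p-subgroup of a finite nonabelian simple group G whose nonidentity elements are all conjugate in G. Suppose that two elements of P are conjugate in G only if they are conjugate in N_G(P), that the centralizer of every element of order p of P has a normal p-complement, and that every two elements of order p of G generate a p-solvable subgroup. Then p = 2. -/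
theorem result {G : Type*} [Group G] [Finite G] [IsSimpleGroup G] (hG : ¬ IsMulCommutative G) {p : ℕ} [Fact p.Prime] (P : Sylow p G)
    (hP1 : (P : Subgroup G) ≠ ⊥) (hPe : Cfsg.IsElementaryAbelian p (P : Subgroup G))
    (hconj : ∀ x ∈ (P : Subgroup G), ∀ y ∈ (P : Subgroup G), x ≠ 1 → y ≠ 1 → ∃ g : G, g * x * g⁻¹ = y)
    (ha : ∀ x ∈ (P : Subgroup G), ∀ y ∈ (P : Subgroup G), (∃ g : G, g * x * g⁻¹ = y) →
      ∃ n ∈ Subgroup.normalizer ((P : Subgroup G) : Set G), n * x * n⁻¹ = y)
    (hb : ∀ x ∈ (P : Subgroup G), orderOf x = p → Cfsg.HasNormalPComplement p ↥(Subgroup.centralizer ({x} : Set G)))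
    (hc : ∀ x y : G, orderOf x = p → orderOf y = p → Cfsg.IsPSolvable p ↥(Subgroup.closure ({x, y} : Set G))) :
    p = 2 := by
  haveI : Fintype G := Fintype.ofFinite G
  exact Cfsg.Agent.CycPairs.eq_two_of_elementary P hP1 hPe hconj hb hc

end Cfsg.Agent.S1951
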