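import Cfsg.Statements.S1952
import Cfsg.Agent.Tech.WreathQuotient
-- import your own Cfsg.Agent.* helpers here

set_option autoImplicit false
open Cfsg

namespace Cfsg.Agent.S1952

/-- Let P be a finite p-group with a normal elementary abelian subgroup A of index p, and let x ∈ A and y ∈ P with y outside A. If the product of the p conjugates y^(-i) x y^i (i = 0, …, p−1) is not the identity, then the wreath product Z_p ≀ Z_p, realised as a Sylow p-subgroup of the symmetric group of degree p², is a homomorphic image of P. -/
theorem result {P : Type*} [Group P] [Finite P] {p : ℕ} [Fact p.Prime] (hP : IsPGroup p P) (A : Subgroup P) [A.Normal]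
    (hA : Cfsg.IsElementaryAbelian p A) (hidx : A.index = p) (x y : P) (hx : x ∈ A) (hy : y ∉ A)
    (hprod : ((List.range p).map (fun i => (y ^ i)⁻¹ * x * y ^ i)).prod ≠ 1) :
    ∃ (Q : Sylow p (Equiv.Perm (Fin (p ^ 2)))) (f : P →* ↥(Q : Subgroup (Equiv.Perm (Fin (p ^ 2))))), Function.Surjective f := by
  exact Tech.wreath_quotient hP A hA hidx x y hx hprod

end Cfsg.Agent.S1952
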