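import Cfsg.Statements.S1953
import Cfsg.Agent.Tech.CentricRadical

set_option autoImplicit false
open Cfsg

namespace Cfsg.Agent.S1953

/-- Let p be an odd prime and P a Sylow p-subgroup of the finite group G, and suppose that for no p-subgroup Q of G does N_G(Q)/C_G(Q) have a section isomorphic to SL₂(p). Call a subgroup Q of P centric-radical when Z(Q) is a Sylow p-subgroup of C_G(Q) and the only normal subgroup X of N_G(Q) containing Q·C_G(Q) such that the index of Q·C_G(Q) in X is a power of p is Q·C_G(Q) itself (that is, N_G(Q)/Q·C_G(Q) has no nontrivial normal p-subgroup). Then there is a centric-radical subgroup Q of P contained in every centric-radical subgroup of P; it is normal in P, and N_G(Q) controls strong fusion in P: whenever a subgroup A of P has g A g⁻¹ ≤ P, the element g is a product h c with h in N_G(Q) and c centralizing A. -/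
theorem result {G : Type*} [Group G] [Finite G] {p : ℕ} [Fact p.Prime] (hp : p ≠ 2) (P : Sylow p G)
    (hfree : ∀ Q : Subgroup G, IsPGroup p ↥Q → ¬ ∃ (H K : Subgroup G) (_ : (K.subgroupOf H).Normal),
      Subgroup.centralizer (Q : Set G) ≤ K ∧ K ≤ H ∧ H ≤ Subgroup.normalizer (Q : Set G) ∧
      Nonempty ((↥H ⧸ K.subgroupOf H) ≃* Matrix.SpecialLinearGroup (Fin 2) (ZMod p)))
    (cr : Subgroup G → Prop)
    (hcr : ∀ Q : Subgroup G, cr Q ↔ (Q ≤ (P : Subgroup G) ∧
      (∃ R : Sylow p ↥(Subgroup.centralizer (Q : Set G)),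
        (R : Subgroup ↥(Subgroup.centralizer (Q : Set G))).map (Subgroup.centralizer (Q : Set G)).subtype = Q ⊓ Subgroup.centralizer (Q : Set G)) ∧
      ∀ X : Subgroup G, X ≤ Subgroup.normalizer (Q : Set G) →
        (∀ n ∈ Subgroup.normalizer (Q : Set G), X.map (MulAut.conj n).toMonoidHom = X) →
        Q ⊔ Subgroup.centralizer (Q : Set G) ≤ X → (∃ k : ℕ, (Q ⊔ Subgroup.centralizer (Q : Set G)).relIndex X = p ^ k) →
        X = Q ⊔ Subgroup.centralizer (Q : Set G))) :
    ∃ Q : Subgroup G, cr Q ∧ (∀ R : Subgroup G, cr R → Q ≤ R) ∧ (∀ x ∈ (P : Subgroup G), Q.map (MulAut.conj x).toMonoidHom = Q) ∧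
      ∀ A : Subgroup G, A ≤ (P : Subgroup G) → ∀ g : G, A.map (MulAut.conj g).toMonoidHom ≤ (P : Subgroup G) →
        ∃ h ∈ Subgroup.normalizer (Q : Set G), ∃ c ∈ Subgroup.centralizer (A : Set G), g = h * c := by
  have hnq := Tech.QdFree.not_involves_qd hfree
  set K := Cfsg.inducedFunctor Cfsg.kInfLower (P : Subgroup G) with hKdef
  have hfus := Cfsg.Agent.CF.fusIn_kInf (p := p) (G := G) (Or.inl rfl)
    (fun A R _ => Tech.QdFree.isNormalizerPStable_sections hp hnq A R) G
    (Cfsg.Agent.CF.IsSec.refl G) P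
  refine Tech.CentricRadical.exists_least (K := K) (Subgroup.map_subtype_le _) ?_ ?_ ?_ cr hcr
  · haveI : (Cfsg.kInfLower ↥(P : Subgroup G)).Characteristic :=
      Subgroup.characteristic_iff_map_eq.2 fun φ => Cfsg.Agent.CF.map_kInfLower_equiv φ
    refine fun x hx => ?_
    exact Subgroup.le_normalizer_map (P : Subgroup G).subtype
      ⟨⟨x, hx⟩, by rw [Subgroup.normalizer_eq_top]; trivial, rfl⟩
  · intro A hA g hg
    obtain ⟨x, hx, he⟩ := Cfsg.Agent.CF.agree_of_fusIn_singleton hfus hA (Subgroup.mem_top g) hg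
    exact ⟨x, hx.2, he⟩
  · intro x hx
    refine ⟨⟨x, hx.1⟩, Cfsg.Agent.CF.centralizer_le_kInfLower P.2 ?_, rfl⟩
    exact Subgroup.mem_centralizer_iff.2 fun k hk =>
      Subtype.ext (Subgroup.mem_centralizer_iff.1 hx.2 _ ⟨k, hk, rfl⟩)

end Cfsg.Agent.S1953
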