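import Cfsg.Statements.S1956
-- import your own Cfsg.Agent.* helpers here

set_option autoImplicit false
open Cfsg

namespace Cfsg.Agent.S1956

/-- Let P be a Sylow p-subgroup of the finite group G such that every element of P of order dividing p (dividing 4 when p = 2) is central in P. Then the fusion of these elements is controlled by N_G(P): if such an element a of P has g a g⁻¹ in P, then g = n c with n normalizing P and c commuting with a. -/
theorem result {G : Type*} [Group G] [Finite G] {p : ℕ} [Fact p.Prime] (P : Sylow p G)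
    (hcen : ∀ a ∈ (P : Subgroup G), (a ^ p = 1 ∨ (p = 2 ∧ a ^ 4 = 1)) → ∀ y ∈ (P : Subgroup G), a * y = y * a) :
    ∀ a ∈ (P : Subgroup G), (a ^ p = 1 ∨ (p = 2 ∧ a ^ 4 = 1)) → ∀ g : G, g * a * g⁻¹ ∈ (P : Subgroup G) →
      ∃ n ∈ Subgroup.normalizer ((P : Subgroup G) : Set G), ∃ c : G, c * a = a * c ∧ g = n * c := by
  intro a ha hsmall g hb
  set b := g * a * g⁻¹ with hbdef
  have hbsmall : b ^ p = 1 ∨ (p = 2 ∧ b ^ 4 = 1) := by
    rcases hsmall with h | ⟨h, h'⟩
    · left; rw [hbdef, conj_pow, h]; simp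
    · right; exact ⟨h, by rw [hbdef, conj_pow, h']; simp⟩
  set C := Subgroup.centralizer ({b} : Set G) with hC
  have hP1 : (P : Subgroup G) ≤ C := fun y hy =>
    Subgroup.mem_centralizer_singleton_iff.mpr (hcen b hb hbsmall y hy).symm
  have hP2 : ((g • P : Sylow p G) : Subgroup G) ≤ C := by
    rintro y ⟨z, hz, rfl⟩
    rw [hC, Subgroup.mem_centralizer_singleton_iff]
    have := hcen a ha hsmall z hz
    simp only [hbdef]
    simp [mul_assoc]
    rw [← mul_assoc z a, ← this, mul_assoc]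
  obtain ⟨c, hc⟩ := MulAction.exists_smul_eq C ((g • P).subtype hP2) (P.subtype hP1)
  have hn : ((c : G) * g) • P = P := by
    rw [mul_smul]
    have h := congrArg (fun R : Sylow p C => ((R : Subgroup C).map C.subtype)) hc
    apply Sylow.ext
    ext y
    constructor
    · rintro ⟨z, hz, rfl⟩
      have : (c * (⟨z, hP2 hz⟩ : C) * c⁻¹) ∈ ((c • (g • P).subtype hP2 : Sylow p C) : Subgroup C) :=
        ⟨⟨z, hP2 hz⟩, hz, rfl⟩
      rw [hc] at this
      exact this
    · intro hy
      have : (⟨y, hP1 hy⟩ : C) ∈ ((c • (g • P).subtype hP2 : Sylow p C) : Subgroup C) := by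
        rw [hc]; exact hy
      obtain ⟨z, hz, hzy⟩ := this
      exact ⟨(z : G), hz, congrArg Subtype.val hzy⟩
  have hnorm := Sylow.smul_eq_iff_mem_normalizer.mp hn
  refine ⟨(c : G) * g, hnorm, ((c : G) * g)⁻¹ * g, ?_, by group⟩
  have hcb : (c : G) * b = b * (c : G) := Subgroup.mem_centralizer_singleton_iff.mp c.2
  have hci : (c : G)⁻¹ * b = b * (c : G)⁻¹ := Commute.inv_left hcb
  have hga : g * a = b * g := by rw [hbdef]; simp [mul_assoc]
  calc ((c : G) * g)⁻¹ * g * a = g⁻¹ * (c : G)⁻¹ * (g * a) := by group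
    _ = g⁻¹ * ((c : G)⁻¹ * b) * g := by rw [hga]; group
    _ = g⁻¹ * (b * (c : G)⁻¹) * g := by rw [hci]
    _ = a * (((c : G) * g)⁻¹ * g) := by rw [hbdef]; group

end Cfsg.Agent.S1956
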