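import Cfsg.Statements.S2000
import Cfsg.Agent.OffThm.Functors
import Cfsg.Agent.S2761
import Cfsg.Agent.S2794

set_option autoImplicit false
universe u
open Cfsg

namespace Cfsg.Agent.S2000

/-- Let p be a prime and G a finite group. Then Qd(p) (the natural semidirect product of an elementary abelian group of order p² by SL₂(p)) is not involved in G if and only if there is a set 𝓦 of isomorphism-invariant p-group functors (each nontrivial on nontrivial finite p-groups and carried onto W(R) by every isomorphism from a finite p-group Q onto R, hence with characteristic values on finite p-groups) whose induced conjugacy functors control strong fusion in every section of G. -/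
theorem result {G : Type u} [Group G] [Finite G] {p : ℕ} [Fact p.Prime] : ¬ Cfsg.Involves ↥(Cfsg.qd p) G ↔ ∃ 𝓦 : Set (∀ (Q : Type u) [Group Q], Subgroup Q), (∀ W ∈ 𝓦, Cfsg.IsCharPFunctor.{u} p W) ∧ ∀ (K R : Subgroup G) [hR : (R.subgroupOf K).Normal], Cfsg.FamilyControlsStrongFusionIn p ((fun W => Cfsg.inducedFunctor (G := (↥K ⧸ R.subgroupOf K)) W) '' 𝓦) ⊤ := by
  constructor
  · intro h
    by_cases hp : p = 2
    · subst hp
      refine ⟨{OffThm.zFun, OffThm.jeFun}, OffThm.pair_charP, fun K R _ => ?_⟩
      refine OffThm.familyControls_section (fun h4 => h ?_) K R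
      obtain ⟨K₀, R₀, hR₀, ⟨e⟩⟩ := h4
      obtain ⟨q⟩ := S2761.result
      exact ⟨K₀, R₀, hR₀, ⟨e.trans q.symm⟩⟩
    · have h𝓦 : ∀ W ∈ ({S2794.zjFun} : Set (∀ (Q : Type u) [Group Q], Subgroup Q)),
          Cfsg.IsCharPFunctor p W := fun W hW => (Set.mem_singleton_iff.1 hW) ▸ S2794.zjFun_charP
      refine ⟨{S2794.zjFun}, h𝓦, fun K R _ => ?_⟩
      obtain ⟨T⟩ : Nonempty (Sylow p (↥K ⧸ R.subgroupOf K)) := inferInstance
      rw [← CF.Fam, CF.fam_singleton]
      refine CF.familyFusion_of_fusIn (CF.isSyl_sylow T) (CF.fusIn_of_controlsFusion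
        (CF.isConjugacyFunctor_induced S2794.zjFun_charP) T ?_)
      rw [S2794.induced_zjFun]
      exact (S2794.result hp).1 h K R T
  · rintro ⟨𝓦, h𝓦, h⟩
    exact OffThm.not_involves_qd_of_control h𝓦 fun K R => h K R

end Cfsg.Agent.S2000
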