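import Cfsg.Statements.S2001
import Cfsg.Agent.CF.CentralPair

set_option autoImplicit false
open Cfsg
open scoped commutatorElement

namespace Cfsg.Agent.S2001

/-- Let p be a prime dividing the order of the finite group G, P a Sylow p-subgroup, W a conjugacy functor for p on G with Z(H) ≤ W(H) for every nontrivial p-subgroup H, and V a central functor: a conjugacy functor with V(H) ≤ Z(H), and V(H) ≤ V(K) whenever Z(H) ≤ Z(K), for nontrivial p-subgroups H, K. Say that W with V controls transfer in a subgroup L when some Sylow p-subgroup Q of L satisfies Q ∩ L' = (Q ∩ (N_L(W(Q)))')·(Q ∩ (C_L(V(Q)))') as a product of two subgroups. If W with V controls transfer in N_G(H) for every subgroup H with Z(P) ≤ H ≤ P, then W with V controls transfer in G. -/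
theorem result {G : Type*} [Group G] [Finite G] {p : ℕ} [Fact p.Prime] (hdiv : p ∣ Nat.card G) (P : Sylow p G) (W V : Subgroup G → Subgroup G) (hW : Cfsg.IsConjugacyFunctor p W) (hV : Cfsg.IsConjugacyFunctor p V) (hWZ : ∀ H : Subgroup G, IsPGroup p ↥H → H ⊓ Subgroup.centralizer ((H : Subgroup G) : Set G) ≤ W H) (hVZ : ∀ H : Subgroup G, IsPGroup p ↥H → V H ≤ H ⊓ Subgroup.centralizer ((H : Subgroup G) : Set G)) (hVmono : ∀ H K : Subgroup G, IsPGroup p ↥H → IsPGroup p ↥K → H ≠ ⊥ → K ≠ ⊥ → H ⊓ Subgroup.centralizer ((H : Subgroup G) : Set G) ≤ K ⊓ Subgroup.centralizer ((K : Subgroup G) : Set G) → V H ≤ V K) (hloc : ∀ H : Subgroup G, (P : Subgroup G) ⊓ Subgroup.centralizer (((P : Subgroup G) : Subgroup G) : Set G) ≤ H → H ≤ (P : Subgroup G) → ∃ Q : Subgroup G, Q ≤ Subgroup.normalizer ((H : Subgroup G) : Set G) ∧ IsPGroup p ↥Q ∧ ¬ p ∣ (Q).relIndex (Subgroup.normalizer ((H : Subgroup G) : Set G)) ∧ ∀ x : G, x ∈ Q ⊓ ⁅Subgroup.normalizer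 ((H : Subgroup G) : Set G), Subgroup.normalizer ((H : Subgroup G) : Set G)⁆ ↔ ∃ a ∈ Q ⊓ ⁅Subgroup.normalizer ((H : Subgroup G) : Set G) ⊓ Subgroup.normalizer ((W Q : Subgroup G) : Set G), Subgroup.normalizer ((H : Subgroup G) : Set G) ⊓ Subgroup.normalizer ((W Q : Subgroup G) : Set G)⁆, ∃ b ∈ Q ⊓ ⁅Subgroup.normalizer ((H : Subgroup G) : Set G) ⊓ Subgroup.centralizer ((V Q : Subgroup G) : Set G), Subgroup.normalizer ((H : Subgroup G) : Set G) ⊓ Subgroup.centralizer ((V Q : Subgroup G) : Set G)⁆, x = a * b) : ∃ Q : Subgroup G, IsPGroup p ↥Q ∧ ¬ p ∣ Q.index ∧ ∀ x : G, x ∈ Q ⊓ commutator G ↔ ∃ a ∈ Q ⊓ ⁅Subgroup.normalizer ((W Q : Subgroup G) : Set G), Subgroup.normalizer ((W Q : Subgroup G) : Set G)⁆, ∃ b ∈ Q ⊓ ⁅Subgroup.centralizer ((V Q : Subgroup G) : Set G), Subgroup.centralizer ((V Q : Subgroup G) : Set G)⁆, x = a * b := by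
  have hS : (P : Subgroup G) ≠ ⊥ := P.ne_bot_of_dvd_card hdiv
  have hPs := CF.isSyl_sylow P
  set M := CF.Nz (W (P : Subgroup G)) with hM
  set C := Subgroup.centralizer (V (P : Subgroup G) : Set G) with hC
  have hPM : (P : Subgroup G) ≤ M := (CF.sylow_le_pairW hW hPs).trans inf_le_right
  have hPC : (P : Subgroup G) ≤ C := (CF.sylow_le_pairV hVZ hPs).trans inf_le_right
  set A := (P : Subgroup G) ⊓ ⁅M, M⁆ with hA
  set B := (P : Subgroup G) ⊓ ⁅C, C⁆ with hB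
  have hbase : ∀ x ∈ CF.PairStep W V ⊤ (P : Subgroup G), ∀ D : Subgroup G,
      D ≤ (P : Subgroup G) → Fusion.cj x D ≤ (P : Subgroup G) →
      CF.TrΦ (P : Subgroup G) (A ⊔ B) D x := by
    intro x hx D hD hxD
    refine ⟨hD, hxD, fun d hd => ?_⟩
    have h1 : d⁻¹ * (x * d * x⁻¹) ∈ (P : Subgroup G) :=
      mul_mem (inv_mem (hD hd)) (hxD (Fusion.conj_mem_cj.mpr hd))
    have h2 : d⁻¹ * (x * d * x⁻¹) = ⁅d⁻¹, x⁆ := by rw [commutatorElement_def]; group
    rcases hx with hx | hx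
    · exact Subgroup.mem_sup_left ⟨h1, h2 ▸
        Subgroup.commutator_mem_commutator (hPM (inv_mem (hD hd))) hx.2⟩
    · exact Subgroup.mem_sup_right ⟨h1, h2 ▸
        Subgroup.commutator_mem_commutator (hPC (inv_mem (hD hd))) hx.2⟩
  have hfocal : (P : Subgroup G) ⊓ ⁅(⊤ : Subgroup G), ⊤⁆ ≤ A ⊔ B := by
    refine CF.inf_commutator_le_of_focal hPs fun x _ d hd hxd => ?_
    refine (CF.decomp_of_central_pair (S := P) hS (CF.isDecomp_trΦ _ _) hW hWZ hVmono hbase ?_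
      (Subgroup.zpowers_le.mpr hd) (CF.cj_zpowers_le hxd)).2.2 d (Subgroup.mem_zpowers d)
    intro H hZH hHP hext hsteps n hn D hD hnD
    refine ⟨hD.trans inf_le_left, hnD.trans inf_le_left, fun d hd => ?_⟩
    obtain ⟨Q, hQle, hQp, hQidx, hQ⟩ := hloc H hZH hHP
    have hQs : CF.IsSyl p Q (CF.Nz H) := ⟨hQle, hQp, hQidx⟩
    obtain ⟨y, hy, hyQ⟩ := hQs.exists_conj hext
    set z := d⁻¹ * (n * d * n⁻¹) with hz
    have hzP : z ∈ (P : Subgroup G) ⊓ CF.Nz H :=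
      mul_mem (inv_mem (hD hd)) (hnD (Fusion.conj_mem_cj.mpr hd))
    have hzN : z ∈ ⁅CF.Nz H, CF.Nz H⁆ := by
      have := Subgroup.commutator_mem_commutator ((CF.Nz H).inv_mem (hD hd).2) hn
      convert this using 1
      rw [hz, commutatorElement_def]; group
    have hz' : y⁻¹ * z * y ∈ Q ⊓ ⁅CF.Nz H, CF.Nz H⁆ := by
      constructor
      · rw [← hyQ, Fusion.mem_cj] at hzP
        exact hzP
      · have h1 := (Fusion.cj_eq_of_mem (g := y⁻¹) (Subgroup.le_normalizer_iff_commutator_le_right.mpr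
          (Subgroup.commutator_mono le_rfl (Subgroup.commutator_le_self (CF.Nz H)))
          (inv_mem hy))).le (Fusion.conj_mem_cj.mpr hzN)
        rwa [inv_inv] at h1
    obtain ⟨a, ha, b, hb, hab⟩ := (hQ _).mp hz'
    set R := (P : Subgroup G) ⊓ CF.Nz H with hR
    have key : ∀ K : Subgroup G, R ≤ K → K ≤ CF.Nz H →
        (∀ x ∈ K, x ∈ CF.PairStep W V (CF.Nz H) R) → R ⊓ ⁅K, K⁆ ≤ A ⊔ B := by
      intro K hRK hKN hK
      refine CF.inf_commutator_le_of_focal (hext.of_le hRK hKN) fun x hx e he hxe => ?_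
      exact (hsteps x (hK x hx) (Subgroup.zpowers e) (Subgroup.zpowers_le.mpr he)
        (CF.cj_zpowers_le hxe)).2.2 e (Subgroup.mem_zpowers e)
    have tr : ∀ K : Subgroup G, ∀ u ∈ Q ⊓ ⁅K, K⁆,
        y * u * y⁻¹ ∈ R ⊓ ⁅Fusion.cj y K, Fusion.cj y K⁆ := by
      intro K u hu
      refine ⟨hyQ.le (Fusion.conj_mem_cj.mpr hu.1), ?_⟩
      rw [show ⁅Fusion.cj y K, Fusion.cj y K⁆ = Fusion.cj y ⁅K, K⁆ from
        (Subgroup.map_commutator _ _ _).symm]
      exact Fusion.conj_mem_cj.mpr hu.2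
    have hKW : Fusion.cj y (CF.Nz H ⊓ CF.Nz (W Q)) = CF.Nz H ⊓ CF.Nz (W R) := by
      rw [Fusion.cj_inf, Fusion.cj_eq_self_of_mem hy, CF.cj_Nz, ← CF.W_cj hW hQp, hyQ]
    have hKV : Fusion.cj y (CF.Nz H ⊓ Subgroup.centralizer (V Q : Set G)) =
        CF.Nz H ⊓ Subgroup.centralizer (V R : Set G) := by
      rw [Fusion.cj_inf, Fusion.cj_eq_self_of_mem hy, CF.cj_centralizer, ← CF.W_cj hV hQp, hyQ]
    have ha' := tr _ a ha
    rw [hKW] at ha'
    have hb' := tr _ b hb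
    rw [hKV] at hb'
    have := mul_mem (key _ (CF.sylow_le_pairW hW hext) inf_le_left (fun x hx => Or.inl hx) ha')
      (key _ (CF.sylow_le_pairV hVZ hext) inf_le_left (fun x hx => Or.inr hx) hb')
    rwa [show y * a * y⁻¹ * (y * b * y⁻¹) = y * (a * b) * y⁻¹ by group, ← hab,
      show y * (y⁻¹ * z * y) * y⁻¹ = z by group] at this
  have hBN : B ≤ CF.Nz A := by
    intro x hx
    rw [CF.mem_Nz, hA, Fusion.cj_inf, Fusion.cj_eq_self_of_mem hx.1]
    congr 1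
    exact Fusion.cj_eq_of_mem (Subgroup.le_normalizer_iff_commutator_le_right.mpr
      (Subgroup.commutator_mono le_rfl (Subgroup.commutator_le_self M)) (hPM hx.1))
  refine ⟨P, P.2, P.not_dvd_index, fun x => ⟨fun hx => ?_, ?_⟩⟩
  · have h1 : x ∈ (↑(A ⊔ B) : Set G) := hfocal (by rwa [← commutator_def])
    rw [Subgroup.coe_mul_of_right_le_normalizer_left _ _ hBN] at h1
    obtain ⟨a, ha, b, hb, rfl⟩ := Set.mem_mul.mp h1
    exact ⟨a, ha, b, hb, rfl⟩
  · rintro ⟨a, ha, b, hb, rfl⟩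
    have hle : ∀ K : Subgroup G, ⁅K, K⁆ ≤ commutator G := fun K =>
      (Subgroup.commutator_mono le_top le_top).trans (commutator_def G).ge
    exact ⟨mul_mem ha.1 hb.1, mul_mem (hle _ ha.2) (hle _ hb.2)⟩

end Cfsg.Agent.S2001
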