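import Cfsg.Statements.S2002
import Cfsg.Agent.CF.CentralPair

set_option autoImplicit false
open Cfsg

namespace Cfsg.Agent.S2002

/-- Let p be a prime dividing the order of the finite group G, P a Sylow p-subgroup, W a conjugacy functor for p on G with Z(H) ≤ W(H) for every nontrivial p-subgroup H, and V a central functor (a conjugacy functor with V(H) ≤ Z(H), and V(H) ≤ V(K) whenever Z(H) ≤ Z(K)). Say that W with V controls strong fusion in a subgroup L when some Sylow p-subgroup Q of L has the property: whenever X ⊆ Q and a ∈ L with a⁻¹Xa ⊆ Q, then a = c b with c ∈ C_L(X) and b = b₁ ⋯ bₙ a product of elements each in N_L(W(Q)) or in C_L(V(Q)) such that every partial conjugate (b₁ ⋯ bₖ)⁻¹ X (b₁ ⋯ bₖ) lies in Q. If W with V controls strong fusion in N_G(H) for every subgroup H with Z(P) ≤ H ≤ P, then W with V controls strong fusion in G. -/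
theorem result {G : Type*} [Group G] [Finite G] {p : ℕ} [Fact p.Prime] (hdiv : p ∣ Nat.card G) (P : Sylow p G) (W V : Subgroup G → Subgroup G) (hW : Cfsg.IsConjugacyFunctor p W) (hV : Cfsg.IsConjugacyFunctor p V) (hWZ : ∀ H : Subgroup G, IsPGroup p ↥H → H ⊓ Subgroup.centralizer ((H : Subgroup G) : Set G) ≤ W H) (hVZ : ∀ H : Subgroup G, IsPGroup p ↥H → V H ≤ H ⊓ Subgroup.centralizer ((H : Subgroup G) : Set G)) (hVmono : ∀ H K : Subgroup G, IsPGroup p ↥H → IsPGroup p ↥K → H ≠ ⊥ → K ≠ ⊥ → H ⊓ Subgroup.centralizer ((H : Subgroup G) : Set G) ≤ K ⊓ Subgroup.centralizer ((K : Subgroup G) : Set G) → V H ≤ V K) (hloc : ∀ H : Subgroup G, (P : Subgroup G) ⊓ Subgroup.centralizer (((P : Subgroup G) : Subgroup G) : Set G) ≤ H → H ≤ (P : Subgroup G) → ∃ Q : Subgroup G, Q ≤ Subgroup.normalizer ((H : Subgroup G) : Set G) ∧ IsPGroup p ↥Q ∧ ¬ p ∣ (Q).relIndex (Subgroup.normalizer ((H : Subgroup G) : Set G)) ∧ ∀ (X : Set G) (a : G), X ⊆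 Q → a ∈ Subgroup.normalizer ((H : Subgroup G) : Set G) → (fun x => a⁻¹ * x * a) '' X ⊆ Q → ∃ c ∈ Subgroup.normalizer ((H : Subgroup G) : Set G) ⊓ Subgroup.centralizer X, ∃ (n : ℕ) (b : Fin n → G), (∀ i, b i ∈ Subgroup.normalizer ((H : Subgroup G) : Set G) ⊓ Subgroup.normalizer ((W Q : Subgroup G) : Set G) ∨ b i ∈ Subgroup.normalizer ((H : Subgroup G) : Set G) ⊓ Subgroup.centralizer ((V Q : Subgroup G) : Set G)) ∧ a = c * (List.ofFn b).prod ∧ ∀ k : ℕ, k ≤ n → (fun x => (((List.ofFn b).take k).prod)⁻¹ * x * ((List.ofFn b).take k).prod) '' ((fun x => c⁻¹ * x * c) '' X) ⊆ Q) : ∃ Q : Subgroup G, IsPGroup p ↥Q ∧ ¬ p ∣ Q.index ∧ ∀ (X : Set G) (a : G), X ⊆ Q → (fun x => a⁻¹ * x * a) '' X ⊆ Q → ∃ c ∈ Subgroup.centralizer X, ∃ (n : ℕ) (b : Fin n → G), (∀ i, b i ∈ ⊤ ⊓ Subgroup.normalizer ((W Q : Subgroup G) : Set G) ∨ b i ∈ ⊤ ⊓ Subgroup.centralizer ((V Q : Subgroup G) : Set G)) ∧ a = c * (List.ofFn b).prod ∧ ∀ k : ℕ, k ≤ n → (fun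 x => (((List.ofFn b).take k).prod)⁻¹ * x * ((List.ofFn b).take k).prod) '' ((fun x => c⁻¹ * x * c) '' X) ⊆ Q := by
  have hS : (P : Subgroup G) ≠ ⊥ := P.ne_bot_of_dvd_card hdiv
  refine ⟨P, P.2, P.not_dvd_index, fun X a hX hXa => ?_⟩
  have hXP : Subgroup.closure X ≤ (P : Subgroup G) := (Subgroup.closure_le _).mpr hX
  have hXaP := CF.cj_inv_closure_le hXa
  have hreach : CF.Reach (CF.PairStep W V ⊤ (P : Subgroup G)) (P : Subgroup G)
      (Subgroup.closure X) a⁻¹ := by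
    refine CF.decomp_of_central_pair (S := P) hS
      (CF.isDecomp_reach _ _ CF.pairStep_inv) hW hWZ hVmono
      (fun x hx D hD hxD => CF.Reach.single hx hD hxD) ?_ hXP hXaP
    intro H hZH hHP hext hsteps n hn D hD hnD
    obtain ⟨Q, hQle, hQp, hQidx, hQ⟩ := hloc H hZH hHP
    have hQs : CF.IsSyl p Q (CF.Nz H) := ⟨hQle, hQp, hQidx⟩
    -- the hypothesis for `Q`, in working form
    have hQfus : ∀ D : Subgroup G, D ≤ Q → ∀ g ∈ CF.Nz H, Fusion.cj g D ≤ Q →
        CF.Reach (CF.PairStep W V (CF.Nz H) Q) Q D g := by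
      intro D hD g hg hgD
      obtain ⟨c, hc, m, b, hb, hab, hpart⟩ := hQ (D : Set G) g⁻¹ hD (inv_mem hg) (by
        rintro _ ⟨d, hd, rfl⟩
        simpa using hgD (Fusion.conj_mem_cj.mpr hd))
      have hcd : ∀ d ∈ D, c⁻¹ * d * c = d := by
        intro d hd
        rw [mul_assoc, Subgroup.mem_centralizer_iff.mp hc.2 d hd, inv_mul_cancel_left]
      have h1 : CF.Reach (CF.PairStep W V (CF.Nz H) Q) Q D ((List.ofFn b).prod)⁻¹ := by
        refine CF.reach_of_list CF.pairStep_inv (List.ofFn b) D ?_ fun k hk => ?_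
        · intro x hx
          obtain ⟨i, rfl⟩ := List.mem_ofFn.mp hx
          exact hb i
        · rintro _ ⟨d, hd, rfl⟩
          refine hpart k (by simpa using hk) ⟨d, ⟨d, hd, hcd d hd⟩, ?_⟩
          simp
      refine h1.congr fun d hd => ?_
      have hg' : g = ((List.ofFn b).prod)⁻¹ * c⁻¹ := by
        rw [← inv_inv g, hab, mul_inv_rev]
      rw [hg']
      conv_lhs => rw [← hcd d hd]
      group
    obtain ⟨y, hy, hyQ⟩ := hQs.exists_conj hext
    have hy' : y⁻¹ * n * y ∈ CF.Nz H := mul_mem (mul_mem (inv_mem hy) hn) hy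
    have h2 := (hQfus (Fusion.cj y⁻¹ D) (by rw [Fusion.cj_le_iff, inv_inv, hyQ]; exact hD) _ hy'
      (by
        rw [Fusion.cj_cj, mul_inv_cancel_right, ← Fusion.cj_cj, Fusion.cj_le_iff, inv_inv, hyQ]
        exact hnD)).map (MulAut.conj y).toMonoidHom (CF.pairStep_conj hW hV hQp hy)
    change CF.Reach _ (Fusion.cj y Q) (Fusion.cj y (Fusion.cj y⁻¹ D)) _ at h2
    rw [hyQ, Fusion.cj_cj_inv] at h2
    have h3 : CF.Reach (CF.PairStep W V (CF.Nz H) ((P : Subgroup G) ⊓ CF.Nz H))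
        ((P : Subgroup G) ⊓ CF.Nz H) D n := h2.congr fun d _ => by simp [mul_assoc]
    exact h3.to_decomp (CF.isDecomp_reach _ _ CF.pairStep_inv) inf_le_left hsteps
  obtain ⟨l, hl, he, hk⟩ := CF.exists_list_of_reach CF.pairStep_inv hreach
  refine ⟨a * (l.prod)⁻¹, ?_, l.length, l.get, ?_, ?_, ?_⟩
  · rw [Subgroup.mem_centralizer_iff]
    intro d hd
    have h1 := he d (Subgroup.subset_closure hd)
    simp only [inv_inv] at h1
    calc d * (a * (l.prod)⁻¹) = a * (a⁻¹ * d * a) * (l.prod)⁻¹ := by group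
      _ = a * ((l.prod)⁻¹ * d * l.prod) * (l.prod)⁻¹ := by rw [h1]
      _ = a * (l.prod)⁻¹ * d := by group
  · exact fun i => hl _ (List.get_mem l i)
  · rw [List.ofFn_get, inv_mul_cancel_right]
  · intro k hkl
    rw [List.ofFn_get]
    rintro _ ⟨_, ⟨d, hd, rfl⟩, rfl⟩
    have h1 := he d (Subgroup.subset_closure hd)
    simp only [inv_inv] at h1
    have h3 : (a * (l.prod)⁻¹)⁻¹ * d * (a * (l.prod)⁻¹) = d := by
      calc _ = l.prod * (a⁻¹ * d * a) * (l.prod)⁻¹ := by group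
        _ = l.prod * ((l.prod)⁻¹ * d * l.prod) * (l.prod)⁻¹ := by rw [h1]
        _ = d := by group
    have := hk k hkl (Fusion.conj_mem_cj.mpr (Subgroup.subset_closure hd))
    show ((l.take k).prod)⁻¹ * ((a * (l.prod)⁻¹)⁻¹ * d * (a * (l.prod)⁻¹)) * (l.take k).prod ∈
      (P : Subgroup G)
    rw [h3]
    simpa using this

end Cfsg.Agent.S2002
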