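import Cfsg.Statements.S2010
import Cfsg.Agent.CF.ClassTwoFactor
import Cfsg.Agent.PSolv.Factorization

set_option autoImplicit false
open Cfsg

namespace Cfsg.Agent.S2010

/-- Let G be a finite solvable group with no section isomorphic to the symmetric group of degree 4, whose Sylow 2-subgroup S has nilpotency class at most 2. Then G = N_G(J_e(S)) · O_{2'}(G), where J_e(S) is the subgroup generated by the elementary abelian subgroups of S of largest order. -/
theorem result {G : Type*} [Group G] [Finite G]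
    [Group.IsSolvable G] (hS4 : ¬ Cfsg.Involves (Equiv.Perm (Fin 4)) G) (S : Sylow 2 G)
    (hcl : Subgroup.lowerCentralSeries (S : Subgroup G) 2 = ⊥) :
    Subgroup.normalizer ((Cfsg.thompsonSubgroupOf 2 (S : Subgroup G)) : Set G) ⊔ Cfsg.pPrimeCore 2 G = ⊤ := by
  set N := Cfsg.pPrimeCore 2 G with hN
  have hco : (Nat.card N).Coprime 2 := Cores.pPrimeCore_coprime
  set π := QuotientGroup.mk' N with hπ
  have hsurj : Function.Surjective π := QuotientGroup.mk'_surjective N
  haveI : Group.IsSolvable (G ⧸ N) := Group.isSolvable_of_surjective hsurj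
  have hS4' : ¬ Cfsg.Involves (Equiv.Perm (Fin 4)) (G ⧸ N) := fun h =>
    hS4 (EvenLocal.involves_of_involves_image (A := (⊤ : Subgroup G))
      (π.comp (Subgroup.topEquiv : (⊤ : Subgroup G) ≃* G).toMonoidHom)
      (hsurj.comp (Subgroup.topEquiv : (⊤ : Subgroup G) ≃* G).surjective) h)
  have hcl' : Subgroup.lowerCentralSeries ((S.mapSurjective hsurj : Sylow 2 (G ⧸ N)) :
      Subgroup (G ⧸ N)) 2 = ⊥ := by
    show Subgroup.lowerCentralSeries ((S : Subgroup G).map π) 2 = ⊥
    rw [← Subgroup.map_lowerCentralSeries, hcl, Subgroup.map_bot]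
  have hO : Cfsg.pPrimeCore 2 (G ⧸ N) = ⊥ := Cores.pPrimeCore_quotient_pPrimeCore_eq_bot
  have htop := CF.thompson_normal_of_classTwo (S.mapSurjective hsurj) hS4' hO hcl'
  have hJ : (Cfsg.thompsonSubgroupOf 2 (S : Subgroup G)).map π =
      Cfsg.thompsonSubgroupOf 2 ((S : Subgroup G).map π) :=
    PSolv.map_thompsonSubgroupOf_of_inj π _ (by
      rw [QuotientGroup.ker_mk']; exact PSolv.sylow_inf_eq_bot hco S.2)
  rw [eq_top_iff]
  intro g _
  obtain ⟨x, hx, hxg⟩ := CF.exists_lift_normalizer hsurj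
    (by rw [QuotientGroup.ker_mk']; exact hco)
    (S.2.to_le (Modules.thompsonSubgroupOf_le 2 _)) (y := π g) (by
      rw [hJ]
      show π g ∈ CF.Nz (Cfsg.thompsonSubgroupOf 2
        ((S.mapSurjective hsurj : Sylow 2 (G ⧸ N)) : Subgroup (G ⧸ N)))
      rw [htop]; trivial)
  have hn : x⁻¹ * g ∈ N := by
    rw [← QuotientGroup.eq_one_iff]
    show π (x⁻¹ * g) = 1
    rw [map_mul, map_inv, hxg, inv_mul_cancel]
  have := Subgroup.mul_mem_sup hx hn
  rwa [mul_inv_cancel_left] at this

end Cfsg.Agent.S2010
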