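import Cfsg.Statements.S2015
import Cfsg.Agent.CF.KControl

set_option autoImplicit false
universe u
open Cfsg

namespace Cfsg.Agent.S2015

/-- For p ≥ 5, every finite p-group P has a characteristic subgroup K containing Z(P), depending only on P, whose normalizer controls transfer wherever P is a Sylow subgroup: for every finite group G and every embedding ι of P onto a Sylow p-subgroup of G, the intersection of ι(P) with the derived subgroup of G equals its intersection with the derived subgroup of N_G(ι(K)). -/
theorem result (p : ℕ) [Fact p.Prime] (hp : 5 ≤ p) (P : Type u) [Group P] [Finite P] (hP : IsPGroup p P) : ∃ K : Subgroup P, K.Characteristic ∧ Subgroup.center P ≤ K ∧ ∀ (G : Type u) [Group G] [Finite G] (ι : P →* G), Function.Injective ι → (∃ T : Sylow p G, (T : Subgroup G) = ι.range) → ι.range ⊓ commutator G = ι.range ⊓ (commutator ↥(Subgroup.normalizer ((K.map ι : Subgroup G) : Set G))).map (Subgroup.normalizer ((K.map ι : Subgroup G) : Set G)).subtype := by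
  refine ⟨Cfsg.kInfLower P,
    Subgroup.characteristic_iff_map_eq.mpr fun φ => Cfsg.Agent.CF.map_kInfLower_equiv φ,
    Cfsg.Agent.CF.center_le_kInfLower hP, ?_⟩
  intro G _ _ ι hι hT
  obtain ⟨T, hT⟩ := hT
  have hW' : Cfsg.inducedFunctor Cfsg.kInfLower (T : Subgroup G) = (Cfsg.kInfLower P).map ι := by
    rw [hT]
    show (Cfsg.kInfLower ↥ι.range).map ι.range.subtype = _
    rw [← Cfsg.Agent.CF.map_kInfLower_equiv (MonoidHom.ofInjective hι), Subgroup.map_map]
    rfl
  refine le_antisymm ?_ (inf_le_inf_left _ ?_)
  · have h := Cfsg.Agent.CF.trIn_kInf hp (Or.inl rfl) G (Cfsg.Agent.CF.IsSec.refl G) T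
    refine le_trans ?_ ((h.trans (iSup₂_le fun W hW => le_of_eq ?_)) :
      _ ≤ (T : Subgroup G) ⊓ ⁅Subgroup.normalizer (((Cfsg.kInfLower P).map ι : Subgroup G) : Set G),
        Subgroup.normalizer (((Cfsg.kInfLower P).map ι : Subgroup G) : Set G)⁆) |>.trans ?_
    · rw [hT]; exact le_of_eq rfl
    · rw [Set.mem_singleton_iff.mp hW, top_inf_eq, ← hW']
    · rw [hT, Subgroup.map_subtype_commutator]
  · rw [Subgroup.map_subtype_commutator]
    exact Subgroup.commutator_mono le_top le_top

end Cfsg.Agent.S2015
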