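import Cfsg.Statements.S2132
import Cfsg.Agent.McLInvol.Cover

set_option autoImplicit false
open Cfsg

namespace Cfsg.Agent.S2132

/-- The McLaughlin group (as a two-vector stabiliser in the automorphism group of the rank-24 lattice) has a single conjugacy class of involutions, and the centraliser of an involution is a non-split double cover of the alternating group of degree 8. -/
theorem result : (∀ x y : ↥Cfsg.Spor.McL, orderOf x = 2 → orderOf y = 2 → IsConj x y) ∧ ∃ t : ↥Cfsg.Spor.McL, orderOf t = 2 ∧ Cfsg.IsNonsplitDoubleCover ↥(Subgroup.centralizer ({t} : Set ↥Cfsg.Spor.McL)) ↥(alternatingGroup (Fin 8)) := by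
  have hord : ∀ x : ↥Cfsg.Spor.McL, orderOf (McLFusion.mclEquiv x) = orderOf x := fun x =>
    orderOf_injective McLFusion.mclEquiv.toMonoidHom McLFusion.mclEquiv.injective x
  refine ⟨fun x y hx hy => ?_, McLFusion.mclEquiv.symm McLInvol.tEl, ?_, ?_⟩
  · obtain ⟨g, hg⟩ := isConj_iff.1
      (McLInvol.isConj_of_order_two ((hord x).trans hx) ((hord y).trans hy))
    refine isConj_iff.2 ⟨McLFusion.mclEquiv.symm g, McLFusion.mclEquiv.injective ?_⟩
    rw [map_mul, map_mul, map_inv, MulEquiv.apply_symm_apply, hg]
  · rw [← hord, MulEquiv.apply_symm_apply, McLInvol.tEl_order]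
  · set t := McLFusion.mclEquiv.symm McLInvol.tEl with ht
    have hmap : (Subgroup.centralizer ({t} : Set ↥Cfsg.Spor.McL)).map
        McLFusion.mclEquiv.toMonoidHom = McLInvol.cent := by
      ext g
      rw [Subgroup.mem_map_equiv, Subgroup.mem_centralizer_singleton_iff, McLInvol.mem_cent, ht,
        ← map_mul, ← map_mul]
      exact McLFusion.mclEquiv.symm.injective.eq_iff
    exact McLInvol.isNonsplitDoubleCover_congr
      ((McLFusion.mclEquiv.subgroupMap _).trans (MulEquiv.subgroupCongr hmap)).symm
      McLInvol.isNonsplitDoubleCover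

end Cfsg.Agent.S2132
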