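import Cfsg.Statements.S2135
import Cfsg.Agent.SporB.J3.Inv

set_option autoImplicit false
open Cfsg

namespace Cfsg.Agent.S2135

/-- For any field with 4 elements and any element ω of it with ω² + ω + 1 = 0: in the Janko group J₃ (the group generated by explicit 9 × 9 matrices over that field built from ω, taken modulo its centre) all involutions are conjugate, and the centraliser C of an involution has a normal extraspecial subgroup Q of order 32 containing no elementary abelian subgroup of order 8, complemented in C, with C / Q isomorphic to the alternating group of degree 5 (shape 2^{1+4}_-:A₅). -/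
theorem result {F : Type*} [Field F] [Fintype F] (hF : Fintype.card F = 4) (ω : F) (hω : ω ^ 2 + ω + 1 = 0) : (∀ x y : Cfsg.Spor.J3 F ω, orderOf x = 2 → orderOf y = 2 → IsConj x y) ∧ ∃ t : Cfsg.Spor.J3 F ω, orderOf t = 2 ∧ ∃ (Q : Subgroup ↥(Subgroup.centralizer ({t} : Set (Cfsg.Spor.J3 F ω)))) (_ : Q.Normal), Cfsg.IsExtraspecial 2 Q ∧ Nat.card Q = 32 ∧ (∀ E : Subgroup Q, Cfsg.IsElementaryAbelian 2 E → Nat.card E ≤ 2 ^ 2) ∧ (∃ H : Subgroup ↥(Subgroup.centralizer ({t} : Set (Cfsg.Spor.J3 F ω))), Q.IsComplement' H) ∧ Nonempty (↥(Subgroup.centralizer ({t} : Set (Cfsg.Spor.J3 F ω))) ⧸ Q ≃* ↥(alternatingGroup (Fin 5))) := by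
  haveI := Cfsg.Agent.SporB.J3.charP_two_of_card hF
  obtain ⟨c⟩ := Cfsg.Agent.SporB.J3.nonempty_invCert ω hω
  exact ⟨fun x y hx hy => c.conj_involutions hx hy, c.exists_structure⟩

end Cfsg.Agent.S2135
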