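import Cfsg.Statements.S2163
import Cfsg.Agent.CharTwoInvol.Basic

set_option autoImplicit false
open Cfsg

namespace Cfsg.Agent.S2163

/-- Over a finite field of characteristic two and for n ≥ 3: for every ℓ with 1 ≤ ℓ and 2ℓ ≤ n, the matrix j_ℓ that is the identity plus the entries 1 in positions (n − ℓ + i, i) for i < ℓ (an identity block of size ℓ in the lower left corner) lies in SL_n(F), has order 2, and j_ℓ − 1 has rank ℓ. Together with the conjugacy criterion by rank, these matrices represent the conjugacy classes of involutions of SL_n(F). -/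
theorem result {F : Type*} [Field F] [Fintype F] [CharP F 2] {n : ℕ} (hn : 3 ≤ n) (ℓ : ℕ) (h1 : 1 ≤ ℓ) (h2 : 2 * ℓ ≤ n) :
    ∃ a : Matrix.SpecialLinearGroup (Fin n) F, (a : Matrix (Fin n) (Fin n) F) = 1 + Matrix.of (fun i j : Fin n => if j.val < ℓ ∧ i.val = j.val + (n - ℓ) then (1 : F) else 0) ∧ orderOf a = 2 ∧ ((a : Matrix (Fin n) (Fin n) F) - 1).rank = ℓ := by
  classical
  let k : Fin ℓ → Fin n := fun i => ⟨i.val, by omega⟩
  let k' : Fin ℓ → Fin n := fun i => ⟨i.val + (n - ℓ), by omega⟩
  let M : Matrix (Fin n) (Fin n) F :=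
    Matrix.of (fun i j : Fin n => if j.val < ℓ ∧ i.val = j.val + (n - ℓ) then (1 : F) else 0)
  have hM : ∀ i j : Fin n, M i j = if j.val < ℓ ∧ i.val = j.val + (n - ℓ) then (1 : F) else 0 :=
    fun i j => rfl
  have hdet : (1 + M).det = 1 := by
    rw [Matrix.det_of_lowerTriangular (1 + M) (fun i j hij => ?_)]
    · refine Finset.prod_eq_one fun i _ => ?_
      rw [Matrix.add_apply, Matrix.one_apply_eq, hM, if_neg (by omega), add_zero]
    · have hij' : i.val < j.val := hij
      rw [Matrix.add_apply, Matrix.one_apply_ne (Fin.ne_of_val_ne (by omega)), hM,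
        if_neg (by omega), add_zero]
  have hMM : M * M = 0 := by
    ext i j
    rw [Matrix.mul_apply, Matrix.zero_apply]
    refine Finset.sum_eq_zero fun l _ => ?_
    rw [hM, hM]
    split_ifs <;> first | (exfalso; omega) | simp
  let X : Matrix (Fin n) (Fin ℓ) F := Matrix.of fun i c => if i = k' c then 1 else 0
  let Y : Matrix (Fin ℓ) (Fin n) F := Matrix.of fun c j => if j = k c then 1 else 0
  have hXY : X * Y = M := by
    ext i j
    rw [Matrix.mul_apply, hM]
    simp only [X, Y, Matrix.of_apply, mul_ite, mul_one, mul_zero]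
    by_cases hj : j.val < ℓ ∧ i.val = j.val + (n - ℓ)
    · rw [if_pos hj, Finset.sum_eq_single ⟨j.val, hj.1⟩]
      · rw [if_pos (Fin.ext rfl), if_pos (Fin.ext hj.2)]
      · intro c _ hc
        rw [if_neg]
        intro h
        exact hc (Fin.ext (congrArg Fin.val h).symm)
      · simp
    · rw [if_neg hj]
      refine Finset.sum_eq_zero fun c _ => ?_
      split_ifs with a b
      · exfalso
        refine hj ⟨?_, ?_⟩
        · rw [a]; exact c.2
        · rw [a, b]
      all_goals rfl
  have hrank : M.rank = ℓ := by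
    rw [← hXY]
    refine Cfsg.Agent.CharTwoInvol.rank_eq_of_submatrix_eq_one X Y k' k ?_
    rw [hXY]
    ext a b
    rw [Matrix.submatrix_apply, hM, Matrix.one_apply]
    by_cases hab : a = b
    · rw [if_pos hab, hab, if_pos ⟨b.2, rfl⟩]
    · rw [if_neg hab, if_neg]
      exact fun h => hab (Fin.ext (by have := h.2; simp only [k, k'] at this; omega))
  let a : Matrix.SpecialLinearGroup (Fin n) F := ⟨1 + M, hdet⟩
  refine ⟨a, rfl, ?_, by rw [show (a : Matrix (Fin n) (Fin n) F) = 1 + M from rfl, add_sub_cancel_left, hrank]⟩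
  refine orderOf_eq_prime ?_ ?_
  · apply Subtype.ext
    rw [pow_two, Matrix.SpecialLinearGroup.coe_mul, Matrix.SpecialLinearGroup.coe_one]
    show (1 + M) * (1 + M) = 1
    rw [mul_add, add_mul, add_mul, one_mul, one_mul, mul_one, hMM, add_zero, add_assoc,
      ← two_smul F M, CharTwo.two_eq_zero, zero_smul, add_zero]
  · intro h
    have h' : 1 + M = 1 := congrArg Subtype.val h
    rw [add_eq_left.1 h', Matrix.rank_zero] at hrank
    omega

end Cfsg.Agent.S2163
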