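import Cfsg.Statements.S2165
import Cfsg.Agent.CharTwoInvol.Basic

set_option autoImplicit false
open Cfsg

namespace Cfsg.Agent.S2165

/-- In SU_n(q), q even, n ≥ 3 (matrices of determinant 1 over the field with q² elements preserving Σ u_i v_i^q): for every ℓ with 1 ≤ ℓ and 2ℓ ≤ n, the permutation matrix of the involution of {0, …, n−1} exchanging i and n − ℓ + i for each i < ℓ lies in SU_n(q), has order 2, and differs from the identity by a matrix of rank ℓ. So every rank between 1 and n/2 occurs for involutions of SU_n(q). -/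
theorem result {F : Type*} [Field F] [Fintype F] [CharP F 2] {n q : ℕ} (hF : Fintype.card F = q ^ 2) (hn : 3 ≤ n) (ℓ : ℕ) (h1 : 1 ≤ ℓ) (h2 : 2 * ℓ ≤ n) :
    ∃ a : ↥(Cfsg.SU n F q), (((a : Matrix.SpecialLinearGroup (Fin n) F) : Matrix (Fin n) (Fin n) F) = Matrix.of (fun i j : Fin n => if (j.val < ℓ ∧ i.val = j.val + (n - ℓ)) ∨ (i.val < ℓ ∧ j.val = i.val + (n - ℓ)) ∨ (i = j ∧ ℓ ≤ i.val ∧ i.val < n - ℓ) then (1 : F) else 0)) ∧ orderOf a = 2 ∧ ((((a : Matrix.SpecialLinearGroup (Fin n) F) : Matrix (Fin n) (Fin n) F)) - 1).rank = ℓ := by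
  classical
  let f : Fin n → Fin n := fun i =>
    if h1' : i.val < ℓ then ⟨i.val + (n - ℓ), by omega⟩
    else if h2' : n - ℓ ≤ i.val then ⟨i.val - (n - ℓ), by omega⟩ else i
  have hfval : ∀ i : Fin n, (f i).val =
      if i.val < ℓ then i.val + (n - ℓ) else if n - ℓ ≤ i.val then i.val - (n - ℓ) else i.val := by
    intro i
    simp only [f]
    split_ifs <;> rfl
  have hinv : Function.Involutive f := by
    intro i
    apply Fin.ext
    rw [hfval, hfval]
    have := i.2
    split_ifs <;> omega
  let τ : Equiv.Perm (Fin n) := Function.Involutive.toPerm f hinv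
  let P : Matrix (Fin n) (Fin n) F := Equiv.Perm.permMatrix F τ
  have hentry : ∀ i j, P i j = if f i = j then 1 else 0 := by
    intro i j
    simp [P, τ, Equiv.Perm.permMatrix, PEquiv.toMatrix_apply, eq_comm]
  have hP : P = Matrix.of (fun i j : Fin n => if (j.val < ℓ ∧ i.val = j.val + (n - ℓ)) ∨ (i.val < ℓ ∧ j.val = i.val + (n - ℓ)) ∨ (i = j ∧ ℓ ≤ i.val ∧ i.val < n - ℓ) then (1 : F) else 0) := by
    ext i j
    rw [hentry, Matrix.of_apply]
    congr 1
    rw [Fin.ext_iff, hfval, Fin.ext_iff, eq_iff_iff]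
    have := i.2; have := j.2
    split_ifs <;> omega
  have hdet : P.det = 1 := by
    rw [show P.det = (Equiv.Perm.sign τ : F) from Matrix.det_permutation τ]
    rcases Int.units_eq_one_or (Equiv.Perm.sign τ) with h | h <;> simp [h, CharTwo.neg_eq]
  have hmulVec : ∀ (v : Fin n → F) i, Matrix.mulVec P v i = v (f i) := by
    intro v i
    simp [Matrix.mulVec, dotProduct, hentry]
  let a' : Matrix.SpecialLinearGroup (Fin n) F := ⟨P, hdet⟩
  have hmem : a' ∈ Cfsg.SU n F q := by
    show ∀ u v, Cfsg.hermForm n F q (Matrix.mulVec P u) (Matrix.mulVec P v) = Cfsg.hermForm n F q u v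
    intro u v
    simp only [Cfsg.hermForm, hmulVec]
    exact Equiv.sum_comp τ (fun i => u i * v i ^ q)
  let k : Fin ℓ → Fin n := fun i => ⟨i.val, by omega⟩
  let k' : Fin ℓ → Fin n := fun i => ⟨i.val + (n - ℓ), by omega⟩
  let X : Matrix (Fin n) (Fin ℓ) F := Matrix.of fun i c => if i = k c ∨ i = k' c then 1 else 0
  have hXY : X * X.transpose = P - 1 := by
    ext i j
    rw [Matrix.mul_apply, Matrix.sub_apply, hentry, Matrix.one_apply]
    simp only [X, Matrix.of_apply, Matrix.transpose_apply, mul_ite, mul_one, mul_zero]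
    have hi := i.2
    have hj := j.2
    have key : ∀ c : Fin ℓ, (if j = k c ∨ j = k' c then (if i = k c ∨ i = k' c then (1:F) else 0) else 0)
        = if (j.val = c.val ∨ j.val = c.val + (n - ℓ)) ∧ (i.val = c.val ∨ i.val = c.val + (n - ℓ))
          then 1 else 0 := by
      intro c
      simp only [k, k', Fin.ext_iff]
      split_ifs <;> simp_all
    simp only [key]
    have hfi := hfval i
    by_cases hmid : ℓ ≤ i.val ∧ i.val < n - ℓ
    · rw [Finset.sum_eq_zero (fun c _ => if_neg (by have := c.2; omega))]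
      rw [if_neg hmid.1.not_gt, if_neg hmid.2.not_ge] at hfi
      rw [show f i = i from Fin.ext hfi, sub_self]
    · obtain ⟨c, hc⟩ : ∃ c : Fin ℓ, i.val = c.val ∨ i.val = c.val + (n - ℓ) := by
        by_cases h : i.val < ℓ
        · exact ⟨⟨i.val, h⟩, Or.inl rfl⟩
        · exact ⟨⟨i.val - (n - ℓ), by omega⟩, Or.inr (by simp only; omega)⟩
      rw [Finset.sum_eq_single c]
      · have hne : ¬ (f i = j ∧ i = j) := by
          rintro ⟨h, rfl⟩
          rw [h] at hfi
          split_ifs at hfi <;> omega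
        simp only [Fin.ext_iff] at hne ⊢
        have hc' := c.2
        rw [hfi] at hne ⊢
        split_ifs at * <;> first | (exfalso; omega) | simp [CharTwo.neg_eq]
      · intro c' _ hne
        refine if_neg fun h => hne (Fin.ext ?_)
        have := c.2; have := c'.2
        omega
      · simp
  have hrank : (P - 1).rank = ℓ := by
    rw [← hXY]
    refine Cfsg.Agent.CharTwoInvol.rank_eq_of_submatrix_eq_one X X.transpose k k' ?_
    rw [hXY]
    ext a b
    rw [Matrix.submatrix_apply, Matrix.sub_apply, hentry, Matrix.one_apply, Matrix.one_apply]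
    have hfa := hfval (k a)
    rw [if_pos (show (k a).val < ℓ from a.2)] at hfa
    have ha := a.2; have hb := b.2
    have hne : k a ≠ k' b := fun h => by
      have := congrArg Fin.val h; simp only [k, k'] at this; omega
    rw [if_neg hne, sub_zero]
    congr 1
    rw [eq_iff_iff, Fin.ext_iff, hfa, Fin.ext_iff]
    simp only [k, k']
    omega
  let a : ↥(Cfsg.SU n F q) := ⟨a', hmem⟩
  refine ⟨a, hP, orderOf_eq_prime ?_ ?_, hrank⟩
  · apply Subtype.ext
    apply Subtype.ext
    show (↑(a' ^ 2) : Matrix (Fin n) (Fin n) F) = 1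
    rw [pow_two, Matrix.SpecialLinearGroup.coe_mul]
    ext i j
    rw [Matrix.mul_apply, Matrix.one_apply]
    show ∑ l, P i l * P l j = _
    simp only [hentry, ite_mul, one_mul, zero_mul, Finset.sum_ite_eq, Finset.mem_univ, if_true, hinv i]
  · intro h
    have h' : P = 1 := congrArg (fun x : ↥(Cfsg.SU n F q) => ((x : Matrix.SpecialLinearGroup (Fin n) F) : Matrix (Fin n) (Fin n) F)) h
    rw [h', sub_self, Matrix.rank_zero] at hrank
    omega

end Cfsg.Agent.S2165
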