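import Cfsg.Statements.S2166
import Cfsg.Agent.InvolConjTwo.Symplectic

set_option autoImplicit false
open Cfsg
open scoped Pointwise

namespace Cfsg.Agent.S2166

/-- Conjugacy of involutions in the symplectic group Sp_{2m}(F), F a finite field of characteristic two, m ≥ 2 (Sp taken as the matrices A with A J Aᵀ = J, acting on column vectors, with the alternating form f(u, v) = u ⬝ (J v)). For an involution t write V(t) for the set of vectors v with f(v, t v) = 0 (a subspace). Two involutions a, b are conjugate in Sp_{2m}(F) exactly when a − 1 and b − 1 have the same rank and, in case that rank is even, V(a) and V(b) have the same number of elements. -/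
theorem result {F : Type*} [Field F] [Fintype F] [CharP F 2] {m : ℕ} (hm : 2 ≤ m) (a b : ↥(Matrix.symplecticGroup (Fin m) F)) (ha : orderOf a = 2) (hb : orderOf b = 2) :
    IsConj a b ↔ ((((a : ↥(Matrix.symplecticGroup (Fin m) F)) : Matrix (Fin m ⊕ Fin m) (Fin m ⊕ Fin m) F) - 1).rank = (((b : ↥(Matrix.symplecticGroup (Fin m) F)) : Matrix (Fin m ⊕ Fin m) (Fin m ⊕ Fin m) F) - 1).rank ∧
      (Even (((a : ↥(Matrix.symplecticGroup (Fin m) F)) : Matrix (Fin m ⊕ Fin m) (Fin m ⊕ Fin m) F) - 1).rank → Nat.card {v : Fin m ⊕ Fin m → F // Cfsg.sympForm m F v (Matrix.mulVec ((a : ↥(Matrix.symplecticGroup (Fin m) F)) : Matrix (Fin m ⊕ Fin m) (Fin m ⊕ Fin m) F) v) = 0} = Nat.card {v : Fin m ⊕ Fin m → F // Cfsg.sympForm m F v (Matrix.mulVec ((b : ↥(Matrix.symplecticGroup (Fin m) F)) : Matrix (Fin m ⊕ Fin m) (Fin m ⊕ Fin m) F) v) = 0})) :=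
  InvolConjTwo.symplectic_conj_iff a b ha hb

end Cfsg.Agent.S2166
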