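import Cfsg.Statements.S2167
import Cfsg.Agent.CharTwoInvol.Basic

set_option autoImplicit false
open Cfsg

namespace Cfsg.Agent.S2167

/-- For an involution t of the symplectic group Sp_{2m}(F), m ≥ 2, F a finite field of characteristic two (matrices A with A J Aᵀ = J acting on column vectors, alternating form f(u, v) = u ⬝ (J v)): the set V(t) of vectors v with f(v, t v) = 0 has either q^{2m} or q^{2m−1} elements, q the order of F (it is a subspace of codimension at most 1), and if it is the whole space then t − 1 has even rank. -/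
theorem result {F : Type*} [Field F] [Fintype F] [CharP F 2] {m : ℕ} (hm : 2 ≤ m) (a : ↥(Matrix.symplecticGroup (Fin m) F)) (ha : orderOf a = 2) :
    (Nat.card {v : Fin m ⊕ Fin m → F // Cfsg.sympForm m F v (Matrix.mulVec ((a : ↥(Matrix.symplecticGroup (Fin m) F)) : Matrix (Fin m ⊕ Fin m) (Fin m ⊕ Fin m) F) v) = 0} = Fintype.card F ^ (2 * m) ∨ Nat.card {v : Fin m ⊕ Fin m → F // Cfsg.sympForm m F v (Matrix.mulVec ((a : ↥(Matrix.symplecticGroup (Fin m) F)) : Matrix (Fin m ⊕ Fin m) (Fin m ⊕ Fin m) F) v) = 0} * Fintype.card F = Fintype.card F ^ (2 * m)) ∧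
    ((∀ v : Fin m ⊕ Fin m → F, Cfsg.sympForm m F v (Matrix.mulVec ((a : ↥(Matrix.symplecticGroup (Fin m) F)) : Matrix (Fin m ⊕ Fin m) (Fin m ⊕ Fin m) F) v) = 0) → Even (((a : ↥(Matrix.symplecticGroup (Fin m) F)) : Matrix (Fin m ⊕ Fin m) (Fin m ⊕ Fin m) F) - 1).rank) := by
  classical
  let A : Matrix (Fin m ⊕ Fin m) (Fin m ⊕ Fin m) F := a.1
  let f := Cfsg.sympForm m F
  have hAJ : A * Matrix.J (Fin m) F * A.transpose = Matrix.J (Fin m) F := a.2
  have hA2 : A * A = 1 := by
    have h := pow_orderOf_eq_one a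
    rw [ha, pow_two] at h
    exact congrArg Subtype.val h
  have hAtJA : A.transpose * Matrix.J (Fin m) F * A = Matrix.J (Fin m) F := by
    have h1 : Matrix.J (Fin m) F * A.transpose = A * Matrix.J (Fin m) F := by
      conv_rhs => rw [← hAJ, ← mul_assoc, ← mul_assoc, hA2, one_mul]
    have h2 := congrArg (fun X => Matrix.J (Fin m) F * X * Matrix.J (Fin m) F) h1
    simp only [← mul_assoc, Matrix.J_squared, neg_mul, one_mul] at h2
    rw [mul_assoc (Matrix.J (Fin m) F * A), Matrix.J_squared, mul_neg, mul_one, neg_inj] at h2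
    rw [h2, mul_assoc, hA2, mul_one]
  have hneg : ∀ x : F, -x = x := CharTwo.neg_eq
  have hJt : (Matrix.J (Fin m) F).transpose = Matrix.J (Fin m) F := by
    rw [Matrix.J_transpose]
    ext i j
    rw [Matrix.neg_apply, hneg]
  have hsymm : ∀ u v, f u v = f v u := by
    intro u v
    show dotProduct u (Matrix.mulVec _ v) = dotProduct v (Matrix.mulVec _ u)
    rw [Matrix.dotProduct_mulVec, ← Matrix.mulVec_transpose, hJt, dotProduct_comm]
  have hinv : ∀ u v, f (Matrix.mulVec A u) (Matrix.mulVec A v) = f u v := by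
    intro u v
    show dotProduct (Matrix.mulVec A u) (Matrix.mulVec _ (Matrix.mulVec A v)) = dotProduct u (Matrix.mulVec _ v)
    rw [Matrix.mulVec_mulVec, ← Matrix.vecMul_transpose A u, ← Matrix.dotProduct_mulVec,
      Matrix.mulVec_mulVec, ← mul_assoc, hAtJA]
  have hskew : ∀ u v, f u (Matrix.mulVec A v) = f v (Matrix.mulVec A u) := by
    intro u v
    rw [← hinv u (Matrix.mulVec A v), Matrix.mulVec_mulVec, hA2, Matrix.one_mulVec, hsymm]
  have hfl : ∀ u u' v, f (u + u') v = f u v + f u' v := fun u u' v => by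
    simp [f, Cfsg.sympForm, add_dotProduct]
  have hfr : ∀ u v v', f u (v + v') = f u v + f u v' := fun u v v' => by
    simp [f, Cfsg.sympForm, Matrix.mulVec_add, dotProduct_add]
  have hfsl : ∀ (c : F) u v, f (c • u) v = c * f u v := fun c u v => by
    simp [f, Cfsg.sympForm, smul_dotProduct]
  have hfsr : ∀ (c : F) u v, f u (c • v) = c * f u v := fun c u v => by
    simp [f, Cfsg.sympForm, Matrix.mulVec_smul, dotProduct_smul]
  let φ : (Fin m ⊕ Fin m → F) →+ F :=
    AddMonoidHom.mk' (fun v => f v (Matrix.mulVec A v)) (fun u v => by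
      rw [Matrix.mulVec_add, hfl, hfr, hfr, hskew v u]
      linear_combination (f u (Matrix.mulVec A v)) * (CharTwo.two_eq_zero : (2 : F) = 0))
  have hφ : ∀ v, φ v = f v (Matrix.mulVec A v) := fun v => rfl
  have hsc : ∀ (c : F) v, φ (c • v) = c ^ 2 * φ v := fun c v => by
    rw [hφ, hφ, Matrix.mulVec_smul, hfsl, hfsr]; ring
  have hcardV : Nat.card (Fin m ⊕ Fin m → F) = Fintype.card F ^ (2 * m) := by
    rw [Nat.card_eq_fintype_card, Fintype.card_fun]
    simp [two_mul]
  have hrange : φ.range = ⊥ ∨ φ.range = ⊤ := by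
    by_cases h : φ = 0
    · left; rw [h]; ext x; simp [AddMonoidHom.mem_range, eq_comm]
    · right
      obtain ⟨v, hv⟩ : ∃ v, φ v ≠ 0 := by
        by_contra hh
        simp only [not_exists, ne_eq, not_not] at hh
        exact h (AddMonoidHom.ext hh)
      rw [eq_top_iff]
      intro x _
      obtain ⟨c, hc⟩ := (frobenius_inj F 2).bijective_of_finite.2 (x * (φ v)⁻¹)
      refine ⟨c • v, ?_⟩
      rw [hsc, ← frobenius_def, hc, mul_assoc, inv_mul_cancel₀ hv, mul_one]
  have hker : Nat.card φ.ker = Nat.card {v // Cfsg.sympForm m F v (Matrix.mulVec A v) = 0} :=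
    Nat.card_congr (Equiv.subtypeEquivRight fun v => AddMonoidHom.mem_ker)
  have hmul := φ.ker.card_mul_index
  rw [AddSubgroup.index_ker, hker, hcardV] at hmul
  refine ⟨?_, fun hall => ?_⟩
  · rcases hrange with h | h
    · left
      rw [h, AddSubgroup.card_bot, mul_one] at hmul
      exact hmul
    · right
      rw [h, AddSubgroup.card_top, Nat.card_eq_fintype_card (α := F)] at hmul
      exact hmul
  · let T : (Fin m ⊕ Fin m → F) →ₗ[F] (Fin m ⊕ Fin m → F) := (A - 1).mulVecLin
    let B : (Fin m ⊕ Fin m → F) →ₗ[F] (Fin m ⊕ Fin m → F) →ₗ[F] F :=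
      LinearMap.mk₂ F (fun u v => f v (T u))
        (fun u u' v => by simp only [map_add, hfr])
        (fun c u v => by simp only [map_smul, hfsr, smul_eq_mul])
        (fun u v v' => hfl v v' (T u))
        (fun c u v => by simp only [hfsl, smul_eq_mul])
    have halt : ∀ v, B v v = 0 := by
      intro v
      show f v (Matrix.mulVec (A - 1) v) = 0
      rw [Matrix.sub_mulVec, Matrix.one_mulVec, sub_eq_add_neg, hfr, ← neg_one_smul F v, hfsr]
      have h1 : f v (Matrix.mulVec A v) = 0 := hall v
      have h2 : f v v = 0 := by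
        show dotProduct v (Matrix.mulVec _ v) = 0
        simp only [Matrix.J, Matrix.fromBlocks_mulVec, Matrix.neg_mulVec, Matrix.one_mulVec,
          Matrix.zero_mulVec, dotProduct, Fintype.sum_sum_type, Sum.elim_inl, Sum.elim_inr,
          Function.comp_apply, zero_add, add_zero, Pi.neg_apply, hneg]
        rw [← Finset.sum_add_distrib]
        refine Finset.sum_eq_zero fun i _ => ?_
        linear_combination (v (Sum.inl i) * v (Sum.inr i)) * (CharTwo.two_eq_zero : (2 : F) = 0)
      rw [h1, h2, mul_zero, add_zero]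
    have hkerB : LinearMap.ker B = LinearMap.ker T := by
      apply le_antisymm <;> intro u hu <;> rw [LinearMap.mem_ker] at hu ⊢
      · have h : ∀ v, dotProduct v (Matrix.mulVec (Matrix.J (Fin m) F) (T u)) = 0 :=
          fun v => LinearMap.congr_fun hu v
        have h' : Matrix.mulVec (Matrix.J (Fin m) F) (T u) = 0 :=
          dotProduct_eq_zero _ (fun v => by rw [dotProduct_comm]; exact h v)
        have h'' := congrArg (Matrix.mulVec (Matrix.J (Fin m) F)) h'
        rw [Matrix.mulVec_mulVec, Matrix.J_squared, Matrix.mulVec_zero, Matrix.neg_mulVec,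
          Matrix.one_mulVec, neg_eq_zero] at h''
        exact h''
      · refine LinearMap.ext fun v => ?_
        show f v (T u) = 0
        simp [hu, f, Cfsg.sympForm]
    have h := Cfsg.Agent.CharTwoInvol.even_finrank_range_of_alternating B halt
    have e1 := B.finrank_range_add_finrank_ker
    have e2 := T.finrank_range_add_finrank_ker
    rw [hkerB] at e1
    show Even (Module.finrank F (LinearMap.range T))
    rwa [show Module.finrank F (LinearMap.range T) = Module.finrank F (LinearMap.range B) by omega]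

end Cfsg.Agent.S2167
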