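import Cfsg.Statements.S2172
import Cfsg.Agent.InvolConjTwo.Splitting
import Cfsg.Agent.Forms.OmegaPlus

set_option autoImplicit false
open Cfsg
open scoped Pointwise

namespace Cfsg.Agent.S2172

/-- Splitting of involution classes from O to Ω for the hyperbolic quadratic form Q = Σ x_i y_i in dimension 2m over a finite field F of characteristic two, m ≥ 4. Let t, s be involutions of the commutator subgroup Ω that are conjugate in the full isometry group O. If it is not the case that t − 1 has rank m and Q(v + t v) = 0 for every vector v, then t and s are conjugate by an element of Ω. If t − 1 has rank m and Q(v + t v) = 0 for all v, then t and s are conjugate by an element of Ω exactly when the intersection of the images of t − 1 and s − 1 has even dimension (so the class of t in O meets at most two classes of Ω). -/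
theorem result {F : Type*} [Field F] [Fintype F] [CharP F 2] {m : ℕ} (hm : 4 ≤ m) (t s : ↥(Cfsg.isometryGroup F (Cfsg.quadFormPlus m F))) (ht : orderOf t = 2) (hs : orderOf s = 2) (htO : t ∈ Cfsg.Omega F (Cfsg.quadFormPlus m F)) (hsO : s ∈ Cfsg.Omega F (Cfsg.quadFormPlus m F)) (hconj : IsConj t s) :
    (¬ (((((t : ↥(Cfsg.isometryGroup F (Cfsg.quadFormPlus m F))) : GL (Fin m ⊕ Fin m) F) : Matrix (Fin m ⊕ Fin m) (Fin m ⊕ Fin m) F) - 1).rank = m ∧ ∀ v : Fin m ⊕ Fin m → F, Cfsg.quadFormPlus m F (v + Matrix.mulVec (((t : ↥(Cfsg.isometryGroup F (Cfsg.quadFormPlus m F))) : GL (Fin m ⊕ Fin m) F) : Matrix (Fin m ⊕ Fin m) (Fin m ⊕ Fin m) F) v) = 0) →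
      ∃ g ∈ Cfsg.Omega F (Cfsg.quadFormPlus m F), g * t * g⁻¹ = s) ∧
    ((((((t : ↥(Cfsg.isometryGroup F (Cfsg.quadFormPlus m F))) : GL (Fin m ⊕ Fin m) F) : Matrix (Fin m ⊕ Fin m) (Fin m ⊕ Fin m) F) - 1).rank = m ∧ ∀ v : Fin m ⊕ Fin m → F, Cfsg.quadFormPlus m F (v + Matrix.mulVec (((t : ↥(Cfsg.isometryGroup F (Cfsg.quadFormPlus m F))) : GL (Fin m ⊕ Fin m) F) : Matrix (Fin m ⊕ Fin m) (Fin m ⊕ Fin m) F) v) = 0) →
      ((∃ g ∈ Cfsg.Omega F (Cfsg.quadFormPlus m F), g * t * g⁻¹ = s) ↔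
        Even (Module.finrank F ↥(LinearMap.range (Matrix.toLin' ((((t : ↥(Cfsg.isometryGroup F (Cfsg.quadFormPlus m F))) : GL (Fin m ⊕ Fin m) F) : Matrix (Fin m ⊕ Fin m) (Fin m ⊕ Fin m) F) - 1)) ⊓ LinearMap.range (Matrix.toLin' ((((s : ↥(Cfsg.isometryGroup F (Cfsg.quadFormPlus m F))) : GL (Fin m ⊕ Fin m) F) : Matrix (Fin m ⊕ Fin m) (Fin m ⊕ Fin m) F) - 1)))))) := by
  have hR : Cfsg.quadFormPlus m F = ⇑(Agent.Classical.plusQF m F) :=
    funext fun v => (Agent.Classical.plusQF_apply m v).symm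
  revert t s
  rw [hR]
  intro t s ht hs htO hsO hconj
  have hB := Forms.bNondeg_plusQF (F := F) (m := m)
  have hx := Forms.notExceptional_plusQF (F := F) (m := m) (Or.inr (by omega))
  have hcard : Fintype.card (Fin m ⊕ Fin m) = 2 * m := by simp [two_mul]
  refine ⟨fun hn => ?_, fun h => InvolConjTwo.omega_conj_iff_even _ hB hx t s ht htO hconj
    (by rw [h.1, hcard]) h.2⟩
  by_cases hz : ∃ z, Matrix.mulVec ((t : GL (Fin m ⊕ Fin m) F) : Matrix _ _ F) z = z ∧
      Agent.Classical.plusQF m F z ≠ 0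
  · obtain ⟨z, h1, h2⟩ := hz
    exact InvolConjTwo.omega_conj_of_fixed _ hB hx t s hconj z h1 h2
  · push Not at hz
    obtain ⟨h1, h2, -⟩ := InvolConjTwo.half_rank_of_fixed_singular _ hB t ht hz
    exact absurd ⟨by rw [hcard] at h1; omega, h2⟩ hn

end Cfsg.Agent.S2172
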