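import Cfsg.Statements.S2173
import Cfsg.Agent.InvolConjTwo.Splitting
import Cfsg.Agent.Elusive25.Even
import Cfsg.Agent.Forms.FiniteQuadratic

set_option autoImplicit false
open Cfsg
open scoped Pointwise

namespace Cfsg.Agent.S2173

/-- For the quadratic form Σ x_i y_i + (z₁² + c z₁ z₂ + d z₂²) in dimension 2m with anisotropic binary part over a finite field F of characteristic two, m ≥ 4 (minus type): two involutions of the commutator subgroup Ω that are conjugate in the full isometry group O are conjugate by an element of Ω (no class of involutions of O inside Ω splits). -/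
theorem result {F : Type*} [Field F] [Fintype F] [CharP F 2] {m : ℕ} (hm : 4 ≤ m) (c d : F) (hcd : ∀ z₁ z₂ : F, z₁ ^ 2 + c * z₁ * z₂ + d * z₂ ^ 2 = 0 → z₁ = 0 ∧ z₂ = 0) (t s : ↥(Cfsg.isometryGroup F (Cfsg.quadFormMinus (m - 1) F c d))) (ht : orderOf t = 2) (hs : orderOf s = 2) (htO : t ∈ Cfsg.Omega F (Cfsg.quadFormMinus (m - 1) F c d)) (hsO : s ∈ Cfsg.Omega F (Cfsg.quadFormMinus (m - 1) F c d)) (hconj : IsConj t s) :
    ∃ g ∈ Cfsg.Omega F (Cfsg.quadFormMinus (m - 1) F c d), g * t * g⁻¹ = s := by
  have hR : Cfsg.quadFormMinus (m - 1) F c d = ⇑(Agent.Classical.minusQF (m - 1) c d) :=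
    funext fun v => (Agent.Classical.minusQF_apply (m - 1) c d v).symm
  revert t s
  rw [hR]
  intro t s ht hs htO hsO hconj
  have hB := Elusive25.bNondeg_minusQF (m := m - 1) hcd
  have hx : OrthGen.NotExceptional (Agent.Classical.minusQF (m - 1) c d) :=
    Forms.notExceptional_of (Or.inr (by
      simp only [Module.finrank_fintype_fun_eq_card, Fintype.card_sum, Fintype.card_fin]
      omega))
  by_cases hz : ∃ z, Matrix.mulVec
      ((t : GL ((Fin (m - 1) ⊕ Fin (m - 1)) ⊕ Fin 2) F) : Matrix _ _ F) z = z ∧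
      Agent.Classical.minusQF (m - 1) c d z ≠ 0
  · obtain ⟨z, h1, h2⟩ := hz
    exact InvolConjTwo.omega_conj_of_fixed _ hB hx t s hconj z h1 h2
  · push Not at hz
    exfalso
    obtain ⟨h1, -, W, hW, hWd⟩ := InvolConjTwo.half_rank_of_fixed_singular _ hB t ht hz
    have := Forms.finrank_le_of_vanishes_quadFormMinus hcd W
      (fun w hw => by rw [← Agent.Classical.minusQF_apply]; exact hW w hw)
    simp only [Fintype.card_sum, Fintype.card_fin] at h1
    omega

end Cfsg.Agent.S2173
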