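import Cfsg.Statements.S2175
import Cfsg.Agent.EInvol.E6

set_option autoImplicit false
open Cfsg

namespace Cfsg.Agent.S2175

/-- Conjugacy classes of involutions in the Chevalley group of type E₆ over a finite field F of characteristic two (the matrix group generated by the root elements x_r(t)). In this problem's root numbering for type E₆ (the Chevalley data module; fundamental roots numbered so that p₁–p₃–p₄–p₅–p₆ is the long chain of the diagram and p₂ is joined to p₄; roots indexed by their coefficient vectors in increasing order) let r = 71 be the highest root (1,2,2,3,2,1), α = 68 = (1,1,2,2,1,1), β = 66 = (1,1,1,2,2,1), γ = 55 = (0,1,1,2,2,1), δ = 65 = (1,1,1,2,1,1), ε = 67 = (1,1,2,2,1,0) (α ⊥ β and γ, δ, ε pairwise orthogonal); consider x_r(1), x_α(1)x_β(1) and x_γ(1)x_δ(1)x_ε(1). Then: each invertible matrix equal to one of these three products lies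 in the group and has order 2; every element of order 2 of the group is conjugate in the group to one of them; and no two of them are conjugate in the group (so, the three matrices being distinct, the group has exactly three conjugacy classes of involutions). -/
theorem result {F : Type*} [Field F] [Fintype F] [CharP F 2] :
    (∀ y : GL Cfsg.Lie.chevE6.Idx F, ((y : GL Cfsg.Lie.chevE6.Idx F) : Matrix Cfsg.Lie.chevE6.Idx Cfsg.Lie.chevE6.Idx F) ∈ [Cfsg.Lie.chevE6.x F 71 1, Cfsg.Lie.chevE6.x F 68 1 * Cfsg.Lie.chevE6.x F 66 1, Cfsg.Lie.chevE6.x F 55 1 * Cfsg.Lie.chevE6.x F 65 1 * Cfsg.Lie.chevE6.x F 67 1] → y ∈ Cfsg.Lie.chevE6.group F ∧ orderOf y = 2) ∧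
    (∀ g ∈ Cfsg.Lie.chevE6.group F, orderOf g = 2 → ∃ y ∈ Cfsg.Lie.chevE6.group F, ((y : GL Cfsg.Lie.chevE6.Idx F) : Matrix Cfsg.Lie.chevE6.Idx Cfsg.Lie.chevE6.Idx F) ∈ [Cfsg.Lie.chevE6.x F 71 1, Cfsg.Lie.chevE6.x F 68 1 * Cfsg.Lie.chevE6.x F 66 1, Cfsg.Lie.chevE6.x F 55 1 * Cfsg.Lie.chevE6.x F 65 1 * Cfsg.Lie.chevE6.x F 67 1] ∧ ∃ h ∈ Cfsg.Lie.chevE6.group F, h * g * h⁻¹ = y) ∧
    (∀ y₁ ∈ Cfsg.Lie.chevE6.group F, ∀ y₂ ∈ Cfsg.Lie.chevE6.group F, ((y₁ : GL Cfsg.Lie.chevE6.Idx F) : Matrix Cfsg.Lie.chevE6.Idx Cfsg.Lie.chevE6.Idx F) ∈ [Cfsg.Lie.chevE6.x F 71 1, Cfsg.Lie.chevE6.x F 68 1 * Cfsg.Lie.chevE6.x F 66 1, Cfsg.Lie.chevE6.x F 55 1 * Cfsg.Lie.chevE6.x F 65 1 * Cfsg.Lie.chevE6.x F 67 1] → ((y₂ : GL Cfsg.Lie.chevE6.Idx F) : Matrix Cfsg.Lie.chevE6.Idx Cfsg.Lie.chevE6.Idx F) ∈ [Cfsg.Lie.chevE6.x F 71 1, Cfsg.Lie.chevE6.x F 68 1 * Cfsg.Lie.chevE6.x F 66 1, Cfsg.Lie.chevE6.x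 F 55 1 * Cfsg.Lie.chevE6.x F 65 1 * Cfsg.Lie.chevE6.x F 67 1] →
      (∃ h ∈ Cfsg.Lie.chevE6.group F, h * y₁ * h⁻¹ = y₂) → ((y₁ : GL Cfsg.Lie.chevE6.Idx F) : Matrix Cfsg.Lie.chevE6.Idx Cfsg.Lie.chevE6.Idx F) = ((y₂ : GL Cfsg.Lie.chevE6.Idx F) : Matrix Cfsg.Lie.chevE6.Idx Cfsg.Lie.chevE6.Idx F)) := by
  classical
  have hC := Agent.EInvol.E6.classes F
  have hS := Agent.EInvol.E6.rules F
  have key : ∀ y : GL Cfsg.Lie.chevE6.Idx F, ∀ M : Matrix Cfsg.Lie.chevE6.Idx Cfsg.Lie.chevE6.Idx F,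
      (y : Matrix Cfsg.Lie.chevE6.Idx Cfsg.Lie.chevE6.Idx F) = M →
      M ∈ [Cfsg.Lie.chevE6.x F 71 1, Cfsg.Lie.chevE6.x F 68 1 * Cfsg.Lie.chevE6.x F 66 1, Cfsg.Lie.chevE6.x F 55 1 * Cfsg.Lie.chevE6.x F 65 1 * Cfsg.Lie.chevE6.x F 67 1] →
      ∃ l ∈ Agent.EInvol.E6.reps, y = Agent.EInvol.xS Cfsg.Lie.chevE6 F l := by
    intro y M hy hM
    simp only [List.mem_cons, List.not_mem_nil, or_false] at hM
    rcases hM with rfl | rfl | rfl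
    · refine ⟨[71], by simp [Agent.EInvol.E6.reps], Units.ext ?_⟩
      rw [hy]
      simp [Agent.EInvol.xS, Agent.ChevGrp.val_xGL hS, mul_assoc]
    · refine ⟨[68, 66], by simp [Agent.EInvol.E6.reps], Units.ext ?_⟩
      rw [hy]
      simp [Agent.EInvol.xS, Agent.ChevGrp.val_xGL hS, mul_assoc]
    · refine ⟨[55, 65, 67], by simp [Agent.EInvol.E6.reps], Units.ext ?_⟩
      rw [hy]
      simp [Agent.EInvol.xS, Agent.ChevGrp.val_xGL hS, mul_assoc]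
  have key' : ∀ l ∈ Agent.EInvol.E6.reps, ((Agent.EInvol.xS Cfsg.Lie.chevE6 F l : GL Cfsg.Lie.chevE6.Idx F) :
      Matrix Cfsg.Lie.chevE6.Idx Cfsg.Lie.chevE6.Idx F) ∈ [Cfsg.Lie.chevE6.x F 71 1, Cfsg.Lie.chevE6.x F 68 1 * Cfsg.Lie.chevE6.x F 66 1, Cfsg.Lie.chevE6.x F 55 1 * Cfsg.Lie.chevE6.x F 65 1 * Cfsg.Lie.chevE6.x F 67 1] := by
    intro l hl
    simp only [Agent.EInvol.E6.reps, List.mem_cons, List.not_mem_nil, or_false] at hl
    rcases hl with rfl | rfl | rfl <;> simp [Agent.EInvol.xS, Agent.ChevGrp.val_xGL hS, mul_assoc]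
  refine ⟨fun y hy => ?_, fun g hg hord => ?_, fun y₁ _ y₂ _ h1 h2 hconj => ?_⟩
  · obtain ⟨l, hl, rfl⟩ := key y _ rfl hy
    exact hC.rep l hl
  · obtain ⟨l, hl, h, hh, e⟩ := hC.exhaust g hg hord
    exact ⟨_, (hC.rep l hl).1, key' l hl, h, hh, e⟩
  · obtain ⟨l₁, hl₁, rfl⟩ := key y₁ _ rfl h1
    obtain ⟨l₂, hl₂, rfl⟩ := key y₂ _ rfl h2
    obtain ⟨h, -, e⟩ := hconj
    rw [hC.distinct l₁ hl₁ l₂ hl₂ h e]

end Cfsg.Agent.S2175
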