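import Cfsg.Statements.S2177
import Cfsg.Agent.G2Even.Classes
-- import your own Cfsg.Agent.* helpers here

set_option autoImplicit false
open Cfsg

namespace Cfsg.Agent.S2177

/-- Conjugacy classes of involutions in the Chevalley group of type G₂ over a finite field F of characteristic two with at least four elements (the matrix group generated by the root elements x_r(t)). In this problem's root numbering for type G₂ (the Chevalley data module; p₁ = a short, p₂ = b long; roots indexed by coefficient vectors in increasing order) let 11 be the highest root 3a + 2b (long) and 9 the short root 2a + b; consider x_{3a+2b}(1) and x_{2a+b}(1). Then: each invertible matrix equal to one of these two products lies in the group and has order 2; every element of order 2 of the group is conjugate in the group to one of them; and no two of them are conjugate in the group (so, the two matrices being distinct, the group has exactly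 two conjugacy classes of involutions). -/
theorem result {F : Type*} [Field F] [Fintype F] [CharP F 2] (hF : 4 ≤ Fintype.card F) :
    (∀ y : GL Cfsg.Lie.chevG2.Idx F, ((y : GL Cfsg.Lie.chevG2.Idx F) : Matrix Cfsg.Lie.chevG2.Idx Cfsg.Lie.chevG2.Idx F) ∈ [Cfsg.Lie.chevG2.x F 11 1, Cfsg.Lie.chevG2.x F 9 1] → y ∈ Cfsg.Lie.chevG2.group F ∧ orderOf y = 2) ∧
    (∀ g ∈ Cfsg.Lie.chevG2.group F, orderOf g = 2 → ∃ y ∈ Cfsg.Lie.chevG2.group F, ((y : GL Cfsg.Lie.chevG2.Idx F) : Matrix Cfsg.Lie.chevG2.Idx Cfsg.Lie.chevG2.Idx F) ∈ [Cfsg.Lie.chevG2.x F 11 1, Cfsg.Lie.chevG2.x F 9 1] ∧ ∃ h ∈ Cfsg.Lie.chevG2.group F, h * g * h⁻¹ = y) ∧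
    (∀ y₁ ∈ Cfsg.Lie.chevG2.group F, ∀ y₂ ∈ Cfsg.Lie.chevG2.group F, ((y₁ : GL Cfsg.Lie.chevG2.Idx F) : Matrix Cfsg.Lie.chevG2.Idx Cfsg.Lie.chevG2.Idx F) ∈ [Cfsg.Lie.chevG2.x F 11 1, Cfsg.Lie.chevG2.x F 9 1] → ((y₂ : GL Cfsg.Lie.chevG2.Idx F) : Matrix Cfsg.Lie.chevG2.Idx Cfsg.Lie.chevG2.Idx F) ∈ [Cfsg.Lie.chevG2.x F 11 1, Cfsg.Lie.chevG2.x F 9 1] →
      (∃ h ∈ Cfsg.Lie.chevG2.group F, h * y₁ * h⁻¹ = y₂) → ((y₁ : GL Cfsg.Lie.chevG2.Idx F) : Matrix Cfsg.Lie.chevG2.Idx Cfsg.Lie.chevG2.Idx F) = ((y₂ : GL Cfsg.Lie.chevG2.Idx F) : Matrix Cfsg.Lie.chevG2.Idx Cfsg.Lie.chevG2.Idx F)) := by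
  classical
  clear hF
  haveI : Fact (Nat.Prime 2) := ⟨Nat.prime_two⟩
  have hS : Agent.ChevGrp.Rules Cfsg.Lie.chevG2 F := Agent.Chev.validG2.rules Agent.Chev.lenValidG2 F
  obtain ⟨len, hR⟩ := hS.root
  rw [Agent.ChevGrp.group_eq hS]
  set S := Agent.ChevGrp.glSys hS
  have hmem : ∀ y : GL Cfsg.Lie.chevG2.Idx F,
      (y : Matrix Cfsg.Lie.chevG2.Idx Cfsg.Lie.chevG2.Idx F) ∈
        [Cfsg.Lie.chevG2.x F 11 1, Cfsg.Lie.chevG2.x F 9 1] → y = S.x 11 1 ∨ y = S.x 9 1 := by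
    intro y hy
    simp only [List.mem_cons, List.not_mem_nil, or_false] at hy
    exact hy.imp (Agent.ChevGrp.eq_xGL_iff hS y 11 1).1 (Agent.ChevGrp.eq_xGL_iff hS y 9 1).1
  have hnot := Agent.G2Even.not_cj_long_short S hS hR
  refine ⟨fun y hy => ?_, fun g hg ho => ?_, fun y₁ _ y₂ _ h₁ h₂ ⟨h, hh, e⟩ => ?_⟩
  · have key : ∀ r < 12, S.x r 1 ∈ S.Gbar ∧ orderOf (S.x r 1) = 2 := by
      intro r hr
      refine ⟨Agent.G2Even.x_mem S hr 1, orderOf_eq_prime ?_ fun e1 => ?_⟩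
      · rw [pow_two, Agent.G2Even.x_mul S r hr, CharTwo.add_self_eq_zero, S.x_zero hr]
      · have e2 : S.x r 1 = S.x (Cfsg.Lie.chevG2.neg r) 0 := by rw [e1, S.x_zero (hR.neg_lt r hr)]
        exact hR.neg_ne hr (S.x_root_inj hR hr (hR.neg_lt r hr) one_ne_zero e2).symm
    rcases hmem y hy with rfl | rfl
    · exact key 11 (by norm_num)
    · exact key 9 (by norm_num)
  · obtain ⟨hsq, hne⟩ := (orderOf_eq_prime_iff).1 ho
    have hg' : g ∈ S.PJ ((Finset.range Cfsg.Lie.chevG2.rank : Finset ℕ) : Set ℕ) := by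
      rw [Agent.ChevGrp.PJ_univ_eq hS hR]; exact hg
    obtain ⟨x, hx⟩ := S.exists_conj_Ubar_PJ hS hR 2 (Agent.ChevGrp.card_field_cast (F := F) 2)
      (fun h hh => Agent.G2Even.Hbar_pow_card hS hR hh) (fun k hk => Finset.mem_range.1 hk) ⟨g, hg'⟩ 1
      (Subtype.ext (by simpa using hsq))
    have hxG : (x : GL Cfsg.Lie.chevG2.Idx F) ∈ S.Gbar := by
      rw [← Agent.ChevGrp.PJ_univ_eq hS hR]; exact x.2
    simp only [Subgroup.coe_mul, Subgroup.coe_inv] at hx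
    obtain ⟨a, b, c, d, e, k, he⟩ := Agent.G2Even.exists_el hR hx
    have h1 : Agent.G2Even.Cj S g (Agent.G2Even.el S a b c d e k) :=
      ⟨x, hxG, by rw [← he, inv_mul_cancel_right]⟩
    have h2 := Agent.G2Even.cj_root_of_el S hS hR (a := a) (b := b) (c := c) (d := d) (e := e) (k := k)
      (by rw [← he, ← pow_two, conj_pow, hsq, mul_one, mul_inv_cancel])
      (by rw [← he]; exact fun h => hne (conj_eq_one_iff.1 h))
    rcases h2 with h2 | h2
    · obtain ⟨y, hy, e'⟩ := h1.trans S h2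
      refine ⟨S.x 11 1, Agent.G2Even.x_mem S (by norm_num) 1, ?_, y, hy, by rw [e', mul_inv_cancel_right]⟩
      simp [S, Agent.ChevGrp.glSys, Agent.ChevGrp.val_xGL hS]
    · obtain ⟨y, hy, e'⟩ := h1.trans S h2
      refine ⟨S.x 9 1, Agent.G2Even.x_mem S (by norm_num) 1, ?_, y, hy, by rw [e', mul_inv_cancel_right]⟩
      simp [S, Agent.ChevGrp.glSys, Agent.ChevGrp.val_xGL hS]
  · have e' : h * y₁ = y₂ * h := by rw [← e, inv_mul_cancel_right]
    rcases hmem y₁ h₁ with rfl | rfl <;> rcases hmem y₂ h₂ with rfl | rfl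
    · rfl
    · exact absurd ⟨h, hh, e'⟩ hnot
    · refine absurd ⟨h⁻¹, inv_mem hh, ?_⟩ hnot
      rw [inv_mul_eq_iff_eq_mul, ← mul_assoc, e', mul_inv_cancel_right]
    · rfl

end Cfsg.Agent.S2177
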