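import Cfsg.Statements.S2179
import Cfsg.Agent.Known.ChevCentInst

set_option autoImplicit false
open Cfsg

namespace Cfsg.Agent.S2179

/-- Centralizers of the two remaining classes of involutions in the Chevalley group G of type F₄ over a finite field F of characteristic two (this problem's root numbering for type F₄, from the Chevalley data module: p₁, p₂ short, p₃, p₄ long with indices 33, 27, 25, 24 and negatives 14, 20, 22, 23; U generated by the positive root subgroups). For an element of G with matrix x_47(1)x_44(1) (highest root times highest short root): its centralizer in G is generated by U, X_{−p₂} and X_{−p₃}. For an element of G with matrix x_39(1)x_45(1) (roots (1,2,2,1) and (2,4,2,1), an orthogonal short/long pair): its centralizer in G is generated by X_{p₁}, X_{−p₁}, X_{p₄}, X_{−p₄} and the root subgroups of all positive roots other than p₂ (27), p₃ (25), p₁ + p₂ (34) and p₃ + p₄ (26). -/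
theorem result {F : Type*} [Field F] [Fintype F] [CharP F 2] (w v : GL Cfsg.Lie.chevF4.Idx F) (hw : (w : Matrix Cfsg.Lie.chevF4.Idx Cfsg.Lie.chevF4.Idx F) = Cfsg.Lie.chevF4.x F 47 1 * Cfsg.Lie.chevF4.x F 44 1) (hv : (v : Matrix Cfsg.Lie.chevF4.Idx Cfsg.Lie.chevF4.Idx F) = Cfsg.Lie.chevF4.x F 39 1 * Cfsg.Lie.chevF4.x F 45 1) :
    Cfsg.Lie.chevF4.group F ⊓ Subgroup.centralizer {w} = Cfsg.Lie.chevF4.posUnipotent F ⊔ Cfsg.Lie.chevF4.rootSubgroup F 20 ⊔ Cfsg.Lie.chevF4.rootSubgroup F 22 ∧
    Cfsg.Lie.chevF4.group F ⊓ Subgroup.centralizer {v} = Cfsg.Lie.chevF4.rootSubgroup F 33 ⊔ Cfsg.Lie.chevF4.rootSubgroup F 14 ⊔ Cfsg.Lie.chevF4.rootSubgroup F 24 ⊔ Cfsg.Lie.chevF4.rootSubgroup F 23 ⊔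
      Subgroup.closure {g : GL Cfsg.Lie.chevF4.Idx F | ∃ (r : ℕ) (c : F), Cfsg.Lie.chevF4.IsPosRoot r ∧ r ∉ [27, 25, 34, 26] ∧ (g : Matrix Cfsg.Lie.chevF4.Idx Cfsg.Lie.chevF4.Idx F) = Cfsg.Lie.chevF4.x F r c} := by
  refine ⟨?_, ?_⟩
  · rw [Known.ChevCent.centralizer_top_pair (Chev.rules_of_mem F (by simp)) 47 44 3 0 [1, 2] [20, 22]
      [0, 1, 2, 4, 5, 6, 15, 16, 17, 21, 22, 23, 24, 25, 26, 30, 31, 32, 41, 42, 43, 45, 46, 47]
      (by decide +kernel) (by decide +kernel) (by decide +kernel) (by decide +kernel) (by decide +kernel)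
      (by decide +kernel) (by decide +kernel) w hw]
    simp only [Known.ChevCent.closure_cons_eq, Known.ChevCent.closure_nil_eq, sup_bot_eq, sup_assoc]
  · rw [Known.ChevCent.centralizer_F4_min v hv]
    simp only [sup_assoc]
    rw [Known.ChevCent.closure_pos_notin (Chev.rules_of_mem F (D := Cfsg.Lie.chevF4) (by simp)) [27, 25, 34, 26]
      [24, 28, 29, 30, 31, 32, 33, 35, 36, 37, 38, 39, 40, 41, 42, 43, 44, 45, 46, 47]
      (by decide +kernel) (by decide +kernel)]
    simp only [Known.ChevCent.rootSubgroup_sup_cons]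
    congr 1
    ext s
    simp only [Set.mem_ofPred_eq, List.mem_cons, List.not_mem_nil, or_false]
    omega

end Cfsg.Agent.S2179
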