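import Cfsg.Statements.S2180
import Cfsg.Agent.Known.ChevCentInst

set_option autoImplicit false
open Cfsg

namespace Cfsg.Agent.S2180

/-- Centralizers of involutions in the Chevalley group G of type G₂ over a finite field F of characteristic two with at least four elements (this problem's root numbering for type G₂, from the Chevalley data module: a = p₁ short with index 7, b = p₂ long with index 6, −a = 4, −b = 5, 2a + b = 9, 3a + b = 10, 3a + 2b = 11; U generated by the positive root subgroups). For an element z of G with matrix x_{3a+2b}(1): the centralizer of z in G is generated by U and X_{−a}. For an element t of G with matrix x_{2a+b}(1): the centralizer of t in G is generated by X_{2a+b}, X_{3a+b}, X_{3a+2b}, X_b and X_{−b}. -/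
theorem result {F : Type*} [Field F] [Fintype F] [CharP F 2] (hF : 4 ≤ Fintype.card F) (z t : GL Cfsg.Lie.chevG2.Idx F) (hz : (z : Matrix Cfsg.Lie.chevG2.Idx Cfsg.Lie.chevG2.Idx F) = Cfsg.Lie.chevG2.x F 11 1) (ht : (t : Matrix Cfsg.Lie.chevG2.Idx Cfsg.Lie.chevG2.Idx F) = Cfsg.Lie.chevG2.x F 9 1) :
    Cfsg.Lie.chevG2.group F ⊓ Subgroup.centralizer {z} = Cfsg.Lie.chevG2.posUnipotent F ⊔ Cfsg.Lie.chevG2.rootSubgroup F 4 ∧
    Cfsg.Lie.chevG2.group F ⊓ Subgroup.centralizer {t} = Cfsg.Lie.chevG2.rootSubgroup F 9 ⊔ Cfsg.Lie.chevG2.rootSubgroup F 10 ⊔ Cfsg.Lie.chevG2.rootSubgroup F 11 ⊔ Cfsg.Lie.chevG2.rootSubgroup F 6 ⊔ Cfsg.Lie.chevG2.rootSubgroup F 5 := by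
  clear hF
  refine ⟨?_, ?_⟩
  · rw [Known.ChevCent.centralizer_top_one (Chev.rules_of_mem F (by simp)) 11 1 [0] [4]
      (by decide +kernel) (by decide +kernel) (by decide +kernel) z hz]
    simp only [Known.ChevCent.closure_cons_eq, Known.ChevCent.closure_nil_eq, sup_bot_eq]
  · rw [Known.ChevCent.centralizer_G2_short t ht]
    simp only [sup_assoc]
    rw [Known.ChevCent.rootSubgroup_eq_list (Chev.rules_of_mem F (D := Cfsg.Lie.chevG2) (by simp)) 5]
    simp only [Known.ChevCent.rootSubgroup_sup_cons]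

end Cfsg.Agent.S2180
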