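import Cfsg.Statements.S2181
import Cfsg.Agent.EInvol.E7

set_option autoImplicit false
open Cfsg

namespace Cfsg.Agent.S2181

/-- The Chevalley group of type E₇ over a finite field of characteristic two (the matrix group generated by the root elements) has exactly five conjugacy classes of elements of order 2. -/
theorem result {F : Type*} [Field F] [Fintype F] [CharP F 2] :
    (ConjClasses.mk '' {g : ↥(Cfsg.Lie.chevE7.group F) | orderOf g = 2}).ncard = 5 := by
  classical
  have hC := Agent.EInvol.E7.classes F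
  have hS := Agent.EInvol.E7.rules F
  let r : Fin Agent.EInvol.E7.reps.length → ↥(Cfsg.Lie.chevE7.group F) := fun i =>
    ⟨_, (hC.rep _ (List.getElem_mem i.2)).1⟩
  have himg : ConjClasses.mk '' {g : ↥(Cfsg.Lie.chevE7.group F) | orderOf g = 2} =
      Set.range fun i => ConjClasses.mk (r i) := by
    refine Set.Subset.antisymm ?_ ?_
    · rintro _ ⟨g, hg, rfl⟩
      obtain ⟨l, hl, h, hh, e⟩ := hC.exhaust g g.2 (by rw [Subgroup.orderOf_coe]; exact hg)
      obtain ⟨i, hi, rfl⟩ := List.getElem_of_mem hl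
      exact ⟨⟨i, hi⟩, (ConjClasses.mk_eq_mk_iff_isConj.2 (isConj_iff.2 ⟨⟨h, hh⟩, Subtype.ext e⟩)).symm⟩
    · rintro _ ⟨i, rfl⟩
      refine ⟨r i, ?_, rfl⟩
      show orderOf (r i) = 2
      rw [← Subgroup.orderOf_coe]
      exact (hC.rep _ (List.getElem_mem i.2)).2
  have hinj : Function.Injective fun i => ConjClasses.mk (r i) := by
    intro i j e
    obtain ⟨c, hc⟩ := isConj_iff.1 (ConjClasses.mk_eq_mk_iff_isConj.1 e)
    have h := hC.distinct _ (List.getElem_mem i.2) _ (List.getElem_mem j.2) c (congrArg Subtype.val hc)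
    have hnd : Agent.EInvol.E7.reps.Nodup := by decide
    exact Fin.ext ((hnd.getElem_inj_iff).1 h)
  rw [himg, Set.ncard_range_of_injective hinj, Nat.card_fin]
  rfl

end Cfsg.Agent.S2181
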