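import Cfsg.Statements.S2183
import Cfsg.Agent.TwInvolD4.Count
-- import your own Cfsg.Agent.* helpers here

set_option autoImplicit false
open Cfsg

namespace Cfsg.Agent.S2183

/-- The twisted group ³D₄(q), q even, realised inside the Chevalley group of type D₄ over the field K with q³ elements, has exactly two conjugacy classes of elements of order 2. -/
theorem result {K : Type*} [Field K] [Fintype K] [CharP K 2] (q : ℕ) (hK : Fintype.card K = q ^ 3) :
    (ConjClasses.mk '' {g : ↥(Cfsg.Lie.twistedD4 K q) | orderOf g = 2}).ncard = 2 := by
  exact Cfsg.Agent.TwInvolD4.ncard_classes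
    ((isPrimePow_pow_iff (by norm_num)).1 (hK ▸ FiniteField.isPrimePow_card K)) hK

end Cfsg.Agent.S2183
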