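import Cfsg.Statements.S2190
import Cfsg.Agent.Known.SubG.Final

set_option autoImplicit false
open Cfsg

namespace Cfsg.Agent.S2190

/-- Subfield subgroups of prime degree are maximal. Let K be a finite field with q^r elements, r a prime, q a power of the characteristic, and G the Chevalley group of type G₂, B₂, D₄, F₄, E₆, E₇ or E₈ over K (the matrix group generated by the root elements). Let M be the subgroup of G consisting of the matrices all of whose entries lie in the subfield with q elements (entries c with c^q = c). Then M is a proper subgroup of G and is maximal: every subgroup of G containing M is M or G. -/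
theorem result {K : Type*} [Field K] [Fintype K] (p : ℕ) [Fact p.Prime] [CharP K p] (D : Cfsg.Lie.ChevalleyDatum) (hD : D ∈ [Cfsg.Lie.chevG2, Cfsg.Lie.chevB2, Cfsg.Lie.chevD4, Cfsg.Lie.chevF4, Cfsg.Lie.chevE6, Cfsg.Lie.chevE7, Cfsg.Lie.chevE8]) (a r : ℕ) (ha : 1 ≤ a) (hr : r.Prime) (hK : Fintype.card K = (p ^ a) ^ r) (M : Subgroup (GL D.Idx K))
    (hM : ∀ g : GL D.Idx K, g ∈ M ↔ g ∈ D.group K ∧ ∀ i j : D.Idx, ((g : Matrix D.Idx D.Idx K) i j) ^ (p ^ a) = (g : Matrix D.Idx D.Idx K) i j) :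
    M ≠ D.group K ∧ ∀ H : Subgroup (GL D.Idx K), M ≤ H → H ≤ D.group K → H = M ∨ H = D.group K := by
  classical
  have hS := Cfsg.Agent.Chev.rules_of_mem K hD
  have ha0 := Nat.one_le_iff_ne_zero.1 ha
  have hp : p.Prime := Fact.out
  have hGx : ∀ s < D.nroots, ∀ t : K, Cfsg.Agent.ChevGrp.xGL D K s t ∈ D.group K := fun s hs t =>
    Subgroup.subset_closure ⟨⟨s, hs⟩, t, by
      rw [Cfsg.Agent.ChevGrp.val_xGL hS, Cfsg.Lie.ChevalleyDatum.x, dif_pos hs]⟩
  have hall : ∀ t : K, t ^ (p ^ a) ^ r = t := fun t => hK ▸ FiniteField.pow_card t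
  refine ⟨fun hMeq => ?_, fun H hMH hHG => ?_⟩
  · obtain ⟨len, hR⟩ := hS.root
    have key : ∀ (T : Cfsg.Agent.Known.SubG.Top D), T.ok → ∀ t : K, t ^ p ^ a = t := by
      intro T hT t
      have hs := Cfsg.Agent.Known.SubG.Top.a_lt hT hR
      have h := ((hM _).1 (hMeq.symm ▸ hGx _ hs t)).2 (Sum.inr (T.nga hT hR)) (Sum.inr (T.nth hT hR))
      rw [Cfsg.Agent.ChevGrp.val_xGL hS, Cfsg.Agent.Known.SubG.entry_lin hR hT] at h
      have hM1 : (T.M1 : K) ^ p ^ a = (T.M1 : K) := by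
        rw [← iterateFrobenius_def, map_intCast]
      rw [mul_pow, hM1] at h
      refine mul_left_cancel₀ (a := (T.M1 : K)) ?_ h
      rcases hT.2.2.2.2.2.2.1.2 with e | e <;> simp [e]
    have hT : ∃ T : Cfsg.Agent.Known.SubG.Top D, T.ok := by
      simp only [List.mem_cons, List.not_mem_nil, or_false] at hD
      rcases hD with rfl | rfl | rfl | rfl | rfl | rfl | rfl
      exacts [⟨_, Cfsg.Agent.Known.SubG.okG2⟩, ⟨_, Cfsg.Agent.Known.SubG.okB2⟩, ⟨_, Cfsg.Agent.Known.SubG.okD4⟩,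
        ⟨_, Cfsg.Agent.Known.SubG.okF4⟩, ⟨_, Cfsg.Agent.Known.SubG.okE6⟩, ⟨_, Cfsg.Agent.Known.SubG.okE7⟩,
        ⟨_, Cfsg.Agent.Known.SubG.okE8⟩]
    obtain ⟨T, hT⟩ := hT
    have hc := Cfsg.Agent.Known.SubG.card_fix_finite (k := K) (p := p) ha0 hK
    rw [Nat.card_congr (Equiv.subtypeUnivEquiv (key T hT)), Nat.card_eq_fintype_card, hK] at hc
    exact hr.one_lt.ne' (Nat.pow_right_injective (Nat.one_lt_pow ha0 hp.one_lt) (hc.trans (pow_one _).symm))
  · have hLM : ∀ s < D.nroots, ∀ t : K, t ^ p ^ a = t → Cfsg.Agent.ChevGrp.xGL D K s t ∈ H :=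
      fun s hs t ht => hMH ((hM _).2 ⟨hGx s hs t, fun i j => by
        rw [Cfsg.Agent.ChevGrp.val_xGL hS]; exact Cfsg.Agent.Known.SubG.x_entry_fixed ht i j⟩)
    obtain ⟨r', -, h1, h2⟩ := Cfsg.Agent.Known.SubG.overgroups p D hD ha
      (Cfsg.Agent.Known.SubG.card_fix_finite ha0 hK) H hHG hLM
    have hit : ∀ (n : ℕ) (t : K), (fun x : K => x ^ p ^ a)^[n] t = t ^ (p ^ a) ^ n := by
      intro n t
      induction n with
      | zero => simp
      | succ n ih =>
        rw [Function.iterate_succ_apply', ih, ← pow_mul, ← pow_succ]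
    by_cases hdiv : r ∣ r'
    · right
      refine le_antisymm hHG ((Subgroup.closure_le H).2 ?_)
      rintro g ⟨s, t, hg⟩
      have e : g = Cfsg.Agent.ChevGrp.xGL D K s t := Units.ext (by
        rw [hg, Cfsg.Agent.ChevGrp.val_xGL hS, Cfsg.Lie.ChevalleyDatum.x, dif_pos s.2])
      refine e ▸ h1 s s.2 t ?_
      obtain ⟨m, rfl⟩ := hdiv
      rw [← hit]
      exact Function.IsPeriodicPt.mul_const ((hit r t).trans (hall t)) m
    · left
      refine le_antisymm (fun g hg => (hM g).2 ⟨hHG hg, fun i j => ?_⟩) hMH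
      set c := (g : Matrix D.Idx D.Idx K) i j
      have h3 : Function.IsPeriodicPt (fun x : K => x ^ p ^ a) (Nat.gcd r r') c :=
        Function.IsPeriodicPt.gcd ((hit r c).trans (hall c)) ((hit r' c).trans (h2 g hg i j))
      rw [(hr.coprime_iff_not_dvd.2 hdiv : Nat.gcd r r' = 1)] at h3
      exact h3

end Cfsg.Agent.S2190
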