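import Cfsg.Statements.S2214
import Cfsg.Agent.Known.ChevSubfield
import Cfsg.Agent.Chev.Rules

set_option autoImplicit false
open Cfsg

namespace Cfsg.Agent.S2214

/-- Let k be an algebraically closed field of prime characteristic p, G the adjoint Chevalley group of type G₂, B₂, D₄, F₄, E₆, E₇ or E₈ over k (the matrix group generated by the root elements x_s(t), t ∈ k, acting on the Lie algebra), q = p^a with a ≥ 1, and K a subgroup of G containing every root element x_s(t) with t^q = t and consisting of matrices all of whose entries c satisfy c^q = c. Then the centralizer of K in G is trivial, and the normalizer of K in G is exactly the set of elements of G all of whose entries c satisfy c^q = c. -/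
theorem result {k : Type*} [Field k] [IsAlgClosed k] (p : ℕ) [Fact p.Prime] [CharP k p] (D : Cfsg.Lie.ChevalleyDatum) (hD : D ∈ [Cfsg.Lie.chevG2, Cfsg.Lie.chevB2, Cfsg.Lie.chevD4, Cfsg.Lie.chevF4, Cfsg.Lie.chevE6, Cfsg.Lie.chevE7, Cfsg.Lie.chevE8]) (a : ℕ) (ha : 1 ≤ a) (K : Subgroup (GL D.Idx k)) (hKG : K ≤ D.group k)
    (hLK : Subgroup.closure {g : GL D.Idx k | ∃ (s : ℕ) (t : k), t ^ (p ^ a) = t ∧ (g : Matrix D.Idx D.Idx k) = D.x k s t} ≤ K)
    (hKfix : ∀ g ∈ K, ∀ i j : D.Idx, ((g : Matrix D.Idx D.Idx k) i j) ^ (p ^ a) = (g : Matrix D.Idx D.Idx k) i j) :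
    D.group k ⊓ Subgroup.centralizer (K : Set (GL D.Idx k)) = ⊥ ∧
    ∀ g : GL D.Idx k, g ∈ D.group k → (g ∈ Subgroup.normalizer (K : Set (GL D.Idx k)) ↔ ∀ i j : D.Idx, ((g : Matrix D.Idx D.Idx k) i j) ^ (p ^ a) = (g : Matrix D.Idx D.Idx k) i j) := by
  clear ha
  have hS := Chev.rules_of_mem k hD
  obtain ⟨len, hR⟩ := hS.root
  let σ : k →+* k := iterateFrobenius k p a
  have hσ : ∀ c : k, σ c = c ^ (p ^ a) := fun c => iterateFrobenius_def p a c
  have hfix : ∀ g : GL D.Idx k, Known.ChevSubfield.glσ σ g = g ↔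
      ∀ i j, ((g : Matrix D.Idx D.Idx k) i j) ^ (p ^ a) = (g : Matrix D.Idx D.Idx k) i j := by
    intro g
    rw [Units.ext_iff]
    constructor
    · intro h i j
      rw [← hσ]
      exact congrFun (congrFun h i) j
    · intro h
      ext i j
      exact (hσ _).trans (h i j)
  have hL : Known.ChevSubfield.fixedGen (D := D) σ ≤ K := by
    simpa [Known.ChevSubfield.fixedGen, hσ] using hLK
  have htriv : ∀ g ∈ D.group k, g ∈ Subgroup.centralizer (K : Set (GL D.Idx k)) → g = 1 := by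
    intro g hg hc
    refine Known.ChevSubfield.θ_eq_one_of_commute (Cfsg.Agent.ChevGrp.glSys hS) hS hR (g := g)
      (by rw [← Cfsg.Agent.ChevGrp.group_eq hS]; exact hg) fun r _ => ?_
    exact ((Subgroup.mem_centralizer_iff.1 hc) _
      (hL (Subgroup.subset_closure ⟨r, 1, map_one σ, Cfsg.Agent.ChevGrp.val_xGL hS r 1⟩))).symm
  refine ⟨?_, fun g hg => ⟨fun hn => ?_, fun h => ?_⟩⟩
  · rw [eq_bot_iff]
    exact fun g hg => Subgroup.mem_bot.2 (htriv g hg.1 hg.2)
  · rw [← hfix]
    set τ := Known.ChevSubfield.glσ (D := D) σ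
    have hτg : τ g ∈ D.group k := Cfsg.Agent.ChevGrp.map_group_le D σ ⟨g, hg, rfl⟩
    have hK : ∀ x ∈ K, τ x = x := fun x hx => (hfix x).2 (hKfix x hx)
    have h1 : g⁻¹ * τ g = 1 := by
      refine htriv _ (mul_mem (inv_mem hg) hτg) (Subgroup.mem_centralizer_iff.2 fun x hx => ?_)
      have h2 := hK _ ((Subgroup.mem_normalizer_iff.1 hn x).1 hx)
      rw [map_mul, map_mul, map_inv, hK x hx] at h2
      calc x * (g⁻¹ * τ g) = g⁻¹ * (g * x * g⁻¹) * τ g := by group
        _ = g⁻¹ * τ g * x := by rw [← h2]; group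
    exact (inv_mul_eq_one.1 h1).symm
  · exact Known.ChevSubfield.fixed_normalizes hS hR hKG hL (fun x hx => (hfix x).2 (hKfix x hx)) hg ((hfix g).2 h)

end Cfsg.Agent.S2214
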