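import Cfsg.Statements.S2221
import Cfsg.Agent.AltSylowTwo.Decomp

set_option autoImplicit false
open Cfsg Equiv Subgroup

namespace Cfsg.Agent.S2221

theorem small_exponent {n : ℕ} (hn : n = 4 ∨ n = 5) : ∀ σ : Perm (Fin n),
    Perm.sign σ = 1 → σ ^ 4 = 1 → σ ^ 2 = 1 := by
  rcases hn with rfl | rfl <;> decide +kernel

theorem small_card {n : ℕ} (hn : n = 4 ∨ n = 5) (P : Sylow 2 (alternatingGroup (Fin n))) :
    Nat.card P = 4 := by
  haveI : Fact (Nat.Prime 2) := ⟨Nat.prime_two⟩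
  haveI : Nontrivial (Fin n) := Fin.nontrivial_iff_two_le.2 (by omega)
  have hc := two_mul_card_alternatingGroup (α := Fin n)
  rw [Fintype.card_perm, Fintype.card_fin, ← Nat.card_eq_fintype_card] at hc
  have hmul := (P : Subgroup (alternatingGroup (Fin n))).card_mul_index
  have hodd := P.not_dvd_index
  obtain ⟨k, hk⟩ := IsPGroup.iff_card.1 P.2
  rw [hk] at hmul
  show Nat.card (P : Subgroup (alternatingGroup (Fin n))) = 4
  rw [hk]
  have hk6 : k ≤ 6 := by
    by_contra h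
    have h1 : 2 ^ 7 ∣ Nat.card (alternatingGroup (Fin n)) :=
      hmul ▸ Dvd.dvd.mul_right (pow_dvd_pow 2 (by omega)) _
    have := Nat.le_of_dvd Nat.card_pos h1
    rcases hn with rfl | rfl
    · rw [show Nat.factorial 4 = 24 from rfl] at hc; omega
    · rw [show Nat.factorial 5 = 120 from rfl] at hc; omega
  rcases hn with rfl | rfl
  · rw [show Nat.factorial 4 = 24 from rfl] at hc
    interval_cases k <;> omega
  · rw [show Nat.factorial 5 = 120 from rfl] at hc
    interval_cases k <;> omega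

theorem small_decomp {n : ℕ} (hn : n = 4 ∨ n = 5) (P : Sylow 2 (alternatingGroup (Fin n))) :
    ∃ S₁ S₂ : Subgroup (alternatingGroup (Fin n)), S₁ ≠ ⊥ ∧ S₂ ≠ ⊥ ∧
        Cfsg.IsInternalDirectProduct S₁ S₂ (P : Subgroup (alternatingGroup (Fin n))) := by
  set Q := (P : Subgroup (alternatingGroup (Fin n)))
  have hQ : Nat.card Q = 4 := small_card hn P
  have hsq : ∀ g ∈ Q, g ^ 2 = 1 := by
    intro g hg
    have h4 : (⟨g, hg⟩ : Q) ^ 4 = 1 := hQ ▸ pow_card_eq_one'
    have h4' : ((g : Perm (Fin n))) ^ 4 = 1 := congrArg (fun x : Q => ((x : alternatingGroup (Fin n)) : Perm (Fin n))) h4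
    exact Subtype.ext (small_exponent hn _ (Perm.mem_alternatingGroup.1 g.2) h4')
  have hinv : ∀ g ∈ Q, g⁻¹ = g := fun g hg => inv_eq_of_mul_eq_one_left (by rw [← pow_two]; exact hsq g hg)
  have hcomm : ∀ a ∈ Q, ∀ b ∈ Q, a * b = b * a := fun a ha b hb => by
    rw [← hinv _ (mul_mem ha hb), mul_inv_rev, hinv a ha, hinv b hb]
  obtain ⟨a, ha, ha1⟩ : ∃ a ∈ Q, a ≠ 1 := by
    by_contra! h
    have h1 : Q = ⊥ := (eq_bot_iff_forall _).2 h
    rw [h1, card_bot] at hQ; omega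
  have hca : Nat.card (zpowers a) ≤ 2 := by
    rw [Nat.card_zpowers]; exact Nat.le_of_dvd two_pos (orderOf_dvd_of_pow_eq_one (hsq a ha))
  obtain ⟨b, hb, hba⟩ : ∃ b ∈ Q, b ∉ zpowers a := by
    by_contra! h
    have := Subgroup.card_le_card_group (G := zpowers a) ⊤
    have := card_le_of_le (show Q ≤ zpowers a from h)
    omega
  have hb1 : b ≠ 1 := fun h => hba (h ▸ one_mem _)
  have hoa : orderOf a = 2 := orderOf_eq_prime (hsq a ha) ha1
  have hob : orderOf b = 2 := orderOf_eq_prime (hsq b hb) hb1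
  have hdisj : zpowers a ⊓ zpowers b = ⊥ := by
    rcases (Nat.dvd_prime Nat.prime_two).1
      ((card_dvd_of_le (inf_le_left : zpowers a ⊓ zpowers b ≤ _)).trans (by rw [Nat.card_zpowers, hoa])) with h | h
    · exact card_eq_one.1 h
    · exfalso
      have e1 := eq_of_le_of_card_ge (inf_le_left : zpowers a ⊓ zpowers b ≤ _) (by rw [Nat.card_zpowers, hoa, h])
      have e2 := eq_of_le_of_card_ge (inf_le_right : zpowers a ⊓ zpowers b ≤ _) (by rw [Nat.card_zpowers, hob, h])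
      exact hba (e1.symm.trans e2 ▸ mem_zpowers b)
  have hle : zpowers a ⊔ zpowers b ≤ Q := sup_le (zpowers_le.2 ha) (zpowers_le.2 hb)
  refine ⟨zpowers a, zpowers b, fun h => ha1 (zpowers_eq_bot.1 h), fun h => hb1 (zpowers_eq_bot.1 h),
    zpowers_le.2 ha, zpowers_le.2 hb,
    fun x hx y hy => hcomm x (zpowers_le.2 ha hx) y (zpowers_le.2 hb hy), hdisj, ?_⟩
  refine eq_of_le_of_card_ge hle ?_
  have hdvd := card_dvd_of_le hle
  have h2 : 2 ∣ Nat.card ↥(zpowers a ⊔ zpowers b) :=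
    hoa ▸ Nat.card_zpowers a ▸ card_dvd_of_le le_sup_left
  rw [hQ] at hdvd ⊢
  have hne : Nat.card ↥(zpowers a ⊔ zpowers b) ≠ 2 := fun h => hba (by
    rw [eq_of_le_of_card_ge (le_sup_left : zpowers a ≤ zpowers a ⊔ zpowers b) (by rw [Nat.card_zpowers, hoa, h])]
    exact mem_sup_right (mem_zpowers b))
  have hpos : 0 < Nat.card ↥(zpowers a ⊔ zpowers b) := Nat.card_pos
  have hle4 := Nat.le_of_dvd (by norm_num) hdvd
  interval_cases h : Nat.card ↥(zpowers a ⊔ zpowers b) <;> omega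

theorem transfer {G : Type*} [Group G] {A : Subgroup G} (Q : Subgroup A) :
    (∃ S₁ S₂ : Subgroup A, S₁ ≠ ⊥ ∧ S₂ ≠ ⊥ ∧ Cfsg.IsInternalDirectProduct S₁ S₂ Q) ↔
    (∃ S₁ S₂ : Subgroup G, S₁ ≠ ⊥ ∧ S₂ ≠ ⊥ ∧
      Cfsg.IsInternalDirectProduct S₁ S₂ (Q.map A.subtype)) := by
  have hi := A.subtype_injective
  constructor
  · rintro ⟨X, Y, hX, hY, h1, h2, hc, hd, hs⟩
    refine ⟨X.map A.subtype, Y.map A.subtype, fun h => hX ((map_eq_bot_iff_of_injective _ hi).1 h),
      fun h => hY ((map_eq_bot_iff_of_injective _ hi).1 h), map_mono h1, map_mono h2, ?_,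
      by rw [← map_inf _ _ _ hi, hd, Subgroup.map_bot], by rw [← Subgroup.map_sup, hs]⟩
    rintro _ ⟨a, ha, rfl⟩ _ ⟨b, hb, rfl⟩
    rw [← map_mul, ← map_mul, hc a ha b hb]
  · rintro ⟨X, Y, hX, hY, h1, h2, hc, hd, hs⟩
    have hXA : X ≤ A := h1.trans (map_subtype_le Q)
    have hYA : Y ≤ A := h2.trans (map_subtype_le Q)
    have eX : (X.subgroupOf A).map A.subtype = X := map_subgroupOf_eq_of_le hXA
    have eY : (Y.subgroupOf A).map A.subtype = Y := map_subgroupOf_eq_of_le hYA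
    refine ⟨X.subgroupOf A, Y.subgroupOf A, fun h => hX (by rw [← eX, h, Subgroup.map_bot]),
      fun h => hY (by rw [← eY, h, Subgroup.map_bot]), ?_, ?_, ?_, ?_, ?_⟩
    · rw [← map_subtype_le_map_subtype, eX]; exact h1
    · rw [← map_subtype_le_map_subtype, eY]; exact h2
    · intro a ha b hb
      exact Subtype.ext (hc _ (mem_subgroupOf.1 ha) _ (mem_subgroupOf.1 hb))
    · refine map_injective hi ?_
      rw [map_inf _ _ _ hi, eX, eY, hd, Subgroup.map_bot]
    · refine map_injective hi ?_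
      rw [Subgroup.map_sup, eX, eY, hs]

/-- Direct decomposability of the Sylow 2-subgroups of the alternating groups. Let n ≥ 4 and let P be a Sylow 2-subgroup of the alternating group of degree n. Then P is the internal direct product of two nontrivial subgroups if and only if n = 4, n = 5, or n ≡ 2, 3 (mod 4) with 4⌊n/4⌋ not a power of 2. In the remaining cases (n ≡ 0, 1 (mod 4) with n ≥ 8, or n ≡ 2, 3 (mod 4) with 4⌊n/4⌋ a power of 2) P is directly indecomposable. -/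
theorem result (n : ℕ) (hn : 4 ≤ n)
    (P : Sylow 2 (alternatingGroup (Fin n))) :
    (∃ S₁ S₂ : Subgroup (alternatingGroup (Fin n)), S₁ ≠ ⊥ ∧ S₂ ≠ ⊥ ∧
        Cfsg.IsInternalDirectProduct S₁ S₂ (P : Subgroup (alternatingGroup (Fin n)))) ↔
      (n = 4 ∨ n = 5 ∨ ((n % 4 = 2 ∨ n % 4 = 3) ∧ ∀ r : ℕ, 4 * (n / 4) ≠ 2 ^ r)) := by
  by_cases h45 : n = 4 ∨ n = 5
  · exact iff_of_true (small_decomp h45 P) (h45.elim Or.inl fun h => Or.inr (Or.inl h))
  have h6 : 6 ≤ n := by omega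
  obtain ⟨Q, hQ⟩ := (P.2.map (alternatingGroup (Fin n)).subtype).exists_le_sylow
  have heq : (AltSylowTwo.evenPart Q).subgroupOf (alternatingGroup (Fin n)) = P := by
    refine P.3 ((Q.2.to_le (inf_le_left : AltSylowTwo.evenPart Q ≤ _)).comap_subtype) ?_
    intro x hx
    exact mem_subgroupOf.2 ⟨hQ ⟨x, hx, rfl⟩, x.2⟩
  rw [transfer, ← heq, map_subgroupOf_eq_of_le (H := AltSylowTwo.evenPart Q) inf_le_right,
    AltSylowTwo.decomposable_iff Q (by rwa [Fintype.card_fin]), Fintype.card_fin]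
  constructor
  · exact fun h => Or.inr (Or.inr h)
  · rintro (h | h | h)
    · omega
    · omega
    · exact h

end Cfsg.Agent.S2221
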