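import Cfsg.Statements.S2222
import Cfsg.Agent.Known.Pronormal
import Cfsg.Agent.Known.SylowTwoSym

set_option autoImplicit false
open Cfsg

namespace Cfsg.Agent.S2222

/-- In the alternating group of degree n ≥ 5 every subgroup H of odd index is pronormal: for every element g, the subgroups H and gHg⁻¹ are conjugate by an element of the subgroup they generate. -/
theorem result (n : ℕ) (hn : 5 ≤ n)
    (H : Subgroup (alternatingGroup (Fin n))) (hH : Odd H.index) : Cfsg.IsPronormal H := by
  obtain ⟨S₀⟩ : Nonempty (Sylow 2 H) := inferInstance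
  have hcard : ¬ 2 ∣ ((S₀ : Subgroup H).map H.subtype).index := by
    rw [Subgroup.index_map_subtype]
    exact fun hd => (Nat.prime_two.dvd_mul.mp hd).elim S₀.not_dvd_index
      (Nat.not_even_iff_odd.mpr hH ∘ even_iff_two_dvd.mpr)
  have hPg : IsPGroup 2 ((S₀ : Subgroup H).map H.subtype : Subgroup (alternatingGroup (Fin n))) :=
    S₀.2.map _
  let P : Sylow 2 (alternatingGroup (Fin n)) := hPg.toSylow hcard
  have hPH : (P : Subgroup (alternatingGroup (Fin n))) ≤ H := Subgroup.map_subtype_le _
  rcases Nat.lt_or_ge n 6 with hn6 | hn6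
  · obtain rfl : n = 5 := by omega
    haveI : Nontrivial (Fin 5) := Fin.nontrivial_iff_two_le.mpr (by omega)
    have hc : Nat.card (alternatingGroup (Fin 5)) = 60 := by
      rw [nat_card_alternatingGroup, Nat.card_eq_fintype_card, Fintype.card_fin]
      rfl
    have hP4 : Nat.card (P : Subgroup (alternatingGroup (Fin 5))) = 4 := by
      rw [P.card_eq_multiplicity, hc]
      have h15 : (60 : ℕ) = 2 ^ 2 * 15 := by norm_num
      rw [h15, Nat.factorization_mul (by norm_num) (by norm_num),
        Nat.Prime.factorization_pow Nat.prime_two, Finsupp.coe_add, Pi.add_apply,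
        Finsupp.single_eq_same, Nat.factorization_eq_zero_of_not_dvd (by norm_num : ¬ 2 ∣ 15)]
      norm_num
    have hdvd : H.index ∣ 15 := by
      have h1 := Subgroup.index_dvd_of_le hPH
      have h2 := (P : Subgroup (alternatingGroup (Fin 5))).card_mul_index
      rw [hP4, hc] at h2
      rwa [show (P : Subgroup (alternatingGroup (Fin 5))).index = 15 by omega] at h1
    have hdiv : H.index = 1 ∨ H.index = 3 ∨ H.index = 5 ∨ H.index = 15 := by
      have := Nat.le_of_dvd (by norm_num) hdvd
      interval_cases h : H.index <;> norm_num at hdvd <;> simp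
    have hcoatom : H.index.Prime → IsCoatom H := fun hp => by
      refine ⟨fun h => hp.ne_one (by rw [h, Subgroup.index_top]), fun K hK => ?_⟩
      rcases (Nat.dvd_prime hp).mp (Subgroup.index_dvd_of_le hK.le) with h | h
      · exact Subgroup.index_eq_one.mp h
      · exfalso
        have h1 := Subgroup.relIndex_mul_index hK.le
        rw [h] at h1
        have h2 : H.relIndex K = 1 := Nat.eq_of_mul_eq_mul_right hp.pos (h1.trans (one_mul _).symm)
        exact hK.not_ge (Subgroup.relIndex_eq_one.mp h2)
    rcases hdiv with h | h | h | h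
    · rw [Subgroup.index_eq_one.mp h]
      exact Known.isPronormal_top
    · exact Known.isPronormal_of_isCoatom (hcoatom (by rw [h]; norm_num))
    · exact Known.isPronormal_of_isCoatom (hcoatom (by rw [h]; norm_num))
    · have h2 := H.card_mul_index
      rw [h, hc] at h2
      have : (P : Subgroup (alternatingGroup (Fin 5))) = H :=
        Subgroup.eq_of_le_of_card_ge hPH (by omega)
      exact this ▸ Known.isPronormal_sylow P
  · exact Known.isPronormal_of_sylow_normalizer_le P H hPH
      ((Known.sylowSelfNormalizing_alternating_fin n hn6 P).trans hPH)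

end Cfsg.Agent.S2222
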