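import Cfsg.Statements.S2231
import Cfsg.Agent.Known.Section
import Cfsg.Agent.Perm.Modules

set_option autoImplicit false
open Cfsg

namespace Cfsg.Agent.S2231

theorem comm_of_fix {K : Type*} [Field K] (g h : Matrix.SpecialLinearGroup (Fin 2) K)
    {v : Fin 2 → K} (hv : v ≠ 0)
    (hg : (g : Matrix (Fin 2) (Fin 2) K).mulVec v = v)
    (hh : (h : Matrix (Fin 2) (Fin 2) K).mulVec v = v) : g * h = h * g := by
  have key : ∀ A : Matrix.SpecialLinearGroup (Fin 2) K, (A : Matrix (Fin 2) (Fin 2) K).mulVec v = v →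
      (A 0 0 - 1) * v 0 + A 0 1 * v 1 = 0 ∧ A 1 0 * v 0 + (A 1 1 - 1) * v 1 = 0 ∧
        A 1 1 - 1 = -(A 0 0 - 1) := by
    intro A hA
    have h0 := congrFun hA 0
    have h1 := congrFun hA 1
    simp only [Matrix.mulVec, dotProduct, Fin.sum_univ_two] at h0 h1
    have hd := A.2
    rw [Matrix.det_fin_two] at hd
    have e0 : (A 0 0 - 1) * v 0 + A 0 1 * v 1 = 0 := by linear_combination h0
    have e1 : A 1 0 * v 0 + (A 1 1 - 1) * v 1 = 0 := by linear_combination h1
    refine ⟨e0, e1, ?_⟩
    have hdet : (A 0 0 - 1) * (A 1 1 - 1) - A 0 1 * A 1 0 = 0 := by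
      by_cases hx : v 0 = 0
      · have hy : v 1 ≠ 0 := fun hy => hv (funext fun i => by fin_cases i <;> assumption)
        apply mul_left_cancel₀ hy
        linear_combination (A 0 0 - 1) * e1 - A 1 0 * e0
      · apply mul_left_cancel₀ hx
        linear_combination (A 1 1 - 1) * e0 - A 0 1 * e1
    linear_combination hd - hdet
  obtain ⟨g0, g1, g2⟩ := key g hg
  obtain ⟨h0, h1, h2⟩ := key h hh
  rw [g2] at g1
  rw [h2] at h1
  set α := g 0 0 - 1
  set α' := h 0 0 - 1
  have c1 : g 0 1 * h 1 0 = h 0 1 * g 1 0 ∧ g 0 1 * α' = h 0 1 * α ∧ g 1 0 * α' = h 1 0 * α := by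
    by_cases hx : v 0 = 0
    · have hy : v 1 ≠ 0 := fun hy => hv (funext fun i => by fin_cases i <;> assumption)
      have a1 : α = 0 := by simpa [hx, hy] using g1
      have a2 : α' = 0 := by simpa [hx, hy] using h1
      have a3 : g 0 1 = 0 := by simpa [hx, hy, a1] using g0
      have a4 : h 0 1 = 0 := by simpa [hx, hy, a2] using h0
      simp [a1, a2, a3, a4]
    · refine ⟨?_, ?_, ?_⟩
      · apply mul_left_cancel₀ (mul_ne_zero hx hx)
        linear_combination g 0 1 * v 0 * h1 - h 0 1 * v 0 * g1 + (-(h 0 1) * v 1) * g0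
          + g 0 1 * v 1 * h0
      · apply mul_left_cancel₀ hx
        linear_combination g 0 1 * h0 - h 0 1 * g0
      · apply mul_left_cancel₀ hx
        linear_combination α' * g1 - α * h1
  obtain ⟨c1, c2, c3⟩ := c1
  have eg : g 0 0 = α + 1 := by simp [α]
  have eh : h 0 0 = α' + 1 := by simp [α']
  have eg2 : g 1 1 = -α + 1 := by linear_combination g2
  have eh2 : h 1 1 = -α' + 1 := by linear_combination h2
  refine Matrix.SpecialLinearGroup.ext _ _ fun i j => ?_
  simp only [Matrix.SpecialLinearGroup.coe_mul, Matrix.mul_apply, Fin.sum_univ_two]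
  fin_cases i <;> fin_cases j <;> simp only [Fin.zero_eta, Fin.mk_one, eg, eh, eg2, eh2]
  · linear_combination c1
  · linear_combination (-2 : K) * c2
  · linear_combination (2 : K) * c3
  · linear_combination -c1

/-- Let p be an odd prime and K a finite field of characteristic p. Then Qd(p) (the natural semidirect product of an elementary abelian group of order p² by SL₂(p)) is not involved in the projective special linear group PSL₂(K). -/
theorem result {p : ℕ} [Fact p.Prime] (hp : p ≠ 2) {K : Type*} [Field K] [Fintype K] [CharP K p] : ¬ Cfsg.Involves ↥(Cfsg.qd p) (Matrix.ProjectiveSpecialLinearGroup (Fin 2) K) := by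
  intro hI
  obtain ⟨P, hP, x, hx, y, hy, hne⟩ := Known.qd_exists_noncomm_pSubgroup (p := p) hp
  refine hne (Known.forall_pSubgroup_comm_of_involves hI (fun Q hQ a ha b hb => ?_) P hP x hx y hy)
  obtain ⟨Q', hQ', rfl⟩ := Known.exists_isPGroup_map_eq
    (QuotientGroup.mk' (Subgroup.center (Matrix.SpecialLinearGroup (Fin 2) K)))
    (QuotientGroup.mk'_surjective _) hQ
  obtain ⟨g, hg, rfl⟩ := ha
  obtain ⟨h, hh, rfl⟩ := hb
  let ρ : Representation K Q' (Fin 2 → K) :=
    { toFun := fun u => Matrix.toLin' ((u : Matrix.SpecialLinearGroup (Fin 2) K) : Matrix (Fin 2) (Fin 2) K)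
      map_one' := by simp [Module.End.one_eq_id]
      map_mul' := fun u w => by simp [Matrix.toLin'_mul, Module.End.mul_eq_comp] }
  obtain ⟨v, -, hv, hfix⟩ := Cfsg.Agent.PermLib.exists_fixed_vector hQ' ρ ⊤ (fun _ _ _ => trivial)
    (by simp [top_ne_bot])
  rw [← map_mul, ← map_mul, comm_of_fix g h hv
    (by simpa [ρ, Matrix.toLin'_apply] using hfix ⟨g, hg⟩)
    (by simpa [ρ, Matrix.toLin'_apply] using hfix ⟨h, hh⟩)]

end Cfsg.Agent.S2231
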