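import Cfsg.Statements.S2239
import Cfsg.Agent.Suzuki.Maximal

set_option autoImplicit false
open Cfsg

namespace Cfsg.Agent.S2239

/-- Subfield subgroups of the Suzuki group: let q = 2^(2m+1) and s = 2^(2k+1) with m, k ≥ 1 and 2k+1 dividing 2m+1 (so q is a power of s), both groups realised as stabilisers in SL₄ of the Suzuki–Tits ovoid. Then Sz(q) has a subgroup isomorphic to Sz(s), and any two subgroups of Sz(q) isomorphic to Sz(s) are conjugate. -/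
theorem result {F : Type*} [Field F] [Fintype F] {m : ℕ} (hm : 1 ≤ m) (hF : Fintype.card F = 2 ^ (2 * m + 1)) {K : Type*} [Field K] [Fintype K] {k : ℕ} (hk : 1 ≤ k) (hK : Fintype.card K = 2 ^ (2 * k + 1)) (hdiv : 2 * k + 1 ∣ 2 * m + 1) :
    (∃ S : Subgroup ↥(Cfsg.Sz F m), Nonempty (↥S ≃* ↥(Cfsg.Sz K k))) ∧
    ∀ S₁ S₂ : Subgroup ↥(Cfsg.Sz F m), Nonempty (↥S₁ ≃* ↥(Cfsg.Sz K k)) → Nonempty (↥S₂ ≃* ↥(Cfsg.Sz K k)) →
      ∃ g : ↥(Cfsg.Sz F m), S₂ = S₁.map (MulAut.conj g).toMonoidHom := by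
  haveI : Cfsg.Agent.Suzuki.SuzukiField F m := ⟨hm, hF⟩
  haveI : Cfsg.Agent.Suzuki.SuzukiField K k := ⟨hk, hK⟩
  constructor
  · obtain ⟨ι⟩ := Cfsg.Agent.Suzuki.exists_embedding (F := F) (m := m) (K' := K) (k := k) hdiv
    exact ⟨(Cfsg.Agent.Suzuki.szMap (m := m) ι).range,
      ⟨(MonoidHom.ofInjective (Cfsg.Agent.Suzuki.szMap_injective ι)).symm⟩⟩
  intro S₁ S₂ h₁ h₂
  obtain ⟨g₁, K₁, hK₁, rfl⟩ := Cfsg.Agent.Suzuki.subSz_conj S₁ h₁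
  obtain ⟨g₂, K₂, hK₂, rfl⟩ := Cfsg.Agent.Suzuki.subSz_conj S₂ h₂
  obtain rfl := Cfsg.Agent.Suzuki.subfield_eq_of_card (hK₁.trans hK₂.symm)
  refine ⟨g₂ * g₁⁻¹, ?_⟩
  rw [Subgroup.map_map]
  congr 1
  ext x
  simp [MulAut.conj_apply, mul_assoc]

end Cfsg.Agent.S2239
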