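import Cfsg.Statements.S2241
import Cfsg.Agent.Suzuki.Partition

set_option autoImplicit false
open Cfsg

namespace Cfsg.Agent.S2241

/-- Real 2-elements of the Suzuki group: with q = 2^(2m+1), m ≥ 1, and the group realised as the stabiliser in SL₄ of the Suzuki–Tits ovoid, a non-identity element of a Sylow 2-subgroup is conjugate to its inverse if and only if it is an involution; in particular no element of order 4 is conjugate to its inverse. -/
theorem result {F : Type*} [Field F] [Fintype F] {m : ℕ} (hm : 1 ≤ m) (hF : Fintype.card F = 2 ^ (2 * m + 1)) (P : Sylow 2 ↥(Cfsg.Sz F m)) (g : ↥(Cfsg.Sz F m)) (hg : g ∈ (P : Subgroup ↥(Cfsg.Sz F m))) (h1 : g ≠ 1) :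
    IsConj g g⁻¹ ↔ orderOf g = 2 := by
  haveI : Cfsg.Agent.Suzuki.SuzukiField F m := ⟨hm, hF⟩
  haveI : Fact (Nat.Prime 2) := ⟨Nat.prime_two⟩
  constructor
  · intro hc
    obtain ⟨k, hk⟩ := MulAction.exists_smul_eq (Cfsg.Sz F m)
      (Cfsg.Agent.Suzuki.unipSylow F m) P
    obtain ⟨a, b, hab⟩ := Cfsg.Agent.Suzuki.mem_smul_unipSylow.1 (hk.symm ▸ hg)
    have he : g = k * Cfsg.Agent.Suzuki.gT a b * k⁻¹ := by rw [← hab]; group
    have hc' : IsConj (Cfsg.Agent.Suzuki.gT a b : Cfsg.Sz F m)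
        (Cfsg.Agent.Suzuki.gT a b)⁻¹ := by
      obtain ⟨x, hx⟩ := isConj_iff.1 hc
      refine isConj_iff.2 ⟨k⁻¹ * x * k, ?_⟩
      rw [he, _root_.mul_inv_rev, _root_.mul_inv_rev, inv_inv] at hx
      calc k⁻¹ * x * k * Cfsg.Agent.Suzuki.gT a b * (k⁻¹ * x * k)⁻¹
          = k⁻¹ * (x * (k * Cfsg.Agent.Suzuki.gT a b * k⁻¹) * x⁻¹) * k := by group
        _ = (Cfsg.Agent.Suzuki.gT a b)⁻¹ := by rw [hx]; group
    by_cases ha : a = 0
    · subst ha
      have hb : b ≠ 0 := fun hb => h1 (by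
        rw [he, hb, Cfsg.Agent.Suzuki.gT_zero]; group)
      rw [he, ← MulAut.conj_apply k, MulEquiv.orderOf_eq]
      exact Cfsg.Agent.Suzuki.orderOf_gT_zero hb
    exfalso
    obtain ⟨x, hx⟩ := isConj_iff.1 hc'
    rw [Cfsg.Agent.Suzuki.gT_inv] at hx
    have hfix : x • Cfsg.Agent.Suzuki.oInf F m = Cfsg.Agent.Suzuki.oInf F m := by
      refine Cfsg.Agent.Suzuki.fix_of_unip (Or.inl ha) (b := b + Cfsg.Agent.Suzuki.th F m a * a) ?_
      rw [← hx, mul_smul, inv_smul_smul, mul_smul, Cfsg.Agent.Suzuki.gT_smul_oInf]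
    obtain ⟨c, d, l, rfl⟩ := Cfsg.Agent.Suzuki.exists_gT_gD_of_fix hfix
    rw [mul_inv_eq_iff_eq_mul, mul_assoc, Cfsg.Agent.Suzuki.gD_conj_gT, ← mul_assoc,
      Cfsg.Agent.Suzuki.gT_mul, ← mul_assoc (Cfsg.Agent.Suzuki.gT a _) (Cfsg.Agent.Suzuki.gT c d),
      Cfsg.Agent.Suzuki.gT_mul] at hx
    obtain ⟨e1, e2, -⟩ := Cfsg.Agent.Suzuki.gT_mul_gD_inj hx
    have hl : (l : F) ^ 2 * a = a := by grind
    have hl1 : (l : F) = 1 :=
      Cfsg.Agent.Suzuki.sq_eq_one (m := m) (mul_right_cancel₀ ha (by rw [hl, one_mul]))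
    rw [hl1] at e2
    simp only [map_one, one_pow, one_mul] at e2
    set t := c / a with ht
    have hc2 : c = t * a := by rw [ht]; field_simp
    have hne : Cfsg.Agent.Suzuki.th F m a * a ≠ 0 := mul_ne_zero (by simpa using ha) ha
    have h2 : Cfsg.Agent.Suzuki.th F m t = t + 1 := by
      apply mul_right_cancel₀ hne
      rw [hc2, map_mul] at e2
      grind
    have h3 : t ^ 2 = t := by
      rw [← Cfsg.Agent.Suzuki.th_th t, h2, map_add, map_one, h2]; grind
    have h4 : t = 0 ∨ t = 1 := by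
      have : t * (t - 1) = 0 := by linear_combination h3
      simpa [sub_eq_zero] using this
    rcases h4 with h4 | h4 <;> rw [h4] at h2 <;> simp at h2
  · intro h2
    have : g⁻¹ = g := inv_eq_of_mul_eq_one_right (by rw [← sq, ← h2, pow_orderOf_eq_one])
    rw [this]

end Cfsg.Agent.S2241
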