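import Cfsg.Statements.S2244
import Cfsg.Agent.ChevGrp.WeaklyClosedData
import Cfsg.Agent.Chev.Rules

set_option autoImplicit false
open Cfsg

namespace Cfsg.Agent.S2244

/-- Weakly closed unipotent subgroups of Chevalley groups: let G be the Chevalley group of type G₂, B₂, D₄, F₄, E₆, E₇ or E₈ over a finite field F (the matrix group generated by the root elements), with |F| ≠ 2, and |F| ≠ 3 as well for the types G₂, B₂, D₄, F₄. Let U be the subgroup generated by the positive root subgroups. If X ≤ U is weakly closed in U with respect to G (every G-conjugate of X lying in U equals X), then X is the unipotent radical U_J of a standard parabolic subgroup for some set J of fundamental roots. -/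
theorem result {F : Type*} [Field F] [Fintype F] (D : Cfsg.Lie.ChevalleyDatum) (hD : D ∈ [Cfsg.Lie.chevG2, Cfsg.Lie.chevB2, Cfsg.Lie.chevD4, Cfsg.Lie.chevF4, Cfsg.Lie.chevE6, Cfsg.Lie.chevE7, Cfsg.Lie.chevE8])
    (h2 : Fintype.card F ≠ 2) (h3 : D ∈ [Cfsg.Lie.chevG2, Cfsg.Lie.chevB2, Cfsg.Lie.chevD4, Cfsg.Lie.chevF4] → Fintype.card F ≠ 3)
    (X : Subgroup (GL D.Idx F)) (hXU : X ≤ D.posUnipotent F)
    (hwc : ∀ g ∈ D.group F, X.map (MulAut.conj g).toMonoidHom ≤ D.posUnipotent F → X.map (MulAut.conj g).toMonoidHom = X) :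
    ∃ J : Set ℕ, (∀ j ∈ J, j < D.rank) ∧ X = D.unipotentRadical F J := by
  have hq : 3 ≤ Fintype.card F := by
    have := Fintype.one_lt_card (α := F)
    omega
  obtain ⟨hC, hP⟩ : ChevGrp.CommData D F ∧ ChevGrp.SepData D F := by
    have hD' := hD
    simp only [List.mem_cons, List.not_mem_nil, or_false] at hD' h3
    rcases hD' with rfl | rfl | rfl | rfl | rfl | rfl | rfl
    · exact ChevGrp.wcData_G2 (by have := h3 (by simp); omega)
    · exact ChevGrp.wcData_B2 (by have := h3 (by simp); omega)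
    · exact ChevGrp.wcData_D4 (by have := h3 (by simp); omega)
    · exact ChevGrp.wcData_F4 (by have := h3 (by simp); omega)
    · exact ChevGrp.wcData_E6 hq
    · exact ChevGrp.wcData_E7 hq
    · exact ChevGrp.wcData_E8 hq
  have hS := Chev.rules_of_mem F hD
  obtain ⟨len, hR⟩ := hS.root
  rw [ChevGrp.posUnipotent_eq hS] at hXU hwc
  rw [ChevGrp.group_eq hS] at hwc
  obtain ⟨J, hJ, e⟩ := (ChevGrp.glSys hS).eq_UJ_of_weaklyClosed hS hR hC hP hXU hwc
  exact ⟨J, hJ, e.trans (ChevGrp.unipotentRadical_eq hS J).symm⟩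

end Cfsg.Agent.S2244
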