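import Cfsg.Statements.S2245
import Cfsg.Agent.UniqueMaxAlt.Main

set_option autoImplicit false
open Cfsg

namespace Cfsg.Agent.S2245

/-- For n ≥ 5 with n ≠ 6, a Sylow 2-subgroup of the alternating group A_n lies in exactly one maximal subgroup of A_n if and only if n = 2^k + 1 for some k ≥ 2; the same holds for the symmetric group S_n. -/
theorem result (n : ℕ) (hn : 5 ≤ n) (h6 : n ≠ 6) :
    ((∀ R : Sylow 2 ↥(alternatingGroup (Fin n)), (∃! M : Subgroup ↥(alternatingGroup (Fin n)), IsCoatom M ∧ (R : Subgroup ↥(alternatingGroup (Fin n))) ≤ M) ↔ ∃ k : ℕ, 2 ≤ k ∧ n = 2 ^ k + 1) ∧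
    (∀ R : Sylow 2 (Equiv.Perm (Fin n)), (∃! M : Subgroup (Equiv.Perm (Fin n)), IsCoatom M ∧ (R : Subgroup (Equiv.Perm (Fin n))) ≤ M) ↔ ∃ k : ℕ, 2 ≤ k ∧ n = 2 ^ k + 1)) := by
  obtain ⟨k, hk1, hk2⟩ : ∃ k, 2 ^ k ≤ n ∧ n < 2 ^ (k + 1) :=
    ⟨Nat.log 2 n, Nat.pow_log_le_self 2 (by omega), Nat.lt_pow_succ_log_self (by norm_num) n⟩
  suffices h : Cfsg.Agent.UniqueMaxAlt.Ans (Fin n) (∃ k : ℕ, 2 ≤ k ∧ n = 2 ^ k + 1) from h
  rcases Nat.even_or_odd n with heven | hodd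
  · have hF : ¬ ∃ k : ℕ, 2 ≤ k ∧ n = 2 ^ k + 1 := by
      rintro ⟨j, hj, rfl⟩
      have : Even (2 ^ j) := (Nat.even_pow' (by omega)).2 even_two
      rw [Nat.even_iff] at this heven
      omega
    rw [eq_false hF]
    obtain ⟨m, hm⟩ := heven
    have e : Cfsg.Agent.Known.Pairing m 0 ≃ Fin n := Fintype.equivOfCardEq (by simp; omega)
    refine Cfsg.Agent.UniqueMaxAlt.Ans.congr e ?_
    obtain ⟨j, hj1, hj2⟩ : ∃ j, 2 ^ j ≤ m ∧ m < 2 ^ (j + 1) :=
      ⟨Nat.log 2 m, Nat.pow_log_le_self 2 (by omega), Nat.lt_pow_succ_log_self (by norm_num) m⟩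
    rcases hj1.eq_or_lt with hj | hj
    · obtain ⟨i, rfl⟩ : ∃ i, j = i + 1 := by
        rcases j with _ | i
        · omega
        · exact ⟨i, rfl⟩
      exact Cfsg.Agent.UniqueMaxAlt.ans_false_pow (k := i) (by rw [← hj, pow_succ, mul_comm]) (by omega)
    · exact Cfsg.Agent.UniqueMaxAlt.ans_false_even (k := j) (r := m - 2 ^ j) (by omega)
        (by rw [pow_succ] at hj2; omega) (by omega) (by omega)
  · by_cases hP : ∃ k : ℕ, 2 ≤ k ∧ n = 2 ^ k + 1
    · rw [eq_true hP]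
      obtain ⟨j, hj, hn'⟩ := hP
      obtain ⟨m, hm⟩ : ∃ m, 2 * m = 2 ^ j := by
        rcases j with _ | i
        · omega
        · exact ⟨2 ^ i, by rw [pow_succ, mul_comm]⟩
      have e : Cfsg.Agent.Known.Pairing m 1 ≃ Fin n := Fintype.equivOfCardEq (by simp; omega)
      exact Cfsg.Agent.UniqueMaxAlt.Ans.congr e (Cfsg.Agent.UniqueMaxAlt.ans_true j hj hm)
    · rw [eq_false hP]
      have hk : 2 ≤ k := by
        by_contra h
        have h' := Nat.pow_le_pow_right two_pos (show k + 1 ≤ 2 by omega)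
        omega
      have hne : n ≠ 2 ^ k + 1 := fun h => hP ⟨k, hk, h⟩
      have hev : 2 ^ k % 2 = 0 := by
        rw [← Nat.even_iff]; exact (Nat.even_pow' (by omega)).2 even_two
      refine Cfsg.Agent.UniqueMaxAlt.ans_false_odd n k (Fintype.card_fin n).symm ?_ hk2 hodd
      rw [Nat.odd_iff] at hodd
      omega

end Cfsg.Agent.S2245
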