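-- statement Cfsg.CfsgFrozen.S2254 (Cfsg/Statements/S2254.lean; the theorem Cfsg.sym_large_nilpotent_subgroup_three_mod_four);
import Cfsg.Statements.S2254
import Cfsg.Agent.NilPerm.ThreeMod

set_option autoImplicit false
open Cfsg

namespace Cfsg.Agent.S2254

open Cfsg.Agent
theorem exists_model (n : ℕ) (h3 : 3 ≤ n) (P : Sylow 2 (Equiv.Perm (Fin (n - 3)))) :
    ∃ M : Subgroup (Equiv.Perm (Fin n)), Group.IsNilpotent M ∧ Nat.card M = 3 * Nat.card P ∧
      Nonempty (M ≃* (↥(P : Subgroup (Equiv.Perm (Fin (n - 3)))) × Multiplicative (ZMod 3))) := by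
  haveI : Fact (Nat.Prime 2) := ⟨Nat.prime_two⟩
  let Mz := Multiplicative (ZMod 3)
  have hM : Nat.card Mz = 3 := by
    rw [Nat.card_congr Multiplicative.toAdd, Nat.card_zmod]
  let e : Fin (n - 3) ⊕ Mz ≃ Fin n := Fintype.equivOfCardEq (by
    rw [Fintype.card_sum, Fintype.card_fin, Fintype.card_fin, ← Nat.card_eq_fintype_card, hM]
    omega)
  let ψ : Mz →* Equiv.Perm Mz := MulAction.toPermHom Mz Mz
  let f : ↥(P : Subgroup (Equiv.Perm (Fin (n - 3)))) × Mz →* Equiv.Perm (Fin n) :=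
    e.permCongrHom.toMonoidHom.comp ((Equiv.Perm.sumCongrHom (Fin (n - 3)) Mz).comp
      (MonoidHom.prodMap (P : Subgroup (Equiv.Perm (Fin (n - 3)))).subtype ψ))
  have hf : Function.Injective f := by
    refine e.permCongrHom.injective.comp (Equiv.Perm.sumCongrHom_injective.comp ?_)
    exact Function.Injective.prodMap Subtype.val_injective MulAction.toPerm_injective
  haveI : Group.IsNilpotent ↥(P : Subgroup (Equiv.Perm (Fin (n - 3)))) := P.2.isNilpotent
  let φ := MonoidHom.ofInjective hf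
  refine ⟨f.range, Group.nilpotent_of_surjective φ.toMonoidHom φ.surjective, ?_, ⟨φ.symm⟩⟩
  rw [← Nat.card_congr φ.toEquiv, Nat.card_prod, hM, mul_comm]

/-- Let n ≡ 3 (mod 4). Then every nilpotent subgroup of the symmetric group on n letters has order at most 3 times the order of a Sylow 2-subgroup of the symmetric group on n − 3 letters; the bound is attained by a nilpotent subgroup isomorphic to the direct product of such a Sylow 2-subgroup with a cyclic group of order 3; and any two nilpotent subgroups attaining the bound are conjugate. -/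
theorem result  (n : ℕ) (hn : n % 4 = 3)
    (P : Sylow 2 (Equiv.Perm (Fin (n - 3)))) :
    (∀ N : Subgroup (Equiv.Perm (Fin n)), Group.IsNilpotent N → Nat.card N ≤ 3 * Nat.card P) ∧
    (∃ M : Subgroup (Equiv.Perm (Fin n)), Group.IsNilpotent M ∧ Nat.card M = 3 * Nat.card P ∧
      Nonempty (M ≃* (↥(P : Subgroup (Equiv.Perm (Fin (n - 3)))) × Multiplicative (ZMod 3)))) ∧
    (∀ N₁ N₂ : Subgroup (Equiv.Perm (Fin n)), Group.IsNilpotent N₁ → Group.IsNilpotent N₂ →
      Nat.card N₁ = 3 * Nat.card P → Nat.card N₂ = 3 * Nat.card P →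
      ∃ g : Equiv.Perm (Fin n), N₂ = N₁.map (MulAut.conj g).toMonoidHom) := by
  haveI : Fact (Nat.Prime 2) := ⟨Nat.prime_two⟩
  have h3 : 3 ≤ n := by omega
  have hP : Nat.card P = 2 ^ NilPerm.v (n - 3) := NilPerm.card_sylow_perm _ P
  refine ⟨fun N hN => ?_, exists_model n h3 P, fun N₁ N₂ hN₁ hN₂ hc₁ hc₂ => ?_⟩
  · rw [hP, ← NilPerm.g_of_eq hn]
    exact (NilPerm.card_le n (Fin n) N (Fintype.card_fin n) hN).1
  · rw [hP] at hc₁ hc₂
    obtain ⟨z₁, hz₁, ht₁, hle₁⟩ := NilPerm.exists_threeCycle N₁ hN₁ hc₁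
      (by rw [Fintype.card_fin]; exact hn) (by rw [Fintype.card_fin]; omega)
    obtain ⟨z₂, hz₂, ht₂, hle₂⟩ := NilPerm.exists_threeCycle N₂ hN₂ hc₂
      (by rw [Fintype.card_fin]; exact hn) (by rw [Fintype.card_fin]; omega)
    obtain ⟨h, hh⟩ := isConj_iff.1 (Equiv.Perm.isConj_iff_cycleType_eq.2 (ht₁.trans ht₂.symm))
    exact NilPerm.conj_of_threeElem hc₁ hc₂ hz₂ hz₁ ht₂.orderOf hle₁ hle₂ hh
      (by rw [NilPerm.fact_centralizer ht₂, Fintype.card_fin])

end Cfsg.Agent.S2254
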