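-- statement Cfsg.CfsgFrozen.S2255 (Cfsg/Statements/S2255.lean; the theorem Cfsg.alt_large_nilpotent_subgroup_is_sylow_two);
import Cfsg.Statements.S2255
import Cfsg.Agent.NilPerm.ThreeMod

set_option autoImplicit false
open Cfsg

namespace Cfsg.Agent.S2255

/-- Let n be a natural number not congruent to 3 modulo 4, with n ∉ {5, 6, 9}. Then every nilpotent subgroup of the alternating group on n letters has order at most the order of a Sylow 2-subgroup of the alternating group (so the nilpotent subgroups of largest order are exactly the Sylow 2-subgroups). -/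
theorem result  (n : ℕ) (hn : n % 4 ≠ 3)
    (h5 : n ≠ 5) (h6 : n ≠ 6) (h9 : n ≠ 9)
    (N : Subgroup (alternatingGroup (Fin n))) (hN : Group.IsNilpotent N)
    (P : Sylow 2 (alternatingGroup (Fin n))) :
    Nat.card N ≤ Nat.card P := by
  have hle := Cfsg.Agent.NilPerm.alternating_card_le N hN
  rcases Nat.lt_or_ge n 2 with h | h
  · refine hle.trans ?_
    rw [Cfsg.Agent.NilPerm.aBound, if_pos (show n ≤ 1 by omega)]
    exact Nat.card_pos
  · refine hle.trans ?_
    rw [Cfsg.Agent.NilPerm.aBound, if_neg (show ¬ n ≤ 1 by omega), if_neg (show n ≠ 3 by omega),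
      if_neg h5, if_neg h6, if_neg h9, Cfsg.Agent.NilPerm.g_of_ne hn, Sylow.card_eq_multiplicity,
      ← Cfsg.Agent.NilPerm.fact_card_alternating h, pow_succ, Nat.mul_div_cancel _ two_pos]

end Cfsg.Agent.S2255
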