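-- statement Cfsg.CfsgFrozen.S2256 (Cfsg/Statements/S2256.lean; the theorem Cfsg.alt_large_nilpotent_subgroup_three_mod_four);
import Cfsg.Statements.S2256
import Cfsg.Agent.NilPerm.ThreeMod

set_option autoImplicit false
open Cfsg

namespace Cfsg.Agent.S2256

open Cfsg.Agent
theorem exists_model (n : ℕ) (h3 : 3 ≤ n) (P : Sylow 2 (alternatingGroup (Fin (n - 3)))) :
    ∃ M : Subgroup (alternatingGroup (Fin n)), Group.IsNilpotent M ∧ Nat.card M = 3 * Nat.card P ∧
      Nonempty (M ≃* (↥(P : Subgroup (alternatingGroup (Fin (n - 3)))) × Multiplicative (ZMod 3))) := by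
  haveI : Fact (Nat.Prime 2) := ⟨Nat.prime_two⟩
  let Mz := Multiplicative (ZMod 3)
  have hM : Nat.card Mz = 3 := by
    rw [Nat.card_congr Multiplicative.toAdd, Nat.card_zmod]
  let e : Fin (n - 3) ⊕ Mz ≃ Fin n := Fintype.equivOfCardEq (by
    rw [Fintype.card_sum, Fintype.card_fin, Fintype.card_fin, ← Nat.card_eq_fintype_card, hM]
    omega)
  let ψ : Mz →* Equiv.Perm Mz := MulAction.toPermHom Mz Mz
  let f₀ : ↥(P : Subgroup (alternatingGroup (Fin (n - 3)))) × Mz →* Equiv.Perm (Fin n) :=
    e.permCongrHom.toMonoidHom.comp ((Equiv.Perm.sumCongrHom (Fin (n - 3)) Mz).comp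
      (MonoidHom.prodMap ((alternatingGroup (Fin (n - 3))).subtype.comp
        (P : Subgroup (alternatingGroup (Fin (n - 3)))).subtype) ψ))
  have hf₀ : Function.Injective f₀ := by
    refine e.permCongrHom.injective.comp (Equiv.Perm.sumCongrHom_injective.comp ?_)
    exact Function.Injective.prodMap (Subtype.val_injective.comp Subtype.val_injective)
      MulAction.toPerm_injective
  have hsign : ∀ x, f₀ x ∈ alternatingGroup (Fin n) := by
    intro x
    rw [Equiv.Perm.mem_alternatingGroup]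
    show Equiv.Perm.sign (e.permCongr (Equiv.Perm.sumCongr _ _)) = 1
    rw [Equiv.Perm.sign_permCongr, Equiv.Perm.sign_sumCongr]
    show Equiv.Perm.sign _ * Equiv.Perm.sign (ψ x.2) = 1
    rw [NilPerm.sign_eq_one_of_pow (k := 3) (by norm_num) (σ := ψ x.2) (by
      rw [← map_pow, (show x.2 ^ 3 = 1 from (congrArg (x.2 ^ ·) hM).symm.trans pow_card_eq_one'), map_one]), mul_one]
    exact Equiv.Perm.mem_alternatingGroup.1 ((x.1 : alternatingGroup (Fin (n - 3)))).2
  let f := f₀.codRestrict _ hsign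
  have hf : Function.Injective f := fun a b h => hf₀ (congrArg Subtype.val h)
  haveI : Group.IsNilpotent ↥(P : Subgroup (alternatingGroup (Fin (n - 3)))) := P.2.isNilpotent
  let φ := MonoidHom.ofInjective hf
  refine ⟨f.range, Group.nilpotent_of_surjective φ.toMonoidHom φ.surjective, ?_, ⟨φ.symm⟩⟩
  rw [← Nat.card_congr φ.toEquiv, Nat.card_prod, hM, mul_comm]

/-- Let n ≡ 3 (mod 4) with n ≥ 7. Then every nilpotent subgroup of the alternating group on n letters has order at most 3 times the order of a Sylow 2-subgroup of the alternating group on n − 3 letters; the bound is attained by a nilpotent subgroup isomorphic to the direct product of such a Sylow 2-subgroup with a cyclic group of order 3; and any two nilpotent subgroups of the alternating group attaining the bound are conjugate in it. -/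
theorem result  (n : ℕ) (hn : n % 4 = 3) (h7 : 7 ≤ n)
    (P : Sylow 2 (alternatingGroup (Fin (n - 3)))) :
    (∀ N : Subgroup (alternatingGroup (Fin n)), Group.IsNilpotent N → Nat.card N ≤ 3 * Nat.card P) ∧
    (∃ M : Subgroup (alternatingGroup (Fin n)), Group.IsNilpotent M ∧ Nat.card M = 3 * Nat.card P ∧
      Nonempty (M ≃* (↥(P : Subgroup (alternatingGroup (Fin (n - 3)))) × Multiplicative (ZMod 3)))) ∧
    (∀ N₁ N₂ : Subgroup (alternatingGroup (Fin n)), Group.IsNilpotent N₁ → Group.IsNilpotent N₂ →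
      Nat.card N₁ = 3 * Nat.card P → Nat.card N₂ = 3 * Nat.card P →
      ∃ g : alternatingGroup (Fin n), N₂ = N₁.map (MulAut.conj g).toMonoidHom) := by
  haveI : Fact (Nat.Prime 2) := ⟨Nat.prime_two⟩
  have hv := NilPerm.fact_card_alternating (show 2 ≤ n - 3 by omega)
  set e := (Nat.card (alternatingGroup (Fin (n - 3)))).factorization 2 with he
  have hP : Nat.card P = 2 ^ e := Sylow.card_eq_multiplicity P
  refine ⟨fun N hN => ?_, exists_model n (by omega) P, fun N₁ N₂ hN₁ hN₂ hc₁ hc₂ => ?_⟩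
  · refine (NilPerm.alternating_card_le N hN).trans ?_
    rw [hP, NilPerm.aBound, if_neg (show ¬ n ≤ 1 by omega), if_neg (show n ≠ 3 by omega),
      if_neg (show n ≠ 5 by omega), if_neg (show n ≠ 6 by omega), if_neg (show n ≠ 9 by omega),
      NilPerm.g_of_eq hn, ← hv, pow_succ, ← mul_assoc, Nat.mul_div_cancel _ two_pos]
  · rw [hP] at hc₁ hc₂
    have get : ∀ N : Subgroup (alternatingGroup (Fin n)), Group.IsNilpotent N →
        Nat.card N = 3 * 2 ^ e → ∃ z ∈ N, (z : Equiv.Perm (Fin n)).IsThreeCycle ∧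
          N ≤ Subgroup.centralizer {z} := by
      intro N hN hc
      obtain ⟨h1, -, h3⟩ := NilPerm.map_subtype_facts N
      obtain ⟨z, ⟨w, hw, rfl⟩, ht, hle⟩ := NilPerm.exists_threeCycle _ (h3 hN) (h1.trans hc)
        (by rw [Fintype.card_fin]; exact hn) (by rw [Fintype.card_fin]; omega)
      exact ⟨w, hw, ht, fun a ha => Subgroup.mem_centralizer_singleton_iff.2 (Subtype.ext
        (Subgroup.mem_centralizer_singleton_iff.1 (hle ⟨a, ha, rfl⟩)))⟩
    obtain ⟨z₁, hz₁, ht₁, hle₁⟩ := get N₁ hN₁ hc₁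
    obtain ⟨z₂, hz₂, ht₂, hle₂⟩ := get N₂ hN₂ hc₂
    obtain ⟨h, hh⟩ := isConj_iff.1 (alternatingGroup.isThreeCycle_isConj
      (by rw [Nat.card_fin]; omega) ht₁ ht₂)
    have hord : orderOf z₂ = 3 := by rw [← Subgroup.orderOf_coe]; exact ht₂.orderOf
    have hfc := NilPerm.fact_centralizer_alternating ht₂ (by rw [Fintype.card_fin]; omega)
    rw [Fintype.card_fin, ← hv] at hfc
    exact NilPerm.conj_of_threeElem hc₁ hc₂ hz₂ hz₁ hord hle₁ hle₂ hh (by omega)

end Cfsg.Agent.S2256
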