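import Cfsg.Statements.S2257
import Cfsg.Agent.SolubPSL.Count

set_option autoImplicit false
set_option linter.style.haveILetI false
open Cfsg Cfsg.Agent.SolubPSL Cfsg.Agent.Linear.Classes
open scoped MatrixGroups

namespace Cfsg.Agent.S2257

theorem ncard_pairs {F : Type*} [Field F] [Fintype F] :
    {z : F × F | z.2 ≠ 0 ∧ (z.1 = 0 ∨ z.1 = z.2)}.ncard = 2 * (Fintype.card F - 1) := by
  classical
  have e : {z : F × F | z.2 ≠ 0 ∧ (z.1 = 0 ∨ z.1 = z.2)} =
      ((fun c : F => ((0 : F), c)) '' {(0 : F)}ᶜ) ∪ ((fun c : F => (c, c)) '' {(0 : F)}ᶜ) := by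
    ext ⟨u, c⟩
    simp only [Set.mem_ofPred_eq, Set.mem_union, Set.mem_image, Set.mem_compl_iff,
      Set.mem_singleton_iff, Prod.mk.injEq]
    constructor
    · rintro ⟨hc, rfl | rfl⟩
      exacts [Or.inl ⟨c, hc, rfl, rfl⟩, Or.inr ⟨u, hc, rfl, rfl⟩]
    · rintro (⟨d, hd, rfl, rfl⟩ | ⟨d, hd, rfl, rfl⟩)
      exacts [⟨hd, Or.inl rfl⟩, ⟨hd, Or.inr rfl⟩]
  have hdis : Disjoint ((fun c : F => ((0 : F), c)) '' {(0 : F)}ᶜ)
      ((fun c : F => (c, c)) '' {(0 : F)}ᶜ) := by
    rw [Set.disjoint_left]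
    rintro _ ⟨c, hc, rfl⟩ ⟨d, hd, he⟩
    exact hd (congrArg Prod.fst he)
  rw [e, Set.ncard_union_eq hdis, Set.ncard_image_of_injective _ (fun a b h => congrArg Prod.snd h),
    Set.ncard_image_of_injective _ (fun a b h => congrArg Prod.snd h), Set.ncard_compl,
    Set.ncard_singleton, Nat.card_eq_fintype_card]
  omega

/-- Let G = PSL_2(F) with F a field of order q = 2^p, p prime, and for x ∈ G call the solubilizer of x the set of y ∈ G such that x and y generate a solvable subgroup. Then the solubilizer of an involution has 3q(q − 1) elements; that of a non-identity element of order dividing q − 1 has 2q(q − 1) elements; and that of a non-identity element of order dividing q + 1 has 2(q + 1) elements. -/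
theorem result (p : ℕ) (hp : p.Prime) {F : Type*} [Field F] [Fintype F]
    (hF : Fintype.card F = 2 ^ p) (x : Matrix.ProjectiveSpecialLinearGroup (Fin 2) F) :
    (orderOf x = 2 → Nat.card {y : Matrix.ProjectiveSpecialLinearGroup (Fin 2) F // Group.IsSolvable ↥(Subgroup.closure ({x, y} : Set (Matrix.ProjectiveSpecialLinearGroup (Fin 2) F)))} = 3 * 2 ^ p * (2 ^ p - 1)) ∧
    (x ≠ 1 → orderOf x ∣ 2 ^ p - 1 → Nat.card {y : Matrix.ProjectiveSpecialLinearGroup (Fin 2) F // Group.IsSolvable ↥(Subgroup.closure ({x, y} : Set (Matrix.ProjectiveSpecialLinearGroup (Fin 2) F)))} = 2 * 2 ^ p * (2 ^ p - 1)) ∧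
    (x ≠ 1 → orderOf x ∣ 2 ^ p + 1 → Nat.card {y : Matrix.ProjectiveSpecialLinearGroup (Fin 2) F // Group.IsSolvable ↥(Subgroup.closure ({x, y} : Set (Matrix.ProjectiveSpecialLinearGroup (Fin 2) F)))} = 2 * (2 ^ p + 1)) := by
  have hp2 := hp.two_le
  haveI : Fact (Nat.Prime 2) := ⟨Nat.prime_two⟩
  haveI : CharP F 2 := charP_of_card_eq_prime_pow (f := p) hF
  have h2 : (2 : F) = 0 := CharTwo.two_eq_zero
  have h4 : (4 : F) = 0 := by rw [show (4 : F) = 2 * 2 by norm_num, h2, mul_zero]
  set q := Fintype.card F with hq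
  have hev : 2 ∣ q := hF ▸ dvd_pow_self 2 (by omega)
  have hq4 : 4 ≤ q := by rw [hF]; exact le_trans (by norm_num) (Nat.pow_le_pow_right two_pos hp2)
  have hgcd : Nat.gcd 2 (q - 1) = 1 := (Nat.prime_two.coprime_iff_not_dvd).2 (by omega)
  have h8 : 2 ≠ 2 → ¬ 8 ∣ Nat.card (Matrix.ProjectiveSpecialLinearGroup (Fin 2) F) := fun h => absurd rfl h
  obtain ⟨g, rfl⟩ := proj_surjective x
  have count := card_solv_proj g
  rw [← hq, hgcd, one_mul] at count
  rw [count, ← hF]
  have hns : proj g ≠ 1 → Nonscalar (g : Matrix (Fin 2) (Fin 2) F) := fun h => by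
    by_contra hn; exact h (proj_eq_one_iff.2 hn)
  have ordtr : proj g ≠ 1 → Odd (orderOf (proj g)) → tr g ≠ 0 := fun h ho ht => by
    have h2' := orderOf_dvd_of_pow_eq_one ((proj_sq_eq_one (hns h)).2 ht)
    rcases (Nat.dvd_prime Nat.prime_two).1 h2' with e | e
    · exact h (orderOf_eq_one_iff.1 e)
    · rw [e] at ho; exact absurd ho (by decide)
  refine ⟨fun ho => ?_, fun h1 hd => ?_, fun h1 hd => ?_⟩
  · have h1 : proj g ≠ 1 := fun e => by rw [orderOf_eq_one_iff.2 e] at ho; omega
    have ht : tr g = tr (unip : SL(2, F)) := by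
      rw [tr_unip, h2]
      exact (proj_sq_eq_one (hns h1)).1 (by have e := pow_orderOf_eq_one (proj g); rwa [ho] at e)
    rw [card_solv_congr (hns h1) unip_nonscalar ht,
      card_solv_unip 2 h8 {z : F × F | z.2 ≠ 0 ∧ (z.1 = 0 ∨ z.1 = z.2)} ?_ (fun z hz => hz.1),
      ncard_pairs, ← hq]
    · obtain ⟨k, hk⟩ : ∃ k, q = k + 1 := ⟨q - 1, by omega⟩
      rw [hk, Nat.add_sub_cancel]; ring
    · intro u c hc
      simp only [Dih, Tet, Set.mem_ofPred_eq, h2]
      constructor
      · rintro ((⟨-, h⟩ | ⟨-, h⟩ | ⟨h, -⟩) | ⟨-, a, b⟩ | ⟨-, h, -⟩ | ⟨h, -, -⟩)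
        · exact ⟨hc, Or.inl h⟩
        · exact ⟨hc, Or.inr (by linear_combination h - c * h2)⟩
        · exact ⟨hc, Or.inl h⟩
        · refine absurd (pow_eq_zero_iff (n := 2) two_ne_zero |>.1 ?_) hc
          linear_combination b - a - u * c * h2
        · exact absurd h (by simp)
        · exact absurd h (by simp)
      · rintro ⟨-, h | h⟩
        · exact Or.inl (Or.inl ⟨trivial, h⟩)
        · exact Or.inl (Or.inr (Or.inl ⟨trivial, by linear_combination h + c * h2⟩))
  all_goals
    have hodd : Odd (orderOf (proj g)) := by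
      rcases Nat.even_or_odd (orderOf (proj g)) with he | ho
      · exfalso
        have := (even_iff_two_dvd.1 he).trans hd
        omega
      · exact ho
    have ht0 := ordtr h1 hodd
    have ht4 : tr g ^ 2 ≠ 4 := by rw [h4]; exact pow_ne_zero _ ht0
    have key := card_solv_generic 2 h8 ht4 ht0 (Or.inr h2)
    rw [← hq, ← card_solv_congr (hns h1) (companion_nonscalar _ _)
      (show tr g = tr (companionSL (tr g)) from (trace_companion _ _).symm)] at key
    have hdc := (orderOf_map_dvd proj g).trans (orderOf_dvd_card_centralizer g)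
    have both : orderOf (proj g) ∣ q - 1 → orderOf (proj g) ∣ q + 1 → False := fun a b => by
      have := Nat.dvd_sub b a
      rw [show q + 1 - (q - 1) = 2 by omega] at this
      rcases (Nat.dvd_prime Nat.prime_two).1 this with e | e
      · exact h1 (orderOf_eq_one_iff.1 e)
      · rw [e] at hodd; exact absurd hodd (by decide)
    rcases centralizer_SL_cases (hns h1) with ⟨hr, hc⟩ | ⟨⟨r, hr, -⟩, hc⟩ | ⟨⟨r, -, hr⟩, -⟩
    · rw [hc] at hdc
      first
      | exact absurd hdc (both hd)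
      | exact (key.resolve_right fun h => h.1.elim fun r hr' => hr r hr').2
    · rw [hc] at hdc
      first
      | exact absurd hd (both hdc)
      | exact (key.resolve_left fun h => h.1 r hr).2
    · exact absurd (by rw [show tr g = 2 * r from hr, h2, zero_mul]) ht0

end Cfsg.Agent.S2257
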