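import Cfsg.Statements.S2258
import Cfsg.Agent.SolubPSL.Count

set_option autoImplicit false
set_option linter.style.haveILetI false
open Cfsg Cfsg.Agent.SolubPSL Cfsg.Agent.Linear.Classes
open scoped MatrixGroups

namespace Cfsg.Agent.S2258

theorem ncard_inv_pairs {F : Type*} [Field F] [Fintype F] (h3 : (3 : F) = 0) (h2 : (2 : F) ≠ 0) :
    ((({(0 : F)} : Set F) ×ˢ ({1, -1} : Set F)ᶜ) ∪ (({0, 1, -1} : Set F)ᶜ ×ˢ ({0} : Set F)) ∪
      (({1, -1} : Set F) ×ˢ ({1, -1} : Set F))).ncard = 2 * Fintype.card F - 1 := by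
  classical
  have h11 : (1 : F) ≠ -1 := fun e => h2 (by linear_combination e)
  have c2 : ({1, -1} : Set F).ncard = 2 := Set.ncard_pair h11
  have c3 : ({0, 1, -1} : Set F).ncard = 3 := by
    rw [Set.ncard_insert_of_notMem (by simp), c2]
  have hle : 3 ≤ Fintype.card F := by
    rw [← c3, ← Nat.card_eq_fintype_card, ← Set.ncard_univ]; exact Set.ncard_le_ncard (Set.subset_univ _)
  rw [Set.ncard_union_eq (by
      rw [Set.disjoint_left]
      rintro ⟨u, v⟩ (⟨hu, -⟩ | ⟨-, hv⟩) ⟨hu', hv'⟩
      · simp only [Set.mem_singleton_iff] at hu; subst hu; simp at hu'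
      · simp only [Set.mem_singleton_iff] at hv; subst hv; simp at hv'),
    Set.ncard_union_eq (by
      rw [Set.disjoint_left]
      rintro ⟨u, v⟩ ⟨hu, -⟩ ⟨hu', -⟩
      simp only [Set.mem_singleton_iff] at hu; subst hu; simp at hu'),
    Set.ncard_prod, Set.ncard_prod, Set.ncard_prod, Set.ncard_compl, Set.ncard_compl,
    Set.ncard_singleton, c2, c3, Nat.card_eq_fintype_card]
  omega

/-- Let G = PSL_2(F) with F a field of order q = 3^p, p an odd prime, and for x ∈ G call the solubilizer of x the set of y ∈ G such that x and y generate a solvable subgroup. Then the solubilizer of an involution has q(q + 1) elements; that of an element of order 3 has q(q + 5)/2 elements; that of an element of order neither 1 nor 2 dividing q − 1 has q(q − 1) elements; and that of an element of order neither 1 nor 2 dividing q + 1 has q + 1 elements. -/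
theorem result (p : ℕ) (hp : p.Prime) (hodd : Odd p) {F : Type*} [Field F] [Fintype F]
    (hF : Fintype.card F = 3 ^ p) (x : Matrix.ProjectiveSpecialLinearGroup (Fin 2) F) :
    (orderOf x = 2 → Nat.card {y : Matrix.ProjectiveSpecialLinearGroup (Fin 2) F // Group.IsSolvable ↥(Subgroup.closure ({x, y} : Set (Matrix.ProjectiveSpecialLinearGroup (Fin 2) F)))} = 3 ^ p * (3 ^ p + 1)) ∧
    (orderOf x = 3 → 2 * Nat.card {y : Matrix.ProjectiveSpecialLinearGroup (Fin 2) F // Group.IsSolvable ↥(Subgroup.closure ({x, y} : Set (Matrix.ProjectiveSpecialLinearGroup (Fin 2) F)))} = 3 ^ p * (3 ^ p + 5)) ∧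
    (x ≠ 1 → orderOf x ≠ 2 → orderOf x ∣ 3 ^ p - 1 → Nat.card {y : Matrix.ProjectiveSpecialLinearGroup (Fin 2) F // Group.IsSolvable ↥(Subgroup.closure ({x, y} : Set (Matrix.ProjectiveSpecialLinearGroup (Fin 2) F)))} = 3 ^ p * (3 ^ p - 1)) ∧
    (x ≠ 1 → orderOf x ≠ 2 → orderOf x ∣ 3 ^ p + 1 → Nat.card {y : Matrix.ProjectiveSpecialLinearGroup (Fin 2) F // Group.IsSolvable ↥(Subgroup.closure ({x, y} : Set (Matrix.ProjectiveSpecialLinearGroup (Fin 2) F)))} = 3 ^ p + 1) := by
  have hp2 := hp.two_le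
  obtain ⟨k, hk⟩ := hodd
  haveI : Fact (Nat.Prime 3) := ⟨Nat.prime_three⟩
  haveI : CharP F 3 := charP_of_card_eq_prime_pow (f := p) hF
  have h3 : (3 : F) = 0 := by exact_mod_cast CharP.cast_eq_zero F 3
  have h2 : (2 : F) ≠ 0 := fun e => one_ne_zero (α := F) (by linear_combination h3 - e)
  set q := Fintype.card F with hq
  have hq8 : q % 8 = 3 := by rw [hF, hk, pow_succ, pow_mul, Nat.mul_mod, Nat.pow_mod]; norm_num
  have hgcd : Nat.gcd 2 (q - 1) = 2 := Nat.gcd_eq_left (by omega)
  have h8 : 3 ≠ 2 → ¬ 8 ∣ Nat.card (Matrix.ProjectiveSpecialLinearGroup (Fin 2) F) := fun _ h => by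
    have h1 := Linear.card_PSL_two_mul (F := F)
    rw [← hq, hgcd] at h1
    obtain ⟨m, hm⟩ := h
    obtain ⟨j, hj⟩ : ∃ j, q = 8 * j + 3 := ⟨q / 8, by omega⟩
    rw [hm, hj, show 8 * j + 3 - 1 = 8 * j + 2 by omega] at h1
    have : ((2 * (8 * m) : ℕ) : ZMod 16) = (((8 * j + 3) * (8 * j + 2) * (8 * j + 3 + 1) : ℕ) : ZMod 16) := by
      rw [h1]
    push_cast at this
    have e16 : (16 : ZMod 16) = 0 := by decide
    revert this
    generalize (j : ZMod 16) = a, (m : ZMod 16) = b
    revert a b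
    decide
  obtain ⟨g, rfl⟩ := proj_surjective x
  have count := card_solv_proj g
  rw [← hq, hgcd] at count
  rw [← hF]
  have hns : proj g ≠ 1 → Nonscalar (g : Matrix (Fin 2) (Fin 2) F) := fun h => by
    by_contra hn; exact h (proj_eq_one_iff.2 hn)
  have hone : ∀ n, 1 < n → orderOf (proj g) = n → proj g ≠ 1 := fun n hn ho e => by
    rw [orderOf_eq_one_iff.2 e] at ho; omega
  refine ⟨fun ho => ?_, fun ho => ?_, fun h1 hne2 hd => ?_, fun h1 hne2 hd => ?_⟩
  · have h1 := hone 2 (by norm_num) ho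
    have ht : tr g = tr (companionSL (0 : F)) := by
      rw [show tr (companionSL (0 : F)) = 0 from trace_companion _ _]
      exact (proj_sq_eq_one (hns h1)).1 (by have e := pow_orderOf_eq_one (proj g); rwa [ho] at e)
    rw [card_solv_congr (hns h1) (companion_nonscalar _ _) ht] at count
    have h0 : (0 : F) ^ 2 ≠ 4 := by
      intro e; exact one_ne_zero (α := F) (by linear_combination -e - h3)
    have hroot : ∀ r : F, r ^ 2 - 0 * r + 1 ≠ 0 := by
      intro r e
      refine (FiniteField.isSquare_neg_one_iff.1 ⟨r, by linear_combination -e⟩) ?_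
      rw [← hq]; omega
    rcases nf_counts (0 : F) h0 with ⟨-, hz, hn⟩ | ⟨⟨r, hr⟩, -⟩
    · rw [card_solv_companion 3 h8 h0 ((({(0 : F)} : Set F) ×ˢ ({1, -1} : Set F)ᶜ) ∪
        (({0, 1, -1} : Set F)ᶜ ×ˢ ({0} : Set F)) ∪ (({1, -1} : Set F) ×ˢ ({1, -1} : Set F))) ?_ ?_
        (Fintype.card F + 1) hn, hz, ncard_kap_zero h0 _ hn, ncard_inv_pairs h3 h2, ← hq] at count
      · have e : q + 1 + (2 * q - 1) * (q + 1) = 2 * (q * (q + 1)) := by
          obtain ⟨j, hj⟩ : ∃ j, q = j + 1 := ⟨q - 1, by omega⟩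
          rw [hj, show 2 * (j + 1) - 1 = 2 * j + 1 by omega]; ring
        omega
      · rintro ⟨u, v⟩
        simp only [Dih, Tet, kap, Set.mem_union, Set.mem_prod, Set.mem_singleton_iff,
          Set.mem_insert_iff, Set.mem_compl_iff]
        constructor
        · intro h
          by_cases hk : (0 : F) ^ 2 + 0 = 0 ∧ u ^ 2 + v ^ 2 - 0 * u * v + 0 ^ 2 - 4 = 0
          · exact Or.inl hk.2
          have hk' : u ^ 2 + v ^ 2 - 0 * u * v + 0 ^ 2 - 4 ≠ 0 := fun e => hk ⟨by ring, e⟩
          refine Or.inr ?_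
          have hz : ∀ {a : F}, a = 1 ∨ a = -1 → a ^ 2 = 1 := by
            rintro a (rfl | rfl) <;> ring
          have hu0 : u = 0 → ¬ (v = 1 ∨ v = -1) := fun hu hv =>
            hk' (by rw [hu]; linear_combination hz hv - h3)
          have hv0 : v = 0 → ¬ (u = 0 ∨ u = 1 ∨ u = -1) ∨ u = 0 := fun hv => by
            by_cases hu : u = 0
            · exact Or.inr hu
            · exact Or.inl fun hh => hk' (by rw [hv]; linear_combination hz (hh.resolve_left hu) - h3)
          have zero_case : u = 0 → (u = 0 ∧ ¬(v = 1 ∨ v = -1)) := fun hu => ⟨hu, hu0 hu⟩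
          have side : v = 0 → (u = 0 ∧ ¬(v = 1 ∨ v = -1) ∨ ¬(u = 0 ∨ u = 1 ∨ u = -1) ∧ v = 0) :=
            fun hv => (hv0 hv).elim (fun h' => Or.inr ⟨h', hv⟩) (fun h' => Or.inl (zero_case h'))
          rcases h with h | (⟨-, hu⟩ | ⟨-, hv⟩ | ⟨hu, -⟩) | ⟨-, hu, hv⟩ | ⟨-, h, -⟩ | ⟨h, -, -⟩
          · exact absurd h hk'
          · exact Or.inl (Or.inl (zero_case hu))
          · exact Or.inl (side hv)
          · exact Or.inl (Or.inl (zero_case hu))
          · exact Or.inr ⟨sq_eq_one_iff.1 hu, sq_eq_one_iff.1 hv⟩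
          · exact absurd h (by simp)
          · exact absurd h (by simp)
        · rintro (h | (⟨hu, -⟩ | ⟨-, hv⟩) | ⟨hu, hv⟩)
          · exact Or.inl h
          · exact Or.inr (Or.inl (Or.inl ⟨trivial, hu⟩))
          · exact Or.inr (Or.inl (Or.inr (Or.inl ⟨trivial, hv⟩)))
          · exact Or.inr (Or.inr (Or.inl ⟨trivial, sq_eq_one_iff.2 hu, sq_eq_one_iff.2 hv⟩))
      · rintro ⟨u, v⟩ hz' he
        simp only [kap] at he
        simp only [Set.mem_union, Set.mem_prod, Set.mem_singleton_iff, Set.mem_insert_iff,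
          Set.mem_compl_iff] at hz'
        rcases hz' with (⟨hu, hv⟩ | ⟨hu, hv⟩) | ⟨hu, hv⟩
        · subst hu; exact hv (sq_eq_one_iff.1 (by linear_combination he + h3))
        · subst hv; exact hu (Or.inr (sq_eq_one_iff.1 (by linear_combination he + h3)))
        · exact one_ne_zero (α := F) (by
            linear_combination he - sq_eq_one_iff.2 hu - sq_eq_one_iff.2 hv + h3)
    · exact absurd hr (hroot r)
  · have h1 := hone 3 (by norm_num) ho
    have ht : tr g ^ 2 = 1 := (proj_cube_eq_one (hns h1)).1 (by have e := pow_orderOf_eq_one (proj g); rwa [ho] at e)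
    obtain ⟨g', hg', htg⟩ : ∃ g', proj g' = proj g ∧ tr g' = tr (unip : SL(2, F)) := by
      rcases sq_eq_one_iff.1 ht with e | e
      · refine ⟨-g, (proj_eq_iff).2 (Or.inr ?_), ?_⟩
        · simp
        · rw [tr_unip, tr, Matrix.SpecialLinearGroup.coe_neg, Matrix.trace_neg, show (g : Matrix (Fin 2) (Fin 2) F).trace = 1 from e]
          linear_combination -h3
      · exact ⟨g, rfl, by rw [tr_unip, e]; linear_combination -h3⟩
    have count' := card_solv_proj g'
    rw [hg', ← hq, hgcd] at count'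
    have hns' : Nonscalar (g' : Matrix (Fin 2) (Fin 2) F) := by
      by_contra hn; exact h1 (hg' ▸ proj_eq_one_iff.2 hn)
    rw [count', card_solv_congr hns' unip_nonscalar htg,
      card_solv_unip 3 h8 (({0, 1, -1} : Set F) ×ˢ ({1, -1} : Set F)) ?_ ?_, Set.ncard_prod, ← hq]
    · have h11 : (1 : F) ≠ -1 := fun e => h2 (by linear_combination e)
      rw [Set.ncard_insert_of_notMem (by simp), Set.ncard_pair h11]
      obtain ⟨j, hj⟩ : ∃ j, q = j + 1 := ⟨q - 1, by omega⟩
      rw [hj, Nat.add_sub_cancel]; ring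
    · intro u c hc
      simp only [Dih, Tet, Set.mem_prod, Set.mem_insert_iff, Set.mem_singleton_iff]
      constructor
      · rintro ((⟨h, -⟩ | ⟨h, -⟩ | ⟨hu, hv⟩) | ⟨h, -, -⟩ | ⟨hu, -, hv⟩ | ⟨-, hu, hv⟩)
        · exact absurd h h2
        · exact absurd h h2
        · exact absurd (by linear_combination hv - hu) hc
        · exact absurd h h2
        · rw [hu, zero_add] at hv; exact ⟨Or.inl hu, sq_eq_one_iff.1 hv⟩
        · refine ⟨Or.inr (sq_eq_one_iff.1 hu), sq_eq_one_iff.1 ?_⟩
          rcases hv with hv | hv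
          · linear_combination hu + (c - u) * hv
          · linear_combination hu - (c + u) * hv
      · rintro ⟨hu, hv⟩
        have hc1 := sq_eq_one_iff.2 hv
        rcases hu with hu | hu
        · refine Or.inr (Or.inr (Or.inl ⟨hu, ?_, by rw [hu, zero_add]; exact hc1⟩))
          linear_combination h3
        · refine Or.inr (Or.inr (Or.inr ⟨by linear_combination h3, sq_eq_one_iff.2 hu, ?_⟩))
          rcases hu with rfl | rfl <;> rcases hv with rfl | rfl
          · exact Or.inr (by ring)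
          · exact Or.inl (by ring)
          · exact Or.inl (by ring)
          · exact Or.inr (by ring)
    · rintro ⟨u, c⟩ ⟨-, hc⟩ e
      simp only [Set.mem_insert_iff, Set.mem_singleton_iff] at hc e
      rcases hc with hc | hc <;> rw [hc] at e <;> simp at e
  all_goals
    have h3d : ¬ 3 ∣ orderOf (proj g) := fun h => by
      have h' := h.trans hd
      have : 3 ∣ q := hF ▸ dvd_pow_self 3 (by omega)
      omega
    have ht0 : tr g ≠ 0 := fun e => by
      rcases (Nat.dvd_prime Nat.prime_two).1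
        (orderOf_dvd_of_pow_eq_one ((proj_sq_eq_one (hns h1)).2 e)) with e' | e'
      · exact h1 (orderOf_eq_one_iff.1 e')
      · exact hne2 e'
    have ht1 : tr g ^ 2 ≠ 1 := fun e => by
      rcases (Nat.dvd_prime Nat.prime_three).1
        (orderOf_dvd_of_pow_eq_one ((proj_cube_eq_one (hns h1)).2 e)) with e' | e'
      · exact h1 (orderOf_eq_one_iff.1 e')
      · exact h3d (e' ▸ dvd_rfl)
    have ht4 : tr g ^ 2 ≠ 4 := fun e => ht1 (by linear_combination e + h3)
    have key := card_solv_generic 3 h8 ht4 ht0 (Or.inl ht1)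
    rw [← hq, ← card_solv_congr (hns h1) (companion_nonscalar _ _)
      (show tr g = tr (companionSL (tr g)) from (trace_companion _ _).symm)] at key
    have hdc := (orderOf_map_dvd proj g).trans (orderOf_dvd_card_centralizer g)
    have both : orderOf (proj g) ∣ q - 1 → orderOf (proj g) ∣ q + 1 → False := fun a b => by
      have := Nat.dvd_sub b a
      rw [show q + 1 - (q - 1) = 2 by omega] at this
      rcases (Nat.dvd_prime Nat.prime_two).1 this with e | e
      · exact h1 (orderOf_eq_one_iff.1 e)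
      · exact hne2 e
    rcases centralizer_SL_cases (hns h1) with ⟨hr, hc⟩ | ⟨⟨r, hr, -⟩, hc⟩ | ⟨⟨r, hr1, hr⟩, -⟩
    · rw [hc] at hdc
      first
      | exact absurd hdc (both hd)
      | (have e := (key.resolve_right fun h => h.1.elim fun r hr' => hr r hr').2; omega)
    · rw [hc] at hdc
      first
      | exact absurd hd (both hdc)
      | (have e := (key.resolve_left fun h => h.1 r hr).2; rw [mul_assoc] at e; omega)
    · exact absurd (show tr g ^ 2 = 4 by rw [show tr g = 2 * r from hr]; linear_combination 4 * hr1) ht4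

end Cfsg.Agent.S2258
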