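import Cfsg.Statements.S2259
import Cfsg.Agent.Suzuki.SolvablePairs
import Cfsg.Agent.Suzuki.LieModel

set_option autoImplicit false
open Cfsg

namespace Cfsg.Agent.S2259

/-- Let G be the Suzuki group Sz(q), q = 2^(2m+1) with 2m + 1 prime and m ≥ 1, realised inside Sp_4(F) for F the field of order q, write r = 2^(m+1) (so r² = 2q), and for x ∈ G call the solubilizer of x the set of y ∈ G such that x and y generate a solvable subgroup. Then the solubilizer of an involution has q²(4q − 3) elements; that of an element of order 4 has q²(q + 3) elements; that of a non-identity element of order dividing q − 1 has 2q²(q − 1) elements; that of a non-identity element of order dividing q + r + 1 has 4(q + r + 1) elements; and that of a non-identity element of order dividing q − r + 1 has 4(q − r + 1) elements. -/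
theorem result {F : Type*} [Field F] [Fintype F] {m : ℕ} (hm : 1 ≤ m)
    (hp : (2 * m + 1).Prime) (hF : Fintype.card F = 2 ^ (2 * m + 1)) (x : ↥(Cfsg.Lie.Sz F (2 ^ (m + 1)))) :
    (orderOf x = 2 → Nat.card {y : ↥(Cfsg.Lie.Sz F (2 ^ (m + 1))) // Group.IsSolvable ↥(Subgroup.closure ({x, y} : Set (↥(Cfsg.Lie.Sz F (2 ^ (m + 1))))))} = (2 ^ (2 * m + 1)) ^ 2 * (4 * 2 ^ (2 * m + 1) - 3)) ∧
    (orderOf x = 4 → Nat.card {y : ↥(Cfsg.Lie.Sz F (2 ^ (m + 1))) // Group.IsSolvable ↥(Subgroup.closure ({x, y} : Set (↥(Cfsg.Lie.Sz F (2 ^ (m + 1))))))} = (2 ^ (2 * m + 1)) ^ 2 * (2 ^ (2 * m + 1) + 3)) ∧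
    (x ≠ 1 → orderOf x ∣ 2 ^ (2 * m + 1) - 1 →
      Nat.card {y : ↥(Cfsg.Lie.Sz F (2 ^ (m + 1))) // Group.IsSolvable ↥(Subgroup.closure ({x, y} : Set (↥(Cfsg.Lie.Sz F (2 ^ (m + 1))))))} = 2 * (2 ^ (2 * m + 1)) ^ 2 * (2 ^ (2 * m + 1) - 1)) ∧
    (x ≠ 1 → orderOf x ∣ 2 ^ (2 * m + 1) + 2 ^ (m + 1) + 1 → Nat.card {y : ↥(Cfsg.Lie.Sz F (2 ^ (m + 1))) // Group.IsSolvable ↥(Subgroup.closure ({x, y} : Set (↥(Cfsg.Lie.Sz F (2 ^ (m + 1))))))} = 4 * (2 ^ (2 * m + 1) + 2 ^ (m + 1) + 1)) ∧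
    (x ≠ 1 → orderOf x ∣ 2 ^ (2 * m + 1) - 2 ^ (m + 1) + 1 → Nat.card {y : ↥(Cfsg.Lie.Sz F (2 ^ (m + 1))) // Group.IsSolvable ↥(Subgroup.closure ({x, y} : Set (↥(Cfsg.Lie.Sz F (2 ^ (m + 1))))))} = 4 * (2 ^ (2 * m + 1) - 2 ^ (m + 1) + 1)) := by
  haveI : Cfsg.Agent.Suzuki.SuzukiField F m := ⟨hm, hF⟩
  set e := Cfsg.Agent.Suzuki.szEquivLie F m with he
  obtain ⟨x, rfl⟩ := e.surjective x
  have hcl : ∀ y, Group.IsSolvable ↥(Subgroup.closure ({e x, e y} : Set _)) ↔
      y ∈ Cfsg.Agent.Suzuki.solSet x := by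
    intro y
    refine Iff.trans ?_ (Cfsg.Agent.Suzuki.solvable_closure_iff hp x y)
    have h1 : (Subgroup.closure ({x, y} : Set (Cfsg.Sz F m))).map e.toMonoidHom =
        Subgroup.closure ({e x, e y} : Set _) := by
      rw [MonoidHom.map_closure, Set.image_pair]
      rfl
    let ψ := (Subgroup.equivMapOfInjective (Subgroup.closure ({x, y} : Set (Cfsg.Sz F m)))
      e.toMonoidHom e.injective).trans (MulEquiv.subgroupCongr h1)
    constructor
    · intro h
      exact Group.isSolvable_of_surjective (f := ψ.symm.toMonoidHom) ψ.symm.surjective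
    · intro h
      exact Group.isSolvable_of_surjective (f := ψ.toMonoidHom) ψ.surjective
  have hcard : Nat.card {y // Group.IsSolvable ↥(Subgroup.closure ({e x, y} : Set _))} =
      (Cfsg.Agent.Suzuki.solSet x).ncard := by
    rw [← Nat.card_coe_set_eq]
    exact (Nat.card_congr (e.toEquiv.subtypeEquiv fun y => (hcl y).symm)).symm
  have ho : orderOf (e x) = orderOf x := e.orderOf_eq x
  have h1 : e x ≠ 1 → x ≠ 1 := fun h h' => h (by rw [h', map_one])
  rw [hcard, ho, ← hF]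
  refine ⟨fun h => Cfsg.Agent.Suzuki.ncard_solSet_order_two h,
    fun h => Cfsg.Agent.Suzuki.ncard_solSet_order_four h,
    fun h1' h => Cfsg.Agent.Suzuki.ncard_solSet_torus (h1 h1') (hF ▸ h),
    fun h1' h => Cfsg.Agent.Suzuki.ncard_solSet_semireg (h1 h1') (Or.inl (by rw [hF])) h,
    fun h1' h => Cfsg.Agent.Suzuki.ncard_solSet_semireg (h1 h1') (Or.inr (by rw [hF])) h⟩

end Cfsg.Agent.S2259
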