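import Cfsg.Statements.S2268


set_option autoImplicit false
open Cfsg

namespace Cfsg.Agent.S2268

/-- Let G be a finite group with an abelian Sylow p-subgroup P and let Q ≤ P. Then N_G(Q) = (N_G(Q) ∩ N_G(P))·C_G(Q), so that N_G(Q)/C_G(Q) is a homomorphic image of the subgroup (N_G(Q) ∩ N_G(P))/C_G(P) of N_G(P)/C_G(P); in particular the order of N_G(Q)/C_G(Q) divides the order of N_G(P)/C_G(P). -/
theorem result {G : Type*} [Group G] [Finite G] {p : ℕ} [Fact p.Prime]
    (P : Sylow p G) (hP : IsMulCommutative (P : Subgroup G)) (Q : Subgroup G) (hQ : Q ≤ (P : Subgroup G)) :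
    Subgroup.normalizer (Q : Set G) =
      (Subgroup.normalizer (Q : Set G) ⊓ Subgroup.normalizer ((P : Subgroup G) : Set G)) ⊔ Subgroup.centralizer (Q : Set G) ∧
    ((Subgroup.centralizer (Q : Set G)).subgroupOf (Subgroup.normalizer (Q : Set G))).index ∣ ((Subgroup.centralizer ((P : Subgroup G) : Set G)).subgroupOf (Subgroup.normalizer ((P : Subgroup G) : Set G))).index := by
  have hPQ : (P : Subgroup G) ≤ Subgroup.centralizer (Q : Set G) := by
    intro x hx
    rw [Subgroup.mem_centralizer_iff]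
    intro y hy
    exact congrArg Subtype.val (hP.is_comm.comm ⟨y, hQ hy⟩ ⟨x, hx⟩)
  set NQ := Subgroup.normalizer (Q : Set G) with hNQ
  set NP := Subgroup.normalizer ((P : Subgroup G) : Set G) with hNP
  set CQ := Subgroup.centralizer (Q : Set G) with hCQ
  set CP := Subgroup.centralizer ((P : Subgroup G) : Set G) with hCP
  have hCN : ∀ S : Set G, Subgroup.centralizer S ≤ Subgroup.normalizer S := fun S =>
    Subgroup.centralizer_le_normalizer S
  have hsup : NQ = (NQ ⊓ NP) ⊔ CQ := by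
    refine le_antisymm (fun n hn => ?_) (sup_le inf_le_left (hCN _))
    have hnP : ((n • P : Sylow p G) : Subgroup G) ≤ CQ := by
      intro x hx
      rw [Sylow.coe_subgroup_smul, Subgroup.mem_pointwise_smul_iff_inv_smul_mem] at hx
      simp only [MulAut.smul_def, MulAut.conj_inv_apply] at hx
      rw [hCQ, Subgroup.mem_centralizer_iff]
      intro y hy
      have hy' : n⁻¹ * y * n ∈ Q := (Subgroup.mem_normalizer_iff''.mp hn y).mp hy
      have h := Subgroup.mem_centralizer_iff.mp (hPQ hx) _ hy'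
      calc y * x = n * ((n⁻¹ * y * n) * (n⁻¹ * x * n)) * n⁻¹ := by group
        _ = n * ((n⁻¹ * x * n) * (n⁻¹ * y * n)) * n⁻¹ := by rw [h]
        _ = x * y := by group
    obtain ⟨k, hk⟩ := MulAction.exists_smul_eq CQ (Sylow.subtype P hPQ) (Sylow.subtype (n • P) hnP)
    rw [Sylow.smul_subtype] at hk
    have hk' : ((k : G) • P : Sylow p G) = n • P := Sylow.subtype_injective hk
    have hkNQ : (k : G) ∈ NQ := hCN _ k.2
    have h2 : (k : G)⁻¹ * n ∈ NP := by
      refine Sylow.smul_eq_iff_mem_normalizer.mp ?_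
      rw [mul_smul, ← hk', inv_smul_smul]
    rw [show n = (k : G) * ((k : G)⁻¹ * n) by group]
    exact Subgroup.mul_mem _ (Subgroup.mem_sup_right k.2)
      (Subgroup.mem_sup_left ⟨Subgroup.mul_mem _ (Subgroup.inv_mem _ hkNQ) hn, h2⟩)
  refine ⟨hsup, ?_⟩
  show CQ.relIndex NQ ∣ CP.relIndex NP
  have hCPle : CP ≤ CQ := Subgroup.centralizer_le hQ
  have hCPM : CP ≤ NQ ⊓ NP := le_inf (hCPle.trans (hCN _)) (hCN _)
  have h1 : CQ.relIndex NQ = CQ.relIndex (NQ ⊓ NP) := by
    have hnorm : (CQ.subgroupOf NQ).Normal := by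
      rw [hCQ, hNQ]; infer_instance
    have h : (CQ.subgroupOf NQ).relIndex ((NQ ⊓ NP).subgroupOf NQ ⊔ CQ.subgroupOf NQ) =
        (CQ.subgroupOf NQ).relIndex ((NQ ⊓ NP).subgroupOf NQ) := Subgroup.relIndex_sup_right _ _
    have htop : (NQ ⊓ NP).subgroupOf NQ ⊔ CQ.subgroupOf NQ = ⊤ := by
      rw [← Subgroup.subgroupOf_sup inf_le_left (hCN _), ← hsup, Subgroup.subgroupOf_self]
    rw [htop, Subgroup.relIndex_top_right, Subgroup.relIndex_subgroupOf inf_le_left] at h
    exact h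
  rw [h1]
  calc CQ.relIndex (NQ ⊓ NP) ∣ CP.relIndex (NQ ⊓ NP) :=
        Subgroup.relIndex_dvd_of_le_left _ hCPle
    _ ∣ CP.relIndex NP := ⟨(NQ ⊓ NP).relIndex NP,
        (Subgroup.relIndex_mul_relIndex CP (NQ ⊓ NP) NP hCPM inf_le_right).symm⟩

end Cfsg.Agent.S2268
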