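import Cfsg.Statements.S2269
import Cfsg.Agent.Known.SylowOddSym
import Cfsg.Agent.Alt.Basic

set_option autoImplicit false
open Cfsg

namespace Cfsg.Agent.S2269

open Equiv

theorem exists_noncomm_two (n : ℕ) (hn : 6 ≤ n) :
    ∃ H : Subgroup (alternatingGroup (Fin n)), IsPGroup 2 H ∧ ∃ x ∈ H, ∃ y ∈ H, x * y ≠ y * x := by
  let a : Perm (Fin 6) := swap 0 1 * swap 1 2 * swap 2 3 * swap 4 5
  let b : Perm (Fin 6) := swap 1 3 * swap 4 5
  let f : Fin 6 ≃ {x : Fin n // (x : ℕ) < 6} :=
    { toFun := fun i => ⟨⟨i, lt_of_lt_of_le i.isLt hn⟩, i.isLt⟩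
      invFun := fun x => ⟨x.1, x.2⟩
      left_inv := fun _ => rfl
      right_inv := fun _ => rfl }
  let φ := Perm.extendDomainHom f
  have hφ : Function.Injective φ := Perm.extendDomainHom_injective f
  have hsign : ∀ g, Perm.sign (φ g) = Perm.sign g := fun g => Perm.sign_extendDomain g f
  have ha : a ^ 4 = 1 := by decide
  have hb : b ^ 2 = 1 := by decide
  have hab : b * a = a⁻¹ * b := by decide
  have hne : a * b ≠ b * a := by decide
  have hsa : Perm.sign a = 1 := by decide
  have hsb : Perm.sign b = 1 := by decide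
  let A : alternatingGroup (Fin n) := ⟨φ a, by rw [Perm.mem_alternatingGroup, hsign, hsa]⟩
  let B : alternatingGroup (Fin n) := ⟨φ b, by rw [Perm.mem_alternatingGroup, hsign, hsb]⟩
  have hBA : B * A = A⁻¹ * B := Subtype.ext (by
    show φ b * φ a = (φ a)⁻¹ * φ b
    rw [← map_mul, ← map_inv, ← map_mul, hab])
  have hA : IsPGroup 2 (Subgroup.zpowers A) := by
    rintro ⟨_, m, rfl⟩
    refine ⟨2, Subtype.ext ?_⟩
    show (A ^ m) ^ 2 ^ 2 = 1
    rw [show A ^ m = A ^ m from rfl, ← zpow_natCast, ← zpow_mul, mul_comm, zpow_mul, zpow_natCast,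
      show A ^ 2 ^ 2 = 1 from Subtype.ext (by rw [SubmonoidClass.coe_pow]; exact (map_pow φ a 4).symm.trans (by rw [ha, map_one]; rfl)),
      one_zpow]
  have hB2 : B ^ 2 = 1 := Subtype.ext (by
    rw [SubmonoidClass.coe_pow]; exact (map_pow φ b 2).symm.trans (by rw [hb, map_one]; rfl))
  have hB : IsPGroup 2 (Subgroup.zpowers B) := by
    rintro ⟨_, m, rfl⟩
    refine ⟨1, Subtype.ext ?_⟩
    show (B ^ m) ^ 2 ^ 1 = 1
    rw [← zpow_natCast, ← zpow_mul, mul_comm, zpow_mul, zpow_natCast, pow_one, hB2, one_zpow]
  have hnorm : Subgroup.zpowers B ≤ Subgroup.normalizer (Subgroup.zpowers A : Set (alternatingGroup (Fin n))) := by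
    rw [Subgroup.zpowers_le, Subgroup.mem_normalizer_iff]
    have hconj : B * A * B⁻¹ = A⁻¹ := by rw [hBA, mul_inv_cancel_right]
    have hpow : ∀ m : ℤ, B * A ^ m * B⁻¹ = A ^ (-m) := fun m => by
      rw [← conj_zpow, hconj, inv_zpow, zpow_neg]
    intro g
    constructor
    · rintro ⟨m, rfl⟩
      exact ⟨-m, (hpow m).symm⟩
    · rintro ⟨m, hm⟩
      refine ⟨-m, ?_⟩
      show A ^ (-m) = g
      have h1 := hpow (-m)
      rw [neg_neg, show A ^ m = B * g * B⁻¹ from hm] at h1
      exact mul_left_cancel (mul_right_cancel h1)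
  refine ⟨_, hB.to_sup_of_normal_right' hA hnorm, A, Subgroup.mem_sup_right (Subgroup.mem_zpowers A),
    B, Subgroup.mem_sup_left (Subgroup.mem_zpowers B), fun h => hne (hφ ?_)⟩
  have h' : φ a * φ b = φ b * φ a := congrArg Subtype.val h
  rwa [← map_mul, ← map_mul] at h'

set_option maxRecDepth 20000 in
theorem five_facts :
    (∀ x : Perm (Fin 5), Perm.sign x = 1 → x ^ 4 = 1 → x ^ 2 = 1) ∧
    (∀ x : Perm (Fin 5), Perm.sign x = 1 → ∀ t : Perm (Fin 5), Perm.sign t = 1 → t ^ 2 = 1 →
      t ≠ 1 → x * t = t * x → x ^ 2 = 1) := by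
  constructor <;> decide


/-- Let n ≥ 5 and let P be an abelian Sylow p-subgroup of the alternating group A_n. Then N(P)/C(P) (taken in A_n) has even order, or P is cyclic, except when n = 5 and p = 2, where P is a four-group and N(P)/C(P) has order 3. -/
theorem result (n : ℕ) (hn : 5 ≤ n) {p : ℕ} [Fact p.Prime]
    (P : Sylow p (alternatingGroup (Fin n))) (hP : IsMulCommutative (P : Subgroup (alternatingGroup (Fin n)))) :
    (¬ (n = 5 ∧ p = 2) → 2 ∣ ((Subgroup.centralizer ((P : Subgroup (alternatingGroup (Fin n))) : Set (alternatingGroup (Fin n)))).subgroupOf (Subgroup.normalizer ((P : Subgroup (alternatingGroup (Fin n))) : Set (alternatingGroup (Fin n))))).index ∨ IsCyclic (P : Subgroup (alternatingGroup (Fin n)))) ∧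
    ((n = 5 ∧ p = 2) → ((Subgroup.centralizer ((P : Subgroup (alternatingGroup (Fin n))) : Set (alternatingGroup (Fin n)))).subgroupOf (Subgroup.normalizer ((P : Subgroup (alternatingGroup (Fin n))) : Set (alternatingGroup (Fin n))))).index = 3 ∧ IsKleinFour (P : Subgroup (alternatingGroup (Fin n)))) := by
  refine ⟨fun hnp => ?_, ?_⟩
  · by_cases hp2 : p = 2
    · exfalso
      subst hp2
      have hn6 : 6 ≤ n := by
        by_contra h
        exact hnp ⟨by omega, rfl⟩
      obtain ⟨H, hH, x, hx, y, hy, hne⟩ := exists_noncomm_two n hn6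
      obtain ⟨Q, hQ⟩ := hH.exists_le_sylow
      obtain ⟨g, rfl⟩ := MulAction.exists_smul_eq (alternatingGroup (Fin n)) P Q
      have hx' := hQ hx
      have hy' := hQ hy
      rw [Sylow.coe_subgroup_smul, Subgroup.mem_pointwise_smul_iff_inv_smul_mem] at hx' hy'
      have h1 := congrArg Subtype.val (hP.is_comm.comm ⟨_, hx'⟩ ⟨_, hy'⟩)
      simp only [MulAut.smul_def, Subgroup.coe_mul, ← map_mul, EmbeddingLike.apply_eq_iff_eq] at h1
      exact hne h1
    · haveI : Nontrivial (Fin n) := Fin.nontrivial_iff_two_le.mpr (by omega)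
      have hidx : ¬ p ∣ ((P : Subgroup (alternatingGroup (Fin n))).map
          (alternatingGroup (Fin n)).subtype).index := by
        rw [Subgroup.index_map_subtype, alternatingGroup.index_eq_two]
        exact fun h => ((Fact.out : p.Prime).dvd_mul.mp h).elim P.not_dvd_index
          (fun h2 => hp2 ((Nat.prime_dvd_prime_iff_eq Fact.out Nat.prime_two).mp h2))
      have hPg : IsPGroup p ((P : Subgroup (alternatingGroup (Fin n))).map
          (alternatingGroup (Fin n)).subtype : Subgroup (Perm (Fin n))) := P.2.map _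
      let P' : Sylow p (Perm (Fin n)) := hPg.toSylow hidx
      have hP' : IsMulCommutative (P' : Subgroup (Perm (Fin n))) := ⟨⟨by
        rintro ⟨_, a, ha, rfl⟩ ⟨_, b, hb, rfl⟩
        refine Subtype.ext ?_
        exact congrArg (alternatingGroup (Fin n)).subtype
          (congrArg Subtype.val (hP.is_comm.comm ⟨a, ha⟩ ⟨b, hb⟩))⟩⟩
      obtain ⟨k, r, e, hr, hn', hPe⟩ := Known.exists_cycle_model n P' hP'
      let T : (Fin k → Multiplicative (ZMod p)) →* Perm (Fin n) :=
        (Equiv.permCongrHom e).toMonoidHom.comp Known.cycleShift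
      have hPT : (P : Subgroup (alternatingGroup (Fin n))).map (alternatingGroup (Fin n)).subtype
          = T.range := hPe
      rcases Nat.lt_or_ge k 2 with hk | hk
      · right
        have hcard : Nat.card (P : Subgroup (alternatingGroup (Fin n))) = p ^ k := by
          rw [← Subgroup.card_map_of_injective (Subgroup.subtype_injective _), hPT,
            ← Nat.card_congr (MonoidHom.ofInjective
              ((Equiv.permCongrHom e).injective.comp Known.cycleShift_injective)).toEquiv]
          simp [Nat.card_eq_fintype_card]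
        rcases (by omega : k = 0 ∨ k = 1) with rfl | rfl
        · rw [pow_zero] at hcard
          haveI := (Nat.card_eq_one_iff_unique.mp hcard).1
          infer_instance
        · rw [pow_one] at hcard
          exact isCyclic_of_prime_card hcard
      · left
        let S : Finset (Fin k) := {⟨0, by omega⟩, ⟨1, by omega⟩}
        haveI : NeZero p := ⟨(Fact.out : p.Prime).ne_zero⟩
        let z : Perm (Fin n) := Equiv.permCongrHom e (Known.cycleNeg S)
        have hz : z ∈ alternatingGroup (Fin n) := by
          rw [Perm.mem_alternatingGroup]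
          show Perm.sign (e.permCongr _) = 1
          rw [Perm.sign_permCongr]
          exact Known.sign_cycleNeg_pair (by simp [Fin.ext_iff])
        obtain ⟨h1, h2⟩ := Known.cycleNeg_mem_normalizer (r := r) hp2 e S (Finset.insert_nonempty _ _)
        have hmem : ∀ g : alternatingGroup (Fin n), g ∈ (P : Subgroup (alternatingGroup (Fin n))) ↔
            (g : Perm (Fin n)) ∈ T.range := fun g => by
          rw [← hPT]
          exact (Subgroup.mem_map_iff_mem (Subgroup.subtype_injective _)).symm
        refine Known.two_dvd_automizer _ (y := ⟨z, hz⟩) ?_ (Subtype.ext (by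
          show z * z = 1
          rw [← map_mul, Known.cycleNeg_mul_self, map_one])) ?_
        · rw [Subgroup.mem_normalizer_iff]
          intro g
          rw [hmem, hmem]
          exact Subgroup.mem_normalizer_iff.mp h1 _
        · intro hc
          refine h2 (Subgroup.mem_centralizer_iff.mpr fun g hg => ?_)
          have hg' : g ∈ (P : Subgroup (alternatingGroup (Fin n))).map
              (alternatingGroup (Fin n)).subtype := by rw [hPT]; exact hg
          obtain ⟨g', hg'P, rfl⟩ := hg'
          exact congrArg Subtype.val (Subgroup.mem_centralizer_iff.mp hc g' hg'P)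
  · rintro ⟨rfl, rfl⟩
    haveI : Nontrivial (Fin 5) := Fin.nontrivial_iff_two_le.mpr (by omega)
    set Pg := (P : Subgroup (alternatingGroup (Fin 5))) with hPg
    have hc60 : Nat.card (alternatingGroup (Fin 5)) = 60 := by
      rw [nat_card_alternatingGroup, Nat.card_eq_fintype_card, Fintype.card_fin]
      rfl
    have hP4 : Nat.card Pg = 4 := by
      rw [hPg, P.card_eq_multiplicity, hc60, show (60 : ℕ) = 2 ^ 2 * 15 by norm_num,
        Nat.factorization_mul (by norm_num) (by norm_num), Nat.Prime.factorization_pow Nat.prime_two,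
        Finsupp.coe_add, Pi.add_apply, Finsupp.single_eq_same,
        Nat.factorization_eq_zero_of_not_dvd (by norm_num : ¬ 2 ∣ 15)]
      norm_num
    have hsq : ∀ x ∈ Pg, x ^ 2 = 1 := by
      intro x hx
      have h4 : (⟨x, hx⟩ : Pg) ^ 4 = 1 := hP4 ▸ pow_card_eq_one'
      refine Subtype.ext ?_
      exact five_facts.1 _ (Perm.mem_alternatingGroup.mp x.2)
        (congrArg (fun y : Pg => ((y : alternatingGroup (Fin 5)) : Perm (Fin 5))) h4)
    have hne : Pg ≠ ⊥ := fun h => by rw [h, Subgroup.card_bot] at hP4; omega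
    have hC : Subgroup.centralizer (Pg : Set (alternatingGroup (Fin 5))) = Pg := by
      have hle : Pg ≤ Subgroup.centralizer (Pg : Set (alternatingGroup (Fin 5))) := fun x hx =>
        Subgroup.mem_centralizer_iff.mpr fun y hy =>
          congrArg Subtype.val (hP.is_comm.comm ⟨y, hy⟩ ⟨x, hx⟩)
      refine P.3 (fun x => ⟨1, ?_⟩) hle
      obtain ⟨t, htP, ht1⟩ := (Subgroup.bot_or_exists_ne_one Pg).resolve_left hne
      refine Subtype.ext (Subtype.ext ?_)
      show ((x : alternatingGroup (Fin 5)) : Perm (Fin 5)) ^ 2 ^ 1 = 1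
      rw [pow_one]
      exact five_facts.2 _ (Perm.mem_alternatingGroup.mp x.1.2) t (Perm.mem_alternatingGroup.mp t.2)
        (congrArg Subtype.val (hsq t htP)) (fun h => ht1 (Subtype.ext h))
        (congrArg Subtype.val (Subgroup.mem_centralizer_iff.mp x.2 t htP)).symm
    have hK : IsKleinFour Pg := by
      refine ⟨hP4, ?_⟩
      have hd : Monoid.exponent Pg ∣ 2 := Monoid.exponent_dvd_of_forall_pow_eq_one fun x =>
        Subtype.ext (hsq x.1 x.2)
      rcases (Nat.dvd_prime Nat.prime_two).mp hd with h | h
      · exfalso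
        have hsub : Subsingleton Pg := Monoid.exp_eq_one_iff.mp h
        have := Finite.card_le_one_iff_subsingleton.mpr hsub
        omega
      · exact h
    refine ⟨?_, hK⟩
    rw [hC]
    show Pg.relIndex (Subgroup.normalizer (Pg : Set (alternatingGroup (Fin 5)))) = 3
    set Ng := Subgroup.normalizer (Pg : Set (alternatingGroup (Fin 5))) with hNg
    have h5 : 5 ≤ Nat.card (Fin 5) := by simp
    have hbig : ∀ K : Subgroup (alternatingGroup (Fin 5)), K ≠ ⊤ → 5 ≤ K.index := fun K hK => by
      simpa using Cfsg.Agent.Alt.card_le_index_alt h5 hK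
    have hs : IsSimpleGroup (alternatingGroup (Fin 5)) := alternatingGroup.isSimpleGroup h5
    have hNtop : Ng ≠ ⊤ := by
      intro h
      haveI : Pg.Normal := Subgroup.normalizer_eq_top_iff.mp h
      rcases IsSimpleGroup.eq_bot_or_eq_top_of_normal Pg inferInstance with h' | h'
      · exact hne h'
      · rw [h', Subgroup.card_top, hc60] at hP4; omega
    have hNP : Ng ≠ Pg := by
      intro h
      have hle : Subgroup.normalizer ((P : Subgroup (alternatingGroup (Fin 5))) : Set (alternatingGroup (Fin 5))) ≤
          Subgroup.centralizer ((P : Subgroup (alternatingGroup (Fin 5))) : Set (alternatingGroup (Fin 5))) :=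
        (h.trans hC.symm).le
      have hcompl := MonoidHom.ker_transferSylow_isComplement' P hle
      have h4 : (MonoidHom.transferSylow P hle).ker.index = 4 := by
        rw [hcompl.symm.index_eq_card]; exact hP4
      have := hbig (MonoidHom.transferSylow P hle).ker (fun htop => by rw [htop, Subgroup.index_top] at h4; omega)
      omega
    have hle : Pg ≤ Ng := Subgroup.le_normalizer
    have h15 : Pg.relIndex Ng * Ng.index = 15 := by
      rw [Subgroup.relIndex_mul_index hle]
      have := Pg.card_mul_index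
      rw [hP4, hc60] at this
      omega
    have hge := hbig Ng hNtop
    have hr1 : Pg.relIndex Ng ≠ 1 := fun h => hNP (le_antisymm (Subgroup.relIndex_eq_one.mp h) hle)
    have hr0 : Pg.relIndex Ng ≠ 0 := fun h => by simp [h] at h15
    have hd15 : Pg.relIndex Ng ∣ 15 := Dvd.intro _ h15
    have hle3 : Pg.relIndex Ng ≤ 3 := by
      by_contra h
      have : 4 * 5 ≤ Pg.relIndex Ng * Ng.index := Nat.mul_le_mul (by omega) hge
      omega
    interval_cases hri : Pg.relIndex Ng <;> omega

end Cfsg.Agent.S2269
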