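import Cfsg.Statements.S2270
import Cfsg.Agent.Known.SylowOddSym

set_option autoImplicit false
open Cfsg

namespace Cfsg.Agent.S2270

/-- Let n ≥ 3, p an odd prime, and P an abelian Sylow p-subgroup of the symmetric group S_n (with p dividing n!, so that P ≠ 1). Then N(P)/C(P) has even order. -/
theorem result (n : ℕ) (hn : 3 ≤ n) {p : ℕ} [Fact p.Prime] (hp : p ≠ 2) (hpn : p ≤ n)
    (P : Sylow p (Equiv.Perm (Fin n))) (hP : IsMulCommutative (P : Subgroup (Equiv.Perm (Fin n)))) :
    2 ∣ ((Subgroup.centralizer ((P : Subgroup (Equiv.Perm (Fin n))) : Set (Equiv.Perm (Fin n)))).subgroupOf (Subgroup.normalizer ((P : Subgroup (Equiv.Perm (Fin n))) : Set (Equiv.Perm (Fin n))))).index := by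
  obtain ⟨k, r, e, hr, hn', hPe⟩ := Known.exists_cycle_model n P hP
  have hk : Nonempty (Fin k) := by
    rw [← Fin.pos_iff_nonempty]
    rcases Nat.eq_zero_or_pos k with h | h
    · subst h; simp at hn'; omega
    · exact h
  rw [hPe]
  obtain ⟨h1, h2⟩ := Known.cycleNeg_mem_normalizer (r := r) hp e Finset.univ Finset.univ_nonempty
  exact Known.two_dvd_automizer _ h1 (by rw [← map_mul, Known.cycleNeg_mul_self, map_one]) h2

end Cfsg.Agent.S2270
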