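import Cfsg.Statements.S2280
import Cfsg.Agent.Known.RegUnip

set_option autoImplicit false
open Cfsg

namespace Cfsg.Agent.S2280

/-- Let F be a finite field and n ≥ 3. Then SL_n(F) is generated by three conjugate regular unipotent elements: there are u with u − 1 nilpotent and (u − 1)^(n−1) ≠ 0, and g, h, such that u, g u g⁻¹ and h u h⁻¹ generate SL_n(F). -/
theorem result {F : Type*} [Field F] [Fintype F] (n : ℕ) (hn : 3 ≤ n) :
    ∃ u g h : Matrix.SpecialLinearGroup (Fin n) F, (IsNilpotent ((u : Matrix (Fin n) (Fin n) F) - 1) ∧ ((u : Matrix (Fin n) (Fin n) F) - 1) ^ (n - 1) ≠ 0) ∧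
      Subgroup.closure ({u, g * u * g⁻¹, h * u * h⁻¹} : Set (Matrix.SpecialLinearGroup (Fin n) F)) = ⊤ := by
  obtain ⟨m, rfl⟩ : ∃ m, n = m + 3 := ⟨n - 3, by omega⟩
  classical
  obtain ⟨w, θ, hv⟩ := Known.exists_conj_regU_lowerBidiag (F := F) m
  obtain ⟨a, ha⟩ := Known.exists_corner_generates hv
  let h : Matrix.SpecialLinearGroup (Fin (m + 3)) F :=
    Known.tv (a • Pi.single 0 1) (Pi.single (Fin.last (m + 1)).castSucc 1)
  refine ⟨Known.regU (m + 3), w, h, Known.regU_regular _, ha _ ?_ ?_ ?_⟩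
  · exact Subgroup.subset_closure (Set.mem_insert _ _)
  · exact Subgroup.subset_closure (Set.mem_insert_of_mem _ (Set.mem_insert _ _))
  · set G := Subgroup.closure ({Known.regU (m + 3), w * Known.regU (m + 3) * w⁻¹,
      h * Known.regU (m + 3) * h⁻¹} : Set (Matrix.SpecialLinearGroup (Fin (m + 3)) F))
    have e : h * Known.regU (m + 3) * h⁻¹ = Known.regU (m + 3) *
        Known.tv (a • Pi.single 0 1) (Pi.single (Fin.last (m + 2)) 1) := by
      rw [mul_inv_eq_iff_eq_mul]
      exact Known.corner_conj_eq a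
    have h1 : Known.regU (m + 3) ∈ G := Subgroup.subset_closure (Set.mem_insert _ _)
    have h2 : h * Known.regU (m + 3) * h⁻¹ ∈ G :=
      Subgroup.subset_closure (Set.mem_insert_of_mem _ (Set.mem_insert_of_mem _ rfl))
    rw [e] at h2
    exact (G.mul_mem_cancel_left h1).1 h2

end Cfsg.Agent.S2280
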