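import Cfsg.Statements.S2282
import Cfsg.Agent.SUTwoGen.BigMain

set_option autoImplicit false
open Cfsg

namespace Cfsg.Agent.S2282

/-- Let F be a field with q² elements, n ≥ 3 odd with (n, q) ≠ (3, 2), and SU_n(q) the special unitary group of the standard Hermitian form Σ u_i v_i^q. Then SU_n(q) is generated by three conjugate regular unipotent elements: there are u ∈ SU_n(q) with u − 1 nilpotent and (u − 1)^(n−1) ≠ 0, and g, h ∈ SU_n(q), such that u, g u g⁻¹ and h u h⁻¹ generate SU_n(q). -/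
theorem result {F : Type*} [Field F] [Fintype F] (q : ℕ) (hF : Fintype.card F = q ^ 2) (n : ℕ) (hn : 3 ≤ n) (hodd : Odd n) (h32 : ¬ (n = 3 ∧ q = 2)) :
    ∃ u g h : ↥(Cfsg.SU n F q), (IsNilpotent (((u : Matrix.SpecialLinearGroup (Fin n) F) : Matrix (Fin n) (Fin n) F) - 1) ∧ (((u : Matrix.SpecialLinearGroup (Fin n) F) : Matrix (Fin n) (Fin n) F) - 1) ^ (n - 1) ≠ 0) ∧
      Subgroup.closure ({u, g * u * g⁻¹, h * u * h⁻¹} : Set ↥(Cfsg.SU n F q)) = ⊤ := by
  classical
  have hS := Classical.U.sqField_of_fintype hF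
  have hT : SUTwoGen.HasTriple n F q := by
    obtain ⟨k, rfl⟩ := hodd
    rcases k with _ | _ | _ | m
    · omega
    · obtain ⟨e, w, f, hfr⟩ := SUTwoGen.exists_frame hS
      have hq : 3 ≤ q := by
        have := hS.one_lt
        by_contra hq
        exact h32 ⟨rfl, by omega⟩
      obtain ⟨g, u, hg, hu, hnil, hne, hgen⟩ :=
        (SUTwoGen.exists_genPair hS hfr hq).hasPair hS hfr
      exact ⟨g, g, u, hg, hg, hu, ⟨3, hnil⟩, hne, by simpa using hgen⟩
    · exact SUTwoGen.hasTriple_five hS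
    · exact SUTwoGen.hasTriple_big hS m
  obtain ⟨g, h, u, hg, hh, hu, ⟨k, hnil⟩, ⟨z, hz⟩, hgen⟩ := hT
  rw [← Classical.U.range_suToUG] at hg hh hu hgen
  obtain ⟨g', rfl⟩ := hg
  obtain ⟨h', rfl⟩ := hh
  obtain ⟨u', rfl⟩ := hu
  set A : Matrix (Fin n) (Fin n) F :=
    ((u' : Matrix.SpecialLinearGroup (Fin n) F) : Matrix (Fin n) (Fin n) F)
  have happ : ∀ (j : ℕ) (v : Fin n → F),
      ((A - 1) ^ j).mulVec v = (fun x => (Classical.U.suToUG n F q u').1 x - x)^[j] v := by
    intro j v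
    induction j with
    | zero => simp
    | succ j ih =>
      rw [pow_succ', ← Matrix.mulVec_mulVec, ih, Function.iterate_succ_apply', Matrix.sub_mulVec,
        Matrix.one_mulVec]
      rfl
  refine ⟨u', g', h', ⟨⟨k, ?_⟩, fun h2 => hz ?_⟩, ?_⟩
  · refine Matrix.mulVec_injective (funext fun v => ?_)
    rw [Matrix.zero_mulVec, happ]
    exact hnil v
  · rw [← happ, h2, Matrix.zero_mulVec]
  · refine Subgroup.map_injective (Classical.U.suToUG_injective (q := q)) ?_
    rw [MonoidHom.map_closure, ← MonoidHom.range_eq_map]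
    refine le_antisymm ?_ ?_
    · rw [Subgroup.closure_le]
      rintro _ ⟨x, -, rfl⟩
      exact ⟨x, rfl⟩
    · simpa [Set.image_insert_eq] using hgen

end Cfsg.Agent.S2282
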