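import Cfsg.Statements.S2283
import Cfsg.Agent.SUTwoGen.Exc

set_option autoImplicit false
open Cfsg

namespace Cfsg.Agent.S2283

/-- Let F be a field with q² elements, q ≥ 3, and SU_3(q) the special unitary group of the standard Hermitian form. Then SU_3(q) is generated by two conjugate regular unipotent elements: there are u ∈ SU_3(q) with u − 1 nilpotent and (u − 1)² ≠ 0, and g ∈ SU_3(q), such that u and g u g⁻¹ generate SU_3(q). -/
theorem result {F : Type*} [Field F] [Fintype F] (q : ℕ) (hq : 3 ≤ q) (hF : Fintype.card F = q ^ 2) :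
    ∃ u g : ↥(Cfsg.SU 3 F q), (IsNilpotent (((u : Matrix.SpecialLinearGroup (Fin 3) F) : Matrix (Fin 3) (Fin 3) F) - 1) ∧ (((u : Matrix.SpecialLinearGroup (Fin 3) F) : Matrix (Fin 3) (Fin 3) F) - 1) ^ (3 - 1) ≠ 0) ∧
      Subgroup.closure ({u, g * u * g⁻¹} : Set ↥(Cfsg.SU 3 F q)) = ⊤ := by
  classical
  have hS := Classical.U.sqField_of_fintype hF
  obtain ⟨e, w, f, hfr⟩ := SUTwoGen.exists_frame hS
  obtain ⟨g, u, hg, hu, hnil, ⟨z, hz⟩, hgen⟩ : SUTwoGen.HasPair F q := by
    by_cases h5 : q = 5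
    · exact SUTwoGen.hasPair_five hS hfr h5
    by_cases h8 : q = 8
    · exact SUTwoGen.hasPair_eight hS hfr h8
    exact SUTwoGen.hasPair_generic hS hfr hq h5 h8
  rw [← Classical.U.range_suToUG] at hg hu hgen
  obtain ⟨g', rfl⟩ := hg
  obtain ⟨u', rfl⟩ := hu
  set M : Matrix (Fin 3) (Fin 3) F :=
    ((u' : Matrix.SpecialLinearGroup (Fin 3) F) : Matrix (Fin 3) (Fin 3) F)
  have happ : ∀ v, (M - 1).mulVec v = (Classical.U.suToUG 3 F q u').1 v - v := fun v => by
    rw [Matrix.sub_mulVec, Matrix.one_mulVec]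
    rfl
  refine ⟨u', g', ⟨⟨3, ?_⟩, fun h2 => hz ?_⟩, ?_⟩
  · refine Matrix.mulVec_injective (funext fun v => ?_)
    rw [Matrix.zero_mulVec, pow_succ, pow_two, ← Matrix.mulVec_mulVec, ← Matrix.mulVec_mulVec, happ, happ, happ]
    exact hnil v
  · rw [← happ, ← happ, Matrix.mulVec_mulVec, ← pow_two]
    rw [show (3 - 1 : ℕ) = 2 from rfl] at h2
    rw [h2, Matrix.zero_mulVec]
  · refine Subgroup.map_injective (Classical.U.suToUG_injective (q := q)) ?_
    rw [MonoidHom.map_closure, ← MonoidHom.range_eq_map]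
    refine le_antisymm ?_ ?_
    · rw [Subgroup.closure_le]
      rintro _ ⟨x, -, rfl⟩
      exact ⟨x, rfl⟩
    · simpa [Set.image_insert_eq] using hgen

end Cfsg.Agent.S2283
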