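import Cfsg.Statements.S2284
import Cfsg.Agent.GKKL.Tiny
-- import your own Cfsg.Agent.* helpers here

set_option autoImplicit false
open Cfsg

namespace Cfsg.Agent.S2284

/-- For every n, the symmetric group S_n and the alternating group A_n each have a presentation with 2 generators and at most 8 relations. -/
theorem result (n : ℕ) : (∃ rels : Finset (FreeGroup (Fin 2)), rels.card ≤ 8 ∧ Nonempty (PresentedGroup (↑rels : Set (FreeGroup (Fin 2))) ≃* Equiv.Perm (Fin n))) ∧ (∃ rels : Finset (FreeGroup (Fin 2)), rels.card ≤ 8 ∧ Nonempty (PresentedGroup (↑rels : Set (FreeGroup (Fin 2))) ≃* ↥(alternatingGroup (Fin n)))) := by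
  have conv : ∀ {H : Type} [Group H] {v : Fin 2 → H}, Cfsg.Agent.GKKL.HasPres v 8 →
      ∃ rels : Finset (FreeGroup (Fin 2)), rels.card ≤ 8 ∧
        Nonempty (PresentedGroup (↑rels : Set (FreeGroup (Fin 2))) ≃* H) :=
    fun ⟨rels, hc, e, _⟩ => ⟨rels, hc, ⟨e⟩⟩
  rcases Nat.lt_or_ge n 5 with hn | hn
  · obtain ⟨⟨v, h⟩, ⟨v', h'⟩⟩ := Cfsg.Agent.GKKL.pres_tiny n (by omega)
    exact ⟨conv h, conv h'⟩
  · obtain ⟨⟨l, v, ⟨i, hi⟩, h⟩, ⟨l', v', ⟨i', hi'⟩, h'⟩⟩ := Cfsg.Agent.GKKL.pres_seven n hn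
    obtain ⟨w, hw⟩ := Cfsg.Agent.GKKL.partner_alt n hn
    obtain ⟨w', hw'⟩ := Cfsg.Agent.GKKL.partner_perm n hn
    exact ⟨conv (Cfsg.Agent.GKKL.pres_eight hi' h' hw'),
      conv (Cfsg.Agent.GKKL.pres_eight hi h hw)⟩

end Cfsg.Agent.S2284
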