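import Cfsg.Statements.S2285
import Cfsg.Agent.GKKL.Moore
import Cfsg.Agent.GKKL.Pad
import Cfsg.Agent.GKKL.Antipodal

set_option autoImplicit false
open Cfsg

namespace Cfsg.Agent.S2285

/-- For every n ≥ 5, the symmetric group S_n and the alternating group A_n each have a presentation with 3 generators and at most 7 relations. -/
theorem result (n : ℕ) (hn : 5 ≤ n) : (∃ rels : Finset (FreeGroup (Fin 3)), rels.card ≤ 7 ∧ Nonempty (PresentedGroup (↑rels : Set (FreeGroup (Fin 3))) ≃* Equiv.Perm (Fin n))) ∧ (∃ rels : Finset (FreeGroup (Fin 3)), rels.card ≤ 7 ∧ Nonempty (PresentedGroup (↑rels : Set (FreeGroup (Fin 3))) ≃* ↥(alternatingGroup (Fin n)))) := by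
  have pad : ∀ {H : Type} [Group H] {x : Fin 2 → H}, Cfsg.Agent.GKKL.HasPres x 6 →
      ∃ rels : Finset (FreeGroup (Fin 3)), rels.card ≤ 7 ∧
        Nonempty (PresentedGroup (↑rels : Set (FreeGroup (Fin 3))) ≃* H) :=
    fun h => Cfsg.Agent.GKKL.pad_generator h
  by_cases hg : n = 9 ∨ 13 ≤ n
  · obtain ⟨⟨v, -, r, hc, e, -⟩, ⟨v', -, r', hc', e', -⟩⟩ := Cfsg.Agent.GKKL.pres_glue n hg
    exact ⟨⟨r', hc', ⟨e'⟩⟩, ⟨r, hc, ⟨e⟩⟩⟩
  obtain ⟨⟨v, -, h⟩, ⟨v', -, h'⟩⟩ := Cfsg.Agent.GKKL.pres_small n hn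
  by_cases h11 : n = 11
  · subst h11
    obtain ⟨u, hu⟩ := Cfsg.Agent.GKKL.perm_eleven
    exact ⟨pad hu, pad (h.mono (by norm_num))⟩
  by_cases h12 : n = 12
  · subst h12
    obtain ⟨u, hu⟩ := Cfsg.Agent.GKKL.perm_twelve
    obtain ⟨u', hu'⟩ := Cfsg.Agent.GKKL.alt_twelve
    exact ⟨pad (x := u) hu, pad (x := u') hu'⟩
  exact ⟨pad (h'.mono (by omega)), pad (h.mono (by omega))⟩

end Cfsg.Agent.S2285
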