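import Cfsg.Statements.S2287
import Cfsg.Agent.ShortPres.Three.Pres
import Cfsg.Agent.ShortPres.Three.Four
-- import your own Cfsg.Agent.* helpers here

set_option autoImplicit false
open Cfsg

namespace Cfsg.Agent.S2287

/-- For every finite field F other than the field with 9 elements, SL_3(F) has a presentation with 4 generators and at most 14 relations. -/
theorem result {F : Type*} [Field F] [Fintype F] (hq9 : Fintype.card F ≠ 9) : ∃ rels : Finset (FreeGroup (Fin 4)), rels.card ≤ 14 ∧ Nonempty (PresentedGroup (↑rels : Set (FreeGroup (Fin 4))) ≃* Matrix.SpecialLinearGroup (Fin 3) F) := by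
  classical
  by_cases h4 : Nat.card F = 4
  · obtain ⟨w, hw⟩ := Cfsg.Agent.ShortPres.Three.Four.sl_three_eight h4
    obtain ⟨v, rels, hc, e, -⟩ := Cfsg.Agent.ShortPres.hasPres_pad hw 2
    exact ⟨rels, hc.trans (by norm_num), ⟨e⟩⟩
  · obtain ⟨w, hw⟩ := Cfsg.Agent.ShortPres.Three.sl_three h4
    obtain ⟨v, rels, hc, e, -⟩ := Cfsg.Agent.ShortPres.hasPres_pad hw 1
    exact ⟨rels, hc, ⟨e⟩⟩

end Cfsg.Agent.S2287
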