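import Cfsg.Statements.S2288
import Cfsg.Agent.ShortPres.Counts
-- import your own Cfsg.Agent.* helpers here

set_option autoImplicit false
open Cfsg

namespace Cfsg.Agent.S2288

/-- For every finite field F and n ≥ 4: SL_n(F) has a presentation with 7 generators and at most 25 relations, and PSL_n(F) one with 7 generators and at most 26 relations; moreover SL_4(F) has one with 6 generators and at most 21 relations and SL_5(F) one with 6 generators and at most 22 relations. -/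
theorem result {F : Type*} [Field F] [Fintype F] (n : ℕ) (hn : 4 ≤ n) :
    (∃ rels : Finset (FreeGroup (Fin 7)), rels.card ≤ 25 ∧ Nonempty (PresentedGroup (↑rels : Set (FreeGroup (Fin 7))) ≃* Matrix.SpecialLinearGroup (Fin n) F)) ∧ (∃ rels : Finset (FreeGroup (Fin 7)), rels.card ≤ 26 ∧ Nonempty (PresentedGroup (↑rels : Set (FreeGroup (Fin 7))) ≃* Matrix.ProjectiveSpecialLinearGroup (Fin n) F)) ∧
    (∃ rels : Finset (FreeGroup (Fin 6)), rels.card ≤ 21 ∧ Nonempty (PresentedGroup (↑rels : Set (FreeGroup (Fin 6))) ≃* Matrix.SpecialLinearGroup (Fin 4) F)) ∧ (∃ rels : Finset (FreeGroup (Fin 6)), rels.card ≤ 22 ∧ Nonempty (PresentedGroup (↑rels : Set (FreeGroup (Fin 6))) ≃* Matrix.SpecialLinearGroup (Fin 5) F)) := by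
  classical
  have conv : ∀ {l r : ℕ} {H : Type _} [Group H] {v : Fin l → H}, Cfsg.Agent.GKKL.HasPres v r →
      ∃ rels : Finset (FreeGroup (Fin l)), rels.card ≤ r ∧
        Nonempty (PresentedGroup (↑rels : Set (FreeGroup (Fin l))) ≃* H) :=
    fun ⟨rels, hc, e, _⟩ => ⟨rels, hc, ⟨e⟩⟩
  obtain ⟨w, hw⟩ := Cfsg.Agent.ShortPres.sl_seven (F := F) n hn
  obtain ⟨w4, hw4⟩ := Cfsg.Agent.ShortPres.sl_four (F := F)
  obtain ⟨w5, hw5⟩ := Cfsg.Agent.ShortPres.sl_five (F := F)
  obtain ⟨v4, hv4⟩ := Cfsg.Agent.ShortPres.hasPres_pad hw4 3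
  obtain ⟨v5, hv5⟩ := Cfsg.Agent.ShortPres.hasPres_pad hw5 3
  haveI := Cfsg.Agent.ShortPres.isCyclic_center (F := F) n
  exact ⟨conv hw, conv (Cfsg.Agent.ShortPres.hasPres_quot hw (Subgroup.center _)),
    conv (hv4.mono (by norm_num)), conv (hv5.mono (by norm_num))⟩

end Cfsg.Agent.S2288
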