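import Cfsg.Statements.S2290
import Cfsg.Agent.ShortPres.Counts
import Cfsg.Agent.SpPres.SLThree
import Cfsg.Agent.SpPres.Final
-- import your own Cfsg.Agent.* helpers here

set_option autoImplicit false
open Cfsg

namespace Cfsg.Agent.S2290

/-- For every finite field F with q elements and n ≥ 2, with q ≥ 4 when n = 2, the simple group PSL_n(F) has a presentation with 2 generators and at most 80 relations. -/
theorem result {F : Type*} [Field F] [Fintype F] (n : ℕ) (hn : 2 ≤ n) (h2 : n = 2 → 4 ≤ Fintype.card F) :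
    ∃ rels : Finset (FreeGroup (Fin 2)), rels.card ≤ 80 ∧ Nonempty (PresentedGroup (↑rels : Set (FreeGroup (Fin 2))) ≃* Matrix.ProjectiveSpecialLinearGroup (Fin n) F) := by
  classical
  obtain ⟨m, rfl⟩ : ∃ m, n = m + 2 := ⟨n - 2, by omega⟩
  obtain ⟨G, hG⟩ := Cfsg.Agent.SpPres.exists_two_gen (F := F) m
  let π := QuotientGroup.mk' (Subgroup.center (Matrix.SpecialLinearGroup (Fin (m + 2)) F))
  have hab : Subgroup.closure ({π (G 0), π (G 1)} : Set _) = ⊤ := by
    rw [← Set.image_pair, ← MonoidHom.map_closure,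
      show ({G 0, G 1} : Set _) = Set.range G from by ext; simp [Fin.exists_fin_two, eq_comm], hG,
      Subgroup.map_top_of_surjective _ (QuotientGroup.mk'_surjective _)]
  haveI := Cfsg.Agent.ShortPres.isCyclic_center (F := F) (m + 2)
  suffices ∃ (l r : ℕ) (v : Fin l → Matrix.ProjectiveSpecialLinearGroup (Fin (m + 2)) F),
      r + 2 ≤ 80 ∧ Cfsg.Agent.GKKL.HasPres v r by
    obtain ⟨l, r, v, hr, hv⟩ := this
    obtain ⟨w, rels, hc, e, -⟩ := Cfsg.Agent.SpPres.Final.two_gen hv (π (G 0)) (π (G 1)) hab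
    exact ⟨rels, hc.trans hr, ⟨e⟩⟩
  rcases (show m = 0 ∨ m = 1 ∨ 2 ≤ m by omega) with rfl | rfl | hm
  · obtain ⟨p, _⟩ := CharP.exists F
    haveI : Fact p.Prime := ⟨CharP.char_is_prime F p⟩
    letI := ZMod.algebra F p
    obtain ⟨-, ⟨rels, hc, ⟨e⟩⟩, -⟩ := Cfsg.Agent.SL2Pres.presentations p F Fintype.one_lt_card
    exact ⟨3, 9, fun i => e (PresentedGroup.of i), by norm_num, rels, hc, e, fun _ => rfl⟩
  · obtain ⟨v, hv⟩ := Cfsg.Agent.SpPres.Three.sl_three (F := F)
    exact ⟨4, 23 + 1, _, by norm_num, Cfsg.Agent.ShortPres.hasPres_quot hv (Subgroup.center _)⟩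
  · obtain ⟨v, hv⟩ := Cfsg.Agent.ShortPres.sl_seven (F := F) (m + 2) (by omega)
    exact ⟨7, 25 + 1, _, by norm_num, Cfsg.Agent.ShortPres.hasPres_quot hv (Subgroup.center _)⟩

end Cfsg.Agent.S2290
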