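import Cfsg.Statements.S2293
import Cfsg.Agent.Sp4Pres.Main
-- import your own Cfsg.Agent.* helpers here

set_option autoImplicit false
open Cfsg

namespace Cfsg.Agent.S2293

/-- For every finite field F, Sp_4(F) has a presentation with 6 generators and at most 35 relations, and PSp_4(F) one with 6 generators and at most 36 relations. -/
theorem result {F : Type*} [Field F] [Fintype F] : (∃ rels : Finset (FreeGroup (Fin 6)), rels.card ≤ 35 ∧ Nonempty (PresentedGroup (↑rels : Set (FreeGroup (Fin 6))) ≃* Matrix.symplecticGroup (Fin 2) F)) ∧ (∃ rels : Finset (FreeGroup (Fin 6)), rels.card ≤ 36 ∧ Nonempty (PresentedGroup (↑rels : Set (FreeGroup (Fin 6))) ≃* Cfsg.PSp 2 F)) := by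
  classical
  obtain ⟨p, _⟩ := CharP.exists F
  haveI : Fact p.Prime := ⟨CharP.char_is_prime F p⟩
  letI := ZMod.algebra F p
  obtain ⟨⟨S, hS, ⟨φ⟩⟩, -, -⟩ := Agent.SL2Pres.presentations p F Fintype.one_lt_card
  obtain ⟨z, hz0, -, hz⟩ := Agent.SL2Pres.exists_zeta (F := F)
  have hgen : ∀ u : Fˣ, ∃ m : ℕ, u = Units.mk0 z hz0 ^ m := fun u => by
    obtain ⟨m, hm⟩ := hz u u.ne_zero
    exact ⟨m, Units.ext (by simpa using hm)⟩
  obtain ⟨e, -⟩ := Agent.Sp4Pres.exists_sp_equiv S φ _ hgen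
  obtain ⟨R, hR, hR'⟩ := Agent.Sp4Pres.exists_psp_equiv S φ _ hgen
  exact ⟨⟨_, (Agent.Sp4Pres.card_base S φ _).trans (by omega), ⟨e⟩⟩, R, by omega, hR'⟩

end Cfsg.Agent.S2293
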