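import Cfsg.Statements.S2411
import Cfsg.Agent.Spec.TwoGen.Symp

set_option autoImplicit false
open Cfsg

namespace Cfsg.Agent.S2411

/-- The projective symplectic group `PSp_{2m}(q)` with `m ≥ 2` (and `q > 2` if `m = 2`) is generated by two of its elements. -/
theorem result {F : Type*} [Field F] [Fintype F] (m : ℕ) (hm : 2 ≤ m) (hF : m = 2 → 2 < Fintype.card F) :
    ∃ a b : Cfsg.PSp m F, Subgroup.closure ({a, b} : Set (Cfsg.PSp m F)) = ⊤ := by
  classical
  obtain ⟨a, b, hab⟩ : ∃ a b : Agent.Spec.TwoGen.Symp.Sp m F, Subgroup.closure {a, b} = ⊤ := by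
    obtain ⟨k, rfl⟩ : ∃ k, m = k + 2 := ⟨m - 2, by omega⟩
    by_cases h3 : 3 ≤ Fintype.card F
    · exact Agent.Spec.TwoGen.Symp.exists_pair_big h3
    · have h2 : Fintype.card F = 2 := by
        have : 2 ≤ Fintype.card F := Fintype.one_lt_card
        omega
      obtain ⟨j, rfl⟩ : ∃ j, k = j + 1 := by
        refine ⟨k - 1, ?_⟩
        by_contra h
        have := hF (by omega)
        omega
      exact Agent.Spec.TwoGen.Symp.exists_pair_two h2
  let π := QuotientGroup.mk' (Subgroup.center (Matrix.symplecticGroup (Fin m) F))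
  refine ⟨π a, π b, ?_⟩
  rw [← Set.image_pair π a b, ← MonoidHom.map_closure, hab]
  exact Subgroup.map_top_of_surjective π (QuotientGroup.mk'_surjective _)

end Cfsg.Agent.S2411
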