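import Cfsg.Statements.S2292
import Cfsg.Agent.SpPres.Final
import Cfsg.Agent.S2293
import Cfsg.Agent.S2411
-- import your own Cfsg.Agent.* helpers here

set_option autoImplicit false
open Cfsg

namespace Cfsg.Agent.S2292

/-- Let F be a finite field with q elements and m ≥ 2 with (m, q) ≠ (2, 2). Then the simple group PSp_2m(F) has a presentation with 2 generators and at most 80 relations. -/
theorem result {F : Type*} [Field F] [Fintype F] (m : ℕ) (hm : 2 ≤ m) (h22 : ¬ (m = 2 ∧ Fintype.card F = 2)) :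
    ∃ rels : Finset (FreeGroup (Fin 2)), rels.card ≤ 80 ∧ Nonempty (PresentedGroup (↑rels : Set (FreeGroup (Fin 2))) ≃* Cfsg.PSp m F) := by
  classical
  obtain ⟨a, b, hab⟩ := Cfsg.Agent.S2411.result (F := F) m hm (fun h2 => by
    have := Fintype.one_lt_card (α := F)
    have : Fintype.card F ≠ 2 := fun h => h22 ⟨h2, h⟩
    omega)
  rcases (show m = 2 ∨ m = 3 ∨ 4 ≤ m by omega) with rfl | rfl | h
  · obtain ⟨R, hR, ⟨e⟩⟩ := (Cfsg.Agent.S2293.result (F := F)).2
    have hv : Cfsg.Agent.GKKL.HasPres (fun i => e (PresentedGroup.of i)) 36 := ⟨R, hR, e, fun _ => rfl⟩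
    obtain ⟨w, hw⟩ := Cfsg.Agent.SpPres.Final.two_gen hv a b hab
    exact Cfsg.Agent.SpPres.Final.conv (hw.mono (by norm_num))
  · obtain ⟨v, hv⟩ := Cfsg.Agent.SpPres.Final.sp_eight (F := F)
    obtain ⟨v', hv'⟩ := Cfsg.Agent.SpPres.Final.psp_of_sp hv
    obtain ⟨w, hw⟩ := Cfsg.Agent.SpPres.Final.two_gen hv' a b hab
    exact Cfsg.Agent.SpPres.Final.conv (hw.mono (by norm_num))
  · obtain ⟨k, rfl⟩ : ∃ k, m = k + 4 := ⟨m - 4, by omega⟩
    obtain ⟨v, hv⟩ := Cfsg.Agent.SpPres.Final.sp_ten (F := F) k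
    obtain ⟨v', hv'⟩ := Cfsg.Agent.SpPres.Final.psp_of_sp hv
    obtain ⟨w, hw⟩ := Cfsg.Agent.SpPres.Final.two_gen hv' a b hab
    exact Cfsg.Agent.SpPres.Final.conv (hw.mono (by norm_num))

end Cfsg.Agent.S2292
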