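import Cfsg.Statements.S2295
import Cfsg.Agent.OmegaPres.Pres

set_option autoImplicit false
open Cfsg

namespace Cfsg.Agent.S2295

/-- Let F be a finite field and n ≥ 4, and let Ω⁺_2n(F) be the commutator subgroup of the orthogonal group of the hyperbolic quadratic form Σ x_i y_i, with PΩ⁺_2n(F) its central quotient. Then Ω⁺_2n(F) has a presentation with 8 generators and at most 31 relations (at most 29 if n = 4 or 5), and PΩ⁺_2n(F) one with 8 generators and at most 32 relations (at most 30 if n = 4 or 5). -/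
theorem result {F : Type*} [Field F] [Fintype F] (n : ℕ) (hn : 4 ≤ n) :
    (∃ rels : Finset (FreeGroup (Fin 8)), rels.card ≤ 31 ∧ Nonempty (PresentedGroup (↑rels : Set (FreeGroup (Fin 8))) ≃* ↥(Cfsg.Omega F (Cfsg.quadFormPlus n F)))) ∧ (∃ rels : Finset (FreeGroup (Fin 8)), rels.card ≤ 32 ∧ Nonempty (PresentedGroup (↑rels : Set (FreeGroup (Fin 8))) ≃* Cfsg.POmega F (Cfsg.quadFormPlus n F))) ∧
    (n ≤ 5 → (∃ rels : Finset (FreeGroup (Fin 8)), rels.card ≤ 29 ∧ Nonempty (PresentedGroup (↑rels : Set (FreeGroup (Fin 8))) ≃* ↥(Cfsg.Omega F (Cfsg.quadFormPlus n F)))) ∧ (∃ rels : Finset (FreeGroup (Fin 8)), rels.card ≤ 30 ∧ Nonempty (PresentedGroup (↑rels : Set (FreeGroup (Fin 8))) ≃* Cfsg.POmega F (Cfsg.quadFormPlus n F)))) := by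
  obtain ⟨v, hv⟩ := Cfsg.Agent.OmegaPres.omega_eight (F := F) hn
  have h31 := hv.mono (r' := 31) (by split_ifs <;> omega)
  obtain ⟨h1, h2⟩ := Cfsg.Agent.OmegaPres.eight hn h31
  exact ⟨h1, h2, fun h5 => Cfsg.Agent.OmegaPres.eight hn (hv.mono (by rw [if_pos h5]))⟩

end Cfsg.Agent.S2295
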