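import Cfsg.Statements.S2296
import Cfsg.Agent.SpPres.Final
-- import your own Cfsg.Agent.* helpers here

set_option autoImplicit false
open Cfsg

namespace Cfsg.Agent.S2296

/-- Let F be a finite field. Sp_2n(F) has a presentation with 10 generators and at most 58 relations for n ≥ 4, with 9 generators and at most 57 relations for n = 4 or 5, and with 8 generators and at most 52 relations for n = 3; in each case PSp_2n(F) has a presentation with the same number of generators and at most one more relation. -/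
theorem result {F : Type*} [Field F] [Fintype F] (n : ℕ) :
    (4 ≤ n → (∃ rels : Finset (FreeGroup (Fin 10)), rels.card ≤ 58 ∧ Nonempty (PresentedGroup (↑rels : Set (FreeGroup (Fin 10))) ≃* Matrix.symplecticGroup (Fin n) F)) ∧ (∃ rels : Finset (FreeGroup (Fin 10)), rels.card ≤ 59 ∧ Nonempty (PresentedGroup (↑rels : Set (FreeGroup (Fin 10))) ≃* Cfsg.PSp n F))) ∧
    ((n = 4 ∨ n = 5) → (∃ rels : Finset (FreeGroup (Fin 9)), rels.card ≤ 57 ∧ Nonempty (PresentedGroup (↑rels : Set (FreeGroup (Fin 9))) ≃* Matrix.symplecticGroup (Fin n) F)) ∧ (∃ rels : Finset (FreeGroup (Fin 9)), rels.card ≤ 58 ∧ Nonempty (PresentedGroup (↑rels : Set (FreeGroup (Fin 9))) ≃* Cfsg.PSp n F))) ∧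
    (n = 3 → (∃ rels : Finset (FreeGroup (Fin 8)), rels.card ≤ 52 ∧ Nonempty (PresentedGroup (↑rels : Set (FreeGroup (Fin 8))) ≃* Matrix.symplecticGroup (Fin n) F)) ∧ (∃ rels : Finset (FreeGroup (Fin 8)), rels.card ≤ 53 ∧ Nonempty (PresentedGroup (↑rels : Set (FreeGroup (Fin 8))) ≃* Cfsg.PSp n F))) := by
  classical
  refine ⟨fun h => ?_, fun h => ?_, fun h => ?_⟩
  · obtain ⟨k, rfl⟩ : ∃ k, n = k + 4 := ⟨n - 4, by omega⟩
    obtain ⟨v, hv⟩ := Cfsg.Agent.SpPres.Final.sp_ten (F := F) k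
    obtain ⟨w, hw⟩ := Cfsg.Agent.SpPres.Final.psp_of_sp hv
    exact ⟨Cfsg.Agent.SpPres.Final.conv (hv.mono (by norm_num)),
      Cfsg.Agent.SpPres.Final.conv (hw.mono (by norm_num))⟩
  · rcases h with rfl | rfl
    · obtain ⟨v, hv⟩ := Cfsg.Agent.SpPres.Final.sp_nine_four (F := F)
      obtain ⟨w, hw⟩ := Cfsg.Agent.SpPres.Final.psp_of_sp hv
      exact ⟨Cfsg.Agent.SpPres.Final.conv (hv.mono (by norm_num)),
        Cfsg.Agent.SpPres.Final.conv (hw.mono (by norm_num))⟩
    · obtain ⟨v, hv⟩ := Cfsg.Agent.SpPres.Final.sp_nine_five (F := F)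
      obtain ⟨w, hw⟩ := Cfsg.Agent.SpPres.Final.psp_of_sp hv
      exact ⟨Cfsg.Agent.SpPres.Final.conv (hv.mono (by norm_num)),
        Cfsg.Agent.SpPres.Final.conv (hw.mono (by norm_num))⟩
  · subst h
    obtain ⟨v, hv⟩ := Cfsg.Agent.SpPres.Final.sp_eight (F := F)
    obtain ⟨w, hw⟩ := Cfsg.Agent.SpPres.Final.psp_of_sp hv
    exact ⟨Cfsg.Agent.SpPres.Final.conv (hv.mono (by norm_num)),
      Cfsg.Agent.SpPres.Final.conv (hw.mono (by norm_num))⟩

end Cfsg.Agent.S2296
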