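import Cfsg.Statements.S2338
import Cfsg.Agent.G2Deg.SphCount
import Cfsg.Agent.G2Deg.ThreeBound

set_option autoImplicit false
open Cfsg

namespace Cfsg.Agent.S2338

open Cfsg.Agent.G2Deg Module

theorem three_ne {F : Type*} [Field F] [Fintype F] (h : Fintype.card F % 3 ≠ 0) : (3 : F) ≠ 0 := by
  intro h3
  have h0 : ((Fintype.card F : ℕ) : F) = 0 := FiniteField.cast_card_eq_zero F
  rw [← Nat.mod_add_div (Fintype.card F) 3, Nat.cast_add, Nat.cast_mul, show ((3 : ℕ) : F) = 0 by exact_mod_cast h3,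
    zero_mul, add_zero] at h0
  have h2 : Fintype.card F % 3 = 1 ∨ Fintype.card F % 3 = 2 := by omega
  rcases h2 with e | e <;> rw [e] at h0
  · exact one_ne_zero (by exact_mod_cast h0)
  · exact one_ne_zero (show (1 : F) = 0 by push_cast at h0; linear_combination h3 - h0)

/-- Lower bounds for the degrees of non-linear irreducible complex representations of the Chevalley group of type G₂ over a finite field with q elements: the degree is at least q³ + 1 when q ≡ 1 (mod 3) and q > 4, at least q³ − 1 when q ≡ 2 (mod 3) and q > 2, and at least q⁴ + q² + 1 when q ≡ 0 (mod 3) and q > 3. -/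
theorem result {F : Type*} [Field F] [Fintype F] (k : ℕ) (ρ : Representation ℂ (Cfsg.Lie.chevG2.group F) (Fin k → ℂ)) (hρ : ρ.IsIrreducible) (hk : 2 ≤ k) :
    (Fintype.card F % 3 = 1 → 4 < Fintype.card F → Fintype.card F ^ 3 + 1 ≤ k) ∧
    (Fintype.card F % 3 = 2 → 2 < Fintype.card F → Fintype.card F ^ 3 - 1 ≤ k) ∧
    (Fintype.card F % 3 = 0 → 3 < Fintype.card F → Fintype.card F ^ 4 + Fintype.card F ^ 2 + 1 ≤ k) := by
  classical
  have hd : finrank ℂ (Fin k → ℂ) = k := by simp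
  have h2 : 2 ≤ finrank ℂ (Fin k → ℂ) := by rw [hd]; exact hk
  haveI := hρ
  obtain ⟨ψ, hψ⟩ : ∃ ψ : AddChar F ℂ, ψ ≠ 1 := by
    obtain ⟨ψ, hψ⟩ := AddChar.exists_apply_ne_zero.2 (one_ne_zero : (1 : F) ≠ 0)
    exact ⟨ψ, fun e => hψ (by rw [e]; rfl)⟩
  refine ⟨fun hm hq => ?_, fun hm hq => ?_, fun hm hq => ?_⟩
  · have h3 : (3 : F) ≠ 0 := three_ne (by omega)
    have h5 : 5 ≤ Fintype.card F := by omega
    have h7 : 7 ≤ Fintype.card F := by omega
    obtain ⟨hlow, hup⟩ := dim_bound hψ ρ h3 h5 h2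
    rw [hd] at hlow hup
    by_contra hlt
    obtain ⟨h1, hc, hdim, hnone⟩ := hup (by omega)
    have hq3 : 1 ≤ Fintype.card F ^ 3 := Nat.one_le_pow _ _ (by omega)
    rcases Nat.lt_or_ge (M4 hψ ρ 0) 1 with hc0 | hc0
    · have H : CuspHyp hψ ρ := ⟨h3, h5, h1, by omega, hnone, by rw [hd]; omega⟩
      haveI : Fact (Nat.Prime 3) := ⟨Nat.prime_three⟩
      obtain ⟨u, hu⟩ := exists_prime_orderOf_dvd_card (G := Fˣ) 3
        (by rw [Fintype.card_units]; omega)
      refine H.false hψ ρ h7 (u := u) (by rw [← hu]; exact pow_orderOf_eq_one u) fun e => ?_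
      rw [e, orderOf_one] at hu
      exact absurd hu (by norm_num)
    · exact SphHyp.false hψ ρ ⟨h3, h5, h1, by omega, hnone, by rw [hd]; omega⟩
  · have h := (dim_bound hψ ρ (three_ne (by omega)) (by omega) h2).1
    rwa [hd] at h
  · obtain ⟨p, hp⟩ := CharP.exists F
    obtain ⟨n, hprime, hcard⟩ := FiniteField.card F p
    have hp3 : p = 3 := by
      have h : 3 ∣ p ^ (n : ℕ) := hcard ▸ Nat.dvd_of_mod_eq_zero hm
      exact ((Nat.prime_dvd_prime_iff_eq Nat.prime_three hprime).1 (Nat.prime_three.dvd_of_dvd_pow h)).symm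
    subst hp3
    have hq9 : 9 ≤ Fintype.card F := by
      rw [hcard] at hq ⊢
      rcases Nat.lt_or_ge (n : ℕ) 2 with hn | hn
      · have : (n : ℕ) = 1 := by have := n.pos; omega
        rw [this] at hq
        omega
      · exact le_trans (by norm_num) (Nat.pow_le_pow_right (by norm_num : 3 > 0) hn)
    obtain ⟨ψ', hψ', hinv⟩ := exists_psi F
    have h := bound_three hψ' ρ hinv hq9 h2
    rwa [hd] at h

end Cfsg.Agent.S2338
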