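import Cfsg.Statements.S2340
import Cfsg.Agent.E6Deg.Main

set_option autoImplicit false
open Cfsg

namespace Cfsg.Agent.S2340

/-- For the Chevalley group of type E₆ over a finite field with q elements (the group generated by the root elements), every irreducible complex representation of degree at least 2 has degree at least q(q⁶ + q³ + 1)(q⁴ + 1). -/
theorem result {F : Type*} [Field F] [Fintype F] :
    (∀ (k : ℕ) (ρ : Representation ℂ (Cfsg.Lie.chevE6.group F) (Fin k → ℂ)), ρ.IsIrreducible → 2 ≤ k → Fintype.card F * (Fintype.card F ^ 6 + Fintype.card F ^ 3 + 1) * (Fintype.card F ^ 4 + 1) ≤ k) := by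
  intro k ρ hρ hk
  have h := Cfsg.Agent.E6Deg.min_degree ρ (by rw [Module.finrank_fin_fun]; exact hk)
  rwa [Module.finrank_fin_fun] at h

end Cfsg.Agent.S2340
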