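import Cfsg.Statements.S2342
import Cfsg.Agent.D4Deg.Main
-- import your own Cfsg.Agent.* helpers here

set_option autoImplicit false
open Cfsg

namespace Cfsg.Agent.S2342

/-- For the twisted group ³D₄(q), realised over the field with q³ elements (q a prime power), every irreducible complex representation of degree at least 2 has degree at least q(q⁴ − q² + 1). -/
theorem result {K : Type*} [Field K] [Fintype K] (q : ℕ) (hq : IsPrimePow q) (hK : Fintype.card K = q ^ 3) :
    (∀ (k : ℕ) (ρ : Representation ℂ (Cfsg.Lie.twistedD4 K q) (Fin k → ℂ)), ρ.IsIrreducible → 2 ≤ k → q * (q ^ 4 - q ^ 2 + 1) ≤ k) := by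
  intro k ρ hρ hk
  have h := Cfsg.Agent.D4Deg.min_degree hq hK ρ (by rw [Module.finrank_fin_fun]; exact hk)
  rwa [Module.finrank_fin_fun] at h

end Cfsg.Agent.S2342
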