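import Cfsg.Statements.S2344
import Cfsg.Agent.MinDeg.OrthOdd

set_option autoImplicit false
open Cfsg

namespace Cfsg.Agent.S2344

open Cfsg.Agent.MinDeg.Orth Cfsg.Agent.Classical in
/-- For a finite field F of odd order q > 3 and n ≥ 3, every irreducible complex representation of degree at least 2 of Ω_{2n+1}(F) (the commutator subgroup of the isometry group of the quadratic form x₀² + x₁y₁ + ⋯ + x_ny_n) has degree at least (q^{2n} − 1)/(q² − 1). -/
theorem result {F : Type*} [Field F] [Fintype F] (n : ℕ) (hn : 3 ≤ n) (hodd : Odd (Fintype.card F)) (h3 : 3 < Fintype.card F) :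
    (∀ (k : ℕ) (ρ : Representation ℂ (Cfsg.Omega F (Cfsg.quadFormOdd n F)) (Fin k → ℂ)), ρ.IsIrreducible → 2 ≤ k → (Fintype.card F ^ (2 * n) - 1) / (Fintype.card F ^ 2 - 1) ≤ k) := by
  intro k ρ hρ hk
  set q := Fintype.card F with hqdef
  have h2 : (2 : F) ≠ 0 := Ring.two_ne_zero fun h => by
    have hev := FiniteField.even_card_iff_char_two.1 h
    rw [Nat.odd_iff] at hodd
    omega
  have hB := (goodCore_sq (F := F) h2).nondeg
  obtain ⟨σ, -, hnt⟩ := exists_rep (Cfsg.quadFormOdd n F) (oddQF n F) (oddQF_apply n)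
    (oddEquiv n) (oddEquiv_spec n) hn hB ρ hρ hk
  have hb := degree_ge σ hn hB (by omega) (fun h => by
    simp only [Prod.mk.injEq] at h
    rw [hqdef, h.2] at hodd
    exact absurd hodd (by decide)) hnt
  rw [Module.finrank_fin_fun, Nat.card_eq_fintype_card, ← hqdef] at hb
  have hne : k + 1 ≠ q * (wedges F n).card + geo q n := fun h => by
    obtain ⟨m, rfl⟩ : ∃ m, n = m + 3 := ⟨n - 3, by omega⟩
    exact odd_not_tight h2 (by omega) hodd σ hnt
      (by rw [Module.finrank_fin_fun, Nat.card_eq_fintype_card]; exact h)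
  have hN := card_wedges_sq (F := F) (show 1 ≤ n by omega)
  have hg := geo_mul q n (by omega)
  have hq1 : 1 ≤ q := by omega
  have h1 : 1 ≤ q ^ (2 * n) := Nat.one_le_pow _ _ (by omega)
  have h2' : 1 ≤ q ^ 2 := Nat.one_le_pow _ _ (by omega)
  have key : q ^ (2 * n) - 1 = (q * (wedges F n).card + geo q n) * (q ^ 2 - 1) := by
    obtain ⟨m, rfl⟩ : ∃ m, n = m + 1 := ⟨n - 1, by omega⟩
    zify [hq1] at hg
    zify [h1, h2']
    rw [Nat.add_sub_cancel] at hN
    linear_combination -(q : ℤ) * hN - (q + 1 : ℤ) * hg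
  rw [key, Nat.mul_div_cancel _ (by nlinarith [Nat.sub_pos_of_lt (show 1 < q ^ 2 by nlinarith)])]
  omega

end Cfsg.Agent.S2344
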