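import Cfsg.Statements.S2345
import Cfsg.Agent.MinDeg.OrthPlus

set_option autoImplicit false
open Cfsg

namespace Cfsg.Agent.S2345

open Cfsg.Agent.MinDeg.Orth Cfsg.Agent.Classical in
/-- For a finite field F with q > 3 elements and n ≥ 4, every irreducible complex representation of degree at least 2 of Ω⁺_{2n}(F) (the commutator subgroup of the isometry group of the hyperbolic quadratic form x₁y₁ + ⋯ + x_ny_n) has degree at least (q^n − 1)(q^{n−1} + q)/(q² − 1). -/
theorem result {F : Type*} [Field F] [Fintype F] (n : ℕ) (hn : 4 ≤ n) (h3 : 3 < Fintype.card F) :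
    (∀ (k : ℕ) (ρ : Representation ℂ (Cfsg.Omega F (Cfsg.quadFormPlus n F)) (Fin k → ℂ)), ρ.IsIrreducible → 2 ≤ k → (Fintype.card F ^ n - 1) * (Fintype.card F ^ (n - 1) + Fintype.card F) / (Fintype.card F ^ 2 - 1) ≤ k) := by
  intro k ρ hρ hk
  set q := Fintype.card F with hqdef
  have hB : BNondeg (0 : QuadraticForm F (Fin 0 → F)) := goodCore_zero.nondeg
  obtain ⟨σ, hσ, hnt⟩ := exists_rep (Cfsg.quadFormPlus n F) (plusQF n F) (plusQF_apply n)
    (plusEquiv n) (plusEquiv_spec n) (by omega) hB ρ hρ hk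
  have hb := degree_ge σ (by omega) hB (by omega)
    (fun h => by simp only [Prod.mk.injEq] at h; omega) hnt
  rw [Module.finrank_fin_fun, show Nat.card (Fin 0 → F) = 1 by simp, one_mul, ← hqdef] at hb
  have hne : k + 1 ≠ (wedges F n).card + geo q n := fun h =>
    plus_not_tight hn (by omega) 0 σ hσ hnt h
  have hN := card_wedges_sq (F := F) (show 1 ≤ n by omega)
  have hg := geo_mul q n (by omega)
  have hq1 : 1 ≤ q := by omega
  have h1 : 1 ≤ q ^ n := Nat.one_le_pow _ _ (by omega)
  have h2 : 1 ≤ q ^ 2 := Nat.one_le_pow _ _ (by omega)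
  have key : (q ^ n - 1) * (q ^ (n - 1) + q) = ((wedges F n).card + geo q n) * (q ^ 2 - 1) := by
    zify [hq1] at hg
    zify [h1, h2]
    linear_combination -hN - (q + 1 : ℤ) * hg
  rw [key, Nat.mul_div_cancel _ (by nlinarith [Nat.sub_pos_of_lt (show 1 < q ^ 2 by nlinarith)])]
  omega

end Cfsg.Agent.S2345
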