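import Cfsg.Statements.S2346
import Cfsg.Agent.MinDeg.OrthMinus

set_option autoImplicit false
open Cfsg

namespace Cfsg.Agent.S2346

open Cfsg.Agent.MinDeg.Orth Cfsg.Agent.Classical in
/-- For a finite field F with q elements, n ≥ 4, and a, b ∈ F with z₁² + a z₁z₂ + b z₂² anisotropic, every irreducible complex representation of degree at least 2 of Ω⁻_{2n}(F) (the commutator subgroup of the isometry group of x₁y₁ + ⋯ + x_{n−1}y_{n−1} + z₁² + a z₁z₂ + b z₂²) has degree at least (q^n + 1)(q^{n−1} − q)/(q² − 1). -/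
theorem result {F : Type*} [Field F] [Fintype F] (n : ℕ) (hn : 4 ≤ n) (a b : F) (hab : ∀ z₁ z₂ : F, z₁ ^ 2 + a * z₁ * z₂ + b * z₂ ^ 2 = 0 → z₁ = 0 ∧ z₂ = 0) :
    (∀ (k : ℕ) (ρ : Representation ℂ (Cfsg.Omega F (Cfsg.quadFormMinus (n - 1) F a b)) (Fin k → ℂ)), ρ.IsIrreducible → 2 ≤ k → (Fintype.card F ^ n + 1) * (Fintype.card F ^ (n - 1) - Fintype.card F) / (Fintype.card F ^ 2 - 1) ≤ k) := by
  obtain ⟨m, rfl⟩ : ∃ m, n = m + 1 := ⟨n - 1, by omega⟩
  rw [Nat.add_sub_cancel]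
  intro k ρ hρ hk
  have hA := anisotropic_binQF hab
  have hB : BNondeg (binQF a b) := (goodCore_binQF hA).nondeg
  obtain ⟨σ, -, hnt⟩ := exists_rep (Cfsg.quadFormMinus m F a b) (minusQF m a b) (minusQF_apply m a b)
    (minusEquiv m) (minusEquiv_spec m a b) (by omega) hB ρ hρ hk
  have hW : Nat.card (Fin 2 → F) = Fintype.card F ^ 2 := by simp [Nat.card_eq_fintype_card]
  have hb := degree_ge_any σ (by omega) hB hW.ge (rot_binQF hA (by omega)) (binQF_surjective hA) hnt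
  rw [Module.finrank_fin_fun, hW] at hb
  set q := Fintype.card F with hqdef
  have hq2 : 2 ≤ q := Fintype.one_lt_card
  have hN := card_wedges_sq (F := F) (show 1 ≤ m by omega)
  have hg := geo_mul q m (by omega)
  obtain ⟨l, rfl⟩ : ∃ l, m = l + 1 := ⟨m - 1, by omega⟩
  rw [Nat.add_sub_cancel, ← hqdef] at hN
  have hq1 : 1 ≤ q := by omega
  have h1 : q ≤ q ^ (l + 1) := Nat.le_self_pow (by omega) _
  have h2 : 1 ≤ q ^ 2 := Nat.one_le_pow _ _ (by omega)
  have key : (q ^ (l + 1 + 1) + 1) * (q ^ (l + 1) - q) + (q ^ 2 - 1) =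
      (q ^ 2 * (wedges F (l + 1)).card + geo q (l + 1)) * (q ^ 2 - 1) := by
    zify [hq1] at hg
    zify [h1, h2]
    linear_combination -(q : ℤ) ^ 2 * hN - (q + 1 : ℤ) * hg
  have h3 : 0 < q ^ 2 - 1 := by
    have : 2 ^ 2 ≤ q ^ 2 := Nat.pow_le_pow_left hq2 2
    omega
  rw [Nat.div_le_iff_le_mul_add_pred h3]
  have h4 := Nat.mul_le_mul_right (q ^ 2 - 1) hb
  rw [← key, show (k + 1) * (q ^ 2 - 1) = k * (q ^ 2 - 1) + (q ^ 2 - 1) by ring,
    Nat.add_le_add_iff_right, mul_comm k] at h4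
  omega

end Cfsg.Agent.S2346
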