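import Cfsg.Statements.S2347
import Cfsg.Agent.SpWeil.Rep
-- import your own Cfsg.Agent.* helpers here

set_option autoImplicit false
open Cfsg

namespace Cfsg.Agent.S2347

/-- Smallest degree of a non-linear irreducible complex representation of the symplectic group Sp_{2n} over a finite field of odd order q, n ≥ 2: every irreducible complex representation of degree at least 2 has degree at least (q^n − 1)/2, and there is an irreducible complex representation of exactly that degree (a Weil representation). -/
theorem result {F : Type*} [Field F] [Fintype F] [DecidableEq F] (n : ℕ) (hn : 2 ≤ n) (hodd : Odd (Fintype.card F)) :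
    (∀ (k : ℕ) (ρ : Representation ℂ (Matrix.symplecticGroup (Fin n) F) (Fin k → ℂ)), ρ.IsIrreducible → 2 ≤ k → (Fintype.card F ^ n - 1) / 2 ≤ k) ∧
    (∃ ρ : Representation ℂ (Matrix.symplecticGroup (Fin n) F) (Fin ((Fintype.card F ^ n - 1) / 2) → ℂ), ρ.IsIrreducible) := by
  have h2 := Agent.MinDeg.two_ne_zero_of_odd_card hodd
  refine ⟨fun k ρ hρ hk => ?_, ?_⟩
  · by_cases hS : ∀ M, ρ (Agent.MinDeg.siegel M) = 1
    · exfalso
      have htriv := Agent.MinDeg.sp_trivial_of_siegel (by omega) h2 ρ hS
      let x₀ : Fin k → ℂ := Pi.single ⟨0, by omega⟩ 1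
      let W : Subrepresentation ρ :=
        { toSubmodule := Submodule.span ℂ {x₀}
          apply_mem_toSubmodule := fun g v hv => by rwa [htriv, Module.End.one_apply] }
      rcases hρ.eq_bot_or_eq_top W with hW | hW
      · have : x₀ ∈ (⊥ : Submodule ℂ (Fin k → ℂ)) := by
          have h1 : Submodule.span ℂ {x₀} = ⊥ := congrArg Subrepresentation.toSubmodule hW
          rw [← h1]
          exact Submodule.mem_span_singleton_self x₀
        simp [x₀] at this
      · have h1 : Submodule.span ℂ {x₀} = ⊤ := congrArg Subrepresentation.toSubmodule hW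
        have := finrank_span_singleton (K := ℂ) (show x₀ ≠ 0 by simp [x₀])
        rw [h1, finrank_top, Module.finrank_fin_fun] at this
        omega
    · obtain ⟨M, hM⟩ := not_forall.1 hS
      have := Agent.MinDeg.sp_siegel_bound hodd hn ρ M hM
      rwa [Module.finrank_fin_fun] at this
  · obtain ⟨ψ, hψ⟩ := (AddChar.exists_apply_ne_zero (α := F) (a := 1)).2 one_ne_zero
    have hprim : ψ.IsPrimitive := AddChar.IsPrimitive.of_ne_one fun h => hψ (by rw [h]; rfl)
    obtain ⟨H⟩ := Agent.SpWeil.nonempty_half (F := F) (n := n) h2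
    exact ⟨_, Agent.SpWeil.weilOdd_irreducible H h2 hprim hn hodd rfl⟩

end Cfsg.Agent.S2347
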