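import Cfsg.Statements.S2353
import Cfsg.Agent.WordLaws.SL2
-- import your own Cfsg.Agent.* helpers here

set_option autoImplicit false
open Cfsg

namespace Cfsg.Agent.S2353

/-- A non-trivial law holds in PSL_2 over only finitely many finite fields: for every non-trivial element w of the free group on countably many generators there is N such that over every finite field with at least N elements some substitution of elements of PSL_2 into w is not the identity. -/
theorem result (w : FreeGroup ℕ) (hw : w ≠ 1) :
    ∃ N : ℕ, ∀ (F : Type*) [Field F] [Fintype F], N ≤ Fintype.card F →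
      ∃ f : ℕ → Matrix.ProjectiveSpecialLinearGroup (Fin 2) F, FreeGroup.lift f w ≠ 1 := by
  refine ⟨Cfsg.Agent.WordLaws.wordBound w + 1, fun F _ _ hF => ?_⟩
  classical
  obtain ⟨g, hg⟩ := Cfsg.Agent.WordLaws.exists_noncentral_sl2' (F := F) w hw (by omega)
  let π := QuotientGroup.mk' (Subgroup.center (Matrix.SpecialLinearGroup (Fin 2) F))
  refine ⟨fun i => π (g i), ?_⟩
  rw [Cfsg.Agent.WordLaws.lift_comp π g w]
  exact fun h => hg ((QuotientGroup.eq_one_iff _).1 h)

end Cfsg.Agent.S2353
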