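import Cfsg.Statements.S2356
import Cfsg.Agent.SUThree.Graph

set_option autoImplicit false
open Cfsg

namespace Cfsg.Agent.S2356

/-- Let q be odd, F the field with q² elements, S = SU_3(F) (determinant-one isometries of the standard Hermitian form) and t an involution of S. Then: exactly q(q−1) involutions other than t commute with t; exactly q(q−2)(q²−1) involutions do not commute with t but commute with some involution commuting with t; exactly (q+1)(q²−1) involutions x do not commute with t and admit no involution commuting with both t and x; and every involution can be reached from t in at most three steps, each step going to an involution that commutes with the previous one (the commuting involution graph is connected of diameter 3). -/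
theorem result {F : Type*} [Field F] [Fintype F] {q : ℕ} (hq : Odd q)
    (hF : Fintype.card F = q ^ 2) (t : ↥(Cfsg.SU 3 F q)) (ht : t ≠ 1) (ht2 : t * t = 1) :
    Nat.card {x : ↥(Cfsg.SU 3 F q) // x ≠ 1 ∧ x * x = 1 ∧ x ≠ t ∧ Commute t x} = q * (q - 1) ∧
    Nat.card {x : ↥(Cfsg.SU 3 F q) // x ≠ 1 ∧ x * x = 1 ∧ ¬ Commute t x ∧
        ∃ y : ↥(Cfsg.SU 3 F q), y ≠ 1 ∧ y * y = 1 ∧ Commute t y ∧ Commute y x} = q * (q - 2) * (q ^ 2 - 1) ∧
    Nat.card {x : ↥(Cfsg.SU 3 F q) // x ≠ 1 ∧ x * x = 1 ∧ ¬ Commute t x ∧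
        ∀ y : ↥(Cfsg.SU 3 F q), y ≠ 1 → y * y = 1 → ¬ (Commute t y ∧ Commute y x)} = (q + 1) * (q ^ 2 - 1) ∧
    ∀ x : ↥(Cfsg.SU 3 F q), x ≠ 1 → x * x = 1 →
      ∃ y z : ↥(Cfsg.SU 3 F q), y ≠ 1 ∧ y * y = 1 ∧ z ≠ 1 ∧ z * z = 1 ∧
        Commute t y ∧ Commute y z ∧ Commute z x := by
  letI : StarRing F := Cfsg.Agent.SemiUnitary.starPow hF
  have hs : ∀ x : F, star x = x ^ q := fun _ => rfl
  exact ⟨SUThree.card_adjacent hs hq hF t ht ht2, SUThree.card_middle hs hq hF t ht ht2,
    SUThree.card_far hs hq hF t ht ht2,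
    fun x hx hx2 => SUThree.diameter hs hq hF t x ht ht2 hx hx2⟩


end Cfsg.Agent.S2356
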