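import Cfsg.Statements.S2444
import Cfsg.Agent.SLComm.Main
-- import your own Cfsg.Agent.* helpers here

set_option autoImplicit false
open Cfsg

namespace Cfsg.Agent.S2444

/-- In the special linear group SL(n,F) over a finite field F, with n ≥ 2 and (n, |F|) not (2,2) or (2,3), every element is a commutator a·b·a⁻¹·b⁻¹ of two elements of SL(n,F). -/
theorem result {F : Type*} [Field F] [Fintype F] (n : ℕ) (hn : 2 ≤ n) (hex : n = 2 → 4 ≤ Fintype.card F) :
    ∀ g : Matrix.SpecialLinearGroup (Fin n) F, ∃ a b : Matrix.SpecialLinearGroup (Fin n) F, g = a * b * a⁻¹ * b⁻¹ := by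
  intro g
  have hfr : Module.finrank F (Fin n → F) = n := by simp
  obtain ⟨L, X, hL, hX, h⟩ := Cfsg.Agent.SLComm.commRel_of_det_one (F := F) n (Fin n → F) hfr hn hex
    (Matrix.toLin' (g : Matrix (Fin n) (Fin n) F)) (by rw [LinearMap.det_toLin']; exact g.2)
  set a : Matrix.SpecialLinearGroup (Fin n) F :=
    ⟨LinearMap.toMatrix' L, by rw [LinearMap.det_toMatrix']; exact hL⟩
  set b : Matrix.SpecialLinearGroup (Fin n) F :=
    ⟨LinearMap.toMatrix' X, by rw [LinearMap.det_toMatrix']; exact hX⟩
  refine ⟨a, b, ?_⟩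
  have key : g * (b * a) = a * b := by
    apply Subtype.ext
    have h' := congrArg LinearMap.toMatrix' h
    rw [LinearMap.toMatrix'_comp, LinearMap.toMatrix'_comp, LinearMap.toMatrix'_comp,
      LinearMap.toMatrix'_toLin'] at h'
    exact h'
  rw [← key]
  group

end Cfsg.Agent.S2444
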