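import Cfsg.Statements.S2450
import Cfsg.Agent.Spec.PSLTwoProducts
-- import your own Cfsg.Agent.* helpers here

set_option autoImplicit false
open Cfsg

namespace Cfsg.Agent.S2450

/-- The Arad–Herzog conjecture for PSL(2,q): let F be a finite field with q ≥ 4 elements. For any two non-identity elements a, b of PSL(2,F), the set of products of a conjugate of a with a conjugate of b is not a single conjugacy class. -/
theorem result {F : Type*} [Field F] [Fintype F] (h4 : 4 ≤ Fintype.card F)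
    (a b : Matrix.ProjectiveSpecialLinearGroup (Fin 2) F) (ha : a ≠ 1) (hb : b ≠ 1) (c : Matrix.ProjectiveSpecialLinearGroup (Fin 2) F) :
    {g : Matrix.ProjectiveSpecialLinearGroup (Fin 2) F | ∃ u v : Matrix.ProjectiveSpecialLinearGroup (Fin 2) F, g = (u * a * u⁻¹) * (v * b * v⁻¹)} ≠ {g | IsConj c g} := by
  obtain ⟨A, rfl⟩ := Spec.Two.π_surjective a
  obtain ⟨B, rfl⟩ := Spec.Two.π_surjective b
  obtain ⟨C, rfl⟩ := Spec.Two.π_surjective c
  intro heq
  obtain ⟨u, v, huv⟩ := Spec.Two.products_trace_sq h4 A B (Spec.Two.ns_of_π_ne_one ha)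
    (Spec.Two.ns_of_π_ne_one hb) ((C : Matrix (Fin 2) (Fin 2) F).trace ^ 2)
  refine huv (Spec.Two.trace_sq_of_isConj ?_)
  have : Spec.Two.π ((u * A * u⁻¹) * (v * B * v⁻¹)) ∈ {g | IsConj (Spec.Two.π C) g} :=
    heq ▸ ⟨Spec.Two.π u, Spec.Two.π v, by simp only [map_mul, map_inv]⟩
  exact this

end Cfsg.Agent.S2450
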