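import Cfsg.Statements.S2456
import Cfsg.Agent.Spec.PSLTwoProducts
-- import your own Cfsg.Agent.* helpers here

set_option autoImplicit false
open Cfsg

namespace Cfsg.Agent.S2456

/-- A strong covering result in the direction of Thompson's conjecture (non-identity elements) for PSL(2,q), q even: let F be a finite field of characteristic 2 with q ≥ 4 elements and let x ∈ PSL(2,F) have order greater than 2 and not dividing q + 1. Then every non-identity element of PSL(2,F) is a product of two conjugates of x. -/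
theorem result {F : Type*} [Field F] [Fintype F] [CharP F 2] (h4 : 4 ≤ Fintype.card F)
    (x : Matrix.ProjectiveSpecialLinearGroup (Fin 2) F) (hx2 : 2 < orderOf x) (hxq : ¬ orderOf x ∣ Fintype.card F + 1) : ∀ g : Matrix.ProjectiveSpecialLinearGroup (Fin 2) F, g ≠ 1 → ∃ u v : Matrix.ProjectiveSpecialLinearGroup (Fin 2) F, g = (u * x * u⁻¹) * (v * x * v⁻¹) := by
  haveI : Fact (Nat.Prime 2) := ⟨Nat.prime_two⟩
  intro g hg
  obtain ⟨A, rfl⟩ := Spec.Two.π_surjective x
  obtain ⟨G, rfl⟩ := Spec.Two.π_surjective g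
  have hAns : Spec.Two.NS (A : Matrix (Fin 2) (Fin 2) F) :=
    Spec.Two.ns_of_π_ne_one fun h => by rw [h, orderOf_one] at hx2; omega
  have ht4 : (A : Matrix (Fin 2) (Fin 2) F).trace ^ 2 ≠ 4 := by
    intro h
    have h' := orderOf_dvd_of_pow_eq_one (Spec.Two.π_pow_char_of_trace_sq 2 A h)
    rcases (Nat.dvd_prime Fact.out).1 h' with e | e <;> rw [e] at hx2
    · omega
    · omega
  have push : ∀ G' : Matrix.SpecialLinearGroup (Fin 2) F,
      (∃ u v : Matrix.SpecialLinearGroup (Fin 2) F, G' = (u * A * u⁻¹) * (v * A * v⁻¹)) →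
      ∃ u v, Spec.Two.π G' = (u * Spec.Two.π A * u⁻¹) * (v * Spec.Two.π A * v⁻¹) := by
    rintro G' ⟨u, v, rfl⟩
    exact ⟨Spec.Two.π u, Spec.Two.π v, by simp only [map_mul, map_inv]⟩
  have hGns := Spec.Two.ns_of_π_ne_one hg
  have h2 : (2 : F) = 0 := CharTwo.two_eq_zero
  obtain ⟨r, hr⟩ : ∃ r : F, r ^ 2 - (A : Matrix (Fin 2) (Fin 2) F).trace * r + 1 = 0 := by
    by_contra hno
    push Not at hno
    apply hxq
    apply orderOf_dvd_of_pow_eq_one
    rw [← map_pow, Spec.Two.pow_card_add_one A hAns hno, map_one]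
  by_cases hs : (G : Matrix (Fin 2) (Fin 2) F).trace ^ 2 = 4
  swap
  · exact push G (Spec.Two.exists_product A G ht4 hGns (Or.inl hs))
  refine push G (Spec.Two.exists_product A G ht4 hGns (Or.inr (Or.inl ⟨?_, r, hr⟩)))
  rw [h2]
  exact pow_eq_zero_iff two_ne_zero |>.1 (hs.trans (by linear_combination (2 : F) * h2))

end Cfsg.Agent.S2456
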