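import Cfsg.Statements.S2459
import Cfsg.Agent.Spec.PSL3
-- import your own Cfsg.Agent.* helpers here

set_option autoImplicit false
open Cfsg

namespace Cfsg.Agent.S2459

/-- A form of Thompson's conjecture for PSL(3,q), q > 2 (covering the non-identity elements), with a semisimple class: for F a finite field of characteristic p with more than 2 elements there is an element x of PSL(3,F) of order prime to p such that every non-identity element of PSL(3,F) is a product of two conjugates of x. -/
theorem result {F : Type*} [Field F] [Fintype F] (p : ℕ) [Fact p.Prime] [CharP F p] (h3 : 3 ≤ Fintype.card F) :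
    ∃ x : Matrix.ProjectiveSpecialLinearGroup (Fin 3) F, ¬ p ∣ orderOf x ∧ ∀ g : Matrix.ProjectiveSpecialLinearGroup (Fin 3) F, g ≠ 1 → ∃ u v : Matrix.ProjectiveSpecialLinearGroup (Fin 3) F, g = (u * x * u⁻¹) * (v * x * v⁻¹) := by
  classical
  suffices h : ∃ (s : Matrix.SpecialLinearGroup (Fin 3) F) (m : ℕ), ¬ p ∣ m ∧ s ^ m = 1 ∧
      ∀ g : Matrix.SpecialLinearGroup (Fin 3) F,
        (∀ c : F, (g : Matrix (Fin 3) (Fin 3) F) ≠ c • 1) →
          ∃ u v : Matrix.SpecialLinearGroup (Fin 3) F, g = (u * s * u⁻¹) * (v * s * v⁻¹) by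
    obtain ⟨s, m, hm, hsm, hcov⟩ := h
    refine ⟨QuotientGroup.mk' _ s, fun hd => hm (hd.trans ((orderOf_map_dvd _ s).trans
      (orderOf_dvd_of_pow_eq_one hsm))), fun x hx => ?_⟩
    obtain ⟨g, rfl⟩ := QuotientGroup.mk'_surjective _ x
    obtain ⟨u, v, huv⟩ := hcov g (fun c hc => hx (by
      rw [QuotientGroup.mk'_apply, QuotientGroup.eq_one_iff,
        Matrix.SpecialLinearGroup.mem_center_iff]
      refine ⟨c, ?_, ?_⟩
      · have := g.2
        rw [hc, Matrix.det_smul, Matrix.det_one, mul_one] at this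
        exact this
      · rw [hc, Matrix.smul_one_eq_diagonal]; rfl))
    refine ⟨QuotientGroup.mk' _ u, QuotientGroup.mk' _ v, ?_⟩
    rw [huv]; simp only [map_mul, map_inv]
  have hcharF : p ∣ Fintype.card F := by
    obtain ⟨e, _, he⟩ := FiniteField.card F p
    rw [he]; exact dvd_pow_self p e.ne_zero
  by_cases h4 : Fintype.card F = 3
  · haveI : Fact (Nat.Prime 3) := ⟨Nat.prime_three⟩
    have hp3 : p = 3 := (Nat.prime_dvd_prime_iff_eq Fact.out Nat.prime_three).1 (h4 ▸ hcharF)
    let e : ZMod 3 ≃+* F := ZMod.ringEquivOfPrime F Nat.prime_three (by rw [h4])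
    let φ := Matrix.SpecialLinearGroup.map (n := Fin 3) e.toRingHom
    let ψ := Matrix.SpecialLinearGroup.map (n := Fin 3) e.symm.toRingHom
    obtain ⟨s, hs, hcov⟩ := Spec.Three.covering_three
    refine ⟨φ s, 4, by rw [hp3]; decide, by rw [← map_pow, hs, map_one], fun g hg => ?_⟩
    have hφψ : φ (ψ g) = g := Subtype.ext (Matrix.ext fun i j => e.apply_symm_apply _)
    obtain ⟨u, v, huv⟩ := hcov (ψ g) (fun c hc => hg (e c) (Matrix.ext fun i j => by
      have h := congrArg e (congrFun (congrFun hc i) j)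
      have h' : e ((ψ g).1 i j) = g.1 i j := e.apply_symm_apply _
      rw [h'] at h
      rw [h]
      by_cases hij : i = j <;> simp [hij]))
    refine ⟨φ u, φ v, ?_⟩
    rw [← map_inv, ← map_inv, ← map_mul, ← map_mul, ← map_mul, ← map_mul, ← map_mul, ← huv, hφψ]
  · obtain ⟨b, hb⟩ : ∃ b : F, b ∉ ({0, 1, -1} : Finset F) := by
      by_contra hno
      push Not at hno
      have := Finset.card_le_card (s := Finset.univ) (fun x _ => hno x)
      rw [Finset.card_univ] at this
      have := this.trans Finset.card_le_three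
      omega
    simp only [Finset.mem_insert, Finset.mem_singleton, not_or] at hb
    obtain ⟨hb0, hb1, hb2⟩ := hb
    let s : Matrix.SpecialLinearGroup (Fin 3) F := ⟨Matrix.diagonal ![1, b, b⁻¹], by
      simp [Matrix.det_diagonal, Fin.prod_univ_three, hb0]⟩
    refine ⟨s, Fintype.card F - 1, ?_, ?_, fun g hg =>
      Spec.Three.covering s 1 b b⁻¹ rfl (Ne.symm hb1) ?_ ?_ g hg⟩
    · intro hd
      have h1 := Nat.dvd_sub hcharF hd
      rw [show Fintype.card F - (Fintype.card F - 1) = 1 by omega] at h1
      exact (Fact.out : p.Prime).not_dvd_one h1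
    · apply Subtype.ext
      rw [Matrix.SpecialLinearGroup.coe_pow]
      show Matrix.diagonal ![1, b, b⁻¹] ^ (Fintype.card F - 1) = 1
      rw [Matrix.diagonal_pow, ← Matrix.diagonal_one]
      congr 1
      funext i
      fin_cases i <;> simp [FiniteField.pow_card_sub_one_eq_one, hb0]
    · intro h
      have : b * b = 1 := by nth_rewrite 2 [h]; exact mul_inv_cancel₀ hb0
      rcases mul_self_eq_one_iff.1 this with h' | h'
      · exact hb1 h'
      · exact hb2 h'
    · intro h
      exact hb1 (by simpa using h.symm)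

end Cfsg.Agent.S2459
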