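import Cfsg.Statements.S2460
import Cfsg.Agent.PSp4Cover.Main

set_option autoImplicit false
open Cfsg
open scoped Pointwise commutatorElement

namespace Cfsg.Agent.S2460

/-- A form of Thompson's conjecture for the simple groups PSp(4,q), q ≥ 3 (covering the non-identity elements), with a semisimple class: for F a finite field of characteristic p with at least 3 elements there is an element x of PSp(4,F) of order prime to p such that every non-identity element of PSp(4,F) is a product of two conjugates of x. -/
theorem result {F : Type*} [Field F] [Fintype F] (p : ℕ) [Fact p.Prime] [CharP F p] (h3 : 3 ≤ Fintype.card F) :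
    ∃ x : Cfsg.PSp 2 F, ¬ p ∣ orderOf x ∧ ∀ g : Cfsg.PSp 2 F, g ≠ 1 → ∃ u v : Cfsg.PSp 2 F, g = (u * x * u⁻¹) * (v * x * v⁻¹) := by
  exact Cfsg.Agent.PSp4Cover.psp_cover p h3

end Cfsg.Agent.S2460
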