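import Cfsg.Statements.S2462
import Cfsg.Agent.TriCC.Regular
import Cfsg.Agent.TriCC.Small

set_option autoImplicit false
open Cfsg

namespace Cfsg.Agent.S2462

/-- A form of Thompson's conjecture for the triality groups ³D₄(q) (covering the non-identity elements) with a semisimple class: for q a power of the prime p and K the field with q³ elements there is an element x of ³D₄(q) (realised over K) of order prime to p such that every non-identity element of ³D₄(q) is a product of two conjugates of x. -/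
theorem result {K : Type*} [Field K] [Fintype K] (p : ℕ) [Fact p.Prime] [CharP K p] (q : ℕ) (hq : IsPrimePow q) (hK : Fintype.card K = q ^ 3) :
    ∃ x : Cfsg.Lie.twistedD4 K q, ¬ p ∣ orderOf x ∧ ∀ g : Cfsg.Lie.twistedD4 K q, g ≠ 1 → ∃ u v : Cfsg.Lie.twistedD4 K q, g = (u * x * u⁻¹) * (v * x * v⁻¹) := by
  have hq1 := hq.one_lt
  have hpp : p.Prime := Fact.out
  have hpq : p ∣ q := by
    refine hpp.dvd_of_dvd_pow (n := 3) ?_
    rw [← hK, ← CharP.cast_eq_zero_iff K p]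
    exact Nat.cast_card_eq_zero K
  have hndvd : ¬ p ∣ q ^ 3 - 1 := by
    intro h
    have h1 : p ∣ q ^ 3 - (q ^ 3 - 1) := Nat.dvd_sub (hpq.trans (dvd_pow_self q (by norm_num))) h
    rw [Nat.sub_sub_self (Nat.one_le_pow _ _ (by omega))] at h1
    exact hpp.one_lt.ne' (Nat.dvd_one.1 h1)
  suffices h : ∃ x ∈ Cfsg.Lie.twistedD4 K q, (∃ n, x ^ n = 1 ∧ ¬ p ∣ n) ∧
      ∀ g ∈ Cfsg.Lie.twistedD4 K q, g ≠ 1 → ∃ u ∈ Cfsg.Lie.twistedD4 K q,
        ∃ v ∈ Cfsg.Lie.twistedD4 K q, g = (u * x * u⁻¹) * (v * x * v⁻¹) by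
    obtain ⟨x, hx, ⟨n, hn, hpn⟩, hall⟩ := h
    refine ⟨⟨x, hx⟩, fun hd => hpn (hd.trans (orderOf_dvd_of_pow_eq_one (Subtype.ext hn))), ?_⟩
    intro g hg
    obtain ⟨u, hu, v, hv, e⟩ := hall g g.2 fun e => hg (Subtype.ext e)
    exact ⟨⟨u, hu⟩, ⟨v, hv⟩, Subtype.ext e⟩
  rcases (by omega : q = 2 ∨ q = 3 ∨ 4 ≤ q) with h | h | h
  · obtain ⟨x, hx, hn, hall⟩ := TriCC.two_case hq hK p h
    obtain rfl : p = 2 := (Nat.prime_dvd_prime_iff_eq hpp Nat.prime_two).1 (h ▸ hpq)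
    exact ⟨x, hx, ⟨_, hn, fun hd => (hpp.dvd_mul.1 hd).elim (by norm_num) hndvd⟩, hall⟩
  · obtain ⟨x, hx, hn, hall⟩ := TriCC.three_case hq hK p h
    obtain rfl : p = 3 := (Nat.prime_dvd_prime_iff_eq hpp Nat.prime_three).1 (h ▸ hpq)
    exact ⟨x, hx, ⟨_, hn, fun hd => (hpp.dvd_mul.1 hd).elim (by norm_num) hndvd⟩, hall⟩
  · obtain ⟨x, hx, hn, hall⟩ := TriCC.regular_case hq hK p h
    exact ⟨x, hx, ⟨_, hn, hndvd⟩, hall⟩

end Cfsg.Agent.S2462
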