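import Cfsg.Statements.S2463
import Cfsg.Agent.TwoFourCC.Iso
import Cfsg.Agent.TwoFourCC.Tits

set_option autoImplicit false
set_option maxRecDepth 20000
open Cfsg

namespace Cfsg.Agent.S2463

/-- Transport of the covering property to an isomorphic copy of a subgroup. -/
theorem conj_sub {M G : Type*} [Group M] [Group G] (D : Subgroup G) (φ : M ≃* ↥D)
    (h : ∃ x : ↥D, Odd (orderOf x) ∧ ∀ g : ↥D, g ≠ 1 → ∃ u v, g = (u * x * u⁻¹) * (v * x * v⁻¹)) :
    ∃ x : M, Odd (orderOf x) ∧ ∀ g : M, g ≠ 1 → ∃ u v, g = (u * x * u⁻¹) * (v * x * v⁻¹) := by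
  obtain ⟨x, hx, hg⟩ := h
  refine ⟨φ.symm x, by rwa [φ.symm.orderOf_eq], fun g hg1 => ?_⟩
  obtain ⟨u, v, e⟩ := hg (φ g) fun e => hg1 (φ.injective (by rw [e, map_one]))
  exact ⟨φ.symm u, φ.symm v, φ.injective (by simp [e])⟩

/-- A form of Thompson's conjecture for the simple groups of type ²F₄ (covering the non-identity elements) with a semisimple class: if M is a large Ree group ²F₄(2^(2m+1)) with m ≥ 1, or the Tits group, then there is an element x of M of odd order such that every non-identity element of M is a product of two conjugates of x. -/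
theorem result {M : Type*} [Group M] [Finite M] (hM : Cfsg.Lie.Iso2F4 M ∨ Cfsg.Lie.IsoTits M) :
    ∃ x : M, Odd (orderOf x) ∧ ∀ g : M, g ≠ 1 → ∃ u v : M, g = (u * x * u⁻¹) * (v * x * v⁻¹) := by
  rcases hM with h | h
  · exact Cfsg.Agent.TwoFourCC.iso2F4_two_conj h
  · exact h.elim fun φ => conj_sub (commutator ↥(Cfsg.Lie.twistedF4 (ZMod 2) 1)) φ
      Cfsg.Agent.TwoFourCC.tits_two_conj

end Cfsg.Agent.S2463
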