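import Cfsg.Statements.S2466
import Cfsg.Agent.Alt.Orders
-- import your own Cfsg.Agent.* helpers here

set_option autoImplicit false
open Cfsg

namespace Cfsg.Agent.S2466

/-- Adjacency of odd primes in the prime graph of the alternating groups: let r ≠ s be odd primes at most n. The alternating group of degree n has an element of order r·s if and only if r + s ≤ n. -/
theorem result (n r s : ℕ) (hr : r.Prime) (hs : s.Prime) (hr2 : r ≠ 2) (hs2 : s ≠ 2) (hrs : r ≠ s) (hrn : r ≤ n) (hsn : s ≤ n) :
    (r * s ∈ Set.range (orderOf : alternatingGroup (Fin n) → ℕ)) ↔ r + s ≤ n := by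
  constructor
  · rintro ⟨g, hg⟩
    obtain ⟨a, ha, hra⟩ := Alt.exists_cycle_of_prime_pow_dvd_orderOf (g := (g : Equiv.Perm (Fin n)))
      (a := 1) hr one_ne_zero (by rw [pow_one, Subgroup.orderOf_coe, hg]; exact dvd_mul_right r s)
    obtain ⟨b, hb, hsb⟩ := Alt.exists_cycle_of_prime_pow_dvd_orderOf (g := (g : Equiv.Perm (Fin n)))
      (a := 1) hs one_ne_zero (by rw [pow_one, Subgroup.orderOf_coe, hg]; exact dvd_mul_left s r)
    rw [pow_one] at hra hsb
    have hsum := Equiv.Perm.sum_cycleType_le (g : Equiv.Perm (Fin n))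
    rw [Fintype.card_fin] at hsum
    have ha2 := Equiv.Perm.two_le_of_mem_cycleType ha
    have hb2 := Equiv.Perm.two_le_of_mem_cycleType hb
    by_cases hab : a = b
    · have h1 : r * s ≤ a := Nat.le_of_dvd (by omega)
        (((Nat.coprime_primes hr hs).2 hrs).mul_dvd_of_dvd_of_dvd hra (hab ▸ hsb))
      have h2 : a ≤ (g : Equiv.Perm (Fin n)).cycleType.sum := Multiset.le_sum_of_mem ha
      have h3 := Nat.add_le_mul hr.two_le hs.two_le
      omega
    · have h1 : b ∈ (g : Equiv.Perm (Fin n)).cycleType.erase a :=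
        (Multiset.mem_erase_of_ne (Ne.symm hab)).2 hb
      have h2 := Multiset.le_sum_of_mem h1
      rw [← Multiset.cons_erase ha, Multiset.sum_cons] at hsum
      have := Nat.le_of_dvd (by omega) hra
      have := Nat.le_of_dvd (by omega) hsb
      omega
  · intro h
    refine Alt.mem_range_orderOf_alt_iff.2 ⟨{r, s}, ?_, ?_, ?_, ?_⟩
    · simpa [Fintype.card_fin] using h
    · simp [hr.two_le, hs.two_le]
    · have h1 := hr.odd_of_ne_two hr2
      have h2 := hs.odd_of_ne_two hs2
      simpa [Nat.even_add] using (h1.add_odd h2)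
    · simp only [Multiset.insert_eq_cons, Multiset.lcm_cons, Multiset.lcm_singleton, normalize_eq]
      exact ((Nat.coprime_primes hr hs).2 hrs).lcm_eq_mul

end Cfsg.Agent.S2466
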