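import Cfsg.Statements.S2467
import Cfsg.Agent.Alt.Orders
-- import your own Cfsg.Agent.* helpers here

set_option autoImplicit false
open Cfsg

namespace Cfsg.Agent.S2467

/-- Adjacency of 2 and an odd prime in the prime graph of the alternating groups: let r be an odd prime at most n, with n ≥ 4. The alternating group of degree n has an element of order 2r if and only if r + 4 ≤ n. -/
theorem result (n r : ℕ) (hn : 4 ≤ n) (hr : r.Prime) (hr2 : r ≠ 2) (hrn : r ≤ n) :
    (2 * r ∈ Set.range (orderOf : alternatingGroup (Fin n) → ℕ)) ↔ r + 4 ≤ n := by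
  constructor
  · rintro ⟨g, hg⟩
    set m := (g : Equiv.Perm (Fin n)).cycleType
    obtain ⟨a, ha, hra⟩ := Alt.exists_cycle_of_prime_pow_dvd_orderOf (g := (g : Equiv.Perm (Fin n)))
      (a := 1) hr one_ne_zero (by rw [pow_one, Subgroup.orderOf_coe, hg]; exact dvd_mul_left r 2)
    obtain ⟨b, hb, hsb⟩ := Alt.exists_cycle_of_prime_pow_dvd_orderOf (g := (g : Equiv.Perm (Fin n)))
      (a := 1) Nat.prime_two one_ne_zero (by rw [pow_one, Subgroup.orderOf_coe, hg]; exact dvd_mul_right 2 r)
    rw [pow_one] at hra hsb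
    have hsum := Equiv.Perm.sum_cycleType_le (g : Equiv.Perm (Fin n))
    rw [Fintype.card_fin] at hsum
    have heven : Even (m.sum + Multiset.card m) := Alt.mem_alternatingGroup_iff_cycleType.1 g.2
    have ha2 := Equiv.Perm.two_le_of_mem_cycleType ha
    have hb2 := Equiv.Perm.two_le_of_mem_cycleType hb
    have key : ∀ s : Multiset ℕ, (∀ c ∈ s, ¬ 2 ∣ c) → Even (s.sum + Multiset.card s) := by
      intro s
      induction s using Multiset.induction with
      | empty => simp
      | cons c s ih =>
        intro hs'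
        obtain ⟨t, ht⟩ := ih fun d hd => hs' d (Multiset.mem_cons_of_mem hd)
        have := hs' c (Multiset.mem_cons_self c s)
        obtain ⟨u, hu⟩ : Odd c := Nat.odd_iff.2 (by omega)
        refine ⟨u + t + 1, ?_⟩
        rw [Multiset.sum_cons, Multiset.card_cons]
        omega
    -- a second cycle of even length
    obtain ⟨b', hb', hsb'⟩ : ∃ c ∈ m.erase b, 2 ∣ c := by
      by_contra hno
      push Not at hno
      obtain ⟨t, ht⟩ := key _ hno
      obtain ⟨t', ht'⟩ := heven
      rw [← Multiset.cons_erase (show b ∈ m from hb), Multiset.sum_cons, Multiset.card_cons] at ht'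
      omega
    have hb'2 := Equiv.Perm.two_le_of_mem_cycleType (Multiset.mem_of_mem_erase hb')
    change m.sum ≤ n at hsum
    rw [← Multiset.cons_erase (show b ∈ m from hb), Multiset.sum_cons, ← Multiset.cons_erase hb', Multiset.sum_cons] at hsum
    by_cases hab : a = b
    · have := Nat.le_of_dvd (by omega)
        (((Nat.coprime_primes Nat.prime_two hr).2 (Ne.symm hr2)).mul_dvd_of_dvd_of_dvd hsb (hab ▸ hra))
      have := hr.two_le
      omega
    by_cases hab' : a = b'
    · have := Nat.le_of_dvd (by omega)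
        (((Nat.coprime_primes Nat.prime_two hr).2 (Ne.symm hr2)).mul_dvd_of_dvd_of_dvd hsb' (hab' ▸ hra))
      have := hr.two_le
      omega
    have h1 : a ∈ (m.erase b).erase b' :=
      (Multiset.mem_erase_of_ne hab').2 ((Multiset.mem_erase_of_ne hab).2 ha)
    have := Multiset.le_sum_of_mem h1
    have := Nat.le_of_dvd (by omega) hra
    omega
  · intro h
    refine Alt.mem_range_orderOf_alt_iff.2 ⟨{r, 2, 2}, ?_, ?_, ?_, ?_⟩
    · simpa [Fintype.card_fin, add_assoc] using h
    · simp [hr.two_le]
    · obtain ⟨u, hu⟩ := hr.odd_of_ne_two hr2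
      exact ⟨u + 4, by simp; omega⟩
    · simp only [Multiset.insert_eq_cons, Multiset.lcm_cons, Multiset.lcm_singleton, normalize_eq, lcm_same]
      exact ((Nat.coprime_primes hr Nat.prime_two).2 hr2).lcm_eq_mul.trans (mul_comm r 2)

end Cfsg.Agent.S2467
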