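import Cfsg.Statements.S2471
import Cfsg.Agent.SpecSquare.PSLTwo
-- import your own Cfsg.Agent.* helpers here

set_option autoImplicit false
open Cfsg

namespace Cfsg.Agent.S2471

/-- In PSL(2,q) with q odd, the characteristic p is isolated from 2 in the prime graph: for F a finite field of odd characteristic p with at least 5 elements, PSL(2,F) has no element of order 2p. -/
theorem result {F : Type*} [Field F] [Fintype F] (p : ℕ) [Fact p.Prime] [CharP F p] (hp : p ≠ 2) (h5 : 5 ≤ Fintype.card F) (g : Matrix.ProjectiveSpecialLinearGroup (Fin 2) F) :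
    orderOf g ≠ 2 * p := by
  intro hg
  have hpr := (Fact.out : p.Prime)
  have h := (SpecSquare.mem_range_orderOf_psl_two (F := F) p (2 * p)).1 ⟨g, hg⟩
  obtain ⟨k, -, hk⟩ := FiniteField.card F p
  have hpq : p ∣ Fintype.card F := hk ▸ dvd_pow_self p k.pos.ne'
  have h1 : ∀ m, 2 ∣ m → 2 * p ∣ m / 2 → p ∣ m := fun m hm h' =>
    ((dvd_mul_left p 2).trans h').trans (Nat.div_dvd_of_dvd hm)
  obtain ⟨hm, hp'⟩ := SpecSquare.even_card_sub_one (F := F) p hp
  simp only [SpecSquare.red, if_neg hp] at h
  rcases h with h | h | h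
  · have := Nat.dvd_sub hpq (h1 _ hm h)
    rw [show Fintype.card F - (Fintype.card F - 1) = 1 by omega] at this
    exact hpr.not_dvd_one this
  · exact hpr.not_dvd_one ((Nat.dvd_add_right hpq).1 (h1 _ hp' h))
  · have := hpr.pos
    omega

end Cfsg.Agent.S2471
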