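import Cfsg.Statements.S2476
import Cfsg.Agent.SpecGL.PSLThree

set_option autoImplicit false
open Cfsg

namespace Cfsg.Agent.S2476

/-- The set of element orders of PSL(3,q): let F be a finite field of characteristic p with q elements and d = gcd(3, q − 1). The orders of elements of PSL(3,F) are exactly the divisors of (q² + q + 1)/d, of (q² − 1)/d, of q − 1, of p(q − 1)/d, and, when p = 2, of 4. -/
theorem result {F : Type*} [Field F] [Fintype F] (p : ℕ) [Fact p.Prime] [CharP F p] :
    Set.range (orderOf : Matrix.ProjectiveSpecialLinearGroup (Fin 3) F → ℕ) =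
      {m : ℕ | m ∣ (Fintype.card F ^ 2 + Fintype.card F + 1) / Nat.gcd 3 (Fintype.card F - 1) ∨
        m ∣ (Fintype.card F ^ 2 - 1) / Nat.gcd 3 (Fintype.card F - 1) ∨ m ∣ Fintype.card F - 1 ∨
        m ∣ p * (Fintype.card F - 1) / Nat.gcd 3 (Fintype.card F - 1) ∨ (p = 2 ∧ m ∣ 4)} := by
  exact SpecGL.range_orderOf p

end Cfsg.Agent.S2476
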