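import Cfsg.Statements.S2479
import Cfsg.Agent.Spec.SLClass.Upper
import Cfsg.Agent.Spec.SLClass.Lower

set_option autoImplicit false
open Cfsg

namespace Cfsg.Agent.S2479

/-- The number of conjugacy classes of SL(n,q): for F a finite field with q elements, the number k of conjugacy classes of SL(n,F) satisfies q^(n−1) < k and k ≤ (5/2)·q^(n−1) for n ≥ 2, and k ≤ q^(n−1) + 3q^(n−2) for n ≥ 3. -/
theorem result {F : Type*} [Field F] [Fintype F] (n : ℕ) (hn : 2 ≤ n) :
    Fintype.card F ^ (n - 1) < Nat.card (ConjClasses (Matrix.SpecialLinearGroup (Fin n) F)) ∧ 2 * Nat.card (ConjClasses (Matrix.SpecialLinearGroup (Fin n) F)) ≤ 5 * Fintype.card F ^ (n - 1) ∧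
      (3 ≤ n → Nat.card (ConjClasses (Matrix.SpecialLinearGroup (Fin n) F)) ≤ Fintype.card F ^ (n - 1) + 3 * Fintype.card F ^ (n - 2)) := by
  rcases (show n = 2 ∨ 3 ≤ n by omega) with rfl | h3
  · obtain ⟨h1, h2⟩ := Cfsg.Agent.Spec.SLClass.card_classes_SL_two (F := F)
    refine ⟨Cfsg.Agent.Spec.SLClass.pow_lt_card_classes_SL 2 le_rfl, ?_, fun h => absurd h (by omega)⟩
    have hq := Fintype.one_lt_card (α := F)
    rw [show 2 - 1 = 1 from rfl, pow_one]
    rcases (show Fintype.card F = 2 ∨ 3 ≤ Fintype.card F by omega) with hq2 | hq3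
    · have := h2 hq2
      omega
    · omega
  · have h := Cfsg.Agent.Spec.SLClass.card_classes_SL_bound (F := F) n h3
    refine ⟨Cfsg.Agent.Spec.SLClass.pow_lt_card_classes_SL n hn, ?_, fun _ => h⟩
    obtain ⟨k, rfl⟩ : ∃ k, n = k + 3 := ⟨n - 3, by omega⟩
    rw [show k + 3 - 1 = k + 2 by omega, show k + 3 - 2 = k + 1 by omega] at *
    have hq := Fintype.one_lt_card (α := F)
    have hp : 2 * Fintype.card F ^ (k + 1) ≤ Fintype.card F ^ (k + 2) := by
      rw [pow_succ' _ (k + 1)]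
      exact Nat.mul_le_mul_right _ hq
    omega

end Cfsg.Agent.S2479
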