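import Cfsg.Statements.S2482
import Cfsg.Agent.SpClassCount.Main
import Cfsg.Agent.SemiSymp.Classes

set_option autoImplicit false
open Cfsg

namespace Cfsg.Agent.S2482

/-- The number of conjugacy classes of Sp(2n,q), q odd: for F a finite field of odd order q and n ≥ 1, the number k of conjugacy classes of Sp(2n,F) satisfies q^n ≤ k ≤ 10.8·q^n. -/
theorem result {F : Type*} [Field F] [Fintype F] (hodd : Odd (Fintype.card F)) (n : ℕ) (hn : 1 ≤ n) :
    Fintype.card F ^ n ≤ Nat.card (ConjClasses (Matrix.symplecticGroup (Fin n) F)) ∧ 5 * Nat.card (ConjClasses (Matrix.symplecticGroup (Fin n) F)) ≤ 54 * Fintype.card F ^ n := by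
  classical
  haveI : Finite (ConjClasses (Matrix.symplecticGroup (Fin n) F)) :=
    Finite.of_surjective ConjClasses.mk ConjClasses.mk_surjective
  haveI := Fact.mk (CharP.char_is_prime F (ringChar F))
  constructor
  · rw [← SemiSymp.card_sp (F := F) (ringChar F) n]
    exact Nat.card_le_card_of_injective Subtype.val Subtype.val_injective
  · have hq : 3 ≤ Fintype.card F := by
      have := Fintype.one_lt_card (α := F)
      obtain ⟨k, hk⟩ := hodd
      omega
    exact le_trans (Nat.mul_le_mul_left 5 (SpClassCount.upper hodd n)) (SpClassCount.final_bound hq n (n + n))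

end Cfsg.Agent.S2482
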