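import Cfsg.Statements.S2485
import Cfsg.Agent.Spec.PGLMersenne
-- import your own Cfsg.Agent.* helpers here

set_option autoImplicit false
open scoped Pointwise
open Cfsg

namespace Cfsg.Agent.S2485

/-- Let q = 2^k − 1 ≥ 7 be a prime and let G = PGL(2,q), the general linear group of degree 2 over the field with q elements modulo its centre. Then any two Sylow 2-subgroups of G have a non-trivial intersection: for a Sylow 2-subgroup H and every x ∈ G, H ∩ H^x ≠ 1. -/
theorem result {q k : ℕ} [Fact q.Prime] (hk : q + 1 = 2 ^ k) (hq : 7 ≤ q)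
    (H : Sylow 2 (GL (Fin 2) (ZMod q) ⧸ Subgroup.center (GL (Fin 2) (ZMod q))))
    (x : GL (Fin 2) (ZMod q) ⧸ Subgroup.center (GL (Fin 2) (ZMod q))) :
    (H : Subgroup (GL (Fin 2) (ZMod q) ⧸ Subgroup.center (GL (Fin 2) (ZMod q)))) ⊓ MulAut.conj x • (H : Subgroup _) ≠ ⊥ := by
  exact Spec.Mersenne.inf_conj_ne_bot hk hq H x

end Cfsg.Agent.S2485
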