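import Cfsg.Statements.S2486
import Cfsg.Agent.Spec.SylowGLTwo
-- import your own Cfsg.Agent.* helpers here

set_option autoImplicit false
open scoped Pointwise
open Cfsg

namespace Cfsg.Agent.S2486

/-- Let n ≥ 4 and let G be a finite group with a normal subgroup N of index 2 isomorphic to SL(n,2) and with trivial centralizer in G (so G is the extension of the simple group L_n(2) by its inverse-transpose automorphism, its full automorphism group). Then any two Sylow 2-subgroups of G have a non-trivial intersection: for a Sylow 2-subgroup H and every x ∈ G, H ∩ H^x ≠ 1. -/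
theorem result {G : Type*} [Group G] [Finite G] {n : ℕ} (hn : 4 ≤ n) (N : Subgroup G) [N.Normal]
    (e : N ≃* Matrix.SpecialLinearGroup (Fin n) (ZMod 2)) (hidx : N.index = 2)
    (hC : Subgroup.centralizer (N : Set G) = ⊥)
    (H : Sylow 2 G) (x : G) :
    (H : Subgroup G) ⊓ MulAut.conj x • (H : Subgroup G) ≠ ⊥ := by
  let φ : Matrix.SpecialLinearGroup (Fin n) (ZMod 2) →* GL (Fin n) (ZMod 2) :=
    Matrix.SpecialLinearGroup.toGL
  have hbij : Function.Bijective φ := by
    refine ⟨Matrix.SpecialLinearGroup.toGL_injective, fun g => ?_⟩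
    have hdet : (g : Matrix (Fin n) (Fin n) (ZMod 2)).det = 1 := by
      have h := (Matrix.GeneralLinearGroup.det g).ne_zero
      rw [Matrix.GeneralLinearGroup.val_det_apply] at h
      exact (by decide : ∀ a : ZMod 2, a ≠ 0 → a = 1) _ h
    exact ⟨⟨_, hdet⟩, Units.ext rfl⟩
  exact Spec.inf_conj_ne_bot_GL_two N (e.trans (MulEquiv.ofBijective φ hbij)) hidx H x

end Cfsg.Agent.S2486
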