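import Cfsg.Statements.S2487
import Cfsg.Agent.OrthTwoSylow.Plus

set_option autoImplicit false
open scoped Pointwise
open Cfsg

namespace Cfsg.Agent.S2487

/-- Let m ≥ 4 and let G be the full isometry group of the hyperbolic quadratic form x₁y₁ + ⋯ + x_m y_m on the 2m-dimensional space over the field with 2 elements (the orthogonal group O⁺(2m,2), which contains Ω⁺(2m,2) with index 2). Then any two Sylow 2-subgroups of G have a non-trivial intersection: for a Sylow 2-subgroup H and every x ∈ G, H ∩ H^x ≠ 1. -/
theorem result {F : Type*} [Field F] [Fintype F] (hF : Fintype.card F = 2) {m : ℕ} (hm : 4 ≤ m)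
    (H : Sylow 2 (Cfsg.isometryGroup F (Cfsg.quadFormPlus m F)))
    (x : Cfsg.isometryGroup F (Cfsg.quadFormPlus m F)) :
    (H : Subgroup (Cfsg.isometryGroup F (Cfsg.quadFormPlus m F))) ⊓ MulAut.conj x • (H : Subgroup _) ≠ ⊥ := by
  haveI : Fact (Nat.Prime 2) := ⟨Nat.prime_two⟩
  haveI : CharP F 2 := CharP.congr (ringChar F) (by
    have := (FiniteField.even_card_iff_char_two (F := F)).2 (by rw [hF])
    exact this)
  exact OrthTwoSylow.isometryGroup_inf_ne_bot F hF (by omega) H x

end Cfsg.Agent.S2487
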