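import Cfsg.Statements.S2493
import Cfsg.Agent.AltCoverComm.Main

set_option autoImplicit false
open Cfsg

namespace Cfsg.Agent.S2493

/-- Let n ≥ 5 and let G be a finite perfect group whose centre has order 2 with G/Z(G) isomorphic to the alternating group of degree n (the double cover of the alternating group). Then every element of G is a commutator. -/
theorem result {G : Type*} [Group G] [Finite G] (hperf : commutator G = ⊤) {n : ℕ} (hn : 5 ≤ n)
    (hZ : Nat.card (Subgroup.center G) = 2) (e : G ⧸ Subgroup.center G ≃* alternatingGroup (Fin n))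
    (g : G) :
    ∃ a b : G, a * b * a⁻¹ * b⁻¹ = g := by
  obtain ⟨m, rfl⟩ : ∃ m, n = m + 1 := ⟨n - 1, by omega⟩
  let π : G →* Equiv.Perm (Fin (m + 1)) :=
    (alternatingGroup (Fin (m + 1))).subtype.comp (e.toMonoidHom.comp (QuotientGroup.mk' (Subgroup.center G)))
  have hk : π.ker = Subgroup.center G := by
    ext x
    simp only [π, MonoidHom.mem_ker, MonoidHom.comp_apply, Subgroup.coe_subtype,
      OneMemClass.coe_eq_one, MulEquiv.coe_toMonoidHom, map_eq_one_iff _ e.injective,
      QuotientGroup.mk'_apply, QuotientGroup.eq_one_iff]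
  have hr : π.range = alternatingGroup (Fin (m + 1)) := by
    simp only [π]
    rw [MonoidHom.range_comp, MonoidHom.range_eq_top.2
      (e.surjective.comp (QuotientGroup.mk'_surjective (Subgroup.center G))), ← MonoidHom.range_eq_map,
      Subgroup.range_subtype]
  have hcard : Nat.card π.ker = 2 := by rw [hk, hZ]
  refine Cfsg.Agent.AltCoverComm.exists_commutator π hr hk.le (by omega) (by rw [hperf]; exact le_top)
    (fun u hu => ?_) (fun h => ?_) (fun u hu v hv h1 h2 => ?_) g
  · have h := pow_card_eq_one' (x := (⟨u, hu⟩ : π.ker))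
    rw [hcard, sq] at h
    exact congrArg Subtype.val h
  · rw [h, Subgroup.card_bot] at hcard
    omega
  · obtain ⟨y, -, hy⟩ := (Nat.card_eq_two_iff' (1 : π.ker)).1 hcard
    have e1 := hy ⟨u, hu⟩ fun e => h1 (congrArg Subtype.val e)
    have e2 := hy ⟨v, hv⟩ fun e => h2 (congrArg Subtype.val e)
    exact congrArg Subtype.val (e1.trans e2.symm)

end Cfsg.Agent.S2493
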