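import Cfsg.Statements.S2495
import Cfsg.Agent.SpecGL.PSLThree
import Cfsg.Agent.Arith.Zsigmondy

set_option autoImplicit false
open Cfsg

namespace Cfsg.Agent.S2495

open Polynomial
open Cfsg.Agent.Spec (proj)

theorem gcd_dvd_half_iff (m a : ℕ) (hm : m ≠ 0) (ha : a ≠ 0) :
    Nat.gcd (2 * m) a ∣ m ↔ padicValNat 2 a < padicValNat 2 (2 * m) := by
  haveI : Fact (Nat.Prime 2) := ⟨Nat.prime_two⟩
  rw [padicValNat.mul (by norm_num) hm, padicValNat.self (by norm_num)]
  constructor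
  · intro h
    by_contra hh
    rw [not_lt] at hh
    have h1 : 2 ^ (1 + padicValNat 2 m) ∣ Nat.gcd (2 * m) a := Nat.dvd_gcd
      (by rw [pow_add, pow_one]; exact mul_dvd_mul_left 2 pow_padicValNat_dvd)
      ((pow_dvd_pow 2 hh).trans pow_padicValNat_dvd)
    have h2 := (padicValNat_dvd_iff_le hm).1 (h1.trans h)
    omega
  · intro h
    obtain ⟨o, ho⟩ := pow_padicValNat_dvd (p := 2) (n := a)
    obtain ⟨m', hm'⟩ : 2 ^ padicValNat 2 a ∣ m :=
      (pow_dvd_pow 2 (by omega : padicValNat 2 a ≤ padicValNat 2 m)).trans pow_padicValNat_dvd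
    have hodd : Nat.Coprime 2 o := by
      rw [Nat.prime_two.coprime_iff_not_dvd]
      rintro ⟨e, rfl⟩
      have h3 : 2 ^ (padicValNat 2 a + 1) ∣ a := ⟨e, by rw [pow_succ, mul_assoc]; exact ho⟩
      have := (padicValNat_dvd_iff_le ha).1 h3
      omega
    generalize padicValNat 2 a = v at ho hm'
    subst ho hm'
    rw [← mul_assoc, mul_comm 2, mul_assoc, Nat.gcd_mul_left, hodd.gcd_mul_left_cancel]
    exact mul_dvd_mul_left _ (Nat.gcd_dvd_left _ _)

theorem dvd_geom_iff {d q : ℕ} (m : ℕ) (hq : 1 ≤ q) (hd : d ∣ q - 1) :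
    d ∣ ∑ i ∈ Finset.range m, q ^ i ↔ d ∣ m := by
  have h1 : (q : ZMod d) = 1 := by
    have h := (ZMod.natCast_eq_zero_iff (q - 1) d).2 hd
    rw [Nat.cast_sub hq, Nat.cast_one, sub_eq_zero] at h
    exact h
  rw [← ZMod.natCast_eq_zero_iff, ← ZMod.natCast_eq_zero_iff]
  simp [h1]

/-- Let q be an odd prime power, n ≥ 4 even, and L = PSL(n,q). Then L has an element of order q^(n/2) + 1 if and only if the 2-part of n exceeds the 2-part of q − 1. -/
theorem result {F : Type*} [Field F] [Fintype F] {q : ℕ} (hF : Fintype.card F = q) (hodd : Odd q)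
    {n : ℕ} (hn : 4 ≤ n) (heven : Even n) :
    (∃ g : Matrix.ProjectiveSpecialLinearGroup (Fin n) F, orderOf g = q ^ (n / 2) + 1) ↔
      padicValNat 2 (q - 1) < padicValNat 2 n := by
  subst hF
  set q := Fintype.card F
  have hq : 1 < q := Fintype.one_lt_card
  obtain ⟨m, rfl⟩ : ∃ m, n = 2 * m := ⟨n / 2, (Nat.two_mul_div_two_of_even heven).symm⟩
  haveI : NeZero (2 * m) := ⟨by omega⟩
  rw [Nat.mul_div_cancel_left m (by norm_num)]
  set d := Nat.gcd (2 * m) (q - 1) with hd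
  set M := (q ^ (2 * m) - 1) / (q - 1) with hM
  have hdpos : 0 < d := Nat.gcd_pos_of_pos_left _ (by omega)
  have hG : M = (q ^ m + 1) * ∑ i ∈ Finset.range m, q ^ i := by
    rw [Nat.geomSum_eq hq, ← Nat.mul_div_assoc _ (Nat.sub_one_dvd_pow_sub_one q m), hM,
      ← Nat.sq_sub_sq, one_pow, ← pow_mul, mul_comm m 2]
  have hdM : d ∣ M := by
    rw [hM, ← Nat.geomSum_eq hq, dvd_geom_iff _ hq.le (Nat.gcd_dvd_right _ _)]
    exact Nat.gcd_dvd_left _ _
  have hkey : (q ^ m + 1) ∣ M / d ↔ padicValNat 2 (q - 1) < padicValNat 2 (2 * m) := by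
    rw [← gcd_dvd_half_iff m (q - 1) (by omega) (by omega), ← hd,
      ← dvd_geom_iff m hq.le (Nat.gcd_dvd_right (2 * m) (q - 1)), Nat.dvd_div_iff_mul_dvd hdM, hG,
      mul_comm d]
    exact Nat.mul_dvd_mul_iff_left (by omega)
  rw [← hkey]
  constructor
  · rintro ⟨x, hx⟩
    have hq2 : ¬ (q = 2 ∧ 2 * m = 6) := fun h => by
      rw [h.1] at hodd
      exact absurd hodd (by decide)
    obtain ⟨r, hr, hro⟩ := Arith.exists_prime_orderOf_eq hq (by omega : 1 < 2 * m) hq2
      (fun h => by omega)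
    haveI := Fact.mk hr
    obtain ⟨hr1, hr2⟩ := (Arith.primitive_iff_orderOf (by omega) (by omega)).2 hro
    have hrN : r ∣ q ^ m + 1 := by
      have h : r ∣ (q ^ m + 1) * (q ^ m - 1) := by
        rwa [← Nat.sq_sub_sq, one_pow, ← pow_mul, mul_comm m 2]
      exact (hr.dvd_mul.1 h).resolve_right (hr2 m (by omega) (by omega))
    obtain ⟨g, rfl⟩ := QuotientGroup.mk'_surjective _ x
    have hrg : r ∣ orderOf g := (hrN.trans (dvd_of_eq hx.symm)).trans (orderOf_map_dvd _ g)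
    obtain ⟨t, ht⟩ := hrg
    have ht0 : t ≠ 0 := fun h => by rw [h, mul_zero] at ht; exact (orderOf_pos g).ne' ht
    set A := (g : Matrix (Fin (2 * m)) (Fin (2 * m)) F)
    have hA1 : A ^ (r * t) = 1 := by rw [← ht, ← SpecGL.orderOf_coe]; exact pow_orderOf_eq_one _
    have hA2 : A ^ t ≠ 1 := fun h => by
      have := orderOf_dvd_of_pow_eq_one h
      rw [SpecGL.orderOf_coe, ht] at this
      have := Nat.le_of_dvd (Nat.pos_of_ne_zero ht0) this
      have : 2 * t ≤ r * t := Nat.mul_le_mul_right t hr.two_le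
      omega
    have hrF : (r : F) ≠ 0 := by
      obtain ⟨p, hp⟩ := CharP.exists F
      obtain ⟨e, hpp, he⟩ := FiniteField.card F p
      intro h
      have hrp : p = r := (Nat.prime_dvd_prime_iff_eq hpp hr).1 ((CharP.cast_eq_zero_iff F p r).1 h)
      subst hrp
      have : (q : ZMod p) = 0 := (ZMod.natCast_eq_zero_iff _ _).2 (by show p ∣ Fintype.card F; rw [he]; exact dvd_pow_self p e.ne_zero)
      rw [this, orderOf_zero] at hro
      omega
    obtain ⟨f, hf, hfm, hfd, -, hfk⟩ := SpecGL.exists_factor A hr hrF hA1 hA2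
    rw [hro] at hfk
    have hdeg : f.natDegree = 2 * m :=
      le_antisymm (SpecGL.natDegree_le A hfd) (Nat.le_of_dvd hf.natDegree_pos hfk)
    have hchar : A.charpoly = f := (eq_of_monic_of_dvd_of_natDegree_le hfm A.charpoly_monic hfd
      (by rw [Matrix.charpoly_natDegree_eq_dim, Fintype.card_fin, hdeg]))
    haveI := Fact.mk hf
    have hn := SpecGL.root_norm hf hfm
    have hdet : (-1 : F) ^ f.natDegree * f.coeff 0 = 1 := by
      rw [← hchar, Matrix.charpoly_natDegree_eq_dim, ← Matrix.det_eq_sign_charpoly_coeff]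
      exact g.2
    rw [hdet, map_one, hdeg] at hn
    obtain ⟨c, hc⟩ := SpecGL.exists_algebraMap_eq (F := F) ((AdjoinRoot.root f) ^ (M / d)) (by
      obtain ⟨e, he⟩ := Nat.gcd_dvd_right (2 * m) (q - 1)
      have hMe : M / d * (q - 1) = M * e := by
        calc M / d * (q - 1) = M / d * (d * e) := congrArg _ he
          _ = _ := by rw [← mul_assoc, Nat.div_mul_cancel hdM]
      rw [← pow_mul, hMe, pow_mul, hn, one_pow])
    rw [← hx]
    exact SpecGL.orderOf_proj_dvd g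
      (SpecGL.pow_eq_of_dvd A (hchar ▸ SpecGL.dvd_of_root hf hc.symm))
  · intro h
    obtain ⟨T, hT⟩ := SpecGL.exists_singer_sl (F := F) (n := 2 * m)
    have h1 : M / d ∣ orderOf (proj T) :=
      SpecGL.dvd_orderOf_of_pow hdM hdpos ((dvd_of_eq hT.symm).trans (SpecGL.orderOf_dvd_proj_mul T))
    obtain ⟨x, hx⟩ := Cfsg.Agent.Spectrum.mem_range_orderOf_of_dvd ⟨proj T, rfl⟩ (h.trans h1)
    exact ⟨x, hx⟩

end Cfsg.Agent.S2495
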