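import Cfsg.Statements.S2503
import Cfsg.Agent.Spec.PSLTwoClass
import Cfsg.Agent.Linear.Torus
-- import your own Cfsg.Agent.* helpers here

set_option autoImplicit false
open Cfsg

namespace Cfsg.Agent.S2503

/-- Let F be a finite field with q = 2^t ≥ 4 elements and L = PSL(2,F). Then L has a cyclic subgroup A of order q + 1 and an elementary abelian 2-subgroup B of order q such that L = ABA: every element of L is a product a·b·a' with a, a' ∈ A and b ∈ B. -/
theorem result {F : Type*} [Field F] [Fintype F]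
    (h2 : 2 ∣ Fintype.card F) (h4 : 4 ≤ Fintype.card F) :
    ∃ A B : Subgroup (Matrix.ProjectiveSpecialLinearGroup (Fin 2) F),
      IsCyclic A ∧ Nat.card A = Fintype.card F + 1 ∧ IsMulCommutative B ∧ (∀ b ∈ B, b * b = 1) ∧
        Nat.card B = Fintype.card F ∧
        ∀ g : Matrix.ProjectiveSpecialLinearGroup (Fin 2) F, ∃ a ∈ A, ∃ b ∈ B, ∃ c ∈ A, g = a * b * c := by
  classical
  have h0 : (2 : F) = 0 := Spec.Two.two_eq_zero_iff.2 h2
  have hinj : Function.Injective (Spec.Two.π (F := F)) := by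
    intro a b h
    obtain ⟨c, hc, hb⟩ := Spec.Two.π_eq_iff.1 h
    rw [Spec.Two.eq_one_of_sq h0 hc, one_smul] at hb
    exact Subtype.ext hb.symm
  -- squares
  have hsqrt : ∀ a : F, ∃ b, b ^ 2 = a := by
    refine Finite.injective_iff_surjective.1 (fun a b (h : a ^ 2 = b ^ 2) => ?_)
    have h' : (a - b) ^ 2 = 0 := by linear_combination h + (b ^ 2 - a * b) * h0
    exact sub_eq_zero.1 (pow_eq_zero_iff two_ne_zero |>.1 h')
  obtain ⟨α, -, hα, -, -⟩ := Linear.exists_nonsplit_torus (F := F)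
  set q := Fintype.card F with hq
  have hodd : ¬ 2 ∣ q + 1 := by omega
  have hns : Spec.Two.NS (α : Matrix (Fin 2) (Fin 2) F) := by
    refine Spec.Two.ns_of_π_ne_one fun h => ?_
    rw [← map_one Spec.Two.π] at h
    have := hinj h
    rw [this, orderOf_one] at hα
    omega
  set t := (α : Matrix (Fin 2) (Fin 2) F).trace with htdef
  have hcard := Spec.Two.card_centralizer_eq α hns
  have hdvd : q + 1 ∣ Nat.card (Subgroup.centralizer ({α} : Set (Matrix.SpecialLinearGroup (Fin 2) F))) := by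
    rw [← hα]
    exact Subgroup.orderOf_dvd_natCard (s := _) (Subgroup.mem_centralizer_singleton_iff.2 rfl)
  have ht4 : t ^ 2 ≠ 4 := by
    intro h
    rw [hcard, Spec.Two.card_qf_parabolic h, Spec.Two.card_sq_one, if_pos h0, one_mul, ← hq] at hdvd
    have := Nat.le_of_dvd (by omega) hdvd
    omega
  have hroot : ∀ r : F, r ^ 2 - t * r + 1 ≠ 0 := by
    intro r hr
    rw [hcard, Spec.Two.card_qf_split hr ht4, ← hq] at hdvd
    have := Nat.le_of_dvd (by omega) hdvd
    omega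
  have hcardC : Nat.card (Subgroup.centralizer ({α} : Set (Matrix.SpecialLinearGroup (Fin 2) F))) = q + 1 := by
    rw [hcard, Spec.Two.card_qf_nonsplit hroot]
  have hZ : Subgroup.zpowers α = Subgroup.centralizer ({α} : Set (Matrix.SpecialLinearGroup (Fin 2) F)) :=
    Subgroup.eq_of_le_of_card_ge ((Subgroup.zpowers_le).2 (Subgroup.mem_centralizer_singleton_iff.2 rfl))
      (by rw [Nat.card_zpowers, hcardC, hα])
  obtain ⟨P, hP, hαP⟩ := Spec.Two.exists_companion α.2 hns
  rw [← htdef] at hαP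
  have hu : IsUnit P.det := Ne.isUnit hP
  have hP' := (Matrix.isUnit_iff_isUnit_det P).2 hu
  have hPP : P * P⁻¹ = 1 := Matrix.mul_nonsing_inv P hu
  have hPP' : P⁻¹ * P = 1 := Matrix.nonsing_inv_mul P hu
  -- conjugation by `P`
  let cP : Matrix.SpecialLinearGroup (Fin 2) F →* Matrix.SpecialLinearGroup (Fin 2) F :=
    { toFun := fun M => Spec.Two.mk (P * (M : Matrix (Fin 2) (Fin 2) F) * P⁻¹)
        (by rw [Matrix.det_conj hP']; exact M.2)
      map_one' := Subtype.ext (by simp [hPP])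
      map_mul' := fun M N => Subtype.ext (by
        show P * ((M : Matrix (Fin 2) (Fin 2) F) * (N : Matrix (Fin 2) (Fin 2) F)) * P⁻¹ =
          (P * (M : Matrix (Fin 2) (Fin 2) F) * P⁻¹) * (P * (N : Matrix (Fin 2) (Fin 2) F) * P⁻¹)
        simp only [Matrix.mul_assoc]
        rw [← Matrix.mul_assoc P⁻¹ P, hPP', Matrix.one_mul]) }
  let uHom : Multiplicative F →* Matrix.SpecialLinearGroup (Fin 2) F :=
    { toFun := fun b => Spec.Two.mk !![1, b.toAdd; 0, 1] (by simp [Matrix.det_fin_two])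
      map_one' := Subtype.ext (by ext i j; fin_cases i <;> fin_cases j <;> simp)
      map_mul' := fun b c => Subtype.ext (by
        ext i j; fin_cases i <;> fin_cases j <;> simp [Matrix.mul_apply, Matrix.vecMul, dotProduct, Fin.sum_univ_two, add_comm]) }
  let bHom : Multiplicative F →* Matrix.ProjectiveSpecialLinearGroup (Fin 2) F :=
    Spec.Two.π.comp (cP.comp uHom)
  have hbinj : Function.Injective bHom := by
    intro b c h
    have h1 := congrArg (fun M : Matrix.SpecialLinearGroup (Fin 2) F =>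
      P⁻¹ * (M : Matrix (Fin 2) (Fin 2) F) * P) (hinj h)
    simp only [cP, uHom, MonoidHom.coe_comp, Function.comp_apply, MonoidHom.coe_mk, OneHom.coe_mk,
      Spec.Two.coe_mk, Matrix.mul_assoc, hPP', Matrix.mul_one] at h1
    simp only [← Matrix.mul_assoc, hPP', Matrix.one_mul] at h1
    exact Multiplicative.toAdd.injective (congrFun (congrFun h1 0) 1)
  refine ⟨(Subgroup.zpowers α).map Spec.Two.π, bHom.range, by rw [MonoidHom.map_zpowers]; infer_instance, ?_, inferInstance, ?_, ?_, ?_⟩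
  · rw [← Nat.card_congr ((Subgroup.zpowers α).equivMapOfInjective _ hinj).toEquiv,
      Nat.card_zpowers, hα]
  · rintro _ ⟨b, rfl⟩
    rw [← map_mul, show b * b = 1 from Multiplicative.toAdd.injective (by
      show b.toAdd + b.toAdd = 0
      linear_combination b.toAdd * h0), map_one]
  · rw [← Nat.card_congr (MonoidHom.ofInjective hbinj).toEquiv, hq, ← Nat.card_eq_fintype_card]
    rfl
  intro g
  obtain ⟨G, rfl⟩ := Spec.Two.π_surjective g
  set N : Matrix (Fin 2) (Fin 2) F := P⁻¹ * (G : Matrix (Fin 2) (Fin 2) F) * P with hN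
  have hNdet : N.det = 1 := by rw [hN, Matrix.det_conj' hP']; exact G.2
  rw [Matrix.det_fin_two] at hNdet
  -- a common point of two conics
  obtain ⟨v, hv, hv'⟩ : ∃ v : F × F, Spec.Two.qf t v = 1 ∧
      Spec.Two.qf t (N 0 0 * v.1 + N 0 1 * v.2, N 1 0 * v.1 + N 1 1 * v.2) = 1 := by
    obtain ⟨a, ha⟩ := hsqrt (Spec.Two.qf t (N 0 0, N 1 0) + 1)
    obtain ⟨b, hb⟩ := hsqrt (Spec.Two.qf t (N 0 1, N 1 1) + 1)
    simp only [Spec.Two.qf] at ha hb
    -- the difference of the two forms is a square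
    have hdiff : ∀ x y : F, Spec.Two.qf t (N 0 0 * x + N 0 1 * y, N 1 0 * x + N 1 1 * y) +
        Spec.Two.qf t (x, y) = (a * x + b * y) ^ 2 := by
      intro x y
      simp only [Spec.Two.qf]
      linear_combination (-x ^ 2) * ha + (-y ^ 2) * hb + (t * x * y) * hNdet +
        (N 0 0 * x * (N 0 1 * y) + N 1 0 * x * (N 1 1 * y) + t * x * y + t * (x * y) * (N 0 1 * N 1 0) -
          a * x * (b * y)) * h0
    obtain ⟨w, hw0, hw⟩ : ∃ w : F × F, w ≠ (0, 0) ∧ a * w.1 + b * w.2 = 0 := by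
      by_cases ha0 : a = 0
      · exact ⟨(1, 0), by simp, by simp [ha0]⟩
      · exact ⟨(b, -a), by simp [ha0], by ring⟩
    have hQ : Spec.Two.qf t w ≠ 0 := by
      intro hQ
      apply hw0
      by_cases hy : w.2 = 0
      · simp [Spec.Two.qf, hy] at hQ
        exact Prod.ext hQ hy
      · exfalso
        apply hroot (-(w.1 / w.2))
        simp only [Spec.Two.qf] at hQ
        field_simp
        linear_combination hQ
    obtain ⟨m, hm⟩ := hsqrt (Spec.Two.qf t w)⁻¹
    refine ⟨(m * w.1, m * w.2), ?_, ?_⟩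
    · rw [show Spec.Two.qf t (m * w.1, m * w.2) = m ^ 2 * Spec.Two.qf t w by
        simp only [Spec.Two.qf]; ring, hm, inv_mul_cancel₀ hQ]
    · have h1 := hdiff w.1 w.2
      rw [hw, zero_pow two_ne_zero, Prod.mk.eta] at h1
      have h3 : Spec.Two.qf t (N 0 0 * w.1 + N 0 1 * w.2, N 1 0 * w.1 + N 1 1 * w.2) =
          Spec.Two.qf t w := by
        linear_combination h1 - Spec.Two.qf t w * h0
      rw [show Spec.Two.qf t (N 0 0 * (m * w.1) + N 0 1 * (m * w.2), N 1 0 * (m * w.1) + N 1 1 * (m * w.2))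
        = m ^ 2 * Spec.Two.qf t (N 0 0 * w.1 + N 0 1 * w.2, N 1 0 * w.1 + N 1 1 * w.2) by
        simp only [Spec.Two.qf]; ring, h3, hm, inv_mul_cancel₀ hQ]
  set w : F × F := (N 0 0 * v.1 + N 0 1 * v.2, N 1 0 * v.1 + N 1 1 * v.2) with hw
  let m₁ : Matrix.SpecialLinearGroup (Fin 2) F := Spec.Two.mk (Spec.Two.lin t v) (by rw [Spec.Two.lin_det, hv])
  let m₂ : Matrix.SpecialLinearGroup (Fin 2) F := Spec.Two.mk (Spec.Two.lin t w) (by rw [Spec.Two.lin_det, hv'])
  have hmem : ∀ (x : F × F) (hx : (Spec.Two.lin t x).det = 1),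
      cP (Spec.Two.mk (Spec.Two.lin t x) hx) ∈ Subgroup.zpowers α := by
    intro x hx
    rw [hZ, Subgroup.mem_centralizer_singleton_iff]
    apply Subtype.ext
    show P * Spec.Two.lin t x * P⁻¹ * (α : Matrix (Fin 2) (Fin 2) F) =
      (α : Matrix (Fin 2) (Fin 2) F) * (P * Spec.Two.lin t x * P⁻¹)
    have hα' : (α : Matrix (Fin 2) (Fin 2) F) = P * Spec.Two.comp t * P⁻¹ := by
      rw [← hαP, Matrix.mul_assoc, hPP, Matrix.mul_one]
    rw [hα']
    simp only [Matrix.mul_assoc]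
    rw [← Matrix.mul_assoc P⁻¹ P, hPP', ← Matrix.mul_assoc P⁻¹ P, hPP', Matrix.one_mul, Matrix.one_mul,
      ← Matrix.mul_assoc (Spec.Two.lin t x), Spec.Two.lin_comm, Matrix.mul_assoc]
  let G₀ : Matrix.SpecialLinearGroup (Fin 2) F := Spec.Two.mk N (by rw [Matrix.det_fin_two]; exact hNdet)
  set K : Matrix.SpecialLinearGroup (Fin 2) F := m₂⁻¹ * G₀ * m₁ with hK
  have hK0 : (K : Matrix (Fin 2) (Fin 2) F) 0 0 = 1 ∧ (K : Matrix (Fin 2) (Fin 2) F) 1 0 = 0 := by
    simp only [Spec.Two.qf, hw] at hv'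
    constructor <;>
      simp [hK, m₁, m₂, G₀, hw, Spec.Two.lin, Matrix.SpecialLinearGroup.coe_inv,
        Matrix.adjugate_fin_two, Matrix.mul_apply, Matrix.vecMul, dotProduct, Fin.sum_univ_two]
    · linear_combination hv'
    · ring
  have hKu : K = uHom (Multiplicative.ofAdd ((K : Matrix (Fin 2) (Fin 2) F) 0 1)) := by
    apply Subtype.ext
    have hdet := K.2
    rw [Matrix.det_fin_two, hK0.1, hK0.2] at hdet
    simp only [one_mul, mul_zero, sub_zero] at hdet
    show (K : Matrix (Fin 2) (Fin 2) F) = !![1, (K : Matrix (Fin 2) (Fin 2) F) 0 1; 0, 1]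
    ext i j
    fin_cases i <;> fin_cases j <;> simp [hK0.1, hK0.2, hdet]
  refine ⟨Spec.Two.π (cP m₂), Subgroup.mem_map_of_mem _ (hmem _ _), bHom _,
    ⟨Multiplicative.ofAdd ((K : Matrix (Fin 2) (Fin 2) F) 0 1), rfl⟩, (Spec.Two.π (cP m₁))⁻¹,
    inv_mem (Subgroup.mem_map_of_mem _ (hmem _ _)), ?_⟩
  show Spec.Two.π G = Spec.Two.π (cP m₂) * Spec.Two.π (cP (uHom _)) * (Spec.Two.π (cP m₁))⁻¹
  rw [← hKu, hK, map_mul, map_mul, map_mul, map_mul, map_inv, map_inv]
  have hG : cP G₀ = G := by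
    apply Subtype.ext
    show P * N * P⁻¹ = (G : Matrix (Fin 2) (Fin 2) F)
    rw [hN]
    simp only [← Matrix.mul_assoc, hPP, Matrix.one_mul]
    rw [Matrix.mul_assoc, hPP, Matrix.mul_one]
  rw [hG]
  group

end Cfsg.Agent.S2503
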