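import Cfsg.Statements.S2505
import Cfsg.Agent.MaxAbelPerm.Structure

set_option autoImplicit false
open Cfsg

namespace Cfsg.Agent.S2505

/-- The largest order of an abelian subgroup of the symmetric group of degree n is 3^k when n = 3k, 4·3^(k−1) when n = 3k + 1, and 2·3^k when n = 3k + 2, for every k ≥ 1. -/
theorem result (k : ℕ) (hk : 1 ≤ k) :
    IsGreatest {c : ℕ | ∃ A : Subgroup (Equiv.Perm (Fin (3 * k))), IsMulCommutative A ∧ Nat.card A = c} (3 ^ k) ∧
    IsGreatest {c : ℕ | ∃ A : Subgroup (Equiv.Perm (Fin (3 * k + 1))), IsMulCommutative A ∧ Nat.card A = c}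
      (4 * 3 ^ (k - 1)) ∧
    IsGreatest {c : ℕ | ∃ A : Subgroup (Equiv.Perm (Fin (3 * k + 2))), IsMulCommutative A ∧ Nat.card A = c}
      (2 * 3 ^ k) := by
  obtain ⟨j, rfl⟩ : ∃ j, k = j + 1 := ⟨k - 1, by omega⟩
  refine ⟨?_, ?_, ?_⟩
  · have h := MaxAbelPerm.isGreatest_sym (3 * (j + 1))
    rwa [MaxAbelPerm.sB_three] at h
  · have h := MaxAbelPerm.isGreatest_sym (3 * (j + 1) + 1)
    rwa [MaxAbelPerm.sB_three_one] at h
  · have h := MaxAbelPerm.isGreatest_sym (3 * (j + 1) + 2)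
    rwa [MaxAbelPerm.sB_three_two] at h

end Cfsg.Agent.S2505
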