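import Cfsg.Statements.S2506
import Cfsg.Agent.MaxAbelPerm.Structure

set_option autoImplicit false
open scoped Pointwise
open Cfsg

namespace Cfsg.Agent.S2506

/-- In the alternating group of any degree, any two abelian subgroups of the largest possible order (among abelian subgroups) are conjugate. -/
theorem result (n : ℕ)
    (A B : Subgroup (alternatingGroup (Fin n))) (hA : IsMulCommutative A) (hB : IsMulCommutative B)
    (hAmax : ∀ C : Subgroup (alternatingGroup (Fin n)), IsMulCommutative C → Nat.card C ≤ Nat.card A)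
    (hBmax : ∀ C : Subgroup (alternatingGroup (Fin n)), IsMulCommutative C → Nat.card C ≤ Nat.card B) :
    ∃ g : alternatingGroup (Fin n), B = MulAut.conj g • A := by
  obtain ⟨C, hC, hCc⟩ := (MaxAbelPerm.isGreatest_alt n).1
  refine MaxAbelPerm.conj_of_max n A B hA hB ?_ ?_
  · exact le_antisymm ((MaxAbelPerm.isGreatest_alt n).2 ⟨A, hA, rfl⟩) (hCc ▸ hAmax C hC)
  · exact le_antisymm ((MaxAbelPerm.isGreatest_alt n).2 ⟨B, hB, rfl⟩) (hCc ▸ hBmax C hC)

end Cfsg.Agent.S2506
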