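import Cfsg.Statements.S2508
import Cfsg.Agent.Spec.PSLTwoClass
-- import your own Cfsg.Agent.* helpers here

set_option autoImplicit false
open Cfsg

namespace Cfsg.Agent.S2508

/-- Let F be a finite field with q elements, q odd and q ≥ 7. If q ≡ 1 (mod 4) the conjugacy class sizes of PSL(2,F) are exactly 1, (q² − 1)/2, q(q + 1)/2, q(q − 1) and q(q + 1); if q ≡ 3 (mod 4) they are exactly 1, (q² − 1)/2, q(q − 1)/2, q(q + 1) and q(q − 1). -/
theorem result {F : Type*} [Field F] [Fintype F]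
    (hodd : ¬ 2 ∣ Fintype.card F) (h7 : 7 ≤ Fintype.card F) :
    (Fintype.card F % 4 = 1 →
      Set.range (fun g : (Matrix.ProjectiveSpecialLinearGroup (Fin 2) F) => (Subgroup.centralizer ({g} : Set (Matrix.ProjectiveSpecialLinearGroup (Fin 2) F))).index) =
        {1, (Fintype.card F ^ 2 - 1) / 2, Fintype.card F * (Fintype.card F + 1) / 2,
          Fintype.card F * (Fintype.card F - 1), Fintype.card F * (Fintype.card F + 1)}) ∧
    (Fintype.card F % 4 = 3 →
      Set.range (fun g : (Matrix.ProjectiveSpecialLinearGroup (Fin 2) F) => (Subgroup.centralizer ({g} : Set (Matrix.ProjectiveSpecialLinearGroup (Fin 2) F))).index) =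
        {1, (Fintype.card F ^ 2 - 1) / 2, Fintype.card F * (Fintype.card F - 1) / 2,
          Fintype.card F * (Fintype.card F + 1), Fintype.card F * (Fintype.card F - 1)}) := by
  classical
  have h0 : (2 : F) ≠ 0 := fun h => hodd (Spec.Two.two_eq_zero_iff.1 h)
  set q := Fintype.card F with hq
  have h4 : 4 ≤ q := by omega
  let e : F → ℕ := fun t => if t = 0 then 2 else 1
  have key : ∀ g : Matrix.SpecialLinearGroup (Fin 2) F, Spec.Two.NS (g : Matrix (Fin 2) (Fin 2) F) →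
      (Subgroup.centralizer ({Spec.Two.π g} : Set (Matrix.ProjectiveSpecialLinearGroup (Fin 2) F))).index *
        (e (g : Matrix (Fin 2) (Fin 2) F).trace *
          Nat.card {v : F × F // Spec.Two.qf (g : Matrix (Fin 2) (Fin 2) F).trace v = 1}) =
      q * (q - 1) * (q + 1) := fun g hg => by
    have := Spec.Two.index_mul g hg
    by_cases ht : (g : Matrix (Fin 2) (Fin 2) F).trace = 0
    · rw [if_neg (by simp [ht, h0])] at this
      simpa [e, ht] using this
    · rw [if_pos (Or.inl ht)] at this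
      simpa [e, ht] using this
  have hsq : q ^ 2 - 1 = (q + 1) * (q - 1) := by simpa using Nat.sq_sub_sq q 1
  have hev : 2 ∣ q - 1 ∧ 2 ∣ q + 1 := ⟨by omega, by omega⟩
  obtain ⟨a, ha⟩ : 2 ∣ q * (q + 1) := dvd_mul_of_dvd_right hev.2 q
  obtain ⟨b, hb⟩ : 2 ∣ q * (q - 1) := dvd_mul_of_dvd_right hev.1 q
  obtain ⟨c, hc⟩ : 2 ∣ q ^ 2 - 1 := hsq ▸ dvd_mul_of_dvd_left hev.2 _
  rw [ha, hb, hc, Nat.mul_div_cancel_left _ two_pos, Nat.mul_div_cancel_left _ two_pos,
    Nat.mul_div_cancel_left _ two_pos]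
  have hzero : (∃ r : F, r ^ 2 - (0 : F) * r + 1 = 0) ↔ q % 4 ≠ 3 := by
    rw [← FiniteField.isSquare_neg_one_iff]
    constructor
    · rintro ⟨r, hr⟩; exact ⟨r, by linear_combination -hr⟩
    · rintro ⟨r, hr⟩; exact ⟨r, by linear_combination -hr⟩
  have h04 : (0 : F) ^ 2 ≠ 4 := by
    intro h
    exact h0 (pow_eq_zero_iff two_ne_zero |>.1 (by linear_combination -h : (2 : F) ^ 2 = 0))
  have hpar : ∀ t : F, t ^ 2 = 4 → ∀ i, i * (e t * Nat.card {v : F × F // Spec.Two.qf t v = 1}) =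
      q * (q - 1) * (q + 1) → i = c := fun t ht i hi => by
    have ht0 : t ≠ 0 := fun h => h04 (h ▸ ht)
    rw [Spec.Two.card_qf_parabolic ht, Spec.Two.card_sq_one, if_neg h0, ← hq] at hi
    simp only [e, if_neg ht0, one_mul] at hi
    refine Nat.eq_of_mul_eq_mul_right (show 0 < 2 * q by omega) ?_
    rw [hi, show c * (2 * q) = (2 * c) * q by ring, ← hc, hsq]; ring
  have hsplit : ∀ t r : F, t ≠ 0 → t ^ 2 ≠ 4 → r ^ 2 - t * r + 1 = 0 → ∀ i,
      i * (e t * Nat.card {v : F × F // Spec.Two.qf t v = 1}) = q * (q - 1) * (q + 1) →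
      i = 2 * a := fun t r ht0 ht hr i hi => by
    rw [Spec.Two.card_qf_split hr ht, ← hq] at hi
    simp only [e, if_neg ht0, one_mul] at hi
    refine Nat.eq_of_mul_eq_mul_right (show 0 < q - 1 by omega) ?_
    rw [hi, ← ha]; ring
  have hnon : ∀ t : F, t ≠ 0 → (∀ r : F, r ^ 2 - t * r + 1 ≠ 0) → ∀ i,
      i * (e t * Nat.card {v : F × F // Spec.Two.qf t v = 1}) = q * (q - 1) * (q + 1) →
      i = 2 * b := fun t ht0 hr i hi => by
    rw [Spec.Two.card_qf_nonsplit hr, ← hq] at hi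
    simp only [e, if_neg ht0, one_mul] at hi
    refine Nat.eq_of_mul_eq_mul_right (show 0 < q + 1 by omega) ?_
    rw [hi, ← hb]
  have hz1 : q % 4 = 1 → ∀ i,
      i * (e 0 * Nat.card {v : F × F // Spec.Two.qf (0 : F) v = 1}) = q * (q - 1) * (q + 1) →
      i = a := fun h i hi => by
    obtain ⟨r, hr⟩ := hzero.2 (by omega)
    rw [Spec.Two.card_qf_split hr h04, ← hq] at hi
    simp only [e, if_true] at hi
    refine Nat.eq_of_mul_eq_mul_right (show 0 < 2 * (q - 1) by omega) ?_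
    rw [hi, show a * (2 * (q - 1)) = (2 * a) * (q - 1) by ring, ← ha]; ring
  have hz3 : q % 4 = 3 → ∀ i,
      i * (e 0 * Nat.card {v : F × F // Spec.Two.qf (0 : F) v = 1}) = q * (q - 1) * (q + 1) →
      i = b := fun h i hi => by
    have hr : ∀ r : F, r ^ 2 - 0 * r + 1 ≠ 0 := fun r hr => (hzero.1 ⟨r, hr⟩) h
    rw [Spec.Two.card_qf_nonsplit hr, ← hq] at hi
    simp only [e, if_true] at hi
    refine Nat.eq_of_mul_eq_mul_right (show 0 < 2 * (q + 1) by omega) ?_
    rw [hi, show b * (2 * (q + 1)) = (2 * b) * (q + 1) by ring, ← hb]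
  have hval : ∀ t : F, ∃ x : Matrix.ProjectiveSpecialLinearGroup (Fin 2) F,
      (Subgroup.centralizer ({x} : Set (Matrix.ProjectiveSpecialLinearGroup (Fin 2) F))).index *
        (e t * Nat.card {v : F × F // Spec.Two.qf t v = 1}) = q * (q - 1) * (q + 1) := fun t =>
    ⟨_, by
      have := key (Spec.Two.mk (Spec.Two.comp t) (Spec.Two.comp_det t)) (Spec.Two.comp_ns t)
      rwa [Spec.Two.coe_mk, Spec.Two.comp_trace] at this⟩
  obtain ⟨t₁, ht₁0, ht₁, r₁, hr₁⟩ := Spec.Two.exists_split_trace (F := F) h4 (fun _ => h7)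
  obtain ⟨t₂, ht₂0, hr₂⟩ := Spec.Two.exists_nonsplit_trace (F := F) h4 (fun _ => h7)
  refine ⟨fun hm => ?_, fun hm => ?_⟩ <;>
  · ext m
    simp only [Set.mem_range, Set.mem_insert_iff, Set.mem_singleton_iff]
    constructor
    · rintro ⟨x, rfl⟩
      obtain ⟨g, rfl⟩ := Spec.Two.π_surjective x
      by_cases hx : Spec.Two.π g = 1
      · left; rw [hx, Spec.Two.index_one]
      have hk := key g (Spec.Two.ns_of_π_ne_one hx)
      generalize (g : Matrix (Fin 2) (Fin 2) F).trace = t at hk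
      by_cases ht : t ^ 2 = 4
      · exact Or.inr (Or.inl (hpar t ht _ hk))
      rcases eq_or_ne t 0 with rfl | ht0
      · first
          | exact Or.inr (Or.inr (Or.inl (hz1 hm _ hk)))
          | exact Or.inr (Or.inr (Or.inl (hz3 hm _ hk)))
      by_cases hr : ∃ r : F, r ^ 2 - t * r + 1 = 0
      · obtain ⟨r, hr⟩ := hr
        have := hsplit t r ht0 ht hr _ hk
        tauto
      · push Not at hr
        have := hnon t ht0 hr _ hk
        tauto
    · rintro (rfl | rfl | rfl | rfl | rfl)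
      all_goals first
        | exact ⟨1, Spec.Two.index_one⟩
        | (obtain ⟨x, hx⟩ := hval 2; exact ⟨x, hpar 2 (by norm_num) _ hx⟩)
        | (obtain ⟨x, hx⟩ := hval 0; exact ⟨x, hz1 hm _ hx⟩)
        | (obtain ⟨x, hx⟩ := hval 0; exact ⟨x, hz3 hm _ hx⟩)
        | (obtain ⟨x, hx⟩ := hval t₁; exact ⟨x, hsplit t₁ r₁ ht₁0 ht₁ hr₁ _ hx⟩)
        | (obtain ⟨x, hx⟩ := hval t₂; exact ⟨x, hnon t₂ ht₂0 hr₂ _ hx⟩)

end Cfsg.Agent.S2508
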