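import Cfsg.Statements.S2510
import Cfsg.Agent.Spec.PSLn
-- import your own Cfsg.Agent.* helpers here

set_option autoImplicit false
open Cfsg

namespace Cfsg.Agent.S2510

/-- Let F be a finite field with q = p^a elements, n ≥ 2 (with q ≥ 4 when n = 2), L = PSL(n, F), and let r be a prime dividing q − 1 and not dividing n. Then for every m the direct product L × L × L × (ℤ/r)^m has the same set of element orders as L × L × L; and if n − 1 ≠ p^j for every j ≥ 0 (so never when n = 2, since 1 = p^0), then already L × L × (ℤ/r)^m has the same set of element orders as L × L. -/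
theorem result {F : Type*} [Field F] [Fintype F] (p a n r m : ℕ) (hp : p.Prime) (ha : 1 ≤ a) (hF : Fintype.card F = p ^ a)
    (hn : 2 ≤ n) (hn2 : n = 2 → 4 ≤ Fintype.card F) (hr : r.Prime) (hrq : r ∣ Fintype.card F - 1) (hrn : ¬ r ∣ n) :
    Set.range (orderOf : Matrix.ProjectiveSpecialLinearGroup (Fin n) F × Matrix.ProjectiveSpecialLinearGroup (Fin n) F × Matrix.ProjectiveSpecialLinearGroup (Fin n) F × Multiplicative (Fin m → ZMod r) → ℕ) =
      Set.range (orderOf : Matrix.ProjectiveSpecialLinearGroup (Fin n) F × Matrix.ProjectiveSpecialLinearGroup (Fin n) F × Matrix.ProjectiveSpecialLinearGroup (Fin n) F → ℕ) ∧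
    ((¬ ∃ j : ℕ, n - 1 = p ^ j) →
      Set.range (orderOf : Matrix.ProjectiveSpecialLinearGroup (Fin n) F × Matrix.ProjectiveSpecialLinearGroup (Fin n) F × Multiplicative (Fin m → ZMod r) → ℕ) =
        Set.range (orderOf : Matrix.ProjectiveSpecialLinearGroup (Fin n) F × Matrix.ProjectiveSpecialLinearGroup (Fin n) F → ℕ)) := by
  classical
  haveI := Fact.mk hp
  haveI : CharP F p := by
    obtain ⟨p', hp'⟩ := CharP.exists F
    haveI := hp'
    obtain ⟨e, hp'', he⟩ := FiniteField.card F p'
    have hdvd : p' ∣ p ^ a := by rw [← hF, he]; exact dvd_pow_self p' e.ne_zero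
    have h := (Nat.prime_dvd_prime_iff_eq hp'' hp).1 (hp''.dvd_of_dvd_pow hdvd)
    exact h ▸ hp'
  haveI : NeZero n := ⟨by omega⟩
  obtain ⟨E, hlt, hle⟩ : ∃ E, p ^ E < n ∧ n ≤ p ^ (E + 1) := by
    refine ⟨Nat.clog p n - 1, ?_, ?_⟩
    · exact Nat.pow_pred_clog_lt_self hp.one_lt hn
    · rw [Nat.sub_add_cancel (Nat.clog_pos hp.one_lt hn)]
      exact Nat.le_pow_clog hp.one_lt n
  obtain ⟨c, hco, hc⟩ := Spec.exists_singer_proj (F := F) (n := n) p
  have hdich := Spec.dichotomy p (E + 1) hle hr hrq hrn c hc hco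
  refine ⟨?_, fun hj => ?_⟩
  · let e : Matrix (Fin n) (Fin n) F := Matrix.diagonal fun i => if i.val = 0 then 1 else 0
    obtain ⟨z, _, hzr⟩ := Spec.exists_decomposable_z hr hrq hrn (1 : Matrix.SpecialLinearGroup (Fin n) F) e
      (by simp [e, Matrix.diagonal_mul_diagonal])
      (fun h => by
        have := congrFun (congrFun h ⟨0, by omega⟩) ⟨0, by omega⟩
        simp [e] at this)
      (fun h => by
        have := congrFun (congrFun h ⟨1, by omega⟩) ⟨1, by omega⟩
        simp [e] at this)
      (by simp)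
    exact Spec.range_triple_eq r m _ c hdich _
      (Spec.orderOf_proj_unipotent (F := F) p E n hlt hle le_rfl).symm.dvd _ hzr.symm.dvd
  · have hlt' : p ^ E < n - 1 := by
      have hne : n - 1 ≠ p ^ E := fun h => hj ⟨E, h⟩
      omega
    obtain ⟨x, hx1, hx2⟩ := Spec.exists_mixed (F := F) p E hr hrq hrn hlt' hle
    exact Spec.range_pair_eq r m _ c hdich x hx1 hx2

end Cfsg.Agent.S2510
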