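import Cfsg.Statements.S2511
import Cfsg.Agent.Spec.UnitaryUnipotent
import Cfsg.Agent.Spec.UnitaryDichotomy
-- import your own Cfsg.Agent.* helpers here

set_option autoImplicit false
open Cfsg

namespace Cfsg.Agent.S2511

/-- Let F be a finite field with q² elements, q = p^a, n ≥ 3 with (n, q) ≠ (3, 2), L = PSU(n, q) realised over F, and let r be a prime dividing q + 1 and not dividing n. Then for every m the direct product L × L × L × (ℤ/r)^m has the same set of element orders as L × L × L; and if n − 1 is not a power of p, then already L × L × (ℤ/r)^m has the same set of element orders as L × L. -/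
theorem result {F : Type*} [Field F] [Fintype F] (p a n q r m : ℕ) (hp : p.Prime) (ha : 1 ≤ a) (hq : q = p ^ a) (hF : Fintype.card F = q ^ 2)
    (hn : 3 ≤ n) (hn3 : ¬ (n = 3 ∧ q = 2)) (hr : r.Prime) (hrq : r ∣ q + 1) (hrn : ¬ r ∣ n) :
    Set.range (orderOf : Cfsg.PSU n F q × Cfsg.PSU n F q × Cfsg.PSU n F q × Multiplicative (Fin m → ZMod r) → ℕ) = Set.range (orderOf : Cfsg.PSU n F q × Cfsg.PSU n F q × Cfsg.PSU n F q → ℕ) ∧
    ((¬ ∃ j : ℕ, n - 1 = p ^ j) →
      Set.range (orderOf : Cfsg.PSU n F q × Cfsg.PSU n F q × Multiplicative (Fin m → ZMod r) → ℕ) = Set.range (orderOf : Cfsg.PSU n F q × Cfsg.PSU n F q → ℕ)) := by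
  classical
  haveI := Fact.mk hp
  haveI hchar : CharP F p := by
    obtain ⟨p', b, hp', hc', hq'⟩ := Spec.Unitary.exists_p hF
    have hb : b ≠ 0 := by
      rintro rfl
      have := Spec.Unitary.two_le_q hF
      rw [pow_zero] at hq'
      omega
    have hdvd : p' ∣ p ^ a := by rw [← hq, hq']; exact dvd_pow_self p' hb
    have h := (Nat.prime_dvd_prime_iff_eq hp' hp).1 (hp'.dvd_of_dvd_pow hdvd)
    exact h ▸ hc'
  haveI : NeZero n := ⟨by omega⟩
  obtain ⟨E, hlt, hle⟩ : ∃ E, p ^ E < n ∧ n ≤ p ^ (E + 1) := by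
    refine ⟨Nat.clog p n - 1, ?_, ?_⟩
    · exact Nat.pow_pred_clog_lt_self hp.one_lt (by omega)
    · rw [Nat.sub_add_cancel (Nat.clog_pos hp.one_lt (by omega))]
      exact Nat.le_pow_clog hp.one_lt n
  obtain ⟨c, hc⟩ := Spec.Unitary.exists_torus hF hn
  have hdich := Spec.Unitary.dichotomy hF hn p (E + 1) hle hr hrq hrn _ hc
  -- the order of a unipotent element
  have horder : ∀ g : Cfsg.SU n F q, (g.1 : Matrix (Fin n) (Fin n) F) ^ p ^ (E + 1) = 1 →
      (∀ d : F, (g.1 : Matrix (Fin n) (Fin n) F) ^ p ^ E ≠ d • 1) →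
      orderOf (Spec.Unitary.proj g) = p ^ (E + 1) := by
    intro g h1 h2
    apply orderOf_eq_prime_pow
    · intro h
      obtain ⟨d, hd⟩ := Spec.Unitary.scalar_of_proj_eq_one hF hn (g ^ p ^ E) ((map_pow _ g _).trans h)
      rw [Spec.Unitary.coe_pow'] at hd
      exact h2 d hd
    · refine (map_pow _ g _).symm.trans (Spec.Unitary.proj_eq_one_of_scalar _ 1 ?_)
      rw [Spec.Unitary.coe_pow', h1, one_smul]
  refine ⟨?_, fun hj => ?_⟩
  · obtain ⟨g, hg1, hg2⟩ := Spec.Unitary.exists_unipotent hF p E hlt hle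
    obtain ⟨u, e, he, hea, he0, he1, hue, -, -⟩ :=
      Spec.Unitary.exists_embed hF (m := 1) (n := n) (by omega) (1 : Cfsg.SU 1 F q)
    obtain ⟨z, _, hzr⟩ := Spec.Unitary.exists_z hF hn hr hrq hrn u e he hea (he0 one_pos)
      (he1 (by omega)) hue
    exact Spec.range_triple_eq r m _ (Spec.Unitary.proj c) hdich _
      (horder g hg1 hg2).symm.dvd _ hzr.symm.dvd
  · have hlt' : p ^ E < n - 1 := by
      have hne : n - 1 ≠ p ^ E := fun h => hj ⟨E, h⟩
      omega
    obtain ⟨g, hg1, hg2⟩ := Spec.Unitary.exists_unipotent hF p E hlt' (by omega : n - 1 ≤ p ^ (E + 1))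
    obtain ⟨u, e, he, hea, he0, he1, hue, hu1, hu2⟩ :=
      Spec.Unitary.exists_embed hF (Nat.sub_le n 1) g
    obtain ⟨z, hz, hzr⟩ := Spec.Unitary.exists_z hF hn hr hrq hrn u e he hea (he0 (by omega))
      (he1 (by omega)) hue
    obtain ⟨y, hy1, hy2⟩ := Spec.exists_absorb hr (hz.map Spec.Unitary.proj) hzr
    have hu := horder u (hu1 _ hg1) (fun d hd => hg2 d (hu2 _ _ hd))
    exact Spec.range_pair_eq r m _ (Spec.Unitary.proj c) hdich y (hu ▸ hy1) hy2

end Cfsg.Agent.S2511
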