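import Cfsg.Statements.S2512
import Cfsg.Agent.Spectrum.Basic
import Cfsg.Agent.Spectrum.Symplectic
import Cfsg.Agent.Spectrum.SymplecticOdd
import Cfsg.Agent.Linear.Symplectic

set_option autoImplicit false
open Cfsg

namespace Cfsg.Agent.S2512

open Spectrum

theorem dvd_lcm_gcd {s A B : ℕ} (hs : s ≠ 0) (hA : A ≠ 0) (hB : B ≠ 0) (h : s ∣ Nat.lcm A B) :
    s ∣ Nat.lcm (Nat.gcd s A) (Nat.gcd s B) := by
  have hsA : Nat.gcd s A ≠ 0 := Nat.gcd_ne_zero_left hs
  have hsB : Nat.gcd s B ≠ 0 := Nat.gcd_ne_zero_left hs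
  rw [← Nat.factorization_le_iff_dvd hs (Nat.lcm_ne_zero hsA hsB)]
  rw [← Nat.factorization_le_iff_dvd hs (Nat.lcm_ne_zero hA hB), Nat.factorization_lcm hA hB] at h
  intro l
  have hl := h l
  rw [Nat.factorization_lcm hsA hsB, Nat.factorization_gcd hs hA, Nat.factorization_gcd hs hB]
  simp only [Finsupp.sup_apply, Finsupp.inf_apply] at hl ⊢
  change s.factorization l ≤ max (min (s.factorization l) (A.factorization l)) (min (s.factorization l) (B.factorization l))
  change s.factorization l ≤ max (A.factorization l) (B.factorization l) at hl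
  omega

variable {F : Type*} [Field F]

theorem two_mul_lcm_dvd {n a b L M : ℕ} (h2 : (2 : F) ≠ 0) (ha : 1 ≤ a) (hb : 1 ≤ b) (hab : a + b = n)
    (hL : Odd L) (hM : Odd M) (h1 : HasOrd F a L) (h3 : HasOrd F b M) [Finite F] :
    ∃ x : Cfsg.PSp n F, 2 * Nat.lcm L M ∣ orderOf x := by
  subst hab
  obtain ⟨g₀, hg₀⟩ := h1
  obtain ⟨h₀, hh₀⟩ := h3
  haveI : Finite (Matrix.symplecticGroup (Fin a) F) := Subtype.finite
  haveI : Finite (Matrix.symplecticGroup (Fin b) F) := Subtype.finite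
  obtain ⟨g, hg⟩ := mem_range_orderOf_of_dvd ⟨g₀, rfl⟩ hg₀
  obtain ⟨h, hh⟩ := mem_range_orderOf_of_dvd ⟨h₀, rfl⟩ hh₀
  let z : Matrix.symplecticGroup (Fin a) F := ⟨(-1 : F) • 1, Linear.Symp.scalar_mem (by ring)⟩
  have hzk : ∀ k, ((z ^ k : Matrix.symplecticGroup (Fin a) F) : Matrix (Fin a ⊕ Fin a) (Fin a ⊕ Fin a) F) = (-1 : F) ^ k • 1 := by
    intro k
    rw [SubmonoidClass.coe_pow]
    show ((-1 : F) • (1 : Matrix (Fin a ⊕ Fin a) (Fin a ⊕ Fin a) F)) ^ k = _
    rw [smul_pow, one_pow]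
  have hcomm : Commute z g := by
    apply Subtype.ext
    show ((-1 : F) • (1 : Matrix _ _ F)) * g.1 = g.1 * ((-1 : F) • 1)
    simp
  refine ⟨QuotientGroup.mk (spBlock a b (z * g, h)), ?_⟩
  set k := orderOf (QuotientGroup.mk (spBlock a b (z * g, h)) : Cfsg.PSp (a + b) F) with hk
  have hcen : spBlock a b (z * g, h) ^ k ∈ Subgroup.center (Matrix.symplecticGroup (Fin (a + b)) F) := by
    rw [← QuotientGroup.eq_one_iff, QuotientGroup.mk_pow, hk, pow_orderOf_eq_one]
  haveI : NeZero (a + b) := ⟨by omega⟩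
  obtain ⟨c, hc2, hc⟩ := Linear.Symp.center_scalar hcen
  have hmat : ((spBlock a b (z * g, h) ^ k : Matrix.symplecticGroup (Fin (a + b)) F) : Matrix (Fin (a + b) ⊕ Fin (a + b)) (Fin (a + b) ⊕ Fin (a + b)) F) = c • 1 := by
    refine Matrix.ext_of_mulVec_single fun i => ?_
    have := hc (Pi.single i 1)
    simp only [Linear.Symp.app] at this
    rw [this, Matrix.smul_mulVec, Matrix.one_mulVec]
  rw [← map_pow, Prod.pow_def] at hmat
  have hmat' : (Matrix.reindexAlgEquiv F F (spBlockEquiv a b)) (Matrix.fromBlocks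
      (((z * g) ^ k : Matrix.symplecticGroup (Fin a) F) : Matrix (Fin a ⊕ Fin a) (Fin a ⊕ Fin a) F) 0 0
      ((h ^ k : Matrix.symplecticGroup (Fin b) F) : Matrix (Fin b ⊕ Fin b) (Fin b ⊕ Fin b) F)) = c • 1 := hmat
  rw [← map_one (Matrix.reindexAlgEquiv F F (spBlockEquiv a b)), ← map_smul, (Matrix.reindexAlgEquiv F F (spBlockEquiv a b)).injective.eq_iff,
    ← Matrix.fromBlocks_one, Matrix.fromBlocks_smul, Matrix.fromBlocks_inj] at hmat'
  obtain ⟨hA, -, -, hB⟩ := hmat'
  haveI : NeZero a := ⟨by omega⟩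
  haveI : NeZero b := ⟨by omega⟩
  -- odd order elements are never `-1`
  have hh1 : ((h ^ k : Matrix.symplecticGroup (Fin b) F) : Matrix (Fin b ⊕ Fin b) (Fin b ⊕ Fin b) F) ^ M = 1 := by
    rw [← SubmonoidClass.coe_pow, ← pow_mul, mul_comm, pow_mul, ← hh, pow_orderOf_eq_one, one_pow]
    rfl
  rw [hB, smul_pow, one_pow] at hh1
  have hcM : c ^ M = 1 := by
    have := congrFun (congrFun hh1 (Sum.inl 0)) (Sum.inl 0)
    simpa using this
  have hc1 : c = 1 := by
    obtain ⟨r, hr⟩ := hM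
    rw [hr, pow_succ, pow_mul, hc2, one_pow, one_mul] at hcM
    exact hcM
  subst hc1
  rw [one_smul] at hA hB
  have hMk : M ∣ k := by
    rw [← hh, orderOf_dvd_iff_pow_eq_one]
    exact Subtype.ext hB
  rw [hcomm.mul_pow] at hA
  have hA' : (-1 : F) ^ k • ((g ^ k : Matrix.symplecticGroup (Fin a) F) : Matrix (Fin a ⊕ Fin a) (Fin a ⊕ Fin a) F) = 1 := by
    rw [← hA]
    show _ = ((z ^ k : Matrix.symplecticGroup (Fin a) F) : Matrix (Fin a ⊕ Fin a) (Fin a ⊕ Fin a) F) * ((g ^ k : Matrix.symplecticGroup (Fin a) F) : Matrix (Fin a ⊕ Fin a) (Fin a ⊕ Fin a) F)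
    rw [hzk, Matrix.smul_mul, one_mul]
  have heven : Even k := by
    rcases Nat.even_or_odd k with h' | h'
    · exact h'
    exfalso
    have h4 := congrArg (· ^ L) hA'
    simp only [smul_pow, one_pow] at h4
    rw [← SubmonoidClass.coe_pow, ← pow_mul g, mul_comm k L, pow_mul g, ← hg, pow_orderOf_eq_one, one_pow] at h4
    have h5 := congrFun (congrFun h4 (Sum.inl 0)) (Sum.inl 0)
    rw [← pow_mul, hg, (h'.mul hL).neg_one_pow] at h5
    simp at h5
    exact h2 (by linear_combination -h5)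
  have hLk : L ∣ k := by
    rw [← hg, orderOf_dvd_iff_pow_eq_one]
    rw [heven.neg_one_pow, one_smul] at hA'
    exact Subtype.ext hA'
  have hodd : Odd (Nat.lcm L M) := by
    rcases Nat.even_or_odd (Nat.lcm L M) with h' | h'
    · exact absurd (h'.two_dvd.trans (Nat.lcm_dvd_mul L M)) (Odd.not_two_dvd_nat (hL.mul hM))
    · exact h'
  exact (Nat.coprime_two_left.mpr hodd).mul_dvd_of_dvd_of_dvd heven.two_dvd (Nat.lcm_dvd hLk hMk)

theorem exists_half_torus [Fintype F] {n N : ℕ} (hn : 1 ≤ n)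
    (hN : N = Fintype.card F ^ n - 1 ∨ N = Fintype.card F ^ n + 1) (hN2 : 2 ∣ N) :
    ∃ x : Cfsg.PSp n F, N / 2 ∣ orderOf x := by
  obtain ⟨g, hg⟩ := exists_torus_sp F hn N hN
  refine ⟨QuotientGroup.mk g, ?_⟩
  set k := orderOf (QuotientGroup.mk g : Cfsg.PSp n F) with hk
  have hcen : g ^ k ∈ Subgroup.center (Matrix.symplecticGroup (Fin n) F) := by
    rw [← QuotientGroup.eq_one_iff, QuotientGroup.mk_pow, hk, pow_orderOf_eq_one]
  haveI : NeZero n := ⟨by omega⟩
  obtain ⟨c, hc2, hc⟩ := Linear.Symp.center_scalar hcen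
  have h1 : (g ^ k) ^ 2 = 1 := by
    refine Linear.Symp.sp_ext fun v => ?_
    rw [pow_two, Linear.Symp.app_mul, Linear.Symp.app_one]
    simp only [Linear.Symp.app] at hc ⊢
    rw [hc v, Matrix.mulVec_smul, hc v, smul_smul, ← pow_two, hc2, one_smul]
  rw [← pow_mul, ← orderOf_dvd_iff_pow_eq_one, hg] at h1
  obtain ⟨r, rfl⟩ := hN2
  rw [Nat.mul_div_cancel_left r (by norm_num : 0 < 2)]
  rw [mul_comm k 2] at h1
  exact (Nat.mul_dvd_mul_iff_left (by norm_num : 0 < 2)).mp h1

theorem hasOrd_types [Fintype F] (D : Finset (ℕ × Bool)) (hD : ∀ t ∈ D, 1 ≤ t.1) :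
    HasOrd F (∑ t ∈ D, t.1) (D.lcm (torusOrd (Fintype.card F))) := by
  classical
  induction D using Finset.induction with
  | empty => simpa using hasOrd_one (F := F) 0
  | insert t D ht ih =>
    rw [Finset.sum_insert ht, Finset.lcm_insert]
    obtain ⟨g, hg⟩ := exists_torus_sp F (hD t (Finset.mem_insert_self _ _)) _ (torusOrd_cases (Fintype.card F) t)
    exact hasOrd_add ⟨g, hg.symm.dvd⟩ (ih fun u hu => hD u (Finset.mem_insert_of_mem hu))

theorem hasOrd_of_dvd {a L M : ℕ} (h : HasOrd F a L) (hd : M ∣ L) : HasOrd F a M := by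
  obtain ⟨g, hg⟩ := h
  exact ⟨g, hd.trans hg⟩


/-- Let F be a finite field of odd order q = p^a, n ≥ 2 (with q ≥ 3 automatic), and L = PSp(2n, F). Then for every m the direct product L × L × L × (ℤ/2)^m has the same set of element orders as L × L × L; and if 2n − 1 is not a power of p, then already L × L × (ℤ/2)^m has the same set of element orders as L × L. -/
theorem result {F : Type*} [Field F] [Fintype F] (p a n m : ℕ) (hp : p.Prime) (ha : 1 ≤ a) (hF : Fintype.card F = p ^ a) (hodd : Odd (Fintype.card F))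
    (hn : 2 ≤ n) :
    Set.range (orderOf : Cfsg.PSp n F × Cfsg.PSp n F × Cfsg.PSp n F × Multiplicative (Fin m → ZMod 2) → ℕ) = Set.range (orderOf : Cfsg.PSp n F × Cfsg.PSp n F × Cfsg.PSp n F → ℕ) ∧
    ((¬ ∃ j : ℕ, 2 * n - 1 = p ^ j) →
      Set.range (orderOf : Cfsg.PSp n F × Cfsg.PSp n F × Multiplicative (Fin m → ZMod 2) → ℕ) = Set.range (orderOf : Cfsg.PSp n F × Cfsg.PSp n F → ℕ)) := by
  classical
  haveI : Fact p.Prime := ⟨hp⟩
  haveI : CharP F p := charP_of_card_eq_prime_pow hF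
  have hp2 : p ≠ 2 := by
    rintro rfl
    rw [hF] at hodd
    exact absurd hodd (Nat.not_odd_iff_even.mpr (Nat.even_pow.mpr ⟨even_two, by omega⟩))
  have h2 : (2 : F) ≠ 0 := by
    intro h
    have h' : p ∣ 2 := (CharP.cast_eq_zero_iff F p 2).mp (by exact_mod_cast h)
    exact hp2 ((Nat.prime_dvd_prime_iff_eq hp Nat.prime_two).mp h')
  set q := Fintype.card F with hq
  have hqn : Odd (q ^ n) := hodd.pow
  set T := if (q ^ n - 1) % 4 = 0 then (q ^ n + 1) / 2 else (q ^ n - 1) / 2 with hT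
  haveI : Finite (Matrix.symplecticGroup (Fin n) F) := Subtype.finite
  haveI : Finite (Cfsg.PSp n F) := Quotient.finite _
  -- an element of order a multiple of `T`, and one of even order
  obtain ⟨xT, hxT⟩ : ∃ x : Cfsg.PSp n F, T ∣ orderOf x := by
    rw [hT]
    split_ifs
    · exact exists_half_torus (by omega) (Or.inr rfl) (by rcases hqn with ⟨r, hr⟩; exact ⟨r + 1, by omega⟩)
    · exact exists_half_torus (by omega) (Or.inl rfl) (by rcases hqn with ⟨r, hr⟩; exact ⟨r, by omega⟩)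
  obtain ⟨x2, hx2⟩ := two_mul_lcm_dvd (n := n) (F := F) h2 (le_refl 1) (by omega : 1 ≤ n - 1) (by omega)
    odd_one odd_one (hasOrd_one 1) (hasOrd_one (n - 1))
  have hx2' : 2 ∣ orderOf x2 := (dvd_mul_right 2 _).trans hx2
  -- the classification of odd orders
  have key : ∀ x : Cfsg.PSp n F, Odd (orderOf x) → (∃ y : Cfsg.PSp n F, 2 * orderOf x ∣ orderOf y) ∨
      orderOf x ∣ T ∨ ∃ j, orderOf x = p ^ (j + 1) ∧ p ^ j = 2 * n - 1 := by
    intro x hx
    obtain ⟨g₀, rfl⟩ := QuotientGroup.mk_surjective x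
    set A := orderOf (QuotientGroup.mk g₀ : Cfsg.PSp n F) with hA
    set g := g₀ ^ (A + 1) with hgdef
    have hgx : (QuotientGroup.mk g : Cfsg.PSp n F) = QuotientGroup.mk g₀ := by
      rw [hgdef, QuotientGroup.mk_pow, pow_succ, hA, pow_orderOf_eq_one, one_mul]
    have hgA : g ^ A = 1 := by
      have hcen : g₀ ^ A ∈ Subgroup.center (Matrix.symplecticGroup (Fin n) F) := by
        rw [← QuotientGroup.eq_one_iff, QuotientGroup.mk_pow, hA, pow_orderOf_eq_one]
      haveI : NeZero n := ⟨by omega⟩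
      obtain ⟨c, hc2, hc⟩ := Linear.Symp.center_scalar hcen
      have hsq : (g₀ ^ A) ^ 2 = 1 := by
        refine Linear.Symp.sp_ext fun v => ?_
        rw [pow_two, Linear.Symp.app_mul, Linear.Symp.app_one]
        simp only [Linear.Symp.app] at hc ⊢
        rw [hc v, Matrix.mulVec_smul, hc v, smul_smul, ← pow_two, hc2, one_smul]
      obtain ⟨r, hr⟩ := hx
      rw [hgdef, ← pow_mul, mul_comm, pow_mul, show A + 1 = 2 * (r + 1) by omega, pow_mul, hsq, one_pow]
    have hord : orderOf g = A := Nat.dvd_antisymm (orderOf_dvd_of_pow_eq_one hgA)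
      ((show A = orderOf (QuotientGroup.mk g : Cfsg.PSp n F) by rw [hgx]).dvd.trans (orderOf_map_dvd (QuotientGroup.mk' _) g))
    obtain ⟨D, hD1, hDn, j, s, hjs, hsL, hroom⟩ := symplectic_odd_order hp2 g (by rwa [hord])
    rw [hord] at hjs
    have hsodd : Odd s := by
      rw [hjs] at hx
      exact (Nat.odd_mul.mp hx).2
    have hpjodd : Odd (p ^ j) := by
      rw [hjs] at hx
      exact (Nat.odd_mul.mp hx).1
    rcases D.eq_empty_or_nonempty with rfl | ⟨t₀, ht₀⟩
    · have hs1 : s = 1 := by simpa using hsL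
      subst hs1
      rw [mul_one] at hjs
      rcases Nat.eq_zero_or_pos j with rfl | hj
      · rw [pow_zero] at hjs
        exact Or.inl ⟨x2, by rw [hjs]; exact hx2'⟩
      obtain ⟨m, -, hm2, hmn⟩ := hroom hj
      simp only [Finset.sum_empty, zero_add] at hmn
      by_cases hsp : p ^ (j - 1) = 2 * n - 1
      · exact Or.inr (Or.inr ⟨j - 1, by rw [Nat.sub_add_cancel hj]; exact hjs, hsp⟩)
      · left
        obtain ⟨r, hr⟩ := (hp.odd_of_ne_two hp2).pow (n := j - 1)
        have hu := exists_unipotent (F := F) (p := p) (m := r + 1) (j := j - 1) (by omega) (by omega)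
        rw [Nat.sub_add_cancel hj] at hu
        obtain ⟨y, hy⟩ := two_mul_lcm_dvd (n := n) h2 (by omega : 1 ≤ r + 1) (by omega : 1 ≤ n - (r + 1)) (by omega)
          hpjodd odd_one hu (hasOrd_one _)
        refine ⟨y, ?_⟩
        rw [hjs]
        simpa using hy
    have hsum1 : 1 ≤ ∑ t ∈ D, t.1 := (hD1 t₀ ht₀).trans (Finset.single_le_sum (fun _ _ => Nat.zero_le _) ht₀)
    have hsum := hasOrd_of_dvd (hasOrd_types (F := F) D hD1) hsL
    rcases Nat.eq_zero_or_pos j with rfl | hj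
    swap
    · left
      obtain ⟨m, hm1, hm2, hmn⟩ := hroom hj
      have hu := exists_unipotent (F := F) (p := p) (m := m) (j := j - 1) hm1 hm2
      rw [Nat.sub_add_cancel hj] at hu
      obtain ⟨y, hy⟩ := two_mul_lcm_dvd (n := n) h2 hsum1 (by omega : 1 ≤ n - ∑ t ∈ D, t.1) (by omega)
        hsodd hpjodd hsum (hasOrd_mono (by omega) hu)
      refine ⟨y, (Nat.mul_dvd_mul_left 2 ?_).trans hy⟩
      rw [hjs]
      refine Nat.Coprime.mul_dvd_of_dvd_of_dvd ?_ (Nat.dvd_lcm_right _ _) (Nat.dvd_lcm_left _ _)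
      refine Nat.Coprime.pow_left _ ((hp.coprime_iff_not_dvd).mpr fun hdvd => ?_)
      have hpL := hdvd.trans hsL
      have hall : ∀ E : Finset (ℕ × Bool), (∀ t ∈ E, 1 ≤ t.1) → ¬ p ∣ E.lcm (torusOrd (Fintype.card F)) := by
        intro E hE
        induction E using Finset.induction with
        | empty => simpa using hp.one_lt.ne'
        | insert t E _ ih =>
          rw [Finset.lcm_insert]
          intro h
          rcases hp.dvd_mul.mp (h.trans (Nat.lcm_dvd_mul _ _)) with h | h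
          · exact not_dvd_torusOrd (by rw [← hq, hF]; exact dvd_pow_self p (by omega)) Fintype.card_pos
              (hE t (Finset.mem_insert_self _ _)) h
          · exact ih (fun u hu => hE u (Finset.mem_insert_of_mem hu)) h
      exact hall D hD1 hpL
    rw [pow_zero, one_mul] at hjs
    rw [hjs]
    by_cases hlt : ∑ t ∈ D, t.1 < n
    · left
      obtain ⟨y, hy⟩ := two_mul_lcm_dvd (n := n) h2 hsum1 (by omega : 1 ≤ n - ∑ t ∈ D, t.1) (by omega)
        hsodd odd_one hsum (hasOrd_one _)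
      exact ⟨y, (Nat.mul_dvd_mul_left 2 (Nat.dvd_lcm_left _ _)).trans hy⟩
    have hDn' : ∑ t ∈ D, t.1 = n := by omega
    by_cases hrest : (D.erase t₀).Nonempty
    · left
      obtain ⟨t₁, ht₁⟩ := hrest
      have hb1 : 1 ≤ ∑ t ∈ D.erase t₀, t.1 :=
        (hD1 t₁ (Finset.mem_of_mem_erase ht₁)).trans (Finset.single_le_sum (fun _ _ => Nat.zero_le _) ht₁)
      have hsplit : t₀.1 + ∑ t ∈ D.erase t₀, t.1 = n := by rw [Finset.add_sum_erase _ _ ht₀, hDn']
      have hA0 : torusOrd q t₀ ≠ 0 := by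
        rcases torusOrd_cases q t₀ with h | h <;> rw [h]
        · have h1 : 1 < q ^ t₀.1 := Nat.one_lt_pow (by have := hD1 t₀ ht₀; omega) Fintype.one_lt_card
          omega
        · omega
      have hB0 : (D.erase t₀).lcm (torusOrd q) ≠ 0 := by
        rw [Ne, Finset.lcm_eq_zero_iff]
        rintro ⟨u, hu, h⟩
        rcases torusOrd_cases q u with h' | h' <;> rw [h'] at h
        · have h1 : 1 < q ^ u.1 := Nat.one_lt_pow (by have := hD1 u (Finset.mem_of_mem_erase hu); omega) Fintype.one_lt_card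
          omega
        · omega
      obtain ⟨g1, hg1⟩ := exists_torus_sp F (hD1 t₀ ht₀) _ (torusOrd_cases q t₀)
      have hsd : s ∣ Nat.lcm (torusOrd q t₀) ((D.erase t₀).lcm (torusOrd q)) := by
        rw [← Finset.insert_erase ht₀, Finset.lcm_insert] at hsL
        exact hsL
      have hodd_dvd : ∀ {d : ℕ}, d ∣ s → Odd d := fun {d} hd => hsodd.of_dvd_nat hd
      obtain ⟨y, hy⟩ := two_mul_lcm_dvd (n := n) h2 (hD1 t₀ ht₀) hb1 hsplit
        (hodd_dvd (Nat.gcd_dvd_left s (torusOrd q t₀))) (hodd_dvd (Nat.gcd_dvd_left s ((D.erase t₀).lcm (torusOrd q))))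
        (hasOrd_of_dvd (⟨g1, hg1.symm.dvd⟩ : HasOrd F t₀.1 (torusOrd q t₀)) (Nat.gcd_dvd_right _ _))
        (hasOrd_of_dvd (hasOrd_types (F := F) (D.erase t₀) fun u hu => hD1 u (Finset.mem_of_mem_erase hu)) (Nat.gcd_dvd_right _ _))
      exact ⟨y, (Nat.mul_dvd_mul_left 2 (dvd_lcm_gcd hsodd.pos.ne' hA0 hB0 hsd)).trans hy⟩
    have hDs : D = {t₀} := by
      rw [Finset.not_nonempty_iff_eq_empty, Finset.erase_eq_empty_iff] at hrest
      rcases hrest with h | h
      · rw [h] at ht₀; simp at ht₀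
      · exact h
    subst hDs
    rw [Finset.sum_singleton] at hDn'
    rw [Finset.lcm_singleton, normalize_eq] at hsL
    have hN := torusOrd_cases q t₀
    rw [hDn'] at hN
    have hN2 : 2 ∣ torusOrd q t₀ := by
      rcases hqn with ⟨r, hr⟩
      rcases hN with h | h <;> rw [h]
      · exact ⟨r, by omega⟩
      · exact ⟨r + 1, by omega⟩
    by_cases h4 : 4 ∣ torusOrd q t₀
    · left
      obtain ⟨y, hy⟩ := exists_half_torus (by omega : 1 ≤ n) hN hN2
      refine ⟨y, Dvd.dvd.trans ?_ hy⟩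
      have h4s : 4 * s ∣ torusOrd q t₀ := by
        refine Nat.Coprime.mul_dvd_of_dvd_of_dvd ?_ h4 hsL
        rw [show (4 : ℕ) = 2 ^ 2 by norm_num]
        exact (Nat.coprime_two_left.mpr hsodd).pow_left 2
      obtain ⟨c, hc⟩ := h4s
      rw [hc, show 4 * s * c = 2 * (2 * s * c) by ring, Nat.mul_div_cancel_left _ (by norm_num : 0 < 2)]
      exact dvd_mul_right _ _
    · right; left
      have hTe : T = torusOrd q t₀ / 2 := by
        rw [hT]
        rcases hqn with ⟨r, hr⟩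
        rcases hN with h | h <;> rw [h] at h4 hN2 ⊢ <;> split_ifs with hm <;> first | rfl | omega
      rw [hTe]
      obtain ⟨c, hc⟩ := hN2
      rw [hc, Nat.mul_div_cancel_left _ (by norm_num : 0 < 2)]
      exact (Nat.coprime_two_right.mpr hsodd).dvd_of_dvd_mul_left (hc ▸ hsL)
  have hE : ∀ e : Multiplicative (Fin m → ZMod 2), orderOf e ∣ 2 := by
    intro e
    rw [orderOf_dvd_iff_pow_eq_one]
    apply Multiplicative.toAdd.injective
    funext i
    simp only [toAdd_pow, Pi.smul_apply, toAdd_one, Pi.zero_apply]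
    exact ZModModule.char_nsmul_eq_zero (n := 2) _
  constructor
  · apply Set.Subset.antisymm
    · rintro _ ⟨⟨a, b, c, e⟩, rfl⟩
      simp only [Prod.orderOf]
      suffices h : ∃ y : Cfsg.PSp n F × Cfsg.PSp n F × Cfsg.PSp n F,
          Nat.lcm (orderOf a) (Nat.lcm (orderOf b) (Nat.lcm (orderOf c) (orderOf e))) ∣ orderOf y by
        obtain ⟨y, hy⟩ := h
        exact mem_range_orderOf_of_dvd ⟨y, rfl⟩ hy
      set A := orderOf a
      set B := orderOf b
      set C := orderOf c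
      have hred : ∀ M, A ∣ M → B ∣ M → C ∣ M → 2 ∣ M → Nat.lcm A (Nat.lcm B (Nat.lcm C (orderOf e))) ∣ M :=
        fun M h1 h2 h3 h4 => Nat.lcm_dvd h1 (Nat.lcm_dvd h2 (Nat.lcm_dvd h3 ((hE e).trans h4)))
      by_cases hev : Even A ∨ Even B ∨ Even C
      · refine ⟨(a, b, c), ?_⟩
        simp only [Prod.orderOf]
        refine hred _ (Nat.dvd_lcm_left _ _) ((Nat.dvd_lcm_left _ _).trans (Nat.dvd_lcm_right _ _))
          ((Nat.dvd_lcm_right _ _).trans (Nat.dvd_lcm_right _ _)) ?_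
        rcases hev with h | h | h
        · exact h.two_dvd.trans (Nat.dvd_lcm_left _ _)
        · exact h.two_dvd.trans ((Nat.dvd_lcm_left _ _).trans (Nat.dvd_lcm_right _ _))
        · exact h.two_dvd.trans ((Nat.dvd_lcm_right _ _).trans (Nat.dvd_lcm_right _ _))
      push Not at hev
      simp only [Nat.not_even_iff_odd] at hev
      rcases key a hev.1 with ⟨y, hy⟩ | ha'
      · refine ⟨(y, b, c), ?_⟩
        simp only [Prod.orderOf]
        exact hred _ (((dvd_mul_left _ _).trans hy).trans (Nat.dvd_lcm_left _ _)) ((Nat.dvd_lcm_left _ _).trans (Nat.dvd_lcm_right _ _))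
          ((Nat.dvd_lcm_right _ _).trans (Nat.dvd_lcm_right _ _)) (((dvd_mul_right _ _).trans hy).trans (Nat.dvd_lcm_left _ _))
      rcases key b hev.2.1 with ⟨y, hy⟩ | hb'
      · refine ⟨(a, y, c), ?_⟩
        simp only [Prod.orderOf]
        exact hred _ (Nat.dvd_lcm_left _ _) (((dvd_mul_left _ _).trans hy).trans ((Nat.dvd_lcm_left _ _).trans (Nat.dvd_lcm_right _ _)))
          ((Nat.dvd_lcm_right _ _).trans (Nat.dvd_lcm_right _ _)) (((dvd_mul_right _ _).trans hy).trans ((Nat.dvd_lcm_left _ _).trans (Nat.dvd_lcm_right _ _)))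
      rcases key c hev.2.2 with ⟨y, hy⟩ | hc'
      · refine ⟨(a, b, y), ?_⟩
        simp only [Prod.orderOf]
        exact hred _ (Nat.dvd_lcm_left _ _) ((Nat.dvd_lcm_left _ _).trans (Nat.dvd_lcm_right _ _))
          (((dvd_mul_left _ _).trans hy).trans ((Nat.dvd_lcm_right _ _).trans (Nat.dvd_lcm_right _ _))) (((dvd_mul_right _ _).trans hy).trans ((Nat.dvd_lcm_right _ _).trans (Nat.dvd_lcm_right _ _)))
      -- all three lie in two classes
      have hP : ∃ u : Cfsg.PSp n F, ∀ z ∈ ({A, B, C} : Set ℕ), z ∣ Nat.lcm T (orderOf u) := by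
        have huniq : ∀ {i i' : ℕ}, p ^ i = 2 * n - 1 → p ^ i' = 2 * n - 1 → i = i' := fun h h' =>
          Nat.pow_right_injective hp.two_le (h.trans h'.symm)
        rcases ha' with ha'' | ⟨ja, hja, hja'⟩
        · rcases hb' with hb'' | ⟨jb, hjb, hjb'⟩
          · refine ⟨c, ?_⟩
            rintro z (rfl | rfl | rfl)
            · exact ha''.trans (Nat.dvd_lcm_left _ _)
            · exact hb''.trans (Nat.dvd_lcm_left _ _)
            · exact Nat.dvd_lcm_right _ _
          · refine ⟨b, ?_⟩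
            rintro z (rfl | rfl | rfl)
            · exact ha''.trans (Nat.dvd_lcm_left _ _)
            · exact Nat.dvd_lcm_right _ _
            · rcases hc' with hc'' | ⟨jc, hjc, hjc'⟩
              · exact hc''.trans (Nat.dvd_lcm_left _ _)
              · rw [show C = B from hjc.trans ((congrArg (fun i => p ^ (i + 1)) (huniq hjc' hjb')).trans hjb.symm)]; exact Nat.dvd_lcm_right _ _
        · refine ⟨a, ?_⟩
          rintro z (rfl | rfl | rfl)
          · exact Nat.dvd_lcm_right _ _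
          · rcases hb' with hb'' | ⟨jb, hjb, hjb'⟩
            · exact hb''.trans (Nat.dvd_lcm_left _ _)
            · rw [show B = A from hjb.trans ((congrArg (fun i => p ^ (i + 1)) (huniq hjb' hja')).trans hja.symm)]; exact Nat.dvd_lcm_right _ _
          · rcases hc' with hc'' | ⟨jc, hjc, hjc'⟩
            · exact hc''.trans (Nat.dvd_lcm_left _ _)
            · rw [show C = A from hjc.trans ((congrArg (fun i => p ^ (i + 1)) (huniq hjc' hja')).trans hja.symm)]; exact Nat.dvd_lcm_right _ _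
      obtain ⟨u, hu⟩ := hP
      refine ⟨(xT, u, x2), ?_⟩
      simp only [Prod.orderOf]
      have hTu : Nat.lcm T (orderOf u) ∣ Nat.lcm (orderOf xT) (Nat.lcm (orderOf u) (orderOf x2)) :=
        Nat.lcm_dvd (hxT.trans (Nat.dvd_lcm_left _ _)) ((Nat.dvd_lcm_left _ _).trans (Nat.dvd_lcm_right _ _))
      exact hred _ ((hu A (by simp)).trans hTu) ((hu B (by simp)).trans hTu) ((hu C (by simp)).trans hTu)
        (hx2'.trans ((Nat.dvd_lcm_right _ _).trans (Nat.dvd_lcm_right _ _)))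
    · rintro _ ⟨⟨a, b, c⟩, rfl⟩
      exact ⟨(a, b, c, 1), by simp [Prod.orderOf]⟩
  · intro hne
    apply Set.Subset.antisymm
    · rintro _ ⟨⟨a, b, e⟩, rfl⟩
      simp only [Prod.orderOf]
      suffices h : ∃ y : Cfsg.PSp n F × Cfsg.PSp n F,
          Nat.lcm (orderOf a) (Nat.lcm (orderOf b) (orderOf e)) ∣ orderOf y by
        obtain ⟨y, hy⟩ := h
        exact mem_range_orderOf_of_dvd ⟨y, rfl⟩ hy
      set A := orderOf a
      set B := orderOf b
      have hred : ∀ M, A ∣ M → B ∣ M → 2 ∣ M → Nat.lcm A (Nat.lcm B (orderOf e)) ∣ M :=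
        fun M h1 h2 h4 => Nat.lcm_dvd h1 (Nat.lcm_dvd h2 ((hE e).trans h4))
      by_cases hev : Even A ∨ Even B
      · refine ⟨(a, b), ?_⟩
        simp only [Prod.orderOf]
        refine hred _ (Nat.dvd_lcm_left _ _) (Nat.dvd_lcm_right _ _) ?_
        rcases hev with h | h
        · exact h.two_dvd.trans (Nat.dvd_lcm_left _ _)
        · exact h.two_dvd.trans (Nat.dvd_lcm_right _ _)
      push Not at hev
      simp only [Nat.not_even_iff_odd] at hev
      rcases key a hev.1 with ⟨y, hy⟩ | ha' | ⟨j, -, hj⟩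
      · refine ⟨(y, b), ?_⟩
        simp only [Prod.orderOf]
        exact hred _ (((dvd_mul_left _ _).trans hy).trans (Nat.dvd_lcm_left _ _)) (Nat.dvd_lcm_right _ _)
          (((dvd_mul_right _ _).trans hy).trans (Nat.dvd_lcm_left _ _))
      swap
      · exact absurd ⟨j, hj.symm⟩ hne
      rcases key b hev.2 with ⟨y, hy⟩ | hb' | ⟨j, -, hj⟩
      · refine ⟨(a, y), ?_⟩
        simp only [Prod.orderOf]
        exact hred _ (Nat.dvd_lcm_left _ _) (((dvd_mul_left _ _).trans hy).trans (Nat.dvd_lcm_right _ _))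
          (((dvd_mul_right _ _).trans hy).trans (Nat.dvd_lcm_right _ _))
      swap
      · exact absurd ⟨j, hj.symm⟩ hne
      refine ⟨(xT, x2), ?_⟩
      simp only [Prod.orderOf]
      exact hred _ ((ha'.trans hxT).trans (Nat.dvd_lcm_left _ _)) ((hb'.trans hxT).trans (Nat.dvd_lcm_left _ _))
        (hx2'.trans (Nat.dvd_lcm_right _ _))
    · rintro _ ⟨⟨a, b⟩, rfl⟩
      exact ⟨(a, b, 1), by simp [Prod.orderOf]⟩

end Cfsg.Agent.S2512
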