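import Cfsg.Statements.S2513
import Cfsg.Agent.Spectrum.Basic
import Cfsg.Agent.Spectrum.Linear

set_option autoImplicit false
open Cfsg

namespace Cfsg.Agent.S2513

/-- Let F be the field with two elements, n ≥ 2, L = PSL(n, F) and k₀ = ⌊(n + 3)/2⌋. Then for every k ≥ k₀ the direct product of k copies of L has the same set of element orders as the direct product of k₀ copies of L. -/
theorem result {F : Type*} [Field F] [Fintype F] (hF : Fintype.card F = 2) (n k : ℕ) (hn : 2 ≤ n) (hk : (n + 3) / 2 ≤ k) :
    Set.range (orderOf : (Fin k → Matrix.ProjectiveSpecialLinearGroup (Fin n) F) → ℕ) = Set.range (orderOf : (Fin ((n + 3) / 2) → Matrix.ProjectiveSpecialLinearGroup (Fin n) F) → ℕ) := by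
  classical
  haveI : Fact (Nat.Prime 2) := ⟨Nat.prime_two⟩
  haveI : CharP F 2 := charP_of_card_eq_prime (p := 2) hF
  obtain ⟨T, hT1, hT2⟩ : ∃ T, 2 ^ T < n ∧ n ≤ 2 ^ (T + 1) := by
    have hpos : 0 < Nat.clog 2 n := Nat.clog_pos (by norm_num) hn
    refine ⟨Nat.clog 2 n - 1, Nat.pow_pred_clog_lt_self (by norm_num) hn, ?_⟩
    rw [Nat.sub_add_cancel hpos]
    exact Nat.le_pow_clog (by norm_num) n
  -- every non-zero scalar is `1`
  have hone : ∀ x : F, x ≠ 0 → x = 1 := by
    intro x hx
    have := FiniteField.pow_card_sub_one_eq_one x hx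
    rw [hF] at this
    simpa using this
  -- transfer elements of nonzero determinant
  let π : Matrix.SpecialLinearGroup (Fin n) F →* Matrix.ProjectiveSpecialLinearGroup (Fin n) F :=
    QuotientGroup.mk' _
  have hπ : Function.Injective π := by
    rw [← MonoidHom.ker_eq_bot_iff, show π.ker = Subgroup.center _ from QuotientGroup.ker_mk' _,
      Subgroup.eq_bot_iff_forall]
    intro A hA
    obtain ⟨r, hr, hA'⟩ := Matrix.SpecialLinearGroup.mem_center_iff.mp hA
    have hr1 : r = 1 := hone r (by
      rintro rfl
      rw [Fintype.card_fin, zero_pow (by omega)] at hr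
      exact zero_ne_one hr)
    subst hr1
    exact Subtype.ext (by rw [← hA']; simp)
  let toMat : Matrix.SpecialLinearGroup (Fin n) F →* Matrix (Fin n) (Fin n) F :=
    { toFun := fun A => A.1, map_one' := rfl, map_mul' := fun _ _ => rfl }
  have htoMat : Function.Injective toMat := fun _ _ h => Subtype.ext h
  have hlift : ∀ M : Matrix (Fin n) (Fin n) F, M.det ≠ 0 →
      orderOf M ∈ Set.range (orderOf : Matrix.ProjectiveSpecialLinearGroup (Fin n) F → ℕ) := by
    intro M hM
    refine ⟨π ⟨M, hone _ hM⟩, ?_⟩
    exact (orderOf_injective π hπ _).trans (orderOf_injective toMat htoMat ⟨M, hone _ hM⟩).symm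
  set L := (Finset.Icc 1 n).lcm (fun d => 2 ^ d - 1) with hL
  set E := L * 2 ^ (T + 1) with hE
  have hexp : ∀ x : Matrix.ProjectiveSpecialLinearGroup (Fin n) F, orderOf x ∣ E := by
    intro x
    obtain ⟨A, rfl⟩ := QuotientGroup.mk'_surjective _ x
    rw [show orderOf (QuotientGroup.mk' (Subgroup.center (Matrix.SpecialLinearGroup (Fin n) F)) A) = orderOf (toMat A) from
        (orderOf_injective π hπ A).trans (orderOf_injective toMat htoMat A).symm,
      orderOf_dvd_iff_pow_eq_one]
    have := Spectrum.pow_exponent_eq_one (p := 2) A.1 (by rw [A.2]; exact one_ne_zero) (T + 1)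
      (by rwa [Fintype.card_fin])
    simpa [hF, hE, hL, toMat] using this
  -- the orders of big Singer cycles and of a regular unipotent element
  have hbig' : L ∣ (Finset.Ioc (n / 2) n).lcm (fun d => 2 ^ d - 1) := by
    apply Finset.lcm_dvd
    intro d hd
    rw [Finset.mem_Icc] at hd
    -- some multiple of `d` lies in `(n / 2, n]`
    have hm : (n / d) * d ∈ Finset.Ioc (n / 2) n := by
      rw [Finset.mem_Ioc]
      refine ⟨?_, Nat.div_mul_le_self n d⟩
      have h1 : n < (n / d + 1) * d := by
        rw [mul_comm]; exact Nat.lt_mul_div_succ n (by omega)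
      have h2 : 1 ≤ n / d := Nat.div_pos hd.2 (by omega)
      have h3 : d ≤ n / d * d := Nat.le_mul_of_pos_left d h2
      rw [add_mul, one_mul] at h1
      omega
    exact (Nat.pow_sub_one_dvd_pow_sub_one 2 (Dvd.intro_left (n / d) rfl)).trans (Finset.dvd_lcm hm)
  have key : ∀ K, (n + 3) / 2 ≤ K →
      Set.range (orderOf : (Fin K → Matrix.ProjectiveSpecialLinearGroup (Fin n) F) → ℕ) = {d | d ∣ E} := by
    intro K hK
    apply Set.Subset.antisymm
    · intro d hd
      rw [Spectrum.mem_range_orderOf_pi_iff] at hd
      obtain ⟨f, hf, rfl⟩ := hd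
      apply Finset.lcm_dvd
      intro i _
      obtain ⟨x, hx⟩ := hf i
      rw [← hx]
      exact hexp x
    · intro d hd
      suffices hsuff : ∃ f : Fin K → ℕ,
          (∀ i, f i ∈ Set.range (orderOf : Matrix.ProjectiveSpecialLinearGroup (Fin n) F → ℕ)) ∧
            E ∣ Finset.univ.lcm f by
        obtain ⟨f, hf, hdvd⟩ := hsuff
        exact Spectrum.mem_range_orderOf_of_dvd (Spectrum.mem_range_orderOf_pi_iff.mpr ⟨f, hf, rfl⟩)
          (Nat.dvd_trans hd hdvd)
      let f : Fin K → ℕ := fun i =>
        if (i : ℕ) = 0 then 2 ^ (T + 1)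
        else if n / 2 + i ≤ n then 2 ^ (n / 2 + i) - 1 else 1
      refine ⟨f, ?_, ?_⟩
      · intro i
        simp only [f]
        split_ifs with h0 hle
        · rw [← Spectrum.orderOf_one_add_shiftMatrix (F := F) hT1 hT2]
          exact hlift _ (Spectrum.det_one_add_shiftMatrix_ne_zero hT1 hT2)
        · obtain ⟨M, hM, hord⟩ := Spectrum.exists_orderOf_eq_pow_sub_one (F := F) (n := n)
            (d := n / 2 + i) (by omega) hle
          rw [hF] at hord
          rw [← hord]
          exact hlift M hM
        · exact Spectrum.one_mem_range_orderOf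
      · rw [hE]
        have hco : Nat.Coprime L (2 ^ (T + 1)) := by
          apply Nat.Coprime.pow_right
          rw [Nat.coprime_two_right, Nat.odd_iff]
          have : ∀ s : Finset ℕ, (∀ d ∈ s, 1 ≤ d) → (s.lcm (fun d => 2 ^ d - 1)) % 2 = 1 := by
            intro s hs
            induction s using Finset.induction with
            | empty => simp
            | insert a s ha ih =>
              rw [Finset.lcm_insert]
              have h1 := ih (fun d hd => hs d (Finset.mem_insert_of_mem hd))
              have h2 : (2 ^ a - 1) % 2 = 1 := by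
                have ha1 := hs a (Finset.mem_insert_self _ _)
                obtain ⟨b, rfl⟩ : ∃ b, a = b + 1 := ⟨a - 1, by omega⟩
                have := Nat.one_le_two_pow (n := b)
                rw [pow_succ]; omega
              rw [← Nat.odd_iff] at h1 h2 ⊢
              rcases Nat.even_or_odd (GCDMonoid.lcm (2 ^ a - 1) (s.lcm fun d => 2 ^ d - 1)) with he | ho
              · exact absurd (he.two_dvd.trans (Nat.lcm_dvd_mul _ _))
                  (Odd.not_two_dvd_nat (h2.mul h1))
              · exact ho
          exact this _ (fun d hd => (Finset.mem_Icc.mp hd).1)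
        apply hco.mul_dvd_of_dvd_of_dvd
        · refine hbig'.trans (Finset.lcm_dvd fun d hd => ?_)
          rw [Finset.mem_Ioc] at hd
          have := Finset.dvd_lcm (f := f) (Finset.mem_univ (⟨d - n / 2, by omega⟩ : Fin K))
          simp only [f] at this
          rw [if_neg (by omega), if_pos (by omega), show n / 2 + (d - n / 2) = d by omega] at this
          exact this
        · have := Finset.dvd_lcm (f := f) (Finset.mem_univ (⟨0, by omega⟩ : Fin K))
          simpa [f] using this
  rw [key k hk, key ((n + 3) / 2) le_rfl]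

end Cfsg.Agent.S2513
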