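import Cfsg.Statements.S2514
import Cfsg.Agent.Spectrum.Basic

set_option autoImplicit false
open Cfsg

namespace Cfsg.Agent.S2514

/-- For a finite group X write μ(X) for the set of element orders of X that are maximal under divisibility. Let G and H be finite groups and k ≥ 1 such that μ(H) ⊆ μ(G) and μ(G) has fewer than k elements outside μ(H). Then the direct product of k copies of G has the same set of element orders as the direct product of k − 1 copies of G with H. -/
theorem result {G H : Type*} [Group G] [Finite G] [Group H] [Finite H] (k : ℕ) (hk : 1 ≤ k)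
    (hsub : {n : ℕ | n ∈ Set.range (orderOf : H → ℕ) ∧ ∀ m ∈ Set.range (orderOf : H → ℕ), n ∣ m → m = n} ⊆ {n : ℕ | n ∈ Set.range (orderOf : G → ℕ) ∧ ∀ m ∈ Set.range (orderOf : G → ℕ), n ∣ m → m = n})
    (hfew : ({n : ℕ | n ∈ Set.range (orderOf : G → ℕ) ∧ ∀ m ∈ Set.range (orderOf : G → ℕ), n ∣ m → m = n} \ {n : ℕ | n ∈ Set.range (orderOf : H → ℕ) ∧ ∀ m ∈ Set.range (orderOf : H → ℕ), n ∣ m → m = n}).ncard < k) :
    Set.range (orderOf : (Fin k → G) → ℕ) = Set.range (orderOf : (Fin (k - 1) → G) × H → ℕ) := by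
  classical
  set μG := {n : ℕ | n ∈ Set.range (orderOf : G → ℕ) ∧ ∀ m ∈ Set.range (orderOf : G → ℕ), n ∣ m → m = n}
  set μH := {n : ℕ | n ∈ Set.range (orderOf : H → ℕ) ∧ ∀ m ∈ Set.range (orderOf : H → ℕ), n ∣ m → m = n}
  obtain ⟨j, rfl⟩ : ∃ j, k = j + 1 := ⟨k - 1, by omega⟩
  show Set.range (orderOf : (Fin (j + 1) → G) → ℕ) = Set.range (orderOf : (Fin j → G) × H → ℕ)
  have hfinG : μG.Finite := (Set.finite_range (orderOf : G → ℕ)).subset fun n hn => hn.1
  have hHG : ∀ y : H, ∃ x : G, orderOf x = orderOf y := by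
    intro y
    obtain ⟨e, he, hde⟩ := Spectrum.exists_maximal_order (G := H) ⟨y, rfl⟩
    exact Spectrum.mem_range_orderOf_of_dvd (hsub he).1 hde
  apply Set.Subset.antisymm
  · intro d hd
    rw [Spectrum.mem_range_orderOf_pi_iff] at hd
    obtain ⟨f, hf, rfl⟩ := hd
    choose M hM hfM using fun i => Spectrum.exists_maximal_order (hf i)
    choose g hg using fun i => (hM i).1
    have key : ∃ (i₀ : Fin (j + 1)) (y : H),
        M i₀ ∣ orderOf y ∨ ∃ i₁, i₁ ≠ i₀ ∧ M i₁ = M i₀ := by
      by_cases h : ∃ i, M i ∈ μH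
      · obtain ⟨i, hi⟩ := h
        obtain ⟨y, hy⟩ := hi.1
        exact ⟨i, y, Or.inl (hy ▸ dvd_rfl)⟩
      · have hmaps : Set.range M ⊆ μG \ μH := by
          rintro _ ⟨i, rfl⟩
          exact ⟨hM i, fun h' => h ⟨i, h'⟩⟩
        have hlt : (Set.range M).ncard < j + 1 :=
          lt_of_le_of_lt (Set.ncard_le_ncard hmaps (hfinG.sdiff)) hfew
        have : ¬ Function.Injective M := fun hinj => by
          rw [Set.ncard_range_of_injective hinj, Nat.card_fin] at hlt; omega
        rw [Function.not_injective_iff] at this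
        obtain ⟨a, b, hab, hne⟩ := this
        exact ⟨a, 1, Or.inr ⟨b, Ne.symm hne, hab.symm⟩⟩
    obtain ⟨i₀, y, hy⟩ := key
    refine Spectrum.mem_range_orderOf_of_dvd
      ⟨((fun i => g (i₀.succAbove i)), y), rfl⟩ ?_
    rw [Prod.orderOf, Pi.orderOf]
    apply Finset.lcm_dvd
    intro i _
    refine (hfM i).trans ?_
    have other : ∀ i, i ≠ i₀ → M i ∣
        Nat.lcm (Finset.univ.lcm fun l => orderOf (g (i₀.succAbove l))) (orderOf y) := by
      intro i hi
      obtain ⟨l, rfl⟩ := Fin.exists_succAbove_eq hi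
      exact ((hg _).symm.dvd.trans (Finset.dvd_lcm (f := fun l => orderOf (g (i₀.succAbove l)))
        (Finset.mem_univ l))).trans (Nat.dvd_lcm_left _ _)
    by_cases hi : i = i₀
    · subst hi
      rcases hy with hy | ⟨i₁, hne, he⟩
      · exact hy.trans (Nat.dvd_lcm_right _ _)
      · exact he ▸ other i₁ hne
    · exact other i hi
  · rintro _ ⟨⟨f, y⟩, rfl⟩
    obtain ⟨x, hx⟩ := hHG y
    refine ⟨Fin.cons x f, ?_⟩
    apply Nat.dvd_antisymm
    · rw [Pi.orderOf, Prod.orderOf]
      apply Finset.lcm_dvd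
      intro i _
      refine Fin.cases ?_ ?_ i
      · simpa [Fin.cons_zero, hx] using Nat.dvd_lcm_right _ (orderOf y)
      · intro l
        simp only [Fin.cons_succ]
        rw [Pi.orderOf]
        exact (Finset.dvd_lcm (f := fun l => orderOf (f l)) (Finset.mem_univ l)).trans
          (Nat.dvd_lcm_left _ _)
    · rw [Prod.orderOf, Pi.orderOf f, Pi.orderOf (Fin.cons x f : Fin (j + 1) → G)]
      apply Nat.lcm_dvd
      · apply Finset.lcm_dvd
        intro l _
        simpa using Finset.dvd_lcm (f := fun i => orderOf ((Fin.cons x f : Fin (j + 1) → G) i))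
          (Finset.mem_univ l.succ)
      · simpa [hx] using Finset.dvd_lcm (f := fun i => orderOf ((Fin.cons x f : Fin (j + 1) → G) i))
          (Finset.mem_univ 0)

end Cfsg.Agent.S2514
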