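import Cfsg.Statements.S2515
import Cfsg.Agent.Spectrum.Linear

set_option autoImplicit false
open Cfsg

namespace Cfsg.Agent.S2515

open Matrix

section
variable {F : Type} [Field F] [Fintype F] [CharP F 3]

abbrev W (F : Type) := Matrix (Fin 2) (Fin 2) F
abbrev SL2 (F : Type) [Field F] := Matrix.SpecialLinearGroup (Fin 2) F

def tw (S : SL2 F) : W F := ((Matrix.SpecialLinearGroup.map (frobenius F 3) S).1)ᵀ

theorem tw_mul (S T : SL2 F) : tw (S * T) = tw T * tw S := by
  simp only [tw, map_mul, Matrix.SpecialLinearGroup.coe_mul, Matrix.transpose_mul]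

theorem tw_one : tw (1 : SL2 F) = 1 := by
  simp only [tw, map_one, Matrix.SpecialLinearGroup.coe_one, Matrix.transpose_one]

def sgn (ε : ℤˣ) : F := ((ε : ℤ) : F)

theorem sgn_mul (a b : ℤˣ) : (sgn (a * b) : F) = sgn a * sgn b := by simp [sgn]

theorem sgn_one : (sgn 1 : F) = 1 := by simp [sgn]

theorem sgn_sq (a : ℤˣ) : (sgn a : F) * sgn a = 1 := by
  rw [← sgn_mul, Int.units_mul_self, sgn_one]

def act1 (g : ℤˣ × SL2 F) (M : W F) : W F := (sgn g.1 : F) • (g.2.1 * M * tw g.2)

theorem act1_mul (g h : ℤˣ × SL2 F) (M : W F) : act1 (g * h) M = act1 g (act1 h M) := by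
  simp only [act1, Prod.fst_mul, Prod.snd_mul, sgn_mul, tw_mul, Matrix.SpecialLinearGroup.coe_mul,
    Matrix.mul_smul, Matrix.smul_mul, smul_smul, Matrix.mul_assoc]

theorem act1_one (M : W F) : act1 1 M = M := by
  simp only [act1, Prod.fst_one, Prod.snd_one, sgn_one, tw_one, Matrix.SpecialLinearGroup.coe_one,
    Matrix.one_mul, Matrix.mul_one, one_smul]

theorem act1_add (g : ℤˣ × SL2 F) (M N : W F) : act1 g (M + N) = act1 g M + act1 g N := by
  simp only [act1, Matrix.mul_add, Matrix.add_mul, smul_add]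

def act : ℤˣ × SL2 F →* MulAut (Multiplicative (W F)) where
  toFun g :=
    { toFun := fun x => Multiplicative.ofAdd (act1 g x.toAdd)
      invFun := fun x => Multiplicative.ofAdd (act1 g⁻¹ x.toAdd)
      left_inv := fun x => by simp [← act1_mul, act1_one]
      right_inv := fun x => by simp [← act1_mul, act1_one]
      map_mul' := fun x y => by simp [act1_add] }
  map_one' := by ext x : 1; simp [act1_one]
  map_mul' g h := by ext x : 1; simp [act1_mul]

theorem center_eq {S : SL2 F} : S ∈ Subgroup.center (SL2 F) ↔ S.1 = 1 ∨ S.1 = -1 := by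
  rw [Matrix.SpecialLinearGroup.mem_center_iff]
  constructor
  · rintro ⟨r, hr, hS⟩
    rw [Fintype.card_fin, sq_eq_one_iff] at hr
    rcases hr with rfl | rfl
    · left; rw [← hS, map_one]
    · right; rw [← hS, map_neg, map_one]
  · rintro (h | h)
    · exact ⟨1, one_pow _, by rw [h, map_one]⟩
    · exact ⟨-1, by simp, by rw [h, map_neg, map_one]⟩

def φ1 : ℤˣ →* MulAut (Multiplicative (W F)) := act.comp (MonoidHom.inl _ _)

def φ2 : Matrix.ProjectiveSpecialLinearGroup (Fin 2) F →* MulAut (Multiplicative (W F)) :=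
  QuotientGroup.lift _ (act.comp (MonoidHom.inr _ _)) fun S hS => by
    rcases center_eq.1 hS with h | h
    · rw [show S = 1 from Subtype.ext h, MonoidHom.mem_ker, map_one]
    · rw [MonoidHom.mem_ker]
      ext x : 1
      have h2 : tw S = -1 := by
        ext i j
        show frobenius F 3 (S.1 j i) = _
        rw [h]
        fin_cases i <;> fin_cases j <;> simp [frobenius_def] <;> norm_num
      simp [act, act1, h, h2, sgn_one]

abbrev G0 (F : Type) [Field F] := ℤˣ × Matrix.ProjectiveSpecialLinearGroup (Fin 2) F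

def φ : G0 F →* MulAut (Multiplicative (W F)) :=
  φ1.noncommCoprod φ2 fun ε g => by
    obtain ⟨S, rfl⟩ := QuotientGroup.mk_surjective g
    show act (ε, 1) * act (1, S) = act (1, S) * act (ε, 1)
    rw [← map_mul, ← map_mul, Prod.mk_mul_mk, Prod.mk_mul_mk, mul_one, mul_one, one_mul, one_mul]

theorem φ_mk (ε : ℤˣ) (S : SL2 F) : φ (ε, (QuotientGroup.mk S : Matrix.ProjectiveSpecialLinearGroup (Fin 2) F)) = act (ε, S) := by
  show act (ε, 1) * act (1, S) = act (ε, S)
  rw [← map_mul, Prod.mk_mul_mk, mul_one, one_mul]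

abbrev HH (F : Type) [Field F] [Fintype F] [CharP F 3] := Multiplicative (W F) ⋊[φ (F := F)] G0 F

theorem sl2_sq (S : SL2 F) : S.1 * S.1 = S.1.trace • S.1 - 1 := by
  have hd := S.2
  rw [Matrix.det_fin_two] at hd
  ext i j
  fin_cases i <;> fin_cases j <;>
    simp [Matrix.mul_apply, Fin.sum_univ_two, Matrix.trace_fin_two] <;> (first | ring1 | linear_combination hd | linear_combination -hd)

theorem mem_center_of_sq {S : SL2 F} (h : S * S = 1) : S ∈ Subgroup.center (SL2 F) := by
  have h1 : S.1 * S.1 = 1 := congrArg Subtype.val h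
  rw [sl2_sq, sub_eq_iff_eq_add] at h1
  have h2 : S.1.trace ≠ 0 := by
    intro h0
    rw [h0, zero_smul] at h1
    have := congrFun (congrFun h1 0) 0
    have h3 : (3 : F) = 0 := by exact_mod_cast CharP.cast_eq_zero F 3
    simp at this
    exact one_ne_zero (show (1 : F) = 0 by linear_combination h3 + this)
  rw [center_eq]
  have h4 : S.1 = (2 / S.1.trace) • (1 : W F) := by
    rw [div_eq_inv_mul, mul_smul, show (2 : F) • (1 : W F) = 1 + 1 from two_smul F _, ← h1, inv_smul_smul₀ h2]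
  have hd := S.2
  rw [h4, Matrix.det_smul, Matrix.det_one, mul_one, Fintype.card_fin, sq_eq_one_iff] at hd
  rcases hd with hd | hd <;> rw [h4, hd]
  · left; rw [one_smul]
  · right; rw [neg_one_smul]

theorem three_eq : (3 : F) = 0 := by exact_mod_cast CharP.cast_eq_zero F 3

/-- a non-zero fixed vector forces `g² = 1` or `g³ = 1` -/
theorem fixed (ε : ℤˣ) (S : SL2 F) (hns : ¬ IsSquare (-1 : F)) (M : W F) (hM : M ≠ 0)
    (h : act1 (ε, S) M = M) :
    (ε, (QuotientGroup.mk S : Matrix.ProjectiveSpecialLinearGroup (Fin 2) F)) ^ 2 = 1 ∨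
      (ε, (QuotientGroup.mk S : Matrix.ProjectiveSpecialLinearGroup (Fin 2) F)) ^ 3 = 1 := by
  set t := S.1.trace with ht
  let T := Matrix.SpecialLinearGroup.map (frobenius F 3) S
  let R : W F := (T⁻¹).1ᵀ
  have hR : R * R = (t ^ 3) • R - 1 := by
    have h1 := sl2_sq T⁻¹
    have h2 : (T⁻¹).1.trace = t ^ 3 := by
      rw [Matrix.SpecialLinearGroup.coe_inv, Matrix.trace_fin_two, Matrix.adjugate_fin_two, ht, Matrix.trace_fin_two]
      simp [T, frobenius_def, add_pow_char]
      ring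
    rw [h2] at h1
    show (T⁻¹).1ᵀ * (T⁻¹).1ᵀ = _
    rw [← Matrix.transpose_mul, h1, Matrix.transpose_sub, Matrix.transpose_smul, Matrix.transpose_one]
  have hTR : tw S * R = 1 := by
    show T.1ᵀ * (T⁻¹).1ᵀ = 1
    rw [← Matrix.transpose_mul, ← Matrix.SpecialLinearGroup.coe_mul, inv_mul_cancel,
      Matrix.SpecialLinearGroup.coe_one, Matrix.transpose_one]
  have hSM : S.1 * M = (sgn ε : F) • (M * R) := by
    have h1 : (sgn ε : F) • (M * R) = (sgn ε : F) • ((sgn ε : F) • (S.1 * M * tw S) * R) := by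
      rw [show (sgn ε : F) • (S.1 * M * tw S) = M from h]
    rw [h1, Matrix.smul_mul, Matrix.mul_assoc (S.1 * M), hTR, Matrix.mul_one, smul_smul, sgn_sq, one_smul]
  have hMR : M * R = (sgn ε : F) • (S.1 * M) := by rw [hSM, smul_smul, sgn_sq, one_smul]
  have hA : S.1 * S.1 * M = t • (S.1 * M) - M := by
    rw [sl2_sq, Matrix.sub_mul, Matrix.smul_mul, Matrix.one_mul]
  have hB : S.1 * S.1 * M = (t ^ 3 * sgn ε) • (S.1 * M) - M :=
    calc S.1 * S.1 * M = S.1 * ((sgn ε : F) • (M * R)) := by rw [Matrix.mul_assoc, hSM]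
      _ = (sgn ε : F) • (S.1 * M * R) := by rw [Matrix.mul_smul, ← Matrix.mul_assoc]
      _ = (sgn ε : F) • (((sgn ε : F) • (M * R)) * R) := by rw [← hSM]
      _ = M * (R * R) := by rw [Matrix.smul_mul, smul_smul, sgn_sq, one_smul, Matrix.mul_assoc]
      _ = t ^ 3 • (M * R) - M := by rw [hR, Matrix.mul_sub, Matrix.mul_smul, Matrix.mul_one]
      _ = _ := by rw [hMR, smul_smul]
  have hne : S.1 * M ≠ 0 := by
    intro h0
    apply hM
    have : (S⁻¹ * S).1 * M = 0 := by rw [Matrix.SpecialLinearGroup.coe_mul, Matrix.mul_assoc, h0, Matrix.mul_zero]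
    rwa [inv_mul_cancel, Matrix.SpecialLinearGroup.coe_one, Matrix.one_mul] at this
  have heq : t = t ^ 3 * sgn ε := by
    have : (t - t ^ 3 * sgn ε) • (S.1 * M) = 0 := by
      rw [sub_smul, sub_eq_zero]; exact sub_left_injective (hA.symm.trans hB)
    exact sub_eq_zero.1 ((smul_eq_zero.1 this).resolve_right hne)
  by_cases ht0 : t = 0
  · left
    refine Prod.ext (by simp [sq, Int.units_mul_self]) ?_
    show (QuotientGroup.mk S : Matrix.ProjectiveSpecialLinearGroup (Fin 2) F) ^ 2 = 1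
    rw [← QuotientGroup.mk_pow, QuotientGroup.eq_one_iff, center_eq]
    right
    rw [Matrix.SpecialLinearGroup.coe_pow, sq, sl2_sq, ← ht, ht0, zero_smul, zero_sub]
  · right
    have h1 : t ^ 2 * sgn ε = 1 := mul_left_cancel₀ ht0 (by linear_combination -heq)
    have hε : ε = 1 := by
      rcases Int.units_eq_one_or ε with h | h
      · exact h
      · refine absurd ⟨t, ?_⟩ hns
        rw [h] at h1
        simp [sgn] at h1
        linear_combination h1
    subst hε
    rw [sgn_one, mul_one] at h1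
    refine Prod.ext (one_pow _) ?_
    show (QuotientGroup.mk S : Matrix.ProjectiveSpecialLinearGroup (Fin 2) F) ^ 3 = 1
    rw [← QuotientGroup.mk_pow, QuotientGroup.eq_one_iff, center_eq, Matrix.SpecialLinearGroup.coe_pow]
    have h3 : S.1 ^ 3 = -t • (1 : W F) := by
      rw [pow_succ, sq, sl2_sq, ← ht, Matrix.sub_mul, Matrix.smul_mul, Matrix.one_mul, sl2_sq, ← ht,
        smul_sub, smul_smul, ← sq, h1, one_smul]
      rw [neg_smul]; abel
    rw [h3]
    rcases sq_eq_one_iff.1 h1 with e | e <;> rw [e]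
    · right; rw [neg_one_smul]
    · left; rw [neg_neg, one_smul]

theorem g0_bound (q : ℕ) (hq : Fintype.card F = q) {a : ℕ} (hqa : q = 3 ^ a) (hq4 : q % 4 = 3) (g : G0 F) :
    g ^ 6 = 1 ∨ g ^ (q - 1) = 1 ∨ g ^ ((q + 1) / 2) = 1 := by
  obtain ⟨ε, g⟩ := g
  obtain ⟨S, rfl⟩ := QuotientGroup.mk_surjective g
  have heps : ∀ n : ℕ, Even n → ε ^ n = 1 := by
    intro n hn
    obtain ⟨m, rfl⟩ := hn
    rw [pow_add, Int.units_mul_self]
  set t := S.1.trace with ht
  set N : W F := t • 1 + S.1 with hN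
  have hN2 : N * N = (t * t - 1) • 1 := by
    rw [hN, Matrix.add_mul, Matrix.mul_add, Matrix.mul_add, sl2_sq, ← ht]
    simp only [Matrix.smul_mul, Matrix.mul_smul, Matrix.one_mul, Matrix.mul_one, smul_smul, sub_smul, one_smul]
    have h3 : (3 : F) • (t • S.1) = 0 := by rw [three_eq, zero_smul]
    linear_combination (norm := module) h3
  have htq : t ^ q = t := hq ▸ FiniteField.pow_card t
  haveI : Fact (Nat.Prime 3) := ⟨by norm_num⟩
  have hNq : N ^ q = t • 1 + S.1 ^ q := by
    rw [hN, hqa, add_pow_char_pow_of_commute 3 a ((Commute.one_left S.1).smul_left t), smul_pow, one_pow, ← hqa, htq]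
  have hNodd : N ^ q = (t * t - 1) ^ ((q - 1) / 2) • N := by
    conv_lhs => rw [show q = 2 * ((q - 1) / 2) + 1 by omega]
    rw [pow_succ, pow_mul, sq, hN2, smul_pow, one_pow, Matrix.smul_mul, Matrix.one_mul]
  by_cases hd : t * t - 1 = 0
  · left
    refine Prod.ext (heps 6 ⟨3, rfl⟩) ?_
    show (QuotientGroup.mk S : Matrix.ProjectiveSpecialLinearGroup (Fin 2) F) ^ 6 = 1
    rw [← QuotientGroup.mk_pow, QuotientGroup.eq_one_iff, center_eq, Matrix.SpecialLinearGroup.coe_pow]
    have h1 : t * t = 1 := sub_eq_zero.1 hd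
    have h3 : S.1 ^ 3 = -t • (1 : W F) := by
      rw [pow_succ, sq, sl2_sq, ← ht, Matrix.sub_mul, Matrix.smul_mul, Matrix.one_mul, sl2_sq, ← ht,
        smul_sub, smul_smul, h1, one_smul]
      rw [neg_smul]; abel
    left
    rw [show 6 = 3 * 2 from rfl, pow_mul, h3, smul_pow, one_pow, neg_sq, sq, h1, one_smul]
  · have hs : (t * t - 1) ^ ((q - 1) / 2) = 1 ∨ (t * t - 1) ^ ((q - 1) / 2) = -1 := by
      rw [← sq_eq_one_iff, ← pow_mul, show (q - 1) / 2 * 2 = Fintype.card F - 1 by omega]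
      exact FiniteField.pow_card_sub_one_eq_one _ hd
    have hsq : S.1 ^ q = S.1 ∨ S.1 ^ q = t • 1 - S.1 := by
      rcases hs with e | e <;> rw [e] at hNodd <;> rw [hNodd, hN] at hNq
      · left; rw [one_smul] at hNq; exact (add_left_cancel hNq).symm
      · right
        have h3 : (3 : F) • (t • (1 : W F)) = 0 := by rw [three_eq, zero_smul]
        linear_combination (norm := module) -hNq - h3
    right
    rcases hsq with e | e
    · left
      refine Prod.ext (heps _ ⟨(q - 1) / 2, by omega⟩) ?_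
      show (QuotientGroup.mk S : Matrix.ProjectiveSpecialLinearGroup (Fin 2) F) ^ (q - 1) = 1
      have : S ^ (q - 1) * S = 1 * S := Subtype.ext (by
        rw [← pow_succ, one_mul, Matrix.SpecialLinearGroup.coe_pow, show q - 1 + 1 = q by omega, e])
      rw [← QuotientGroup.mk_pow, mul_right_cancel this, QuotientGroup.mk_one]
    · right
      refine Prod.ext (heps _ ⟨(q + 1) / 4, by omega⟩) ?_
      show (QuotientGroup.mk S : Matrix.ProjectiveSpecialLinearGroup (Fin 2) F) ^ ((q + 1) / 2) = 1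
      rw [← QuotientGroup.mk_pow, QuotientGroup.eq_one_iff]
      refine mem_center_of_sq (Subtype.ext ?_)
      rw [← pow_add, show (q + 1) / 2 + (q + 1) / 2 = q + 1 by omega, Matrix.SpecialLinearGroup.coe_pow,
        pow_succ, e, Matrix.sub_mul, Matrix.smul_mul, Matrix.one_mul, sl2_sq, ← ht, sub_sub_cancel,
        Matrix.SpecialLinearGroup.coe_one]

theorem orders_upper (q : ℕ) (hq : Fintype.card F = q) {a : ℕ} (hqa : q = 3 ^ a) (hq4 : q % 4 = 3) (x : HH F) :
    orderOf x ∣ 6 ∨ orderOf x ∣ 9 ∨ orderOf x ∣ q - 1 ∨ orderOf x ∣ (q + 1) / 2 := by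
  have hns : ¬ IsSquare (-1 : F) := by
    rw [FiniteField.isSquare_neg_one_iff, hq]; omega
  obtain ⟨w, g⟩ := x
  set x : HH F := ⟨w, g⟩
  have hr : ∀ n, (x ^ n).right = g ^ n := fun n => map_pow SemidirectProduct.rightHom x n
  have h3 : ∀ y : HH F, y.right = 1 → y ^ 3 = 1 := by
    intro y hy
    have : y = SemidirectProduct.inl y.left := SemidirectProduct.ext rfl (by rw [hy]; rfl)
    rw [this, ← map_pow]
    have : y.left ^ 3 = 1 := by
      apply Multiplicative.toAdd.injective
      rw [toAdd_pow, toAdd_one]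
      have : ((3 : ℕ) : F) • y.left.toAdd = 0 := by rw [CharP.cast_eq_zero, zero_smul]
      rwa [Nat.cast_smul_eq_nsmul] at this
    rw [this, map_one]
  by_cases hfix : ∃ M : W F, M ≠ 0 ∧ φ g (Multiplicative.ofAdd M) = Multiplicative.ofAdd M
  · obtain ⟨M, hM, hgM⟩ := hfix
    obtain ⟨ε, g'⟩ := g
    obtain ⟨S, rfl⟩ := QuotientGroup.mk_surjective g'
    rw [φ_mk] at hgM
    rcases fixed ε S hns M hM hgM with h | h
    · left
      exact orderOf_dvd_of_pow_eq_one (by rw [show 6 = 2 * 3 from rfl, pow_mul]; exact h3 _ ((hr 2).trans h))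
    · right; left
      exact orderOf_dvd_of_pow_eq_one (by rw [show 9 = 3 * 3 from rfl, pow_mul]; exact h3 _ ((hr 3).trans h))
  · have key : ∀ n, g ^ n = 1 → x ^ n = 1 := by
      intro n hn
      refine SemidirectProduct.ext ?_ ((hr n).trans hn)
      rw [SemidirectProduct.one_left]
      by_contra hne
      apply hfix
      refine ⟨(x ^ n).left.toAdd, fun h0 => hne (Multiplicative.toAdd.injective h0), ?_⟩
      have hc := congrArg SemidirectProduct.left ((Commute.self_pow x n).eq)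
      rw [SemidirectProduct.mul_left, SemidirectProduct.mul_left, hr, hn, map_one, MulAut.one_apply,
        mul_comm (x ^ n).left] at hc
      exact mul_left_cancel hc
    rcases g0_bound q hq hqa hq4 g with h | h | h
    · exact Or.inl (orderOf_dvd_of_pow_eq_one (key _ h))
    · exact Or.inr (Or.inr (Or.inl (orderOf_dvd_of_pow_eq_one (key _ h))))
    · exact Or.inr (Or.inr (Or.inr (orderOf_dvd_of_pow_eq_one (key _ h))))

def uu : SL2 F := ⟨!![1, 1; 0, 1], by simp [Matrix.det_fin_two]⟩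

theorem uu_not_center : (uu : SL2 F) ∉ Subgroup.center (SL2 F) := by
  rw [center_eq]
  rintro (h | h) <;> have := congrFun (congrFun h 0) 1 <;> simp [uu] at this

theorem uu_pow_three : (uu : SL2 F) ^ 3 = 1 := by
  apply Subtype.ext
  rw [Matrix.SpecialLinearGroup.coe_pow]
  simp [uu, pow_succ, Matrix.one_fin_two]
  norm_num
  exact three_eq

theorem orderOf_uu : orderOf (QuotientGroup.mk uu : Matrix.ProjectiveSpecialLinearGroup (Fin 2) F) = 3 := by
  haveI : Fact (Nat.Prime 3) := ⟨by norm_num⟩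
  refine orderOf_eq_prime ?_ ?_
  · rw [← QuotientGroup.mk_pow, uu_pow_three, QuotientGroup.mk_one]
  · rw [Ne, QuotientGroup.eq_one_iff]; exact uu_not_center

theorem orderOf_inr_g0 (g : G0 F) : orderOf (SemidirectProduct.inr g : HH F) = orderOf g :=
  orderOf_injective _ SemidirectProduct.inr_injective g

theorem ex_six : 6 ∈ Set.range (orderOf : HH F → ℕ) := by
  refine ⟨SemidirectProduct.inr (-1, QuotientGroup.mk uu), ?_⟩
  rw [orderOf_inr_g0, Prod.orderOf, orderOf_uu]
  show Nat.lcm (orderOf (-1 : ℤˣ)) 3 = 6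
  rw [show orderOf (-1 : ℤˣ) = 2 from orderOf_eq_prime (by decide) (by decide)]
  rfl

theorem tw_uu : tw (uu : SL2 F) = !![1, 0; 1, 1] := by
  ext i j
  show frobenius F 3 ((uu : SL2 F).1 j i) = _
  fin_cases i <;> fin_cases j <;> simp [uu, frobenius_def]

theorem ex_nine : 9 ∈ Set.range (orderOf : HH F → ℕ) := by
  haveI : Fact (Nat.Prime 3) := ⟨by norm_num⟩
  let x : HH F := ⟨Multiplicative.ofAdd !![0, 0; 0, 1], (1, QuotientGroup.mk uu)⟩
  have hL : (x ^ 3).left = x.left * φ x.right x.left * φ x.right (φ x.right x.left) := by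
    rw [pow_succ', pow_succ', pow_one, SemidirectProduct.mul_left, SemidirectProduct.mul_left, map_mul, mul_assoc]
  have hφx : φ x.right = act ((1 : ℤˣ), (uu : SL2 F)) := φ_mk 1 uu
  have h3 : (x ^ 3).left.toAdd 0 0 ≠ 0 := by
    rw [hL, hφx]
    simp only [x, act, act1, MonoidHom.coe_mk, OneHom.coe_mk, MulEquiv.coe_mk, Equiv.coe_fn_mk, tw_uu, sgn_one, one_smul]
    simp [uu, Matrix.mul_apply, Fin.sum_univ_two]
    intro h
    exact one_ne_zero (show (1 : F) = 0 by linear_combination (-1 : F) * h + (2 : F) * three_eq (F := F))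
  refine ⟨x, ?_⟩
  show orderOf x = 3 ^ 2
  have hr : ∀ n, (x ^ n).right = x.right ^ n := fun n => map_pow SemidirectProduct.rightHom x n
  refine orderOf_eq_prime_pow (fun h => h3 ?_) ?_
  · rw [pow_one] at h; rw [h]; rfl
  · have h1 : (x ^ 3).right = 1 := by
      rw [hr]
      refine Prod.ext (one_pow _) ?_
      show (QuotientGroup.mk uu : Matrix.ProjectiveSpecialLinearGroup (Fin 2) F) ^ 3 = 1
      rw [← QuotientGroup.mk_pow, uu_pow_three, QuotientGroup.mk_one]
    have h2 : (x ^ 3) = SemidirectProduct.inl (x ^ 3).left := SemidirectProduct.ext rfl (by rw [h1]; rfl)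
    rw [show (3 : ℕ) ^ (1 + 1) = 3 * 3 from rfl, pow_mul, h2, ← map_pow]
    have : (x ^ 3).left ^ 3 = 1 := by
      apply Multiplicative.toAdd.injective
      rw [toAdd_pow, toAdd_one]
      have : ((3 : ℕ) : F) • (x ^ 3).left.toAdd = 0 := by rw [CharP.cast_eq_zero, zero_smul]
      rwa [Nat.cast_smul_eq_nsmul] at this
    rw [this, map_one]

theorem ex_minus (q : ℕ) (hq : Fintype.card F = q) (hq4 : q % 4 = 3) : q - 1 ∈ Set.range (orderOf : HH F → ℕ) := by
  obtain ⟨μ, hμ⟩ := IsCyclic.exists_ofOrder_eq_natCard (α := Fˣ)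
  rw [Nat.card_units, Nat.card_eq_fintype_card, hq] at hμ
  let D : Fˣ →* SL2 F :=
    { toFun := fun u => ⟨!![(u : F), 0; 0, ((u⁻¹ : Fˣ) : F)], by simp [Matrix.det_fin_two]⟩
      map_one' := Subtype.ext (by simp [Matrix.one_fin_two])
      map_mul' := fun u v => Subtype.ext (by
        show !![((u * v : Fˣ) : F), 0; 0, (((u * v)⁻¹ : Fˣ) : F)] = !![(u : F), 0; 0, ((u⁻¹ : Fˣ) : F)] * !![(v : F), 0; 0, ((v⁻¹ : Fˣ) : F)]
        simp [Matrix.mul_fin_two, mul_comm]) }
  have hmem : ∀ u : Fˣ, D u ∈ Subgroup.center (SL2 F) ↔ u ^ 2 = 1 := by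
    intro u
    rw [center_eq, ← Units.val_eq_one, Units.val_pow_eq_pow_val, sq_eq_one_iff]
    constructor
    · rintro (h | h) <;> have h2 := congrFun (congrFun h 0) 0
      · exact Or.inl (h2.trans (Matrix.one_apply_eq _))
      · exact Or.inr (h2.trans (by simp))
    · rintro (h | h)
      · left
        rw [show u = 1 from Units.ext h, map_one]; rfl
      · right
        show !![(u : F), 0; 0, ((u⁻¹ : Fˣ) : F)] = -1
        rw [Units.val_inv_eq_inv_val, h, inv_neg_one]
        ext i j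
        fin_cases i <;> fin_cases j <;> simp
  refine ⟨SemidirectProduct.inr (-1, QuotientGroup.mk (D μ)), ?_⟩
  rw [orderOf_inr_g0, Prod.orderOf]
  have h2 : orderOf (QuotientGroup.mk (D μ) : Matrix.ProjectiveSpecialLinearGroup (Fin 2) F) = (q - 1) / 2 := by
    have hpos : 0 < (q - 1) / 2 := by
      have := Fintype.one_lt_card (α := F); omega
    rw [orderOf_eq_iff hpos]
    refine ⟨?_, fun m hm hm0 => ?_⟩
    · rw [← QuotientGroup.mk_pow, QuotientGroup.eq_one_iff, ← map_pow, hmem, ← pow_mul,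
        show (q - 1) / 2 * 2 = orderOf μ by omega, pow_orderOf_eq_one]
    · rw [← QuotientGroup.mk_pow, Ne, QuotientGroup.eq_one_iff, ← map_pow, hmem, ← pow_mul]
      exact pow_ne_one_of_lt_orderOf (by omega) (by omega)
  show Nat.lcm (orderOf (-1 : ℤˣ)) (orderOf (QuotientGroup.mk (D μ) : Matrix.ProjectiveSpecialLinearGroup (Fin 2) F)) = q - 1
  rw [h2, show orderOf (-1 : ℤˣ) = 2 from orderOf_eq_prime (by decide) (by decide), Nat.Coprime.lcm_eq_mul]
  · omega
  · rw [Nat.coprime_two_left, Nat.odd_iff]; omega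

theorem ex_plus (q : ℕ) (hq : Fintype.card F = q) (hq4 : q % 4 = 3) : (q + 1) / 2 ∈ Set.range (orderOf : HH F → ℕ) := by
  have h1q : 1 < q := hq ▸ Fintype.one_lt_card
  obtain ⟨M, hM, hord⟩ := Cfsg.Agent.Spectrum.exists_orderOf_eq_pow_sub_one (F := F) (n := 2) (d := 2) (by norm_num) le_rfl
  rw [hq] at hord
  let S : SL2 F := ⟨M ^ (q - 1), by rw [Matrix.det_pow, ← hq, FiniteField.pow_card_sub_one_eq_one _ hM]⟩
  have hS : orderOf S = q + 1 := by
    rw [← orderOf_injective (⟨⟨Subtype.val, rfl⟩, fun _ _ => rfl⟩ : SL2 F →* W F) Subtype.val_injective S]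
    show orderOf (M ^ (q - 1)) = q + 1
    have hprod : q ^ 2 - 1 = (q + 1) * (q - 1) := by
      have := Nat.sq_sub_sq q 1
      simpa using this
    rw [orderOf_pow' M (by omega), hord, hprod, Nat.gcd_mul_left_left, Nat.mul_div_cancel _ (by omega)]
  refine ⟨SemidirectProduct.inr (1, QuotientGroup.mk S), ?_⟩
  rw [orderOf_inr_g0, Prod.orderOf, orderOf_one, Nat.lcm_one_left, orderOf_eq_iff (by omega)]
  refine ⟨?_, fun m hm hm0 => ?_⟩
  · rw [← QuotientGroup.mk_pow, QuotientGroup.eq_one_iff]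
    refine mem_center_of_sq ?_
    rw [← pow_add, show (q + 1) / 2 + (q + 1) / 2 = orderOf S by omega, pow_orderOf_eq_one]
  · rw [← QuotientGroup.mk_pow, Ne, QuotientGroup.eq_one_iff, center_eq]
    intro h
    have : S ^ (m * 2) = 1 := by
      apply Subtype.ext
      rw [pow_mul, Matrix.SpecialLinearGroup.coe_pow, Matrix.SpecialLinearGroup.coe_one]
      rcases h with h | h <;> rw [h] <;> simp
    have := Nat.le_of_dvd (by omega) (orderOf_dvd_of_pow_eq_one this)
    omega

end

/-- Let q = 3^α with α ≥ 3 odd. There is a finite group H having a non-trivial normal 3-subgroup and whose element orders maximal under divisibility are exactly 6, 9, q − 1 and (q + 1)/2. -/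
theorem result (α : ℕ) (hα : 3 ≤ α) (hodd : Odd α) :
    ∃ (H : Type) (_ : Group H) (_ : Fintype H), (∃ P : Subgroup H, P.Normal ∧ P ≠ ⊥ ∧ IsPGroup 3 ↥P) ∧
      {n : ℕ | n ∈ Set.range (orderOf : H → ℕ) ∧ ∀ m ∈ Set.range (orderOf : H → ℕ), n ∣ m → m = n} = ({6, 9, 3 ^ α - 1, (3 ^ α + 1) / 2} : Set ℕ) := by
  classical
  haveI : Fact (Nat.Prime 3) := ⟨by norm_num⟩
  have hα0 : α ≠ 0 := by omega
  let F := GaloisField 3 α
  letI : Fintype F := Fintype.ofFinite F
  have hq : Fintype.card F = 3 ^ α := by rw [← Nat.card_eq_fintype_card]; exact GaloisField.card 3 α hα0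
  have hq4 : 3 ^ α % 4 = 3 := by
    obtain ⟨k, rfl⟩ := hodd
    rw [pow_succ, pow_mul, Nat.mul_mod, Nat.pow_mod]
    norm_num
  have hq27 : 27 ≤ 3 ^ α := le_trans (by norm_num) (Nat.pow_le_pow_right (by norm_num) hα)
  have h3q : 3 ∣ 3 ^ α := dvd_pow_self 3 hα0
  haveI : Finite (HH F) := Finite.of_equiv _ SemidirectProduct.equivProd.symm
  refine ⟨HH F, inferInstance, Fintype.ofFinite _, ⟨(SemidirectProduct.inl : _ →* HH F).range, ?_, ?_, ?_⟩, ?_⟩
  · rw [SemidirectProduct.range_inl_eq_ker_rightHom]; infer_instance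
  · intro h
    have h1 : (SemidirectProduct.inl (Multiplicative.ofAdd (1 : W F)) : HH F) ∈ (⊥ : Subgroup (HH F)) :=
      h ▸ MonoidHom.mem_range.2 ⟨_, rfl⟩
    rw [Subgroup.mem_bot, ← map_one SemidirectProduct.inl, SemidirectProduct.inl_inj] at h1
    exact one_ne_zero (ofAdd_eq_one.1 h1)
  · refine IsPGroup.of_surjective ?_ _ (MonoidHom.rangeRestrict_surjective (SemidirectProduct.inl : _ →* HH F))
    intro w
    refine ⟨1, ?_⟩
    apply Multiplicative.toAdd.injective
    rw [pow_one, toAdd_pow, toAdd_one]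
    have : ((3 : ℕ) : F) • w.toAdd = 0 := by rw [CharP.cast_eq_zero, zero_smul]
    rwa [Nat.cast_smul_eq_nsmul] at this
  · set q := 3 ^ α with hqdef
    have hex : ∀ n ∈ ({6, 9, q - 1, (q + 1) / 2} : Set ℕ), n ∈ Set.range (orderOf : HH F → ℕ) := by
      rintro n (rfl | rfl | rfl | rfl)
      · exact ex_six
      · exact ex_nine
      · exact ex_minus q hq hq4
      · exact ex_plus q hq hq4
    have hup : ∀ m ∈ Set.range (orderOf : HH F → ℕ), ∃ n ∈ ({6, 9, q - 1, (q + 1) / 2} : Set ℕ), m ∣ n := by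
      rintro m ⟨x, rfl⟩
      rcases orders_upper q hq hqdef hq4 x with h | h | h | h
      · exact ⟨6, by simp, h⟩
      · exact ⟨9, by simp, h⟩
      · exact ⟨_, by simp, h⟩
      · exact ⟨_, by simp, h⟩
    have hanti : ∀ n ∈ ({6, 9, q - 1, (q + 1) / 2} : Set ℕ), ∀ m ∈ ({6, 9, q - 1, (q + 1) / 2} : Set ℕ), n ∣ m → n = m := by
      have hnot : ∀ a b : ℕ, a ∣ b → 0 < b → b < a → False := fun a b h h0 h1 =>
        absurd (Nat.le_of_dvd h0 h) (by omega)
      have h6a : ¬ (3 : ℕ) ∣ q - 1 := by omega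
      have h6b : ¬ (3 : ℕ) ∣ (q + 1) / 2 := by
        intro h
        have := dvd_mul_of_dvd_left h 2
        omega
      have hab : ¬ (q + 1) / 2 ∣ q - 1 := by
        intro h
        have h2 := Nat.dvd_sub (dvd_mul_of_dvd_left (dvd_refl ((q + 1) / 2)) 2) h
        have h4 : (q + 1) / 2 * 2 - (q - 1) = 2 := by omega
        rw [h4] at h2
        exact hnot _ _ h2 (by norm_num) (by omega)
      rintro n (rfl | rfl | rfl | rfl) m (rfl | rfl | rfl | rfl) h
      · rfl
      · exact absurd h (by norm_num)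
      · exact absurd ((Nat.dvd_trans (by norm_num) h : (3 : ℕ) ∣ _)) h6a
      · exact absurd ((Nat.dvd_trans (by norm_num) h : (3 : ℕ) ∣ _)) h6b
      · exact absurd h (by norm_num)
      · rfl
      · exact absurd ((Nat.dvd_trans (by norm_num) h : (3 : ℕ) ∣ _)) h6a
      · exact absurd ((Nat.dvd_trans (by norm_num) h : (3 : ℕ) ∣ _)) h6b
      · exact (hnot _ _ h (by omega) (by omega)).elim
      · exact (hnot _ _ h (by omega) (by omega)).elim
      · rfl
      · exact (hnot _ _ h (by omega) (by omega)).elim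
      · exact (hnot _ _ h (by omega) (by omega)).elim
      · exact (hnot _ _ h (by omega) (by omega)).elim
      · exact absurd h hab
      · rfl
    ext n
    constructor
    · rintro ⟨hn, hmax⟩
      obtain ⟨m, hm, hnm⟩ := hup n hn
      exact hmax m (hex m hm) hnm ▸ hm
    · intro hn
      refine ⟨hex n hn, fun m hm hnm => ?_⟩
      obtain ⟨k, hk, hmk⟩ := hup m hm
      have := hanti n hn k hk (hnm.trans hmk)
      exact Nat.dvd_antisymm (this ▸ hmk) hnm

end Cfsg.Agent.S2515
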