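import Cfsg.Statements.S2516


set_option autoImplicit false
open Cfsg

namespace Cfsg.Agent.S2516

/-- Let F be a field of characteristic p > 0, V a non-zero finite-dimensional F-vector space, G a finite group and ρ a representation of G on V; form the semidirect product V ⋊ G. For g ∈ G of order k, the coset Vg contains an element of order pk if and only if the minimal polynomial of ρ(g) does not divide 1 + X + ⋯ + X^(k−1). -/
theorem result {F : Type*} [Field F] (p : ℕ) [Fact p.Prime] [CharP F p] {V : Type*} [AddCommGroup V] [Module F V] [FiniteDimensional F V] [Nontrivial V]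
    {G : Type*} [Group G] [Finite G] (ρ : Representation F G V) (g : G) :
    (∃ x : Multiplicative V ⋊[(MulAutMultiplicative V).symm.toMonoidHom.comp
        ((DistribMulAction.toAddAut ((V →ₗ[F] V)ˣ) V).comp ρ.asGroupHom)] G,
        x.right = g ∧ orderOf x = p * orderOf g) ↔
      ¬ (minpoly F (ρ g) ∣ ∑ i ∈ Finset.range (orderOf g), (Polynomial.X : Polynomial F) ^ i) := by
  classical
  set φ : G →* MulAut (Multiplicative V) := (MulAutMultiplicative V).symm.toMonoidHom.comp
        ((DistribMulAction.toAddAut ((V →ₗ[F] V)ˣ) V).comp ρ.asGroupHom)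
  have hφ : ∀ (h : G) (w : Multiplicative V), φ h w = Multiplicative.ofAdd (ρ h w.toAdd) := fun h w => rfl
  set k := orderOf g with hk
  have hk0 : 0 < k := orderOf_pos g
  have hpow : ∀ (v : V) (j : ℕ), (⟨Multiplicative.ofAdd v, g⟩ : Multiplicative V ⋊[φ] G) ^ j =
      ⟨Multiplicative.ofAdd (∑ i ∈ Finset.range j, (ρ g ^ i) v), g ^ j⟩ := by
    intro v j
    induction j with
    | zero => simp
    | succ j ih =>
      rw [pow_succ', ih]
      refine SemidirectProduct.ext ?_ (pow_succ' g j).symm
      simp only [SemidirectProduct.mul_left, hφ, toAdd_ofAdd, map_sum, Finset.sum_range_succ', pow_zero,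
        Module.End.one_apply, pow_succ', Module.End.mul_apply]
      rw [← ofAdd_add, add_comm]
  have hsum : (∀ v, ∑ i ∈ Finset.range k, (ρ g ^ i) v = 0) ↔
      minpoly F (ρ g) ∣ ∑ i ∈ Finset.range k, (Polynomial.X : Polynomial F) ^ i := by
    rw [minpoly.dvd_iff, LinearMap.ext_iff]
    simp [LinearMap.sum_apply]
  rw [← hsum, not_forall]
  constructor
  · rintro ⟨⟨w, g'⟩, hg', hord⟩
    simp only at hg'
    subst hg'
    refine ⟨w.toAdd, fun h0 => ?_⟩
    have h1 := hpow w.toAdd k
    rw [h0] at h1
    simp only [ofAdd_zero, ofAdd_toAdd, hk, pow_orderOf_eq_one] at h1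
    have h2 := orderOf_dvd_of_pow_eq_one h1
    rw [hord, ← hk] at h2
    have := Nat.le_of_dvd hk0 h2
    have := (Fact.out : p.Prime).two_le
    nlinarith
  · rintro ⟨v, hv⟩
    refine ⟨⟨Multiplicative.ofAdd v, g⟩, rfl, ?_⟩
    set x : Multiplicative V ⋊[φ] G := ⟨Multiplicative.ofAdd v, g⟩ with hx
    set s : V := ∑ i ∈ Finset.range k, (ρ g ^ i) v with hs
    have h1 : x ^ k = SemidirectProduct.inl (Multiplicative.ofAdd s) := by
      rw [hx, hpow, hk, pow_orderOf_eq_one]
      rfl
    have h2 : orderOf (x ^ k) = p := by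
      rw [h1, orderOf_injective _ SemidirectProduct.inl_injective, orderOf_ofAdd_eq_addOrderOf]
      refine addOrderOf_eq_prime ?_ hv
      rw [← Nat.cast_smul_eq_nsmul F, CharP.cast_eq_zero, zero_smul]
    have hfin : IsOfFinOrder x := by
      refine isOfFinOrder_iff_pow_eq_one.mpr ⟨k * p, Nat.mul_pos hk0 (Fact.out : p.Prime).pos, ?_⟩
      rw [pow_mul, ← h2, pow_orderOf_eq_one]
    have hdvd : k ∣ orderOf x := orderOf_map_dvd SemidirectProduct.rightHom x
    rw [hfin.orderOf_pow, Nat.gcd_eq_right hdvd] at h2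
    rw [← h2, Nat.div_mul_cancel hdvd]

end Cfsg.Agent.S2516
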