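import Cfsg.Statements.S2517
import Cfsg.Agent.RecogA.NineEightOdd

set_option autoImplicit false
open Cfsg

namespace Cfsg.Agent.S2517

/-- Let F be a finite field of odd order q, let Ω₉ be the simple orthogonal group PΩ(9, F), and let Ω₈⁻ be the commutator subgroup of the isometry group of a minus-type non-singular quadratic form on V = F⁸ (the simple group PΩ⁻(8, F), acting on its natural module V). Then Ω₉ and the semidirect product V ⋊ Ω₈⁻ have exactly the same set of element orders. -/
theorem result {F : Type*} [Field F] [Fintype F] (hF : Odd (Fintype.card F)) (a b : F)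
    (hab : ∀ z₁ z₂ : F, z₁ ^ 2 + a * z₁ * z₂ + b * z₂ ^ 2 = 0 → z₁ = 0 ∧ z₂ = 0) :
    Set.range (orderOf : Cfsg.POmega F (Cfsg.quadFormOdd 4 F) → ℕ) =
      Set.range (orderOf :
        (Multiplicative (((Fin 3 ⊕ Fin 3) ⊕ Fin 2) → F)) ⋊[
          (MulAutMultiplicative (((Fin 3 ⊕ Fin 3) ⊕ Fin 2) → F)).symm.toMonoidHom.comp
           ((DistribMulAction.toAddAut (LinearMap.GeneralLinearGroup F (((Fin 3 ⊕ Fin 3) ⊕ Fin 2) → F))
              (((Fin 3 ⊕ Fin 3) ⊕ Fin 2) → F)).comp
            (Matrix.GeneralLinearGroup.toLin.toMonoidHom.comp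
              ((Cfsg.isometryGroup F (Cfsg.quadFormMinus 3 F a b)).subtype.comp
                (Cfsg.Omega F (Cfsg.quadFormMinus 3 F a b)).subtype)))]
          ↥(Cfsg.Omega F (Cfsg.quadFormMinus 3 F a b)) → ℕ) := by
  classical
  obtain ⟨p, hp⟩ := CharP.exists F
  haveI : Fact p.Prime := ⟨CharP.char_is_prime F p⟩
  have hp2 : p ≠ 2 := by
    rintro rfl
    obtain ⟨f, -, hf⟩ := FiniteField.card F 2
    rw [hf] at hF
    exact (Nat.not_even_iff_odd.2 hF) (Nat.even_pow.2 ⟨even_two, f.ne_zero⟩)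
  have h2 : (2 : F) ≠ 0 := Ring.two_ne_zero (by rw [ringChar.eq F p]; exact hp2)
  obtain ⟨e⟩ := RecogA.exists_pomega_nine_equiv h2 (a := a) (b := b) hab
  rw [RecogA.range_orderOf_congr e, RecogA.range_orderOf_nine_eight hp2 hab]
  let ι := Classical.isometryGroupEquiv (Cfsg.quadFormMinus 3 F a b) (Classical.minusQF 3 a b)
    (Classical.minusQF_apply 3 a b)
  let ω := (RecogA.commutatorEquiv ι).trans
    ((commutator (Classical.OQ (Classical.minusQF 3 a b))).equivMapOfInjective
      (RecogA.isoInt (Classical.minusQF 3 a b)) (RecogA.isoInt_injective _))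
  refine (RecogA.range_orderOf_congr (SemidirectProduct.congr (MulEquiv.refl _) ω ?_)).symm
  intro g
  ext x
  rfl


end Cfsg.Agent.S2517
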