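import Cfsg.Statements.S2518
import Cfsg.Agent.G2Three.Model
import Cfsg.Agent.GKTools.SLTwo
import Cfsg.Agent.Linear.Orders
import Cfsg.Agent.ChevGrp.FieldAut

set_option autoImplicit false
set_option linter.style.haveILetI false
open Cfsg

namespace Cfsg.Agent.S2518

theorem sl_two_sq_central {E : Type*} [Field E] (h2 : (2 : E) ≠ 0)
    (x : Matrix.SpecialLinearGroup (Fin 2) E) (hx : x * x = 1) :
    x ∈ Subgroup.center (Matrix.SpecialLinearGroup (Fin 2) E) := by
  set y : Matrix (Fin 2) (Fin 2) E := x.1 with hy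
  have hyy : y * y = 1 := by
    rw [hy, ← Matrix.SpecialLinearGroup.coe_mul, hx]; rfl
  have ch : y * y - y.trace • y + 1 = 0 := by
    have := Matrix.aeval_self_charpoly y
    rw [Matrix.charpoly_fin_two, show y.det = 1 from x.2] at this
    simpa [pow_two, Algebra.smul_def] using this
  rw [hyy] at ch
  have htr : y.trace ≠ 0 := fun h => by
    rw [h, zero_smul, sub_zero] at ch
    have := congrFun (congrFun ch 0) 0
    simp [one_add_one_eq_two] at this
    exact h2 this
  have hy' : y = (2 / y.trace) • (1 : Matrix (Fin 2) (Fin 2) E) := by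
    have h1 : y.trace • y = (2 : E) • (1 : Matrix (Fin 2) (Fin 2) E) := by
      rw [two_smul]
      linear_combination (norm := abel) -ch
    rw [div_eq_mul_inv, mul_comm, ← smul_smul, ← h1, smul_smul, inv_mul_cancel₀ htr, one_smul]
  refine Subgroup.mem_center_iff.2 fun z => Subtype.ext ?_
  show z.1 * y = y * z.1
  rw [hy', Matrix.mul_smul, Matrix.smul_mul, mul_one, one_mul]

theorem orders_psl_thirteen {E : Type*} [Field E] [Fintype E] (hE : Fintype.card E = 13) :
    (∀ y : Matrix.ProjectiveSpecialLinearGroup (Fin 2) E,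
      orderOf y ∣ 6 ∨ orderOf y ∣ 7 ∨ orderOf y ∣ 13) ∧
    ∃ y : Matrix.ProjectiveSpecialLinearGroup (Fin 2) E, orderOf y = 6 := by
  haveI : Fact (Nat.Prime 13) := ⟨by norm_num⟩
  haveI : CharP E 13 := by
    obtain ⟨q, hq⟩ := CharP.exists E
    haveI := hq
    obtain ⟨n, hp, hn⟩ := FiniteField.card E q
    rw [hE] at hn
    have hd : q ∣ 13 := hn ▸ dvd_pow_self q n.pos.ne'
    obtain rfl : q = 13 := (Nat.prime_dvd_prime_iff_eq hp (by norm_num)).1 hd
    exact hq
  have h2 : (2 : E) ≠ 0 := by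
    intro h
    have : ((2 : ℕ) : E) = 0 := by exact_mod_cast h
    exact absurd ((CharP.cast_eq_zero_iff E 13 2).1 this) (by norm_num)
  refine ⟨fun y => ?_, ?_⟩
  · obtain ⟨g, rfl⟩ := QuotientGroup.mk_surjective y
    have key : ∀ m, g ^ (2 * m) = 1 →
        orderOf (QuotientGroup.mk g : Matrix.ProjectiveSpecialLinearGroup (Fin 2) E) ∣ m := by
      intro m hm
      refine orderOf_dvd_of_pow_eq_one ?_
      rw [← QuotientGroup.mk_pow, QuotientGroup.eq_one_iff]
      exact sl_two_sq_central h2 _ (by rw [← pow_add, ← two_mul, hm])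
    rcases Cfsg.Agent.GKTools.sl_two_trichotomy 13 g with h | h | h <;> rw [hE] at *
    · exact Or.inl (key 6 h)
    · exact Or.inr (Or.inl (key 7 h))
    · exact Or.inr (Or.inr (key 13 h))
  · classical
    obtain ⟨ζ, hζ⟩ := IsCyclic.exists_ofOrder_eq_natCard (α := Eˣ)
    rw [Nat.card_units, Nat.card_eq_fintype_card, hE] at hζ
    let D : Eˣ → Matrix.SpecialLinearGroup (Fin 2) E := fun a =>
      ⟨!![(a : E), 0; 0, ((a⁻¹ : Eˣ) : E)], by simp [Matrix.det_fin_two]⟩
    have hD : ∀ m : ℕ, D ζ ^ m = D (ζ ^ m) := by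
      intro m
      induction m with
      | zero => rw [pow_zero, pow_zero]; refine Subtype.ext ?_; simp [D, Matrix.one_fin_two]
      | succ m ih =>
        rw [pow_succ, ih, pow_succ]
        refine Subtype.ext ?_
        rw [Matrix.SpecialLinearGroup.coe_mul]; simp [D, mul_comm]
    have hcen : ∀ m : ℕ, D ζ ^ m ∈ Subgroup.center (Matrix.SpecialLinearGroup (Fin 2) E) ↔ 6 ∣ m := by
      intro m
      constructor
      · intro h
        let u : Matrix.SpecialLinearGroup (Fin 2) E := ⟨!![1, 1; 0, 1], by simp [Matrix.det_fin_two]⟩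
        have h0 := congrArg Subtype.val (Subgroup.mem_center_iff.1 h u)
        rw [hD, Matrix.SpecialLinearGroup.coe_mul, Matrix.SpecialLinearGroup.coe_mul] at h0
        have h1 := congrFun (congrFun h0 0) 1
        simp [u, D] at h1
        have h3 : ζ ^ (2 * m) = 1 := by
          refine Units.ext ?_
          rw [two_mul, pow_add, Units.val_mul, Units.val_pow_eq_pow_val, Units.val_one]
          nth_rewrite 1 [← h1]
          exact inv_mul_cancel₀ (pow_ne_zero _ ζ.ne_zero)
        rw [← orderOf_dvd_iff_pow_eq_one, hζ] at h3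
        omega
      · rintro ⟨k, rfl⟩
        refine sl_two_sq_central h2 _ ?_
        have : D ζ ^ (6 * k) * D ζ ^ (6 * k) = D (ζ ^ (12 * k)) := by
          rw [← pow_add, hD]; congr 2; ring
        rw [this, pow_mul, show ζ ^ 12 = 1 from by rw [show (12 : ℕ) = orderOf ζ from hζ.symm, pow_orderOf_eq_one], one_pow, ← pow_zero ζ, ← hD,
          pow_zero]
    refine ⟨QuotientGroup.mk (D ζ), (orderOf_eq_iff (by norm_num)).2 ⟨?_, fun m hm hm0 h => ?_⟩⟩
    · rw [← QuotientGroup.mk_pow, QuotientGroup.eq_one_iff]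
      exact (hcen 6).2 dvd_rfl
    · rw [← QuotientGroup.mk_pow, QuotientGroup.eq_one_iff] at h
      have := (hcen m).1 h
      omega

/-- Let F₃ be the field with 3 elements and F₁₃ the field with 13 elements. The Chevalley group G₂(F₃) and PSL(2, F₁₃) have the same prime graph: the same prime divisors of their orders, and for distinct primes r, s an element of order rs in one iff in the other. -/
theorem result {F : Type*} [Field F] [Fintype F] (hF : Fintype.card F = 3) {E : Type*} [Field E] [Fintype E] (hE : Fintype.card E = 13) :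
    ((∀ r : ℕ, r.Prime → (r ∣ Nat.card ↥(Cfsg.Lie.chevG2.group F) ↔ r ∣ Nat.card (Matrix.ProjectiveSpecialLinearGroup (Fin 2) E))) ∧
      (∀ r s : ℕ, r.Prime → s.Prime → r ≠ s → ((∃ x : ↥(Cfsg.Lie.chevG2.group F), orderOf x = r * s) ↔ (∃ y : (Matrix.ProjectiveSpecialLinearGroup (Fin 2) E), orderOf y = r * s)))) := by
  obtain ⟨e⟩ : Nonempty (F ≃+* ZMod 3) := ⟨FiniteField.ringEquivOfCardEq (hF.trans (ZMod.card 3).symm)⟩
  let eg := Cfsg.Agent.ChevGrp.groupEquiv Cfsg.Lie.chevG2 e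
  have hcG : Nat.card ↥(Cfsg.Lie.chevG2.group F) = 2 ^ 6 * 3 ^ 6 * 7 * 13 := by
    rw [Nat.card_congr eg.toEquiv]; exact Cfsg.Agent.G2Three.card_L
  have hcP : Nat.card (Matrix.ProjectiveSpecialLinearGroup (Fin 2) E) = 2 ^ 2 * 3 * 7 * 13 := by
    have h := Cfsg.Agent.Linear.card_PSL_two_mul (F := E)
    rw [hE] at h
    norm_num at h ⊢
    omega
  obtain ⟨⟨g6, hg6⟩, hord⟩ := Cfsg.Agent.G2Three.spectrum
  obtain ⟨hP, y6, hy6⟩ := orders_psl_thirteen hE
  have hset : ∀ (a b : ℕ) (r : ℕ), r.Prime → 0 < a → 0 < b →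
      (r ∣ 2 ^ a * 3 ^ b * 7 * 13 ↔ r = 2 ∨ r = 3 ∨ r = 7 ∨ r = 13) := by
    intro a b r hr ha hb
    have hd : ∀ (q n : ℕ), q.Prime → 0 < n → (r ∣ q ^ n ↔ r = q) := fun q n hq hn =>
      ⟨fun h => (Nat.prime_dvd_prime_iff_eq hr hq).1 (hr.dvd_of_dvd_pow h),
        fun h => h ▸ dvd_pow_self r hn.ne'⟩
    rw [hr.dvd_mul, hr.dvd_mul, hr.dvd_mul, hd 2 a Nat.prime_two ha, hd 3 b Nat.prime_three hb,
      Nat.prime_dvd_prime_iff_eq hr (by norm_num : Nat.Prime 7),
      Nat.prime_dvd_prime_iff_eq hr (by norm_num : Nat.Prime 13)]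
    rw [or_assoc, or_assoc]
  have hsetG : ∀ r : ℕ, r.Prime → (r ∣ Nat.card ↥(Cfsg.Lie.chevG2.group F) ↔ r = 2 ∨ r = 3 ∨ r = 7 ∨ r = 13) :=
    fun r hr => by rw [hcG]; exact hset 6 6 r hr (by norm_num) (by norm_num)
  have hsetP : ∀ r : ℕ, r.Prime →
      (r ∣ Nat.card (Matrix.ProjectiveSpecialLinearGroup (Fin 2) E) ↔ r = 2 ∨ r = 3 ∨ r = 7 ∨ r = 13) :=
    fun r hr => by rw [hcP, ← pow_one 3]; exact hset 2 1 r hr (by norm_num) (by norm_num)
  refine ⟨fun r hr => (hsetG r hr).trans (hsetP r hr).symm, fun r s hr hs hrs => ?_⟩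
  have hr2 := hr.two_le
  have hs2 := hs.two_le
  constructor
  · rintro ⟨x, hx⟩
    have h13 : ∀ t, t.Prime → t ∣ r * s → t ≠ 7 ∧ t ≠ 13 := by
      intro t ht hts
      by_contra h
      have ho := hord (eg x) t (by omega) (by rw [MulEquiv.orderOf_eq, hx]; exact hts)
      rw [MulEquiv.orderOf_eq, hx] at ho
      rcases (Nat.Prime.eq_one_or_self_of_dvd ht r ⟨s, ho.symm⟩) with h1 | h1
      · omega
      · have : s = 1 := Nat.eq_of_mul_eq_mul_left hr.pos (by rw [ho, h1, mul_one])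
        omega
    have hr' := (hsetG r hr).1 ((Dvd.intro s rfl).trans (hx ▸ orderOf_dvd_natCard x))
    have hs' := (hsetG s hs).1 ((Dvd.intro_left r rfl).trans (hx ▸ orderOf_dvd_natCard x))
    have h1 := h13 r hr (Dvd.intro s rfl)
    have h2 := h13 s hs (Dvd.intro_left r rfl)
    refine ⟨y6, hy6.trans ?_⟩
    have ha : r = 2 ∧ s = 3 ∨ r = 3 ∧ s = 2 := by omega
    rcases ha with ⟨rfl, rfl⟩ | ⟨rfl, rfl⟩ <;> rfl
  · rintro ⟨y, hy⟩
    refine ⟨eg.symm g6, ?_⟩
    rw [MulEquiv.orderOf_eq, hg6]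
    rcases hP y with h | h | h <;> rw [hy] at h
    · have hr6 := (Dvd.intro s rfl : r ∣ r * s).trans h
      have hs6 := (Dvd.intro_left r rfl : s ∣ r * s).trans h
      have hp : ∀ t : ℕ, t.Prime → t ∣ 6 → t = 2 ∨ t = 3 := fun t ht h6 => by
        have := Nat.le_of_dvd (by norm_num) h6
        interval_cases t <;> simp_all (config := {decide := true})
      rcases hp r hr hr6 with rfl | rfl <;> rcases hp s hs hs6 with rfl | rfl <;> omega
    · exfalso
      have h1 := (Nat.prime_dvd_prime_iff_eq hr (by norm_num : Nat.Prime 7)).1 ((Dvd.intro s rfl).trans h)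
      have h2 := (Nat.prime_dvd_prime_iff_eq hs (by norm_num : Nat.Prime 7)).1 ((Dvd.intro_left r rfl).trans h)
      omega
    · exfalso
      have h1 := (Nat.prime_dvd_prime_iff_eq hr (by norm_num : Nat.Prime 13)).1 ((Dvd.intro s rfl).trans h)
      have h2 := (Nat.prime_dvd_prime_iff_eq hs (by norm_num : Nat.Prime 13)).1 ((Dvd.intro_left r rfl).trans h)
      omega

end Cfsg.Agent.S2518
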