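import Cfsg.Statements.S2519
import Cfsg.Agent.G2Spec.Main

set_option autoImplicit false
open Cfsg

namespace Cfsg.Agent.S2519

/-- Let F be a finite field of odd order q = p^a ≥ 5. The element orders of the Chevalley group G₂(F) that are maximal under divisibility are exactly p(q + 1), p(q − 1), q² − 1, q² + q + 1, q² − q + 1, together with p² when p is 3 or 5. -/
theorem result {F : Type*} [Field F] [Fintype F] (p a : ℕ) (hp : p.Prime) (hp2 : p ≠ 2) (ha : 1 ≤ a) (hF : Fintype.card F = p ^ a) (hq5 : 5 ≤ Fintype.card F) :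
    {n : ℕ | n ∈ Set.range (orderOf : ↥(Cfsg.Lie.chevG2.group F) → ℕ) ∧ ∀ m ∈ Set.range (orderOf : ↥(Cfsg.Lie.chevG2.group F) → ℕ), n ∣ m → m = n} =
      ({p * (p ^ a + 1), p * (p ^ a - 1), p ^ (2 * a) - 1, p ^ (2 * a) + p ^ a + 1, p ^ (2 * a) - p ^ a + 1} : Set ℕ) ∪
        (if p = 3 ∨ p = 5 then ({p ^ 2} : Set ℕ) else ∅) :=
  G2Spec.main p a hp hp2 ha hF hq5

end Cfsg.Agent.S2519
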