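import Cfsg.Statements.S2520
import Cfsg.Agent.H66.G2Two.Orders
-- import your own Cfsg.Agent.* helpers here

set_option autoImplicit false
open Cfsg

namespace Cfsg.Agent.S2520

/-- Let F be a finite field with q = 2^a ≥ 4 elements and G₂(F) the Chevalley group of type G₂ over it. Every element order of G₂(F) maximal under divisibility lies in the set {8, 12, 2(q + 1), 2(q − 1), q² − 1, q² + q + 1, q² − q + 1}, and every member of that set is an element order of G₂(F). -/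
theorem result {F : Type*} [Field F] [Fintype F] (a : ℕ) (ha : 2 ≤ a) (hF : Fintype.card F = 2 ^ a) :
    {n : ℕ | n ∈ Set.range (orderOf : ↥(Cfsg.Lie.chevG2.group F) → ℕ) ∧ ∀ m ∈ Set.range (orderOf : ↥(Cfsg.Lie.chevG2.group F) → ℕ), n ∣ m → m = n} ⊆ ({8, 12, 2 * (2 ^ a + 1), 2 * (2 ^ a - 1), 2 ^ (2 * a) - 1, 2 ^ (2 * a) + 2 ^ a + 1, 2 ^ (2 * a) - 2 ^ a + 1} : Set ℕ) ∧
    ({8, 12, 2 * (2 ^ a + 1), 2 * (2 ^ a - 1), 2 ^ (2 * a) - 1, 2 ^ (2 * a) + 2 ^ a + 1, 2 ^ (2 * a) - 2 ^ a + 1} : Set ℕ) ⊆ Set.range (orderOf : ↥(Cfsg.Lie.chevG2.group F) → ℕ) := by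
  haveI : CharP F 2 := by
    obtain ⟨p, hp⟩ := CharP.exists F
    haveI := hp
    obtain ⟨n, hpp, hn⟩ := FiniteField.card F p
    rw [hF] at hn
    have h2 : 2 = p := (Nat.prime_dvd_prime_iff_eq Nat.prime_two hpp).1
      (Nat.prime_two.dvd_of_dvd_pow (hn ▸ dvd_pow_self 2 (by omega)))
    exact h2.symm ▸ hp
  have hq : 4 ≤ 2 ^ a := le_trans (by norm_num) (Nat.pow_le_pow_right two_pos ha)
  have hset : ({8, 12, 2 * (2 ^ a + 1), 2 * (2 ^ a - 1), 2 ^ (2 * a) - 1, 2 ^ (2 * a) + 2 ^ a + 1, 2 ^ (2 * a) - 2 ^ a + 1} : Set ℕ) = Cfsg.Agent.H66.G2Two.goals (2 ^ a) := by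
    simp only [Cfsg.Agent.H66.G2Two.goals, ← pow_mul, Nat.mul_comm a 2]
  rw [hset]
  have hlow : Cfsg.Agent.H66.G2Two.goals (2 ^ a) ⊆ Set.range (orderOf : ↥(Cfsg.Lie.chevG2.group F) → ℕ) :=
    fun m hm => Cfsg.Agent.H66.G2Two.exists_orderOf_eq hF hq hm
  refine ⟨?_, hlow⟩
  rintro n ⟨⟨x, rfl⟩, hmax⟩
  obtain ⟨m, hm, hdvd⟩ := Cfsg.Agent.H66.G2Two.orderOf_dvd_goals hF hq x
  exact hmax m (hlow hm) hdvd ▸ hm

end Cfsg.Agent.S2520
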