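import Cfsg.Statements.S2524
import Cfsg.Agent.FGS75.Weil.Main
-- import your own Cfsg.Agent.* helpers here

set_option autoImplicit false
open Cfsg

namespace Cfsg.Agent.S2524

open Matrix

theorem isIrr {F : Type*} [Field F] [Fintype F] {k : ℕ} {V : Type*} [AddCommGroup V] [Module ℂ V]
    [FiniteDimensional ℂ V] {ψ : AddChar F ℂ}
    {R : Matrix.symplecticGroup (Fin (k + 2)) F →* Module.End ℂ V}
    (h : Agent.FGS75.Weil.IsWeilPart ψ R) :
    IsIrrCharacter (Matrix.symplecticGroup (Fin (k + 2)) F) (fun g => LinearMap.trace ℂ V (R g)) := by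
  obtain ⟨v, hv, -⟩ := h.base
  let ρ : Representation ℂ (Matrix.symplecticGroup (Fin (k + 2)) F) V := R
  have : ρ.IsIrreducible :=
    (Agent.Char.isIrreducible_iff_forall ρ).2 ⟨nontrivial_of_ne v 0 hv, h.irr⟩
  exact Agent.Char.isIrrCharacter_character ρ

/-- Let F be a finite field of odd order q and G = Sp(2n, F) with n ≥ 2. Then G has exactly four irreducible complex characters of degree (q^n + 1)/2 or (q^n − 1)/2 (two of each), and every other non-principal irreducible character has degree at least (q^n − 1)(q^n − q)/(2(q + 1)). -/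
theorem result {F : Type*} [Field F] [Fintype F] (hodd : Odd (Fintype.card F)) (n : ℕ) (hn : 2 ≤ n) :
    Nat.card {χ : Cfsg.IrrCharacter ↥(Matrix.symplecticGroup (Fin n) F) // (χ : ↥(Matrix.symplecticGroup (Fin n) F) → ℂ) 1 = (((Fintype.card F) ^ n + 1 : ℕ) : ℂ) / 2} = 2 ∧
    Nat.card {χ : Cfsg.IrrCharacter ↥(Matrix.symplecticGroup (Fin n) F) // (χ : ↥(Matrix.symplecticGroup (Fin n) F) → ℂ) 1 = (((Fintype.card F) ^ n - 1 : ℕ) : ℂ) / 2} = 2 ∧
    ∀ χ : Cfsg.IrrCharacter ↥(Matrix.symplecticGroup (Fin n) F),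
      (χ : ↥(Matrix.symplecticGroup (Fin n) F) → ℂ) 1 ≠ 1 →
      (χ : ↥(Matrix.symplecticGroup (Fin n) F) → ℂ) 1 ≠ (((Fintype.card F) ^ n + 1 : ℕ) : ℂ) / 2 →
      (χ : ↥(Matrix.symplecticGroup (Fin n) F) → ℂ) 1 ≠ (((Fintype.card F) ^ n - 1 : ℕ) : ℂ) / 2 →
      (((Fintype.card F) ^ n - 1 : ℕ) : ℝ) * (((Fintype.card F) ^ n - Fintype.card F : ℕ) : ℝ) / (2 * ((Fintype.card F : ℕ) + 1 : ℝ)) ≤ ‖(χ : ↥(Matrix.symplecticGroup (Fin n) F) → ℂ) 1‖ := by
  classical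
  obtain ⟨k, rfl⟩ : ∃ k, n = k + 2 := ⟨n - 2, by omega⟩
  have h2 := Agent.MinDeg.two_ne_zero_of_odd_card hodd
  obtain ⟨ψ, hψ0⟩ := (AddChar.exists_apply_ne_zero (α := F) (a := 1)).2 one_ne_zero
  have hψ : ψ.IsPrimitive := AddChar.IsPrimitive.of_ne_one fun h => hψ0 (by rw [h]; rfl)
  obtain ⟨ν, hν⟩ := FiniteField.exists_nonsquare (F := F) fun h => h2 (by
    have := CharP.cast_eq_zero F (ringChar F)
    rw [h] at this
    exact_mod_cast this)
  have hψν := Agent.FGS75.Weil.isPrimitive_mulShift hψ (fun h : ν = 0 => hν (h ▸ IsSquare.zero))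
  set q := Fintype.card F with hq
  set N := (q ^ (k + 2) - 1) / 2 with hNdef
  have hq1 : 1 < q := Fintype.one_lt_card
  have hq3 : 3 ≤ q := by rcases hodd with ⟨r, hr⟩; omega
  have hN : q ^ (k + 2) = 2 * N + 1 := by
    obtain ⟨r, hr⟩ := hodd.pow (n := k + 2)
    omega
  have hQ : 3 * 3 ≤ q ^ (k + 2) := by
    calc 3 * 3 ≤ q * q := Nat.mul_le_mul hq3 hq3
      _ = q ^ 2 := (sq q).symm
      _ ≤ _ := Nat.pow_le_pow_right (by omega) (by omega)
  have hN2 : 2 ≤ N := by omega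
  obtain ⟨H⟩ := Agent.SpWeil.nonempty_half (F := F) (n := k + 2) h2
  let G := Matrix.symplecticGroup (Fin (k + 2)) F
  have hwo := fun {φ : AddChar F ℂ} (hφ : φ.IsPrimitive) =>
    Agent.FGS75.Weil.wo_isWeilPart hφ h2 H hodd hN hN2
  have hwe := fun {φ : AddChar F ℂ} (hφ : φ.IsPrimitive) =>
    Agent.FGS75.Weil.we_isWeilPart hφ h2 H hodd hN hN2
  let ao : IrrCharacter G := ⟨_, isIrr (hwo hψ)⟩
  let bo : IrrCharacter G := ⟨_, isIrr (hwo hψν)⟩
  let ae : IrrCharacter G := ⟨_, isIrr (hwe hψ)⟩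
  let be : IrrCharacter G := ⟨_, isIrr (hwe hψν)⟩
  have hdo : ∀ {φ : AddChar F ℂ} (hφ : φ.IsPrimitive),
      LinearMap.trace ℂ _ (Agent.FGS75.Weil.wo hφ h2 H 1) = (N : ℂ) := fun hφ => by
    rw [map_one, LinearMap.trace_one, Module.finrank_fin_fun]
  have hde : ∀ {φ : AddChar F ℂ} (hφ : φ.IsPrimitive),
      LinearMap.trace ℂ _ (Agent.FGS75.Weil.we hφ h2 H 1) = ((N + 1 : ℕ) : ℂ) := fun hφ => by
    rw [map_one, LinearMap.trace_one, Module.finrank_pi, Fintype.card_option, Fintype.card_fin]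
  have hno : ao ≠ bo := fun h => Agent.FGS75.Weil.class_sum_ne H hodd hN hN2 hψ hν hψν fun M => by
    have := congrFun (congrArg Subtype.val h) (Agent.MinDeg.siegel M)
    simp only [ao, bo, Agent.FGS75.Weil.trace_wo_siegel] at this
    exact this
  have hne : ae ≠ be := fun h => Agent.FGS75.Weil.class_sum_ne H hodd hN hN2 hψ hν hψν fun M => by
    have := congrFun (congrArg Subtype.val h) (Agent.MinDeg.siegel M)
    simp only [ae, be, Agent.FGS75.Weil.trace_we_siegel, add_right_inj] at this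
    exact this
  have main : ∀ χ : IrrCharacter G, ∃ d : ℕ, (χ : G → ℂ) 1 = (d : ℂ) ∧ (d = 1 ∨
      (q ^ (k + 2) - 1) * (q ^ (k + 2) - q) ≤ d * (2 * (q + 1)) ∨
      (d = N ∧ (χ = ao ∨ χ = bo)) ∨ (d = N + 1 ∧ (χ = ae ∨ χ = be))) := by
    rintro ⟨χ, d, ρ, hρ, rfl⟩
    have hd : ρ.character 1 = (d : ℂ) := by rw [Representation.char_one, Module.finrank_fin_fun]
    obtain ⟨hnt, hirr⟩ := (Agent.Char.isIrreducible_iff_forall ρ).1 hρ
    refine ⟨d, hd, ?_⟩
    rcases Agent.FGS75.Weil.classify H hodd hN hN2 hψ h2 hν hψν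
        (show G →* Module.End ℂ (Fin d → ℂ) from ρ) hirr with h | h | h | h | h | h
    · exact Or.inl (by rwa [Module.finrank_fin_fun] at h)
    · exact Or.inr (Or.inl (by rwa [Module.finrank_fin_fun] at h))
    · have e : ρ.character 1 = (N : ℂ) := (h 1).trans (hdo hψ)
      exact Or.inr (Or.inr (Or.inl ⟨Nat.cast_injective (R := ℂ) (hd.symm.trans e),
        Or.inl (Subtype.ext (funext h))⟩))
    · have e : ρ.character 1 = ((N + 1 : ℕ) : ℂ) := (h 1).trans (hde hψ)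
      exact Or.inr (Or.inr (Or.inr ⟨Nat.cast_injective (R := ℂ) (hd.symm.trans e),
        Or.inl (Subtype.ext (funext h))⟩))
    · have e : ρ.character 1 = (N : ℂ) := (h 1).trans (hdo hψν)
      exact Or.inr (Or.inr (Or.inl ⟨Nat.cast_injective (R := ℂ) (hd.symm.trans e),
        Or.inr (Subtype.ext (funext h))⟩))
    · have e : ρ.character 1 = ((N + 1 : ℕ) : ℂ) := (h 1).trans (hde hψν)
      exact Or.inr (Or.inr (Or.inr ⟨Nat.cast_injective (R := ℂ) (hd.symm.trans e),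
        Or.inr (Subtype.ext (funext h))⟩))
  have hsmall : ∀ d, d ≤ N + 1 →
      ¬ (q ^ (k + 2) - 1) * (q ^ (k + 2) - q) ≤ d * (2 * (q + 1)) := by
    intro d hd h
    have h3 : 3 * q ≤ q ^ (k + 2) := by
      calc 3 * q ≤ q * q := Nat.mul_le_mul_right q hq3
        _ = q ^ 2 := (sq q).symm
        _ ≤ _ := Nat.pow_le_pow_right (by omega) (by omega)
    obtain ⟨r, hr⟩ := Nat.exists_eq_add_of_le (show 1 ≤ q ^ (k + 2) by omega)
    obtain ⟨s, hs⟩ := Nat.exists_eq_add_of_le (show q ≤ q ^ (k + 2) by omega)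
    rw [show q ^ (k + 2) - 1 = r by omega, show q ^ (k + 2) - q = s by omega] at h
    nlinarith [Nat.mul_le_mul_right (2 * (q + 1)) hd]
  have hp1 : (((q ^ (k + 2) + 1 : ℕ)) : ℂ) / 2 = ((N + 1 : ℕ) : ℂ) := by
    rw [hN]; push_cast; ring
  have hm1 : (((q ^ (k + 2) - 1 : ℕ)) : ℂ) / 2 = (N : ℂ) := by
    rw [hN, Nat.add_sub_cancel]; push_cast; ring
  refine ⟨?_, ?_, fun χ h1 hp hm => ?_⟩
  · rw [hp1, Nat.card_eq_two_iff]
    refine ⟨⟨ae, hde hψ⟩, ⟨be, hde hψν⟩, fun h => hne (congrArg Subtype.val h),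
      Set.eq_univ_of_forall fun ⟨χ, hχ⟩ => ?_⟩
    obtain ⟨d, hd, h⟩ := main χ
    have hd' : d = N + 1 := Nat.cast_injective (R := ℂ) (hd.symm.trans hχ)
    rcases h with h | h | ⟨h, -⟩ | ⟨-, rfl | rfl⟩
    · omega
    · exact absurd h (hsmall d hd'.le)
    · omega
    · exact Set.mem_insert _ _
    · exact Set.mem_insert_of_mem _ rfl
  · rw [hm1, Nat.card_eq_two_iff]
    refine ⟨⟨ao, hdo hψ⟩, ⟨bo, hdo hψν⟩, fun h => hno (congrArg Subtype.val h),
      Set.eq_univ_of_forall fun ⟨χ, hχ⟩ => ?_⟩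
    obtain ⟨d, hd, h⟩ := main χ
    have hd' : d = N := Nat.cast_injective (R := ℂ) (hd.symm.trans hχ)
    rcases h with h | h | ⟨-, rfl | rfl⟩ | ⟨h, -⟩
    · omega
    · exact absurd h (hsmall d (by omega))
    · exact Set.mem_insert _ _
    · exact Set.mem_insert_of_mem _ rfl
    · omega
  · obtain ⟨d, hd, h⟩ := main χ
    rw [hd] at h1 hp hm ⊢
    rcases h with rfl | h | ⟨rfl, -⟩ | ⟨rfl, -⟩
    · exact absurd Nat.cast_one h1
    · rw [Complex.norm_natCast, div_le_iff₀ (by positivity)]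
      calc (((q ^ (k + 2) - 1 : ℕ)) : ℝ) * ((q ^ (k + 2) - q : ℕ) : ℝ)
          = (((q ^ (k + 2) - 1) * (q ^ (k + 2) - q) : ℕ) : ℝ) := (Nat.cast_mul _ _).symm
        _ ≤ ((d * (2 * (q + 1)) : ℕ) : ℝ) := Nat.cast_le.2 h
        _ = _ := by push_cast; ring
    · exact absurd hm1.symm hm
    · exact absurd hp1.symm hp

end Cfsg.Agent.S2524
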