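import Cfsg.Statements.S2525
import Cfsg.Agent.CycTori.FFourGraph

set_option autoImplicit false
open Cfsg

namespace Cfsg.Agent.S2525

/-- Let F be a finite field with q = 2^n elements and G = F₄(F). For an odd prime r let e(r, q) be the multiplicative order of q modulo r. Two distinct primes r, s dividing the order of G are non-adjacent in the prime graph of G (no element of order rs) if and only if, up to swapping r and s, either r = 2 and e(s, q) ∈ {8, 12}, or r, s are both odd with k = e(r, q) < l = e(s, q) and one of: l ∈ {8, 12}; l = 6 and k ∈ {3, 4}; l = 4 and k = 3. -/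
theorem result {F : Type*} [Field F] [Fintype F] (n : ℕ) (hn : 1 ≤ n) (hF : Fintype.card F = 2 ^ n)
    (r s : ℕ) (hr : r.Prime) (hs : s.Prime) (hrs : r ≠ s) (hrG : r ∣ Nat.card ↥(Cfsg.Lie.chevF4.group F)) (hsG : s ∣ Nat.card ↥(Cfsg.Lie.chevF4.group F)) :
    (¬ ∃ x : ↥(Cfsg.Lie.chevF4.group F), orderOf x = r * s) ↔
      ((r = 2 ∧ orderOf ((Fintype.card F : ℕ) : ZMod s) ∈ ({8, 12} : Finset ℕ)) ∨ (s = 2 ∧ orderOf ((Fintype.card F : ℕ) : ZMod r) ∈ ({8, 12} : Finset ℕ)) ∨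
       (r ≠ 2 ∧ s ≠ 2 ∧
         ((orderOf ((Fintype.card F : ℕ) : ZMod r) < orderOf ((Fintype.card F : ℕ) : ZMod s) ∧ (orderOf ((Fintype.card F : ℕ) : ZMod s) ∈ ({8, 12} : Finset ℕ) ∨ (orderOf ((Fintype.card F : ℕ) : ZMod s) = 6 ∧ orderOf ((Fintype.card F : ℕ) : ZMod r) ∈ ({3, 4} : Finset ℕ)) ∨ (orderOf ((Fintype.card F : ℕ) : ZMod s) = 4 ∧ orderOf ((Fintype.card F : ℕ) : ZMod r) = 3))) ∨
          (orderOf ((Fintype.card F : ℕ) : ZMod s) < orderOf ((Fintype.card F : ℕ) : ZMod r) ∧ (orderOf ((Fintype.card F : ℕ) : ZMod r) ∈ ({8, 12} : Finset ℕ) ∨ (orderOf ((Fintype.card F : ℕ) : ZMod r) = 6 ∧ orderOf ((Fintype.card F : ℕ) : ZMod s) ∈ ({3, 4} : Finset ℕ)) ∨ (orderOf ((Fintype.card F : ℕ) : ZMod r) = 4 ∧ orderOf ((Fintype.card F : ℕ) : ZMod s) = 3)))))) := by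
  classical
  set q := Fintype.card F with hqdef
  have hq2 : 2 ∣ q := hF ▸ dvd_pow_self 2 (by omega)
  haveI : Fact (Nat.Prime 2) := ⟨Nat.prime_two⟩
  haveI : CharP F 2 := charP_of_card_eq_prime_pow hF
  haveI := Fact.mk hr
  haveI := Fact.mk hs
  have hndvd : ∀ {t : ℕ}, t.Prime → t ≠ 2 → ¬ t ∣ q := fun ht h2 hd =>
    h2 ((Nat.prime_dvd_prime_iff_eq ht Nat.prime_two).1 (ht.dvd_of_dvd_pow (hF ▸ hd)))
  have hrange : ∀ {t : ℕ}, t.Prime → t ≠ 2 → t ∣ Nat.card ↥(Cfsg.Lie.chevF4.group F) →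
      orderOf (q : ZMod t) ∈ [1, 2, 3, 4, 6, 8, 12] := by
    intro t ht h2 hd
    haveI := Fact.mk ht
    obtain ⟨c, N, hc, hcard⟩ := LieTori.orderF4 F
    rw [Nat.dvd_one.1 hc, one_mul, Nat.card_eq_fintype_card (α := F), ← hqdef] at hcard
    rw [hcard] at hd
    rcases ht.dvd_mul.1 hd with h | h
    · exact absurd (ht.dvd_of_dvd_pow h) (hndvd ht h2)
    rw [ht.prime.dvd_prod_iff] at h
    obtain ⟨a, ha, hda⟩ := h
    obtain ⟨e, he, rfl⟩ := List.mem_map.1 ha
    have hpow : (q : ZMod t) ^ e = 1 := by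
      have h1 : ((q ^ e : ℕ) : ZMod t) = ((1 : ℕ) : ZMod t) := by
        rw [ZMod.natCast_eq_natCast_iff]
        exact ((Nat.modEq_iff_dvd' (Nat.one_le_pow _ _ Fintype.card_pos)).2 hda).symm
      push_cast at h1
      exact h1
    have hd' := orderOf_dvd_of_pow_eq_one hpow
    have hle : orderOf (q : ZMod t) ≤ e := Nat.le_of_dvd (by fin_cases he <;> norm_num) hd'
    fin_cases he <;> interval_cases orderOf (q : ZMod t) <;> simp_all
  have hz : (q : ZMod 2) = 0 := (ZMod.natCast_eq_zero_iff q 2).2 hq2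
  constructor
  · intro hno
    by_cases hr2 : r = 2
    · subst hr2
      refine Or.inl ⟨rfl, ?_⟩
      have hs2 : s ≠ 2 := Ne.symm hrs
      have h0 := hrange hs hs2 hsG
      by_contra hc
      refine hno (CycTori.F4Graph.exists_two_pair (q := q) rfl hs2 (hndvd hs hs2) rfl ?_)
      simp only [Finset.mem_insert, Finset.mem_singleton] at hc
      simp only [List.mem_cons, List.not_mem_nil, or_false] at h0
      omega
    by_cases hs2 : s = 2
    · subst hs2
      refine Or.inr (Or.inl ⟨rfl, ?_⟩)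
      have h0 := hrange hr hr2 hrG
      by_contra hc
      simp only [Finset.mem_insert, Finset.mem_singleton] at hc
      simp only [List.mem_cons, List.not_mem_nil, or_false] at h0
      obtain ⟨x, hx⟩ := CycTori.F4Graph.exists_two_pair (q := q) (F := F) rfl hr2 (hndvd hr hr2) rfl
        (l := orderOf (q : ZMod r)) (by omega)
      exact hno ⟨x, hx.trans (mul_comm _ _)⟩
    refine Or.inr (Or.inr ⟨hr2, hs2, ?_⟩)
    have h1 := hrange hr hr2 hrG
    have h2 := hrange hs hs2 hsG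
    by_contra hc
    refine hno (CycTori.F4Graph.exists_odd_pair (q := q) rfl hrs (hndvd hr hr2) (hndvd hs hs2) rfl rfl ?_)
    simp only [Finset.mem_insert, Finset.mem_singleton] at hc
    simp only [List.mem_cons, List.not_mem_nil, or_false] at h1 h2
    omega
  · simp only [Finset.mem_insert, Finset.mem_singleton]
    rintro (⟨rfl, h⟩ | ⟨rfl, h⟩ | ⟨hr2, hs2, h⟩) ⟨x, hx⟩
    · exact CycTori.F4Graph.no_pair_large (q := q) rfl hq2 hrs h (Or.inl rfl) ⟨x, hx⟩
    · exact CycTori.F4Graph.no_pair_large (q := q) rfl hq2 (Ne.symm hrs) h (Or.inl rfl) ⟨x, hx.trans (mul_comm _ _)⟩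
    rcases h with ⟨hlt, h | h | h⟩ | ⟨hlt, h | h | h⟩
    · exact CycTori.F4Graph.no_pair_large (q := q) rfl hq2 hrs h (Or.inr ⟨hr2, hlt.ne⟩) ⟨x, hx⟩
    · exact CycTori.F4Graph.no_pair_small (q := q) rfl hr2 hs2 rfl rfl (by omega) ⟨x, hx⟩
    · exact CycTori.F4Graph.no_pair_small (q := q) rfl hr2 hs2 rfl rfl (by omega) ⟨x, hx⟩
    · exact CycTori.F4Graph.no_pair_large (q := q) rfl hq2 (Ne.symm hrs) h (Or.inr ⟨hs2, hlt.ne⟩)
        ⟨x, hx.trans (mul_comm _ _)⟩
    · exact CycTori.F4Graph.no_pair_small (q := q) rfl hs2 hr2 rfl rfl (by omega) ⟨x, hx.trans (mul_comm _ _)⟩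
    · exact CycTori.F4Graph.no_pair_small (q := q) rfl hs2 hr2 rfl rfl (by omega) ⟨x, hx.trans (mul_comm _ _)⟩

end Cfsg.Agent.S2525
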