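import Cfsg.Statements.S2553
import Cfsg.Agent.TwoAut.SubEightMain

set_option autoImplicit false
open Cfsg

namespace Cfsg.Agent.S2553

/-- Let H be a nontrivial subgroup of GL(4,2) (a group isomorphic to the alternating group of degree 8) whose largest normal 2-subgroup and largest normal subgroup of odd order are both trivial. Then H is isomorphic to an alternating group of degree n for some 5 ≤ n ≤ 8, to the symmetric group of degree 5 or 6, or to GL(3,2). -/
theorem result (H : Subgroup (GL (Fin 4) (ZMod 2))) (hH : H ≠ ⊥) (hO : Cfsg.pPrimeCore 2 ↥H = ⊥) (hO2 : Cfsg.pCore 2 ↥H = ⊥) :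
    (∃ n : ℕ, 5 ≤ n ∧ n ≤ 8 ∧ Nonempty (↥H ≃* alternatingGroup (Fin n))) ∨
    Nonempty (↥H ≃* Equiv.Perm (Fin 5)) ∨ Nonempty (↥H ≃* Equiv.Perm (Fin 6)) ∨ Nonempty (↥H ≃* GL (Fin 3) (ZMod 2)) := by
  haveI : Nontrivial ↥H := (Subgroup.nontrivial_iff_ne_bot H).2 hH
  obtain ⟨f, hf⟩ := Cfsg.Agent.TwoAut.SubEight.exists_gl_four_embed
  have hns := Cfsg.Agent.TwoAut.SubEight.not_solvable_of_cores hO hO2
  rcases Cfsg.Agent.TwoAut.SubEight.classify (f.comp H.subtype) (hf.comp Subtype.val_injective)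
      hns hO2 with h | h | h | h | h | h | ⟨hs, hc⟩ | ⟨h3, -⟩
  · exact Or.inl ⟨5, le_rfl, by norm_num, h⟩
  · exact Or.inr (Or.inl h)
  · exact Or.inl ⟨6, by norm_num, by norm_num, h⟩
  · exact Or.inr (Or.inr (Or.inl h))
  · exact Or.inl ⟨7, by norm_num, by norm_num, h⟩
  · exact Or.inl ⟨8, by norm_num, le_rfl, h⟩
  · exact Or.inr (Or.inr (Or.inr (Cfsg.Agent.TwoAut.SubEight.simple_equiv_gl hs hc)))
  · exfalso
    have hle := Cfsg.Agent.PSolv.le_pPrimeCore (p := 2) (Cfsg.pCore_normal 3 ↥H) (by rw [h3]; decide)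
    rw [hO, le_bot_iff] at hle
    rw [hle, Subgroup.card_bot] at h3
    omega

end Cfsg.Agent.S2553
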