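import Cfsg.Statements.S2556
import Cfsg.Agent.TwoAut.SuzukiSylowAut
import Cfsg.Agent.Suzuki.LieModel

set_option autoImplicit false
open Cfsg

namespace Cfsg.Agent.S2556

/-- Let S be a Sylow 2-subgroup of the Suzuki group Sz(q), q = 2ⁿ with n = 2m + 1 ≥ 3 (realised as 4 × 4 matrices over the field with q elements). Then the largest normal 2-subgroup of the automorphism group of S is elementary abelian of order 2^(n²), and the automorphism group of S has order 2^(n²) · n · (q − 1). -/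
theorem result {S : Type*} [Group S] [Finite S] (m : ℕ) (hm : 1 ≤ m)
    {F : Type*} [Field F] [Fintype F] (hF : Fintype.card F = 2 ^ (2 * m + 1))
    (P : Sylow 2 ↥(Cfsg.Lie.Sz F (2 ^ (m + 1)))) (hS : Nonempty (S ≃* ↥(P : Subgroup ↥(Cfsg.Lie.Sz F (2 ^ (m + 1)))))) :
    Cfsg.IsElementaryAbelian 2 (Cfsg.pCore 2 (MulAut S)) ∧ Nat.card ↥(Cfsg.pCore 2 (MulAut S)) = 2 ^ ((2 * m + 1) ^ 2) ∧
      Nat.card (MulAut S) = 2 ^ ((2 * m + 1) ^ 2) * ((2 * m + 1) * (2 ^ (2 * m + 1) - 1)) := by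
  haveI : Fact (Nat.Prime 2) := ⟨Nat.prime_two⟩
  haveI : Cfsg.Agent.Suzuki.SuzukiField F m := ⟨hm, hF⟩
  obtain ⟨f⟩ := hS
  let e := Cfsg.Agent.Suzuki.szEquivLie (F := F) (m := m)
  let Q : Sylow 2 ↥(Cfsg.Lie.Sz F (2 ^ (m + 1))) :=
    (Cfsg.Agent.Suzuki.unipSylow F m).mapSurjective (f := e.toMonoidHom) e.surjective
  let g : ↥(P : Subgroup ↥(Cfsg.Lie.Sz F (2 ^ (m + 1)))) ≃* ↥(Cfsg.Agent.Suzuki.unip F m) :=
    (Sylow.equiv P Q).trans ((Subgroup.equivMapOfInjective (Cfsg.Agent.Suzuki.unip F m)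
      e.toMonoidHom e.injective).symm)
  let c := (Cfsg.Agent.TwoAut.SzSylow.unipCoords (F := F) (m := m)).congr (f.trans g)
  have hk := Cfsg.Agent.TwoAut.SzSylow.card_theta_ker c
  rw [Cfsg.Agent.TwoAut.SzSylow.pCore_eq_ker c]
  refine ⟨Cfsg.Agent.TwoAut.SzSylow.theta_ker_elementary c, hk, ?_⟩
  have h := (Cfsg.Agent.TwoAut.SzSylow.theta c).ker.card_mul_index
  rw [Subgroup.index_ker, hk, Cfsg.Agent.TwoAut.SzSylow.card_theta_range c,
    Cfsg.Agent.TwoAut.SzSylow.card_ringEquiv (F := F) (m := m)] at h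
  rw [← h, mul_comm (2 ^ (2 * m + 1) - 1)]

end Cfsg.Agent.S2556
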