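import Cfsg.Statements.S2558
import Cfsg.Agent.OClassCount.Concrete

set_option autoImplicit false
open Cfsg

namespace Cfsg.Agent.S2558

/-- The number of conjugacy classes of the full orthogonal groups O⁺(2n,q) and O⁻(2n,q), q odd, 2n ≥ 4: for F a finite field of odd order q and n ≥ 2, the number k of conjugacy classes of the isometry group of the hyperbolic quadratic form Σ xᵢyᵢ on F^{2n}, and likewise of the elliptic form Σ xᵢyᵢ + (z₁² + a z₁z₂ + b z₂²) with anisotropic binary part, satisfies q^n/2 ≤ k ≤ 9.5·q^n. -/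
theorem result {F : Type*} [Field F] [Fintype F] (hodd : Odd (Fintype.card F)) (n : ℕ) (hn : 2 ≤ n) (a b : F) (hab : ∀ z₁ z₂ : F, z₁ ^ 2 + a * z₁ * z₂ + b * z₂ ^ 2 = 0 → z₁ = 0 ∧ z₂ = 0) :
    (Fintype.card F ^ n ≤ 2 * Nat.card (ConjClasses ↥(Cfsg.isometryGroup F (Cfsg.quadFormPlus n F))) ∧
      2 * Nat.card (ConjClasses ↥(Cfsg.isometryGroup F (Cfsg.quadFormPlus n F))) ≤ 19 * Fintype.card F ^ n) ∧
    (Fintype.card F ^ n ≤ 2 * Nat.card (ConjClasses ↥(Cfsg.isometryGroup F (Cfsg.quadFormMinus (n - 1) F a b))) ∧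
      2 * Nat.card (ConjClasses ↥(Cfsg.isometryGroup F (Cfsg.quadFormMinus (n - 1) F a b))) ≤ 19 * Fintype.card F ^ n) := by
  have h2 : (2 : F) ≠ 0 := Ring.two_ne_zero fun h => by
    have := FiniteField.even_card_of_char_two h
    rw [Nat.odd_iff] at hodd
    omega
  exact ⟨OClassCount.class_bounds_even hodd _ (Classical.plusQF n F) (fun v => Classical.plusQF_apply n v)
      (OClassCount.bNondeg_plus n) hn (by rw [Fintype.card_sum, Fintype.card_fin, two_mul]),
    OClassCount.class_bounds_even hodd _ (Classical.minusQF (n - 1) a b) (fun v => Classical.minusQF_apply _ a b v)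
      (OClassCount.bNondeg_minus h2 _ hab) hn (by simp only [Fintype.card_sum, Fintype.card_fin]; omega)⟩

end Cfsg.Agent.S2558
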