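import Cfsg.Statements.S2560
import Cfsg.Agent.OClassCount.Concrete

set_option autoImplicit false
open Cfsg

namespace Cfsg.Agent.S2560

/-- The number of conjugacy classes of Ω(2n+1,q), q odd, n ≥ 2: for F a finite field of odd order q, the number k of conjugacy classes of the commutator subgroup of the isometry group of the quadratic form x₀² + Σ xᵢyᵢ on F^{2n+1} satisfies q^n/2 ≤ k ≤ 7.3·q^n. -/
theorem result {F : Type*} [Field F] [Fintype F] (hodd : Odd (Fintype.card F)) (n : ℕ) (hn : 2 ≤ n) :
    Fintype.card F ^ n ≤ 2 * Nat.card (ConjClasses ↥(Cfsg.Omega F (Cfsg.quadFormOdd n F))) ∧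
      10 * Nat.card (ConjClasses ↥(Cfsg.Omega F (Cfsg.quadFormOdd n F))) ≤ 73 * Fintype.card F ^ n := by
  have h2 : (2 : F) ≠ 0 := Ring.two_ne_zero fun h => by
    have := FiniteField.even_card_of_char_two h
    rw [Nat.odd_iff] at hodd
    omega
  exact OClassCount.omega_bounds_odd hodd _ (Classical.oddQF n F) (fun v => Classical.oddQF_apply n v)
    (OClassCount.bNondeg_odd h2 n) hn (by simp only [Fintype.card_sum, Fintype.card_fin, Fintype.card_unit]; omega)

end Cfsg.Agent.S2560
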