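import Cfsg.Statements.S2896
import Cfsg.Agent.LAE60.CharP
import Cfsg.Agent.Components.FStar
-- import your own Cfsg.Agent.* helpers here

set_option autoImplicit false
open Cfsg
set_option linter.unusedVariables false
open Subgroup Cfsg.Agent.LAE60 Cfsg.Agent.Fusion

namespace Cfsg.Agent.S2896

/-- Let p be a prime dividing the order of the finite group G, S a Sylow p-subgroup of G and X a subgroup of S. (i) If some nontrivial element z of the centre of X has F*(C_G(z)) = O_p(C_G(z)), then F*(N_G(X)) = O_p(N_G(X)). (ii) G has parabolic characteristic p if and only if F*(C_G(z)) = O_p(C_G(z)) for every nontrivial z ∈ Ω₁(Z(S)). (iii) If F*(C_G(z)) = O_p(C_G(z)) for every element z of S of order p, then G has local characteristic p. -/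
theorem result {G : Type*} [Group G] [Finite G] {p : ℕ} [Fact p.Prime] (hdiv : p ∣ Nat.card G) (S : Sylow p G) (X : Subgroup G) (hX : X ≤ (S : Subgroup G)) : (∀ z : G, z ≠ 1 → z ∈ X → (∀ x ∈ X, x * z = z * x) → Cfsg.generalizedFittingSubgroup ↥(Subgroup.centralizer ({z} : Set G)) = Cfsg.pCore p ↥(Subgroup.centralizer ({z} : Set G)) → Cfsg.generalizedFittingSubgroup ↥(Subgroup.normalizer (X : Set G)) = Cfsg.pCore p ↥(Subgroup.normalizer (X : Set G))) ∧ (Cfsg.IsOfParabolicCharacteristic p G ↔ ∀ z : G, z ≠ 1 → z ∈ Cfsg.omegaOne p ((S : Subgroup G) ⊓ Subgroup.centralizer ((S : Subgroup G) : Set G)) → Cfsg.generalizedFittingSubgroup ↥(Subgroup.centralizer ({z} : Set G)) = Cfsg.pCore p ↥(Subgroup.centralizer ({z} : Set G))) ∧ ((∀ z : G, z ∈ (S : Subgroup G) → orderOf z = p → Cfsg.generalizedFittingSubgroup ↥(Subgroup.centralizer ({z} : Set G)) = Cfsg.pCore p ↥(Subgroup.centralizer ({z} : Set G))) → Cfsg.IsOfLocalCharacteristic p G) := by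
  have hXp : IsPGroup p X := S.2.to_le hX
  have hom : ∀ z : G, z ∈ Cfsg.omegaOne p ((S : Subgroup G) ⊓ centralizer ((S : Subgroup G) : Set G)) →
      z ∈ (S : Subgroup G) ∧ ∀ s ∈ (S : Subgroup G), s * z = z * s := by
    intro z hz
    have hle : Cfsg.omegaOne p ((S : Subgroup G) ⊓ centralizer ((S : Subgroup G) : Set G)) ≤
        (S : Subgroup G) ⊓ centralizer ((S : Subgroup G) : Set G) :=
      (closure_le _).2 fun x hx => hx.1
    exact ⟨(hle hz).1, (hle hz).2⟩
  refine ⟨fun z hz1 hzX hzc hz => ?_, ⟨fun hG z hz1 hz => ?_, fun h => ?_⟩, fun h => ⟨hdiv, fun T hT hT1 => ?_⟩⟩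
  · rw [Components.genFitting_eq_pCore_iff, charP_core_iff] at hz ⊢
    have := charP_normalizer_of_centralizer (A := ⊤) hXp le_top hzX hzc (by rw [top_inf_eq]; exact hz)
    rwa [top_inf_eq] at this
  · rw [Components.genFitting_eq_pCore_iff, charP_core_iff]
    exact charP_centralizer_of_parabolic hG S (hom z hz).1 hz1 (hom z hz).2
  · refine isOfParabolicCharacteristic_of_centralizer S fun z hzS hzp hzc => ?_
    rw [← charP_core_iff, ← Components.genFitting_eq_pCore_iff]
    refine h z ?_ (subset_closure ⟨⟨hzS, fun s hs => hzc s hs⟩, hzp ▸ pow_orderOf_eq_one z⟩)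
    rintro rfl
    rw [orderOf_one] at hzp
    exact (Fact.out : p.Prime).ne_one hzp.symm
  · obtain ⟨u, huT, hup, huc⟩ := exists_central_orderOf_eq hT hT1
    obtain ⟨S', hS'⟩ := hT.exists_le_sylow
    obtain ⟨g, hg⟩ := exists_cj_sylow S' S
    have hgu : g * u * g⁻¹ ∈ (S : Subgroup G) := hg ▸ conj_mem_cj.2 (hS' huT)
    have hK := h _ hgu (by rw [show g * u * g⁻¹ = MulAut.conj g u by simp, MulEquiv.orderOf_eq, hup])
    rw [Components.genFitting_eq_pCore_iff, charP_core_iff] at hK
    have hK' := charP_cj g⁻¹ _ hK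
    have hcj : cj g⁻¹ (centralizer ({g * u * g⁻¹} : Set G)) = centralizer ({u} : Set G) := by
      ext x
      rw [mem_cj_inv, mem_centralizer_singleton_iff, mem_centralizer_singleton_iff]
      constructor
      · intro e
        have := congrArg (fun z => g⁻¹ * z * g) e
        simpa [mul_assoc] using this
      · intro e
        have := congrArg (fun z => g * z * g⁻¹) e
        simpa [mul_assoc] using this
    rw [hcj] at hK'
    rw [charP_core_iff]
    have := charP_normalizer_of_centralizer (A := ⊤) hT le_top huT huc (by rw [top_inf_eq]; exact hK')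
    rwa [top_inf_eq] at this

end Cfsg.Agent.S2896
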