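import Cfsg.Statements.S2897
import Cfsg.Agent.LAE60.CharP
-- import your own Cfsg.Agent.* helpers here

set_option autoImplicit false
open Cfsg
set_option linter.unusedVariables false
open Subgroup Cfsg.Agent.LAE60 Cfsg.Agent.Fusion

namespace Cfsg.Agent.S2897

/-- Let p be a prime dividing the order of the finite group G, suppose G has parabolic characteristic p, let S be a Sylow p-subgroup of G and G₁ a normal subgroup of G. If Ω₁(Z(S ∩ G₁)) is nontrivial and contained in Ω₁(Z(S)), then G₁ has parabolic characteristic p. -/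
theorem result {G : Type*} [Group G] [Finite G] {p : ℕ} [Fact p.Prime] (hdiv : p ∣ Nat.card G) (hG : Cfsg.IsOfParabolicCharacteristic p G) (S : Sylow p G) (G₁ : Subgroup G) [G₁.Normal] (hne : Cfsg.omegaOne p (((S : Subgroup G) ⊓ G₁) ⊓ Subgroup.centralizer (((S : Subgroup G) ⊓ G₁ : Subgroup G) : Set G)) ≠ ⊥) (hle : Cfsg.omegaOne p (((S : Subgroup G) ⊓ G₁) ⊓ Subgroup.centralizer (((S : Subgroup G) ⊓ G₁ : Subgroup G) : Set G)) ≤ Cfsg.omegaOne p ((S : Subgroup G) ⊓ Subgroup.centralizer ((S : Subgroup G) : Set G))) : Cfsg.IsOfParabolicCharacteristic p ↥G₁ := by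
  intro R hR hR1 ⟨T, hT⟩
  rw [charP_core_iff]
  set f := G₁.subtype
  set R' := R.map f
  set T' := (T : Subgroup ↥G₁).map f
  have hmap : (normalizer (R : Set ↥G₁)).map f = G₁ ⊓ normalizer (R' : Set G) := by
    ext x
    constructor
    · rintro ⟨y, hy, rfl⟩
      refine ⟨y.2, mem_normalizer_iff.2 fun z => ⟨?_, ?_⟩⟩
      · rintro ⟨w, hw, rfl⟩
        exact ⟨y * w * y⁻¹, (mem_normalizer_iff.1 hy w).1 hw, by simp [f]⟩
      · rintro ⟨w, hw, e⟩
        refine ⟨y⁻¹ * w * y, ?_, ?_⟩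
        · have := (mem_normalizer_iff.1 (inv_mem hy) w).1 hw
          simpa using this
        · simp only [f, map_mul, map_inv] at e ⊢
          rw [e]; group
    · rintro ⟨hx, hxn⟩
      refine ⟨⟨x, hx⟩, mem_normalizer_iff.2 fun z => ?_, rfl⟩
      have := mem_normalizer_iff.1 hxn (f z)
      rw [mem_map_iff_mem G₁.subtype_injective] at this
      rw [this]
      exact mem_map_iff_mem (K := R) (x := (⟨x, hx⟩ : ↥G₁) * z * (⟨x, hx⟩ : ↥G₁)⁻¹) G₁.subtype_injective
  rw [← charP_map f G₁.subtype_injective, hmap]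
  have hR' : IsPGroup p R' := hR.map f
  have hT' : T' ≤ normalizer (R' : Set G) := fun x hx =>
    ((hmap ▸ map_mono hT) hx : x ∈ G₁ ⊓ normalizer (R' : Set G)).2
  have hT'p : IsPGroup p T' := T.2.map f
  have hRT : R' ≤ T' := map_mono (le_sup_right.trans (T.3 (isPGroup_sup T.2 hR hT) le_sup_left).le)
  obtain ⟨u₀, hu₀, hu₀R, hu₀T⟩ : ∃ u : G, u ≠ 1 ∧ u ∈ R' ∧ u ∈ centralizer (T' : Set G) := by
    haveI : (R'.subgroupOf T').Normal := (normal_subgroupOf_iff_le_normalizer hRT).2 hT'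
    have hne' : R'.subgroupOf T' ≠ ⊥ := by
      rw [Ne, subgroupOf_eq_bot, disjoint_iff, inf_eq_left.2 hRT,
        map_eq_bot_iff_of_injective _ G₁.subtype_injective]
      exact hR1
    obtain ⟨⟨x, hx⟩, hx1⟩ := (ne_bot_iff_exists_ne_one).1 (PGroup.inf_center_ne_bot hT'p _ hne')
    exact ⟨x, fun e => hx1 (Subtype.ext (Subtype.ext e)), hx.1,
      fun q hq => congrArg Subtype.val (mem_center_iff.1 hx.2 ⟨q, hq⟩)⟩
  have hne2 : R' ⊓ centralizer (T' : Set G) ≠ ⊥ := fun e =>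
    hu₀ (Subgroup.mem_bot.1 (e ▸ (⟨hu₀R, hu₀T⟩ : u₀ ∈ R' ⊓ centralizer (T' : Set G))))
  obtain ⟨u, hu, hup⟩ := exists_orderOf_eq_of_ne_bot hR'.to_inf_left hne2
  set S₁ := (S : Subgroup G) ⊓ G₁
  have hS1 : ¬ p ∣ S₁.relIndex G₁ := by
    obtain ⟨P, -, hP⟩ := exists_sylow_inf_relIndex (IsPGroup.of_bot (p := p) (G := G)) (bot_le : ⊥ ≤ G₁)
    obtain ⟨g, hg⟩ := exists_cj_sylow P S
    have e : S₁.relIndex G₁ = ((P : Subgroup G) ⊓ G₁).relIndex G₁ := by
      rw [← relIndex_map_map_of_injective (f := (MulAut.conj g).toMonoidHom) ((P : Subgroup G) ⊓ G₁) G₁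
        (MulAut.conj g).injective]
      change S₁.relIndex G₁ = (cj g ((P : Subgroup G) ⊓ G₁)).relIndex (cj g G₁)
      rw [cj_inf, hg, cj_eq_of_normal]
    rwa [e]
  have hT'i : ¬ p ∣ T'.relIndex G₁ := by
    rw [relIndex, show T'.subgroupOf G₁ = (T : Subgroup ↥G₁) from
      comap_map_eq_self_of_injective G₁.subtype_injective _]
    exact T.not_dvd_index
  obtain ⟨g, hgG, hg⟩ := exists_conj_of_relIndex hT'p S.2.to_inf_left (map_subtype_le _) inf_le_right
    hT'i hS1
  have hgu : g * u * g⁻¹ ∈ S₁ := hg.le (conj_mem_cj.2 (hRT hu.1))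
  have hgc : g * u * g⁻¹ ∈ centralizer (S₁ : Set G) := by
    intro s hs
    obtain ⟨t, ht, rfl⟩ := (hg.ge hs : s ∈ cj g T')
    change g * t * g⁻¹ * (g * u * g⁻¹) = g * u * g⁻¹ * (g * t * g⁻¹)
    calc g * t * g⁻¹ * (g * u * g⁻¹) = g * (t * u) * g⁻¹ := by group
      _ = g * (u * t) * g⁻¹ := by rw [hu.2 t ht]
      _ = _ := by group
  have hzp : orderOf (g * u * g⁻¹) = p := by
    rw [show g * u * g⁻¹ = MulAut.conj g u by simp, MulEquiv.orderOf_eq, hup]
  have hz := hle (subset_closure ⟨⟨hgu, hgc⟩, hzp ▸ pow_orderOf_eq_one _⟩)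
  have hle2 : Cfsg.omegaOne p ((S : Subgroup G) ⊓ centralizer ((S : Subgroup G) : Set G)) ≤
      (S : Subgroup G) ⊓ centralizer ((S : Subgroup G) : Set G) :=
    (closure_le _).2 fun x hx => hx.1
  have hK := charP_centralizer_of_parabolic hG S (hle2 hz).1 (fun e => by
    rw [e, orderOf_one] at hzp; exact (Fact.out : p.Prime).ne_one hzp.symm) (hle2 hz).2
  have hK' := charP_cj g⁻¹ _ hK
  have hcj : cj g⁻¹ (centralizer ({g * u * g⁻¹} : Set G)) = centralizer ({u} : Set G) := by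
    ext x
    rw [mem_cj_inv, mem_centralizer_singleton_iff, mem_centralizer_singleton_iff]
    constructor
    · intro e
      have := congrArg (fun z => g⁻¹ * z * g) e
      simpa [mul_assoc] using this
    · intro e
      have := congrArg (fun z => g * z * g⁻¹) e
      simpa [mul_assoc] using this
  rw [hcj] at hK'
  refine charP_normalizer_of_centralizer hR' (map_subtype_le _) hu.1 (fun x hx => hu.2 x (hRT hx)) ?_
  refine charP_of_normal inf_le_right ?_ hK'
  exact le_normalizer_inf (by rw [normalizer_eq_top]; exact le_top) Subgroup.le_normalizer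

end Cfsg.Agent.S2897
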