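import Cfsg.Statements.S2898
import Cfsg.Agent.LAE60.CharP
import Cfsg.Agent.Cores.Basic
-- import your own Cfsg.Agent.* helpers here

set_option autoImplicit false
open Cfsg
set_option linter.unusedVariables false
open Subgroup Cfsg.Agent.LAE60 Cfsg.Agent.Fusion
open scoped commutatorElement

namespace Cfsg.Agent.S2898

/-- Let G be a finite group of even order with parabolic characteristic 2. If the centre of G ⧸ O(G) is trivial, then O(G) = 1. -/
theorem result {G : Type*} [Group G] [Finite G] (h2 : 2 ∣ Nat.card G) (hG : Cfsg.IsOfParabolicCharacteristic 2 G) [hN : (Cfsg.oddCore G).Normal] (hZ : Subgroup.center (G ⧸ Cfsg.oddCore G) = ⊥) : Cfsg.oddCore G = ⊥ := by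
  by_contra hO
  haveI : Fact (Nat.Prime 2) := ⟨Nat.prime_two⟩
  set O := Cfsg.oddCore G
  have hOodd : (Nat.card O).Coprime 2 := Cores.pPrimeCore_coprime
  obtain ⟨S⟩ := (inferInstance : Nonempty (Sylow 2 G))
  have hfpf : ∀ u ∈ (S : Subgroup G), u ≠ 1 → (∀ s ∈ (S : Subgroup G), s * u = u * s) →
      O ⊓ centralizer ({u} : Set G) = ⊥ := by
    intro u hu hu1 huc
    set C := centralizer ({u} : Set G)
    have hK := charP_centralizer_of_parabolic hG S hu hu1 huc
    set W := Cfsg.pCoreOf 2 C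
    set X := O ⊓ C
    have hWX : W ⊓ X = ⊥ := by
      refine eq_bot_iff.2 fun x hx => eq_one_of_coprime_of_mem (pCoreOf_isPGroup C) hx.1 ?_
      exact hOodd.coprime_dvd_left (orderOf_dvd_natCard _ hx.2.1)
    refine eq_bot_iff.2 fun x hx => ?_
    have hxW : x ∈ W := hK ⟨hx.2, fun w hw => ?_⟩
    · have : x ∈ W ⊓ X := ⟨hxW, hx⟩
      rwa [hWX] at this
    have h1 : ⁅x, w⁆ ∈ W ⊓ X := by
      refine ⟨commutator_le_right_of_le_normalizer (le_normalizer_pCoreOf C)
        (commutator_mem_commutator hx.2 hw), ?_⟩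
      refine commutator_le_left_of_le_normalizer ?_ (commutator_mem_commutator hx hw)
      exact le_normalizer_inf (by rw [normalizer_eq_top]; exact le_top)
        ((pCoreOf_le C).trans Subgroup.le_normalizer)
    rw [hWX, mem_bot, commutatorElement_eq_one_iff_mul_comm] at h1
    exact h1.symm
  have hS1 : (S : Subgroup G) ≠ ⊥ := fun e => by
    have := S.dvd_card_of_dvd_card h2
    simp [e] at this
  obtain ⟨z, hzS, hz2, hzc⟩ := exists_central_orderOf_eq S.2 hS1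
  have hz1 : z ≠ 1 := fun e => by rw [e, orderOf_one] at hz2; omega
  have hinv : ∀ d ∈ O, z * d * z⁻¹ = d⁻¹ := by
    intro d hd
    have hmem : ∀ o : O, (o : G)⁻¹ * (z * o * z⁻¹) ∈ O := fun o =>
      mul_mem (inv_mem o.2) (hN.conj_mem _ o.2 z)
    obtain ⟨o, ho⟩ : ∃ o : O, (⟨(o : G)⁻¹ * (z * o * z⁻¹), hmem o⟩ : O) = ⟨d, hd⟩ := by
      refine Finite.surjective_of_injective (f := fun o : O => (⟨(o : G)⁻¹ * (z * o * z⁻¹), hmem o⟩ : O)) ?_ _
      intro a b e
      have e' : (a : G)⁻¹ * (z * a * z⁻¹) = (b : G)⁻¹ * (z * b * z⁻¹) := congrArg Subtype.val e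
      have h1 : (b : G) * (a : G)⁻¹ ∈ O ⊓ centralizer ({z} : Set G) := by
        refine ⟨O.mul_mem b.2 (O.inv_mem a.2), mem_centralizer_singleton_iff.2 ?_⟩
        calc (b : G) * (a : G)⁻¹ * z = b * ((a : G)⁻¹ * (z * a * z⁻¹)) * (z * (a : G)⁻¹) := by group
          _ = b * ((b : G)⁻¹ * (z * b * z⁻¹)) * (z * (a : G)⁻¹) := by rw [e']
          _ = z * ((b : G) * (a : G)⁻¹) := by group
      rw [hfpf z hzS hz1 hzc, mem_bot, mul_inv_eq_one] at h1
      exact Subtype.ext h1.symm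
    have ho' : (o : G)⁻¹ * (z * o * z⁻¹) = d := congrArg Subtype.val ho
    have hzz : z * z = 1 := by rw [← sq, ← hz2, pow_orderOf_eq_one]
    have hzi : z⁻¹ = z := inv_eq_of_mul_eq_one_right hzz
    rw [← ho']
    simp only [mul_inv_rev, inv_inv, hzi, mul_assoc]
    rw [hzz, mul_one]
  set C := centralizer (O : Set G)
  have hCn : C.Normal := by
    refine ⟨fun c hc g d hd => ?_⟩
    have := hc _ (hN.conj_mem d hd g⁻¹)
    calc d * (g * c * g⁻¹) = g * ((g⁻¹ * d * g⁻¹⁻¹) * c) * g⁻¹ := by group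
      _ = g * (c * (g⁻¹ * d * g⁻¹⁻¹)) * g⁻¹ := by rw [this]
      _ = _ := by group
  have hCodd : (Nat.card C).Coprime 2 := by
    rw [Nat.coprime_comm, Nat.Prime.coprime_iff_not_dvd Nat.prime_two]
    intro hd
    set P := C ⊓ (S : Subgroup G)
    have hP1 : P.subgroupOf (S : Subgroup G) ≠ ⊥ := by
      rw [Ne, subgroupOf_eq_bot, disjoint_iff, inf_eq_left.2 inf_le_right]
      intro e
      obtain ⟨c, hc⟩ := exists_prime_orderOf_dvd_card' 2 hd
      obtain ⟨T, hT⟩ := (IsPGroup.of_card (n := 1) (G := zpowers (c : G)) (p := 2)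
        (by rw [Nat.card_zpowers, orderOf_coe, hc, pow_one])).exists_le_sylow
      obtain ⟨g, hg⟩ := exists_cj_sylow T S
      have : g * c * g⁻¹ ∈ P := ⟨hCn.conj_mem _ c.2 g, hg ▸ conj_mem_cj.2 (hT (mem_zpowers _))⟩
      rw [show P = ⊥ from e, mem_bot, conj_eq_one_iff] at this
      rw [← orderOf_coe, this, orderOf_one] at hc
      omega
    haveI : (P.subgroupOf (S : Subgroup G)).Normal :=
      (normal_subgroupOf_iff_le_normalizer inf_le_right).2
        (le_normalizer_inf (by rw [normalizer_eq_top]; exact le_top) Subgroup.le_normalizer)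
    obtain ⟨⟨⟨u, huS⟩, hu⟩, hu1⟩ :=
      (ne_bot_iff_exists_ne_one).1 (PGroup.inf_center_ne_bot S.2 _ hP1)
    have hfix := hfpf u huS (fun e => hu1 (Subtype.ext (Subtype.ext e)))
      (fun s hs => congrArg Subtype.val (mem_center_iff.1 hu.2 ⟨s, hs⟩))
    rw [inf_eq_left.2 (fun o ho => mem_centralizer_singleton_iff.2
      ((show u ∈ P from hu.1).1 o ho))] at hfix
    exact hO hfix
  have hCO : C ≤ O := Cores.le_pPrimeCore hCn hCodd
  have hzO : z ∉ O := fun h => hz1 (eq_one_of_coprime_of_mem S.2 hzS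
    (hOodd.coprime_dvd_left (orderOf_dvd_natCard _ h)))
  refine hzO ?_
  have : QuotientGroup.mk' O z ∈ center (G ⧸ O) := by
    rw [mem_center_iff]
    intro q
    obtain ⟨g, rfl⟩ := QuotientGroup.mk'_surjective O q
    rw [← map_mul, ← map_mul, QuotientGroup.mk'_apply, QuotientGroup.mk'_apply, QuotientGroup.eq]
    refine hCO fun d hd => ?_
    have hfix : g⁻¹ * z⁻¹ * g * z * d * (g⁻¹ * z⁻¹ * g * z)⁻¹ = d := by
      have hzd : z * d * z⁻¹ = d⁻¹ := hinv d hd
      have hd2 : g * d⁻¹ * g⁻¹ ∈ O := hN.conj_mem _ (inv_mem hd) g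
      have h4 : z⁻¹ * (g * d⁻¹ * g⁻¹) * z = (g * d⁻¹ * g⁻¹)⁻¹ := by
        have := hinv _ (inv_mem hd2)
        rw [inv_inv] at this
        calc z⁻¹ * (g * d⁻¹ * g⁻¹) * z = z⁻¹ * (z * (g * d⁻¹ * g⁻¹)⁻¹ * z⁻¹) * z := by rw [this]
          _ = _ := by group
      calc g⁻¹ * z⁻¹ * g * z * d * (g⁻¹ * z⁻¹ * g * z)⁻¹
          = g⁻¹ * (z⁻¹ * (g * (z * d * z⁻¹) * g⁻¹) * z) * g := by group
        _ = g⁻¹ * (g * d⁻¹ * g⁻¹)⁻¹ * g := by rw [hzd, h4]
        _ = d := by group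
    rw [show (g * z)⁻¹ * (z * g) = (g⁻¹ * z⁻¹ * g * z)⁻¹ by group]
    generalize g⁻¹ * z⁻¹ * g * z = w at hfix ⊢
    calc d * w⁻¹ = w⁻¹ * (w * d * w⁻¹) := by group
      _ = w⁻¹ * d := by rw [hfix]
  rw [hZ, mem_bot, QuotientGroup.mk'_apply, QuotientGroup.eq_one_iff] at this
  exact this

end Cfsg.Agent.S2898
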