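import Cfsg.Statements.S2904
import Cfsg.Agent.Arith.Zsigmondy
-- import your own Cfsg.Agent.* helpers here

set_option autoImplicit false
open Cfsg

namespace Cfsg.Agent.S2904

/-- Zsigmondy's Theorem: for natural numbers a > 1 and n > 1 there is a prime dividing aⁿ − 1 that divides aᵏ − 1 for no natural number 0 < k < n, unless a = 2 and n = 6, or n = 2 and a + 1 is a power of two. -/
theorem result (a n : ℕ) (ha : 1 < a) (hn : 1 < n) (h6 : ¬ (a = 2 ∧ n = 6)) (h2 : ¬ (n = 2 ∧ ∃ m : ℕ, a + 1 = 2 ^ m)) : ∃ r : ℕ, r.Prime ∧ r ∣ a ^ n - 1 ∧ ∀ k : ℕ, 0 < k → k < n → ¬ r ∣ a ^ k - 1 := by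
  exact Cfsg.Agent.Arith.exists_primitive_prime_divisor ha hn h6 h2

end Cfsg.Agent.S2904
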