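import Cfsg.Statements.S2907
import Cfsg.Agent.PGroup.Frattini
-- import your own Cfsg.Agent.* helpers here

set_option autoImplicit false
open Cfsg

namespace Cfsg.Agent.S2907

/-- Let X be a finite semi-extraspecial p-group and x an element of X outside the centre. Then the index of C_X(x) in X equals the order of Z(X), and the commutators [x, y], y ∈ X, form exactly the centre Z(X). -/
theorem result {X : Type*} [Group X] [Finite X] {p : ℕ} [Fact p.Prime] (hX : Cfsg.IsSemiExtraspecial p X) (x : X) (hx : x ∉ Subgroup.center X) : (Subgroup.centralizer ({x} : Set X)).index = Nat.card ↥(Subgroup.center X) ∧ {z : X | ∃ y : X, z = x * y * x⁻¹ * y⁻¹} = (Subgroup.center X : Set X) := by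
  obtain ⟨hsp, hsemi⟩ := hX
  have hcen : ∀ a b : X, a * b * a⁻¹ * b⁻¹ ∈ Subgroup.center X := by
    intro a b
    rw [← hsp.2.2, commutator_def]
    exact Subgroup.commutator_mem_commutator (Subgroup.mem_top a) (Subgroup.mem_top b)
  let φ : X →* ↥(Subgroup.center X) :=
    { toFun := fun y => ⟨x * y * x⁻¹ * y⁻¹, hcen x y⟩
      map_one' := Subtype.ext (by simp)
      map_mul' := fun a b => Subtype.ext (by
        have h := Subgroup.mem_center_iff.1 (hcen x b) a
        simp only [Subgroup.coe_mul]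
        calc x * (a * b) * x⁻¹ * (a * b)⁻¹
            = x * a * x⁻¹ * (x * b * x⁻¹ * b⁻¹) * a⁻¹ := by group
          _ = x * a * x⁻¹ * a⁻¹ * (a * (x * b * x⁻¹ * b⁻¹)) * a⁻¹ := by group
          _ = _ := by rw [h]; group) }
  have hker : φ.ker = Subgroup.centralizer ({x} : Set X) := by
    ext y
    rw [MonoidHom.mem_ker, Subgroup.mem_centralizer_singleton_iff, Subtype.ext_iff]
    change x * y * x⁻¹ * y⁻¹ = 1 ↔ _
    rw [mul_inv_eq_one, mul_inv_eq_iff_eq_mul]
    exact eq_comm
  have hrange : φ.range = ⊤ := by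
    by_contra hne
    obtain ⟨J, hJ, hle⟩ := (eq_top_or_exists_le_coatom φ.range).resolve_left hne
    have hY : (J.map (Subgroup.center X).subtype).subgroupOf (Subgroup.center X) = J :=
      Subgroup.comap_map_eq_self_of_injective (Subgroup.center X).subtype_injective J
    obtain ⟨_, hspec, hcard⟩ := hsemi (J.map (Subgroup.center X).subtype)
      (Subgroup.map_subtype_le J) (hY.symm ▸ hJ)
    set Y := J.map (Subgroup.center X).subtype
    set π := QuotientGroup.mk' Y
    have hxc : π x ∈ Subgroup.center (X ⧸ Y) := Subgroup.mem_center_iff.2 fun q => by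
      obtain ⟨y, rfl⟩ := QuotientGroup.mk'_surjective Y q
      rw [← map_mul, ← map_mul, QuotientGroup.mk'_apply, QuotientGroup.mk'_apply, eq_comm,
        QuotientGroup.eq]
      have h1 : (φ y : X) ∈ Y := ⟨φ y, hle ⟨y, rfl⟩, rfl⟩
      have h2 : x * y * x⁻¹ * y⁻¹ ∈ Subgroup.center X := hcen x y
      have h3 := Y.inv_mem h1
      have h4 : (x * y)⁻¹ * (y * x) = (x * y)⁻¹ * (x * y * x⁻¹ * y⁻¹)⁻¹ * (x * y) := by group
      rw [h4, Subgroup.mem_center_iff.1 (inv_mem h2) (x * y)⁻¹, inv_mul_cancel_right]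
      exact h3
    have hZle : (Subgroup.center X).map π ≤ Subgroup.center (X ⧸ Y) := by
      rintro _ ⟨c, hc, rfl⟩
      refine Subgroup.mem_center_iff.2 fun q => ?_
      obtain ⟨y, rfl⟩ := QuotientGroup.mk'_surjective Y q
      rw [← map_mul, ← map_mul, Subgroup.mem_center_iff.1 hc y]
    have heq : (Subgroup.center X).map π = Subgroup.center (X ⧸ Y) := by
      have := Fact.mk (hcard ▸ (Fact.out : p.Prime) : (Nat.card ↥(Subgroup.center (X ⧸ Y))).Prime)
      rcases ((Subgroup.center X).map π).subgroupOf (Subgroup.center (X ⧸ Y))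
        |>.eq_bot_or_eq_top_of_prime_card with h | h
      · exfalso
        rw [Subgroup.subgroupOf_eq_bot, disjoint_of_le_iff_left_eq_bot hZle,
          Subgroup.map_eq_bot_iff, QuotientGroup.ker_mk'] at h
        exact hJ.1 (hY ▸ Subgroup.subgroupOf_eq_top.2 h)
      · exact le_antisymm hZle (Subgroup.subgroupOf_eq_top.1 h)
    rw [← heq] at hxc
    obtain ⟨c, hc, hcx⟩ := hxc
    refine hx ?_
    have h5 : c⁻¹ * x ∈ Subgroup.center X :=
      Subgroup.map_subtype_le J (QuotientGroup.eq.1 hcx)
    simpa using Subgroup.mul_mem _ hc h5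
  refine ⟨?_, ?_⟩
  · rw [← hker, Subgroup.index_ker, hrange, Subgroup.card_top]
  · ext z
    constructor
    · rintro ⟨y, rfl⟩
      exact hcen x y
    · intro hz
      obtain ⟨y, hy⟩ : (⟨z, hz⟩ : ↥(Subgroup.center X)) ∈ φ.range := hrange ▸ Subgroup.mem_top _
      exact ⟨y, (congrArg Subtype.val hy).symm⟩

end Cfsg.Agent.S2907
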