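import Cfsg.Statements.S2908
import Cfsg.Agent.LocalEven.CommutatorContainment
-- import your own Cfsg.Agent.* helpers here

set_option autoImplicit false
open Cfsg

namespace Cfsg.Agent.S2908

/-- Let P be a p-subgroup of a finite group, normalized by a p-subgroup A and by a subgroup B of order prime to p that commutes elementwise with A. If [P, B] ≤ [P, A], then B centralizes P. -/
theorem result {G : Type*} [Group G] [Finite G] {p : ℕ} [Fact p.Prime] (P A B : Subgroup G) (hP : IsPGroup p ↥P) (hA : IsPGroup p ↥A) (hB : ¬ p ∣ Nat.card ↥B) (hnA : A ≤ Subgroup.normalizer (P : Set G)) (hnB : B ≤ Subgroup.normalizer (P : Set G)) (hAB : ⁅A, B⁆ = ⊥) (hcomm : ⁅P, B⁆ ≤ ⁅P, A⁆) : ⁅P, B⁆ = ⊥ := by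
  exact Cfsg.Agent.LocalEven.commutator_eq_bot_of_le_commutator_coprime P A B hP hA hB hnA hnB hAB hcomm

end Cfsg.Agent.S2908
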