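import Cfsg.Statements.S2909
import Cfsg.Agent.LocalEven.CommutatorContainment
import Cfsg.Agent.Coprime.Generation
-- import your own Cfsg.Agent.* helpers here

set_option autoImplicit false
open Cfsg
open scoped commutatorElement

namespace Cfsg.Agent.S2909

/-- Let p be a prime, E a normal p-subgroup of the finite group G, and U a non-cyclic elementary abelian p-subgroup of G such that either C_E(U) = C_E(u) for every nontrivial u ∈ U, or [E, U] = [E, ⟨u⟩] for every nontrivial u ∈ U. If R is a subgroup of order prime to p normalized by U, then [R, U] centralizes E. -/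
theorem result {G : Type*} [Group G] [Finite G] {p : ℕ} [Fact p.Prime] (E : Subgroup G) [E.Normal] (hE : IsPGroup p ↥E) (U : Subgroup G) (hU : Cfsg.IsElementaryAbelian p U) (hnc : ¬ IsCyclic ↥U) (hcond : (∀ u ∈ U, u ≠ 1 → E ⊓ Subgroup.centralizer (U : Set G) = E ⊓ Subgroup.centralizer ({u} : Set G)) ∨ (∀ u ∈ U, u ≠ 1 → ⁅E, U⁆ = ⁅E, Subgroup.zpowers u⁆)) (R : Subgroup G) (hR : ¬ p ∣ Nat.card ↥R) (hRU : U ≤ Subgroup.normalizer (R : Set G)) : ⁅R, U⁆ ≤ Subgroup.centralizer (E : Set G) := by
  have := hU.1
  have hUp : IsPGroup p ↥U := fun g => ⟨1, Subtype.ext (by simpa using hU.2 g g.2)⟩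
  have hcop : (Nat.card ↥U).Coprime (Nat.card ↥R) := by
    obtain ⟨n, hn⟩ := IsPGroup.iff_card.1 hUp
    rw [hn]
    exact ((Fact.out : p.Prime).coprime_iff_not_dvd.2 hR).pow_left n
  have hnE : ∀ Y : Subgroup G, Y ≤ Subgroup.normalizer (E : Set G) := fun Y => by
    rw [Subgroup.normalizer_eq_top]; exact le_top
  have hUc : ∀ a ∈ U, ∀ b ∈ U, Commute a b := fun a ha b hb =>
    congrArg Subtype.val (hU.1.is_comm.comm ⟨a, ha⟩ ⟨b, hb⟩)
  have hkey : ∀ u ∈ U, u ≠ 1 →
      ⁅R ⊓ Subgroup.centralizer ({u} : Set G), U⁆ ≤ Subgroup.centralizer (E : Set G) := by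
    intro u huU hu
    set K : Subgroup G := R ⊓ Subgroup.centralizer ({u} : Set G) with hK
    have hUK : U ≤ Subgroup.normalizer (K : Set G) := by
      intro a ha
      have h1 : a ∈ Subgroup.normalizer (Subgroup.centralizer ({u} : Set G) : Set G) :=
        Subgroup.le_normalizer (Subgroup.mem_centralizer_singleton_iff.2 (hUc a ha u huU))
      exact Subgroup.inf_normalizer_le_normalizer_inf ⟨hRU ha, h1⟩
    set B : Subgroup G := ⁅K, U⁆ with hB
    have hBK : B ≤ K := Cfsg.Agent.Coprime.commutator_le_of_le_normalizer hUK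
    have hKu : K ≤ Subgroup.normalizer (Subgroup.zpowers u : Set G) := by
      rw [← Subgroup.centralizer_closure, ← Subgroup.zpowers_eq_closure] at hK
      exact (hK.le.trans inf_le_right).trans (Cfsg.Agent.Coprime.centralizer_le_normalizer' _)
    have hBp : ¬ p ∣ Nat.card ↥B := fun h =>
      hR (h.trans (Subgroup.card_dvd_of_le (hBK.trans inf_le_left)))
    have hzc : ⁅Subgroup.zpowers u, B⁆ = ⊥ := by
      rw [Subgroup.commutator_eq_bot_iff_le_centralizer, Subgroup.zpowers_le,
        Subgroup.mem_centralizer_iff]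
      exact fun b hb => Subgroup.mem_centralizer_singleton_iff.1 (hBK hb).2
    have hup : IsPGroup p ↥(Subgroup.zpowers u) := hUp.to_le (Subgroup.zpowers_le.2 huU)
    rw [← Subgroup.commutator_eq_bot_iff_le_centralizer, Subgroup.commutator_comm]
    rcases hcond with hc | hc
    · have hnC : K ≤ Subgroup.normalizer
          ((E ⊓ Subgroup.centralizer (U : Set G) : Subgroup G) : Set G) := by
        rw [hc u huU hu]
        exact fun k hk => Subgroup.inf_normalizer_le_normalizer_inf
          ⟨hnE K hk, Subgroup.le_normalizer hk.2⟩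
      have h3 : ⁅B, E ⊓ Subgroup.centralizer (U : Set G)⁆ = ⊥ := by
        refine Subgroup.commutator_commutator_eq_bot_of_rotate ?_ ?_
        · have h : ⁅U, E ⊓ Subgroup.centralizer (U : Set G)⁆ = ⊥ := by
            rw [Subgroup.commutator_comm, Subgroup.commutator_eq_bot_iff_le_centralizer]
            exact inf_le_right
          rw [h, Subgroup.commutator_bot_left]
        · rw [Subgroup.commutator_eq_bot_iff_le_centralizer]
          exact (Cfsg.Agent.Coprime.commutator_le_of_le_normalizer hnC).trans inf_le_right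
      rw [Subgroup.commutator_eq_bot_iff_le_centralizer]
      intro e he
      rw [Subgroup.mem_centralizer_iff]
      intro x hx
      refine (Cfsg.Agent.LocalEven.aXb_lemma hE hup (hnE _) (hnE B hx)
        (fun h => hBp (h.trans ?_)) ?_ ?_ e he).eq
      · exact Subgroup.orderOf_dvd_natCard _ hx
      · intro a ha
        have := Subgroup.commutator_eq_bot_iff_le_centralizer.1 hzc ha
        exact Subgroup.mem_centralizer_iff.1 this x hx
      · intro q hq hqu
        have hq' : q ∈ E ⊓ Subgroup.centralizer (U : Set G) := by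
          rw [hc u huU hu]
          exact ⟨hq, Subgroup.mem_centralizer_singleton_iff.2
            (hqu u (Subgroup.mem_zpowers u)).eq.symm⟩
        rw [Subgroup.commutator_comm, Subgroup.commutator_eq_bot_iff_le_centralizer] at h3
        exact Subgroup.mem_centralizer_iff.1 (h3 hq') x hx
    · refine Cfsg.Agent.LocalEven.commutator_eq_bot_of_le_commutator_coprime E
        (Subgroup.zpowers u) B hE hup hBp (hnE _) (hnE _) hzc ?_
      have hKN : K ≤ Subgroup.normalizer ((⁅E, U⁆ : Subgroup G) : Set G) := by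
        rw [hc u huU hu]
        exact fun k hk => Cfsg.Agent.Coprime.normalizer_inf_le_normalizer_commutator _ _
          ⟨hnE K hk, hKu hk⟩
      rw [← hc u huU hu, Subgroup.commutator_comm E B]
      refine Cfsg.Agent.LocalEven.three_subgroup_le hKN
        (Cfsg.Agent.Coprime.le_normalizer_commutator_right E U)
        (Cfsg.Agent.Coprime.le_normalizer_commutator_left E U) ?_ ?_
      · rw [Subgroup.commutator_comm U E]
        exact Subgroup.commutator_le.2 fun a ha b hb =>
          Cfsg.Agent.LocalEven.commutator_mem_of_mem_normalizer ha (hKN hb)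
      · exact Subgroup.commutator_mono (Cfsg.Agent.Coprime.commutator_le_of_le_normalizer (hnE K)) le_rfl
  have hgen := Cfsg.Agent.Coprime.iSup_centralizer_eq hnc hRU hcop
  rw [Subgroup.commutator_le]
  intro r hr a ha
  rw [← hgen, iSup_subtype'] at hr
  have hCn : (Subgroup.centralizer (E : Set G)).Normal := Subgroup.normal_centralizer
  refine Subgroup.iSup_induction _
    (C := fun r => ⁅r, a⁆ ∈ Subgroup.centralizer (E : Set G)) hr ?_ ?_ ?_
  · exact fun u r hr => hkey u.1 u.2.1 u.2.2 (Subgroup.commutator_mem_commutator hr ha)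
  · simp
  · intro r₁ r₂ h₁ h₂
    have e : ⁅r₁ * r₂, a⁆ = r₁ * ⁅r₂, a⁆ * r₁⁻¹ * ⁅r₁, a⁆ := by
      simp only [commutatorElement_def]; group
    rw [e]
    exact Subgroup.mul_mem _ (hCn.conj_mem _ h₂ r₁) h₁

end Cfsg.Agent.S2909
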