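import Cfsg.Statements.S2910
import Cfsg.Agent.LocEven.CoprimeOmega
import Cfsg.Agent.Transfer.Frobenius
import Cfsg.Agent.Transfer.Residual
import Cfsg.Agent.Components.FStar
-- import your own Cfsg.Agent.* helpers here

set_option autoImplicit false
open Cfsg

namespace Cfsg.Agent.S2910

/-- Let p be an odd prime dividing the order of the finite group G and P a Sylow p-subgroup of G. If Ω₁(P) (generated by the elements of order dividing p) is contained in the centre of G, then G has a normal p-complement. In particular, if G is quasisimple then Ω₁(P) is not central in G. -/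
theorem result {G : Type*} [Group G] [Finite G] {p : ℕ} [Fact p.Prime] (hp : p ≠ 2) (hdiv : p ∣ Nat.card G) (P : Sylow p G) (hZ : Cfsg.omegaOne p (P : Subgroup G) ≤ Subgroup.center G) : Cfsg.HasNormalPComplement p G ∧ ¬ Cfsg.IsQuasisimple G := by
  have hcentral : ∀ x : G, x ^ p = 1 → x ∈ Subgroup.center G := by
    intro x hx
    have hxp : IsPGroup p ↥(Subgroup.zpowers x) := by
      rintro ⟨_, m, rfl⟩
      refine ⟨1, Subtype.ext ?_⟩
      change (x ^ m) ^ (p ^ 1) = 1
      rw [pow_one, ← zpow_natCast, ← zpow_mul, mul_comm, zpow_mul, zpow_natCast, hx, one_zpow]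
    obtain ⟨Q, hQ⟩ := hxp.exists_le_sylow
    obtain ⟨g, hg⟩ := MulAction.exists_smul_eq G Q P
    have h1 : g * x * g⁻¹ ∈ (P : Subgroup G) := by
      rw [← hg]
      exact Subgroup.smul_mem_pointwise_smul _ (MulAut.conj g) _ (hQ (Subgroup.mem_zpowers x))
    have h2 : g * x * g⁻¹ ∈ Subgroup.center G :=
      hZ (Subgroup.subset_closure ⟨h1, by rw [conj_pow, hx, mul_one, mul_inv_cancel]⟩)
    have := (inferInstance : (Subgroup.center G).Normal).conj_mem _ h2 g⁻¹
    simpa [mul_assoc] using this
  have hN : Cfsg.HasNormalPComplement p G := by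
    refine Cfsg.Agent.Transfer.hasNormalPComplement_of_coprime_centralize fun Q hQ _ g hg hcop => ?_
    refine Cfsg.Agent.LocEven.centralizes_of_fix_small hcop Q hQ hg fun u _ hu => ?_
    simp only [Cfsg.Agent.LocEven.smallExp, if_neg hp] at hu
    exact Subgroup.mem_center_iff.1 (hcentral u hu) g
  refine ⟨hN, fun hqs => ?_⟩
  rw [Cfsg.Agent.Transfer.hasNormalPComplement_iff] at hN
  refine hN (hdiv.trans (dvd_of_eq ?_))
  have htop : Cfsg.pResidual p G = ⊤ := by
    have hq : IsPGroup p (G ⧸ Cfsg.pResidual p G) := Cfsg.Agent.Transfer.isPGroup_quotient_pResidual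
    have := hq.isNilpotent
    have hperf : ⁅(⊤ : Subgroup (G ⧸ Cfsg.pResidual p G)), (⊤ : Subgroup (G ⧸ Cfsg.pResidual p G))⁆ = ⊤ := by
      have h1 : ⁅(⊤ : Subgroup G), (⊤ : Subgroup G)⁆ = ⊤ := by
        have := hqs.1
        exact Group.IsPerfect.commutator_eq_top
      rw [← Subgroup.map_top_of_surjective _ (QuotientGroup.mk'_surjective (Cfsg.pResidual p G)),
        ← Subgroup.map_commutator, h1]
    have := Cfsg.Agent.Components.eq_bot_of_perfect_solvable hperf
    rw [Subgroup.eq_top_iff']
    intro g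
    have hg : (g : G ⧸ Cfsg.pResidual p G) ∈ (⊤ : Subgroup (G ⧸ Cfsg.pResidual p G)) :=
      Subgroup.mem_top _
    rw [this, Subgroup.mem_bot] at hg
    exact (QuotientGroup.eq_one_iff g).1 hg
  rw [htop, Subgroup.card_top]

end Cfsg.Agent.S2910
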