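import Cfsg.Statements.S2911
import Cfsg.Agent.LocalEven.TransferIndexTwo
-- import your own Cfsg.Agent.* helpers here

set_option autoImplicit false
open Cfsg

namespace Cfsg.Agent.S2911

/-- A finite group whose Sylow 2-subgroups are isomorphic to the direct product of a group of order 2 and a dihedral group of order 8 has a subgroup of index two. -/
theorem result {G : Type*} [Group G] [Finite G] (S : Sylow 2 G) (hS : Nonempty (↥(S : Subgroup G) ≃* Multiplicative (ZMod 2) × DihedralGroup 4)) : ∃ H : Subgroup G, H.index = 2 := by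
  obtain ⟨e⟩ := hS
  have hD : ∀ d : DihedralGroup 4, (∀ x, d * x = x * d) → ∃ y, y * y = d := by decide
  have hsq : ∀ a : Multiplicative (ZMod 2), a * a = 1 := by decide
  set z₀ := e.symm (Multiplicative.ofAdd 1, 1) with hz₀
  have hez : e z₀ = (Multiplicative.ofAdd 1, 1) := e.apply_symm_apply _
  have hzc₀ : ∀ s : (S : Subgroup G), s * z₀ = z₀ * s := fun s => e.injective (by
    simp only [map_mul, hez]
    exact Prod.ext (mul_comm _ _) (by simp))
  refine Cfsg.Agent.LocalEven.exists_index_two_of_central S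
    ((MonoidHom.fst _ _).comp e.toMonoidHom) z₀.2 ?_ ?_ ?_
  · have : z₀ * z₀ = 1 := e.injective (by
      simp only [map_mul, map_one, hez]
      exact Prod.ext (hsq _) (by simp))
    exact congrArg Subtype.val this
  · exact fun s hs => congrArg Subtype.val (hzc₀ ⟨s, hs⟩)
  intro g hg h hone
  set w : (S : Subgroup G) := ⟨g⁻¹ * (z₀ : G) * g, h⟩
  have hwc : ∀ s : (S : Subgroup G), w * s = s * w := by
    intro s
    have hs' : g * (s : G) * g⁻¹ ∈ (S : Subgroup G) := (Subgroup.mem_normalizer_iff.1 hg s).1 s.2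
    have h1 : g * (s : G) * g⁻¹ * z₀ = z₀ * (g * (s : G) * g⁻¹) :=
      congrArg Subtype.val (hzc₀ ⟨_, hs'⟩)
    refine Subtype.ext ?_
    change g⁻¹ * (z₀ : G) * g * s = s * (g⁻¹ * z₀ * g)
    calc g⁻¹ * (z₀ : G) * g * s = g⁻¹ * ((z₀ : G) * (g * s * g⁻¹)) * g := by group
      _ = _ := by rw [← h1]; group
  obtain ⟨y, hy⟩ := hD (e w).2 fun x => by
    have := congrArg Prod.snd (congrArg e (hwc (e.symm (1, x))))
    simpa using this
  set v := e.symm (1, y) with hv
  have hwv : v * v = w := e.injective (by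
    simp only [map_mul, hv, MulEquiv.apply_symm_apply]
    exact Prod.ext (by simpa using Eq.symm hone) (by simpa using hy))
  have hu : g * (v : G) * g⁻¹ ∈ (S : Subgroup G) := (Subgroup.mem_normalizer_iff.1 hg v).1 v.2
  have hzu : (⟨_, hu⟩ : (S : Subgroup G)) * ⟨_, hu⟩ = z₀ := by
    refine Subtype.ext ?_
    have h2 : (v : G) * v = g⁻¹ * z₀ * g := congrArg Subtype.val hwv
    change g * (v : G) * g⁻¹ * (g * v * g⁻¹) = z₀
    calc g * (v : G) * g⁻¹ * (g * v * g⁻¹) = g * ((v : G) * v) * g⁻¹ := by group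
      _ = _ := by rw [h2]; group
  have h3 := congrArg Prod.fst (congrArg e hzu)
  rw [map_mul, hez] at h3
  simp only [Prod.fst_mul, hsq] at h3
  exact absurd h3.symm (by decide)

end Cfsg.Agent.S2911
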