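import Cfsg.Statements.S2912
import Cfsg.Agent.LocalEven.ExtraspecialModule
-- import your own Cfsg.Agent.* helpers here

set_option autoImplicit false
open Cfsg

namespace Cfsg.Agent.S2912

/-- Let p and r be distinct primes, let E be an extraspecial subgroup of order p^(2w+1) of a finite group, and let A be an elementary abelian r-subgroup normalized by E on which E acts faithfully (C_E(A) = 1). If n ≥ 1 is least with p dividing rⁿ − 1 (the smallest dimension of a faithful representation of a group of order p over the field with r elements), then the order of A is at least r^(n·p^w). -/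
theorem result {G : Type*} [Group G] [Finite G] {p r : ℕ} [Fact p.Prime] [hr : Fact r.Prime] (hpr : p ≠ r) (E A : Subgroup G) (w : ℕ) (hE : Cfsg.IsExtraspecial p ↥E) (hEcard : Nat.card ↥E = p ^ (2 * w + 1)) (hA : Cfsg.IsElementaryAbelian r A) (hnorm : E ≤ Subgroup.normalizer (A : Set G)) (hfaith : E ⊓ Subgroup.centralizer (A : Set G) = ⊥) (n : ℕ) (hn : 1 ≤ n) (hdiv : p ∣ r ^ n - 1) (hmin : ∀ k : ℕ, 1 ≤ k → p ∣ r ^ k - 1 → n ≤ k) : r ^ (n * p ^ w) ≤ Nat.card ↥A := by
  let _instA : CommGroup ↥A := { (inferInstance : Group ↥A) with mul_comm := hA.1.is_comm.comm }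
  have hmem : ∀ e : G, e ∈ E → ∀ a ∈ A, e * a * e⁻¹ ∈ A := fun e he a ha =>
    (Subgroup.mem_normalizer_iff.1 (hnorm he) a).1 ha
  let ρ : ↥E →* MulAut ↥A :=
    { toFun := fun e =>
        { toFun := fun a => ⟨(e : G) * a * (e : G)⁻¹, hmem e e.2 a a.2⟩
          invFun := fun a => ⟨(e : G)⁻¹ * a * ((e : G)⁻¹)⁻¹, hmem _ (E.inv_mem e.2) a a.2⟩
          left_inv := fun a => Subtype.ext (by simp [mul_assoc])
          right_inv := fun a => Subtype.ext (by simp [mul_assoc])
          map_mul' := fun a b => Subtype.ext (by simp [mul_assoc]) }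
      map_one' := MulEquiv.ext fun a => Subtype.ext (by simp)
      map_mul' := fun e₁ e₂ => MulEquiv.ext fun a => Subtype.ext (by simp [mul_assoc]) }
  have hpow : Nat.card (↥E ⧸ Subgroup.center ↥E) = (p ^ w) ^ 2 := by
    have h := Subgroup.card_eq_card_quotient_mul_card_subgroup (Subgroup.center ↥E)
    rw [hEcard, hE.2, pow_succ] at h
    rw [← pow_mul, mul_comm w 2]
    exact (Nat.eq_of_mul_eq_mul_right (Fact.out : p.Prime).pos h).symm
  refine Cfsg.Agent.LocalEven.Extraspecial.card_bound' hpr
    (fun a => Subtype.ext (by simpa using hA.2 _ a.2)) ρ hE.2 hE.1.2.2.le ?_ hpow hmin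
  intro u _ hu
  have hmemC : (u : G) ∈ E ⊓ Subgroup.centralizer (A : Set G) := by
    refine ⟨u.2, Subgroup.mem_centralizer_iff.2 fun a ha => ?_⟩
    have h : (u : G) * a * (u : G)⁻¹ = a :=
      congrArg Subtype.val (congrFun (congrArg DFunLike.coe hu) (⟨a, ha⟩ : ↥A))
    calc a * (u : G) = (u : G) * a * (u : G)⁻¹ * u := by rw [h]
      _ = _ := by group
  rw [hfaith, Subgroup.mem_bot] at hmemC
  exact Subtype.ext hmemC

end Cfsg.Agent.S2912
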