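import Cfsg.Statements.S2916
import Cfsg.Agent.S0197
import Cfsg.Agent.InvolGLThree.Transport
import Cfsg.Agent.InvolGLThree.Hexagon
import Cfsg.Agent.CommGraph.PSLThreeThree
import Cfsg.Agent.Recog.OrderM11.Main

set_option autoImplicit false
set_option linter.style.haveILetI false
open Cfsg

namespace Cfsg.Agent.S2916

/-- Let G be a finite group with O²(G) = G (no proper normal subgroup of 2-power index), and let t be an involution of G whose centralizer C_G(t) is isomorphic to GL₂(3). Then G is isomorphic to PSL₃(3) or to the Mathieu group M₁₁. -/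
theorem result {G : Type*} [Group G] [Finite G] (hO : Cfsg.pResidual 2 G = ⊤) (t : G) (ht : orderOf t = 2) (hC : Nonempty (↥(Subgroup.centralizer ({t} : Set G)) ≃* GL (Fin 2) (ZMod 3))) : (∃ (F : Type) (_ : Field F) (_ : Fintype F), Fintype.card F = 3 ∧ Nonempty (G ≃* Matrix.ProjectiveSpecialLinearGroup (Fin 3) F)) ∨ Cfsg.Spor.IsoM11 G := by
  classical
  obtain ⟨e⟩ := hC
  haveI : IsSimpleGroup G := Cfsg.Agent.InvolGLThree.isSimpleGroup e ht hO
  rcases Cfsg.Agent.S0197.result t ht e with hcard | hcard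
  · left
    haveI : Fact (Nat.Prime 3) := ⟨Nat.prime_three⟩
    have hall : ∀ d : G, orderOf d = 2 → IsConj t d :=
      fun d hd => Cfsg.Agent.InvolGLThree.isConj_of_involution' e ht hO hd
    have C := Cfsg.Agent.InvolGLThree.ctx e ht hall hcard
    obtain ⟨x, S, hx⟩ := C.exists_sys (Cfsg.Agent.InvolGLThree.baseFrame e ht)
    obtain ⟨Φ, hΦ⟩ := Cfsg.Agent.Spec.StPres.exists_hom (by norm_num) S
    haveI := Cfsg.Agent.CommGraph.LThree.isSimpleGroup_SThree
    have hinj : Function.Injective Φ := by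
      rw [← MonoidHom.ker_eq_bot_iff]
      refine (Φ.normal_ker.eq_bot_or_eq_top).resolve_right fun h => hx ?_
      rw [← hΦ 0 1 (by decide) 1]
      exact MonoidHom.mem_ker.1 (h ▸ Subgroup.mem_top _)
    have hbij : Function.Bijective Φ := (Nat.bijective_iff_injective_and_card Φ).2
      ⟨hinj, by rw [hcard, Cfsg.Agent.CommGraph.LThree.card_SThree]⟩
    have hz : Subgroup.center (Matrix.SpecialLinearGroup (Fin 3) (ZMod 3)) = ⊥ := by
      rw [Subgroup.eq_bot_iff_forall]
      intro z hz
      exact Cfsg.Agent.CommGraph.LThree.eq_one_of_commute z (Subgroup.mem_center_iff.1 hz _).symm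
        (Subgroup.mem_center_iff.1 hz _).symm (Subgroup.mem_center_iff.1 hz _).symm
    refine ⟨ZMod 3, inferInstance, inferInstance, ZMod.card 3, ⟨?_⟩⟩
    exact (MulEquiv.ofBijective Φ hbij).symm.trans
      ((QuotientGroup.quotientMulEquivOfEq hz).trans QuotientGroup.quotientBot).symm
  · exact Or.inr (Cfsg.Agent.Recog.OrderM11.Hyp.nonempty_equiv_M11 ⟨inferInstance, hcard⟩)

end Cfsg.Agent.S2916
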