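import Cfsg.Statements.S2922
import Cfsg.Agent.LocalEven.CharP
import Cfsg.Agent.Components.FStar
-- import your own Cfsg.Agent.* helpers here

set_option autoImplicit false
open Cfsg

namespace Cfsg.Agent.S2922

/-- Let p be a prime, X a finite group, B a p-subgroup of X and C a normal subgroup of B. If N_X(C) has characteristic p (its generalized Fitting subgroup is O_p(N_X(C))), then N_X(B) and C_X(B) have characteristic p. -/
theorem result {X : Type*} [Group X] [Finite X] {p : ℕ} [Fact p.Prime] (B C : Subgroup X) (hB : IsPGroup p ↥B) (hCB : C ≤ B) (hCn : (C.subgroupOf B).Normal) (hC : Cfsg.generalizedFittingSubgroup ↥(Subgroup.normalizer (C : Set X)) = Cfsg.pCore p ↥(Subgroup.normalizer (C : Set X))) : Cfsg.generalizedFittingSubgroup ↥(Subgroup.normalizer (B : Set X)) = Cfsg.pCore p ↥(Subgroup.normalizer (B : Set X)) ∧ Cfsg.generalizedFittingSubgroup ↥(Subgroup.centralizer (B : Set X)) = Cfsg.pCore p ↥(Subgroup.centralizer (B : Set X)) := by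
  set N := Subgroup.normalizer (C : Set X) with hN
  have hBN : B ≤ N := (Subgroup.normal_subgroupOf_iff_le_normalizer hCB).1 hCn
  have hCN : Subgroup.centralizer (B : Set X) ≤ N :=
    (Subgroup.centralizer_le (show (C : Set X) ⊆ (B : Set X) from hCB)).trans
      (Cfsg.Agent.LocalEven.centralizer_le_normalizer_self C)
  have hNC := Cfsg.Agent.Components.centralizer_pCore_le_of_genFitting_eq hC
  have h1 := Cfsg.Agent.LocalEven.charP_centralizer hNC (B.subgroupOf N)
    (hB.of_equiv (Subgroup.subgroupOfEquivOfLe hBN).symm)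
  have heq : Subgroup.centralizer (B.subgroupOf N : Set N) =
      (Subgroup.centralizer (B : Set X)).subgroupOf N := by
    ext ⟨y, hy⟩
    simp only [Subgroup.mem_centralizer_iff, Subgroup.mem_subgroupOf, SetLike.mem_coe]
    exact ⟨fun h b hb => congrArg Subtype.val (h ⟨b, hBN hb⟩ hb),
      fun h b hb => Subtype.ext (h b.1 hb)⟩
  rw [heq] at h1
  have h2 := Cfsg.Agent.LocalEven.charP_congr (Subgroup.subgroupOfEquivOfLe hCN) h1
  refine ⟨Cfsg.Agent.Components.genFitting_eq_pCore_of_centralizer_le ?_,
    Cfsg.Agent.Components.genFitting_eq_pCore_of_centralizer_le h2⟩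
  exact Cfsg.Agent.LocalEven.charP_normalizer_of_centralizer B hB h2

end Cfsg.Agent.S2922
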