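import Cfsg.Statements.S2924
import Cfsg.Agent.LocalEven.CoreGeneration
-- import your own Cfsg.Agent.* helpers here

set_option autoImplicit false
open Cfsg

namespace Cfsg.Agent.S2924

/-- Let X be a finite group and Y an elementary abelian 2-subgroup of X of order at least 8 such that C_X(x) has no components (E(C_X(x)) = 1) for every nontrivial x ∈ Y, and F*(C_X(z)) = O₂(C_X(z)) for some nontrivial z ∈ Y. Then the subgroup generated by the cores O(C_X(y)), y ∈ Y nontrivial, has odd order and is normalized by N_X(Y). -/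
theorem result {X : Type*} [Group X] [Finite X] (Y : Subgroup X) (hY : Cfsg.IsElementaryAbelian 2 Y) (h8 : 8 ≤ Nat.card ↥Y) (hE : ∀ x ∈ Y, x ≠ 1 → Cfsg.layer ↥(Subgroup.centralizer ({x} : Set X)) = ⊥) (hz : ∃ z ∈ Y, z ≠ 1 ∧ Cfsg.generalizedFittingSubgroup ↥(Subgroup.centralizer ({z} : Set X)) = Cfsg.pCore 2 ↥(Subgroup.centralizer ({z} : Set X))) : Odd (Nat.card ↥(⨆ y : {y : X // y ∈ Y ∧ y ≠ 1}, (Cfsg.oddCore ↥(Subgroup.centralizer ({(y : X)} : Set X))).map (Subgroup.centralizer ({(y : X)} : Set X)).subtype)) ∧ Subgroup.normalizer (Y : Set X) ≤ Subgroup.normalizer ((⨆ y : {y : X // y ∈ Y ∧ y ≠ 1}, (Cfsg.oddCore ↥(Subgroup.centralizer ({(y : X)} : Set X))).map (Subgroup.centralizer ({(y : X)} : Set X)).subtype : Subgroup X) : Set X) := by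
  obtain ⟨z, hzY, -, hF⟩ := hz
  have hchar := Cfsg.Agent.Components.centralizer_pCore_le_of_genFitting_eq hF
  change Odd (Nat.card ↥(⨆ y : {y : X // y ∈ Y ∧ y ≠ 1},
      Cfsg.Agent.LocalEven.CoreGen.coreC (y : X))) ∧
    Subgroup.normalizer (Y : Set X) ≤ Subgroup.normalizer ((⨆ y : {y : X // y ∈ Y ∧ y ≠ 1},
      Cfsg.Agent.LocalEven.CoreGen.coreC (y : X) : Subgroup X) : Set X)
  refine ⟨Cfsg.Agent.LocalEven.CoreGen.odd_card_of_commute _
    (fun y => Cfsg.Agent.LocalEven.CoreGen.odd_card_coreC _) fun i j a ha b hb =>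
      Cfsg.Agent.LocalEven.CoreGen.commute_pair hY h8 hE hzY hchar i.2.1 j.2.1 ha hb, ?_⟩
  have key : ∀ g ∈ Subgroup.normalizer (Y : Set X),
      (⨆ y : {y : X // y ∈ Y ∧ y ≠ 1}, Cfsg.Agent.LocalEven.CoreGen.coreC (y : X)).map
        (MulAut.conj g).toMonoidHom ≤
      ⨆ y : {y : X // y ∈ Y ∧ y ≠ 1}, Cfsg.Agent.LocalEven.CoreGen.coreC (y : X) := by
    intro g hg
    rw [Subgroup.map_iSup]
    refine iSup_le fun y => (Cfsg.Agent.LocalEven.CoreGen.conj_coreC_le g y).trans ?_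
    exact le_iSup (fun y : {y : X // y ∈ Y ∧ y ≠ 1} => Cfsg.Agent.LocalEven.CoreGen.coreC (y : X))
      ⟨g * y * g⁻¹, (Subgroup.mem_normalizer_iff.1 hg y).1 y.2.1, fun h => y.2.2 (conj_eq_one_iff.1 h)⟩
  intro g hg
  refine Subgroup.mem_normalizer_iff.2 fun u => ⟨fun hu => key g hg ⟨u, hu, rfl⟩, fun hu => ?_⟩
  have := key g⁻¹ (inv_mem hg) ⟨_, hu, rfl⟩
  simpa [mul_assoc] using this

end Cfsg.Agent.S2924
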