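import Cfsg.Statements.S2925
import Cfsg.Agent.LocalEven.SylowSubnormal
import Cfsg.Agent.Components.Basic
-- import your own Cfsg.Agent.* helpers here

set_option autoImplicit false
open Cfsg

namespace Cfsg.Agent.S2925

/-- Let K be a component of the finite group X and T a Sylow 2-subgroup of X. If some abelian normal subgroup Y of T does not normalize K, then K ⧸ Z(K) has abelian Sylow 2-subgroups. -/
theorem result {X : Type*} [Group X] [Finite X] (K : Subgroup X) (hK : Cfsg.IsComponent K) (T : Sylow 2 X) (Y : Subgroup X) (hYT : Y ≤ (T : Subgroup X)) (hYn : (Y.subgroupOf (T : Subgroup X)).Normal) (hYab : IsMulCommutative ↥Y) (hnot : ¬ Y ≤ Subgroup.normalizer (K : Set X)) (P : Sylow 2 (↥K ⧸ Subgroup.center ↥K)) : IsMulCommutative ↥(P : Subgroup (↥K ⧸ Subgroup.center ↥K)) := by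
  obtain ⟨y, hyY, hy⟩ := SetLike.not_le_iff_exists.1 hnot
  set K' := K.map (MulAut.conj y).toMonoidHom with hK'
  have hne : K ≠ K' := fun h => hy (Subgroup.mem_normalizer_iff.2 fun k => by
    constructor
    · intro hk
      rw [h]
      exact ⟨k, hk, rfl⟩
    · intro hk
      rw [h] at hk
      obtain ⟨k', hk', e⟩ := hk
      have : k' = k := (MulAut.conj y).injective e
      rwa [← this])
  have hcomm := Cfsg.Agent.Components.component_commute hK (Cfsg.Agent.Components.component_conj y hK) hne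
  rw [← hK', Subgroup.commutator_eq_bot_iff_le_centralizer] at hcomm
  have hcm : ∀ k ∈ K, ∀ k' ∈ K', k' * k = k * k' := fun k hk k' hk' =>
    Subgroup.mem_centralizer_iff.1 (hcomm hk) k' hk'
  have hTY : (T : Subgroup X) ≤ Subgroup.normalizer (Y : Set X) :=
    (Subgroup.normal_subgroupOf_iff_le_normalizer hYT).1 hYn
  have hYc : ∀ a ∈ Y, ∀ b ∈ Y, a * b = b * a := fun a ha b hb =>
    congrArg Subtype.val (hYab.is_comm.comm ⟨a, ha⟩ ⟨b, hb⟩)
  have key : ∀ s ∈ (T : Subgroup X) ⊓ K, ∀ r ∈ (T : Subgroup X) ⊓ K, ∀ k ∈ K,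
      k * (s * r * s⁻¹ * r⁻¹) = s * r * s⁻¹ * r⁻¹ * k := by
    intro s hs r hr k hk
    have hmem : ∀ u ∈ (T : Subgroup X) ⊓ K, u * (y * u⁻¹ * y⁻¹) ∈ Y ∧ y * u⁻¹ * y⁻¹ ∈ K' := by
      intro u hu
      refine ⟨?_, u⁻¹, K.inv_mem hu.2, rfl⟩
      have h1 := (Subgroup.mem_normalizer_iff.1 (hTY hu.1) y).1 hyY
      have h2 := Y.mul_mem h1 (Y.inv_mem hyY)
      simpa [mul_assoc] using h2
    obtain ⟨hsY, hs'⟩ := hmem s hs
    obtain ⟨hrY, hr'⟩ := hmem r hr
    have h := hYc _ hsY _ hrY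
    set s' := y * s⁻¹ * y⁻¹
    set r' := y * r⁻¹ * y⁻¹
    have e1 : s * s' * (r * r') = s * r * (s' * r') := by
      rw [mul_assoc s, ← mul_assoc s', hcm r hr.2 s' hs']; group
    have e2 : r * r' * (s * s') = r * s * (r' * s') := by
      rw [mul_assoc r, ← mul_assoc r', hcm s hs.2 r' hr']; group
    rw [e1, e2] at h
    have hc : (r * s)⁻¹ * (s * r) = (r' * s') * (s' * r')⁻¹ := by
      apply mul_right_cancel (b := s' * r')
      rw [inv_mul_cancel_right]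
      apply mul_left_cancel (a := r * s)
      simpa [mul_assoc] using h
    have hK'mem : (r * s)⁻¹ * (s * r) ∈ K' :=
      hc ▸ K'.mul_mem (K'.mul_mem hr' hs') (K'.inv_mem (K'.mul_mem hs' hr'))
    have hz : ∀ k ∈ K, Commute k ((r * s)⁻¹ * (s * r)) := fun k hk => (hcm k hk _ hK'mem).symm
    have h2 : s * r * s⁻¹ * r⁻¹ = (r * s) * ((r * s)⁻¹ * (s * r)) * (r * s)⁻¹ := by group
    have hrs : (r * s) * ((r * s)⁻¹ * (s * r)) * (r * s)⁻¹ = (r * s)⁻¹ * (s * r) := by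
      rw [(hz _ (K.mul_mem hr.2 hs.2)).eq, mul_inv_cancel_right]
    rw [h2, hrs]
    exact hz k hk
  have hS₀ : IsPGroup 2 (((T : Subgroup X) ⊓ K).subgroupOf K) :=
    (T.2.to_le inf_le_left).comap_of_injective K.subtype K.subtype_injective
  have hidx := Cfsg.Agent.LocalEven.not_dvd_relIndex_sylow_inf_subnormal T hK.1
  let S₀ : Sylow 2 ↥K := hS₀.toSylow hidx
  have hS₀e : (S₀ : Subgroup ↥K) = ((T : Subgroup X) ⊓ K).subgroupOf K :=
    IsPGroup.toSylow_coe hS₀ hidx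
  obtain ⟨Q, rfl⟩ := Sylow.mapSurjective_surjective
    (f := QuotientGroup.mk' (Subgroup.center ↥K)) (QuotientGroup.mk'_surjective _) 2 P
  obtain ⟨g, hg⟩ := MulAction.exists_smul_eq ↥K Q S₀
  refine ⟨⟨?_⟩⟩
  rintro ⟨_, a, ha, rfl⟩ ⟨_, b, hb, rfl⟩
  apply Subtype.ext
  change QuotientGroup.mk' _ a * QuotientGroup.mk' _ b = QuotientGroup.mk' _ b * QuotientGroup.mk' _ a
  rw [← map_mul, ← map_mul, QuotientGroup.mk'_apply, QuotientGroup.mk'_apply, QuotientGroup.eq]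
  have hmem : ∀ c ∈ (Q : Subgroup ↥K), ((g * c * g⁻¹ : ↥K) : X) ∈ (T : Subgroup X) ⊓ K := by
    intro c hc
    have h1 : g * c * g⁻¹ ∈ (S₀ : Subgroup ↥K) := by
      rw [← hg]
      exact Subgroup.smul_mem_pointwise_smul _ (MulAut.conj g) _ hc
    rw [hS₀e] at h1
    exact h1
  have hcen : (g * b⁻¹ * g⁻¹) * (g * a⁻¹ * g⁻¹) * (g * b⁻¹ * g⁻¹)⁻¹ * (g * a⁻¹ * g⁻¹)⁻¹ ∈
      Subgroup.center ↥K := Subgroup.mem_center_iff.2 fun k => Subtype.ext (by
    simpa using key _ (hmem b⁻¹ (inv_mem hb)) _ (hmem a⁻¹ (inv_mem ha)) k k.2)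
  have := Subgroup.Normal.conj_mem (inferInstance : (Subgroup.center ↥K).Normal) _ hcen g⁻¹
  simpa [mul_assoc] using this

end Cfsg.Agent.S2925
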