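import Cfsg.Statements.S2928
import Cfsg.Agent.Components.Basic
import Cfsg.Agent.Components.FStar
import Cfsg.Agent.TwoAut.Anisotropic
import Cfsg.Agent.S2928.Octet
import Cfsg.Agent.S2928.Standard
-- import your own Cfsg.Agent.* helpers here

set_option autoImplicit false
open Cfsg

namespace Cfsg.Agent.S2928

open Equiv Equiv.Perm MulAction
open scoped Pointwise

/-- A quasisimple group maps trivially to a solvable group. -/
theorem trivial_hom {E M : Type*} [Group E] [Group M] (hE : Cfsg.IsQuasisimple E) (hM : Group.IsSolvable M)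
    (f : E →* M) : ∀ e, f e = 1 := by
  rcases Components.quasisimple_normal hE (N := f.ker) inferInstance with h | h
  · exact fun e => (h ▸ Subgroup.mem_top e : e ∈ f.ker)
  · exfalso
    haveI := hM
    haveI : Group.IsSolvable f.ker := Group.isSolvable_of_comm fun a b =>
      Subtype.ext (Subgroup.mem_center_iff.1 (h b.2) a.1)
    exact Components.quasisimple_not_solvable hE
      (Group.isSolvable_of_ker_le_range f.ker.subtype f (by rw [Subgroup.range_subtype]))

/-- Centralising modulo a proper normal subgroup is centralising. -/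
theorem commute_of_mod {G : Type*} [Group G] {E : Subgroup G} (hE : Cfsg.IsQuasisimple E) (N : Subgroup E)
    (hN : N.Normal) (hne : N ≠ ⊤) {d : G} (h : ∀ e : E, ∃ z ∈ N, (z : G) = e * d * (e : G)⁻¹ * d⁻¹) :
    ∀ e : E, (e : G) * d = d * e := by
  have hle := (Components.quasisimple_normal hE hN).resolve_left hne
  choose z hz hzd using h
  have hcen : ∀ a b : E, (z a : G) * b = b * z a := fun a b =>
    (congrArg Subtype.val (Subgroup.mem_center_iff.1 (hle (hz a)) b)).symm
  let f : E →* Subgroup.center E := MonoidHom.mk' (fun e => ⟨z e, hle (hz e)⟩) fun a b => by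
    apply Subtype.ext; apply Subtype.ext
    show (z (a * b) : G) = z a * z b
    calc (z (a * b) : G) = (a : G) * z b * (a : G)⁻¹ * ((a : G) * d * (a : G)⁻¹ * d⁻¹) := by
          rw [hzd, hzd, Subgroup.coe_mul]; group
      _ = z b * z a := by rw [← hcen b a, hzd a]; group
      _ = z a * z b := hcen b (z a)
  have hsol : Group.IsSolvable (Subgroup.center E) := Group.isSolvable_of_comm fun a b =>
    Subtype.ext (Subgroup.mem_center_iff.1 b.2 a.1)
  intro e
  have := congrArg (fun w : Subgroup.center E => ((w : E) : G)) (trivial_hom hE hsol f e)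
  have h1 : (e : G) * d * (e : G)⁻¹ * d⁻¹ = 1 := (hzd e).symm.trans this
  calc (e : G) * d = ((e : G) * d * (e : G)⁻¹ * d⁻¹) * (d * e) := by group
    _ = d * e := by rw [h1, one_mul]

/-- Let n ≥ 8 and let H be a subgroup of the symmetric group of degree n whose generalized Fitting subgroup F*(H) is quasisimple. If H contains a Sylow 2-subgroup of the alternating group of degree n, then F*(H) is isomorphic to an alternating group of degree m for some m ∈ {n − 3, n − 2, n − 1, n}. -/
theorem result (n : ℕ) (hn : 8 ≤ n) (H : Subgroup (Equiv.Perm (Fin n))) (hF : Cfsg.IsQuasisimple ↥(Cfsg.generalizedFittingSubgroup ↥H)) (hS : ∃ P : Sylow 2 ↥(alternatingGroup (Fin n)), ((P : Subgroup ↥(alternatingGroup (Fin n))).map (alternatingGroup (Fin n)).subtype) ≤ H) : ∃ m : ℕ, (m = n - 3 ∨ m = n - 2 ∨ m = n - 1 ∨ m = n) ∧ Nonempty (↥(Cfsg.generalizedFittingSubgroup ↥H) ≃* ↥(alternatingGroup (Fin m))) := by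
  classical
  obtain ⟨c, hd2, hKl, hsw⟩ := standard_elements hn H hS
  set E := Cfsg.generalizedFittingSubgroup ↥H with hE
  haveI hEn : E.Normal := Components.genFitting_normal
  have hcen : Subgroup.centralizer (E : Set H) ≤ E := Components.centralizer_genFitting_le
  -- fixed points of `E`
  let Fixed : Fin n → Prop := fun x => ∀ e ∈ E, (e : Perm (Fin n)) x = x
  let orb : Fin n → Finset (Fin n) := fun x => Finset.univ.filter fun y => ∃ e ∈ E, (e : Perm (Fin n)) x = y
  have horb : ∀ x y, y ∈ orb x ↔ ∃ e ∈ E, (e : Perm (Fin n)) x = y := fun x y => by simp [orb]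
  have hself : ∀ x, x ∈ orb x := fun x => (horb x x).2 ⟨1, one_mem _, rfl⟩
  have horbE : ∀ e ∈ E, ∀ x y, y ∈ orb x → (e : Perm (Fin n)) y ∈ orb x := fun e he x y hy => by
    obtain ⟨f, hf, rfl⟩ := (horb x y).1 hy
    exact (horb x _).2 ⟨e * f, mul_mem he hf, rfl⟩
  have horb_symm : ∀ {x y}, y ∈ orb x → x ∈ orb y := fun {x y} hy => by
    obtain ⟨f, hf, rfl⟩ := (horb x y).1 hy
    exact (horb _ x).2 ⟨f⁻¹, inv_mem hf, by simp⟩
  have horb_trans : ∀ {x y z}, y ∈ orb x → z ∈ orb y → z ∈ orb x := fun {x y z} hy hz => by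
    obtain ⟨f, hf, rfl⟩ := (horb y z).1 hz
    exact horbE f hf x y hy
  have horbH : ∀ (h : H) {x y}, y ∈ orb x → (h : Perm (Fin n)) y ∈ orb ((h : Perm (Fin n)) x) := by
    intro h x y hy
    obtain ⟨f, hf, rfl⟩ := (horb x y).1 hy
    exact (horb _ _).2 ⟨h * f * h⁻¹, hEn.conj_mem f hf h, by simp⟩
  have hfixH : ∀ (h : H) {x}, Fixed x → Fixed ((h : Perm (Fin n)) x) := by
    intro h x hx e he
    have h1 := congrArg (h : Perm (Fin n)) (hx _ (hEn.conj_mem' e he h))
    simpa using h1
  -- a small invariant set is fixed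
  have hsmall : ∀ S : Finset (Fin n), S.card ≤ 4 → (∀ e ∈ E, ∀ x ∈ S, (e : Perm (Fin n)) x ∈ S) →
      ∀ x ∈ S, Fixed x := by
    intro S hS hinv x hx e he
    have hiff : ∀ (f : E) (y : Fin n), ((f : H) : Perm (Fin n)) y ∈ S ↔ y ∈ S := fun f y => by
      refine ⟨fun hy => ?_, fun hy => hinv f f.2 y hy⟩
      have := hinv _ (inv_mem f.2) _ hy
      simpa using this
    let f : E →* Perm {y // y ∈ S} := MonoidHom.mk' (fun f => ((f : H) : Perm (Fin n)).subtypePerm (hiff f))
      fun u v => Equiv.ext fun y => Subtype.ext rfl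
    have := trivial_hom hF (TwoAut.solvable_perm_small (by simpa using hS)) f ⟨e, he⟩
    exact congrArg Subtype.val (DFunLike.congr_fun this ⟨x, hx⟩)
  -- small elements move every orbit
  have hmove : ∀ d : H, (d : Perm (Fin n)) ≠ 1 → (d : Perm (Fin n)).support.card ≤ 4 → ∀ x, ¬ Fixed x →
      ∃ y ∈ orb x, (d : Perm (Fin n)) y ≠ y := by
    intro d hd hd4 x hx
    by_contra hall
    push Not at hall
    let N : Subgroup E := {
      carrier := {e | ∀ y ∈ orb x, ((e : H) : Perm (Fin n)) y = y}
      mul_mem' := fun {u v} hu hv y hy => by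
        show ((u : H) : Perm (Fin n)) (((v : H) : Perm (Fin n)) y) = y
        rw [hv y hy, hu y hy]
      one_mem' := fun y _ => rfl
      inv_mem' := fun {u} hu y hy => by
        show ((u : H) : Perm (Fin n))⁻¹ y = y
        rw [Perm.inv_eq_iff_eq]; exact (hu y hy).symm }
    have hN : N.Normal := ⟨fun u hu g y hy => by
      show ((g : H) : Perm (Fin n)) (((u : H) : Perm (Fin n)) (((g : H) : Perm (Fin n))⁻¹ y)) = y
      rw [hu (((g : H) : Perm (Fin n))⁻¹ y) (by simpa using horbE _ (inv_mem g.2) x y hy)]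
      simp⟩
    have hne : N ≠ ⊤ := fun h => hx fun e he => (h ▸ Subgroup.mem_top (⟨e, he⟩ : E) : (⟨e, he⟩ : E) ∈ N) x (hself x)
    have hcomm := commute_of_mod hF N hN hne (d := d) fun e => ⟨⟨(e : H) * d * (e : H)⁻¹ * d⁻¹, by
        have h1 := mul_mem e.2 (hEn.conj_mem _ (inv_mem e.2) d)
        simpa [mul_assoc] using h1⟩, fun y hy => by
          show ((e : H) : Perm (Fin n)) ((d : Perm (Fin n)) (((e : H) : Perm (Fin n))⁻¹ ((d : Perm (Fin n))⁻¹ y))) = y
          have h1 : (d : Perm (Fin n))⁻¹ y = y := by rw [Perm.inv_eq_iff_eq]; exact (hall y hy).symm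
          rw [h1, hall (((e : H) : Perm (Fin n))⁻¹ y) (by simpa using horbE _ (inv_mem e.2) x y hy)]
          simp, rfl⟩
    have hdE : d ∈ E := hcen (Subgroup.mem_centralizer_iff.2 fun e he => hcomm ⟨e, he⟩)
    have hfix := hsmall (d : Perm (Fin n)).support hd4 fun e he y hy => by
      rw [mem_support] at hy ⊢
      intro h
      apply hy
      have h1 := DFunLike.congr_fun (congrArg Subtype.val (hcomm ⟨e, he⟩)) y
      simp only [Subgroup.coe_mul, Perm.mul_apply] at h1
      rw [h] at h1
      exact (e : Perm (Fin n)).injective h1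
    obtain ⟨y, hy⟩ : ∃ y, y ∈ (d : Perm (Fin n)).support := Finset.nonempty_iff_ne_empty.2 fun h => hd (support_eq_empty_iff.1 h)
    exact mem_support.1 hy (hfix y hy d hdE)
  have hfive : ∀ x, ¬ Fixed x → 5 ≤ (orb x).card := fun x hx => by
    by_contra h
    exact hx (hsmall (orb x) (by omega) (fun e he y hy => horbE e he x y hy) x (hself x))
  -- double transpositions
  let pt : ℕ → Fin n := fun i => if h : i < n then c ⟨i, h⟩ else c ⟨0, by omega⟩
  have hpt : ∀ {i j}, i < n → j < n → pt i = pt j → i = j := fun {i j} hi hj e => by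
    simp only [pt, dif_pos hi, dif_pos hj] at e
    exact congrArg Fin.val (c.injective e)
  have hptne : ∀ {i j}, i < n → j < n → i ≠ j → pt i ≠ pt j := fun hi hj h e => h (hpt hi hj e)
  have hdt : ∀ i j, 2 * i + 1 < n → 2 * j + 1 < n → i ≠ j →
      swap (pt (2 * i)) (pt (2 * i + 1)) * swap (pt (2 * j)) (pt (2 * j + 1)) ∈ H := fun i j hi hj hij => by
    simp only [pt, dif_pos hi, dif_pos hj, dif_pos (show 2 * i < n by omega), dif_pos (show 2 * j < n by omega)]
    exact hd2 i j hi hj hij
  have hKl' : swap (pt 0) (pt 2) * swap (pt 1) (pt 3) ∈ H := by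
    simp only [pt, dif_pos (show 0 < n by omega), dif_pos (show 1 < n by omega), dif_pos (show 2 < n by omega),
      dif_pos (show 3 < n by omega)]
    exact hKl
  have hsw' : swap (pt 0) (pt 4) * swap (pt 1) (pt 5) * (swap (pt 2) (pt 6) * swap (pt 3) (pt 7)) ∈ H := by
    simp only [pt, dif_pos (show 0 < n by omega), dif_pos (show 1 < n by omega), dif_pos (show 2 < n by omega),
      dif_pos (show 3 < n by omega), dif_pos (show 4 < n by omega), dif_pos (show 5 < n by omega),
      dif_pos (show 6 < n by omega), dif_pos (show 7 < n by omega)]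
    exact hsw
  have hinO : ∀ x, ¬ Fixed x → ∀ i j, 2 * i + 1 < n → 2 * j + 1 < n → i ≠ j →
      (pt (2 * i) ∈ orb x ∧ pt (2 * i + 1) ∈ orb x) ∨ (pt (2 * j) ∈ orb x ∧ pt (2 * j + 1) ∈ orb x) := by
    intro x hx i j hi hj hij
    have n1 := hptne (show 2 * i < n by omega) hi (by omega)
    have n2 := hptne (show 2 * j < n by omega) hj (by omega)
    have n3 := hptne (show 2 * i < n by omega) (show 2 * j < n by omega) (by omega)
    have n4 := hptne (show 2 * i < n by omega) hj (by omega)
    have n5 := hptne hi (show 2 * j < n by omega) (by omega)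
    have n6 := hptne hi hj (by omega)
    obtain ⟨hs, -⟩ := dt_support n1 n2 n3 n4 n5 n6
    set g := swap (pt (2 * i)) (pt (2 * i + 1)) * swap (pt (2 * j)) (pt (2 * j + 1)) with hg
    set d : H := ⟨g, hdt i j hi hj hij⟩
    have hd1 : (d : Perm (Fin n)) ≠ 1 := fun h => by
      have := hs.symm.trans (congrArg Perm.support (show g = 1 from h))
      simp at this
    have hd4 : (d : Perm (Fin n)).support.card ≤ 4 := by
      show g.support.card ≤ 4
      rw [hs]; exact Finset.card_le_four
    have hpres : ∀ y ∈ orb x, g y ∈ orb x := by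
      obtain ⟨y, hy, hy'⟩ : ∃ y ∈ orb x, g y ∈ orb x := by
        by_contra hall
        push Not at hall
        have : (orb x).card ≤ 4 := by
          refine le_trans (Finset.card_le_card fun y hy => ?_) hd4
          exact mem_support.2 fun e => hall y hy (by rw [show g y = y from e]; exact hy)
        have := hfive x hx
        omega
      intro z hz
      have m1 : g x ∈ orb (g y) := horb_symm (horbH d hy)
      have m2 : g z ∈ orb (g x) := horbH d hz
      exact horb_trans (horb_trans hy' m1) m2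
    obtain ⟨y, hy, hy'⟩ := hmove d hd1 hd4 x hx
    have hy2 := hpres y hy
    change g y ≠ y at hy'
    have : y ∈ g.support := mem_support.2 hy'
    rw [hs] at this
    simp only [Finset.mem_insert, Finset.mem_singleton] at this
    rcases this with rfl | rfl | rfl | rfl
    · rw [hg, Perm.mul_apply, swap_apply_of_ne_of_ne n3 n4, swap_apply_left] at hy2
      exact Or.inl ⟨hy, hy2⟩
    · rw [hg, Perm.mul_apply, swap_apply_of_ne_of_ne n5 n6, swap_apply_right] at hy2
      exact Or.inl ⟨hy2, hy⟩
    · rw [hg, Perm.mul_apply, swap_apply_left, swap_apply_of_ne_of_ne n4.symm n6.symm] at hy2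
      exact Or.inr ⟨hy, hy2⟩
    · rw [hg, Perm.mul_apply, swap_apply_right, swap_apply_of_ne_of_ne n3.symm n5.symm] at hy2
      exact Or.inr ⟨hy2, hy⟩
  -- one orbit
  obtain ⟨x₀, hx₀⟩ : ∃ x, ¬ Fixed x := by
    by_contra hall
    push Not at hall
    haveI := Components.quasisimple_nontrivial hF
    obtain ⟨e, he⟩ := exists_ne (1 : E)
    exact he (Subtype.ext (Subtype.ext (Equiv.ext fun x => hall x _ e.2)))
  set Δ := orb x₀ with hΔ
  have hone : ∀ x, ¬ Fixed x → x ∈ Δ := by
    intro x hx
    have h := hinO x hx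
    have h' := hinO x₀ hx₀
    obtain ⟨i, hi, h1, h2⟩ : ∃ i, i < 3 ∧ pt (2 * i) ∈ orb x ∧ pt (2 * i) ∈ Δ := by
      have u01 := h 0 1 (by omega) (by omega) (by omega)
      have u02 := h 0 2 (by omega) (by omega) (by omega)
      have u12 := h 1 2 (by omega) (by omega) (by omega)
      have v01 := h' 0 1 (by omega) (by omega) (by omega)
      have v02 := h' 0 2 (by omega) (by omega) (by omega)
      have v12 := h' 1 2 (by omega) (by omega) (by omega)
      rcases pigeon (u01.imp And.left And.left) (u02.imp And.left And.left) (u12.imp And.left And.left)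
        (v01.imp And.left And.left) (v02.imp And.left And.left) (v12.imp And.left And.left) with a | a | a
      · exact ⟨0, by omega, a⟩
      · exact ⟨1, by omega, a⟩
      · exact ⟨2, by omega, a⟩
    exact horb_trans h2 (horb_symm h1)
  have hfixout : ∀ x, x ∉ Δ → Fixed x := fun x hx => not_not.1 fun h => hx (hone x h)
  have hnofix : ∀ x ∈ Δ, ¬ Fixed x := fun x hx hfx => by
    obtain ⟨f, hf, e⟩ := (horb x x₀).1 (horb_symm hx)
    apply hx₀
    rw [hfx f hf] at e
    exact e ▸ hfx
  have hΔH : ∀ (h : H) x, (h : Perm (Fin n)) x ∈ Δ ↔ x ∈ Δ := fun h x => by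
    refine ⟨fun hx => hone x fun hf => hnofix _ hx (hfixH h hf), fun hx => hone _ fun hf => hnofix x hx ?_⟩
    simpa using hfixH h⁻¹ hf
  have hpairs : ∀ i j, 2 * i + 1 < n → 2 * j + 1 < n → i ≠ j →
      (pt (2 * i) ∈ Δ ∧ pt (2 * i + 1) ∈ Δ) ∨ (pt (2 * j) ∈ Δ ∧ pt (2 * j + 1) ∈ Δ) := hinO x₀ hx₀
  have hA : ∀ k < 8, pt k ∈ Δ := by
    have hs := hΔH ⟨_, hsw'⟩
    have ne : ∀ i j : ℕ, i < 8 → j < 8 → i ≠ j → pt i ≠ pt j := fun i j hi hj h => hptne (by omega) (by omega) h
    have e0 := hs (pt 0)
    have e1 := hs (pt 1)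
    have e2 := hs (pt 2)
    have e3 := hs (pt 3)
    simp only [Perm.mul_apply] at e0 e1 e2 e3
    simp (disch := (apply ne <;> omega)) only [swap_apply_left, swap_apply_of_ne_of_ne] at e0 e1 e2 e3
    have p02 := hpairs 0 2 (by omega) (by omega) (by omega)
    have p13 := hpairs 1 3 (by omega) (by omega) (by omega)
    simp only [Nat.reduceMul, Nat.reduceAdd] at p02 p13
    exact eight_in (fun k => pt k ∈ Δ) e0 e1 e2 e3 p02 p13
  -- the degree
  have hout : (Finset.univ \ Δ).card ≤ 3 := by
    by_cases hex : ∃ i, 2 * i + 1 < n ∧ ¬ (pt (2 * i) ∈ Δ ∧ pt (2 * i + 1) ∈ Δ)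
    · obtain ⟨i, hi, hi'⟩ := hex
      refine le_trans (Finset.card_le_card (t := {pt (2 * i), pt (2 * i + 1), pt (n - 1)}) fun z hz => ?_) Finset.card_le_three
      obtain ⟨k, rfl⟩ := c.surjective z
      have hk : c k = pt k.val := by simp [pt]
      rw [hk] at hz ⊢
      simp only [Finset.mem_sdiff, Finset.mem_univ, true_and] at hz
      simp only [Finset.mem_insert, Finset.mem_singleton]
      by_cases hlast : 2 * (k.val / 2) + 1 < n
      · by_cases hik : k.val / 2 = i
        · rcases Nat.mod_two_eq_zero_or_one k.val with h | h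
          · exact Or.inl (congrArg pt (by omega))
          · exact Or.inr (Or.inl (congrArg pt (by omega)))
        · exfalso
          have h1 := (hpairs _ _ hlast hi hik).resolve_right hi'
          rcases Nat.mod_two_eq_zero_or_one k.val with h | h
          · rw [show k.val = 2 * (k.val / 2) by omega] at hz; exact hz h1.1
          · rw [show k.val = 2 * (k.val / 2) + 1 by omega] at hz; exact hz h1.2
      · exact Or.inr (Or.inr (congrArg pt (by have := k.isLt; omega)))
    · push Not at hex
      refine le_trans (Finset.card_le_card (t := {pt (n - 1)}) fun z hz => ?_) (by simp)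
      obtain ⟨k, rfl⟩ := c.surjective z
      have hk : c k = pt k.val := by simp [pt]
      rw [hk] at hz ⊢
      simp only [Finset.mem_sdiff, Finset.mem_univ, true_and] at hz
      rw [Finset.mem_singleton]
      by_cases hlast : 2 * (k.val / 2) + 1 < n
      · exfalso
        have h1 := hex _ hlast
        rcases Nat.mod_two_eq_zero_or_one k.val with h | h
        · rw [show k.val = 2 * (k.val / 2) by omega] at hz; exact hz h1.1
        · rw [show k.val = 2 * (k.val / 2) + 1 by omega] at hz; exact hz h1.2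
      · exact congrArg pt (by have := k.isLt; omega)
  have hm : Δ.card = n - 3 ∨ Δ.card = n - 2 ∨ Δ.card = n - 1 ∨ Δ.card = n := by
    have := Finset.card_sdiff_add_card_inter Finset.univ Δ
    rw [Finset.univ_inter, Finset.card_univ, Fintype.card_fin] at this
    omega
  have hm8 : 8 ≤ Fintype.card {y // y ∈ Δ} := by
    rw [Fintype.card_coe]
    refine le_trans ?_ (Finset.card_le_card_of_injOn (s := Finset.range 8) pt (fun k hk => hA k (Finset.mem_range.1 hk))
      fun i hi j hj e => hpt (by simp at hi; omega) (by simp at hj; omega) e)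
    simp
  -- the action on the orbit
  let π : H →* Perm {y // y ∈ Δ} := MonoidHom.mk' (fun h => (h : Perm (Fin n)).subtypePerm (hΔH h))
    fun u v => Equiv.ext fun y => Subtype.ext rfl
  have hπ : ∀ (h : H) (y : {y // y ∈ Δ}), ((π h y : {y // y ∈ Δ}) : Fin n) = (h : Perm (Fin n)) y := fun h y => rfl
  have hinj : ∀ e ∈ E, π e = 1 → e = 1 := fun e he h => Subtype.ext <| Equiv.ext fun x => by
    by_cases hx : x ∈ Δ
    · exact congrArg Subtype.val (DFunLike.congr_fun h ⟨x, hx⟩)
    · exact hfixout x hx e he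
  set K := π.range with hK
  let a : ℕ → {y // y ∈ Δ} := fun k => if hk : k < 8 then ⟨pt k, hA k hk⟩ else ⟨pt 0, hA 0 (by omega)⟩
  have ha : ∀ k < 8, (a k : Fin n) = pt k := fun k hk => by simp [a, hk]
  have hane : ∀ i j, i < 8 → j < 8 → i ≠ j → a i ≠ a j := fun i j hi hj h e =>
    hptne (show i < n by omega) (show j < n by omega) h (by rw [← ha i hi, ← ha j hj, e])
  have hπdt : ∀ (i j k l : ℕ), i < 8 → j < 8 → k < 8 → l < 8 → swap (pt i) (pt j) * swap (pt k) (pt l) ∈ H →
      swap (a i) (a j) * swap (a k) (a l) ∈ K := by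
    intro i j k l hi hj hk hl hmem
    refine ⟨⟨_, hmem⟩, Equiv.ext fun y => Subtype.ext ?_⟩
    rw [hπ]
    show swap (pt i) (pt j) (swap (pt k) (pt l) (y : Fin n)) = _
    rw [Perm.mul_apply, ← ha i hi, ← ha j hj, ← ha k hk, ← ha l hl,
      ← Subtype.val_injective.map_swap, ← Subtype.val_injective.map_swap]
  haveI htr : IsPretransitive K {y // y ∈ Δ} := ⟨fun u v => by
    obtain ⟨f, hf, e⟩ := (horb u.1 v.1).1 (horb_trans (horb_symm u.2) v.2)
    exact ⟨⟨π f, ⟨f, rfl⟩⟩, Subtype.ext e⟩⟩
  -- primitivity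
  have hprim : IsPreprimitive K {y // y ∈ Δ} := by
    refine ⟨fun {B} hB => ?_⟩
    by_contra htriv
    rw [IsTrivialBlock, not_or] at htriv
    obtain ⟨hsub, huniv⟩ := htriv
    obtain ⟨b₁, hb₁, b₂, hb₂, hb12⟩ := Set.not_subsingleton_iff.1 hsub
    have hblockof : ∀ i j k l : ℕ, i < 8 → j < 8 → k < 8 → l < 8 → i ≠ j → k ≠ l → i ≠ k → i ≠ l → j ≠ k → j ≠ l →
        swap (pt i) (pt j) * swap (pt k) (pt l) ∈ H →
        ∃ g : K, a i ∈ g • B ∧ ∀ y ∈ g • B, y = a i ∨ y = a k ∨ y = a l := by
      intro i j k l hi hj hk hl hij hkl hik hil hjk hjl hmem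
      obtain ⟨hs, -⟩ := dt_support (hane i j hi hj hij) (hane k l hk hl hkl) (hane i k hi hk hik)
        (hane i l hi hl hil) (hane j k hj hk hjk) (hane j l hj hl hjl)
      set δ : K := ⟨_, hπdt i j k l hi hj hk hl hmem⟩ with hδ
      obtain ⟨g, hg⟩ : ∃ g : K, δ • (g • B) ≠ g • B := by
        by_contra hall
        push Not at hall
        obtain ⟨d, hd⟩ := hπdt i j k l hi hj hk hl hmem
        have hd1 : (d : Perm (Fin n)) ≠ 1 := fun h => by
          have h0 : π d = 1 := Equiv.ext fun y => Subtype.ext (by rw [hπ, h]; rfl)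
          have := hs.symm.trans (congrArg Perm.support (hd.symm.trans h0))
          simp at this
        let N : Subgroup E := {
          carrier := {e | ∀ g : K, (⟨π e, ⟨(e : H), rfl⟩⟩ : K) • (g • B) = g • B}
          mul_mem' := fun {u v} hu hv g => by
            have : (⟨π (u * v : E), ⟨((u * v : E) : H), rfl⟩⟩ : K) = ⟨π u, ⟨(u : H), rfl⟩⟩ * ⟨π v, ⟨(v : H), rfl⟩⟩ :=
              Subtype.ext (map_mul π (u : H) v)
            rw [this, mul_smul, hv, hu]
          one_mem' := fun g => by
            rw [show (⟨π (1 : E), ⟨((1 : E) : H), rfl⟩⟩ : K) = 1 from Subtype.ext (map_one π), one_smul]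
          inv_mem' := fun {u} hu g => by
            rw [show (⟨π (u⁻¹ : E), ⟨((u⁻¹ : E) : H), rfl⟩⟩ : K) = (⟨π u, ⟨(u : H), rfl⟩⟩ : K)⁻¹ from
              Subtype.ext (map_inv π (u : H)), inv_smul_eq_iff, hu] }
        have hN : N.Normal := ⟨fun u hu v g => by
          set V : K := ⟨π v, ⟨(v : H), rfl⟩⟩
          rw [show (⟨π (v * u * v⁻¹ : E), ⟨((v * u * v⁻¹ : E) : H), rfl⟩⟩ : K) = V * ⟨π u, ⟨(u : H), rfl⟩⟩ * V⁻¹ from
            Subtype.ext (by simp [V, map_mul, map_inv]), mul_smul, mul_smul, smul_smul V⁻¹ g B, hu, ← smul_smul,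
            smul_inv_smul]⟩
        have hne : N ≠ ⊤ := fun h => huniv (Set.eq_univ_of_forall fun y => by
          obtain ⟨f, hf, e⟩ := (horb b₁.1 y.1).1 (horb_trans (horb_symm b₁.2) y.2)
          have h1 := (h ▸ Subgroup.mem_top (⟨f, hf⟩ : E) : (⟨f, hf⟩ : E) ∈ N) 1
          rw [one_smul] at h1
          rw [← h1]
          exact ⟨b₁, hb₁, Subtype.ext e⟩)
        have hcomm := commute_of_mod hF N hN hne (d := d) fun e => ⟨⟨(e : H) * d * (e : H)⁻¹ * d⁻¹, by
            have h1 := mul_mem e.2 (hEn.conj_mem _ (inv_mem e.2) d)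
            simpa [mul_assoc] using h1⟩, fun g => by
              set V : K := ⟨π e, ⟨(e : H), rfl⟩⟩
              have hinvd : ∀ g : K, δ⁻¹ • (g • B) = g • B := fun g => by rw [inv_smul_eq_iff, hall]
              rw [show (⟨π ((e : H) * d * (e : H)⁻¹ * d⁻¹), ⟨_, rfl⟩⟩ : K) = V * δ * V⁻¹ * δ⁻¹ from
                Subtype.ext (by simp [V, δ, map_mul, map_inv, hd]), mul_smul, mul_smul, mul_smul, hinvd, smul_smul V⁻¹ g B,
                hall, ← smul_smul, smul_inv_smul], rfl⟩
        have hdE : d ∈ E := hcen (Subgroup.mem_centralizer_iff.2 fun e he => hcomm ⟨e, he⟩)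
        have hfix := hsmall (({a i, a j, a k, a l} : Finset {y // y ∈ Δ}).image Subtype.val)
          (Finset.card_image_le.trans Finset.card_le_four) fun e he y hy => by
            simp only [Finset.mem_image] at hy ⊢
            obtain ⟨y, hy, rfl⟩ := hy
            refine ⟨π e y, ?_, rfl⟩
            rw [← hs, mem_support] at hy ⊢
            intro h
            apply hy
            have h1 := DFunLike.congr_fun (congrArg π (hcomm ⟨e, he⟩)) y
            rw [map_mul, map_mul, Perm.mul_apply, Perm.mul_apply, hd, h] at h1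
            exact (π e).injective h1
        have := hfix _ (Finset.mem_image_of_mem _ (Finset.mem_insert_self (a i) _))
        exact hnofix _ (a i).2 this
      have hdisj := (hB.translate g).disjoint_smul_of_ne hg
      have hmoved : ∀ T, T = g • B ∨ T = δ • (g • B) → ∀ y ∈ T, y = a i ∨ y = a j ∨ y = a k ∨ y = a l := by
        intro T hT y hy
        have : y ∈ (δ : Perm {y // y ∈ Δ}).support := by
          rw [mem_support]
          intro e
          rcases hT with rfl | rfl
          · exact Set.disjoint_left.1 hdisj ⟨y, hy, e⟩ hy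
          · obtain ⟨z, hz, rfl⟩ := hy
            have : δ • z = z := (δ : Perm {y // y ∈ Δ}).injective e
            exact Set.disjoint_left.1 hdisj ⟨z, hz, rfl⟩ (by show δ • z ∈ g • B; rw [this]; exact hz)
        rw [show (δ : Perm {y // y ∈ Δ}).support = {a i, a j, a k, a l} from hs] at this
        simpa using this
      -- the two translates cover the four moved points, and each has two points
      have hcard : ∀ T, T = g • B ∨ T = δ • (g • B) → 2 ≤ T.ncard := by
        intro T hT
        have h2 : 2 ≤ B.ncard := (Set.one_lt_ncard_iff (Set.toFinite _)).2 ⟨b₁, b₂, hb₁, hb₂, hb12⟩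
        rcases hT with rfl | rfl
        · rwa [Set.ncard_smul_set]
        · rwa [Set.ncard_smul_set, Set.ncard_smul_set]
      have hcover : (g • B) ∪ δ • (g • B) = {a i, a j, a k, a l} := by
        refine Set.eq_of_subset_of_ncard_le ?_ ?_
        · rintro y (hy | hy)
          · simpa using hmoved _ (Or.inl rfl) y hy
          · simpa using hmoved _ (Or.inr rfl) y hy
        · rw [Set.ncard_union_eq hdisj.symm]
          have := hcard _ (Or.inl rfl)
          have := hcard _ (Or.inr rfl)
          have h4 : ({a i, a j, a k, a l} : Set {y // y ∈ Δ}).ncard ≤ 4 := by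
            rw [← Finset.coe_singleton, ← Finset.coe_insert, ← Finset.coe_insert, ← Finset.coe_insert, Set.ncard_coe_finset]
            exact Finset.card_le_four
          omega
      have hδi : δ • a i = a j := by
        show (swap (a i) (a j) * swap (a k) (a l)) (a i) = a j
        rw [Perm.mul_apply, swap_apply_of_ne_of_ne (hane i k hi hk hik) (hane i l hi hl hil), swap_apply_left]
      have hmain : ∀ h : K, a i ∈ h • B → (h = g ∨ h = δ * g) → δ • (h • B) ≠ h • B →
          ∀ y ∈ h • B, y = a i ∨ y = a k ∨ y = a l := by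
        intro h hi' hh hne y hy
        have hy4 : y = a i ∨ y = a j ∨ y = a k ∨ y = a l := by
          rcases hh with rfl | rfl
          · exact hmoved _ (Or.inl rfl) y hy
          · exact hmoved _ (Or.inr rfl) y (by rwa [← mul_smul])
        rcases hy4 with e | e | e | e
        · exact Or.inl e
        · exfalso
          exact hne (((hB.translate h).smul_eq_of_mem hi') (hδi ▸ e ▸ hy))
        · exact Or.inr (Or.inl e)
        · exact Or.inr (Or.inr e)
      have hi4 : a i ∈ g • B ∪ δ • (g • B) := by rw [hcover]; simp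
      rcases hi4 with h | h
      · exact ⟨g, h, hmain g h (Or.inl rfl) hg⟩
      · rw [← mul_smul] at h
        refine ⟨δ * g, h, hmain _ h (Or.inr rfl) fun e => hg ?_⟩
        rw [mul_smul, smul_left_cancel_iff] at e
        exact e
    obtain ⟨g, hg, hgB⟩ := hblockof 0 1 2 3 (by omega) (by omega) (by omega) (by omega) (by omega) (by omega)
      (by omega) (by omega) (by omega) (by omega) (hdt 0 1 (by omega) (by omega) (by omega))
    obtain ⟨g', hg', hgB'⟩ := hblockof 0 1 4 5 (by omega) (by omega) (by omega) (by omega) (by omega) (by omega)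
      (by omega) (by omega) (by omega) (by omega) (hdt 0 2 (by omega) (by omega) (by omega))
    have heq : g • B = g' • B := by
      rcases hB.smul_eq_smul_or_disjoint g g' with h | h
      · exact h
      · exact absurd hg' (Set.disjoint_left.1 h hg)
    obtain ⟨y, hy, hy0⟩ : ∃ y ∈ g • B, y ≠ a 0 := by
      by_cases h : g • b₁ = a 0
      · exact ⟨g • b₂, ⟨b₂, hb₂, rfl⟩, fun e => hb12 (smul_left_cancel g (h.trans e.symm))⟩
      · exact ⟨g • b₁, ⟨b₁, hb₁, rfl⟩, h⟩
    have h1 := (hgB y hy).resolve_left hy0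
    have h2 := (hgB' y (heq ▸ hy)).resolve_left hy0
    rcases h1 with rfl | rfl <;> rcases h2 with e | e <;> revert e <;> apply hane <;> omega
  -- three-cycles give the alternating group
  by_cases h3 : ∃ g ∈ K, IsThreeCycle g
  · obtain ⟨g, hg, hg3⟩ := h3
    have hAlt := alternatingGroup_le_of_isPreprimitive_of_isThreeCycle_mem hprim hg3 hg
    let πE : E →* Perm {y // y ∈ Δ} := π.comp E.subtype
    have hπE : Function.Injective πE := (injective_iff_map_eq_one πE).2 fun e he => Subtype.ext (hinj e e.2 he)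
    have hsub : πE.range ≤ alternatingGroup _ := by
      rintro _ ⟨e, rfl⟩
      rw [mem_alternatingGroup]
      exact trivial_hom hF (Group.isSolvable_of_comm mul_comm) (Perm.sign.comp πE) e
    haveI hnorm : (πE.range.subgroupOf (alternatingGroup {y // y ∈ Δ})).Normal := ⟨by
      rintro u ⟨e, he⟩ v
      obtain ⟨h, hh⟩ := hAlt v.2
      refine ⟨⟨h * (e : H) * h⁻¹, hEn.conj_mem _ e.2 h⟩, ?_⟩
      show π (h * (e : H) * h⁻¹) = v.1 * u.1 * v.1⁻¹
      rw [map_mul, map_mul, map_inv, hh, ← show πE e = u.1 from he]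
      rfl⟩
    haveI := alternatingGroup.isSimpleGroup (α := {y // y ∈ Δ}) (by rw [Nat.card_eq_fintype_card]; omega)
    have hrange : πE.range = alternatingGroup _ := by
      rcases hnorm.eq_bot_or_eq_top with h | h
      · exfalso
        haveI := Components.quasisimple_nontrivial hF
        obtain ⟨e, he⟩ := exists_ne (1 : E)
        refine he (hπE ?_)
        have : (⟨πE e, hsub ⟨e, rfl⟩⟩ : alternatingGroup {y // y ∈ Δ}) ∈ (⊥ : Subgroup _) := h ▸ ⟨e, rfl⟩
        rw [map_one]
        exact congrArg Subtype.val (Subgroup.mem_bot.1 this)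
      · exact le_antisymm hsub (Subgroup.subgroupOf_eq_top.1 h)
    exact ⟨Δ.card, hm, ⟨((MonoidHom.ofInjective hπE).trans (MulEquiv.subgroupCongr hrange)).trans
      (Equiv.altCongrHom Δ.equivFin)⟩⟩
  · exfalso
    push Not at h3
    have hQ : IsQ K {a 0, a 1, a 2, a 3} := isQ_of_gens (hane 0 1 (by omega) (by omega) (by omega))
      (hane 2 3 (by omega) (by omega) (by omega)) (hane 0 2 (by omega) (by omega) (by omega))
      (hane 0 3 (by omega) (by omega) (by omega)) (hane 1 2 (by omega) (by omega) (by omega))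
      (hane 1 3 (by omega) (by omega) (by omega))
      (hπdt 0 1 2 3 (by omega) (by omega) (by omega) (by omega) (hdt 0 1 (by omega) (by omega) (by omega)))
      (hπdt 0 2 1 3 (by omega) (by omega) (by omega) (by omega) hKl')
    obtain ⟨φ, htrans, haff⟩ := octet hprim h3 hm8 hQ
    have hassoc : ∀ u v w : Fin 8, xr (xr u v) w = xr u (xr v w) := by decide +kernel
    have hcomm8 : ∀ u v : Fin 8, xr u v = xr v u := by decide +kernel
    have hzero8 : ∀ u : Fin 8, xr u 0 = u ∧ xr u u = 0 := by decide +kernel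
    have tmul : ∀ u v, φ.permCongr (xorPerm u) * φ.permCongr (xorPerm v) = φ.permCongr (xorPerm (xr v u)) :=
      fun u v => Equiv.ext fun y => by
        simp only [Perm.mul_apply, Equiv.permCongr_apply, Equiv.symm_apply_apply]
        exact congrArg φ (hassoc _ v u)
    have tone : φ.permCongr (xorPerm 0) = 1 := Equiv.ext fun y => by
      simp only [Equiv.permCongr_apply, Perm.one_apply]
      show φ (xr (φ.symm y) 0) = y
      rw [(hzero8 _).1, Equiv.apply_symm_apply]
    let N : Subgroup E := {
      carrier := {e | ∃ u, π (e : H) = φ.permCongr (xorPerm u)}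
      one_mem' := ⟨0, by rw [tone]; exact map_one π⟩
      mul_mem' := by
        rintro e f ⟨u, hu⟩ ⟨v, hv⟩
        exact ⟨xr v u, by rw [Subgroup.coe_mul, map_mul, hu, hv, tmul]⟩
      inv_mem' := by
        rintro e ⟨u, hu⟩
        refine ⟨u, ?_⟩
        rw [Subgroup.coe_inv, map_inv, hu]
        exact inv_eq_of_mul_eq_one_right (by rw [tmul, (hzero8 u).2, tone]) }
    have hconj : ∀ (h : H) u, ∃ v, π h * φ.permCongr (xorPerm u) * (π h)⁻¹ = φ.permCongr (xorPerm v) := by
      intro h u
      refine ⟨xr (φ.symm (π h (φ u))) (φ.symm (π h (φ 0))), ?_⟩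
      rw [mul_inv_eq_iff_eq_mul]
      refine Equiv.ext fun y => ?_
      obtain ⟨i, rfl⟩ := φ.surjective y
      simp only [Perm.mul_apply, Equiv.permCongr_apply, Equiv.symm_apply_apply]
      show π h (φ (xr i u)) = φ (xr (φ.symm (π h (φ i))) _)
      rw [← hassoc, ← haff (π h) ⟨h, rfl⟩ i u, Equiv.apply_symm_apply]
    have hN : N.Normal := ⟨by
      rintro e ⟨u, hu⟩ f
      obtain ⟨v, hv⟩ := hconj (f : H) u
      exact ⟨v, by rw [Subgroup.coe_mul, Subgroup.coe_mul, Subgroup.coe_inv, map_mul, map_mul, map_inv, hu, hv]⟩⟩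
    have hne : N ≠ ⊤ := fun h => Components.quasisimple_not_solvable hF (Group.isSolvable_of_comm fun e f => by
      obtain ⟨u, hu⟩ : e ∈ N := h ▸ Subgroup.mem_top e
      obtain ⟨v, hv⟩ : f ∈ N := h ▸ Subgroup.mem_top f
      refine Subtype.ext (mul_inv_eq_one.1 (hinj _ (mul_mem (mul_mem e.2 f.2) (inv_mem (mul_mem f.2 e.2))) ?_))
      rw [map_mul, map_inv, Subgroup.coe_mul, Subgroup.coe_mul, map_mul, map_mul, hu, hv, tmul, tmul, hcomm8, mul_inv_cancel])
    apply hne
    rw [Subgroup.eq_top_iff']
    intro e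
    have hcomm : ∀ u, π (e : H) * φ.permCongr (xorPerm u) = φ.permCongr (xorPerm u) * π (e : H) := by
      intro u
      obtain ⟨d, hd⟩ := htrans u
      have := commute_of_mod hF N hN hne (d := d) fun f => ⟨⟨(f : H) * d * (f : H)⁻¹ * d⁻¹, by
          have h1 := mul_mem f.2 (hEn.conj_mem _ (inv_mem f.2) d)
          simpa [mul_assoc] using h1⟩, by
            obtain ⟨v, hv⟩ := hconj (f : H) u
            refine ⟨xr u v, ?_⟩
            show π ((f : H) * d * (f : H)⁻¹ * d⁻¹) = _
            rw [map_mul, map_mul, map_mul, map_inv, map_inv, hd, hv,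
              inv_eq_of_mul_eq_one_right (show φ.permCongr (xorPerm u) * φ.permCongr (xorPerm u) = 1 by
                rw [tmul, (hzero8 u).2, tone]), tmul], rfl⟩
      have h1 := congrArg π (this e)
      rwa [map_mul, map_mul, hd] at h1
    refine ⟨φ.symm (π (e : H) (φ 0)), Equiv.ext fun y => ?_⟩
    obtain ⟨i, rfl⟩ := φ.surjective y
    have h1 := DFunLike.congr_fun (hcomm i) (φ 0)
    simp only [Perm.mul_apply, Equiv.permCongr_apply, Equiv.symm_apply_apply] at h1
    rw [show xorPerm i 0 = i from (hcomm8 0 i).trans (hzero8 i).1] at h1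
    rw [h1, Equiv.permCongr_apply, Equiv.symm_apply_apply]
    exact congrArg φ (hcomm8 _ _)

end Cfsg.Agent.S2928
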