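import Cfsg.Statements.S2929
import Cfsg.Agent.Lib.ThreeCycleClasses
import Cfsg.Agent.Components.FStar
import Cfsg.Agent.Char.Burnside

set_option autoImplicit false
open Cfsg

namespace Cfsg.Agent.S2929

open Equiv Equiv.Perm
open scoped commutatorElement
open Cfsg.Agent.ThreeClass

theorem three_cycle_commutative_action {α : Type*} [Fintype α] [DecidableEq α] {t f g : Perm α}
    (h3 : IsThreeCycle t) (hf : Commute f t) (hg : Commute g t) {x : α} (hx : t x ≠ x) :
    f (g x) = g (f x) := by
  have mv : ∀ {p : Perm α}, Commute p t → ∀ y, p (t y) = t (p y) := fun {p} hp y =>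
    DFunLike.congr_fun hp.eq y
  have mvd : ∀ {p : Perm α}, Commute p t → t (p x) ≠ p x := fun {p} hp e => hx (p.injective (by rw [mv hp, e]))
  have h := fun {p : Perm α} (hp : Commute p t) => pow_maps h3 hx (mvd hp)
  rcases h hf with e | e | e <;> rcases h hg with e' | e' | e' <;>
    simp [e, e', mv hf, mv hg]

theorem isSolvable_alternating_small {k : ℕ} (hk : k ≤ 4) : Group.IsSolvable (alternatingGroup (Fin k)) := by
  refine Cfsg.Agent.Char.solvable_of_card_eq_pow_mul_pow 2 3 Nat.prime_two Nat.prime_three _ rfl fun r hr hd => ?_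
  have h1 : Nat.card (alternatingGroup (Fin k)) ∣ k.factorial := by
    have := (alternatingGroup (Fin k)).card_subgroup_dvd_card
    rwa [Nat.card_perm, Nat.card_fin] at this
  have hrk := (hr.dvd_factorial).1 (hd.trans h1)
  have : r ≤ 4 := hrk.trans hk
  have := hr.two_le
  interval_cases r <;> first | exact Or.inl rfl | exact Or.inr rfl | exact absurd hr (by norm_num)

theorem exists_uncovered (n : ℕ) (H : Subgroup (Perm (Fin n)))
    (hS : ∃ P : Sylow 3 (Perm (Fin n)), (P : Subgroup (Perm (Fin n))) ≤ H) :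
    ∃ U : Finset (Fin n), U.card ≤ 2 ∧ ∀ y ∉ U, ∃ g ∈ H, IsThreeCycle g ∧ g y ≠ y := by
  haveI : Fact (Nat.Prime 3) := ⟨Nat.prime_three⟩
  obtain ⟨P, hP⟩ := hS
  let a : Fin (n / 3) → Fin n := fun i => ⟨3 * (i : ℕ), by omega⟩
  let b : Fin (n / 3) → Fin n := fun i => ⟨3 * (i : ℕ) + 1, by omega⟩
  let c : Fin (n / 3) → Fin n := fun i => ⟨3 * (i : ℕ) + 2, by omega⟩
  let t : Fin (n / 3) → Perm (Fin n) := fun i => Alt.cyc3 (a i) (b i) (c i)
  have hab : ∀ i, a i ≠ b i := fun i => by simp [a, b, Fin.ext_iff]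
  have hac : ∀ i, a i ≠ c i := fun i => by simp [a, c, Fin.ext_iff]
  have hbc : ∀ i, b i ≠ c i := fun i => by simp [b, c, Fin.ext_iff]
  have h3 : ∀ i, IsThreeCycle (t i) := fun i => Alt.isThreeCycle_cyc3 (hab i) (hac i) (hbc i)
  have hfix : ∀ (i : Fin (n / 3)) (y : Fin n), (y : ℕ) / 3 ≠ (i : ℕ) → t i y = y := fun i y hy =>
    Alt.cyc3_apply_other (by rintro rfl; simp [a] at hy) (by rintro rfl; simp [b] at hy; omega)
      (by rintro rfl; simp [c] at hy; omega)
  have hcomm : ∀ i j, Commute (t i) (t j) := by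
    intro i j
    by_cases hij : i = j
    · subst hij; exact Commute.refl _
    · refine Equiv.Perm.Disjoint.commute fun y => ?_
      by_cases hy : (y : ℕ) / 3 = i
      · exact Or.inr (hfix j y fun e => hij (Fin.ext (hy.symm.trans e)))
      · exact Or.inl (hfix i y hy)
  set C := Subgroup.closure (Set.range t) with hC
  haveI : IsMulCommutative C := Subgroup.isMulCommutative_closure (by
    rintro _ ⟨i, rfl⟩ _ ⟨j, rfl⟩; exact hcomm i j)
  have hpow : ∀ x ∈ C, x ^ 3 = 1 := by
    intro x hx
    induction hx using Subgroup.closure_induction with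
    | mem y hy =>
      obtain ⟨i, rfl⟩ := hy
      rw [← (h3 i).orderOf, pow_orderOf_eq_one]
    | one => simp
    | mul y z hy hz ihy ihz =>
      have : Commute y z := congrArg Subtype.val (mul_comm' (⟨y, hy⟩ : C) ⟨z, hz⟩)
      rw [this.mul_pow, ihy, ihz, one_mul]
    | inv y _ ih => rw [inv_pow, ih, inv_one]
  have hCp : IsPGroup 3 C := fun x => ⟨1, Subtype.ext (by simpa using hpow x x.2)⟩
  obtain ⟨Q, hQ⟩ := hCp.exists_le_sylow
  obtain ⟨k, hk⟩ := MulAction.exists_smul_eq (Perm (Fin n)) Q P
  refine ⟨((Finset.univ.filter fun y : Fin n => 3 * (n / 3) ≤ (y : ℕ)).image k), ?_, ?_⟩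
  · refine Finset.card_image_le.trans ?_
    have hsub : ((Finset.univ.filter fun y : Fin n => 3 * (n / 3) ≤ (y : ℕ)).image fun y : Fin n => (y : ℕ)) ⊆
        Finset.Ico (3 * (n / 3)) n := by
      intro y hy
      obtain ⟨z, hz, rfl⟩ := Finset.mem_image.1 hy
      exact Finset.mem_Ico.2 ⟨(Finset.mem_filter.1 hz).2, z.2⟩
    have := Finset.card_le_card hsub
    rw [Finset.card_image_of_injective _ Fin.val_injective, Nat.card_Ico] at this
    omega
  · intro y hy
    have hlt : ((k⁻¹ y : Fin n) : ℕ) < 3 * (n / 3) := by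
      by_contra h
      exact hy (Finset.mem_image.2 ⟨k⁻¹ y, Finset.mem_filter.2 ⟨Finset.mem_univ _, by omega⟩, by simp⟩)
    let i : Fin (n / 3) := ⟨((k⁻¹ y : Fin n) : ℕ) / 3, by omega⟩
    refine ⟨k * t i * k⁻¹, hP ?_, isThreeCycle_conj k (h3 i), ?_⟩
    · rw [← hk]
      exact ⟨t i, hQ (Subgroup.subset_closure ⟨i, rfl⟩), rfl⟩
    · intro he
      have h' : t i (k⁻¹ y) = k⁻¹ y := by
        apply k.injective
        simpa using he
      have hz : k⁻¹ y = a i ∨ k⁻¹ y = b i ∨ k⁻¹ y = c i := by
        simp only [a, b, c, i, Fin.ext_iff]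
        omega
      rcases hz with e | e | e
      · exact (hab i) (by rw [← e]; exact (h'.symm.trans (by rw [e]; exact Alt.cyc3_apply_left (hab i) (hac i))))
      · exact (hbc i) (by rw [← e]; exact (h'.symm.trans (by rw [e]; exact Alt.cyc3_apply_mid (hac i) (hbc i))))
      · exact (hac i).symm (by rw [← e]; exact (h'.symm.trans (by rw [e]; exact Alt.cyc3_apply_right _ _ _)))


/-- Let n ≥ 5 and let H be a subgroup of the symmetric group of degree n whose generalized Fitting subgroup F*(H) is quasisimple. If H contains a Sylow 3-subgroup of the symmetric group, then F*(H) is isomorphic to an alternating group of degree m for some m ∈ {n − 2, n − 1, n}. -/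
theorem result (n : ℕ) (hn : 5 ≤ n) (H : Subgroup (Equiv.Perm (Fin n))) (hF : Cfsg.IsQuasisimple ↥(Cfsg.generalizedFittingSubgroup ↥H)) (hS : ∃ P : Sylow 3 (Equiv.Perm (Fin n)), (P : Subgroup (Equiv.Perm (Fin n))) ≤ H) : ∃ m : ℕ, (m = n - 2 ∨ m = n - 1 ∨ m = n) ∧ Nonempty (↥(Cfsg.generalizedFittingSubgroup ↥H) ≃* ↥(alternatingGroup (Fin m))) := by
  classical
  obtain ⟨U, hU, hcov⟩ := exists_uncovered n H hS
  set F := Cfsg.generalizedFittingSubgroup ↥H with hFdef
  have hFn : F.Normal := Components.genFitting_normal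
  have hFc : Cfsg.IsComponent F := ⟨hFn.isSubnormal, hF⟩
  let N : Fin n → Subgroup H := fun x => (altOn (cls H x)).subgroupOf H
  let A : Subgroup H := Subgroup.closure {t : H | IsThreeCycle (t : Perm (Fin n))}
  have hAn : A.Normal := ⟨fun a ha g => by
    have hle : A ≤ A.comap (MulAut.conj g).toMonoidHom :=
      (Subgroup.closure_le _).2 fun t ht => Subgroup.subset_closure (isThreeCycle_conj (g : Perm (Fin n)) ht)
    exact hle ha⟩
  have hNA : ∀ x, N x ≤ A := by
    intro x g hg
    have hle : altOn (cls H x) ≤ A.map H.subtype := by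
      rw [altOn, Subgroup.map_le_iff_le_comap, ← closure_three_cycles_eq_alternating, Subgroup.closure_le]
      intro h hh
      rw [SetLike.mem_coe, Subgroup.mem_comap]
      exact ⟨⟨_, altOn_le x ⟨h, mem_alternatingGroup.2 (IsThreeCycle.sign hh), rfl⟩⟩,
        Subgroup.subset_closure (isThreeCycle_ofSubtype hh), rfl⟩
    obtain ⟨g', hg', e⟩ := hle (Subgroup.mem_subgroupOf.1 hg)
    exact (Subtype.ext e : g' = g) ▸ hg'
  have hNsub : ∀ x, (N x).IsSubnormal := by
    intro x
    refine Subgroup.IsSubnormal.step (N x) A (hNA x) hAn.isSubnormal ?_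
    rw [Subgroup.normal_subgroupOf_iff_le_normalizer (hNA x), Subgroup.closure_le]
    intro t ht
    have hcls : ∀ s : H, IsThreeCycle (s : Perm (Fin n)) → cls H ((s : Perm (Fin n)) x) = cls H x := by
      intro s hs
      by_cases hx : (s : Perm (Fin n)) x = x
      · rw [hx]
      · have hl : Link H x ((s : Perm (Fin n)) x) :=
          Or.inr ⟨s, s.2, hs, hx, fun e => hx ((s : Perm (Fin n)).injective e)⟩
        ext y
        rw [mem_cls, mem_cls]
        exact ⟨link_trans hl, link_trans (link_symm hl)⟩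
    have hconj : ∀ s : H, IsThreeCycle (s : Perm (Fin n)) → ∀ g ∈ N x, s * g * s⁻¹ ∈ N x := by
      intro s hs g hg
      rw [Subgroup.mem_subgroupOf] at hg ⊢
      have := conj_mem_altOn s.2 hg
      rwa [hcls s hs] at this
    rw [SetLike.mem_coe, Subgroup.mem_normalizer_iff]
    intro g
    refine ⟨hconj t ht g, fun h => ?_⟩
    have := hconj t⁻¹ (by simpa using IsThreeCycle.inv ht) _ h
    simpa [mul_assoc] using this
  have hperf : ⁅F, F⁆ = F := Components.quasisimple_commutator_self hF
  -- some class absorbs `F`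
  obtain ⟨x, hx⟩ : ∃ x, F ≤ N x := by
    by_contra hno
    push Not at hno
    have hcomm : ∀ x, ⁅F, N x⁆ = ⊥ := fun x =>
      (Components.component_le_or_commute hFc (hNsub x)).resolve_left (hno x)
    have hfix : ∀ f ∈ F, ∀ y ∉ U, (f : Perm (Fin n)) y = y := by
      intro f hf y hy
      obtain ⟨t, ht, t3, ty⟩ := hcov y hy
      have htN : (⟨t, ht⟩ : H) ∈ N y := Subgroup.mem_subgroupOf.2 (mem_altOn_of_threeCycle ht t3 ty)
      have hc : ∀ g ∈ F, Commute (g : Perm (Fin n)) t := fun g hg =>
        congrArg Subtype.val ((Subgroup.commutator_eq_bot_iff_le_centralizer.1 (hcomm y) hg ⟨t, ht⟩ htN).symm)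
      have hle : F ≤ MulAction.stabilizer H y := by
        rw [← hperf, Subgroup.commutator_le]
        intro g hg g' hg'
        have hgg := three_cycle_commutative_action t3 (hc g⁻¹ (inv_mem hg)) (hc g'⁻¹ (inv_mem hg')) ty
        show ((⁅g, g'⁆ : H) : Perm (Fin n)) y = y
        rw [commutatorElement_def]
        simp only [Subgroup.coe_mul, Subgroup.coe_inv, Perm.mul_apply] at hgg ⊢
        rw [hgg]
        simp
      exact hle hf
    have hab : ∀ f ∈ F, ∀ g ∈ F, f * g = g * f := by
      intro f hf g hg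
      by_cases h1 : (f : Perm (Fin n)) = 1
      · rw [show f = 1 from Subtype.ext h1, one_mul, mul_one]
      by_cases h2 : (g : Perm (Fin n)) = 1
      · rw [show g = 1 from Subtype.ext h2, one_mul, mul_one]
      have hs : ∀ p : H, p ∈ F → (p : Perm (Fin n)) ≠ 1 → (p : Perm (Fin n)).support = U := fun p hp hp1 => by
        refine Finset.eq_of_subset_of_card_le (fun y hy => ?_)
          (hU.trans (Equiv.Perm.two_le_card_support_of_ne_one hp1))
        by_contra hyU
        exact (mem_support.1 hy) (hfix p hp y hyU)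
      have hUc : U.card = 2 := le_antisymm hU (hs f hf h1 ▸ Equiv.Perm.two_le_card_support_of_ne_one h1)
      obtain ⟨u, v, huv, hU2⟩ := Finset.card_eq_two.1 hUc
      have key : ∀ p : H, p ∈ F → (p : Perm (Fin n)) ≠ 1 → (p : Perm (Fin n)) = Equiv.swap u v := by
        intro p hp hp1
        obtain ⟨a, b, hne, he⟩ := card_support_eq_two.1 ((congrArg Finset.card (hs p hp hp1)).trans hUc)
        have hsw := hs p hp hp1
        rw [he, support_swap hne, hU2] at hsw
        have ha : a ∈ ({u, v} : Finset (Fin n)) := hsw ▸ Finset.mem_insert_self a {b}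
        have hb : b ∈ ({u, v} : Finset (Fin n)) := hsw ▸ Finset.mem_insert_of_mem (Finset.mem_singleton_self b)
        simp only [Finset.mem_insert, Finset.mem_singleton] at ha hb
        rw [he]
        rcases ha with rfl | rfl <;> rcases hb with rfl | rfl
        · exact absurd rfl hne
        · rfl
        · exact Equiv.swap_comm _ _
        · exact absurd rfl hne
      exact Subtype.ext (show (f : Perm (Fin n)) * g = g * f by rw [key f hf h1, key g hg h2])
    refine Components.not_self_commute hF (Subgroup.commutator_eq_bot_iff_le_centralizer.2 fun f hf g hg => ?_)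
    exact hab g hg f hf
  set S := cls H x with hSdef
  have hle' : altOn S ≤ H := altOn_le x
  let eN : N x ≃* alternatingGroup (Fin S.card) :=
    (Subgroup.subgroupOfEquivOfLe hle').trans (altOnEquiv S)
  have h5 : 5 ≤ S.card := by
    by_contra hlt
    haveI : Group.IsSolvable (alternatingGroup (Fin S.card)) := isSolvable_alternating_small (by omega)
    haveI : Group.IsSolvable (N x) :=
      Group.isSolvable_of_isSolvable_injective (f := eN.toMonoidHom) eN.injective
    exact Components.quasisimple_solvable_le hF hx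
  haveI : IsSimpleGroup (alternatingGroup (Fin S.card)) :=
    alternatingGroup.isSimpleGroup (by simpa using h5)
  haveI : IsSimpleGroup (N x) := eN.isSimpleGroup
  have hNperf : Group.IsPerfect (N x) := by
    refine ⟨(Subgroup.Normal.eq_bot_or_eq_top (inferInstance : (commutator (N x)).Normal)).resolve_left fun h => ?_⟩
    refine Components.not_self_commute hF (le_bot_iff.1 ((Subgroup.commutator_mono hx hx).trans ?_))
    rw [← Subgroup.map_subtype_commutator, h, Subgroup.map_bot]
  have hNc : Cfsg.IsComponent (N x) := ⟨hNsub x, Components.quasisimple_of_forall_normal fun M hM => by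
    rcases hM.eq_bot_or_eq_top with e | e
    · exact Or.inr (e ▸ bot_le)
    · exact Or.inl e⟩
  have hFN : F = N x := Components.component_eq_of_le hFc hNc hx
  -- everything outside the class is uncovered
  have hout : ∀ y, y ∉ S → y ∈ U := by
    intro y hy
    by_contra hyU
    obtain ⟨t, ht, t3, ty⟩ := hcov y hyU
    have hall : ∀ z, t z ≠ z → z ∉ S := fun z hz hzS =>
      hy (mem_cls.2 (link_trans (mem_cls.1 hzS) (Or.inr ⟨t, ht, t3, hz, ty⟩)))
    have hmem : (⟨t, ht⟩ : H) ∈ Subgroup.centralizer (F : Set H) := by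
      rw [Subgroup.mem_centralizer_iff]
      intro g hg
      rw [hFN, SetLike.mem_coe, Subgroup.mem_subgroupOf] at hg
      refine Subtype.ext ?_
      show (g : Perm (Fin n)) * t = t * g
      refine (Equiv.Perm.Disjoint.commute (f := (g : Perm (Fin n))) (g := t) fun z => ?_).eq
      by_cases hz : t z = z
      · exact Or.inr hz
      · exact Or.inl (apply_eq_of_mem_altOn hg (hall z hz))
    have h2 := Components.centralizer_genFitting_le hmem
    rw [← hFdef, hFN, Subgroup.mem_subgroupOf] at h2
    exact ty (apply_eq_of_mem_altOn h2 hy)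
  refine ⟨S.card, ?_, ⟨(MulEquiv.subgroupCongr hFN).trans eN⟩⟩
  have h1 : Sᶜ ⊆ U := fun y hy => hout y (Finset.mem_compl.1 hy)
  have h2 := (Finset.card_le_card h1).trans hU
  rw [Finset.card_compl, Fintype.card_fin] at h2
  have h3 : S.card ≤ n := by simpa using S.card_le_univ
  omega

end Cfsg.Agent.S2929
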