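import Cfsg.Statements.S2930
import Cfsg.Agent.Lib.ThreeCycleClasses
import Cfsg.Agent.Lib.AltAutThree
import Cfsg.Agent.Components.FStar

set_option autoImplicit false
open Cfsg

namespace Cfsg.Agent.S2930

open Equiv Equiv.Perm
open Cfsg.Agent.ThreeClass
open MulAction

/-- The permutations preserving a set. -/
def keep {α : Type*} (O : Set α) : Subgroup (Perm α) where
  carrier := {g | ∀ y, g y ∈ O ↔ y ∈ O}
  one_mem' := fun _ => Iff.rfl
  mul_mem' := fun {a b} ha hb y => (ha (b y)).trans (hb y)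
  inv_mem' := fun {a} ha y => by simpa using (ha (a⁻¹ y)).symm

/-- The permutations preserving a relation. -/
def keepRel {α : Type*} (R : α → α → Prop) : Subgroup (Perm α) where
  carrier := {g | ∀ x y, R (g x) (g y) ↔ R x y}
  one_mem' := fun _ _ => Iff.rfl
  mul_mem' := fun {a b} ha hb x y => (ha (b x) (b y)).trans (hb x y)
  inv_mem' := fun {a} ha x y => by simpa using (ha (a⁻¹ x) (a⁻¹ y)).symm

variable {n : ℕ}

theorem pow_three_orbit (P : Subgroup (Perm (Fin n))) (hP : IsPGroup 3 P) (x : Fin n) :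
    ∃ a : ℕ, (orbit P x).ncard = 3 ^ a := by
  haveI : Fact (Nat.Prime 3) := ⟨Nat.prime_three⟩
  obtain ⟨k, hk⟩ := IsPGroup.iff_card.1 hP
  have h1 := (stabilizer P x).index_dvd_card
  rw [index_stabilizer, hk] at h1
  obtain ⟨a, -, ha⟩ := (Nat.dvd_prime_pow Nat.prime_three).1 h1
  exact ⟨a, ha⟩

theorem exists_central_on (P : Subgroup (Perm (Fin n))) (hP : IsPGroup 3 P) (u : Fin n)
    (hu : ∃ p ∈ P, p u ≠ u) :
    ∃ z : Perm (Fin n), z ^ 3 = 1 ∧ (∀ y, y ∉ orbit P u → z y = y) ∧
      (∀ y ∈ orbit P u, z y ≠ y ∧ z y ∈ orbit P u) ∧ ∀ p ∈ P, Commute z p := by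
  classical
  haveI : Fact (Nat.Prime 3) := ⟨Nat.prime_three⟩
  let O := orbit P u
  let f : P →* Perm O := MulAction.toPermHom P O
  have hf : ∀ (p : P) (y : O), ((f p y : O) : Fin n) = (p : Perm (Fin n)) y := fun _ _ => rfl
  have hne : Nontrivial f.range := by
    obtain ⟨p, hp, hpu⟩ := hu
    rw [Subgroup.nontrivial_iff_ne_bot]
    intro h
    have h1 : f ⟨p, hp⟩ = 1 := Subgroup.mem_bot.1 (h ▸ ⟨⟨p, hp⟩, rfl⟩)
    have h2 := congrArg (fun q : Perm O => ((q ⟨u, mem_orbit_self u⟩ : O) : Fin n)) h1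
    exact hpu h2
  have hR : IsPGroup 3 f.range := hP.of_surjective f.rangeRestrict f.rangeRestrict_surjective
  haveI : Nontrivial (Subgroup.center f.range) := hR.center_nontrivial
  obtain ⟨c, hc⟩ := exists_prime_orderOf_dvd_card' (G := Subgroup.center f.range) 3 (by
    obtain ⟨k, hk⟩ := IsPGroup.iff_card.1 (hR.to_subgroup (Subgroup.center f.range))
    rcases k with _ | k
    · exact absurd hk (by simpa using (Finite.one_lt_card (α := Subgroup.center f.range)).ne')
    · rw [hk]; exact dvd_pow_self 3 k.succ_ne_zero)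
  let q : Perm O := ((c : f.range) : Perm O)
  have hq : orderOf q = 3 := by rw [Subgroup.orderOf_coe, Subgroup.orderOf_coe, hc]
  have hqc : ∀ p : P, q * f p = f p * q := fun p =>
    (congrArg Subtype.val (Subgroup.mem_center_iff.1 c.2 ⟨f p, ⟨p, rfl⟩⟩)).symm
  obtain ⟨y₀, hy₀⟩ : ∃ y, q y ≠ y := by
    by_contra hall
    push Not at hall
    rw [show q = 1 from Equiv.ext hall, orderOf_one] at hq
    omega
  have hfree : ∀ y, q y ≠ y := by
    intro y hy
    apply hy₀
    obtain ⟨p, hp⟩ := (orbit_eq_iff.2 y.2).ge y₀.2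
    have : f p y = y₀ := Subtype.ext hp
    rw [← this, ← Perm.mul_apply, hqc p, Perm.mul_apply, hy]
  have hinv : ∀ (p : P) (y : Fin n), (p : Perm (Fin n)) y ∈ O ↔ y ∈ O := fun p y => by
    constructor
    · intro h
      have := MulAction.mem_orbit_of_mem_orbit p⁻¹ h
      simpa [Subgroup.smul_def] using this
    · exact fun h => MulAction.mem_orbit_of_mem_orbit p h
  let z : Perm (Fin n) := Perm.ofSubtype q
  have hz1 : ∀ y, y ∉ O → z y = y := fun y hy => Perm.ofSubtype_apply_of_not_mem q hy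
  have hz2 : ∀ (y : Fin n) (hy : y ∈ O), z y = q ⟨y, hy⟩ := fun y hy => Perm.ofSubtype_apply_of_mem q hy
  refine ⟨z, by rw [← map_pow, ← hq, pow_orderOf_eq_one, map_one], hz1, fun y hy => ?_, fun p hp => ?_⟩
  · rw [hz2 y hy]
    exact ⟨fun e => hfree ⟨y, hy⟩ (Subtype.ext e), (q ⟨y, hy⟩).2⟩
  · refine Equiv.ext fun y => ?_
    show z (p y) = p (z y)
    by_cases hy : y ∈ O
    · rw [hz2 _ ((hinv ⟨p, hp⟩ y).2 hy), hz2 y hy]
      exact congrArg (fun s : Perm O => ((s ⟨y, hy⟩ : O) : Fin n)) (hqc ⟨p, hp⟩)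
    · rw [hz1 y hy, hz1 _ fun h => hy ((hinv ⟨p, hp⟩ y).1 h)]

variable {K : Subgroup (Perm (Fin n))}

theorem mixing {z : Perm (Fin n)} (hz3 : ∀ y, z (z (z y)) = y) (hzy : ∀ y, z y ≠ y) (hn : 10 ≤ n)
    (hK : ∀ g, Commute g z → g ∈ alternatingGroup (Fin n) → g ∈ K)
    (A : Finset (Fin n)) (hA : 7 ≤ A.card) (hlink : ∀ a ∈ A, ∀ b ∈ A, Link K a b) (x y : Fin n) :
    Link K x y := by
  classical
  have hz2 : ∀ y, z (z y) ≠ y := fun y h => hzy y (by conv_rhs => rw [← hz3 y]; rw [h])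
  let T : Fin n → Finset (Fin n) := fun a => {a, z a, z (z a)}
  have hT3 : ∀ a, (T a).card ≤ 3 := fun a => Finset.card_le_three
  have hTz : ∀ a b, z b ∈ T a ↔ b ∈ T a := fun a b => by
    simp only [T, Finset.mem_insert, Finset.mem_singleton, EmbeddingLike.apply_eq_iff_eq]
    constructor
    · rintro (e | e | e)
      · exact Or.inr (Or.inr (by rw [← e, hz3]))
      · exact Or.inl e
      · exact Or.inr (Or.inl e)
    · rintro (e | e | e)
      · exact Or.inr (Or.inl e)
      · exact Or.inr (Or.inr e)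
      · exact Or.inl (by rw [e, hz3])
  have key : ∀ t, ∃ a ∈ A, Link K t a := by
    intro t
    obtain ⟨a, ha, hat⟩ := Finset.exists_mem_notMem_of_card_lt_card
      (lt_of_le_of_lt (hT3 t) (by omega : 3 < A.card))
    obtain ⟨a', ha', ha''⟩ := Finset.exists_mem_notMem_of_card_lt_card
      (lt_of_le_of_lt ((Finset.card_union_le (T t) (T a)).trans (Nat.add_le_add (hT3 t) (hT3 a)))
        (by omega : 3 + 3 < A.card))
    obtain ⟨w, -, hw⟩ := Finset.exists_mem_notMem_of_card_lt_card (t := (Finset.univ : Finset (Fin n)))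
      (lt_of_le_of_lt ((Finset.card_union_le (T t ∪ T a) (T a')).trans
        (Nat.add_le_add ((Finset.card_union_le (T t) (T a)).trans (Nat.add_le_add (hT3 t) (hT3 a))) (hT3 a')))
        (by simp; omega))
    simp only [Finset.mem_union, not_or] at ha'' hw
    have hnot : ∀ {r s}, s ∉ T r → ∀ i, i = r ∨ i = z r ∨ i = z (z r) →
        i ≠ s ∧ i ≠ z s ∧ i ≠ z (z s) := by
      intro r s hs i hi
      have hi' : i ∈ T r := by simpa [T] using hi
      exact ⟨fun e => hs (e ▸ hi'), fun e => hs ((hTz r s).1 (e ▸ hi')),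
        fun e => hs ((hTz r s).1 ((hTz r (z s)).1 (e ▸ hi')))⟩
    obtain ⟨d0, d1, d2⟩ := hnot hat t (Or.inl rfl)
    obtain ⟨e0, e1, e2⟩ := hnot hat (z t) (Or.inr (Or.inl rfl))
    obtain ⟨f0, f1, f2⟩ := hnot hat (z (z t)) (Or.inr (Or.inr rfl))
    obtain ⟨p0, p1, p2⟩ := hnot hw.1.1 t (Or.inl rfl)
    obtain ⟨q0, q1, q2⟩ := hnot hw.1.1 (z t) (Or.inr (Or.inl rfl))
    obtain ⟨r0, r1, r2⟩ := hnot hw.1.1 (z (z t)) (Or.inr (Or.inr rfl))
    obtain ⟨s0, s1, s2⟩ := hnot hw.1.2 a (Or.inl rfl)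
    obtain ⟨u0, u1, u2⟩ := hnot hw.1.2 (z a) (Or.inr (Or.inl rfl))
    obtain ⟨v0, v1, v2⟩ := hnot hw.1.2 (z (z a)) (Or.inr (Or.inr rfl))
    set g1 := Alt.cyc3 a t w with hg1
    set g2 := Alt.cyc3 (z a) (z t) (z w) with hg2
    set g3 := Alt.cyc3 (z (z a)) (z (z t)) (z (z w)) with hg3
    have h12 : Commute g1 g2 := Equiv.Perm.Disjoint.commute fun i => by
      by_cases h : i = a ∨ i = t ∨ i = w
      · right
        rcases h with rfl | rfl | rfl
        · exact Alt.cyc3_apply_other (hzy _).symm e0.symm s1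
        · exact Alt.cyc3_apply_other d1 (hzy _).symm p1
        · exact Alt.cyc3_apply_other u0.symm q0.symm (hzy _).symm
      · push Not at h
        exact Or.inl (Alt.cyc3_apply_other h.1 h.2.1 h.2.2)
    have h23 : Commute g2 g3 := by
      have : g2 = z * g1 * z⁻¹ ∧ g3 = z * g2 * z⁻¹ := ⟨(Alt.cyc3_conj z _ _ _).symm, (Alt.cyc3_conj z _ _ _).symm⟩
      rw [this.2]; nth_rw 1 [this.1]
      exact (Commute.conj_iff z).2 h12
    have h13 : Commute g1 g3 := by
      have h := (Commute.conj_iff (z * z)).2 h12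
      have e1' : z * z * g1 * (z * z)⁻¹ = g3 := Alt.cyc3_conj (z * z) _ _ _
      have e2' : z * z * g2 * (z * z)⁻¹ = g1 := by
        rw [hg2, Alt.cyc3_conj]
        simp [hz3, hg1]
      rw [e1', e2'] at h
      exact h.symm
    set g := g1 * g2 * g3 with hg
    have hgz : Commute g z := by
      have e1' : z * g1 * z⁻¹ = g2 := Alt.cyc3_conj z _ _ _
      have e2' : z * g2 * z⁻¹ = g3 := Alt.cyc3_conj z _ _ _
      have e3' : z * g3 * z⁻¹ = g1 := by
        rw [hg3, Alt.cyc3_conj]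
        simp [hz3, hg1]
      have : z * g * z⁻¹ = g := by
        calc z * g * z⁻¹ = (z * g1 * z⁻¹) * (z * g2 * z⁻¹) * (z * g3 * z⁻¹) := by rw [hg]; group
          _ = g2 * g3 * g1 := by rw [e1', e2', e3']
          _ = g1 * g2 * g3 := by rw [mul_assoc, ← h13.eq, ← mul_assoc, ← h12.eq]
      exact (mul_inv_eq_iff_eq_mul.1 this).symm
    have hgA : g ∈ alternatingGroup (Fin n) :=
      mul_mem (mul_mem (Alt.cyc3_mem d0.symm s0 p0) (Alt.cyc3_mem e1.symm (z.injective.ne s0) (z.injective.ne p0)))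
        (Alt.cyc3_mem f2.symm (z.injective.ne (z.injective.ne s0)) (z.injective.ne (z.injective.ne p0)))
    have hga : g a = t := by
      show g1 (g2 (g3 a)) = t
      rw [hg3, Alt.cyc3_apply_other (hz2 _).symm f0.symm s2, hg2,
        Alt.cyc3_apply_other (hzy _).symm e0.symm s1, hg1, Alt.cyc3_apply_left d0.symm s0]
    have hga' : g a' = a' := by
      obtain ⟨A0, A1, A2⟩ := hnot ha''.1 t (Or.inl rfl)
      obtain ⟨B0, B1, B2⟩ := hnot ha''.1 (z t) (Or.inr (Or.inl rfl))
      obtain ⟨C0, C1, C2⟩ := hnot ha''.1 (z (z t)) (Or.inr (Or.inr rfl))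
      obtain ⟨D0, -, -⟩ := hnot ha''.2 a (Or.inl rfl)
      obtain ⟨E0, -, -⟩ := hnot ha''.2 (z a) (Or.inr (Or.inl rfl))
      obtain ⟨F0, -, -⟩ := hnot ha''.2 (z (z a)) (Or.inr (Or.inr rfl))
      obtain ⟨G0, G1, G2⟩ := hnot hw.2 a' (Or.inl rfl)
      show g1 (g2 (g3 a')) = a'
      rw [hg3, Alt.cyc3_apply_other F0.symm C0.symm G2, hg2, Alt.cyc3_apply_other E0.symm B0.symm G1, hg1,
        Alt.cyc3_apply_other D0.symm A0.symm G0]
    refine ⟨a', ha', ?_⟩
    have := link_map (hlink a ha a' ha') (hK g hgz hgA)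
    rwa [hga, hga'] at this
  obtain ⟨a, ha, hxa⟩ := key x
  obtain ⟨b, hb, hyb⟩ := key y
  exact link_trans hxa (link_trans (hlink a ha b hb) (link_symm hyb))

theorem linked_of_keep {O : Set (Fin n)} (hO : ∀ g, g ∈ keep O → g ∈ alternatingGroup (Fin n) → g ∈ K)
    {a b : Fin n} (hab : a ∈ O ↔ b ∈ O) (h : ∃ c, c ≠ a ∧ c ≠ b ∧ (c ∈ O ↔ a ∈ O)) : Link K a b := by
  by_cases e : a = b
  · exact Or.inl e
  obtain ⟨c, hca, hcb, hc⟩ := h
  have h3 := Alt.isThreeCycle_cyc3 e hca.symm hcb.symm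
  refine Or.inr ⟨Alt.cyc3 a b c, hO _ (fun y => ?_) h3.mem_alternatingGroup, h3, ?_, ?_⟩
  · by_cases hya : y = a
    · subst hya; rw [Alt.cyc3_apply_left e hca.symm]; exact hab.symm
    by_cases hyb : y = b
    · subst hyb; rw [Alt.cyc3_apply_mid hca.symm hcb.symm]; exact hc.trans hab
    by_cases hyc : y = c
    · subst hyc; rw [Alt.cyc3_apply_right]; exact hc.symm
    rw [Alt.cyc3_apply_other hya hyb hyc]
  · rw [Alt.cyc3_apply_left e hca.symm]; exact Ne.symm e
  · rw [Alt.cyc3_apply_mid hca.symm hcb.symm]; exact hcb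

theorem card_orbit_index (P : Subgroup (Perm (Fin n))) (u : Fin n) (Q : Subgroup P)
    (hQ : stabilizer P u ≤ Q) :
    (orbit Q u).ncard * Nat.card (stabilizer P u) = Nat.card Q := by
  have h1 : stabilizer Q u = (stabilizer P u).subgroupOf Q := by
    ext q; exact Iff.rfl
  have h2 := (stabilizer Q u).index_mul_card
  rw [index_stabilizer, h1, Nat.card_congr (Subgroup.subgroupOfEquivOfLe hQ).toEquiv] at h2
  exact h2

/-- Two proper subgroups over a Sylow 3-subgroup generating the alternating group. -/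
theorem exists_two (hn : 5 ≤ n) (h6 : n ≠ 6) (h9 : n ≠ 9) (hsp : ¬ ∃ a : ℕ, 2 ≤ a ∧ n = 3 ^ a + 1)
    (P : Sylow 3 (alternatingGroup (Fin n))) :
    ∃ M₁ M₂ : Subgroup (alternatingGroup (Fin n)), M₁ ≠ ⊤ ∧ M₂ ≠ ⊤ ∧
      (P : Subgroup (alternatingGroup (Fin n))) ≤ M₁ ∧ (P : Subgroup (alternatingGroup (Fin n))) ≤ M₂ ∧
      M₁ ⊔ M₂ = ⊤ := by
  classical
  haveI : Fact (Nat.Prime 3) := ⟨Nat.prime_three⟩
  set P' : Subgroup (Perm (Fin n)) :=
    (P : Subgroup (alternatingGroup (Fin n))).map (alternatingGroup (Fin n)).subtype with hP'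
  have hPp : IsPGroup 3 P' := P.2.map _
  have hlift : ∀ L : Subgroup (Perm (Fin n)), P' ≤ L →
      (P : Subgroup (alternatingGroup (Fin n))) ≤ L.comap (alternatingGroup (Fin n)).subtype :=
    fun L h p hp => h ⟨p, hp, rfl⟩
  have hproper : ∀ (L : Subgroup (Perm (Fin n))) (a b c : Fin n), a ≠ b → a ≠ c → b ≠ c →
      Alt.cyc3 a b c ∉ L → L.comap (alternatingGroup (Fin n)).subtype ≠ ⊤ := by
    intro L a b c hab hac hbc hnot h
    exact hnot (h.ge (Subgroup.mem_top ⟨_, Alt.cyc3_mem hab hac hbc⟩))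
  have hgen : ∀ L₁ L₂ : Subgroup (Perm (Fin n)),
      (∀ K : Subgroup (Perm (Fin n)), (∀ g ∈ alternatingGroup (Fin n), g ∈ L₁ → g ∈ K) →
        (∀ g ∈ alternatingGroup (Fin n), g ∈ L₂ → g ∈ K) → ∀ x y, Link K x y) →
      L₁.comap (alternatingGroup (Fin n)).subtype ⊔ L₂.comap (alternatingGroup (Fin n)).subtype = ⊤ := by
    intro L₁ L₂ h
    set M := L₁.comap (alternatingGroup (Fin n)).subtype ⊔ L₂.comap (alternatingGroup (Fin n)).subtype
    have := alternatingGroup_le (h (M.map (alternatingGroup (Fin n)).subtype)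
      (fun g hA hg => ⟨⟨g, hA⟩, Subgroup.mem_sup_left hg, rfl⟩)
      (fun g hA hg => ⟨⟨g, hA⟩, Subgroup.mem_sup_right hg, rfl⟩))
    rw [eq_top_iff]
    intro g _
    obtain ⟨g', hg', e⟩ := this g.2
    exact (Subtype.ext e : g' = g) ▸ hg'
  have hkeep : ∀ x, P' ≤ keep (orbit P' x) := fun x p hp y => by
    constructor
    · intro h
      have := MulAction.mem_orbit_of_mem_orbit (⟨p, hp⟩⁻¹ : P') h
      simpa [Subgroup.smul_def] using this
    · exact fun h => MulAction.mem_orbit_of_mem_orbit (⟨p, hp⟩ : P') h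
  have hpow := pow_three_orbit P' hPp
  -- a nontrivial orbit
  obtain ⟨u₀, hu₀⟩ : ∃ u, ∃ p ∈ P', p u ≠ u := by
    by_contra hall
    push Not at hall
    have h3 : 3 ∣ Nat.card (alternatingGroup (Fin n)) := by
      have hg : IsThreeCycle (Alt.cyc3 (⟨0, by omega⟩ : Fin n) ⟨1, by omega⟩ ⟨2, by omega⟩) :=
        Alt.isThreeCycle_cyc3 (by simp) (by simp) (by simp)
      have := _root_.orderOf_dvd_natCard (⟨_, hg.mem_alternatingGroup⟩ : alternatingGroup (Fin n))
      rwa [Subgroup.orderOf_mk, hg.orderOf] at this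
    refine P.ne_bot_of_dvd_card h3 ((Subgroup.eq_bot_iff_forall _).2 fun p hp => ?_)
    exact Subtype.ext (Equiv.ext fun y => hall y p ⟨p, hp, rfl⟩)
  have hge3 : ∀ {u}, (∃ p ∈ P', p u ≠ u) → 3 ≤ (orbit P' u).ncard := by
    rintro u ⟨p, hp, hpu⟩
    obtain ⟨a, ha⟩ := hpow u
    rcases a with _ | a
    · exfalso
      obtain ⟨v, hv⟩ := Set.ncard_eq_one.1 (by simpa using ha)
      have h1 : u ∈ orbit P' u := mem_orbit_self u
      have h2 : p u ∈ orbit P' u := ⟨⟨p, hp⟩, rfl⟩
      rw [hv, Set.mem_singleton_iff] at h1 h2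
      exact hpu (h2.trans h1.symm)
    · rw [ha, pow_succ]; exact Nat.le_mul_of_pos_left _ (pow_pos (by norm_num) a)
  by_cases hthree : ∃ y w, y ∉ orbit P' u₀ ∧ w ∉ orbit P' u₀ ∧ w ∉ orbit P' y
  · obtain ⟨y, w, hy, hw, hwy⟩ := hthree
    set O := orbit P' u₀ with hOdef
    have hu : u₀ ∈ O := mem_orbit_self u₀
    have hO3 : 3 ≤ O.ncard := hge3 hu₀
    have hOy : ∀ t ∈ O, t ∉ orbit P' y := fun t ht h => hy (by
      show y ∈ orbit P' u₀
      rw [← orbit_eq_iff.2 ht, orbit_eq_iff.2 h]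
      exact mem_orbit_self y)
    have hyO : y ∈ orbit P' y := mem_orbit_self y
    obtain ⟨u', hu', hu'ne⟩ := Set.exists_ne_of_one_lt_ncard (by omega : 1 < O.ncard) u₀
    have huy : u₀ ≠ y := fun e => hy (e ▸ hu)
    have huw' : u₀ ≠ w := fun e => hw (e ▸ hu)
    have hyw : y ≠ w := fun e => hwy (e ▸ hyO)
    refine ⟨_, _, ?_, ?_, hlift _ (hkeep u₀), hlift _ (hkeep y), hgen _ _ fun K h1 h2 => ?_⟩
    · refine hproper _ u₀ y w huy huw' hyw fun h => hy ?_
      have := (h u₀).2 hu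
      rwa [Alt.cyc3_apply_left huy huw'] at this
    · refine hproper _ y w u₀ hyw huy.symm huw'.symm fun h => hwy ?_
      have := (h y).2 hyO
      rwa [Alt.cyc3_apply_left hyw huy.symm] at this
    · have hout : ∀ t, t ∉ orbit P' y → Link K u₀ t := fun t ht => by
        refine linked_of_keep (O := orbit P' y) (fun g hg hA => h2 g hA hg) (iff_of_false (hOy _ hu) ht) ?_
        by_cases e : t = w
        · exact ⟨u', hu'ne, fun e' => hw (e ▸ e' ▸ hu'), iff_of_false (hOy _ hu') (hOy _ hu)⟩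
        · exact ⟨w, fun e' => hw (e' ▸ hu), fun e' => e e'.symm, iff_of_false hwy (hOy _ hu)⟩
      have hall : ∀ t, Link K u₀ t := by
        intro t
        by_cases ht : t ∈ orbit P' y
        swap
        · exact hout t ht
        have htO : t ∉ O := fun h => hOy t h ht
        have htw : t ≠ w := fun e => hwy (e ▸ ht)
        by_cases hex : ∃ c, c ≠ w ∧ c ≠ t ∧ c ∉ O
        · obtain ⟨c, c1, c2, c3⟩ := hex
          exact link_trans (hout w hwy) (linked_of_keep (O := O) (fun g hg hA => h1 g hA hg)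
            (iff_of_false hw htO) ⟨c, c1, c2, iff_of_false c3 hw⟩)
        · push Not at hex
          have huw : u₀ ≠ w := fun e => hw (e ▸ hu)
          have hut : u₀ ≠ t := fun e => htO (e ▸ hu)
          have hu'w : u' ≠ w := fun e => hw (e ▸ hu')
          have hu't : u' ≠ t := fun e => htO (e ▸ hu')
          set g := Equiv.swap w t * Equiv.swap u₀ u' with hgdef
          have hgA : g ∈ alternatingGroup (Fin n) := by
            rw [mem_alternatingGroup, hgdef, map_mul, Perm.sign_swap htw.symm, Perm.sign_swap hu'ne.symm]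
            rfl
          have gw : g w = t := by
            rw [hgdef, Perm.mul_apply, Equiv.swap_apply_of_ne_of_ne huw.symm hu'w.symm, Equiv.swap_apply_left]
          have gt : g t = w := by
            rw [hgdef, Perm.mul_apply, Equiv.swap_apply_of_ne_of_ne hut.symm hu't.symm, Equiv.swap_apply_right]
          have gu : g u₀ = u' := by
            rw [hgdef, Perm.mul_apply, Equiv.swap_apply_left, Equiv.swap_apply_of_ne_of_ne hu'w hu't]
          have gu' : g u' = u₀ := by
            rw [hgdef, Perm.mul_apply, Equiv.swap_apply_right, Equiv.swap_apply_of_ne_of_ne huw hut]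
          have hg : g ∈ keep O := fun s => by
            by_cases s1 : s = w
            · subst s1; rw [gw]; exact iff_of_false htO hw
            by_cases s2 : s = t
            · subst s2; rw [gt]; exact iff_of_false hw htO
            by_cases s3 : s = u₀
            · subst s3; rw [gu]; exact iff_of_true hu' hu
            by_cases s4 : s = u'
            · subst s4; rw [gu']; exact iff_of_true hu hu'
            rw [hgdef, Perm.mul_apply, Equiv.swap_apply_of_ne_of_ne s3 s4, Equiv.swap_apply_of_ne_of_ne s1 s2]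
          have := link_map (hout w hwy) (h1 g hgA hg)
          rw [gu, gw] at this
          exact link_trans (hout u' (hOy _ hu')) this
      exact fun a b => link_trans (link_symm (hall a)) (hall b)
  push Not at hthree
  -- at most two orbits
  have hsplit : ∀ {y}, y ∉ orbit P' u₀ → (orbit P' u₀).ncard + (orbit P' y).ncard = n := by
    intro y hy
    rw [← Set.ncard_union_eq, show orbit P' u₀ ∪ orbit P' y = Set.univ from ?_, Set.ncard_univ, Nat.card_fin]
    · refine Set.eq_univ_of_forall fun t => ?_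
      by_cases ht : t ∈ orbit P' u₀
      · exact Or.inl ht
      · exact Or.inr (hthree y t hy ht)
    · rw [Set.disjoint_left]
      exact fun t h1 h2 => hy ((orbit_eq_iff.2 h1) ▸ (orbit_eq_iff.2 h2) ▸ mem_orbit_self y)
  obtain ⟨z, hz3, hzy, hzc⟩ : ∃ z : Perm (Fin n), z ^ 3 = 1 ∧ (∀ y, z y ≠ y) ∧ ∀ p ∈ P', Commute z p := by
    obtain ⟨z₁, a1, b1, c1, d1⟩ := exists_central_on P' hPp u₀ hu₀
    by_cases hall : ∀ y, y ∈ orbit P' u₀
    · exact ⟨z₁, a1, fun y => (c1 y (hall y)).1, d1⟩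
    push Not at hall
    obtain ⟨y, hy⟩ := hall
    have hy' : ∃ p ∈ P', p y ≠ y := by
      by_contra hfix
      push Not at hfix
      have h1 : orbit P' y = {y} := by
        refine Set.eq_singleton_iff_unique_mem.2 ⟨mem_orbit_self y, ?_⟩
        rintro _ ⟨p, rfl⟩
        exact hfix p p.2
      have hs := hsplit hy
      rw [h1, Set.ncard_singleton] at hs
      obtain ⟨a, ha⟩ := hpow u₀
      refine hsp ⟨a, ?_, by omega⟩
      by_contra h2
      have : 3 ^ a ≤ 3 ^ 1 := Nat.pow_le_pow_right (by norm_num) (by omega)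
      omega
    obtain ⟨z₂, a2, b2, c2, d2⟩ := exists_central_on P' hPp y hy'
    have hc12 : Commute z₁ z₂ := Equiv.Perm.Disjoint.commute fun t => by
      by_cases ht : t ∈ orbit P' u₀
      · refine Or.inr (b2 t fun h => ?_)
        exact hy ((orbit_eq_iff.2 ht) ▸ (orbit_eq_iff.2 h) ▸ mem_orbit_self y)
      · exact Or.inl (b1 t ht)
    refine ⟨z₁ * z₂, by rw [hc12.mul_pow, a1, a2, one_mul], fun t => ?_, fun p hp => (d1 p hp).mul_left (d2 p hp)⟩
    by_cases ht : t ∈ orbit P' u₀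
    · rw [Perm.mul_apply, b2 t fun h => hy ((orbit_eq_iff.2 ht) ▸ (orbit_eq_iff.2 h) ▸ mem_orbit_self y)]
      exact (c1 t ht).1
    · have ht2 := c2 t (hthree y t hy ht)
      rw [Perm.mul_apply, b1 (z₂ t) fun h => hy ((orbit_eq_iff.2 h) ▸ (orbit_eq_iff.2 ht2.2) ▸ mem_orbit_self y)]
      exact ht2.1
  have hz3' : ∀ y, z (z (z y)) = y := fun y => by
    simpa [pow_succ] using DFunLike.congr_fun hz3 y
  -- the centraliser of `z` and a second subgroup with a large block
  suffices hblk : ∃ (L : Subgroup (Perm (Fin n))) (A : Finset (Fin n)) (a b c : Fin n),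
      P' ≤ L ∧ 7 ≤ A.card ∧ 10 ≤ n ∧ (a ≠ b ∧ a ≠ c ∧ b ≠ c ∧ Alt.cyc3 a b c ∉ L) ∧
      ∀ K : Subgroup (Perm (Fin n)), (∀ g ∈ alternatingGroup (Fin n), g ∈ L → g ∈ K) →
        ∀ x ∈ A, ∀ y ∈ A, Link K x y by
    obtain ⟨L, A, a, b, c, hPL, hA, h10, ⟨hab, hac, hbc, hnot⟩, hlink⟩ := hblk
    refine ⟨_, _, ?_, hproper L a b c hab hac hbc hnot,
      hlift (Subgroup.centralizer {z}) fun p hp => Subgroup.mem_centralizer_singleton_iff.2 (hzc p hp).eq.symm,
      hlift L hPL, hgen _ _ fun K h1 h2 => mixing hz3' hzy h10 (fun g hg hA' => h1 g hA'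
        (Subgroup.mem_centralizer_singleton_iff.2 hg.eq)) A hA (hlink K h2)⟩
    let x : Fin n := ⟨0, by omega⟩
    obtain ⟨t, -, ht⟩ := Finset.exists_mem_notMem_of_card_lt_card (t := (Finset.univ : Finset (Fin n)))
      (lt_of_le_of_lt (Finset.card_le_three (a := x) (b := z x) (c := z (z x))) (by simp; omega))
    simp only [Finset.mem_insert, Finset.mem_singleton, not_or] at ht
    obtain ⟨w, -, hw⟩ := Finset.exists_mem_notMem_of_card_lt_card (t := (Finset.univ : Finset (Fin n)))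
      (lt_of_le_of_lt (Finset.card_le_four (a := x) (b := z x) (c := t) (d := z t)) (by simp; omega))
    simp only [Finset.mem_insert, Finset.mem_singleton, not_or] at hw
    refine hproper _ x t w (Ne.symm ht.1) (Ne.symm hw.1) (Ne.symm hw.2.2.1) fun h => ?_
    have hc := DFunLike.congr_fun (Subgroup.mem_centralizer_singleton_iff.1 h) x
    simp only [Perm.mul_apply] at hc
    rw [Alt.cyc3_apply_other (hzy x) (Ne.symm ht.2.1) (Ne.symm hw.2.1),
      Alt.cyc3_apply_left (Ne.symm ht.1) (Ne.symm hw.1)] at hc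
    exact ht.1 (z.injective hc).symm
  by_cases hall : ∀ y, y ∈ orbit P' u₀
  · -- one orbit
    obtain ⟨a, ha⟩ := hpow u₀
    have hna : n = 3 ^ a := by
      rw [← ha, Set.eq_univ_of_forall hall, Set.ncard_univ, Nat.card_fin]
    have ha3 : 3 ≤ a := by
      rcases a with _ | _ | _ | a <;> first | omega | (simp at hna; omega)
    obtain ⟨k, hk⟩ := IsPGroup.iff_card.1 hPp
    have hst : n * Nat.card (stabilizer P' u₀) = Nat.card P' := by
      have := (stabilizer P' u₀).index_mul_card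
      rwa [index_stabilizer, ha, ← hna] at this
    have hstne : stabilizer P' u₀ ≠ ⊤ := fun h => by
      rw [h, Subgroup.card_top] at hst
      have hpos : 0 < Nat.card P' := Nat.card_pos
      nlinarith
    obtain ⟨Q, hQm, hQle⟩ := (eq_top_or_exists_le_coatom (stabilizer P' u₀)).resolve_left hstne
    haveI : Group.IsNilpotent P' := hPp.isNilpotent
    haveI hQn : Q.Normal := Subgroup.NormalizerCondition.normal_of_coatom Q normalizerCondition_of_isNilpotent hQm
    have hQidx : Q.index = 3 := by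
      obtain ⟨i, hi⟩ := IsPGroup.index hPp Q
      have h1 : i ≠ 0 := fun e => hQm.1 (Subgroup.index_eq_one.1 (by rw [hi, e, pow_zero]))
      obtain ⟨c, hc⟩ := exists_prime_orderOf_dvd_card' (G := P' ⧸ Q) 3 (by
        rw [← Subgroup.index_eq_card, hi]; exact dvd_pow_self 3 h1)
      have htop : (Subgroup.zpowers c).comap (QuotientGroup.mk' Q) = ⊤ := by
        rcases hQm.le_iff.1 (show Q ≤ (Subgroup.zpowers c).comap (QuotientGroup.mk' Q) from fun q hq => by
          rw [Subgroup.mem_comap, QuotientGroup.mk'_apply, (QuotientGroup.eq_one_iff q).2 hq]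
          exact one_mem _) with h | h
        · exact h
        · exfalso
          obtain ⟨d, hd⟩ := QuotientGroup.mk'_surjective Q c
          have hdQ : d ∈ Q := h ▸ (show QuotientGroup.mk' Q d ∈ Subgroup.zpowers c from hd ▸ Subgroup.mem_zpowers c)
          rw [← hd, QuotientGroup.mk'_apply, (QuotientGroup.eq_one_iff d).2 hdQ, orderOf_one] at hc
          omega
      have h2 : Subgroup.zpowers c = ⊤ := by
        rw [← Subgroup.map_comap_eq_self_of_surjective (QuotientGroup.mk'_surjective Q) (Subgroup.zpowers c), htop,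
          Subgroup.map_top_of_surjective _ (QuotientGroup.mk'_surjective Q)]
      rw [Subgroup.index_eq_card, ← Subgroup.card_top (G := P' ⧸ Q), ← h2, Nat.card_zpowers, hc]
    have hQcard := card_orbit_index P' u₀ Q hQle
    have hmul := Q.index_mul_card
    rw [hQidx, ← hst, ← hQcard] at hmul
    have hB : 3 * (orbit Q u₀).ncard = n := by
      have hpos : 0 < Nat.card (stabilizer P' u₀) := Nat.card_pos
      apply Nat.eq_of_mul_eq_mul_right hpos
      linarith
    have h27 : 27 ≤ n := hna ▸ (Nat.pow_le_pow_right (by norm_num : 0 < 3) ha3)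
    let R : Fin n → Fin n → Prop := fun x y => y ∈ orbit Q x
    have hRsymm : ∀ {x y}, R x y → R y x := fun {x y} h => (mem_orbit_symm).1 h
    have hRtr : ∀ {x y t}, R x y → R y t → R x t := fun {x y t} h h' => by
      show t ∈ orbit Q x
      rw [← orbit_eq_iff.2 h]
      exact h'
    set B := (Set.toFinite (orbit Q u₀)).toFinset with hBdef
    have hBc : B.card = (orbit Q u₀).ncard := (Set.ncard_eq_toFinset_card _ _).symm
    obtain ⟨b, hb, hbu⟩ := Set.exists_ne_of_one_lt_ncard (by omega : 1 < (orbit Q u₀).ncard) u₀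
    obtain ⟨c, -, hc⟩ := Finset.exists_mem_notMem_of_card_lt_card (s := B) (t := (Finset.univ : Finset (Fin n)))
      (by simp; omega)
    rw [hBdef, Set.Finite.mem_toFinset] at hc
    refine ⟨keepRel R, B, u₀, b, c, fun p hp => ?_, by omega, by omega,
      ⟨hbu.symm, fun e => hc (e ▸ mem_orbit_self u₀), fun e => hc (e ▸ hb), fun h => hc ?_⟩, fun K hK x hx y hy => ?_⟩
    · intro x y
      constructor
      · rintro ⟨q, hq⟩
        refine ⟨⟨⟨p, hp⟩⁻¹ * q * ⟨p, hp⟩, by simpa using hQn.conj_mem _ q.2 ⟨p, hp⟩⁻¹⟩, ?_⟩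
        have : (q : P').1 (p x) = p y := hq
        show (p⁻¹ * (q : P').1 * p) x = y
        simp [this]
      · rintro ⟨q, hq⟩
        refine ⟨⟨⟨p, hp⟩ * q * ⟨p, hp⟩⁻¹, hQn.conj_mem _ q.2 _⟩, ?_⟩
        show (p * (q : P').1 * p⁻¹) (p x) = p y
        have : (q : P').1 x = y := hq
        simp [this]
    · have := (h u₀ b).2 hb
      have huc : u₀ ≠ c := fun e => hc (by rw [← e]; exact mem_orbit_self u₀)
      have hbc : b ≠ c := fun e => hc (by rw [← e]; exact hb)
      rw [Alt.cyc3_apply_left hbu.symm huc, Alt.cyc3_apply_mid huc hbc] at this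
      exact hRtr hb this
    · rw [hBdef, Set.Finite.mem_toFinset] at hx hy
      by_cases exy : x = y
      · exact Or.inl exy
      obtain ⟨w, hw, hw'⟩ := Finset.exists_mem_notMem_of_card_lt_card (s := {x, y}) (t := B)
        (lt_of_le_of_lt Finset.card_le_two (by omega))
      rw [hBdef, Set.Finite.mem_toFinset] at hw
      simp only [Finset.mem_insert, Finset.mem_singleton, not_or] at hw'
      have h3 := Alt.isThreeCycle_cyc3 exy (Ne.symm hw'.1) (Ne.symm hw'.2)
      refine Or.inr ⟨_, hK _ h3.mem_alternatingGroup ?_, h3, ?_, ?_⟩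
      · have hmove : ∀ s, R s (Alt.cyc3 x y w s) := by
          intro s
          by_cases s1 : s = x
          · subst s1; rw [Alt.cyc3_apply_left exy (Ne.symm hw'.1)]; exact hRtr (hRsymm hx) hy
          by_cases s2 : s = y
          · subst s2; rw [Alt.cyc3_apply_mid (Ne.symm hw'.1) (Ne.symm hw'.2)]; exact hRtr (hRsymm hy) hw
          by_cases s3 : s = w
          · subst s3; rw [Alt.cyc3_apply_right]; exact hRtr (hRsymm hw) hx
          rw [Alt.cyc3_apply_other s1 s2 s3]
          exact mem_orbit_self s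
        exact fun s s' => ⟨fun h => hRtr (hmove s) (hRtr h (hRsymm (hmove s'))),
          fun h => hRtr (hRsymm (hmove s)) (hRtr h (hmove s'))⟩
      · rw [Alt.cyc3_apply_left exy (Ne.symm hw'.1)]; exact Ne.symm exy
      · rw [Alt.cyc3_apply_mid (Ne.symm hw'.1) (Ne.symm hw'.2)]; exact hw'.2
  · -- two orbits, one of them with at least nine points
    push Not at hall
    obtain ⟨y, hy⟩ := hall
    have hs := hsplit hy
    obtain ⟨a, ha⟩ := hpow u₀
    obtain ⟨a', ha'⟩ := hpow y
    obtain ⟨v, hv9, hvne⟩ : ∃ v, 9 ≤ (orbit P' v).ncard ∧ (orbit P' v).ncard + 1 ≤ n := by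
      have hpos : ∀ i : ℕ, 1 ≤ 3 ^ i := fun i => Nat.one_le_pow _ _ (by norm_num)
      have := hpos a
      have := hpos a'
      by_cases h1 : 2 ≤ a
      · refine ⟨u₀, ?_, by omega⟩
        have := Nat.pow_le_pow_right (by norm_num : 0 < 3) h1
        omega
      · refine ⟨y, ?_, by omega⟩
        by_contra h
        have h1' : a' < 2 := by
          by_contra h'
          have := Nat.pow_le_pow_right (by norm_num : 0 < 3) (Nat.le_of_not_lt h')
          omega
        have hone : a = 0 ∨ a = 1 := by omega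
        have hone' : a' = 0 ∨ a' = 1 := by omega
        rcases hone with e | e <;> rcases hone' with e' | e' <;> subst e <;> subst e' <;> omega
    obtain ⟨c, hc⟩ : ∃ c, c ∉ orbit P' v := by
      by_contra h
      push Not at h
      rw [Set.eq_univ_of_forall h, Set.ncard_univ, Nat.card_fin] at hvne
      omega
    set B := (Set.toFinite (orbit P' v)).toFinset with hBdef
    have hBc : B.card = (orbit P' v).ncard := (Set.ncard_eq_toFinset_card _ _).symm
    obtain ⟨b, hb, hbv⟩ := Set.exists_ne_of_one_lt_ncard (by omega : 1 < (orbit P' v).ncard) v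
    have hv : v ∈ orbit P' v := mem_orbit_self v
    have hvc : v ≠ c := fun e => hc (e ▸ hv)
    have hbc : b ≠ c := fun e => hc (e ▸ hb)
    refine ⟨keep (orbit P' v), B, v, b, c, hkeep v, by omega, by omega,
      ⟨hbv.symm, hvc, hbc, fun h => hc ?_⟩, fun K hK x hx t ht => ?_⟩
    · have := (h b).2 hb
      rwa [Alt.cyc3_apply_mid hvc hbc] at this
    · rw [hBdef, Set.Finite.mem_toFinset] at hx ht
      refine linked_of_keep (O := orbit P' v) (fun g hg hA => hK g hA hg) (iff_of_true hx ht) ?_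
      obtain ⟨w, hw, hw'⟩ := Finset.exists_mem_notMem_of_card_lt_card (s := {x, t}) (t := B)
        (lt_of_le_of_lt Finset.card_le_two (by omega))
      rw [hBdef, Set.Finite.mem_toFinset] at hw
      simp only [Finset.mem_insert, Finset.mem_singleton, not_or] at hw'
      exact ⟨w, hw'.1, hw'.2, iff_of_true hw hx⟩


/-- Let X be a finite 3-minimal group (a Sylow 3-subgroup is not normal and lies in a unique maximal subgroup) whose generalized Fitting subgroup is isomorphic to an alternating group of degree n ≥ 5. Then X = F*(X), and n = 6, n = 9, or n = 3ᵃ + 1 for some a ≥ 2. -/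
theorem result {X : Type*} [Group X] [Finite X] (hX : Cfsg.IsPMinimal 3 X) (n : ℕ) (hn : 5 ≤ n) (hF : Nonempty (↥(Cfsg.generalizedFittingSubgroup X) ≃* ↥(alternatingGroup (Fin n)))) : Cfsg.generalizedFittingSubgroup X = ⊤ ∧ (n = 6 ∨ n = 9 ∨ ∃ a : ℕ, 2 ≤ a ∧ n = 3 ^ a + 1) := by
  classical
  obtain ⟨e⟩ := hF
  set E := Cfsg.generalizedFittingSubgroup X with hEdef
  haveI hEn : E.Normal := Components.genFitting_normal
  haveI : Fact (Nat.Prime 3) := ⟨Nat.prime_three⟩
  obtain ⟨S⟩ : Nonempty (Sylow 3 X) := inferInstance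
  obtain ⟨hSn, M, ⟨hM, hSM⟩, huniq⟩ := hX S
  have hjoin : ∀ M₁ M₂ : Subgroup X, M₁ ≠ ⊤ → M₂ ≠ ⊤ → (S : Subgroup X) ≤ M₁ → (S : Subgroup X) ≤ M₂ →
      M₁ ⊔ M₂ ≠ ⊤ := by
    intro M₁ M₂ h1 h2 hS1 hS2 htop
    obtain ⟨C₁, hC₁, hle₁⟩ := (eq_top_or_exists_le_coatom M₁).resolve_left h1
    obtain ⟨C₂, hC₂, hle₂⟩ := (eq_top_or_exists_le_coatom M₂).resolve_left h2
    have e1 := huniq C₁ ⟨hC₁, hS1.trans hle₁⟩
    have e2 := huniq C₂ ⟨hC₂, hS2.trans hle₂⟩
    exact hM.1 (top_le_iff.1 (htop ▸ sup_le (e1 ▸ hle₁) (e2 ▸ hle₂)))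
  have hSE : (S : Subgroup X) ≤ E := by
    intro x hx
    obtain ⟨k, hk⟩ := S.2 ⟨x, hx⟩
    have hk' : x ^ 3 ^ k = 1 := by simpa using congrArg Subtype.val hk
    set φ : MulAut (alternatingGroup (Fin n)) := MulAut.congr e (MulAut.conjNormal x) with hφ
    obtain ⟨a, ha⟩ := AltAutThree.exists_inner hn φ (k := k) (by rw [hφ, ← map_pow, ← map_pow, hk', map_one, map_one])
    have hcent : ((e.symm a : E) : X)⁻¹ * x ∈ Subgroup.centralizer (E : Set X) := by
      rw [Subgroup.mem_centralizer_iff]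
      intro v hv
      have h1 := DFunLike.congr_fun ha (e ⟨v, hv⟩)
      have h2 : φ (e ⟨v, hv⟩) = e (MulAut.conjNormal x ⟨v, hv⟩) := by simp [hφ]
      rw [h2, MulAut.conj_apply] at h1
      have h3 := congrArg (fun w => ((e.symm w : E) : X)) h1
      simp only [map_mul, map_inv, MulEquiv.symm_apply_apply, Subgroup.coe_mul, Subgroup.coe_inv,
        MulAut.conjNormal_apply] at h3
      calc v * (((e.symm a : E) : X)⁻¹ * x)
          = ((e.symm a : E) : X)⁻¹ * (((e.symm a : E) : X) * v * ((e.symm a : E) : X)⁻¹) * x := by group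
        _ = ((e.symm a : E) : X)⁻¹ * x * v := by rw [h3]; group
    have h4 := E.mul_mem (e.symm a).2 (Components.centralizer_genFitting_le hcent)
    rwa [mul_inv_cancel_left] at h4
  have hEtop : E = ⊤ := by
    by_contra hE
    have hN : Subgroup.normalizer ((S : Subgroup X) : Set X) ≠ ⊤ := fun h => hSn (Subgroup.normalizer_eq_top_iff.1 h)
    refine hjoin E _ hE hN hSE Subgroup.le_normalizer ?_
    have hfr := Sylow.normalizer_sup_eq_top (S.subtype hSE)
    rw [Sylow.coe_subtype, Subgroup.map_subgroupOf_eq_of_le hSE, sup_comm] at hfr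
    exact hfr
  refine ⟨hEtop, ?_⟩
  by_contra hlist
  push Not at hlist
  let e' : X ≃* alternatingGroup (Fin n) := (Subgroup.topEquiv.symm.trans (MulEquiv.subgroupCongr hEtop.symm)).trans e
  obtain ⟨M₁, M₂, h1, h2, hP1, hP2, htop⟩ := exists_two hn hlist.1 hlist.2.1
    (fun ⟨a, ha, hna⟩ => hlist.2.2 a ha hna) (S.mapSurjective (f := e'.toMonoidHom) e'.surjective)
  have hne : ∀ L : Subgroup (alternatingGroup (Fin n)), L ≠ ⊤ → L.comap e'.toMonoidHom ≠ ⊤ := fun L hL h =>
    hL (Subgroup.comap_injective e'.surjective (h.trans (Subgroup.comap_top _).symm))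
  refine hjoin _ _ (hne M₁ h1) (hne M₂ h2) (Subgroup.map_le_iff_le_comap.1 hP1) (Subgroup.map_le_iff_le_comap.1 hP2) ?_
  rw [Subgroup.comap_sup_eq e'.toMonoidHom M₁ M₂ e'.surjective, htop, Subgroup.comap_top]

end Cfsg.Agent.S2930
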