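import Cfsg.Statements.S2931
import Cfsg.Agent.Linear.Symplectic
import Cfsg.Agent.SympSub.Count
import Cfsg.Agent.Classical.OrthForms
import Cfsg.Agent.OrthTwoSylow.Basic
import Cfsg.Agent.S2931.Data
-- import your own Cfsg.Agent.* helpers here

set_option autoImplicit false
open Cfsg

namespace Cfsg.Agent.S2931

open scoped Matrix

theorem mem_center_sp {F : Type*} [Field F] (g : Matrix.symplecticGroup (Fin 2) F) :
    g ∈ Subgroup.center (Matrix.symplecticGroup (Fin 2) F) ↔ (g.1 = 1 ∨ g.1 = -1) := by
  constructor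
  · intro hg
    obtain ⟨a, ha, hga⟩ := Linear.Symp.center_scalar hg
    rcases sq_eq_one_iff.1 ha with rfl | rfl
    · exact Or.inl (Matrix.ext fun j i => by
        simpa [Linear.Symp.app, Matrix.one_apply, Pi.single_apply] using congrFun (hga (Pi.single i 1)) j)
    · exact Or.inr (Matrix.ext fun j i => by
        have h := congrFun (hga (Pi.single i 1)) j
        rcases eq_or_ne j i with rfl | hne
        · simpa [Linear.Symp.app] using h
        · simpa [Linear.Symp.app, hne] using h)
  · intro h
    refine Linear.Symp.mem_center_iff.2 fun v => ?_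
    rcases h with h | h
    · exact ⟨1, by simp [Linear.Symp.app, h]⟩
    · exact ⟨-1, by simp [Linear.Symp.app, h, Matrix.neg_mulVec]⟩


/-- The Sylow 2-subgroups of the alternating group of degree 8 and of PSp₄(3) are isomorphic, and so are the Sylow 2-subgroups of the symmetric group of degree 8 and of the full isometry group of a non-degenerate quadratic form of minus type in dimension 6 over the field with 2 elements. -/
theorem result (F : Type) [Field F] [Fintype F] (hF : Fintype.card F = 3) (K : Type) [Field K] [Fintype K] (hK : Fintype.card K = 2) (a b : K) (hab : ∀ z₁ z₂ : K, z₁ ^ 2 + a * z₁ * z₂ + b * z₂ ^ 2 = 0 → z₁ = 0 ∧ z₂ = 0) (P : Sylow 2 ↥(alternatingGroup (Fin 8))) (Q : Sylow 2 (Cfsg.PSp 2 F)) (P' : Sylow 2 (Equiv.Perm (Fin 8))) (Q' : Sylow 2 ↥(Cfsg.isometryGroup K (Cfsg.quadFormMinus 2 K a b))) : Nonempty (↥(P : Subgroup ↥(alternatingGroup (Fin 8))) ≃* ↥(Q : Subgroup (Cfsg.PSp 2 F))) ∧ Nonempty (↥(P' : Subgroup (Equiv.Perm (Fin 8))) ≃* ↥(Q' : Subgroup ↥(Cfsg.isometryGroup K (Cfsg.quadFormMinus 2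 K a b)))) := by
  haveI : Fact (Nat.Prime 2) := ⟨Nat.prime_two⟩
  haveI : Fact (Nat.Prime 3) := ⟨Nat.prime_three⟩
  constructor
  · -- `A₈` and `PSp₄(3)`
    haveI : CharP F 3 := charP_of_card_eq_prime hF
    let c : ZMod 3 →+* F := ZMod.castHom dvd_rfl F
    have hc : Function.Injective c := c.injective
    let g₀ : W Q8 →* Matrix.symplecticGroup (Fin 2) F :=
      { toFun := fun w => ⟨(spFour.hom w).map c, SymplecticGroup.mem_iff.2 (by
          have h := congrArg (fun m : M4 => m.map c) (SymplecticGroup.mem_iff.1 (spFour_mem w))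
          have hJ : (Matrix.J (Fin 2) (ZMod 3)).map c = Matrix.J (Fin 2) F := by
            simp [Matrix.J, Matrix.fromBlocks_map, Matrix.map_neg]
          simp only [Matrix.map_mul, Matrix.transpose_map, hJ] at h
          exact h)⟩
        map_one' := Subtype.ext (by simp)
        map_mul' := fun x y => Subtype.ext (by simp [Matrix.map_mul]) }
    let g : W Q8 →* Cfsg.PSp 2 F := (QuotientGroup.mk' _).comp g₀
    let f : W Q8 →* alternatingGroup (Fin 8) := aEight.hom.codRestrict _ aEight_even
    have hf : ∀ w, f w = 1 ↔ w ∈ qKer := fun w => Subtype.ext_iff.trans (aEight_ker w)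
    have hg : ∀ w, g w = 1 ↔ w ∈ qKer := by
      intro w
      rw [spFour_ker]
      show QuotientGroup.mk' _ (g₀ w) = 1 ↔ _
      rw [QuotientGroup.mk'_apply, QuotientGroup.eq_one_iff, mem_center_sp]
      show (spFour.hom w).map c = 1 ∨ (spFour.hom w).map c = -1 ↔ _
      have h1 : (1 : M4).map c = 1 := Matrix.map_one _ (map_zero c) (map_one c)
      have h2 : (-1 : M4).map c = -1 := by rw [Matrix.map_neg _ (map_neg c), h1]
      rw [← h2, ← h1]
      exact or_congr (Matrix.map_injective hc).eq_iff (Matrix.map_injective hc).eq_iff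
    have hW : Nat.card (W Q8) = 128 := by rw [card_W, QuaternionGroup.card]; rfl
    have c1 := card_range f (S := qKer) hf
    have c2 := card_range g (S := qKer) hg
    rw [ncard_qKer, hW] at c1 c2
    have n1 : Nat.card (alternatingGroup (Fin 8)) = 2 ^ 6 * 315 := by
      rw [nat_card_alternatingGroup, Nat.card_fin]; rfl
    have n2 : Nat.card (Cfsg.PSp 2 F) = 2 ^ 6 * 405 := by
      have h := Subgroup.card_eq_card_quotient_mul_card_subgroup
        (Subgroup.center (Matrix.symplecticGroup (Fin 2) F))
      rw [SympSub.card_symplecticGroup, Linear.Symp.card_center, hF] at h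
      simp only [SympSub.spOrder, Finset.prod_range_succ, Finset.prod_range_zero] at h
      change _ = Nat.card (Cfsg.PSp 2 F) * _ at h
      generalize Nat.card (Cfsg.PSp 2 F) = N at h ⊢
      norm_num at h
      omega
    refine sylow_iso f g (fun w => (hf w).trans (hg w).symm) ?_ ?_ P Q
    · rw [n1, twoPart 6 315 (by decide)]; omega
    · rw [n2, twoPart 6 405 (by decide)]; omega
  · -- `S₈` and `O₆⁻(2)`
    have hK01 : ∀ z : K, z = 0 ∨ z = 1 := OrthTwoSylow.eq_zero_or_one hK
    have hb : b = 1 := (hK01 b).resolve_left fun h => one_ne_zero (hab 0 1 (by simp [h])).2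
    have ha : a = 1 := by
      refine (hK01 a).resolve_left fun h => one_ne_zero (hab 1 1 ?_).1
      simp [h, hb, OrthTwoSylow.add_self_F hK (1 : K)]
    haveI : CharP K 2 := charP_of_card_eq_prime hK
    let c : ZMod 2 ≃+* K := ZMod.ringEquivOfPrime K Nat.prime_two hK
    have hQ : ∀ v : I6 → ZMod 2, Cfsg.quadFormMinus 2 K a b (fun i => c (v i)) =
        c (Cfsg.quadFormMinus 2 (ZMod 2) 1 1 v) := by
      intro v
      have hsq : ∀ z : K, z ^ 2 = z := fun z => by rcases hK01 z with h | h <;> simp [h]
      simp [Cfsg.quadFormMinus, ha, hb, hsq]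
    let φ : W D4 →* Matrix I6 I6 K := (c.toRingHom.mapMatrix.toMonoidHom).comp oSix.hom
    have hφ : ∀ w v, Cfsg.quadFormMinus 2 K a b (φ w *ᵥ v) = Cfsg.quadFormMinus 2 K a b v := by
      intro w v
      have e1 : v = fun i => c (c.symm (v i)) := by simp
      have e2 : φ w *ᵥ v = fun i => c ((oSix.hom w *ᵥ fun j => c.symm (v j)) i) := by
        funext i
        simp [φ, Matrix.mulVec, dotProduct]
      rw [e2, hQ, oSix_iso, ← hQ, ← e1]
    let g : W D4 →* Cfsg.isometryGroup K (Cfsg.quadFormMinus 2 K a b) :=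
      MonoidHom.codRestrict φ.toHomUnits _ fun w => fun u _ => hφ w u
    have hg : ∀ w, g w = 1 ↔ w = 1 := by
      intro w
      refine ⟨fun h => (oSix_ker w).1 ?_, fun h => by rw [h, map_one]⟩
      have h' : φ w = φ 1 := by
        rw [map_one]
        exact congrArg (fun x : Cfsg.isometryGroup K (Cfsg.quadFormMinus 2 K a b) => (x.1 : Matrix I6 I6 K)) h
      exact (Matrix.map_injective c.injective (h' : (oSix.hom w).map c = (oSix.hom 1).map c)).trans (map_one _)
    have hW : Nat.card (W D4) = 128 := by rw [card_W, DihedralGroup.card]; rfl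
    have c1 := card_range sEight.hom (S := {1}) sEight_ker
    have c2 := card_range g (S := {1}) hg
    rw [Set.ncard_singleton, hW] at c1 c2
    have n1 : Nat.card (Equiv.Perm (Fin 8)) = 2 ^ 7 * 315 := by rw [Nat.card_perm, Nat.card_fin]; rfl
    have n2 : Nat.card (Cfsg.isometryGroup K (Cfsg.quadFormMinus 2 K a b)) = 2 ^ 7 * 405 := by
      have hA : (Classical.binQF a b).Anisotropic := Classical.anisotropic_binQF hab
      rw [Classical.card_isometryGroup_congr _ (Classical.minusQF 2 a b) (Classical.minusQF_apply 2 a b)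
        (Classical.minusEquiv 2) (Classical.minusEquiv_spec 2 a b), Classical.card_OQ_minus hA,
        Nat.card_eq_fintype_card, hK]
      simp [Finset.prod_range_succ]
    refine sylow_iso sEight.hom g (fun w => (sEight_ker w).trans (hg w).symm) ?_ ?_ P' Q'
    · rw [n1, twoPart 7 315 (by decide)]; omega
    · rw [n2, twoPart 7 405 (by decide)]; omega

end Cfsg.Agent.S2931
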