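import Cfsg.Statements.S2937
import Cfsg.Agent.PMinLie.Families
import Cfsg.Agent.Components.FStar
-- import your own Cfsg.Agent.* helpers here

set_option autoImplicit false
open Cfsg

namespace Cfsg.Agent.S2937

/-- Let X be a finite p-minimal group whose generalized Fitting subgroup K = F*(X) is a simple group of Lie type in characteristic p, and let U be a Sylow p-subgroup of K. Then N_X(U) is a maximal subgroup of X, and either K has Lie rank one (K ≅ PSL₂(pᵉ), PSU₃(pᵉ), a Suzuki group for p = 2, or a Ree group or PSL₂(8) for p = 3), or p = 2, K ≠ X and K is isomorphic to PSL₃(2ᵉ) or to PSp₄(2ᵉ) (e ≥ 2) or to the alternating group of degree 6. -/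
theorem result {X : Type*} [Group X] [Finite X] {p : ℕ} [Fact p.Prime] (hX : Cfsg.IsPMinimal p X) (hK : Cfsg.IsChevSimple p ↥(Cfsg.generalizedFittingSubgroup X)) (U : Sylow p ↥(Cfsg.generalizedFittingSubgroup X)) : IsCoatom (Subgroup.normalizer (((U : Subgroup ↥(Cfsg.generalizedFittingSubgroup X)).map (Cfsg.generalizedFittingSubgroup X).subtype : Subgroup X) : Set X)) ∧ (Cfsg.IsLieRankOneChar p ↥(Cfsg.generalizedFittingSubgroup X) ∨ (p = 2 ∧ Cfsg.generalizedFittingSubgroup X ≠ ⊤ ∧ ((∃ (F : Type) (_ : Field F) (_ : Fintype F) (_ : CharP F 2), Nonempty (↥(Cfsg.generalizedFittingSubgroup X) ≃* Matrix.ProjectiveSpecialLinearGroup (Fin 3) F)) ∨ (∃ (F : Type) (_ : Field F) (_ : Fintype F) (_ : CharP F 2), 4 ≤ Fintype.card F ∧ Nonempty (↥(Cfsg.generalizedFittingSubgroup X) ≃* Cfsg.PSp 2 F)) ∨ Nonempty (↥(Cfsg.generalizedFittingSubgroup X) ≃* ↥(alternatingGroup (Fin 6)))))) := by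
  classical
  haveI : (Cfsg.generalizedFittingSubgroup X).Normal := Cfsg.Agent.Components.genFitting_normal
  obtain ⟨hs, hdvd, hkind⟩ := Cfsg.Agent.PMinLie.lie_kind hK
  haveI := hs
  have hU1 : (U : Subgroup ↥(Cfsg.generalizedFittingSubgroup X)) ≠ ⊥ := by
    intro h
    have h1 := U.pow_dvd_card_of_pow_dvd_card (n := 1) (by rwa [pow_one])
    rw [pow_one, Subgroup.card_eq_one.2 h] at h1
    exact (Fact.out : p.Prime).ne_one (Nat.dvd_one.1 h1)
  rcases hkind with h | ⟨h, hR, hnp⟩ | ⟨h, hT⟩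
  · exfalso
    have h' := h.forall_sylow U
    obtain ⟨L1, L2, u1, -, n1, -⟩ := id h'
    exact (Cfsg.Agent.PMinLie.pminimal_main hX _ U hU1 fun e => n1 (top_le_iff.1 (e ▸ u1))).1 h'
  · have hU2 : (U : Subgroup ↥(Cfsg.generalizedFittingSubgroup X)) ≠ ⊤ := by
      intro e
      haveI : Nontrivial ↥(Cfsg.generalizedFittingSubgroup X) := hs.toNontrivial
      have hpg : IsPGroup p ↥(Cfsg.generalizedFittingSubgroup X) := fun g => by
        obtain ⟨k, hk⟩ := U.2 ⟨g, e ▸ Subgroup.mem_top g⟩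
        exact ⟨k, congrArg Subtype.val hk⟩
      haveI := hpg.center_nontrivial
      have hc : Subgroup.center ↥(Cfsg.generalizedFittingSubgroup X) = ⊤ :=
        (Subgroup.Normal.eq_bot_or_eq_top inferInstance).resolve_left
          ((Subgroup.nontrivial_iff_ne_bot _).1 inferInstance)
      haveI := Subgroup.center_eq_top_iff.1 hc
      letI : CommGroup ↥(Cfsg.generalizedFittingSubgroup X) :=
        { (inferInstance : Group ↥(Cfsg.generalizedFittingSubgroup X)) with
          mul_comm := IsMulCommutative.is_comm.comm }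
      exact hnp IsSimpleGroup.prime_card
    exact ⟨(Cfsg.Agent.PMinLie.pminimal_main hX _ U hU1 hU2).2.1 (Or.inl (h.forall_sylow U)), Or.inl hR⟩
  · have h' := h.forall_sylow U
    obtain ⟨P1, P2, n1, -, -, hi, -⟩ := id h'
    have hm := Cfsg.Agent.PMinLie.pminimal_main hX _ U hU1 fun e => n1 (top_le_iff.1 (by
      rw [← e]; exact (Subgroup.le_normalizer.trans hi.ge).trans inf_le_left))
    obtain ⟨hp2, hne⟩ := hm.2.2 h'
    exact ⟨hm.2.1 (Or.inr h'), Or.inr ⟨hp2, hne, hT hp2⟩⟩

end Cfsg.Agent.S2937
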