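import Cfsg.Statements.S2940
import Cfsg.Agent.LAE62.SylowBasics
-- import your own Cfsg.Agent.* helpers here

set_option autoImplicit false
open Cfsg

namespace Cfsg.Agent.S2940

/-- Let S be a Sylow p-subgroup of the finite group G and G₁, G₂ subgroups containing S with G = G₁G₂. Then for every g ∈ G there is a Sylow p-subgroup U of G with S ∩ S^g ≤ U ≤ G₁ ∩ G₂^g (conjugates taken as X^g = g⁻¹Xg). -/
theorem result {G : Type*} [Group G] [Finite G] {p : ℕ} [Fact p.Prime] (S : Sylow p G) (G₁ G₂ : Subgroup G) (h1 : (S : Subgroup G) ≤ G₁) (h2 : (S : Subgroup G) ≤ G₂) (hfact : ∀ g : G, ∃ g₁ ∈ G₁, ∃ g₂ ∈ G₂, g = g₁ * g₂) (g : G) : ∃ U : Sylow p G, (S : Subgroup G) ⊓ Cfsg.subgroupConjRight g (S : Subgroup G) ≤ (U : Subgroup G) ∧ (U : Subgroup G) ≤ G₁ ⊓ Cfsg.subgroupConjRight g G₂ := by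
  obtain ⟨b, hb, a, ha, hgba⟩ : ∃ b ∈ G₂, ∃ a ∈ G₁, g = b * a := by
    obtain ⟨a, ha, b, hb, h⟩ := hfact g⁻¹
    exact ⟨b⁻¹, inv_mem hb, a⁻¹, inv_mem ha, by rw [← mul_inv_rev, ← h, inv_inv]⟩
  have hmem : ∀ (Y : Subgroup G) (u : G), u ∈ Cfsg.subgroupConjRight g Y ↔ g * u * g⁻¹ ∈ Y := by
    intro Y u
    simp only [Cfsg.subgroupConjRight, Subgroup.mem_map, MulEquiv.coe_toMonoidHom,
      MulAut.conj_apply, inv_inv]
    refine ⟨fun ⟨x, hx, e⟩ => ?_, fun h => ⟨_, h, by group⟩⟩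
    have : g * u * g⁻¹ = x := by rw [← e]; group
    rwa [this]
  set U₀ : Sylow p G := a⁻¹ • S with hU₀
  have hU₀mem : ∀ u, u ∈ (U₀ : Subgroup G) ↔ a * u * a⁻¹ ∈ (S : Subgroup G) := by
    intro u
    rw [hU₀, Sylow.coe_subgroup_smul, Subgroup.mem_pointwise_smul_iff_inv_smul_mem]
    simp [MulAut.smul_def, mul_assoc]
  set M := G₁ ⊓ Cfsg.subgroupConjRight g G₂ with hM
  have hU₀M : (U₀ : Subgroup G) ≤ M := by
    intro u hu
    rw [hU₀mem] at hu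
    refine ⟨?_, (hmem _ _).2 ?_⟩
    · have := G₁.mul_mem (G₁.mul_mem (G₁.inv_mem ha) (h1 hu)) ha
      simpa [mul_assoc] using this
    · have : g * u * g⁻¹ = b * (a * u * a⁻¹) * b⁻¹ := by rw [hgba]; group
      rw [this]
      exact G₂.mul_mem (G₂.mul_mem hb (h2 hu)) (G₂.inv_mem hb)
  have hDM : (S : Subgroup G) ⊓ Cfsg.subgroupConjRight g (S : Subgroup G) ≤ M :=
    fun u hu => ⟨h1 hu.1, (hmem _ _).2 (h2 ((hmem _ _).1 hu.2))⟩
  have hidx : ¬ p ∣ (U₀ : Subgroup G).relIndex M :=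
    fun h => U₀.not_dvd_index (h.trans (Subgroup.relIndex_dvd_index_of_le hU₀M))
  obtain ⟨m, hm, hconj⟩ := Cfsg.Agent.LAE62.exists_conj_le_of_relIndex U₀.2 hU₀M hidx
    (S.2.to_le inf_le_left) hDM
  have hUmem : ∀ u, u ∈ ((m⁻¹ • U₀ : Sylow p G) : Subgroup G) ↔ m * u * m⁻¹ ∈ (U₀ : Subgroup G) := by
    intro u
    rw [Sylow.coe_subgroup_smul, Subgroup.mem_pointwise_smul_iff_inv_smul_mem]
    simp [MulAut.smul_def, mul_assoc]
  refine ⟨m⁻¹ • U₀, fun d hd => (hUmem d).2 (hconj d hd), fun u hu => ?_⟩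
  have := M.mul_mem (M.mul_mem (M.inv_mem hm) (hU₀M ((hUmem u).1 hu))) hm
  simpa [mul_assoc] using this

end Cfsg.Agent.S2940
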