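import Cfsg.Statements.S2955
import Cfsg.Agent.LocalEven.SylowControl
-- import your own Cfsg.Agent.* helpers here

set_option autoImplicit false
open Cfsg

namespace Cfsg.Agent.S2955

/-- Let p be a prime dividing the order of the finite group G and 𝓕 a conjugation-closed family of subgroups that controls Sylow p-intersections in G. Suppose the Sylow p-subgroups of G are chain-connected: any two of them are joined by a chain of Sylow p-subgroups, consecutive ones distinct with nontrivial intersection, all containing the intersection of the two ends (equivalently, the graph on the Sylow p-subgroups whose edges are the distinct pairs meeting nontrivially is connected). Then for every Sylow p-subgroup S, G is generated by N_G(S) together with the members of 𝓕 that meet S in a Sylow p-subgroup of themselves. -/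
theorem result {G : Type*} [Group G] [Finite G] (p : ℕ) [Fact p.Prime] (hdiv : p ∣ Nat.card G)
    (𝓕 : Set (Subgroup G)) (h𝓕 : Cfsg.IsNormalSet 𝓕) (hc : Cfsg.ControlsSylowIntersections p 𝓕)
    (hconn : Cfsg.IsSylowChainConnected p G) (S : Sylow p G) :
    (⨆ X ∈ Cfsg.sylowMembers p 𝓕 (S : Subgroup G), X) ⊔ Subgroup.normalizer ((S : Subgroup G) : Set G) = ⊤ := by
  set H := (⨆ X ∈ Cfsg.sylowMembers p 𝓕 (S : Subgroup G), X) ⊔
    Subgroup.normalizer ((S : Subgroup G) : Set G) with hH
  have hmem : ∀ X ∈ Cfsg.sylowMembers p 𝓕 (S : Subgroup G), X ≤ H := fun X hX =>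
    le_sup_of_le_left (le_biSup id hX)
  rw [Subgroup.eq_top_iff']
  intro g
  obtain ⟨n, c, hc0, hcn, -, hstep⟩ := hconn S (g • S)
  have key : ∀ k : Fin (n + 1), ∃ h ∈ H, h • S = c k := by
    intro k
    induction k using Fin.induction with
    | zero => exact ⟨1, H.one_mem, by rw [one_smul, hc0]⟩
    | succ i ih =>
      obtain ⟨m, d, X, x, hd0, hdm, hd⟩ := hc _ _ (hstep i).1 (hstep i).2
      rw [← hd0] at ih
      obtain ⟨h, hh, he⟩ := Cfsg.Agent.LocalEven.SylowControl.mem_of_chain h𝓕 S hmem
        (fun j => ⟨(hd j).1, (hd j).2.2.1, (hd j).2.2.2.1⟩) ih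
      exact ⟨h, hh, he.trans hdm⟩
  obtain ⟨h, hh, he⟩ := key (Fin.last n)
  rw [hcn] at he
  have hn : h⁻¹ * g ∈ Subgroup.normalizer ((S : Subgroup G) : Set G) :=
    Sylow.smul_eq_iff_mem_normalizer.1 (by rw [mul_smul, ← he, inv_smul_smul])
  have := H.mul_mem hh ((le_sup_right : _ ≤ H) hn)
  rwa [mul_inv_cancel_left] at this

end Cfsg.Agent.S2955
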