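import Cfsg.Statements.S2957
import Cfsg.Agent.LocalEven.FunctorControl
import Cfsg.Agent.S2940
-- import your own Cfsg.Agent.* helpers here

set_option autoImplicit false
open Cfsg

namespace Cfsg.Agent.S2957

/-- Let p be a prime dividing the order of the finite group G, f an equivariant assignment of a set of subgroups f(P) of P to every p-subgroup P, each normalized by N_G(P), and S a Sylow p-subgroup. If G = G₁G₂ for subgroups G₁, G₂ both containing S and both regular for f (in each Gᵢ, the family of normalizers in Gᵢ of the members of f(P), P a Sylow p-subgroup of Gᵢ, controls Sylow p-intersections), then G itself is regular for f. -/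
theorem result {G : Type*} [Group G] [Finite G] (p : ℕ) [Fact p.Prime] (hdiv : p ∣ Nat.card G)
    (f : Subgroup G → Set (Subgroup G)) (hf : Cfsg.IsNormalizerFunctor p f) (S : Sylow p G)
    (G₁ G₂ : Subgroup G) (h₁ : (S : Subgroup G) ≤ G₁) (h₂ : (S : Subgroup G) ≤ G₂)
    (hprod : ∀ g : G, ∃ g₁ ∈ G₁, ∃ g₂ ∈ G₂, g = g₁ * g₂)
    (hr₁ : Cfsg.IsFunctorRegular p f G₁) (hr₂ : Cfsg.IsFunctorRegular p f G₂) :
    Cfsg.IsFunctorRegular p f ⊤ := by
  refine Cfsg.Agent.LocalEven.FunctorControl.controls_top_of_controls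
    (Cfsg.Agent.LocalEven.FunctorControl.controls_of_linked fun A B hne => ?_)
  set D := (A : Subgroup G) ⊓ (B : Subgroup G) with hD
  obtain ⟨a, rfl⟩ := MulAction.exists_smul_eq G S A
  obtain ⟨b, hb⟩ := MulAction.exists_smul_eq G S (a⁻¹ • B)
  have hN := Cfsg.Agent.LocalEven.FunctorControl.normalSet_functorFamily hf
  set D₀ := Cfsg.subgroupConjRight a D with hD₀
  suffices h : Cfsg.Agent.LocalEven.FunctorControl.Linked (Cfsg.functorFamily p f ⊤) D₀ S (b • S) by
    have h2 := Cfsg.Agent.LocalEven.FunctorControl.linked_conj hN h a⁻¹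
    rwa [hD₀, Cfsg.Agent.LocalEven.SylowControl.conjRight_conjRight, mul_inv_cancel,
      Cfsg.Agent.LocalEven.SylowControl.conjRight_one, inv_inv, hb, smul_inv_smul] at h2
  have hDS : D₀ ≤ (S : Subgroup G) := by
    have h2 : D₀ ≤ Cfsg.subgroupConjRight a ((a • S : Sylow p G) : Subgroup G) :=
      Cfsg.Agent.LocalEven.SylowControl.conjRight_mono inf_le_left
    rwa [Cfsg.Agent.LocalEven.SylowControl.coe_smul_eq,
      Cfsg.Agent.LocalEven.SylowControl.conjRight_conjRight, inv_mul_cancel,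
      Cfsg.Agent.LocalEven.SylowControl.conjRight_one] at h2
  have hDb : D₀ ≤ ((b • S : Sylow p G) : Subgroup G) := by
    rw [hb]
    have h2 : D₀ ≤ Cfsg.subgroupConjRight a (B : Subgroup G) :=
      Cfsg.Agent.LocalEven.SylowControl.conjRight_mono inf_le_right
    rwa [Cfsg.Agent.LocalEven.SylowControl.coe_smul_eq, inv_inv]
  have hne₀ : D₀ ≠ ⊥ := fun h => hne ((Subgroup.map_eq_bot_iff_of_injective _
    (MulAut.conj a⁻¹).injective).1 h)
  obtain ⟨U, hU, hU12⟩ := Cfsg.Agent.S2940.result S G₁ G₂ h₁ h₂ hprod b⁻¹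
  have hDU : D₀ ≤ (U : Subgroup G) := by
    refine le_trans (le_inf hDS ?_) hU
    rwa [← Cfsg.Agent.LocalEven.SylowControl.coe_smul_eq]
  refine (Cfsg.Agent.LocalEven.FunctorControl.linked_of_regular hf hne₀ hr₁ h₁
    (hU12.trans inf_le_left) hDS hDU).trans ?_
  have hU2 : (((b⁻¹ • U : Sylow p G)) : Subgroup G) ≤ G₂ := by
    rw [Cfsg.Agent.LocalEven.SylowControl.coe_smul_eq, inv_inv]
    refine (Cfsg.Agent.LocalEven.SylowControl.conjRight_mono (hU12.trans inf_le_right)).trans (le_of_eq ?_)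
    rw [Cfsg.Agent.LocalEven.SylowControl.conjRight_conjRight, inv_mul_cancel,
      Cfsg.Agent.LocalEven.SylowControl.conjRight_one]
  have hne₁ : Cfsg.subgroupConjRight b D₀ ≠ ⊥ := fun h => hne₀ ((Subgroup.map_eq_bot_iff_of_injective _
    (MulAut.conj b⁻¹).injective).1 h)
  have h3 := Cfsg.Agent.LocalEven.FunctorControl.linked_of_regular hf hne₁ hr₂ hU2 h₂
    (by rw [Cfsg.Agent.LocalEven.SylowControl.coe_smul_eq, inv_inv]
        exact Cfsg.Agent.LocalEven.SylowControl.conjRight_mono hDU)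
    (by refine (Cfsg.Agent.LocalEven.SylowControl.conjRight_mono hDb).trans (le_of_eq ?_)
        rw [Cfsg.Agent.LocalEven.SylowControl.coe_smul_eq,
          Cfsg.Agent.LocalEven.SylowControl.conjRight_conjRight, inv_mul_cancel,
          Cfsg.Agent.LocalEven.SylowControl.conjRight_one])
  have h4 := Cfsg.Agent.LocalEven.FunctorControl.linked_conj hN h3 b⁻¹
  rwa [Cfsg.Agent.LocalEven.SylowControl.conjRight_conjRight, mul_inv_cancel,
    Cfsg.Agent.LocalEven.SylowControl.conjRight_one, inv_inv, smul_inv_smul] at h4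

end Cfsg.Agent.S2957
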