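import Cfsg.Statements.S2958
import Mathlib.GroupTheory.Subgroup.Center
-- import your own Cfsg.Agent.* helpers here

set_option autoImplicit false
open Cfsg

namespace Cfsg.Agent.S2958

/-- Let X, A, B be subgroups of a group G such that G is generated by the conjugates of X and every conjugate of X is contained in A or in B. Then A = G or B = G. -/
theorem result {G : Type*} [Group G] (X A B : Subgroup G) (hgen : (⨆ g : G, X.map (MulAut.conj g).toMonoidHom) = ⊤) (hcover : ∀ g : G, X.map (MulAut.conj g).toMonoidHom ≤ A ∨ X.map (MulAut.conj g).toMonoidHom ≤ B) : A = ⊤ ∨ B = ⊤ := by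
  classical
  set cj : G → Subgroup G := fun g => X.map (MulAut.conj g).toMonoidHom with hcj
  by_contra hcon
  push Not at hcon
  obtain ⟨hA, hB⟩ := hcon
  have hmem : ∀ (y g : G), ∀ c ∈ cj g, y * c * y⁻¹ ∈ cj (y * g) := by
    rintro y g _ ⟨x, hx, rfl⟩
    exact ⟨x, hx, by simp [mul_assoc]⟩
  set A₁ : Subgroup G := ⨆ g : {g : G // ¬ cj g ≤ B}, cj g.1 with hA₁
  have hA₁A : A₁ ≤ A := iSup_le fun g => (hcover g.1).resolve_right g.2
  -- every conjugate of X normalizes A₁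
  have key : ∀ g : G, ∀ y ∈ cj g, ∀ a ∈ A₁, y * a * y⁻¹ ∈ A₁ := by
    intro g y hy a ha
    by_cases hg : cj g ≤ B
    · have hle : A₁ ≤ A₁.comap (MulAut.conj y).toMonoidHom := iSup_le fun h c hc => by
        refine le_iSup (fun g : {g : G // ¬ cj g ≤ B} => cj g.1) ⟨y * h.1, fun hle => h.2 ?_⟩ (hmem y h.1 c hc)
        intro c' hc'
        have hyB : y ∈ B := hg hy
        have h' := B.mul_mem (B.mul_mem (B.inv_mem hyB) (hle (hmem y h.1 c' hc'))) hyB
        have e : y⁻¹ * (y * c' * y⁻¹) * y = c' := by group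
        rwa [e] at h'
      exact hle ha
    · have hy' : y ∈ A₁ := le_iSup (fun g : {g : G // ¬ cj g ≤ B} => cj g.1) ⟨g, hg⟩ hy
      exact A₁.mul_mem (A₁.mul_mem hy' ha) (A₁.inv_mem hy')
  have htop : ∀ y : G, ∀ a ∈ A₁, y * a * y⁻¹ ∈ A₁ := by
    intro y
    have hy : y ∈ ⨆ g : G, cj g := by rw [hgen]; exact Subgroup.mem_top y
    refine Subgroup.iSup_induction' (C := fun y _ => ∀ a ∈ A₁, y * a * y⁻¹ ∈ A₁) _ ?_ ?_ ?_ hy
    · exact fun g y hy => key g y hy
    · intro a ha; simpa using ha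
    · intro y₁ y₂ _ _ h₁ h₂ a ha
      have := h₁ _ (h₂ a ha)
      simpa [mul_assoc] using this
  have hN : A₁.Normal := ⟨fun a ha y => htop y a ha⟩
  obtain ⟨g₀, hg₀⟩ : ∃ g, ¬ cj g ≤ B := by
    by_contra h
    push Not at h
    exact hB (top_le_iff.1 (hgen ▸ iSup_le h))
  refine hA (top_le_iff.1 (hgen ▸ iSup_le fun g => le_trans ?_ hA₁A))
  intro c hc
  have h1 := hmem (g₀ * g⁻¹) g c hc
  rw [inv_mul_cancel_right] at h1
  have h2 : g₀ * g⁻¹ * c * (g₀ * g⁻¹)⁻¹ ∈ A₁ :=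
    le_iSup (fun g : {g : G // ¬ cj g ≤ B} => cj g.1) ⟨g₀, hg₀⟩ h1
  have h3 := htop (g₀ * g⁻¹)⁻¹ _ h2
  simpa [mul_assoc] using h3

end Cfsg.Agent.S2958
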