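import Cfsg.Statements.S2959
import Cfsg.Agent.LocalEven.CharP
-- import your own Cfsg.Agent.* helpers here

set_option autoImplicit false
open Cfsg

namespace Cfsg.Agent.S2959

/-- Let G be a finite group of characteristic p, that is C_G(O_p(G)) ≤ O_p(G), with p prime, and let L be a subgroup of G normalized by O_p(G). Then L has characteristic p: C_L(O_p(L)) ≤ O_p(L). -/
theorem result {G : Type*} [Group G] [Finite G] {p : ℕ} [Fact p.Prime] (hG : Subgroup.centralizer (Cfsg.pCore p G : Set G) ≤ Cfsg.pCore p G) (L : Subgroup G) (hL : Cfsg.pCore p G ≤ Subgroup.normalizer (L : Set G)) : Subgroup.centralizer (Cfsg.pCore p ↥L : Set ↥L) ≤ Cfsg.pCore p ↥L := by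
  exact Cfsg.Agent.LocalEven.charP_of_normalized hG L hL

end Cfsg.Agent.S2959
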