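import Cfsg.Statements.S2963
import Mathlib.GroupTheory.Perm.Sign
import Mathlib.GroupTheory.GroupAction.Basic
-- import your own Cfsg.Agent.* helpers here

set_option autoImplicit false
open Cfsg

namespace Cfsg.Agent.S2963

/-- Let n be odd. If the symmetric group of degree n is a minimal parabolic group for the prime 2, that is, a Sylow 2-subgroup is not normal and lies in exactly one maximal subgroup, then n = 2^m + 1 for some natural number m. -/
theorem result (n : ℕ) (hn : Odd n) (h : Cfsg.IsPMinimal 2 (Equiv.Perm (Fin n))) : ∃ m : ℕ, n = 2 ^ m + 1 := by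
  obtain ⟨P⟩ : Nonempty (Sylow 2 (Equiv.Perm (Fin n))) := inferInstance
  obtain ⟨hPn, M, ⟨hM, hPM⟩, huniq⟩ := h P
  have hmax : ∀ H : Subgroup (Equiv.Perm (Fin n)), (P : Subgroup _) ≤ H → H ≠ ⊤ → H ≤ M := by
    intro H hH hne
    obtain ⟨N, hN, hHN⟩ := (eq_top_or_exists_le_coatom H).resolve_left hne
    exact hHN.trans (huniq N ⟨hN, hH.trans hHN⟩).le
  have hn1 : n ≠ 1 := by
    rintro rfl
    exact hPn (Subsingleton.elim (⊥ : Subgroup (Equiv.Perm (Fin 1))) (P : Subgroup _) ▸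
      (inferInstance : (⊥ : Subgroup (Equiv.Perm (Fin 1))).Normal))
  have hnd : ¬ 2 ∣ Nat.card (Fin n) := by
    rw [Nat.card_fin]; obtain ⟨k, rfl⟩ := hn; omega
  obtain ⟨a, ha⟩ := P.2.nonempty_fixed_point_of_prime_not_dvd_card (Fin n) hnd
  obtain ⟨k, hk⟩ := hn
  have : Nontrivial (Fin n) := Fin.nontrivial_iff_two_le.2 (by omega)
  obtain ⟨b, hb⟩ := exists_ne a
  set O := MulAction.orbit (↥(P : Subgroup (Equiv.Perm (Fin n)))) b with hO
  have haO : a ∉ O := fun h => by
    have h1 := MulAction.mem_orbit_symm.1 h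
    obtain ⟨s, hs⟩ := h1
    exact hb (hs.symm.trans (ha s))
  by_contra hne
  obtain ⟨c, hca, hcO⟩ : ∃ c, c ≠ a ∧ c ∉ O := by
    by_contra hcon
    push Not at hcon
    obtain ⟨j, hj⟩ := P.2.card_orbit b
    refine hne ⟨j, ?_⟩
    have e : O = {x | x ≠ a} := Set.ext fun x => ⟨fun hx hxa => haO (hxa ▸ hx), hcon x⟩
    rw [← hO, e] at hj
    have h2 := Set.ncard_compl ({a} : Set (Fin n))
    rw [Set.ncard_singleton, Nat.card_fin] at h2
    have h3 : Nat.card ↥{x : Fin n | x ≠ a} = ({a}ᶜ : Set (Fin n)).ncard := Nat.card_coe_set_eq _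
    omega
  set H₁ : Subgroup (Equiv.Perm (Fin n)) := MulAction.stabilizer (Equiv.Perm (Fin n)) a
  set H₂ : Subgroup (Equiv.Perm (Fin n)) :=
    { carrier := {π | ∀ x, x ∈ O ↔ π x ∈ O}
      mul_mem' := fun hπ hσ x => (hσ x).trans (hπ _)
      one_mem' := fun x => Iff.rfl
      inv_mem' := fun {π} hπ x => by simpa using (hπ (π⁻¹ x)).symm }
  have h1M : H₁ ≤ M := by
    refine hmax H₁ (fun s hs => ha ⟨s, hs⟩) fun h => ?_
    have : Equiv.swap a b ∈ H₁ := h ▸ Subgroup.mem_top _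
    exact hb (by simpa [H₁, MulAction.mem_stabilizer_iff] using this)
  have h2M : H₂ ≤ M := by
    refine hmax H₂ (fun s hs x => ?_) fun h => ?_
    · rw [hO, ← MulAction.orbit_eq_iff, ← MulAction.orbit_eq_iff, show s x = (⟨s, hs⟩ : ↥(P : Subgroup (Equiv.Perm (Fin n)))) • x from rfl, MulAction.orbit_smul]
    · have : Equiv.swap a b ∈ H₂ := h ▸ Subgroup.mem_top _
      exact haO (by simpa using (this a).2 (by simp [hO]))
  have hac : Equiv.swap a c ∈ M := h2M fun x => by
    rcases eq_or_ne x a with rfl | hxa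
    · simp [haO, hcO]
    rcases eq_or_ne x c with rfl | hxc
    · simp [haO, hcO]
    · rw [Equiv.swap_apply_of_ne_of_ne hxa hxc]
  have hfix : ∀ x y, x ≠ a → y ≠ a → Equiv.swap x y ∈ M := fun x y hx hy => h1M (by
    simp [H₁, MulAction.mem_stabilizer_iff, Equiv.swap_apply_of_ne_of_ne hx.symm hy.symm])
  have hafix : ∀ y, y ≠ a → Equiv.swap a y ∈ M := by
    intro y hy
    rcases eq_or_ne y c with rfl | hyc
    · exact hac
    · have := M.mul_mem (M.mul_mem (hfix c y hca hy) hac) (M.inv_mem (hfix c y hca hy))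
      rwa [← Equiv.swap_apply_apply, Equiv.swap_apply_left,
        Equiv.swap_apply_of_ne_of_ne hca.symm hy.symm] at this
  refine hM.1 (top_le_iff.1 ?_)
  rw [← Equiv.Perm.closure_isSwap, Subgroup.closure_le]
  rintro π ⟨x, y, hxy, rfl⟩
  rcases eq_or_ne x a with rfl | hx
  · exact hafix y hxy.symm
  rcases eq_or_ne y a with rfl | hy
  · rw [Equiv.swap_comm]; exact hafix x hx
  exact hfix x y hx hy

end Cfsg.Agent.S2963
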