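import Cfsg.Statements.S2981
import Cfsg.Agent.MovesFix.Local

set_option autoImplicit false
open Cfsg
open scoped commutatorElement IsMulCommutative

namespace Cfsg.Agent.S2981
open Cfsg.Agent.LAE79 (fixV mem_fixV)

/-- The local C**(G,T)-Theorem for minimal parabolic groups. Let G be a finite p-minimal group (a Sylow p-subgroup T is not normal and lies in exactly one maximal subgroup) of characteristic p (C_G(O_p(G)) ≤ O_p(G)), and suppose G ≠ C**(G,T), the subgroup generated by C_G(Ω₁(Z(T))) and N_G(J(T)) (J(T) generated by the elementary abelian p-subgroups of T of largest order). Put V = Ω₁(Z(O_p(G))) and C = C_G(V). Then there are subgroups E₁, …, E_r of G containing C such that: J(G)TC = G and the E_i C/C form an internal direct product equal to J(G)C/C; any two of the E_i are conjugate by an element of T; V = C_V(⟨E_i⟩)·∏[V, E_i] with [V, E_i, E_j] = 1 for i ≠ j; for some n ≥ 1, each E_i/C is isomorphic to SL₂(pⁿ), or p = 2 and to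 the symmetric group of degree 2ⁿ + 1; and E_i acts on [V, E_i]/C_{[V,E_i]}(E_i) as the natural two-dimensional SL₂(pⁿ)-module, respectively as the symmetric group of degree 2ⁿ+1 on its even-weight permutation module. -/
theorem result {G : Type*} [Group G] [Finite G] {p : ℕ} [Fact p.Prime] (hmin : Cfsg.IsPMinimal p G) (hG : Subgroup.centralizer (Cfsg.pCore p G : Set G) ≤ Cfsg.pCore p G) (T : Sylow p G) (hne : Cfsg.cStarStarOf p (T : Subgroup G) ≠ ⊤) : ∃ (r : ℕ) (E : Fin r → Subgroup G), (∀ i, Subgroup.centralizer (Cfsg.omegaOneCenter p (Cfsg.pCore p G) : Set G) ≤ E i) ∧ Cfsg.thompsonSubgroup p G ⊔ (T : Subgroup G) ⊔ Subgroup.centralizer (Cfsg.omegaOneCenter p (Cfsg.pCore p G) : Set G) = ⊤ ∧ (⨆ i, E i) = Cfsg.thompsonSubgroup p G ⊔ Subgroup.centralizer (Cfsg.omegaOneCenter p (Cfsg.pCore p G) : Set G) ∧ (∀ i j, i ≠ j → ⁅E i, E j⁆ ≤ Subgroup.centralizer (Cfsg.omegaOneCenter p (Cfsg.pCore p G) : Set G)) ∧ (∀ i, E i ⊓ (⨆ j ∈ {j | j ≠ i}, E j)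 ≤ Subgroup.centralizer (Cfsg.omegaOneCenter p (Cfsg.pCore p G) : Set G)) ∧ (∀ i j, ∃ t ∈ (T : Subgroup G), (E i).map (MulAut.conj t).toMonoidHom = E j) ∧ (Cfsg.omegaOneCenter p (Cfsg.pCore p G) ⊓ Subgroup.centralizer ((⨆ i, E i : Subgroup G) : Set G)) ⊔ (⨆ i, ⁅Cfsg.omegaOneCenter p (Cfsg.pCore p G), E i⁆) = Cfsg.omegaOneCenter p (Cfsg.pCore p G) ∧ (∀ i j, i ≠ j → ⁅⁅Cfsg.omegaOneCenter p (Cfsg.pCore p G), E i⁆, E j⁆ = ⊥) ∧ ∀ i, ∃ n : ℕ, 1 ≤ n ∧ ((∃ (F : Type) (_ : Field F) (_ : Fintype F), Fintype.card F = p ^ n ∧ (∃ _ : ((Subgroup.centralizer (Cfsg.omegaOneCenter p (Cfsg.pCore p G) : Set G)).subgroupOf (E i)).Normal, Nonempty (↥(E i) ⧸ (Subgroup.centralizer (Cfsg.omegaOneCenter p (Cfsg.pCore p G) : Set G)).subgroupOf (E i) ≃* Matrix.SpecialLinearGroup (Fin 2) F)) ∧ Cfsg.ActsAsSL2OnSection F ⊤ (E i) ⁅Cfsg.omegaOneCenter p (Cfsg.pCore p G), E i⁆ (⁅Cfsg.omegaOneCenter p (Cfsg.pCore p G), E i⁆ ⊓ Subgroup.centralizer ((E i : Subgroup G) : Set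 G))) ∨ (p = 2 ∧ (∃ _ : ((Subgroup.centralizer (Cfsg.omegaOneCenter p (Cfsg.pCore p G) : Set G)).subgroupOf (E i)).Normal, Nonempty (↥(E i) ⧸ (Subgroup.centralizer (Cfsg.omegaOneCenter p (Cfsg.pCore p G) : Set G)).subgroupOf (E i) ≃* Equiv.Perm (Fin (2 ^ n + 1)))) ∧ Cfsg.ActsAsOddPermModuleOnSection (2 ^ n + 1) ⊤ (E i) ⁅Cfsg.omegaOneCenter p (Cfsg.pCore p G), E i⁆ (⁅Cfsg.omegaOneCenter p (Cfsg.pCore p G), E i⁆ ⊓ Subgroup.centralizer ((E i : Subgroup G) : Set G)))) := by
  classical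
  set Q := Cfsg.pCore p G with hQdef
  set V := Cfsg.omegaOneCenter p Q with hVdef
  set C := Subgroup.centralizer (V : Set G) with hCdef
  have hV : Cfsg.IsElementaryAbelian p V := MovesFix.omegaOneCenter_elemAb Q
  haveI : IsMulCommutative ↥V := hV.1
  haveI hVn : V.Normal := MovesFix.omegaOneCenter_normal Q
  haveI hCn : C.Normal := Subgroup.normal_centralizer
  have hQC : Q ≤ C := fun x hx => Subgroup.mem_centralizer_iff.2 fun v hv =>
    (Subgroup.mem_centralizer_iff.1 ((MovesFix.omegaOneCenter_le Q) hv).2 x hx).symm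
  have hQT : Q ≤ (T : Subgroup G) := Cores.pCore_le_sylow T
  have hVT : V ≤ (T : Subgroup G) := fun v hv => hQT (MovesFix.omegaOneCenter_le Q hv).1
  obtain ⟨M, ⟨hM, hTM⟩, -⟩ := (hmin T).2
  -- the proper subgroup `C**`
  have hZT : Cfsg.omegaOneCenter p (T : Subgroup G) ≤ V := by
    refine (Subgroup.closure_le _).2 fun x hx => Subgroup.subset_closure ⟨?_, hx.2⟩
    have hxC : x ∈ Subgroup.centralizer (Q : Set G) := Subgroup.mem_centralizer_iff.2 fun y hy =>
      Subgroup.mem_centralizer_iff.1 hx.1.2 y (hQT hy)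
    exact ⟨hG hxC, hxC⟩
  have hCss : C ≤ Cfsg.cStarStarOf p (T : Subgroup G) :=
    (Subgroup.centralizer_le (show (Cfsg.omegaOneCenter p (T : Subgroup G) : Set G) ⊆ V from hZT)).trans
      le_sup_left
  have hTss : (T : Subgroup G) ≤ Cfsg.cStarStarOf p (T : Subgroup G) :=
    le_trans (fun x hx => Subgroup.mem_centralizer_iff.2 fun z hz =>
      (Subgroup.mem_centralizer_iff.1 (MovesFix.omegaOneCenter_le _ hz).2 x hx).symm) le_sup_left
  have hssM := MovesFix.eq_top_or_le hmin T hM hTM hne hTss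
  have hCM : C ≤ M := hCss.trans hssM
  have hJnot : ¬ Cfsg.thompsonSubgroupOf p (T : Subgroup G) ≤ C := fun h => hM.1 (top_le_iff.1
    ((MovesFix.thompson_not_le T hmin hM hTM hCM h).ge.trans (sup_le (le_sup_right.trans hssM) hCM)))
  obtain ⟨B, hB, hBC⟩ : ∃ B ∈ Modules.maxElemAbIn p (T : Subgroup G), ¬ B ≤ C := by
    by_contra h
    push Not at h
    exact hJnot (by rw [Modules.thompsonSubgroupOf_eq_sSup]; exact sSup_le h)
  -- the action of the quotient
  have hmem : ∀ (g : G) (v : ↥V), g * v * g⁻¹ ∈ V := fun g v => hVn.conj_mem _ v.2 g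
  let φ0 : G →* AddMonoid.End (Additive ↥V) :=
    { toFun := fun g =>
        { toFun := fun v => Additive.ofMul (⟨_, hmem g v.toMul⟩ : ↥V)
          map_zero' := MovesFix.toEl_injective (by show g * 1 * g⁻¹ = 1; group)
          map_add' := fun u v => MovesFix.toEl_injective (by
            show g * (((u.toMul : ↥V) : G) * ((v.toMul : ↥V) : G)) * g⁻¹ =
              (g * ((u.toMul : ↥V) : G) * g⁻¹) * (g * ((v.toMul : ↥V) : G) * g⁻¹)
            group) }
      map_one' := AddMonoidHom.ext fun v => MovesFix.toEl_injective (by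
        show 1 * ((v.toMul : ↥V) : G) * 1⁻¹ = ((v.toMul : ↥V) : G)
        group)
      map_mul' := fun g h => AddMonoidHom.ext fun v => MovesFix.toEl_injective (by
        show g * h * ((v.toMul : ↥V) : G) * (g * h)⁻¹ = g * (h * ((v.toMul : ↥V) : G) * h⁻¹) * g⁻¹
        group) }
  have hker : C ≤ φ0.ker := fun c hc => MonoidHom.mem_ker.2 (AddMonoidHom.ext fun v =>
    MovesFix.toEl_injective (by
      show c * ((v.toMul : ↥V) : G) * c⁻¹ = ((v.toMul : ↥V) : G)
      rw [← Subgroup.mem_centralizer_iff.1 hc _ (v.toMul : ↥V).2]; group))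
  let φ : G ⧸ C →* AddMonoid.End (Additive ↥V) := QuotientGroup.lift C φ0 hker
  letI act : DistribMulAction (G ⧸ C) (Additive ↥V) :=
    { smul := fun g v => φ g v
      one_smul := fun v => by show φ 1 v = v; rw [map_one]; rfl
      mul_smul := fun g h v => by show φ (g * h) v = φ g (φ h v); rw [map_mul]; rfl
      smul_zero := fun g => map_zero (φ g)
      smul_add := fun g => map_add (φ g) }
  let π := QuotientGroup.mk' C
  let q : ↥(⊤ : Subgroup G) →* G ⧸ C := π.comp (⊤ : Subgroup G).subtype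
  have hq : MovesFix.Agree V q := ⟨fun x => by
    obtain ⟨g, rfl⟩ := QuotientGroup.mk'_surjective C x
    exact ⟨⟨g, Subgroup.mem_top g⟩, rfl⟩, fun _ _ => rfl⟩
  have hpre : ∀ E : Subgroup (G ⧸ C), MovesFix.pre q E = E.comap π := fun E => by
    ext x
    rw [MovesFix.mem_pre]
    exact ⟨fun ⟨_, h⟩ => h, fun h => ⟨Subgroup.mem_top x, h⟩⟩
  -- hypotheses on the quotient
  have hminP := MovesFix.isPMinimal_quot T hmin hM hTM hCM
  have hcore := MovesFix.pCore_quot_eq_bot T hmin hM hTM hCM hQC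
  have hexp : ∀ v : Additive ↥V, p • v = 0 := fun v => MovesFix.toEl_injective (by
    show (((v.toMul ^ p : ↥V)) : G) = 1
    rw [SubmonoidClass.coe_pow]; exact hV.2 _ (v.toMul : ↥V).2)
  have hfaith : ∀ g : G ⧸ C, (∀ v : Additive ↥V, g • v = v) → g = 1 := fun g hg => by
    obtain ⟨x, rfl⟩ := QuotientGroup.mk'_surjective C g
    exact (QuotientGroup.eq_one_iff x).2 (Subgroup.mem_centralizer_iff.2 fun v hv =>
      (mul_inv_eq_iff_eq_mul.1 (congrArg MovesFix.toEl (hg (Additive.ofMul (⟨v, hv⟩ : ↥V))))).symm)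
  have hEA : ∀ B' : Subgroup G, Cfsg.IsElementaryAbelian p B' → MovesFix.EA p (B'.map π) := fun B' h =>
    ⟨fun a ha b hb => Modules.comm_iff.1 (Modules.comm_map π h.1) a ha b hb, by
      rintro _ ⟨b, hb, rfl⟩
      rw [← map_pow, h.2 b hb, map_one]⟩
  have hwt : ∀ B' : Subgroup G, Cfsg.IsElementaryAbelian p B' →
      (∀ B'' : Subgroup G, B'' ≤ V ⊔ B' → Cfsg.IsElementaryAbelian p B'' → Nat.card B'' ≤ Nat.card B') →
      Nat.card (Additive ↥V) ≤ MovesFix.wt (Additive ↥V) (B'.map π) := by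
    intro B' h hmax
    refine (le_of_eq (Nat.card_congr Additive.toMul)).trans
      ((MovesFix.card_le_of_max (C := C) hV h hCdef hmax).trans (Nat.mul_le_mul_left _ ?_))
    refine Nat.card_le_card_of_injective (fun v => (⟨Additive.ofMul (⟨v, v.2.1⟩ : ↥V), ?_⟩ :
      fixV (V := Additive ↥V) (B'.map π))) fun a b e => Subtype.ext ?_
    · rintro _ ⟨b, hb, rfl⟩
      refine MovesFix.toEl_injective ?_
      show b * (v : G) * b⁻¹ = v
      rw [Subgroup.mem_centralizer_iff.1 v.2.2 b hb]; group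
    · exact congrArg (fun z : fixV (V := Additive ↥V) (B'.map π) => MovesFix.toEl z.1) e
  have hne' : B.map π ≠ ⊥ := fun h => hBC (by
    have := (Subgroup.map_eq_bot_iff _).1 h
    rwa [QuotientGroup.ker_mk'] at this)
  obtain ⟨r, E, hD⟩ := MovesFix.exists_decomp hminP hcore hexp hfaith (hEA B hB.2.1) hne'
    (hwt B hB.2.1 fun B'' hB'' => hB.2.2 B'' (hB''.trans (sup_le hVT hB.1)))
    (Sylow.mapSurjective (QuotientGroup.mk'_surjective C) T)
  haveI hJn := MovesFix.thompson_normal p G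
  have hBJ : B ≤ Cfsg.thompsonSubgroup p G := by
    refine le_sSup ⟨hB.2.1, fun B' hB' => ?_⟩
    have hp' : IsPGroup p B' := fun x => ⟨1, Subtype.ext (by rw [pow_one]; exact hB'.2 x x.2)⟩
    obtain ⟨S, hS⟩ := hp'.exists_le_sylow
    obtain ⟨g, hg⟩ := Fusion.exists_cj_sylow S T
    refine le_of_eq_of_le (Subgroup.card_map_of_injective (f := (MulAut.conj g).toMonoidHom) (K := B') (MulAut.conj g).injective).symm (hB.2.2 _ ?_ ?_)
    · exact (Fusion.cj_mono g hS).trans_eq hg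
    · refine ⟨Modules.comm_map _ hB'.1, ?_⟩
      rintro _ ⟨b, hb, rfl⟩
      rw [← map_pow, hB'.2 b hb, map_one]
  have hsupE : (⨆ i, MovesFix.pre q (E i)) = Cfsg.thompsonSubgroup p G ⊔ C := by
    have hNn : ((Cfsg.thompsonSubgroup p G).map π).Normal :=
      hJn.map _ (QuotientGroup.mk'_surjective C)
    have h1 : (⨆ i, E i) = (Cfsg.thompsonSubgroup p G).map π := le_antisymm
      (hD.generated _ hNn (Subgroup.map_mono hBJ)) (Subgroup.map_le_iff_le_comap.2 (sSup_le fun B' hB' =>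
        Subgroup.map_le_iff_le_comap.1 (hD.offender _ (hEA B' hB'.1) (hwt B' hB'.1 fun B'' _ h => hB'.2 B'' h))))
    have h2 : ∀ i, C ≤ MovesFix.pre q (E i) := fun i c hc => by
      rw [hpre, Subgroup.mem_comap, show π c = 1 from (QuotientGroup.eq_one_iff c).2 hc]; exact one_mem _
    have h3 : (⨆ i, MovesFix.pre q (E i)).map π = ⨆ i, E i := by
      rw [Subgroup.map_iSup]
      exact iSup_congr fun i => by
        rw [hpre, Subgroup.map_comap_eq_self_of_surjective (QuotientGroup.mk'_surjective C)]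
    have h4 := Subgroup.comap_map_eq_self (f := π) (H := ⨆ i, MovesFix.pre q (E i)) (by
      rw [QuotientGroup.ker_mk']; exact (h2 ⟨0, hD.pos⟩).trans (le_iSup (fun i => MovesFix.pre q (E i)) ⟨0, hD.pos⟩))
    rw [← h4, h3, h1, Subgroup.comap_map_eq, QuotientGroup.ker_mk']
  refine ⟨r, fun i => MovesFix.pre q (E i), fun i c hc => ?_, ?_, hsupE, fun i j hij => ?_, fun i => ?_,
    fun i j => ?_, hq.split hD.split, fun i j hij => hq.cross (hD.cross i j hij), fun i => ?_⟩
  · show c ∈ MovesFix.pre q (E i)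
    rw [hpre, Subgroup.mem_comap, show π c = 1 from (QuotientGroup.eq_one_iff c).2 hc]; exact one_mem _
  · have h1 : ((⨆ i, MovesFix.pre q (E i)) ⊔ (T : Subgroup G)).map π = ⊤ := by
      rw [Subgroup.map_sup, Subgroup.map_iSup, ← hD.top]
      refine congrArg₂ (· ⊔ ·) (iSup_congr fun i => ?_) rfl
      rw [hpre, Subgroup.map_comap_eq_self_of_surjective (QuotientGroup.mk'_surjective C)]
    have h2 := congrArg (Subgroup.comap π) h1
    rw [Subgroup.comap_map_eq, QuotientGroup.ker_mk', Subgroup.comap_top, hsupE] at h2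
    rw [← h2]
    ac_rfl
  · refine Subgroup.commutator_le.2 fun a ha b hb => (QuotientGroup.eq_one_iff _).1 ?_
    simp only [hpre, Subgroup.mem_comap] at ha hb
    show π ⁅a, b⁆ = 1
    rw [map_commutatorElement]
    exact commutatorElement_eq_one_iff_mul_comm.2 (hD.commute i j hij _ ha _ hb)
  · intro x hx
    refine (QuotientGroup.eq_one_iff x).1 (Subgroup.mem_bot.1 ((hD.disjoint i).le ⟨?_, ?_⟩))
    · have := hx.1; simp only [hpre, Subgroup.mem_comap] at this; exact this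
    · have hle : (⨆ j ∈ {j | j ≠ i}, MovesFix.pre q (E j)) ≤ (⨆ j ∈ {j | j ≠ i}, E j).comap π :=
        iSup₂_le fun j hj => by
          rw [hpre]; exact Subgroup.comap_mono (le_iSup₂_of_le j hj le_rfl)
      exact hle hx.2
  · obtain ⟨t', ⟨t, ht, rfl⟩, he⟩ := hD.trans i j
    refine ⟨t, ht, ?_⟩
    simp only [hpre]
    rw [← he]
    ext x
    rw [Subgroup.mem_map_equiv, Subgroup.mem_comap, Subgroup.mem_comap, Fusion.mem_cj]
    simp only [MulAut.conj_symm_apply, map_mul, map_inv]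
    rfl
  · have hcast : ∀ {X : Type} [Group X] (ρ : ↥(MovesFix.pre q (E i)) →* X), Function.Surjective ρ →
        (∀ e : ↥(MovesFix.pre q (E i)), ρ e = 1 ↔ q ⟨e, MovesFix.pre_le q (E i) e.2⟩ = 1) →
        ∃ _ : (C.subgroupOf (MovesFix.pre q (E i))).Normal,
          Nonempty (↥(MovesFix.pre q (E i)) ⧸ C.subgroupOf (MovesFix.pre q (E i)) ≃* X) := by
      intro X _ ρ hρs hρ1
      have hk : C.subgroupOf (MovesFix.pre q (E i)) = ρ.ker := by
        ext e
        rw [Subgroup.mem_subgroupOf, MonoidHom.mem_ker, hρ1]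
        exact (QuotientGroup.eq_one_iff (e : G)).symm
      haveI hn : (C.subgroupOf (MovesFix.pre q (E i))).Normal := hk ▸ inferInstance
      exact ⟨hn, ⟨(QuotientGroup.quotientMulEquivOfEq hk).trans
        (QuotientGroup.quotientKerEquivOfSurjective ρ hρs)⟩⟩
    obtain ⟨n, hn, ⟨F, iF, iFt, hFc, ⟨ρ, hρs, hρ1⟩, hact⟩ | ⟨hp2, ⟨ρ, hρs, hρ1⟩, hact⟩⟩ := hq.model (hD.model i)
    · exact ⟨n, hn, Or.inl ⟨F, iF, iFt, hFc, hcast ρ hρs hρ1, hact⟩⟩
    · exact ⟨n, hn, Or.inr ⟨hp2, hcast ρ hρs hρ1, hact⟩⟩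

end Cfsg.Agent.S2981
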