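import Cfsg.Statements.S2989
import Cfsg.Agent.LAE62.PushingUp.Main
-- import your own Cfsg.Agent.* helpers here

set_option autoImplicit false
open Cfsg

namespace Cfsg.Agent.S2989

/-- Let G be a finite group and S a Sylow p-subgroup of G in the basic pushing-up situation (G ≠ 1, C_G(O_p(G)) ≤ O_p(G), S lies in a unique maximal subgroup of G, and some quotient of G is isomorphic to PSL₂ over a field of order a power of p), and suppose that S centralizes Z(J(S)), where J(S) is generated by the abelian subgroups of S of largest order (that is, J̃(S) = C_S(Z(J(S))) = S). Call a subgroup R of S centrally large if |R|·|Z(R)| is as large as possible among subgroups of S, and let S_Φ be the subgroup generated by the Frattini subgroups Φ(Q) of those minimal centrally large subgroups Q of S whose Ω₁(Z(Q)) has the largest order among minimal centrally large subgroups. Then Z(S) or S_Φ is normal in G; and if S_Φ = 1, the minimal centrally large subgroups of S are exactly the abelian subgroups of S of largest order, and at least one of them is elementary abelian.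 -/
theorem result {G : Type*} [Group G] [Finite G] {p : ℕ} [Fact p.Prime] (S : Subgroup G) (hE : Cfsg.IsPushingUpSituation p S) (hJ : S ≤ Subgroup.centralizer (Cfsg.centerThompsonAOf S : Set G)) : ((S ⊓ Subgroup.centralizer (S : Set G)).Normal ∨ ((Cfsg.frattiniOfMinimalCLJoin p ↥S).map S.subtype).Normal) ∧ (Cfsg.frattiniOfMinimalCLJoin p ↥S = ⊥ → (∀ Q : Subgroup ↥S, Cfsg.IsMinimalCentrallyLarge Q ↔ Q ∈ Cfsg.maxAbelianSubgroups ↥S) ∧ ∃ A ∈ Cfsg.maxAbelianSubgroups ↥S, Cfsg.IsElementaryAbelian p A) := by
  refine ⟨?_, fun h => ?_⟩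
  · rcases LAE62.frattiniJoin_dichotomy S hE hJ with h | h
    · exact Or.inl (LAE62.normal_of_le_center h)
    · exact Or.inr h
  · obtain ⟨P, hP⟩ := hE.2.1
    obtain ⟨Q, hQ, hQe⟩ := LAE62.exists_elementaryAbelian_of_frattiniJoin_eq_bot (hP ▸ P.2 : IsPGroup p S) h
    exact ⟨LAE62.minimal_iff_maxAbelian hQ hQe.1, Q, (LAE62.minimal_iff_maxAbelian hQ hQe.1 Q).1 hQ, hQe⟩

end Cfsg.Agent.S2989
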