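import Cfsg.Statements.S2998
import Cfsg.Agent.LAE62.Isolated
import Cfsg.Agent.LAE62.SylowBasics
-- import your own Cfsg.Agent.* helpers here

set_option autoImplicit false
open Cfsg

namespace Cfsg.Agent.S2998

/-- Let G be a finite group, p a prime, P a Sylow p-subgroup of G and x ∈ P an element such that N_G(R) ≤ C_G(x) for every nontrivial subgroup R of P. Then P ≤ C_G(x); every G-conjugate of x lying in P equals x (so g ∈ C_G(x) whenever g x g⁻¹ ∈ P); and for every normal subgroup N of G, the image of x in G ⧸ N has the same property with respect to the image of P: the normalizer of every nontrivial subgroup of the image of P centralizes the image of x. -/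
theorem result {G : Type*} [Group G] [Finite G] {p : ℕ} [Fact p.Prime] (P : Sylow p G) (x : G) (hxP : x ∈ (P : Subgroup G)) (hlc : ∀ R : Subgroup G, R ≤ (P : Subgroup G) → R ≠ ⊥ → Subgroup.normalizer (R : Set G) ≤ Subgroup.centralizer ({x} : Set G)) : (P : Subgroup G) ≤ Subgroup.centralizer ({x} : Set G) ∧ (∀ g : G, g * x * g⁻¹ ∈ (P : Subgroup G) → g * x * g⁻¹ = x) ∧ ∀ (N : Subgroup G) [N.Normal], ∀ R : Subgroup (G ⧸ N), R ≤ (P : Subgroup G).map (QuotientGroup.mk' N) → R ≠ ⊥ → Subgroup.normalizer (R : Set (G ⧸ N)) ≤ Subgroup.centralizer ({(QuotientGroup.mk x : G ⧸ N)} : Set (G ⧸ N)) := by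
  have hPC : (P : Subgroup G) ≤ Subgroup.centralizer ({x} : Set G) := by
    rcases eq_or_ne (P : Subgroup G) ⊥ with h | h
    · rw [h]; exact bot_le
    · exact Subgroup.le_normalizer.trans (hlc _ le_rfl h)
  have hcl : ∀ g : G, g * x * g⁻¹ ∈ (P : Subgroup G) → g * x * g⁻¹ = x := by
    intro g hg
    rcases eq_or_ne x 1 with rfl | hx1
    · simp
    have hne : Subgroup.zpowers (g * x * g⁻¹) ≠ ⊥ := by
      simpa [Subgroup.zpowers_eq_bot] using hx1
    have hC : Subgroup.centralizer ({g * x * g⁻¹} : Set G) ≤ Subgroup.centralizer ({x} : Set G) := by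
      refine le_trans ?_ (hlc _ (Subgroup.zpowers_le.2 hg) hne)
      rw [← Subgroup.centralizer_closure, ← Subgroup.zpowers_eq_closure]
      exact Subgroup.centralizer_le_normalizer _
    have hcard : Nat.card (Subgroup.centralizer ({g * x * g⁻¹} : Set G)) =
        Nat.card (Subgroup.centralizer ({x} : Set G)) := by
      refine Nat.card_congr ((MulAut.conj g).toEquiv.subtypeEquiv fun a => ?_).symm
      rw [Subgroup.mem_centralizer_singleton_iff, Subgroup.mem_centralizer_singleton_iff]
      change _ ↔ (g * a * g⁻¹) * (g * x * g⁻¹) = (g * x * g⁻¹) * (g * a * g⁻¹)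
      rw [show (g * a * g⁻¹) * (g * x * g⁻¹) = g * (a * x) * g⁻¹ by group,
        show (g * x * g⁻¹) * (g * a * g⁻¹) = g * (x * a) * g⁻¹ by group]
      exact ⟨fun h => by rw [h], fun h => mul_left_cancel (mul_right_cancel h)⟩
    have heq := Subgroup.eq_of_le_of_card_ge hC hcard.ge
    -- conjugate `x` into the Sylow subgroup by an element centralising it
    let H : Subgroup G := Subgroup.centralizer ({g * x * g⁻¹} : Set G)
    have hPH : (P : Subgroup G) ≤ H := heq.ge.trans' hPC
    let Q₁ : Sylow p G := P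
    obtain ⟨n, hn, hne'⟩ : ∃ n ∈ Subgroup.normalizer ((P : Subgroup G) : Set G),
        g * x * g⁻¹ = n⁻¹ * x * n := by
      have hxC : x ∈ Subgroup.centralizer ((P : Subgroup G) : Set G) := fun r hr =>
        Subgroup.mem_centralizer_singleton_iff.1 (hPC hr)
      have hyC : g⁻¹⁻¹ * x * g⁻¹ ∈ Subgroup.centralizer ((P : Subgroup G) : Set G) := fun r hr => by
        rw [inv_inv]
        exact Subgroup.mem_centralizer_singleton_iff.1 (hPH hr)
      obtain ⟨n, hn, he⟩ := P.conj_eq_normalizer_conj_of_mem_centralizer x g⁻¹ hxC hyC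
      rw [inv_inv] at he
      exact ⟨n, hn, he⟩
    rw [hne']
    rcases eq_or_ne (P : Subgroup G) ⊥ with h | h
    · rw [h, Subgroup.mem_bot] at hxP; exact absurd hxP hx1
    have := Subgroup.mem_centralizer_singleton_iff.1 (hlc _ le_rfl h hn)
    rw [mul_assoc, ← this]
    group
  refine ⟨hPC, hcl, ?_⟩
  intro N _ R hR hR0 gb hgb
  induction gb using QuotientGroup.induction_on with
  | H g =>
    let M : Subgroup G := R.comap (QuotientGroup.mk' N)
    let Pr : Subgroup G := (P : Subgroup G) ⊓ M
    have hNM : N ≤ M := fun a ha => by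
      simp [M, (QuotientGroup.eq_one_iff a).2 ha, one_mem]
    have hPrmap : Pr.map (QuotientGroup.mk' N) = R := by
      apply le_antisymm
      · rintro _ ⟨a, ha, rfl⟩; exact ha.2
      · intro r hr
        obtain ⟨a, ha, rfl⟩ := hR hr
        exact ⟨a, ⟨ha, hr⟩, rfl⟩
    have hPr0 : Pr ≠ ⊥ := fun h => hR0 (by rw [← hPrmap, h, Subgroup.map_bot])
    have hM : M = Pr ⊔ N := by
      rw [show M = (Pr.map (QuotientGroup.mk' N)).comap (QuotientGroup.mk' N) by rw [hPrmap],
        Subgroup.comap_map_eq, QuotientGroup.ker_mk']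
    have hPN : Pr ⊓ N = (P : Subgroup G) ⊓ N := by
      rw [inf_assoc, inf_eq_right.2 hNM]
    have hidx : ¬ p ∣ Pr.relIndex M := by
      have e1 := Subgroup.relIndex_mul_relIndex ((P : Subgroup G) ⊓ N) N M inf_le_right hNM
      have e2 := Subgroup.relIndex_mul_relIndex ((P : Subgroup G) ⊓ N) Pr M
        (inf_le_inf_left _ hNM) inf_le_right
      rw [← hPN, Subgroup.inf_relIndex_left, ← show N.relIndex M = N.relIndex Pr by
        rw [hM, Subgroup.relIndex_sup_right], hPN, ← e1, mul_comm _ (N.relIndex M)] at e2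
      rw [Nat.eq_of_mul_eq_mul_left (Nat.pos_of_ne_zero Subgroup.index_ne_zero_of_finite) e2]
      exact LAE62.not_dvd_relIndex_sylow_inf_normal P N
    have hPrp : IsPGroup p Pr := P.2.to_le inf_le_left
    have hgM : Pr.map (MulAut.conj g).toMonoidHom ≤ M := by
      rintro _ ⟨a, ha, rfl⟩
      have h1 := (Subgroup.mem_normalizer_iff.1 hgb (QuotientGroup.mk' N a)).1 ha.2
      simpa [M] using h1
    obtain ⟨m, hm, hconj⟩ := LAE62.exists_conj_le_of_relIndex hPrp inf_le_right hidx
      (hPrp.map _) hgM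
    have hmg : m * g ∈ Subgroup.normalizer (Pr : Set G) := by
      refine LAE62.mem_normalizer_of_conj_mem fun a ha => ?_
      have := hconj _ ⟨a, ha, rfl⟩
      simpa [mul_assoc] using this
    have h2 := Subgroup.mem_centralizer_singleton_iff.1 (hlc _ inf_le_left hPr0 hmg)
    have h3 : Commute (QuotientGroup.mk' N m) (QuotientGroup.mk' N x) := by
      obtain ⟨a, ha, hae⟩ := hR (show QuotientGroup.mk' N m ∈ R from hm)
      rw [← hae]
      exact (show Commute a x from Subgroup.mem_centralizer_singleton_iff.1 (hPC ha)).map _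
    have h4 : Commute (QuotientGroup.mk' N (m * g)) (QuotientGroup.mk' N x) := (show Commute (m * g) x from h2).map _
    rw [map_mul] at h4
    have h5 := h3.inv_left.mul_left h4
    rw [inv_mul_cancel_left] at h5
    exact Subgroup.mem_centralizer_singleton_iff.2 h5.eq

end Cfsg.Agent.S2998
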