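import Cfsg.Statements.S2999
import Cfsg.Agent.LAE79.OffenderField
import Cfsg.Agent.Modules.Offender

set_option autoImplicit false
open Cfsg
open scoped commutatorElement Pointwise

namespace Cfsg.Agent.S2999
open Cfsg.Agent.LAE79 (fixV mem_fixV)

/-- Let p be a prime and let P and V be subgroups of a finite group with V elementary abelian, P normalizing V and acting faithfully on it (P ∩ C(V) = 1). Suppose P is p-minimal (a Sylow p-subgroup T of P is not normal and lies in a unique maximal subgroup M of P) and A ≤ T is an elementary abelian subgroup such that: |V/C_V(A)| ≤ |A| while |A₀|·|C_V(A₀)| < |A|·|C_V(A)| for every nontrivial proper subgroup A₀ of A; [C_V(T), P] ≠ 1; and P = ⟨A, xAx⁻¹⟩ for every x ∈ P outside M. Then, with q = |A|, there is a field F with q elements such that P ≅ SL₂(F), C_V(A) = [V, A]·C_V(P), and P acts on V/C_V(P) as SL₂(F) on its natural two-dimensional module. -/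
theorem result {G : Type*} [Group G] [Finite G] {p : ℕ} [Fact p.Prime] (V P : Subgroup G) (hV : Cfsg.IsElementaryAbelian p V) (hPV : P ≤ Subgroup.normalizer (V : Set G)) (hfaith : P ⊓ Subgroup.centralizer (V : Set G) = ⊥) (hmin : Cfsg.IsPMinimal p ↥P) (T : Sylow p ↥P) (M : Subgroup ↥P) (hM : IsCoatom M) (hTM : (T : Subgroup ↥P) ≤ M) (A : Subgroup G) (hAT : A ≤ ((T : Subgroup ↥P).map P.subtype)) (hAel : Cfsg.IsElementaryAbelian p A) (hi : Nat.card ↥V ≤ Nat.card ↥A * Nat.card ↥(V ⊓ Subgroup.centralizer ((A : Subgroup G) : Set G)) ∧ ∀ A₀ : Subgroup G, A₀ ≤ A → A₀ ≠ ⊥ → A₀ ≠ A → Nat.card ↥A₀ * Nat.card ↥(V ⊓ Subgroup.centralizer ((A₀ : Subgroup G) : Set G)) < Nat.card ↥A * Nat.card ↥(V ⊓ Subgroup.centralizer ((A : Subgroup G) : Set G))) (hii : ⁅(V ⊓ Subgroup.centralizer ((((T : Subgroup ↥P).map P.subtype) : Subgroup G) : Set G)), P⁆ ≠ ⊥) (hiii : ∀ x : ↥P, x ∉ M → A ⊔ A.map (MulAut.conj (x : G)).toMonoidHom = P) : ∃ (F : Type) (_ : Field F) (_ : Fintype F), Fintype.card F = Nat.card ↥A ∧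 Nonempty (↥P ≃* Matrix.SpecialLinearGroup (Fin 2) F) ∧ (V ⊓ Subgroup.centralizer ((A : Subgroup G) : Set G)) = ⁅V, A⁆ ⊔ (V ⊓ Subgroup.centralizer ((P : Subgroup G) : Set G)) ∧ Cfsg.ActsAsSL2OnSection F ⊤ P V (V ⊓ Subgroup.centralizer ((P : Subgroup G) : Set G)) := by
  classical
  letI : CommGroup ↥V :=
    { (inferInstance : Group ↥V) with mul_comm := fun a b => hV.1.is_comm.comm a b }
  have hmem : ∀ (g : ↥P) (v : ↥V), (g : G) * v * (g : G)⁻¹ ∈ V := fun g v =>
    (Subgroup.mem_normalizer_iff.1 (hPV g.2) _).1 v.2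
  letI act : DistribMulAction ↥P (Additive ↥V) :=
    { smul := fun g v => Additive.ofMul ⟨_, hmem g v.toMul⟩
      one_smul := fun v => Additive.toMul.injective (Subtype.ext (by
        show ((1 : ↥P) : G) * ((v.toMul : ↥V) : G) * ((1 : ↥P) : G)⁻¹ = ((v.toMul : ↥V) : G)
        simp))
      mul_smul := fun g h v => Additive.toMul.injective (Subtype.ext (by
        show ((g * h : ↥P) : G) * ((v.toMul : ↥V) : G) * ((g * h : ↥P) : G)⁻¹ =
          (g : G) * ((h : G) * ((v.toMul : ↥V) : G) * (h : G)⁻¹) * (g : G)⁻¹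
        rw [Subgroup.coe_mul]; group))
      smul_zero := fun g => Additive.toMul.injective (Subtype.ext (by
        show (g : G) * ((1 : ↥V) : G) * (g : G)⁻¹ = ((1 : ↥V) : G)
        simp))
      smul_add := fun g u v => Additive.toMul.injective (Subtype.ext (by
        show (g : G) * (((u.toMul : ↥V) : G) * ((v.toMul : ↥V) : G)) * (g : G)⁻¹ =
          ((g : G) * ((u.toMul : ↥V) : G) * (g : G)⁻¹) * ((g : G) * ((v.toMul : ↥V) : G) * (g : G)⁻¹)
        group)) }
  have hsm : ∀ (g : ↥P) (v : Additive ↥V),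
      (((g • v).toMul : ↥V) : G) = (g : G) * ((v.toMul : ↥V) : G) * (g : G)⁻¹ := fun _ _ => rfl
  have hext : ∀ {u v : Additive ↥V}, ((u.toMul : ↥V) : G) = ((v.toMul : ↥V) : G) → u = v :=
    fun h => Additive.toMul.injective (Subtype.ext h)
  -- fixed points
  have hfix : ∀ (H : Subgroup ↥P) (v : Additive ↥V),
      v ∈ fixV H ↔ ((v.toMul : ↥V) : G) ∈ Subgroup.centralizer ((H.map P.subtype : Subgroup G) : Set G) := by
    intro H v
    rw [mem_fixV, Subgroup.mem_centralizer_iff]
    constructor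
    · rintro h _ ⟨g, hg, rfl⟩
      have := congrArg (fun w : Additive ↥V => ((w.toMul : ↥V) : G)) (h g hg)
      exact mul_inv_eq_iff_eq_mul.1 this
    · intro h g hg
      exact hext (mul_inv_eq_iff_eq_mul.2 (h _ ⟨g, hg, rfl⟩))
  have hfixcard : ∀ H : Subgroup ↥P, Nat.card (fixV (V := Additive ↥V) H) =
      Nat.card ↥(V ⊓ Subgroup.centralizer ((H.map P.subtype : Subgroup G) : Set G)) := fun H =>
    Nat.card_congr
      { toFun := fun v => ⟨((v.1.toMul : ↥V) : G), ⟨(v.1.toMul : ↥V).2, (hfix H v.1).1 v.2⟩⟩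
        invFun := fun v => ⟨Additive.ofMul ⟨v.1, v.2.1⟩, (hfix H _).2 v.2.2⟩
        left_inv := fun _ => rfl
        right_inv := fun _ => rfl }
  have hAP : A ≤ P := hAT.trans (Subgroup.map_subtype_le _)
  set A' : Subgroup ↥P := A.subgroupOf P with hA'
  have hA'map : A'.map P.subtype = A := Subgroup.map_subgroupOf_eq_of_le hAP
  have hA'card : Nat.card A' = Nat.card A := Nat.card_congr (Subgroup.subgroupOfEquivOfLe hAP).toEquiv
  have htopmap : (⊤ : Subgroup ↥P).map P.subtype = P := by
    rw [← MonoidHom.range_eq_map, Subgroup.range_subtype]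
  have hAV : A ≤ Subgroup.normalizer (V : Set G) := hAP.trans hPV
  -- quadraticity
  have hab : ⁅A, A⁆ ≤ Subgroup.centralizer (V : Set G) := by
    refine le_trans (le_of_eq ?_) bot_le
    rw [Subgroup.commutator_eq_bot_iff_le_centralizer]
    exact fun a ha => Subgroup.mem_centralizer_iff.2 fun b hb =>
      congrArg Subtype.val (hAel.1.is_comm.comm (⟨b, hb⟩ : ↥A) ⟨a, ha⟩)
  have hVbot : V ⊓ Subgroup.centralizer ((⊥ : Subgroup G) : Set G) = V :=
    inf_eq_left.2 (by simp [SetLike.le_def, Subgroup.mem_centralizer_iff])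
  have hmax : ∀ B ≤ A, Modules.offenderWeight V B ≤ Modules.offenderWeight V A := by
    intro B hB
    by_cases h0 : B = ⊥
    · rw [h0, Modules.offenderWeight, hVbot, Subgroup.card_bot, one_mul]; exact hi.1
    by_cases h1 : B = A
    · rw [h1]
    exact (hi.2 B hB h0 h1).le
  have hquad : A ≤ Subgroup.centralizer ((⁅V, A⁆ : Subgroup G) : Set G) := by
    obtain ⟨hB1, hB2⟩ := Modules.timmesfeld_replacement hV.1 hAV hab hmax (U := V) le_rfl
    set B := A ⊓ Subgroup.centralizer ((⁅V, A⁆ : Subgroup G) : Set G) with hB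
    by_contra hne
    have hBA : B ≠ A := fun h => hne (h.symm.le.trans inf_le_right)
    by_cases h0 : B = ⊥
    · rw [h0, hVbot] at hB1
      have hVp : IsPGroup p V := fun v => ⟨1, Subtype.ext (by simpa using hV.2 v v.2)⟩
      have hA' : ∀ a ∈ A, ∃ k, a ^ p ^ k ∈ Subgroup.centralizer (V : Set G) := fun a ha =>
        ⟨1, by rw [pow_one, hAel.2 a ha]; exact one_mem _⟩
      have hle : ⁅V, A⁆ ≤ V := Modules.commutator_le_of_normalizes hAV
      have hbot := Modules.commutator_eq_bot_of_le_commutator hVp hAV hA' (Subgroup.commutator_le.2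
        fun v hv a ha => by
          have hnorm : ⁅V, A⁆ ≤ Subgroup.normalizer ((V ⊓ Subgroup.centralizer (A : Set G) : Subgroup G) : Set G) :=
            fun x hx => Subgroup.mem_normalizer_iff.2 fun y => by
              have hcomm : ∀ z ∈ V, x * z * x⁻¹ = z := fun z hz => by
                rw [show x * z = z * x from congrArg Subtype.val (hV.1.is_comm.comm (⟨x, hle hx⟩ : ↥V) ⟨z, hz⟩),
                  mul_inv_cancel_right]
              constructor
              · intro hy; rw [hcomm y hy.1]; exact hy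
              · intro hy
                have hyV : y ∈ V := by
                  have := mul_mem (mul_mem (inv_mem (hle hx)) hy.1) (hle hx)
                  simpa [mul_assoc] using this
                rwa [hcomm y hyV] at hy
          have hv' : v ∈ ((⁅V, A⁆ : Subgroup G) : Set G) *
              ((V ⊓ Subgroup.centralizer (A : Set G) : Subgroup G) : Set G) := by
            rw [← Subgroup.coe_mul_of_left_le_normalizer_right _ _ hnorm, ← hB1]; exact hv
          obtain ⟨w, hw, c, hc, rfl⟩ := hv'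
          show ⁅w * c, a⁆ ∈ _
          rw [Modules.commutatorElement_mul_left, commutatorElement_eq_one_iff_mul_comm.2
            ((Subgroup.mem_centralizer_iff.1 hc.2 a ha).symm), mul_one, mul_inv_cancel, one_mul]
          exact Subgroup.commutator_mem_commutator hw ha)
      exact hne (by rw [hbot]; simp [SetLike.le_def, Subgroup.mem_centralizer_iff])
    · exact absurd hB2 (ne_of_lt (hi.2 B inf_le_left h0 hBA))
  have D : LAE79.Setting (Additive ↥V) p A' M T :=
    { faith := fun g hg => by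
        have : (g : G) ∈ P ⊓ Subgroup.centralizer (V : Set G) := ⟨g.2, Subgroup.mem_centralizer_iff.2
          fun v hv => (mul_inv_eq_iff_eq_mul.1
            (congrArg (fun w : Additive ↥V => ((w.toMul : ↥V) : G)) (hg (Additive.ofMul ⟨v, hv⟩)))).symm⟩
        rw [hfaith, Subgroup.mem_bot] at this
        exact Subtype.ext this
      exp := fun v => hext (by
        show (((v.toMul ^ p : ↥V)) : G) = 1
        rw [SubmonoidClass.coe_pow]; exact hV.2 _ (v.toMul : ↥V).2)
      le := fun a ha => by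
        obtain ⟨t, ht, he⟩ := hAT ha
        rwa [← Subtype.ext (he : (t : G) = (a : G))]
      coatom := hM
      TM := hTM
      uniq := fun L hL hTL => by
        obtain ⟨M', hM', hLM'⟩ := (eq_top_or_exists_le_coatom L).resolve_left hL
        obtain ⟨M₀, -, huq⟩ := (hmin T).2
        rw [huq M ⟨hM, hTM⟩, ← huq M' ⟨hM', hTL.trans hLM'⟩]
        exact hLM'
      gen := fun x hx H hAH hxH => by
        refine eq_top_iff.2 fun g _ => ?_
        have hle : A ⊔ A.map (MulAut.conj (x : G)).toMonoidHom ≤ H.map P.subtype := by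
          refine sup_le (fun a ha => ⟨⟨a, hAP ha⟩, hAH ha, rfl⟩) ?_
          rintro _ ⟨a, ha, rfl⟩
          exact ⟨x * ⟨a, hAP ha⟩ * x⁻¹, hxH ⟨a, hAP ha⟩ ha, rfl⟩
        rw [hiii x hx] at hle
        obtain ⟨h, hh, he⟩ := hle g.2
        rwa [← Subtype.ext (he : (h : G) = (g : G))]
      quad := fun a ha b hb v => hext (by
        have h : ((a • v - v).toMul : ↥V).1 ∈ ⁅V, A⁆ := by
          rw [Subgroup.commutator_comm]
          show ((a • v).toMul : ↥V).1 / ((v.toMul : ↥V) : G) ∈ _
          rw [div_eq_mul_inv, hsm]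
          exact Subgroup.commutator_mem_commutator (g₁ := (a : G)) ha (v.toMul : ↥V).2
        rw [hsm, mul_inv_eq_iff_eq_mul]
        exact (Subgroup.mem_centralizer_iff.1 (hquad hb) _ h).symm)
      off := by
        rw [hA'card, hfixcard, hA'map]
        exact hi.1
      minimal := fun A₀ hA₀ h0 h1 => by
        rw [hA'card, hfixcard, hfixcard, hA'map,
          ← Nat.card_congr (Subgroup.equivMapOfInjective A₀ P.subtype P.subtype_injective).toEquiv.symm]
        refine hi.2 _ (hA'map ▸ Subgroup.map_mono hA₀) (fun h => h0 ?_) fun h => h1 ?_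
        · exact (Subgroup.map_eq_bot_iff_of_injective _ P.subtype_injective).1 h
        · exact Subgroup.map_injective P.subtype_injective (h.trans hA'map.symm)
      moved := by
        by_contra h
        push Not at h
        apply hii
        rw [Subgroup.commutator_eq_bot_iff_le_centralizer]
        intro z hz
        have hz2 : (Additive.ofMul (⟨z, hz.1⟩ : ↥V)) ∈ fixV ((T : Subgroup ↥P)) := (hfix _ _).2 hz.2
        have := (hfix _ _).1 (h _ hz2)
        rwa [htopmap] at this }
  obtain ⟨F, iF, iFt, hcard, ⟨ρ, ψ, hsurj, hker, heq⟩, hlift⟩ := D.recognition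
  refine ⟨F, iF, iFt, hcard.trans hA'card, ⟨ρ⟩, le_antisymm (fun c hc => ?_) (sup_le ?_ ?_),
    hPV, inf_le_left, ρ.toMonoidHom, MonoidHom.mk' (fun v => Multiplicative.ofAdd (ψ (Additive.ofMul v)))
      (fun u v => by rw [ofMul_mul, map_add, ofAdd_add]), MonoidHom.range_eq_top.2 ρ.surjective,
    fun r => ?_, fun u => ?_, fun e u => ⟨⟨_, hmem e u⟩, rfl, heq e (Additive.ofMul u)⟩⟩
  · obtain ⟨a, ha, w, z, hz, he⟩ := hlift (Additive.ofMul (⟨c, hc.1⟩ : ↥V)) ((hfix _ _).2 (by rw [hA'map]; exact hc.2))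
    have he' : c = ((a • w).toMul : ↥V).1 / ((w.toMul : ↥V) : G) * ((z.toMul : ↥V) : G) :=
      congrArg (fun t : Additive ↥V => ((t.toMul : ↥V) : G)) he
    rw [he', div_eq_mul_inv, hsm]
    refine Subgroup.mul_mem_sup ?_ ⟨(z.toMul : ↥V).2, by simpa [htopmap] using (hfix _ _).1 hz⟩
    rw [Subgroup.commutator_comm]
    exact Subgroup.commutator_mem_commutator (g₁ := (a : G)) ha (w.toMul : ↥V).2
  · exact le_inf (Modules.commutator_le_of_normalizes hAV) (Subgroup.le_centralizer_iff.1 hquad)
  · exact inf_le_inf_left _ (Subgroup.centralizer_le hAP)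
  · obtain ⟨v, hv⟩ := hsurj r.toAdd
    exact ⟨v.toMul, congrArg Multiplicative.ofAdd hv⟩
  · show Multiplicative.ofAdd (ψ (Additive.ofMul u)) = 1 ↔ _
    rw [ofAdd_eq_one, hker, hfix, htopmap, Subgroup.mem_inf]
    exact ⟨fun h => ⟨u.2, h⟩, fun h => h.2⟩

end Cfsg.Agent.S2999
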