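import Cfsg.Statements.S3000
import Cfsg.Agent.MovesFix.Conv

set_option autoImplicit false
open Cfsg
open scoped commutatorElement IsMulCommutative

namespace Cfsg.Agent.S3000
open Cfsg.Agent.LAE79 (fixV mem_fixV)

/-- Let p be a prime and let P and V be subgroups of a finite group with V elementary abelian, P normalizing V and acting faithfully on it (P ∩ C(V) = 1). Suppose P is p-minimal (a Sylow p-subgroup T of P is not normal and lies in a unique maximal subgroup M of P), O_p(P) = 1, C_P(C_V(T)) ≤ M, and P has a best offender on V: a subgroup A not centralizing V, with A/C_A(V) elementary abelian, such that |B|·|C_V(B)| ≤ |A|·|C_V(A)| for every subgroup B of A. Then there are subgroups E₁, …, E_r of P (r ≥ 1), pairwise commuting and forming with T a product P = (E₁ × ⋯ × E_r)T (internal direct product of the E_i), any two of which are conjugate by an element of T, such that V = C_V(E₁⋯E_r)·∏[V, E_i] with [V, E_i, E_j] =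 1 for i ≠ j, and for each i there is n ≥ 1 with either E_i ≅ SL₂(pⁿ) acting on [V, E_i]/C_{[V,E_i]}(E_i) as on its natural two-dimensional module, or p = 2 and E_i isomorphic to the symmetric group of degree 2ⁿ + 1 acting on [V, E_i]/C_{[V,E_i]}(E_i) as on its even-weight permutation module. -/
theorem result {G : Type*} [Group G] [Finite G] {p : ℕ} [Fact p.Prime] (V P : Subgroup G) (hV : Cfsg.IsElementaryAbelian p V) (hPV : P ≤ Subgroup.normalizer (V : Set G)) (hfaith : P ⊓ Subgroup.centralizer (V : Set G) = ⊥) (hmin : Cfsg.IsPMinimal p ↥P) (T : Sylow p ↥P) (M : Subgroup ↥P) (hM : IsCoatom M) (hTM : (T : Subgroup ↥P) ≤ M) (hOp : Cfsg.pCore p ↥P = ⊥) (hoff : ∃ A : Subgroup G, A ≤ P ∧ ¬ A ≤ Subgroup.centralizer (V : Set G) ∧ Cfsg.IsBestOffenderOn p V A) (hCT : P ⊓ Subgroup.centralizer ((V ⊓ Subgroup.centralizer ((((T : Subgroup ↥P).map P.subtype) : Subgroup G) : Set G)) : Set G) ≤ M.map P.subtype) : ∃ (r : ℕ) (E : Fin r → Subgroup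 G), 1 ≤ r ∧ (∀ i, E i ≤ P) ∧ (∀ i j, i ≠ j → ⁅E i, E j⁆ = ⊥) ∧ (∀ i, E i ⊓ (⨆ j ∈ {j | j ≠ i}, E j) = ⊥) ∧ (⨆ i, E i) ⊔ ((T : Subgroup ↥P).map P.subtype) = P ∧ (∀ i j, ∃ t ∈ ((T : Subgroup ↥P).map P.subtype), (E i).map (MulAut.conj t).toMonoidHom = E j) ∧ (V ⊓ Subgroup.centralizer (((⨆ i, E i) : Subgroup G) : Set G)) ⊔ (⨆ i, ⁅V, E i⁆) = V ∧ (∀ i j, i ≠ j → ⁅⁅V, E i⁆, E j⁆ = ⊥) ∧ ∀ i, ∃ n : ℕ, 1 ≤ n ∧ ((∃ (F : Type) (_ : Field F) (_ : Fintype F), Fintype.card F = p ^ n ∧ Nonempty (↥(E i) ≃* Matrix.SpecialLinearGroup (Fin 2) F) ∧ Cfsg.ActsAsSL2OnSection F ⊤ (E i) ⁅V, E i⁆ (⁅V, E i⁆ ⊓ Subgroup.centralizer ((E i : Subgroup G) : Set G))) ∨ (p = 2 ∧ Nonempty (↥(E i) ≃* Equiv.Perm (Fin (2 ^ n + 1))) ∧ Cfsg.ActsAsOddPermModuleOnSection (2 ^ n + 1) ⊤ (E i) ⁅V, E i⁆ (⁅V, E i⁆ ⊓ Subgroup.centralizer ((E i : Subgroup G) : Set G)))) := by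
  classical
  haveI : IsMulCommutative ↥V := hV.1
  have hmem : ∀ (g : ↥P) (v : ↥V), (g : G) * v * (g : G)⁻¹ ∈ V := fun g v =>
    (Subgroup.mem_normalizer_iff.1 (hPV g.2) _).1 v.2
  letI act : DistribMulAction ↥P (Additive ↥V) :=
    { smul := fun g v => Additive.ofMul ⟨_, hmem g v.toMul⟩
      one_smul := fun v => Additive.toMul.injective (Subtype.ext (by
        show ((1 : ↥P) : G) * ((v.toMul : ↥V) : G) * ((1 : ↥P) : G)⁻¹ = ((v.toMul : ↥V) : G)
        simp))
      mul_smul := fun g h v => Additive.toMul.injective (Subtype.ext (by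
        show ((g * h : ↥P) : G) * ((v.toMul : ↥V) : G) * ((g * h : ↥P) : G)⁻¹ =
          (g : G) * ((h : G) * ((v.toMul : ↥V) : G) * (h : G)⁻¹) * (g : G)⁻¹
        rw [Subgroup.coe_mul]; group))
      smul_zero := fun g => Additive.toMul.injective (Subtype.ext (by
        show (g : G) * ((1 : ↥V) : G) * (g : G)⁻¹ = ((1 : ↥V) : G)
        simp))
      smul_add := fun g u v => Additive.toMul.injective (Subtype.ext (by
        show (g : G) * (((u.toMul : ↥V) : G) * ((v.toMul : ↥V) : G)) * (g : G)⁻¹ =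
          ((g : G) * ((u.toMul : ↥V) : G) * (g : G)⁻¹) * ((g : G) * ((v.toMul : ↥V) : G) * (g : G)⁻¹)
        group)) }
  let q : ↥P →* ↥P := MonoidHom.id ↥P
  have hq : MovesFix.Agree V q := ⟨Function.surjective_id, fun _ _ => rfl⟩
  have hpre : ∀ E : Subgroup ↥P, MovesFix.pre q E = E.map P.subtype := fun E => rfl
  obtain ⟨A, hAP, hAV, hbest, hcomm, hpow⟩ := hoff
  set A' : Subgroup ↥P := A.subgroupOf P with hA'
  have hA'map : A'.map P.subtype = A := Subgroup.map_subgroupOf_eq_of_le hAP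
  have hone : ∀ g : ↥P, (g : G) ∈ Subgroup.centralizer (V : Set G) → g = 1 := fun g hg => by
    have : (g : G) ∈ P ⊓ Subgroup.centralizer (V : Set G) := ⟨g.2, hg⟩
    rw [hfaith, Subgroup.mem_bot] at this
    exact Subtype.ext this
  have hEA : MovesFix.EA p A' := by
    refine ⟨fun a ha b hb => ?_, fun a ha => hone _ (by rw [SubgroupClass.coe_pow]; exact hpow _ ha)⟩
    have h1 := hone ⁅a, b⁆ (hcomm (Subgroup.commutator_mem_commutator
      (Subgroup.mem_subgroupOf.1 ha) (Subgroup.mem_subgroupOf.1 hb)))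
    exact commutatorElement_eq_one_iff_mul_comm.1 h1
  have hne : A' ≠ ⊥ := fun h => hAV (by
    rw [← hA'map, h, Subgroup.map_bot]; exact bot_le)
  have hfixcard : ∀ H : Subgroup ↥P, Nat.card (fixV (V := Additive ↥V) H) =
      Nat.card ↥(V ⊓ Subgroup.centralizer ((H.map P.subtype : Subgroup G) : Set G)) := fun H => by
    rw [← hpre, hq.toG_fix]
    exact Nat.card_congr (Equiv.ofBijective
      (fun v : fixV (V := Additive ↥V) H => (⟨MovesFix.toEl v.1, MovesFix.mem_toG.2 v.2⟩ : MovesFix.toG (fixV (V := Additive ↥V) H)))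
      ⟨fun u v e => Subtype.ext (MovesFix.toEl_injective (show MovesFix.toEl u.1 = MovesFix.toEl v.1 from congrArg (fun z : ↥(MovesFix.toG (fixV (V := Additive ↥V) H)) => (z : G)) e)),
        fun ⟨x, v, hv, e⟩ => ⟨⟨v, hv⟩, Subtype.ext e⟩⟩)
  have hw : Nat.card (Additive ↥V) ≤ MovesFix.wt (Additive ↥V) A' := by
    have h0 := hbest ⊥ bot_le
    rw [Subgroup.card_bot, one_mul,
      show V ⊓ Subgroup.centralizer ((⊥ : Subgroup G) : Set G) = V from
        inf_eq_left.2 (by simp [SetLike.le_def, Subgroup.mem_centralizer_iff])] at h0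
    rw [MovesFix.wt, hfixcard, hA'map, hA', Nat.card_congr (Subgroup.subgroupOfEquivOfLe hAP).toEquiv]
    exact le_trans (le_of_eq (Nat.card_congr Additive.toMul)) h0
  obtain ⟨r, E, hD⟩ := MovesFix.exists_decomp (V := Additive ↥V) hmin hOp
    (fun v => MovesFix.toEl_injective (by
      show (((v.toMul ^ p : ↥V)) : G) = 1
      rw [SubmonoidClass.coe_pow]; exact hV.2 _ (v.toMul : ↥V).2))
    (fun g hg => hone g (Subgroup.mem_centralizer_iff.2 fun v hv => (mul_inv_eq_iff_eq_mul.1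
      (congrArg MovesFix.toEl (hg (Additive.ofMul (⟨v, hv⟩ : ↥V))))).symm))
    hEA hne hw T
  have hinj := P.subtype_injective
  refine ⟨r, fun i => MovesFix.pre q (E i), hD.pos, fun i => MovesFix.pre_le q _, fun i j hij => ?_,
    fun i => ?_, ?_, fun i j => ?_, hq.split hD.split, fun i j hij => hq.cross (hD.cross i j hij),
    fun i => ?_⟩
  · rw [Subgroup.commutator_eq_bot_iff_le_centralizer]
    rintro _ ⟨g, hg, rfl⟩
    refine Subgroup.mem_centralizer_iff.2 ?_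
    rintro _ ⟨k, hk, rfl⟩
    exact congrArg Subtype.val (hD.commute i j hij g hg k hk).symm
  · simp only [hpre]
    rw [show (⨆ j ∈ {j | j ≠ i}, (E j).map P.subtype) = (⨆ j ∈ {j | j ≠ i}, E j).map P.subtype by
      simp only [Subgroup.map_iSup], ← Subgroup.map_inf _ _ _ hinj, hD.disjoint, Subgroup.map_bot]
  · simp only [hpre]
    rw [← Subgroup.map_iSup, ← Subgroup.map_sup, hD.top, ← MonoidHom.range_eq_map, Subgroup.range_subtype]
  · obtain ⟨t, ht, he⟩ := hD.trans i j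
    refine ⟨(t : G), ⟨t, ht, rfl⟩, ?_⟩
    simp only [hpre]
    rw [← he, Fusion.cj, Subgroup.map_map, Subgroup.map_map]
    rfl
  · obtain ⟨n, hn, ⟨F, iF, iFt, hFc, ⟨ρ, hρs, hρ1⟩, hact⟩ | ⟨hp2, ⟨ρ, hρs, hρ1⟩, hact⟩⟩ := hq.model (hD.model i)
    · exact ⟨n, hn, Or.inl ⟨F, iF, iFt, hFc, ⟨MulEquiv.ofBijective ρ ⟨(injective_iff_map_eq_one ρ).2
        fun e he => Subtype.ext (congrArg (fun z : ↥P => (z : G)) ((hρ1 e).1 he)), hρs⟩⟩, hact⟩⟩
    · exact ⟨n, hn, Or.inr ⟨hp2, ⟨MulEquiv.ofBijective ρ ⟨(injective_iff_map_eq_one ρ).2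
        fun e he => Subtype.ext (congrArg (fun z : ↥P => (z : G)) ((hρ1 e).1 he)), hρs⟩⟩, hact⟩⟩

end Cfsg.Agent.S3000
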