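import Cfsg.Statements.S3001
import Cfsg.Agent.MovesFix.Module

set_option autoImplicit false
open Cfsg
open scoped commutatorElement Pointwise

namespace Cfsg.Agent.S3001
open Cfsg.Agent.LAE79 (fixV mem_fixV)

/-- Let p be a prime and let P and V be subgroups of a finite group with V elementary abelian, P normalizing V and acting faithfully on it (P ∩ C(V) = 1). Suppose P is p-minimal (a Sylow p-subgroup is not normal and lies in a unique maximal subgroup), O_p(P) = 1, and P has a best offender on V (a subgroup A not centralizing V, with A/C_A(V) elementary abelian and |B|·|C_V(B)| ≤ |A|·|C_V(A)| for every B ≤ A). Then [C_V(T), P] ≠ 1 for every Sylow p-subgroup T of P. -/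
theorem result {G : Type*} [Group G] [Finite G] {p : ℕ} [Fact p.Prime] (V P : Subgroup G) (hV : Cfsg.IsElementaryAbelian p V) (hPV : P ≤ Subgroup.normalizer (V : Set G)) (hfaith : P ⊓ Subgroup.centralizer (V : Set G) = ⊥) (hmin : Cfsg.IsPMinimal p ↥P) (hOp : Cfsg.pCore p ↥P = ⊥) (hoff : ∃ A : Subgroup G, A ≤ P ∧ ¬ A ≤ Subgroup.centralizer (V : Set G) ∧ Cfsg.IsBestOffenderOn p V A) (T : Sylow p ↥P) : ⁅(V ⊓ Subgroup.centralizer ((((T : Subgroup ↥P).map P.subtype) : Subgroup G) : Set G)), P⁆ ≠ ⊥ := by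
  classical
  letI : CommGroup ↥V :=
    { (inferInstance : Group ↥V) with mul_comm := fun a b => hV.1.is_comm.comm a b }
  have hmem : ∀ (g : ↥P) (v : ↥V), (g : G) * v * (g : G)⁻¹ ∈ V := fun g v =>
    (Subgroup.mem_normalizer_iff.1 (hPV g.2) _).1 v.2
  letI act : DistribMulAction ↥P (Additive ↥V) :=
    { smul := fun g v => Additive.ofMul ⟨_, hmem g v.toMul⟩
      one_smul := fun v => Additive.toMul.injective (Subtype.ext (by
        show ((1 : ↥P) : G) * ((v.toMul : ↥V) : G) * ((1 : ↥P) : G)⁻¹ = ((v.toMul : ↥V) : G)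
        simp))
      mul_smul := fun g h v => Additive.toMul.injective (Subtype.ext (by
        show ((g * h : ↥P) : G) * ((v.toMul : ↥V) : G) * ((g * h : ↥P) : G)⁻¹ =
          (g : G) * ((h : G) * ((v.toMul : ↥V) : G) * (h : G)⁻¹) * (g : G)⁻¹
        rw [Subgroup.coe_mul]; group))
      smul_zero := fun g => Additive.toMul.injective (Subtype.ext (by
        show (g : G) * ((1 : ↥V) : G) * (g : G)⁻¹ = ((1 : ↥V) : G)
        simp))
      smul_add := fun g u v => Additive.toMul.injective (Subtype.ext (by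
        show (g : G) * (((u.toMul : ↥V) : G) * ((v.toMul : ↥V) : G)) * (g : G)⁻¹ =
          ((g : G) * ((u.toMul : ↥V) : G) * (g : G)⁻¹) * ((g : G) * ((v.toMul : ↥V) : G) * (g : G)⁻¹)
        group)) }
  have hsm : ∀ (g : ↥P) (v : Additive ↥V),
      (((g • v).toMul : ↥V) : G) = (g : G) * ((v.toMul : ↥V) : G) * (g : G)⁻¹ := fun _ _ => rfl
  have hext : ∀ {u v : Additive ↥V}, ((u.toMul : ↥V) : G) = ((v.toMul : ↥V) : G) → u = v :=
    fun h => Additive.toMul.injective (Subtype.ext h)
  -- fixed points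
  have hfix : ∀ (H : Subgroup ↥P) (v : Additive ↥V),
      v ∈ fixV H ↔ ((v.toMul : ↥V) : G) ∈ Subgroup.centralizer ((H.map P.subtype : Subgroup G) : Set G) := by
    intro H v
    rw [mem_fixV, Subgroup.mem_centralizer_iff]
    constructor
    · rintro h _ ⟨g, hg, rfl⟩
      have := congrArg (fun w : Additive ↥V => ((w.toMul : ↥V) : G)) (h g hg)
      exact mul_inv_eq_iff_eq_mul.1 this
    · intro h g hg
      exact hext (mul_inv_eq_iff_eq_mul.2 (h _ ⟨g, hg, rfl⟩))
  have hfixcard : ∀ H : Subgroup ↥P, Nat.card (fixV (V := Additive ↥V) H) =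
      Nat.card ↥(V ⊓ Subgroup.centralizer ((H.map P.subtype : Subgroup G) : Set G)) := fun H =>
    Nat.card_congr
      { toFun := fun v => ⟨((v.1.toMul : ↥V) : G), ⟨(v.1.toMul : ↥V).2, (hfix H v.1).1 v.2⟩⟩
        invFun := fun v => ⟨Additive.ofMul ⟨v.1, v.2.1⟩, (hfix H _).2 v.2.2⟩
        left_inv := fun _ => rfl
        right_inv := fun _ => rfl }
  obtain ⟨A, hAP, hAV, hbest, hcomm, hpow⟩ := hoff
  set A' : Subgroup ↥P := A.subgroupOf P with hA'
  have hA'map : A'.map P.subtype = A := Subgroup.map_subgroupOf_eq_of_le hAP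
  have hone : ∀ g : ↥P, (g : G) ∈ Subgroup.centralizer (V : Set G) → g = 1 := fun g hg => by
    have : (g : G) ∈ P ⊓ Subgroup.centralizer (V : Set G) := ⟨g.2, hg⟩
    rw [hfaith, Subgroup.mem_bot] at this
    exact Subtype.ext this
  have hEA : MovesFix.EA p A' := by
    refine ⟨fun a ha b hb => ?_, fun a ha => hone _ (by rw [SubgroupClass.coe_pow]; exact hpow _ ha)⟩
    have h1 := hone ⁅a, b⁆ (hcomm (Subgroup.commutator_mem_commutator
      (Subgroup.mem_subgroupOf.1 ha) (Subgroup.mem_subgroupOf.1 hb)))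
    exact commutatorElement_eq_one_iff_mul_comm.1 h1
  have hne : A' ≠ ⊥ := fun h => hAV (by
    rw [← hA'map, h, Subgroup.map_bot]; exact bot_le)
  have hw : Nat.card (Additive ↥V) ≤ MovesFix.wt (Additive ↥V) A' := by
    have h0 := hbest ⊥ bot_le
    rw [Subgroup.card_bot, one_mul,
      show V ⊓ Subgroup.centralizer ((⊥ : Subgroup G) : Set G) = V from
        inf_eq_left.2 (by simp [SetLike.le_def, Subgroup.mem_centralizer_iff])] at h0
    rw [MovesFix.wt, hfixcard, hA'map, hA', Nat.card_congr (Subgroup.subgroupOfEquivOfLe hAP).toEquiv]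
    exact le_trans (le_of_eq (Nat.card_congr Additive.toMul)) h0
  obtain ⟨v, hv, hvf⟩ := MovesFix.exists_moved_fix (V := Additive ↥V) hmin hOp
    (fun v => hext (by
      show (((v.toMul ^ p : ↥V)) : G) = 1
      rw [SubmonoidClass.coe_pow]; exact hV.2 _ (v.toMul : ↥V).2))
    (fun g hg => hone g (Subgroup.mem_centralizer_iff.2 fun v hv => (mul_inv_eq_iff_eq_mul.1
      (congrArg (fun w : Additive ↥V => ((w.toMul : ↥V) : G)) (hg (Additive.ofMul ⟨v, hv⟩)))).symm))
    hEA hne hw T
  intro hbot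
  rw [Subgroup.commutator_eq_bot_iff_le_centralizer] at hbot
  refine hvf ((hfix _ v).2 ?_)
  have htopmap : (⊤ : Subgroup ↥P).map P.subtype = P := by
    rw [← MonoidHom.range_eq_map, Subgroup.range_subtype]
  rw [htopmap]
  exact hbot ⟨(v.toMul : ↥V).2, (hfix _ v).1 hv⟩

end Cfsg.Agent.S3001
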