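import Cfsg.Statements.S3003
import Mathlib.RingTheory.Coprime.Lemmas
import Mathlib.RingTheory.Int.Basic
import Cfsg.Agent.Coprime.Generation
import Cfsg.Agent.LAE62.SylowBasics
-- import your own Cfsg.Agent.* helpers here

set_option autoImplicit false
open Cfsg

namespace Cfsg.Agent.S3003

/-- Let G be a finite group, p a prime and Q a large p-subgroup of G: C_G(Q) ≤ Q and N_G(U) ≤ N_G(Q) for every nontrivial subgroup U of C_G(Q). Let Q ≤ G₁ ≤ G, let R be a subgroup of order prime to p normalized by G₁, and let U ≤ G₁ be a p-subgroup. If U contains a nontrivial element which is G₁-conjugate to an element of Z(Q), then C_R(U) = 1. In particular, if U is elementary abelian of order at least p² and every maximal subgroup of U contains a nontrivial element G₁-conjugate into Z(Q), then R = 1. -/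
theorem result {G : Type*} [Group G] [Finite G] {p : ℕ} [Fact p.Prime] (Q : Subgroup G) (hQp : IsPGroup p ↥Q) (hlarge : Cfsg.IsLarge Q) (G₁ : Subgroup G) (hQG : Q ≤ G₁) (R : Subgroup G) (hR : (Nat.card ↥R).Coprime p) (hGR : G₁ ≤ Subgroup.normalizer (R : Set G)) (U : Subgroup G) (hUG : U ≤ G₁) (hUp : IsPGroup p ↥U) : ((∃ x ∈ U, x ≠ 1 ∧ ∃ g ∈ G₁, g * x * g⁻¹ ∈ Q ⊓ Subgroup.centralizer (Q : Set G)) → R ⊓ Subgroup.centralizer (U : Set G) = ⊥) ∧ (Cfsg.IsElementaryAbelian p U → p ^ 2 ≤ Nat.card ↥U → (∀ U₀ : Subgroup G, U₀ ≤ U → IsCoatom (U₀.subgroupOf U) → ∃ x ∈ U₀, x ≠ 1 ∧ ∃ g ∈ G₁, g * x * g⁻¹ ∈ Q ⊓ Subgroup.centralizer (Q : Set G)) → R = ⊥) := by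
  have hQR : Q ⊓ R = ⊥ := by
    refine disjoint_iff.1 (Subgroup.disjoint_of_coprime_natCard ?_)
    obtain ⟨n, hn⟩ := IsPGroup.iff_card.1 hQp
    rw [hn]
    exact hR.symm.pow_left n
  have part1 : ∀ S : Subgroup G, (∃ x ∈ S, x ≠ 1 ∧ ∃ g ∈ G₁, g * x * g⁻¹ ∈ Q ⊓ Subgroup.centralizer (Q : Set G)) →
      R ⊓ Subgroup.centralizer (S : Set G) = ⊥ := by
    rintro S ⟨x, hx, hx1, g, hg, hz⟩
    rw [eq_bot_iff]
    rintro c ⟨hcR, hcS⟩
    set z := g * x * g⁻¹ with hzdef
    have hdR : g * c * g⁻¹ ∈ R := (Subgroup.mem_normalizer_iff.1 (hGR hg) c).1 hcR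
    have hdz : Commute (g * c * g⁻¹) z := by
      have h1 : Commute c x := (Subgroup.mem_centralizer_iff.1 hcS x hx).symm
      exact h1.map (MulAut.conj g).toMonoidHom
    have hzne : Subgroup.zpowers z ≠ ⊥ := by simpa [z, Subgroup.zpowers_eq_bot] using hx1
    have hdQ : g * c * g⁻¹ ∈ Subgroup.normalizer (Q : Set G) := by
      refine hlarge.2 (Subgroup.zpowers z) (Subgroup.zpowers_le.2 hz.2) hzne ?_
      refine Subgroup.centralizer_le_normalizer _ ?_
      rw [Subgroup.zpowers_eq_closure, Subgroup.centralizer_closure]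
      exact Subgroup.mem_centralizer_singleton_iff.2 hdz.eq
    set d := g * c * g⁻¹
    have hdC : d ∈ Subgroup.centralizer (Q : Set G) := by
      intro q hq
      have h1 : q⁻¹ * d⁻¹ * q * d ∈ Q ⊓ R := by
        constructor
        · have := (Subgroup.mem_normalizer_iff.1 (Subgroup.inv_mem _ hdQ) q).1 hq
          rw [inv_inv] at this
          have := Q.mul_mem (Q.inv_mem hq) this
          simpa [mul_assoc] using this
        · have := (Subgroup.mem_normalizer_iff.1 (hGR (hQG (Q.inv_mem hq))) d⁻¹).1 (R.inv_mem hdR)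
          have := R.mul_mem this hdR
          simpa [mul_assoc] using this
      rw [hQR, Subgroup.mem_bot] at h1
      calc q * d = d * q * (q⁻¹ * d⁻¹ * q * d) := by group
        _ = d * q := by rw [h1, mul_one]
    have hd1 : d = 1 := by
      have : d ∈ Q ⊓ R := ⟨hlarge.1 hdC, hdR⟩
      rwa [hQR, Subgroup.mem_bot] at this
    rw [Subgroup.mem_bot]
    calc c = g⁻¹ * d * g := by simp [d, mul_assoc]
      _ = 1 := by simp [hd1]
  refine ⟨part1 U, fun hel hcard hmax => ?_⟩
  obtain ⟨n, hn⟩ := IsPGroup.iff_card.1 hUp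
  have key : ∀ k : ℕ, ∀ S : Subgroup G, S ≤ U → Nat.card U ≤ Nat.card S + k → S ≠ U →
      R ⊓ Subgroup.centralizer (S : Set G) = ⊥ := by
    intro k
    induction k with
    | zero => intro S hS h hne; exact absurd (Subgroup.eq_of_le_of_card_ge hS (by simpa using h)) hne
    | succ k ih =>
      intro S hS hk hne
      by_cases hco : IsCoatom (S.subgroupOf U)
      · exact part1 S (hmax S hS hco)
      obtain ⟨M, hSM, hMU⟩ : ∃ M, S < M ∧ M < U := by
        by_contra hc
        push Not at hc
        refine hco ⟨fun e => hne (le_antisymm hS (Subgroup.subgroupOf_eq_top.1 e)), fun X hX => ?_⟩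
        have h1 : S < X.map U.subtype := by
          rw [← Subgroup.map_subgroupOf_eq_of_le hS]
          exact Subgroup.map_lt_map_iff_of_injective U.subtype_injective |>.2 hX
        have h2 : U ≤ X.map U.subtype := by
          by_contra hU
          exact hc _ h1 (lt_of_le_of_ne (Subgroup.map_subtype_le X) fun e => hU e.ge)
        rw [eq_top_iff]
        intro a _
        obtain ⟨b, hb, hba⟩ := h2 a.2
        rwa [← Subtype.ext hba]
      obtain ⟨a₁, ha₁, ha₁S⟩ := SetLike.exists_of_lt hSM
      obtain ⟨a₂, ha₂, ha₂M⟩ := SetLike.exists_of_lt hMU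
      have ha₁U : a₁ ∈ U := hMU.le ha₁
      let A : Subgroup G := Subgroup.closure {a₁, a₂}
      have hAU : A ≤ U := (Subgroup.closure_le _).2 (by
        rintro y (rfl | rfl); exacts [ha₁U, ha₂])
      haveI hAcomm : IsMulCommutative A :=
        ⟨⟨fun a b => Subtype.ext (congrArg Subtype.val (hel.1.is_comm.comm (⟨(a : G), hAU a.2⟩ : U) (⟨(b : G), hAU b.2⟩ : U)) :)⟩⟩
      have hdec : ∀ a ∈ A, a ∉ M ∨ ∃ i : ℤ, a = a₁ ^ i := by
        intro a ha
        obtain ⟨i, j, rfl⟩ : ∃ i j : ℤ, a₁ ^ i * a₂ ^ j = a := by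
          induction ha using Subgroup.closure_induction with
          | mem y hy =>
            rcases hy with rfl | rfl
            · exact ⟨1, 0, by simp⟩
            · exact ⟨0, 1, by simp⟩
          | one => exact ⟨0, 0, by simp⟩
          | mul y z _ _ hy hz =>
            obtain ⟨i, j, rfl⟩ := hy
            obtain ⟨i', j', rfl⟩ := hz
            refine ⟨i + i', j + j', ?_⟩
            have hc : Commute (a₂ ^ j) (a₁ ^ i') := by
              have : Commute a₂ a₁ := congrArg Subtype.val (hel.1.is_comm.comm (⟨a₂, ha₂⟩ : U) (⟨a₁, ha₁U⟩ : U))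
              exact this.zpow_zpow j i'
            rw [zpow_add, zpow_add]
            calc a₁ ^ i * a₁ ^ i' * (a₂ ^ j * a₂ ^ j') = a₁ ^ i * (a₁ ^ i' * a₂ ^ j) * a₂ ^ j' := by group
              _ = a₁ ^ i * (a₂ ^ j * a₁ ^ i') * a₂ ^ j' := by rw [hc.eq]
              _ = _ := by group
          | inv y _ hy =>
            obtain ⟨i, j, rfl⟩ := hy
            refine ⟨-i, -j, ?_⟩
            have hc : Commute a₁ a₂ := congrArg Subtype.val (hel.1.is_comm.comm (⟨a₁, ha₁U⟩ : U) (⟨a₂, ha₂⟩ : U))
            rw [mul_inv_rev, zpow_neg, zpow_neg, (hc.zpow_zpow i j).inv_inv.eq]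
        by_cases hj : (p : ℤ) ∣ j
        · obtain ⟨t, rfl⟩ := hj
          exact Or.inr ⟨i, by rw [zpow_mul, zpow_natCast, hel.2 a₂ ha₂, one_zpow, mul_one]⟩
        · refine Or.inl fun hm => ha₂M ?_
          have h2 : a₂ ^ j ∈ M := by
            have := M.mul_mem (M.inv_mem (M.zpow_mem ha₁ i)) hm
            rwa [inv_mul_cancel_left] at this
          obtain ⟨s, t, hst⟩ : IsCoprime j (p : ℤ) :=
            (((Int.prime_iff_natAbs_prime.2 (by simpa using (Fact.out : p.Prime))).irreducible.coprime_iff_not_dvd).2 hj).symm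
          have e : a₂ = (a₂ ^ j) ^ s := by
            have h1 : a₂ ^ (s * j + t * (p : ℤ)) = a₂ := by rw [hst, zpow_one]
            rw [zpow_add, mul_comm t, zpow_mul a₂ (p : ℤ) t, zpow_natCast, hel.2 a₂ ha₂, one_zpow, mul_one,
              mul_comm s, zpow_mul] at h1
            exact h1.symm
          rw [e]; exact M.zpow_mem h2 s
      have hnS : ∀ a ∈ A, a ∈ S → a = 1 := by
        intro a ha haS
        rcases hdec a ha with h | ⟨i, rfl⟩
        · exact absurd (hSM.le haS) h
        by_cases hi : (p : ℤ) ∣ i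
        · obtain ⟨t, rfl⟩ := hi
          rw [zpow_mul, zpow_natCast, hel.2 a₁ ha₁U, one_zpow]
        · exfalso
          apply ha₁S
          obtain ⟨s, t, hst⟩ : IsCoprime i (p : ℤ) :=
            (((Int.prime_iff_natAbs_prime.2 (by simpa using (Fact.out : p.Prime))).irreducible.coprime_iff_not_dvd).2 hi).symm
          have e : a₁ = (a₁ ^ i) ^ s := by
            have h1 : a₁ ^ (s * i + t * (p : ℤ)) = a₁ := by rw [hst, zpow_one]
            rw [zpow_add, mul_comm t, zpow_mul a₁ (p : ℤ) t, zpow_natCast, hel.2 a₁ ha₁U, one_zpow, mul_one,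
              mul_comm s, zpow_mul] at h1
            exact h1.symm
          rw [e]; exact S.zpow_mem haS s
      have hA : ¬ IsCyclic A := by
        intro hc
        obtain ⟨⟨c, hc'⟩, hgen⟩ := hc.exists_generator
        have hp1 : p.Prime := Fact.out
        rcases hdec c hc' with hcM | ⟨i, rfl⟩
        · obtain ⟨j, hj⟩ := Subgroup.mem_zpowers_iff.1 (hgen ⟨a₁, Subgroup.subset_closure (Or.inl rfl)⟩)
          have hj' : c ^ j = a₁ := congrArg Subtype.val hj
          by_cases hd : (p : ℤ) ∣ j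
          · obtain ⟨t, rfl⟩ := hd
            rw [zpow_mul, zpow_natCast, hel.2 c (hAU hc'), one_zpow] at hj'
            exact ha₁S (hj' ▸ S.one_mem)
          · apply hcM
            obtain ⟨s, t, hst⟩ : IsCoprime j (p : ℤ) :=
              (((Int.prime_iff_natAbs_prime.2 (by simpa using hp1)).irreducible.coprime_iff_not_dvd).2 hd).symm
            have h1 : c ^ (s * j + t * (p : ℤ)) = c := by rw [hst, zpow_one]
            rw [zpow_add, mul_comm t, zpow_mul c (p : ℤ) t, zpow_natCast, hel.2 c (hAU hc'), one_zpow, mul_one,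
              mul_comm s, zpow_mul, hj'] at h1
            exact h1 ▸ M.zpow_mem ha₁ s
        · obtain ⟨j, hj⟩ := Subgroup.mem_zpowers_iff.1 (hgen ⟨a₂, Subgroup.subset_closure (Or.inr rfl)⟩)
          have e2 : (a₁ ^ i) ^ j = a₂ := congrArg Subtype.val hj
          exact ha₂M (e2 ▸ M.zpow_mem (M.zpow_mem ha₁ i) j)
      set K := R ⊓ Subgroup.centralizer (S : Set G) with hK
      have hAK : A ≤ Subgroup.normalizer (K : Set G) := by
        intro a ha
        refine LAE62.mem_normalizer_of_conj_mem fun c hc => ?_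
        refine ⟨(Subgroup.mem_normalizer_iff.1 (hGR (hUG (hAU ha))) c).1 hc.1, fun s hs => ?_⟩
        have hs' : Commute a s :=
          congrArg Subtype.val (hel.1.is_comm.comm (⟨a, hAU ha⟩ : U) (⟨s, hS hs⟩ : U))
        have hcs : Commute c s := (Subgroup.mem_centralizer_iff.1 hc.2 s hs).symm
        exact ((hs'.mul_left hcs).mul_left hs'.inv_left).eq.symm
      have hcop : (Nat.card A).Coprime (Nat.card K) := by
        refine Nat.Coprime.coprime_dvd_left (Subgroup.card_dvd_of_le hAU) ?_
        rw [hn]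
        exact (Nat.Coprime.coprime_dvd_left (Subgroup.card_dvd_of_le inf_le_left) hR).symm.pow_left n
      rw [← Cfsg.Agent.Coprime.iSup_centralizer_eq hA hAK hcop]
      refine le_bot_iff.1 (iSup₂_le fun a ha => ?_)
      obtain ⟨ha, ha1⟩ := ha
      have haS : a ∉ S := fun h => ha1 (hnS a ha h)
      have hlt : S < S ⊔ Subgroup.zpowers a :=
        lt_of_le_of_ne le_sup_left fun e => haS (e.ge (Subgroup.mem_sup_right (Subgroup.mem_zpowers a)))
      have hSaU : S ⊔ Subgroup.zpowers a ≤ U := sup_le hS (Subgroup.zpowers_le.2 (hAU ha))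
      have hne' : S ⊔ Subgroup.zpowers a ≠ U := by
        intro e
        have haM : a ∉ M := fun h => hMU.not_ge (e.ge.trans (sup_le hSM.le (Subgroup.zpowers_le.2 h)))
        -- decompose an element of `M`
        apply ha₁S
        have h1 : a₁ ∈ ((S ⊔ Subgroup.zpowers a : Subgroup G) : Set G) := e.ge ha₁U
        have hn' : Subgroup.zpowers a ≤ Subgroup.normalizer (S : Set G) := by
          refine le_trans ?_ (Subgroup.centralizer_le_normalizer _)
          refine Subgroup.zpowers_le.2 fun s hs => ?_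
          exact congrArg Subtype.val (hel.1.is_comm.comm (⟨s, hS hs⟩ : U) (⟨a, hAU ha⟩ : U))
        rw [Subgroup.coe_mul_of_right_le_normalizer_left S _ hn'] at h1
        obtain ⟨s, hs, w, hw, hsw⟩ := h1
        obtain ⟨j, rfl⟩ := Subgroup.mem_zpowers_iff.1 hw
        replace hsw : s * a ^ j = a₁ := hsw
        by_cases hd : (p : ℤ) ∣ j
        · obtain ⟨t, rfl⟩ := hd
          simp only [zpow_mul, zpow_natCast, hel.2 a (hAU ha), one_zpow, mul_one] at hsw
          exact hsw ▸ hs
        · exfalso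
          apply haM
          have haj : a ^ j ∈ M := by
            have := M.mul_mem (M.inv_mem (hSM.le hs)) (hsw ▸ ha₁ : s * a ^ j ∈ M)
            rwa [inv_mul_cancel_left] at this
          obtain ⟨u, t, hst⟩ : IsCoprime j (p : ℤ) :=
            (((Int.prime_iff_natAbs_prime.2 (by simpa using (Fact.out : p.Prime))).irreducible.coprime_iff_not_dvd).2 hd).symm
          have h2 : a ^ (u * j + t * (p : ℤ)) = a := by rw [hst, zpow_one]
          rw [zpow_add, mul_comm t, zpow_mul a (p : ℤ) t, zpow_natCast, hel.2 a (hAU ha), one_zpow, mul_one,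
            mul_comm u, zpow_mul] at h2
          exact h2 ▸ M.zpow_mem haj u
      have h3 := ih (S ⊔ Subgroup.zpowers a) hSaU (by
        have : Nat.card S < Nat.card ↥(S ⊔ Subgroup.zpowers a) :=
          lt_of_le_of_ne (Subgroup.card_le_of_le hlt.le) fun e => hlt.ne (Subgroup.eq_of_le_of_card_ge hlt.le e.ge)
        omega) hne'
      refine le_trans ?_ h3.le
      rintro c ⟨hcK, hca⟩
      refine ⟨hcK.1, ?_⟩
      refine (LAE62.centralizer_sup' S (Subgroup.zpowers a)).ge ⟨hcK.2, ?_⟩
      rw [Subgroup.zpowers_eq_closure, Subgroup.centralizer_closure]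
      exact hca
  have h := key (Nat.card U) ⊥ bot_le (Nat.le_add_left _ _) (fun e => by
    rw [← e, Subgroup.card_bot] at hcard
    have := Nat.one_lt_pow (two_ne_zero) (Fact.out : p.Prime).one_lt
    omega)
  have hb : Subgroup.centralizer ((⊥ : Subgroup G) : Set G) = ⊤ := by
    rw [eq_top_iff]
    intro a _ b hb
    rw [Subgroup.mem_bot.1 hb, one_mul, mul_one]
  rwa [hb, inf_top_eq] at h

end Cfsg.Agent.S3003
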