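import Cfsg.Statements.S3006
import Cfsg.Agent.LAE62.ChermakDelgado
-- import your own Cfsg.Agent.* helpers here

set_option autoImplicit false
open scoped Pointwise
open Cfsg

namespace Cfsg.Agent.S3006

/-- Let P be a finite p-group, Q a centrally large subgroup of P (|Q|·|Z(Q)| maximal among subgroups of P) and A an abelian subgroup of P of largest order. Then QA = AQ is a centrally large subgroup of P, C_{QA}(Q ∩ A) = Z(Q)·A, and the subgroup generated by all centrally large subgroups of P contains C_P(Z(J(P))), where J(P) is generated by the abelian subgroups of largest order. -/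
theorem result {p : ℕ} [Fact p.Prime] (P : Type*) [Group P] [Finite P] (hP : IsPGroup p P) (Q A : Subgroup P) (hQ : Cfsg.IsCentrallyLarge Q) (hA : A ∈ Cfsg.maxAbelianSubgroups P) : ((Q ⊔ A : Subgroup P) : Set P) = (Q : Set P) * (A : Set P) ∧ Cfsg.IsCentrallyLarge (Q ⊔ A) ∧ (Q ⊔ A) ⊓ Subgroup.centralizer ((Q ⊓ A : Subgroup P) : Set P) = (Q ⊓ Subgroup.centralizer (Q : Set P)) ⊔ A ∧ (((Q ⊓ Subgroup.centralizer (Q : Set P)) ⊔ A : Subgroup P) : Set P) = ((Q ⊓ Subgroup.centralizer (Q : Set P)) : Set P) * (A : Set P) ∧ Subgroup.centralizer ((Cfsg.thompsonSubgroupA P ⊓ Subgroup.centralizer (Cfsg.thompsonSubgroupA P : Set P) : Subgroup P) : Set P) ≤ Cfsg.centrallyLargeJoin P := by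
  obtain ⟨hQA, hset, hB⟩ := LAE62.centrallyLarge_sup_maxAbelian hQ hA
  have hAC := LAE62.centralizer_maxAbelian hA
  have hle : (Q ⊓ Subgroup.centralizer (Q : Set P)) ⊔ A ≤
      (Q ⊔ A) ⊓ Subgroup.centralizer ((Q ⊓ A : Subgroup P) : Set P) := by
    refine le_inf (sup_le_sup_right inf_le_left A) (sup_le ?_ ?_)
    · exact inf_le_right.trans (LAE62.centralizer_anti inf_le_left)
    · exact hAC.ge.trans (LAE62.centralizer_anti inf_le_right)
  have hkey : ∀ a ∈ (Q ⊔ A) ⊓ Subgroup.centralizer ((Q ⊓ A : Subgroup P) : Set P),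
      ∃ u ∈ Q ⊓ Subgroup.centralizer (Q : Set P), ∃ v ∈ A, u * v = a := by
    rintro a ⟨ha, hac⟩
    obtain ⟨q, hq, b, hb, rfl⟩ := LAE62.sup_mul_subset hset ha
    have hbc : b ∈ Subgroup.centralizer ((Q ⊓ A : Subgroup P) : Set P) :=
      LAE62.centralizer_anti inf_le_right (hAC.ge hb)
    have hqc : q ∈ Subgroup.centralizer ((Q ⊓ A : Subgroup P) : Set P) := by
      have := Subgroup.mul_mem _ hac (Subgroup.inv_mem _ hbc)
      rwa [mul_inv_cancel_right] at this
    have hqB : q ∈ LAE62.cen Q ⊔ (Q ⊓ A) := by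
      rw [← LAE62.centralizer_maxAbelian hB, LAE62.centralizer_sup]
      exact ⟨Subgroup.le_centralizer_iff.1 (inf_le_right : LAE62.cen Q ≤ _) hq, hqc⟩
    have hBset : ∀ x ∈ LAE62.cen Q ⊔ (Q ⊓ A), ∃ u ∈ LAE62.cen Q, ∃ v ∈ Q ⊓ A, u * v = x := by
      intro x hx
      have hn : Q ⊓ A ≤ Subgroup.normalizer (LAE62.cen Q : Set P) := by
        refine le_trans ?_ (Subgroup.centralizer_le_normalizer _)
        exact inf_le_left.trans (Subgroup.le_centralizer_iff.1 inf_le_right)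
      have hx' : x ∈ ((LAE62.cen Q ⊔ (Q ⊓ A) : Subgroup P) : Set P) := hx
      rw [Subgroup.coe_mul_of_right_le_normalizer_left _ _ hn] at hx'
      exact hx'
    obtain ⟨u, hu, v, hv, rfl⟩ := hBset q hqB
    exact ⟨u, hu, v * b, A.mul_mem hv.2 hb, (mul_assoc u v b).symm⟩
  refine ⟨hset, hQA, le_antisymm (fun a ha => ?_) hle, ?_, ?_⟩
  · obtain ⟨u, hu, v, hv, rfl⟩ := hkey a ha
    exact Subgroup.mul_mem_sup hu hv
  · refine Set.Subset.antisymm (fun a ha => ?_) (LAE62.setMul_subset_sup (Q ⊓ Subgroup.centralizer (Q : Set P)) A)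
    obtain ⟨u, hu, v, hv, rfl⟩ := hkey a (hle ha)
    exact ⟨u, hu, v, hv, rfl⟩
  · have h1 := LAE62.centrallyLarge_sup_thompson hQ
    exact (LAE62.centralizer_centerThompson_le h1 le_sup_right).trans (le_sSup h1)

end Cfsg.Agent.S3006
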