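import Cfsg.Statements.S3008
import Cfsg.Agent.LAE62.Replacement
-- import your own Cfsg.Agent.* helpers here

set_option autoImplicit false
open Cfsg

namespace Cfsg.Agent.S3008

/-- Let P be a finite p-group, with J(P) generated by its abelian subgroups of largest order and J̃(P) = C_P(Z(J(P))); call R ≤ P centrally large if |R|·|Z(R)| is as large as possible, and let P_MCL be generated by the minimal centrally large subgroups. Then: for every centrally large Q, Q·J(P) ⊇ J̃(P); some minimal centrally large subgroup of P is normalized by both J(P) and P_MCL; if P = J(P) and d(P)² = |P|·|Z(P)|, where d(P) is the largest order of an abelian subgroup, then every minimal centrally large subgroup of P is abelian; and if every minimal centrally large subgroup is abelian then J̃(P) = J(P). -/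
theorem result {p : ℕ} [Fact p.Prime] (P : Type*) [Group P] [Finite P] (hP : IsPGroup p P) : (∀ Q : Subgroup P, Cfsg.IsCentrallyLarge Q → Subgroup.centralizer ((Cfsg.thompsonSubgroupA P ⊓ Subgroup.centralizer (Cfsg.thompsonSubgroupA P : Set P) : Subgroup P) : Set P) ≤ Q ⊔ Cfsg.thompsonSubgroupA P) ∧ (∃ Q : Subgroup P, Cfsg.IsMinimalCentrallyLarge Q ∧ Cfsg.thompsonSubgroupA P ≤ Subgroup.normalizer (Q : Set P) ∧ Cfsg.minimalCentrallyLargeJoin P ≤ Subgroup.normalizer (Q : Set P)) ∧ (Cfsg.thompsonSubgroupA P = ⊤ → (∀ A ∈ Cfsg.maxAbelianSubgroups P, Nat.card ↥A ^ 2 = Nat.card P * Nat.card ↥(Subgroup.center P)) → ∀ Q : Subgroup P, Cfsg.IsMinimalCentrallyLarge Q → IsMulCommutative ↥Q) ∧ ((∀ Q : Subgroup P, Cfsg.IsMinimalCentrallyLarge Q → IsMulCommutative ↥Q) → Subgroup.centralizer ((Cfsg.thompsonSubgroupA P ⊓ Subgroup.centralizer (Cfsg.thompsonSubgroupA P : Set P) : Subgroup P) : Set P) = Cfsg.thompsonSubgroupA P) := by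
  refine ⟨fun Q hQ => LAE62.centralizer_centerThompson_le (LAE62.centrallyLarge_sup_thompson hQ) le_sup_right, ?_, ?_, ?_⟩
  · obtain ⟨Q, hQ, hN⟩ := LAE62.exists_minimal_normalized hP
    exact ⟨Q, hQ, le_sup_right.trans hN, le_sup_left.trans hN⟩
  · intro hJ hd Q hQ
    obtain ⟨A, hA⟩ := LAE62.nonempty_maxAbelian (G := P)
    have hTop : Cfsg.IsCentrallyLarge (⊤ : Subgroup P) := by
      have := LAE62.centrallyLarge_sup_thompson hQ.1
      rwa [hJ, sup_top_eq] at this
    have hA2 : Cfsg.IsCentrallyLarge A := by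
      have h1 := hTop
      rw [LAE62.centrallyLarge_iff] at h1 ⊢
      refine ⟨?_, (LAE62.centralizer_maxAbelian hA).le⟩
      show Nat.card A * _ = _
      rw [LAE62.centralizer_maxAbelian hA, ← sq, hd A hA, ← h1.1, Subgroup.coe_top, Subgroup.centralizer_univ,
        Subgroup.card_top]
    obtain ⟨R, hRA, hR⟩ := LAE62.exists_minimalCentrallyLarge_le hA2
    have hRab : IsMulCommutative R := by
      refine LAE62.isMulCommutative_of_le_centralizer ?_
      exact hRA.trans ((LAE62.centralizer_maxAbelian hA).ge.trans (LAE62.centralizer_anti hRA))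
    exact ((LAE62.minimal_iff_maxAbelian hR hRab Q).1 hQ).1
  · intro hab
    obtain ⟨Q, hQ⟩ := LAE62.exists_minimalCentrallyLarge (G := P)
    have hJ : Cfsg.IsCentrallyLarge (Cfsg.thompsonSubgroupA P) :=
      LAE62.centrallyLarge_sSup LAE62.nonempty_maxAbelian fun A hA =>
        ((LAE62.minimal_iff_maxAbelian hQ (hab Q hQ) A).2 hA).1
    refine le_antisymm (LAE62.centralizer_centerThompson_le hJ le_rfl) ?_
    exact Subgroup.le_centralizer_iff.1 inf_le_right

end Cfsg.Agent.S3008
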