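import Cfsg.Statements.S3009
import Cfsg.Agent.LAE62.NaturalModule
-- import your own Cfsg.Agent.* helpers here

set_option autoImplicit false
open scoped commutatorElement
open Cfsg

namespace Cfsg.Agent.S3009
open Cfsg.Agent.LAE62

/-- Let p be a prime and let G and V be subgroups of a finite group with V elementary abelian and normalized by G, and G isomorphic to SL₂(F) for a finite field F with pⁿ elements. Suppose G acts irreducibly and nontrivially on V by conjugation (no G-invariant subgroups of V other than 1 and V, and [V, G] ≠ 1), and let S be a Sylow p-subgroup of G and V₀ = C_V(S). If [V, S, S] = 1 or |V| ≤ |V₀|², then G acts on V as SL₂(F) on its natural two-dimensional module; in particular |V| = |F|². -/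
theorem result {X : Type*} [Group X] [Finite X] {p : ℕ} [Fact p.Prime] (G V : Subgroup X) (hV : Cfsg.IsElementaryAbelian p V) (hGV : G ≤ Subgroup.normalizer (V : Set X)) (F : Type) [Field F] [Fintype F] (n : ℕ) (hF : Fintype.card F = p ^ n) (hG : Nonempty (↥G ≃* Matrix.SpecialLinearGroup (Fin 2) F)) (hirr : ∀ U : Subgroup X, U ≤ V → G ≤ Subgroup.normalizer (U : Set X) → U = ⊥ ∨ U = V) (hnt : ⁅V, G⁆ ≠ ⊥) (S : Sylow p ↥G) (hyp : ⁅⁅V, (S : Subgroup ↥G).map G.subtype⁆, (S : Subgroup ↥G).map G.subtype⁆ = ⊥ ∨ Nat.card ↥V ≤ Nat.card ↥(V ⊓ Subgroup.centralizer (((S : Subgroup ↥G).map G.subtype : Subgroup X) : Set X)) ^ 2) : Cfsg.ActsAsSL2OnSection F ⊤ G V ⊥ := by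
  classical
  obtain ⟨e⟩ := hG
  haveI : CharP F p := charP_of_card_eq_prime_pow hF
  obtain ⟨P0, hP0, -⟩ := sl2_image_aux (p := p) hF (MonoidHom.id (Matrix.SpecialLinearGroup (Fin 2) F))
    Function.surjective_id (by simp)
  rw [Subgroup.map_id] at hP0
  set P1 : Sylow p ↥G := Sylow.mapSurjective (f := e.symm.toMonoidHom)
    (show Function.Surjective e.symm.toMonoidHom from e.symm.surjective) P0 with hP1
  obtain ⟨k, hk⟩ := MulAction.exists_smul_eq ↥G P1 S
  let π : Matrix.SpecialLinearGroup (Fin 2) F →* ↥G := (MulAut.conj k).toMonoidHom.comp e.symm.toMonoidHom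
  have hπb : Function.Bijective π := (MulAut.conj k).bijective.comp e.symm.bijective
  have hS : ∀ s : ↥G, s ∈ (S : Subgroup ↥G) ↔ ∃ x : F, π (upU x) = s := by
    intro s
    rw [← hk, Sylow.coe_subgroup_smul, hP1, Sylow.coe_mapSurjective, hP0]
    constructor
    · rintro ⟨_, ⟨_, ⟨x, rfl⟩, rfl⟩, rfl⟩
      exact ⟨x.toAdd, rfl⟩
    · rintro ⟨x, rfl⟩
      exact ⟨_, ⟨_, ⟨Multiplicative.ofAdd x, rfl⟩, rfl⟩, rfl⟩
  set Sx := (S : Subgroup ↥G).map G.subtype with hSxdef
  have hSx : ∀ t : X, t ∈ Sx ↔ ∃ x : F, (π (upU x) : X) = t := by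
    intro t
    constructor
    · rintro ⟨s, hs, rfl⟩
      obtain ⟨x, rfl⟩ := (hS s).1 hs
      exact ⟨x, rfl⟩
    · rintro ⟨x, rfl⟩
      exact ⟨π (upU x), (hS _).2 ⟨x, rfl⟩, rfl⟩
  letI : CommGroup ↥V :=
    { (inferInstance : Group ↥V) with mul_comm := fun a b => hV.1.is_comm.comm a b }
  have hmem : ∀ (g : ↥G) (v : ↥V), (g : X) * v * (g : X)⁻¹ ∈ V := fun g v =>
    (Subgroup.mem_normalizer_iff.1 (hGV g.2) _).1 v.2
  let ρ : Matrix.SpecialLinearGroup (Fin 2) F →* AddMonoid.End (Additive ↥V) :=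
    { toFun := fun g => AddMonoidHom.mk' (fun v => Additive.ofMul ⟨_, hmem (π g) v.toMul⟩) fun a b => by
        apply Additive.toMul.injective
        apply Subtype.ext
        show (π g : X) * (((a.toMul : ↥V) : X) * ((b.toMul : ↥V) : X)) * (π g : X)⁻¹ = _
        show _ = ((π g : X) * ((a.toMul : ↥V) : X) * (π g : X)⁻¹) * ((π g : X) * ((b.toMul : ↥V) : X) * (π g : X)⁻¹)
        group
      map_one' := by
        refine AddMonoidHom.ext fun v => ?_
        apply Additive.toMul.injective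
        apply Subtype.ext
        show (π 1 : X) * ((v.toMul : ↥V) : X) * (π 1 : X)⁻¹ = ((v.toMul : ↥V) : X)
        simp
      map_mul' := fun g h => by
        refine AddMonoidHom.ext fun v => ?_
        apply Additive.toMul.injective
        apply Subtype.ext
        show (π (g * h) : X) * ((v.toMul : ↥V) : X) * (π (g * h) : X)⁻¹ =
          (π g : X) * ((π h : X) * ((v.toMul : ↥V) : X) * (π h : X)⁻¹) * (π g : X)⁻¹
        rw [map_mul, Subgroup.coe_mul]; group }
  have hρ : ∀ g v, (((ρ g v).toMul : ↥V) : X) = (π g : X) * ((v.toMul : ↥V) : X) * (π g : X)⁻¹ :=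
    fun g v => rfl
  have hext : ∀ u v : Additive ↥V, ((u.toMul : ↥V) : X) = ((v.toMul : ↥V) : X) → u = v :=
    fun u v h => Additive.toMul.injective (Subtype.ext h)
  haveI : Nontrivial (Additive ↥V) := by
    haveI : Nontrivial ↥V := (Subgroup.nontrivial_iff_ne_bot V).2 fun h => hnt (by
      rw [h, Subgroup.commutator_bot_left])
    infer_instance
  have hM : ∀ v : Additive ↥V, p • v = 0 := fun v => hext _ _ (by
    show (((v.toMul : ↥V) ^ p : ↥V) : X) = 1
    rw [Subgroup.coe_pow]; exact hV.2 _ v.toMul.2)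
  have hirr' : ∀ P : AddSubgroup (Additive ↥V), (∀ g, ∀ v ∈ P, ρ g v ∈ P) → P = ⊥ ∨ P = ⊤ := by
    intro P hP
    let U : Subgroup X := (AddSubgroup.toSubgroup' P).map V.subtype
    have hUV : U ≤ V := by rintro _ ⟨u, -, rfl⟩; exact u.2
    have hU : ∀ v : ↥V, (v : X) ∈ U → Additive.ofMul v ∈ P := by
      rintro v ⟨u, hu, huv⟩
      rwa [← Subtype.ext huv]
    have hconj : ∀ g : ↥G, ∀ t ∈ U, (g : X) * t * (g : X)⁻¹ ∈ U := by
      rintro g _ ⟨u, hu, rfl⟩
      obtain ⟨h, rfl⟩ := hπb.2 g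
      exact ⟨(ρ h (Additive.ofMul u)).toMul, hP h _ hu, hρ h _⟩
    have hN : G ≤ Subgroup.normalizer (U : Set X) := fun g hg => by
      rw [Subgroup.mem_normalizer_iff]
      intro t
      refine ⟨hconj ⟨g, hg⟩ t, fun h => ?_⟩
      have := hconj (⟨g, hg⟩⁻¹) _ h
      simpa [mul_assoc] using this
    rcases hirr U hUV hN with h | h
    · left
      refine (AddSubgroup.eq_bot_iff_forall _).2 fun v hv => hext _ _ ?_
      have : ((v.toMul : ↥V) : X) ∈ U := ⟨v.toMul, hv, rfl⟩
      rw [h, Subgroup.mem_bot] at this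
      exact this
    · right
      exact (AddSubgroup.eq_top_iff' _).2 fun v => hU v.toMul (by rw [h]; exact v.toMul.2)
  have hnt' : ∃ g v, ρ g v ≠ v := by
    by_contra hc
    push Not at hc
    apply hnt
    rw [Subgroup.commutator_eq_bot_iff_le_centralizer]
    intro x hx
    rw [Subgroup.mem_centralizer_iff]
    intro g hg
    obtain ⟨h, hh⟩ := hπb.2 ⟨g, hg⟩
    have := congrArg (fun u : Additive ↥V => ((u.toMul : ↥V) : X)) (hc h (Additive.ofMul ⟨x, hx⟩))
    simp only [hρ, hh, toMul_ofMul] at this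
    exact mul_inv_eq_iff_eq_mul.1 this
  have hyp' : (∀ x y : F, ∀ v : Additive ↥V, ρ (upU x) (ρ (upU y) v - v) = ρ (upU y) v - v) ∨
      Nat.card (Additive ↥V) ≤
        Nat.card {v : Additive ↥V // ∀ x : F, ρ (upU x) v = v} ^ 2 := by
    rcases hyp with hq | hc
    · left
      intro x y v
      set t := ((v.toMul : ↥V) : X)
      set w := ρ (upU y) v - v with hw
      have hwX : ((w.toMul : ↥V) : X) = ⁅(π (upU y) : X), t⁆ := by
        rw [hw, sub_eq_add_neg, commutatorElement_def, toMul_add, toMul_neg, Subgroup.coe_mul,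
          InvMemClass.coe_inv, hρ]
      have hwm : ((w.toMul : ↥V) : X) ∈ ⁅V, Sx⁆ := by
        rw [hwX, Subgroup.commutator_comm]
        exact Subgroup.commutator_mem_commutator ((hSx _).2 ⟨y, rfl⟩) v.toMul.2
      have hle := Subgroup.commutator_eq_bot_iff_le_centralizer.1 hq
      have := Subgroup.mem_centralizer_iff.1 (hle hwm) _ ((hSx _).2 ⟨x, rfl⟩)
      refine hext _ _ ?_
      rw [hρ, this, mul_inv_cancel_right]
    · right
      refine le_of_eq_of_le (Nat.card_congr Additive.toMul) (hc.trans (Nat.pow_le_pow_left (le_of_eq ?_) 2))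
      refine Nat.card_congr (Equiv.ofBijective (fun y => ⟨Additive.ofMul ⟨y.1, y.2.1⟩, fun x => ?_⟩) ⟨?_, ?_⟩)
      · refine hext _ _ ?_
        rw [hρ, toMul_ofMul]
        rw [Subgroup.mem_centralizer_iff.1 y.2.2 _ ((hSx _).2 ⟨x, rfl⟩), mul_inv_cancel_right]
      · intro a b h
        exact Subtype.ext (congrArg (fun u : Additive ↥V => ((u.toMul : ↥V) : X)) (Subtype.ext_iff.1 h))
      · rintro ⟨v, hv⟩
        refine ⟨⟨((v.toMul : ↥V) : X), v.toMul.2, Subgroup.mem_centralizer_iff.2 fun t ht => ?_⟩, rfl⟩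
        obtain ⟨x, rfl⟩ := (hSx t).1 ht
        have := congrArg (fun u : Additive ↥V => ((u.toMul : ↥V) : X)) (hv x)
        simp only [hρ] at this
        exact mul_inv_eq_iff_eq_mul.1 this
  obtain ⟨L, hLb, hL⟩ := exists_natural_equiv (p := p) hM ρ hirr' hnt' hyp'
  let Le : (Fin 2 → F) ≃+ Additive ↥V := AddEquiv.ofBijective L hLb
  let πe := MulEquiv.ofBijective π hπb
  refine ⟨hGV, bot_le, πe.symm.toMonoidHom,
    AddMonoidHom.toMultiplicativeRight Le.symm.toAddMonoidHom, ?_, ?_, ?_, ?_⟩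
  · exact MonoidHom.range_eq_top.2 πe.symm.surjective
  · intro c
    exact ⟨(Le c.toAdd).toMul, congrArg Multiplicative.ofAdd (Le.symm_apply_apply _)⟩
  · intro u
    rw [Subgroup.mem_bot, OneMemClass.coe_eq_one]
    constructor
    · intro h
      have : Le.symm (Additive.ofMul u) = 0 := congrArg Multiplicative.toAdd h
      rw [map_eq_zero_iff _ Le.symm.injective] at this
      exact Additive.ofMul.injective this
    · rintro rfl; exact map_one _
  · intro g u
    refine ⟨⟨_, hmem g u⟩, rfl, ?_⟩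
    show Le.symm (Additive.ofMul (⟨_, hmem g u⟩ : ↥V)) =
      ((πe.symm g : Matrix.SpecialLinearGroup (Fin 2) F) : Matrix (Fin 2) (Fin 2) F).mulVec
        (Le.symm (Additive.ofMul u))
    rw [AddEquiv.symm_apply_eq]
    refine hext _ _ ?_
    show _ = (((L _).toMul : ↥V) : X)
    rw [← hL, hρ, show π (πe.symm g) = g from πe.apply_symm_apply g,
      show L (Le.symm (Additive.ofMul u)) = Additive.ofMul u from Le.apply_symm_apply _]
    rfl

end Cfsg.Agent.S3009
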