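import Cfsg.Statements.S3011
import Cfsg.Agent.LAE62.OddInverted
-- import your own Cfsg.Agent.* helpers here

set_option autoImplicit false
open Cfsg

namespace Cfsg.Agent.S3011

/-- Let G be a finite group and V a nontrivial elementary abelian 2-subgroup of G of order at most 4 such that, whenever an element of V inverts an element h of G of odd order, some nontrivial element of V commutes with h. Then V meets O₂(G) nontrivially. (The case of order at most 4 has a short argument from the Baer–Suzuki theorem.) -/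
theorem result {G : Type*} [Group G] [Finite G] (V : Subgroup G) (hV : Cfsg.IsElementaryAbelian 2 V) (hV1 : V ≠ ⊥) (hS : Cfsg.IsSidkiPair V) (h4 : Nat.card V ≤ 4) : V ⊓ Cfsg.pCore 2 G ≠ ⊥ := by
  classical
  have hne1 : ∀ v ∈ V, ∀ h : G, v * h * v⁻¹ = h⁻¹ → v * h = h * v → Odd (orderOf h) → h = 1 := by
    intro v _ h hi hc ho
    rw [hc, mul_inv_cancel_right] at hi
    exact LAE62.eq_one_of_sq_eq_one_odd ho (by rw [pow_two]; nth_rewrite 2 [hi]; exact mul_inv_cancel h)
  have hsq : ∀ v ∈ V, v * v = 1 := fun v hv => by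
    have := hV.2 v hv; rwa [pow_two] at this
  have hcomm : ∀ v ∈ V, ∀ w ∈ V, v * w = w * v := fun v hv w hw =>
    congrArg Subtype.val (hV.1.is_comm.comm ⟨v, hv⟩ ⟨w, hw⟩)
  by_contra hbot
  have hinv : ∀ v ∈ V, v ≠ 1 → ∃ h : G, h ≠ 1 ∧ Odd (orderOf h) ∧ v * h * v⁻¹ = h⁻¹ :=
    fun v hv hv1 => LAE62.exists_odd_inverted (hsq v hv) fun hv2 =>
      hv1 ((Subgroup.mem_bot).1 (hbot ▸ ⟨hv, hv2⟩))
  -- the four elements
  have htriple : ∀ a ∈ V, ∀ b ∈ V, a ≠ 1 → b ≠ 1 → a ≠ b → ∀ w ∈ V, w ≠ 1 →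
      w = a ∨ w = b ∨ w = a * b := by
    intro a ha b hb ha1 hb1 hab w hw hw1
    by_contra hno
    push Not at hno
    let F : Finset G := {1, a, b, a * b, w}
    have habne : a * b ≠ 1 := fun e => hab (mul_right_cancel (e.trans (hsq b hb).symm))
    have e1 : a ≠ a * b := fun e => hb1 (left_eq_mul.1 e)
    have e2 : b ≠ a * b := fun e => ha1 (right_eq_mul.1 e)
    have hF : F.card = 5 := by
      simp [F, Finset.card_insert_of_notMem, Ne.symm ha1, Ne.symm hb1, Ne.symm habne,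
        Ne.symm hw1, hab, e1, e2, Ne.symm hno.1, Ne.symm hno.2.1, Ne.symm hno.2.2, ha1, hb1]
    have : F.card ≤ 4 := by
      refine le_trans ?_ h4
      rw [← Set.ncard_coe_finset]
      refine Set.ncard_le_ncard (fun x hx => ?_) (Set.toFinite (V : Set G))
      simp only [F, Finset.coe_insert, Finset.coe_singleton, Set.mem_insert_iff,
        Set.mem_singleton_iff] at hx
      rcases hx with rfl | rfl | rfl | rfl | rfl
      exacts [V.one_mem, ha, hb, V.mul_mem ha hb, hw]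
    omega
  have key : ∀ a ∈ V, ∀ b ∈ V, ∀ h k : G, a ≠ 1 → b ≠ 1 → a ≠ b → Odd (orderOf h) →
      Odd (orderOf k) → h ≠ 1 → k ≠ 1 → a * h * a⁻¹ = h⁻¹ → b * h = h * b →
      b * k * b⁻¹ = k⁻¹ → (a * b) * k = k * (a * b) → False := by
    intro a ha b hb h k ha1 hb1 hab hho hko hh1 hk1 hah hbh hbk hck
    have hak : a * k * a⁻¹ = k⁻¹ := by
      have e : b * (a * b) = a := by rw [hcomm a ha b hb, ← mul_assoc, hsq b hb, one_mul]
      calc a * k * a⁻¹ = (b * (a * b)) * k * (b * (a * b))⁻¹ := by rw [e]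
        _ = b * (a * b * k * (a * b)⁻¹) * b⁻¹ := by group
        _ = b * k * b⁻¹ := by rw [hck, mul_inv_cancel_right]
        _ = k⁻¹ := hbk
    have hk' : b * (h⁻¹ * k * h) * b⁻¹ = (h⁻¹ * k * h)⁻¹ := by
      have hbh' : b * h * b⁻¹ = h := by rw [hbh, mul_inv_cancel_right]
      calc b * (h⁻¹ * k * h) * b⁻¹ = (b * h * b⁻¹)⁻¹ * (b * k * b⁻¹) * (b * h * b⁻¹) := by group
        _ = (h⁻¹ * k * h)⁻¹ := by rw [hbh', hbk]; group
    have hk'o : Odd (orderOf (h⁻¹ * k * h)) := by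
      rw [show orderOf (h⁻¹ * k * h) = orderOf k by
        have := MulEquiv.orderOf_eq (MulAut.conj h⁻¹) k
        simpa [MulAut.conj_apply] using this]
      exact hko
    obtain ⟨w, hw, hw1, hwc⟩ := hS _ b hb hk'o hk'
    rcases htriple a ha b hb ha1 hb1 hab w hw hw1 with rfl | rfl | rfl
    · -- `h ^ 2` inverts `k`
      have h2 : h ^ 2 * k * (h ^ 2)⁻¹ = k⁻¹ := by
        have e : w * (h⁻¹ * k * h) * w⁻¹ = h * k⁻¹ * h⁻¹ := by
          calc w * (h⁻¹ * k * h) * w⁻¹ = (w * h * w⁻¹)⁻¹ * (w * k * w⁻¹) * (w * h * w⁻¹) := by group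
            _ = h * k⁻¹ * h⁻¹ := by rw [hah, hak]; group
        rw [hwc, mul_inv_cancel_right] at e
        calc h ^ 2 * k * (h ^ 2)⁻¹ = h * (h * k⁻¹ * h⁻¹)⁻¹ * h⁻¹ := by rw [pow_two]; group
          _ = h * (h⁻¹ * k * h)⁻¹ * h⁻¹ := by rw [e]
          _ = k⁻¹ := by group
      have h4' : Commute (h ^ 4) k := by
        refine mul_inv_eq_iff_eq_mul.1 ?_
        calc h ^ 4 * k * (h ^ 4)⁻¹ = h ^ 2 * (h ^ 2 * k * (h ^ 2)⁻¹) * (h ^ 2)⁻¹ := by group
          _ = h ^ 2 * k⁻¹ * (h ^ 2)⁻¹ := by rw [h2]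
          _ = (h ^ 2 * k * (h ^ 2)⁻¹)⁻¹ := by group
          _ = k := by rw [h2, inv_inv]
      have hck' := LAE62.commute_of_odd_pow_two hho (n := 2) h4'
      rw [(hck'.pow_left 2).eq, mul_inv_cancel_right] at h2
      exact hk1 (LAE62.eq_one_of_sq_eq_one_odd hko (by rw [pow_two]; nth_rewrite 2 [h2]; exact mul_inv_cancel k))
    · have hone := hne1 w hw _ hk' hwc hk'o
      apply hk1
      calc k = h * (h⁻¹ * k * h) * h⁻¹ := by group
        _ = 1 := by rw [hone]; group
    · have hc' : a * b * h * (a * b)⁻¹ = h⁻¹ := by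
        calc a * b * h * (a * b)⁻¹ = a * (b * h * b⁻¹) * a⁻¹ := by group
          _ = h⁻¹ := by rw [hbh, mul_inv_cancel_right, hah]
      have e : h * k * h⁻¹ = h⁻¹ * k * h := by
        have e0 : (a * b) * (h⁻¹ * k * h) * (a * b)⁻¹ = h⁻¹ * k * h := by
          rw [hwc, mul_inv_cancel_right]
        calc h * k * h⁻¹ = (a * b * h * (a * b)⁻¹)⁻¹ * (a * b * k * (a * b)⁻¹) * (a * b * h * (a * b)⁻¹) := by
              rw [hc', hck, mul_inv_cancel_right, inv_inv]
          _ = (a * b) * (h⁻¹ * k * h) * (a * b)⁻¹ := by group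
          _ = h⁻¹ * k * h := e0
      have h2' : Commute (h ^ 2) k := by
        refine mul_inv_eq_iff_eq_mul.1 ?_
        calc h ^ 2 * k * (h ^ 2)⁻¹ = h * (h * k * h⁻¹) * h⁻¹ := by rw [pow_two]; group
          _ = k := by rw [e]; group
      have hhk : Commute h k := LAE62.commute_of_odd_pow_two hho (n := 1) h2'
      have hinvhk : a * (h * k) * a⁻¹ = (h * k)⁻¹ := by
        calc a * (h * k) * a⁻¹ = (a * h * a⁻¹) * (a * k * a⁻¹) := by group
          _ = (h * k)⁻¹ := by rw [hah, hak, mul_inv_rev, hhk.inv_inv.eq]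
      have hho' : Odd (orderOf (h * k)) :=
        Odd.of_dvd_nat (hho.mul hko) hhk.orderOf_mul_dvd_mul_orderOf
      obtain ⟨u, hu, hu1, huc⟩ := hS _ a ha hho' hinvhk
      have hu' : u * (h * k) * u⁻¹ = h * k := by rw [huc, mul_inv_cancel_right]
      rcases htriple a ha b hb ha1 hb1 hab u hu hu1 with rfl | rfl | rfl
      · have hone := hne1 u hu _ hinvhk huc hho'
        have hkh : k = h⁻¹ := eq_inv_of_mul_eq_one_right hone
        have hbk' : b * k = k * b := by rw [hkh]; exact ((show Commute b h from hbh).inv_right).eq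
        exact hk1 (hne1 b hb k hbk hbk' hko)
      · have : h * k⁻¹ = h * k := by
          calc h * k⁻¹ = (u * h * u⁻¹) * (u * k * u⁻¹) := by rw [hbh, mul_inv_cancel_right, hbk]
            _ = u * (h * k) * u⁻¹ := by group
            _ = h * k := hu'
        exact hk1 (LAE62.eq_one_of_sq_eq_one_odd hko (by
          rw [pow_two]; nth_rewrite 1 [← mul_left_cancel this]; exact inv_mul_cancel k))
      · have : h⁻¹ * k = h * k := by
          calc h⁻¹ * k = (a * b * h * (a * b)⁻¹) * (a * b * k * (a * b)⁻¹) := by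
                rw [hc', hck, mul_inv_cancel_right]
            _ = a * b * (h * k) * (a * b)⁻¹ := by group
            _ = h * k := hu'
        exact hh1 (LAE62.eq_one_of_sq_eq_one_odd hho (by
          rw [pow_two]; nth_rewrite 1 [← mul_right_cancel this]; exact inv_mul_cancel h))
  -- conclusion
  obtain ⟨a, ha, ha1⟩ := (Subgroup.bot_or_exists_ne_one V).resolve_left hV1
  obtain ⟨h, hh1, hho, hah⟩ := hinv a ha ha1
  obtain ⟨b, hb, hb1, hbh⟩ := hS h a ha hho hah
  have hab : a ≠ b := fun e => hh1 (hne1 a ha h hah (e ▸ hbh) hho)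
  have habne : a * b ≠ 1 := fun e => hab (mul_right_cancel (e.trans (hsq b hb).symm))
  obtain ⟨k, hk1, hko, hbk⟩ := hinv b hb hb1
  obtain ⟨w, hw, hw1, hwk⟩ := hS k b hb hko hbk
  rcases htriple a ha b hb ha1 hb1 hab w hw hw1 with rfl | rfl | rfl
  · refine key (w * b) (V.mul_mem ha hb) b hb h k habne hb1 ?_ hho hko hh1 hk1 ?_ hbh hbk ?_
    · intro e; exact ha1 (mul_eq_right.1 e)
    · calc w * b * h * (w * b)⁻¹ = w * (b * h * b⁻¹) * w⁻¹ := by group
        _ = h⁻¹ := by rw [hbh, mul_inv_cancel_right, hah]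
    · rw [mul_assoc w, hsq b hb, mul_one]; exact hwk
  · exact hk1 (hne1 w hw k hbk hwk hko)
  · exact key a ha b hb h k ha1 hb1 hab hho hko hh1 hk1 hah hbh hbk hwk

end Cfsg.Agent.S3011
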