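import Cfsg.Statements.S3012
import Mathlib.GroupTheory.OrderOfElement
import Mathlib.GroupTheory.QuotientGroup.Basic
import Mathlib.NumberTheory.Basic
import Mathlib.RingTheory.Multiplicity
import Mathlib.Data.Nat.Factorization.Basic
-- import your own Cfsg.Agent.* helpers here

set_option autoImplicit false
open Cfsg

namespace Cfsg.Agent.S3012

/-- Let G be a finite group, V a nontrivial elementary abelian 2-subgroup of G satisfying the Sidki pair condition (every odd-order element inverted by an element of V commutes with a nontrivial element of V), and K a normal subgroup of G with V ∩ K = 1. Then the image of V in G/K satisfies the Sidki pair condition in G/K. -/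
theorem result {G : Type*} [Group G] [Finite G] (V K : Subgroup G) [K.Normal] (hV : Cfsg.IsElementaryAbelian 2 V) (hV1 : V ≠ ⊥) (hS : Cfsg.IsSidkiPair V) (hVK : V ⊓ K = ⊥) : Cfsg.IsSidkiPair (V.map (QuotientGroup.mk' K)) := by
  intro hb vb hvb hodd hinv
  obtain ⟨v, hv, rfl⟩ := hvb
  induction hb using QuotientGroup.induction_on with
  | H h₁ =>
    have hv2 : v * v = 1 := by have := hV.2 v hv; rwa [pow_two] at this
    have hvi : v⁻¹ = v := inv_eq_of_mul_eq_one_right hv2
    obtain ⟨z, hzdef⟩ : ∃ z : G, z = v * (h₁ * v * h₁⁻¹) := ⟨_, rfl⟩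
    have hz : v * z * v⁻¹ = z⁻¹ := by
      calc v * z * v⁻¹ = (v * v) * (h₁ * v * h₁⁻¹) * v⁻¹ := by rw [hzdef]; group
        _ = (h₁ * v⁻¹ * h₁⁻¹) * v⁻¹ := by rw [hv2, one_mul, hvi]
        _ = z⁻¹ := by rw [hzdef]; group
    have hzi : QuotientGroup.mk' K z = (QuotientGroup.mk' K h₁)⁻¹ * (QuotientGroup.mk' K h₁)⁻¹ := by
      have h1 : QuotientGroup.mk' K v * QuotientGroup.mk' K h₁ * (QuotientGroup.mk' K v)⁻¹ =
          (QuotientGroup.mk' K h₁)⁻¹ := hinv
      have h2 : (QuotientGroup.mk' K v)⁻¹ = QuotientGroup.mk' K v := by rw [← map_inv, hvi]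
      rw [h2] at h1
      calc QuotientGroup.mk' K z
          = QuotientGroup.mk' K v * QuotientGroup.mk' K h₁ * QuotientGroup.mk' K v * (QuotientGroup.mk' K h₁)⁻¹ := by
            simp only [hzdef, map_mul, map_inv, mul_assoc]
        _ = _ := by rw [h1]
    obtain ⟨a, m, hm, hord⟩ := Nat.exists_eq_two_pow_mul_odd (orderOf_pos z).ne'
    have hh : Odd (orderOf (z ^ 2 ^ a)) := by
      refine Odd.of_dvd_nat hm (orderOf_dvd_of_pow_eq_one ?_)
      rw [← pow_mul, ← hord, pow_orderOf_eq_one]
    have hinvh : v * z ^ 2 ^ a * v⁻¹ = (z ^ 2 ^ a)⁻¹ := by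
      rw [← MulAut.conj_apply, map_pow, MulAut.conj_apply, hz, inv_pow]
    obtain ⟨w, hw, hw1, hwc⟩ := hS _ v hv hh hinvh
    refine ⟨QuotientGroup.mk' K w, ⟨w, hw, rfl⟩, ?_, ?_⟩
    · intro e
      apply hw1
      rw [← Subgroup.mem_bot, ← hVK]
      exact ⟨hw, (QuotientGroup.eq_one_iff w).1 e⟩
    · have hc := (show Commute w (z ^ 2 ^ a) from hwc).map (QuotientGroup.mk' K)
      rw [map_pow, hzi, ← pow_two, ← pow_mul, ← pow_succ'] at hc
      have hodd' : Odd (orderOf ((QuotientGroup.mk' K h₁)⁻¹)) := by simpa using hodd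
      obtain ⟨k, hk⟩ := exists_pow_eq_self_of_coprime
        (Nat.Coprime.pow_left (a + 1) hodd'.coprime_two_left)
      have := hc.pow_right k
      rw [hk] at this
      exact (Commute.inv_right_iff.1 this).eq

end Cfsg.Agent.S3012
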