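import Cfsg.Statements.S3013
import Mathlib.GroupTheory.OrderOfElement
import Mathlib.Algebra.Ring.Parity
-- import your own Cfsg.Agent.* helpers here

set_option autoImplicit false
open Cfsg

namespace Cfsg.Agent.S3013

/-- Let G be a finite group and V a nontrivial elementary abelian 2-subgroup of G satisfying the Sidki pair condition. Let v ∈ V and let x be an element of odd order inverted by v, and put C = C_G(v) ∩ C_G(x), the centralizer of the dihedral subgroup generated by v and x. Then C ∩ V is nontrivial and satisfies the Sidki pair condition inside C: every odd-order element of C inverted by an element of C ∩ V commutes with a nontrivial element of C ∩ V. -/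
theorem result {G : Type*} [Group G] [Finite G] (V : Subgroup G) (hV : Cfsg.IsElementaryAbelian 2 V) (hV1 : V ≠ ⊥) (hS : Cfsg.IsSidkiPair V) (v x : G) (hv : v ∈ V) (hx : Odd (orderOf x)) (hinv : v * x * v⁻¹ = x⁻¹) (C : Subgroup G) (hC : C = Subgroup.centralizer ({v} : Set G) ⊓ Subgroup.centralizer ({x} : Set G)) : C ⊓ V ≠ ⊥ ∧ Cfsg.IsSidkiPair ((C ⊓ V).subgroupOf C) := by
  subst hC
  have hcomm : ∀ a ∈ V, ∀ b ∈ V, a * b = b * a := fun a ha b hb =>
    congrArg Subtype.val (hV.1.is_comm.comm (⟨a, ha⟩ : V) (⟨b, hb⟩ : V))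
  set C := Subgroup.centralizer ({v} : Set G) ⊓ Subgroup.centralizer ({x} : Set G) with hC
  constructor
  · obtain ⟨w, hw, hw1, hwx⟩ := hS x v hv hx hinv
    rw [Subgroup.ne_bot_iff_exists_ne_one]
    refine ⟨⟨w, ⟨⟨Subgroup.mem_centralizer_singleton_iff.2 (hcomm w hw v hv),
      Subgroup.mem_centralizer_singleton_iff.2 hwx⟩, hw⟩⟩, ?_⟩
    intro e; exact hw1 (congrArg Subtype.val e)
  · intro h u hu hodd hinvh
    -- work with `h * x`, inverted by `u * v`
    have hxh : Commute x (h : G) := (Subgroup.mem_centralizer_singleton_iff.1 h.2.2).symm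
    have hvh : Commute v (h : G) := (Subgroup.mem_centralizer_singleton_iff.1 h.2.1).symm
    have huv : Commute (u : G) v := Subgroup.mem_centralizer_singleton_iff.1 u.2.1
    have hux : Commute (u : G) x := Subgroup.mem_centralizer_singleton_iff.1 u.2.2
    have huh : (u : G) * (h : G) * (u : G)⁻¹ = (h : G)⁻¹ := by
      simpa using congrArg Subtype.val hinvh
    have hodd' : Odd (orderOf (h : G)) := by simpa using hodd
    -- an element commuting with the product of these two commuting elements is found by the hypothesis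
    have huV : (u : G) ∈ V := hu.2
    have hcase : ∀ w ∈ V, w ≠ 1 → w * (h : G) = (h : G) * w → w * x = x * w →
        ∃ w' ∈ (C ⊓ V).subgroupOf C, w' ≠ 1 ∧ w' * h = h * w' := by
      intro w hw hw1 h1 h2
      refine ⟨⟨w, Subgroup.mem_centralizer_singleton_iff.2 (hcomm w hw v hv),
        Subgroup.mem_centralizer_singleton_iff.2 h2⟩, ⟨?_, hw⟩, ?_, Subtype.ext h1⟩
      · exact ⟨Subgroup.mem_centralizer_singleton_iff.2 (hcomm w hw v hv),
          Subgroup.mem_centralizer_singleton_iff.2 h2⟩
      · intro e; exact hw1 (congrArg Subtype.val e)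
    have hu2 : (u : G) * (u : G) = 1 := by
      have := hV.2 _ huV; rwa [pow_two] at this
    have hv2 : v * v = 1 := by
      have := hV.2 _ hv; rwa [pow_two] at this
    -- `h * x` has odd order and is inverted by `u * v`
    have h1 : (u : G) * v * ((h : G) * x) * ((u : G) * v)⁻¹ = ((h : G) * x)⁻¹ := by
      calc (u : G) * v * ((h : G) * x) * ((u : G) * v)⁻¹
          = ((u : G) * (v * (h : G) * v⁻¹) * (u : G)⁻¹) * ((u : G) * (v * x * v⁻¹) * (u : G)⁻¹) := by group
        _ = (h : G)⁻¹ * x⁻¹ := by
            rw [hvh.eq, mul_inv_cancel_right, huh, hinv, hux.inv_right.eq, mul_inv_cancel_right]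
        _ = ((h : G) * x)⁻¹ := by rw [mul_inv_rev, hxh.inv_inv.eq]
    have hoddhx : Odd (orderOf ((h : G) * x)) :=
      Odd.of_dvd_nat (hodd'.mul hx) hxh.symm.orderOf_mul_dvd_mul_orderOf
    obtain ⟨w, hw, hw1, hwhx⟩ := hS _ _ (mul_mem huV hv) hoddhx h1
    have hwv : Commute w v := hcomm w hw v hv
    have hwC : Commute w ((h : G) * x) := hwhx
    -- conjugation by `v` fixes `h` and inverts `x`
    have hwC' : Commute w ((h : G) * x⁻¹) := by
      have := hwC.map (MulAut.conj v).toMonoidHom
      simp only [MulEquiv.toMonoidHom_eq_coe, MonoidHom.coe_coe, map_mul, MulAut.conj_apply, hinv] at this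
      rwa [hvh.eq, mul_inv_cancel_right, show v * w * v⁻¹ = w by rw [hwv.symm.eq, mul_inv_cancel_right]] at this
    have hx2 : Commute w (x ^ 2) := by
      have h' := hwC'.inv_right.mul_right hwC
      rwa [show ((h : G) * x⁻¹)⁻¹ * ((h : G) * x) = x ^ 2 by rw [pow_two]; group] at h'
    have hwx : Commute w x := by
      obtain ⟨k, hk⟩ := hx
      have := hx2.pow_right (k + 1)
      rwa [← pow_mul, show 2 * (k + 1) = orderOf x + 1 by omega, pow_succ, pow_orderOf_eq_one, one_mul] at this
    have hwh : Commute w (h : G) := by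
      have := hwC.mul_right hwx.inv_right
      rwa [mul_inv_cancel_right] at this
    exact hcase w hw hw1 hwh.eq hwx.eq

end Cfsg.Agent.S3013
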