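import Cfsg.Statements.S3014
import Cfsg.Agent.LAE62.MaximalPrimeIndex
-- import your own Cfsg.Agent.* helpers here

set_option autoImplicit false
open Cfsg

namespace Cfsg.Agent.S3014

/-- Let G be a finite group and H ≤ M ≤ G subgroups such that for every g ∈ G the subgroup generated by H and g H g⁻¹ meets M exactly in H. If H is a maximal subgroup of M and M is a maximal subgroup of G, then the normal closure of H in G meets M exactly in H. -/
theorem result {G : Type*} [Group G] [Finite G] (H M : Subgroup G) (hHM : H ≤ M) (hcl : ∀ g : G, (H ⊔ H.map (MulAut.conj g).toMonoidHom) ⊓ M = H) (hmaxH : IsCoatom (H.subgroupOf M)) (hmaxM : IsCoatom M) : Subgroup.normalClosure (H : Set G) ⊓ M = H := by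
  have hn : M ≤ Subgroup.normalizer (H : Set G) := by
    intro m hm
    rw [Subgroup.mem_normalizer_iff_map_conj_eq]
    refine Subgroup.eq_of_le_of_card_ge ?_ (Subgroup.card_map_of_injective (MulAut.conj m).injective).ge
    refine fun a ha => (hcl m).le ⟨Subgroup.mem_sup_right ha, ?_⟩
    obtain ⟨b, hb, rfl⟩ := ha
    exact M.mul_mem (M.mul_mem hm (hHM hb)) (M.inv_mem hm)
  by_cases hHn : H.Normal
  · rw [Subgroup.normalClosure_eq_self, inf_eq_left.2 hHM]
  · obtain ⟨K, hK, hKM⟩ := LAE62.exists_normal_inf_eq_of_join_inter H M hHM hn hmaxH hmaxM hHn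
      fun g _ => hcl g
    refine le_antisymm ?_ (le_inf Subgroup.le_normalClosure hHM)
    exact (inf_le_inf_right M (Subgroup.normalClosure_le_normal (hKM ▸ inf_le_left : H ≤ K))).trans hKM.le

end Cfsg.Agent.S3014
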