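import Cfsg.Statements.S3015
import Mathlib.GroupTheory.Nilpotent
import Cfsg.Agent.LAE62.MaximalPrimeIndex
-- import your own Cfsg.Agent.* helpers here

set_option autoImplicit false
open Cfsg

namespace Cfsg.Agent.S3015

/-- Let G be a finite non-abelian simple group, M a maximal subgroup of G and H a normal subgroup of M of prime index in M. Then G is generated by H together with one of its conjugates. -/
theorem result {G : Type*} [Group G] [Finite G] [IsSimpleGroup G] (hG : ¬ IsMulCommutative G) (M H : Subgroup G) (hmaxM : IsCoatom M) (hHM : H ≤ M) (hHn : (H.subgroupOf M).Normal) (hidx : (H.relIndex M).Prime) : ∃ g : G, H ⊔ H.map (MulAut.conj g).toMonoidHom = ⊤ := by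
  haveI := hHn
  have hn : M ≤ Subgroup.normalizer (H : Set G) := Subgroup.normal_subgroupOf_iff_le_normalizer hHM |>.1 hHn
  have hmaxH : IsCoatom (H.subgroupOf M) := by
    refine ⟨fun e => hidx.one_lt.ne' ?_, fun K hK => ?_⟩
    · rw [Subgroup.relIndex, e, Subgroup.index_top]
    · have hd := Subgroup.relIndex_mul_index hK.le
      rcases hidx.eq_one_or_self_of_dvd K.index (Dvd.intro_left _ hd) with h | h
      · exact Subgroup.index_eq_one.1 h
      · exfalso
        have h2 : (H.subgroupOf M).relIndex K * K.index = 1 * K.index := by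
          rw [hd, one_mul, h]; rfl
        have h3 := Nat.eq_of_mul_eq_mul_right (Nat.pos_of_ne_zero (h ▸ hidx.ne_zero)) h2
        exact hK.not_ge (Subgroup.relIndex_eq_one.1 h3)
  have hMne : M ≠ ⊤ := hmaxM.1
  have hHntop : H ≠ ⊤ := fun e => hMne (top_le_iff.1 (e.ge.trans hHM))
  by_cases hH1 : H = ⊥
  · -- `M` would be a self-normalizing abelian Sylow subgroup
    exfalso
    subst hH1
    rw [Subgroup.relIndex_bot_left] at hidx
    haveI : Fact (Nat.card M).Prime := ⟨hidx⟩
    have hMab : IsMulCommutative M := by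
      haveI := isCyclic_of_prime_card (p := Nat.card M) (α := M) rfl
      exact IsCyclic.isMulCommutative
    have hM0 : M ≠ ⊥ := fun e => hidx.one_lt.ne' (by rw [e, Subgroup.card_bot])
    have hNM : Subgroup.normalizer (M : Set G) = M := by
      rcases hmaxM.le_iff.1 (Subgroup.le_normalizer (H := M)) with h | h
      · exfalso
        haveI := Subgroup.normalizer_eq_top_iff.1 h
        exact (Subgroup.Normal.eq_bot_or_eq_top (H := M) inferInstance).elim hM0 hMne
      · exact h
    have hMp : IsPGroup (Nat.card M) M := IsPGroup.of_card (n := 1) (pow_one _).symm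
    obtain ⟨P, hP⟩ := hMp.exists_le_sylow
    have hPM : (P : Subgroup G) = M := by
      rcases hmaxM.le_iff.1 hP with h | h
      · exfalso
        have hGp : IsPGroup (Nat.card M) G := fun a => by
          obtain ⟨k, hk⟩ := P.2 ⟨a, h ▸ Subgroup.mem_top a⟩
          exact ⟨k, congrArg Subtype.val hk⟩
        have := IsPGroup.isNilpotent hGp
        exact hMne ((normalizerCondition_iff_only_full_group_self_normalizing.1
          Group.normalizerCondition_of_isNilpotent) M hNM)
      · exact h
    have hNC : Subgroup.normalizer ((P : Subgroup G) : Set G) ≤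
        Subgroup.centralizer ((P : Subgroup G) : Set G) := by
      rw [hPM, hNM]
      exact fun a ha b hb => congrArg Subtype.val (hMab.is_comm.comm (⟨b, hb⟩ : M) (⟨a, ha⟩ : M))
    have hc := MonoidHom.ker_transferSylow_isComplement' P hNC
    rcases Subgroup.Normal.eq_bot_or_eq_top (inferInstance : (MonoidHom.transferSylow P hNC).ker.Normal) with h | h
    · rw [h, Subgroup.isComplement'_bot_left] at hc
      exact hMne (hPM ▸ hc)
    · rw [h, Subgroup.isComplement'_top_left] at hc
      exact hM0 (hPM ▸ hc)
  have hHn' : ¬ H.Normal := fun h => h.eq_bot_or_eq_top.elim hH1 hHntop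
  have hNH : Subgroup.normalizer (H : Set G) = M := by
    rcases hmaxM.le_iff.1 hn with h | h
    · exact absurd (Subgroup.normalizer_eq_top_iff.1 h) hHn'
    · exact h
  by_contra hne
  push Not at hne
  classical
  -- if an element of `M` has a conjugate in `M`, one of the two lies in `H`
  have hdich : ∀ g : G, g ∉ M → ∀ y ∈ M, g * y * g⁻¹ ∈ M → y ∈ H ∨ g * y * g⁻¹ ∈ H := by
    intro g hg y hy hgy
    by_contra hcon
    push Not at hcon
    obtain ⟨hyH, hgyH⟩ := hcon
    have hg'M : g⁻¹ ∉ M := fun h => hg (by simpa using M.inv_mem h)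
    have hgN : g⁻¹ ∉ Subgroup.normalizer (H : Set G) := by rw [hNH]; exact hg'M
    -- `M` is the only maximal subgroup containing `H` and `y`
    have hgen : ∀ X : Subgroup G, H ≤ X → y ∈ X → M ≤ X := by
      intro X h1 h2
      rcases hmaxH.le_iff.1 (show H.subgroupOf M ≤ X.subgroupOf M from fun a ha => h1 ha) with h | h
      · exact Subgroup.subgroupOf_eq_top.1 h
      · exact absurd (h.le (show (⟨y, hy⟩ : M) ∈ X.subgroupOf M from h2)) hyH
    set H' := H.map (MulAut.conj g⁻¹).toMonoidHom with hH'
    have hyX : y ∈ Subgroup.normalizer ((H ⊔ H' : Subgroup G) : Set G) := by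
      rw [Subgroup.mem_normalizer_iff_map_conj_eq, Subgroup.map_sup,
        Subgroup.mem_normalizer_iff_map_conj_eq.1 (hn hy), hH', Subgroup.map_map]
      congr 1
      conv_rhs => rw [← Subgroup.mem_normalizer_iff_map_conj_eq.1 (hn hgy), Subgroup.map_map]
      congr 1
      ext a
      simp [mul_assoc]
    have hX : H ⊔ H' ≤ M := by
      rcases hmaxM.le_iff.1 (hgen (Subgroup.normalizer ((H ⊔ H' : Subgroup G) : Set G))
        (le_sup_left.trans Subgroup.le_normalizer) hyX) with h | h
      · exfalso
        rcases (Subgroup.normalizer_eq_top_iff.1 h).eq_bot_or_eq_top with h' | h'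
        · exact hH1 (eq_bot_iff.2 (le_sup_left.trans h'.le))
        · exact hne g⁻¹ h'
      · exact Subgroup.le_normalizer.trans h.le
    -- the second conjugate lies in `M`, so `y` lies in it
    have hsub : H' ≤ M := le_sup_right.trans hX
    let Y := M ⊓ M.map (MulAut.conj g⁻¹).toMonoidHom
    have hY : H' ≤ Y := le_inf hsub (Subgroup.map_mono hHM)
    have hrel : H'.relIndex (M.map (MulAut.conj g⁻¹).toMonoidHom) = H.relIndex M :=
      Subgroup.relIndex_map_map_of_injective H M (MulAut.conj g⁻¹).injective
    have hmul := Subgroup.relIndex_mul_relIndex H' Y (M.map (MulAut.conj g⁻¹).toMonoidHom) hY inf_le_right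
    rw [hrel] at hmul
    rcases hidx.eq_one_or_self_of_dvd _ (Dvd.intro _ hmul) with h | h
    · have hyY : y ∈ Y := ⟨hy, g * y * g⁻¹, hgy, by simp [mul_assoc]⟩
      obtain ⟨a, ha, hae⟩ := Subgroup.relIndex_eq_one.1 h hyY
      refine hgyH ?_
      rw [← hae]
      simpa [mul_assoc] using ha
    · -- otherwise `g` normalizes `M`
      rw [h, mul_eq_left₀ hidx.ne_zero] at hmul
      have hle : M.map (MulAut.conj g⁻¹).toMonoidHom ≤ M :=
        (Subgroup.relIndex_eq_one.1 hmul).trans inf_le_left
      have hMN : g⁻¹ ∈ Subgroup.normalizer (M : Set G) := by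
        rw [Subgroup.mem_normalizer_iff_map_conj_eq]
        exact Subgroup.eq_of_le_of_card_ge hle
          (Subgroup.card_map_of_injective (MulAut.conj g⁻¹).injective).ge
      rcases hmaxM.le_iff.1 (Subgroup.le_normalizer (H := M)) with h' | h'
      · rcases (Subgroup.normalizer_eq_top_iff.1 h').eq_bot_or_eq_top with h'' | h''
        · exact hH1 (eq_bot_iff.2 (h'' ▸ hHM))
        · exact hMne h''
      · exact hg'M (h' ▸ hMN)
  -- an element of least order outside `H`
  obtain ⟨m, hmem, hmin⟩ := (Set.toFinite {m : M | (m : G) ∉ H}).exists_minimalFor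
    (fun m : M => orderOf (m : G)) _ ⟨_, (show ∃ m : M, (m : G) ∉ H from by
      by_contra hc
      push Not at hc
      exact hmaxH.1 ((Subgroup.eq_top_iff' _).2 hc)).choose_spec⟩
  haveI : IsCyclic (M ⧸ H.subgroupOf M) :=
    haveI : Fact (H.relIndex M).Prime := ⟨hidx⟩
    isCyclic_of_prime_card (p := H.relIndex M) rfl
  letI : CommGroup (M ⧸ H.subgroupOf M) := IsCyclic.commGroup
  let φ : M →* M ⧸ H.subgroupOf M := QuotientGroup.mk' _
  have hTm : φ.transfer (m : G) = φ m := LAE62.transfer_apply_of_forall φ m fun g hg l hl hy => by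
    refine (QuotientGroup.eq_one_iff (N := H.subgroupOf M) _).2 ?_
    show g⁻¹ * (m : G) ^ l * g ∈ H
    have hconj : g * (g⁻¹ * (m : G) ^ l * g) * g⁻¹ = (m : G) ^ l := by group
    rcases hdich g hg _ hy (by rw [hconj]; exact M.pow_mem m.2 l) with h | h
    · exact h
    rw [hconj] at h
    by_contra hyH
    have hl1 : l ≠ 1 := fun e => hmem (by simpa [e] using h)
    have hl0 : l ≠ 0 := fun e => by subst e; exact (orderOf_pos (m : G)).ne' (zero_dvd_iff.1 hl)
    have hlt : orderOf (g⁻¹ * (m : G) ^ l * g) < orderOf (m : G) := by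
      have : orderOf (g⁻¹ * (m : G) ^ l * g) = orderOf ((m : G) ^ l) := by
        have := MulEquiv.orderOf_eq (MulAut.conj g⁻¹) ((m : G) ^ l)
        simpa using this
      rw [this, orderOf_pow_of_dvd hl0 hl]
      exact Nat.div_lt_self (orderOf_pos _) (by omega)
    exact hlt.not_ge (hmin (j := ⟨_, hy⟩) hyH hlt.le)
  -- so `G` has a proper normal subgroup with abelian quotient
  have hne1 : φ.transfer (m : G) ≠ 1 := by
    rw [hTm]
    exact fun e => hmem ((QuotientGroup.eq_one_iff (N := H.subgroupOf M) m).1 e)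
  rcases (inferInstance : φ.transfer.ker.Normal).eq_bot_or_eq_top with h | h
  · have hinj := (MonoidHom.ker_eq_bot_iff _).1 h
    exact hG ⟨⟨fun a b => hinj (by rw [map_mul, map_mul, mul_comm])⟩⟩
  · exact hne1 (MonoidHom.mem_ker.1 (h ▸ Subgroup.mem_top _))

end Cfsg.Agent.S3015
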