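import Cfsg.Statements.S3016
import Cfsg.Agent.LAE62.PClosed.Fix
-- import your own Cfsg.Agent.* helpers here

set_option autoImplicit false
open Cfsg

namespace Cfsg.Agent.S3016

/-- Let G be a finite group, p an odd prime, and H an abelian p-subgroup of G that is extremely closed (for every g, the subgroup generated by H and g H g⁻¹ meets N_G(H) exactly in H). Then the normal closure of H meets N_G(H) exactly in H, and G = N_G(H) O_{p'}(G). -/
theorem result {G : Type*} [Group G] [Finite G] {p : ℕ} [Fact p.Prime] (hp : p ≠ 2) (H : Subgroup G) (hHp : IsPGroup p H) (hHab : IsMulCommutative H) (hcl : Cfsg.IsExtremelyClosed H) : Subgroup.normalClosure (H : Set G) ⊓ Subgroup.normalizer (H : Set G) = H ∧ Subgroup.normalizer (H : Set G) ⊔ Cfsg.pPrimeCore p G = ⊤ := by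
  classical
  set O := Cfsg.pPrimeCore p G with hO
  have hQ := LAE62.PClosed.closed_of_isExtremelyClosed hHp hHab hcl
  have hcm : ∀ x ∈ H, ∀ y ∈ H, x * y = y * x := fun x hx y hy =>
    congrArg (fun z : H => (z : G)) (hHab.is_comm.comm (⟨x, hx⟩ : H) ⟨y, hy⟩)
  have hfac : Subgroup.normalizer (H : Set G) ⊔ O = ⊤ :=
    LAE62.PClosed.factor hp (Nat.card G) G rfl H hHp hcm hQ
  refine ⟨le_antisymm ?_ (le_inf Subgroup.le_normalClosure Subgroup.le_normalizer), hfac⟩
  have hOp : ¬ p ∣ Nat.card O := Cores.not_dvd_card_pPrimeCore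
  haveI hOHn : (O ⊔ H).Normal := by
    refine Subgroup.normalizer_eq_top_iff.1 (eq_top_iff.2 (hfac ▸ sup_le ?_ ?_))
    · intro n hn
      refine LAE62.mem_normalizer_of_conj_mem fun x hx => ?_
      obtain ⟨o, ho, h, hh, rfl⟩ := LAE62.PClosed.exists_mul Subgroup.le_normalizer_of_normal hx
      rw [show n * (o * h) * n⁻¹ = (n * o * n⁻¹) * (n * h * n⁻¹) by group]
      exact mul_mem (Subgroup.mem_sup_left ((inferInstance : O.Normal).conj_mem o ho n))
        (Subgroup.mem_sup_right ((Subgroup.mem_normalizer_iff.1 hn h).1 hh))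
    · exact le_sup_left.trans Subgroup.le_normalizer
  set L := (Subgroup.normalClosure (H.subgroupOf ⊤ : Set (⊤ : Subgroup G))).map (⊤ : Subgroup G).subtype with hL
  have hHL : H ≤ L := fun x hx => ⟨⟨x, trivial⟩, Subgroup.subset_normalClosure hx, rfl⟩
  haveI hLn : L.Normal := Subgroup.normalClosure_normal.map _ fun x => ⟨⟨x, trivial⟩, rfl⟩
  have hLOH : L ≤ O ⊔ H := by
    refine Subgroup.map_le_iff_le_comap.2 ?_
    haveI : ((O ⊔ H).comap (⊤ : Subgroup G).subtype).Normal := hOHn.comap _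
    exact Subgroup.normalClosure_le_normal fun x hx => Subgroup.mem_sup_right hx
  rintro x ⟨hx, hxN⟩
  have hxL : x ∈ L := Subgroup.normalClosure_le_normal (N := L) hHL hx
  obtain ⟨o, ho, h, hh, rfl⟩ := LAE62.PClosed.exists_mul Subgroup.le_normalizer_of_normal (hLOH hxL)
  have hoL : o ∈ L := by simpa using L.mul_mem hxL (L.inv_mem (hHL hh))
  have hoN : o ∈ Subgroup.normalizer (H : Set G) := by
    simpa using Subgroup.mul_mem _ hxN (Subgroup.inv_mem _ (Subgroup.le_normalizer hh))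
  suffices o = 1 by rw [this, one_mul]; exact hh
  refine congrArg Subtype.val (LAE62.PClosed.fix hp (Nat.card L) L rfl (H.subgroupOf L)
    (hHp.of_equiv (Subgroup.subgroupOfEquivOfLe hHL).symm) (fun a ha b hb => Subtype.ext (hcm a ha b hb))
    (LAE62.PClosed.closed_subgroupOf hQ hHL) (O.subgroupOf L) inferInstance ?_ ?_
    (LAE62.PClosed.normalClosure_top hHp hQ le_top) ⟨o, hoL⟩ ho ?_)
  · intro hd
    refine hOp (hd.trans ?_)
    rw [← Subgroup.card_map_of_injective L.subtype_injective, Subgroup.subgroupOf_map_subtype]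
    exact Subgroup.card_dvd_of_le inf_le_left
  · refine eq_top_iff.2 fun g _ => ?_
    obtain ⟨o', ho', h', hh', e⟩ := LAE62.PClosed.exists_mul Subgroup.le_normalizer_of_normal (hLOH g.2)
    have ho'L : o' ∈ L := by
      rw [show o' = (g : G) * h'⁻¹ by rw [← e]; group]
      exact L.mul_mem g.2 (L.inv_mem (hHL hh'))
    rw [show g = (⟨o', ho'L⟩ : L) * ⟨h', hHL hh'⟩ from Subtype.ext e.symm]
    exact mul_mem (Subgroup.mem_sup_left (show (⟨o', ho'L⟩ : L) ∈ O.subgroupOf L from ho'))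
      (Subgroup.mem_sup_right (show (⟨h', hHL hh'⟩ : L) ∈ H.subgroupOf L from hh'))
  · intro z hz
    refine Subtype.ext ?_
    show o * (z : G) = (z : G) * o
    have hH' : o * (z : G) * o⁻¹ * (z : G)⁻¹ ∈ H :=
      H.mul_mem ((Subgroup.mem_normalizer_iff.1 hoN z).1 hz) (H.inv_mem hz)
    have hO' : o * (z : G) * o⁻¹ * (z : G)⁻¹ ∈ O := by
      rw [show o * (z : G) * o⁻¹ * (z : G)⁻¹ = o * ((z : G) * o⁻¹ * (z : G)⁻¹) by group]
      exact O.mul_mem ho ((inferInstance : O.Normal).conj_mem _ (O.inv_mem ho) z)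
    exact mul_inv_eq_iff_eq_mul.1 (mul_inv_eq_one.1 (LAE62.PClosed.eq_one_of_mem hOp hHp hO' hH'))

end Cfsg.Agent.S3016
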