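import Cfsg.Statements.S3020
import Mathlib.GroupTheory.Transfer
import Mathlib.GroupTheory.Nilpotent
import Cfsg.Agent.Cores.Basic
import Cfsg.Agent.LAE62.SylowBasics
-- import your own Cfsg.Agent.* helpers here

set_option autoImplicit false
open Cfsg

namespace Cfsg.Agent.S3020

/-- Let G be a finite group, p a prime and H an abelian p-subgroup of G that is extremely closed (for every g, the subgroup generated by H and g H g⁻¹ meets N_G(H) exactly in H). Then for every g ∈ G, the subgroup T generated by H and g H g⁻¹ is the product of H with O_{p'}(T), and H meets O_{p'}(T) trivially; that is, O_{p'}(T) is a normal p-complement of H in T. -/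
theorem result {G : Type*} [Group G] [Finite G] {p : ℕ} [Fact p.Prime] (H : Subgroup G) (hHp : IsPGroup p H) (hHab : IsMulCommutative H) (hcl : Cfsg.IsExtremelyClosed H) (g : G) (T : Subgroup G) (hT : T = H ⊔ H.map (MulAut.conj g).toMonoidHom) : H ⊔ (Cfsg.pPrimeCore p ↥T).map T.subtype = T ∧ H ⊓ (Cfsg.pPrimeCore p ↥T).map T.subtype = ⊥ := by
  subst hT
  set T := H ⊔ H.map (MulAut.conj g).toMonoidHom with hTdef
  have hHT : H ≤ T := le_sup_left
  let H' : Subgroup T := H.subgroupOf T
  have hH'p : IsPGroup p H' := hHp.comap_of_injective T.subtype T.subtype_injective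
  obtain ⟨P, hP⟩ := hH'p.exists_le_sylow
  have hN : Subgroup.normalizer (H' : Set T) = H' := by
    refine le_antisymm (fun t ht => ?_) Subgroup.le_normalizer
    have : (t : G) ∈ T ⊓ Subgroup.normalizer (H : Set G) := by
      refine ⟨t.2, LAE62.mem_normalizer_of_conj_mem fun a ha => ?_⟩
      exact (Subgroup.mem_normalizer_iff.1 ht ⟨a, hHT ha⟩).1 ha
    rw [hcl g] at this
    exact this
  have hPH : (P : Subgroup T) = H' := by
    have := P.2.isNilpotent
    refine le_antisymm ?_ hP
    have h1 : H'.subgroupOf (P : Subgroup T) = ⊤ := by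
      refine normalizerCondition_iff_only_full_group_self_normalizing.1
        (Group.normalizerCondition_of_isNilpotent (G := (P : Subgroup T))) _ ?_
      refine le_antisymm (fun t ht => ?_) Subgroup.le_normalizer
      show (t : T) ∈ H'
      rw [← hN]
      exact LAE62.mem_normalizer_of_conj_mem fun a ha =>
        (Subgroup.mem_normalizer_iff.1 ht ⟨a, hP ha⟩).1 ha
    intro t ht
    exact (h1 ▸ Subgroup.mem_top (⟨t, ht⟩ : (P : Subgroup T)) :)
  have hNC : Subgroup.normalizer ((P : Subgroup T) : Set T) ≤ Subgroup.centralizer ((P : Subgroup T) : Set T) := by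
    rw [hPH, hN]
    intro a ha b hb
    apply Subtype.ext
    exact (congrArg Subtype.val (hHab.is_comm.comm (⟨(b : G), hb⟩ : H) (⟨(a : G), ha⟩ : H)) :)
  have hcomp := MonoidHom.ker_transferSylow_isComplement' P hNC
  set K := (MonoidHom.transferSylow P hNC).ker with hK
  have hKc : K ≤ Cfsg.pPrimeCore p T :=
    Cores.le_pPrimeCore_of_not_dvd inferInstance (MonoidHom.not_dvd_card_ker_transferSylow P hNC)
  constructor
  · refine le_antisymm (sup_le hHT (Subgroup.map_subtype_le _)) fun t ht => ?_
    obtain ⟨⟨⟨k, hk⟩, ⟨h, hh⟩⟩, hkh⟩ := hcomp.2 ⟨t, ht⟩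
    have : t = (k : G) * (h : G) := by simpa using (congrArg Subtype.val hkh).symm
    rw [this]
    refine Subgroup.mul_mem _ (Subgroup.mem_sup_right ⟨k, hKc hk, rfl⟩) (Subgroup.mem_sup_left ?_)
    exact (hPH ▸ hh : h ∈ H')
  · rw [eq_bot_iff]
    rintro x ⟨hxH, c, hc, rfl⟩
    have h1 : orderOf c = 1 := by
      refine Nat.eq_one_of_dvd_coprimes (Cores.orderOf_coprime_of_mem_pPrimeCore hc).symm ?_ dvd_rfl
      obtain ⟨k, hk⟩ := hH'p ⟨c, hxH⟩
      have := orderOf_dvd_of_pow_eq_one (show c ^ p ^ k = 1 by simpa using congrArg Subtype.val hk)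
      obtain ⟨j, -, hj⟩ := (Nat.dvd_prime_pow Fact.out).1 this
      rcases Nat.eq_zero_or_pos j with h0 | h0
      · simp [hj, h0]
      · exfalso
        exact (Cores.coprime_iff_not_dvd_prime Fact.out).1 (Cores.orderOf_coprime_of_mem_pPrimeCore hc)
          (hj ▸ dvd_pow_self p h0.ne')
    simp [orderOf_eq_one_iff.1 h1]

end Cfsg.Agent.S3020
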