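import Cfsg.Statements.S3021
import Mathlib.GroupTheory.Nilpotent
import Cfsg.Agent.LAE62.SylowBasics
-- import your own Cfsg.Agent.* helpers here

set_option autoImplicit false
open Cfsg

namespace Cfsg.Agent.S3021

/-- Let G be a finite group, p a prime and H a p-subgroup of G that is extremely closed (for every g, the subgroup generated by H and g H g⁻¹ meets N_G(H) exactly in H). Then every p-subgroup Q of G containing H has N_G(Q) ≤ N_G(H); in particular every Sylow p-subgroup P of G containing H normalizes H, and H is strongly closed in P with respect to G. -/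
theorem result {G : Type*} [Group G] [Finite G] {p : ℕ} [Fact p.Prime] (H : Subgroup G) (hHp : IsPGroup p H) (hcl : Cfsg.IsExtremelyClosed H) : (∀ Q : Subgroup G, IsPGroup p Q → H ≤ Q → Subgroup.normalizer (Q : Set G) ≤ Subgroup.normalizer (H : Set G)) ∧ ∀ P : Sylow p G, H ≤ (P : Subgroup G) → (P : Subgroup G) ≤ Subgroup.normalizer (H : Set G) ∧ Cfsg.IsStronglyClosed H (P : Subgroup G) := by
  have key : ∀ n ∈ Subgroup.normalizer (H : Set G), ∀ g : G, ∀ h ∈ H,
      g * h * g⁻¹ = n → n ∈ H := by
    intro n hn g h hh he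
    rw [← hcl g]
    exact ⟨Subgroup.mem_sup_right ⟨h, hh, he⟩, hn⟩
  have hQN : ∀ Q : Subgroup G, IsPGroup p Q → H ≤ Q → Q ≤ Subgroup.normalizer (H : Set G) := by
    intro Q hQ hHQ
    have := hQ.isNilpotent
    -- the normalizer of `H` in `Q` is self-normalizing in `Q`
    have hself : ((Subgroup.normalizer (H : Set G)).subgroupOf Q) = ⊤ := by
      refine normalizerCondition_iff_only_full_group_self_normalizing.1
        (Group.normalizerCondition_of_isNilpotent (G := Q)) _ ?_
      refine le_antisymm (fun q hq => ?_) Subgroup.le_normalizer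
      show (q : G) ∈ Subgroup.normalizer (H : Set G)
      refine LAE62.mem_normalizer_of_conj_mem fun a ha => ?_
      have h1 : (⟨a, hHQ ha⟩ : Q) ∈ (Subgroup.normalizer (H : Set G)).subgroupOf Q :=
        Subgroup.le_normalizer ha
      exact key _ ((Subgroup.mem_normalizer_iff.1 hq _).1 h1) q a ha rfl
    intro q hq
    exact (hself ▸ Subgroup.mem_top (⟨q, hq⟩ : Q) :)
  refine ⟨fun Q hQ hHQ g hg => ?_, fun P hHP => ⟨hQN P P.2 hHP, hHP, fun x hx g hgx => ?_⟩⟩
  · exact LAE62.mem_normalizer_of_conj_mem fun a ha =>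
      key _ (hQN Q hQ hHQ ((Subgroup.mem_normalizer_iff.1 hg a).1 (hHQ ha))) g a ha rfl
  · exact key _ (hQN P P.2 hHP hgx) g x hx rfl

end Cfsg.Agent.S3021
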