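import Cfsg.Statements.S3023
import Cfsg.Agent.LAE62.ParabolicChar
-- import your own Cfsg.Agent.* helpers here

set_option autoImplicit false
open Cfsg

namespace Cfsg.Agent.S3023

/-- Let p be a prime, G a finite group of parabolic characteristic p (every p-local subgroup containing a Sylow p-subgroup of G has characteristic p), S a Sylow p-subgroup of G and G₁ a subnormal subgroup of G. If the centre of S ∩ G₁ is nontrivial and contained in the centre of S, then G₁ has parabolic characteristic p. -/
theorem result {G : Type*} [Group G] [Finite G] {p : ℕ} [Fact p.Prime] (hG : Cfsg.IsOfParabolicCharacteristic p G) (S : Sylow p G) (G₁ : Subgroup G) (hsn : G₁.IsSubnormal) (hne : ((S : Subgroup G) ⊓ G₁) ⊓ Subgroup.centralizer (((S : Subgroup G) ⊓ G₁ : Subgroup G) : Set G) ≠ ⊥) (hle : ((S : Subgroup G) ⊓ G₁) ⊓ Subgroup.centralizer (((S : Subgroup G) ⊓ G₁ : Subgroup G) : Set G) ≤ (S : Subgroup G) ⊓ Subgroup.centralizer ((S : Subgroup G) : Set G)) : Cfsg.IsOfParabolicCharacteristic p ↥G₁ := by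
  exact LAE62.isOfParabolicCharacteristic_of_isSubnormal hG S G₁ hsn hle

end Cfsg.Agent.S3023
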