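import Cfsg.Statements.S3025
import Mathlib.GroupTheory.SpecificGroups.Quaternion
import Mathlib.RingTheory.IntegralDomain
import Mathlib.Data.Nat.Factors
import Cfsg.Agent.LAE62.SylowBasics
import Cfsg.Agent.S0016
-- import your own Cfsg.Agent.* helpers here

set_option autoImplicit false
open Cfsg

namespace Cfsg.Agent.S3025

/-- Let F be a finite group and H a nontrivial subgroup of F that is contained in every nontrivial subgroup of F which H normalizes. Then F has a nontrivial normal subgroup N contained in every nontrivial normal subgroup of F (a unique minimal normal subgroup), N is simple, and one of the following holds: C_F(N) = 1; or H = N has prime order p, C_F(N) is cyclic of order a power of p, and F/C_F(N) is cyclic of order dividing p − 1; or H = N has order 2, N is central in F, and F is a generalized quaternion group. -/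
theorem result {F : Type*} [Group F] [Finite F] (H : Subgroup F) (hH : H ≠ ⊥)
    (hmin : ∀ R : Subgroup F, R ≠ ⊥ → H ≤ Subgroup.normalizer (R : Set F) → H ≤ R) :
    ∃ N : Subgroup F, N.Normal ∧ N ≠ ⊥ ∧ (∀ M : Subgroup F, M.Normal → M ≠ ⊥ → N ≤ M) ∧ IsSimpleGroup ↥N ∧
      (Subgroup.centralizer (N : Set F) = ⊥ ∨
       (H = N ∧ (Nat.card N).Prime ∧ IsCyclic ↥(Subgroup.centralizer (N : Set F)) ∧
          (∃ k : ℕ, 1 ≤ k ∧ Nat.card ↥(Subgroup.centralizer (N : Set F)) = Nat.card N ^ k) ∧
          (∃ g : F, Subgroup.centralizer (N : Set F) ⊔ Subgroup.zpowers g = ⊤) ∧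
          (Subgroup.centralizer (N : Set F)).index ∣ Nat.card N - 1) ∨
       (H = N ∧ Nat.card N = 2 ∧ Subgroup.centralizer (N : Set F) = ⊤ ∧
          ∃ k : ℕ, 1 ≤ k ∧ Nonempty (F ≃* QuaternionGroup (2 ^ k)))) := by
  classical
  have htriv : Nontrivial F := by
    obtain ⟨⟨a, ha⟩, ha1⟩ := Subgroup.ne_bot_iff_exists_ne_one.1 hH
    exact ⟨a, 1, fun e => ha1 (Subtype.ext e)⟩
  have hHnorm : ∀ M : Subgroup F, M.Normal → M ≠ ⊥ → H ≤ M := fun M hM h =>
    hmin M h (fun a _ => (Subgroup.normalizer_eq_top_iff.2 hM).ge (Subgroup.mem_top a))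
  set N : Subgroup F := sInf {M : Subgroup F | M.Normal ∧ M ≠ ⊥} with hNdef
  have hHN : H ≤ N := le_sInf fun M hM => hHnorm M hM.1 hM.2
  have hN0 : N ≠ ⊥ := fun e => hH (le_bot_iff.1 (e ▸ hHN))
  have hNn : N.Normal := ⟨fun a ha g => Subgroup.mem_sInf.2 fun M hM => hM.1.conj_mem a (Subgroup.mem_sInf.1 ha M hM) g⟩
  have hNmin : ∀ M : Subgroup F, M.Normal → M ≠ ⊥ → N ≤ M := fun M h1 h2 => sInf_le ⟨h1, h2⟩
  haveI hNsimple : IsSimpleGroup ↥N := by
    haveI : Nontrivial N := (Subgroup.nontrivial_iff_ne_bot N).2 hN0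
    refine ⟨fun M hM => ?_⟩
    rw [or_iff_not_imp_left]
    intro hM0
    set M' := M.map N.subtype with hM'
    have hM'0 : M' ≠ ⊥ := fun e => hM0 ((Subgroup.map_eq_bot_iff_of_injective M N.subtype_injective).1 e)
    have hcore : H ≤ M'.normalCore := by
      intro h hh g
      set R := M'.map (MulAut.conj g⁻¹).toMonoidHom with hR
      have hR0 : R ≠ ⊥ := fun e => hM'0 ((Subgroup.map_eq_bot_iff_of_injective M' (MulAut.conj g⁻¹).injective).1 e)
      have hHR : H ≤ R := by
        refine hmin R hR0 (hHN.trans fun n hn => ?_)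
        refine Cfsg.Agent.LAE62.mem_normalizer_of_conj_mem fun r hr => ?_
        obtain ⟨m, ⟨m0, hm0, rfl⟩, rfl⟩ := hr
        refine ⟨(g * n * g⁻¹) * (m0 : F) * (g * n * g⁻¹)⁻¹, ?_, by simp [mul_assoc]⟩
        exact ⟨⟨g * n * g⁻¹, hNn.conj_mem n hn g⟩ * m0 * ⟨g * n * g⁻¹, hNn.conj_mem n hn g⟩⁻¹,
          hM.conj_mem m0 hm0 _, rfl⟩
      obtain ⟨m, hm, hmh⟩ := hHR hh
      rw [← hmh]
      simpa [mul_assoc] using hm
    have hNle : N ≤ M' := (hNmin _ inferInstance fun e => hH (le_bot_iff.1 (e ▸ hcore))).trans (Subgroup.normalCore_le M')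
    rw [eq_top_iff]
    intro a _
    obtain ⟨b, hb, hba⟩ := hNle a.2
    rwa [← N.subtype_injective hba]
  refine ⟨N, hNn, hN0, hNmin, hNsimple, ?_⟩
  rw [or_iff_not_imp_left]
  intro hC0
  set C := Subgroup.centralizer (N : Set F) with hCdef
  have hNC : N ≤ C := hNmin _ inferInstance hC0
  haveI hNab : IsMulCommutative N := Subgroup.le_centralizer_iff_isMulCommutative.1 hNC
  letI : CommGroup N := { (inferInstance : Group N) with mul_comm := fun a b => hNab.is_comm.comm a b }
  have hp : (Nat.card N).Prime := IsSimpleGroup.prime_card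
  haveI : Fact (Nat.card N).Prime := ⟨hp⟩
  have hHN' : H = N := by
    refine Subgroup.eq_of_le_of_card_ge hHN (le_of_eq ?_)
    rcases hp.eq_one_or_self_of_dvd _ (Subgroup.card_dvd_of_le hHN) with h | h
    · exact absurd (Subgroup.card_eq_one.1 h) hH
    · exact h.symm
  have hsub : ∀ R : Subgroup F, R ≤ C → R ≠ ⊥ → N ≤ R := by
    intro R hR hR0
    rw [← hHN']
    refine hmin R hR0 ?_
    rw [hHN']
    exact (Subgroup.le_centralizer_iff.1 hR).trans (Subgroup.centralizer_le_normalizer _)
  set p := Nat.card N with hpdef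
  have hpg : IsPGroup p C := by
    intro c
    have hd : ∀ {q : ℕ}, q.Prime → q ∣ orderOf (c : F) → q = p := by
      intro q hq hqd
      have hord : orderOf ((c : F) ^ (orderOf (c : F) / q)) = q :=
        orderOf_pow_orderOf_div (orderOf_pos (c : F)).ne' hqd
      have hle := hsub (Subgroup.zpowers ((c : F) ^ (orderOf (c : F) / q)))
        (Subgroup.zpowers_le.2 (C.pow_mem c.2 _)) (by
          rw [Ne, Subgroup.zpowers_eq_bot]
          intro e
          rw [e, orderOf_one] at hord
          exact hq.one_lt.ne hord)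
      have := Subgroup.card_dvd_of_le hle
      rw [Nat.card_zpowers, hord] at this
      exact ((Nat.prime_dvd_prime_iff_eq hp hq).1 this).symm
    refine ⟨(orderOf (c : F)).primeFactorsList.length, Subtype.ext ?_⟩
    push_cast
    rw [← Nat.eq_prime_pow_of_unique_prime_dvd (orderOf_pos (c : F)).ne' hd, pow_orderOf_eq_one]
  have huniq : ∀ A B : Subgroup C, Nat.card A = p → Nat.card B = p → A = B := by
    have key : ∀ A : Subgroup C, Nat.card A = p → A.map C.subtype = N := by
      intro A hA
      refine (Subgroup.eq_of_le_of_card_ge (hsub _ (Subgroup.map_subtype_le A) ?_) ?_).symm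
      · intro e
        rw [Subgroup.map_eq_bot_iff_of_injective _ C.subtype_injective] at e
        rw [e, Subgroup.card_bot] at hA
        exact hp.one_lt.ne hA
      · rw [Subgroup.card_map_of_injective C.subtype_injective, hA]
    intro A B hA hB
    exact Subgroup.map_injective C.subtype_injective ((key A hA).trans (key B hB).symm)
  -- the action on `N`
  let φ : F →* MulAut N := MulAut.conjNormal
  have hker : φ.ker = C := by
    ext g
    rw [MonoidHom.mem_ker]
    constructor
    · intro h a ha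
      have := congrArg Subtype.val (DFunLike.congr_fun h ⟨a, ha⟩)
      simp only [φ, MulAut.conjNormal_apply, MulAut.one_apply] at this
      conv_lhs => rw [← this]
      group
    · intro h
      refine MulEquiv.ext fun a => Subtype.ext ?_
      simp only [φ, MulAut.conjNormal_apply, MulAut.one_apply]
      rw [← Subgroup.mem_centralizer_iff.1 h a a.2, mul_inv_cancel_right]
  haveI : IsCyclic N := isCyclic_of_prime_card (p := p) rfl
  have hindex : C.index ∣ p - 1 := by
    rw [← hker, Subgroup.index_ker]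
    refine (Subgroup.card_subgroup_dvd_card _).trans (dvd_of_eq ?_)
    rw [Nat.card_congr (IsCyclic.mulAutMulEquiv N).toEquiv, Nat.card_eq_fintype_card, ZMod.card_units_eq_totient,
      Nat.totient_prime hp]
  rcases S0016.result p hpg huniq with hcyc | ⟨hp2, n, ⟨e⟩⟩
  · left
    refine ⟨hHN', hp, hcyc, ?_, ?_, hindex⟩
    · obtain ⟨k, hk⟩ := IsPGroup.iff_card.1 hpg
      refine ⟨k, Nat.one_le_iff_ne_zero.2 ?_, hk⟩
      rintro rfl
      rw [pow_zero] at hk
      exact hC0 (Subgroup.card_eq_one.1 hk)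
    · haveI : IsCyclic (ZMod p)ˣ := by infer_instance
      haveI : IsCyclic (MulAut N) := isCyclic_of_surjective (IsCyclic.mulAutMulEquiv N).symm.toMonoidHom
        (IsCyclic.mulAutMulEquiv N).symm.surjective
      obtain ⟨⟨_, g, rfl⟩, hg⟩ := IsCyclic.exists_generator (α := φ.range)
      refine ⟨g, eq_top_iff.2 fun a _ => ?_⟩
      obtain ⟨i, hi⟩ := Subgroup.mem_zpowers_iff.1 (hg ⟨φ a, a, rfl⟩)
      have hi' : φ (a * (g ^ i)⁻¹) = 1 := by
        have : (φ g) ^ i = φ a := congrArg Subtype.val hi
        rw [map_mul, map_inv, map_zpow, this, mul_inv_cancel]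
      have ha : a = (a * (g ^ i)⁻¹) * g ^ i := by group
      rw [ha]
      exact Subgroup.mul_mem_sup (hker ▸ MonoidHom.mem_ker.2 hi')
        (Subgroup.zpow_mem _ (Subgroup.mem_zpowers g) i)
  · rcases Nat.eq_zero_or_pos n with rfl | hn
    · left
      have h1 : IsCyclic C := by
        have : IsCyclic (QuaternionGroup (2 ^ 0)) := by simpa using QuaternionGroup.quaternionGroup_one_isCyclic
        exact isCyclic_of_surjective e.symm.toMonoidHom e.symm.surjective
      refine ⟨hHN', hp, h1, ?_, ⟨1, ?_⟩, hindex⟩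
      · obtain ⟨k, hk⟩ := IsPGroup.iff_card.1 hpg
        refine ⟨k, Nat.one_le_iff_ne_zero.2 ?_, hk⟩
        rintro rfl
        rw [pow_zero] at hk
        exact hC0 (Subgroup.card_eq_one.1 hk)
      · rw [hp2] at hindex
        rw [Subgroup.zpowers_one_eq_bot, sup_bot_eq, Subgroup.index_eq_one.1 (Nat.dvd_one.1 hindex)]
    · right
      have hCtop : C = ⊤ := by
        rw [hp2] at hindex
        exact Subgroup.index_eq_one.1 (Nat.dvd_one.1 hindex)
      refine ⟨hHN', hp2, hCtop, n, hn, ⟨?_⟩⟩
      exact ((MulEquiv.subgroupCongr hCtop).trans Subgroup.topEquiv).symm.trans e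

end Cfsg.Agent.S3025
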