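import Cfsg.Statements.S3027
import Mathlib.GroupTheory.QuotientGroup.Basic
import Mathlib.GroupTheory.IsSubnormal
import Mathlib.GroupTheory.Commutator.Basic
import Mathlib.Data.Fintype.Sets
import Mathlib.Data.Finset.Lattice.Fold
-- import your own Cfsg.Agent.* helpers here

set_option autoImplicit false
open Cfsg

namespace Cfsg.Agent.S3027

/-- Let G be a finite group and D a normal subgroup of G such that G/D is perfect (that is, G = G′D). Then among the subnormal subgroups B of G with BD = G there is a least one, and it is normal in G. -/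
theorem result {G : Type*} [Group G] [Finite G] (D : Subgroup G) [D.Normal] (hperf : ⁅(⊤ : Subgroup G), (⊤ : Subgroup G)⁆ ⊔ D = ⊤) :
    ∃ B : Subgroup G, B.Normal ∧ B ⊔ D = ⊤ ∧ ∀ B' : Subgroup G, B'.IsSubnormal → B' ⊔ D = ⊤ → B ≤ B' := by
  classical
  let π := QuotientGroup.mk' D
  have hπ : ∀ X : Subgroup G, X ⊔ D = ⊤ ↔ X.map π = ⊤ := by
    intro X
    constructor
    · intro h
      have : (⊤ : Subgroup G).map π = ⊤ := Subgroup.map_top_of_surjective π (QuotientGroup.mk'_surjective D)
      rwa [← h, Subgroup.map_sup, QuotientGroup.map_mk'_self, sup_bot_eq] at this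
    · intro h
      rw [← QuotientGroup.ker_mk' D, ← Subgroup.comap_map_eq, h, Subgroup.comap_top]
  have hcomm : ⁅(⊤ : Subgroup (G ⧸ D)), (⊤ : Subgroup (G ⧸ D))⁆ = ⊤ := by
    have := (hπ _).1 hperf
    rwa [Subgroup.map_commutator, Subgroup.map_top_of_surjective π (QuotientGroup.mk'_surjective D)] at this
  -- two supplements normalizing each other meet in a supplement
  have hinter : ∀ X Y : Subgroup G, X ≤ Subgroup.normalizer (Y : Set G) →
      Y ≤ Subgroup.normalizer (X : Set G) → X ⊔ D = ⊤ → Y ⊔ D = ⊤ → X ⊓ Y ⊔ D = ⊤ := by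
    intro X Y hXY hYX hX hY
    rw [hπ] at hX hY ⊢
    refine top_le_iff.1 ?_
    calc (⊤ : Subgroup (G ⧸ D)) = ⁅X.map π, Y.map π⁆ := by rw [hX, hY, hcomm]
      _ = ⁅X, Y⁆.map π := (Subgroup.map_commutator _ _ _).symm
      _ ≤ (X ⊓ Y).map π := by
        refine Subgroup.map_mono (Subgroup.commutator_le.2 fun a ha b hb => ?_)
        refine ⟨?_, ?_⟩
        · have := X.mul_mem ha ((Subgroup.mem_normalizer_iff.1 (hYX hb) a⁻¹).1 (X.inv_mem ha))
          simpa [commutatorElement_def, mul_assoc] using this
        · have := Y.mul_mem ((Subgroup.mem_normalizer_iff.1 (hXY ha) b).1 hb) (Y.inv_mem hb)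
          simpa [commutatorElement_def, mul_assoc] using this
  have hinf : ∀ (K : Subgroup G) (s : Finset (Subgroup G)), K ⊔ D = ⊤ →
      (∀ X ∈ s, X ≤ K ∧ K ≤ Subgroup.normalizer (X : Set G) ∧ X ⊔ D = ⊤) →
      (K ⊓ s.inf id) ⊔ D = ⊤ := by
    intro K s hK
    induction s using Finset.induction with
    | empty => intro _; simpa using hK
    | insert X s hXs ih =>
      intro h
      obtain ⟨hXK, hKX, hX⟩ := h X (Finset.mem_insert_self _ _)
      have hs := ih fun Y hY => h Y (Finset.mem_insert_of_mem hY)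
      rw [Finset.inf_insert, id, inf_left_comm]
      refine hinter X _ ?_ (le_trans inf_le_left hKX) hX hs
      intro a ha
      rw [Subgroup.mem_normalizer_iff_map_conj_eq, Subgroup.map_inf _ _ _ (MulAut.conj a).injective,
        Subgroup.mem_normalizer_iff_map_conj_eq.1 (Subgroup.le_normalizer (hXK ha))]
      congr 1
      clear ih hs hXs hinter
      have hmem : ∀ Y ∈ s, Y.map (MulAut.conj a).toMonoidHom = Y := fun Y hY =>
        Subgroup.mem_normalizer_iff_map_conj_eq.1 ((h Y (Finset.mem_insert_of_mem hY)).2.1 (hXK ha))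
      clear h
      induction s using Finset.induction with
      | empty =>
        simp only [Finset.inf_empty]
        exact Subgroup.map_top_of_surjective _ (MulAut.conj a).surjective
      | insert Y s hYs ih' =>
        rw [Finset.inf_insert, id, Subgroup.map_inf _ _ _ (MulAut.conj a).injective]
        congr 1
        · exact hmem Y (Finset.mem_insert_self _ _)
        · exact ih' fun Z hZ => hmem Z (Finset.mem_insert_of_mem hZ)
  -- the least normal supplement
  haveI := Fintype.ofFinite (Subgroup G)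
  set B := (Finset.univ.filter fun X : Subgroup G => X.Normal ∧ X ⊔ D = ⊤).inf id with hB
  have hBn : B.Normal := by
    rw [← Subgroup.normalizer_eq_top_iff, eq_top_iff]
    intro a _
    rw [Subgroup.mem_normalizer_iff_map_conj_eq]
    refine Subgroup.eq_of_le_of_card_ge ?_ (Subgroup.card_map_of_injective (MulAut.conj a).injective).ge
    rw [hB, Finset.le_inf_iff]
    intro X hX
    rintro _ ⟨b, hb, rfl⟩
    exact (Finset.mem_filter.1 hX).2.1.conj_mem b (Finset.inf_le hX (f := id) hb) a
  have hBsup : B ⊔ D = ⊤ := by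
    have := hinf ⊤ (Finset.univ.filter fun X : Subgroup G => X.Normal ∧ X ⊔ D = ⊤) (top_sup_eq _) fun X hX => by
      obtain ⟨hXn, hXD⟩ := (Finset.mem_filter.1 hX).2
      exact ⟨le_top, (Subgroup.normalizer_eq_top_iff.2 hXn).ge, hXD⟩
    rwa [top_inf_eq] at this
  refine ⟨B, hBn, hBsup, fun B' hB' => ?_⟩
  induction hB' with
  | top => exact fun _ => le_top
  | step H K hHK hK hn ih =>
    intro hHD
    have hKD : K ⊔ D = ⊤ := top_le_iff.1 (hHD.ge.trans (sup_le_sup_right hHK D))
    have hBK := ih hKD
    have hKH : K ≤ Subgroup.normalizer (H : Set G) := (Subgroup.normal_subgroupOf_iff_le_normalizer hHK).1 hn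
    -- the least supplement normal in `B` is `B` itself
    set C := B ⊓ (Finset.univ.filter fun X : Subgroup G =>
      X ≤ B ∧ B ≤ Subgroup.normalizer (X : Set G) ∧ X ⊔ D = ⊤).inf id with hC
    have hCD : C ⊔ D = ⊤ := hinf B _ hBsup fun X hX => (Finset.mem_filter.1 hX).2
    have hCn : C.Normal := by
      rw [← Subgroup.normalizer_eq_top_iff, eq_top_iff]
      intro a _
      rw [Subgroup.mem_normalizer_iff_map_conj_eq]
      refine Subgroup.eq_of_le_of_card_ge ?_ (Subgroup.card_map_of_injective (MulAut.conj a).injective).ge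
      rw [hC, le_inf_iff]
      refine ⟨?_, Finset.le_inf fun X hX => ?_⟩
      · rintro _ ⟨b, hb, rfl⟩; exact hBn.conj_mem b hb.1 a
      · obtain ⟨hXB, hBX, hXD⟩ := (Finset.mem_filter.1 hX).2
        have h1 : X.map (MulAut.conj a⁻¹).toMonoidHom ∈ Finset.univ.filter fun X : Subgroup G =>
            X ≤ B ∧ B ≤ Subgroup.normalizer (X : Set G) ∧ X ⊔ D = ⊤ := by
          refine Finset.mem_filter.2 ⟨Finset.mem_univ _, ?_, ?_, ?_⟩
          · rintro _ ⟨b, hb, rfl⟩; exact hBn.conj_mem b (hXB hb) _
          · intro b hb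
            refine (le_of_eq (Subgroup.map_equiv_normalizer_eq X (MulAut.conj a⁻¹)) ?_ :)
            exact ⟨a * b * a⁻¹, hBX (hBn.conj_mem b hb a), by simp [mul_assoc]⟩
          · have := congrArg (Subgroup.map (MulAut.conj a⁻¹).toMonoidHom) hXD
            rw [Subgroup.map_sup, Subgroup.map_top_of_surjective _ (MulAut.conj a⁻¹).surjective,
              show D.map (MulAut.conj a⁻¹).toMonoidHom = D from Subgroup.mem_normalizer_iff_map_conj_eq.1
                ((Subgroup.normalizer_eq_top_iff.2 ‹D.Normal›).symm ▸ Subgroup.mem_top _)] at this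
            exact this
        rintro _ ⟨b, hb, rfl⟩
        have hb2 := Finset.inf_le h1 (f := id) hb.2
        obtain ⟨c, hc, hcb⟩ := hb2
        rw [← hcb]
        simpa [mul_assoc] using hc
    have hBC : B ≤ C := Finset.inf_le (f := id) (Finset.mem_filter.2 ⟨Finset.mem_univ _, hCn, hCD⟩)
    have hmem : H ⊓ B ∈ Finset.univ.filter fun X : Subgroup G =>
        X ≤ B ∧ B ≤ Subgroup.normalizer (X : Set G) ∧ X ⊔ D = ⊤ := by
      refine Finset.mem_filter.2 ⟨Finset.mem_univ _, inf_le_right, ?_, ?_⟩
      · intro a ha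
        rw [Subgroup.mem_normalizer_iff_map_conj_eq, Subgroup.map_inf _ _ _ (MulAut.conj a).injective,
          Subgroup.mem_normalizer_iff_map_conj_eq.1 (hKH (hBK ha)),
          Subgroup.mem_normalizer_iff_map_conj_eq.1 (Subgroup.le_normalizer ha)]
      · exact hinter H B ((Subgroup.normalizer_eq_top_iff.2 hBn).ge.trans' le_top) (hBK.trans hKH) hHD hBsup
    exact (hBC.trans (inf_le_right.trans (Finset.inf_le (f := id) hmem))).trans inf_le_left

end Cfsg.Agent.S3027
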