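import Cfsg.Statements.S3031
import Cfsg.Agent.LocEven.HSubgroup

set_option autoImplicit false
open Cfsg

namespace Cfsg.Agent.S3031

/-- Let G be a finite group, p the smallest prime dividing |G| and P a Sylow p-subgroup. Suppose that P is cyclic, or that P has a subgroup D with 1 < |D| < |P| such that every subgroup E of P of order |D|, and also every subgroup E of P of order 4 when |D| = 2, satisfies g E g⁻¹ ∩ N_G(E) ≤ E for all g ∈ G (E is strongly closed in its normalizer with respect to G). Then G has a normal p-complement. -/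
theorem result {G : Type*} [Group G] [Finite G] {p : ℕ} [Fact p.Prime] (hdiv : p ∣ Nat.card G)
    (hmin : ∀ q : ℕ, q.Prime → q ∣ Nat.card G → p ≤ q) (P : Sylow p G)
    (h : IsCyclic ↥(P : Subgroup G) ∨ ∃ D : Subgroup G, D ≤ (P : Subgroup G) ∧ 1 < Nat.card D ∧ Nat.card D < Nat.card (P : Subgroup G) ∧
      ∀ E : Subgroup G, E ≤ (P : Subgroup G) → (Nat.card E = Nat.card D ∨ (Nat.card D = 2 ∧ Nat.card E = 4)) →
        ∀ g : G, E.map (MulAut.conj g).toMonoidHom ⊓ Subgroup.normalizer (E : Set G) ≤ E) :
    Cfsg.HasNormalPComplement p G := by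
  rcases h with hcyc | ⟨D, hD, h1, hlt, hE⟩
  · have hmf : (Nat.card G).minFac = p := le_antisymm (Nat.minFac_le_of_dvd (Fact.out : p.Prime).two_le hdiv)
      (hmin _ (Nat.minFac_prime fun h => (Fact.out : p.Prime).one_lt.ne' (Nat.eq_one_of_dvd_one (h ▸ hdiv)))
        (Nat.minFac_dvd _))
    exact ⟨P, _, inferInstance, MonoidHom.ker_transferSylow_isComplement' P (hcyc.normalizer_le_centralizer hmf)⟩
  · obtain ⟨d, hd⟩ := IsPGroup.iff_card.1 (P.2.to_le hD)
    have hd1 : 1 ≤ d := by
      rcases Nat.eq_zero_or_pos d with rfl | h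
      · simp [hd] at h1
      · exact h
    refine LocEven.hasNormalPComplement_of_hcond hmin P hd1 ?_ (hd ▸ hlt)
    intro E hEP hc
    exact LocEven.normal_stronglyClosed_of_hSubgroup P.2 hEP (hE E hEP (by rwa [hd]))

end Cfsg.Agent.S3031
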