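import Cfsg.Statements.S3047
import Cfsg.Agent.RankOneFix.Models
import Cfsg.Agent.LocalP.PClosed
import Cfsg.Agent.Cores.Basic
import Cfsg.Agent.LAE62.SylowBasics

set_option autoImplicit false
open Cfsg

namespace Cfsg.Agent.S3047

/-- Let p ≥ 5 be a prime, G a finite group all of whose composition factors are known simple groups, S a Sylow p-subgroup and P a p-minimal subgroup of G containing S such that O^p(P/O_p(P)) is isomorphic to SL₂(pᵃ), PSL₂(pᵃ), SU₃(pᵃ) or PSU₃(pᵃ) for some a ≥ 1. Let L be the subgroup generated by N_G(S) and the p-minimal subgroups of G containing S other than P. Then either O^p(P) is normal in G, or every p-element of the centre of L lies in O_p(P). -/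
theorem result {G : Type*} [Group G] [Finite G] {p : ℕ} [Fact p.Prime] (hp : 5 ≤ p) (hK : Cfsg.IsCompositionKGroup G)
    (S : Sylow p G) (P : Subgroup G) (hSP : (S : Subgroup G) ≤ P) (hPmin : Cfsg.IsPMinimal p ↥P) [hn : (Cfsg.pCore p ↥P).Normal]
    (hrk1 : ∃ (F : Type) (_ : Field F) (_ : Fintype F) (a : ℕ), 1 ≤ a ∧
      ((Fintype.card F = p ^ a ∧ (Nonempty (↥(Cfsg.pResidual p (↥P ⧸ Cfsg.pCore p ↥P)) ≃* Matrix.SpecialLinearGroup (Fin 2) F) ∨
                                  Nonempty (↥(Cfsg.pResidual p (↥P ⧸ Cfsg.pCore p ↥P)) ≃* Matrix.ProjectiveSpecialLinearGroup (Fin 2) F))) ∨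
       (Fintype.card F = p ^ (2 * a) ∧ (Nonempty (↥(Cfsg.pResidual p (↥P ⧸ Cfsg.pCore p ↥P)) ≃* ↥(Cfsg.SU 3 F (p ^ a))) ∨
                                        Nonempty (↥(Cfsg.pResidual p (↥P ⧸ Cfsg.pCore p ↥P)) ≃* Cfsg.PSU 3 F (p ^ a))))))
    (L : Subgroup G)
    (hL : L = Subgroup.normalizer ((S : Subgroup G) : Set G) ⊔ ⨆ P' : {P' : Subgroup G // (S : Subgroup G) ≤ P' ∧ Cfsg.IsPMinimal p ↥P' ∧ P' ≠ P}, (P' : Subgroup G)) :
    ((Cfsg.pResidual p ↥P).map P.subtype).Normal ∨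
    ∀ z ∈ L ⊓ Subgroup.centralizer (L : Set G), (∃ k : ℕ, orderOf z = p ^ k) → z ∈ (Cfsg.pCore p ↥P).map P.subtype := by
  classical
  refine Or.inr fun z hz ⟨k, hk⟩ => ?_
  have hNL : Subgroup.normalizer ((S : Subgroup G) : Set G) ≤ L := hL ▸ le_sup_left
  have hzc : ∀ g ∈ Subgroup.normalizer ((S : Subgroup G) : Set G), g * z = z * g := fun g hg =>
    Subgroup.mem_centralizer_iff.1 (Subgroup.mem_inf.1 hz).2 g (hNL hg)
  have hzN : z ∈ Subgroup.normalizer ((S : Subgroup G) : Set G) := Subgroup.mem_normalizer_iff.2 fun s => by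
    constructor
    · intro hs
      rwa [← hzc s (Subgroup.le_normalizer hs), mul_inv_cancel_right]
    · intro hs
      have := hzc _ (Subgroup.le_normalizer hs)
      have e : s = z * s * z⁻¹ := by
        calc s = z⁻¹ * (z * s * z⁻¹ * z) := by group
          _ = z⁻¹ * (z * (z * s * z⁻¹)) := by rw [this]
          _ = _ := by group
      rw [e]; exact hs
  have hzS : z ∈ (S : Subgroup G) := by
    have hp' : IsPGroup p (Subgroup.zpowers z) := IsPGroup.of_card (n := k) (by rw [Nat.card_zpowers, hk])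
    have h1 : IsPGroup p (↥((S : Subgroup G) ⊔ Subgroup.zpowers z)) :=
      IsPGroup.to_sup_of_normal_left' S.2 hp' (Subgroup.zpowers_le.2 hzN)
    rw [← S.3 h1 le_sup_left]
    exact Subgroup.mem_sup_right (Subgroup.mem_zpowers z)
  set Q := Cfsg.pCore p ↥P with hQ
  set π := QuotientGroup.mk' Q with hπd
  have hπ : Function.Surjective π := QuotientGroup.mk'_surjective Q
  set Sb : Sylow p (↥P ⧸ Q) := (S.subtype hSP).mapSurjective hπ with hSb
  have hSbc : (Sb : Subgroup (↥P ⧸ Q)) = ((S : Subgroup G).subgroupOf P).map π := by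
    rw [hSb, Sylow.coe_mapSurjective, Sylow.coe_subtype]
  suffices hσ : π ⟨z, hSP hzS⟩ = 1 from ⟨⟨z, hSP hzS⟩, (QuotientGroup.eq_one_iff _).1 hσ, rfl⟩
  have hcore : Cfsg.pCore p (↥P ⧸ Q) = ⊥ := Cores.pCore_quotient_pCore_eq_bot
  have hmem : π ⟨z, hSP hzS⟩ ∈ (Sb : Subgroup (↥P ⧸ Q)) := hSbc ▸ ⟨_, hzS, rfl⟩
  have hQS : Q ≤ (S : Subgroup G).subgroupOf P := by
    have := Cores.pCore_le_sylow (S.subtype hSP)
    rwa [Sylow.coe_subtype] at this
  have h1 : ∀ s ∈ (Sb : Subgroup (↥P ⧸ Q)), π ⟨z, hSP hzS⟩ * s = s * π ⟨z, hSP hzS⟩ := by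
    intro s hs
    rw [hSbc] at hs
    obtain ⟨y, hy, rfl⟩ := hs
    rw [← map_mul, ← map_mul]
    exact congrArg π (Subtype.ext (hzc (y : G) (Subgroup.le_normalizer hy)).symm)
  have h2 : ∀ g : ↥P ⧸ Q, (∀ s ∈ (Sb : Subgroup (↥P ⧸ Q)), g * s * g⁻¹ ∈ (Sb : Subgroup (↥P ⧸ Q))) →
      π ⟨z, hSP hzS⟩ * g = g * π ⟨z, hSP hzS⟩ := by
    intro g hg
    obtain ⟨y, rfl⟩ := hπ g
    have hy : (y : G) ∈ Subgroup.normalizer ((S : Subgroup G) : Set G) := by
      refine LAE62.mem_normalizer_of_conj_mem fun s hs => ?_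
      have hsS : π ⟨s, hSP hs⟩ ∈ (Sb : Subgroup (↥P ⧸ Q)) := hSbc ▸ ⟨_, hs, rfl⟩
      have h := hg _ hsS
      rw [hSbc, ← map_mul, ← map_inv, ← map_mul] at h
      have h' : y * ⟨s, hSP hs⟩ * y⁻¹ ∈ (((S : Subgroup G).subgroupOf P).map π).comap π := h
      rw [Subgroup.comap_map_eq, hπd, QuotientGroup.ker_mk', sup_eq_left.2 hQS] at h'
      exact h'
    rw [← map_mul, ← map_mul]
    exact congrArg π (Subtype.ext (hzc _ hy).symm)
  have hsup := LocalP.pResidual_sup_eq_top Sb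
  obtain ⟨F, _, _, a, ha, hF, hX⟩ | ⟨F, _, _, a, ha, hF, hX⟩ := (by
    obtain ⟨F, i1, i2, a, ha, h | h⟩ := hrk1
    · exact Or.inl ⟨F, i1, i2, a, ha, h⟩
    · exact Or.inr ⟨F, i1, i2, a, ha, h⟩ :
    (∃ (F : Type) (_ : Field F) (_ : Fintype F) (a : ℕ), 1 ≤ a ∧
      Fintype.card F = p ^ a ∧ (Nonempty (↥(Cfsg.pResidual p (↥P ⧸ Cfsg.pCore p ↥P)) ≃* Matrix.SpecialLinearGroup (Fin 2) F) ∨
        Nonempty (↥(Cfsg.pResidual p (↥P ⧸ Cfsg.pCore p ↥P)) ≃* Matrix.ProjectiveSpecialLinearGroup (Fin 2) F))) ∨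
    (∃ (F : Type) (_ : Field F) (_ : Fintype F) (a : ℕ), 1 ≤ a ∧
      Fintype.card F = p ^ (2 * a) ∧ (Nonempty (↥(Cfsg.pResidual p (↥P ⧸ Cfsg.pCore p ↥P)) ≃* ↥(Cfsg.SU 3 F (p ^ a))) ∨
        Nonempty (↥(Cfsg.pResidual p (↥P ⧸ Cfsg.pCore p ↥P)) ≃* Cfsg.PSU 3 F (p ^ a)))))
  · obtain ⟨U, T, b, w, D⟩ := RankOneFix.frame_SL2 (p := p) hp ha hF
    rcases hX with ⟨⟨e⟩⟩ | ⟨⟨e⟩⟩
    · refine RankOneFix.eq_one_of_frame hp D _ Sb hsup hcore e.symm.toMonoidHom e.symm.surjective ?_ hmem h1 h2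
      intro x hx
      have : x = 1 := e.symm.injective (by simpa using hx)
      rw [this]; exact one_mem _
    · refine RankOneFix.eq_one_of_frame hp D _ Sb hsup hcore
        (e.symm.toMonoidHom.comp (QuotientGroup.mk' _)) (e.symm.surjective.comp (QuotientGroup.mk'_surjective _))
        ?_ hmem h1 h2
      intro x hx
      exact (QuotientGroup.eq_one_iff x).1 (e.symm.injective (by simpa using hx))
  · obtain ⟨φ, ⟨e₀⟩, U, T, b, w, D⟩ := RankOneFix.frame_SU3 (p := p) hp ha hF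
    rcases hX with ⟨⟨e⟩⟩ | ⟨⟨e⟩⟩
    · refine RankOneFix.eq_one_of_frame hp D _ Sb hsup hcore (e₀.trans e.symm).toMonoidHom
        (e₀.trans e.symm).surjective ?_ hmem h1 h2
      intro x hx
      have : x = 1 := (e₀.trans e.symm).injective (hx.trans (map_one _).symm)
      rw [this]; exact one_mem _
    · refine RankOneFix.eq_one_of_frame hp D _ Sb hsup hcore
        ((e.symm.toMonoidHom.comp (QuotientGroup.mk' _)).comp e₀.toMonoidHom)
        ((e.symm.surjective.comp (QuotientGroup.mk'_surjective _)).comp e₀.surjective) ?_ hmem h1 h2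
      intro x hx
      have hc : e₀ x ∈ Subgroup.center _ :=
        (QuotientGroup.eq_one_iff (e₀ x)).1 (e.symm.injective (hx.trans (map_one _).symm))
      exact Subgroup.mem_center_iff.2 fun y => e₀.injective (by
        rw [map_mul, map_mul, Subgroup.mem_center_iff.1 hc (e₀ y)])

end Cfsg.Agent.S3047
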