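import Cfsg.Statements.S3049
import Cfsg.Agent.LocEven.CoprimeOmega
import Cfsg.Agent.LAE62.Isolated
import Cfsg.Agent.Transfer.Frobenius
import Cfsg.Agent.Components.FStar
import Cfsg.Agent.Components.PComponent
import Cfsg.Agent.Fusion.Basic
import Cfsg.Agent.Cores.Fitting

set_option autoImplicit false
open Cfsg

namespace Cfsg.Agent.S3049

open Cfsg.Agent

/-- A group in which every element of order `p` is isolated has a normal `p`-complement. -/
theorem complement_of_isolated {H : Type*} [Group H] [Finite H] {p : ℕ} [hp : Fact p.Prime]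
    (hp2 : p ≠ 2) (h : ∀ u : H, orderOf u = p → Cfsg.IsIsolated u) :
    Cfsg.HasNormalPComplement p H := by
  refine Transfer.hasNormalPComplement_of_coprime_centralize fun Q hQ _ g hg hgo => ?_
  refine LocEven.centralizes_of_fix_small hgo Q hQ hg fun u hu hup => ?_
  rw [LocEven.smallExp, if_neg hp2] at hup
  by_cases h1 : u = 1
  · simp [h1]
  · exact Subgroup.mem_centralizer_singleton_iff.1
      (LAE62.isolated_normalizer_le_centralizer (h u (orderOf_eq_prime hup h1)) hQ hu hg)

section

variable {G : Type*} [Group G] [Finite G] {p : ℕ} [hp : Fact p.Prime]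

theorem component_dvd (hcore : Cfsg.pPrimeCore p G = ⊥) {K : Subgroup G} (hK : Cfsg.IsComponent K) :
    p ∣ Nat.card ↥K := by
  by_contra h
  refine Components.component_ne_bot hK (le_bot_iff.1 (hcore ▸ ?_))
  exact Components.subnormal_le_pPrimeCore hK.1
    (Nat.coprime_comm.1 (hp.out.coprime_iff_not_dvd.2 h))

theorem component_nonisolated (hp2 : p ≠ 2) (hcore : Cfsg.pPrimeCore p G = ⊥) {K : Subgroup G}
    (hK : Cfsg.IsComponent K) :
    ∃ (P : Subgroup G) (a : ↥K), IsPGroup p ↥P ∧ P ≤ K ∧ (a : G) ∈ P ∧ (a : G) ^ p = 1 ∧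
      ¬ Cfsg.IsIsolated a := by
  obtain ⟨a, ha, hna⟩ : ∃ a : ↥K, orderOf a = p ∧ ¬ Cfsg.IsIsolated a := by
    by_contra h
    simp only [not_exists, not_and, not_not] at h
    obtain ⟨P⟩ : Nonempty (Sylow p ↥K) := inferInstance
    have hc := complement_of_isolated hp2 h
    have hd := (Transfer.hasNormalPComplement_iff_disjoint P).1 hc
    have hperf : commutator ↥K = ⊤ := (Components.component_quasisimple hK).1.commutator_eq_top
    have htop : Cfsg.pResidual p ↥K = ⊤ := by
      have hn : (Cfsg.pResidual p ↥K).Normal := inferInstance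
      rw [← QuotientGroup.subsingleton_iff]
      have hnil : Group.IsNilpotent (↥K ⧸ Cfsg.pResidual p ↥K) :=
        Transfer.isPGroup_quotient_pResidual.isNilpotent
      by_contra hne
      have : Nontrivial (↥K ⧸ Cfsg.pResidual p ↥K) := not_subsingleton_iff_nontrivial.1 hne
      have hsurj := QuotientGroup.mk'_surjective (Cfsg.pResidual p ↥K)
      have h2 : commutator (↥K ⧸ Cfsg.pResidual p ↥K) = ⊤ := by
        rw [← Subgroup.map_top_of_surjective _ hsurj]
        conv_rhs => rw [← hperf]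
        rw [commutator_def, commutator_def, Subgroup.map_commutator,
          Subgroup.map_top_of_surjective _ hsurj]
      have : Group.IsPerfect (↥K ⧸ Cfsg.pResidual p ↥K) := ⟨h2⟩
      exact Group.IsPerfect.not_isSolvable (↥K ⧸ Cfsg.pResidual p ↥K) inferInstance
    rw [htop, top_inf_eq] at hd
    have := P.card_eq_multiplicity
    rw [hd, Subgroup.card_bot] at this
    have h0 : (Nat.card ↥K).factorization p = 0 := by
      by_contra hne
      exact absurd this (Nat.one_lt_pow hne hp.out.one_lt).ne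
    exact absurd h0 (Nat.pos_iff_ne_zero.1
      (hp.out.factorization_pos_of_dvd Nat.card_pos.ne' (component_dvd hcore hK)))
  refine ⟨Subgroup.zpowers (a : G), a, ?_, Subgroup.zpowers_le.2 a.2, Subgroup.mem_zpowers _, ?_, hna⟩
  · exact LAE62.isPGroup_zpowers_of_orderOf ⟨1, by rw [Subgroup.orderOf_coe, ha, pow_one]⟩
  · rw [← ha, ← Subgroup.orderOf_coe, pow_orderOf_eq_one]

theorem zpow_eq_one_or_mem {a : G} (ha : a ^ p = 1) (i : ℤ) :
    a ^ i = 1 ∨ a ∈ Subgroup.zpowers (a ^ i) := by
  by_cases hi : (p : ℤ) ∣ i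
  · obtain ⟨k, rfl⟩ := hi
    exact Or.inl (by rw [zpow_mul, zpow_natCast, ha, one_zpow])
  · refine Or.inr ?_
    obtain ⟨u, v, huv⟩ := (Int.isCoprime_iff_gcd_eq_one.2 (show Int.gcd i p = 1 by
      rw [Int.gcd_comm, ← Int.isCoprime_iff_gcd_eq_one]
      exact (Nat.prime_iff_prime_int.1 hp.out).coprime_iff_not_dvd.2 hi))
    refine Subgroup.mem_zpowers_iff.2 ⟨u, ?_⟩
    rw [← zpow_mul]
    conv_rhs => rw [← zpow_one a, ← huv, zpow_add, mul_comm v, zpow_mul a (p : ℤ), zpow_natCast,
      ha, one_zpow, mul_one, mul_comm u]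

theorem zpow_eq_one_of_isolated {x b : G} (hx : Cfsg.IsIsolated x) {K : Subgroup G} {a : ↥K}
    (ha : (a : G) ^ p = 1) (hna : ¬ Cfsg.IsIsolated a) (hb : ∀ k ∈ K, k * b = b * k) {i : ℤ}
    (hxa : x = (a : G) ^ i * b) : (a : G) ^ i = 1 := by
  refine (zpow_eq_one_or_mem ha i).resolve_right fun hmem => hna fun k hk => ?_
  have hk' : Commute (a : G) ((k : G) * a * (k : G)⁻¹) := by
    simpa using hk.map K.subtype
  have hkb : ∀ j : ℤ, (k : G) * ((a : G) ^ j * b) * (k : G)⁻¹ =
      ((k : G) * a * (k : G)⁻¹) ^ j * b := by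
    intro j
    rw [conj_zpow]
    calc (k : G) * ((a : G) ^ j * b) * (k : G)⁻¹
        = ((k : G) * (a : G) ^ j * (k : G)⁻¹) * ((k : G) * b * (k : G)⁻¹) := by group
      _ = _ := by rw [hb _ k.2]; group
  have hab : Commute ((a : G) ^ i) b := hb _ (zpow_mem a.2 i)
  have hab' : Commute (((k : G) * a * (k : G)⁻¹) ^ i) b :=
    hb _ (zpow_mem (mul_mem (mul_mem k.2 a.2) (inv_mem k.2)) i)
  have h1 : (k : G) * x * (k : G)⁻¹ = x := by
    refine hx _ ?_
    rw [hxa, hkb]
    exact ((hk'.zpow_zpow i i).mul_right hab).mul_left (hab'.symm.mul_right (Commute.refl b))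
  rw [hxa, hkb] at h1
  have h2 := mul_right_cancel h1
  rw [conj_zpow] at h2
  obtain ⟨m, hm⟩ := Subgroup.mem_zpowers_iff.1 hmem
  apply Subtype.ext
  show (k : G) * a * (k : G)⁻¹ = a
  rw [← hm, ← conj_zpow, h2]

theorem exists_of_mem_closure_pair {H : Type*} [Group H] {a b x : H} (hab : Commute a b)
    (hx : x ∈ Subgroup.closure ({a, b} : Set H)) : ∃ i j : ℤ, a ^ i * b ^ j = x := by
  induction hx using Subgroup.closure_induction with
  | mem u hu =>
    rcases hu with rfl | rfl
    · exact ⟨1, 0, by simp⟩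
    · exact ⟨0, 1, by simp⟩
  | one => exact ⟨0, 0, by simp⟩
  | mul u v _ _ h1 h2 =>
    obtain ⟨i, j, rfl⟩ := h1
    obtain ⟨k, l, rfl⟩ := h2
    refine ⟨i + k, j + l, ?_⟩
    rw [zpow_add, zpow_add]
    exact ((hab.symm.zpow_zpow j k).mul_mul_mul_comm _ _).symm
  | inv u _ h =>
    obtain ⟨i, j, rfl⟩ := h
    refine ⟨-i, -j, ?_⟩
    rw [(hab.zpow_zpow i j).eq, mul_inv_rev, zpow_neg, zpow_neg]

theorem p_cube_le {x a b : G} (hxa : Commute x a) (hxb : Commute x b) (hab : Commute a b)
    (hx : x ^ p = 1) (ha : a ^ p = 1) (hb : b ^ p = 1) (ha1 : a ≠ 1)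
    (hba : b ∉ Subgroup.zpowers a) (hxab : x ∉ Subgroup.closure ({a, b} : Set G)) :
    ¬ Cfsg.PRankLE p 2 G := by
  intro hrank
  set A := Subgroup.closure ({a, b, x} : Set G) with hA
  have hc : ∀ u ∈ ({a, b, x} : Set G), ∀ v ∈ ({a, b, x} : Set G), u * v = v * u := by
    rintro u (rfl | rfl | rfl) v (rfl | rfl | rfl)
    exacts [rfl, hab.eq, hxa.symm.eq, hab.symm.eq, rfl, hxb.symm.eq, hxa.eq, hxb.eq, rfl]
  have hcomm : IsMulCommutative ↥A := Subgroup.isMulCommutative_closure hc
  have hexp : ∀ u ∈ A, u ^ p = 1 := by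
    intro u hu
    induction hu using Subgroup.closure_induction with
    | mem u hu => rcases hu with rfl | rfl | rfl <;> assumption
    | one => exact one_pow p
    | mul u v hu hv h1 h2 =>
      have h : Commute u v := congrArg Subtype.val (mul_comm' (⟨u, hu⟩ : ↥A) ⟨v, hv⟩)
      rw [h.mul_pow, h1, h2, one_mul]
    | inv u _ h1 => rw [inv_pow, h1, inv_one]
  have hle := hrank A hcomm hexp
  have hAp : IsPGroup p ↥A := fun u => ⟨1, Subtype.ext (by rw [pow_one]; exact hexp u u.2)⟩
  have step : ∀ {H L : Subgroup G}, H < L → L ≤ A → p * Nat.card ↥H ≤ Nat.card ↥L := by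
    intro H L hHL hLA
    obtain ⟨m, hm⟩ := (hAp.to_le hLA).exists_card_eq
    obtain ⟨n, hn⟩ := (hAp.to_le (hHL.le.trans hLA)).exists_card_eq
    have hlt := Fusion.card_lt_card hHL
    rw [hm, hn] at hlt ⊢
    rw [← pow_succ']
    exact Nat.pow_le_pow_right hp.out.pos ((Nat.pow_lt_pow_iff_right hp.out.one_lt).1 hlt)
  have h1 : Subgroup.zpowers a ≤ Subgroup.closure {a, b} :=
    Subgroup.zpowers_le.2 (Subgroup.subset_closure (Or.inl rfl))
  have h2 : Subgroup.closure ({a, b} : Set G) ≤ A := Subgroup.closure_mono (by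
    rintro u (rfl | rfl) <;> simp)
  have s1 := step (L := Subgroup.closure {a, b}) (lt_of_le_not_ge h1 fun h =>
    hba (h (Subgroup.subset_closure (Or.inr rfl)))) h2
  have s2 := step (L := A) (lt_of_le_not_ge h2 fun h =>
    hxab (h (Subgroup.subset_closure (by simp)))) le_rfl
  rw [Nat.card_zpowers, orderOf_eq_prime ha ha1] at s1
  have s3 : p * (p * p) ≤ p ^ 2 := (Nat.mul_le_mul_left p s1).trans (s2.trans hle)
  rw [pow_two] at s3
  have := hp.out.two_le
  nlinarith

end

/-- Let G be a finite group and p an odd prime with O_{p'}(G) = 1. Suppose that G has p-rank at most 2 (no elementary abelian subgroup of order p³) and that some element x of order p is isolated in G (no G-conjugate of x other than x commutes with x) and not central. Then the generalized Fitting subgroup F*(G) is a non-abelian simple group. Since O_{p'}(G) = 1, such an x is not central modulo O_{p'}(G): the hypotheses describe a counterexample to the Z*_p statement in p-rank at most 2. -/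
theorem result {G : Type*} [Group G] [Finite G] {p : ℕ} [Fact p.Prime] (hp : p ≠ 2) (hcore : Cfsg.pPrimeCore p G = ⊥)
    (hrank : Cfsg.PRankLE p 2 G) (x : G) (hx : orderOf x = p) (hiso : Cfsg.IsIsolated x) (hnc : x ∉ Subgroup.center G) :
    IsSimpleGroup ↥(Cfsg.generalizedFittingSubgroup G) ∧ ¬ IsMulCommutative ↥(Cfsg.generalizedFittingSubgroup G) := by
  have hP := (Fact.out : p.Prime)
  have hxp : ∃ k : ℕ, orderOf x = p ^ k := ⟨1, by rw [hx, pow_one]⟩
  -- conjugates of `x`
  have hconj : ∀ g : G, Cfsg.IsIsolated (g * x * g⁻¹) := by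
    intro g k hk
    have := hiso (g⁻¹ * k * g) (by
      have := hk.map (MulAut.conj g⁻¹).toMonoidHom
      simpa [mul_assoc] using this)
    calc k * (g * x * g⁻¹) * k⁻¹ = g * ((g⁻¹ * k * g) * x * (g⁻¹ * k * g)⁻¹) * g⁻¹ := by group
      _ = g * x * g⁻¹ := by rw [this]
  have hcentral : ∀ R : Subgroup G, IsPGroup p ↥R → ∃ x' : G, Cfsg.IsIsolated x' ∧
      x' ∉ Subgroup.center G ∧ x' ^ p = 1 ∧ ∀ r ∈ R, Commute x' r := by
    intro R hR
    obtain ⟨T, hT⟩ := hR.exists_le_sylow
    obtain ⟨T₀, hT₀⟩ := (LAE62.isPGroup_zpowers_of_orderOf hxp).exists_le_sylow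
    obtain ⟨g, hg⟩ := Fusion.exists_cj_sylow T₀ T
    refine ⟨g * x * g⁻¹, hconj g, fun h => hnc ?_, ?_, fun r hr =>
      LAE62.isolated_commute_of_mem_pGroup (hconj g) T.2
        (hg ▸ Fusion.conj_mem_cj.2 (hT₀ (Subgroup.mem_zpowers x))) (hT hr)⟩
    · simpa [mul_assoc] using (inferInstance : (Subgroup.center G).Normal).conj_mem _ h g⁻¹
    · rw [conj_pow, ← hx, pow_orderOf_eq_one, mul_one, mul_inv_cancel]
  -- `F(G) = O_p(G)` and `x` is outside it
  have hF : Cfsg.fittingSubgroup G = Cfsg.pCore p G := by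
    refine le_antisymm ?_ Cores.pCore_le_fittingSubgroup
    rw [Cores.fittingSubgroup_eq_iSup_pCore]
    refine iSup_le fun q => ?_
    by_cases hqp : q.1 = p
    · rw [hqp]
    · have : Fact q.1.Prime := ⟨q.2⟩
      refine le_trans ?_ bot_le
      rw [← hcore]
      refine Cores.le_pPrimeCore inferInstance ?_
      obtain ⟨m, hm⟩ := (Cores.pCore_isPGroup (p := q.1) (G := G)).exists_card_eq
      rw [hm]
      exact ((Nat.coprime_primes this.out hP).2 hqp).pow_left m
  have hnotmem : ∀ y : G, Cfsg.IsIsolated y → y ∉ Subgroup.center G → y ∉ Cfsg.pCore p G := by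
    intro y hy hyc hyF
    refine hyc (Subgroup.mem_center_iff.2 fun g => ?_)
    have := LAE62.isolated_conj_eq_of_mem_pGroup hy Cores.pCore_isPGroup hyF
      ((inferInstance : (Cfsg.pCore p G).Normal).conj_mem _ hyF g)
    exact mul_inv_eq_iff_eq_mul.1 this
  -- there is a component
  have hlayer : Cfsg.layer G ≠ ⊥ := by
    intro h
    have hgf : Cfsg.generalizedFittingSubgroup G = Cfsg.pCore p G := by
      rw [Cfsg.generalizedFittingSubgroup, h, bot_sup_eq, hF]
    obtain ⟨x', hx', hxc, -, hcom⟩ := hcentral _ (Cores.pCore_isPGroup (p := p) (G := G))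
    exact hnotmem x' hx' hxc (Components.centralizer_pCore_le_of_genFitting_eq hgf
      (Subgroup.mem_centralizer_iff.2 fun r hr => ((hcom r hr).eq).symm))
  obtain ⟨K, hK⟩ : ∃ K : Subgroup G, Cfsg.IsComponent K := by
    by_contra h
    simp only [not_exists] at h
    exact hlayer (Components.layer_eq_bot_iff.2 h)
  obtain ⟨P, a, hPp, hPK, haP, hap, hna⟩ := component_nonisolated hp hcore hK
  have ha1 : (a : G) ≠ 1 := fun h => hna fun k _ => Subtype.ext (by simp [h])
  -- `O_p(G) = 1`
  have hOp : Cfsg.pCore p G = ⊥ := by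
    by_contra hne
    have : Nontrivial ↥(Cfsg.pCore p G) := (Subgroup.nontrivial_iff_ne_bot _).2 hne
    obtain ⟨n, hn, hcard⟩ := (IsPGroup.nontrivial_iff_card (Cores.pCore_isPGroup (p := p) (G := G))).1 this
    obtain ⟨⟨z, hz⟩, hzo⟩ := exists_prime_orderOf_dvd_card' p (G := ↥(Cfsg.pCore p G))
      (hcard ▸ dvd_pow_self p hn.ne')
    rw [Subgroup.orderOf_mk] at hzo
    have hzp : z ^ p = 1 := hzo ▸ pow_orderOf_eq_one z
    have hzK : ∀ k ∈ K, k * z = z * k := by
      intro k hk
      have h := Components.component_centralizes_fitting hK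
      rw [Subgroup.commutator_eq_bot_iff_le_centralizer] at h
      exact (Subgroup.mem_centralizer_iff.1 (h hk) z (hF ▸ hz)).symm
    obtain ⟨x', hx', hxc, hxp', hcom⟩ := hcentral (Cfsg.pCore p G ⊔ P)
      (Cores.pCore_isPGroup.to_sup_of_normal_left hPp)
    refine p_cube_le (p := p) (hcom _ (le_sup_left (a := Cfsg.pCore p G) hz))
      (hcom _ (le_sup_right (a := Cfsg.pCore p G) haP)) (hzK _ a.2).symm hxp' hzp hap
      (fun h => by simp [h] at hzo; exact hP.one_lt.ne hzo) ?_ ?_ hrank
    · intro h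
      obtain ⟨j, hj⟩ := Subgroup.mem_zpowers_iff.1 h
      refine hna fun k _ => Subtype.ext ?_
      show (k : G) * a * (k : G)⁻¹ = a
      have hc : Commute (k : G) (z ^ j) := (show Commute (k : G) z from hzK _ k.2).zpow_right j
      rw [← hj, hc.eq, mul_inv_cancel_right]
    · intro h
      obtain ⟨i, j, hij⟩ := exists_of_mem_closure_pair (hzK _ a.2).symm h
      have hij' : x' = (a : G) ^ j * z ^ i := by
        rw [← hij]
        exact ((show Commute z (a : G) from (hzK _ a.2).symm).zpow_zpow i j).eq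
      have h1 := zpow_eq_one_of_isolated hx' hap hna (fun k hk =>
        ((show Commute k z from hzK k hk).zpow_right i).eq) hij'
      rw [h1, one_mul] at hij'
      exact hnotmem x' hx' hxc (hij' ▸ zpow_mem hz i)
  -- there is only one component
  have huniq : ∀ L : Subgroup G, Cfsg.IsComponent L → L = K := by
    intro L hL
    by_contra hne
    obtain ⟨Q, b, hQp, hQL, hbQ, hbp, hnb⟩ := component_nonisolated hp hcore hL
    have hLK : ∀ l ∈ L, ∀ k ∈ K, l * k = k * l := by
      intro l hl k hk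
      have h := Components.component_commute hL hK hne
      rw [Subgroup.commutator_eq_bot_iff_le_centralizer] at h
      exact (Subgroup.mem_centralizer_iff.1 (h hl) k hk).symm
    have hQn : Q ≤ Subgroup.normalizer (P : Set G) := fun q hq =>
      Subgroup.centralizer_le_normalizer _ (Subgroup.mem_centralizer_iff.2 fun r hr =>
        (hLK q (hQL hq) r (hPK hr)).symm)
    obtain ⟨x', hx', hxc, hxp', hcom⟩ := hcentral (P ⊔ Q) (hPp.to_sup_of_normal_left' hQp hQn)
    refine p_cube_le (p := p) (hcom _ (le_sup_left (b := Q) haP))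
      (hcom _ (le_sup_right (a := P) hbQ)) (hLK _ b.2 _ a.2).symm hxp' hap hbp ha1 ?_ ?_ hrank
    · intro h
      obtain ⟨j, hj⟩ := Subgroup.mem_zpowers_iff.1 h
      refine hnb fun k _ => Subtype.ext ?_
      show (k : G) * b * (k : G)⁻¹ = b
      rw [← hj, hLK _ k.2 _ (zpow_mem a.2 j), mul_inv_cancel_right]
    · intro h
      obtain ⟨i, j, hij⟩ := exists_of_mem_closure_pair (hLK _ b.2 _ a.2).symm h
      have h1 := zpow_eq_one_of_isolated hx' hap hna
        (fun k hk => (hLK _ (zpow_mem b.2 j) k hk).symm) hij.symm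
      have h2 := zpow_eq_one_of_isolated (b := (1 : G)) hx' hbp hnb (fun k _ => by simp) (i := j) (by
        rw [← hij, h1, one_mul, mul_one])
      exact hxc (by rw [← hij, h1, h2, one_mul]; exact one_mem _)
  have hlayerK : Cfsg.layer G = K :=
    le_antisymm (Components.layer_le_iff.2 fun L hL => (huniq L hL).le)
      (Components.component_le_layer hK)
  have hgfK : Cfsg.generalizedFittingSubgroup G = K := by
    rw [Cfsg.generalizedFittingSubgroup, hlayerK, hF, hOp, sup_bot_eq]
  have hKn : K.Normal := hlayerK ▸ Components.layer_normal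
  have hZ : Subgroup.center ↥K = ⊥ := by
    have h1 : (Subgroup.center ↥K).map K.subtype ≤ Cfsg.fittingSubgroup G := by
      refine Cores.le_fittingSubgroup (Cores.normal_map_subtype_of_characteristic _) ?_
      have : Group.IsNilpotent ↥(Subgroup.center ↥K) :=
        Components.nilpotent_of_commutator_le_center fun u _ =>
          Subgroup.mem_center_iff.2 fun v => mul_comm' v u
      exact Group.nilpotent_of_mulEquiv
        ((Subgroup.center ↥K).equivMapOfInjective K.subtype K.subtype_injective)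
    rw [hF, hOp, le_bot_iff, Subgroup.map_eq_bot_iff_of_injective _ K.subtype_injective] at h1
    exact h1
  rw [hgfK]
  have hq := Components.component_quasisimple hK
  refine ⟨?_, fun hc => ?_⟩
  · have hs := hq.2
    exact (((QuotientGroup.quotientBot (G := ↥K)).symm.trans
      (QuotientGroup.quotientMulEquivOfEq hZ.symm))).isSimpleGroup
  · exact Components.quasisimple_center_ne_top hq (eq_top_iff.2 fun u _ =>
      Subgroup.mem_center_iff.2 fun v => mul_comm' v u)

end Cfsg.Agent.S3049
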