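import Cfsg.Statements.S3050
import Cfsg.Agent.NaturalSL2.Decompose

set_option autoImplicit false
open Cfsg

namespace Cfsg.Agent.S3050

open Cfsg.Agent.NaturalSL2
open scoped IsMulCommutative commutatorElement

/-- Let G be a finite group with a normal 2-subgroup Q such that G/Q is isomorphic to SL(2, 2ⁿ) with n ≥ 2, and suppose some element of G of order 3 fixes no nonidentity element of Q under conjugation. Then Q is elementary abelian and is the direct product of normal subgroups of G on each of which G acts as SL(2, 2ⁿ) acts on its natural two-dimensional module (a Galois twist of the natural action allowed). -/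
theorem result {G : Type*} [Group G] [Finite G]
    (Q : Subgroup G) [Q.Normal] (hQ : IsPGroup 2 ↥Q) (n : ℕ) (hn : 2 ≤ n)
    (K : Type*) [Field K] [Fintype K] (hK : Fintype.card K = 2 ^ n)
    (e : G ⧸ Q ≃* Matrix.SpecialLinearGroup (Fin 2) K)
    (x : G) (hx : orderOf x = 3) (hfpf : ∀ q ∈ Q, x * q * x⁻¹ = q → q = 1) :
    Cfsg.IsElementaryAbelian 2 Q ∧
      ∃ (k : ℕ) (V : Fin k → Subgroup G), (∀ i, V i ≤ Q ∧ (V i).Normal ∧
        Cfsg.ActsAsSL2OnSection K ⊤ ⊤ (V i) ⊥) ∧ iSupIndep V ∧ ⨆ i, V i = Q := by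
  have : Fact (Nat.Prime 2) := ⟨Nat.prime_two⟩
  have : CharP K 2 := charP_of_card_eq_prime_pow hK
  have hK4 : 4 ≤ Nat.card K := by
    rw [Nat.card_eq_fintype_card, hK]
    calc 4 = 2 ^ 2 := by norm_num
      _ ≤ 2 ^ n := Nat.pow_le_pow_right (by norm_num) hn
  let π : G →* Matrix.SpecialLinearGroup (Fin 2) K := e.toMonoidHom.comp (QuotientGroup.mk' Q)
  have hπ : Function.Surjective π := e.surjective.comp (QuotientGroup.mk'_surjective Q)
  have hker : π.ker = Q := by
    ext g
    rw [MonoidHom.mem_ker]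
    show e (g : G ⧸ Q) = 1 ↔ g ∈ Q
    rw [map_eq_one_iff e e.injective, QuotientGroup.eq_one_iff]
  have hx3 : x * x * x = 1 := by rw [← pow_orderOf_eq_one x, hx, pow_succ, pow_two]
  have hx1 : π x ≠ 1 := fun h => by
    have hxQ : x ∈ Q := hker ▸ MonoidHom.mem_ker.2 h
    obtain ⟨j, hj⟩ := hQ ⟨x, hxQ⟩
    have h3 : 3 ∣ 2 ^ j := hx ▸ orderOf_dvd_of_pow_eq_one (congrArg Subtype.val hj)
    exact absurd (Nat.prime_three.dvd_of_dvd_pow h3) (by decide)
  have hY : ∀ a : K, a ≠ 0 → ∃ y, π y = upper a * lower a⁻¹ ∧ IsThreeAction Q y := fun a ha =>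
    exists_isThreeAction Q π hπ hx3 hx1 hfpf ha
  have hbot := commutator_eq_bot hK4 π hπ Q hQ hker hY
  have hQc : ∀ a ∈ Q, ∀ b ∈ Q, a * b = b * a := fun a ha b hb =>
    commutatorElement_eq_one_iff_mul_comm.1 <| by
      have h := Subgroup.commutator_mem_commutator (H₁ := Q) (H₂ := Q) ha hb
      rwa [hbot, Subgroup.mem_bot] at h
  have hsq := sq_eq_one hK4 π hπ Q hQ hker.le hQc hY
  have hQi : IsMulCommutative Q := ⟨⟨fun a b => Subtype.ext (hQc _ a.2 _ b.2)⟩⟩
  refine ⟨⟨hQi, hsq⟩, ?_⟩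
  obtain ⟨-, Φ, hΦ⟩ := exists_action hK4 π hπ Q (fun g hg a ha => hQc g (hker ▸ hg) a ha) hY
    fun a ha => by rw [show 4 = 2 * 2 from rfl, pow_mul, hsq a ha, one_pow]
  obtain ⟨k, T, hT⟩ := exists_natural_decomposition Φ
  let J : Multiplicative (Fin k → Fin 2 → K) →* G :=
    Q.subtype.comp (AddMonoidHom.toMultiplicativeLeft T.toAddMonoidHom)
  have hJ : ∀ f, J (Multiplicative.ofAdd f) = ((Additive.toMul (T f) : Q) : G) := fun f => rfl
  have hJinj : Function.Injective J := fun f g h => by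
    have := T.injective (Additive.toMul.injective (Subtype.ext h))
    exact this
  let sgl (i : Fin k) : Multiplicative (Fin 2 → K) →* G :=
    J.comp (AddMonoidHom.single (fun _ : Fin k => Fin 2 → K) i).toMultiplicative
  have hconj : ∀ (g : G) f, g * J (Multiplicative.ofAdd f) * g⁻¹ =
      J (Multiplicative.ofAdd fun i => (π g : Matrix (Fin 2) (Fin 2) K).mulVec (f i)) := by
    intro g f
    rw [hJ, hJ, ← hT, hΦ]
    exact (coe_conjEnd Q g (T f)).symm
  have hsgl : ∀ (g : G) i v, g * sgl i (Multiplicative.ofAdd v) * g⁻¹ =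
      sgl i (Multiplicative.ofAdd ((π g : Matrix (Fin 2) (Fin 2) K).mulVec v)) := by
    intro g i v
    show g * J (Multiplicative.ofAdd (Pi.single i v)) * g⁻¹ =
      J (Multiplicative.ofAdd (Pi.single i _))
    rw [hconj]
    congr 2
    funext j
    by_cases hj : j = i
    · subst hj; simp
    · simp [hj]
  refine ⟨k, fun i => (sgl i).range, fun i => ⟨?_, ?_, ?_⟩, ?_, ?_⟩
  · rintro _ ⟨v, rfl⟩
    exact (Additive.toMul (T (Pi.single i v.toAdd))).2
  · exact ⟨fun _ ⟨v, hv⟩ g => ⟨_, (hsgl g i v.toAdd).symm.trans (by rw [← hv]; rfl)⟩⟩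
  · have hinj : Function.Injective (sgl i) := fun a b h =>
      Pi.single_injective (M := fun _ : Fin k => Fin 2 → K) i (hJinj h)
    refine ⟨fun g _ => Subgroup.mem_normalizer_iff.2 fun u => ?_, bot_le,
      π.comp (⊤ : Subgroup G).subtype, (MonoidHom.ofInjective hinj).symm.toMonoidHom, ?_, ?_, ?_, ?_⟩
    · have hn' : (sgl i).range.Normal :=
        ⟨fun _ ⟨v, hv⟩ g => ⟨_, (hsgl g i v.toAdd).symm.trans (by rw [← hv]; rfl)⟩⟩
      exact ⟨fun h => hn'.conj_mem u h g, fun h => by simpa [mul_assoc] using hn'.conj_mem _ h g⁻¹⟩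
    · exact MonoidHom.range_eq_top.2 fun s => (hπ s).elim fun g hg => ⟨⟨g, trivial⟩, hg⟩
    · exact (MonoidHom.ofInjective hinj).symm.surjective
    · intro u
      rw [Subgroup.mem_bot, MulEquiv.coe_toMonoidHom, MulEquiv.map_eq_one_iff]
      exact ⟨fun h => by rw [h]; rfl, fun h => Subtype.ext h⟩
    · intro g u
      obtain ⟨v, rfl⟩ := (MonoidHom.ofInjective hinj).surjective u
      refine ⟨MonoidHom.ofInjective hinj (Multiplicative.ofAdd
        ((π g : Matrix (Fin 2) (Fin 2) K).mulVec v.toAdd)), (hsgl g i v.toAdd).symm, ?_⟩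
      rw [MulEquiv.coe_toMonoidHom, MulEquiv.symm_apply_apply, MulEquiv.symm_apply_apply]
      rfl
  · intro i
    let S : Subgroup (Multiplicative (Fin k → Fin 2 → K)) :=
      { carrier := {f | f.toAdd i = 0}
        one_mem' := rfl
        mul_mem' := fun {a b} ha hb => by
          show a.toAdd i + b.toAdd i = 0
          rw [ha, hb, add_zero]
        inv_mem' := fun {a} ha => by
          show -a.toAdd i = 0
          rw [ha, neg_zero] }
    have hle : (⨆ (j) (_ : j ≠ i), (sgl j).range) ≤ S.map J :=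
      iSup₂_le fun j hj => by
        rintro _ ⟨v, rfl⟩
        exact ⟨_, (show (Pi.single j v.toAdd : Fin k → Fin 2 → K) i = 0 from
          Pi.single_eq_of_ne (Ne.symm hj) _), rfl⟩
    refine Disjoint.mono_right hle (Subgroup.disjoint_def.2 ?_)
    rintro _ ⟨v, rfl⟩ ⟨f, hf, he⟩
    have hfv : f = Multiplicative.ofAdd (Pi.single i v.toAdd : Fin k → Fin 2 → K) := hJinj he
    have : v.toAdd = 0 := by
      have h : f.toAdd i = 0 := hf
      rw [hfv] at h
      simpa using h
    have hv : v = 1 := this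
    rw [hv, map_one]
  · refine le_antisymm (iSup_le fun i => ?_) fun q hq => ?_
    · rintro _ ⟨v, rfl⟩
      exact (Additive.toMul (T (Pi.single i v.toAdd))).2
    · obtain ⟨f, hf⟩ := T.surjective (Additive.ofMul ⟨q, hq⟩)
      have hq' : q = J (Multiplicative.ofAdd f) := by rw [hJ, hf]; rfl
      rw [hq', ← Subgroup.mem_comap, ← Finset.univ_sum_single f, ofAdd_sum]
      exact Subgroup.prod_mem _ fun i _ => Subgroup.mem_comap.2 <|
        Subgroup.mem_iSup_of_mem i ⟨Multiplicative.ofAdd (f i), rfl⟩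

end Cfsg.Agent.S3050
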