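import Cfsg.Statements.S3053
import Cfsg.Agent.LAE62.SylowBasics
import Cfsg.Agent.Fusion.Basic
import Cfsg.Agent.PGroup.ClassTwo
import Cfsg.Agent.PGroup.Frattini
import Cfsg.Agent.Lib.Element
import Cfsg.Agent.LocEven.InvertingSplit

set_option autoImplicit false
open Cfsg

namespace Cfsg.Agent.S3053

open Cfsg.Agent.Fusion in
/-- A power of `c` shifts `y` by a prescribed element of `⟨x⟩`. -/
theorem exists_pow_shift {G : Type*} [Group G] [Finite G] {p : ℕ} (hp : p.Prime) {c x y u t : G}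
    (hx : orderOf x = p) (hcx : c * x * c⁻¹ = x) (hu : u ∈ Subgroup.zpowers x) (hu1 : u ≠ 1)
    (ht : t ∈ Subgroup.zpowers x) (hcy : c * y * c⁻¹ = y * u) :
    ∃ n : ℕ, c ^ n * y * (c ^ n)⁻¹ = y * t ∧ c ^ n * x * (c ^ n)⁻¹ = x := by
  have hcu : c * u * c⁻¹ = u := by
    obtain ⟨k, rfl⟩ := Subgroup.mem_zpowers_iff.1 hu
    rw [← conj_zpow, hcx]
  have hgen : Subgroup.zpowers u = Subgroup.zpowers x := by
    refine Subgroup.eq_of_le_of_card_ge (Subgroup.zpowers_le.2 hu) ?_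
    rw [Nat.card_zpowers, Nat.card_zpowers, hx]
    have hd : orderOf u ∣ p := by
      rw [← hx, ← Nat.card_zpowers x, ← Subgroup.orderOf_mk u hu]
      exact orderOf_dvd_natCard _
    rcases (Nat.dvd_prime hp).1 hd with h | h
    · exact absurd (orderOf_eq_one_iff.1 h) hu1
    · rw [h]
  obtain ⟨n, hn⟩ := (Submonoid.mem_powers_iff _ _).1 (mem_powers_iff_mem_zpowers.2 (hgen.symm ▸ ht : t ∈ Subgroup.zpowers u))
  refine ⟨n, ?_, ?_⟩
  · rw [← hn]
    clear hn
    induction n with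
    | zero => simp
    | succ n ih =>
      calc c ^ (n + 1) * y * (c ^ (n + 1))⁻¹ = c * (c ^ n * y * (c ^ n)⁻¹) * c⁻¹ := by rw [pow_succ']; group
        _ = (c * y * c⁻¹) * (c * u * c⁻¹) ^ n := by rw [ih, conj_pow]; group
        _ = y * u ^ (n + 1) := by rw [hcy, hcu, mul_assoc, ← pow_succ']
  · induction n generalizing t with
    | zero => simp
    | succ n ih =>
      calc c ^ (n + 1) * x * (c ^ (n + 1))⁻¹ = c * (c ^ n * x * (c ^ n)⁻¹) * c⁻¹ := by rw [pow_succ']; group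
        _ = x := by rw [ih (Subgroup.zpow_mem _ hu n) (by simp), hcx]

/-- In a group with a plane carrying two independent transvections, some element inverts the plane. -/
theorem exists_inverting {G : Type*} [Group G] {x y A B : G} (hxy : x * y = y * x)
    (hAx : A * x * A⁻¹ = x) (hAy : A * y * A⁻¹ = y * x) (hBy : B * y * B⁻¹ = y)
    (hBx : B * x * B⁻¹ = x * y⁻¹) :
    ∃ w : G, w ∈ Subgroup.closure {A, B} ∧ w * x * w⁻¹ = x⁻¹ ∧ w * y * w⁻¹ = y⁻¹ := by
  set W := A * B * A with hW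
  have hWx : W * x * W⁻¹ = y⁻¹ := by
    calc W * x * W⁻¹ = A * (B * (A * x * A⁻¹) * B⁻¹) * A⁻¹ := by rw [hW]; group
      _ = A * (x * y⁻¹) * A⁻¹ := by rw [hAx, hBx]
      _ = (A * x * A⁻¹) * (A * y * A⁻¹)⁻¹ := by group
      _ = y⁻¹ := by rw [hAx, hAy, mul_inv_rev, mul_inv_cancel_left]
  have hWy : W * y * W⁻¹ = x := by
    calc W * y * W⁻¹ = A * (B * (A * y * A⁻¹) * B⁻¹) * A⁻¹ := by rw [hW]; group
      _ = A * ((B * y * B⁻¹) * (B * x * B⁻¹)) * A⁻¹ := by rw [hAy]; group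
      _ = A * (y * (x * y⁻¹)) * A⁻¹ := by rw [hBy, hBx]
      _ = A * x * A⁻¹ := by rw [← mul_assoc y x, ← hxy, mul_inv_cancel_right]
      _ = x := hAx
  refine ⟨W * W, ?_, ?_, ?_⟩
  · have hA : A ∈ Subgroup.closure {A, B} := Subgroup.subset_closure (by simp)
    have hB : B ∈ Subgroup.closure {A, B} := Subgroup.subset_closure (by simp)
    exact mul_mem (mul_mem (mul_mem hA hB) hA) (mul_mem (mul_mem hA hB) hA)
  · calc W * W * x * (W * W)⁻¹ = W * (W * x * W⁻¹) * W⁻¹ := by group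
      _ = (W * y * W⁻¹)⁻¹ := by rw [hWx]; group
      _ = x⁻¹ := by rw [hWy]
  · calc W * W * y * (W * W)⁻¹ = W * (W * y * W⁻¹) * W⁻¹ := by group
      _ = y⁻¹ := by rw [hWy, hWx]

/-- Let p be an odd prime and G a finite group with a Sylow p-subgroup P that is extraspecial of order p³ and exponent p². Then the centre of P is strongly closed in P with respect to G: a G-conjugate of an element of Z(P) that lies in P already lies in Z(P). In particular a nontrivial central element of P is conjugate in G to no noncentral element of P. -/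
theorem result {G : Type*} [Group G] [Finite G]
    {p : ℕ} [Fact p.Prime] (hp : p ≠ 2) (P : Sylow p G) (hE : Cfsg.IsExtraspecial p ↥P)
    (hcard : Nat.card P = p ^ 3) (hexp : Monoid.exponent ↥P = p ^ 2) :
    Cfsg.IsStronglyClosed ((Subgroup.center ↥P).map (P : Subgroup G).subtype) (P : Subgroup G) := by
  classical
  have hp' : p.Prime := Fact.out
  have hodd : Odd p := hp'.odd_of_ne_two hp
  obtain ⟨⟨hPp, hFr, hCm⟩, hZp⟩ := hE
  have hclass : commutator ↥P ≤ Subgroup.center ↥P := le_of_eq hCm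
  have hpowZ : ∀ u : ↥P, u ^ p ∈ Subgroup.center ↥P := fun u => hFr ▸ PGroup.pow_mem_frattini hPp u
  let π : ↥P →* ↥P :=
    { toFun := fun u => u ^ p
      map_one' := one_pow p
      map_mul' := fun u v => PGroup.mul_pow_of_classTwo hclass hodd (hpowZ u) }
  have hkcard : Nat.card π.ker = p ^ 2 := by
    have hr : π.range ≤ Subgroup.center ↥P := by rintro _ ⟨u, rfl⟩; exact hpowZ u
    have hrne : π.range ≠ ⊥ := by
      intro h
      have : Monoid.exponent ↥P ∣ p := Monoid.exponent_dvd_of_forall_pow_eq_one fun u =>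
        (Subgroup.eq_bot_iff_forall _).1 h (u ^ p) ⟨u, rfl⟩
      rw [hexp] at this
      have := Nat.le_of_dvd hp'.pos this
      have h2 := hp'.one_lt
      nlinarith
    have hrc : Nat.card π.range = p := by
      rcases (Nat.dvd_prime hp').1 (hZp ▸ Subgroup.card_dvd_of_le hr) with h | h
      · exact absurd (Subgroup.eq_bot_of_card_eq _ h) hrne
      · exact h
    have h1 := Subgroup.card_eq_card_quotient_mul_card_subgroup π.ker
    rw [Nat.card_congr (QuotientGroup.quotientKerEquivRange π).toEquiv, hrc] at h1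
    have h2 : p * Nat.card π.ker = p * p ^ 2 := by rw [← h1, ← pow_succ']; exact hcard
    exact Nat.eq_of_mul_eq_mul_left hp'.pos h2
  set E := π.ker.map (P : Subgroup G).subtype with hEdef
  have hEP : E ≤ (P : Subgroup G) := Subgroup.map_subtype_le _
  have hEcard : Nat.card E = p ^ 2 := by
    rw [hEdef, ← Nat.card_congr (Subgroup.equivMapOfInjective π.ker _ (Subgroup.subtype_injective _)).toEquiv, hkcard]
  have hEmem : ∀ u ∈ (P : Subgroup G), (u ∈ E ↔ u ^ p = 1) := by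
    intro u hu
    constructor
    · rintro ⟨w, hw, rfl⟩; exact congrArg Subtype.val (MonoidHom.mem_ker.1 hw)
    · intro h; exact ⟨⟨u, hu⟩, MonoidHom.mem_ker.2 (Subtype.ext (by simpa [π] using h)), rfl⟩
  have hEc : ∀ a ∈ E, ∀ b ∈ E, a * b = b * a := fun a ha b hb =>
    congrArg Subtype.val (IsPGroup.commutative_of_card_eq_prime_sq hEcard ⟨a, ha⟩ ⟨b, hb⟩)
  have hPN : (P : Subgroup G) ≤ Subgroup.normalizer (E : Set G) := by
    intro u hu
    rw [Subgroup.mem_normalizer_iff]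
    intro w
    constructor
    · intro hw
      have h2 : u * w * u⁻¹ ∈ (P : Subgroup G) := mul_mem (mul_mem hu (hEP hw)) (inv_mem hu)
      rw [hEmem _ h2, conj_pow, (hEmem w (hEP hw)).1 hw]; simp
    · intro hw
      have h2 : w ∈ (P : Subgroup G) := by
        have := mul_mem (mul_mem (inv_mem hu) (hEP hw)) hu
        simpa [mul_assoc] using this
      rw [hEmem _ h2]
      have h3 := (hEmem _ (hEP hw)).1 hw
      rw [conj_pow, mul_inv_eq_one] at h3
      exact mul_left_cancel (a := u) (by rw [h3, mul_one])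
  set Zg := (Subgroup.center ↥P).map (P : Subgroup G).subtype with hZg
  have hZcen : ∀ z ∈ Zg, ∀ u ∈ (P : Subgroup G), u * z = z * u := by
    rintro _ ⟨z, hz, rfl⟩ u hu
    exact congrArg Subtype.val (Subgroup.mem_center_iff.1 hz ⟨u, hu⟩)
  refine ⟨Subgroup.map_subtype_le _, fun x hx g hgx => ?_⟩
  by_contra hy
  set y := g * x * g⁻¹ with hyd
  have hxP : x ∈ (P : Subgroup G) := Subgroup.map_subtype_le _ hx
  have hx1 : x ≠ 1 := by
    rintro rfl
    exact hy (by rw [hyd]; simp [Zg.one_mem])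
  have hZcard : Nat.card Zg = p := by
    rw [hZg, ← Nat.card_congr (Subgroup.equivMapOfInjective _ _ (Subgroup.subtype_injective _)).toEquiv]
    exact hZp
  have hxo : orderOf x = p := by
    rcases (Nat.dvd_prime hp').1 (show orderOf x ∣ p from hZcard ▸ Subgroup.orderOf_mk x hx ▸ orderOf_dvd_natCard _) with h | h
    · exact absurd (orderOf_eq_one_iff.1 h) hx1
    · exact h
  have hZx : Subgroup.zpowers x = Zg :=
    Subgroup.eq_of_le_of_card_ge (Subgroup.zpowers_le.2 hx) (by rw [Nat.card_zpowers, hxo, hZcard])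
  have hxE : x ∈ E := (hEmem x hxP).2 (hxo ▸ pow_orderOf_eq_one x)
  have hyo : orderOf y = p := by rw [hyd, show orderOf (g * x * g⁻¹) = orderOf x from (MulAut.conj g).orderOf_eq x, hxo]
  have hyE : y ∈ E := (hEmem y hgx).2 (hyo ▸ pow_orderOf_eq_one y)
  have hxy : x * y = y * x := hEc x hxE y hyE
  have hyP : ∀ u ∈ (P : Subgroup G), u * y = y * u → u ∈ E := by
    intro u hu huy
    by_contra hne
    apply hy
    refine ⟨⟨y, hgx⟩, Subgroup.mem_center_iff.2 ?_, rfl⟩
    set C := (P : Subgroup G) ⊓ Subgroup.centralizer {y} with hC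
    have hEC : E ≤ C := le_inf hEP fun e he => Subgroup.mem_centralizer_singleton_iff.2 (hEc e he y hyE)
    have hlt : E < C := lt_of_le_of_ne hEC fun h =>
      hne (h ▸ (⟨hu, Subgroup.mem_centralizer_singleton_iff.2 huy⟩ : u ∈ C))
    have hCP : C = (P : Subgroup G) := by
      refine Subgroup.eq_of_le_of_card_ge inf_le_left ?_
      have h1 := Fusion.card_lt_card hlt
      rw [hEcard] at h1
      obtain ⟨k, hk, hck⟩ := (Nat.dvd_prime_pow hp').1 (hcard ▸ Subgroup.card_dvd_of_le (inf_le_left : C ≤ _))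
      rw [hck] at h1 ⊢
      have := (Nat.pow_lt_pow_iff_right hp'.one_lt).1 h1
      rw [hcard, show k = 3 by omega]
    intro v
    exact Subtype.ext (Subgroup.mem_centralizer_singleton_iff.1 (hCP.symm.le v.2).2)
  -- an element of `N(E)` carrying `x` to `y`
  obtain ⟨h, hhE, hhxy⟩ : ∃ h : G, h ∈ Subgroup.normalizer (E : Set G) ∧ h * x * h⁻¹ = y := by
    have hPC : (P : Subgroup G) ≤ Subgroup.centralizer {x} := fun u hu =>
      Subgroup.mem_centralizer_singleton_iff.2 (hZcen x hx u hu)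
    have hrel : ¬ p ∣ (P : Subgroup G).relIndex (Subgroup.centralizer {x}) := fun hd =>
      P.not_dvd_index (hd.trans (Subgroup.relIndex_dvd_index_of_le hPC))
    have hgE : Fusion.cj g⁻¹ E ≤ Subgroup.centralizer {x} := by
      rintro _ ⟨e, he, rfl⟩
      refine Subgroup.mem_centralizer_singleton_iff.2 ?_
      simp only [MulEquiv.coe_toMonoidHom, MulAut.conj_apply, inv_inv]
      calc g⁻¹ * e * g * x = g⁻¹ * (e * y) * g := by rw [hyd]; group
        _ = x * (g⁻¹ * e * g) := by rw [hEc e he y hyE, hyd]; group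
    obtain ⟨m, hm, hmE⟩ := LAE62.exists_conj_le_of_relIndex P.2 hPC hrel
      (Fusion.isPGroup_cj (P.2.to_le hEP) g⁻¹) hgE
    have hle : Fusion.cj (m * g⁻¹) E ≤ E := by
      rintro _ ⟨e, he, rfl⟩
      simp only [MulEquiv.coe_toMonoidHom, MulAut.conj_apply]
      have h2 := hmE _ ⟨e, he, rfl⟩
      simp only [MulEquiv.coe_toMonoidHom, MulAut.conj_apply, inv_inv] at h2
      have e1 : m * g⁻¹ * e * (m * g⁻¹)⁻¹ = m * (g⁻¹ * e * g) * m⁻¹ := by group
      rw [e1, hEmem _ h2, conj_pow, show g⁻¹ * e * g = g⁻¹ * e * g⁻¹⁻¹ by group, conj_pow,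
        (hEmem e (hEP he)).1 he]
      simp
    have hmN : m * g⁻¹ ∈ Subgroup.normalizer (E : Set G) :=
      Fusion.cj_eq_iff_mem_normalizer.1 (Subgroup.eq_of_le_of_card_ge hle (le_of_eq (Fusion.card_cj _ _).symm))
    refine ⟨(m * g⁻¹)⁻¹, inv_mem hmN, ?_⟩
    have hmx := Subgroup.mem_centralizer_singleton_iff.1 hm
    calc (m * g⁻¹)⁻¹ * x * (m * g⁻¹)⁻¹⁻¹ = g * (m⁻¹ * (x * m)) * g⁻¹ := by group
      _ = y := by rw [← hmx, hyd]; group
  have hNE : ∀ k ∈ Subgroup.normalizer (E : Set G), ∀ e ∈ E, k * e * k⁻¹ ∈ E := fun k hk e he =>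
    (Subgroup.mem_normalizer_iff.1 hk e).1 he
  have hy1 : y ≠ 1 := fun h => hy (h ▸ Zg.one_mem)
  -- a transvection `a` outside `E`
  obtain ⟨a, haP, haE⟩ : ∃ a ∈ (P : Subgroup G), a ∉ E := by
    by_contra hall
    push Not at hall
    have h1 := Subgroup.card_le_of_le (fun u hu => hall u hu : (P : Subgroup G) ≤ E)
    rw [hEcard, hcard] at h1
    exact absurd ((Nat.pow_le_pow_iff_right hp'.one_lt).1 h1) (by norm_num)
  have hcomZ : ∀ w ∈ (P : Subgroup G), a * w * a⁻¹ * w⁻¹ ∈ Zg := fun w hw =>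
    ⟨⟨a, haP⟩ * ⟨w, hw⟩ * ⟨a, haP⟩⁻¹ * ⟨w, hw⟩⁻¹,
      hclass (Subgroup.commutator_mem_commutator (Subgroup.mem_top _) (Subgroup.mem_top _)), rfl⟩
  have hax : a * x * a⁻¹ = x := by rw [hZcen x hx a haP, mul_inv_cancel_right]
  -- shift of an element of `E` outside `Zg`
  have hshift : ∀ w ∈ E, w ∉ Zg → ∀ t ∈ Zg, ∃ n : ℕ, a ^ n * w * (a ^ n)⁻¹ = w * t ∧ a ^ n * x * (a ^ n)⁻¹ = x := by
    intro w hw hwZ t ht
    refine exists_pow_shift hp' hxo hax (u := a * w * a⁻¹ * w⁻¹) (hZx.symm ▸ hcomZ w (hEP hw)) ?_ (hZx.symm ▸ ht) ?_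
    · intro h0
      rw [mul_inv_eq_one] at h0
      apply hwZ
      set C := (P : Subgroup G) ⊓ Subgroup.centralizer {w} with hC
      have hlt : E < C := lt_of_le_of_ne
        (le_inf hEP fun e he => Subgroup.mem_centralizer_singleton_iff.2 (hEc e he w hw))
        fun hh => haE (hh ▸ (⟨haP, Subgroup.mem_centralizer_singleton_iff.2 (by
          calc a * w = a * w * a⁻¹ * a := by group
            _ = w * a := by rw [h0])⟩ : a ∈ C))
      have hCP : C = (P : Subgroup G) := by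
        refine Subgroup.eq_of_le_of_card_ge inf_le_left ?_
        have h1 := Fusion.card_lt_card hlt
        rw [hEcard] at h1
        obtain ⟨k, hk, hck⟩ := (Nat.dvd_prime_pow hp').1 (hcard ▸ Subgroup.card_dvd_of_le (inf_le_left : C ≤ _))
        rw [hck] at h1 ⊢
        have := (Nat.pow_lt_pow_iff_right hp'.one_lt).1 h1
        rw [hcard, show k = 3 by omega]
      exact ⟨⟨w, hEP hw⟩, Subgroup.mem_center_iff.2 fun v =>
        Subtype.ext (Subgroup.mem_centralizer_singleton_iff.1 (hCP.symm.le v.2).2), rfl⟩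
    · rw [hEc w hw _ ((hEmem _ (mul_mem (mul_mem (mul_mem haP (hEP hw)) (inv_mem haP)) (inv_mem (hEP hw)))).2 (by
        obtain ⟨k, hk⟩ := Subgroup.mem_zpowers_iff.1 (hZx.symm.le (hcomZ w (hEP hw)))
        rw [← hk, ← zpow_natCast, ← zpow_mul, mul_comm, zpow_mul, zpow_natCast,
          show x ^ p = 1 from hxo ▸ pow_orderOf_eq_one x, one_zpow]))]
      group
  obtain ⟨n₁, hAy, hAx⟩ := hshift y hyE hy x hx
  have hwE : h⁻¹ * x * h ∈ E := by simpa using hNE h⁻¹ (inv_mem hhE) x hxE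
  have hwZ : h⁻¹ * x * h ∉ Zg := by
    intro hw
    apply hy
    rw [← hZx] at hw ⊢
    obtain ⟨c, hc⟩ := Subgroup.mem_zpowers_iff.1 hw
    have hxy' : x = y ^ c := by rw [← hhxy, conj_zpow, hc]; group
    have hle : Subgroup.zpowers x ≤ Subgroup.zpowers y := by
      rw [Subgroup.zpowers_le, hxy']; exact Subgroup.zpow_mem _ (Subgroup.mem_zpowers y) c
    rw [Subgroup.eq_of_le_of_card_ge hle (by rw [Nat.card_zpowers, Nat.card_zpowers, hxo, hyo])]
    exact Subgroup.mem_zpowers y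
  obtain ⟨n₂, hBw, hBx⟩ := hshift _ hwE hwZ x⁻¹ (inv_mem hx)
  set B := h * a ^ n₂ * h⁻¹ with hBd
  have hBy : B * y * B⁻¹ = y := by
    calc B * y * B⁻¹ = h * (a ^ n₂ * x * (a ^ n₂)⁻¹) * h⁻¹ := by rw [hBd, ← hhxy]; group
      _ = y := by rw [hBx, hhxy]
  have hBx' : B * x * B⁻¹ = x * y⁻¹ := by
    calc B * x * B⁻¹ = h * (a ^ n₂ * (h⁻¹ * x * h) * (a ^ n₂)⁻¹) * h⁻¹ := by rw [hBd]; group
      _ = x * (h * x * h⁻¹)⁻¹ := by rw [hBw]; group
      _ = x * y⁻¹ := by rw [hhxy]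
  obtain ⟨t₀, ht₀, ht₀x, ht₀y⟩ := exists_inverting hxy hAx hAy hBy hBx'
  have ht₀N : t₀ ∈ Subgroup.normalizer (E : Set G) := by
    refine (Subgroup.closure_le _).2 ?_ ht₀
    rintro z (rfl | rfl)
    · exact pow_mem (hPN haP) _
    · exact mul_mem (mul_mem hhE (pow_mem (hPN haP) _)) (inv_mem hhE)
  -- `E` is generated by `x` and `y`
  have hEgen : E = Subgroup.zpowers x ⊔ Subgroup.zpowers y := by
    set X := Subgroup.zpowers x ⊔ Subgroup.zpowers y with hX
    have hXE : X ≤ E := sup_le (Subgroup.zpowers_le.2 hxE) (Subgroup.zpowers_le.2 hyE)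
    refine (Subgroup.eq_of_le_of_card_ge hXE ?_).symm
    have hlt : Subgroup.zpowers x < X := lt_of_le_of_ne le_sup_left fun hh =>
      hy (hZx ▸ hh ▸ Subgroup.mem_sup_right (Subgroup.mem_zpowers y))
    have h1 := Fusion.card_lt_card hlt
    rw [Nat.card_zpowers, hxo] at h1
    obtain ⟨k, hk, hck⟩ := (Nat.dvd_prime_pow hp').1 (hEcard ▸ Subgroup.card_dvd_of_le hXE)
    rw [hck] at h1
    nth_rw 1 [← pow_one p] at h1
    have := (Nat.pow_lt_pow_iff_right hp'.one_lt).1 h1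
    rw [hEcard, hck, show k = 2 by omega]
  have ht₀E : ∀ e ∈ E, t₀ * e * t₀⁻¹ = e⁻¹ := by
    intro e he
    let K : Subgroup G :=
      { carrier := {e | e ∈ E ∧ t₀ * e * t₀⁻¹ = e⁻¹}
        one_mem' := ⟨E.one_mem, by simp⟩
        mul_mem' := fun {u v} hu hv => ⟨E.mul_mem hu.1 hv.1, by
          rw [show t₀ * (u * v) * t₀⁻¹ = (t₀ * u * t₀⁻¹) * (t₀ * v * t₀⁻¹) by group, hu.2, hv.2,
            ← mul_inv_rev, hEc v hv.1 u hu.1]⟩
        inv_mem' := fun {u} hu => ⟨E.inv_mem hu.1, by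
          rw [show t₀ * u⁻¹ * t₀⁻¹ = (t₀ * u * t₀⁻¹)⁻¹ by group, hu.2]⟩ }
    have : E ≤ K := hEgen ▸ sup_le (Subgroup.zpowers_le.2 ⟨hxE, ht₀x⟩) (Subgroup.zpowers_le.2 ⟨hyE, ht₀y⟩)
    exact (this he).2
  -- its `2`-part
  set o := orderOf t₀ with ho
  set t := t₀ ^ ordCompl[2] o with htd
  have ho0 : o ≠ 0 := (orderOf_pos t₀).ne'
  have htE : ∀ e ∈ E, t * e * t⁻¹ = e⁻¹ := by
    have hm : Odd (ordCompl[2] o) := by
      rw [Nat.odd_iff]
      have := Nat.not_dvd_ordCompl Nat.prime_two ho0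
      omega
    obtain ⟨k, hk⟩ := hm
    intro e he
    have h2 : ∀ j : ℕ, t₀ ^ (2 * j) * e * (t₀ ^ (2 * j))⁻¹ = e := by
      intro j
      induction j with
      | zero => simp
      | succ j ih =>
        calc t₀ ^ (2 * (j + 1)) * e * (t₀ ^ (2 * (j + 1)))⁻¹
            = t₀ * (t₀ * (t₀ ^ (2 * j) * e * (t₀ ^ (2 * j))⁻¹) * t₀⁻¹) * t₀⁻¹ := by
              rw [show 2 * (j + 1) = 1 + (1 + 2 * j) by ring, pow_add, pow_add, pow_one]; group
          _ = e := by rw [ih, ht₀E e he, ht₀E _ (inv_mem he), inv_inv]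
    calc t * e * t⁻¹ = t₀ * (t₀ ^ (2 * k) * e * (t₀ ^ (2 * k))⁻¹) * t₀⁻¹ := by
          rw [htd, hk, pow_succ']; group
      _ = e⁻¹ := by rw [h2, ht₀E e he]
  have htN : t ∈ Subgroup.normalizer (E : Set G) := pow_mem ht₀N _
  have ht2 : IsPGroup 2 (Subgroup.zpowers t) := by
    haveI : Fact (Nat.Prime 2) := ⟨Nat.prime_two⟩
    refine IsPGroup.of_card (n := o.factorization 2) ?_
    rw [Nat.card_zpowers, htd, orderOf_pow' _ (Nat.ordCompl_pos 2 ho0).ne', ← ho,
      Nat.gcd_eq_right (Nat.ordCompl_dvd o 2), Nat.div_div_self (Nat.ordProj_dvd o 2) ho0]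
  set CE := Subgroup.centralizer (E : Set G) with hCE
  have hCEmem : ∀ {c : G}, (∀ e ∈ E, c * e * c⁻¹ = e) → c ∈ CE := by
    intro c hc
    rw [hCE, Subgroup.mem_centralizer_iff]
    intro e he
    calc e * c = c * e * c⁻¹ * c := by rw [hc e he]
      _ = c * e := by group
  have hCEfix : ∀ {c : G}, c ∈ CE → ∀ e ∈ E, c * e * c⁻¹ = e := fun {c} hc e he => by
    rw [← Subgroup.mem_centralizer_iff.1 hc e he, mul_inv_cancel_right]
  have hcomm : ∀ k ∈ Subgroup.normalizer (E : Set G), k * t * k⁻¹ * t⁻¹ ∈ CE := by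
    intro k hk
    refine hCEmem fun e he => ?_
    have he' : k⁻¹ * e⁻¹ * k ∈ E := by simpa using hNE k⁻¹ (inv_mem hk) e⁻¹ (inv_mem he)
    calc k * t * k⁻¹ * t⁻¹ * e * (k * t * k⁻¹ * t⁻¹)⁻¹
        = k * (t * (k⁻¹ * (t⁻¹ * e * t) * k) * t⁻¹) * k⁻¹ := by group
      _ = k * (t * (k⁻¹ * e⁻¹ * k) * t⁻¹) * k⁻¹ := by
          have h5 : t⁻¹ * e * t = e⁻¹ :=
            calc t⁻¹ * e * t = t⁻¹ * (t * e⁻¹ * t⁻¹) * t := by rw [htE _ (inv_mem he), inv_inv]
              _ = e⁻¹ := by group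
          rw [h5]
      _ = e := by rw [htE _ he']; group
  have hCEn : ∀ k ∈ Subgroup.normalizer (E : Set G), ∀ c ∈ CE, k * c * k⁻¹ ∈ CE := by
    intro k hk c hc
    refine hCEmem fun e he => ?_
    have he' : k⁻¹ * e * k ∈ E := by simpa using hNE k⁻¹ (inv_mem hk) e he
    calc k * c * k⁻¹ * e * (k * c * k⁻¹)⁻¹ = k * (c * (k⁻¹ * e * k) * c⁻¹) * k⁻¹ := by group
      _ = e := by rw [hCEfix hc _ he']; group
  set X := Subgroup.zpowers t ⊔ CE with hX
  have haX : Fusion.cj a X ≤ X := by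
    rw [hX, Fusion.cj, Subgroup.map_sup]
    refine sup_le ?_ ?_
    · rw [MonoidHom.map_zpowers, Subgroup.zpowers_le]
      have h1 := mul_mem (Subgroup.mem_sup_right (hcomm a (hPN haP)) : _ ∈ X) (Subgroup.mem_sup_left (Subgroup.mem_zpowers t))
      simpa using h1
    · rintro _ ⟨c, hc, rfl⟩
      exact Subgroup.mem_sup_right (hCEn a (hPN haP) c hc)
  haveI : Fact (Nat.Prime 2) := ⟨Nat.prime_two⟩
  obtain ⟨S, hS⟩ := (ht2.comap_subtype (K := X)).exists_le_sylow
  set S' := (S : Subgroup X).map X.subtype with hS'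
  have hS'X : S' ≤ X := Subgroup.map_subtype_le _
  have htS : t ∈ S' := ⟨⟨t, Subgroup.mem_sup_left (Subgroup.mem_zpowers t)⟩,
    hS (Subgroup.mem_subgroupOf.2 (Subgroup.mem_zpowers t)), rfl⟩
  have hS'i : ¬ 2 ∣ S'.relIndex X := by
    rw [hS', Subgroup.relIndex, Subgroup.subgroupOf, Subgroup.comap_map_eq_self_of_injective X.subtype_injective]
    exact S.not_dvd_index
  have hS'2 : IsPGroup 2 S' := S.2.map _
  have haS : Fusion.cj a S' ≤ X := le_trans (Fusion.cj_mono a hS'X) haX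
  have hS'ia : ¬ 2 ∣ (Fusion.cj a S').relIndex X := by
    intro hd
    apply hS'i
    have e1 := Subgroup.relIndex_mul_relIndex ⊥ _ X bot_le haS
    have e2 := Subgroup.relIndex_mul_relIndex ⊥ S' X bot_le hS'X
    rw [Subgroup.relIndex_bot_left, Fusion.card_cj, ← e2, Subgroup.relIndex_bot_left] at e1
    exact (Nat.eq_of_mul_eq_mul_left Nat.card_pos e1) ▸ hd
  obtain ⟨y₀, hy₀, hy₀S⟩ := Fusion.exists_conj_of_relIndex hS'2 (Fusion.isPGroup_cj hS'2 a) hS'X haS hS'i hS'ia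
  set n := y₀⁻¹ * a with hn
  have hnS : n ∈ Subgroup.normalizer (S' : Set G) := by
    rw [← Fusion.cj_eq_iff_mem_normalizer, hn, ← Fusion.cj_cj, ← hy₀S, Fusion.cj_inv_cj]
  -- every element of `X` acts on `E` as `± 1`
  let Xs : Subgroup G :=
    { carrier := {u | (∀ e ∈ E, u * e * u⁻¹ = e) ∨ ∀ e ∈ E, u * e * u⁻¹ = e⁻¹}
      one_mem' := Or.inl fun e _ => by simp
      mul_mem' := fun {u v} hu hv => by
        have key : ∀ e, (u * v) * e * (u * v)⁻¹ = u * (v * e * v⁻¹) * u⁻¹ := fun e => by group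
        rcases hu with hu | hu <;> rcases hv with hv | hv
        · exact Or.inl fun e he => by rw [key, hv e he, hu e he]
        · exact Or.inr fun e he => by rw [key, hv e he, hu _ (inv_mem he)]
        · exact Or.inr fun e he => by rw [key, hv e he, hu e he]
        · exact Or.inl fun e he => by rw [key, hv e he, hu _ (inv_mem he), inv_inv]
      inv_mem' := fun {u} hu => by
        rcases hu with hu | hu
        · refine Or.inl fun e he => ?_
          conv_lhs => rw [← hu e he]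
          group
        · refine Or.inr fun e he => ?_
          have h1 := hu _ (inv_mem he)
          rw [inv_inv] at h1
          conv_lhs => rw [← h1]
          group }
  have hXle : X ≤ Xs := sup_le (Subgroup.zpowers_le.2 (Or.inr htE)) (fun c hc => Or.inl (hCEfix hc))
  have hy₀N : y₀ ∈ Subgroup.normalizer (E : Set G) :=
    (sup_le (Subgroup.zpowers_le.2 htN) (Subgroup.centralizer_le_normalizer _) : X ≤ _) hy₀
  have hnN : n ∈ Subgroup.normalizer (E : Set G) := mul_mem (inv_mem hy₀N) (hPN haP)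
  have hn2 : ∀ e ∈ E, n * (n * e * n⁻¹) * n⁻¹ = a * (a * e * a⁻¹) * a⁻¹ := by
    intro e he
    have key : ∀ w, n * w * n⁻¹ = y₀⁻¹ * (a * w * a⁻¹) * y₀⁻¹⁻¹ := fun w => by rw [hn]; group
    rw [key, key]
    have haE' : ∀ w ∈ E, a * w * a⁻¹ ∈ E := fun w hw => hNE a (hPN haP) w hw
    rcases hXle (inv_mem hy₀) with h1 | h1
    · rw [h1 _ (haE' e he), h1 _ (haE' _ (haE' e he))]
    · rw [h1 _ (haE' e he), ← conj_inv,
        h1 _ (inv_mem (haE' _ (haE' e he))), inv_inv]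
  set v := Element.pPart p n with hv
  have hvz := Element.pPart_mem_zpowers p n
  have hvS : v ∈ Subgroup.normalizer (S' : Set G) := (Subgroup.zpowers_le.2 hnS) hvz
  have hvN : v ∈ Subgroup.normalizer (E : Set G) := (Subgroup.zpowers_le.2 hnN) hvz
  have hvp : IsPGroup p (Subgroup.zpowers v) := by
    obtain ⟨k, hk⟩ : ∃ k, orderOf v = p ^ k := ⟨_, Element.orderOf_pPart_eq_pow hp' n⟩
    exact IsPGroup.of_card (n := k) (by rw [Nat.card_zpowers, hk])
  have hvC : v ∉ CE := by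
    intro hvC
    set m := orderOf (Element.pComplPart p n) with hm
    have hmp : m.Coprime p := Element.coprime_orderOf_pComplPart hp' n
    have hnm : n ^ m ∈ CE := by
      rw [← Element.pPart_mul_pComplPart p n, (Element.commute_pPart_pComplPart p n).mul_pow,
        hm, pow_orderOf_eq_one, mul_one]
      exact pow_mem hvC _
    have hpow : ∀ j : ℕ, ∀ e ∈ E, n ^ (2 * j) * e * (n ^ (2 * j))⁻¹ = a ^ (2 * j) * e * (a ^ (2 * j))⁻¹ := by
      intro j
      induction j with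
      | zero => intro e _; simp
      | succ j ih =>
        intro e he
        have hmem : a * (a * e * a⁻¹) * a⁻¹ ∈ E := hNE a (hPN haP) _ (hNE a (hPN haP) e he)
        have e1 : ∀ u : G, u ^ (2 * (j + 1)) * e * (u ^ (2 * (j + 1)))⁻¹ =
            u ^ (2 * j) * (u * (u * e * u⁻¹) * u⁻¹) * (u ^ (2 * j))⁻¹ := fun u => by
          rw [show 2 * (j + 1) = 2 * j + (1 + 1) by ring, pow_add, pow_add, pow_one]; group
        rw [e1, e1, hn2 e he, ih _ hmem]
    have ha2m : a ^ (2 * m) ∈ E := by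
      refine hyP _ (pow_mem haP _) ?_
      have h1 := hpow m y hyE
      rw [hCEfix (by rw [mul_comm, pow_mul]; exact pow_mem hnm 2) y hyE] at h1
      calc a ^ (2 * m) * y = a ^ (2 * m) * y * (a ^ (2 * m))⁻¹ * a ^ (2 * m) := by group
        _ = y * a ^ (2 * m) := by rw [← h1]
    apply haE
    have hap : a ^ p ∈ E := (hEmem _ (pow_mem haP p)).2 (by
      rw [← pow_mul, ← pow_two]
      have := congrArg Subtype.val (Monoid.pow_exponent_eq_one (⟨a, haP⟩ : ↥P))
      rw [hexp] at this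
      simpa using this)
    have hg : Nat.gcd (2 * m) p = 1 :=
      Nat.Coprime.mul_left (((Nat.coprime_primes Nat.prime_two hp').2 (Ne.symm hp))) hmp
    have hb := Nat.gcd_eq_gcd_ab (2 * m) p
    rw [hg] at hb
    have : a = (a ^ (2 * m)) ^ Nat.gcdA (2 * m) p * (a ^ p) ^ Nat.gcdB (2 * m) p := by
      rw [← zpow_natCast, ← zpow_natCast, ← zpow_mul, ← zpow_mul, ← zpow_add, ← hb]; simp
    rw [this]
    exact mul_mem (zpow_mem ha2m _) (zpow_mem hap _)
  -- a fixed point of `v` in `S' ∩ t C(E)`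
  let Ω : Set G := {u | u ∈ S' ∧ t⁻¹ * u ∈ CE}
  let act : MulAction (Subgroup.zpowers v) Ω :=
    { smul := fun w u => ⟨(w : G) * u.1 * (w : G)⁻¹, by
        have hwS : (w : G) ∈ Subgroup.normalizer (S' : Set G) := (Subgroup.zpowers_le.2 hvS) w.2
        have hwN : (w : G) ∈ Subgroup.normalizer (E : Set G) := (Subgroup.zpowers_le.2 hvN) w.2
        refine ⟨(Subgroup.mem_normalizer_iff.1 hwS _).1 u.2.1, ?_⟩
        have h1 : t⁻¹ * ((w : G) * t * (w : G)⁻¹) ∈ CE := by
          have h2 := hCEn t⁻¹ (inv_mem htN) _ (hcomm w hwN)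
          have e1 : t⁻¹ * ((w : G) * t * (w : G)⁻¹ * t⁻¹) * t⁻¹⁻¹ = t⁻¹ * ((w : G) * t * (w : G)⁻¹) := by group
          rwa [e1] at h2
        have h3 := mul_mem h1 (hCEn w hwN _ u.2.2)
        convert h3 using 1
        group⟩
      one_smul := fun u => Subtype.ext (show (1 : G) * u.1 * (1 : G)⁻¹ = u.1 by simp)
      mul_smul := fun w w' u => Subtype.ext
        (show ((w * w' : Subgroup.zpowers v) : G) * u.1 * ((w * w' : Subgroup.zpowers v) : G)⁻¹ =
          (w : G) * ((w' : G) * u.1 * (w' : G)⁻¹) * (w : G)⁻¹ by push_cast; group) }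
  have hΩ : ¬ p ∣ Nat.card Ω := by
    have he : Nat.card Ω = Nat.card ↥(S' ⊓ CE) := Nat.card_congr
      { toFun := fun u => ⟨t⁻¹ * u.1, S'.mul_mem (S'.inv_mem htS) u.2.1, u.2.2⟩
        invFun := fun c => ⟨t * c.1, S'.mul_mem htS c.2.1, by simpa using c.2.2⟩
        left_inv := fun u => Subtype.ext (mul_inv_cancel_left t u.1)
        right_inv := fun c => Subtype.ext (inv_mul_cancel_left t c.1) }
    rw [he]
    intro hd
    obtain ⟨k, hk⟩ := IsPGroup.iff_card.1 (hS'2.to_le (inf_le_left : S' ⊓ CE ≤ S'))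
    rw [hk] at hd
    exact hp ((Nat.prime_dvd_prime_iff_eq hp' Nat.prime_two).1 (hp'.dvd_of_dvd_pow hd))
  obtain ⟨⟨t', ht'S, ht'C⟩, hfix⟩ := hvp.nonempty_fixed_point_of_prime_not_dvd_card Ω hΩ
  have hvt : v * t' = t' * v := by
    have h1 := congrArg Subtype.val (hfix ⟨v, Subgroup.mem_zpowers v⟩)
    change v * t' * v⁻¹ = t' at h1
    calc v * t' = v * t' * v⁻¹ * v := by group
      _ = t' * v := by rw [h1]
  have ht'E : ∀ e ∈ E, t' * e * t'⁻¹ = e⁻¹ := by
    intro e he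
    calc t' * e * t'⁻¹ = t * ((t⁻¹ * t') * e * (t⁻¹ * t')⁻¹) * t⁻¹ := by group
      _ = e⁻¹ := by rw [hCEfix ht'C e he, htE e he]
  -- conjugate `v` into `P`
  have hPi : ¬ p ∣ (P : Subgroup G).relIndex (Subgroup.normalizer (E : Set G)) := fun hd =>
    P.not_dvd_index (hd.trans (Subgroup.relIndex_dvd_index_of_le hPN))
  obtain ⟨k, hk, hkv⟩ := LAE62.exists_conj_le_of_relIndex P.2 hPN hPi hvp (Subgroup.zpowers_le.2 hvN)
  set v' := k * v * k⁻¹ with hv'
  have hv'P : v' ∈ (P : Subgroup G) := hkv v (Subgroup.mem_zpowers v)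
  have hv'E : v' ∉ E := by
    intro hmem
    apply hvC
    refine hCEmem fun e he => ?_
    have he' : k * e * k⁻¹ ∈ E := hNE k hk e he
    calc v * e * v⁻¹ = k⁻¹ * (v' * (k * e * k⁻¹) * v'⁻¹) * k := by rw [hv']; group
      _ = e := by rw [hEc v' hmem _ he', mul_inv_cancel_right]; group
  have hvpE : v' ^ p ∈ E := (hEmem _ (pow_mem hv'P p)).2 (by
    rw [← pow_mul, ← pow_two]
    have := congrArg Subtype.val (Monoid.pow_exponent_eq_one (⟨v', hv'P⟩ : ↥P))
    rw [hexp] at this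
    simpa using this)
  have hvpone : v' ^ p = 1 := by
    set t'' := k * t' * k⁻¹ with ht''
    have hc : Commute t'' v' := by
      show t'' * v' = v' * t''
      calc t'' * v' = k * (t' * v) * k⁻¹ := by rw [ht'', hv']; group
        _ = v' * t'' := by rw [← hvt, ht'', hv']; group
    have he' : k⁻¹ * v' ^ p * k ∈ E := by simpa using hNE k⁻¹ (inv_mem hk) _ hvpE
    have hinv : t'' * v' ^ p * t''⁻¹ = (v' ^ p)⁻¹ := by
      calc t'' * v' ^ p * t''⁻¹ = k * (t' * (k⁻¹ * v' ^ p * k) * t'⁻¹) * k⁻¹ := by rw [ht'']; group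
        _ = (v' ^ p)⁻¹ := by rw [ht'E _ he']; group
    rw [(hc.pow_right p).eq, mul_inv_cancel_right] at hinv
    have h2 : (v' ^ p) ^ 2 = 1 := by rw [pow_two]; nth_rw 2 [hinv]; exact mul_inv_cancel _
    have h3 : (v' ^ p) ^ p = 1 := (hEmem _ (pow_mem hv'P p)).1 hvpE
    have h4 := pow_gcd_eq_one.2 ⟨h2, h3⟩
    rwa [Nat.Coprime.gcd_eq_one ((Nat.coprime_primes Nat.prime_two hp').2 (Ne.symm hp)), pow_one] at h4
  exact hv'E ((hEmem v' hv'P).2 hvpone)

end Cfsg.Agent.S3053
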