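import Cfsg.Statements.S3054
import Cfsg.Agent.LocEven.RVCount

set_option autoImplicit false
open Cfsg

open scoped OnePoint commutatorElement

namespace Cfsg.Agent.S3054

/-- Let p be an odd prime and G a finite group with a Sylow p-subgroup P that is extraspecial of order p³ and exponent p. Suppose P contains three distinct subgroups A of order p² (each is elementary abelian of rank 2) such that every automorphism of A of order p is induced by conjugation by an element of G; equivalently the automorphism group induced on A by its normalizer contains the special linear group of A. Then p ≤ 13. -/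
theorem result {G : Type*} [Group G] [Finite G]
    {p : ℕ} [Fact p.Prime] (hp : p ≠ 2) (P : Sylow p G) (hE : Cfsg.IsExtraspecial p ↥P)
    (hcard : Nat.card P = p ^ 3) (hexp : Monoid.exponent ↥P = p)
    (A : Fin 3 → Subgroup G) (hA : Function.Injective A) (hAP : ∀ i, A i ≤ (P : Subgroup G))
    (hAcard : ∀ i, Nat.card ↥(A i) = p ^ 2)
    (hSL : ∀ i, ∀ φ : MulAut ↥(A i), orderOf φ = p → ∃ g : G, ∀ a : ↥(A i), (φ a : G) = g * (a : G) * g⁻¹) :
    p ≤ 13 := by
  have hpp : p.Prime := Fact.out
  obtain ⟨z, s⟩ := LocEven.RVCount.exists_shape P hp hE hcard hexp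
  have hzc : Nat.card (Subgroup.zpowers z) = p := by
    rw [Nat.card_zpowers, s.orderOf_eq s.zmem s.zne]
  have hzP : Subgroup.zpowers z ≤ (P : Subgroup G) := Subgroup.zpowers_le.2 s.zmem
  -- the centre lies in each plane
  have hzA : ∀ i, z ∈ A i := by
    intro i
    by_contra hz
    have hint : ∀ u ∈ A i, u ∈ Subgroup.zpowers z → u = 1 := by
      intro u hu hu'
      by_contra h1
      refine hz ?_
      have : Subgroup.zpowers u = Subgroup.zpowers z :=
        Subgroup.eq_of_le_of_card_ge (Subgroup.zpowers_le.2 hu') (by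
          rw [hzc, Nat.card_zpowers, s.orderOf_eq (hAP i hu) h1])
      exact Subgroup.zpowers_le.2 hu (this ▸ Subgroup.mem_zpowers z)
    have hab : ∀ x ∈ A i, ∀ y ∈ A i, x * y = y * x := fun x hx y hy =>
      commutatorElement_eq_one_iff_mul_comm.1 (hint _ (by
        rw [commutatorElement_def]
        exact mul_mem (mul_mem (mul_mem hx hy) (inv_mem hx)) (inv_mem hy))
        (s.der x (hAP i hx) y (hAP i hy)))
    let f : A i × Subgroup.zpowers z → ↥(P : Subgroup G) :=
      fun u => ⟨(u.1 : G) * u.2, mul_mem (hAP i u.1.2) (hzP u.2.2)⟩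
    have hf : Function.Injective f := by
      rintro ⟨u, v⟩ ⟨u', v'⟩ h
      have h' : (u : G) * v = u' * v' := congrArg Subtype.val h
      have e : (u' : G)⁻¹ * u = v' * (v : G)⁻¹ := by
        rw [eq_mul_inv_iff_mul_eq, mul_assoc, h', inv_mul_cancel_left]
      have e1 := hint _ (mul_mem (inv_mem u'.2) u.2) (e ▸ mul_mem v'.2 (inv_mem v.2))
      have e2 : (u' : G) = u := inv_mul_eq_one.1 e1
      rw [e2] at h'
      exact Prod.ext (Subtype.ext e2.symm) (Subtype.ext (mul_left_cancel h'))
    have hsur := (hf.bijective_of_nat_card_le (by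
      rw [Nat.card_prod, hAcard, hzc, s.card, ← pow_succ])).2
    haveI : Nontrivial ↥(A i) := Finite.one_lt_card_iff_nontrivial.1 (by
      rw [hAcard]; exact Nat.one_lt_pow two_ne_zero hpp.one_lt)
    obtain ⟨u, hu⟩ := exists_ne (1 : ↥(A i))
    refine hu (Subtype.ext (hint u u.2 (s.cen u (hAP i u.2) fun y hy => ?_)))
    obtain ⟨⟨a', v⟩, hav⟩ := hsur ⟨y, hy⟩
    have hy' : (a' : G) * v = y := congrArg Subtype.val hav
    rw [← hy', ← mul_assoc, hab u u.2 a' a'.2, mul_assoc, s.zpow_comm v.2 (hAP i u.2), mul_assoc]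
  have hex : ∀ i, ∃ a, a ∈ A i ∧ a ∉ Subgroup.zpowers z := by
    intro i
    by_contra h
    push Not at h
    have := Subgroup.card_le_of_le (K := Subgroup.zpowers z) h
    rw [hAcard, hzc] at this
    have : p < p ^ 2 := lt_self_pow₀ hpp.one_lt one_lt_two
    omega
  choose a haA haZ using hex
  -- coordinates on each plane
  have hθ : ∀ i, ∃ θ : Multiplicative (ZMod p × ZMod p) ≃* ↥(A i),
      ∀ v, (θ v : G) = z ^ v.toAdd.1.val * a i ^ v.toAdd.2.val := by
    intro i
    have haP := hAP i (haA i)
    have hc : Commute z (a i) := (s.zcen _ haP).symm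
    let f : Multiplicative (ZMod p × ZMod p) → ↥(A i) := fun v =>
      ⟨z ^ v.toAdd.1.val * a i ^ v.toAdd.2.val,
        mul_mem (pow_mem (hzA i) _) (pow_mem (haA i) _)⟩
    have hadd : ∀ u ∈ P, ∀ x y : ZMod p, u ^ (x + y).val = u ^ x.val * u ^ y.val := by
      intro u hu x y
      rw [← pow_add]
      exact s.pow_eq_pow hu (by simp)
    let F : Multiplicative (ZMod p × ZMod p) →* ↥(A i) := MonoidHom.mk' f (by
      intro v w
      refine Subtype.ext ?_
      show z ^ (v * w).toAdd.1.val * a i ^ (v * w).toAdd.2.val =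
        (z ^ v.toAdd.1.val * a i ^ v.toAdd.2.val) * (z ^ w.toAdd.1.val * a i ^ w.toAdd.2.val)
      rw [toAdd_mul, Prod.fst_add, Prod.snd_add, hadd z s.zmem, hadd _ haP,
        mul_assoc, mul_assoc, ← mul_assoc (z ^ w.toAdd.1.val),
        ← mul_assoc (a i ^ v.toAdd.2.val), (hc.pow_pow w.toAdd.1.val v.toAdd.2.val).eq, mul_assoc])
    have hinj : Function.Injective F := by
      refine (injective_iff_map_eq_one F).2 fun v hv => ?_
      have hv' : z ^ v.toAdd.1.val * a i ^ v.toAdd.2.val = 1 := congrArg Subtype.val hv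
      have h2 : v.toAdd.2 = 0 := by
        by_contra h2
        have e1 : a i ^ v.toAdd.2.val ∈ Subgroup.zpowers z := by
          rw [eq_inv_of_mul_eq_one_right hv']
          exact inv_mem (pow_mem (Subgroup.mem_zpowers z) _)
        refine haZ i ?_
        have : a i = (a i ^ v.toAdd.2.val) ^ (v.toAdd.2⁻¹).val := by
          rw [← pow_mul]
          exact (pow_one _).symm.trans (s.pow_eq_pow haP
            (by rw [Nat.cast_one, Nat.cast_mul, ZMod.natCast_zmod_val, ZMod.natCast_zmod_val,
              mul_inv_cancel₀ h2]))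
        rw [this]
        exact pow_mem e1 _
      have h1 : v.toAdd.1 = 0 := by
        rw [h2, ZMod.val_zero, pow_zero, mul_one] at hv'
        have := s.natCast_eq s.zmem s.zne (j := 0) (hv'.trans (pow_zero z).symm)
        simpa using this
      exact Multiplicative.toAdd.injective (Prod.ext h1 h2)
    exact ⟨MulEquiv.ofBijective F (hinj.bijective_of_nat_card_le (by
      rw [hAcard, Nat.card_congr Multiplicative.toAdd, Nat.card_prod, Nat.card_zmod, sq])), fun v => rfl⟩
  by_contra h13
  -- the transvections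
  have hT : ∀ i, ∃ w : G, w * a i * w⁻¹ = a i ∧ w * z * w⁻¹ = z * a i := by
    intro i
    obtain ⟨θ, hθ⟩ := hθ i
    let sh : (ZMod p × ZMod p) ≃+ (ZMod p × ZMod p) :=
      { toFun := fun v => (v.1, v.1 + v.2)
        invFun := fun v => (v.1, v.2 - v.1)
        left_inv := fun v => by simp
        right_inv := fun v => by simp
        map_add' := fun v w => by
          simp only [Prod.fst_add, Prod.snd_add, Prod.mk_add_mk]
          exact Prod.ext rfl (by ring) }
    let φ : MulAut ↥(A i) := θ.symm.trans ((AddEquiv.toMultiplicative sh).trans θ)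
    have hφ : ∀ v, φ (θ v) = θ (Multiplicative.ofAdd (v.toAdd.1, v.toAdd.1 + v.toAdd.2)) := by
      intro v
      show θ (AddEquiv.toMultiplicative sh (θ.symm (θ v))) = _
      rw [θ.symm_apply_apply]
      rfl
    have hφn : ∀ (n : ℕ) v, (φ ^ n) (θ v) =
        θ (Multiplicative.ofAdd (v.toAdd.1, (n : ZMod p) * v.toAdd.1 + v.toAdd.2)) := by
      intro n
      induction n with
      | zero => intro v; simp
      | succ n ih =>
        intro v
        rw [pow_succ', MulAut.mul_apply, ih, hφ]
        simp only [toAdd_ofAdd]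
        push_cast
        congr 3
        ring
    have hord : orderOf φ = p := by
      refine orderOf_eq_prime ?_ ?_
      · refine MulEquiv.ext fun x => ?_
        obtain ⟨v, rfl⟩ := θ.surjective x
        rw [hφn, MulAut.one_apply]
        simp
      · intro h
        have := hφ (Multiplicative.ofAdd (1, 0))
        rw [h, MulAut.one_apply] at this
        have h2 := θ.injective this
        simp at h2
    obtain ⟨g, hg⟩ := hSL i φ hord
    have e0 : ∀ x y : ZMod p, (θ (Multiplicative.ofAdd (x, y)) : G) = z ^ x.val * a i ^ y.val :=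
      fun x y => hθ _
    refine ⟨g, ?_, ?_⟩
    · have := hg (θ (Multiplicative.ofAdd (0, 1)))
      rw [hφ] at this
      simp only [toAdd_ofAdd, zero_add, e0, ZMod.val_zero, pow_zero, one_mul, ZMod.val_one,
        pow_one] at this
      exact this.symm
    · have := hg (θ (Multiplicative.ofAdd (1, 0)))
      rw [hφ] at this
      simp only [toAdd_ofAdd, add_zero, e0, ZMod.val_zero, pow_zero, mul_one, ZMod.val_one,
        pow_one] at this
      exact this.symm
  have hb := LocEven.RVCount.bound s (by omega) (Set.range a) (by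
    rintro - ⟨i, rfl⟩
    exact ⟨hAP i (haA i), haZ i, hT i⟩) (k := 3) (by
    intro ψ _ hker
    have h0 : ∀ i, (ψ ⟨a i, hAP i (haA i)⟩).toAdd ≠ 0 := fun i h =>
      haZ i ((hker _).1 (Multiplicative.toAdd.injective h))
    let pt : Fin 3 → OnePoint (ZMod p) := fun i => (OnePoint.equivProjectivization (ZMod p)).symm
      (Projectivization.mk (ZMod p) _ (h0 i))
    have hpt : Function.Injective pt := by
      intro i j hij
      have h1 := (OnePoint.equivProjectivization (ZMod p)).symm.injective hij
      obtain ⟨c, hc⟩ := (Projectivization.mk_eq_mk_iff' _ _ _ _ _).1 h1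
      -- so the `i`-th generator lies in the `j`-th plane
      have h2 : ψ ((⟨a j, hAP j (haA j)⟩ ^ c.val)⁻¹ * ⟨a i, hAP i (haA i)⟩) = 1 := by
        rw [map_mul, map_inv, inv_mul_eq_one, map_pow]
        apply Multiplicative.toAdd.injective
        rw [toAdd_pow, ← hc, ← Nat.cast_smul_eq_nsmul (ZMod p), ZMod.natCast_zmod_val]
      have h3 : (a j ^ c.val)⁻¹ * a i ∈ Subgroup.zpowers z := (hker _).1 h2
      have h4 : a i ∈ A j := by
        rw [← mul_inv_cancel_left (a j ^ c.val) (a i)]
        exact mul_mem (pow_mem (haA j) _) (Subgroup.zpowers_le.2 (hzA j) h3)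
      refine hA (Subgroup.eq_of_le_of_card_ge ?_ (by rw [hAcard, hAcard]))
      intro x hx
      obtain ⟨θ, hθ'⟩ := hθ i
      obtain ⟨v, hv⟩ := θ.surjective ⟨x, hx⟩
      have : x = z ^ v.toAdd.1.val * a i ^ v.toAdd.2.val := by rw [← hθ', hv]
      rw [this]
      exact mul_mem (pow_mem (hzA j) _) (pow_mem h4 _)
    refine le_of_eq_of_le ?_ (Set.ncard_le_ncard (s := Set.range pt) ?_ (Set.toFinite _))
    · rw [Set.ncard_range_of_injective hpt, Nat.card_fin]
    · rintro - ⟨i, rfl⟩
      exact ⟨a i, ⟨i, rfl⟩, hAP i (haA i), h0 i, rfl⟩)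
  omega

end Cfsg.Agent.S3054
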