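import Cfsg.Statements.S3055
import Cfsg.Agent.LocEven.RVCount

set_option autoImplicit false
open Cfsg

open scoped OnePoint commutatorElement

namespace Cfsg.Agent.S3055

/-- Let p be an odd prime and G a finite group with a Sylow p-subgroup P that is extraspecial of order p³ and exponent p. If all nonidentity elements of P are conjugate in G, then p ≤ 7. -/
theorem result {G : Type*} [Group G] [Finite G]
    {p : ℕ} [Fact p.Prime] (hp : p ≠ 2) (P : Sylow p G) (hE : Cfsg.IsExtraspecial p ↥P)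
    (hcard : Nat.card P = p ^ 3) (hexp : Monoid.exponent ↥P = p)
    (hconj : ∀ x y : ↥P, x ≠ 1 → y ≠ 1 → ∃ g : G, g * (x : G) * g⁻¹ = (y : G)) :
    p ≤ 7 := by
  have hpp : p.Prime := Fact.out
  obtain ⟨z, s⟩ := LocEven.RVCount.exists_shape P hp hE hcard hexp
  by_contra h7
  have hzP : Subgroup.zpowers z ≤ (P : Subgroup G) := Subgroup.zpowers_le.2 s.zmem
  have hw : ∀ a ∈ {a : G | a ∈ P ∧ a ∉ Subgroup.zpowers z},
      a ∈ P ∧ a ∉ Subgroup.zpowers z ∧ ∃ w : G, w * a * w⁻¹ = a ∧ w * z * w⁻¹ = z * a := by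
    rintro a ⟨ha, haZ⟩
    refine ⟨ha, haZ, ?_⟩
    have ha1 : a ≠ 1 := fun h => haZ (h ▸ one_mem _)
    obtain ⟨g, hg⟩ := hconj ⟨a, ha⟩ ⟨z, s.zmem⟩ (fun h => ha1 (congrArg Subtype.val h))
      (fun h => s.zne (congrArg Subtype.val h))
    replace hg : g * a * g⁻¹ = z := hg
    set C := Subgroup.centralizer ({a} : Set G) with hC
    have hS : Fusion.cj g⁻¹ (P : Subgroup G) ≤ C := by
      intro x hx
      rw [Fusion.mem_cj_inv] at hx
      rw [hC, Subgroup.mem_centralizer_singleton_iff]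
      have := s.zcen _ hx
      rw [← hg] at this
      calc x * a = g⁻¹ * ((g * x * g⁻¹) * (g * a * g⁻¹)) * g := by group
        _ = g⁻¹ * ((g * a * g⁻¹) * (g * x * g⁻¹)) * g := by rw [this]
        _ = a * x := by group
    have hU : IsPGroup p (Subgroup.closure ({z, a} : Set G)) :=
      P.2.to_le ((Subgroup.closure_le _).2 (Set.insert_subset s.zmem (Set.singleton_subset_iff.2 ha)))
    obtain ⟨T, hUT, hT⟩ := Fusion.exists_sylow_inf_relIndex hU (N := C) ((Subgroup.closure_le _).2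
      (Set.insert_subset (Subgroup.mem_centralizer_singleton_iff.2 (s.zcen a ha).symm)
        (Set.singleton_subset_iff.2 (Subgroup.mem_centralizer_singleton_iff.2 rfl))))
    obtain ⟨y, hy, hyT⟩ := Fusion.exists_conj_of_relIndex (Fusion.isPGroup_cj P.2 g⁻¹)
      (T.2.to_le inf_le_left) hS inf_le_right
      (fun hd => Sylow.not_dvd_index (g⁻¹ • P) (hd.trans (by
        rw [Fusion.coe_smul_sylow]; exact Subgroup.relIndex_dvd_index_of_le hS))) hT
    rw [Fusion.cj_cj] at hyT
    set h := y * g⁻¹ with hh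
    have hmem : ∀ u ∈ ({z, a} : Set G), h⁻¹ * u * h ∈ P := fun u hu => Fusion.mem_cj.1 (by
      rw [hyT]
      exact ⟨hUT (Subgroup.subset_closure hu), by
        rcases hu with rfl | rfl
        · exact Subgroup.mem_centralizer_singleton_iff.2 (s.zcen a ha).symm
        · exact Subgroup.mem_centralizer_singleton_iff.2 rfl⟩)
    have hha : h * z * h⁻¹ = a := by
      rw [hh, ← hg]
      calc y * g⁻¹ * (g * a * g⁻¹) * (y * g⁻¹)⁻¹ = y * a * y⁻¹ := by group
        _ = a := by rw [Subgroup.mem_centralizer_singleton_iff.1 hy, mul_inv_cancel_right]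
    set z' := h⁻¹ * z * h with hz'
    have hz'P : z' ∈ (P : Subgroup G) := hmem z (Set.mem_insert _ _)
    have hz'Z : z' ∉ Subgroup.zpowers z := by
      intro hm
      refine haZ ?_
      obtain ⟨k, hk⟩ := Subgroup.mem_zpowers_iff.1 hm
      have e : z = a ^ k := by
        rw [← hha, conj_zpow, hk, hz']; group
      have : Subgroup.zpowers z = Subgroup.zpowers a := by
        refine Subgroup.eq_of_le_of_card_ge (Subgroup.zpowers_le.2 ?_) ?_
        · rw [e]; exact zpow_mem (Subgroup.mem_zpowers a) k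
        · rw [Nat.card_zpowers, Nat.card_zpowers, s.orderOf_eq s.zmem s.zne, s.orderOf_eq ha ha1]
      rw [this]; exact Subgroup.mem_zpowers a
    obtain ⟨b, hb, hb1⟩ := s.exists_noncomm hz'P hz'Z
    obtain ⟨e, he⟩ := Subgroup.mem_zpowers_iff.1 (s.der b hb z' hz'P)
    obtain ⟨e', he'⟩ : ∃ n : ℕ, z ^ e = z ^ n := by
      obtain ⟨m, hm⟩ := (mem_powers_iff_mem_zpowers (x := z)).2 (zpow_mem (Subgroup.mem_zpowers z) e)
      exact ⟨m, hm.symm⟩
    have he0 : (e' : ZMod p) ≠ 0 := by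
      intro h0
      refine hb1 ?_
      rw [← commutatorElement_inv, ← he, he', s.pow_eq_pow s.zmem (j := 0) (by simpa using h0),
        pow_zero, inv_one]
    have hbk : ⁅b ^ ((e' : ZMod p)⁻¹).val, z'⁆ = z := by
      rw [s.comm_pow_left hb hz'P, ← he, he', ← pow_mul]
      exact (s.pow_eq_pow s.zmem (j := 1) (by push_cast; simp [mul_inv_cancel₀ he0])).trans (pow_one z)
    set w₀ := b ^ ((e' : ZMod p)⁻¹).val with hw₀
    have hw0z : w₀ * z * w₀⁻¹ = z := by
      rw [s.zcen _ (pow_mem hb _), mul_inv_cancel_right]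
    have hw0z' : w₀ * z' * w₀⁻¹ = z * z' := by
      rw [commutatorElement_def] at hbk
      conv_rhs => rw [← hbk]
      group
    refine ⟨h * w₀ * h⁻¹, ?_, ?_⟩
    · calc h * w₀ * h⁻¹ * a * (h * w₀ * h⁻¹)⁻¹ = h * (w₀ * z * w₀⁻¹) * h⁻¹ := by
            rw [← hha]; group
        _ = a := by rw [hw0z, hha]
    · calc h * w₀ * h⁻¹ * z * (h * w₀ * h⁻¹)⁻¹ = h * (w₀ * z' * w₀⁻¹) * h⁻¹ := by
            rw [hz']; group
        _ = h * z * h⁻¹ * (h * z' * h⁻¹) := by rw [hw0z']; group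
        _ = a * z := by rw [hha, hz']; group
        _ = z * a := s.zcen a ha
  have hb := LocEven.RVCount.bound s (by omega) _ hw (k := p + 1) (by
    intro ψ hψ hker
    refine le_of_eq ?_
    have hall : ∀ q : OnePoint (ZMod p), ∃ a ∈ {a : G | a ∈ P ∧ a ∉ Subgroup.zpowers z},
        ∃ (ha : a ∈ (P : Subgroup G)) (h0 : (ψ ⟨a, ha⟩).toAdd ≠ 0),
          (OnePoint.equivProjectivization (ZMod p)).symm
            (Projectivization.mk (ZMod p) (ψ ⟨a, ha⟩).toAdd h0) = q := by
      intro q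
      obtain ⟨v, hv, hq⟩ : ∃ (v : Fin 2 → ZMod p) (hv : v ≠ 0),
          Projectivization.mk (ZMod p) v hv = OnePoint.equivProjectivization (ZMod p) q :=
        ⟨_, Projectivization.rep_nonzero _, Projectivization.mk_rep _⟩
      obtain ⟨⟨x, hx⟩, hxv⟩ := hψ (Multiplicative.ofAdd v)
      have hx0 : (ψ ⟨x, hx⟩).toAdd = v := by rw [hxv, toAdd_ofAdd]
      refine ⟨x, ⟨hx, fun hm => hv (by rw [← hx0, (hker ⟨x, hx⟩).2 hm, toAdd_one])⟩, hx,
        hx0.symm ▸ hv, ?_⟩
      rw [Equiv.symm_apply_eq, ← hq]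
      congr 1
    have hcd : Nat.card (OnePoint (ZMod p)) = p + 1 :=
      Finite.card_option.trans (congrArg (· + 1) (Nat.card_zmod p))
    rw [← hcd, ← Set.ncard_univ]
    exact congrArg Set.ncard (Set.eq_univ_of_forall fun q => hall q).symm)
  omega

end Cfsg.Agent.S3055
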