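import Cfsg.Statements.S3059
import Cfsg.Agent.LocEven.SylowGraph
import Cfsg.Agent.LAE62.SylowBasics
import Cfsg.Agent.Transfer.Residual

set_option autoImplicit false
open Cfsg

namespace Cfsg.Agent.S3059

/-- Let p be a prime and H a strongly p-embedded subgroup of the finite group G in the classical sense: H is proper, p divides the order of H, and H ∩ gHg⁻¹ has order prime to p for every g outside H. Then for every normal subgroup N of G of order divisible by p, G = H · O^p(N), where O^p(N) is the subgroup generated by the elements of N of order prime to p. -/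
theorem result {G : Type*} [Group G] [Finite G]
    (p : ℕ) [Fact p.Prime] (H : Subgroup G) (hH : H ≠ ⊤) (hpH : p ∣ Nat.card H)
    (hse : ∀ g : G, g ∉ H → ¬ p ∣ Nat.card ↥(H ⊓ H.map (MulAut.conj g).toMonoidHom))
    (N : Subgroup G) [N.Normal] (hN : p ∣ Nat.card N) :
    H ⊔ Subgroup.closure {g : G | g ∈ N ∧ (orderOf g).Coprime p} = ⊤ := by
  classical
  have hse' : LocEven.SEmb p H := hse
  obtain ⟨P, hP⟩ := hse'.exists_sylow_le hpH
  set K := Subgroup.closure {g : G | g ∈ N ∧ (orderOf g).Coprime p} with hK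
  have hrel : ¬ p ∣ ((P : Subgroup G) ⊓ N).relIndex N := LAE62.not_dvd_relIndex_sylow_inf_normal P N
  have hPN : ((P : Subgroup G) ⊓ N) ≠ ⊥ := by
    intro hbot
    rw [hbot, Subgroup.relIndex_bot_left] at hrel
    exact hrel hN
  have hPNle : (P : Subgroup G) ⊓ N ≤ H := le_trans inf_le_left hP
  have hPp : IsPGroup p ↥((P : Subgroup G) ⊓ N) := P.2.to_le inf_le_left
  have hNH : Subgroup.normalizer (((P : Subgroup G) ⊓ N : Subgroup G) : Set G) ≤ H :=
    hse'.normalizer_le hPp hPN hPNle
  -- Frattini argument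
  let Q : Sylow p N := ((hPp.comap_subtype (K := N))).toSylow hrel
  have hQ : (Q : Subgroup N) = ((P : Subgroup G) ⊓ N).subgroupOf N := IsPGroup.toSylow_coe _ hrel
  have hQmap : (Q : Subgroup N).map N.subtype = (P : Subgroup G) ⊓ N := by
    rw [hQ, Subgroup.subgroupOf_map_subtype, inf_of_le_left inf_le_right]
  have hfr := Sylow.normalizer_sup_eq_top Q
  rw [hQmap] at hfr
  -- `N = O^p(N) (P ∩ N)`
  have hNK : N ≤ H ⊔ K := by
    have h1 := Transfer.pResidual_sup_eq_top Q.not_dvd_index
    have h2 := congrArg (Subgroup.map N.subtype) h1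
    rw [Subgroup.map_sup, ← MonoidHom.range_eq_map, Subgroup.range_subtype, hQmap] at h2
    rw [← h2, sup_comm]
    refine sup_le_sup hPNle ?_
    rw [Cfsg.pResidual, MonoidHom.map_closure, hK, Subgroup.closure_le]
    rintro _ ⟨y, hy, rfl⟩
    refine Subgroup.subset_closure ⟨y.2, ?_⟩
    simpa using hy
  rw [eq_top_iff, ← hfr]
  exact sup_le (le_trans hNH le_sup_left) hNK

end Cfsg.Agent.S3059
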