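import Cfsg.Statements.S3062
import Cfsg.Agent.LocEven.DStar
-- import your own Cfsg.Agent.* helpers here

set_option autoImplicit false
open Cfsg

namespace Cfsg.Agent.S3062

/-- Let S be a finite p-group, J(S) the subgroup generated by the abelian subgroups of S of largest order and Z(J(S)) its centre. Then Z(S) ≤ D*(S) ≤ Z(J(S)), and every maximal normal abelian subgroup of S contains D*(S). -/
theorem result {S : Type*} [Group S] [Finite S] {p : ℕ} [Fact p.Prime]
    (hS : IsPGroup p S) :
    Subgroup.center S ≤ Cfsg.dStar S ∧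
    Cfsg.dStar S ≤ Cfsg.thompsonSubgroupA S ⊓ Subgroup.centralizer (Cfsg.thompsonSubgroupA S : Set S) ∧
    ∀ A : Subgroup S, A.Normal → IsMulCommutative A →
      (∀ B : Subgroup S, B.Normal → IsMulCommutative B → A ≤ B → B = A) → Cfsg.dStar S ≤ A := by
  haveI : Group.IsNilpotent S := hS.isNilpotent
  refine ⟨le_sSup (LocEven.DStar.center_mem_fam S), ?_,
    fun A hAn hA hmax => haveI := hAn; LocEven.DStar.dStar_le_normal_abelian hA hmax⟩
  have hle : ∀ A ∈ Cfsg.maxAbelianSubgroups S, Cfsg.dStar S ≤ A := fun A hA =>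
    LocEven.DStar.dStar_le_maxAbelian hA
  obtain ⟨A₀, hA₀⟩ : ∃ A₀, A₀ ∈ Cfsg.maxAbelianSubgroups S := by
    obtain ⟨A₀, hA₀, hmax⟩ := Set.Finite.exists_maximalFor
      (fun A : Subgroup S => Nat.card A) {A : Subgroup S | IsMulCommutative A} (Set.toFinite _)
      ⟨⊥, show IsMulCommutative (⊥ : Subgroup S) from inferInstance⟩
    exact ⟨A₀, hA₀, fun B hB =>
      (le_total (Nat.card B) (Nat.card A₀)).elim id (fun h => hmax hB h)⟩
  refine le_inf ((hle A₀ hA₀).trans (le_sSup hA₀)) (Subgroup.le_centralizer_iff.1 ?_)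
  exact sSup_le fun A hA => (Modules.comm_le_centralizer hA.1).trans
    (Subgroup.centralizer_le (hle A hA))

end Cfsg.Agent.S3062
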