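import Cfsg.Statements.S3063
import Cfsg.Agent.Modules.ElemAb
import Cfsg.Agent.Modules.Fixed
-- import your own Cfsg.Agent.* helpers here

set_option autoImplicit false
open Cfsg
open scoped commutatorElement

namespace Cfsg.Agent.S3063

/-- A weak replacement Theorem for metabelian p-groups: let S be a finite p-group whose derived subgroup is abelian and A an abelian subgroup of S of largest possible order. Then the normal closure of A in S contains an abelian subgroup B of the same order as A that is normal in S. -/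
theorem result {S : Type*} [Group S] [Finite S] {p : ℕ} [Fact p.Prime]
    (hS : IsPGroup p S) (hmeta : IsMulCommutative ↥(commutator S))
    (A : Subgroup S) (hA : A ∈ Cfsg.maxAbelianSubgroups S) :
    ∃ B ∈ Cfsg.maxAbelianSubgroups S, B.Normal ∧ B ≤ Subgroup.normalClosure (A : Set S) := by
  classical
  set N := Subgroup.normalClosure (A : Set S) with hN
  set D := commutator S with hD
  obtain ⟨B, ⟨hB, hBN⟩, hmax⟩ := Set.Finite.exists_maximalFor
    (fun B : Subgroup S => Nat.card ↥(B ⊓ D))
    {B : Subgroup S | B ∈ Cfsg.maxAbelianSubgroups S ∧ B ≤ N} (Set.toFinite _)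
    ⟨A, hA, Subgroup.le_normalClosure⟩
  refine ⟨B, hB, ⟨fun b hb g => ?_⟩, hBN⟩
  set B' := B.map (MulAut.conj g).toMonoidHom with hB'def
  have hB'card : Nat.card B' = Nat.card B :=
    Subgroup.card_map_of_injective (MulAut.conj g).injective
  have hB'N : B' ≤ N := by
    rintro - ⟨x, hx, rfl⟩
    exact (Subgroup.normalClosure_normal).conj_mem x (hBN hx) g
  set X := B ⊔ B' with hX
  set E := X ⊓ D with hE
  have hXBD : X ≤ B ⊔ D := by
    refine sup_le le_sup_left ?_
    rintro - ⟨x, hx, rfl⟩
    show g * x * g⁻¹ ∈ B ⊔ D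
    rw [show g * x * g⁻¹ = ⁅g, x⁆ * x by simp [commutatorElement_def, mul_assoc]]
    exact mul_mem (Subgroup.mem_sup_right (Subgroup.commutator_mem_commutator
      (Subgroup.mem_top g) (Subgroup.mem_top x))) (Subgroup.mem_sup_left hx)
  -- `X = B E`
  have hEnorm : B ≤ Subgroup.normalizer (E : Set S) :=
    Modules.normalizes_inf ((le_sup_left : B ≤ X).trans Subgroup.le_normalizer)
      (by rw [Subgroup.normalizer_eq_top (H := D)]; exact le_top)
  have hXeq : X = B ⊔ E := by
    refine le_antisymm ?_ (sup_le le_sup_left inf_le_left)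
    intro x hx
    have h := hXBD hx
    rw [← SetLike.mem_coe, Subgroup.mul_normal] at h
    obtain ⟨u, hu, v, hv, rfl⟩ := h
    have hvX : v ∈ X := by
      have := mul_mem (inv_mem (Subgroup.mem_sup_left hu : u ∈ X)) hx
      rwa [inv_mul_cancel_left] at this
    exact mul_mem (Subgroup.mem_sup_left hu) (Subgroup.mem_sup_right ⟨hvX, hv⟩)
  set F := B ⊓ B' with hF
  have hB'c : IsMulCommutative B' := Modules.comm_map _ hB.1
  have hFX : X ≤ Subgroup.centralizer (F : Set S) := sup_le
    ((Modules.comm_le_centralizer hB.1).trans (Subgroup.centralizer_le inf_le_left))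
    ((Modules.comm_le_centralizer hB'c).trans (Subgroup.centralizer_le inf_le_right))
  set C := F ⊔ E with hC
  have hEc : IsMulCommutative E := Modules.comm_mono inf_le_right hmeta
  have hCc : IsMulCommutative C :=
    Modules.comm_sup (Modules.comm_mono inf_le_left hB.1) hEc ((inf_le_left : E ≤ X).trans hFX)
  -- the orders
  have h1 := Modules.card_sup_mul_card_inf hEnorm
  rw [← hXeq] at h1
  have h2 : Nat.card B * Nat.card B' ≤ Nat.card X * Nat.card F := by
    have e1 := Modules.card_mul_relIndex_of_le (inf_le_left : F ≤ B)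
    have e2 := Subgroup.relIndex_le_of_le_right (H := B') (le_sup_left : B ≤ X)
    have e3 := Modules.card_mul_relIndex_of_le (le_sup_right : B' ≤ X)
    rw [Subgroup.inf_relIndex_left, ← hF] at e1
    have e2' := e2 Subgroup.FiniteIndex.index_ne_zero
    calc Nat.card B * Nat.card B' = Nat.card F * B'.relIndex B * Nat.card B' := by rw [e1]
      _ ≤ Nat.card F * B'.relIndex X * Nat.card B' :=
        Nat.mul_le_mul_right _ (Nat.mul_le_mul_left _ e2')
      _ = Nat.card F * (Nat.card B' * B'.relIndex X) := by ring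
      _ = Nat.card X * Nat.card F := by rw [e3]; ring
  have hFn : F ≤ Subgroup.normalizer (E : Set S) := inf_le_left.trans hEnorm
  have h3 := Modules.card_sup_mul_card_inf hFn
  rw [← hC] at h3
  have h4 : Nat.card ↥(F ⊓ E) ≤ Nat.card ↥(B ⊓ E) :=
    Subgroup.card_le_of_le (inf_le_inf_right E inf_le_left)
  have hCB : Nat.card B ≤ Nat.card C := by
    rw [hB'card] at h2
    have := Nat.card_pos (α := ↥(B ⊓ E))
    have := Nat.card_pos (α := ↥B)
    have := Nat.card_pos (α := ↥(F ⊓ E))
    by_contra hlt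
    push Not at hlt
    have e1 : Nat.card B * Nat.card B * Nat.card ↥(B ⊓ E) ≤
        Nat.card B * Nat.card E * Nat.card F := by
      have := Nat.mul_le_mul_right (Nat.card ↥(B ⊓ E)) h2
      calc _ ≤ Nat.card X * Nat.card F * Nat.card ↥(B ⊓ E) := this
        _ = Nat.card X * Nat.card ↥(B ⊓ E) * Nat.card F := by ring
        _ = _ := by rw [h1]
    have e2 : Nat.card B * Nat.card ↥(B ⊓ E) ≤ Nat.card E * Nat.card F := by
      refine Nat.le_of_mul_le_mul_left (by rwa [← mul_assoc, ← mul_assoc]) (Nat.card_pos (α := ↥B))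
    have e3 : Nat.card C * Nat.card ↥(F ⊓ E) < Nat.card B * Nat.card ↥(B ⊓ E) :=
      lt_of_lt_of_le ((Nat.mul_lt_mul_right (Nat.card_pos (α := ↥(F ⊓ E)))).2 hlt)
        (Nat.mul_le_mul_left _ h4)
    rw [h3] at e3
    nlinarith
  have hCmax : C ∈ Cfsg.maxAbelianSubgroups S :=
    ⟨hCc, fun W hW => (hB.2 W hW).trans hCB⟩
  have hCN : C ≤ N := sup_le (inf_le_left.trans hBN) (inf_le_left.trans (sup_le hBN hB'N))
  have hBD : B ⊓ D ≤ C := le_sup_of_le_right (le_inf (inf_le_left.trans le_sup_left) inf_le_right)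
  have hEB : E ≤ B := by
    have hle : E ≤ C ⊓ D := le_inf le_sup_right inf_le_right
    have hsub : B ⊓ D ≤ E := le_inf (inf_le_left.trans le_sup_left) inf_le_right
    have h5 : Nat.card ↥(C ⊓ D) ≤ Nat.card ↥(B ⊓ D) :=
      (le_total (Nat.card ↥(C ⊓ D)) (Nat.card ↥(B ⊓ D))).elim id
        (fun h => hmax (j := C) ⟨hCmax, hCN⟩ h)
    have h6 := Subgroup.eq_of_le_of_card_ge hsub ((Subgroup.card_le_of_le hle).trans h5)
    exact h6 ▸ inf_le_left
  have hB'B : B' ≤ B := (le_sup_right : B' ≤ X).trans (hXeq.le.trans (sup_le le_rfl hEB))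
  exact hB'B ⟨b, hb, rfl⟩

end Cfsg.Agent.S3063
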