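import Cfsg.Statements.S3064
import Cfsg.Agent.LocEven.IsolatedCentral
-- import your own Cfsg.Agent.* helpers here

set_option autoImplicit false
open Cfsg

namespace Cfsg.Agent.S3064

/-- Let S be a Sylow p-subgroup of the finite group G and x an element of S such that (i) x is the only G-conjugate of x lying in S, and (ii) x centralizes every subgroup of order prime to p that it normalizes. Then x lies in the centre of G. -/
theorem result {G : Type*} [Group G] [Finite G] {p : ℕ} [Fact p.Prime]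
    (S : Sylow p G) (x : G) (hx : x ∈ S)
    (hU : ∀ g : G, g⁻¹ * x * g ∈ S → g⁻¹ * x * g = x)
    (hb : ∀ H : Subgroup G, (Nat.card H).Coprime p → (∀ h ∈ H, x * h * x⁻¹ ∈ H) → ∀ h ∈ H, x * h = h * x) :
    x ∈ Subgroup.center G := by
  refine LocEven.IsolatedCentral.center_of_isolated (p := p) x
    (S.2.to_le (Subgroup.zpowers_le.2 hx)) (fun T hT hxT g hg => ?_) hb
  obtain ⟨T', hT'⟩ := hT.exists_le_sylow
  obtain ⟨c, hc⟩ := Fusion.exists_cj_sylow T' S
  have hmem : ∀ y ∈ T, c * y * c⁻¹ ∈ (S : Subgroup G) := fun y hy => hc.le ⟨y, hT' hy, rfl⟩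
  have h1 : c * x * c⁻¹ = x := by
    have := hU c⁻¹ (by rw [inv_inv]; exact hmem x hxT)
    simpa using this
  have h2 : c * (g * x * g⁻¹) * c⁻¹ = x := by
    have := hU (c * g)⁻¹ (by rw [inv_inv, mul_inv_rev, show c * g * x * (g⁻¹ * c⁻¹) = c * (g * x * g⁻¹) * c⁻¹ by group]; exact hmem _ hg)
    simpa [mul_assoc] using this
  have h3 : c * (g * x * g⁻¹) * c⁻¹ = c * x * c⁻¹ := h2.trans h1.symm
  exact mul_left_cancel (mul_right_cancel h3)

end Cfsg.Agent.S3064
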