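import Cfsg.Statements.S3067
import Cfsg.Agent.Invol.CoprimeCentralizer
import Cfsg.Agent.S0215

set_option autoImplicit false
open Cfsg

namespace Cfsg.Agent.S3067

/-- Let G be a finite non-abelian simple group, τ an involution of G, and α a nontrivial automorphism of G whose order is coprime to the order of G. Then α moves some element of the centralizer of τ: α does not fix C_G(τ) elementwise. -/
theorem result {G : Type*} [Group G] [Finite G] [IsSimpleGroup G]
    (hG : ¬ IsMulCommutative G) (τ : G) (hτ : orderOf τ = 2) (α : MulAut G) (hα : α ≠ 1)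
    (hcop : (orderOf α).Coprime (Nat.card G)) :
    ∃ c ∈ Subgroup.centralizer ({τ} : Set G), α c ≠ c := by
  by_contra hcon
  push Not at hcon
  set F := Invol.CoprimeCentralizer.fixSub α with hF
  have hC : Subgroup.centralizer ({τ} : Set G) ≤ F := hcon
  have hne : F ≠ ⊤ := fun h => hα (MulEquiv.ext fun g => by
    have : g ∈ F := h ▸ Subgroup.mem_top g
    exact this)
  have hcore : F.normalCore = ⊥ := by
    rcases (Subgroup.normalCore_normal F).eq_bot_or_eq_top with h | h
    · exact h
    · exact absurd (top_le_iff.1 (h ▸ Subgroup.normalCore_le F)) hne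
  have huniq := Invol.CoprimeCentralizer.eq_of_isConj_mem_fixSub hcop hne hcore hτ hC
  obtain ⟨S, hτS, hSF⟩ := Invol.CoprimeCentralizer.exists_fixed_sylow hcop hτ hC
  obtain ⟨N, hN, hodd, hmem⟩ := S0215.result S τ hτ hτS fun g hg =>
    huniq _ (hSF hg) (isConj_iff.2 ⟨g, rfl⟩)
  rcases hN.eq_bot_or_eq_top with h | h
  · subst h
    have hcent : τ ∈ Subgroup.center G := Subgroup.mem_center_iff.2 fun g => by
      have := Subgroup.mem_bot.1 (hmem g)
      calc g * τ = 1 * (g * τ) := (one_mul _).symm
        _ = τ * g := by rw [← this]; group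
    rcases (inferInstance : (Subgroup.center G).Normal).eq_bot_or_eq_top with h | h
    · rw [h, Subgroup.mem_bot] at hcent
      rw [hcent, orderOf_one] at hτ
      exact absurd hτ (by norm_num)
    · exact hG ⟨⟨fun a b => Subgroup.mem_center_iff.1 (h ▸ Subgroup.mem_top b) a⟩⟩
  · subst h
    rw [Subgroup.card_top] at hodd
    have h2 : 2 ∣ Nat.card G := hτ ▸ orderOf_dvd_natCard τ
    exact Nat.not_even_iff_odd.2 hodd (even_iff_two_dvd.2 h2)

end Cfsg.Agent.S3067
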