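import Cfsg.Statements.S3070
import Cfsg.Agent.ThompsonFive.Main

set_option autoImplicit false
open Cfsg

namespace Cfsg.Agent.S3070

universe v

theorem npc_aux {G : Type v} [Group G] [Finite G] {p : ℕ} [Fact p.Prime] (hp5 : 5 ≤ p)
    (P : Sylow p G)
    (hN : ∀ g ∈ Subgroup.normalizer (Cfsg.thompsonSubgroupAOf (P : Subgroup G) : Set G),
      (orderOf g).Coprime p →
        g ∈ Subgroup.centralizer (Cfsg.thompsonSubgroupAOf (P : Subgroup G) : Set G)) :
    Cfsg.HasNormalPComplement p G := by
  have hp := (Fact.out : p.Prime)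
  set J := Cfsg.thompsonSubgroupAOf (P : Subgroup G) with hJ
  set N := Subgroup.normalizer (J : Set G) with hNdef
  set C := Subgroup.centralizer (J : Set G) with hC
  have hPN : (P : Subgroup G) ≤ N :=
    Subgroup.le_normalizer.trans (Modules.normalizer_le_normalizer_thompsonSubgroupAOf _)
  have hZeq : (P : Subgroup G) ⊓ C = Cfsg.centerThompsonAOf (P : Subgroup G) :=
    (Modules.centerThompsonAOf_eq_centralizer _).symm
  have hcent : ∀ z ∈ (P : Subgroup G) ⊓ C, ∀ c ∈ C, c * z = z * c := by
    intro z hz c hc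
    rw [hZeq] at hz
    exact (Subgroup.mem_centralizer_iff.1 hc z hz.1).symm
  -- `C(J)` has a central Sylow subgroup
  have hPC : (P : Subgroup G) ≤ Subgroup.normalizer (C : Set G) :=
    hPN.trans (Modules.normalizes_centralizer le_rfl)
  have hrel : ¬ p ∣ ((P : Subgroup G) ⊓ C).relIndex C := by
    intro hd
    have h1 := Modules.card_sup_mul_card_inf hPC
    have h2 := Modules.card_mul_relIndex_of_le
      (inf_le_right : (P : Subgroup G) ⊓ C ≤ C)
    have h3 := Modules.card_mul_relIndex_of_le (le_sup_left : (P : Subgroup G) ≤ (P : Subgroup G) ⊔ C)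
    have h4 : (P : Subgroup G).relIndex ((P : Subgroup G) ⊔ C) =
        ((P : Subgroup G) ⊓ C).relIndex C := by
      rw [← h3, ← h2] at h1
      have hpos : 0 < Nat.card (P : Subgroup G) * Nat.card ↥((P : Subgroup G) ⊓ C) :=
        Nat.mul_pos Nat.card_pos Nat.card_pos
      exact Nat.eq_of_mul_eq_mul_left hpos (by linarith)
    apply P.not_dvd_index
    exact (h4 ▸ hd).trans (Subgroup.relIndex_mul_index
      (le_sup_left : (P : Subgroup G) ≤ (P : Subgroup G) ⊔ C) ▸ dvd_mul_right _ _)
  have hCnpc : Cfsg.HasNormalPComplement p C := by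
    let T : Sylow p C := ((P.2.to_inf_left (K := C)).comap_subtype (K := C)).toSylow hrel
    refine Transfer.hasNormalPComplement_of_normalizer_le_centralizer T ?_
    intro x _
    refine Subgroup.mem_centralizer_iff.2 fun y hy => Subtype.ext ?_
    exact (hcent y hy x x.2).symm
  -- hence so has `N(J)`
  have hCN : C ≤ N := Subgroup.centralizer_le_normalizer _
  have hNnpc : Cfsg.HasNormalPComplement p N := by
    rw [Transfer.hasNormalPComplement_iff]
    have hle : (Cfsg.pResidual p N).map N.subtype ≤ (Cfsg.pResidual p C).map C.subtype := by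
      rw [Subgroup.map_le_iff_le_comap, Cfsg.pResidual, Subgroup.closure_le]
      intro x hx
      have hxG : (orderOf (x : G)).Coprime p := by rw [Subgroup.orderOf_coe]; exact hx
      refine ⟨⟨(x : G), hN x x.2 hxG⟩, Transfer.mem_pResidual_of_coprime ?_, rfl⟩
      rw [← Subgroup.orderOf_coe]
      exact hxG
    intro hd
    refine Transfer.hasNormalPComplement_iff.1 hCnpc ?_
    rw [Nat.card_congr ((Cfsg.pResidual p N).equivMapOfInjective _ N.subtype_injective).toEquiv] at hd
    rw [Nat.card_congr ((Cfsg.pResidual p C).equivMapOfInjective _ C.subtype_injective).toEquiv]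
    exact hd.trans (Subgroup.card_dvd_of_le hle)
  exact H4.npc_of_reduced (F := LocalP.thompsonAFunctor p) (c := False) P ⟨hNnpc, fun h => h.elim⟩
    fun X _ _ Q K h => ThompsonFive.reduced_false hp5 X Q K h

/-- Let p ≥ 5 be a prime, S a Sylow p-subgroup of the finite group G and J(S) the subgroup generated by the abelian subgroups of S of largest order. Then G has a normal p-complement if and only if N_G(J(S))/C_G(J(S)) is a p-group (every element of N_G(J(S)) of order prime to p centralizes J(S)). -/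
theorem result {G : Type*} [Group G] [Finite G] {p : ℕ} [Fact p.Prime]
    (hp : 5 ≤ p) (S : Sylow p G) :
    Cfsg.HasNormalPComplement p G ↔
      ∀ g ∈ Subgroup.normalizer (Cfsg.thompsonSubgroupAOf (S : Subgroup G) : Set G), (orderOf g).Coprime p →
        g ∈ Subgroup.centralizer (Cfsg.thompsonSubgroupAOf (S : Subgroup G) : Set G) := by
  refine ⟨fun hnpc g hg hgo => ?_, npc_aux hp S⟩
  set Kg := Cfsg.thompsonSubgroupAOf (S : Subgroup G) with hKg
  have hKP : Kg ≤ (S : Subgroup G) := Modules.thompsonSubgroupAOf_le _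
  have hc : (Nat.card (Cfsg.pResidual p G)).Coprime p :=
    (Cores.coprime_iff_not_dvd_prime (Fact.out : p.Prime)).mpr
      (Transfer.hasNormalPComplement_iff.mp hnpc)
  refine Subgroup.mem_centralizer_iff.mpr fun k hk => ?_
  have h4 : g * k * g⁻¹ * k⁻¹ ∈ Kg ⊓ Cfsg.pResidual p G := by
    refine ⟨Kg.mul_mem ((Subgroup.mem_normalizer_iff.mp hg k).mp hk) (Kg.inv_mem hk), ?_⟩
    have hgR := Transfer.mem_pResidual_of_coprime hgo
    show g * k * g⁻¹ * k⁻¹ ∈ Cfsg.pResidual p G
    rw [show g * k * g⁻¹ * k⁻¹ = g * (k * g⁻¹ * k⁻¹) by group]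
    exact mul_mem hgR ((inferInstance : (Cfsg.pResidual p G).Normal).conj_mem _ (inv_mem hgR) k)
  rw [PSolv.sylow_inf_eq_bot hc (S.2.to_le hKP), Subgroup.mem_bot, mul_inv_eq_one] at h4
  conv_lhs => rw [← h4]
  group

end Cfsg.Agent.S3070
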