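import Cfsg.Statements.S3073
import Cfsg.Agent.EvenLocal.Decider

set_option autoImplicit false
universe u
open Cfsg

namespace Cfsg.Agent.S3073

/-- For an odd prime p, every finite p-group S has a characteristic subgroup K with C_S(K) ≤ K such that, whenever S is (isomorphic to) a Sylow p-subgroup of a finite group G, G has a normal p-complement if and only if N_G(K)/C_G(K) is a p-group, i.e. every element of N_G(K) of order prime to p centralizes K (K transported into G along the isomorphism). -/
theorem result (p : ℕ) [Fact p.Prime] (hp : p ≠ 2)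
    (S : Type u) [Group S] [Finite S] (hS : IsPGroup p S) :
    ∃ K : Subgroup S, K.Characteristic ∧ Subgroup.centralizer (K : Set S) ≤ K ∧
      ∀ (G : Type u) [Group G] [Finite G] (P : Sylow p G) (e : ↥(P : Subgroup G) ≃* S),
        Cfsg.HasNormalPComplement p G ↔
          ∀ g ∈ Subgroup.normalizer (((K.comap (e : ↥(P : Subgroup G) →* S)).map (P : Subgroup G).subtype : Subgroup G) : Set G),
            (orderOf g).Coprime p →
              g ∈ Subgroup.centralizer (((K.comap (e : ↥(P : Subgroup G) →* S)).map (P : Subgroup G).subtype : Subgroup G) : Set G) := by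
  obtain ⟨K, h1, h2, h3⟩ := EvenLocal.Decider.exists_decider hp S hS
  refine ⟨K, h1, h2, fun G _ _ P e => ⟨fun hnpc g hg hgo => ?_, h3 G P e⟩⟩
  set Kg := (K.comap (e : ↥(P : Subgroup G) →* S)).map (P : Subgroup G).subtype with hKg
  have hKP : Kg ≤ (P : Subgroup G) := Subgroup.map_subtype_le _
  have hc : (Nat.card (Cfsg.pResidual p G)).Coprime p :=
    (Cores.coprime_iff_not_dvd_prime (Fact.out : p.Prime)).mpr
      (Transfer.hasNormalPComplement_iff.mp hnpc)
  refine Subgroup.mem_centralizer_iff.mpr fun k hk => ?_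
  have h4 : g * k * g⁻¹ * k⁻¹ ∈ Kg ⊓ Cfsg.pResidual p G := by
    refine ⟨Kg.mul_mem ((Subgroup.mem_normalizer_iff.mp hg k).mp hk) (Kg.inv_mem hk), ?_⟩
    have hgR := Transfer.mem_pResidual_of_coprime hgo
    show g * k * g⁻¹ * k⁻¹ ∈ Cfsg.pResidual p G
    rw [show g * k * g⁻¹ * k⁻¹ = g * (k * g⁻¹ * k⁻¹) by group]
    exact mul_mem hgR ((inferInstance : (Cfsg.pResidual p G).Normal).conj_mem _ (inv_mem hgR) k)
  rw [PSolv.sylow_inf_eq_bot hc (P.2.to_le hKP), Subgroup.mem_bot, mul_inv_eq_one] at h4
  conv_lhs => rw [← h4]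
  group

end Cfsg.Agent.S3073
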