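import Cfsg.Statements.S3074
import Cfsg.Agent.EvenLocal.QdSylow

set_option autoImplicit false
open Cfsg

namespace Cfsg.Agent.S3074

/-- Let p be an odd prime. A Sylow p-subgroup of Qd(p), the split extension of an elementary abelian group of order p² by SL₂(p) acting naturally, is extraspecial of order p³ and exponent p. -/
theorem result (p : ℕ) [Fact p.Prime] (hp : p ≠ 2) (P : Sylow p ↥(Cfsg.qd p)) :
    Cfsg.IsExtraspecial p ↥P ∧ Nat.card P = p ^ 3 ∧ Monoid.exponent ↥P = p := by
  exact EvenLocal.Qd.sylow_qd hp P

end Cfsg.Agent.S3074
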