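import Cfsg.Statements.S3075
import Cfsg.Agent.LocEven.InvertingSplit
import Cfsg.Agent.Supersolv.Props

set_option autoImplicit false
open Cfsg

namespace Cfsg.Agent.S3075

/-- Let p be an odd prime and N a finite group with a normal elementary abelian subgroup A of order p² that is its own centralizer in N, such that N/A is isomorphic to SL₂(p) (over any field F with p elements). Then N splits over A: some subgroup U of N satisfies A ∩ U = 1 and AU = N. -/
theorem result {N : Type*} [Group N] [Finite N] {p : ℕ} [Fact p.Prime] (hp : p ≠ 2)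
    (A : Subgroup N) [A.Normal] (hAcomm : IsMulCommutative A) (hAcard : Nat.card A = p ^ 2) (hAexp : Monoid.exponent ↥A = p)
    (hAself : Subgroup.centralizer (A : Set N) = A)
    {F : Type*} [Field F] [Fintype F] (hF : Fintype.card F = p) (e : N ⧸ A ≃* Matrix.SpecialLinearGroup (Fin 2) F) :
    ∃ U : Subgroup N, A ⊓ U = ⊥ ∧ A ⊔ U = ⊤ := by
  classical
  have hp' : p.Prime := Fact.out
  have hodd : Odd p := hp'.odd_of_ne_two hp
  have hchar : ringChar F ≠ 2 := by
    intro h
    have := FiniteField.even_card_of_char_two h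
    rw [hF] at this
    obtain ⟨m, hm⟩ := hodd
    omega
  let m1 : Matrix.SpecialLinearGroup (Fin 2) F :=
    ⟨-1, by simp [Matrix.det_fin_two]⟩
  have hm1 : m1 ≠ 1 := by
    intro h
    have h0 := congrArg (fun x : Matrix.SpecialLinearGroup (Fin 2) F => (x : Matrix (Fin 2) (Fin 2) F) 0 0) h
    simp only [m1, Matrix.SpecialLinearGroup.coe_one, Matrix.neg_apply, Matrix.one_apply_eq] at h0
    exact Ring.neg_one_ne_one_of_char_ne_two hchar h0
  have hm2 : m1 * m1 = 1 := Subtype.ext (show (-1 : Matrix (Fin 2) (Fin 2) F) * -1 = 1 by simp)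
  have hmc : ∀ y, m1 * y = y * m1 := fun y => Subtype.ext (show (-1 : Matrix (Fin 2) (Fin 2) F) * (y : Matrix (Fin 2) (Fin 2) F) = (y : Matrix (Fin 2) (Fin 2) F) * -1 by simp)
  let π := e.toMonoidHom.comp (QuotientGroup.mk' A)
  have hπ : Function.Surjective π := e.surjective.comp (QuotientGroup.mk'_surjective A)
  have hker : ∀ n, π n = 1 ↔ n ∈ A := by
    intro n
    show e _ = 1 ↔ _
    rw [EmbeddingLike.map_eq_one_iff]
    exact QuotientGroup.eq_one_iff n
  obtain ⟨z, hz⟩ := hπ m1
  have hzA : z ∉ A := fun h => hm1 (hz.symm.trans ((hker z).2 h))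
  have hcen : ∀ n : N, n * z * n⁻¹ * z⁻¹ ∈ A := by
    intro n
    rw [← hker, map_mul, map_mul, map_mul, map_inv, map_inv, hz, ← hmc, mul_inv_cancel_right, mul_inv_cancel]
  have hz2 : z * z ∈ A := by rw [← hker, map_mul, hz, hm2]
  have hAc : ∀ a ∈ A, ∀ b ∈ A, a * b = b * a := fun a ha b hb =>
    congrArg Subtype.val (hAcomm.is_comm.comm ⟨a, ha⟩ ⟨b, hb⟩)
  have hconj : ∀ a ∈ A, z * a * z⁻¹ ∈ A := fun a ha => (inferInstance : A.Normal).conj_mem a ha z
  have hzz : ∀ a ∈ A, z * (z * a * z⁻¹) * z⁻¹ = a := by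
    intro a ha
    calc z * (z * a * z⁻¹) * z⁻¹ = (z * z) * a * (z * z)⁻¹ := by group
      _ = a := by rw [hAc _ hz2 a ha, mul_inv_cancel_right]
  -- fixed and inverted parts
  let C : Subgroup N := A ⊓ Subgroup.centralizer {z}
  have hCn : C.Normal := ⟨fun c hc n => by
    refine ⟨(inferInstance : A.Normal).conj_mem c hc.1 n, Subgroup.mem_centralizer_singleton_iff.2 ?_⟩
    have hc' := Subgroup.mem_centralizer_singleton_iff.1 hc.2
    set a := n⁻¹ * z * n * z⁻¹ with ha
    have haA : a ∈ A := by simpa using hcen n⁻¹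
    have h1 : (n⁻¹ * z * n) * c = c * (n⁻¹ * z * n) := by
      rw [show n⁻¹ * z * n = a * z by rw [ha]; group, mul_assoc, ← hc', ← mul_assoc, hAc a haA c hc.1, mul_assoc]
    calc n * c * n⁻¹ * z = n * (c * (n⁻¹ * z * n)) * n⁻¹ := by group
      _ = z * (n * c * n⁻¹) := by rw [← h1]; group⟩
  have hinv : ∀ a ∈ A, z * a * z⁻¹ = a⁻¹ := by
    intro a ha
    rw [eq_inv_iff_mul_eq_one]
    set b := z * a * z⁻¹ * a with hb
    have hbC : b ∈ C := by
      refine ⟨A.mul_mem (hconj a ha) ha, Subgroup.mem_centralizer_singleton_iff.2 ?_⟩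
      have h1 : z * b * z⁻¹ = b := by
        rw [hb, show z * (z * a * z⁻¹ * a) * z⁻¹ = z * (z * a * z⁻¹) * z⁻¹ * (z * a * z⁻¹) by group,
          hzz a ha]
        exact hAc a ha _ (hconj a ha)
      calc b * z = z * b * z⁻¹ * z := by rw [h1]
        _ = z * b := by group
    suffices hCbot : C = ⊥ by rw [hCbot] at hbC; exact hbC
    by_contra hCb
    have hCA : C ≠ A := by
      intro h
      apply hzA
      rw [← hAself, Subgroup.mem_centralizer_iff]
      intro x hx
      exact Subgroup.mem_centralizer_singleton_iff.1 (h.symm.le hx).2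
    have hcardC : Nat.card C = p := by
      have hd : Nat.card C ∣ p ^ 2 := hAcard ▸ Subgroup.card_dvd_of_le inf_le_left
      obtain ⟨i, hi, hci⟩ := (Nat.dvd_prime_pow hp').1 hd
      interval_cases i
      · exact absurd (Subgroup.eq_bot_of_card_eq C (by simpa using hci)) hCb
      · simpa using hci
      · exact absurd (Subgroup.eq_of_le_of_card_ge inf_le_left (by rw [hAcard, hci])) hCA
    -- the inverted part
    let I : Subgroup N :=
      { carrier := {x | x ∈ A ∧ z * x * z⁻¹ = x⁻¹}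
        one_mem' := ⟨A.one_mem, by simp⟩
        mul_mem' := fun {x y} hx hy => ⟨A.mul_mem hx.1 hy.1, by
          rw [show z * (x * y) * z⁻¹ = (z * x * z⁻¹) * (z * y * z⁻¹) by group, hx.2, hy.2,
            ← mul_inv_rev, hAc y hy.1 x hx.1]⟩
        inv_mem' := fun {x} hx => ⟨A.inv_mem hx.1, by
          rw [show z * x⁻¹ * z⁻¹ = (z * x * z⁻¹)⁻¹ by group, hx.2]⟩ }
    have hIn : I.Normal := ⟨fun x hx n => by
      refine ⟨(inferInstance : A.Normal).conj_mem x hx.1 n, ?_⟩
      set c := n⁻¹ * z * n * z⁻¹ with hc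
      have hcA : c ∈ A := by simpa using hcen n⁻¹
      calc z * (n * x * n⁻¹) * z⁻¹ = n * (c * (z * x * z⁻¹) * c⁻¹) * n⁻¹ := by rw [hc]; group
        _ = n * x⁻¹ * n⁻¹ := by rw [hx.2, hAc c hcA _ (A.inv_mem hx.1), mul_inv_cancel_right]
        _ = (n * x * n⁻¹)⁻¹ := by group⟩
    obtain ⟨w, hwA, hwC⟩ := SetLike.exists_of_lt (lt_of_le_of_ne (inf_le_left : C ≤ A) hCA)
    have hIne : I ≠ ⊥ := by
      intro h
      refine hwC ⟨hwA, Subgroup.mem_centralizer_singleton_iff.2 ?_⟩
      have hmem : w * (z * w * z⁻¹)⁻¹ ∈ I := by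
        refine ⟨A.mul_mem hwA (A.inv_mem (hconj w hwA)), ?_⟩
        rw [show z * (w * (z * w * z⁻¹)⁻¹) * z⁻¹ = (z * w * z⁻¹) * (z * (z * w * z⁻¹) * z⁻¹)⁻¹ by group,
          hzz w hwA, mul_inv_rev, inv_inv]
      rw [h, Subgroup.mem_bot, mul_inv_eq_one] at hmem
      calc w * z = z * w * z⁻¹ * z := by rw [← hmem]
        _ = z * w := by group
    have hIA : I ≤ A := fun x hx => hx.1
    have hIcard : Nat.card I = p := by
      have hd : Nat.card I ∣ p ^ 2 := hAcard ▸ Subgroup.card_dvd_of_le hIA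
      obtain ⟨i, hi, hci⟩ := (Nat.dvd_prime_pow hp').1 hd
      interval_cases i
      · exact absurd (Subgroup.eq_bot_of_card_eq I (by simpa using hci)) hIne
      · simpa using hci
      · exfalso
        have hI := Subgroup.eq_of_le_of_card_ge hIA (by rw [hAcard, hci])
        obtain ⟨c, hcm, hc1⟩ := C.bot_or_exists_ne_one.resolve_left hCb
        have h1 := (hI.symm.le hcm.1).2
        rw [← Subgroup.mem_centralizer_singleton_iff.1 hcm.2, mul_inv_cancel_right] at h1
        have h2 : c * c = 1 := by nth_rw 2 [h1]; exact mul_inv_cancel c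
        have h3 : orderOf c ∣ 2 := orderOf_dvd_of_pow_eq_one (by rw [pow_two, h2])
        have h4 : orderOf c ∣ p := hcardC ▸ Subgroup.orderOf_mk c hcm ▸ orderOf_dvd_natCard _
        exact hc1 (orderOf_eq_one_iff.1 (Nat.eq_one_of_dvd_coprimes
          ((Nat.coprime_primes hp' Nat.prime_two).2 hp) h4 h3))
    have hgen : A ≤ C ⊔ I := by
      have hdisj : C ⊓ I = ⊥ := by
        rw [Subgroup.eq_bot_iff_forall]
        rintro x ⟨hxC, hxI⟩
        have h1 := hxI.2
        rw [← Subgroup.mem_centralizer_singleton_iff.1 hxC.2, mul_inv_cancel_right] at h1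
        have h2 : x * x = 1 := by nth_rw 2 [h1]; exact mul_inv_cancel x
        have h3 : orderOf x ∣ 2 := orderOf_dvd_of_pow_eq_one (by rw [pow_two, h2])
        have h4 : orderOf x ∣ p := hcardC ▸ Subgroup.orderOf_mk x hxC ▸ orderOf_dvd_natCard _
        exact orderOf_eq_one_iff.1 (Nat.eq_one_of_dvd_coprimes ((Nat.coprime_primes hp' Nat.prime_two).2 hp) h4 h3)
      refine le_of_eq (Subgroup.eq_of_le_of_card_ge (sup_le inf_le_left hIA) ?_).symm
      rw [hAcard]
      have hdvd : C.relIndex (C ⊔ I) = p := by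
        rw [Subgroup.relIndex_sup_left, ← Subgroup.inf_relIndex_right, hdisj, Subgroup.relIndex_bot_left, hIcard]
      have h5 := Subgroup.relIndex_mul_relIndex ⊥ C (C ⊔ I) bot_le le_sup_left
      rw [Subgroup.relIndex_bot_left, Subgroup.relIndex_bot_left, hcardC, hdvd] at h5
      rw [← h5, pow_two]
    have : IsCyclic C := isCyclic_of_prime_card hcardC
    have : IsCyclic I := isCyclic_of_prime_card hIcard
    have hcommA : commutator N ≤ A := by
      rw [← hAself]
      intro x hx
      have hxC := Supersolv.commutator_le_centralizer_of_isCyclic C hx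
      have hxI := Supersolv.commutator_le_centralizer_of_isCyclic I hx
      rw [Subgroup.mem_centralizer_iff]
      intro y hy
      have : C ⊔ I ≤ Subgroup.centralizer {x} := sup_le
        (fun u hu => Subgroup.mem_centralizer_singleton_iff.2 (Subgroup.mem_centralizer_iff.1 hxC u hu))
        (fun u hu => Subgroup.mem_centralizer_singleton_iff.2 (Subgroup.mem_centralizer_iff.1 hxI u hu))
      exact Subgroup.mem_centralizer_singleton_iff.1 (this (hgen hy))
    let u : Matrix.SpecialLinearGroup (Fin 2) F := ⟨!![1, 1; 0, 1], by simp [Matrix.det_fin_two]⟩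
    let v : Matrix.SpecialLinearGroup (Fin 2) F := ⟨!![1, 0; 1, 1], by simp [Matrix.det_fin_two]⟩
    obtain ⟨x, hx⟩ := hπ u
    obtain ⟨y, hy⟩ := hπ v
    have h1 : π (x * y * x⁻¹ * y⁻¹) = 1 :=
      (hker _).2 (hcommA (Subgroup.commutator_mem_commutator (Subgroup.mem_top x) (Subgroup.mem_top y)))
    rw [map_mul, map_mul, map_mul, map_inv, map_inv, hx, hy, mul_inv_eq_one, mul_inv_eq_iff_eq_mul] at h1
    have h2 := congrArg (fun s : Matrix.SpecialLinearGroup (Fin 2) F => (s : Matrix (Fin 2) (Fin 2) F) 0 0) h1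
    simp only [Matrix.SpecialLinearGroup.coe_mul] at h2
    rw [Matrix.mul_apply, Matrix.mul_apply, Fin.sum_univ_two, Fin.sum_univ_two] at h2
    simp [u, v] at h2
  exact ⟨Subgroup.centralizer {z}, LocEven.complement_of_inverting A (hAcard ▸ hodd.pow) hinv hcen⟩

end Cfsg.Agent.S3075
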