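import Cfsg.Statements.S3076
import Cfsg.Agent.Tech.Basic
import Cfsg.Agent.Cores.Basic
import Cfsg.Agent.PSolv.HallHigman
import Cfsg.Agent.Transfer.Frobenius
import Cfsg.Agent.Transfer.Residual

set_option autoImplicit false
open Cfsg

namespace Cfsg.Agent.S3076

/-- Let P be a Sylow p-subgroup of the finite group G and H ≤ P a subgroup with N_P(H) a Sylow p-subgroup of N_G(H). Let N be the preimage in N_G(H) of O_p(N_G(H)/C_G(H)). Then H is a Sylow p-subgroup of N if and only if C_P(H) ≤ H and O_{p',p}(N_G(H)) = H·C_G(H). -/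
theorem result {G : Type*} [Group G] [Finite G] {p : ℕ} [Fact p.Prime]
    (P : Sylow p G) (H : Subgroup G) (hHP : H ≤ (P : Subgroup G))
    (hSyl : ¬ p ∣ ((P : Subgroup G) ⊓ Subgroup.normalizer (H : Set G)).relIndex (Subgroup.normalizer (H : Set G)))
    [hC : ((Subgroup.centralizer (H : Set G)).subgroupOf (Subgroup.normalizer (H : Set G))).Normal] :
    (H ≤ ((Cfsg.pCore p (↥(Subgroup.normalizer (H : Set G)) ⧸
              (Subgroup.centralizer (H : Set G)).subgroupOf (Subgroup.normalizer (H : Set G)))).comap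
            (QuotientGroup.mk' _)).map (Subgroup.normalizer (H : Set G)).subtype ∧
      ¬ p ∣ H.relIndex (((Cfsg.pCore p (↥(Subgroup.normalizer (H : Set G)) ⧸
              (Subgroup.centralizer (H : Set G)).subgroupOf (Subgroup.normalizer (H : Set G)))).comap
            (QuotientGroup.mk' _)).map (Subgroup.normalizer (H : Set G)).subtype)) ↔
    ((P : Subgroup G) ⊓ Subgroup.centralizer (H : Set G) ≤ H ∧
      (Cfsg.pPrimePCore p ↥(Subgroup.normalizer (H : Set G))).map (Subgroup.normalizer (H : Set G)).subtype =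
        H ⊔ Subgroup.centralizer (H : Set G)) := by
  set N := Subgroup.normalizer (H : Set G) with hN
  set C := (Subgroup.centralizer (H : Set G)).subgroupOf N with hCdef
  set L := (Cfsg.pCore p (↥N ⧸ C)).comap (QuotientGroup.mk' C) with hL
  have hHN : H ≤ N := Subgroup.le_normalizer
  set H' := H.subgroupOf N with hH'
  obtain ⟨T, hT⟩ : ∃ T : Sylow p N, (T : Subgroup N) = ((P : Subgroup G) ⊓ N).subgroupOf N :=
    ⟨((P.2.to_le inf_le_left).of_equiv (Subgroup.subgroupOfEquivOfLe inf_le_right).symm).toSylow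
      hSyl, rfl⟩
  haveI : H'.Normal := Subgroup.normal_subgroupOf_of_le_normalizer le_rfl
  haveI hLn : L.Normal := by
    haveI : (Cfsg.pCore p (↥N ⧸ C)).Normal := inferInstance
    infer_instance
  have hHT : H' ≤ T := by rw [hT]; exact fun x hx => ⟨hHP hx, x.2⟩
  have hHp : IsPGroup p H' := T.2.to_le hHT
  have hCmem : ∀ x : N, x ∈ C ↔ ∀ h ∈ H', h * x = x * h := by
    intro x
    rw [hCdef, Subgroup.mem_subgroupOf, Subgroup.mem_centralizer_iff]
    exact ⟨fun h k hk => Subtype.ext (h k hk),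
      fun h k hk => congrArg Subtype.val (h ⟨k, hHN hk⟩ hk)⟩
  have hHCle : H' ⊔ C ≤ L := by
    refine sup_le (Subgroup.map_le_iff_le_comap.1 (Cores.le_pCore
      (Subgroup.Normal.map ‹_› _ (QuotientGroup.mk'_surjective C)) (hHp.map _))) ?_
    exact QuotientGroup.le_comap_mk' _ _
  have hLC : ∀ g ∈ L, ∃ k, g ^ p ^ k ∈ C := by
    intro g hg
    obtain ⟨k, hk⟩ := (Cores.pCore_isPGroup (p := p) (G := ↥N ⧸ C)) ⟨_, hg⟩
    refine ⟨k, (QuotientGroup.eq_one_iff _).1 ?_⟩
    rw [QuotientGroup.mk_pow]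
    exact congrArg Subtype.val hk
  haveI := PSolv.pPrimePCore_normal p N
  set O := Cfsg.pPrimeCore p N with hO
  have hOC : O ≤ C := by
    intro x hx
    refine (hCmem x).2 fun h hh => ?_
    refine Subgroup.commute_of_normal_of_disjoint H' O ‹_› inferInstance ?_ h x hh hx
    rw [disjoint_iff, ← le_bot_iff, ← Cores.pCore_inf_pPrimeCore (G := N) (p := p)]
    exact inf_le_inf_right _ (Cores.le_pCore ‹_› hHp)
  have hOPmem : ∀ g, g ∈ Cfsg.pPrimePCore p N → ∃ k, g ^ p ^ k ∈ O := by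
    intro g hg
    obtain ⟨k, hk⟩ := (Cores.pCore_isPGroup (p := p) (G := ↥N ⧸ O)) ⟨_, hg⟩
    refine ⟨k, (QuotientGroup.eq_one_iff _).1 ?_⟩
    rw [QuotientGroup.mk_pow]
    exact congrArg Subtype.val hk
  have hKL : Cfsg.pPrimePCore p N ≤ L := by
    refine Subgroup.map_le_iff_le_comap.1 (Cores.le_pCore
      (Subgroup.Normal.map ‹_› _ (QuotientGroup.mk'_surjective C)) ?_)
    rintro ⟨_, g, hg, rfl⟩
    obtain ⟨k, hk⟩ := hOPmem g hg
    refine ⟨k, Subtype.ext ?_⟩
    show (QuotientGroup.mk' C g) ^ p ^ k = 1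
    rw [← map_pow]
    exact (QuotientGroup.eq_one_iff _).2 (hOC hk)
  have hTC : ((T : Subgroup N) ⊓ C ≤ H') ↔
      ((P : Subgroup G) ⊓ Subgroup.centralizer (H : Set G) ≤ H) := by
    constructor
    · intro h x hx
      have hxN : x ∈ N := Subgroup.centralizer_le_normalizer _ hx.2
      exact h (x := ⟨x, hxN⟩) ⟨by rw [hT]; exact ⟨hx.1, hxN⟩, hx.2⟩
    · intro h x hx
      exact h ⟨(hT ▸ hx.1 : x ∈ ((P : Subgroup G) ⊓ N).subgroupOf N).1, hx.2⟩
  have hidx : ∀ X : Subgroup N, H.relIndex (X.map N.subtype) = H'.relIndex X := fun X => by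
    conv_lhs => rw [← Subgroup.map_subgroupOf_eq_of_le hHN]
    exact Subgroup.relIndex_map_map_of_injective _ _ N.subtype_injective
  have hmapiff : ∀ X : Subgroup N, (H ≤ X.map N.subtype ↔ H' ≤ X) := fun X => by
    conv_lhs => rw [← Subgroup.map_subgroupOf_eq_of_le hHN]
    exact Subgroup.map_le_map_iff_of_injective N.subtype_injective
  have heq : ((Cfsg.pPrimePCore p N).map N.subtype = H ⊔ Subgroup.centralizer (H : Set G)) ↔
      Cfsg.pPrimePCore p N = H' ⊔ C := by
    rw [show H ⊔ Subgroup.centralizer (H : Set G) = (H' ⊔ C).map N.subtype by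
      rw [Subgroup.map_sup, Subgroup.map_subgroupOf_eq_of_le hHN,
        Subgroup.map_subgroupOf_eq_of_le (Subgroup.centralizer_le_normalizer _)]]
    exact ⟨fun h => Subgroup.map_injective N.subtype_injective h, fun h => h ▸ rfl⟩
  show (H ≤ L.map N.subtype ∧ ¬ p ∣ H.relIndex (L.map N.subtype)) ↔ _
  rw [hmapiff, hidx, heq, ← hTC]
  constructor
  · rintro ⟨-, hnd⟩
    have hTL : (T : Subgroup N) ⊓ L = H' := by
      refine le_antisymm ?_ (le_inf hHT (le_sup_left.trans hHCle))
      obtain ⟨j, hj⟩ := IsPGroup.iff_card.1 (T.2.to_le (inf_le_left : (T : Subgroup N) ⊓ L ≤ T))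
      obtain ⟨i, -, hi⟩ := (Nat.dvd_prime_pow Fact.out).1 (hj ▸ Subgroup.relIndex_dvd_card H' ((T : Subgroup N) ⊓ L))
      have hdvd : H'.relIndex ((T : Subgroup N) ⊓ L) ∣ H'.relIndex L :=
        Dvd.intro _ (Subgroup.relIndex_mul_relIndex H' ((T : Subgroup N) ⊓ L) L
          (le_inf hHT (le_sup_left.trans hHCle)) inf_le_right)
      rcases i with _ | i
      · rw [pow_zero] at hi
        exact Subgroup.relIndex_eq_one.1 hi
      · exact absurd ((Dvd.intro_left _ (pow_succ p i).symm).trans (hi ▸ hdvd)) hnd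
    have hTC' : (T : Subgroup N) ⊓ C ≤ H' := hTL ▸ inf_le_inf_left _ (le_sup_right.trans hHCle)
    refine ⟨hTC', ?_⟩
    obtain ⟨Q, hQ⟩ := Tech.exists_sylow_of_inf_normal T C
    have hQc : Subgroup.normalizer ((Q : Subgroup C) : Set C) ≤
        Subgroup.centralizer ((Q : Subgroup C) : Set C) := by
      refine fun c _ => Subgroup.mem_centralizer_iff.2 fun q hq => Subtype.ext ?_
      exact (hCmem c).1 c.2 q (hTC' (hQ ▸ Subgroup.mem_map_of_mem C.subtype hq))
    obtain ⟨N₁, hN₁, hcomp⟩ := (Transfer.hasNormalPComplement_iff_exists Q).1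
      (Transfer.hasNormalPComplement_of_normalizer_le_centralizer Q hQc)
    have hN₁O : N₁.map C.subtype ≤ O := by
      refine le_trans (Subgroup.map_mono (Cores.le_pPrimeCore hN₁ ?_)) Cores.map_subtype_pPrimeCore_le
      exact (Cores.coprime_iff_not_dvd_prime Fact.out).2
        (Transfer.card_coprime_of_mem_normal_complement Q hcomp)
    have hCle : C ≤ Cfsg.pPrimePCore p N := by
      intro c hc
      obtain ⟨⟨a, b⟩, hab⟩ := hcomp.2 ⟨c, hc⟩
      have : c = ((a : C) : N) * ((b : C) : N) := congrArg Subtype.val hab.symm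
      rw [this]
      refine mul_mem (PSolv.pPrimeCore_le_pPrimePCore
        (hN₁O (Subgroup.mem_map_of_mem C.subtype a.2))) ?_
      exact PSolv.pCore_le_pPrimePCore (Cores.le_pCore ‹H'.Normal› hHp
        (hTC' (hQ ▸ Subgroup.mem_map_of_mem C.subtype b.2)))
    refine le_antisymm (hKL.trans ?_) (sup_le
      ((Cores.le_pCore ‹_› hHp).trans PSolv.pCore_le_pPrimePCore) hCle)
    intro g hg
    obtain ⟨k, hk⟩ := hLC g hg
    by_contra hgn
    have hd : (H' ⊔ C).relIndex L ∣ H'.relIndex L := Subgroup.relIndex_dvd_of_le_left L le_sup_left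
    haveI : ((H' ⊔ C).subgroupOf L).Normal := inferInstance
    have hp1 : IsPGroup p (L ⧸ (H' ⊔ C).subgroupOf L) := by
      intro x
      obtain ⟨y, rfl⟩ := QuotientGroup.mk'_surjective _ x
      obtain ⟨j, hj⟩ := hLC y y.2
      refine ⟨j, ?_⟩
      rw [← map_pow]
      exact (QuotientGroup.eq_one_iff _).2
        (Subgroup.mem_subgroupOf.2 (Subgroup.mem_sup_right hj))
    obtain ⟨i, hi⟩ := IsPGroup.iff_card.1 hp1
    rcases i with _ | i
    · exact hgn (Subgroup.relIndex_eq_one.1 (hi.trans (pow_zero p)) hg)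
    · have hrel : (H' ⊔ C).relIndex L = p ^ (i + 1) := hi
      exact hnd ((Dvd.intro_left _ (pow_succ p i).symm).trans (hrel ▸ hd))
  · rintro ⟨hTC', hK⟩
    have hL' : L = H' ⊔ C := by
      refine le_antisymm ?_ hHCle
      rw [← hK]
      refine Subgroup.map_le_iff_le_comap.1 (Cores.le_pCore
        (Subgroup.Normal.map ‹_› _ (QuotientGroup.mk'_surjective O)) ?_)
      rintro ⟨_, g, hg, rfl⟩
      obtain ⟨k, hk⟩ := hLC g hg
      obtain ⟨j, hj⟩ := hOPmem _ (hK.ge (Subgroup.mem_sup_right hk))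
      refine ⟨k + j, Subtype.ext ?_⟩
      show (QuotientGroup.mk' O g) ^ p ^ (k + j) = 1
      rw [← map_pow, pow_add, pow_mul]
      exact (QuotientGroup.eq_one_iff _).2 hj
    refine ⟨hL' ▸ le_sup_left, ?_⟩
    rw [hL', Subgroup.relIndex_sup_left]
    obtain ⟨Q, hQ⟩ := Tech.exists_sylow_of_inf_normal T C
    intro hdvd
    have hle : (Q : Subgroup C) ≤ H'.subgroupOf C := fun q hq =>
      hTC' (hQ ▸ Subgroup.mem_map_of_mem C.subtype hq)
    exact Q.not_dvd_index (hdvd.trans (Subgroup.index_dvd_of_le hle))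

end Cfsg.Agent.S3076
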