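import Cfsg.Statements.S3086
import Cfsg.Agent.LocEven.Chermak.Main
-- import your own Cfsg.Agent.* helpers here

set_option autoImplicit false
open Cfsg

namespace Cfsg.Agent.S3086

open Cfsg.Agent.LocEven

/-- The P(G,V)-theorem. Let p be a prime, G a finite group acting faithfully and linearly on a finite vector space V over the field with p elements, and A a nontrivial elementary abelian p-subgroup of G such that |A|·|C_V(A)| ≥ |B|·|C_V(B)| for every subgroup B of A. Then A normalizes every component (subnormal quasisimple subgroup) of G. -/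
theorem result {G V : Type*} [Group G] [Finite G] [AddCommGroup V] [Finite V] (p : ℕ) [Fact p.Prime] [Module (ZMod p) V]
    (ρ : Representation (ZMod p) G V) (hρ : Function.Injective ρ)
    (A : Subgroup G) (hA : A ≠ ⊥) (hAel : Cfsg.IsElementaryAbelian p A)
    (hP : ∀ B : Subgroup G, B ≤ A →
      Nat.card ↥B * Nat.card {v : V // ∀ b ∈ B, ρ b v = v} ≤ Nat.card ↥A * Nat.card {v : V // ∀ a ∈ A, ρ a v = v}) :
    ∀ K : Subgroup G, Cfsg.IsComponent K → A ≤ Subgroup.normalizer (K : Set G) := by
  intro K hK a ha
  haveI : IsMulCommutative A := hAel.1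
  letI : CommGroup ↥A := { (inferInstance : Group ↥A) with mul_comm := fun x y => mul_comm' x y }
  let φ : G →* AddMonoid.End V :=
    { toFun := fun g => (ρ g).toAddMonoidHom
      map_one' := by rw [map_one]; rfl
      map_mul' := fun g h => by rw [map_mul]; rfl }
  have hφinj : Function.Injective φ := fun g h e => hρ (LinearMap.ext fun v => DFunLike.congr_fun e v)
  set σ := φ.comp K.subtype with hσ
  set α := φ.comp A.subtype with hα
  have htw : ∀ (c : A) (k : K), Chermak.tw σ α c k = φ ((c : G) * k * (c : G)⁻¹) := by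
    intro c k
    rw [Chermak.tw_apply, map_mul, map_mul]
    rfl
  have hnt : ∃ k, σ k ≠ 1 := by
    obtain ⟨k, hk⟩ := Subgroup.ne_bot_iff_exists_ne_one.mp (Components.component_ne_bot hK)
    exact ⟨k, fun h => hk (Subtype.ext (hφinj (h.trans (map_one φ).symm)))⟩
  have hV : ∀ v : V, p • v = 0 := fun v => by
    rw [← Nat.cast_smul_eq_nsmul (ZMod p), ZMod.natCast_self, zero_smul]
  have hAp : ∀ c : A, c ^ p = 1 := fun c => Subtype.ext (hAel.2 c c.2)
  have hH : ∀ c : A, Chermak.Norm σ α c ∨ Chermak.Moves σ α c := by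
    intro c
    by_cases hc : K.map (MulAut.conj (c : G)).toMonoidHom = K
    · left
      intro k
      refine ⟨⟨(c : G) * k * (c : G)⁻¹, hc.le ⟨k, k.2, rfl⟩⟩, ?_⟩
      rw [htw]; rfl
    · right
      intro k l
      have h := Components.component_commute hK (Components.component_conj (c : G) hK) (Ne.symm hc)
      have h1 : Commute (k : G) ((c : G) * l * (c : G)⁻¹) := by
        rw [← commutatorElement_eq_one_iff_commute]
        exact Subgroup.mem_bot.mp (h ▸ Subgroup.commutator_mem_commutator k.2 ⟨l, l.2, rfl⟩)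
      rw [htw]
      exact h1.map φ
  have hfix : ∀ B : Subgroup A, Nat.card (Chermak.fixA α B)
      = Nat.card {v : V // ∀ b ∈ B.map A.subtype, ρ b v = v} := by
    intro B
    refine Nat.card_congr (Equiv.subtypeEquivRight fun v => ?_)
    rw [Chermak.mem_fixA]
    constructor
    · rintro h _ ⟨b, hb, rfl⟩; exact h b hb
    · intro h b hb; exact h b ⟨b, hb, rfl⟩
  have hbest : ∀ B : Subgroup A, Chermak.wt α B ≤ Chermak.wt α ⊤ := by
    intro B
    unfold Chermak.wt
    have e : ∀ D : Subgroup A, Nat.card (D.map A.subtype) = Nat.card D := fun D =>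
      Subgroup.card_map_of_injective A.subtype_injective
    rw [hfix, hfix, ← e B, ← e ⊤,
      show (⊤ : Subgroup A).map A.subtype = A by
        rw [← MonoidHom.range_eq_map, Subgroup.range_subtype]]
    exact hP _ (Subgroup.map_subtype_le B)
  have hno := Chermak.not_moves hAp hK.2 (Nat.card V) V le_rfl σ α hnt hV hH hbest ⟨a, ha⟩
  rcases hH ⟨a, ha⟩ with hn | hm
  · rw [Subgroup.mem_normalizer_iff_map_conj_eq]
    refine Subgroup.eq_of_le_of_card_ge ?_
      (Subgroup.card_map_of_injective (MulAut.conj a).injective).ge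
    rintro _ ⟨k, hk, rfl⟩
    obtain ⟨l, hl⟩ := hn ⟨k, hk⟩
    rw [htw] at hl
    have := hφinj hl
    show a * k * a⁻¹ ∈ K
    rw [show a * k * a⁻¹ = (l : G) from this]
    exact l.2
  · exact absurd hm hno

end Cfsg.Agent.S3086
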