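import Cfsg.Statements.S3087
-- import your own Cfsg.Agent.* helpers here

set_option autoImplicit false
open Cfsg

namespace Cfsg.Agent.S3087

/-- Let p be a prime, G a finite group acting linearly on a finite vector space V over the field with p elements, W a G-invariant subspace, and A a subgroup of G with |A|·|C_V(A)| ≥ |B|·|C_V(B)| for every subgroup B of A. Then |A|·|C_W(A)| ≥ |B|·|C_W(B)| for every subgroup B of A that contains C_A(W); that is, the image of A in the group induced on W satisfies the same maximality condition. -/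
theorem result {G V : Type*} [Group G] [Finite G] [AddCommGroup V] [Finite V] (p : ℕ) [Fact p.Prime] [Module (ZMod p) V]
    (ρ : Representation (ZMod p) G V) (W : Submodule (ZMod p) V) (hW : ∀ g : G, ∀ w ∈ W, ρ g w ∈ W)
    (A : Subgroup G)
    (hP : ∀ B : Subgroup G, B ≤ A →
      Nat.card ↥B * Nat.card {v : V // ∀ b ∈ B, ρ b v = v} ≤ Nat.card ↥A * Nat.card {v : V // ∀ a ∈ A, ρ a v = v})
    (B : Subgroup G) (hBA : B ≤ A) (hCB : ∀ a ∈ A, (∀ w ∈ W, ρ a w = w) → a ∈ B) :
    Nat.card ↥B * Nat.card {w : W // ∀ b ∈ B, ρ b w = w} ≤ Nat.card ↥A * Nat.card {w : W // ∀ a ∈ A, ρ a w = w} := by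
  classical
  let CVB : AddSubgroup V :=
    { carrier := {v | ∀ b ∈ B, ρ b v = v}
      add_mem' := fun hu hv b hb => by rw [map_add, hu b hb, hv b hb]
      zero_mem' := fun b _ => map_zero _
      neg_mem' := fun hu b hb => by rw [map_neg, hu b hb] }
  let CVA : AddSubgroup V :=
    { carrier := {v | ∀ a ∈ A, ρ a v = v}
      add_mem' := fun hu hv b hb => by rw [map_add, hu b hb, hv b hb]
      zero_mem' := fun b _ => map_zero _
      neg_mem' := fun hu b hb => by rw [map_neg, hu b hb] }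
  let U : AddSubgroup V := W.toAddSubgroup ⊓ CVB
  have h1 : Nat.card {w : W // ∀ b ∈ B, ρ b w = w} = Nat.card U :=
    Nat.card_congr
      { toFun := fun w => ⟨w.1, w.1.2, w.2⟩
        invFun := fun v => ⟨⟨v.1, v.2.1⟩, v.2.2⟩
        left_inv := fun _ => rfl
        right_inv := fun _ => rfl }
  have h2 : Nat.card {w : W // ∀ a ∈ A, ρ a w = w} = Nat.card ↥(U ⊓ CVA) :=
    Nat.card_congr
      { toFun := fun w => ⟨w.1, ⟨w.1.2, fun b hb => w.2 b (hBA hb)⟩, w.2⟩
        invFun := fun v => ⟨⟨v.1, v.2.1.1⟩, v.2.2⟩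
        left_inv := fun _ => rfl
        right_inv := fun _ => rfl }
  let f : U × CVA →+ CVB :=
    { toFun := fun x => ⟨x.1.1 + x.2.1, CVB.add_mem x.1.2.2 fun b hb => x.2.2 b (hBA hb)⟩
      map_zero' := by ext; simp
      map_add' := fun x y => by ext; simp [add_add_add_comm] }
  have hker : Nat.card f.ker = Nat.card ↥(U ⊓ CVA) := by
    refine Nat.card_congr
      { toFun := fun x => ⟨x.1.1.1, x.1.1.2, ?_⟩
        invFun := fun v => ⟨(⟨v.1, v.2.1⟩, ⟨-v.1, CVA.neg_mem v.2.2⟩), ?_⟩
        left_inv := ?_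
        right_inv := fun _ => rfl }
    · have h := congrArg Subtype.val (AddMonoidHom.mem_ker.1 x.2)
      have h' : (x.1.1.1 : V) = -x.1.2.1 := eq_neg_of_add_eq_zero_left h
      rw [h']; exact CVA.neg_mem x.1.2.2
    · apply AddMonoidHom.mem_ker.2; ext; simp [f]
    · rintro ⟨⟨a, b⟩, hx⟩
      have h := congrArg Subtype.val (AddMonoidHom.mem_ker.1 hx)
      have h' : (a : V) = -(b : V) := eq_neg_of_add_eq_zero_left h
      ext <;> simp [h']
  have hle : Nat.card U * Nat.card CVA ≤ Nat.card CVB * Nat.card ↥(U ⊓ CVA) := by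
    rw [← Nat.card_prod, AddSubgroup.card_eq_card_quotient_mul_card_addSubgroup f.ker, hker]
    refine Nat.mul_le_mul_right _ ?_
    rw [Nat.card_congr (QuotientAddGroup.quotientKerEquivRange f).toEquiv]
    exact Nat.card_le_card_of_injective _ Subtype.val_injective
  rw [h1, h2]
  have hB : Nat.card B * Nat.card CVB ≤ Nat.card A * Nat.card CVA := hP B hBA
  have hpos : 0 < Nat.card CVA := Nat.card_pos
  refine Nat.le_of_mul_le_mul_right (c := Nat.card CVA) ?_ hpos
  calc Nat.card B * Nat.card U * Nat.card CVA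
      = Nat.card B * (Nat.card U * Nat.card CVA) := mul_assoc _ _ _
    _ ≤ Nat.card B * (Nat.card CVB * Nat.card ↥(U ⊓ CVA)) := Nat.mul_le_mul_left _ hle
    _ = Nat.card B * Nat.card CVB * Nat.card ↥(U ⊓ CVA) := (mul_assoc _ _ _).symm
    _ ≤ Nat.card A * Nat.card CVA * Nat.card ↥(U ⊓ CVA) := Nat.mul_le_mul_right _ hB
    _ = Nat.card A * Nat.card ↥(U ⊓ CVA) * Nat.card CVA := mul_right_comm _ _ _

end Cfsg.Agent.S3087
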