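import Cfsg.Statements.S3149
import Cfsg.Agent.H40.StdDouble
import Cfsg.Agent.H40.Ru2.Facts

set_option autoImplicit false
open Cfsg

namespace Cfsg.Agent.S3149

/-- Let G be a finite group with no nontrivial normal subgroup of odd order and A a standard subgroup of G which is a double cover of the Rudvalis group (the centre of A has order 2 and A modulo its centre is isomorphic to the Rudvalis group). If the centralizer of A in G has cyclic Sylow 2-subgroups, then A is normal in G. -/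
theorem result {G : Type*} [Group G] [Finite G] (hO : Cfsg.oddCore G = ⊥) (A : Subgroup G) (hA : Cfsg.IsStandardSubgroup A)
    (hZ : Nat.card ↥(Subgroup.center ↥A) = 2) (hAX : Cfsg.Spor.IsoRu (↥A ⧸ Subgroup.center ↥A))
    (hR : ∀ R : Sylow 2 ↥(Subgroup.centralizer (A : Set G)), IsCyclic ↥(R : Subgroup ↥(Subgroup.centralizer (A : Set G)))) : A.Normal := by
  obtain ⟨e⟩ := H40.Ru2.exists_equiv A hA.1 hZ hAX
  haveI : Finite ↥(commutator Cfsg.Spor.fourRu) := Finite.of_equiv _ e.symm.toEquiv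
  obtain ⟨z, hz, hc, h4, hcen, hinv, hsq⟩ := H40.Ru2.facts
  let T : Sylow 2 ↥A := H40.Ru2.TS.mapSurjective (f := e.toMonoidHom) e.surjective
  have hT : (T : Subgroup ↥A) = (H40.Ru2.TS : Subgroup ↥(commutator Cfsg.Spor.fourRu)).map e.toMonoidHom := rfl
  have hγ : ⁅⁅(T : Subgroup ↥A), (T : Subgroup ↥A)⁆, (T : Subgroup ↥A)⁆ =
      ⁅⁅(H40.Ru2.TS : Subgroup ↥(commutator Cfsg.Spor.fourRu)), (H40.Ru2.TS : Subgroup ↥(commutator Cfsg.Spor.fourRu))⁆, (H40.Ru2.TS : Subgroup ↥(commutator Cfsg.Spor.fourRu))⁆.map e.toMonoidHom := by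
    rw [hT, Subgroup.map_commutator, Subgroup.map_commutator]
  refine H40.StdDouble.normal_of_double hO A hA hR (e z) (by rw [MulEquiv.orderOf_eq, hz]) ?_ ?_ T ?_ ?_ ?_ ?_
  · refine le_antisymm (fun x hx => ?_) (Subgroup.zpowers_le.2 ?_)
    · have hm : e.symm x ∈ Subgroup.center ↥(commutator Cfsg.Spor.fourRu) :=
        Subgroup.mem_center_iff.2 fun g => e.injective (by simpa using Subgroup.mem_center_iff.1 hx (e g))
      rw [hc] at hm
      obtain ⟨n, hn⟩ := hm
      exact ⟨n, by show (e z) ^ n = x; rw [← map_zpow]; exact (congrArg e hn).trans (e.apply_symm_apply x)⟩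
    · refine Subgroup.mem_center_iff.2 fun g => e.symm.injective ?_
      have hzc : z ∈ Subgroup.center ↥(commutator Cfsg.Spor.fourRu) := hc ▸ Subgroup.mem_zpowers z
      simpa using Subgroup.mem_center_iff.1 hzc (e.symm g)
  · intro φ
    obtain ⟨l, hl⟩ := H40.Ru2.aut_inner ((e.trans φ).trans e.symm)
    refine ⟨e l, fun x => ?_⟩
    simpa using congrArg e (hl (e.symm x))
  · intro y hy
    exact h4 (e.symm y) (by rw [← map_pow, hy, e.symm_apply_apply])
  · rw [hT]
    rintro _ ⟨x, hx, rfl⟩ hcomm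
    show (e x) ^ 2 = 1
    rw [← map_pow, hcen x hx (fun t ht => ?_), map_one]
    exact e.injective (by simpa using (hcomm (e t) ⟨t, ht, rfl⟩).eq)
  · intro x hx hx1 hxz
    obtain ⟨h, hcm, w, hw, hw2⟩ := hinv (e.symm x) (by rw [← map_pow, hx, map_one])
      (fun h => hx1 (by simpa using congrArg e h)) (fun h => hxz (by simpa using congrArg e h))
    refine ⟨e h, ?_, e w, ?_, ?_⟩
    · rw [hT]
      rintro _ ⟨t, ht, rfl⟩
      simpa using (hcm t ht).map e
    · rw [hγ]; exact ⟨w, hw, rfl⟩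
    · rw [← map_pow, hw2]; simp
  · rw [hγ]
    rintro _ ⟨w, hw, rfl⟩ h
    exact hsq w hw (e.injective (by simpa using h))

end Cfsg.Agent.S3149
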