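import Cfsg.Statements.S3153
import Cfsg.Agent.Components.PComponent
import Cfsg.Agent.Cores.Pi
import Mathlib

set_option autoImplicit false
set_option linter.all false
open Cfsg

namespace Cfsg.Agent.S3153

open Subgroup

variable {X : Type*} [Group X]

/-- If two commuting involutions `t`, `t * p` have the same fixed points on a group `O` of odd
order and these fixed points are centralised by `p`, then `p` centralises `O`. -/
theorem centralizes_odd [Finite X] {O : Subgroup X} [O.Normal] (hodd : Odd (Nat.card O))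
    {t p : X} (ht : t * t = 1) (hp : p * p = 1) (htp : t * p = p * t)
    (hcp : ∀ x ∈ O, t * x = x * t → p * x = x * p)
    (hcu : ∀ x ∈ O, (t * p) * x = x * (t * p) → t * x = x * t) :
    ∀ x ∈ O, p * x = x * p := by
  obtain ⟨k, hk⟩ := hodd
  have hpow : ∀ y ∈ O, y ^ (2 * k + 1) = 1 := fun y hy => by
    rw [← hk]
    exact congrArg Subtype.val (pow_card_eq_one' (x := (⟨y, hy⟩ : O)))
  have hti : t⁻¹ = t := inv_eq_of_mul_eq_one_right ht
  have hpi : p⁻¹ = p := inv_eq_of_mul_eq_one_right hp
  have ct : ∀ y ∈ O, t * y * t ∈ O := fun y hy => by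
    simpa [hti] using Normal.conj_mem ‹O.Normal› y hy t
  have cp : ∀ y ∈ O, p * y * p ∈ O := fun y hy => by
    simpa [hpi] using Normal.conj_mem ‹O.Normal› y hy p
  have hT : ∀ a b : X, t * (a * b) * t = (t * a * t) * (t * b * t) := fun a b => by
    simp only [mul_assoc, ← mul_assoc t t, ht, one_mul]
  have hP : ∀ a b : X, p * (a * b) * p = (p * a * p) * (p * b * p) := fun a b => by
    simp only [mul_assoc, ← mul_assoc p p, hp, one_mul]
  have hTi : ∀ a : X, t * a⁻¹ * t = (t * a * t)⁻¹ := fun a => by rw [mul_inv_rev, mul_inv_rev, hti, mul_assoc]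
  have hPi : ∀ a : X, p * a⁻¹ * p = (p * a * p)⁻¹ := fun a => by rw [mul_inv_rev, mul_inv_rev, hpi, mul_assoc]
  intro x hx
  set y := x⁻¹ * (p * x * p) with hy
  have hyO : y ∈ O := O.mul_mem (O.inv_mem hx) (cp x hx)
  have hyp : p * y * p = y⁻¹ := by
    have hpp : p * (p * x * p) * p = x := by
      simp only [mul_assoc, ← mul_assoc p p, hp, one_mul, mul_one]
    rw [hy, hP, hPi, hpp]
    group
  set z := (t * y * t)⁻¹ * y with hz
  have hzO : z ∈ O := O.mul_mem (O.inv_mem (ct y hyO)) hyO
  set i := z ^ (k + 1) with hi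
  have hiO : i ∈ O := O.pow_mem hzO _
  have hi2 : i * i = z := by
    rw [hi, ← pow_add, show k + 1 + (k + 1) = (2 * k + 1) + 1 by ring, pow_succ, hpow z hzO, one_mul]
  have hit : t * i * t = i⁻¹ := by
    have hzt : t * z * t⁻¹ = z⁻¹ := by
      have htt : t * (t * y * t) * t = y := by
        simp only [mul_assoc, ← mul_assoc t t, ht, one_mul, mul_one]
      rw [hti, hz, hT, hTi, htt]
      group
    have := conj_pow (a := t) (b := z) (i := k + 1)
    rw [hzt, inv_pow, hti] at this
    rw [hi]
    exact this.symm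
  set c := y * i⁻¹ with hc
  have hcO : c ∈ O := O.mul_mem hyO (O.inv_mem hiO)
  have hct : t * c * t = c := by
    have h3 : t * y * t * (i * i) = y := by rw [hi2, hz, mul_inv_cancel_left]
    rw [hc, hT, hTi, hit, inv_inv]
    apply mul_right_cancel (b := i)
    rw [mul_assoc, h3, mul_assoc, inv_mul_cancel, mul_one]
  have hcpc : p * c * p = c := by
    have h := hcp c hcO (by
      conv_rhs => rw [← hct, mul_assoc, ht, mul_one])
    rw [h, mul_assoc, hp, mul_one]
  have e1 : c * (p * i * p) = i⁻¹ * c⁻¹ := by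
    have h : y = c * i := by rw [hc, inv_mul_cancel_right]
    have h' := hyp
    rw [h, hP, hcpc, mul_inv_rev] at h'
    exact h'
  have e2 : c * (p * i * p)⁻¹ = i * c⁻¹ := by
    have h : t * (c * (p * i * p)) * t = t * (i⁻¹ * c⁻¹) * t := by rw [e1]
    have hcomm : t * (p * i * p) * t = p * (t * i * t) * p := by
      calc t * (p * i * p) * t = (t * p) * i * (p * t) := by simp only [mul_assoc]
        _ = (p * t) * i * (t * p) := by rw [htp]
        _ = p * (t * i * t) * p := by simp only [mul_assoc]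
    rw [hT, hct, hcomm, hit, hPi, hT, hTi, hTi, hit, hct, inv_inv] at h
    exact h
  have e3 : c * c * i * (c * c) = i := by
    have h1 : p * i * p = c⁻¹ * i⁻¹ * c⁻¹ := by rw [mul_assoc c⁻¹, ← e1, inv_mul_cancel_left]
    rw [h1] at e2
    have h2 : c * (c * i * c) = i * c⁻¹ := by rw [← e2]; group
    calc c * c * i * (c * c) = c * (c * i * c) * c := by group
      _ = i := by rw [h2, inv_mul_cancel_right]
  set d := c * c with hd
  have hdO : d ∈ O := O.mul_mem hcO hcO
  have hdi : i⁻¹ * d * i = d⁻¹ := by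
    calc i⁻¹ * d * i = i⁻¹ * (d * i * d) * d⁻¹ := by group
      _ = d⁻¹ := by rw [e3, inv_mul_cancel, one_mul]
  have hdcomm : Commute i d := by
    have h2 : Commute (i ^ 2) d := by
      show i ^ 2 * d = d * i ^ 2
      have : (i ^ 2)⁻¹ * d * i ^ 2 = d := by
        calc (i ^ 2)⁻¹ * d * i ^ 2 = i⁻¹ * (i⁻¹ * d * i) * i := by rw [sq]; group
          _ = i⁻¹ * d⁻¹ * i := by rw [hdi]
          _ = (i⁻¹ * d * i)⁻¹ := by group
          _ = d := by rw [hdi, inv_inv]
      conv_lhs => rw [← this]
      group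
    have h3 := h2.pow_left (k + 1)
    rwa [← pow_mul, show 2 * (k + 1) = (2 * k + 1) + 1 by ring, pow_succ, hpow i hiO, one_mul] at h3
  have hd1 : d = 1 := by
    rw [mul_assoc, ← hdcomm.eq, inv_mul_cancel_left] at hdi
    have h2 : d ^ 2 = 1 := by rw [sq]; nth_rw 2 [hdi]; rw [mul_inv_cancel]
    have h := hpow d hdO
    rwa [pow_add, pow_mul, h2, one_pow, one_mul, pow_one] at h
  have hc1 : c = 1 := by
    have h2 : c ^ 2 = 1 := by rw [sq, ← hd, hd1]
    have h := hpow c hcO
    rwa [pow_add, pow_mul, h2, one_pow, one_mul, pow_one] at h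
  have hy1 : t * y * t = y⁻¹ := by
    rw [mul_inv_eq_one.1 (hc ▸ hc1 : y * i⁻¹ = 1)]
    exact hit
  have hyfix : t * y = y * t := by
    refine hcu y hyO ?_
    calc (t * p) * y = (t * (p * y * p) * t) * (t * p) := by
          simp only [mul_assoc, ← mul_assoc t t, ht, hp, one_mul, ← mul_assoc p p, mul_one]
      _ = y * (t * p) := by rw [hyp, hTi, hy1, inv_inv]
  have hy2 : y = 1 := by
    rw [hyfix, mul_assoc, ht, mul_one] at hy1
    have h2 : y ^ 2 = 1 := by rw [sq]; nth_rw 2 [hy1]; rw [mul_inv_cancel]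
    have h := hpow y hyO
    rwa [pow_add, pow_mul, h2, one_pow, one_mul, pow_one] at h
  rw [hy, inv_mul_eq_one] at hy2
  conv_rhs => rw [hy2, mul_assoc, hp, mul_one]

/-- A perfect group has no nontrivial map into an abelian target given by commutators. -/
theorem perfect_hom_trivial {P A : Type*} [Group P] [Group A] (hP : Group.IsPerfect P) (f : P →* A)
    (hf : ∀ a b, f a * f b = f b * f a) (x : P) : f x = 1 := by
  have h : commutator P ≤ f.ker := by
    rw [commutator_def, Subgroup.commutator_le]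
    intro a _ b _
    rw [MonoidHom.mem_ker, map_commutatorElement, commutatorElement_eq_one_iff_mul_comm]
    exact hf a b
  have hx : x ∈ commutator P := by rw [hP.commutator_eq_top]; trivial
  exact MonoidHom.mem_ker.1 (h hx)


/-- Let X be a finite group and P a standard subgroup of X whose centralizer has 2-rank at most 1 and whose centre has odd order. Let S be a Sylow 2-subgroup of N_X(P) and t an involution of S centralizing P. Suppose some element g of X normalizes S, does not lie in S, has its square in S, and conjugates t into P·C_X(P). Then P commutes elementwise with the largest normal odd-order subgroup O(X) of X; consequently every t-invariant 2-component of X containing P is quasisimple. -/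
theorem result {X : Type*} [Group X] [Finite X] (P : Subgroup X) (hP : Cfsg.IsStandardSubgroup P)
    (hr : Cfsg.PRankLE 2 1 ↥(Subgroup.centralizer (P : Set X))) (hZ : Odd (Nat.card ↥(Subgroup.center ↥P)))
    (S : Sylow 2 ↥(Subgroup.normalizer (P : Set X))) (t : X) (ht : orderOf t = 2) (htS : t ∈ (S : Subgroup ↥(Subgroup.normalizer (P : Set X))).map (Subgroup.normalizer (P : Set X)).subtype)
    (htP : t ∈ Subgroup.centralizer (P : Set X))
    (g : X) (hgN : ∀ s ∈ (S : Subgroup ↥(Subgroup.normalizer (P : Set X))).map (Subgroup.normalizer (P : Set X)).subtype, g * s * g⁻¹ ∈ (S : Subgroup ↥(Subgroup.normalizer (P : Set X))).map (Subgroup.normalizer (P : Set X)).subtype)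
    (hgS : g ∉ (S : Subgroup ↥(Subgroup.normalizer (P : Set X))).map (Subgroup.normalizer (P : Set X)).subtype) (hg2 : g ^ 2 ∈ (S : Subgroup ↥(Subgroup.normalizer (P : Set X))).map (Subgroup.normalizer (P : Set X)).subtype)
    (hgt : g * t * g⁻¹ ∈ P ⊔ Subgroup.centralizer (P : Set X)) :
    ⁅P, Cfsg.oddCore X⁆ = ⊥ ∧
      ∀ L : Subgroup X, Cfsg.IsPComponent 2 L → P ≤ L → (∀ l ∈ L, t * l * t⁻¹ ∈ L) → Cfsg.IsQuasisimple ↥L := by
  classical
  haveI : Fact (Nat.Prime 2) := ⟨Nat.prime_two⟩
  set C := centralizer (P : Set X) with hCdef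
  set SS := (S : Subgroup ↥(normalizer (P : Set X))).map (normalizer (P : Set X)).subtype with hSS
  set O := Cfsg.oddCore X with hOdef
  haveI : O.Normal := inferInstance
  have hOodd : Odd (Nat.card O) := Cfsg.Agent.Cores.odd_card_oddCore
  obtain ⟨hqs, htight, -, hNC⟩ := hP
  have hPC : ∀ a ∈ P, ∀ c ∈ C, a * c = c * a := fun a ha c hc => mem_centralizer_iff.1 hc a ha
  have ht2 : t * t = 1 := by rw [← sq, ← ht, pow_orderOf_eq_one]
  have ht1 : t ≠ 1 := fun h => by rw [h, orderOf_one] at ht; omega
  have hti : t⁻¹ = t := inv_eq_of_mul_eq_one_right ht2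
  -- commuting involutions of the centralizer coincide
  have hunique : ∀ a ∈ C, ∀ b ∈ C, a * a = 1 → b * b = 1 → a * b = b * a → a ≠ 1 → b ≠ 1 → a = b := by
    intro a ha b hb ha2 hb2 hab ha1 hb1
    by_contra hne
    let a' : C := ⟨a, ha⟩
    let b' : C := ⟨b, hb⟩
    let E : Subgroup C := closure {a', b'}
    have hab' : Commute a' b' := Subtype.ext hab
    have hpair : ∀ u ∈ ({a', b'} : Set C), ∀ v ∈ ({a', b'} : Set C), u * v = v * u := by
      rintro u (rfl | rfl) v (rfl | rfl) <;> first | rfl | exact hab'.eq | exact hab'.symm.eq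
    have hcomm : IsMulCommutative E := Subgroup.isMulCommutative_closure hpair
    have hexp : ∀ u ∈ E, u ^ 2 = 1 := by
      intro u hu
      induction hu using Subgroup.closure_induction with
      | mem w hw =>
        rcases hw with rfl | rfl
        · rw [sq]; exact Subtype.ext ha2
        · rw [sq]; exact Subtype.ext hb2
      | one => simp
      | mul v w hv hw h1 h2 =>
        have hc : Commute v w := congrArg Subtype.val (hcomm.is_comm.comm ⟨v, hv⟩ ⟨w, hw⟩)
        rw [hc.mul_pow, h1, h2, one_mul]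
      | inv v _ h1 => rw [inv_pow, h1, inv_one]
    have h3 : 3 ≤ Nat.card E := by
      classical
      have hsub : (({1, a', b'} : Finset C) : Set C) ⊆ (E : Set C) := by
        intro v hv
        simp only [Finset.coe_insert, Finset.coe_singleton, Set.mem_insert_iff, Set.mem_singleton_iff] at hv
        rcases hv with rfl | rfl | rfl
        · exact E.one_mem
        · exact subset_closure (Or.inl rfl)
        · exact subset_closure (Or.inr rfl)
      have hle := Set.ncard_le_ncard hsub
      rw [Set.ncard_coe_finset] at hle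
      have h3' : ({1, a', b'} : Finset C).card = 3 :=
        Finset.card_eq_three.2 ⟨1, a', b', fun h => ha1 (congrArg Subtype.val h).symm,
          fun h => hb1 (congrArg Subtype.val h).symm, fun h => hne (congrArg Subtype.val h), rfl⟩
      rw [h3'] at hle
      exact hle
    have := hr E hcomm hexp
    omega
  -- `t` is central in `SS`
  have htC : t ∈ C := htP
  have hSN : ∀ s ∈ SS, s ∈ (normalizer (P : Set X)) := fun s hs => map_subtype_le _ hs
  have htcen : ∀ s ∈ SS, t * s = s * t := by
    have hR : IsPGroup 2 ↥(SS ⊓ C) := (S.isPGroup'.map (normalizer (P : Set X)).subtype).to_le inf_le_left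
    have hRn : Nontrivial ↥(SS ⊓ C) :=
      ⟨⟨⟨t, htS, htC⟩, 1, fun h => ht1 (congrArg Subtype.val h)⟩⟩
    have := hR.center_nontrivial
    obtain ⟨z, hz1, hz2⟩ : ∃ z : center ↥(SS ⊓ C), z ≠ 1 ∧ z ^ 2 = 1 := by
      obtain ⟨z, hz⟩ := exists_prime_orderOf_dvd_card' 2 (G := center ↥(SS ⊓ C))
        ((hR.to_subgroup _).card_eq_or_dvd.resolve_left (Finite.one_lt_card.ne'))
      exact ⟨z, fun h => by rw [h, orderOf_one] at hz; omega, by rw [← hz, pow_orderOf_eq_one]⟩
    set zx : X := ((z : ↥(SS ⊓ C)) : X) with hzx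
    have hzu : ∀ w ∈ SS, w ∈ C → w * w = 1 → w ≠ 1 → w = zx := by
      intro w hw hwC hw2 hw1
      have hzz : zx * zx = 1 := by
        rw [← sq]
        exact congrArg (fun q : center ↥(SS ⊓ C) => ((q : ↥(SS ⊓ C)) : X)) hz2
      have hzc := congrArg Subtype.val (mem_center_iff.1 z.2 ⟨w, hw, hwC⟩)
      exact hunique w hwC zx (z : ↥(SS ⊓ C)).2.2 hw2 hzz hzc hw1
        (fun h => hz1 (Subtype.ext (Subtype.ext h)))
    intro s hs
    have hsC : s * t * s⁻¹ ∈ C := by
      have hsN : s ∈ normalizer (C : Set X) := by rw [← hNC]; exact hSN s hs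
      exact (mem_normalizer_iff.1 hsN t).1 htC
    have h1 : s * t * s⁻¹ = zx := hzu _ (SS.mul_mem (SS.mul_mem hs htS) (SS.inv_mem hs)) hsC
      (by rw [conj_mul, ht2]; group) (fun h => ht1 (conj_eq_one_iff.1 h))
    rw [← hzu t htS htC ht2 ht1, mul_inv_eq_iff_eq_mul] at h1
    exact h1.symm
  -- the centralizer of `t` lies in `(normalizer (P : Set X))`
  have hCt : ∀ x : X, t * x = x * t → x ∈ (normalizer (P : Set X)) := by
    intro x hx
    rw [hNC]
    by_contra hxn
    have hodd := htight.2 x hxn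
    have hmem : t ∈ C ⊓ C.map (MulAut.conj x).toMonoidHom :=
      ⟨htC, ⟨t, htC, by simp [← hx]⟩⟩
    have h2 : orderOf (⟨t, hmem⟩ : ↥(C ⊓ C.map (MulAut.conj x).toMonoidHom)) = 2 := by
      rw [← orderOf_coe]; exact ht
    have := h2 ▸ orderOf_dvd_natCard (⟨t, hmem⟩ : ↥(C ⊓ C.map (MulAut.conj x).toMonoidHom))
    exact Nat.not_even_iff_odd.2 hodd (even_iff_two_dvd.2 this)
  -- `u = g t g⁻¹` is `p` or `p * t` for an involution `p` of `P`
  set u := g * t * g⁻¹ with hu
  have hu2 : u * u = 1 := by rw [hu, conj_mul, ht2]; group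
  have huS : u ∈ SS := hgN t htS
  have hut : t * u = u * t := htcen u huS
  have hu1 : u ≠ 1 := fun h => ht1 (conj_eq_one_iff.1 (hu ▸ h))
  have hune : u ≠ t := by
    intro h
    have hgN' : g ∈ (normalizer (P : Set X)) := hCt g (mul_inv_eq_iff_eq_mul.1 (hu ▸ h)).symm
    have hgn : (⟨g, hgN'⟩ : ↥(normalizer (P : Set X))) ∈ normalizer ((S : Subgroup ↥(normalizer (P : Set X))) : Set ↥(normalizer (P : Set X))) := by
      refine mem_normalizer_fintype ?_
      intro s hs
      obtain ⟨s', hs', he⟩ := hgN s ⟨s, hs, rfl⟩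
      have : s' = ⟨g, hgN'⟩ * s * ⟨g, hgN'⟩⁻¹ := Subtype.ext he
      exact this ▸ hs'
    apply hgS
    refine ⟨⟨g, hgN'⟩, ?_, rfl⟩
    obtain ⟨s', hs', he⟩ := hg2
    have hsq : (⟨g, hgN'⟩ : ↥(normalizer (P : Set X))) ^ 2 ∈ (S : Subgroup ↥(normalizer (P : Set X))) := by
      have : s' = (⟨g, hgN'⟩ : ↥(normalizer (P : Set X))) ^ 2 := Subtype.ext (by simpa using he)
      exact this ▸ hs'
    set M := normalizer ((S : Subgroup ↥(normalizer (P : Set X))) : Set ↥(normalizer (P : Set X)))
    set T := (S : Subgroup ↥(normalizer (P : Set X))).subgroupOf M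
    have : T.Normal := inferInstance
    have hnd : ¬ 2 ∣ T.index := fun hd => S.not_dvd_index (hd.trans
      (relIndex_dvd_index_of_le (le_normalizer : (S : Subgroup ↥(normalizer (P : Set X))) ≤ M)))
    set q : M ⧸ T := QuotientGroup.mk ⟨_, hgn⟩
    have hq : q ^ 2 = 1 := by
      rw [← QuotientGroup.mk_pow, QuotientGroup.eq_one_iff]; exact hsq
    have hd := Nat.dvd_gcd (orderOf_dvd_of_pow_eq_one hq) (orderOf_dvd_natCard q)
    rw [← index_eq_card, ((Nat.prime_two.coprime_iff_not_dvd).2 hnd).gcd_eq_one, Nat.dvd_one,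
      orderOf_eq_one_iff, QuotientGroup.eq_one_iff] at hd
    exact hd
  obtain ⟨p, hpP, hp2, hp1, hpu⟩ : ∃ p ∈ P, p * p = 1 ∧ p ≠ 1 ∧ (u = p ∨ u = p * t) := by
    obtain ⟨a, ha, b, hb, hgab⟩ : ∃ a ∈ P, ∃ b ∈ C, a * b = u := by
      have h : u ∈ ((P ⊔ C : Subgroup X) : Set X) := hgt
      rw [Subgroup.coe_mul_of_right_le_normalizer_left P C
        (fun c hc => by rw [hNC]; exact le_normalizer hc)] at h
      exact h
    have hab : a * b = b * a := hPC a ha b hb
    have haZ : a * a = (b * b)⁻¹ := by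
      apply eq_inv_of_mul_eq_one_left
      calc a * a * (b * b) = a * (a * b) * b := by group
        _ = a * (b * a) * b := by rw [hab]
        _ = a * b * (a * b) := by group
        _ = 1 := by rw [hgab, hu2]
    obtain ⟨m, hm⟩ := hZ
    have ham : (a * a) ^ (2 * m + 1) = 1 := by
      have hc : (⟨a * a, P.mul_mem ha ha⟩ : P) ∈ center ↥P := by
        rw [mem_center_iff]
        intro w
        apply Subtype.ext
        show (w : X) * (a * a) = a * a * w
        rw [haZ]
        exact hPC _ w.2 _ (C.inv_mem (C.mul_mem hb hb))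
      have := pow_card_eq_one' (x := (⟨_, hc⟩ : center ↥P))
      rw [hm] at this
      exact congrArg (fun w : center ↥P => ((w : P) : X)) this
    set p := a ^ (2 * m + 1) with hp
    set c := b ^ (2 * m + 1) with hc
    have hupc : u = p * c := by
      rw [hp, hc, ← (show Commute a b from hab).mul_pow, hgab, pow_succ, pow_mul, sq, hu2, one_pow,
        one_mul]
    have hpC : p ∈ P := P.pow_mem ha _
    have hcC : c ∈ C := C.pow_mem hb _
    have hpp : p * p = 1 := by rw [hp, ← (Commute.refl a).mul_pow, ham]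
    have hpc : p * c = c * p := hPC p hpC c hcC
    have hcc : c * c = 1 := by
      calc c * c = p * p * (c * c) := by rw [hpp, one_mul]
        _ = p * (p * c) * c := by group
        _ = p * (c * p) * c := by rw [hpc]
        _ = p * c * (p * c) := by group
        _ = 1 := by rw [← hupc, hu2]
    have htp : t * p = p * t := (hPC p hpC t htC).symm
    have htc : t * c = c * t := by
      apply mul_left_cancel (a := p)
      rw [← mul_assoc, ← htp, mul_assoc, ← hupc, hut, hupc, mul_assoc]
    by_cases hc1 : c = 1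
    · rw [hc1, mul_one] at hupc
      exact ⟨p, hpC, hpp, hupc ▸ hu1, Or.inl hupc⟩
    · have hct : c = t := hunique c hcC t htC hcc ht2 htc.symm hc1 ht1
      rw [hct] at hupc
      refine ⟨p, hpC, hpp, fun h => hune ?_, Or.inr hupc⟩
      rw [hupc, h, one_mul]
  -- fixed points of `t` on the core centralise `P`
  have hOcap : ∀ x ∈ P, x ∈ O → ∀ w ∈ P, w * x = x * w := by
    intro x hxP hxO w hw
    rcases Cfsg.Agent.Components.quasisimple_normal hqs (N := O.subgroupOf P) inferInstance with h | h
    · exfalso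
      have hPO : P ≤ O := subgroupOf_eq_top.1 h
      have h2 : orderOf (⟨p, hpP⟩ : P) = 2 := orderOf_eq_prime
        (by rw [sq]; exact Subtype.ext hp2) (fun h => hp1 (congrArg Subtype.val h))
      have := (h2 ▸ orderOf_dvd_natCard (⟨p, hpP⟩ : P)).trans (card_dvd_of_le hPO)
      exact Nat.not_even_iff_odd.2 hOodd (even_iff_two_dvd.2 this)
    · exact congrArg Subtype.val (mem_center_iff.1 (h (show (⟨x, hxP⟩ : P) ∈ O.subgroupOf P from hxO)) ⟨w, hw⟩)
  have hCO : ∀ x ∈ O, t * x = x * t → x ∈ C := by
    intro x hxO hx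
    have hxN := hCt x hx
    have hmemP : ∀ w ∈ P, x * w * x⁻¹ * w⁻¹ ∈ P ∧ x * w * x⁻¹ * w⁻¹ ∈ O := by
      intro w hw
      refine ⟨P.mul_mem ((mem_normalizer_iff.1 hxN w).1 hw) (P.inv_mem hw), ?_⟩
      rw [mul_assoc, mul_assoc]
      refine O.mul_mem hxO ?_
      rw [← mul_assoc]
      exact Normal.conj_mem ‹O.Normal› _ (O.inv_mem hxO) w
    let f : P →* P :=
      { toFun := fun w => ⟨x * w * x⁻¹ * (w : X)⁻¹, (hmemP w w.2).1⟩
        map_one' := by ext; simp
        map_mul' := by
          intro a b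
          ext
          show x * ((a : X) * b) * x⁻¹ * ((a : X) * b)⁻¹ =
            x * a * x⁻¹ * (a : X)⁻¹ * (x * b * x⁻¹ * (b : X)⁻¹)
          have hb := hmemP b b.2
          have hc := hOcap _ hb.1 hb.2 a a.2
          calc x * ((a : X) * b) * x⁻¹ * ((a : X) * b)⁻¹
              = (x * a * x⁻¹) * ((x * b * x⁻¹ * (b : X)⁻¹) * (a : X)⁻¹) := by group
            _ = (x * a * x⁻¹) * ((a : X)⁻¹ * (x * b * x⁻¹ * (b : X)⁻¹)) := by
              rw [(Commute.inv_left (show Commute (a : X) _ from hc)).eq]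
            _ = _ := by group }
    rw [hCdef, mem_centralizer_iff]
    intro w hw
    have h := perfect_hom_trivial hqs.1 f (fun a b => Subtype.ext
      (hOcap _ (hmemP b b.2).1 (hmemP b b.2).2 _ (hmemP a a.2).1)) ⟨w, hw⟩
    exact (mul_inv_eq_iff_eq_mul.1 (mul_inv_eq_one.1 (congrArg Subtype.val h))).symm
  have hfix : ∀ x ∈ O, t * x = x * t → p * x = x * p := fun x hx h =>
    hPC p hpP x (hCO x hx h)
  have hfix' : ∀ x ∈ O, u * x = x * u → t * x = x * t := by
    set F := {x : X | x ∈ O ∧ t * x = x * t}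
    set F' := {x : X | x ∈ O ∧ u * x = x * u}
    have hsub : F ⊆ F' := by
      rintro x ⟨hx, hxt⟩
      refine ⟨hx, ?_⟩
      rcases hpu with h | h <;> rw [h]
      · exact hfix x hx hxt
      · exact (Commute.mul_left (show Commute p x from hfix x hx hxt) hxt).eq
    have himg : (fun x => g * x * g⁻¹) '' F = F' := by
      ext x
      constructor
      · rintro ⟨w, ⟨hw, hwt⟩, rfl⟩
        refine ⟨Normal.conj_mem ‹O.Normal› w hw g, ?_⟩
        rw [hu, conj_mul, conj_mul, hwt]
      · rintro ⟨hx, hxu⟩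
        refine ⟨g⁻¹ * x * g, ⟨?_, ?_⟩, by group⟩
        · simpa using Normal.conj_mem ‹O.Normal› x hx g⁻¹
        · calc t * (g⁻¹ * x * g) = g⁻¹ * (u * x) * g := by rw [hu]; group
            _ = g⁻¹ * x * g * t := by rw [hxu, hu]; group
    have heq : F = F' := Set.eq_of_subset_of_ncard_le hsub (by
      rw [← himg, Set.ncard_image_of_injective _ (fun a b h => by simpa using h)])
    intro x hx h
    exact ((Set.ext_iff.1 heq x).2 ⟨hx, h⟩).2
  -- some product with `p` centralises the core
  have htp : t * p = p * t := (hPC p hpP t htC).symm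
  have hcore : ∀ w ∈ P, ∀ x ∈ O, (p⁻¹ * (w * p * w⁻¹)) * x = x * (p⁻¹ * (w * p * w⁻¹)) := by
    intro w hw
    have hconj : ∀ q : X, (∀ x ∈ O, q * x = x * q) → ∀ x ∈ O, w * q * w⁻¹ * x = x * (w * q * w⁻¹) := by
      intro q hq x hx
      have hx' : w⁻¹ * x * w ∈ O := by simpa using Normal.conj_mem ‹O.Normal› x hx w⁻¹
      calc w * q * w⁻¹ * x = w * (q * (w⁻¹ * x * w)) * w⁻¹ := by group
        _ = x * (w * q * w⁻¹) := by rw [hq _ hx']; group
    rcases hpu with h | h
    · -- here `t * p` centralises the core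
      have hq : ∀ x ∈ O, (t * p) * x = x * (t * p) := by
        refine centralizes_odd hOodd ht2 ?_ ?_ ?_ ?_
        · rw [mul_assoc, ← mul_assoc p, ← htp, mul_assoc t, hp2, mul_one, ht2]
        · rw [mul_assoc, htp]
        · intro x hx hxt
          exact (Commute.mul_left (show Commute t x from hxt) (hfix x hx hxt)).eq
        · intro x hx hxp
          rw [← mul_assoc, ht2, one_mul, ← h] at hxp
          exact hfix' x hx hxp
      intro x hx
      have h1 : (t * p)⁻¹ * (w * (t * p) * w⁻¹) = p⁻¹ * (w * p * w⁻¹) := by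
        have hwt : w * t = t * w := hPC w hw t htC
        calc (t * p)⁻¹ * (w * (t * p) * w⁻¹) = p⁻¹ * t⁻¹ * ((w * t) * p * w⁻¹) := by group
          _ = p⁻¹ * (w * p * w⁻¹) := by rw [hwt]; group
      rw [← h1]
      exact (Commute.mul_left (Commute.inv_left (show Commute (t * p) x from hq x hx))
        (hconj _ hq x hx)).eq
    · have hq : ∀ x ∈ O, p * x = x * p := centralizes_odd hOodd ht2 hp2 htp hfix (by
        intro x hx hxu
        rw [htp, ← h] at hxu
        exact hfix' x hx hxu)
      intro x hx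
      exact (Commute.mul_left (Commute.inv_left (show Commute p x from hq x hx))
        (hconj _ hq x hx)).eq
  have hPO : ∀ w ∈ P, ∀ x ∈ O, w * x = x * w := by
    let K : Subgroup P := (centralizer (O : Set X)).subgroupOf P
    have hKn : K.Normal := inferInstance
    rcases Cfsg.Agent.Components.quasisimple_normal hqs hKn with hK | hK
    · intro w hw x hx
      exact (mem_centralizer_iff.1 (subgroupOf_eq_top.1 hK hw) x hx).symm
    · exfalso
      let p' : P := ⟨p, hpP⟩
      have hz : ∀ w : P, p'⁻¹ * (w * p' * w⁻¹) ∈ center ↥P := fun w => hK (mem_subgroupOf.2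
        (mem_centralizer_iff.2 fun x hx => (hcore w w.2 x hx).symm))
      let f : P →* P :=
        { toFun := fun w => p'⁻¹ * (w * p' * w⁻¹)
          map_one' := by group
          map_mul' := by
            intro a b
            have hb := mem_center_iff.1 (hz b) a
            calc p'⁻¹ * (a * b * p' * (a * b)⁻¹)
                = p'⁻¹ * a * p' * ((p'⁻¹ * (b * p' * b⁻¹)) * a⁻¹) := by group
              _ = p'⁻¹ * a * p' * (a⁻¹ * (p'⁻¹ * (b * p' * b⁻¹))) := by
                rw [(Commute.inv_left (show Commute a _ from hb)).eq]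
              _ = _ := by group }
      have hpc : p' ∈ center ↥P := by
        rw [mem_center_iff]
        intro w
        have h := perfect_hom_trivial hqs.1 f (fun a b => mem_center_iff.1 (hz b) _) w
        exact mul_inv_eq_iff_eq_mul.1 (inv_mul_eq_one.1 h).symm
      have h2 : orderOf (⟨p', hpc⟩ : center ↥P) = 2 := orderOf_eq_prime
        (by rw [sq]; exact Subtype.ext (Subtype.ext hp2))
        (fun h => hp1 (congrArg (fun z : center ↥P => ((z : P) : X)) h))
      have := h2 ▸ orderOf_dvd_natCard (⟨p', hpc⟩ : center ↥P)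
      exact Nat.not_even_iff_odd.2 hZ (even_iff_two_dvd.2 this)
  have hbot : ⁅P, O⁆ = ⊥ := by
    rw [commutator_eq_bot_iff_le_centralizer]
    exact fun w hw => mem_centralizer_iff.2 fun x hx => (hPO w hw x hx).symm
  refine ⟨hbot, fun L hL hPL _ => ?_⟩
  have hcentral : L ≤ centralizer (O : Set X) := by
    set K := L ⊓ centralizer (O : Set X) with hK
    suffices K = L by rw [← this]; exact inf_le_right
    have hKn : (K.subgroupOf L).Normal := by rw [hK, inf_subgroupOf_left]; infer_instance
    refine hL.2.2 K (IsSubnormal.step _ L inf_le_left hL.1 hKn) inf_le_left ?_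
    set π := QuotientGroup.mk' (Cfsg.pPrimeCore 2 X)
    have hPK : P ≤ K := le_inf hPL ((commutator_eq_bot_iff_le_centralizer).1 hbot)
    refine (Cfsg.Agent.Components.quasisimple_normalized hL.2.1.2 (map_mono inf_le_left) ?_).resolve_right ?_
    · exact (map_mono ((normal_subgroupOf_iff_le_normalizer inf_le_left).1 hKn)).trans (le_normalizer_map _)
    · intro hb
      have h1 : (⁅P, P⁆).map π = ⊥ := by
        rw [Subgroup.map_commutator, eq_bot_iff, ← hb]
        exact commutator_mono (map_mono hPL) (map_mono hPK)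
      rw [Cfsg.Agent.Components.quasisimple_commutator_self hqs, Subgroup.map_eq_bot_iff, QuotientGroup.ker_mk'] at h1
      have h2 : orderOf (⟨p, hpP⟩ : P) = 2 := orderOf_eq_prime
        (by rw [sq]; exact Subtype.ext hp2) (fun h => hp1 (congrArg Subtype.val h))
      have := (h2 ▸ orderOf_dvd_natCard (⟨p, hpP⟩ : P)).trans (card_dvd_of_le h1)
      exact Nat.not_even_iff_odd.2 hOodd (even_iff_two_dvd.2 this)
  rw [Cfsg.Agent.Components.pComponent_quasisimple_iff hL, commutator_eq_bot_iff_le_centralizer]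
  exact hcentral.trans (centralizer_le inf_le_right)

end Cfsg.Agent.S3153
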