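import Cfsg.Statements.S3154
import Cfsg.Agent.Lib.PSL34Parabolic
import Cfsg.Agent.Linear.PermIso

set_option autoImplicit false
open Cfsg

namespace Cfsg.Agent.S3154

theorem eight_six : (64 : ℕ) = 2 ^ (20160 : ℕ).factorization 2 := by
  have h : (20160 : ℕ) = 2 ^ 6 * 315 := by norm_num
  rw [h, Nat.factorization_mul (by norm_num) (by norm_num), Nat.Prime.factorization_pow Nat.prime_two]
  simp [Nat.factorization_eq_zero_of_not_dvd (show ¬ 2 ∣ 315 by norm_num)]

/-- Let X be a finite quasisimple group whose centre is an elementary abelian 2-group and whose central quotient is isomorphic to the projective special linear group of dimension 3 over the field with 4 elements. Let T be a Sylow 2-subgroup of X and H ≠ K subgroups of T containing the centre Z(X) whose images in X/Z(X) are elementary abelian of order 16 (the two such subgroups of a Sylow 2-subgroup of the quotient). Then H and K are elementary abelian, H ∩ K is the centre of the subgroup they generate, and each of N_X(H),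 N_X(K) is a split extension of H, respectively K, by the projective special linear group of dimension 2 over the field with 4 elements (there is a complement isomorphic to that group). -/
theorem result {X : Type*} [Group X] [Finite X] (hq : Cfsg.IsQuasisimple X) (hZ : Cfsg.IsElementaryAbelian 2 (Subgroup.center X))
    {F : Type*} [Field F] [Fintype F] (hF : Fintype.card F = 4) (hXL : Nonempty ((X ⧸ Subgroup.center X) ≃* Matrix.ProjectiveSpecialLinearGroup (Fin 3) F))
    (T : Sylow 2 X) (H K : Subgroup X) (hHK : H ≠ K) (hHT : H ≤ T) (hKT : K ≤ T) (hZH : Subgroup.center X ≤ H) (hZK : Subgroup.center X ≤ K)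
    (hH : Cfsg.IsElementaryAbelian 2 (H.map (QuotientGroup.mk' (Subgroup.center X))) ∧ Nat.card ↥(H.map (QuotientGroup.mk' (Subgroup.center X))) = 16)
    (hK : Cfsg.IsElementaryAbelian 2 (K.map (QuotientGroup.mk' (Subgroup.center X))) ∧ Nat.card ↥(K.map (QuotientGroup.mk' (Subgroup.center X))) = 16) :
    Cfsg.IsElementaryAbelian 2 H ∧ Cfsg.IsElementaryAbelian 2 K ∧
      H ⊓ K = (Subgroup.center ↥(H ⊔ K)).map (H ⊔ K).subtype ∧
      (∃ C : Subgroup X, C ≤ Subgroup.normalizer (H : Set X) ∧ C ⊓ H = ⊥ ∧ H ⊔ C = Subgroup.normalizer (H : Set X) ∧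
        Nonempty (↥C ≃* Matrix.ProjectiveSpecialLinearGroup (Fin 2) F)) ∧
      (∃ C : Subgroup X, C ≤ Subgroup.normalizer (K : Set X) ∧ C ⊓ K = ⊥ ∧ K ⊔ C = Subgroup.normalizer (K : Set X) ∧
        Nonempty (↥C ≃* Matrix.ProjectiveSpecialLinearGroup (Fin 2) F)) := by
  classical
  haveI : Fact (Nat.Prime 2) := ⟨Nat.prime_two⟩
  let F0 := GaloisField 2 2
  haveI : Fintype F0 := Fintype.ofFinite F0
  have hF0 : Fintype.card F0 = 4 := by
    rw [← Nat.card_eq_fintype_card, GaloisField.card 2 2 two_ne_zero]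
    norm_num
  let e0 : F0 ≃+* F := FiniteField.ringEquivOfCardEq (hF0.trans hF.symm)
  obtain ⟨e3⟩ := Linear.psl_congr e0 (Fin 3)
  obtain ⟨e2⟩ := Linear.psl_congr e0 (Fin 2)
  obtain ⟨e⟩ := hXL
  let ι : (X ⧸ Subgroup.center X) ≃* Matrix.ProjectiveSpecialLinearGroup (Fin 3) F0 :=
    e.trans e3.symm
  haveI := hq.2
  haveI hsimple : IsSimpleGroup (Matrix.ProjectiveSpecialLinearGroup (Fin 3) F0) :=
    ι.symm.isSimpleGroup
  -- a Sylow 2-subgroup of the target
  let U : Sylow 2 (Matrix.ProjectiveSpecialLinearGroup (Fin 3) F0) :=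
    Sylow.ofCard (PSL34Cover.uSyl F0) (by
      have h := PSL34Cover.card_P3 hF0
      rw [PSL34Cover.card_uSyl hF0, h]
      exact eight_six)
  let π0 : X →* Matrix.ProjectiveSpecialLinearGroup (Fin 3) F0 :=
    ι.toMonoidHom.comp (QuotientGroup.mk' (Subgroup.center X))
  have hπ0s : Function.Surjective π0 := ι.surjective.comp (QuotientGroup.mk'_surjective _)
  obtain ⟨g, hg⟩ := MulAction.exists_smul_eq (Matrix.ProjectiveSpecialLinearGroup (Fin 3) F0)
    (T.mapSurjective hπ0s) U
  let π := (MulAut.conj g).toMonoidHom.comp π0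
  have hsurj : Function.Surjective π := (MulAut.conj g).surjective.comp hπ0s
  have hker : ∀ z, π z = 1 ↔ z ∈ Subgroup.center X := by
    intro z
    show (MulAut.conj g) (ι (QuotientGroup.mk' _ z)) = 1 ↔ _
    rw [MulEquiv.map_eq_one_iff, MulEquiv.map_eq_one_iff]
    exact QuotientGroup.eq_one_iff z
  have hc : π.ker ≤ Subgroup.center X := fun z hz => (hker z).1 hz
  have he : ∀ z : X, π z = 1 → z * z = 1 := fun z hz => by
    rw [← pow_two]; exact hZ.2 z ((hker z).1 hz)
  have hTU : (T : Subgroup X).map π = PSL34Cover.uSyl F0 := by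
    have h1 := congrArg Sylow.toSubgroup hg
    rw [Sylow.coe_subgroup_smul, Sylow.coe_mapSurjective] at h1
    rw [← Subgroup.map_map]
    exact h1
  -- the images of `H` and `K`
  have key : ∀ A : Subgroup X, A ≤ T → Subgroup.center X ≤ A →
      Cfsg.IsElementaryAbelian 2 (A.map (QuotientGroup.mk' (Subgroup.center X))) →
      Nat.card ↥(A.map (QuotientGroup.mk' (Subgroup.center X))) = 16 →
      ∃ side, A = (PSL34Cover.vSub F0 side).comap π := by
    intro A hAT hZA hel hcard
    have hmap : A.map π = (A.map (QuotientGroup.mk' (Subgroup.center X))).map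
        ((MulAut.conj g).toMonoidHom.comp ι.toMonoidHom) := by
      rw [Subgroup.map_map]; rfl
    obtain ⟨side, hside⟩ := PSL34Cover.eq_vSub hF0 (A := A.map π)
      (hTU ▸ Subgroup.map_mono hAT) (by
        rw [hmap]
        rintro _ ⟨y, hy, rfl⟩
        rw [← map_pow, hel.2 y hy, map_one])
      (by
        have hinj : Function.Injective ((MulAut.conj g).toMonoidHom.comp ι.toMonoidHom) :=
          (MulAut.conj g).injective.comp ι.injective
        rw [hmap, Nat.card_congr ((Subgroup.equivMapOfInjective _ _ hinj).symm).toEquiv, hcard])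
    refine ⟨side, ?_⟩
    rw [← hside, Subgroup.comap_map_eq_self]
    exact fun z hz => hZA (hc hz)
  obtain ⟨sH, rfl⟩ := key H hHT hZH hH.1 hH.2
  obtain ⟨sK, rfl⟩ := key K hKT hZK hK.1 hK.2
  obtain rfl : sK = !sH := by
    cases sH <;> cases sK <;> first | rfl | exact absurd rfl hHK
  obtain ⟨hH2, hHc⟩ := PSL34Cover.comap_vSub_elementary π hF0 hsurj hc he sH
  obtain ⟨hK2, hKc⟩ := PSL34Cover.comap_vSub_elementary π hF0 hsurj hc he (!sH)
  refine ⟨⟨⟨⟨fun a b => Subtype.ext (hHc _ a.2 _ b.2)⟩⟩, hH2⟩,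
    ⟨⟨⟨fun a b => Subtype.ext (hKc _ a.2 _ b.2)⟩⟩, hK2⟩,
    PSL34Cover.center_join π hF0 hsurj hc he sH, ?_, ?_⟩
  · obtain ⟨C, h1, h2, h3, ⟨h4⟩⟩ := PSL34Cover.exists_levi_lift π hF0 hsurj hc he sH
    exact ⟨C, h1, h2, h3, ⟨h4.trans e2⟩⟩
  · obtain ⟨C, h1, h2, h3, ⟨h4⟩⟩ := PSL34Cover.exists_levi_lift π hF0 hsurj hc he (!sH)
    exact ⟨C, h1, h2, h3, ⟨h4.trans e2⟩⟩

end Cfsg.Agent.S3154
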