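import Cfsg.Statements.S3156
import Cfsg.Agent.TwoAut.UnitaryAut

set_option autoImplicit false
open Cfsg

namespace Cfsg.Agent.S3156

/-- If a finite group T is isomorphic to a Sylow 2-subgroup of the projective special unitary group of dimension 3 with parameter 4 (realised over the field with 16 elements), then no subgroup of the automorphism group of T is isomorphic to the symmetric group of degree 3. -/
theorem result {T : Type*} [Group T] [Finite T] (hT : (∃ (F : Type) (_ : Field F) (_ : Fintype F), Fintype.card F = 16 ∧ ∃ S : Sylow 2 (Cfsg.PSU 3 F 4), Nonempty (T ≃* ↥(S : Subgroup (Cfsg.PSU 3 F 4))))) (H : Subgroup (MulAut T)) : ¬ Nonempty (↥H ≃* Equiv.Perm (Fin 3)) := by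
  rintro ⟨e⟩
  obtain ⟨F, _, _, hF, P, ⟨f⟩⟩ := hT
  have hF' : Fintype.card F = (2 ^ 2) ^ 2 := by rw [hF]; norm_num
  haveI := Cfsg.Agent.TwoAut.Uni.charP_two (n := 2) (by norm_num) hF'
  obtain ⟨c⟩ := Cfsg.Agent.TwoAut.Uni.coords_of_sylow_PSU (n := 2) (by norm_num) hF' P
  let ι : Equiv.Perm (Fin 3) →* MulAut T := H.subtype.comp e.symm.toMonoidHom
  have hι : Function.Injective ι := Subtype.val_injective.comp e.symm.injective
  let x : Equiv.Perm (Fin 3) := Equiv.swap 0 1 * Equiv.swap 1 2
  let y : Equiv.Perm (Fin 3) := Equiv.swap 0 1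
  have hx : x ^ 3 = 1 := by decide
  have hy : y ^ 2 = 1 := by decide
  have hxy : y * x = x ^ 2 * y := by decide
  have h1 := Cfsg.Agent.TwoAut.Uni.no_inverted_three hF (c.congr f) (ι x) (ι y)
    (by rw [← map_pow, hx, map_one]) (by rw [← map_pow, hy, map_one])
    (by rw [← map_mul, hxy, map_mul, map_pow])
  have h2 : x = 1 := hι (by rw [h1, map_one])
  revert h2
  decide

end Cfsg.Agent.S3156
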