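import Cfsg.Statements.S3157
import Cfsg.Agent.TwoAut.FpfThree
import Cfsg.Agent.TwoAut.Heisenberg
import Cfsg.Agent.TwoGroups.Taussky
import Mathlib

set_option autoImplicit false
set_option linter.all false
open Cfsg

namespace Cfsg.Agent.S3157

open Cfsg.Agent.TwoAut
open scoped commutatorElement

/-- The map on a four-element field prescribed on the two basis elements. -/
noncomputable def fourMap {F : Type} [Field F] {T : Type*} [Group T] (ω : F) (a₁ a₂ : T) (s : F) : T :=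
  open Classical in if s = 0 then 1 else if s = 1 then a₁ else if s = ω then a₂ else a₁ * a₂


/-- Let T be a non-abelian group of order 64 admitting automorphisms ρ of order 3 and x of order 2 with x ρ x⁻¹ = ρ⁻¹ (so they generate a symmetric group of degree 3), where ρ fixes only the identity. Then T is isomorphic to a Sylow 2-subgroup of the projective special linear group of dimension 3 over the field with 4 elements, and the subgroup of fixed points of x is dihedral of order 8 or quaternion of order 8. -/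
theorem result {T : Type*} [Group T] [Finite T] (hT : Nat.card T = 64) (hna : ¬ IsMulCommutative T) (ρ x : MulAut T) (hρ : orderOf ρ = 3) (hx : orderOf x = 2)
    (hxr : x * ρ * x⁻¹ = ρ⁻¹) (hfp : ∀ y : T, ρ y = y → y = 1) (C : Subgroup T) (hC : ∀ y : T, y ∈ C ↔ x y = y) :
    (∃ (F : Type) (_ : Field F) (_ : Fintype F), Fintype.card F = 4 ∧
        ∃ S : Sylow 2 (Matrix.ProjectiveSpecialLinearGroup (Fin 3) F), Nonempty (T ≃* ↥(S : Subgroup (Matrix.ProjectiveSpecialLinearGroup (Fin 3) F)))) ∧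
      (Nonempty (↥C ≃* DihedralGroup 4) ∨ Nonempty (↥C ≃* QuaternionGroup 2)) := by
  classical
  haveI : Fact (Nat.Prime 2) := ⟨Nat.prime_two⟩
  have hnab : ¬ ∀ a b : T, a * b = b * a := fun h => hna ⟨⟨h⟩⟩
  have hpT : IsPGroup 2 T := IsPGroup.of_card (n := 6) hT
  have hF : FpfThree ρ := ⟨fun y => by
    have h : ρ ^ 3 = 1 := by rw [← hρ, pow_orderOf_eq_one]
    exact DFunLike.congr_fun h y, hfp⟩
  have h3 : ∀ y, ρ (ρ (ρ y)) = y := hF.cube
  have hx2 : ∀ y, x (x y) = y := fun y => by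
    have h : x ^ 2 = 1 := by rw [← hx, pow_orderOf_eq_one]
    exact DFunLike.congr_fun h y
  have hxρ : ∀ y, x (ρ y) = ρ (ρ (x y)) := by
    have h1 : x * ρ = ρ ^ 2 * x := by
      have : ρ⁻¹ = ρ ^ 2 := by
        apply inv_eq_of_mul_eq_one_right
        rw [← pow_succ', show 2 + 1 = orderOf ρ by rw [hρ]]; exact pow_orderOf_eq_one ρ
      rw [← this, ← hxr]; group
    exact fun y => DFunLike.congr_fun h1 y
  set Z := Subgroup.center T with hZdef
  have hZinv : ∀ (σ : MulAut T), ∀ y ∈ Z, σ y ∈ Z := by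
    intro σ y hy
    rw [hZdef, Subgroup.mem_center_iff] at hy ⊢
    intro g
    have := congrArg σ (hy (σ.symm g))
    simpa using this
  haveI : Nontrivial T := Finite.one_lt_card_iff_nontrivial.1 (by omega)
  haveI := hpT.center_nontrivial
  have hZ4 : Nat.card Z = 4 := by
    have hd : Nat.card Z ∣ 2 ^ 6 := by
      have := Subgroup.card_subgroup_dvd_card Z
      rwa [hT] at this
    obtain ⟨k, hk, hkc⟩ := (Nat.dvd_prime_pow Nat.prime_two).1 hd
    have hm := hF.card_mod_three Z (hZinv ρ)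
    have h1 : 1 < Nat.card Z := Finite.one_lt_card
    rw [hkc] at hm h1
    interval_cases k <;> (try omega)
    · exfalso
      apply hnab
      refine hF.comm_of_index_center ?_
      have := Subgroup.card_eq_card_quotient_mul_card_subgroup Z
      rw [hT, hkc] at this
      show Nat.card (T ⧸ Z) = 4
      omega
    · exfalso
      apply hnab
      have htop : Z = ⊤ := Subgroup.eq_top_of_card_eq _ (by rw [hT, hkc]; norm_num)
      intro a b
      exact (Subgroup.mem_center_iff.1 (htop ▸ Subgroup.mem_top a : a ∈ Z) b).symm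
  have hN : Z.map ρ.toMonoidHom = Z := Subgroup.characteristic_iff_map_eq.1 inferInstance ρ
  have hNx : Z.map x.toMonoidHom = Z := Subgroup.characteristic_iff_map_eq.1 inferInstance x
  have hq := hF.quotient Z hN
  have hQ16 : Nat.card (T ⧸ Z) = 16 := by
    have := Subgroup.card_eq_card_quotient_mul_card_subgroup Z
    rw [hT, hZ4] at this
    omega
  -- centre has exponent two
  have hZ2 : ∀ z ∈ Z, z * z = 1 := by
    intro z hz
    by_contra hne
    have hz1 : z ≠ 1 := fun e => hne (by rw [e, one_mul])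
    have hρ1 : ρ z ≠ 1 := fun e => hz1 (by simpa using e)
    have hρ2 : ρ (ρ z) ≠ 1 := fun e => hρ1 (by simpa using e)
    have e1 : ρ z ≠ z := fun e => hz1 (hfp z e)
    have e2 : ρ (ρ z) ≠ z := fun e => hz1 (hF.fpf_sq z e)
    have e3 : ρ (ρ z) ≠ ρ z := fun e => hρ1 (hfp _ e)
    have h4 : z ^ 4 = 1 := by
      have := congrArg Subtype.val (pow_card_eq_one' (x := (⟨z, hz⟩ : Z)))
      rw [hZ4] at this
      exact this
    haveI := Fintype.ofFinite Z
    have hz2 := Z.mul_mem hz hz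
    have huniv : ({1, (⟨z, hz⟩ : Z), ⟨ρ z, hZinv ρ z hz⟩, ⟨ρ (ρ z), hZinv ρ _ (hZinv ρ z hz)⟩} : Finset Z) =
        Finset.univ := by
      refine Finset.eq_univ_of_card _ ?_
      rw [← Nat.card_eq_fintype_card, hZ4]
      simp [Ne.symm hz1, Ne.symm hρ1, Ne.symm hρ2, Ne.symm e1, Ne.symm e2, Ne.symm e3,
        Subtype.ext_iff]
    have hmem := Finset.mem_univ (⟨z * z, hz2⟩ : Z)
    rw [← huniv] at hmem
    simp only [Finset.mem_insert, Finset.mem_singleton, Subtype.ext_iff] at hmem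
    have hz3 : z⁻¹ = z * (z * z) := by
      apply inv_eq_of_mul_eq_one_right
      rw [← h4, pow_succ', pow_succ', pow_two]
    rcases hmem with e | e | e | e
    · exact hne e
    · exact hz1 (mul_eq_left.1 e)
    · refine e2 ?_
      have := hF.mul_eq_one z
      rw [mul_eq_one_iff_inv_eq] at this
      calc ρ (ρ z) = (z * ρ z)⁻¹ := this.symm
        _ = (z * (z * z))⁻¹ := by rw [e]
        _ = z := by rw [← hz3, inv_inv]
    · refine e1 ?_
      have := hF.mul_eq_one' z
      rw [mul_eq_one_iff_inv_eq] at this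
      calc ρ z = (z * ρ (ρ z))⁻¹ := this.symm
        _ = (z * (z * z))⁻¹ := by rw [e]
        _ = z := by rw [← hz3, inv_inv]
  have hcomm : ∀ a b : T, ⁅a, b⁆ ∈ Z := fun a b => by
    rw [← QuotientGroup.eq_one_iff, ← QuotientGroup.mk'_apply, map_commutatorElement,
      commutatorElement_eq_one_iff_mul_comm]
    exact hq.comm_of_card_sixteen hQ16 _ _
  have hzc : ∀ z ∈ Z, ∀ g, g * z = z * g := fun z hz g => Subgroup.mem_center_iff.1 hz g
  have cL : ∀ a b c : T, ⁅a * b, c⁆ = ⁅a, c⁆ * ⁅b, c⁆ := fun a b c => by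
    calc ⁅a * b, c⁆ = a * ⁅b, c⁆ * a⁻¹ * ⁅a, c⁆ := by simp only [commutatorElement_def]; group
      _ = ⁅b, c⁆ * ⁅a, c⁆ := by rw [hzc _ (hcomm b c) a]; group
      _ = ⁅a, c⁆ * ⁅b, c⁆ := hzc _ (hcomm a c) _
  have cS : ∀ a b : T, ⁅a, b⁆ = ⁅b, a⁆ := fun a b => by
    rw [← inv_eq_of_mul_eq_one_right (hZ2 _ (hcomm b a))]; exact (commutatorElement_inv b a).symm
  have cR : ∀ a b c : T, ⁅c, a * b⁆ = ⁅c, a⁆ * ⁅c, b⁆ := fun a b c => by
    rw [cS c, cL, cS a, cS b]
  have c1 : ∀ z ∈ Z, ∀ g, ⁅g, z⁆ = 1 := fun z hz g =>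
    commutatorElement_eq_one_iff_mul_comm.2 (hzc z hz g)
  have cρ : ∀ a b : T, ρ ⁅a, b⁆ = ⁅ρ a, ρ b⁆ := fun a b => map_commutatorElement ρ a b
  have csq : ∀ a : T, a * a ∈ Z := fun a => by
    rw [hZdef, Subgroup.mem_center_iff]
    intro g
    have : ⁅g, a * a⁆ = 1 := by rw [cR]; exact hZ2 _ (hcomm g a)
    exact commutatorElement_eq_one_iff_mul_comm.1 this
  have hself : ∀ a, ⁅a, ρ a⁆ = 1 := fun a => commutatorElement_eq_one_iff_mul_comm.2 (hF.commute a).eq
  have zprod : ∀ z ∈ Z, z * ρ z = ρ (ρ z) := fun z hz => by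
    have := hF.mul_eq_one z
    rw [mul_eq_one_iff_eq_inv, inv_eq_of_mul_eq_one_right (hZ2 _ (hZinv ρ _ (hZinv ρ _ hz)))] at this
    exact this
  have key : ∀ a b : T, ⁅a, ρ b⁆ = ρ (ρ ⁅a, b⁆) := by
    intro a b
    have h0 := hself (a * b)
    rw [map_mul, cL, cR, cR, hself, hself, one_mul, mul_one,
      mul_eq_one_iff_eq_inv, inv_eq_of_mul_eq_one_right (hZ2 _ (hcomm _ _)), cS b] at h0
    set m := ⁅a, ρ b⁆ with hm
    set z := ⁅a, b⁆ with hz
    -- `ρ (ρ b) = b * ρ b` modulo the centre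
    obtain ⟨e, he, heq⟩ : ∃ e ∈ Z, ρ (ρ b) = b * ρ b * e := by
      refine ⟨(b * ρ b)⁻¹ * ρ (ρ b), ?_, by group⟩
      have h1 := hF.mul_eq_one b
      rw [mul_eq_one_iff_inv_eq] at h1
      rw [h1]
      exact csq _
    have h2 : ρ m = m * ρ z := by
      rw [hm, cρ, heq, cR, cR, c1 e he, mul_one, hz, cρ, ← h0, hm]
    have h3 : m * ρ m = ρ z := by rw [h2, ← mul_assoc, hZ2 _ (hcomm _ _), one_mul]
    rw [zprod m (hcomm _ _)] at h3
    have h4 := congrArg ρ h3
    rwa [hF.cube m] at h4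
  -- the four cosets attached to `u`
  let m : T → T ⧸ Z := QuotientGroup.mk
  have hm1 : ∀ y, m y = 1 ↔ y ∈ Z := fun y => QuotientGroup.eq_one_iff y
  have hmρ : ∀ y, y ∉ Z → ρ y ∉ Z := fun y hy h => hy (by simpa [h3] using hZinv ρ _ (hZinv ρ _ h))
  have hqm : Nat.card Z = 4 := hZ4
  have hCu : ∀ u, u ∉ Z → ∀ v, ⁅u, v⁆ = 1 →
      m v = 1 ∨ m v = m u ∨ m v = m (ρ u) ∨ m v = m (ρ (ρ u)) := by
    intro u hu
    let M : Subgroup T := Subgroup.centralizer ({u} : Set T)
    have hM : ∀ v, v ∈ M ↔ ⁅u, v⁆ = 1 := fun v => by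
      rw [Subgroup.mem_centralizer_singleton_iff, commutatorElement_eq_one_iff_mul_comm]; exact eq_comm
    have hMρ : ∀ v ∈ M, ρ v ∈ M := fun v hv => by
      rw [hM] at hv ⊢
      rw [key, hv, map_one, map_one]
    have hZM : Z ≤ M := fun z hz => (hM z).2 (c1 z hz u)
    have huM : u ∈ M := (hM u).2 (commutatorElement_self u)
    have hne : M ≠ ⊤ := fun e => hu (by
      rw [hZdef, Subgroup.mem_center_iff]
      intro g
      exact (commutatorElement_eq_one_iff_mul_comm.1 ((hM g).1 (e ▸ Subgroup.mem_top g))).symm)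
    have hd : Nat.card M ∣ 2 ^ 6 := by
      have := Subgroup.card_subgroup_dvd_card M
      rwa [hT] at this
    obtain ⟨k, hk, hkc⟩ := (Nat.dvd_prime_pow Nat.prime_two).1 hd
    have hmod := hF.card_mod_three M hMρ
    have hgt : 4 < Nat.card M := by
      rw [← hZ4]
      by_contra hcon
      have := Subgroup.eq_of_le_of_card_ge hZM (le_of_not_gt hcon)
      exact hu (this ▸ huM)
    have hlt : Nat.card M ≠ 64 := fun e => hne (Subgroup.eq_top_of_card_eq _ (by rw [e, hT]))
    have h16 : Nat.card M = 16 := by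
      rw [hkc] at hmod hgt hlt ⊢
      interval_cases k <;> omega
    have himg : Nat.card (M.map (QuotientGroup.mk' Z)) = 4 := by
      have e1 := Subgroup.relIndex_ker (K := M) (QuotientGroup.mk' Z)
      have e2 := Subgroup.relIndex_mul_relIndex (⊥ : Subgroup T) Z M bot_le hZM
      rw [Subgroup.relIndex_bot_left, Subgroup.relIndex_bot_left, h16, hZ4] at e2
      rw [QuotientGroup.ker_mk'] at e1
      rw [← e1]; omega
    have n1 : m u ≠ 1 := fun e => hu ((hm1 u).1 e)
    have n2 : m (ρ u) ≠ 1 := fun e => hmρ u hu ((hm1 _).1 e)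
    have n3 : m (ρ (ρ u)) ≠ 1 := fun e => hmρ _ (hmρ u hu) ((hm1 _).1 e)
    have n4 : m (ρ u) ≠ m u := fun e => n1 (hq.fpf _ e)
    have n5 : m (ρ (ρ u)) ≠ m (ρ u) := fun e => n2 (hq.fpf _ e)
    have n6 : m (ρ (ρ u)) ≠ m u := fun e => n1 (hq.fpf_sq _ e)
    intro v hv
    have hset : ((M.map (QuotientGroup.mk' Z) : Subgroup (T ⧸ Z)) : Set (T ⧸ Z)) =
        {1, m u, m (ρ u), m (ρ (ρ u))} := by
      symm
      refine Set.eq_of_subset_of_ncard_le ?_ ?_
      · rintro q (rfl | rfl | rfl | rfl)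
        exacts [one_mem _, ⟨u, huM, rfl⟩, ⟨ρ u, hMρ u huM, rfl⟩, ⟨ρ (ρ u), hMρ _ (hMρ u huM), rfl⟩]
      · rw [← Nat.card_coe_set_eq, SetLike.coe_sort_coe, himg]
        have : ({1, m u, m (ρ u), m (ρ (ρ u))} : Set (T ⧸ Z)) =
            (({1, m u, m (ρ u), m (ρ (ρ u))} : Finset (T ⧸ Z)) : Set (T ⧸ Z)) := by simp
        rw [this, Set.ncard_coe_finset]
        simp [Ne.symm n1, Ne.symm n2, Ne.symm n3, Ne.symm n4, Ne.symm n5, Ne.symm n6]
    have hvm : m v ∈ ((M.map (QuotientGroup.mk' Z) : Subgroup (T ⧸ Z)) : Set (T ⧸ Z)) :=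
      ⟨v, (hM v).2 hv, rfl⟩
    rw [hset] at hvm
    simpa using hvm
  -- fixed point of `x` in the centre
  obtain ⟨z₀, hz₀, hz₀1, hxz₀, hfixZ⟩ : ∃ z₀ ∈ Z, z₀ ≠ 1 ∧ x z₀ = z₀ ∧
      ∀ z ∈ Z, x z = z → z = 1 ∨ z = z₀ := by
    haveI := Fintype.ofFinite Z
    haveI : Nontrivial Z := Finite.one_lt_card_iff_nontrivial.1 (by omega)
    obtain ⟨z', hz'⟩ := exists_ne (1 : Z)
    set z : T := (z' : T) with hzdef
    have hzZ : z ∈ Z := z'.2
    have hz1 : z ≠ 1 := fun e => hz' (Subtype.ext e)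
    have hall : ∀ y ∈ Z, ∀ w ∈ Z, y ≠ 1 → w = 1 ∨ w = y ∨ w = ρ y ∨ w = ρ (ρ y) := by
      intro y hy w hw hy1
      have r1 : ρ y ≠ 1 := fun e => hy1 (by simpa using e)
      have r2 : ρ (ρ y) ≠ 1 := fun e => r1 (by simpa using e)
      have e1 : ρ y ≠ y := fun e => hy1 (hfp y e)
      have e2 : ρ (ρ y) ≠ y := fun e => hy1 (hF.fpf_sq y e)
      have e3 : ρ (ρ y) ≠ ρ y := fun e => r1 (hfp _ e)
      have huniv : ({1, (⟨y, hy⟩ : Z), ⟨ρ y, hZinv ρ y hy⟩, ⟨ρ (ρ y), hZinv ρ _ (hZinv ρ y hy)⟩} : Finset Z) =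
          Finset.univ := by
        refine Finset.eq_univ_of_card _ ?_
        rw [← Nat.card_eq_fintype_card, hZ4]
        simp [Ne.symm hy1, Ne.symm r1, Ne.symm r2, Ne.symm e1, Ne.symm e2, Ne.symm e3, Subtype.ext_iff]
      have hmem := Finset.mem_univ (⟨w, hw⟩ : Z)
      rw [← huniv] at hmem
      simpa [Subtype.ext_iff] using hmem
    obtain ⟨z₀, hz₀, hz₀1, hfix⟩ : ∃ z₀ ∈ Z, z₀ ≠ 1 ∧ x z₀ = z₀ := by
      rcases hall z hzZ (x z) (hZinv x z hzZ) hz1 with e | e | e | e
      · exact absurd e (by simpa using hz1)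
      · exact ⟨z, hzZ, hz1, e⟩
      · refine ⟨ρ (ρ z), hZinv ρ _ (hZinv ρ z hzZ), by simpa using hz1, ?_⟩
        rw [hxρ, hxρ, e, h3]
      · refine ⟨ρ z, hZinv ρ z hzZ, by simpa using hz1, ?_⟩
        rw [hxρ, e, h3]
    refine ⟨z₀, hz₀, hz₀1, hfix, fun w hw hxw => ?_⟩
    rcases hall z₀ hz₀ w hw hz₀1 with e | e | e | e
    · exact Or.inl e
    · exact Or.inr e
    · exfalso
      rw [e, hxρ, hfix] at hxw
      exact hz₀1 (by simpa using hfp (ρ z₀) hxw)
    · exfalso
      rw [e, hxρ, hxρ, hfix, h3] at hxw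
      exact hz₀1 (by simpa using hfp (ρ z₀) hxw.symm)
  -- fixed cosets lift to fixed elements
  have lift : ∀ p, m (x p) = m p → ∃ c, x c = c ∧ m c = m p := by
    intro p hp
    set z := p⁻¹ * x p with hzdef
    have hz : z ∈ Z := QuotientGroup.eq.1 hp.symm
    have hxz : x z = z := by
      have h1 : z * x z = 1 := by rw [hzdef, map_mul, map_inv, hx2]; group
      rw [mul_eq_one_iff_inv_eq, inv_eq_of_mul_eq_one_right (hZ2 z hz)] at h1
      exact h1.symm
    rcases hfixZ z hz hxz with e | e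
    · exact ⟨p, by rw [hzdef, inv_mul_eq_one] at e; exact e.symm, rfl⟩
    · refine ⟨p * ρ z₀, ?_, QuotientGroup.eq.2 ?_⟩
      · have e' : x p = p * z₀ := by rw [← e, hzdef, mul_inv_cancel_left]
        rw [map_mul, e', hxρ, hxz₀, mul_assoc, ← zprod z₀ hz₀, ← mul_assoc z₀, hZ2 z₀ hz₀, one_mul]
      · simpa using Z.inv_mem (hZinv ρ _ hz₀)
  have hcommQ : ∀ a b : T ⧸ Z, a * b = b * a := hq.comm_of_card_sixteen hQ16
  have hsqQ : ∀ a : T, m a * m a = 1 := fun a => by
    rw [← QuotientGroup.mk_mul]; exact (hm1 _).2 (csq a)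
  have hxm : ∀ a, m a = 1 → m (x a) = 1 := fun a ha => (hm1 _).2 (hZinv x a ((hm1 a).1 ha))
  have fixp : ∀ w, m (x (w * x w)) = m (w * x w) := fun w => by
    rw [map_mul, hx2]
    show (QuotientGroup.mk (x w * w) : T ⧸ Z) = QuotientGroup.mk (w * x w)
    rw [QuotientGroup.mk_mul, QuotientGroup.mk_mul]; exact hcommQ _ _
  -- outside a small invariant set there is a fixed element
  have outside : ∀ U : Subgroup (T ⧸ Z), (∀ q, q ∈ U → QuotientGroup.congr Z Z ρ hN q ∈ U) →
      ∀ w, m w ∉ U → ∃ c, x c = c ∧ m c ∉ U := by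
    intro U hU w hw
    by_cases h1 : m (w * x w) ∈ U
    · obtain ⟨c, hc1, hc2⟩ := lift (ρ w * x (ρ w)) (fixp _)
      refine ⟨c, hc1, ?_⟩
      rw [hc2]
      intro h2
      apply hw
      rw [hxρ] at h2
      have h1' := hU _ (hU _ h1)
      have h1'' : m (ρ (ρ w) * ρ (ρ (x w))) ∈ U := by
        rw [← map_mul, ← map_mul]; exact h1'
      -- `ρ w * ρ (ρ w)` lies in `U`
      have h3' : m (ρ w) * m (ρ (ρ w)) ∈ U := by
        have := U.mul_mem h2 h1''
        simp only [m, QuotientGroup.mk_mul] at this ⊢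
        rwa [hcommQ (QuotientGroup.mk (ρ (ρ w))), mul_assoc,
          ← mul_assoc (QuotientGroup.mk (ρ (ρ (x w)))), hsqQ, one_mul] at this
      have : m w = m (ρ w) * m (ρ (ρ w)) := by
        simp only [m, ← QuotientGroup.mk_mul]
        refine QuotientGroup.eq.2 ?_
        have := hF.mul_eq_one w
        rw [mul_assoc, mul_eq_one_iff_inv_eq] at this
        rw [← this]
        exact Z.mul_mem (Z.one_mem) (by simpa using Z.inv_mem (csq w)) |> (by simpa using ·)
      rw [this]; exact h3'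
    · obtain ⟨c, hc1, hc2⟩ := lift (w * x w) (fixp _)
      exact ⟨c, hc1, hc2 ▸ h1⟩
  obtain ⟨w₀, hw₀⟩ : ∃ w, w ∉ Z := by
    by_contra hcon
    push Not at hcon
    exact hnab fun a b => (Subgroup.mem_center_iff.1 (hcon a) b).symm
  obtain ⟨u, hxu, hu'⟩ := outside ⊥ (fun q hq' => by
    rw [Subgroup.mem_bot] at hq' ⊢; rw [hq', map_one]) w₀ (by rw [Subgroup.mem_bot]; exact fun e => hw₀ ((hm1 _).1 e))
  have hu : u ∉ Z := fun e => hu' (Subgroup.mem_bot.2 ((hm1 u).2 e))
  -- the invariant four-group generated by `u`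
  let U : Subgroup (T ⧸ Z) := (Subgroup.centralizer ({u} : Set T)).map (QuotientGroup.mk' Z)
  have hUρ : ∀ q, q ∈ U → QuotientGroup.congr Z Z ρ hN q ∈ U := by
    rintro _ ⟨v, hv, rfl⟩
    refine ⟨ρ v, ?_, rfl⟩
    rw [SetLike.mem_coe, Subgroup.mem_centralizer_singleton_iff] at hv ⊢
    have : ⁅u, v⁆ = 1 := commutatorElement_eq_one_iff_mul_comm.2 hv.symm
    exact (commutatorElement_eq_one_iff_mul_comm.1 (by rw [key, this, map_one, map_one])).symm
  obtain ⟨w₁, hw₁⟩ : ∃ w, m w ∉ U := by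
    by_contra hcon
    push Not at hcon
    apply hu
    rw [hZdef, Subgroup.mem_center_iff]
    intro g
    obtain ⟨v, hv, hvg⟩ := hcon g
    have hd : v⁻¹ * g ∈ Z := QuotientGroup.eq.1 hvg
    rw [SetLike.mem_coe, Subgroup.mem_centralizer_singleton_iff] at hv
    have hcu : Commute u (v⁻¹ * g) := hzc _ hd u
    have := ((show Commute u v from hv.symm).mul_right hcu)
    rw [mul_inv_cancel_left] at this
    exact this.symm
  obtain ⟨v, hxv, hv'⟩ := outside U hUρ w₁ hw₁
  have hv : v ∉ Z := fun e => hv' (by rw [(hm1 v).2 e]; exact one_mem U)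
  have huv : ⁅u, v⁆ ≠ 1 := fun e => hv' ⟨v, by
    rw [SetLike.mem_coe, Subgroup.mem_centralizer_singleton_iff]
    exact (commutatorElement_eq_one_iff_mul_comm.1 e).symm, rfl⟩
  have huv0 : ⁅u, v⁆ = z₀ :=
    (hfixZ _ (hcomm u v) (by rw [map_commutatorElement, hxu, hxv])).resolve_left huv
  refine ⟨?_, ?_⟩
  · -- recognition
    have hmulsq : ∀ a b : T, a * b * (a * b) = a * a * (b * b) * ⁅a, b⁆ := by
      intro a b
      have : b * a = ⁅a, b⁆ * (a * b) := by rw [cS, commutatorElement_def]; group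
      calc a * b * (a * b) = a * (b * a) * b := by group
        _ = a * ⁅a, b⁆ * (a * b * b) := by rw [this]; group
        _ = ⁅a, b⁆ * (a * a * (b * b)) := by rw [hzc _ (hcomm a b) a]; group
        _ = _ := (hzc _ (hcomm a b) _).symm
    obtain ⟨w, hw2, hwZ⟩ : ∃ w, w * w = 1 ∧ w ∉ Z := by
      have hfsq : ∀ c, x c = c → c * c = 1 ∨ c * c = z₀ := fun c hc =>
        hfixZ _ (csq c) (by rw [map_mul, hc])
      rcases hfsq u hxu with e1 | e1
      · exact ⟨u, e1, hu⟩
      rcases hfsq v hxv with e2 | e2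
      · exact ⟨v, e2, hv⟩
      refine ⟨u * ρ v, ?_, ?_⟩
      · have h := hmulsq u (ρ v)
        rw [h, ← map_mul, e1, e2, key, huv0]
        exact hF.mul_eq_one z₀
      · intro hmem
        apply huv
        have h1 : ⁅u, u * ρ v⁆ = 1 := c1 _ hmem u
        rw [cR, commutatorElement_self, one_mul, key] at h1
        exact ρ.injective (ρ.injective (h1.trans (by rw [map_one, map_one])))
    obtain ⟨v', hv'⟩ : ∃ v' : T, ⁅w, v'⁆ ≠ 1 := by
      by_contra hcon
      push Not at hcon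
      exact hwZ (Subgroup.mem_center_iff.2 fun g => (commutatorElement_eq_one_iff_mul_comm.1 (hcon g)).symm)
    have hwρ : ρ w * ρ w = 1 := by rw [← map_mul, hw2, map_one]
    have hwρρ : ρ (ρ w) * ρ (ρ w) = 1 := by rw [← map_mul, hwρ, map_one]
    obtain ⟨b₀, hb2, hwb⟩ : ∃ b₀ : T, b₀ * b₀ = 1 ∧ ⁅w, b₀⁆ ≠ 1 := by
      by_cases h1 : v' * v' = 1
      · exact ⟨v', h1, hv'⟩
      set z₁ := ⁅w, v'⁆ with hz₁
      have hz₁Z : z₁ ∈ Z := hcomm _ _
      have hcases : v' * v' = z₁ ∨ v' * v' = ρ z₁ ∨ v' * v' = ρ (ρ z₁) := by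
        haveI := Fintype.ofFinite Z
        have r1 : ρ z₁ ≠ 1 := fun e => hv' (by simpa using e)
        have r2 : ρ (ρ z₁) ≠ 1 := fun e => r1 (by simpa using e)
        have e1 : ρ z₁ ≠ z₁ := fun e => hv' (hfp _ e)
        have e2 : ρ (ρ z₁) ≠ z₁ := fun e => hv' (hF.fpf_sq _ e)
        have e3 : ρ (ρ z₁) ≠ ρ z₁ := fun e => r1 (hfp _ e)
        have huniv : ({1, (⟨z₁, hz₁Z⟩ : Z), ⟨ρ z₁, hZinv ρ _ hz₁Z⟩,
            ⟨ρ (ρ z₁), hZinv ρ _ (hZinv ρ _ hz₁Z)⟩} : Finset Z) = Finset.univ := by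
          refine Finset.eq_univ_of_card _ ?_
          rw [← Nat.card_eq_fintype_card, hZ4]
          simp [Ne.symm hv', Ne.symm r1, Ne.symm r2, Ne.symm e1, Ne.symm e2, Ne.symm e3, Subtype.ext_iff]
        have hmem := Finset.mem_univ (⟨v' * v', csq v'⟩ : Z)
        rw [← huniv] at hmem
        simp [Subtype.ext_iff, h1] at hmem
        exact hmem
      rcases hcases with e | e | e
      · refine ⟨v' * w, ?_, by rwa [cR, commutatorElement_self, mul_one]⟩
        rw [hmulsq, hw2, mul_one, e, cS v', ← hz₁, hZ2 _ hz₁Z]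
      · refine ⟨v' * ρ (ρ w), ?_, ?_⟩
        · rw [hmulsq, hwρρ, mul_one, e, key, key, cS v', ← hz₁, h3]
          exact hZ2 _ (hZinv ρ _ hz₁Z)
        · rwa [cR, key, hself, map_one, map_one, mul_one]
      · refine ⟨v' * ρ w, ?_, ?_⟩
        · rw [hmulsq, hwρ, mul_one, e, key, cS v', ← hz₁]
          exact hZ2 _ (hZinv ρ _ (hZinv ρ _ hz₁Z))
        · rwa [cR, hself, mul_one]
    set z₁ := ⁅w, b₀⁆ with hz₁
    have hz₁Z : z₁ ∈ Z := hcomm _ _
    have hbρ : ρ b₀ * ρ b₀ = 1 := by rw [← map_mul, hb2, map_one]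
    haveI : Fintype (GaloisField 2 2) := Fintype.ofFinite _
    have hcF : Fintype.card (GaloisField 2 2) = 4 := by
      rw [← Nat.card_eq_fintype_card, GaloisField.card 2 2 (by norm_num)]; norm_num
    refine ⟨GaloisField 2 2, inferInstance, inferInstance, hcF, ?_⟩
    obtain ⟨ω, hω0, hω1⟩ : ∃ ω : GaloisField 2 2, ω ≠ 0 ∧ ω ≠ 1 := by
      by_contra hcon
      push Not at hcon
      have := Finset.card_le_card (s := (Finset.univ : Finset (GaloisField 2 2))) (t := {0, 1}) fun s _ => by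
        by_cases e : s = 0
        · simp [e]
        · simp [hcon s e]
      rw [Finset.card_univ, hcF] at this
      have := this.trans Finset.card_le_two
      omega
    have two : ∀ s : GaloisField 2 2, s + s = 0 := CharTwo.add_self_eq_zero
    have two' : ∀ s t : GaloisField 2 2, s + (s + t) = t := fun s t => by rw [← add_assoc, two, zero_add]
    have o1 : 1 + ω ≠ 0 := fun e => hω1 (by linear_combination e - two 1)
    have o2 : 1 + ω ≠ 1 := fun e => hω0 (add_eq_left.1 e)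
    have o3 : 1 + ω ≠ ω := fun e => one_ne_zero (add_eq_right.1 e)
    have hall : ∀ s : GaloisField 2 2, s = 0 ∨ s = 1 ∨ s = ω ∨ s = 1 + ω := by
      intro s
      have huniv : ({0, 1, ω, 1 + ω} : Finset (GaloisField 2 2)) = Finset.univ := by
        refine Finset.eq_univ_of_card _ ?_
        rw [hcF]
        simp [hω0, hω1, Ne.symm hω0, Ne.symm hω1, Ne.symm o1, Ne.symm o2, Ne.symm o3]
      have := Finset.mem_univ s
      rw [← huniv] at this
      simpa using this
    have hωω : ω * ω = 1 + ω := by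
      rcases hall (ω * ω) with e | e | e | e
      · exact absurd (mul_self_eq_zero.1 e) hω0
      · exfalso
        have : (ω + 1) * (ω + 1) = 0 := by linear_combination e + two ω + two 1
        exact hω1 (by linear_combination mul_self_eq_zero.1 this - two 1)
      · exact absurd (mul_eq_left₀ hω0 |>.1 e) hω1
      · exact e
    have hω3 : ω * (1 + ω) = 1 := by linear_combination hωω + two ω
    have hω4 : (1 + ω) * ω = 1 := by rw [mul_comm]; exact hω3
    have hω5 : (1 + ω) * (1 + ω) = ω := by linear_combination hωω + two ω + two 1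
    have add4 : ∀ a₁ a₂ : T, a₁ * a₁ = 1 → a₂ * a₂ = 1 → a₁ * a₂ = a₂ * a₁ →
        ∀ s t : GaloisField 2 2, fourMap ω a₁ a₂ (s + t) = fourMap ω a₁ a₂ s * fourMap ω a₁ a₂ t := by
      intro a₁ a₂ h11 h22 h12 s t
      have e1 : ∀ y, a₁ * (a₁ * y) = y := fun y => by rw [← mul_assoc, h11, one_mul]
      have e2 : ∀ y, a₂ * (a₂ * y) = y := fun y => by rw [← mul_assoc, h22, one_mul]
      have e3 : ∀ y, a₂ * (a₁ * y) = a₁ * (a₂ * y) := fun y => by rw [← mul_assoc, ← h12, mul_assoc]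
      rcases hall s with es | es | es | es <;> rcases hall t with et | et | et | et <;> rw [es, et] <;>
        (try simp only [two, two', add_zero, zero_add, add_assoc, add_comm ω 1, add_left_comm ω 1]) <;>
        simp [fourMap, hω0, hω1, o1, o2, o3, h11, h22, ← h12, e1, e2, e3, mul_assoc]
    have hρz : ρ (ρ z₁) * ρ (ρ z₁) = 1 := hZ2 _ (hZinv ρ _ (hZinv ρ _ hz₁Z))
    refine heisenberg_iso hcF hT (fourMap ω w (ρ w)) (fourMap ω b₀ (ρ b₀)) (fourMap ω z₁ (ρ (ρ z₁)))
      (add4 _ _ hw2 hwρ (hF.commute w).eq) (add4 _ _ hb2 hbρ (hF.commute b₀).eq)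
      (add4 _ _ (hZ2 _ hz₁Z) hρz (hzc _ (hZinv ρ _ (hZinv ρ _ hz₁Z)) z₁)) ?_ ?_ ?_
    · intro r
      rcases hall r with er | er | er | er <;> rw [er] <;> simp [fourMap, hω0, hω1, o1, o2, o3]
      · exact hz₁Z
      · exact hZinv ρ _ (hZinv ρ _ hz₁Z)
      · exact Z.mul_mem hz₁Z (hZinv ρ _ (hZinv ρ _ hz₁Z))
    · have k11 : ⁅w, ρ b₀⁆ = ρ (ρ z₁) := key w b₀
      have k21 : ⁅ρ w, b₀⁆ = ρ (ρ z₁) := by rw [cS, key, cS, ← hz₁]
      have k22 : ⁅ρ w, ρ b₀⁆ = ρ z₁ := (cρ w b₀).symm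
      have hsum : ρ z₁ = z₁ * ρ (ρ z₁) := by
        have := zprod (ρ (ρ z₁)) (hZinv ρ _ (hZinv ρ _ hz₁Z))
        rw [h3] at this
        exact this.symm.trans (hzc _ hz₁Z _)
      have hc : ρ (ρ z₁) * z₁ = z₁ * ρ (ρ z₁) := hzc _ hz₁Z _
      have e1 : ∀ y, z₁ * (z₁ * y) = y := fun y => by rw [← mul_assoc, hZ2 _ hz₁Z, one_mul]
      have e2 : ∀ y, ρ (ρ z₁) * (ρ (ρ z₁) * y) = y := fun y => by rw [← mul_assoc, hρz, one_mul]
      have e3 : ∀ y, ρ (ρ z₁) * (z₁ * y) = z₁ * (ρ (ρ z₁) * y) := fun y => by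
        rw [← mul_assoc, hc, mul_assoc]
      have k22' : ⁅ρ w, ρ b₀⁆ = z₁ * ρ (ρ z₁) := k22.trans hsum
      intro s t
      rcases hall s with es | es | es | es <;> rcases hall t with et | et | et | et <;> rw [es, et] <;>
        simp only [zero_mul, mul_zero, one_mul, mul_one, hωω, hω3, hω4, hω5] <;>
        simp [fourMap, hω0, hω1, o1, o2, o3, cL, cR, ← hz₁, k11, k21, k22', hc, hρz, hZ2 _ hz₁Z,
          e1, e2, e3, mul_assoc]
    · intro r hr
      rcases hall r with rfl | rfl | rfl | rfl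
      · rfl
      · exact absurd (by simpa [fourMap] using hr) hwb
      · exfalso
        simp [fourMap, hω0, hω1] at hr
        exact hwb (by simpa using hr)
      · exfalso
        simp [fourMap, o1, o2, o3] at hr
        apply hwb
        rw [mul_eq_one_iff_eq_inv, inv_eq_of_mul_eq_one_right hρz] at hr
        exact hF.fpf_sq _ hr.symm
  · -- the fixed points
    have hle : Nat.card C ≤ 8 := by
      let f : C × C → T := fun p => (p.1 : T) * ρ (p.2 : T)
      have hf : Function.Injective f := by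
        rintro ⟨p, q⟩ ⟨p', q'⟩ e
        have e' : (p' : T)⁻¹ * p = ρ ((q' : T) * (q : T)⁻¹) := by
          rw [map_mul, map_inv]
          have h : (p : T) * ρ (q : T) = p' * ρ (q' : T) := e
          calc (p' : T)⁻¹ * p = (p' : T)⁻¹ * ((p : T) * ρ (q : T)) * (ρ (q : T))⁻¹ := by group
            _ = _ := by rw [h]; group
        have hfix : x ((q' : T) * (q : T)⁻¹) = (q' : T) * (q : T)⁻¹ :=
          (hC _).1 (C.mul_mem q'.2 (C.inv_mem q.2))
        have h1 : x ((p' : T)⁻¹ * p) = (p' : T)⁻¹ * p := (hC _).1 (C.mul_mem (C.inv_mem p'.2) p.2)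
        rw [e', hxρ, hfix] at h1
        have hq1 : (q' : T) * (q : T)⁻¹ = 1 := ρ.injective ((hfp _ h1).trans (map_one ρ).symm)
        rw [hq1, map_one, inv_mul_eq_one] at e'
        exact Prod.ext (Subtype.ext e'.symm) (Subtype.ext (mul_inv_eq_one.1 hq1).symm)
      have := Nat.card_le_card_of_injective f hf
      rw [Nat.card_prod, hT] at this
      by_contra hcon
      have : 9 * 9 ≤ Nat.card C * Nat.card C := Nat.mul_le_mul (by omega) (by omega)
      omega
    let u' : C := ⟨u, (hC u).2 hxu⟩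
    let v' : C := ⟨v, (hC v).2 hxv⟩
    have hnc : ⁅u', v'⁆ ≠ 1 := fun e => huv (by
      have := congrArg Subtype.val e
      simpa [commutatorElement_def] using this)
    have hpC : IsPGroup 2 C := hpT.to_subgroup C
    have h8 : Nat.card C = 8 := by
      obtain ⟨k, hk⟩ := hpC.exists_card_eq
      have hk3 : k ≤ 3 := by
        by_contra hcon
        have : 2 ^ 4 ≤ 2 ^ k := Nat.pow_le_pow_right (by norm_num) (by omega)
        omega
      have hnoncomm : ¬ ∀ a b : C, a * b = b * a := fun h => hnc (commutatorElement_eq_one_iff_mul_comm.2 (h _ _))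
      interval_cases k
      · exfalso
        haveI : Subsingleton C := (Nat.card_eq_one_iff_unique.1 (by rw [hk]; rfl)).1
        exact hnoncomm fun a b => Subsingleton.elim _ _
      · exfalso
        haveI := isCyclic_of_prime_card (p := 2) (α := C) (by rw [hk]; rfl)
        exact hnoncomm fun a b => (IsCyclic.commGroup (α := C)).mul_comm a b
      · exfalso
        exact hnoncomm fun a b => IsPGroup.commutative_of_card_eq_prime_sq (p := 2) hk a b
      · exact hk
    have hidx : (commutator C).index = 4 := by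
      have hz : (commutator C).map C.subtype ≤ Subgroup.zpowers z₀ := by
        rw [commutator_eq_closure, MonoidHom.map_closure, Subgroup.closure_le]
        rintro _ ⟨_, ⟨a, b, rfl⟩, rfl⟩
        rw [map_commutatorElement]
        rcases hfixZ _ (hcomm (a : T) b) (by
          rw [map_commutatorElement, (hC _).1 a.2, (hC _).1 b.2]) with e | e
        · show ⁅(a : T), (b : T)⁆ ∈ Subgroup.zpowers z₀
          rw [e]; exact one_mem _
        · show ⁅(a : T), (b : T)⁆ ∈ Subgroup.zpowers z₀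
          rw [e]; exact Subgroup.mem_zpowers _
      have h2le : Nat.card (commutator C) ≤ 2 := by
        have := Subgroup.card_le_of_le hz
        rw [Subgroup.card_map_of_injective C.subtype_injective, Nat.card_zpowers] at this
        refine this.trans (Nat.le_of_dvd (by norm_num) (orderOf_dvd_of_pow_eq_one ?_))
        rw [sq]; exact hZ2 _ hz₀
      have h2ge : 1 < Nat.card (commutator C) := by
        rw [Subgroup.one_lt_card_iff_ne_bot]
        intro e
        apply hnc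
        have : ⁅u', v'⁆ ∈ commutator C :=
          Subgroup.commutator_mem_commutator (Subgroup.mem_top _) (Subgroup.mem_top _)
        rwa [e, Subgroup.mem_bot] at this
      have := (commutator C).card_mul_index
      rw [h8, show Nat.card (commutator C) = 2 by omega] at this
      omega
    rcases Cfsg.Agent.TwoGroups.cases_of_index_commutator_eq_four hpC hidx with h | ⟨n, hn, h⟩
    · omega
    rcases h with ⟨⟨e⟩⟩ | ⟨⟨e⟩⟩ | h
    · have := Nat.card_congr e.toEquiv
      rw [h8, DihedralGroup.nat_card] at this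
      have h4 : 2 ^ n = 4 := by omega
      rw [h4] at e
      exact Or.inl ⟨e⟩
    · have := Nat.card_congr e.toEquiv
      rw [h8, Cfsg.Agent.TwoGroups.nat_card_quaternionGroup] at this
      have h4 : 2 ^ (n - 1) = 2 := by omega
      rw [h4] at e
      exact Or.inr ⟨e⟩
    · obtain ⟨k, hk, hkc, -⟩ := h
      rw [h8] at hkc
      have : 2 ^ 4 ≤ 2 ^ (k + 1) := Nat.pow_le_pow_right (by norm_num) (by omega)
      omega

end Cfsg.Agent.S3157
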