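import Cfsg.Statements.S3162
import Cfsg.Agent.TwoAut.UnitaryAut

set_option autoImplicit false
open Cfsg

namespace Cfsg.Agent.S3162

/-- Let S be a Sylow 2-subgroup of the special unitary group of dimension 3 with parameter q = 2^n (n ≥ 2; realised over the field with q² elements). Then the largest normal 2-subgroup of the automorphism group of S is elementary abelian of order 2^(2n²), and the automorphism group has order 2^(2n²) · 2n(q² − 1). -/
theorem result {S : Type*} [Group S] [Finite S] (n : ℕ) (hn : 2 ≤ n) {F : Type*} [Field F] [Fintype F] (hF : Fintype.card F = 4 ^ n)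
    (P : Sylow 2 ↥(Cfsg.SU 3 F (2 ^ n))) (hS : Nonempty (S ≃* ↥(P : Subgroup ↥(Cfsg.SU 3 F (2 ^ n))))) :
    Cfsg.IsElementaryAbelian 2 (Cfsg.pCore 2 (MulAut S)) ∧ Nat.card ↥(Cfsg.pCore 2 (MulAut S)) = 2 ^ (2 * n ^ 2) ∧
      Nat.card (MulAut S) = 2 ^ (2 * n ^ 2) * (2 * n * ((2 ^ n) ^ 2 - 1)) := by
  obtain ⟨f⟩ := hS
  have hn0 : n ≠ 0 := by omega
  have hF' : Fintype.card F = (2 ^ n) ^ 2 := by rw [hF, ← pow_mul, mul_comm, pow_mul]; norm_num
  haveI := Cfsg.Agent.TwoAut.Uni.charP_two hn0 hF'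
  obtain ⟨c₀⟩ := Cfsg.Agent.TwoAut.Uni.coords_of_sylow_SU hn0 hF' P
  have hsq := Cfsg.Agent.Classical.U.sqField_of_fintype hF'
  set c := c₀.congr f
  have hk := Cfsg.Agent.TwoAut.Uni.card_theta_ker c hsq rfl
  rw [Cfsg.Agent.TwoAut.Uni.pCore_eq_ker c hsq]
  refine ⟨Cfsg.Agent.TwoAut.Uni.theta_ker_elementary c hsq, hk, ?_⟩
  have h := (Cfsg.Agent.TwoAut.Uni.theta c hsq).ker.card_mul_index
  rw [Subgroup.index_ker, hk, Cfsg.Agent.TwoAut.Uni.card_theta_range c hsq,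
    Cfsg.Agent.TwoAut.Uni.card_ringEquiv hF'] at h
  rw [← h, mul_comm ((2 ^ n) ^ 2 - 1)]

end Cfsg.Agent.S3162
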