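import Cfsg.Statements.S3171
import Cfsg.Agent.AutCert.Common
import Cfsg.Agent.PGroup.Frattini
import Cfsg.Agent.Golay.SylowModCenterData

set_option autoImplicit false
open Cfsg

namespace Cfsg.Agent.S3171

open Cfsg.Agent.Golay Cfsg.Agent.SchurCert
open scoped Pointwise

theorem tested : m24FusGens.all validPair = true ∧ ∀ x ∈ m24FusGens, PreservesRows (codeFun x.1) := by
  decide +kernel

theorem tail_eq : m24FusCert.gimg m24FusCert.zW ∈ m24SylList := by decide +kernel

theorem sylList_def : m24SylList = m24FusCert.toCert.layer permMul permOne m24FusCert.P.n := rfl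

attribute [local irreducible] permMul FusCert.gimg m24SylList Cert.layer

/-- Let P be a Sylow 2-subgroup of the Mathieu group of degree 24 and S the quotient of P by its centre. Then the centre of every maximal subgroup of S has order at most 8; S has an elementary abelian subgroup of order 64; and S has only one abelian subgroup of order 64. -/
theorem result (P : Sylow 2 ↥Cfsg.M24) :
    (∀ M : Subgroup (↥(P : Subgroup ↥Cfsg.M24) ⧸ Subgroup.center ↥(P : Subgroup ↥Cfsg.M24)), IsCoatom M →
        Nat.card ↥(Subgroup.center ↥M) ≤ 8) ∧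
      (∃ A : Subgroup (↥(P : Subgroup ↥Cfsg.M24) ⧸ Subgroup.center ↥(P : Subgroup ↥Cfsg.M24)),
        Cfsg.IsElementaryAbelian 2 A ∧ Nat.card ↥A = 64) ∧
      ∀ A B : Subgroup (↥(P : Subgroup ↥Cfsg.M24) ⧸ Subgroup.center ↥(P : Subgroup ↥Cfsg.M24)),
        IsMulCommutative ↥A → Nat.card ↥A = 64 → IsMulCommutative ↥B → Nat.card ↥B = 64 → A = B := by
  classical
  haveI : Fact (Nat.Prime 2) := ⟨Nat.prime_two⟩
  haveI : Finite ↥Cfsg.M24 := Nat.finite_of_card_ne_zero (by rw [card_M24]; norm_num)
  set gen := elemAt Cfsg.M24 m24FusGens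
  have hgen : ∀ i, (permCode Cfsg.M24).enc (gen i) = m24FusCert.gens.getD i permOne :=
    enc_elemAt tested.1 fun x hx =>
      permOfPair_mem_M24 (List.all_eq_true.1 tested.1 x hx) (tested.2 x hx)
  set P₀ := initGroup gen m24FusCert.P.n
  have hodd := odd_index_of_card m24FusCert gen hgen m24Fus_presOK card_M24
    (m := 239085) (by decide +kernel) (by norm_num)
  obtain ⟨g, hg⟩ := MulAction.exists_smul_eq ↥Cfsg.M24
    ((IsPGroup.of_card (m24FusCert.card_eq gen hgen m24Fus_presOK)).toSylow hodd) P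
  have hmem : ∀ x : ↥Cfsg.M24, x ∈ (P : Subgroup ↥Cfsg.M24) ↔ g⁻¹ * x * g ∈ P₀ := by
    intro x
    rw [← hg, Sylow.coe_subgroup_smul, Subgroup.mem_pointwise_smul_iff_inv_smul_mem,
      MulAut.smul_def, ← map_inv, MulAut.conj_apply, inv_inv]
    rfl
  let code : ↥(P : Subgroup ↥Cfsg.M24) → ℕ := fun x => (permCode Cfsg.M24).enc (g⁻¹ * x * g)
  have hmul : ∀ a b, code (a * b) = permMul (code a) (code b) := fun a b => by
    refine Eq.trans (congrArg (permCode Cfsg.M24).enc ?_) ((permCode Cfsg.M24).enc_mul _ _)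
    rw [Subgroup.coe_mul]
    group
  have hone : code 1 = permOne := by
    refine Eq.trans (congrArg (permCode Cfsg.M24).enc ?_) (permCode Cfsg.M24).enc_one
    rw [Subgroup.coe_one]
    group
  have hinj : Function.Injective code := fun a b h => Subtype.ext
    (mul_left_cancel (mul_right_cancel ((permCode Cfsg.M24).enc_inj h)))
  have hL : ∀ a, code a ∈ m24SylList := fun a =>
    sylList_def.symm ▸ (m24FusCert.mem_iff gen hgen m24Fus_presOK _).1 ((hmem a).1 a.2)
  have hL' : ∀ c ∈ m24SylList, ∃ a, code a = c := by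
    intro c hc
    rw [sylList_def] at hc
    obtain ⟨y, hy, rfl⟩ := (exists_enc_layer (permCode Cfsg.M24) m24FusCert.toCert
      Nat.prime_two gen (fun i _ => hgen i) (by decide +kernel) (by decide +kernel)
      m24FusCert.P.n le_rfl).2 c hc
    refine ⟨⟨g * y * g⁻¹, (hmem _).2 ?_⟩, congrArg (permCode Cfsg.M24).enc ?_⟩
    · rwa [show g⁻¹ * (g * y * g⁻¹) * g = y by group]
    · show g⁻¹ * (g * y * g⁻¹) * g = y
      group
  obtain ⟨zP, hzP⟩ := hL' _ tail_eq
  have hzc : ∀ s, s * zP = zP * s := by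
    intro s
    refine hinj ?_
    rw [hmul, hmul, hzP]
    obtain ⟨-, -, hc, -⟩ := m24FusCert.eq_z_of_central gen hgen m24Fus_presOK m24Fus_centreOK
    rw [← m24FusCert.enc_gimg gen hgen _ (by decide +kernel)]
    exact ((permCode Cfsg.M24).enc_mul _ _).symm.trans
      ((congrArg (permCode Cfsg.M24).enc (hc _ ((hmem s).1 s.2))).trans
        ((permCode Cfsg.M24).enc_mul _ _))
  have hcenter : ∀ x : ↥(P : Subgroup ↥Cfsg.M24), x ∈ Subgroup.center _ ↔ x = 1 ∨ x = zP := by
    intro x
    constructor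
    · intro hx
      obtain ⟨hz, -, -, huniq⟩ :=
        m24FusCert.eq_z_of_central gen hgen m24Fus_presOK m24Fus_centreOK
      by_cases h1 : x = 1
      · exact Or.inl h1
      refine Or.inr (hinj ?_)
      rw [hzP, ← m24FusCert.enc_gimg gen hgen _ (by decide +kernel)]
      refine congrArg (permCode Cfsg.M24).enc (huniq _ ((hmem x).1 x.2) (fun h => h1 ?_) fun s hs => ?_)
      · refine hinj ?_
        show (permCode Cfsg.M24).enc (g⁻¹ * x * g) = code 1
        rw [h, (permCode Cfsg.M24).enc_one, hone]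
        rfl
      · have hs' : g * s * g⁻¹ ∈ (P : Subgroup ↥Cfsg.M24) := by
          rw [hmem, show g⁻¹ * (g * s * g⁻¹) * g = s by group]
          exact hs
        have h2 : (g * s * g⁻¹) * x = x * (g * s * g⁻¹) :=
          congrArg Subtype.val (Subgroup.mem_center_iff.1 hx ⟨_, hs'⟩)
        calc s * (g⁻¹ * x * g) = g⁻¹ * ((g * s * g⁻¹) * x) * g := by group
          _ = g⁻¹ * (x * (g * s * g⁻¹)) * g := by rw [h2]
          _ = g⁻¹ * x * g * s := by group
    · rintro (rfl | rfl)
      · exact one_mem _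
      · exact Subgroup.mem_center_iff.2 hzc
  set q := QuotientGroup.mk' (Subgroup.center ↥(P : Subgroup ↥Cfsg.M24))
  have hsame : ∀ a b, q a = q b ↔
      sameMod (m24FusCert.gimg m24FusCert.zW) (code a) (code b) = true := by
    intro a b
    rw [sameMod, Bool.or_eq_true, ← hzP, ← hmul,
      MonoidHom.eq_iff, QuotientGroup.ker_mk', hcenter]
    simp only [Nat.beq_eq, hinj.eq_iff]
    constructor
    · rintro (h | h)
      · exact Or.inl (inv_mul_eq_one.1 h).symm
      · exact Or.inr (by rw [← h, mul_inv_cancel_left])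
    · rintro (h | h)
      · exact Or.inl (by rw [h, inv_mul_cancel])
      · exact Or.inr (by rw [h, inv_mul_cancel_left])
  have hq : Function.Surjective q := QuotientGroup.mk'_surjective _
  obtain ⟨haEls, A, hA, hA64, hAiff⟩ := Golay.exists_abelian q hq code _ _ m24ModData hmul hone
    hsame hL hL' m24Mod_abOK
  refine ⟨fun M hM => ?_, ⟨A, hA, hA64⟩, fun B C hB hB64 hC hC64 => ?_⟩
  · refine Golay.card_center_le_eight q hq code _ _ m24ModData hmul hone hsame hL hL'
      m24Mod_maxOK M (PGroup.index_of_isCoatom ?_ hM)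
    exact (P.2.to_quotient _)
  · have key := Golay.abelian_eq q hq code _ _ m24ModData hmul hone hsame hL hL' m24Mod_cosetOK
      haEls A
    exact (key B hAiff hA64 hA.1 hB hB64).trans (key C hAiff hA64 hA.1 hC hC64).symm

end Cfsg.Agent.S3171
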