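import Cfsg.Statements.S3174
import Cfsg.Agent.CharTwo.RudvalisCentre

set_option autoImplicit false
open Cfsg

namespace Cfsg.Agent.S3174

open Cfsg.Agent.CharTwo.Rudvalis

/-- Let T be a finite 2-group of order at least 2^14 in which the fourth term of the upper central series has order 16. Let W be the centralizer in T of the third term Z₃(T), and suppose the Frattini subgroup of W has order at most 8 and lies in every subgroup of W of index at most 16. Then T has order exactly 2^14; the derived subgroup of W and the Frattini subgroup of W both equal Z₃(T), which is elementary abelian of order 8; the centre of W has order 8; W is normal in T with quotient dihedral of order 8; and W modulo its derived subgroup is elementary abelian of order 2^8. -/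
theorem result {T : Type*} [Group T] [Finite T]
    (hT : IsPGroup 2 T) (ha : 2 ^ 14 ≤ Nat.card T) (hb : Nat.card ↥(Subgroup.upperCentralSeries T 4) = 16)
    (W : Subgroup T) (hW : W = Subgroup.centralizer ((Subgroup.upperCentralSeries T 3 : Subgroup T) : Set T))
    (hc : Nat.card ↥(frattini ↥W) ≤ 8) (hd : ∀ U : Subgroup ↥W, U.index ≤ 16 → frattini ↥W ≤ U) :
    Nat.card T = 2 ^ 14 ∧
      (commutator ↥W).map W.subtype = Subgroup.upperCentralSeries T 3 ∧
      (frattini ↥W).map W.subtype = Subgroup.upperCentralSeries T 3 ∧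
      Nat.card ↥(Subgroup.center ↥W) = 8 ∧
      Nat.card ↥(Subgroup.upperCentralSeries T 3) = 8 ∧ (∀ z ∈ Subgroup.upperCentralSeries T 3, z ^ 2 = 1) ∧
      (∃ (_ : W.Normal), Nonempty (T ⧸ W ≃* DihedralGroup 4)) ∧
      Nat.card (↥W ⧸ commutator ↥W) = 2 ^ 8 ∧ (∀ x : ↥W ⧸ commutator ↥W, x ^ 2 = 1) := by
  classical
  have h : Hyp W := ⟨hT, ha, hb, hW, hc, hd⟩
  haveI : Fact (Nat.Prime 2) := ⟨Nat.prime_two⟩
  haveI hWn := h.normal_W
  have hcomap : commutator ↥W = (Z T 3).subgroupOf W := by
    rw [← h.commutator_eq]; exact (Subgroup.comap_map_eq_self_of_injective W.subtype_injective _).symm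
  refine ⟨h.card_T, h.commutator_eq, h.Fr_eq, ?_, ?_, fun z hz => ?_, ?_, ?_, ?_⟩
  · have : Subgroup.center ↥W = (Z T 3).subgroupOf W := by
      ext x
      refine ⟨fun hx => h.center_le x.2 fun y hy => ?_, fun hx => Subgroup.mem_center_iff.2 fun y => ?_⟩
      · exact (congrArg Subtype.val (Subgroup.mem_center_iff.1 hx ⟨y, hy⟩)).symm
      · exact Subtype.ext (h.comm_W y.2 hx)
    rw [this, Nat.card_congr (Subgroup.subgroupOfEquivOfLe h.Z3_le_W).toEquiv, h.card_Z (by norm_num)]
    norm_num
  · rw [h.card_Z (by norm_num)]; norm_num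
  · rw [pow_two]; exact h.Z3_sq z hz
  · obtain ⟨π, hπ, hπs, -⟩ := h.exists_proj
    exact ⟨hWn, ⟨(QuotientGroup.quotientMulEquivOfEq hπ.symm).trans
      (QuotientGroup.quotientKerEquivOfSurjective π hπs)⟩⟩
  · rw [← Subgroup.index_eq_card, hcomap]
    show (Z T 3).relIndex W = 2 ^ 8
    rw [h.relIndex_Fr]; norm_num
  · intro x
    obtain ⟨y, rfl⟩ := QuotientGroup.mk_surjective x
    rw [← QuotientGroup.mk_pow, QuotientGroup.eq_one_iff, hcomap, Subgroup.mem_subgroupOf,
      Subgroup.coe_pow, pow_two]
    exact h.Fr_eq ▸ h.sq_mem_Fr y.2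

end Cfsg.Agent.S3174
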