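import Cfsg.Statements.S3175
import Cfsg.Agent.CharTwo.RudvalisNormalizer

set_option autoImplicit false
open Cfsg

namespace Cfsg.Agent.S3175

/-- Let G be a finite group whose Sylow 2-subgroup T has order at least 2^14 and whose upper central series has fourth term of order 16; let W be the centralizer in T of the third term, and suppose the Frattini subgroup of W has order at most 8 and lies in every subgroup of W of index at most 16. Then the normalizer of T in G has a normal 2-complement, and W is weakly closed in T with respect to G. -/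
theorem result {G : Type*} [Group G] [Finite G]
    (T : Sylow 2 G) (ha : 2 ^ 14 ≤ Nat.card ↥(T : Subgroup G))
    (hb : Nat.card ↥(Subgroup.upperCentralSeries ↥(T : Subgroup G) 4) = 16)
    (W : Subgroup ↥(T : Subgroup G))
    (hW : W = Subgroup.centralizer ((Subgroup.upperCentralSeries ↥(T : Subgroup G) 3 : Subgroup ↥(T : Subgroup G)) : Set ↥(T : Subgroup G)))
    (hc : Nat.card ↥(frattini ↥W) ≤ 8)
    (hd : ∀ U : Subgroup ↥W, U.index ≤ 16 → frattini ↥W ≤ U) :
    Cfsg.HasNormalPComplement 2 ↥(Subgroup.normalizer ((T : Subgroup G) : Set G)) ∧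
      Cfsg.IsWeaklyClosed (W.map (T : Subgroup G).subtype) (T : Subgroup G) := by
  exact CharTwo.Rudvalis.sylow_normalizer T W ⟨T.isPGroup', ha, hb, hW, hc, hd⟩

end Cfsg.Agent.S3175
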