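import Cfsg.Statements.S3180
import Cfsg.Agent.CharTwo.SylowSmall

set_option autoImplicit false
open Cfsg

namespace Cfsg.Agent.S3180

/-- Let P be a Sylow p-subgroup of a finite group J and P₁ a subgroup of P that is weakly closed in P with respect to J. If J acts on a set and two points, each fixed by every element of P₁, lie in one J-orbit, then they lie in one orbit of the normalizer of P₁ in J. -/
theorem result {J : Type*} [Group J] [Finite J]
    {p : ℕ} [Fact p.Prime] (P : Sylow p J) (P₁ : Subgroup J) (hW : Cfsg.IsWeaklyClosed P₁ (P : Subgroup J))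
    {Ω : Type*} [MulAction J Ω] (x y : Ω) (hx : ∀ g ∈ P₁, g • x = x) (hy : ∀ g ∈ P₁, g • y = y)
    (hc : ∃ g : J, g • x = y) :
    ∃ g ∈ Subgroup.normalizer (P₁ : Set J), g • x = y := by
  exact CharTwo.exists_normalizer_smul P hW x y hx hy hc

end Cfsg.Agent.S3180
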