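import Cfsg.Statements.S3183
import Cfsg.Agent.CharTwo.SylowSmall

set_option autoImplicit false
open Cfsg

namespace Cfsg.Agent.S3183

/-- Let G be a finite group in which the intersection of any two distinct Sylow 2-subgroups is contained in the centre of some Sylow 2-subgroup, and let S be a Sylow 2-subgroup. Then for every x in S the centralizer of x in S is a Sylow 2-subgroup of the centralizer of x in G (no 2-subgroup centralizing x is larger), and for every other Sylow 2-subgroup T the intersection S ∩ T lies in both the centre of S and the centre of T. -/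
theorem result {G : Type*} [Group G] [Finite G]
    (hCI : ∀ S T : Sylow 2 G, S ≠ T → ∃ U : Sylow 2 G,
      (S : Subgroup G) ⊓ (T : Subgroup G) ≤ (Subgroup.center ↥(U : Subgroup G)).map (U : Subgroup G).subtype)
    (S : Sylow 2 G) :
    (∀ x ∈ (S : Subgroup G), ∀ P : Subgroup G, IsPGroup 2 ↥P → P ≤ Subgroup.centralizer ({x} : Set G) →
        Nat.card ↥P ≤ Nat.card ↥((S : Subgroup G) ⊓ Subgroup.centralizer ({x} : Set G))) ∧
    (∀ T : Sylow 2 G, T ≠ S →
        (S : Subgroup G) ⊓ (T : Subgroup G) ≤
          (Subgroup.center ↥(S : Subgroup G)).map (S : Subgroup G).subtype ⊓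
            (Subgroup.center ↥(T : Subgroup G)).map (T : Subgroup G).subtype) := by
  exact CharTwo.central_intersections_centralizer hCI S

end Cfsg.Agent.S3183
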