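import Cfsg.Statements.S3184
import Cfsg.Agent.CharTwo.SylowSmall
import Cfsg.Agent.Fusion.Basic
import Cfsg.Agent.Cores.Basic
import Cfsg.Agent.S0215
import Cfsg.Agent.Coprime.Generation

set_option autoImplicit false
open Cfsg

namespace Cfsg.Agent.S3184

/-- Let G be a finite group in which the intersection of any two distinct Sylow 2-subgroups is contained in the centre of some Sylow 2-subgroup, and let S be a Sylow 2-subgroup. If C is a nontrivial cyclic characteristic subgroup of S, then the involution of C is central modulo the largest normal subgroup of odd order of G: each of its conjugates has the same image in G/O(G). -/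
theorem result {G : Type*} [Group G] [Finite G]
    (hCI : ∀ S T : Sylow 2 G, S ≠ T → ∃ U : Sylow 2 G,
      (S : Subgroup G) ⊓ (T : Subgroup G) ≤ (Subgroup.center ↥(U : Subgroup G)).map (U : Subgroup G).subtype)
    (S : Sylow 2 G) (C : Subgroup ↥(S : Subgroup G)) (hC : C ≠ ⊥) (hCc : IsCyclic ↥C) (hCh : C.Characteristic)
    (c : ↥(S : Subgroup G)) (hc : c ∈ C) (hc2 : orderOf c = 2) :
    ∀ g : G, (QuotientGroup.mk (s := Cfsg.oddCore G) (g * (c : G) * g⁻¹)) =
      QuotientGroup.mk (s := Cfsg.oddCore G) (c : G) := by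
  haveI : Fact (Nat.Prime 2) := ⟨Nat.prime_two⟩
  have hfix : ∀ α : ↥(S : Subgroup G) ≃* ↥(S : Subgroup G), α c = c := by
    intro α
    haveI := hCh
    have hmap := Subgroup.characteristic_iff_map_eq.1 hCh α
    have hαC : α c ∈ C := by rw [← hmap]; exact ⟨c, hc, rfl⟩
    have ho : orderOf (α c) = 2 := by rw [MulEquiv.orderOf_eq, hc2]
    haveI := hCc
    have key : ∀ a b : C, orderOf a = 2 → orderOf b = 2 → a = b := by
      intro a b ha hb
      haveI : Fintype C := Fintype.ofFinite C
      classical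
      have h1 := IsCyclic.card_pow_eq_one_le (α := C) two_pos
      by_contra hab
      have hsub : ({1, a, b} : Finset C) ⊆ Finset.univ.filter (fun x : C => x ^ 2 = 1) := by
        intro x hx
        simp only [Finset.mem_insert, Finset.mem_singleton] at hx
        rw [Finset.mem_filter]
        refine ⟨Finset.mem_univ _, ?_⟩
        rcases hx with rfl | rfl | rfl
        · exact one_pow 2
        · exact orderOf_dvd_iff_pow_eq_one.1 (dvd_of_eq ha)
        · exact orderOf_dvd_iff_pow_eq_one.1 (dvd_of_eq hb)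
      have h3 : ({1, a, b} : Finset C).card = 3 := by
        rw [Finset.card_eq_three]
        refine ⟨1, a, b, ?_, ?_, hab, rfl⟩
        · intro e; rw [← e, orderOf_one] at ha; omega
        · intro e; rw [← e, orderOf_one] at hb; omega
      have := (Finset.card_le_card hsub).trans h1
      omega
    exact congrArg Subtype.val (key ⟨α c, hαC⟩ ⟨c, hc⟩
      (by rw [← orderOf_submonoid]; exact ho) (by rw [← orderOf_submonoid]; exact hc2))
  have hcS : (S : Subgroup G) ≤ Subgroup.centralizer ({(c : G)} : Set G) := by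
    intro s hs
    rw [Subgroup.mem_centralizer_singleton_iff]
    have := congrArg Subtype.val (hfix (MulAut.conj ⟨s, hs⟩))
    simp only [MulAut.conj_apply, Subgroup.coe_mul, InvMemClass.coe_inv] at this
    exact mul_inv_eq_iff_eq_mul.1 this
  have hiso : ∀ g : G, g * (c : G) * g⁻¹ ∈ (S : Subgroup G) → g * (c : G) * g⁻¹ = c := by
    intro g hd
    set d := g * (c : G) * g⁻¹ with hdef
    set T := Fusion.cj g (S : Subgroup G) with hT
    have hTc : T ≤ Subgroup.centralizer ({d} : Set G) := by
      rintro _ ⟨s, hs, rfl⟩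
      rw [Subgroup.mem_centralizer_singleton_iff]
      show g * s * g⁻¹ * d = d * (g * s * g⁻¹)
      calc g * s * g⁻¹ * d = g * (s * (c : G)) * g⁻¹ := by rw [hdef]; group
        _ = g * ((c : G) * s) * g⁻¹ := by rw [Subgroup.mem_centralizer_singleton_iff.1 (hcS hs)]
        _ = d * (g * s * g⁻¹) := by rw [hdef]; group
    obtain ⟨hcent, -⟩ := CharTwo.central_intersections_centralizer hCI S
    have h1 := hcent d hd T (Fusion.isPGroup_cj S.2 g) hTc
    rw [hT, Fusion.card_cj] at h1
    have h2 : (S : Subgroup G) ≤ Subgroup.centralizer ({d} : Set G) :=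
      inf_eq_left.1 (Subgroup.eq_of_le_of_card_ge inf_le_left h1)
    have hni : ∀ U : Subgroup G, (∀ P : Sylow 2 G, (P : Subgroup G) = U →
        ¬ 2 ∣ U.relIndex (Subgroup.centralizer ({d} : Set G)) ∨ ¬ U ≤ Subgroup.centralizer ({d} : Set G)) := by
      intro U P hP
      by_cases hU : U ≤ Subgroup.centralizer ({d} : Set G)
      · refine Or.inl fun hdv => P.not_dvd_index ?_
        rw [hP]
        exact hdv.trans (Dvd.intro _ (Subgroup.relIndex_mul_index hU))
      · exact Or.inr hU
    have hSi := (hni _ S rfl).resolve_right (not_not_intro h2)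
    have hTi := (hni T (g • S) (Fusion.coe_smul_sylow g S)).resolve_right (not_not_intro hTc)
    obtain ⟨k, hk, hkT⟩ := Fusion.exists_conj_of_relIndex (p := 2) (Fusion.isPGroup_cj S.2 g) S.2
      hTc h2 hTi hSi
    rw [Fusion.cj_cj] at hkT
    have hn : k * g ∈ Subgroup.normalizer ((S : Subgroup G) : Set G) :=
      Fusion.cj_eq_iff_mem_normalizer.1 hkT
    have h3 := congrArg Subtype.val (hfix (Coprime.conjNormalizer (S : Subgroup G) ⟨k * g, hn⟩))
    change (k * g) * (c : G) * (k * g)⁻¹ = c at h3
    have h4 : k * d * k⁻¹ = d := mul_inv_eq_iff_eq_mul.2 (Subgroup.mem_centralizer_singleton_iff.1 hk)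
    calc d = k * d * k⁻¹ := h4.symm
      _ = k * g * (c : G) * (k * g)⁻¹ := by rw [hdef]; group
      _ = c := h3
  obtain ⟨N, hN, hNodd, hcom⟩ := S0215.result S (c : G)
    (by rw [Subgroup.orderOf_coe]; exact hc2) c.2 hiso
  have hle : N ≤ Cfsg.oddCore G := Cores.le_pPrimeCore hN (Nat.coprime_two_right.2 hNodd)
  intro g
  rw [QuotientGroup.eq]
  apply hle

  have hc2' : (c : G)⁻¹ = c := inv_eq_of_mul_eq_one_right (by
    rw [← pow_two]
    have h5 := pow_orderOf_eq_one c
    rw [hc2] at h5
    simpa using congrArg Subtype.val h5)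
  have e2 : (g * (c : G) * g⁻¹)⁻¹ * c = g * (c : G)⁻¹ * g⁻¹ * c := by group
  have h6 : g * (c : G)⁻¹ * g⁻¹ * c = ((c : G)⁻¹ * g * (c : G) * g⁻¹)⁻¹ := by group
  rw [e2, h6, hc2']
  have h7 := N.inv_mem (hcom g)
  rwa [hc2'] at h7

end Cfsg.Agent.S3184
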