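import Cfsg.Statements.S3190
import Cfsg.Agent.CharTwo.SylowSmall

set_option autoImplicit false
open Cfsg

namespace Cfsg.Agent.S3190

/-- Let p be an odd prime and, inside a finite group, let P be a p-subgroup normalized by a Klein four-group T. Let R be a subgroup of P, normal in P and normalized by T, such that P is the product of R with the centralizer of T in P. If T centralizes the centre of P, then T centralizes the centre of R. -/
theorem result {X : Type*} [Group X] [Finite X]
    {p : ℕ} (hp : p.Prime) (hodd : Odd p) (P T R : Subgroup X) (hP : IsPGroup p ↥P) (hT : IsKleinFour ↥T)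
    (hTP : T ≤ Subgroup.normalizer (P : Set X)) (hRP : R ≤ P) (hRn : (R.subgroupOf P).Normal)
    (hTR : T ≤ Subgroup.normalizer (R : Set X)) (hfac : R ⊔ (P ⊓ Subgroup.centralizer (T : Set X)) = P)
    (hZ : T ≤ Subgroup.centralizer (((Subgroup.center ↥P).map P.subtype : Subgroup X) : Set X)) :
    T ≤ Subgroup.centralizer (((Subgroup.center ↥R).map R.subtype : Subgroup X) : Set X) := by
  exact CharTwo.four_group_center_factor hp hodd P T R hP hT hRP hRn hTR hfac hZ

end Cfsg.Agent.S3190
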