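import Cfsg.Statements.S3196
import Cfsg.Agent.CharTwo.CommutingFamilies

set_option autoImplicit false
open Cfsg

namespace Cfsg.Agent.S3196

/-- Let p be a prime and K a set of subgroups of order p of a finite group G, closed under conjugation, such that at least two distinct members of K commute elementwise, and whenever two distinct members X, Y of K commute: every subgroup of order p of the group XY they generate belongs to K, and every member W of K has centralizer meeting XY nontrivially. Then some member V of K commutes elementwise with every member of K and lies in O_p(G); in particular G is not simple. -/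
theorem result {G : Type*} [Group G] [Finite G]
    {p : ℕ} (hp : p.Prime) (K : Set (Subgroup G)) (hK : ∀ X ∈ K, Nat.card ↥X = p)
    (hKc : ∀ X ∈ K, ∀ g : G, X.map (MulAut.conj g).toMonoidHom ∈ K)
    (hex : ∃ X ∈ K, ∃ Y ∈ K, X ≠ Y ∧ ∀ x ∈ X, ∀ y ∈ Y, x * y = y * x)
    (ha : ∀ X ∈ K, ∀ Y ∈ K, X ≠ Y → (∀ x ∈ X, ∀ y ∈ Y, x * y = y * x) →
      ∀ Z : Subgroup G, Z ≤ X ⊔ Y → Nat.card ↥Z = p → Z ∈ K)
    (hb : ∀ X ∈ K, ∀ Y ∈ K, X ≠ Y → (∀ x ∈ X, ∀ y ∈ Y, x * y = y * x) →
      ∀ W ∈ K, (X ⊔ Y) ⊓ Subgroup.centralizer (W : Set G) ≠ ⊥) :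
    (∃ V ∈ K, (∀ W ∈ K, ∀ v ∈ V, ∀ w ∈ W, v * w = w * v) ∧ V ≤ Cfsg.pCore p G) ∧ ¬ IsSimpleGroup G := by
  exact CharTwo.commuting_family_radical hp K hK hKc hex ha hb

end Cfsg.Agent.S3196
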