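import Cfsg.Statements.S3202
import Cfsg.Agent.CharTwo.QuaternionQuotient

set_option autoImplicit false
open Cfsg

namespace Cfsg.Agent.S3202

/-- Let S be a finite 2-group of 2-rank exactly 2 and D a maximal subgroup of the centre of S such that S/D is a non-abelian group with exactly one involution (a generalized quaternion group). Then S has a nontrivial cyclic characteristic subgroup. -/
theorem result {S : Type*} [Group S]
    [Finite S] (hS : IsPGroup 2 S) (hr2 : Cfsg.PRankLE 2 2 S) (hr1 : ¬ Cfsg.PRankLE 2 1 S)
    (D : Subgroup ↥(Subgroup.center S)) (hD : IsCoatom D)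
    (hq : ∃ (_ : (D.map (Subgroup.center S).subtype).Normal),
      ¬ IsMulCommutative (S ⧸ D.map (Subgroup.center S).subtype) ∧
      ∃! x : S ⧸ D.map (Subgroup.center S).subtype, orderOf x = 2) :
    ∃ C : Subgroup S, C ≠ ⊥ ∧ IsCyclic ↥C ∧ C.Characteristic := by
  exact CharTwo.exists_cyclic_characteristic hS D hD hq

end Cfsg.Agent.S3202
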