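import Cfsg.Statements.S3206
import Cfsg.Agent.CharTwo.JankoRee

set_option autoImplicit false
open Cfsg

namespace Cfsg.Agent.S3206

/-- Let G be a non-abelian finite simple group with abelian Sylow 2-subgroups, and let t be an involution of G whose centralizer is a maximal subgroup of G and is the direct product of the subgroup generated by t with a subgroup E having a normal subgroup isomorphic to PSL(2, q), q odd and greater than 3, with trivial centralizer in E. Then every finite perfect group having a central 2-subgroup with quotient isomorphic to G has that central subgroup trivial (G has no nontrivial perfect central extension by a 2-group), and every automorphism of G of 2-power order that fixes every element of some Sylow 2-subgroup of G is inner. -/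
theorem result {G : Type*} [Group G] [Finite G] [IsSimpleGroup G]
    (hG : ¬ IsMulCommutative G) (hab : ∀ S : Sylow 2 G, IsMulCommutative ↥(S : Subgroup G))
    (t : G) (ht : orderOf t = 2) (hmax : IsCoatom (Subgroup.centralizer ({t} : Set G)))
    (E : Subgroup G) (hE : Cfsg.IsInternalDirectProduct (Subgroup.zpowers t) E (Subgroup.centralizer ({t} : Set G)))
    {F : Type*} [Field F] [Fintype F] (hFo : Odd (Fintype.card F)) (hF3 : 3 < Fintype.card F)
    (N : Subgroup ↥E) [N.Normal] (hN : Nonempty (↥N ≃* Matrix.ProjectiveSpecialLinearGroup (Fin 2) F))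
    (hNc : Subgroup.centralizer (N : Set ↥E) = ⊥) :
    (∀ (L : Type) (_ : Group L) (_ : Finite L) (Z : Subgroup L) (_ : Z.Normal), commutator L = ⊤ → Z ≤ Subgroup.center L →
        IsPGroup 2 ↥Z → Nonempty (L ⧸ Z ≃* G) → Z = ⊥) ∧
    (∀ (φ : G ≃* G) (k : ℕ), φ ^ (2 ^ k) = 1 → (∃ S : Sylow 2 G, ∀ s ∈ (S : Subgroup G), φ s = s) →
        ∃ g : G, ∀ x : G, φ x = g * x * g⁻¹) := by
  classical
  haveI : Fact (Nat.Prime 2) := ⟨Nat.prime_two⟩
  have h : Cfsg.Agent.CharTwo.JankoRee.Hyp G t E F N :=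
    ⟨inferInstance, hG, hab, ht, hmax, hE, hFo, hF3, inferInstance, hN, hNc⟩
  refine ⟨fun L _ _ Z _ hperf hZc hZp ⟨e⟩ => h.cover Z hperf hZc hZp e, ?_⟩
  rintro φ k hk ⟨S1, hS1⟩
  obtain ⟨S, hS⟩ := h.exists_sylow_t
  obtain ⟨g, hg⟩ := MulAction.exists_smul_eq G S1 S
  have hk' : (MulAut.conj g * φ * (MulAut.conj g)⁻¹) ^ (2 ^ k) = 1 := by
    rw [conj_pow, show (φ : MulAut G) ^ (2 ^ k) = 1 from hk, mul_one, mul_inv_cancel]
  obtain ⟨a, ha⟩ := h.inner hS (MulAut.conj g * φ * (MulAut.conj g)⁻¹) k hk' (by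
    intro s hs
    rw [← hg] at hs
    obtain ⟨x, hx, rfl⟩ := hs
    show g * φ (g⁻¹ * (g * x * g⁻¹) * g) * g⁻¹ = g * x * g⁻¹
    rw [show g⁻¹ * (g * x * g⁻¹) * g = x by group, hS1 x hx])
  refine ⟨g⁻¹ * a * g, fun x => ?_⟩
  have hx : g * φ (g⁻¹ * (g * x * g⁻¹) * g) * g⁻¹ = a * (g * x * g⁻¹) * a⁻¹ :=
    congrArg (fun σ : MulAut G => σ (g * x * g⁻¹)) ha
  rw [show g⁻¹ * (g * x * g⁻¹) * g = x by group] at hx
  calc φ x = g⁻¹ * (g * φ x * g⁻¹) * g := by group
    _ = g⁻¹ * a * g * x * (g⁻¹ * a * g)⁻¹ := by rw [hx]; group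

end Cfsg.Agent.S3206
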