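import Cfsg.Statements.S3210
import Cfsg.Agent.CharTwo.SLPairNormalizer

set_option autoImplicit false
open Cfsg

namespace Cfsg.Agent.S3210

/-- Let G be a finite group with subgroups L₁ ≅ SL₂(q₁) and L₂ ≅ SL₂(q₂), q₁ and q₂ odd prime powers, which commute elementwise and meet in ⟨j⟩ for an involution j, and suppose L₁L₂ has index 2 in C_G(j). Then every element n of C_G(j) outside L₁L₂ either normalizes both L₁ and L₂, or conjugates L₁ onto L₂; in the second case q₁ = q₂ and there is an element n′ of C_G(j) outside L₁L₂ conjugating L₁ onto L₂ with n′² ∈ ⟨j⟩. -/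
theorem result {G : Type*} [Group G] [Finite G]
    {F₁ : Type*} [Field F₁] [Fintype F₁] {F₂ : Type*} [Field F₂] [Fintype F₂]
    (hF₁ : Odd (Fintype.card F₁)) (hF₂ : Odd (Fintype.card F₂)) (L₁ L₂ : Subgroup G)
    (e₁ : ↥L₁ ≃* Matrix.SpecialLinearGroup (Fin 2) F₁) (e₂ : ↥L₂ ≃* Matrix.SpecialLinearGroup (Fin 2) F₂)
    (hc : ∀ x ∈ L₁, ∀ y ∈ L₂, x * y = y * x) (j : G) (hj : orderOf j = 2) (hm : L₁ ⊓ L₂ = Subgroup.zpowers j)
    (hle : L₁ ⊔ L₂ ≤ Subgroup.centralizer ({j} : Set G)) (hi : (L₁ ⊔ L₂).relIndex (Subgroup.centralizer ({j} : Set G)) = 2) (n : G) (hn : n ∈ Subgroup.centralizer ({j} : Set G)) (hn' : n ∉ L₁ ⊔ L₂) :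
    (L₁.map (MulAut.conj n).toMonoidHom = L₁ ∧ L₂.map (MulAut.conj n).toMonoidHom = L₂) ∨
      (L₁.map (MulAut.conj n).toMonoidHom = L₂ ∧ Fintype.card F₁ = Fintype.card F₂ ∧
        ∃ n' ∈ Subgroup.centralizer ({j} : Set G), n' ∉ L₁ ⊔ L₂ ∧ L₁.map (MulAut.conj n').toMonoidHom = L₂ ∧ n' ^ 2 ∈ Subgroup.zpowers j) := by
  exact CharTwo.sl_pair_outer hF₁ hF₂ L₁ L₂ e₁ e₂ hc j hj hm hle hi n hn hn'

end Cfsg.Agent.S3210
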