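import Cfsg.Statements.S3211
import Cfsg.Agent.CharTwo.SLPairIsolated

set_option autoImplicit false
open Cfsg

namespace Cfsg.Agent.S3211

/-- Let G be a finite group with subgroups L₁ ≅ SL₂(q₁) and L₂ ≅ SL₂(q₂), q₁ and q₂ odd prime powers, which commute elementwise and meet in ⟨j⟩ for an involution j, and suppose L₁L₂ has index 2 in C_G(j). If some n ∈ C_G(j) with n² = j interchanges L₁ and L₂ under conjugation (so that C_G(j) = L₁L₂⟨n⟩), then G = C_G(j)O(G). -/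
theorem result {G : Type*} [Group G] [Finite G]
    {F₁ : Type*} [Field F₁] [Fintype F₁] {F₂ : Type*} [Field F₂] [Fintype F₂]
    (hF₁ : Odd (Fintype.card F₁)) (hF₂ : Odd (Fintype.card F₂)) (L₁ L₂ : Subgroup G)
    (e₁ : ↥L₁ ≃* Matrix.SpecialLinearGroup (Fin 2) F₁) (e₂ : ↥L₂ ≃* Matrix.SpecialLinearGroup (Fin 2) F₂)
    (hc : ∀ x ∈ L₁, ∀ y ∈ L₂, x * y = y * x) (j : G) (hj : orderOf j = 2) (hm : L₁ ⊓ L₂ = Subgroup.zpowers j)
    (hle : L₁ ⊔ L₂ ≤ Subgroup.centralizer ({j} : Set G)) (hi : (L₁ ⊔ L₂).relIndex (Subgroup.centralizer ({j} : Set G)) = 2) (n : G) (hn : n ∈ Subgroup.centralizer ({j} : Set G))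
    (hn2 : n ^ 2 = j) (hswap : L₁.map (MulAut.conj n).toMonoidHom = L₂) :
    Subgroup.centralizer ({j} : Set G) ⊔ Cfsg.oddCore G = ⊤ := by
  exact CharTwo.sl_pair_swap_main hF₁ hF₂ L₁ L₂ e₁ e₂ hc j hj hm hle hi n hn hn2 hswap

end Cfsg.Agent.S3211
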