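import Cfsg.Statements.S3215
import Cfsg.Agent.CharTwo.SolvableTwoNilpotent

set_option autoImplicit false
open Cfsg

namespace Cfsg.Agent.S3215

/-- Let H be a finite solvable group with no nontrivial normal subgroup of odd order in which the centralizer of every involution has a normal 2-complement. Let X be a Hall 2'-subgroup of H (odd order, index a power of 2) and Y = O₂(H). Then no non-identity element of X commutes with a non-identity element of Y (so for X ≠ 1 the group XY is a Frobenius group with kernel Y), every Sylow subgroup of X is cyclic, XY is normal in H, and H/XY is a cyclic 2-group. -/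
theorem result {H : Type*} [Group H] [Finite H] (hsol : Group.IsSolvable H)
    (hO : Cfsg.oddCore H = ⊥)
    (hI : ∀ t : H, orderOf t = 2 → Cfsg.HasNormalPComplement 2 ↥(Subgroup.centralizer ({t} : Set H)))
    (X : Subgroup H) (hXodd : Odd (Nat.card X)) (hXidx : ∃ k : ℕ, X.index = 2 ^ k) :
    (∀ x ∈ X, x ≠ 1 → ∀ y ∈ Cfsg.pCore 2 H, y ≠ 1 → x * y ≠ y * x) ∧
      (∀ (p : ℕ) [Fact p.Prime] (P : Sylow p ↥X), IsCyclic ↥(P : Subgroup ↥X)) ∧
      (X ⊔ Cfsg.pCore 2 H).Normal ∧
      ∀ hN : (X ⊔ Cfsg.pCore 2 H).Normal, IsCyclic (H ⧸ (X ⊔ Cfsg.pCore 2 H)) ∧ IsPGroup 2 (H ⧸ (X ⊔ Cfsg.pCore 2 H)) := by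
  exact (CharTwo.SolvableTwoNilp.mk hsol hO hI).main X hXodd hXidx

end Cfsg.Agent.S3215
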