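import Cfsg.Statements.S3225
import Cfsg.Agent.CharTwo.SylowSmall

set_option autoImplicit false
open Cfsg

namespace Cfsg.Agent.S3225

/-- Let G be a finite group of even order with no subgroup of index 2, S a Sylow 2-subgroup of G and M a subgroup of index 2 in S such that, for some n ≥ 1, every element of S outside M has order greater than 2^(n−1). Then every element of S of order 2ⁿ is conjugate in G to an element of M. -/
theorem result {G : Type*} [Group G] [Finite G] (hev : Even (Nat.card G))
    (hG : ∀ H : Subgroup G, H.index ≠ 2) (S : Sylow 2 G) (M : Subgroup G) (hMS : M ≤ (S : Subgroup G)) (hM : M.relIndex (S : Subgroup G) = 2)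
    (n : ℕ) (hn : 1 ≤ n) (hord : ∀ y ∈ (S : Subgroup G), y ∉ M → 2 ^ (n - 1) < orderOf y)
    (x : G) (hx : x ∈ (S : Subgroup G)) (hxn : orderOf x = 2 ^ n) :
    ∃ g : G, g * x * g⁻¹ ∈ M := by
  exact CharTwo.exists_conj_mem_of_orderOf hG S M hM n hord x hxn

end Cfsg.Agent.S3225
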