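import Cfsg.Statements.S3246
import Cfsg.Agent.CharTwo.EarlyType

set_option autoImplicit false
open Cfsg

namespace Cfsg.Agent.S3246

/-- Let G be a finite group whose Sylow 2-subgroup S has a self-centralizing normal subgroup of rank at least 3. Suppose that either every maximal 2-local subgroup of G is 2-constrained with no nontrivial normal subgroup of odd order, or the centralizer of every involution of G is 2-constrained with no nontrivial normal subgroup of odd order. Then S normalizes no nontrivial subgroup of G of odd order and every 2-local subgroup of G is 2-constrained. -/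
theorem result {G : Type*} [Group G] [Finite G]
    (S : Sylow 2 G) (A : Subgroup G) (hA : Cfsg.IsSCN (S : Subgroup G) A) (hA3 : ¬ Cfsg.PRankLE 2 2 ↥A)
    (h : (∀ M : Subgroup G, Cfsg.IsMaximalTwoLocal M → Cfsg.IsPConstrained 2 ↥M ∧ Cfsg.oddCore ↥M = ⊥) ∨
      (∀ t : G, orderOf t = 2 → Cfsg.IsPConstrained 2 ↥(Subgroup.centralizer ({t} : Set G)) ∧
        Cfsg.oddCore ↥(Subgroup.centralizer ({t} : Set G)) = ⊥)) :
    (∀ X : Subgroup G, Odd (Nat.card ↥X) → (S : Subgroup G) ≤ Subgroup.normalizer (X : Set G) → X = ⊥) ∧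
      (∀ T : Subgroup G, IsPGroup 2 ↥T → T ≠ ⊥ → Cfsg.IsPConstrained 2 ↥(Subgroup.normalizer (T : Set G))) := by
  have hc : ∀ t : G, orderOf t = 2 → CharTwo.CFCon 2 (Subgroup.centralizer ({t} : Set G)) := by
    intro t ht
    rcases h with h | h
    · exact CharTwo.cfcon_centralizer_of_maximal h ht
    · exact CharTwo.cfcon_of_isPConstrained (h t ht).1 (h t ht).2
  exact ⟨fun X hX hSX => CharTwo.eq_bot_of_sylow_invariant hc S hA hA3 hX hSX,
    fun T hT hT1 => (CharTwo.cfcon_normalizer_of_centralizers hc hT hT1).isPConstrained⟩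

end Cfsg.Agent.S3246
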