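import Cfsg.Statements.S3279
import Cfsg.Agent.Invol.RankOneQuot
-- import your own Cfsg.Agent.* helpers here

set_option autoImplicit false
open Cfsg

namespace Cfsg.Agent.S3279

open Subgroup Cfsg.Agent.Invol

section
variable {G : Type*} [Group G] [Finite G] [IsSimpleGroup G]

theorem not_isolated (hna : ∃ a b : G, a * b ≠ b * a) {t : G} (ht : IsIsolatedInv t) : False := by
  have : Fact (Nat.Prime 2) := ⟨Nat.prime_two⟩
  have hbot : pPrimeCore 2 G = ⊥ := by
    refine ((inferInstance : (pPrimeCore 2 G).Normal).eq_bot_or_eq_top).resolve_right fun e => ?_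
    have h := Cores.not_dvd_card_pPrimeCore (G := G) (p := 2)
    rw [e, Subgroup.card_top] at h
    exact h (ht.1 ▸ orderOf_dvd_natCard t)
  have hc : t ∈ center G := Subgroup.mem_center_iff.2 fun g => by
    have h := zStar_theorem G t ht g
    rw [hbot, Subgroup.mem_bot, commutatorElement_eq_one_iff_commute] at h
    exact h.symm.eq
  rcases (inferInstance : (center G).Normal).eq_bot_or_eq_top with e | e
  · rw [e, Subgroup.mem_bot] at hc
    exact Invol.inv_ne_one ht.1 hc
  · obtain ⟨a, b, hab⟩ := hna
    exact hab (Subgroup.mem_center_iff.1 (e ▸ Subgroup.mem_top b) a)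

theorem key (hna : ∃ a b : G, a * b ≠ b * a) {a b : G} (ha : orderOf a = 2) (hb : orderOf b = 2)
    (hnc : ¬ IsConj a b) (hc : IsConj a (a * b))
    (hI : ∀ u : G, orderOf u = 2 → Commute u a → u = a ∨ u = b ∨ u = a * b)
    (hI' : ∀ u : G, orderOf u = 2 → Commute u (a * b) → u = a ∨ u = b ∨ u = a * b) : False := by
  have hcomm : ∀ b' : G, IsConj b b' → Commute b' b := by
    intro b' hb'
    have hb'2 := (Invol.orderOf_eq_of_isConj hb').symm.trans hb
    have only : ∀ v : G, IsConj b v → (v = a ∨ v = b ∨ v = a * b) → v = b := by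
      rintro v hv (rfl | rfl | rfl)
      · exact absurd hv.symm hnc
      · rfl
      · exact absurd (hc.trans hv.symm) hnc
    obtain ⟨z, hz, hza, hzb⟩ :=
      exists_common_of_not_isConj ha hb'2 fun h => hnc (h.trans hb'.symm)
    rcases hI z hz hza with rfl | rfl | rfl
    · rw [only b' hb' (hI b' hb'2 hzb.symm)]
    · exact hzb.symm
    · rw [only b' hb' (hI' b' hb'2 hzb.symm)]
  have hpair : ∀ p q : G, IsConj b p → IsConj b q → Commute p q := by
    intro p q hp hq
    obtain ⟨g, rfl⟩ := isConj_iff.1 hq
    have h1 := hcomm (g⁻¹ * p * g) (hp.trans (isConj_iff.2 ⟨g⁻¹, by group⟩))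
    have h2 := (Commute.conj_iff g).2 h1
    rwa [show g * (g⁻¹ * p * g) * g⁻¹ = p by group] at h2
  rcases (normalClosure_normal (s := ({b} : Set G))).eq_bot_or_eq_top with e | e
  · have h := subset_normalClosure (Set.mem_singleton b)
    rw [e] at h
    exact Invol.inv_ne_one hb h
  · have htop : ∀ (c : G), (∀ p : G, IsConj b p → Commute c p) → ∀ g : G, Commute c g := by
      intro c hc g
      have hle : normalClosure ({b} : Set G) ≤ centralizer ({c} : Set G) := by
        refine (Subgroup.closure_le _).2 fun p hp => ?_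
        obtain ⟨b', hb', hp'⟩ := Group.mem_conjugatesOfSet_iff.1 hp
        rw [Set.mem_singleton_iff] at hb'
        subst hb'
        exact mem_centralizer_singleton_iff.2 (hc p hp').symm
      rw [e] at hle
      exact (mem_centralizer_singleton_iff.1 (hle (Subgroup.mem_top g)) : Commute g c).symm
    obtain ⟨p, q, hpq⟩ := hna
    exact hpq (htop p (fun b' hb' => (htop b' (fun c hc => hpair b' c hb' hc) p).symm) q).eq

theorem all_conj (hna : ∃ a b : G, a * b ≠ b * a) (x : G) (hx : orderOf x = 2)
    (h3 : Nat.card {u : ↥(Subgroup.centralizer ({x} : Set G)) // orderOf u = 2} ≤ 3) :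
    ∀ u : G, orderOf u = 2 → IsConj x u := by
  classical
  obtain ⟨y, hy, hyx, hyne⟩ : ∃ y : G, orderOf y = 2 ∧ Commute y x ∧ y ≠ x := by
    by_contra h
    push Not at h
    exact not_isolated hna (t := x)
      ⟨hx, fun g hg => h _ ((Invol.orderOf_conj g x).trans hx) hg⟩
  have hzne : orderOf (x * y) = 2 := Invol.orderOf_eq_two
    (by rw [mul_assoc, ← mul_assoc y, hyx.eq, mul_assoc x y y, Invol.inv_mul_self hy, mul_one,
      Invol.inv_mul_self hx])
    (fun e => hyne (by rw [eq_inv_of_mul_eq_one_right e, Invol.inv_eq hx]))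
  have hzx : x * y ≠ x := fun e => Invol.inv_ne_one hy (mul_eq_left.1 e)
  have hzy : x * y ≠ y := fun e => Invol.inv_ne_one hx (mul_eq_right.1 e)
  -- the involutions of the centraliser
  let J : Finset G := {x, y, x * y}
  have hJ : ∀ u : G, orderOf u = 2 → Commute u x → u ∈ J := by
    intro u hu hux
    by_contra hnu
    let mk : (v : G) → v ∈ insert u J →
        {w : ↥(Subgroup.centralizer ({x} : Set G)) // orderOf w = 2} := fun v hv =>
      ⟨⟨v, mem_centralizer_singleton_iff.2 (by
        simp only [J, Finset.mem_insert, Finset.mem_singleton] at hv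
        rcases hv with rfl | rfl | rfl | rfl
        · exact hux
        · rfl
        · exact hyx
        · exact ((Commute.refl x).mul_left hyx).eq)⟩, by
        rw [Subgroup.orderOf_mk]
        simp only [J, Finset.mem_insert, Finset.mem_singleton] at hv
        rcases hv with rfl | rfl | rfl | rfl
        · exact hu
        · exact hx
        · exact hy
        · exact hzne⟩
    have hle := Nat.card_le_card_of_injective (fun v : (↑(insert u J) : Finset G) => mk v.1 v.2)
      fun a b h => Subtype.ext (congrArg (fun w => w.1.1) h :)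
    rw [Nat.card_eq_finsetCard, Finset.card_insert_of_notMem hnu, Finset.card_eq_three.2
      ⟨x, y, x * y, hyne.symm, hzx.symm, hzy.symm, rfl⟩] at hle
    omega
  have hJ' : ∀ u : G, orderOf u = 2 → Commute u x → u = x ∨ u = y ∨ u = x * y := fun u hu hux => by
    simpa [J] using hJ u hu hux
  -- a conjugate of `x` in `J` has the same centraliser involutions
  have hconjI : ∀ v : G, IsConj x v → Commute v x → ∀ u : G, orderOf u = 2 → Commute u v → u ∈ J := by
    intro v hv hvx u hu huv
    obtain ⟨g, hg⟩ := isConj_iff.1 hv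
    by_contra hnu
    have hsub : insert u J ⊆ J.image (fun w => g * w * g⁻¹) := by
      intro w hw
      have hw2 : orderOf w = 2 ∧ Commute w v := by
        simp only [J, Finset.mem_insert, Finset.mem_singleton] at hw
        have hxv : Commute x v := hvx.symm
        have hyv : Commute y v := by
          rcases hJ' v ((Invol.orderOf_eq_of_isConj hv).symm.trans hx) hvx with e | e | e <;> rw [e]
          · exact hyx
          · exact hyx.mul_right (Commute.refl y)
        rcases hw with rfl | rfl | rfl | rfl
        · exact ⟨hu, huv⟩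
        · exact ⟨hx, hxv⟩
        · exact ⟨hy, hyv⟩
        · exact ⟨hzne, hxv.mul_left hyv⟩
      refine Finset.mem_image.2 ⟨g⁻¹ * w * g, hJ _ ?_ ?_, by group⟩
      · rw [show g⁻¹ * w * g = g⁻¹ * w * g⁻¹⁻¹ by group, Invol.orderOf_conj, hw2.1]
      · have h := (Commute.conj_iff g⁻¹).2 hw2.2
        rw [← hg] at h
        simpa [mul_assoc] using h
    have := (Finset.card_le_card hsub).trans Finset.card_image_le
    rw [Finset.card_insert_of_notMem hnu] at this
    omega
  have hI : ∀ v : G, IsConj x v → Commute v x → ∀ u : G, orderOf u = 2 → Commute u v →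
      u = x ∨ u = y ∨ u = x * y := fun v h1 h2 u h3 h4 => by
    simpa [J] using hconjI v h1 h2 u h3 h4
  have hxy' : x * (x * y) = y := Invol.mul_self_cancel hx y
  have hzxc : Commute (x * y) x := (Commute.refl x).mul_left hyx
  -- all three are conjugate
  have hall : IsConj x y ∧ IsConj x (x * y) := by
    by_cases h1 : IsConj x y
    · refine ⟨h1, by_contra fun h2 => key hna hx hzne h2 (by rw [hxy']; exact h1) ?_ ?_⟩
      · intro u hu hux
        rw [hxy']
        rcases hJ' u hu hux with e | e | e <;> simp [e]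
      · intro u hu huv
        rw [hxy'] at huv ⊢
        rcases hI y h1 hyx u hu huv with e | e | e <;> simp [e]
    · by_cases h2 : IsConj x (x * y)
      · exact (key hna hx hy h1 h2 hJ' (hI _ h2 hzxc)).elim
      · refine (not_isolated hna (t := x) ⟨hx, fun g hg => ?_⟩).elim
        rcases hJ' _ ((Invol.orderOf_conj g x).trans hx) hg with e | e | e
        · exact e
        · exact absurd (isConj_iff.2 ⟨g, e⟩) h1
        · exact absurd (isConj_iff.2 ⟨g, e⟩) h2
  intro u hu
  by_contra hxu
  obtain ⟨z, hz, hzx', hzu⟩ := exists_common_of_not_isConj hx hu hxu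
  have hxz : IsConj x z := by
    rcases hJ' z hz hzx' with rfl | rfl | rfl
    exacts [IsConj.refl _, hall.1, hall.2]
  rcases hI z hxz hzx' u hu hzu.symm with rfl | rfl | rfl
  exacts [hxu (IsConj.refl _), hxu hall.1, hxu hall.2]

end

/-- Let G be a finite simple group and x an involution of G whose centralizer contains at most three involutions. Then C_G(x) contains a Sylow 2-subgroup of G, and all involutions of G are conjugate. -/
theorem result {G : Type*} [Group G] [Finite G] [IsSimpleGroup G] (x : G) (hx : orderOf x = 2)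
    (h3 : Nat.card {u : ↥(Subgroup.centralizer ({x} : Set G)) // orderOf u = 2} ≤ 3) :
    (∃ S : Sylow 2 G, (S : Subgroup G) ≤ Subgroup.centralizer ({x} : Set G)) ∧
      ∀ u v : G, orderOf u = 2 → orderOf v = 2 → IsConj u v := by
  classical
  have hmain : ∀ u : G, orderOf u = 2 → IsConj x u := by
    by_cases hna : ∃ a b : G, a * b ≠ b * a
    · exact all_conj hna x hx h3
    · push Not at hna
      intro u hu
      have hn : (Subgroup.zpowers x).Normal := ⟨fun n hn g => by
        rwa [hna g n, mul_inv_cancel_right]⟩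
      have hu' : u ∈ Subgroup.zpowers x := by
        rcases hn.eq_bot_or_eq_top with e | e
        · exact absurd (Subgroup.mem_bot.1 (e ▸ Subgroup.mem_zpowers x)) (Invol.inv_ne_one hx)
        · exact e ▸ Subgroup.mem_top u
      obtain ⟨k, rfl⟩ := hu'
      simp only at hu
      rcases Int.even_or_odd k with ⟨j, rfl⟩ | ⟨j, rfl⟩
      · rw [← two_mul, zpow_mul, zpow_two, Invol.inv_mul_self hx, one_zpow, orderOf_one] at hu
        exact absurd hu (by decide)
      · simp only [zpow_add, zpow_mul, zpow_two, Invol.inv_mul_self hx, one_zpow, one_mul, zpow_one]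
        exact IsConj.refl x
  refine ⟨?_, fun u v hu hv => (hmain u hu).symm.trans (hmain v hv)⟩
  have : Fact (Nat.Prime 2) := ⟨Nat.prime_two⟩
  obtain ⟨P⟩ : Nonempty (Sylow 2 G) := inferInstance
  have hnt : Nontrivial (P : Subgroup G) := by
    rw [← Finite.one_lt_card_iff_nontrivial, P.card_eq_multiplicity]
    exact Nat.one_lt_pow (Nat.pos_iff_ne_zero.1 (Nat.Prime.factorization_pos_of_dvd Nat.prime_two
      Nat.card_pos.ne' (hx ▸ orderOf_dvd_natCard x))) (by norm_num)
  have hP := P.2.center_nontrivial
  obtain ⟨⟨z, hzc⟩, hz⟩ := exists_prime_orderOf_dvd_card' (G := Subgroup.center (P : Subgroup G)) 2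
    (P.2.to_subgroup _ |>.card_eq_or_dvd.resolve_left (Finite.one_lt_card.ne'))
  rw [← Subgroup.orderOf_coe, ← Subgroup.orderOf_coe] at hz
  obtain ⟨g, hg⟩ := isConj_iff.1 (hmain _ hz).symm
  refine ⟨g • P, fun a ha => ?_⟩
  obtain ⟨b, hb, rfl⟩ := (Subgroup.mem_smul_pointwise_iff_exists a (MulAut.conj g) (P : Subgroup G)).1 ha
  rw [Subgroup.mem_centralizer_singleton_iff, ← hg]
  have hc : b * (z : G) = (z : G) * b :=
    congrArg Subtype.val (Subgroup.mem_center_iff.1 hzc ⟨b, hb⟩)
  simp only [MulAut.smul_def, MulAut.conj_apply]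
  calc g * b * g⁻¹ * (g * (z : G) * g⁻¹) = g * (b * (z : G)) * g⁻¹ := by group
    _ = g * ((z : G) * b) * g⁻¹ := by rw [hc]
    _ = g * (z : G) * g⁻¹ * (g * b * g⁻¹) := by group

end Cfsg.Agent.S3279
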