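import Cfsg.Statements.S3283
import Cfsg.Agent.H49.Main

set_option autoImplicit false
open Cfsg

namespace Cfsg.Agent.S3283

/-- Let G be a finite group with an involution z whose centralizer M has Q = O₂(M) extraspecial of order 2⁹ with C_M(Q) ≤ Q, and M/Q isomorphic to S₃ × A₆ or to S₃ × S₆. Then G is not simple. -/
theorem result {G : Type*} [Group G] [Finite G] (z : G) (hz : orderOf z = 2)
    (hQ : Cfsg.IsExtraspecial 2 ↥(Cfsg.pCore 2 ↥(Subgroup.centralizer ({z} : Set G)))) (hQ9 : Nat.card ↥(Cfsg.pCore 2 ↥(Subgroup.centralizer ({z} : Set G))) = 2 ^ 9)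
    (hCQ : Subgroup.centralizer ((Cfsg.pCore 2 ↥(Subgroup.centralizer ({z} : Set G))) : Set ↥(Subgroup.centralizer ({z} : Set G))) ≤ Cfsg.pCore 2 ↥(Subgroup.centralizer ({z} : Set G)))
    (hMQ : Nonempty (↥(Subgroup.centralizer ({z} : Set G)) ⧸ Cfsg.pCore 2 ↥(Subgroup.centralizer ({z} : Set G)) ≃* (Equiv.Perm (Fin 3) × ↥(alternatingGroup (Fin 6)))) ∨
      Nonempty (↥(Subgroup.centralizer ({z} : Set G)) ⧸ Cfsg.pCore 2 ↥(Subgroup.centralizer ({z} : Set G)) ≃* (Equiv.Perm (Fin 3) × Equiv.Perm (Fin 6)))) :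
    ¬ IsSimpleGroup G := by
  intro hG
  rcases hMQ with he | he
  · obtain ⟨e⟩ := he
    exact H49.not_simple_of_hom z hz hQ hQ9 hCQ
      (((MonoidHom.id (Equiv.Perm (Fin 3))).prodMap (alternatingGroup (Fin 6)).subtype).comp
        (e.toMonoidHom.comp (QuotientGroup.mk' _)))
      (fun m => by
        rw [MonoidHom.comp_apply, ← QuotientGroup.eq_one_iff]
        constructor
        · intro h
          refine e.injective ?_
          rw [map_one]
          have h1 := congrArg Prod.fst h
          have h2 := congrArg Prod.snd h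
          exact Prod.ext h1 (Subtype.ext h2)
        · intro h
          simp [h]
          rfl)
      (fun s a ha => by
        obtain ⟨m, hm⟩ := QuotientGroup.mk'_surjective _ (e.symm (s, ⟨a, ha⟩))
        refine ⟨m, ?_⟩
        simp only [MonoidHom.comp_apply, hm, MulEquiv.coe_toMonoidHom, MulEquiv.apply_symm_apply]
        rfl)
  · obtain ⟨e⟩ := he
    exact H49.not_simple_of_hom z hz hQ hQ9 hCQ (e.toMonoidHom.comp (QuotientGroup.mk' _))
      (fun m => by
        rw [MonoidHom.comp_apply, ← QuotientGroup.eq_one_iff]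
        simp)
      (fun s a _ => by
        obtain ⟨m, hm⟩ := QuotientGroup.mk'_surjective _ (e.symm (s, a))
        refine ⟨m, ?_⟩
        simp only [MonoidHom.comp_apply, hm, MulEquiv.coe_toMonoidHom, MulEquiv.apply_symm_apply])

end Cfsg.Agent.S3283
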