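import Cfsg.Statements.S3284
import Cfsg.Agent.H49.Main
import Cfsg.Agent.H49.TensorSign
import Cfsg.Agent.Components.FStar

set_option autoImplicit false
open Cfsg

namespace Cfsg.Agent.S3284

/-- There is no non-abelian finite simple group with an involution z whose centralizer M has generalized Fitting subgroup Q = F*(M) extraspecial of order 2⁹ and M/Q isomorphic to the subgroup of S₃ × S₆ consisting of the pairs of permutations with equal sign (a group (3 × A₆)·2 in which an involution outside 3 × A₆ induces S₃ on the first factor and S₆ on the second). -/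
theorem result {G : Type*} [Group G] [Finite G] [IsSimpleGroup G] (hG : ¬ IsMulCommutative G) (z : G) (hz : orderOf z = 2)
    [hn : (Cfsg.generalizedFittingSubgroup ↥(Subgroup.centralizer ({z} : Set G))).Normal]
    (hQ : Cfsg.IsExtraspecial 2 ↥(Cfsg.generalizedFittingSubgroup ↥(Subgroup.centralizer ({z} : Set G)))) (hQ9 : Nat.card ↥(Cfsg.generalizedFittingSubgroup ↥(Subgroup.centralizer ({z} : Set G))) = 2 ^ 9)
    (e : (↥(Subgroup.centralizer ({z} : Set G)) ⧸ Cfsg.generalizedFittingSubgroup ↥(Subgroup.centralizer ({z} : Set G))) ≃*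
      ↥(MonoidHom.ker (Equiv.Perm.sign.comp (MonoidHom.fst (Equiv.Perm (Fin 3)) (Equiv.Perm (Fin 6))) *
          Equiv.Perm.sign.comp (MonoidHom.snd (Equiv.Perm (Fin 3)) (Equiv.Perm (Fin 6)))))) :
    False := by
  set f := ((MonoidHom.ker (Equiv.Perm.sign.comp (MonoidHom.fst (Equiv.Perm (Fin 3)) (Equiv.Perm (Fin 6))) *
      Equiv.Perm.sign.comp (MonoidHom.snd (Equiv.Perm (Fin 3)) (Equiv.Perm (Fin 6))))).subtype).comp
    (e.toMonoidHom.comp (QuotientGroup.mk' _)) with hf
  have hker : ∀ m, f m = 1 ↔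
      (m : G) ∈ (Cfsg.generalizedFittingSubgroup ↥(Subgroup.centralizer ({z} : Set G))).map
        (Subgroup.centralizer ({z} : Set G)).subtype := by
    intro m
    have h0 : f m = 1 ↔ m ∈ Cfsg.generalizedFittingSubgroup ↥(Subgroup.centralizer ({z} : Set G)) := by
      rw [hf, ← QuotientGroup.eq_one_iff]
      simp [← Subtype.ext_iff]
    rw [h0]
    exact ⟨fun h => ⟨m, h, rfl⟩, fun ⟨n, hn', en⟩ => (Subtype.ext en : n = m) ▸ hn'⟩
  have hR : ∀ p, p ∈ f.range ↔ Equiv.Perm.sign p.1 = Equiv.Perm.sign p.2 := by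
    intro p
    constructor
    · rintro ⟨m, rfl⟩
      have h := MonoidHom.mem_ker.1 (e (QuotientGroup.mk m)).2
      simp only [MonoidHom.mul_apply, MonoidHom.comp_apply] at h
      rcases Int.units_eq_one_or (Equiv.Perm.sign (f m).1) with a | a <;>
        rcases Int.units_eq_one_or (Equiv.Perm.sign (f m).2) with b | b <;>
        first
          | exact a.trans b.symm
          | (exfalso; simp only [hf, MonoidHom.comp_apply] at a b; simp at h a b; simp [a, b] at h)
    · intro h
      obtain ⟨m, hm⟩ := QuotientGroup.mk'_surjective _ (e.symm ⟨p, by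
        simp [MonoidHom.mem_ker, h]⟩)
      refine ⟨m, ?_⟩
      simp only [hf, MonoidHom.comp_apply, hm]
      simp
  have hd : ∃ m, f m = (finRotate 3, 1) := (hR _).2 (by decide +kernel)
  have ht : ∃ p ∈ f.range, Equiv.Perm.sign p.1 = -1 :=
    ⟨(Equiv.swap 0 1, Equiv.swap 0 1), (hR _).2 (by decide +kernel), Equiv.Perm.sign_swap (by decide)⟩
  obtain ⟨S, hfus⟩ := H49.setting_fusion hz hQ hQ9 Components.centralizer_genFitting_le f hd ht
  obtain ⟨χ, F⟩ := H49.exists_frame_sign S f hker hR (H49.fix_of_fusion S f hker (fun s hs a ha => (hR _).2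
    (hs.trans (Equiv.Perm.mem_alternatingGroup.1 ha).symm)) ht hfus)
  exact F.no_fusion_of (fun L az ad al bz bd bl => H49.Lifts.comm_mem F L az ad al bz bd bl) hfus

end Cfsg.Agent.S3284
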