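import Cfsg.Statements.S3286
import Cfsg.Agent.M12Type.Iso

set_option autoImplicit false
open Cfsg

namespace Cfsg.Agent.S3286

/-- Let G be a non-abelian finite simple group containing an involution whose centralizer is isomorphic to the centralizer, in the Mathieu group M₁₂, of an involution lying in the centre of a Sylow 2-subgroup of M₁₂. Then G is isomorphic to M₁₂. -/
theorem result {G : Type*} [Group G] [Finite G] [IsSimpleGroup G] (hG : ¬ IsMulCommutative G)
    (u : ↥Cfsg.Spor.M12) (hu : Cfsg.IsTwoCentralInvolution u)
    (t : G) (ht : orderOf t = 2) (e : ↥(Subgroup.centralizer ({t} : Set G)) ≃* ↥(Subgroup.centralizer ({u} : Set ↥Cfsg.Spor.M12))) :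
    Cfsg.Spor.IsoM12 G := by
  exact M12Type.main hG u hu t ht e

end Cfsg.Agent.S3286
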