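import Cfsg.Statements.S3301
import Cfsg.Agent.LargeExtra.Centralizer

set_option autoImplicit false
open Cfsg

namespace Cfsg.Agent.S3301

/-- Let G be a finite group with no nontrivial 2-group quotient (O^2(G) = G), z an involution of G with H = C_G(z), and suppose E = O_2(H) is extraspecial with C_G(E) ≤ E. Then the Sylow 2-subgroups of H/[H, H] are elementary abelian: every element of 2-power order of the abelianization of H has order at most 2. -/
theorem result {G : Type*} [Group G] [Finite G] (hres : Cfsg.pResidual 2 G = ⊤) (z : G) (hz : orderOf z = 2)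
    (E : Subgroup G) (hE : E = (Cfsg.pCore 2 ↥(Subgroup.centralizer ({z} : Set G))).map (Subgroup.centralizer ({z} : Set G)).subtype)
    (hext : Cfsg.IsExtraspecial 2 ↥E) (hcent : Subgroup.centralizer (E : Set G) ≤ E) :
    ∀ q : Abelianization ↥(Subgroup.centralizer ({z} : Set G)), (∃ k : ℕ, orderOf q = 2 ^ k) → q ^ 2 = 1 := by
  obtain ⟨n, hn, S⟩ := LargeExtra.exists_setting hz hE hext hcent
  intro q hq
  rcases Nat.lt_or_ge n 2 with h | h
  · obtain rfl : n = 1 := by omega
    refine S.abelianization_width_one (fun N hN hN2 x hx => ?_) q hq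
    rw [hE]
    exact ⟨x, Cores.le_pCore hN hN2 hx, rfl⟩
  -- every square is a high power of two
  have key : ∀ j, ∀ x : Abelianization ↥(Subgroup.centralizer ({z} : Set G)), ∃ r, x ^ 2 = r ^ (2 ^ (j + 1)) := by
    intro j
    induction j with
    | zero => exact fun x => ⟨x, by norm_num⟩
    | succ j ih =>
      intro x
      obtain ⟨r, hr⟩ := S.sq_eq_pow_four h hres x
      obtain ⟨s, hs⟩ := ih r
      refine ⟨s, ?_⟩
      rw [hr, show (4 : ℕ) = 2 * 2 from rfl, pow_mul, hs, ← pow_mul, ← pow_succ]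
  obtain ⟨k, hk⟩ := hq
  haveI : Finite (Abelianization ↥(Subgroup.centralizer ({z} : Set G))) := inferInstance
  obtain ⟨a, m, hm, ha⟩ := Nat.exists_eq_pow_mul_and_not_dvd
    (Nat.card_pos (α := Abelianization ↥(Subgroup.centralizer ({z} : Set G)))).ne' 2 (by norm_num)
  obtain ⟨r, hr⟩ := key a q
  have h1 : (q ^ 2) ^ m = 1 := by
    rw [hr, ← pow_mul, pow_succ, mul_comm (2 ^ a) 2, mul_assoc, ← ha, mul_comm, pow_mul,
      pow_card_eq_one', one_pow]
  rw [← orderOf_eq_one_iff]
  refine Nat.eq_one_of_dvd_coprimes (a := 2 ^ k) (b := m) ?_ ?_ (orderOf_dvd_of_pow_eq_one h1)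
  · exact (Nat.Prime.coprime_iff_not_dvd Nat.prime_two).2 hm |>.pow_left k
  · exact hk ▸ orderOf_pow_dvd 2

end Cfsg.Agent.S3301
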