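import Cfsg.Statements.S3303
import Cfsg.Agent.SylowInter.Quotient
import Cfsg.Agent.SylowInter.CoreAut
-- import your own Cfsg.Agent.* helpers here

set_option autoImplicit false
open Cfsg

namespace Cfsg.Agent.S3303

/-- Let G be a finite solvable group in which the intersection of any two distinct Sylow 2-subgroups is cyclic. Then G/O(G) has a normal Sylow 2-subgroup, where O(G) is the largest normal subgroup of odd order. -/
theorem result {G : Type*} [Group G] [Finite G] (hs : Group.IsSolvable G)
    (hC : ∀ S T : Sylow 2 G, S ≠ T → IsCyclic ↥((S : Subgroup G) ⊓ (T : Subgroup G))) :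
    ∃ P : Sylow 2 (G ⧸ Cfsg.oddCore G), (P : Subgroup (G ⧸ Cfsg.oddCore G)).Normal := by
  refine SylowInter.sylow_normal_of_forall_eq fun S T => ?_
  by_contra hne
  have hcyc := SylowInter.isCyclic_inter_quotient hC (QuotientGroup.mk' (Cfsg.oddCore G))
    (QuotientGroup.mk'_surjective _) S T hne
  have hs' : Group.IsSolvable (G ⧸ Cfsg.oddCore G) :=
    solvable_of_surjective (f := QuotientGroup.mk' (Cfsg.oddCore G)) (QuotientGroup.mk'_surjective _)
  have hC2 := PSolv.centralizer_pCore_le (PSolv.isPSolvable_of_isSolvable (p := 2) hs')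
    (PSolv.pPrimeCore_quotient_eq_bot 2 G)
  have : IsCyclic ↥(Cfsg.pCore 2 (G ⧸ Cfsg.oddCore G)) :=
    isCyclic_of_injective (Subgroup.inclusion (SylowInter.pCore_le_inter S T))
      (Subgroup.inclusion_injective _)
  have hP := PSolv.isPGroup_pCore 2 (G ⧸ Cfsg.oddCore G)
  exact hne (SylowInter.sylow_eq_of_isPGroup (SylowInter.isPGroup_of_isPGroup_mulAut hP hC2
    (SylowInter.isPGroup_mulAut_of_isCyclic hP)) S T)

end Cfsg.Agent.S3303
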