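import Cfsg.Statements.S3309
import Cfsg.Agent.S0215
import Cfsg.Agent.Invol.IndexTwo
import Mathlib.GroupTheory.SpecificGroups.Dihedral
import Mathlib.GroupTheory.Sylow

set_option autoImplicit false
open Cfsg

namespace Cfsg.Agent.S3309

open DihedralGroup

/-- The model group. -/
abbrev M16 : Type := Multiplicative (ZMod 2) × DihedralGroup 4

/-- The value of the linear functional with coefficients `α, β, γ`. -/
def par (α β γ : Bool) : M16 → Bool
  | (x, r i) => xor (α && decide (Multiplicative.toAdd x = 1)) (β && decide (i = 1 ∨ i = 3))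
  | (x, sr i) =>
      xor (xor (α && decide (Multiplicative.toAdd x = 1)) (β && decide (i = 1 ∨ i = 3))) γ

theorem par_mul (α β γ : Bool) : ∀ x y : M16, par α β γ (x * y) = xor (par α β γ x) (par α β γ y) := by
  revert α β γ
  decide +kernel

theorem par_one : ∀ α β γ : Bool, par α β γ 1 = false := by decide +kernel

/-- The kernel of a functional. -/
def ker (α β γ : Bool) : Subgroup M16 where
  carrier := {x | par α β γ x = false}
  one_mem' := par_one α β γ
  mul_mem' := fun {x y} hx hy => by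
    show par α β γ (x * y) = false
    rw [par_mul, show par α β γ x = false from hx, show par α β γ y = false from hy]; rfl
  inv_mem' := fun {x} hx => by
    show par α β γ x⁻¹ = false
    have h := par_mul α β γ x x⁻¹
    rw [mul_inv_cancel, show par α β γ x = false from hx] at h
    rw [par_one] at h
    simpa using h.symm

/-- The three central involutions. -/
def ca : M16 := (Multiplicative.ofAdd 1, r 0)
/-- The commutator involution. -/
def cz : M16 := (1, r 2)
/-- Representatives of the noncentral involutions. -/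
def p1 : M16 := (1, sr 0)
/-- Representatives of the noncentral involutions. -/
def p2 : M16 := (Multiplicative.ofAdd 1, sr 0)
/-- Representatives of the noncentral involutions. -/
def q1 : M16 := (1, sr 1)
/-- Representatives of the noncentral involutions. -/
def q2 : M16 := (Multiplicative.ofAdd 1, sr 1)

theorem card_M16 : Nat.card M16 = 16 := by
  rw [Nat.card_eq_fintype_card]; decide +kernel

theorem sq_facts : ((1, r 1) : M16) * (1, r 1) = cz ∧ ((1, r 1) : M16) * (1, r 1) ≠ 1 ∧
    ∀ m : M16, m * m = 1 ∨ m * m = cz := by decide +kernel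

theorem central_facts : (∀ w : M16, w * cz = cz * w) ∧ (∀ w : M16, w * ca = ca * w) ∧
    (∀ w : M16, w * (ca * cz) = ca * cz * w) := by decide +kernel

theorem ne_facts : cz ≠ ca ∧ cz ≠ ca * cz ∧ ca ≠ ca * cz ∧ cz ≠ 1 ∧ ca * cz * cz = ca ∧
    ca * ca = 1 ∧ ca ≠ 1 ∧ ca * cz * (ca * cz) = 1 ∧ ca * cz ≠ 1 ∧ cz * cz = 1 := by decide +kernel

theorem inv_ker : ∀ β γ : Bool, ∀ y : M16, par true β γ y = false → y * y = 1 → y ≠ 1 →
    y = cz ∨ ∃ q ∈ [p1, p2, q1, q2], par true β γ q = false ∧ ∃ c : M16, c * q * c⁻¹ = y := by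
  intro β γ
  cases β <;> cases γ <;> decide +kernel

theorem invol_list : ∀ y : M16, y * y = 1 → y ≠ 1 → y = cz ∨ y = ca ∨ y = ca * cz ∨
    ∃ q ∈ [p1, p2, q1, q2], ∃ c : M16, c * q * c⁻¹ = y := by decide +kernel

theorem par_facts : (par true false false p2 = true ∧ par true false false q2 = true) ∧
    (par true false true p1 = true ∧ par true false true q1 = true) ∧
    (par true true false p2 = true ∧ par true true false q1 = true) ∧
    (par true true true p1 = true ∧ par true true true q2 = true) := by decide +kernel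

theorem cover_logic {A1 A2 A3 A4 B1 B2 B3 B4 : Prop}
    (u1 : A1 ∨ A3) (u2 : A2 ∨ A4) (u3 : A1 ∨ A4) (u4 : A2 ∨ A3)
    (v1 : B1 ∨ B3) (v2 : B2 ∨ B4) (v3 : B1 ∨ B4) (v4 : B2 ∨ B3)
    (x1 : A1 → B1 → False) (x2 : A2 → B2 → False) (x3 : A3 → B3 → False) (x4 : A4 → B4 → False) :
    (A1 ∨ B1) ∧ (A2 ∨ B2) ∧ (A3 ∨ B3) ∧ (A4 ∨ B4) := by tauto

theorem card_ker : ∀ α β γ : Bool, (α || β || γ) = true →
    (Finset.univ.filter fun x : M16 => par α β γ x = false).card = 8 := by decide +kernel

/-- A finite group whose Sylow 2-subgroups are isomorphic to the direct product of a group of order 2 and the dihedral group of order 8 is not a non-abelian simple group. -/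
theorem result {G : Type*} [Group G] [Finite G] (S : Sylow 2 G) (hS : Nonempty (↥(S : Subgroup G) ≃* Multiplicative (ZMod 2) × DihedralGroup 4))
    [IsSimpleGroup G] (hG : ¬ IsMulCommutative G) : False := by
  haveI : Fact (Nat.Prime 2) := ⟨Nat.prime_two⟩
  obtain ⟨e⟩ := hS
  let ι : M16 →* G := (S : Subgroup G).subtype.comp e.symm.toMonoidHom
  have hι : Function.Injective ι := Subtype.val_injective.comp e.symm.injective
  have hιS : ∀ m, ι m ∈ (S : Subgroup G) := fun m => (e.symm m).2
  have hsurj : ∀ x ∈ (S : Subgroup G), ∃ m, ι m = x := fun x hx =>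
    ⟨e ⟨x, hx⟩, by simp [ι]⟩
  have hno : ∀ H : Subgroup G, H.index ≠ 2 := by
    intro H hH
    rcases IsSimpleGroup.eq_bot_or_eq_top_of_normal H (Subgroup.normal_of_index_eq_two hH) with h | h
    · have h16 : Nat.card (S : Subgroup G) = 16 := by
        rw [Nat.card_congr e.toEquiv]; exact card_M16
      have hG2 : Nat.card G = 2 := by rw [← H.card_mul_index, hH, h, Subgroup.card_bot]
      have := (S : Subgroup G).card_subgroup_dvd_card
      rw [h16, hG2] at this
      exact absurd (Nat.le_of_dvd (by norm_num) this) (by norm_num)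
    · rw [h, Subgroup.index_top] at hH; omega
  have hord : ∀ m : M16, orderOf (ι m) = orderOf m := fun m => orderOf_injective ι hι m
  -- every involution of `S` is conjugate into each maximal subgroup
  have htr : ∀ α β γ : Bool, (α || β || γ) = true → ∀ u : M16, u * u = 1 → u ≠ 1 →
      ∃ y : M16, par α β γ y = false ∧ y * y = 1 ∧ y ≠ 1 ∧ IsConj (ι y) (ι u) := by
    intro α β γ hne u hu hu1
    have hcard : 2 * Nat.card (ker α β γ) = 16 := by
      have h1 : Nat.card (ker α β γ) = Nat.card {x : M16 // par α β γ x = false} := rfl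
      rw [h1, Nat.card_eq_fintype_card, Fintype.card_subtype, card_ker α β γ hne]
    obtain ⟨g, hg⟩ := Invol.exists_conj_mem_of_no_index_two hno S ((ker α β γ).map ι) (by
      rw [← Nat.card_congr ((ker α β γ).equivMapOfInjective ι hι).toEquiv, hcard,
        Nat.card_congr e.toEquiv]
      exact card_M16.symm) (x := ι u) (orderOf_eq_prime (by rw [pow_two, ← map_mul, hu, map_one])
        (fun h => hu1 (hι (h.trans (map_one ι).symm))))
    obtain ⟨y, hy, hyx⟩ := hg
    refine ⟨y, hy, hι ?_, fun h => hu1 ?_, isConj_iff.2 ⟨g, by rw [hyx]; group⟩⟩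
    · rw [map_mul, hyx, show g⁻¹ * ι u * g * (g⁻¹ * ι u * g) = g⁻¹ * (ι u * ι u) * g by group,
        ← map_mul, hu, map_one]
      group
    · rw [h, map_one] at hyx
      refine hι ?_
      rw [map_one, show ι u = g * (g⁻¹ * ι u * g) * g⁻¹ by group, ← hyx]
      group
  -- conjugacy of central elements
  have hfix : ∀ x y : M16, (∀ w, w * x = x * w) → (∀ w, w * y = y * w) → IsConj (ι x) (ι y) →
      ∃ n ∈ Subgroup.normalizer ((S : Subgroup G) : Set G), n * ι x * n⁻¹ = ι y := by
    intro x y hx hy hc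
    have hcent : ∀ x : M16, (∀ w, w * x = x * w) →
        ι x ∈ Subgroup.centralizer ((S : Subgroup G) : Set G) := fun x hx =>
      Subgroup.mem_centralizer_iff.2 fun w hw => by
        obtain ⟨w', rfl⟩ := hsurj w hw; rw [← map_mul, ← map_mul, hx]
    obtain ⟨g, hg⟩ := isConj_iff.1 hc
    obtain ⟨k, hk, hke⟩ := S.conj_eq_normalizer_conj_of_mem_centralizer (ι x) g⁻¹ (hcent x hx)
      (by rw [inv_inv, hg]; exact hcent y hy)
    rw [inv_inv, hg] at hke
    exact ⟨k⁻¹, inv_mem hk, by rw [inv_inv, hke]⟩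
  have hNfix : ∀ n ∈ Subgroup.normalizer ((S : Subgroup G) : Set G), n * ι cz * n⁻¹ = ι cz := by
    intro n hn
    obtain ⟨i, hi, hi1⟩ : ∃ i : M16, i * i = cz ∧ i * i ≠ 1 := ⟨(1, r 1), sq_facts.1, sq_facts.2.1⟩
    obtain ⟨j, hj⟩ := hsurj _ (((Subgroup.mem_normalizer_iff.1 hn) _).1 (hιS i))
    have h1 : ι (j * j) = n * ι cz * n⁻¹ := by
      rw [map_mul, hj, ← hi, map_mul]; group
    rcases sq_facts.2.2 j with h | h
    · rw [h, map_one] at h1
      exfalso
      refine hi1 (hι ?_)
      rw [hi, map_one, show ι cz = n⁻¹ * (n * ι cz * n⁻¹) * n by group, ← h1]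
      group
    · rw [← h1, h]
  obtain ⟨hzc, hac, hbc⟩ := central_facts
  obtain ⟨n1, n2, n3, n4, n5, n6, n7, n8, n9, n10⟩ := ne_facts
  have hza : ¬ IsConj (ι cz) (ι ca) := fun h => by
    obtain ⟨n, hn, hne⟩ := hfix _ _ hzc hac h
    rw [hNfix n hn] at hne
    exact n1 (hι hne)
  have hzb : ¬ IsConj (ι cz) (ι (ca * cz)) := fun h => by
    obtain ⟨n, hn, hne⟩ := hfix _ _ hzc hbc h
    rw [hNfix n hn] at hne
    exact n2 (hι hne)
  have hab : ¬ IsConj (ι ca) (ι (ca * cz)) := fun h => by
    obtain ⟨n, hn, hne⟩ := hfix _ _ hac hbc h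
    have hswap : ∀ k : ℕ, n ^ (2 * k + 1) * ι ca * (n ^ (2 * k + 1))⁻¹ = ι (ca * cz) := by
      intro k
      induction k with
      | zero => simpa using hne
      | succ k ih =>
        rw [show 2 * (k + 1) + 1 = 2 + (2 * k + 1) by ring, pow_add, pow_two]
        calc n * n * n ^ (2 * k + 1) * ι ca * (n * n * n ^ (2 * k + 1))⁻¹
            = n * (n * (n ^ (2 * k + 1) * ι ca * (n ^ (2 * k + 1))⁻¹) * n⁻¹) * n⁻¹ := by group
          _ = ι (ca * cz) := by
            rw [ih, map_mul, show n * (ι ca * ι cz) * n⁻¹ = n * ι ca * n⁻¹ * (n * ι cz * n⁻¹) by group,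
              hne, hNfix n hn, ← map_mul, n5, hne, map_mul]
    obtain ⟨a, m, hm2, hm⟩ : ∃ a m, ¬ 2 ∣ m ∧ orderOf n = 2 ^ a * m :=
      Nat.exists_eq_pow_mul_and_not_dvd (orderOf_pos n).ne' 2 (by norm_num)
    obtain ⟨k, hk⟩ : Odd m := by rwa [← Nat.not_even_iff_odd, even_iff_two_dvd]
    have h2 : (n ^ m) ^ 2 ^ a = 1 := by rw [← pow_mul, mul_comm, ← hm, pow_orderOf_eq_one]
    obtain ⟨d, -, hd⟩ := (Nat.dvd_prime_pow Nat.prime_two).1 (orderOf_dvd_of_pow_eq_one h2)
    have hp : IsPGroup 2 (Subgroup.zpowers (n ^ m)) :=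
      IsPGroup.of_card (n := d) (by rw [Nat.card_zpowers, hd])
    have hle : Subgroup.zpowers (n ^ m) ≤ Subgroup.normalizer ((S : Subgroup G) : Set G) :=
      Subgroup.zpowers_le.2 (pow_mem hn m)
    have hsup : IsPGroup 2 ↥((S : Subgroup G) ⊔ Subgroup.zpowers (n ^ m)) :=
      S.isPGroup'.to_sup_of_normal_left' hp hle
    have hmS : n ^ m ∈ (S : Subgroup G) := by
      rw [← S.is_maximal' hsup le_sup_left]
      exact Subgroup.mem_sup_right (Subgroup.mem_zpowers _)
    obtain ⟨w, hw⟩ := hsurj _ hmS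
    have hsk := hswap k
    rw [← hk, ← hw, ← map_mul, ← map_inv, ← map_mul, hac, mul_inv_cancel_right] at hsk
    exact n3 (hι hsk)
  -- the four constraints
  have hinv4 := inv_ker
  let A : M16 → Prop := fun u => IsConj (ι u) (ι ca)
  let B : M16 → Prop := fun u => IsConj (ι u) (ι (ca * cz))
  have hstep : ∀ β γ : Bool, ∀ u : M16, u * u = 1 → u ≠ 1 → ¬ IsConj (ι cz) (ι u) →
      ∃ q ∈ [p1, p2, q1, q2], par true β γ q = false ∧ IsConj (ι q) (ι u) := by
    intro β γ u hu hu1 huz
    obtain ⟨y, hy, hy2, hy1, hyc⟩ := htr true β γ rfl u hu hu1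
    rcases hinv4 β γ y hy hy2 hy1 with h | ⟨q, hq, hqp, c, hc⟩
    · exact absurd (h ▸ hyc) huz
    · refine ⟨q, hq, hqp, IsConj.trans (isConj_iff.2 ⟨ι c, ?_⟩) hyc⟩
      rw [← map_inv, ← map_mul, ← map_mul, hc]
  have hA : ∀ β γ : Bool, ∃ q ∈ [p1, p2, q1, q2], par true β γ q = false ∧ A q := fun β γ =>
    hstep β γ ca n6 n7 hza
  have hB : ∀ β γ : Bool, ∃ q ∈ [p1, p2, q1, q2], par true β γ q = false ∧ B q := fun β γ =>
    hstep β γ (ca * cz) n8 n9 hzb
  have hexcl : ∀ u, A u → B u → False := fun u ha hb => hab (ha.symm.trans hb)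
  have e00 := par_facts
  have pick : ∀ (X : M16 → Prop), (∀ β γ : Bool, ∃ q ∈ [p1, p2, q1, q2], par true β γ q = false ∧ X q) →
      (X p1 ∨ X q1) ∧ (X p2 ∨ X q2) ∧ (X p1 ∨ X q2) ∧ (X p2 ∨ X q1) := by
    intro X hX
    obtain ⟨⟨a1, a2⟩, ⟨b1, b2⟩, ⟨c1, c2⟩, d1, d2⟩ := e00
    refine ⟨?_, ?_, ?_, ?_⟩
    · obtain ⟨q, hq, hp, hx⟩ := hX false false
      simp only [List.mem_cons, List.not_mem_nil, or_false] at hq
      rcases hq with rfl | rfl | rfl | rfl <;>
        first | exact Or.inl hx | exact Or.inr hx | exact Bool.noConfusion (a1.symm.trans hp) | exact Bool.noConfusion (a2.symm.trans hp)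
    · obtain ⟨q, hq, hp, hx⟩ := hX false true
      simp only [List.mem_cons, List.not_mem_nil, or_false] at hq
      rcases hq with rfl | rfl | rfl | rfl <;>
        first | exact Or.inl hx | exact Or.inr hx | exact Bool.noConfusion (b1.symm.trans hp) | exact Bool.noConfusion (b2.symm.trans hp)
    · obtain ⟨q, hq, hp, hx⟩ := hX true false
      simp only [List.mem_cons, List.not_mem_nil, or_false] at hq
      rcases hq with rfl | rfl | rfl | rfl <;>
        first | exact Or.inl hx | exact Or.inr hx | exact Bool.noConfusion (c1.symm.trans hp) | exact Bool.noConfusion (c2.symm.trans hp)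
    · obtain ⟨q, hq, hp, hx⟩ := hX true true
      simp only [List.mem_cons, List.not_mem_nil, or_false] at hq
      rcases hq with rfl | rfl | rfl | rfl <;>
        first | exact Or.inl hx | exact Or.inr hx | exact Bool.noConfusion (d1.symm.trans hp) | exact Bool.noConfusion (d2.symm.trans hp)
  obtain ⟨u1, u2, u3, u4⟩ := pick A hA
  obtain ⟨v1, v2, v3, v4⟩ := pick B hB
  have x1 := hexcl p1
  have x2 := hexcl p2
  have x3 := hexcl q1
  have x4 := hexcl q2
  obtain ⟨w1, w2, w3, w4⟩ := cover_logic u1 u2 u3 u4 v1 v2 v3 v4 x1 x2 x3 x4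
  have hall : ∀ q ∈ [p1, p2, q1, q2], A q ∨ B q := by
    intro q hq
    simp only [List.mem_cons, List.not_mem_nil, or_false] at hq
    rcases hq with rfl | rfl | rfl | rfl
    exacts [w1, w2, w3, w4]
  -- `z` is isolated
  have hz2 : orderOf (ι cz) = 2 := by
    rw [hord]; exact orderOf_eq_prime (by rw [pow_two]; exact n10) n4
  obtain ⟨M, hM, hModd, hMw⟩ := S0215.result S (ι cz) hz2 (hιS cz) (by
    intro g hg
    obtain ⟨y, hy⟩ := hsurj _ hg
    have hyc : IsConj (ι cz) (ι y) := isConj_iff.2 ⟨g, hy.symm⟩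
    have hy2 : y * y = 1 := hι (by
      rw [map_mul, hy, map_one,
        show g * ι cz * g⁻¹ * (g * ι cz * g⁻¹) = g * (ι cz * ι cz) * g⁻¹ by group, ← map_mul,
        n10, map_one]
      group)
    have hy1 : y ≠ 1 := fun h => by
      rw [h, map_one] at hy
      exact n4 (hι ((conj_eq_one_iff.1 hy.symm).trans (map_one ι).symm))
    rcases invol_list y hy2 hy1 with h | h | h | ⟨q, hq, c, hc⟩
    · rw [← hy, h]
    · exact absurd (h ▸ hyc) hza
    · exact absurd (h ▸ hyc) hzb
    · have hqy : IsConj (ι q) (ι y) := isConj_iff.2 ⟨ι c, by rw [← map_inv, ← map_mul, ← map_mul, hc]⟩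
      rcases hall q hq with h | h
      · exact absurd (hyc.trans (hqy.symm.trans h)) hza
      · exact absurd (hyc.trans (hqy.symm.trans h)) hzb)
  rcases IsSimpleGroup.eq_bot_or_eq_top_of_normal M hM with h | h
  · have hc : ι cz ∈ Subgroup.center G := Subgroup.mem_center_iff.2 fun g => by
      have h2 := hMw g
      rw [h, Subgroup.mem_bot, mul_inv_eq_one, mul_inv_eq_iff_eq_mul] at h2
      exact h2.symm
    rcases IsSimpleGroup.eq_bot_or_eq_top_of_normal (Subgroup.center G) inferInstance with h2 | h2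
    · rw [h2, Subgroup.mem_bot] at hc
      rw [hc, orderOf_one] at hz2; omega
    · exact hG ⟨⟨fun a b => Subgroup.mem_center_iff.1 (h2.symm ▸ Subgroup.mem_top b) a⟩⟩
  · rw [h, Subgroup.card_top] at hModd
    exact (Nat.not_even_iff_odd.2 hModd) (even_iff_two_dvd.2 (hz2 ▸ orderOf_dvd_natCard (ι cz)))

end Cfsg.Agent.S3309
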