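import Cfsg.Statements.S3313
import Cfsg.Agent.S0213
import Cfsg.Agent.HJOrder.Data
import Cfsg.Agent.HJOrder.Extra
import Cfsg.Agent.Fusion.Basic
import Cfsg.Agent.Modules.Fixed
import Cfsg.Agent.Components.FStar

set_option autoImplicit false
set_option linter.style.haveILetI false
open Cfsg

namespace Cfsg.Agent.S3313

open Subgroup HJOrder
open scoped commutatorElement

theorem card_alt : Nat.card (alternatingGroup (Fin 5)) = 60 := by
  rw [nat_card_alternatingGroup, Nat.card_fin]; rfl

set_option maxHeartbeats 1000000 in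
/-- The order of a simple group with the involution pattern of the Hall–Janko group. Let G be a non-abelian finite simple group with exactly two conjugacy classes of involutions, represented by z and t, such that: F*(C_G(z)) is an extraspecial 2-group; Q = O₂(C_G(z)) has order 32 and C_G(z) is the semidirect product of Q by a subgroup isomorphic to A₅; every involution of Q is conjugate to z and every other involution of C_G(z) is conjugate to t; C_G(t) is an internal direct product V × B with V a four-group containing t and B ≅ A₅; every involution of B is conjugate to z and every other involution of C_G(t) is conjugate to t. Then |G| = 604800. -/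
theorem result {G : Type*} [Group G] [Finite G]
    [IsSimpleGroup G] (hna : ¬ IsMulCommutative G) (z t : G) (hz : orderOf z = 2) (ht : orderOf t = 2)
    (hzt : ¬ IsConj z t) (hcl : ∀ x : G, orderOf x = 2 → IsConj x z ∨ IsConj x t)
    (hex : Cfsg.IsExtraspecial 2 ↥(Cfsg.generalizedFittingSubgroup ↥(Subgroup.centralizer ({z} : Set G))))
    (hQ : Nat.card ↥(Cfsg.pCore 2 ↥(Subgroup.centralizer ({z} : Set G))) = 32)
    (K : Subgroup G) (hK : Nonempty (↥K ≃* alternatingGroup (Fin 5)))
    (hKC : K ⊔ (Cfsg.pCore 2 ↥(Subgroup.centralizer ({z} : Set G))).map (Subgroup.centralizer ({z} : Set G)).subtype = Subgroup.centralizer ({z} : Set G))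
    (hKQ : K ⊓ (Cfsg.pCore 2 ↥(Subgroup.centralizer ({z} : Set G))).map (Subgroup.centralizer ({z} : Set G)).subtype = ⊥)
    (hQz : ∀ x ∈ (Cfsg.pCore 2 ↥(Subgroup.centralizer ({z} : Set G))).map (Subgroup.centralizer ({z} : Set G)).subtype, orderOf x = 2 → IsConj x z)
    (hCz : ∀ x ∈ Subgroup.centralizer ({z} : Set G), orderOf x = 2 →
      x ∉ (Cfsg.pCore 2 ↥(Subgroup.centralizer ({z} : Set G))).map (Subgroup.centralizer ({z} : Set G)).subtype → IsConj x t)
    (V B : Subgroup G) (hVB : Cfsg.IsInternalDirectProduct V B (Subgroup.centralizer ({t} : Set G)))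
    (hV : Nat.card ↥V = 4) (hV2 : ∀ v ∈ V, v ^ 2 = 1) (htV : t ∈ V) (hB : Nonempty (↥B ≃* alternatingGroup (Fin 5)))
    (hBz : ∀ x ∈ B, orderOf x = 2 → IsConj x z)
    (hCt : ∀ x ∈ Subgroup.centralizer ({t} : Set G), orderOf x = 2 → x ∉ B → IsConj x t) :
    Nat.card G = 604800 := by
  classical
  haveI : Fact (Nat.Prime 2) := ⟨Nat.prime_two⟩
  obtain ⟨eK⟩ := hK
  obtain ⟨eB⟩ := hB
  set C := centralizer ({z} : Set G) with hC
  set Qc := Cfsg.pCore 2 C with hQc
  set Q := Qc.map C.subtype with hQd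
  obtain ⟨hVC, hBC, hcomm, hinf, hsup⟩ := hVB
  have hcQ : Nat.card Q = 32 := by rw [hQd, Subgroup.card_subtype, hQ]
  have hQC : Q ≤ C := map_subtype_le _
  have hKC' : K ≤ C := hKC ▸ le_sup_left
  have hQn : C ≤ normalizer (Q : Set G) := fun c hc => by
    rw [← Fusion.cj_eq_iff_mem_normalizer]
    refine Subgroup.eq_of_le_of_card_ge ?_ (Fusion.card_cj c Q).ge
    rintro _ ⟨_, ⟨q, hq, rfl⟩, rfl⟩
    exact ⟨⟨c, hc⟩ * q * ⟨c, hc⟩⁻¹, (inferInstance : Qc.Normal).conj_mem q hq _, rfl⟩
  have hcC : Nat.card C = 1920 := by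
    have h1 := Modules.card_sup_mul_card_inf (hKC'.trans hQn)
    rw [hKC, hKQ, card_bot, mul_one, Nat.card_congr eK.toEquiv, card_alt, hcQ] at h1
    exact h1
  have hct : Nat.card (centralizer ({t} : Set G)) = 240 := by
    have hn : V ≤ normalizer (B : Set G) := fun v hv => by
      rw [← Fusion.cj_eq_iff_mem_normalizer]
      refine Subgroup.eq_of_le_of_card_ge ?_ (Fusion.card_cj v B).ge
      rintro _ ⟨b, hb, rfl⟩
      show v * b * v⁻¹ ∈ B
      rwa [hcomm v hv b hb, mul_inv_cancel_right]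
    have h1 := Modules.card_sup_mul_card_inf hn
    rw [hsup, hinf, card_bot, mul_one, hV, Nat.card_congr eB.toEquiv, card_alt] at h1
    exact h1
  obtain ⟨hz2, hz1⟩ := orderOf_two_iff.1 hz
  obtain ⟨ht2, ht1⟩ := orderOf_two_iff.1 ht
  have hord : ∀ {u a : G}, IsConj a u → orderOf u = orderOf a := fun h =>
    (Invol.orderOf_eq_of_isConj h).symm
  have hmemC : ∀ {u : G}, Commute u z → u ∈ C := fun h => mem_centralizer_singleton_iff.2 h
  have hCmem : ∀ {u : G}, u ∈ C → Commute u z := fun h => mem_centralizer_singleton_iff.1 h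
  have hzB : ∀ {u : G}, IsConj z u → Commute u t → u ∈ B := fun {u} hu hut => by
    by_contra hb
    exact hzt (hu.trans (hCt u (mem_centralizer_singleton_iff.2 hut) ((hord hu).trans hz) hb))
  have hzQ' : ∀ {u : G}, IsConj z u → Commute u z → u ∈ Q := fun {u} hu huz => by
    by_contra hb
    exact hzt (hu.trans (hCz u (hmemC huz) ((hord hu).trans hz) hb))
  have htQ : ∀ {v : G}, IsConj t v → v ∉ Q := fun {v} hv hvQ =>
    hzt ((hQz v hvQ ((hord hv).trans ht)).symm.trans hv.symm)
  have hzQ : z ∈ Q := hzQ' (IsConj.refl z) (Commute.refl z)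
  -- the extraspecial group
  have hFQ : generalizedFittingSubgroup C = Qc :=
    le_antisymm (Cores.le_pCore (Components.genFitting_normal) hex.1.1)
      (Components.pCore_le_fitting.trans Components.fitting_le_genFitting)
  rw [hFQ] at hex
  have hcommQ : ∀ a ∈ Q, ∀ b ∈ Q, a * b * a⁻¹ * b⁻¹ = 1 ∨ a * b * a⁻¹ * b⁻¹ = z := by
    rintro _ ⟨a, ha, rfl⟩ _ ⟨b, hb, rfl⟩
    obtain ⟨⟨-, -, hder⟩, hcen⟩ := hex
    have hmem : ⁅(⟨a, ha⟩ : Qc), (⟨b, hb⟩ : Qc)⁆ ∈ center Qc :=
      hder ▸ commutator_mem_commutator (mem_top _) (mem_top _)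
    obtain ⟨zc, hzc, hzce⟩ := (mem_map.1 hzQ)
    have hzmem : (⟨zc, hzc⟩ : Qc) ∈ center Qc := mem_center_iff.2 fun q => Subtype.ext (Subtype.ext
      (show ((q : C) : G) * (zc : G) = (zc : G) * ((q : C) : G) by
        rw [show (zc : G) = z from hzce]; exact (hCmem (q : C).2).eq))
    haveI := Fintype.ofFinite (center Qc)
    have h2 : ({1, ⟨⟨zc, hzc⟩, hzmem⟩} : Finset (center Qc)) = Finset.univ := by
      rw [← Finset.card_eq_iff_eq_univ, Finset.card_pair, ← Nat.card_eq_fintype_card, hcen]
      intro e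
      exact hz1 (hzce ▸ (congrArg (fun w : center Qc => (((w : Qc) : C) : G)) e).symm)
    have h3 := Finset.mem_univ (⟨_, hmem⟩ : center Qc)
    rw [← h2, Finset.mem_insert, Finset.mem_singleton] at h3
    rcases h3 with e | e <;>
      have e' := congrArg (fun w : center Qc => (((w : Qc) : C) : G)) e
    · exact Or.inl e'
    · exact Or.inr (e'.trans hzce)
  haveI := Fintype.ofFinite G
  set U := (Finset.univ.filter fun u : G => IsConj z u ∧ Commute u z).erase z with hUd
  have hUmem : ∀ {u}, u ∈ U ↔ u ≠ z ∧ IsConj z u ∧ Commute u z := fun {u} => by simp [hUd]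
  have hU : ∀ u ∈ U, u ∈ Q ∧ u * u = 1 ∧ u ≠ 1 ∧ u ≠ z := fun u hu => by
    obtain ⟨h1, h2, h3⟩ := hUmem.1 hu
    obtain ⟨a, b⟩ := orderOf_two_iff.1 ((hord h2).trans hz)
    exact ⟨hzQ' h2 h3, a, b, h1⟩
  have hmax : ∀ w ∈ Q, w * w = 1 → w ≠ 1 → w ≠ z → w ∈ U := fun w hw a b c =>
    hUmem.2 ⟨c, (hQz w hw (orderOf_two_iff.2 ⟨a, b⟩)).symm, hCmem (hQC hw)⟩
  -- each class element of `t` in `C` meets three conjugates of `z`
  have hthree : ∀ v, IsConj t v → Commute v z →
      Nat.card {u : G // IsConj z u ∧ Commute u v ∧ Commute u z} = 3 := by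
    intro v hv hvz
    obtain ⟨g, hg⟩ := isConj_iff.1 hv
    have htr : ∀ {a b : G}, Commute a b ↔ Commute (g⁻¹ * a * g) (g⁻¹ * b * g) := fun {a b} => by
      have := Commute.conj_iff (a := a) (b := b) g⁻¹
      rw [inv_inv] at this
      exact this.symm
    have hvt : g⁻¹ * v * g = t := by rw [← hg]; group
    have hcon : ∀ a : G, IsConj a (g⁻¹ * a * g) := fun a => isConj_iff.2 ⟨g⁻¹, by rw [inv_inv]⟩
    have hzB' : g⁻¹ * z * g ∈ B := hzB (hcon z) (hvt ▸ htr.1 hvz.symm)
    rw [← card_invol_commute eB hzB' ((hord (hcon z)).trans hz)]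
    refine Nat.card_congr ((MulAut.conj g⁻¹).toEquiv.subtypeEquiv fun u => ?_)
    show _ ↔ (g⁻¹ * u * g⁻¹⁻¹ ∈ B ∧ orderOf (g⁻¹ * u * g⁻¹⁻¹) = 2) ∧ Commute _ (g⁻¹ * u * g⁻¹⁻¹)
    rw [inv_inv]
    constructor
    · rintro ⟨h1, h2, h3⟩
      exact ⟨⟨hzB (h1.trans (hcon u)) (hvt ▸ htr.1 h2), (hord (h1.trans (hcon u))).trans hz⟩,
        (htr.1 h3).symm⟩
    · rintro ⟨⟨h1, h2⟩, h3⟩
      refine ⟨((hBz _ h1 h2).symm.trans (hcon u).symm), htr.2 ?_, htr.2 h3.symm⟩
      rw [hvt]
      exact mem_centralizer_singleton_iff.1 (hBC h1)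
  have hfifteen : ∀ v, IsConj t v → Nat.card {u : G // IsConj z u ∧ Commute u v} = 15 := by
    intro v hv
    obtain ⟨g, hg⟩ := isConj_iff.1 hv
    have htr : ∀ {a b : G}, Commute a b ↔ Commute (g⁻¹ * a * g) (g⁻¹ * b * g) := fun {a b} => by
      have := Commute.conj_iff (a := a) (b := b) g⁻¹
      rw [inv_inv] at this
      exact this.symm
    have hvt : g⁻¹ * v * g = t := by rw [← hg]; group
    have hcon : ∀ a : G, IsConj a (g⁻¹ * a * g) := fun a => isConj_iff.2 ⟨g⁻¹, by rw [inv_inv]⟩
    rw [← card_invol eB]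
    refine Nat.card_congr ((MulAut.conj g⁻¹).toEquiv.subtypeEquiv fun u => ?_)
    show _ ↔ g⁻¹ * u * g⁻¹⁻¹ ∈ B ∧ orderOf (g⁻¹ * u * g⁻¹⁻¹) = 2
    rw [inv_inv]
    constructor
    · rintro ⟨h1, h2⟩
      exact ⟨hzB (h1.trans (hcon u)) (hvt ▸ htr.1 h2), (hord (h1.trans (hcon u))).trans hz⟩
    · rintro ⟨h1, h2⟩
      refine ⟨((hBz _ h1 h2).symm.trans (hcon u).symm), htr.2 ?_⟩
      rw [hvt]
      exact mem_centralizer_singleton_iff.1 (hBC h1)
  set D := {v : G // IsConj t v ∧ Commute v z} with hD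
  have hD120 : Nat.card D = 120 := by
    have hu : ∀ u, IsConj z u → Nat.card {v : G // IsConj t v ∧ Commute u v} = Nat.card D := by
      intro u hu
      obtain ⟨g, hg⟩ := isConj_iff.1 hu
      refine Nat.card_congr ((MulAut.conj g⁻¹).toEquiv.subtypeEquiv fun v => ?_)
      show _ ↔ IsConj t (g⁻¹ * v * g⁻¹⁻¹) ∧ Commute (g⁻¹ * v * g⁻¹⁻¹) z
      have e : z = g⁻¹ * u * g⁻¹⁻¹ := by rw [← hg]; group
      rw [e, Commute.conj_iff]
      exact and_congr ⟨fun h => h.trans (Invol.isConj_conj g⁻¹ v),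
        fun h => h.trans (Invol.isConj_conj g⁻¹ v).symm⟩ ⟨Commute.symm, Commute.symm⟩
    have hA := Invol.card_isConj_mul z
    have hT := Invol.card_isConj_mul t
    rw [← hC, hcC] at hA
    rw [hct] at hT
    have e : (Σ u : {u : G // IsConj z u}, {v : G // IsConj t v ∧ Commute u.1 v}) ≃
        (Σ v : {v : G // IsConj t v}, {u : G // IsConj z u ∧ Commute u v.1}) :=
      { toFun := fun p => ⟨⟨p.2.1, p.2.2.1⟩, p.1.1, p.1.2, p.2.2.2⟩
        invFun := fun p => ⟨⟨p.2.1, p.2.2.1⟩, p.1.1, p.1.2, p.2.2.2⟩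
        left_inv := fun p => rfl
        right_inv := fun p => rfl }
    have h := Nat.card_congr e
    haveI := Fintype.ofFinite {u : G // IsConj z u}
    haveI := Fintype.ofFinite {v : G // IsConj t v}
    rw [Nat.card_sigma, Nat.card_sigma,
      Finset.sum_congr rfl (g := fun _ : {u : G // IsConj z u} => Nat.card D) fun u _ => hu u.1 u.2,
      Finset.sum_congr rfl (g := fun _ : {v : G // IsConj t v} => 15) fun v _ => hfifteen v.1 v.2,
      Finset.sum_const, Finset.sum_const,
      Finset.card_univ, Finset.card_univ, ← Nat.card_eq_fintype_card, ← Nat.card_eq_fintype_card,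
      smul_eq_mul, smul_eq_mul] at h
    have hpos := Nat.card_pos (α := G)
    have hApos : Nat.card {u : G // IsConj z u} ≠ 0 := fun e => by rw [e, zero_mul] at hA; omega
    have h' : Nat.card {u : G // IsConj z u} * Nat.card D =
        Nat.card {u : G // IsConj z u} * 120 := by
      rw [h]; omega
    exact Nat.eq_of_mul_eq_mul_left (Nat.pos_of_ne_zero hApos) h'
  have hfix : ∀ v, IsConj t v → Commute v z → (U.filter fun u => Commute u v).card = 2 := by
    intro v hv hvz
    have h3 := hthree v hv hvz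
    rw [Nat.card_eq_fintype_card, Fintype.card_subtype] at h3
    have e : (U.filter fun u => Commute u v) =
        (Finset.univ.filter fun u : G => IsConj z u ∧ Commute u v ∧ Commute u z).erase z := by
      ext u; simp [hUd]; tauto
    rw [e, Finset.card_erase_of_mem, h3]
    exact Finset.mem_filter.2 ⟨Finset.mem_univ _, IsConj.refl z, hvz.symm, Commute.refl z⟩
  -- no elementary abelian subgroup of order eight
  obtain ⟨⟨f, hf⟩, hf5⟩ := exists_prime_orderOf_dvd_card' (G := K) 5
    (hp := ⟨by norm_num⟩) (by rw [Nat.card_congr eK.toEquiv, card_alt]; norm_num)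
  rw [Subgroup.orderOf_mk] at hf5
  have hfC := hKC' hf
  have hperm : ∀ (S : Finset G), (∀ a ∈ S, f * a * f⁻¹ ∈ S) →
      (S.filter fun a => Commute f a).card % 5 = S.card % 5 := by
    intro S hS
    haveI : Fact (Nat.Prime 5) := ⟨by norm_num⟩
    let σ : Equiv.Perm {a // a ∈ S} :=
      { toFun := fun a => ⟨f * a * f⁻¹, hS a a.2⟩
        invFun := fun a => ⟨f⁻¹ * a * f, by
          have h1 := hS _ (hS _ (hS _ (hS _ a.2)))
          rwa [show f * (f * (f * (f * a * f⁻¹) * f⁻¹) * f⁻¹) * f⁻¹ = f⁻¹ * a * f from by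
            have e5 : f * f * f * f = f⁻¹ := eq_inv_of_mul_eq_one_left (by
              have := pow_orderOf_eq_one f
              rw [hf5] at this
              simpa [pow_succ] using this)
            calc f * (f * (f * (f * a * f⁻¹) * f⁻¹) * f⁻¹) * f⁻¹
                = (f * f * f * f) * a * (f * f * f * f)⁻¹ := by group
              _ = _ := by rw [e5, inv_inv]] at h1⟩
        left_inv := fun a => Subtype.ext (by simp [mul_assoc])
        right_inv := fun a => Subtype.ext (by simp [mul_assoc]) }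
    have hpow : ∀ n : ℕ, ∀ a, ((σ ^ n) a : G) = f ^ n * a * (f ^ n)⁻¹ := by
      intro n
      induction n with
      | zero => intro a; simp
      | succ n ih =>
        intro a
        rw [pow_succ', Equiv.Perm.mul_apply]
        show f * ((σ ^ n) a : G) * f⁻¹ = _
        rw [ih, pow_succ']
        group
    have hσ : σ ^ 5 ^ 1 = 1 := Equiv.ext fun a => Subtype.ext (by
      rw [hpow, pow_one, ← hf5, pow_orderOf_eq_one]; simp)
    have h := Equiv.Perm.card_compl_support_modEq hσ
    rw [Fintype.card_coe] at h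
    have e : σ.supportᶜ.card = (S.filter fun a => Commute f a).card := by
      refine Finset.card_bij (fun a _ => a.1) ?_ (fun a _ b _ e => Subtype.ext e) ?_
      · intro a ha
        rw [Finset.mem_compl, Equiv.Perm.mem_support, not_not] at ha
        exact Finset.mem_filter.2 ⟨a.2, mul_inv_eq_iff_eq_mul.1 (congrArg Subtype.val ha)⟩
      · intro a ha
        obtain ⟨ha1, ha2⟩ := Finset.mem_filter.1 ha
        refine ⟨⟨a, ha1⟩, ?_, rfl⟩
        rw [Finset.mem_compl, Equiv.Perm.mem_support, not_not]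
        exact Subtype.ext (mul_inv_eq_iff_eq_mul.2 ha2)
    rw [← e]
    exact h
  set SQ := Finset.univ.filter fun a : G => a ∈ Q with hSQ
  have hSQc : SQ.card = 32 := by rw [hSQ, ← Fintype.card_subtype, ← Nat.card_eq_fintype_card, hcQ]
  have hfQ : ∀ a ∈ Q, f * a * f⁻¹ ∈ Q := fun a ha => (mem_normalizer_iff.1 (hQn hfC) a).1 ha
  obtain ⟨v0, hv0⟩ : ∃ v : D, True := by
    have : Nonempty D := (Nat.card_pos_iff.1 (by rw [hD120]; norm_num)).1
    exact ⟨this.some, trivial⟩
  have hfU : ∀ u ∈ U, ¬ Commute f u := by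
    intro u hu hfu
    let CQ : Subgroup G := Q ⊓ centralizer ({f} : Set G)
    have hCQ : Nat.card CQ % 5 = 2 := by
      have h := hperm SQ (fun a ha => by
        simp only [hSQ, Finset.mem_filter, Finset.mem_univ, true_and] at ha ⊢
        exact hfQ a ha)
      rw [hSQc] at h
      rw [Nat.card_eq_fintype_card, Fintype.card_of_subtype (SQ.filter fun a => Commute f a)]
      · simpa using h
      · intro a
        simp only [hSQ, Finset.mem_filter, Finset.mem_univ, true_and, CQ, Subgroup.mem_inf,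
          mem_centralizer_singleton_iff]
        exact and_congr_right fun _ => ⟨fun h => h.symm.eq, fun h => (h : Commute a f).symm⟩
    have hd : Nat.card CQ ∣ 2 ^ 5 := by
      have := Subgroup.card_dvd_of_le (inf_le_left : CQ ≤ Q)
      rwa [hcQ] at this
    have hzf : Commute f z := hCmem hfC
    have h3 : 2 < Nat.card CQ := by
      have hsub : ({1, z, u} : Finset G) ⊆ Finset.univ.filter fun a => a ∈ CQ := by
        intro a ha
        simp only [Finset.mem_insert, Finset.mem_singleton] at ha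
        simp only [Finset.mem_filter, Finset.mem_univ, true_and, CQ, Subgroup.mem_inf,
          mem_centralizer_singleton_iff]
        rcases ha with rfl | rfl | rfl
        exacts [⟨one_mem _, by simp⟩, ⟨hzQ, hzf.symm.eq⟩, ⟨(hU _ hu).1, hfu.symm.eq⟩]
      have := Finset.card_le_card hsub
      rw [← Fintype.card_subtype, ← Nat.card_eq_fintype_card, Finset.card_insert_of_notMem,
        Finset.card_pair (Ne.symm (hU u hu).2.2.2)] at this
      · omega
      · simp only [Finset.mem_insert, Finset.mem_singleton, not_or]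
        exact ⟨Ne.symm hz1, Ne.symm (hU u hu).2.2.1⟩
    obtain ⟨i, hi, hie⟩ := (Nat.dvd_prime_pow Nat.prime_two).1 hd
    have hi5 : i = 5 := by
      rw [hie] at hCQ h3
      interval_cases i <;> omega
    have hall : Q ≤ centralizer ({f} : Set G) := by
      have e := Subgroup.eq_of_le_of_card_ge (inf_le_left : CQ ≤ Q) (by rw [hie, hi5, hcQ]; norm_num)
      exact e ▸ inf_le_right
    -- then all of `K` centralises `Q`
    let KQ : Subgroup K := (centralizer (Q : Set G)).subgroupOf K
    haveI : KQ.Normal := normal_subgroupOf_of_le_normalizer fun k hk => by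
      have hkn := hQn (hKC' hk)
      rw [← Fusion.cj_eq_iff_mem_normalizer] at hkn ⊢
      refine Subgroup.eq_of_le_of_card_ge ?_ (Fusion.card_cj k _).ge
      rintro _ ⟨c, hc, rfl⟩
      refine mem_centralizer_iff.2 fun q hq => ?_
      have hq' : k⁻¹ * q * k ∈ Q := by
        rw [← hkn] at hq
        exact Fusion.mem_cj.1 hq
      have h1 := (Commute.conj_iff k).2 (mem_centralizer_iff.1 hc _ hq' : Commute (k⁻¹ * q * k) c)
      simpa [mul_assoc] using h1.eq
    haveI : IsSimpleGroup K := eK.isSimpleGroup_congr.2 inferInstance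
    have htop : KQ = ⊤ := (Subgroup.Normal.eq_bot_or_eq_top ‹KQ.Normal›).resolve_left fun e => by
      have hfm : (⟨f, hf⟩ : K) ∈ KQ :=
        mem_centralizer_iff.2 fun q hq => mem_centralizer_singleton_iff.1 (hall hq)
      rw [e, Subgroup.mem_bot] at hfm
      rw [show f = 1 from congrArg Subtype.val hfm, orderOf_one] at hf5
      omega
    obtain ⟨⟨v, hv⟩, hv2⟩ := exists_prime_orderOf_dvd_card' (G := K) 2
      (by rw [Nat.card_congr eK.toEquiv, card_alt]; norm_num)
    rw [Subgroup.orderOf_mk] at hv2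
    have hvQ : v ∉ Q := fun h => by
      have : v ∈ (⊥ : Subgroup G) := hKQ ▸ ⟨hv, h⟩
      rw [Subgroup.mem_bot] at this
      rw [this, orderOf_one] at hv2
      omega
    have hvt := hCz v (hKC' hv) hv2 hvQ
    have hQv : Q ≤ centralizer ({v} : Set G) := fun q hq =>
      mem_centralizer_singleton_iff.2 (mem_centralizer_iff.1
        (htop.ge (mem_top (⟨v, hv⟩ : K)) : v ∈ centralizer (Q : Set G)) q hq)
    have h32 := Subgroup.card_dvd_of_le hQv
    obtain ⟨g, hg⟩ := isConj_iff.1 hvt.symm
    have e : centralizer ({v} : Set G) = Fusion.cj g (centralizer ({t} : Set G)) := by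
      ext a
      rw [Fusion.mem_cj, mem_centralizer_singleton_iff, mem_centralizer_singleton_iff, ← hg]
      have h := (Commute.conj_iff (a := g⁻¹ * a * g) (b := t) g)
      rw [show g * (g⁻¹ * a * g) * g⁻¹ = a by group] at h
      exact h
    rw [e, Fusion.card_cj, hct, hcQ] at h32
    norm_num at h32
  have hUf : ∀ a ∈ U, f * a * f⁻¹ ∈ U := fun a ha => by
    obtain ⟨h1, h2, h3, h4⟩ := hU a ha
    refine hmax _ (hfQ a h1) (by
      rw [show f * a * f⁻¹ * (f * a * f⁻¹) = f * (a * a) * f⁻¹ by group, h2]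
      group) (fun e => h3 (conj_eq_one_iff.1 e)) fun e => h4 ?_
    calc a = f⁻¹ * (f * a * f⁻¹) * f := by group
      _ = z := by rw [e, mul_assoc, (hCmem hfC).symm.eq, inv_mul_cancel_left]
  have hU5 : U.card % 5 = 0 := by
    have h := hperm U hUf
    rw [Finset.filter_false_of_mem hfU, Finset.card_empty] at h
    omega
  have hcen : ∀ a ∈ Q, a ≠ 1 → a ≠ z → ∃ b ∈ Q, ¬ Commute b a := by
    rintro _ ⟨a, ha, rfl⟩ ha1 haz
    by_contra hno
    push Not at hno
    obtain ⟨zc, hzc, hzce⟩ := (mem_map.1 hzQ)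
    have hm : ∀ (c : C) (hc : c ∈ Qc), (∀ q ∈ Q, Commute q (c : G)) →
        (⟨c, hc⟩ : Qc) ∈ center Qc :=
      fun c hc h => mem_center_iff.2 fun q => Subtype.ext (Subtype.ext (h _ ⟨q.1, q.2, rfl⟩).eq)
    have hzmem := hm zc hzc fun q hq => by
      rw [show (zc : G) = z from hzce]; exact hCmem (hQC hq)
    have h3 : ({1, ⟨_, hzmem⟩, ⟨_, hm a ha hno⟩} : Finset (center Qc)).card = 3 := by
      have n1 : (1 : center Qc) ≠ ⟨_, hzmem⟩ := fun e => hz1
        (hzce ▸ (congrArg (fun w : center Qc => (((w : Qc) : C) : G)) e).symm)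
      have n2 : (1 : center Qc) ≠ ⟨_, hm a ha hno⟩ := fun e => ha1
        (congrArg (fun w : center Qc => (((w : Qc) : C) : G)) e).symm
      have n3 : (⟨_, hzmem⟩ : center Qc) ≠ ⟨_, hm a ha hno⟩ := fun e => haz
        ((congrArg (fun w : center Qc => (((w : Qc) : C) : G)) e).symm.trans hzce)
      rw [Finset.card_insert_of_notMem (by simp [n1, n2]), Finset.card_pair n3]
    haveI := Fintype.ofFinite (center Qc)
    have h4 := Finset.card_le_univ ({1, ⟨_, hzmem⟩, ⟨_, hm a ha hno⟩} : Finset (center Qc))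
    rw [h3, ← Nat.card_eq_fintype_card, hex.2] at h4
    omega
  have hsq : ∀ a ∈ Q, a * a = 1 ∨ a * a = z := by
    intro a ha
    by_contra hno
    simp only [not_or] at hno
    obtain ⟨b, hb, hba⟩ := hcen _ (mul_mem ha ha) hno.1 hno.2
    refine hba ?_
    have hza : Commute z a := (hCmem (hQC ha)).symm
    rcases hcommQ b hb a ha with e | e
    · have h1 : Commute b a := mul_inv_eq_iff_eq_mul.1 (mul_inv_eq_one.1 e)
      exact h1.mul_right h1
    · have h1 : b * a = z * (a * b) := by rw [← e]; group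
      show b * (a * a) = a * a * b
      calc b * (a * a) = b * a * a := (mul_assoc _ _ _).symm
        _ = z * (a * b) * a := by rw [h1]
        _ = z * (a * (b * a)) := by simp only [mul_assoc]
        _ = z * z * (a * a * b) := by
            rw [h1, ← mul_assoc a z, ← hza.eq]; simp only [mul_assoc]
        _ = a * a * b := by rw [hz2, one_mul]
  have hS : Ext z SQ := by
    have hm : ∀ {a}, a ∈ SQ ↔ a ∈ Q := fun {a} => by simp [hSQ]
    refine ⟨hz1, hz2, hm.2 hzQ, hm.2 (one_mem Q), fun a ha b hb => hm.2 (mul_mem (hm.1 ha) (hm.1 hb)),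
      fun a ha => (hCmem (hQC (hm.1 ha))).symm.eq, fun a ha => hsq a (hm.1 ha),
      fun a ha b hb => ?_⟩
    rcases hcommQ a (hm.1 ha) b (hm.1 hb) with e | e
    · exact Or.inl (mul_inv_eq_iff_eq_mul.1 (mul_inv_eq_one.1 e))
    · exact Or.inr (by rw [← e]; group)
  have hU10 : U.card = 10 := by
    have hne : U.Nonempty := by
      rw [← Finset.card_pos]
      have h2 := Finset.card_filter_le U fun u => Commute u v0.1
      rw [hfix v0.1 v0.2.1 v0.2.2] at h2
      omega
    have hzu : ∀ a ∈ U, z * a ∈ U := fun a ha => by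
      obtain ⟨h1, h2, h3, h4⟩ := hU a ha
      refine hmax _ (mul_mem hzQ h1) ?_ (fun e => h4 ?_) fun e => h3 (mul_eq_left.1 e)
      · rw [(hCmem (hQC h1)).mul_mul_mul_comm, hz2, h2, one_mul]
      · exact (eq_inv_of_mul_eq_one_right e).trans (inv_eq_of_mul_eq_one_right hz2)
    have h2 : 2 ∣ U.card := by
      let σ : Equiv.Perm {a // a ∈ U} := Function.Involutive.toPerm
        (fun a => ⟨z * a, hzu a a.2⟩)
        (fun a => Subtype.ext (by show z * (z * a.1) = a.1; rw [← mul_assoc, hz2, one_mul]))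
      by_contra h
      obtain ⟨a, ha⟩ := Equiv.Perm.exists_fixed_point_of_prime (p := 2) (n := 1)
        (by rwa [Fintype.card_coe]) (σ := σ) (by
          refine Equiv.ext fun a => ?_
          rw [pow_one, pow_two]
          exact Subtype.ext (by show z * (z * a.1) = a.1; rw [← mul_assoc, hz2, one_mul]))
      exact hz1 (mul_eq_right.1 (congrArg Subtype.val ha : z * a.1 = a.1))
    refine hS.card_eq_ten hSQc (fun a ha h1 h2 => ?_) U (fun a => ⟨fun ha => ?_, fun ha => ?_⟩) hne
      hU5 h2
    · obtain ⟨b, hb, hba⟩ := hcen a (by simpa [hSQ] using ha) h1 h2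
      exact ⟨b, by simpa [hSQ] using hb, hba⟩
    · exact ⟨by simpa [hSQ] using (hU a ha).1, (hU a ha).2⟩
    · exact hmax a (by simpa [hSQ] using ha.1) ha.2.1 ha.2.2.1 ha.2.2.2
  have hdih : ∀ u v a : G, u * u = 1 → v * v = 1 → a * a = 1 → a ∈ zpowers (u * v) →
      Commute u a ∧ Commute v a := by
    intro u v a hu hv ha hp
    obtain ⟨k, hk⟩ := hp
    simp only at hk
    have hui : u⁻¹ = u := inv_eq_of_mul_eq_one_right hu
    have hvi : v⁻¹ = v := inv_eq_of_mul_eq_one_right hv
    have hai : a⁻¹ = a := inv_eq_of_mul_eq_one_right ha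
    constructor
    · refine mul_inv_eq_iff_eq_mul.1 ?_
      calc u * a * u⁻¹ = (u * (u * v) * u⁻¹) ^ k := by rw [conj_zpow, hk]
        _ = ((u * v)⁻¹) ^ k := by rw [mul_inv_rev, hvi, hui, ← mul_assoc u u, hu, one_mul]
        _ = a := by rw [inv_zpow, hk, hai]
    · refine mul_inv_eq_iff_eq_mul.1 ?_
      calc v * a * v⁻¹ = (v * (u * v) * v⁻¹) ^ k := by rw [conj_zpow, hk]
        _ = ((u * v)⁻¹) ^ k := by rw [mul_inv_rev, hvi, hui, mul_assoc, mul_assoc u v, hv, mul_one]
        _ = a := by rw [inv_zpow, hk, hai]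
  have hsmall : ∀ g : G, g * g = 1 → z ∈ zpowers g → z = 1 ∨ z = g := by
    intro g hg hp
    obtain ⟨k, hk⟩ := hp
    simp only at hk
    rcases Int.even_or_odd k with ⟨j, rfl⟩ | ⟨j, rfl⟩
    · rw [← two_mul, zpow_mul, zpow_two, hg, one_zpow] at hk; exact Or.inl hk.symm
    · rw [zpow_add, zpow_mul, zpow_two, hg, one_zpow, one_mul, zpow_one] at hk; exact Or.inr hk.symm
  have hdiff : ∀ u ∈ U, ∀ w ∈ U, (u * w) * (u * w) = 1 → w = u ∨ w = z * u := by
    intro u hu w hwU he
    obtain ⟨hw, hw2, hw1, hwz⟩ := hU w hwU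
    obtain ⟨huQ, hu2, hu1, huz⟩ := hU u hu
    have hc : w * u = u * w := by
      calc w * u = (u * u) * (w * u) * (w * w) := by rw [hu2, hw2, one_mul, mul_one]
        _ = u * (u * w * (u * w)) * w := by simp only [mul_assoc]
        _ = u * w := by rw [he, mul_one]
    obtain ⟨b, hb, hbu⟩ := hcen u huQ hu1 huz
    obtain ⟨q1, q2⟩ := hS.quarters (u := u) (b := b) (by simpa [hSQ] using huQ) hu2
      (by simpa [hSQ] using hb) hbu
    rw [hSQc] at q2
    by_contra hno
    simp only [not_or] at hno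
    obtain ⟨hne, hne'⟩ := hno
    -- at most two members of `U` commute with `u`
    set A := SQ.filter fun a => a * u ≠ u * a ∧ a * a = 1 with hA
    have hsub : A ∪ {u, z * u, w} ⊆ U ∪ {1, z} := by
      intro a ha
      simp only [Finset.mem_union, Finset.mem_insert, Finset.mem_singleton] at ha ⊢
      have hin : a ∈ Q ∧ a * a = 1 := by
        rcases ha with ha | rfl | rfl | rfl
        · obtain ⟨a1, a2⟩ := Finset.mem_filter.1 ha
          exact ⟨by simpa [hSQ] using a1, a2.2⟩
        · exact ⟨huQ, hu2⟩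
        · refine ⟨mul_mem hzQ huQ, ?_⟩
          rw [(hCmem (hQC huQ)).mul_mul_mul_comm, hz2, hu2, one_mul]
        · exact ⟨hw, hw2⟩
      by_cases e1 : a = 1
      · exact Or.inr (Or.inl e1)
      by_cases e2 : a = z
      · exact Or.inr (Or.inr e2)
      exact Or.inl (hmax a hin.1 hin.2 e1 e2)
    have hd : Disjoint A ({u, z * u, w} : Finset G) := by
      rw [Finset.disjoint_right]
      intro a ha h1
      have h2 := (Finset.mem_filter.1 h1).2.1
      simp only [Finset.mem_insert, Finset.mem_singleton] at ha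
      rcases ha with rfl | rfl | rfl
      · exact h2 rfl
      · exact h2 (((hCmem (hQC huQ)).symm.mul_left (Commute.refl u)).eq)
      · exact h2 hc
    have h3 : ({u, z * u, w} : Finset G).card = 3 := by
      rw [Finset.card_insert_of_notMem, Finset.card_pair (Ne.symm hne')]
      simp only [Finset.mem_insert, Finset.mem_singleton, not_or]
      exact ⟨fun e => hz1 (mul_eq_right.1 e.symm), Ne.symm hne⟩
    have h8 : A ∪ {u, z * u, w} ⊆ U := fun a ha => by
      rcases Finset.mem_union.1 (hsub ha) with e | e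
      · exact e
      · exfalso
        simp only [Finset.mem_insert, Finset.mem_singleton] at e
        simp only [Finset.mem_union, Finset.mem_insert, Finset.mem_singleton] at ha
        rcases ha with ha | ha
        · refine (Finset.mem_filter.1 ha).2.1 ?_
          rcases e with rfl | rfl
          · rw [one_mul, mul_one]
          · exact (hCmem (hQC huQ)).symm.eq
        · rcases ha with rfl | rfl | rfl <;> rcases e with e | e
          · exact hu1 e
          · exact huz e
          · exact huz ((eq_inv_of_mul_eq_one_right e).trans (inv_eq_of_mul_eq_one_right hz2))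
          · exact hu1 (mul_eq_left.1 e)
          · exact hw1 e
          · exact hwz e
    have h9 := Finset.card_le_card h8
    rw [Finset.card_union_of_disjoint hd, h3, hU10] at h9
    omega
  -- the two counts
  have hcz : Nat.card {p : G × G // IsConj z p.1 ∧ IsConj t p.2 ∧ z ∈ zpowers (p.1 * p.2)} = 960 := by
    have key : ∀ p : G × G, IsConj z p.1 ∧ IsConj t p.2 ∧ z ∈ zpowers (p.1 * p.2) ↔
        (IsConj t p.2 ∧ Commute p.2 z) ∧ p.1 ∈ U.filter fun u => ¬ Commute u p.2 := by
      rintro ⟨u, v⟩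
      simp only [Finset.mem_filter]
      constructor
      · rintro ⟨hu, hv, hzp⟩
        obtain ⟨a1, a2⟩ := orderOf_two_iff.1 ((hord hu).trans hz)
        obtain ⟨b1, b2⟩ := orderOf_two_iff.1 ((hord hv).trans ht)
        obtain ⟨hcu, hcv⟩ := hdih u v z a1 b1 hz2 hzp
        have hne : u ≠ z := by
          rintro rfl
          have h1 : (u * v) * (u * v) = 1 := by
            rw [hcv.mul_mul_mul_comm, a1, b1, one_mul]
          rcases hsmall _ h1 hzp with e | e
          · exact a2 e
          · exact b2 (mul_eq_left.1 e.symm)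
        refine ⟨⟨hv, hcv⟩, hUmem.2 ⟨hne, hu, hcu⟩, fun hc => ?_⟩
        have h1 : (u * v) * (u * v) = 1 := by rw [hc.symm.mul_mul_mul_comm, a1, b1, one_mul]
        rcases hsmall _ h1 hzp with e | e
        · exact hz1 e
        · refine htQ hv ?_
          have : v = u * z := by rw [e, ← mul_assoc, a1, one_mul]
          rw [this]; exact mul_mem (hzQ' hu hcu) hzQ
      · rintro ⟨⟨hv, hvz⟩, hu, hnc⟩
        obtain ⟨hne, huc, huz⟩ := hUmem.1 hu
        refine ⟨huc, hv, ?_⟩
        obtain ⟨a1, a2⟩ := orderOf_two_iff.1 ((hord huc).trans hz)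
        obtain ⟨b1, b2⟩ := orderOf_two_iff.1 ((hord hv).trans ht)
        have huQ := (hU u hu).1
        have hu'Q : v * u * v⁻¹ ∈ Q := (mem_normalizer_iff.1 (hQn (hmemC hvz)) u).1 huQ
        have e2 : (u * v) * (u * v) = u * (v * u * v⁻¹) := by
          rw [inv_eq_of_mul_eq_one_right b1]; group
        rcases hsq _ (mul_mem huQ hu'Q) with e | e
        · -- commuting members of `U` differ by `z`
          have hu'U : v * u * v⁻¹ ∈ U := hmax _ hu'Q
            (by rw [show v * u * v⁻¹ * (v * u * v⁻¹) = v * (u * u) * v⁻¹ by group, a1]; group)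
            (fun e4 => a2 (conj_eq_one_iff.1 e4)) fun e4 => hne (by
              calc u = v⁻¹ * (v * u * v⁻¹) * v := by group
                _ = z := by rw [e4, mul_assoc, hvz.symm.eq, inv_mul_cancel_left])
          rcases hdiff u hu _ hu'U e with e3 | e3
          · refine absurd ?_ hnc
            exact (mul_inv_eq_iff_eq_mul.1 e3 : v * u = u * v).symm
          · have e4 : u * (z * u) = z := by
              rw [← mul_assoc, (show Commute u z from huz).eq, mul_assoc, a1, mul_one]
            rw [e3, e4] at e2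
            exact ⟨2, by simp only [zpow_two, e2]⟩
        · exact ⟨4, by
            simp only
            rw [zpow_ofNat, pow_succ, pow_succ, pow_succ, pow_one, mul_assoc (u * v * (u * v)), e2, e]⟩
    rw [Nat.card_congr
      { toFun := fun p : {p : G × G // IsConj z p.1 ∧ IsConj t p.2 ∧ z ∈ zpowers (p.1 * p.2)} =>
          (⟨⟨p.1.2, ((key p.1).1 p.2).1⟩, p.1.1, ((key p.1).1 p.2).2⟩ :
            Σ v : D, {u // u ∈ U.filter fun u => ¬ Commute u v.1})
        invFun := fun q => ⟨(q.2.1, q.1.1), (key (q.2.1, q.1.1)).2 ⟨q.1.2, q.2.2⟩⟩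
        left_inv := fun p => rfl
        right_inv := fun q => rfl }]
    haveI := Fintype.ofFinite D
    rw [Nat.card_sigma, Finset.sum_congr rfl (g := fun _ => 8) fun v _ => ?_, Finset.sum_const,
      Finset.card_univ, ← Nat.card_eq_fintype_card, hD120]
    · rfl
    · rw [Nat.card_eq_fintype_card, Fintype.card_coe]
      have := Finset.card_filter_add_card_filter_not (s := U) fun u => Commute u v.1
      rw [hfix v.1 v.2.1 v.2.2, hU10] at this
      omega
  have hctt : Nat.card {p : G × G // IsConj z p.1 ∧ IsConj t p.2 ∧ t ∈ zpowers (p.1 * p.2)} = 195 := by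
    have htB : t ∉ B := fun h => ht1 (Subgroup.mem_bot.1 (hinf ▸ ⟨htV, h⟩))
    have hwit : ∀ u v : G, IsConj z u → IsConj t v → t ∈ zpowers (u * v) →
        (u ∈ B ∧ orderOf u = 2) ∧ (t * v ∈ B ∧ orderOf (t * v) = 2) ∧
          Odd (orderOf (u * (t * v))) := by
      intro u v hu hv hp
      obtain ⟨a1, a2⟩ := orderOf_two_iff.1 ((hord hu).trans hz)
      obtain ⟨b1, b2⟩ := orderOf_two_iff.1 ((hord hv).trans ht)
      obtain ⟨hcu, hcv⟩ := hdih u v t a1 b1 ht2 hp
      have huB : u ∈ B := hzB hu hcu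
      have hvC : v ∈ centralizer ({t} : Set G) := mem_centralizer_singleton_iff.2 hcv
      rw [← hsup] at hvC
      have hn : V ≤ normalizer (B : Set G) := fun w hw => by
        rw [← Fusion.cj_eq_iff_mem_normalizer]
        refine Subgroup.eq_of_le_of_card_ge ?_ (Fusion.card_cj w B).ge
        rintro _ ⟨b, hb, rfl⟩
        show w * b * w⁻¹ ∈ B
        rwa [hcomm w hw b hb, mul_inv_cancel_right]
      rw [← SetLike.mem_coe, Subgroup.coe_mul_of_left_le_normalizer_right _ _ hn] at hvC
      obtain ⟨e, he, b, hb, rfl⟩ := Set.mem_mul.1 hvC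
      have he2 : e * e = 1 := by rw [← pow_two]; exact hV2 e he
      have heu : Commute e (u * b) := hcomm e he _ (mul_mem huB hb)
      have huv : u * (e * b) = e * (u * b) := by
        rw [← mul_assoc, ← (hcomm e he u huB), mul_assoc]
      have hb2 : b * b = 1 := by
        have : e * b * (e * b) = (e * e) * (b * b) :=
          (show Commute b e from (hcomm e he b hb).symm).mul_mul_mul_comm e b
        rw [b1, he2, one_mul] at this
        exact this.symm
      obtain ⟨k, hk⟩ := hp
      simp only at hk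
      rw [huv, heu.mul_zpow] at hk
      have h1 : (u * b) ^ k = (e ^ k)⁻¹ * t := by rw [← hk]; group
      have h2 : (u * b) ^ k = 1 := Subgroup.mem_bot.1 (hinf ▸
        (Subgroup.mem_inf.2 ⟨(by rw [h1]; exact V.mul_mem (V.inv_mem (V.zpow_mem he k)) htV),
          B.zpow_mem (B.mul_mem huB hb) k⟩))
      rw [h2, mul_one] at hk
      have hkodd : Odd k := by
        rcases Int.even_or_odd k with ⟨j, rfl⟩ | h
        · rw [← two_mul, zpow_mul, zpow_two, he2, one_zpow] at hk
          exact absurd hk.symm ht1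
        · exact h
      have het : e = t := by
        obtain ⟨j, rfl⟩ := hkodd
        rwa [zpow_add, zpow_mul, zpow_two, he2, one_zpow, one_mul, zpow_one] at hk
      subst het
      have htv : e * (e * b) = b := by rw [← mul_assoc, he2, one_mul]
      rw [htv]
      have hodd : Odd (orderOf (u * b)) := by
        have hdd : ((orderOf (u * b) : ℕ) : ℤ) ∣ k := orderOf_dvd_iff_zpow_eq_one.2 h2
        rcases Nat.even_or_odd (orderOf (u * b)) with ⟨m, hm⟩ | h
        · exfalso
          obtain ⟨j, rfl⟩ := hkodd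
          obtain ⟨c, hc⟩ := hdd
          rw [hm] at hc
          push_cast at hc
          have : (2 : ℤ) ∣ 2 * j + 1 := ⟨(m : ℤ) * c, by rw [hc]; ring⟩
          omega
        · exact h
      refine ⟨⟨huB, (hord hu).trans hz⟩, ⟨hb, orderOf_two_iff.2 ⟨hb2, fun hb1 => ?_⟩⟩, hodd⟩
      rw [hb1, mul_one, (hord hu).trans hz] at hodd
      exact absurd hodd (by decide)
    rw [← card_invol_pairs eB]
    refine Nat.card_congr
      { toFun := fun p => ⟨(⟨p.1.1, (hwit _ _ p.2.1 p.2.2.1 p.2.2.2).1⟩,
            ⟨t * p.1.2, (hwit _ _ p.2.1 p.2.2.1 p.2.2.2).2.1⟩),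
          (hwit _ _ p.2.1 p.2.2.1 p.2.2.2).2.2⟩
        invFun := fun q => ⟨(q.1.1.1, t * q.1.2.1), ?_, ?_, ?_⟩
        left_inv := fun p => Subtype.ext (Prod.ext rfl
          (by show t * (t * p.1.2) = p.1.2; rw [← mul_assoc, ht2, one_mul]))
        right_inv := fun q => Subtype.ext (Prod.ext rfl (Subtype.ext
          (by show t * (t * q.1.2.1) = q.1.2.1; rw [← mul_assoc, ht2, one_mul]))) }
    · exact (hBz _ q.1.1.2.1 q.1.1.2.2).symm
    · obtain ⟨c1, c2⟩ := orderOf_two_iff.1 q.1.2.2.2
      have hbt : Commute t q.1.2.1 := hcomm t htV _ q.1.2.2.1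
      refine (hCt _ ?_ ?_ fun h => htB ?_).symm
      · exact mem_centralizer_singleton_iff.2 ((Commute.refl t).mul_left hbt.symm)
      · refine orderOf_two_iff.2 ⟨?_, fun e => htB ?_⟩
        · rw [hbt.symm.mul_mul_mul_comm, ht2, c1, one_mul]
        · rw [eq_inv_of_mul_eq_one_left e]; exact inv_mem q.1.2.2.1
      · simpa using mul_mem h (inv_mem q.1.2.2.1)
    · have hbt : Commute t (q.1.1.1 * q.1.2.1) := hcomm t htV _ (mul_mem q.1.1.2.1 q.1.2.2.1)
      refine ⟨(orderOf (q.1.1.1 * q.1.2.1) : ℤ), ?_⟩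
      simp only
      rw [show q.1.1.1 * (t * q.1.2.1) = t * (q.1.1.1 * q.1.2.1) by
        rw [← mul_assoc, ← hcomm t htV _ q.1.1.2.1, mul_assoc], hbt.mul_zpow, zpow_natCast,
        zpow_natCast, pow_orderOf_eq_one, mul_one]
      obtain ⟨j, hj⟩ := q.2
      rw [hj, pow_succ, pow_mul, pow_two, ht2, one_pow, one_mul]
  have h := S0213.result z t hz ht hzt fun x hx => (hcl x hx).imp IsConj.symm IsConj.symm
  rw [hcz, hctt, ← hC, hcC, hct] at h
  omega

end Cfsg.Agent.S3313
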