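import Cfsg.Statements.S3315
import Cfsg.Agent.TwoAut.UnitaryAut
import Mathlib

set_option autoImplicit false
set_option linter.style.haveILetI false
open Cfsg

namespace Cfsg.Agent.S3315

open Cfsg.Agent.Classical.U Cfsg.Agent.TwoAut Cfsg.Agent.TwoAut.Uni

theorem fixed_of_involutive {F : Type*} [Field F] [Fintype F] [CharP F 2] {q : ℕ} (hF : SqField F q)
    (τ : F ≃+* F) (hτ : ∀ a, τ (τ a) = a) {k : F} (hk : k ^ q = k) : τ k = k := by
  classical
  by_cases hid : ∀ a, τ a = a
  · exact hid k
  push Not at hid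
  obtain ⟨a, ha⟩ := hid
  let K : Subfield F :=
    { carrier := {x | τ x = x}
      one_mem' := map_one τ
      zero_mem' := map_zero τ
      add_mem' := fun {x y} (hx : τ x = x) (hy : τ y = y) => by
        show τ (x + y) = x + y
        rw [map_add, hx, hy]
      mul_mem' := fun {x y} (hx : τ x = x) (hy : τ y = y) => by
        show τ (x * y) = x * y
        rw [map_mul, hx, hy]
      neg_mem' := fun {x} (hx : τ x = x) => by
        show τ (-x) = -x
        rw [map_neg, hx]
      inv_mem' := fun x (hx : τ x = x) => by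
        show τ x⁻¹ = x⁻¹
        rw [map_inv₀, hx] }
  have hmem : ∀ x, x ∈ K ↔ τ x = x := fun x => Iff.rfl
  have hd : a + τ a ≠ 0 := fun e => ha (CharTwo.add_eq_zero.1 e).symm
  have hsum : ∀ x, x + τ x ∈ K := fun x => by rw [hmem, map_add, hτ, add_comm]
  let f : K × K → F := fun p => (p.1 : F) + (p.2 : F) * a
  have hf : Function.Bijective f := by
    constructor
    · rintro ⟨u, v⟩ ⟨u', v'⟩ e
      simp only [f] at e
      have h2 := congrArg τ e
      rw [map_add, map_add, map_mul, map_mul, (hmem _).1 u.2, (hmem _).1 v.2, (hmem _).1 u'.2,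
        (hmem _).1 v'.2] at h2
      have h3 : ((v : F) - v') * (a - τ a) = 0 := by linear_combination e - h2
      have hv : (v : F) = v' := sub_eq_zero.1 ((mul_eq_zero.1 h3).resolve_right
        (sub_ne_zero.2 (Ne.symm ha)))
      rw [hv] at e
      exact Prod.ext (Subtype.ext (add_right_cancel e)) (Subtype.ext hv)
    · intro x
      refine ⟨(⟨x + (x + τ x) / (a + τ a) * a, ?_⟩, ⟨(x + τ x) / (a + τ a),
        div_mem (hsum x) (hsum a)⟩), ?_⟩
      · rw [hmem, map_add, map_mul, (hmem _).1 (div_mem (hsum x) (hsum a))]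
        have h1 : (x + τ x) / (a + τ a) * (a + τ a) = x + τ x := div_mul_cancel₀ _ hd
        linear_combination (norm := (ring_nf; simp [numerals])) h1
      · simp only [f]
        rw [add_assoc, CharTwo.add_self_eq_zero, add_zero]
  have hcard : Nat.card K = q := by
    have h1 := Nat.card_eq_of_bijective f hf
    rw [Nat.card_prod, hF.2, ← pow_two] at h1
    exact (Nat.pow_left_injective two_ne_zero) h1
  haveI := Fintype.ofFinite K
  have hsub : (K : Set F) ⊆ ((tr (F := F) hF).ker : Set F) := fun x hx => by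
    have h1 := FiniteField.pow_card (⟨x, hx⟩ : K)
    rw [← Nat.card_eq_fintype_card, hcard] at h1
    exact (mem_ker_tr hF).2 (congrArg Subtype.val h1)
  have heq : (K : Set F) = ((tr (F := F) hF).ker : Set F) :=
    Set.eq_of_subset_of_ncard_le hsub (by
      rw [← Nat.card_coe_set_eq, ← Nat.card_coe_set_eq]
      exact (card_ker_tr (F := F) hF).1.trans_le hcard.ge)
  have : k ∈ (K : Set F) := heq ▸ (mem_ker_tr hF).2 hk
  exact this

theorem fixes_center {F : Type*} [Field F] [Fintype F] [CharP F 2] {q : ℕ} (hF : SqField F q)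
    {S : Type*} [Group S] (c : Coords S F q) (φ : MulAut S) (s : S)
    (hφ : ∀ x, φ (φ x) = s * x * s⁻¹) {z : S} (hz : z ∈ Subgroup.center S) : φ z = z := by
  obtain ⟨t, τ, hT⟩ := theta_semilinear c hF φ
  have hA : ∀ x, A c (φ x) = t * τ (A c x) := fun x => by rw [A_map' c hF, hT]
  have h2 : ∀ a, (t : F) * τ (t * τ a) = a := fun a => by
    obtain ⟨x, rfl⟩ := exists_lift c hF a
    rw [← hA, ← hA, hφ, A_mul, A_mul, A_inv, add_comm (A c s), add_assoc, CharTwo.add_self_eq_zero,
      add_zero]
  have h1 : (t : F) * τ t = 1 := by simpa using h2 1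
  have hτ : ∀ a, τ (τ a) = a := fun a => by
    have := h2 a
    rwa [map_mul, ← mul_assoc, h1, one_mul] at this
  have hN : (t : F) ^ q * t = 1 := by
    have e : τ ((t : F) ^ q * t) = (t : F) ^ q * t :=
      fixed_of_involutive hF τ hτ (by rw [mul_pow, hF.pow_pow, mul_comm])
    have h3 : ((t : F) ^ q * t) * ((t : F) ^ q * t) = 1 := by
      nth_rw 2 [← e]
      calc (t : F) ^ q * t * τ ((t : F) ^ q * t) = ((t : F) * τ t) ^ q * (t * τ t) := by
            rw [map_mul, map_pow]; ring
        _ = 1 := by rw [h1, one_pow, one_mul]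
    have h4 : ((t : F) ^ q * t + 1) ^ 2 = 0 := by
      rw [CharTwo.add_sq, pow_two ((t : F) ^ q * t), h3, one_pow, CharTwo.add_self_eq_zero]
    exact CharTwo.add_eq_zero.1 (pow_eq_zero_iff two_ne_zero |>.1 h4)
  rw [mem_center_iff c hF] at hz
  have hfix : B c z ^ q = B c z := by
    have := rel c z
    rw [hz, zero_mul, CharTwo.add_eq_zero] at this
    exact this.symm
  obtain ⟨r, hr, hr'⟩ := exists_norm_eq hF hfix
  obtain ⟨x, hx⟩ := exists_lift c hF r
  have hzx : z = x * x := coords_ext c
    (by rw [A_mul, CharTwo.add_self_eq_zero, hz])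
    (by rw [B_mul, CharTwo.add_self_eq_zero, zero_add, hx, hr, hr'])
  refine coords_ext c (by rw [hA, hz, map_zero, mul_zero]) ?_
  rw [hzx, map_mul, B_mul, B_mul, CharTwo.add_self_eq_zero, CharTwo.add_self_eq_zero, zero_add,
    zero_add, hA, hx]
  have hτr : τ (r ^ q * r) = r ^ q * r :=
    fixed_of_involutive hF τ hτ (by rw [mul_pow, hF.pow_pow, mul_comm])
  rw [map_mul, map_pow] at hτr
  calc ((t : F) * τ r) ^ q * (t * τ r) = ((t : F) ^ q * t) * (τ r ^ q * τ r) := by ring
    _ = r ^ q * r := by rw [hN, hτr, one_mul]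

/-- Let S be a Sylow 2-subgroup of SU₃(2ⁿ), n ≥ 2 (realised over the field with 4ⁿ elements). If a finite 2-group R contains a subgroup S' of index 2 isomorphic to S, then the centre of S' is contained in the centre of R. -/
theorem result {R : Type*} [Group R] [Finite R]
    (hR : IsPGroup 2 R) (n : ℕ) (hn : 2 ≤ n) {F : Type*} [Field F] [Fintype F] (hF : Fintype.card F = 4 ^ n)
    (P : Sylow 2 ↥(Cfsg.SU 3 F (2 ^ n))) (S' : Subgroup R) (hS : Nonempty (↥S' ≃* ↥(P : Subgroup ↥(Cfsg.SU 3 F (2 ^ n)))))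
    (hidx : S'.index = 2) :
    (Subgroup.center ↥S').map S'.subtype ≤ Subgroup.center R := by
  have hF' : Fintype.card F = (2 ^ n) ^ 2 := by
    rw [hF, ← pow_mul, mul_comm, pow_mul]; norm_num
  haveI := Uni.charP_two (show n ≠ 0 by omega) hF'
  have hq := sqField_of_fintype hF'
  obtain ⟨c0⟩ := Uni.coords_of_sylow_SU (show n ≠ 0 by omega) hF' P
  obtain ⟨e⟩ := hS
  have c := c0.congr e
  haveI : S'.Normal := Subgroup.normal_of_index_eq_two hidx
  rintro _ ⟨z, hz, rfl⟩
  rw [Subgroup.mem_center_iff]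
  intro r
  have hs : r * r ∈ S' := Subgroup.mul_self_mem_of_index_two hidx r
  have h1 := fixes_center hq c (MulAut.conjNormal r) ⟨r * r, hs⟩ (fun x => Subtype.ext (by
    simp [MulAut.conjNormal_apply, mul_assoc])) hz
  have h2 : r * (z : R) * r⁻¹ = z := by
    have := congrArg Subtype.val h1
    simpa [MulAut.conjNormal_apply] using this
  exact mul_inv_eq_iff_eq_mul.1 h2

end Cfsg.Agent.S3315
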