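import Cfsg.Statements.S3335
import Cfsg.Agent.Recog.Carmichael

set_option autoImplicit false
open Cfsg

namespace Cfsg.Agent.S3335

/-- A presentation of the alternating group of degree n ≥ 3 on generators x_1, …, x_{n−2} (indexed here by 0, …, n−3): the first generator cubes to 1, every other generator squares to 1, the product of two consecutive generators has order dividing 3, and the product of two generators at distance at least 2 has order dividing 2. The group so presented is isomorphic to the alternating group of degree n. -/
theorem result (n : ℕ) (hn : 3 ≤ n) :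
    Nonempty (PresentedGroup
      ({g : FreeGroup (Fin (n - 2)) | ∃ i : Fin (n - 2), i.val = 0 ∧ g = FreeGroup.of i ^ 3} ∪
       {g | ∃ i : Fin (n - 2), 1 ≤ i.val ∧ g = FreeGroup.of i ^ 2} ∪
       {g | ∃ i j : Fin (n - 2), j.val = i.val + 1 ∧ g = (FreeGroup.of i * FreeGroup.of j) ^ 3} ∪
       {g | ∃ i j : Fin (n - 2), i.val + 1 < j.val ∧ g = (FreeGroup.of i * FreeGroup.of j) ^ 2})
      ≃* alternatingGroup (Fin n)) := by
  obtain ⟨m, rfl⟩ : ∃ m, n = m + 2 := ⟨n - 2, by omega⟩
  exact Recog.Carmichael.presented_equiv m (by omega)

end Cfsg.Agent.S3335
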