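import Cfsg.Statements.S3347
import Cfsg.Agent.InertTwo.Reduction
-- import your own Cfsg.Agent.* helpers here

set_option autoImplicit false
open Cfsg

namespace Cfsg.Agent.S3347

/-- Let G be a finite group, p an odd prime, and P an abelian, non-cyclic Sylow p-subgroup of G with [N_G(P) : C_G(P)] = 2. Then either O^p(G) is a proper subgroup of G, or G has p-length 1 (G = O_{p',p,p'}(G)). -/
theorem result {G : Type*} [Group G] [Finite G]
    (p : ℕ) [Fact p.Prime] (hp : p ≠ 2) (P : Sylow p G) (hab : IsMulCommutative (P : Subgroup G)) (hnc : ¬ IsCyclic (P : Subgroup G))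
    (hidx : ((Subgroup.centralizer ((P : Subgroup G) : Set G)).subgroupOf (Subgroup.normalizer ((P : Subgroup G) : Set G))).index = 2) :
    Cfsg.pResidual p G ≠ ⊤ ∨ Cfsg.PLengthLE p 1 G := by
  set Q := (P : Subgroup G) with hQ
  set C := Subgroup.centralizer (Q : Set G) with hC
  set M := Subgroup.normalizer (Q : Set G) with hM
  obtain ⟨t₀, ht₀⟩ : ∃ t : M, t ∉ C.subgroupOf M := by
    by_contra h
    push Not at h
    rw [(Subgroup.eq_top_iff' _).2 h, Subgroup.index_top] at hidx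
    omega
  set t : G := (t₀ : G) with ht
  have htC : t ∉ C := fun h => ht₀ (Subgroup.mem_subgroupOf.2 h)
  have hCfix : ∀ c ∈ C, ∀ x ∈ Q, c * x * c⁻¹ = x := fun c hc x hx => by
    rw [← Subgroup.mem_centralizer_iff.1 hc x hx, mul_inv_cancel_right]
  have hcases : ∀ n ∈ M, n ∈ C ∨ n * t⁻¹ ∈ C := by
    intro n hn
    by_cases hnC : n ∈ C
    · exact Or.inl hnC
    · right
      have := (Subgroup.mul_mem_iff_of_index_two hidx (a := (⟨n, hn⟩ : M)) (b := t₀⁻¹)).2
        (iff_of_false (fun h => hnC (Subgroup.mem_subgroupOf.1 h))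
          (fun h => ht₀ (inv_mem_iff.1 h)))
      simpa [Subgroup.mem_subgroupOf] using this
  by_cases hfix : ∃ x ∈ Q, x ≠ 1 ∧ t * x * t⁻¹ = x
  · left
    obtain ⟨x, hx, hx1, htx⟩ := hfix
    refine InertTwo.pResidual_ne_top_of_fixed P hab hx hx1 fun n hn => ?_
    rcases hcases n hn with h | h
    · exact hCfix n h x hx
    · calc n * x * n⁻¹ = (n * t⁻¹) * (t * x * t⁻¹) * (n * t⁻¹)⁻¹ := by group
        _ = x := by rw [htx, hCfix _ h x hx]
  · right
    push Not at hfix
    have htQ : ∀ x ∈ Q, t * x * t⁻¹ ∈ Q := fun x hx =>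
      (Subgroup.mem_normalizer_iff.1 t₀.2 x).1 hx
    have htt : t * t ∈ C := by
      have := (Subgroup.mul_mem_iff_of_index_two hidx (a := t₀) (b := t₀)).2 Iff.rfl
      simpa [Subgroup.mem_subgroupOf] using this
    have hinv : ∀ x ∈ Q, t * x * t⁻¹ = x⁻¹ := by
      intro x hx
      have hy : x * (t * x * t⁻¹) ∈ Q := mul_mem hx (htQ x hx)
      have hcm : ∀ a ∈ Q, ∀ b ∈ Q, a * b = b * a := fun a ha b hb =>
        congrArg Subtype.val (hab.is_comm.comm (⟨a, ha⟩ : Q) ⟨b, hb⟩)
      have hty : t * (x * (t * x * t⁻¹)) * t⁻¹ = x * (t * x * t⁻¹) := by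
        rw [show t * (x * (t * x * t⁻¹)) * t⁻¹ = (t * x * t⁻¹) * ((t * t) * x * (t * t)⁻¹) by group,
          hCfix _ htt x hx, hcm _ (htQ x hx) x hx]
      by_contra hne
      refine hfix _ hy (fun h => hne ?_) hty
      exact eq_inv_of_mul_eq_one_right h
    refine InertTwo.pLengthLE_of_inverting hp P hab hnc (fun n hn => ?_) t hinv
    rcases hcases n hn with h | h
    · exact Or.inl (hCfix n h)
    · right
      intro x hx
      calc n * x * n⁻¹ = (n * t⁻¹) * (t * x * t⁻¹) * (n * t⁻¹)⁻¹ := by group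
        _ = x⁻¹ := by rw [hinv x hx, hCfix _ h _ (inv_mem hx)]


end Cfsg.Agent.S3347
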