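import Cfsg.Statements.S3349
-- import your own Cfsg.Agent.* helpers here

set_option autoImplicit false
open Cfsg

namespace Cfsg.Agent.S3349

/-- Let Q be a finite extraspecial p-group and α an automorphism of Q fixing every element of some maximal abelian subgroup of Q. Then the order of α is a power of p. -/
theorem result {Q : Type*} [Group Q] [Finite Q]
    (p : ℕ) [Fact p.Prime] (hQ : Cfsg.IsExtraspecial p Q) (α : MulAut Q)
    (A : Subgroup Q) (hA : IsMulCommutative A) (hmax : ∀ B : Subgroup Q, A ≤ B → IsMulCommutative B → B = A)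
    (hfix : ∀ a ∈ A, α a = a) :
    ∃ k : ℕ, orderOf α = p ^ k := by
  obtain ⟨⟨hpG, -, hcomm⟩, -⟩ := hQ
  have hself : ∀ g : Q, (∀ a ∈ A, g * a = a * g) → g ∈ A := by
    intro g hg
    have hB : IsMulCommutative (Subgroup.closure ((A : Set Q) ∪ {g})) := by
      refine Subgroup.isMulCommutative_closure ?_
      rintro u (hu | hu) v (hv | hv)
      · exact congrArg Subtype.val (hA.is_comm.comm (⟨u, hu⟩ : A) ⟨v, hv⟩)
      · rw [Set.mem_singleton_iff] at hv; subst v; exact (hg u hu).symm
      · rw [Set.mem_singleton_iff] at hu; subst u; exact hg v hv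
      · rw [Set.mem_singleton_iff] at hu hv; subst u; subst v; rfl
    have he := hmax _ (fun a ha => Subgroup.subset_closure (Or.inl ha)) hB
    exact he ▸ Subgroup.subset_closure (Or.inr rfl)
  have hconj : ∀ x : Q, ∀ a ∈ A, x * a * x⁻¹ ∈ A := by
    intro x a ha
    have h1 : x * a * x⁻¹ * a⁻¹ ∈ Subgroup.center Q := by
      rw [← hcomm]
      exact Subgroup.commutator_mem_commutator (Subgroup.mem_top x) (Subgroup.mem_top a)
    have h2 := hself _ fun b _ => (Subgroup.mem_center_iff.mp h1 b).symm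
    simpa using A.mul_mem h2 ha
  have hc : ∀ x : Q, x⁻¹ * α x ∈ A := by
    intro x
    refine hself _ fun a ha => ?_
    have h := hfix _ (hconj x a ha)
    simp only [map_mul, map_inv, hfix a ha] at h
    calc x⁻¹ * α x * a = x⁻¹ * (α x * a * (α x)⁻¹) * α x := by group
      _ = x⁻¹ * (x * a * x⁻¹) * α x := by rw [h]
      _ = a * (x⁻¹ * α x) := by group
  have hpow : ∀ k : ℕ, ∀ x : Q, (α ^ k) x = x * (x⁻¹ * α x) ^ k := by
    intro k
    induction k with
    | zero => intro x; simp
    | succ k ih =>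
      intro x
      rw [pow_succ', MulAut.mul_apply, ih, map_mul, map_pow, hfix _ (hc x), pow_succ']
      simp [mul_assoc]
  obtain ⟨n, hn⟩ := IsPGroup.iff_card.mp hpG
  have h1 : α ^ p ^ n = 1 := by
    ext x
    rw [hpow, ← hn, pow_card_eq_one', mul_one, MulAut.one_apply]
  obtain ⟨k, -, hk⟩ := (Nat.dvd_prime_pow Fact.out).mp (orderOf_dvd_of_pow_eq_one h1)
  exact ⟨k, hk⟩

end Cfsg.Agent.S3349
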