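import Cfsg.Statements.S3365
import Cfsg.Agent.Fix4.Small
import Cfsg.Agent.Fix4.ThreePart
import Cfsg.Agent.Fix4.Four
import Cfsg.Agent.S0144
-- import your own Cfsg.Agent.* helpers here

set_option autoImplicit false
open Cfsg

namespace Cfsg.Agent.S3365

/-- Finite simple groups acting with fixity 4. Let G be a finite non-abelian simple group acting faithfully and transitively on a finite set so that every non-identity element fixes at most 4 points and some non-identity element fixes exactly 4 (fixity 4). Let P be a Sylow 3-subgroup, S a Sylow 2-subgroup, f the largest number of fixed points of an involution of G, and a a point. Then one of the following holds: (1) f ≥ 1 and G has a strongly embedded subgroup; (2) 1 ≤ f ≤ 3 and S is dihedral or semidihedral; (3) f = 4 and G has sectional 2-rank at most 4; (4) the point stabilizer G_a has odd order divisible by 3 and either G has a strongly 3-embedded subgroup (a proper subgroup H of order divisible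 by 3 such that H ∩ gHg⁻¹ has order prime to 3 for every element g outside H), or |P| = 3 and a Sylow 2-subgroup of N_G(P) has order at most 4, or P is elementary abelian of order 9, or P is extraspecial of order 27 and exponent 3, or P is isomorphic to a Sylow 3-subgroup of Sym(9) (the wreath product C₃ ≀ C₃); (5) G_a has order prime to 6. -/
theorem result {G Ω : Type*} [Group G] [Finite G] [IsSimpleGroup G] (hna : ¬ IsMulCommutative G)
    [MulAction G Ω] [FaithfulSMul G Ω] [Finite Ω] (htrans : MulAction.IsPretransitive G Ω)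
    (hfix : ∀ g : G, g ≠ 1 → Nat.card (MulAction.fixedBy Ω g) ≤ 4)
    (hfix4 : ∃ g : G, g ≠ 1 ∧ Nat.card (MulAction.fixedBy Ω g) = 4)
    (P : Sylow 3 G) (S : Sylow 2 G) (f : ℕ)
    (hf : ∀ g : G, orderOf g = 2 → Nat.card (MulAction.fixedBy Ω g) ≤ f)
    (hf' : ∃ g : G, orderOf g = 2 ∧ Nat.card (MulAction.fixedBy Ω g) = f) (a : Ω) :
    (1 ≤ f ∧ ∃ H : Subgroup G, Cfsg.IsStronglyEmbedded H) ∨
    (1 ≤ f ∧ f ≤ 3 ∧ ((∃ n : ℕ, Nonempty ((S : Subgroup G) ≃* DihedralGroup n)) ∨ Cfsg.IsQuasiDihedral (S : Subgroup G))) ∨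
    (f = 4 ∧ Cfsg.SectionalPRankLE 2 4 G) ∨
    (Odd (Nat.card (MulAction.stabilizer G a)) ∧ 3 ∣ Nat.card (MulAction.stabilizer G a) ∧
      ((∃ H : Subgroup G, H ≠ ⊤ ∧ 3 ∣ Nat.card H ∧ ∀ g : G, g ∉ H → ¬ 3 ∣ Nat.card ↥(H ⊓ H.map (MulAut.conj g).toMonoidHom)) ∨
       (Nat.card P = 3 ∧ ∀ T : Sylow 2 (Subgroup.normalizer ((P : Subgroup G) : Set G)), Nat.card T ≤ 4) ∨
       (Nat.card P = 9 ∧ ∀ x ∈ (P : Subgroup G), x ^ 3 = 1) ∨
       (Nat.card P = 27 ∧ Cfsg.IsExtraspecial 3 (P : Subgroup G) ∧ ∀ x ∈ (P : Subgroup G), x ^ 3 = 1) ∨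
       (∃ T : Sylow 3 (Equiv.Perm (Fin 9)), Nonempty ((P : Subgroup G) ≃* (T : Subgroup (Equiv.Perm (Fin 9))))))) ∨
    (Nat.card (MulAction.stabilizer G a)).Coprime 6 := by
  classical
  obtain ⟨g₄, hg₄, hg₄c⟩ := hfix4
  have hfx : Fix4.FixAtMostFour G Ω := hfix
  have hn4 : 4 ≤ Nat.card Ω := hg₄c ▸ Nat.card_le_card_of_injective _ Subtype.val_injective
  have hn : 4 < Nat.card Ω := by
    by_contra hle
    have heq : Nat.card Ω = 4 := by omega
    apply hna
    have hd := Subgroup.card_dvd_of_injective (MulAction.toPermHom G Ω) MulAction.toPerm_injective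
    rw [Nat.card_perm, heq, show Nat.factorial 4 = 2 ^ 3 * 3 ^ 1 by rfl] at hd
    obtain ⟨d1, d2, h1, h2, he⟩ := Nat.dvd_mul.1 hd
    obtain ⟨i, -, rfl⟩ := (Nat.dvd_prime_pow Nat.prime_two).1 h1
    obtain ⟨j, -, rfl⟩ := (Nat.dvd_prime_pow Nat.prime_three).1 h2
    have hs := S0144.result (G := G) 2 3 i j Nat.prime_two Nat.prime_three he.symm
    exact ⟨⟨IsSimpleGroup.comm_iff_isSolvable.2 hs⟩⟩
  obtain ⟨g₀, hg₀, hg₀c⟩ := hf'
  have hg₀1 : g₀ ≠ 1 := fun e => by simp [e] at hg₀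
  have hf4 : f ≤ 4 := hg₀c ▸ hfix g₀ hg₀1
  by_cases hf0 : f = 0
  · subst hf0
    right; right; right
    have hodd : Odd (Nat.card (MulAction.stabilizer G a)) := by
      rw [← Nat.not_even_iff_odd, even_iff_two_dvd]
      intro h2
      have : Fact (Nat.Prime 2) := ⟨Nat.prime_two⟩
      obtain ⟨x, hx⟩ := exists_prime_orderOf_dvd_card' 2 h2
      have h0 := hf (x : G) (by rw [Subgroup.orderOf_coe]; exact hx)
      have : Nonempty (MulAction.fixedBy Ω (x : G)) := ⟨⟨a, x.2⟩⟩
      have := Nat.card_pos (α := MulAction.fixedBy Ω (x : G))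
      omega
    by_cases h3 : 3 ∣ Nat.card (MulAction.stabilizer G a)
    · refine Or.inl ⟨hodd, h3, ?_⟩
      rcases Fix4.three_part hna htrans hfx a hodd h3 hn P with h | h
      · exact Or.inl h
      · exact Or.inr (Or.inr (Or.inr (Or.inr h)))
    · refine Or.inr ?_
      have h2 : (Nat.card (MulAction.stabilizer G a)).Coprime 2 := Nat.coprime_two_right.2 hodd
      have h3' : (Nat.card (MulAction.stabilizer G a)).Coprime 3 :=
        ((Nat.prime_three.coprime_iff_not_dvd).2 h3).symm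
      exact (Nat.Coprime.mul_right h2 h3' : _)
  have hf1 : 1 ≤ f := Nat.one_le_iff_ne_zero.2 hf0
  by_cases hf3 : f ≤ 3
  · rcases Fix4.fixity_small hna htrans hfx hn S f hf1 hf3 hf ⟨g₀, hg₀, hg₀c⟩ with h | h
    · exact Or.inl ⟨hf1, h⟩
    · exact Or.inr (Or.inl ⟨hf1, hf3, h⟩)
  have hfe : f = 4 := by omega
  rcases Fix4.fixity_four hna htrans hfx hn S ⟨g₀, hg₀, hg₀c.trans hfe⟩ with h | h
  · exact Or.inl ⟨hf1, h⟩
  · exact Or.inr (Or.inr (Or.inl ⟨hfe, h⟩))

end Cfsg.Agent.S3365
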