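import Cfsg.Statements.S3366
import Cfsg.Agent.Recog.HeisenbergSLTwo
import Cfsg.Agent.Recog.PointStabSpFour
import Cfsg.Agent.Linear.Symplectic
import Cfsg.Agent.SympSub.Count
import Cfsg.Agent.Cores.Basic

set_option autoImplicit false
open Cfsg

namespace Cfsg.Agent.S3366

open Matrix Cfsg.Agent.Recog

theorem neg_three : (-1 + -1 + -1 : ZMod 3) = 0 := by decide

theorem two_ne_zero_three : ¬ (2 : ZMod 3) = 0 := by decide

theorem card_sl_two_three : Nat.card (Matrix.SpecialLinearGroup (Fin 2) (ZMod 3)) = 24 := by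
  rw [Nat.card_eq_fintype_card]; decide

section Image

variable {F : Type*} [Field F] (σ : ZMod 3 ≃+* F)

theorem det_map_eq_one (A : Matrix.SpecialLinearGroup (Fin 2) (ZMod 3)) :
    ((A : Matrix (Fin 2) (Fin 2) (ZMod 3)).map σ).det = 1 := by
  rw [show ((A : Matrix (Fin 2) (Fin 2) (ZMod 3)).map σ).det
      = σ.toRingHom ((A : Matrix (Fin 2) (Fin 2) (ZMod 3)).det) from
    (RingHom.map_det σ.toRingHom _).symm, A.2, map_one]

/-- The symplectic matrix of a triple of coordinates. -/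
noncomputable def img (p : (Fin 2 → ZMod 3) × ZMod 3 × Matrix.SpecialLinearGroup (Fin 2) (ZMod 3)) :
    Matrix.symplecticGroup (Fin 2) F :=
  ⟨SpFour.mat (fun i => σ (p.1 i)) (-σ p.2.1) ((p.2.2 : Matrix (Fin 2) (Fin 2) (ZMod 3)).map σ),
    SpFour.mat_mem _ _ (det_map_eq_one σ p.2.2)⟩

theorem coe_img (v : Fin 2 → ZMod 3) (k : ZMod 3)
    (A : Matrix.SpecialLinearGroup (Fin 2) (ZMod 3)) :
    (img σ (v, k, A) : Matrix (Fin 2 ⊕ Fin 2) (Fin 2 ⊕ Fin 2) F) =
      SpFour.mat (fun i => σ (v i)) (-σ k) ((A : Matrix (Fin 2) (Fin 2) (ZMod 3)).map σ) := rfl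

theorem img_mul (v w : Fin 2 → ZMod 3) (k l : ZMod 3)
    (A B : Matrix.SpecialLinearGroup (Fin 2) (ZMod 3)) :
    img σ (v + (A : Matrix (Fin 2) (Fin 2) (ZMod 3)) *ᵥ w,
      k + l - (v 0 * ((A : Matrix (Fin 2) (Fin 2) (ZMod 3)) *ᵥ w) 1 -
        v 1 * ((A : Matrix (Fin 2) (Fin 2) (ZMod 3)) *ᵥ w) 0), A * B) =
      img σ (v, k, A) * img σ (w, l, B) := by
  apply Subtype.ext
  rw [Submonoid.coe_mul, coe_img, coe_img, coe_img, SpFour.mat_mul _ _ _ _ (det_map_eq_one σ A)]
  have hmv : ∀ i, σ (((A : Matrix (Fin 2) (Fin 2) (ZMod 3)) *ᵥ w) i) =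
      (((A : Matrix (Fin 2) (Fin 2) (ZMod 3)).map σ) *ᵥ fun j => σ (w j)) i := fun i =>
    RingHom.map_mulVec σ.toRingHom _ _ i
  congr 1
  · funext i
    simp only [Pi.add_apply, map_add, hmv]
  · simp only [map_add, map_sub, map_mul, hmv]
    ring
  · rw [Matrix.SpecialLinearGroup.coe_mul]
    exact Matrix.map_mul (f := σ.toRingHom)

theorem img_inj {p q : (Fin 2 → ZMod 3) × ZMod 3 × Matrix.SpecialLinearGroup (Fin 2) (ZMod 3)}
    (h : img σ p = img σ q) : p = q := by
  obtain ⟨v, k, A⟩ := p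
  obtain ⟨w, l, B⟩ := q
  have h2 := congrArg Subtype.val h
  rw [coe_img, coe_img] at h2
  obtain ⟨e1, e2, e3⟩ := SpFour.mat_inj h2
  refine Prod.ext (funext fun i => σ.injective (congrFun e1 i)) (Prod.ext ?_ ?_)
  · exact σ.injective (neg_injective e2)
  · exact Subtype.ext (Matrix.map_injective σ.injective e3)

theorem img_entry (p : (Fin 2 → ZMod 3) × ZMod 3 × Matrix.SpecialLinearGroup (Fin 2) (ZMod 3)) :
    (img σ p : Matrix (Fin 2 ⊕ Fin 2) (Fin 2 ⊕ Fin 2) F) (Sum.inl 0) (Sum.inl 0) = 1 := by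
  obtain ⟨v, k, A⟩ := p
  rw [coe_img]
  simp [SpFour.mat]

end Image

/-- Let X be a finite group with O₃(X) extraspecial of order 27 and exponent 3, X/O₃(X) isomorphic to SL(2,3), O₂(X) = 1, and a Sylow 3-subgroup of X containing an elementary abelian subgroup of order 27. Then X is isomorphic to the centralizer in PSp(4,3) of a 3-central element of order 3 (an element of order 3 in the centre of a Sylow 3-subgroup). -/
theorem result {X : Type*} [Group X] [Finite X]
    (hR : Cfsg.IsExtraspecial 3 (Cfsg.pCore 3 X)) (hRcard : Nat.card (Cfsg.pCore 3 X) = 27)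
    (hRexp : ∀ r ∈ Cfsg.pCore 3 X, r ^ 3 = 1)
    (e : X ⧸ Cfsg.pCore 3 X ≃* Matrix.SpecialLinearGroup (Fin 2) (ZMod 3))
    (hO2 : Cfsg.pCore 2 X = ⊥)
    (hE : ∃ E : Subgroup X, IsMulCommutative E ∧ (∀ a ∈ E, a ^ 3 = 1) ∧ Nat.card E = 27)
    (F : Type*) [Field F] [Fintype F] (hF : Fintype.card F = 3) :
    ∃ (c : Cfsg.PSp 2 F) (S : Sylow 3 (Cfsg.PSp 2 F)), orderOf c = 3 ∧ c ∈ (S : Subgroup (Cfsg.PSp 2 F)) ∧
      c ∈ Subgroup.centralizer ((S : Subgroup (Cfsg.PSp 2 F)) : Set (Cfsg.PSp 2 F)) ∧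
      Nonempty (X ≃* Subgroup.centralizer ({c} : Set (Cfsg.PSp 2 F))) := by
  classical
  have : Fact (Nat.Prime 3) := ⟨Nat.prime_three⟩
  obtain ⟨E, hEc, hEexp, hEcard⟩ := hE
  obtain ⟨C⟩ := Heis.exists_coords (R := Cfsg.pCore 3 X) hR hRcard hRexp
    (fun N hN h => Cores.le_pCore hN h) e
    (fun t ht htc => by
      have hn : (Subgroup.zpowers t).Normal := ⟨fun y hy g => by
        obtain ⟨k, rfl⟩ := Subgroup.mem_zpowers_iff.mp hy
        rw [(Commute.zpow_right (show Commute g t from htc g) k).eq, mul_inv_cancel_right]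
        exact hy⟩
      have hp : IsPGroup 2 (Subgroup.zpowers t) := by
        have hd : orderOf t ∣ 2 ^ 1 := by rw [pow_one]; exact orderOf_dvd_of_pow_eq_one ht
        obtain ⟨k, -, hk⟩ := (Nat.dvd_prime_pow Nat.prime_two).mp hd
        exact IsPGroup.of_card (n := k) (by rw [Nat.card_zpowers, hk])
      have h1 := Cores.le_pCore hn hp (Subgroup.mem_zpowers t)
      rwa [hO2, Subgroup.mem_bot] at h1)
    (fun a ha b hb => congrArg Subtype.val (hEc.is_comm.comm ⟨a, ha⟩ ⟨b, hb⟩)) hEexp hEcard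
  let σ : ZMod 3 ≃+* F := ZMod.ringEquivOfPrime F Nat.prime_three hF
  let coord := Equiv.ofBijective _ C.bij
  let Φ : X →* Matrix.symplecticGroup (Fin 2) F := MonoidHom.mk' (fun x => img σ (coord.symm x))
    fun x y => by
      obtain ⟨⟨v, k, A⟩, rfl⟩ := coord.surjective x
      obtain ⟨⟨w, l, B⟩, rfl⟩ := coord.surjective y
      rw [show coord (v, k, A) * coord (w, l, B) =
        coord (v + (A : Matrix (Fin 2) (Fin 2) (ZMod 3)) *ᵥ w,
          k + l - (v 0 * ((A : Matrix (Fin 2) (Fin 2) (ZMod 3)) *ᵥ w) 1 -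
            v 1 * ((A : Matrix (Fin 2) (Fin 2) (ZMod 3)) *ᵥ w) 0), A * B) from C.mul v w k l A B,
        coord.symm_apply_apply, coord.symm_apply_apply, coord.symm_apply_apply]
      exact img_mul σ v w k l A B
  have hΦdef : ∀ x, Φ x = img σ (coord.symm x) := fun x => rfl
  have hΦc : ∀ v k A, Φ (C.toX v k A) = img σ (v, k, A) := fun v k A => by
    rw [hΦdef, show C.toX v k A = coord (v, k, A) from rfl, coord.symm_apply_apply]
  let ψ : X →* Cfsg.PSp 2 F := (QuotientGroup.mk' _).comp Φ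
  have hψi : Function.Injective ψ := by
    rw [injective_iff_map_eq_one]
    intro x hx
    have hc : Φ x ∈ Subgroup.center (Matrix.symplecticGroup (Fin 2) F) :=
      (QuotientGroup.eq_one_iff _).mp hx
    obtain ⟨a, -, ha⟩ := Linear.Symp.center_scalar hc
    have h1 := congrFun (ha (Pi.single (Sum.inl 0) 1)) (Sum.inl 0)
    simp [Linear.Symp.app, Matrix.mulVec_single_one, Matrix.col] at h1
    rw [hΦdef, img_entry] at h1
    have hΦ1 : Φ x = 1 := Linear.Symp.sp_ext fun v => by
      rw [ha, ← h1, one_smul, Linear.Symp.app_one]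
    apply coord.symm.injective
    exact img_inj σ (by rw [← hΦdef, ← hΦdef, hΦ1, map_one])
  set c0 := C.toX 0 (-1) 1 with hc0
  have hc0c : ∀ x, c0 * x = x * c0 := by
    intro x
    obtain ⟨⟨v, k, A⟩, rfl⟩ := coord.surjective x
    change C.toX 0 (-1) 1 * C.toX v k A = C.toX v k A * C.toX 0 (-1) 1
    rw [C.mul, C.mul]
    simp [add_comm]
  have hT : ((Φ c0 : Matrix.symplecticGroup (Fin 2) F) :
      Matrix (Fin 2 ⊕ Fin 2) (Fin 2 ⊕ Fin 2) F) = SpFour.transv F := by
    rw [hc0, hΦc, ← SpFour.mat_eq_transv]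
    rw [coe_img]
    simp only [map_neg, map_one, neg_neg, Matrix.SpecialLinearGroup.coe_one]
    congr 1
    · funext i; simp
    · rw [Matrix.map_one] <;> simp
  have hc03 : c0 ^ 3 = 1 := by
    have h0 : C.toX 0 0 1 = 1 := by
      have h := C.mul 0 0 0 0 1 1
      simp at h
      exact h
    rw [hc0, pow_succ, pow_two, C.mul, C.mul]
    simp
    rw [neg_three, h0]
  have hc01 : c0 ≠ 1 := by
    intro h
    have h1 := congrArg (fun x => ((Φ x : Matrix.symplecticGroup (Fin 2) F) :
      Matrix (Fin 2 ⊕ Fin 2) (Fin 2 ⊕ Fin 2) F) (Sum.inl 0) (Sum.inr 0)) h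
    simp [hT, SpFour.transv] at h1
  have hord : orderOf (ψ c0) = 3 := by
    rw [orderOf_injective ψ hψi]
    exact orderOf_eq_prime hc03 hc01
  have hrange : ψ.range = Subgroup.centralizer ({ψ c0} : Set (Cfsg.PSp 2 F)) := by
    apply le_antisymm
    · rintro _ ⟨x, rfl⟩
      rw [Subgroup.mem_centralizer_singleton_iff, ← map_mul, ← map_mul, hc0c]
    · intro g hg
      obtain ⟨G, rfl⟩ := QuotientGroup.mk'_surjective _ g
      rw [Subgroup.mem_centralizer_singleton_iff] at hg
      change QuotientGroup.mk' _ G * QuotientGroup.mk' _ (Φ c0)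
        = QuotientGroup.mk' _ (Φ c0) * QuotientGroup.mk' _ G at hg
      rw [← map_mul, ← map_mul] at hg
      have hz := (QuotientGroup.eq (s := Subgroup.center (Matrix.symplecticGroup (Fin 2) F))).mp
        hg.symm
      obtain ⟨a, ha2, ha⟩ := Linear.Symp.center_scalar hz
      have hGT : (G : Matrix (Fin 2 ⊕ Fin 2) (Fin 2 ⊕ Fin 2) F) * SpFour.transv F = a • (SpFour.transv F * (G : Matrix (Fin 2 ⊕ Fin 2) (Fin 2 ⊕ Fin 2) F)) := by
        refine Matrix.ext_of_mulVec_single fun i => ?_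
        rw [← hT, ← Submonoid.coe_mul, ← Submonoid.coe_mul, Matrix.smul_mulVec]
        have h1 := congrArg (Linear.Symp.app (Φ c0 * G)) (ha (Pi.single i 1))
        rw [← Linear.Symp.app_mul, mul_inv_cancel_left] at h1
        change Linear.Symp.app (G * Φ c0) (Pi.single i 1) =
          a • Linear.Symp.app (Φ c0 * G) (Pi.single i 1)
        rw [h1]
        exact Matrix.mulVec_smul _ _ _
      have ha1 : a = 1 := by
        rcases sq_eq_one_iff.mp ha2 with h | h
        · exact h
        · exfalso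
          obtain ⟨A, B, C', D, hG⟩ : ∃ A B C' D, (G : Matrix (Fin 2 ⊕ Fin 2) (Fin 2 ⊕ Fin 2) F) = fromBlocks A B C' D :=
            ⟨_, _, _, _, (fromBlocks_toBlocks _).symm⟩
          rw [hG, SpFour.transv, fromBlocks_multiply, fromBlocks_multiply, h, fromBlocks_smul,
            fromBlocks_inj] at hGT
          simp only [Matrix.one_mul, Matrix.mul_one, Matrix.mul_zero, Matrix.zero_mul, add_zero,
            zero_add, neg_smul, one_smul] at hGT
          obtain ⟨h1, -, h3, -⟩ := hGT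
          have h20 : (2 : F) ≠ 0 := by
            intro h20
            have := congrArg σ.symm h20
            rw [map_ofNat, map_zero] at this
            exact two_ne_zero_three this
          have hneg : ∀ {M : Matrix (Fin 2) (Fin 2) F}, M = -M → M = 0 := fun {M} hM => by
            ext i j
            have := congrFun (congrFun hM i) j
            rw [Matrix.neg_apply, eq_neg_iff_add_eq_zero, ← two_mul, mul_eq_zero] at this
            simpa [h20] using this
          have hC0 := hneg h3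
          rw [hC0, Matrix.mul_zero, add_zero] at h1
          have hA0 := hneg h1
          have hm := G.2
          rw [hG, hC0, hA0, SymplecticGroup.fromBlocks_mem_iff] at hm
          simp at hm
      rw [ha1, one_smul] at hGT
      obtain ⟨b, v, κ, A, hb, hA, hG⟩ := SpFour.exists_mat_of_comm G.2 hGT
      let A' : Matrix.SpecialLinearGroup (Fin 2) (ZMod 3) := ⟨A.map σ.symm, by
        rw [show (A.map σ.symm).det = σ.symm.toRingHom A.det from
          (RingHom.map_det σ.symm.toRingHom _).symm, hA, map_one]⟩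
      refine ⟨C.toX (fun i => σ.symm (v i)) (-σ.symm κ) A', ?_⟩
      change QuotientGroup.mk' _ (Φ _) = QuotientGroup.mk' _ G
      refine QuotientGroup.eq.mpr ?_
      rw [hΦc]
      let ζ : Matrix.symplecticGroup (Fin 2) F := ⟨_, Linear.Symp.scalar_mem (m := 2) hb⟩
      have hGζ : G = img σ (fun i => σ.symm (v i), -σ.symm κ, A') * ζ := by
        apply Subtype.ext
        rw [Submonoid.coe_mul, hG]
        rw [coe_img]
        simp only [ζ, A', Matrix.mul_smul, Matrix.mul_one]
        congr 2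
        · funext i; simp
        · simp
        · ext i j; simp
      rw [hGζ, inv_mul_cancel_left, Linear.Symp.mem_center_iff]
      intro u
      exact ⟨b, by simp [Linear.Symp.app, ζ, Matrix.smul_mulVec]⟩
  have hcardX : Nat.card X = 648 := by
    rw [← Nat.card_congr coord, Nat.card_prod, Nat.card_prod, card_sl_two_three, Nat.card_fun,
      Nat.card_fin, Nat.card_zmod]
    norm_num
  have hcardP : Nat.card (Cfsg.PSp 2 F) = 25920 := by
    have h := Subgroup.card_eq_card_quotient_mul_card_subgroup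
      (Subgroup.center (Matrix.symplecticGroup (Fin 2) F))
    rw [SympSub.card_symplecticGroup, Linear.Symp.card_center, hF] at h
    norm_num [SympSub.spOrder, Finset.prod_range_succ] at h
    rw [← Nat.card_eq_fintype_card] at h
    change Nat.card (Cfsg.PSp 2 F) = _
    change _ = Nat.card (Cfsg.PSp 2 F) * _ at h
    omega
  obtain ⟨P⟩ : Nonempty (Sylow 3 X) := inferInstance
  have hPcard : Nat.card (P : Subgroup X) = 81 := by
    obtain ⟨k, hk⟩ := IsPGroup.iff_card.mp P.2
    have hd : 81 ∣ Nat.card (P : Subgroup X) :=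
      P.pow_dvd_card_of_pow_dvd_card (n := 4) (by rw [hcardX]; norm_num)
    have h2 : 3 ^ k ∣ 648 := hk ▸ hcardX ▸ (P : Subgroup X).card_subgroup_dvd_card
    have hk4 : k ≤ 4 := by
      by_contra hlt
      have := (pow_dvd_pow 3 (show 5 ≤ k by omega)).trans h2
      norm_num at this
    have : 81 ≤ 3 ^ k := Nat.le_of_dvd (by positivity) (hk ▸ hd)
    interval_cases k <;> omega
  obtain ⟨S, hS⟩ := (P.2.map ψ).exists_le_sylow
  have hSeq : (S : Subgroup (Cfsg.PSp 2 F)) = (P : Subgroup X).map ψ := by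
    refine (Subgroup.eq_of_le_of_card_ge hS ?_).symm
    rw [← Nat.card_congr (Subgroup.equivMapOfInjective _ ψ hψi).toEquiv, hPcard]
    obtain ⟨k, hk⟩ := IsPGroup.iff_card.mp S.2
    have h2 : 3 ^ k ∣ 25920 :=
      hk ▸ hcardP ▸ (S : Subgroup (Cfsg.PSp 2 F)).card_subgroup_dvd_card
    have hk4 : k ≤ 4 := by
      by_contra hlt
      have := (pow_dvd_pow 3 (show 5 ≤ k by omega)).trans h2
      norm_num at this
    rw [hk]
    calc 3 ^ k ≤ 3 ^ 4 := Nat.pow_le_pow_right (by norm_num) hk4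
      _ = 81 := by norm_num
  refine ⟨ψ c0, S, hord, ?_, ?_,
    ⟨(MonoidHom.ofInjective hψi).trans (MulEquiv.subgroupCongr hrange)⟩⟩
  · rw [hSeq]
    refine Subgroup.mem_map_of_mem ψ ?_
    have hzp : IsPGroup 3 (Subgroup.zpowers c0) :=
      IsPGroup.of_card (n := 1) (by rw [Nat.card_zpowers, orderOf_eq_prime hc03 hc01, pow_one])
    have hn : (Subgroup.zpowers c0).Normal := ⟨fun y hy g => by
      obtain ⟨k, rfl⟩ := Subgroup.mem_zpowers_iff.mp hy
      rw [(Commute.zpow_right (show Commute g c0 from (hc0c g).symm) k).eq, mul_inv_cancel_right]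
      exact hy⟩
    exact Cores.pCore_le_sylow P (Cores.le_pCore hn hzp (Subgroup.mem_zpowers c0))
  · rw [hSeq, Subgroup.mem_centralizer_iff]
    rintro _ ⟨x, -, rfl⟩
    rw [← map_mul, ← map_mul, hc0c]

end Cfsg.Agent.S3366
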