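import Cfsg.Statements.S3376
import Cfsg.Agent.Recog.WreathThree

set_option autoImplicit false
open Cfsg

namespace Cfsg.Agent.S3376

/-- Let G be a group of order 162 = 3⁴·2 with Sylow 3-subgroup S and Sylow 2-subgroup T, having an elementary abelian normal subgroup J of order 27, such that Z = Z(S) has order 3, Z centralizes T, and C_S(T) ≠ S. Then G is isomorphic to the centralizer in Sym(9) of a product of three disjoint 3-cycles. -/
theorem result {G : Type*} [Group G] [Finite G] (hG : Nat.card G = 162)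
    (S : Sylow 3 G) (T : Sylow 2 G) (J : Subgroup G) [hJn : J.Normal] (hJcomm : IsMulCommutative J)
    (hJexp : ∀ a ∈ J, a ^ 3 = 1) (hJcard : Nat.card J = 27)
    (Z : Subgroup G) (hZ : Z = (S : Subgroup G) ⊓ Subgroup.centralizer ((S : Subgroup G) : Set G)) (hZcard : Nat.card Z = 3)
    (hZT : Z ≤ Subgroup.centralizer ((T : Subgroup G) : Set G))
    (hST : (S : Subgroup G) ⊓ Subgroup.centralizer ((T : Subgroup G) : Set G) ≠ S) :
    Nonempty (G ≃* Subgroup.centralizer ({Equiv.swap (0 : Fin 9) 1 * Equiv.swap 1 2 * Equiv.swap 3 4 * Equiv.swap 4 5 * Equiv.swap 6 7 * Equiv.swap 7 8} : Set (Equiv.Perm (Fin 9)))) := by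
  classical
  have h3 : Fact (Nat.Prime 3) := ⟨Nat.prime_three⟩
  have h2 : Fact (Nat.Prime 2) := ⟨Nat.prime_two⟩
  have hf81 : (81 : ℕ) = 3 ^ 4 := by norm_num
  have hScard : Nat.card (S : Subgroup G) = 81 := by
    obtain ⟨k, hk⟩ := IsPGroup.iff_card.mp S.isPGroup'
    have h4 : 3 ^ 4 ∣ 3 ^ k := hk ▸ S.pow_dvd_card_of_pow_dvd_card (by rw [hG]; norm_num)
    have h5 : 3 ^ k ∣ 162 := hG ▸ hk ▸ Subgroup.card_subgroup_dvd_card _
    have hk4 : k = 4 := by
      have := (Nat.pow_dvd_pow_iff_le_right (by norm_num : 1 < 3)).mp h4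
      by_contra hne
      have : 3 ^ 5 ∣ 162 := (Nat.pow_dvd_pow 3 (by omega)).trans h5
      norm_num at this
    rw [hk, hk4, hf81]
  have hTcard : Nat.card (T : Subgroup G) = 2 := by
    obtain ⟨k, hk⟩ := IsPGroup.iff_card.mp T.isPGroup'
    have h4 : 2 ^ 1 ∣ 2 ^ k := hk ▸ T.pow_dvd_card_of_pow_dvd_card (by rw [hG]; norm_num)
    have h5 : 2 ^ k ∣ 162 := hG ▸ hk ▸ Subgroup.card_subgroup_dvd_card _
    have hk1 : k = 1 := by
      have := (Nat.pow_dvd_pow_iff_le_right (by norm_num : 1 < 2)).mp h4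
      by_contra hne
      have : 2 ^ 2 ∣ 162 := (Nat.pow_dvd_pow 2 (by omega)).trans h5
      norm_num at this
    rw [hk, hk1, pow_one]
  have hSidx : (S : Subgroup G).index = 2 := by
    have h := (S : Subgroup G).card_mul_index
    rw [hScard, hG] at h
    omega
  have hSn : (S : Subgroup G).Normal := Subgroup.normal_of_index_eq_two hSidx
  have hJS : J ≤ (S : Subgroup G) := by
    obtain ⟨P, hP⟩ := (IsPGroup.of_card (n := 3) (p := 3) (by rw [hJcard]; norm_num) : IsPGroup 3 J).exists_le_sylow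
    have hu := Sylow.unique_of_normal S hSn
    rwa [Subsingleton.elim P S] at hP
  obtain ⟨t, ht1⟩ : ∃ t : (T : Subgroup G), t ≠ 1 := by
    have : Nontrivial (T : Subgroup G) := Finite.one_lt_card_iff_nontrivial.mp (by omega)
    exact exists_ne 1
  have ht2 : (t : G) ^ 2 = 1 := by
    have := pow_card_eq_one' (x := t)
    rw [hTcard] at this
    exact congrArg Subtype.val this
  have htne : (t : G) ≠ 1 := fun h => ht1 (Subtype.ext h)
  have htT : ∀ g : G, g * t = t * g → g ∈ Subgroup.centralizer ((T : Subgroup G) : Set G) := by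
    intro g hg
    refine Subgroup.mem_centralizer_iff.mpr fun y hy => ?_
    obtain ⟨i, hi⟩ := Subgroup.mem_zpowers_iff.mp
      (mem_zpowers_of_prime_card (g := t) (g' := (⟨y, hy⟩ : (T : Subgroup G))) hTcard ht1)
    have hyi : y = (t : G) ^ i := by rw [← SubgroupClass.coe_zpow, hi]
    rw [hyi]
    exact ((show Commute (t : G) g from hg.symm).zpow_left i).eq
  have htS : (t : G) ∉ (S : Subgroup G) := by
    intro h
    have h' := Subgroup.orderOf_dvd_natCard _ h
    rw [orderOf_eq_prime ht2 htne, hScard] at h'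
    norm_num at h'
  have hJc : ∀ a ∈ J, ∀ b ∈ J, Commute a b := fun a ha b hb =>
    congrArg Subtype.val (hJcomm.is_comm.comm ⟨a, ha⟩ ⟨b, hb⟩)
  -- elements of `S ∖ J` fix only `Z` in `J`
  have hfixZ : ∀ s ∈ (S : Subgroup G), s ∉ J → ∀ w ∈ J, s * w = w * s → w ∈ Z := by
    intro s hs hsJ w hw hcomm
    rw [hZ]
    refine ⟨hJS hw, Subgroup.mem_centralizer_iff.mpr fun y hy => ?_⟩
    have hle : (S : Subgroup G) ≤ Subgroup.centralizer ({w} : Set G) := by
      set K := (S : Subgroup G) ⊓ Subgroup.centralizer ({w} : Set G)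
      have hJK : J ≤ K := fun j hj => ⟨hJS hj, Subgroup.mem_centralizer_singleton_iff.mpr (hJc j hj w hw).eq⟩
      have hsK : s ∈ K := ⟨hs, Subgroup.mem_centralizer_singleton_iff.mpr hcomm⟩
      have hlt : Nat.card J < Nat.card K := by
        rcases (Subgroup.card_le_of_le hJK).lt_or_eq with h | h
        · exact h
        · exact absurd ((Subgroup.eq_of_le_of_card_ge hJK h.ge) ▸ hsK) hsJ
      have hdvd : Nat.card K ∣ 81 := hScard ▸ Subgroup.card_dvd_of_le inf_le_left
      have hK81 : Nat.card K = 81 := by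
        rw [hf81] at hdvd
        obtain ⟨i, hi, hi'⟩ := (Nat.dvd_prime_pow Nat.prime_three).mp hdvd
        rw [hJcard, hi'] at hlt
        have h3i : 3 ^ 3 < 3 ^ i := by norm_num; exact hlt
        have := (Nat.pow_lt_pow_iff_right (by norm_num : 1 < 3)).mp h3i
        rw [hi', show i = 4 by omega, hf81]
      exact (Subgroup.eq_of_le_of_card_ge inf_le_left (by rw [hK81, hScard]) : K = _) ▸ inf_le_right
    exact (Subgroup.mem_centralizer_singleton_iff.mp (hle hy))
  -- the quotient by `J` is not abelian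
  obtain ⟨x, hxS, hxJ⟩ : ∃ x ∈ (S : Subgroup G), x ∉ J := by
    refine SetLike.exists_of_lt (lt_of_le_of_ne hJS fun h => ?_)
    rw [h, hScard] at hJcard
    norm_num at hJcard
  set u := x * (t : G) * x⁻¹ * t with hudef
  have htinv : (t : G)⁻¹ = t := inv_eq_of_mul_eq_one_right (by rw [← sq, ht2])
  have huS : u ∈ (S : Subgroup G) := by
    have := mul_mem hxS (hSn.conj_mem _ (inv_mem hxS) (t : G))
    rw [htinv] at this
    simpa [hudef, mul_assoc] using this
  have htut : (t : G) * u * t = u⁻¹ := by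
    rw [hudef]
    simp only [mul_inv_rev, inv_inv, htinv, mul_assoc]
    rw [← sq, ht2, mul_one]
  have hu_not : u ∉ J := by
    intro huJ
    -- otherwise `t` centralises `S`
    apply hST
    refine le_antisymm inf_le_left fun g hg => ⟨hg, htT g ?_⟩
    have htJ : ∀ w ∈ J, (t : G) * w = w * t := by
      intro w hw
      -- the endomorphism `D` and the involution
      have hconjJ : ∀ g : G, ∀ w ∈ J, g * w * g⁻¹ ∈ J := fun g w hw => hJn.conj_mem w hw g
      have key : ∀ w ∈ J, (t : G) * w * (t : G)⁻¹ = w⁻¹ → x * w * x⁻¹ ∈ J →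
          (t : G) * (x * w * x⁻¹) * (t : G)⁻¹ = (x * w * x⁻¹)⁻¹ := by
        intro w hw hwi _
        have e : (t : G) * x = u⁻¹ * x * t := by
          rw [hudef]; simp only [mul_inv_rev, inv_inv, htinv, mul_assoc]
          rw [inv_mul_cancel_left, ← sq, ht2, mul_one]
        calc (t : G) * (x * w * x⁻¹) * (t : G)⁻¹
            = ((t : G) * x) * w * ((t : G) * x)⁻¹ := by group
          _ = u⁻¹ * (x * ((t : G) * w * (t : G)⁻¹) * x⁻¹) * u := by rw [e]; group
          _ = u⁻¹ * (x * w⁻¹ * x⁻¹) * u := by rw [hwi]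
          _ = x * w⁻¹ * x⁻¹ := by
            rw [mul_assoc, (hJc _ (hconjJ x _ (inv_mem hw)) _ huJ).eq, inv_mul_cancel_left]
          _ = (x * w * x⁻¹)⁻¹ := by group
      -- the inverted elements
      let D : Subgroup G :=
        { carrier := {w | w ∈ J ∧ (t : G) * w * (t : G)⁻¹ = w⁻¹}
          one_mem' := ⟨one_mem _, by simp⟩
          mul_mem' := fun {a b} ha hb => ⟨mul_mem ha.1 hb.1, by
            rw [mul_inv_rev, ← (hJc _ (inv_mem ha.1) _ (inv_mem hb.1)).eq, ← ha.2, ← hb.2]; group⟩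
          inv_mem' := fun {a} ha => ⟨inv_mem ha.1, by rw [← conj_inv, ha.2]⟩ }
      by_cases hD : D = ⊥
      · have hc : w⁻¹ * ((t : G) * w * (t : G)⁻¹) ∈ D := by
          refine ⟨mul_mem (inv_mem hw) (hconjJ _ w hw), ?_⟩
          rw [mul_inv_rev, inv_inv]
          calc (t : G) * (w⁻¹ * ((t : G) * w * (t : G)⁻¹)) * (t : G)⁻¹
              = ((t : G) * w * (t : G)⁻¹)⁻¹ * ((t : G) ^ 2 * w * ((t : G) ^ 2)⁻¹) := by group
            _ = ((t : G) * w * (t : G)⁻¹)⁻¹ * w := by rw [ht2]; group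
        rw [hD, Subgroup.mem_bot, inv_mul_eq_one] at hc
        exact mul_inv_eq_iff_eq_mul.mp hc.symm
      · exfalso
        -- `x` normalises `D`, so fixes a non-trivial element
        let act : MulAction (Subgroup.zpowers x) G := MulAction.compHom G ((MulAut.conj).comp (Subgroup.zpowers x).subtype)
        have hinvD : ∀ y : Subgroup.zpowers x, ∀ d ∈ D, (y : G) * d * (y : G)⁻¹ ∈ D := by
          rintro ⟨y, hy⟩ d hd
          obtain ⟨i, hi⟩ := (isOfFinOrder_of_finite x).mem_powers_iff_mem_zpowers.mpr hy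
          have hpow : ∀ n : ℕ, ∀ d ∈ D, x ^ n * d * (x ^ n)⁻¹ ∈ D := by
            intro n
            induction n with
            | zero => intro d hd; simpa using hd
            | succ n ih =>
              intro d hd
              have h1 := ih d hd
              have h2 : x * (x ^ n * d * (x ^ n)⁻¹) * x⁻¹ ∈ D :=
                ⟨hconjJ x _ h1.1, key _ h1.1 h1.2 (hconjJ x _ h1.1)⟩
              simpa [pow_succ', mul_assoc] using h2
          exact hi ▸ hpow i d hd
        let act' : MulAction (Subgroup.zpowers x) D :=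
          { smul := fun y d => ⟨(y : G) * (d : G) * (y : G)⁻¹, hinvD y d d.2⟩
            one_smul := fun d => Subtype.ext (by show (1 : G) * d * (1 : G)⁻¹ = d; group)
            mul_smul := fun y y' d => Subtype.ext (by
              show ((y : G) * y') * d * ((y : G) * y')⁻¹ = y * ((y' : G) * d * (y' : G)⁻¹) * (y : G)⁻¹
              group) }
        have hP : IsPGroup 3 (Subgroup.zpowers x) := S.isPGroup'.to_le (Subgroup.zpowers_le.mpr hxS)
        have hDJ : D ≤ J := fun d hd => hd.1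
        obtain ⟨e, -, he⟩ := (Nat.dvd_prime_pow Nat.prime_three).mp
          (show Nat.card D ∣ 3 ^ 3 by have := Subgroup.card_dvd_of_le hDJ; rw [hJcard] at this; norm_num; exact this)
        have he0 : e ≠ 0 := by
          rintro rfl
          exact hD (Subgroup.eq_bot_of_card_eq D (by rw [he, pow_zero]))
        obtain ⟨d, hd, hd1⟩ := hP.exists_fixed_point_of_prime_dvd_card_of_fixed_point D
          (he ▸ dvd_pow_self 3 he0) (a := 1)
          (MulAction.mem_fixedPoints.mpr fun y => Subtype.ext (by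
            show (y : G) * (1 : G) * (y : G)⁻¹ = 1
            group))
        have hdx : x * (d : G) = d * x := mul_inv_eq_iff_eq_mul.mp
          (congrArg Subtype.val (MulAction.mem_fixedPoints.mp hd ⟨x, Subgroup.mem_zpowers x⟩))
        have hdZ : (d : G) ∈ Z := hfixZ x hxS hxJ d d.2.1 hdx
        have hdt : (t : G) * (d : G) = d * t :=
          Subgroup.mem_centralizer_iff.mp (hZT hdZ) _ t.2
        have h' := d.2.2
        rw [hdt, mul_inv_cancel_right, ← mul_eq_one_iff_eq_inv, ← sq] at h'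
        have ho : orderOf (d : G) ∣ 1 := by
          rw [show (1 : ℕ) = Nat.gcd 2 3 by norm_num]
          exact Nat.dvd_gcd (orderOf_dvd_of_pow_eq_one h') (orderOf_dvd_of_pow_eq_one (hJexp d d.2.1))
        exact hd1 (Subtype.ext (orderOf_eq_one_iff.mp (Nat.dvd_one.mp ho))).symm
    -- `t` centralises `J` and `x` modulo `J`, hence `x`
    have hu1 : u = 1 := by
      have e : u⁻¹ = u := by rw [← htut, htJ u huJ, mul_assoc, ← sq, ht2, mul_one]
      have ho : orderOf u ∣ 1 := by
        rw [show (1 : ℕ) = Nat.gcd 2 3 by norm_num]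
        refine Nat.dvd_gcd (orderOf_dvd_of_pow_eq_one ?_) (orderOf_dvd_of_pow_eq_one (hJexp u huJ))
        rw [sq]; nth_rewrite 1 [← e]; exact inv_mul_cancel u
      exact orderOf_eq_one_iff.mp (Nat.dvd_one.mp ho)
    have hxt : x * t = t * x := by
      rw [hudef, ← htinv] at hu1
      rw [mul_inv_eq_one, mul_inv_eq_iff_eq_mul] at hu1
      simpa [htinv] using hu1
    have hle : (S : Subgroup G) ≤ Subgroup.centralizer ({(t : G)} : Set G) := by
      set K := (S : Subgroup G) ⊓ Subgroup.centralizer ({(t : G)} : Set G)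
      have hJK : J ≤ K := fun j hj => ⟨hJS hj, Subgroup.mem_centralizer_singleton_iff.mpr (htJ j hj).symm⟩
      have hxK : x ∈ K := ⟨hxS, Subgroup.mem_centralizer_singleton_iff.mpr hxt⟩
      have hlt : Nat.card J < Nat.card K := by
        rcases (Subgroup.card_le_of_le hJK).lt_or_eq with h | h
        · exact h
        · exact absurd ((Subgroup.eq_of_le_of_card_ge hJK h.ge) ▸ hxK) hxJ
      have hdvd : Nat.card K ∣ 81 := hScard ▸ Subgroup.card_dvd_of_le inf_le_left
      have hK81 : Nat.card K = 81 := by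
        rw [hf81] at hdvd
        obtain ⟨i, hi, hi'⟩ := (Nat.dvd_prime_pow Nat.prime_three).mp hdvd
        rw [hJcard, hi'] at hlt
        have h3i : 3 ^ 3 < 3 ^ i := by norm_num; exact hlt
        have := (Nat.pow_lt_pow_iff_right (by norm_num : 1 < 3)).mp h3i
        rw [hi', show i = 4 by omega, hf81]
      exact (Subgroup.eq_of_le_of_card_ge inf_le_left (by rw [hK81, hScard]) : K = _) ▸ inf_le_right
    exact Subgroup.mem_centralizer_singleton_iff.mp (hle hg)
  -- the order of `u`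
  have hu3 : u ^ 3 = 1 := by
    have hmem : u ^ 3 ∈ J := by
      have hidx : (J.subgroupOf (S : Subgroup G)).index = 3 := by
        have h := (J.subgroupOf (S : Subgroup G)).card_mul_index
        rw [Nat.card_congr (Subgroup.subgroupOfEquivOfLe hJS).toEquiv, hJcard, hScard] at h
        omega
      have h := Subgroup.pow_index_mem (J.subgroupOf (S : Subgroup G)) ⟨u, huS⟩
      rw [hidx] at h
      exact h
    have hz : u ^ 3 ∈ Z := hfixZ u huS hu_not _ hmem (Commute.self_pow u 3).eq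
    have hzt : (t : G) * u ^ 3 = u ^ 3 * t := Subgroup.mem_centralizer_iff.mp (hZT hz) _ t.2
    have h1 : (t : G) * u ^ 3 * t = (u ^ 3)⁻¹ := by
      have : (t : G) * u ^ 3 * t = ((t : G) * u * t) ^ 3 := by
        nth_rewrite 2 [← htinv]; nth_rewrite 4 [← htinv]; rw [conj_pow]
      rw [this, htut, inv_pow]
    rw [hzt, mul_assoc, ← sq, ht2, mul_one] at h1
    have h' : (u ^ 3) ^ 2 = 1 := by
      rw [sq]; nth_rewrite 1 [h1]; exact inv_mul_cancel _
    have ho : orderOf (u ^ 3) ∣ 1 := by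
      rw [show (1 : ℕ) = Nat.gcd 2 3 by norm_num]
      exact Nat.dvd_gcd (orderOf_dvd_of_pow_eq_one h') (orderOf_dvd_of_pow_eq_one (hJexp _ hmem))
    exact orderOf_eq_one_iff.mp (Nat.dvd_one.mp ho)
  -- the commutator map on `J`
  let D : J →* J :=
    { toFun := fun w => ⟨u * (w : G) * u⁻¹ * (w : G)⁻¹, mul_mem (hJn.conj_mem _ w.2 u) (inv_mem w.2)⟩
      map_one' := Subtype.ext (by simp)
      map_mul' := fun v w => Subtype.ext (by
        show u * ((v : G) * w) * u⁻¹ * ((v : G) * w)⁻¹ = (u * v * u⁻¹ * (v : G)⁻¹) * (u * w * u⁻¹ * (w : G)⁻¹)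
        have hc : Commute (u * (w : G) * u⁻¹ * (w : G)⁻¹) (v : G)⁻¹ :=
          hJc _ (mul_mem (hJn.conj_mem _ w.2 u) (inv_mem w.2)) _ (inv_mem v.2)
        calc u * ((v : G) * w) * u⁻¹ * ((v : G) * w)⁻¹
            = (u * v * u⁻¹) * ((u * w * u⁻¹ * (w : G)⁻¹) * (v : G)⁻¹) := by group
          _ = _ := by rw [hc.eq]; group) }
  have hDval : ∀ w : J, (D w : G) = u * (w : G) * u⁻¹ * (w : G)⁻¹ := fun w => rfl
  have hkerD : Nat.card D.ker ≤ 3 := by
    rw [← hZcard]
    refine Nat.card_le_card_of_injective (fun w => (⟨((w : J) : G), hfixZ u huS hu_not _ (w : J).2 ?_⟩ : Z)) ?_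
    · have h : u * ((w : J) : G) * u⁻¹ * ((w : J) : G)⁻¹ = 1 := congrArg Subtype.val (MonoidHom.mem_ker.mp w.2)
      rw [mul_inv_eq_one, mul_inv_eq_iff_eq_mul] at h
      exact h
    · intro a b h
      exact Subtype.ext (Subtype.ext (congrArg (fun z : Z => (z : G)) h))
  obtain ⟨v₀, hv₀⟩ : ∃ w : J, D (D w) ≠ 1 := by
    by_contra hcon
    push Not at hcon
    have h1 := Subgroup.card_mul_index D.ker
    rw [Subgroup.index_ker, hJcard] at h1
    have hle : D.range ≤ D.ker := by rintro _ ⟨w, rfl⟩; exact hcon w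
    have h2 := Subgroup.card_le_of_le hle
    nlinarith
  set z : G := (D (D v₀) : G) with hzdef
  have hz1 : z ≠ 1 := fun h => hv₀ (Subtype.ext h)
  have hDD : ∀ w : J, (D (D w) : G) = (w : G) * (u * w * u⁻¹) * (u * (u * w * u⁻¹) * u⁻¹) := by
    intro w
    have h0 : (w : G) ^ 3 = 1 := hJexp w w.2
    set b := u * (w : G) * u⁻¹ with hb
    set c := u * b * u⁻¹ with hc
    have hbJ : b ∈ J := hJn.conj_mem _ w.2 u
    have hcJ : c ∈ J := hJn.conj_mem _ hbJ u
    have hb3 : b * b * b = 1 := by rw [← hJexp b hbJ]; simp [pow_succ]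
    rw [hDval, hDval]
    calc u * (b * (w : G)⁻¹) * u⁻¹ * (b * (w : G)⁻¹)⁻¹
        = c * (b⁻¹ * ((w : G) * b⁻¹)) := by rw [hc, hb]; group
      _ = c * ((w : G) * (b⁻¹ * b⁻¹)) := by
          rw [← mul_assoc b⁻¹, (hJc _ (inv_mem hbJ) _ w.2).eq, mul_assoc (w : G)]
      _ = c * ((w : G) * b) := by
          have : b⁻¹ * b⁻¹ = b := by
            rw [← mul_inv_rev]; exact inv_eq_of_mul_eq_one_right hb3
          rw [this]
      _ = (w : G) * b * c := (hJc _ hcJ _ (mul_mem w.2 hbJ)).eq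
  -- a fixed vector
  set w₀ : G := (t : G) * v₀ * t with hw₀def
  have hw₀ : w₀ ∈ J := by
    have := hJn.conj_mem _ v₀.2 (t : G)
    rwa [htinv] at this
  have hzJ : z ∈ J := (D (D v₀)).2
  have htuc : ∀ y : G, (t : G) * (u * y * u⁻¹) * t = u⁻¹ * ((t : G) * y * t) * u := by
    intro y
    have e : (t : G) * u = u⁻¹ * t := by rw [← htut, mul_assoc, ← sq, ht2, mul_one]
    have e' : u⁻¹ * (t : G) = (t : G) * u := e.symm
    calc (t : G) * (u * y * u⁻¹) * t = ((t : G) * u) * y * (u⁻¹ * t) := by group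
      _ = _ := by rw [e', e]; nth_rewrite 2 [e.symm]; group
  set a : G := (v₀ : G) * w₀ with hadef
  have haJ : a ∈ J := mul_mem v₀.2 hw₀
  have hat : (t : G) * a = a * t := by
    have htt : (t : G) * t = 1 := by rw [← sq, ht2]
    calc (t : G) * a = (t : G) * v₀ * ((t : G) * t) * ((t : G) * v₀ * t) * ((t:G) * t)⁻¹ := by
          rw [htt, hadef, hw₀def]; simp [mul_assoc]
      _ = ((t : G) * v₀ * t) * ((t : G) * ((t : G) * v₀)) * t * ((t:G) * t)⁻¹ := by simp [mul_assoc]
      _ = w₀ * v₀ * t := by rw [← mul_assoc (t : G) t, htt, inv_one, one_mul, mul_one]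
      _ = a * t := by rw [(hJc _ hw₀ _ v₀.2).eq]
  have hza : (D (D ⟨a, haJ⟩) : G) = z * z := by
    have hmul : (⟨a, haJ⟩ : J) = v₀ * ⟨w₀, hw₀⟩ := rfl
    rw [hmul, map_mul, map_mul]
    show z * (D (D ⟨w₀, hw₀⟩) : G) = z * z
    congr 1
    have hzfix : u * z = z * u := by
      have h := hDD v₀
      rw [← hzdef] at h
      rw [h]
      set b := u * (v₀ : G) * u⁻¹ with hb
      set c := u * b * u⁻¹ with hc
      have hbJ : b ∈ J := hJn.conj_mem _ v₀.2 u
      have hcJ : c ∈ J := hJn.conj_mem _ hbJ u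
      have huc : u * c * u⁻¹ = v₀ := by
        calc u * c * u⁻¹ = u ^ 3 * v₀ * (u ^ 3)⁻¹ := by rw [hc, hb]; simp [pow_succ, mul_assoc]
          _ = v₀ := by rw [hu3]; group
      apply mul_inv_eq_iff_eq_mul.mp
      calc u * ((v₀ : G) * b * c) * u⁻¹ = b * c * (u * c * u⁻¹) := by rw [hc, hb]; group
        _ = (v₀ : G) * b * c := by
          rw [huc, (hJc _ (mul_mem hbJ hcJ) _ v₀.2).eq, ← mul_assoc]
    have hzt : (t : G) * z * t = z := by
      have hzZ : z ∈ Z := hfixZ u huS hu_not z hzJ hzfix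
      rw [Subgroup.mem_centralizer_iff.mp (hZT hzZ) _ t.2, mul_assoc, ← sq, ht2, mul_one]
    rw [hDD]
    show w₀ * (u * w₀ * u⁻¹) * (u * (u * w₀ * u⁻¹) * u⁻¹) = z
    conv_rhs => rw [← hzt, hzdef, hDD v₀]
    have hbJ : u * (v₀ : G) * u⁻¹ ∈ J := hJn.conj_mem _ v₀.2 u
    have htt : ∀ p r : G, (t : G) * (p * r) * t = ((t : G) * p * t) * ((t : G) * r * t) := fun p r => by
      have : (t : G) * t = 1 := by rw [← sq, ht2]
      simp only [mul_assoc]; rw [← mul_assoc (t : G) t, this, one_mul]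
    rw [htt, htt, htuc, htuc, htuc, ← hw₀def]
    have hinv2 : u⁻¹ = u * u := inv_eq_of_mul_eq_one_right (by rw [← mul_assoc]; simpa [pow_succ] using hu3)
    have e1 : u⁻¹ * w₀ * u = u * (u * w₀ * u⁻¹) * u⁻¹ := by
      calc u⁻¹ * w₀ * u = u * u * w₀ * (u * u)⁻¹ := by rw [← hinv2, inv_inv]
        _ = _ := by group
    have e2 : u⁻¹ * (u⁻¹ * w₀ * u) * u = u * w₀ * u⁻¹ := by
      calc u⁻¹ * (u⁻¹ * w₀ * u) * u = (u⁻¹ * u⁻¹) * w₀ * (u⁻¹ * u⁻¹)⁻¹ := by simp [mul_assoc]
        _ = _ := by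
          have : u⁻¹ * u⁻¹ = u := by
            rw [← mul_inv_rev]; exact inv_eq_of_mul_eq_one_right (by simpa [pow_succ] using hu3)
          rw [this]
    rw [e1, ← e1, e2, e1, mul_assoc, (hJc _ (hJn.conj_mem _ hw₀ u) _ (hJn.conj_mem _ (hJn.conj_mem _ hw₀ u) u)).eq,
      ← mul_assoc]
  have hzza : (D (D ⟨a, haJ⟩) : G) ≠ 1 := by
    rw [hza]
    intro h
    have ho : orderOf z ∣ 1 := by
      rw [show (1 : ℕ) = Nat.gcd 2 3 by norm_num]
      exact Nat.dvd_gcd (orderOf_dvd_of_pow_eq_one (by rw [sq, h])) (orderOf_dvd_of_pow_eq_one (hJexp z hzJ))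
    exact hz1 (orderOf_eq_one_iff.mp (Nat.dvd_one.mp ho))
  have hR : Recog.WreathThree.Rel a u (t : G) := by
    refine ⟨hJexp a haJ, hu3, ht2, hat, ?_, hJc _ haJ _ (hJn.conj_mem _ haJ u)⟩
    have : u ^ 2 = u⁻¹ := eq_inv_of_mul_eq_one_left (by rw [← pow_succ, hu3])
    rw [this, ← htut, mul_assoc, ← sq, ht2, mul_one]
  refine Recog.WreathThree.nonempty_equiv hG hR ?_
  -- generation
  set K := Subgroup.closure ({a, u, (t : G)} : Set G)
  have haK : a ∈ K := Subgroup.subset_closure (by simp)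
  have huK : u ∈ K := Subgroup.subset_closure (by simp)
  have htK : (t : G) ∈ K := Subgroup.subset_closure (by simp)
  have hb : (D ⟨a, haJ⟩ : G) ∈ K := by
    rw [hDval]; exact mul_mem (mul_mem (mul_mem huK haK) (inv_mem huK)) (inv_mem haK)
  have hc : (D (D ⟨a, haJ⟩) : G) ∈ K := by
    rw [hDval]; exact mul_mem (mul_mem (mul_mem huK hb) (inv_mem huK)) (inv_mem hb)
  set L := (K.subgroupOf J) with hLdef
  have hJK : J ≤ K := by
    rw [← Subgroup.subgroupOf_eq_top]
    set e : J := ⟨a, haJ⟩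
    have hDD1 : D (D e) ≠ 1 := fun h => hzza (by rw [h]; rfl)
    have hD3 : D (D (D e)) = 1 := by
      refine Subtype.ext ?_
      rw [hDval]
      have hh := hDD e
      have hval : u * ((D (D e)) : G) * u⁻¹ = (D (D e) : G) := by
        rw [hh]
        set b := u * (e : G) * u⁻¹ with hb'
        set c := u * b * u⁻¹ with hc'
        have hbJ : b ∈ J := hJn.conj_mem _ e.2 u
        have hcJ : c ∈ J := hJn.conj_mem _ hbJ u
        have huc : u * c * u⁻¹ = e := by
          calc u * c * u⁻¹ = u ^ 3 * e * (u ^ 3)⁻¹ := by rw [hc', hb']; simp [pow_succ, mul_assoc]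
            _ = e := by rw [hu3]; group
        calc u * ((e : G) * b * c) * u⁻¹ = b * c * (u * c * u⁻¹) := by rw [hc', hb']; group
          _ = (e : G) * b * c := by rw [huc, (hJc _ (mul_mem hbJ hcJ) _ e.2).eq, ← mul_assoc]
      rw [hval, mul_inv_cancel]
      rfl
    let f : Fin 3 × Fin 3 × Fin 3 → L := fun x =>
      ⟨e ^ (x.1 : ℕ) * D e ^ (x.2.1 : ℕ) * D (D e) ^ (x.2.2 : ℕ),
        mul_mem (mul_mem (pow_mem (show e ∈ L from haK) _) (pow_mem (show D e ∈ L from hb) _))
          (pow_mem (show D (D e) ∈ L from hc) _)⟩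
    have hord : ∀ (y : J), y ≠ 1 → ∀ i j : Fin 3, y ^ (i : ℕ) = y ^ (j : ℕ) → i = j := by
      intro y hy i j hij
      have ho : orderOf y = 3 := orderOf_eq_prime (Subtype.ext (by simpa using hJexp y y.2)) hy
      exact Fin.ext (pow_injOn_Iio_orderOf (by simp [ho]) (by simp [ho]) hij)
    have hf : Function.Injective f := by
      rintro ⟨i, j, k⟩ ⟨i', j', k'⟩ h
      have h0 : e ^ (i : ℕ) * D e ^ (j : ℕ) * D (D e) ^ (k : ℕ) =
          e ^ (i' : ℕ) * D e ^ (j' : ℕ) * D (D e) ^ (k' : ℕ) := congrArg Subtype.val h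
      have h1 := congrArg (fun y => D (D y)) h0
      simp only [map_mul, map_pow, hD3, map_one, one_pow, mul_one] at h1
      have hi := hord _ hDD1 i i' h1
      subst hi
      rw [mul_assoc, mul_assoc, mul_left_cancel_iff] at h0
      have h2 := congrArg D h0
      simp only [map_mul, map_pow, hD3, one_pow, mul_one] at h2
      have hj := hord _ hDD1 j j' h2
      subst hj
      rw [mul_left_cancel_iff] at h0
      rw [hord _ hDD1 k k' h0]
    refine Subgroup.eq_top_of_card_eq _ (le_antisymm (Nat.card_le_card_of_injective _ Subtype.val_injective) ?_)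
    have := Nat.card_le_card_of_injective f hf
    rw [hJcard]
    simpa using this
  have hdvd : 81 ∣ Nat.card K := by
    set K' := K ⊓ (S : Subgroup G)
    have hlt : Nat.card J < Nat.card K' := by
      rcases (Subgroup.card_le_of_le (le_inf hJK hJS : J ≤ K')).lt_or_eq with h | h
      · exact h
      · exact absurd ((Subgroup.eq_of_le_of_card_ge (le_inf hJK hJS : J ≤ K') h.ge) ▸ (⟨huK, huS⟩ : u ∈ K')) hu_not
    have hd : Nat.card K' ∣ 3 ^ 4 := hf81 ▸ hScard ▸ Subgroup.card_dvd_of_le inf_le_right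
    obtain ⟨i, hi, hi'⟩ := (Nat.dvd_prime_pow Nat.prime_three).mp hd
    rw [hJcard, hi'] at hlt
    have h3i : 3 ^ 3 < 3 ^ i := by norm_num; exact hlt
    have := (Nat.pow_lt_pow_iff_right (by norm_num : 1 < 3)).mp h3i
    have h81 : Nat.card K' = 81 := by rw [hi', show i = 4 by omega, hf81]
    exact h81 ▸ Subgroup.card_dvd_of_le inf_le_left
  have h2K : 2 ∣ Nat.card K := by
    rw [← orderOf_eq_prime ht2 htne]; exact Subgroup.orderOf_dvd_natCard _ htK
  refine Subgroup.eq_top_of_card_eq _ (Nat.dvd_antisymm (Subgroup.card_subgroup_dvd_card K) ?_)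
  rw [hG, show 162 = 81 * 2 by norm_num]
  exact Nat.Coprime.mul_dvd_of_dvd_of_dvd (by norm_num) hdvd h2K

end Cfsg.Agent.S3376
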