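import Cfsg.Statements.S3385

import Cfsg.Agent.SimsThree.Cases
import Cfsg.Agent.Suborbit.Cores

set_option autoImplicit false
open Cfsg

namespace Cfsg.Agent.S3385

/-- Sims' Theorem on primitive groups with a suborbit of length 3. Let G be a finite group acting faithfully and primitively on a set Ω, and suppose the stabilizer of a point a has an orbit of length 3 on Ω. Then the stabilizer of a has order 2^k · 3 for some k ≤ 4. -/
theorem result {G : Type*} [Group G] [Finite G] {Ω : Type*} [MulAction G Ω] [FaithfulSMul G Ω]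
    (hprim : MulAction.IsPreprimitive G Ω) (a b : Ω)
    (h3 : Nat.card (MulAction.orbit (MulAction.stabilizer G a) b) = 3) :
    ∃ k : ℕ, k ≤ 4 ∧ Nat.card ↥(MulAction.stabilizer G a) = 2 ^ k * 3 := by
  classical
  haveI := hprim
  haveI : MulAction.IsPretransitive G Ω := hprim.toIsPretransitive
  obtain ⟨hne, hca, -, -⟩ := Suborbit.suborbit_setup hprim a b 3 h3 (by norm_num)
  have h3' : Nat.card (MulAction.orbit (MulAction.stabilizer G b) a) = 3 := by
    rw [Suborbit.card_paired_orbit, h3]
  obtain ⟨hne', -, -, -⟩ := Suborbit.suborbit_setup hprim b a 3 h3' (by norm_num)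
  have hab : a ≠ b := fun e => hne (e ▸ le_rfl)
  set D : Subgroup G := MulAction.stabilizer G a ⊓ MulAction.stabilizer G b with hD
  have hAcard : Nat.card ↥(MulAction.stabilizer G a) = 3 * Nat.card D := by
    rw [Suborbit.card_stabilizer_eq_orbit_mul a b, h3]
  -- elements of odd order
  have hodd : ∀ {x y : Ω}, Nat.card (MulAction.orbit (MulAction.stabilizer G x) y) = 3 →
      ∀ d : G, d • x = x → d • y = y → Odd (orderOf d) →
      ∀ c ∈ MulAction.orbit (MulAction.stabilizer G x) y, d • c = c := by
    intro x y hxy d hdx hdy hd c hc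
    obtain ⟨g, rfl⟩ := hc
    show d • (g • y) = g • y
    by_cases hcy : g • y = y
    · rw [show g • y = y from hcy]; exact hdy
    have hd2 : d • d • (g • y) = g • y := by
      by_contra hne2
      let O := MulAction.orbit (MulAction.stabilizer G x) y
      let d' : MulAction.stabilizer G x := ⟨d, hdx⟩
      have hm0 : y ∈ O := MulAction.mem_orbit_self y
      have hm1 : g • y ∈ O := MulAction.mem_orbit y g
      have hm2 : d • (g • y) ∈ O := ⟨d' * g, mul_smul d' g y⟩
      have hm3 : d • d • (g • y) ∈ O := ⟨d' * (d' * g), by simp only [mul_smul]; rfl⟩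
      have hfix : ∀ z : Ω, d • z = y → z = y := fun z hz => MulAction.injective d (hz.trans hdy.symm)
      have h1 : d • (g • y) ≠ y := fun e => hcy (hfix _ e)
      have h2 : d • d • (g • y) ≠ y := fun e => h1 (hfix _ e)
      have h3n : d • (g • y) ≠ g • y := fun e => hne2 (by rw [e, e])
      have h4 : d • d • (g • y) ≠ d • (g • y) := fun e => h3n (MulAction.injective d e)
      haveI : Finite O := Nat.finite_of_card_ne_zero (by rw [hxy]; norm_num)
      let f : Fin 4 → O := ![⟨y, hm0⟩, ⟨g • y, hm1⟩, ⟨d • (g • y), hm2⟩, ⟨d • d • (g • y), hm3⟩]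
      have hf : Function.Injective f := by
        intro i j e
        fin_cases i <;> fin_cases j <;> simp [f, Subtype.ext_iff] at e ⊢ <;>
          first
            | exact hcy e | exact hcy e.symm | exact h1 e | exact h1 e.symm | exact h2 e | exact h2 e.symm
            | exact h3n e | exact h3n e.symm | exact hne2 e | exact hne2 e.symm | exact h4 e | exact h4 e.symm
      have := Nat.card_le_card_of_injective f hf
      rw [Nat.card_fin] at this
      have hO : Nat.card O = 3 := hxy
      omega
    obtain ⟨r, hr⟩ := hd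
    have hpow : ∀ n : ℕ, (d * d) ^ n • (g • y) = g • y := by
      intro n
      induction n with
      | zero => simp
      | succ n ih => rw [pow_succ, mul_smul, mul_smul, hd2, ih]
    have e : (d * d) ^ (r + 1) = d := by
      rw [← pow_two, ← pow_mul, show 2 * (r + 1) = orderOf d + 1 by omega, pow_succ, pow_orderOf_eq_one, one_mul]
    have := hpow (r + 1)
    rwa [e] at this
  set O : Subgroup G := Subgroup.closure {d | d ∈ D ∧ Odd (orderOf d)} with hO
  have hnorm : ∀ {x y : Ω}, Nat.card (MulAction.orbit (MulAction.stabilizer G x) y) = 3 →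
      D ≤ MulAction.stabilizer G x ⊓ MulAction.stabilizer G y →
      MulAction.stabilizer G x ⊓ MulAction.stabilizer G y ≤ D →
      MulAction.stabilizer G x ≤ Subgroup.normalizer (O : Set G) := by
    intro x y hxy hle hge
    have key : ∀ g ∈ MulAction.stabilizer G x, ∀ u ∈ O, g * u * g⁻¹ ∈ O := by
      intro g hg u hu
      have hle' : O ≤ O.comap (MulAut.conj g).toMonoidHom := by
        refine (Subgroup.closure_le _).2 fun d hd => Subgroup.subset_closure ⟨hge ⟨?_, ?_⟩, ?_⟩
        · exact mul_mem (mul_mem hg (hle hd.1).1) (Subgroup.inv_mem _ hg)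
        · show g * d * g⁻¹ ∈ MulAction.stabilizer G y
          rw [MulAction.mem_stabilizer_iff, mul_smul, mul_smul,
            hodd hxy d (hle hd.1).1 (hle hd.1).2 hd.2 (g⁻¹ • y)
              ⟨⟨g⁻¹, Subgroup.inv_mem _ hg⟩, rfl⟩, smul_inv_smul]
        · show Odd (orderOf (g * d * g⁻¹))
          rw [show g * d * g⁻¹ = MulAut.conj g d from rfl, MulEquiv.orderOf_eq]
          exact hd.2
      exact hle' hu
    intro g hg
    rw [Subgroup.mem_normalizer_iff]
    refine fun u => ⟨key g hg u, fun hu => ?_⟩
    simpa [mul_assoc] using key g⁻¹ (inv_mem hg) _ hu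
  have hObot : O = ⊥ := by
    refine Suborbit.eq_bot_of_normalized hprim O a b ((Subgroup.closure_le _).2 fun d hd => hd.1.1) hne'
      (hnorm h3 le_rfl le_rfl) (hnorm h3' ?_ ?_)
    · rw [hD, inf_comm]
    · rw [hD, inf_comm]
  obtain ⟨k, hk⟩ : ∃ k, Nat.card D = 2 ^ k := by
    refine ⟨_, Nat.eq_prime_pow_of_unique_prime_dvd (Nat.card_pos (α := D)).ne' fun {q} hq hqd => ?_⟩
    by_contra hq2
    haveI := Fact.mk hq
    obtain ⟨d, hd⟩ := exists_prime_orderOf_dvd_card' (G := D) q hqd
    have hmem : (d : G) ∈ O := Subgroup.subset_closure ⟨d.2, by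
      rw [Subgroup.orderOf_coe, hd]; exact hq.odd_of_ne_two hq2⟩
    rw [hObot, Subgroup.mem_bot] at hmem
    rw [show d = 1 from Subtype.ext hmem, orderOf_one] at hd
    exact hq.ne_one hd.symm
  rcases Nat.eq_zero_or_pos k with hk0 | hk0
  · exact ⟨0, by norm_num, by rw [hAcard, hk, hk0]; ring⟩
  refine ⟨k, ?_, by rw [hAcard, hk, mul_comm]⟩
  haveI : Nontrivial Ω := ⟨a, b, hab⟩
  have hcard : ∀ x : Ω, Nat.card (MulAction.stabilizer G x) = 3 * 2 ^ k := fun x => by
    rw [Suborbit.card_stabilizer_eq x a, hAcard, hk]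
  have hS : SimsThree.Setup G Ω k := by
    refine ⟨hcard, hk0, fun x H hH => ?_, fun x y e => ?_, fun x y => MulAction.exists_smul_eq G x y,
      fun g hg => eq_of_smul_eq_smul (α := Ω) fun z => by rw [hg z, one_smul], fun x E hE hEc => ?_⟩
    · rcases hH.eq_or_lt with e | e
      · exact Or.inl e.symm
      · exact Or.inr ((MulAction.IsPreprimitive.isCoatom_stabilizer_of_isPreprimitive (G := G) x).2 _ e)
    · by_contra hxy
      have h1 := hcard x
      rw [Suborbit.stabilizer_le_stabilizer hprim x y hxy e.le, Subgroup.card_bot] at h1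
      have := Nat.two_pow_pos k
      omega
    · -- every Sylow subgroup fixes a second point
      haveI := Fact.mk Nat.prime_two
      obtain ⟨g, hg⟩ := MulAction.exists_smul_eq G a x
      have hE' : SimsThree.Syl k a (SimsThree.cj g⁻¹ E) := by
        have := SimsThree.syl_cj (g := g⁻¹) (x := x) (D := E) (k := k) ⟨hE, hEc⟩
        rwa [← hg, inv_smul_smul] at this
      set M := MulAction.stabilizer G a with hM
      have hf : (Nat.card M).factorization 2 = k := by
        rw [hcard a, Nat.factorization_mul (by norm_num) (by positivity), Finsupp.add_apply,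
          Nat.Prime.factorization_pow Nat.prime_two, Finsupp.single_eq_same,
          Nat.factorization_eq_zero_of_not_dvd (by norm_num : ¬ 2 ∣ 3), zero_add]
      obtain ⟨u, hu⟩ := MulAction.exists_smul_eq M
        (Sylow.ofCard (D.subgroupOf M)
          (by rw [hf, Nat.card_congr (Subgroup.subgroupOfEquivOfLe inf_le_left).toEquiv, hk]))
        (Sylow.ofCard ((SimsThree.cj g⁻¹ E).subgroupOf M)
          (by rw [hf, Nat.card_congr (Subgroup.subgroupOfEquivOfLe hE'.1).toEquiv, hE'.2]))
      have hu' : (D.subgroupOf M).map (MulAut.conj u).toMonoidHom = (SimsThree.cj g⁻¹ E).subgroupOf M := by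
        have := congrArg (fun S : Sylow 2 M => (S : Subgroup M)) hu
        exact this
      refine ⟨g • (u : G) • b, fun e => ?_, fun v hv => ?_⟩
      · rw [← hg] at e
        exact hab.symm (MulAction.injective (u : G) ((MulAction.injective g e).trans u.2.symm))
      · have h1 : g⁻¹ * v * g ∈ SimsThree.cj g⁻¹ E := by
          simpa using SimsThree.conj_mem_cj (g := g⁻¹) hv
        have h2 : (⟨g⁻¹ * v * g, hE'.1 h1⟩ : M) ∈ (D.subgroupOf M).map (MulAut.conj u).toMonoidHom :=
          hu'.symm ▸ h1
        obtain ⟨d, hd, hde⟩ := h2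
        have hde' : (u : G) * d * (u : G)⁻¹ = g⁻¹ * v * g := congrArg Subtype.val hde
        have hdb : (d : G) • b = b := hd.2
        rw [MulAction.mem_stabilizer_iff, show v = g * ((u : G) * d * (u : G)⁻¹) * g⁻¹ by rw [hde']; group]
        rw [mul_smul, mul_smul, inv_smul_smul, mul_smul, mul_smul, inv_smul_smul, hdb]
  have := hS.two_pow_le a
  by_contra hc
  have := Nat.pow_le_pow_right (show 0 < 2 by norm_num) (show 5 ≤ k by omega)
  norm_num at this
  omega

end Cfsg.Agent.S3385
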