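import Cfsg.Statements.S3389
-- import your own Cfsg.Agent.* helpers here

set_option autoImplicit false
open Cfsg

namespace Cfsg.Agent.S3389

theorem fixed_of_small_invariant {G Ω : Type*} [Group G] [MulAction G Ω] [Finite Ω] {p : ℕ}
    [Fact p.Prime] (S : Subgroup G) (hS : IsPGroup p S) (F : Set Ω)
    (hinv : ∀ s ∈ S, ∀ ω ∈ F, s • ω ∈ F) (hF : Nat.card F < p) :
    ∀ s ∈ S, ∀ ω ∈ F, s • ω = ω := by
  intro s hs ω hω
  obtain ⟨n, hn⟩ := hS.card_orbit ω
  have hsub : MulAction.orbit S ω ⊆ F := by
    rintro _ ⟨t, rfl⟩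
    exact hinv t t.2 ω hω
  have hle : Nat.card (MulAction.orbit S ω) ≤ Nat.card F := Nat.card_mono F.toFinite hsub
  rcases Nat.eq_zero_or_pos n with rfl | hn0
  · have hsub1 : (MulAction.orbit S ω).Subsingleton := by
      rw [← Set.ncard_le_one_iff_subsingleton, ← Nat.card_coe_set_eq, hn, pow_zero]
    exact hsub1 ⟨⟨s, hs⟩, rfl⟩ (MulAction.mem_orbit_self ω)
  · have := Nat.le_self_pow hn0.ne' p
    omega

/-- A Sylow subgroup fixing every fixed point of an element of order `p`, when fixity is below `p`. -/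
theorem exists_sylow_fix {G Ω : Type*} [Group G] [Finite G] [MulAction G Ω] [Finite Ω] {p k : ℕ}
    [Fact p.Prime] (hkp : k < p) (hfix : ∀ g : G, g ≠ 1 → Nat.card (MulAction.fixedBy Ω g) ≤ k)
    {y : G} (hy : orderOf y = p) :
    ∃ S : Sylow p G, ∀ s ∈ (S : Subgroup G), ∀ ω ∈ MulAction.fixedBy Ω y, s • ω = ω := by
  have hp : p.Prime := Fact.out
  obtain ⟨S, hS⟩ := (IsPGroup.of_card (p := p) (n := 1)
    (by rw [Nat.card_zpowers, hy, pow_one] : Nat.card (Subgroup.zpowers y) = p ^ 1)).exists_le_sylow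
  refine ⟨S, ?_⟩
  have hy1 : y ≠ 1 := fun h => by rw [h, orderOf_one] at hy; exact hp.one_lt.ne hy
  have hyS : y ∈ (S : Subgroup G) := hS (Subgroup.mem_zpowers y)
  have : Nontrivial (S : Subgroup G) :=
    ⟨⟨⟨y, hyS⟩, 1, fun h => hy1 (congrArg Subtype.val h)⟩⟩
  have : Nontrivial (Subgroup.center (S : Subgroup G)) := S.2.center_nontrivial
  obtain ⟨⟨z, hzc⟩, hz1⟩ := exists_ne (1 : Subgroup.center (S : Subgroup G))
  have hz : (z : G) ≠ 1 := fun h => hz1 (Subtype.ext (Subtype.ext h))
  have hzcomm : ∀ s ∈ (S : Subgroup G), s * (z : G) = (z : G) * s := fun s hs =>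
    congrArg Subtype.val (Subgroup.mem_center_iff.mp hzc ⟨s, hs⟩)
  have inv : ∀ a b : G, a * b = b * a → ∀ ω ∈ MulAction.fixedBy Ω b, a • ω ∈ MulAction.fixedBy Ω b := by
    intro a b hab ω hω
    rw [MulAction.mem_fixedBy] at hω ⊢
    rw [← mul_smul, ← hab, mul_smul, hω]
  intro s hs ω hω
  have hzω : (z : G) • ω = ω := by
    refine fixed_of_small_invariant (Subgroup.zpowers (z : G))
      (S.2.to_le (Subgroup.zpowers_le.mpr z.2)) (MulAction.fixedBy Ω y) ?_
      (lt_of_le_of_lt (hfix y hy1) hkp) _ (Subgroup.mem_zpowers _) ω hω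
    intro a ha
    refine inv a y ?_
    obtain ⟨i, rfl⟩ := ha
    exact (Commute.zpow_left (show Commute (z : G) y from (hzcomm y hyS).symm) i).eq
  exact fixed_of_small_invariant (S : Subgroup G) S.2 (MulAction.fixedBy Ω (z : G))
    (fun a ha => inv a z (hzcomm a ha)) (lt_of_le_of_lt (hfix z hz) hkp) s hs ω hzω

/-- Let G be a finite group acting faithfully and transitively on a finite set Ω with fixity k ≥ 1: every non-identity element fixes at most k points and some non-identity element fixes exactly k points. Then |Z(G)| divides k; if k = 2 then |G| is even; and for every prime p > k dividing |G| and every point α, either p does not divide |G_α| or G_α contains a Sylow p-subgroup of G. -/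
theorem result {G : Type*} [Group G] [Finite G] {Ω : Type*} [Fintype Ω] [MulAction G Ω] [FaithfulSMul G Ω]
    (htr : MulAction.IsPretransitive G Ω) (k : ℕ) (hk : 1 ≤ k)
    (hfix : ∀ g : G, g ≠ 1 → Nat.card (MulAction.fixedBy Ω g) ≤ k) (hex : ∃ g : G, g ≠ 1 ∧ Nat.card (MulAction.fixedBy Ω g) = k) :
    Nat.card (Subgroup.center G) ∣ k ∧ (k = 2 → 2 ∣ Nat.card G) ∧
      ∀ (p : ℕ), p.Prime → k < p → p ∣ Nat.card G → ∀ α : Ω,
        ¬ p ∣ Nat.card (MulAction.stabilizer G α) ∨ ¬ p ∣ (MulAction.stabilizer G α).index := by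
  obtain ⟨g, hg1, hgk⟩ := hex
  refine ⟨?_, ?_, ?_⟩
  · -- the centre acts semiregularly on the fixed points of `g`
    let F : SubMulAction (Subgroup.center G) Ω :=
      { carrier := MulAction.fixedBy Ω g
        smul_mem' := by
          intro z ω hω
          rw [MulAction.mem_fixedBy] at hω ⊢
          show g • ((z : G) • ω) = (z : G) • ω
          rw [← mul_smul, Subgroup.mem_center_iff.mp z.2 g, mul_smul, hω] }
    have hfree : ∀ ω : F, MulAction.stabilizer (Subgroup.center G) ω = ⊥ := by
      intro ω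
      rw [Subgroup.eq_bot_iff_forall]
      intro z hz
      have hz' : (z : G) • (ω : Ω) = ω := congrArg Subtype.val (MulAction.mem_stabilizer_iff.mp hz)
      refine Subtype.ext (FaithfulSMul.eq_of_smul_eq_smul (α := Ω) fun η => ?_)
      obtain ⟨c, hc⟩ := htr.exists_smul_eq (ω : Ω) η
      rw [← hc, ← mul_smul, ← Subgroup.mem_center_iff.mp z.2 c, mul_smul, hz']
      simp
    refine ⟨Nat.card (Quotient (MulAction.orbitRel (Subgroup.center G) F)), ?_⟩
    rw [← hgk, show Nat.card (MulAction.fixedBy Ω g) = Nat.card F from rfl,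
      Nat.card_congr (MulAction.selfEquivOrbitsQuotientProd hfree), Nat.card_prod, mul_comm]
  · intro hk2
    subst hk2
    rw [Nat.card_coe_set_eq, Set.ncard_eq_two] at hgk
    obtain ⟨α, β, hab, hfixg⟩ := hgk
    obtain ⟨p, hp, hpd⟩ := Nat.exists_prime_and_dvd (n := orderOf g)
      (fun h => hg1 (orderOf_eq_one_iff.mp h))
    have : Fact p.Prime := ⟨hp⟩
    rcases hp.eq_two_or_odd with rfl | hodd
    · exact hpd.trans (orderOf_dvd_natCard g)
    have hy := orderOf_pow_orderOf_div (orderOf_pos g).ne' hpd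
    obtain ⟨S, hS⟩ := exists_sylow_fix (Ω := Ω) (k := 2)
      (by have := hp.two_le; omega) hfix hy
    have hfixy : ∀ ω : Ω, g • ω = ω → (g ^ (orderOf g / p)) • ω = ω := by
      intro ω hω
      exact MulAction.mem_stabilizer_iff.mp
        ((MulAction.stabilizer G ω).pow_mem (MulAction.mem_stabilizer_iff.mpr hω) _)
    have hgα : g • α = α := MulAction.mem_fixedBy.mp (hfixg ▸ Set.mem_insert α {β})
    have hgβ : g • β = β := MulAction.mem_fixedBy.mp (hfixg ▸ Set.mem_insert_of_mem α rfl)
    have hSα : (S : Subgroup G) ≤ MulAction.stabilizer G α := fun s hs => hS s hs α (hfixy α hgα)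
    have hSβ : (S : Subgroup G) ≤ MulAction.stabilizer G β := fun s hs => hS s hs β (hfixy β hgβ)
    obtain ⟨c, hc⟩ := htr.exists_smul_eq α β
    have hS' : ((c • S : Sylow p G) : Subgroup G) ≤ MulAction.stabilizer G β := by
      intro x hx
      have hx' : c⁻¹ * x * c ∈ (S : Subgroup G) := by
        rw [Sylow.coe_subgroup_smul, Subgroup.mem_pointwise_smul_iff_inv_smul_mem] at hx
        simpa [mul_assoc] using hx
      have h := hSα hx'
      rw [MulAction.mem_stabilizer_iff, mul_smul, mul_smul, hc, inv_smul_eq_iff, hc] at h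
      exact h
    obtain ⟨d, hd⟩ := MulAction.exists_smul_eq (MulAction.stabilizer G β)
      ((c • S).subtype hS') (S.subtype hSβ)
    have hd' : (d : G) • (c • S) = S := by
      rw [Sylow.smul_subtype] at hd
      exact Sylow.subtype_injective hd
    set x : G := (d : G) * c with hx
    have hxS : x • S = S := by rw [hx, mul_smul]; exact hd'
    have hxα : x • α = β := by rw [hx, mul_smul, hc]; exact d.2
    -- `S` is nontrivial and fixes exactly `α` and `β`
    obtain ⟨s, hs, hs1⟩ : ∃ s ∈ (S : Subgroup G), s ≠ 1 := by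
      by_contra hcon
      push Not at hcon
      have hS1 : Nat.card (S : Subgroup G) = 1 := by
        rw [(Subgroup.eq_bot_iff_forall _).mpr hcon, Subgroup.card_bot]
      exact hp.not_dvd_one (hS1 ▸ S.dvd_card_of_dvd_card (hpd.trans (orderOf_dvd_natCard g)))
    have hxs : x⁻¹ * s * x ∈ (S : Subgroup G) := by
      have : s ∈ ((x • S : Sylow p G) : Subgroup G) := hxS.symm ▸ hs
      rw [Sylow.coe_subgroup_smul, Subgroup.mem_pointwise_smul_iff_inv_smul_mem] at this
      simpa [mul_assoc] using this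
    have hset : MulAction.fixedBy Ω s = {α, β} := by
      refine (Set.eq_of_subset_of_ncard_le ?_ ?_ (Set.toFinite _)).symm
      · rintro ω (rfl | rfl)
        · exact hSα hs
        · exact hSβ hs
      · rw [Set.ncard_pair hab, ← Nat.card_coe_set_eq]
        exact hfix s hs1
    have hxβ : x • β = α := by
      have h1 : x • β ∈ MulAction.fixedBy Ω s := by
        rw [MulAction.mem_fixedBy]
        have h := hSβ hxs
        rw [MulAction.mem_stabilizer_iff, mul_smul, mul_smul, inv_smul_eq_iff] at h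
        exact h
      rw [hset] at h1
      rcases h1 with h1 | h1
      · exact h1
      · exfalso
        have h1' : x • β = β := h1
        rw [← hxα, smul_left_cancel_iff] at h1'
        exact hab (h1'.symm.trans (by rw [hxα])).symm.symm
    by_contra hev
    have hoddx : ¬ 2 ∣ orderOf x := fun h => hev (h.trans (orderOf_dvd_natCard x))
    obtain ⟨j, hj⟩ : ∃ j, orderOf x = 2 * j + 1 := ⟨orderOf x / 2, by omega⟩
    have hj2 : ∀ i : ℕ, (x ^ (2 * i)) • α = α := by
      intro i
      induction i with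
      | zero => simp
      | succ i ih => rw [show 2 * (i + 1) = 2 + 2 * i by ring, pow_add, mul_smul, ih, pow_two, mul_smul, hxα, hxβ]
    have : (x ^ orderOf x) • α = β := by
      rw [hj, pow_succ', mul_smul, hj2, hxα]
    rw [pow_orderOf_eq_one, one_smul] at this
    exact hab this
  · intro p hp hkp hpG α
    have : Fact p.Prime := ⟨hp⟩
    by_cases hd : p ∣ Nat.card (MulAction.stabilizer G α)
    · right
      obtain ⟨y, hy⟩ := exists_prime_orderOf_dvd_card' p hd
      obtain ⟨S, hS⟩ := exists_sylow_fix (Ω := Ω) hkp hfix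
        (y := (y : G)) (by rw [Subgroup.orderOf_coe, hy])
      have hle : (S : Subgroup G) ≤ MulAction.stabilizer G α := fun s hs => hS s hs α y.2
      exact fun hh => S.not_dvd_index (hh.trans (Subgroup.index_dvd_of_le hle))
    · exact Or.inl hd

end Cfsg.Agent.S3389
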