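import Cfsg.Statements.S3390
import Cfsg.Agent.Recog.FixityTwo

set_option autoImplicit false
open Cfsg

namespace Cfsg.Agent.S3390

open Cfsg.Agent.Recog.FixityTwo

/-- Let G be a finite group acting faithfully and transitively on a finite set Ω with fixity 2 (every non-identity element fixes at most two points, and some fixes exactly two). Let α ∈ Ω and S a Sylow 2-subgroup of G. Then one of the following holds: the stabilizer S_α of α in S is trivial; S is dihedral or semidihedral and either |S_α| = 2 or |S : S_α| = 2; |S| ≥ 4, S has exactly one orbit of size 2 on Ω, every other S-orbit is regular, and G has a normal subgroup of index 2 or of index |S| which is a Frobenius group; or S ≤ G_α. -/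
theorem result {G : Type*} [Group G] [Finite G] {Ω : Type*} [Fintype Ω] [MulAction G Ω] [FaithfulSMul G Ω] (htr : MulAction.IsPretransitive G Ω)
    (hfix : ∀ g : G, g ≠ 1 → Nat.card (MulAction.fixedBy Ω g) ≤ 2) (hex : ∃ g : G, g ≠ 1 ∧ Nat.card (MulAction.fixedBy Ω g) = 2) (α : Ω) (S : Sylow 2 G) :
    (S : Subgroup G) ⊓ MulAction.stabilizer G α = ⊥ ∨
    (((∃ n : ℕ, Nonempty (↥(S : Subgroup G) ≃* DihedralGroup n)) ∨ Cfsg.IsQuasiDihedral ↥(S : Subgroup G)) ∧
       (Nat.card ↥((S : Subgroup G) ⊓ MulAction.stabilizer G α) = 2 ∨ ((S : Subgroup G) ⊓ MulAction.stabilizer G α).relIndex (S : Subgroup G) = 2)) ∨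
    (4 ≤ Nat.card (S : Subgroup G) ∧
       (∃ ω : Ω, Nat.card (MulAction.orbit ↥(S : Subgroup G) ω) = 2 ∧
          ∀ ω' : Ω, ω' ∉ MulAction.orbit ↥(S : Subgroup G) ω → Nat.card (MulAction.orbit ↥(S : Subgroup G) ω') = Nat.card (S : Subgroup G)) ∧
       ∃ N : Subgroup G, N.Normal ∧ (N.index = 2 ∨ N.index = Nat.card (S : Subgroup G)) ∧ (∃ H : Subgroup ↥N, Cfsg.IsFrobeniusComplement H)) ∨
    (S : Subgroup G) ≤ MulAction.stabilizer G α := by
  classical
  have : Fact (Nat.Prime 2) := ⟨Nat.prime_two⟩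
  clear hex
  have h3 : ∀ g : G, ∀ a b c : Ω, a ≠ b → a ≠ c → b ≠ c →
      g • a = a → g • b = b → g • c = c → g = 1 := by
    intro g a b c hab hac hbc ha hb hc
    by_contra hg
    have hle := hfix g hg
    rw [Nat.card_coe_set_eq] at hle
    have hsub : ({a, b, c} : Set Ω) ⊆ MulAction.fixedBy Ω g := by
      rintro x (rfl | rfl | rfl) <;> assumption
    have hcard : ({a, b, c} : Set Ω).ncard = 3 :=
      Set.ncard_eq_three.mpr ⟨a, b, c, hab, hac, hbc, rfl⟩
    have := Set.ncard_le_ncard hsub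
    omega
  set T := MulAction.stabilizer (↥(S : Subgroup G)) α
  have hsub : ((S : Subgroup G) ⊓ MulAction.stabilizer G α).subgroupOf (S : Subgroup G) = T := by
    ext x
    rw [Subgroup.mem_subgroupOf, Subgroup.mem_inf]
    exact ⟨fun h => h.2, fun h => ⟨x.2, h⟩⟩
  have hTcard : Nat.card ↥((S : Subgroup G) ⊓ MulAction.stabilizer G α) = Nat.card T := by
    rw [← hsub]
    exact (Nat.card_congr (Subgroup.subgroupOfEquivOfLe inf_le_left).toEquiv).symm
  have hrel : ((S : Subgroup G) ⊓ MulAction.stabilizer G α).relIndex (S : Subgroup G) = T.index := by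
    rw [Subgroup.relIndex, hsub]
  by_cases hbot : T = ⊥
  · left
    refine Subgroup.eq_bot_of_card_eq _ ?_
    rw [hTcard, hbot, Subgroup.card_bot]
  by_cases htop : T = ⊤
  · right; right; right
    intro x hx
    have : (⟨x, hx⟩ : (S : Subgroup G)) ∈ T := htop ▸ Subgroup.mem_top _
    exact this
  rcases two_group_cases (P := ↥(S : Subgroup G)) S.2
      (fun g a b c hab hac hbc ha hb hc => Subtype.ext (h3 g a b c hab hac hbc ha hb hc))
      α hbot htop with ⟨hD, hc⟩ | ⟨hidx, β, hβ, hall, hTb, hfree⟩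
  · refine Or.inr (Or.inl ⟨hD, ?_⟩)
    rwa [hTcard, hrel]
  refine Or.inr (Or.inr (Or.inl ?_))
  obtain ⟨k, hk⟩ := IsPGroup.iff_card.mp S.2
  have hST : Nat.card (S : Subgroup G) = 2 * Nat.card T := by
    rw [← Subgroup.card_mul_index T, hidx, mul_comm]
  have hT2 : 2 ≤ Nat.card T := by
    have h1 : Nat.card T ≠ 1 := fun h => hbot (Subgroup.eq_bot_of_card_eq T h)
    have := Nat.card_pos (α := T)
    omega
  have h4S : 4 ≤ Nat.card (S : Subgroup G) := by omega
  have h4dvd : 4 ∣ Nat.card (S : Subgroup G) := by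
    rw [hk] at h4S ⊢
    rcases k with _ | _ | k
    · norm_num at h4S
    · norm_num at h4S
    · exact ⟨2 ^ k, by ring⟩
  -- the free part
  let X : SubMulAction (↥(S : Subgroup G)) Ω :=
    { carrier := {c : Ω | c ≠ α ∧ c ≠ β}
      smul_mem' := by
        rintro p c ⟨hcα, hcβ⟩
        obtain ⟨q, hq⟩ : ∃ q : (S : Subgroup G), q • α = β := by
          by_contra hno
          push Not at hno
          exact htop (eq_top_iff.mpr fun x _ => (hall x).resolve_right (hno x))
        have hmap : ∀ d : Ω, (d = α ∨ d = β) → (p⁻¹ • d = α ∨ p⁻¹ • d = β) := by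
          intro d hd
          rcases hd with hd | hd <;> rw [hd]
          · exact hall _
          · rw [← hq, ← mul_smul, hq]; exact hall _
        refine ⟨fun h => ?_, fun h => ?_⟩
        · have := hmap (p • c) (Or.inl h)
          rw [inv_smul_smul] at this
          exact this.elim hcα hcβ
        · have := hmap (p • c) (Or.inr h)
          rw [inv_smul_smul] at this
          exact this.elim hcα hcβ }
  have hXfree : ∀ x : X, MulAction.stabilizer (↥(S : Subgroup G)) x = ⊥ := fun x => by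
    rw [eq_bot_iff, ← hfree x.1 x.2.1 x.2.2]
    intro p hp
    exact congrArg Subtype.val (hp : p • x = x)
  have hdvd : Nat.card (S : Subgroup G) ∣ Nat.card {c : Ω // c ≠ α ∧ c ≠ β} := by
    have h := Nat.card_congr (MulAction.selfEquivOrbitsQuotientProd hXfree)
    rw [Nat.card_prod] at h
    exact ⟨Nat.card (Quotient (MulAction.orbitRel ↥(S : Subgroup G) X)), h.trans (mul_comm _ _)⟩
  have hΩ : Nat.card Ω = Nat.card {c : Ω // c ≠ α ∧ c ≠ β} + 2 := by
    have hc : {c : Ω | c ≠ α ∧ c ≠ β}ᶜ = ({α, β} : Set Ω) := by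
      ext c
      simp only [Set.mem_compl_iff, Set.mem_setOf_eq, Set.mem_insert_iff, Set.mem_singleton_iff]
      tauto
    rw [← Set.ncard_add_ncard_compl {c : Ω | c ≠ α ∧ c ≠ β}, hc, Set.ncard_pair hβ.symm,
      ← Nat.card_coe_set_eq]
    rfl
  refine ⟨h4S, ⟨α, ?_, fun ω' hω' => ?_⟩, ?_⟩
  · rw [Nat.card_coe_set_eq, ← MulAction.index_stabilizer, hidx]
  · have hα : ω' ≠ α := by
      rintro rfl
      exact hω' (MulAction.mem_orbit_self _)
    have hb : ω' ≠ β := by
      intro h
      obtain ⟨q, hq⟩ : ∃ q : (S : Subgroup G), q • α = β := by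
        by_contra hno
        push Not at hno
        exact htop (eq_top_iff.mpr fun x _ => (hall x).resolve_right (hno x))
      exact hω' ⟨q, hq.trans h.symm⟩
    rw [Nat.card_coe_set_eq, ← MulAction.index_stabilizer, hfree ω' hα hb, Subgroup.index_bot]
  · obtain ⟨N, hN, hN2, hTN⟩ := exists_index_two S α β hβ hidx hall hTb hfree hdvd
    refine ⟨N, hN, Or.inl hN2, exists_frobenius_index_two htr h3 S α hbot hN hN2 hTN hidx ?_⟩
    obtain ⟨d, hd⟩ := h4dvd.trans hdvd
    omega

end Cfsg.Agent.S3390
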