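import Cfsg.Statements.S3391
import Cfsg.Agent.Suzuki.FixityTwo
import Cfsg.Agent.Suzuki.LieModel
-- import your own Cfsg.Agent.* helpers here

set_option autoImplicit false
open Cfsg

namespace Cfsg.Agent.S3391

/-- Let q = 2^{2m+1} ≥ 8 and let G be isomorphic to the Suzuki group Sz(q). If G acts faithfully and transitively on a finite set Ω with fixity 2 (every non-identity element fixes at most two points, and some fixes exactly two), then either |Ω| = q² + 1 and the action is 2-transitive, or |Ω| = q²(q² + 1) and the point stabilizers have order q − 1. -/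
theorem result {G : Type*} [Group G] [Finite G] (F : Type) [Field F] [Fintype F] (m : ℕ) (hm : 1 ≤ m) (hF : Fintype.card F = 2 ^ (2 * m + 1))
    (e : G ≃* ↥(Cfsg.Lie.Sz F (2 ^ (m + 1)))) {Ω : Type*} [Fintype Ω] [MulAction G Ω] [FaithfulSMul G Ω] (htr : MulAction.IsPretransitive G Ω)
    (hfix : ∀ g : G, g ≠ 1 → Nat.card (MulAction.fixedBy Ω g) ≤ 2) (hex : ∃ g : G, g ≠ 1 ∧ Nat.card (MulAction.fixedBy Ω g) = 2) :
    (Fintype.card Ω = Fintype.card F ^ 2 + 1 ∧ MulAction.IsMultiplyPretransitive G Ω 2) ∨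
    (Fintype.card Ω = Fintype.card F ^ 2 * (Fintype.card F ^ 2 + 1) ∧ ∀ α : Ω, Nat.card (MulAction.stabilizer G α) = Fintype.card F - 1) := by
  classical
  haveI hS : Suzuki.SuzukiField F m := ⟨hm, hF⟩
  let f : Cfsg.Sz F m ≃* G := (Suzuki.szEquivLie F m).trans e.symm
  letI : MulAction (Cfsg.Sz F m) Ω := MulAction.compHom Ω f.toMonoidHom
  have hsmul : ∀ (x : Cfsg.Sz F m) (a : Ω), x • a = f x • a := fun _ _ => rfl
  haveI : MulAction.IsPretransitive (Cfsg.Sz F m) Ω := ⟨fun a b => by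
    obtain ⟨g, hg⟩ := htr.exists_smul_eq a b
    exact ⟨f.symm g, by rw [hsmul, MulEquiv.apply_symm_apply, hg]⟩⟩
  have hfb : ∀ x : Cfsg.Sz F m, MulAction.fixedBy Ω x = MulAction.fixedBy Ω (f x) := fun x => rfl
  have hfix' : ∀ x : Cfsg.Sz F m, x ≠ 1 → Nat.card (MulAction.fixedBy Ω x) ≤ 2 := fun x hx => by
    rw [hfb]
    exact hfix _ (fun h => hx (f.injective (h.trans f.map_one.symm)))
  have hex' : ∃ x : Cfsg.Sz F m, x ≠ 1 ∧ Nat.card (MulAction.fixedBy Ω x) = 2 := by
    obtain ⟨g, hg, hc⟩ := hex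
    refine ⟨f.symm g, fun h => hg ?_, ?_⟩
    · rw [← f.apply_symm_apply g, h, map_one]
    · rw [hfb, MulEquiv.apply_symm_apply, hc]
  rw [← Nat.card_eq_fintype_card (α := Ω)]
  rcases Suzuki.FixityTwo.fixity_two hfix' hex' with ⟨h1, h2⟩ | ⟨h1, h2⟩
  · refine Or.inl ⟨h1, ?_⟩
    rw [MulAction.is_two_pretransitive_iff] at h2 ⊢
    intro a b c d hab hcd
    obtain ⟨x, hx1, hx2⟩ := h2 hab hcd
    exact ⟨f x, hx1, hx2⟩
  · refine Or.inr ⟨h1, fun α => ?_⟩
    rw [← h2 α]
    exact (Nat.card_congr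
      { toFun := fun x => ⟨f x.1, x.2⟩
        invFun := fun g => ⟨f.symm g.1, by
          show f (f.symm g.1) • α = α
          rw [MulEquiv.apply_symm_apply]; exact g.2⟩
        left_inv := fun x => Subtype.ext (f.symm_apply_apply _)
        right_inv := fun g => Subtype.ext (f.apply_symm_apply _) }).symm

end Cfsg.Agent.S3391
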