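import Cfsg.Statements.S3410
import Cfsg.Agent.ONanPSL.Main
import Cfsg.Agent.Linear.Transvection

set_option autoImplicit false
open Cfsg

namespace Cfsg.Agent.S3410

/-- Let a finite group G act faithfully and 2-transitively on a finite set X, and let N be an abelian normal subgroup of the stabilizer of a point x which is not semiregular on the remaining points (some non-identity element of N fixes a second point). Then the generalized Fitting subgroup of G is isomorphic to PSL_n(F) for some n ≥ 3 and some finite field F. -/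
theorem result {G X : Type*} [Group G] [Finite G] [Fintype X]
    [MulAction G X] [FaithfulSMul G X] (h2 : MulAction.IsMultiplyPretransitive G X 2) (x : X)
    (N : Subgroup G) (hNle : N ≤ MulAction.stabilizer G x)
    (hNnormal : ∀ g ∈ MulAction.stabilizer G x, ∀ n ∈ N, g * n * g⁻¹ ∈ N) (hNab : IsMulCommutative N)
    (hnsr : ∃ n ∈ N, n ≠ 1 ∧ ∃ y : X, y ≠ x ∧ n • y = y) :
    ∃ (F : Type) (_ : Field F) (_ : Fintype F) (n : ℕ), 3 ≤ n ∧
      Nonempty (↥(Cfsg.generalizedFittingSubgroup G) ≃* Matrix.ProjectiveSpecialLinearGroup (Fin n) F) := by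
  haveI := hNab
  obtain ⟨m, F, iF, iF', hm, -, L, hL, ⟨e⟩, hc⟩ := ONanPSL.onan_abelian h2 x N hNle hNnormal
    (fun a ha b hb => congrArg Subtype.val (mul_comm' (⟨a, ha⟩ : N) ⟨b, hb⟩)) hnsr
  haveI : IsSimpleGroup (Matrix.ProjectiveSpecialLinearGroup (Fin (m + 1)) F) :=
    Linear.isSimpleGroup_PSL (by simp; omega)
  haveI : IsSimpleGroup L := e.isSimpleGroup
  refine ⟨F, iF, iF', m + 1, by omega, ?_⟩
  rw [ONanPSL.genFitting_eq hL ?_ hc]
  · exact ⟨e⟩
  · haveI : Group.IsPerfect (Matrix.ProjectiveSpecialLinearGroup (Fin (m + 1)) F) :=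
      ⟨Linear.commutator_PSL_eq_top (by simp; omega)⟩
    exact Group.IsPerfect.ofSurjective (f := e.symm.toMonoidHom) e.symm.surjective

end Cfsg.Agent.S3410
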