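import Cfsg.Statements.S3412
import Cfsg.Agent.CommGraph.PSLThreeThree
-- import your own Cfsg.Agent.* helpers here

set_option autoImplicit false
open Cfsg

namespace Cfsg.Agent.S3412

/-- Let H be a finite group whose commuting graph (vertices the non-identity elements, two joined when they commute) is isomorphic to that of PSL_3(3): there is a bijection between the non-identity elements of H and of PSL_3(3) under which two elements commute exactly when their images do. Then H ≅ PSL_3(3). -/
theorem result {H : Type*} [Group H] [Finite H]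
    (f : {h : H // h ≠ 1} ≃ {g : Matrix.ProjectiveSpecialLinearGroup (Fin 3) (ZMod 3) // g ≠ 1})
    (hf : ∀ x y : {h : H // h ≠ 1}, (x : H) * y = y * x ↔ ((f x) : Matrix.ProjectiveSpecialLinearGroup (Fin 3) (ZMod 3)) * (f y) = (f y) * (f x)) :
    Nonempty (H ≃* Matrix.ProjectiveSpecialLinearGroup (Fin 3) (ZMod 3)) := by
  classical
  let P := Matrix.ProjectiveSpecialLinearGroup (Fin 3) (ZMod 3)
  let π : Matrix.SpecialLinearGroup (Fin 3) (ZMod 3) →* P := QuotientGroup.mk' _
  have hπ : Function.Bijective π := by
    refine ⟨?_, QuotientGroup.mk'_surjective _⟩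
    rw [← MonoidHom.ker_eq_bot_iff, QuotientGroup.ker_mk', Subgroup.eq_bot_iff_forall]
    intro z hz
    exact CommGraph.LThree.eq_one_of_commute z (Subgroup.mem_center_iff.1 hz _).symm
      (Subgroup.mem_center_iff.1 hz _).symm (Subgroup.mem_center_iff.1 hz _).symm
  let q : Matrix.SpecialLinearGroup (Fin 3) (ZMod 3) ≃* P := MulEquiv.ofBijective π hπ
  let e0 : H ≃ P :=
    { toFun := fun h => if hh : h = 1 then 1 else (f ⟨h, hh⟩).1
      invFun := fun g => if hg : g = 1 then 1 else (f.symm ⟨g, hg⟩).1
      left_inv := fun h => by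
        by_cases hh : h = 1
        · simp [hh]
        · simp [hh, (f ⟨h, hh⟩).2]
      right_inv := fun g => by
        by_cases hg : g = 1
        · simp [hg]
        · simp [hg, (f.symm ⟨g, hg⟩).2] }
  have he1 : e0 1 = 1 := by simp [e0]
  have hec : ∀ x y : H, Commute x y ↔ Commute (e0 x) (e0 y) := by
    intro x y
    by_cases hx : x = 1
    · simp [hx, he1]
    by_cases hy : y = 1
    · simp [hy, he1]
    have := hf ⟨x, hx⟩ ⟨y, hy⟩
    simpa [e0, hx, hy, commute_iff_eq] using this
  obtain ⟨i⟩ := CommGraph.LThree.nonempty_mulEquiv (e0.trans q.symm.toEquiv) fun x y => by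
    rw [hec x y]
    exact ⟨fun h => h.map q.symm, fun h => by simpa using h.map q⟩
  exact ⟨i.trans q⟩

end Cfsg.Agent.S3412
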