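import Cfsg.Statements.S3413
import Cfsg.Agent.S0420
import Cfsg.Agent.NSE.MathieuEleven
import Cfsg.Agent.Recog.ElevenSelfCentralizing

set_option autoImplicit false
open Cfsg

namespace Cfsg.Agent.S3413

/-- Let H be a finite group whose commuting graph (vertices the non-identity elements, two joined when they commute) is isomorphic to that of the Mathieu group M_11: there is a bijection between the non-identity elements of H and of M_11 under which two elements commute exactly when their images do. Then H ≅ M_11. -/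
theorem result {H : Type*} [Group H] [Finite H]
    (f : {h : H // h ≠ 1} ≃ {g : ↥Cfsg.Spor.M11 // g ≠ 1})
    (hf : ∀ x y : {h : H // h ≠ 1}, (x : H) * y = y * x ↔ ((f x) : ↥Cfsg.Spor.M11) * (f y) = (f y) * (f x)) :
    Nonempty (H ≃* ↥Cfsg.Spor.M11) := by
  classical
  haveI : Fact (Nat.Prime 11) := ⟨by norm_num⟩
  let e : H ≃ ↥Cfsg.Spor.M11 :=
    { toFun := fun h => if hh : h = 1 then 1 else (f ⟨h, hh⟩).1
      invFun := fun g => if hg : g = 1 then 1 else (f.symm ⟨g, hg⟩).1
      left_inv := fun h => by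
        by_cases hh : h = 1
        · simp [hh]
        · simp [hh, (f ⟨h, hh⟩).2]
      right_inv := fun g => by
        by_cases hg : g = 1
        · simp [hg]
        · simp [hg, (f.symm ⟨g, hg⟩).2] }
  have he1 : e 1 = 1 := by simp [e]
  have hec : ∀ x y : H, x * y = y * x ↔ e x * e y = e y * e x := by
    intro x y
    by_cases hx : x = 1
    · simp [hx, he1]
    by_cases hy : y = 1
    · simp [hy, he1]
    have := hf ⟨x, hx⟩ ⟨y, hy⟩
    simpa [e, hx, hy] using this
  have hcard : Nat.card H = 7920 := (Nat.card_congr e).trans Cfsg.Agent.Golay.card_M11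
  obtain ⟨w, hw⟩ := exists_prime_orderOf_dvd_card' (G := ↥Cfsg.Spor.M11) 11
    (Cfsg.Agent.Golay.card_M11 ▸ (by norm_num : 11 ∣ 7920))
  have hCw := Cfsg.Agent.NSE.M11_eleven.centralizer_card_eleven hw
  set v := e.symm w with hv
  have hCv : Nat.card (Subgroup.centralizer ({v} : Set H)) = 11 := by
    rw [← hCw]
    refine Nat.card_congr (e.subtypeEquiv fun x => ?_)
    simp only [Subgroup.mem_centralizer_singleton_iff]
    rw [hec x v, hv, Equiv.apply_symm_apply]
  have hv1 : v ≠ 1 := fun h => by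
    have : w = 1 := by rw [← e.apply_symm_apply w, ← hv, h, he1]
    simp [this] at hw
  have hvo : orderOf v = 11 := by
    refine ((Nat.dvd_prime (by norm_num : Nat.Prime 11)).mp ?_).resolve_left
      (fun h => hv1 (orderOf_eq_one_iff.mp h))
    rw [← hCv]
    exact Subgroup.orderOf_dvd_natCard _ (Subgroup.mem_centralizer_singleton_iff.mpr rfl)
  have hH : Cfsg.IsM11 H :=
    ⟨Cfsg.Agent.Recog.ElevenSC.isSimpleGroup hcard v hvo hCv, hcard⟩
  have hM : Cfsg.IsM11 ↥Cfsg.Spor.M11 := ⟨Cfsg.Agent.Golay.isSimpleGroup_M11, Cfsg.Agent.Golay.card_M11⟩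
  have hd := Cfsg.Agent.Golay.squareDodecad_mem
  obtain ⟨p, hp⟩ : Cfsg.Spor.squareDodecad.Nonempty := ⟨some 0, by decide +kernel⟩
  obtain ⟨a⟩ := Cfsg.Agent.S0420.result hH _ hd p hp
  obtain ⟨b⟩ := Cfsg.Agent.S0420.result hM _ hd p hp
  exact ⟨a.trans b.symm⟩

end Cfsg.Agent.S3413
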