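import Cfsg.Statements.S3427
import Cfsg.Agent.G2Two.Outer
import Cfsg.Agent.S1057
import Cfsg.Agent.S1059
import Cfsg.Agent.ChevGrp.FieldAut
import Cfsg.Agent.H66.G2Two.Spectrum

set_option autoImplicit false
set_option linter.style.haveILetI false
open Cfsg

namespace Cfsg.Agent.S3427

/-- The arithmetic of the group of type G2 over two elements. -/
theorem oHyp {F : Type*} [Field F] [Fintype F] (hF : Fintype.card F = 2) {K : Type} [Field K] [Fintype K]
    (hK : Fintype.card K = 9) : G2Two.OHyp ↥(Cfsg.Lie.chevG2.group F) := by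
  classical
  have hcard : Nat.card ↥(Cfsg.Lie.chevG2.group F) = 12096 := by
    have h := Cfsg.Agent.S1059.result (F := F) hF
    norm_num at h
    first | exact h | simpa using h
  haveI : Finite ↥(Cfsg.Lie.chevG2.group F) := Nat.finite_of_card_ne_zero (by rw [hcard]; norm_num)
  obtain ⟨e⟩ := Cfsg.Agent.S1057.result hF hK
  have hidx : (commutator ↥(Cfsg.Lie.chevG2.group F)).index = 2 := by
    have h := (commutator ↥(Cfsg.Lie.chevG2.group F)).index_mul_card
    rw [Nat.card_congr e.toEquiv, (G2Two.psu_facts hK).2.card, hcard] at h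
    omega
  have hodd : ∀ g : ↥(Cfsg.Lie.chevG2.group F), Odd (orderOf g) →
      orderOf g ∣ 7 ∨ orderOf g ∣ 8 ∨ orderOf g ∣ 12 := by
    intro g ⟨m, hm⟩
    have hg : g ∈ commutator ↥(Cfsg.Lie.chevG2.group F) := by
      have h2 := Subgroup.sq_mem_of_index_two hidx (g ^ (m + 1))
      have e' : (g ^ (m + 1)) ^ 2 = g := by
        rw [← pow_mul, show (m + 1) * 2 = orderOf g + 1 by omega, pow_succ, pow_orderOf_eq_one, one_mul]
      rwa [e'] at h2
    have h : orderOf g ∈ Set.range (orderOf : Cfsg.PSU 3 K 3 → ℕ) := ⟨e ⟨g, hg⟩, by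
      rw [e.orderOf_eq, ← Subgroup.orderOf_coe]⟩
    rw [RecogA.range_orderOf_psu_three_three hK] at h
    obtain ⟨d, hd, hdvd⟩ := h
    simp only [Finset.mem_insert, Finset.mem_singleton] at hd
    rcases hd with rfl | rfl | rfl
    · exact Or.inl hdvd
    · exact Or.inr (Or.inl hdvd)
    · exact Or.inr (Or.inr hdvd)
  refine ⟨hcard, fun g hg => ?_, fun g hg => ?_, fun g hg => ?_⟩
  · have := hodd g (by rw [hg]; decide)
    rw [hg] at this
    norm_num at this
  · let E := GaloisField 2 2
    letI : Fintype E := Fintype.ofFinite E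
    have hE : Fintype.card E = 4 := by
      rw [← Nat.card_eq_fintype_card, GaloisField.card 2 2 (by norm_num)]; norm_num
    let f : F →+* E :=
      (ZMod.castHom (dvd_refl 2) E).comp (ZMod.ringEquivOfPrime F Nat.prime_two hF).symm.toRingHom
    let φ := Matrix.GeneralLinearGroup.map (n := Cfsg.Lie.chevG2.Idx) f
    have hle : (Cfsg.Lie.chevG2.group F).map φ ≤ Cfsg.Lie.chevG2.group E := by
      refine (Subgroup.map_le_iff_le_comap).2 ((Subgroup.closure_le _).2 ?_)
      rintro x ⟨r, t, hx⟩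
      refine Subgroup.subset_closure ⟨r, f t, ?_⟩
      show (x : Matrix Cfsg.Lie.chevG2.Idx Cfsg.Lie.chevG2.Idx F).map f = _
      rw [hx, ChevGrp.xMat_map]
    have hφ : Function.Injective φ := fun a b h => Units.ext (Matrix.map_injective f.injective
      (congrArg (fun u : GL Cfsg.Lie.chevG2.Idx E => (u : Matrix Cfsg.Lie.chevG2.Idx Cfsg.Lie.chevG2.Idx E)) h))
    haveI : CharP E 2 := inferInstance
    obtain ⟨m, hm, hd⟩ := Cfsg.Agent.H66.G2Two.orderOf_dvd_goals hE le_rfl
      (⟨φ g.1, hle ⟨g.1, g.2, rfl⟩⟩ : ↥(Cfsg.Lie.chevG2.group E))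
    rw [← Subgroup.orderOf_coe, orderOf_injective φ hφ, Subgroup.orderOf_coe, hg] at hd
    simp only [Cfsg.Agent.H66.G2Two.goals, Set.mem_insert_iff, Set.mem_singleton_iff] at hm
    rcases hm with rfl | rfl | rfl | rfl | rfl | rfl | rfl <;> norm_num at hd
  · have := hodd g (by rw [hg]; decide)
    rw [hg] at this
    norm_num at this

/-- Let F be the field with 2 elements and let M be the Chevalley group of type G₂ over F (a non-simple group of order 12096 whose derived subgroup, of index 2, is isomorphic to PSU(3, 3)). A finite group G is isomorphic to M if and only if G has the same set of element orders and the same order as M. -/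
theorem result {G : Type*} [Group G] [Finite G] {F : Type*} [Field F] [Fintype F] (hF : Fintype.card F = 2) :
    Nonempty (G ≃* ↥(Cfsg.Lie.chevG2.group F)) ↔
      (Set.range (orderOf : G → ℕ) = Set.range (orderOf : ↥(Cfsg.Lie.chevG2.group F) → ℕ) ∧ Nat.card G = Nat.card ↥(Cfsg.Lie.chevG2.group F)) := by
  classical
  let K := GaloisField 3 2
  letI : Fintype K := Fintype.ofFinite K
  have hK : Fintype.card K = 9 := by
    rw [← Nat.card_eq_fintype_card, GaloisField.card 3 2 (by norm_num)]; norm_num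
  constructor
  · rintro ⟨e⟩
    refine ⟨?_, Nat.card_congr e.toEquiv⟩
    ext n
    exact ⟨fun ⟨g, hg⟩ => ⟨e g, by rw [e.orderOf_eq]; exact hg⟩,
      fun ⟨g, hg⟩ => ⟨e.symm g, by rw [e.symm.orderOf_eq]; exact hg⟩⟩
  rintro ⟨hspec, hcard⟩
  have hM : G2Two.OHyp ↥(Cfsg.Lie.chevG2.group F) := oHyp hF hK
  have hG : G2Two.OHyp G := by
    have key : ∀ n, (∀ g : ↥(Cfsg.Lie.chevG2.group F), orderOf g ≠ n) → ∀ g : G, orderOf g ≠ n := by
      intro n h g hg
      have : n ∈ Set.range (orderOf : G → ℕ) := ⟨g, hg⟩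
      rw [hspec] at this
      obtain ⟨m, hm⟩ := this
      exact h m hm
    exact ⟨hcard.trans hM.card, key 9 hM.nine, key 14 hM.fourteen, key 21 hM.twentyOne⟩
  obtain ⟨e₁⟩ := G2Two.nonempty_mulEquiv_mulAut hG hK
  obtain ⟨e₂⟩ := G2Two.nonempty_mulEquiv_mulAut hM hK
  exact ⟨e₁.trans e₂.symm⟩

end Cfsg.Agent.S3427
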