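import Cfsg.Statements.S3488
import Cfsg.Agent.RecogA.AffineSL24

set_option autoImplicit false
open Cfsg

namespace Cfsg.Agent.S3488

/-- Let F be the field with four elements. The affine group F² ⋊ SL(2,F), realised as the subgroup of SL(3,F) of matrices with last row (0, 0, 1), has exactly the same set of element orders as the alternating group of degree 6 (namely {1, 2, 3, 4, 5}); so the alternating group of degree 6 is not determined by its element orders. -/
theorem result {F : Type*} [Field F] [Fintype F] (hF : Fintype.card F = 4) :
    Set.range (orderOf : Subgroup.closure {M : Matrix.SpecialLinearGroup (Fin 3) F |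
        (M : Matrix (Fin 3) (Fin 3) F) 2 0 = 0 ∧ (M : Matrix (Fin 3) (Fin 3) F) 2 1 = 0 ∧ (M : Matrix (Fin 3) (Fin 3) F) 2 2 = 1} → ℕ) =
      Set.range (orderOf : alternatingGroup (Fin 6) → ℕ) := by
  rw [Cfsg.Agent.RecogA.closure_affineSL, Cfsg.Agent.RecogA.range_orderOf_affineSL hF,
    Cfsg.Agent.RecogA.range_orderOf_A6]

end Cfsg.Agent.S3488
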