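import Cfsg.Statements.S3497
import Cfsg.Agent.RecogA.ExtremeStabilizer

set_option autoImplicit false
open Cfsg

namespace Cfsg.Agent.S3497

/-- Restrictions on the point stabilizer of an extremely primitive group. Let a finite group G act faithfully and primitively on a finite set Ω with point stabilizers H = G_α whose order is neither 1 nor a prime, each acting primitively on every one of its orbits. Then H has trivial center, the Fitting subgroup F(H) is an elementary abelian p-group for some prime p, and if F(H) ≠ 1 has order p ^ e then p ^ e divides the number of points minus one and H / F(H) embeds in GL_e(p) (there is a homomorphism from H to GL_e(p) with kernel exactly F(H)). -/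
theorem result {G : Type*} [Group G] [Finite G] {Ω : Type*} [Fintype Ω] [MulAction G Ω] [FaithfulSMul G Ω] (hprim : MulAction.IsPreprimitive G Ω) (hep : ∀ (α : Ω) (ω : Ω), MulAction.IsPreprimitive (MulAction.stabilizer G α) (MulAction.orbit (MulAction.stabilizer G α) ω)) (α : Ω)
    (hH1 : MulAction.stabilizer G α ≠ ⊥) (hHp : ¬ (Nat.card (MulAction.stabilizer G α)).Prime) :
    Subgroup.center (MulAction.stabilizer G α) = ⊥ ∧
    IsMulCommutative (Cfsg.fittingSubgroup (MulAction.stabilizer G α)) ∧
    ∃ p e : ℕ, p.Prime ∧ Nat.card (Cfsg.fittingSubgroup (MulAction.stabilizer G α)) = p ^ e ∧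
      (∀ x ∈ Cfsg.fittingSubgroup (MulAction.stabilizer G α), x ^ p = 1) ∧
      (Cfsg.fittingSubgroup (MulAction.stabilizer G α) ≠ ⊥ →
        p ^ e ∣ Fintype.card Ω - 1 ∧
        ∃ φ : MulAction.stabilizer G α →* GL (Fin e) (ZMod p), φ.ker = Cfsg.fittingSubgroup (MulAction.stabilizer G α)) := by
  classical
  haveI : MulAction.IsPretransitive G Ω := hprim.toIsPretransitive
  have hH : ∀ a : Ω, MulAction.stabilizer G a ≠ ⊥ := by
    intro a h
    obtain ⟨g, hg⟩ := MulAction.exists_smul_eq G a α
    rw [← hg, MulAction.stabilizer_smul_eq_stabilizer_map_conj, h, Subgroup.map_bot] at hH1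
    exact hH1 rfl
  refine ⟨Cfsg.Agent.RecogA.center_stabilizer_eq_bot hprim hH hep hHp, ?_⟩
  by_cases hF : Cfsg.fittingSubgroup (MulAction.stabilizer G α) = ⊥
  · rw [hF]
    refine ⟨⟨⟨fun _ _ => Subsingleton.elim _ _⟩⟩, 2, 0, Nat.prime_two, by simp, ?_, ?_⟩
    · intro x hx
      rw [Subgroup.mem_bot.1 hx, one_pow]
    · intro h
      exact absurd rfl h
  obtain ⟨A, hAdef, hAne, hAle, hAn, hab, p, e, hp, -, hcard, hexp⟩ :=
    Cfsg.Agent.RecogA.fitting_facts hprim hH hep hF
  haveI : Fact p.Prime := ⟨hp⟩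
  set F := Cfsg.fittingSubgroup (MulAction.stabilizer G α) with hFdef
  haveI : F.Normal := Cfsg.Agent.Cores.fittingSubgroup_normal_inst _
  have hmem : ∀ x ∈ F, (x : G) ∈ A := fun x hx => hAdef ▸ ⟨x, hx, rfl⟩
  have habF : ∀ a b : F, a * b = b * a := fun a b =>
    Subtype.ext (Subtype.ext (hab _ (hmem a a.2) _ (hmem b b.2)))
  have hexpF : ∀ x ∈ F, x ^ p = 1 := fun x hx => Subtype.ext (hexp _ (hmem x hx))
  have hcF : Nat.card F = p ^ e := by
    rw [← hcard, hAdef]
    exact Nat.card_congr (Subgroup.equivMapOfInjective F _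
      (MulAction.stabilizer G α).subtype_injective).toEquiv
  refine ⟨⟨⟨habF⟩⟩, p, e, hp, hcF, hexpF, fun _ => ⟨?_, ?_⟩⟩
  · rw [← hcard, ← Nat.card_eq_fintype_card]
    exact Cfsg.Agent.RecogA.card_dvd_card_sub_one hAle fun a ha ω hω hfix =>
      Cfsg.Agent.RecogA.eq_one_of_commute_normal hprim hH hep hAne hAle hAn
        (MulAction.mem_stabilizer_iff.1 (hAle ha)) (fun b hb => hab a ha b hb) hω hfix
  · obtain ⟨φ, hφ⟩ := Cfsg.Agent.RecogA.exists_matrix_hom F habF
      (fun a => Subtype.ext (hexpF a a.2)) hcF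
    refine ⟨φ, ?_⟩
    rw [hφ]
    ext c
    constructor
    · intro hc
      have hcA : (c : G) ∈ A := Cfsg.Agent.RecogA.mem_of_commute_normal hprim hH hep hAne hAle hAn
        hab c.2 (fun a ha => by
          rw [hAdef] at ha
          obtain ⟨f, hf, rfl⟩ := ha
          exact (congrArg Subtype.val (hc f hf)).symm)
      rw [hAdef] at hcA
      obtain ⟨f, hf, hfc⟩ := hcA
      exact (Subtype.ext hfc : f = c) ▸ hf
    · intro hc f hf
      exact congrArg Subtype.val (habF ⟨f, hf⟩ ⟨c, hc⟩)

end Cfsg.Agent.S3497
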