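import Cfsg.Statements.S3498
import Cfsg.Agent.RecogA.MaximalPrimeOrder

set_option autoImplicit false
open Cfsg

namespace Cfsg.Agent.S3498

/-- A maximal subgroup of a finite almost simple group does not have prime order. Here G is almost simple in the sense that it has a non-abelian simple normal subgroup T with trivial centralizer. -/
theorem result {G : Type*} [Group G] [Finite G] (T : Subgroup G) [T.Normal] (hT : IsSimpleGroup T) (hTc : ¬ IsMulCommutative T)
    (hC : Subgroup.centralizer (T : Set G) = ⊥) (H : Subgroup G) (hmax : IsCoatom H) : ¬ (Nat.card H).Prime := by
  exact Cfsg.Agent.RecogA.maximal_not_prime_order T hT hTc hC H hmax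

end Cfsg.Agent.S3498
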