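import Cfsg.Statements.S3504
import Cfsg.Agent.RecogA.SymDerangements

set_option autoImplicit false
open Cfsg

namespace Cfsg.Agent.S3504

/-- For n ≥ 5, the fixed-point-free permutations of prime order in the symmetric group of degree n form a single conjugacy class if and only if n is a prime power. -/
theorem result (n : ℕ) (hn : 5 ≤ n) :
    Nat.card {c : ConjClasses (Equiv.Perm (Fin n)) // ∃ g : Equiv.Perm (Fin n), ConjClasses.mk g = c ∧ (orderOf g).Prime ∧ ∀ i : Fin n, g i ≠ i} = 1 ↔ IsPrimePow n := by
  rw [Cfsg.Agent.RecogA.card_derangement_classes_prime_order, isPrimePow_iff_card_primeFactors_eq_one]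

end Cfsg.Agent.S3504
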