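import Cfsg.Statements.S3508
import Cfsg.Agent.RecogA.AffineExponent

set_option autoImplicit false
open Cfsg

namespace Cfsg.Agent.S3508

/-- Let a finite group G act faithfully on a set Ω with p ^ m points (p prime) and have an elementary abelian normal p-subgroup N acting regularly on Ω (so G is a group of affine transformations of an m-dimensional space over the field with p elements). If G contains an element of order p ^ r with r ≥ 1, then p ^ (r − 1) ≤ m. In particular an element of order p ^ m forces m ≤ 2, and m ≤ 1 when p is odd. -/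
theorem result {G : Type*} [Group G] [Finite G] {Ω : Type*} [Fintype Ω] [MulAction G Ω] [FaithfulSMul G Ω] (p m : ℕ) (hp : p.Prime) (hcard : Fintype.card Ω = p ^ m)
    (N : Subgroup G) [N.Normal] (hNc : IsMulCommutative N) (hNp : ∀ n ∈ N, n ^ p = 1)
    (hNtr : MulAction.IsPretransitive N Ω) (hNreg : ∀ ω : Ω, MulAction.stabilizer N ω = ⊥)
    (g : G) (r : ℕ) (hr : 1 ≤ r) (hg : orderOf g = p ^ r) :
    p ^ (r - 1) ≤ m ∧ (r = m → m ≤ 2 ∧ (2 < p → m ≤ 1)) := by
  have h := Cfsg.Agent.RecogA.pow_sub_one_le_of_orderOf hp hcard N hNc hNp hNtr hNreg hr hg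
  refine ⟨h, fun hrm => ?_⟩
  subst hrm
  exact Cfsg.Agent.RecogA.small_of_pow_pred_le hp h

end Cfsg.Agent.S3508
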