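import Cfsg.Statements.S3511
-- import your own Cfsg.Agent.* helpers here

set_option autoImplicit false
open Cfsg

set_option linter.style.haveILetI false

namespace Cfsg.Agent.S3511

/-- Let a finite group G act faithfully on a set Ω. If every element of G of square-free order has a regular cycle (an orbit of the cyclic group it generates with trivial stabilizer), then every element of G has a regular cycle. -/
theorem result {G : Type*} [Group G] [Finite G] {Ω : Type*} [MulAction G Ω] [FaithfulSMul G Ω]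
    (h : ∀ g : G, Squarefree (orderOf g) → ∃ ω : Ω, MulAction.stabilizer (Subgroup.zpowers g) ω = ⊥) (g : G) :
    ∃ ω : Ω, MulAction.stabilizer (Subgroup.zpowers g) ω = ⊥ := by
  classical
  rcases Nat.eq_zero_or_pos (orderOf g) with h0 | hpos
  · exact absurd h0 (orderOf_pos g).ne'
  obtain ⟨s, hs⟩ : (∏ p ∈ (orderOf g).primeFactors, p) ∣ orderOf g :=
    Nat.prod_primeFactors_dvd _
  set r := ∏ p ∈ (orderOf g).primeFactors, p with hr
  have hs0 : s ≠ 0 := fun e => (orderOf_pos g).ne' (by rw [hs, e, mul_zero])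
  have hh : orderOf (g ^ s) = r := by
    rw [orderOf_pow_of_dvd hs0 ⟨r, by rw [hs, mul_comm]⟩, hs,
      Nat.mul_div_cancel _ (Nat.pos_of_ne_zero hs0)]
  have hsq : Squarefree (orderOf (g ^ s)) := by
    rw [hh, hr]
    refine Finset.squarefree_prod_of_pairwise_isCoprime ?_ ?_
    · intro p hp q hq hne
      have hp' := (Nat.mem_primeFactors.mp hp).1
      have hq' := (Nat.mem_primeFactors.mp hq).1
      exact Nat.coprime_iff_isRelPrime.mp ((Nat.coprime_primes hp' hq').mpr hne)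
    · intro p hp
      exact (Nat.mem_primeFactors.mp hp).1.prime.squarefree
  obtain ⟨ω, hω⟩ := h _ hsq
  refine ⟨ω, ?_⟩
  by_contra hne
  obtain ⟨⟨⟨z, hz⟩, hzmem⟩, hzne⟩ := Subgroup.ne_bot_iff_exists_ne_one.mp hne
  have hz1 : (⟨z, hz⟩ : Subgroup.zpowers g) ≠ 1 := fun e => hzne (Subtype.ext e)
  obtain ⟨j, rfl⟩ := Subgroup.mem_zpowers_iff.mp hz
  obtain ⟨p, hp, hpd⟩ := Nat.exists_prime_and_dvd (n := orderOf (g ^ j))
    (fun e => hz1 (Subtype.ext (orderOf_eq_one_iff.mp e)))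
  obtain ⟨t, ht⟩ := hpd
  -- `w = g ^ (j * t)` has order `p` and fixes `ω`
  have hwp : (g ^ j) ^ (t : ℕ) ≠ 1 := by
    intro e
    have h1 := orderOf_dvd_of_pow_eq_one e
    have ht0 : t ≠ 0 := by rintro rfl; simp [(orderOf_pos (g ^ j)).ne'] at ht
    have := Nat.le_of_dvd (Nat.pos_of_ne_zero ht0) h1
    rw [ht] at this
    nlinarith [hp.two_le, Nat.pos_of_ne_zero ht0]
  have hfix : ((g ^ j) ^ (t : ℕ)) • ω = ω :=
    (MulAction.stabilizer G ω).pow_mem (hzmem : (g ^ j) • ω = ω) t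
  have hp1 : g ^ (j * t * p) = 1 := by
    rw [zpow_mul, zpow_mul, zpow_natCast, zpow_natCast, ← pow_mul, mul_comm t p, ← ht,
      pow_orderOf_eq_one]
  have hdvd : (orderOf g : ℤ) ∣ j * t * p := orderOf_dvd_iff_zpow_eq_one.mpr hp1
  -- hence `s ∣ j * t`, so `w` lies in `⟨g ^ s⟩`
  have hpmem : p ∈ (orderOf g).primeFactors := by
    refine Nat.mem_primeFactors.mpr ⟨hp, ?_, hpos.ne'⟩
    have h1 : p ∣ orderOf (g ^ j) := ⟨t, ht⟩
    exact h1.trans (orderOf_dvd_of_mem_zpowers hz)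
  obtain ⟨r', hr'⟩ := Finset.dvd_prod_of_mem (fun q => q) hpmem
  have hsdvd : (s : ℤ) ∣ j * t := by
    have e : (orderOf g : ℤ) = (r' * s : ℕ) * p := by
      rw [hs, hr, hr']; push_cast; ring
    rw [e] at hdvd
    have := (mul_dvd_mul_iff_right (by exact_mod_cast hp.ne_zero : (p : ℤ) ≠ 0)).mp hdvd
    exact (dvd_trans (by exact_mod_cast dvd_mul_left s r') this)
  obtain ⟨k, hk⟩ := hsdvd
  have hmem : (g ^ j) ^ (t : ℕ) ∈ Subgroup.zpowers (g ^ s) := by
    refine ⟨k, ?_⟩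
    change (g ^ s) ^ k = _
    rw [← zpow_natCast, ← zpow_natCast (g ^ j), ← zpow_mul, ← zpow_mul, hk]
  have : (⟨_, hmem⟩ : Subgroup.zpowers (g ^ s)) ∈ MulAction.stabilizer (Subgroup.zpowers (g ^ s)) ω :=
    hfix
  rw [hω, Subgroup.mem_bot] at this
  exact hwp (congrArg Subtype.val this)

end Cfsg.Agent.S3511
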