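import Cfsg.Statements.S3514
-- import your own Cfsg.Agent.* helpers here

set_option autoImplicit false
open Cfsg

set_option linter.style.haveILetI false

namespace Cfsg.Agent.S3514

/-- Let p be a prime, V a finite vector space over the field with p elements, and H a group of linear transformations of V all of whose orbits on V have size coprime to p. (i) Every normal subgroup K of H has all its orbits on V of size coprime to p. (ii) If N is a group of linear transformations of V of order coprime to p that is normalized by H, then the group generated by N and H has all its orbits on V of size coprime to p. -/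
theorem result (p : ℕ) [Fact p.Prime] {V : Type*} [AddCommGroup V] [Module (ZMod p) V] [Finite V]
    (H : Subgroup (V ≃ₗ[ZMod p] V)) (hH : ∀ v : V, ¬ p ∣ Nat.card {u : V | ∃ h ∈ H, h v = u}) :
    (∀ K : Subgroup (V ≃ₗ[ZMod p] V), K ≤ H → H ≤ Subgroup.normalizer (K : Set (V ≃ₗ[ZMod p] V)) →
        ∀ v : V, ¬ p ∣ Nat.card {u : V | ∃ k ∈ K, k v = u}) ∧
    (∀ N : Subgroup (V ≃ₗ[ZMod p] V), ¬ p ∣ Nat.card N → H ≤ Subgroup.normalizer (N : Set (V ≃ₗ[ZMod p] V)) →
        ∀ v : V, ¬ p ∣ Nat.card {u : V | ∃ x ∈ N ⊔ H, x v = u}) := by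
  classical
  haveI : Finite (V ≃ₗ[ZMod p] V) := Finite.of_injective _ DFunLike.coe_injective
  have key : ∀ K : Subgroup (V ≃ₗ[ZMod p] V), H ≤ Subgroup.normalizer (K : Set (V ≃ₗ[ZMod p] V)) →
      ∀ v : V, ∃ m : ℕ, Nat.card {u : V | ∃ x ∈ K ⊔ H, x v = u} =
        Nat.card {u : V | ∃ k ∈ K, k v = u} * m ∧
        m ∣ Nat.card {u : V | ∃ h ∈ H, h v = u} := by
    intro K hK v
    have hconv : ∀ (L : Subgroup (V ≃ₗ[ZMod p] V)),
        Nat.card {u : V | ∃ x ∈ L, x v = u} = (MulAction.stabilizer L v).index := by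
      intro L
      rw [MulAction.index_stabilizer, Nat.card_coe_set_eq]
      congr 1
      ext u
      exact ⟨fun ⟨x, hx, e⟩ => ⟨⟨x, hx⟩, e⟩, fun ⟨⟨x, hx⟩, e⟩ => ⟨x, hx, e⟩⟩
    set A := MulAction.stabilizer (V ≃ₗ[ZMod p] V) v
    have hrel : ∀ L : Subgroup (V ≃ₗ[ZMod p] V),
        Nat.card {u : V | ∃ x ∈ L, x v = u} = A.relIndex L := fun L => by
      rw [hconv L]; rfl
    rw [hrel, hrel, hrel]
    -- `A ∩ (K ⊔ H) ≤ K(A ∩ (K ⊔ H)) ≤ K ⊔ H`
    set L := K ⊔ H
    have hKn : (K.subgroupOf L).Normal :=
      Subgroup.normal_subgroupOf_iff_le_normalizer le_sup_left |>.mpr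
        (sup_le Subgroup.le_normalizer hK)
    haveI := hKn
    set K' := K.subgroupOf L
    set A' := A.subgroupOf L
    set H' := H.subgroupOf L
    refine ⟨(K' ⊔ A').index, ?_, ?_⟩
    · change A'.index = _
      have hswap : A'.relIndex (K' ⊔ A') = A'.relIndex K' := by
        have hc1 : K'.relIndex (K' ⊔ A') = K'.relIndex A' := Subgroup.relIndex_sup_left A' K'
        have hmul : ∀ {P Q : Subgroup L}, P ≤ Q → Nat.card P * P.relIndex Q = Nat.card Q := by
          intro P Q h
          rw [Subgroup.relIndex, ← Nat.card_congr (Subgroup.subgroupOfEquivOfLe h).toEquiv]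
          exact (P.subgroupOf Q).card_mul_index
        have e1 := hmul (le_sup_left : K' ≤ K' ⊔ A')
        have e2 := hmul (le_sup_right : A' ≤ K' ⊔ A')
        have e3 := hmul (inf_le_left : K' ⊓ A' ≤ K')
        have e4 := hmul (inf_le_right : K' ⊓ A' ≤ A')
        rw [Subgroup.inf_relIndex_left] at e3
        rw [Subgroup.inf_relIndex_right, ← hc1] at e4
        have hpos : 0 < Nat.card A' := Nat.card_pos
        apply Nat.eq_of_mul_eq_mul_left hpos
        rw [e2, ← e1, ← e3, ← e4]
        ring
      rw [← Subgroup.relIndex_mul_index (le_sup_right : A' ≤ K' ⊔ A'), hswap,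
        Subgroup.relIndex_subgroupOf le_sup_left]
    · have h1 : (K' ⊔ A').relIndex H' = (K' ⊔ A').index := by
        rw [← Subgroup.relIndex_top_right]
        have htop : (⊤ : Subgroup L) = H' ⊔ K' := by
          rw [← Subgroup.subgroupOf_sup le_sup_right le_sup_left, sup_comm H K,
            Subgroup.subgroupOf_self]
        rw [htop]
        -- every element of `H ⊔ K` is congruent to one of `H` modulo `K`
        have hH : H' ⊔ K' ≤ H' ⊔ (K' ⊔ A') := sup_le_sup_left le_sup_left _
        refine le_antisymm (Subgroup.relIndex_le_of_le_right le_sup_left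
          Subgroup.index_ne_zero_of_finite) ?_
        rw [← htop, Subgroup.relIndex_top_right]
        have hsurj : Function.Surjective (fun h : H' ⧸ (K' ⊔ A').subgroupOf H' =>
            Quotient.liftOn' h (fun x : H' => ((x : L) : L ⧸ (K' ⊔ A'))) (fun a b hab => by
              rw [QuotientGroup.leftRel_apply] at hab
              exact QuotientGroup.eq.mpr hab)) := by
          intro q
          obtain ⟨x, rfl⟩ := QuotientGroup.mk_surjective q
          have hx : x ∈ ((H' ⊔ K' : Subgroup L) : Set L) := htop ▸ Subgroup.mem_top x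
          rw [Subgroup.mul_normal] at hx
          obtain ⟨h, hh, k, hk, rfl⟩ := hx
          refine ⟨((⟨h, hh⟩ : H') : H' ⧸ (K' ⊔ A').subgroupOf H'), ?_⟩
          change ((h : L) : L ⧸ (K' ⊔ A')) = _
          rw [QuotientGroup.eq]
          simpa using Subgroup.mem_sup_left (T := A') hk
        exact Nat.card_le_card_of_surjective _ hsurj
      rw [← h1]
      refine (Subgroup.relIndex_dvd_of_le_left _ le_sup_right).trans ?_
      rw [Subgroup.relIndex_subgroupOf le_sup_right]
  constructor
  · intro K hKH hK v hdvd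
    obtain ⟨m, h1, -⟩ := key K hK v
    rw [sup_eq_right.mpr hKH] at h1
    exact hH v (h1 ▸ hdvd.mul_right m)
  · intro N hN hNH v
    obtain ⟨m, h1, h2⟩ := key N hNH v
    rw [h1]
    intro hdvd
    rcases (Nat.Prime.dvd_mul Fact.out).mp hdvd with h | h
    · apply hN
      refine h.trans ?_
      have e : {u : V | ∃ k ∈ N, k v = u} = MulAction.orbit N v := by
        ext u
        exact ⟨fun ⟨x, hx, e⟩ => ⟨⟨x, hx⟩, e⟩, fun ⟨⟨x, hx⟩, e⟩ => ⟨x, hx, e⟩⟩
      rw [e, Nat.card_coe_set_eq, ← MulAction.index_stabilizer]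
      exact Subgroup.index_dvd_card _
    · exact hH v (h.trans h2)

end Cfsg.Agent.S3514
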