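import Cfsg.Statements.S3515
import Cfsg.Agent.PrimStruct.AffineClosure
-- import your own Cfsg.Agent.* helpers here

set_option autoImplicit false
open Cfsg

set_option linter.style.haveILetI false

namespace Cfsg.Agent.S3515

/-- Every primitive affine permutation group of degree p² is 3-closed. Let p be a prime and G a group of permutations of the plane V = F_p² consisting of affine maps x ↦ Ax + b, containing all translations, and acting primitively on V. Then any permutation σ of V that agrees on every triple of points with some element of G (σ preserves every G-orbit on ordered triples) already lies in G. -/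
theorem result (p : ℕ) [Fact p.Prime] (G : Subgroup (Equiv.Perm (Fin 2 → ZMod p)))
    (haff : (G : Set (Equiv.Perm (Fin 2 → ZMod p))) ⊆ {τ : Equiv.Perm (Fin 2 → ZMod p) | ∃ (A : (Fin 2 → ZMod p) ≃ₗ[ZMod p] (Fin 2 → ZMod p)) (b : Fin 2 → ZMod p), ∀ x, τ x = A x + b})
    (htrans : ∀ b : Fin 2 → ZMod p, ∃ g ∈ G, ∀ x, g x = x + b) (hprim : MulAction.IsPreprimitive G (Fin 2 → ZMod p))
    (σ : Equiv.Perm (Fin 2 → ZMod p)) (hσ : (∀ t : Fin 3 → (Fin 2 → ZMod p), ∃ g ∈ G, ∀ i, σ (t i) = g (t i))) : σ ∈ G := by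
  classical
  have hcases : ∀ a : ZMod 2, a = 0 ∨ a = 1 := by decide
  let e₁ : Fin 2 → ZMod p := Pi.single 0 1
  let e₂ : Fin 2 → ZMod p := Pi.single 1 1
  obtain ⟨g, hg, hgt⟩ := hσ ![0, e₁, e₂]
  suffices g⁻¹ * σ = 1 by rw [← inv_mul_eq_one.mp this]; exact hg
  set τ := g⁻¹ * σ with hτdef
  have hτ : ∀ t : Fin 3 → (Fin 2 → ZMod p), ∃ k ∈ G, ∀ i, τ (t i) = k (t i) := by
    intro t
    obtain ⟨k, hk, hkt⟩ := hσ t
    exact ⟨g⁻¹ * k, G.mul_mem (G.inv_mem hg) hk, fun i => congrArg (fun y => (g⁻¹ : Equiv.Perm (Fin 2 → ZMod p)) y) (hkt i)⟩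
  have hfix : ∀ i, τ (![0, e₁, e₂] i) = ![0, e₁, e₂] i := by
    intro i
    change g⁻¹ (σ _) = _
    rw [hgt i]
    exact g.symm_apply_apply _
  have h0 : τ 0 = 0 := hfix 0
  have h1 : τ e₁ = e₁ := hfix 1
  have h2 : τ e₂ = e₂ := hfix 2
  have haff' : ∀ t : Fin 3 → (Fin 2 → ZMod p),
      ∃ (A : (Fin 2 → ZMod p) ≃ₗ[ZMod p] (Fin 2 → ZMod p)) (b : Fin 2 → ZMod p),
        ∀ i, τ (t i) = A (t i) + b := by
    intro t
    obtain ⟨k, hk, hkt⟩ := hτ t
    obtain ⟨A, b, hA⟩ := haff hk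
    exact ⟨A, b, fun i => (hkt i).trans (hA _)⟩
  ext1 x
  change τ x = x
  have hx : x = x 0 • e₁ + x 1 • e₂ := by
    ext j; fin_cases j <;> simp [e₁, e₂]
  by_cases hp : p = 2
  · subst hp
    by_contra hne
    -- the four points are `0, e₁, e₂, e₁ + e₂`; three are fixed
    have hall : ∀ y : Fin 2 → ZMod 2, y = 0 ∨ y = e₁ ∨ y = e₂ ∨ y = e₁ + e₂ := by
      intro y
      have hy : y = y 0 • e₁ + y 1 • e₂ := by ext j; fin_cases j <;> simp [e₁, e₂]
      rcases hcases (y 0) with a | a <;> rcases hcases (y 1) with b | b <;>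
        rw [a, b] at hy <;> simp at hy <;> tauto
    have hnf : τ (τ x) ≠ τ x := fun e => hne (τ.injective e)
    rcases hall x with rfl | rfl | rfl | rfl
    · exact hne h0
    · exact hne h1
    · exact hne h2
    · rcases hall (τ (e₁ + e₂)) with e | e | e | e
      · exact hnf (by rw [e, h0])
      · exact hnf (by rw [e, h1])
      · exact hnf (by rw [e, h2])
      · exact hne e
  · have hadd := PrimStruct.additive_of_threeClosure hp τ h0 haff'
    let f : (Fin 2 → ZMod p) →+ (Fin 2 → ZMod p) := AddMonoidHom.mk' τ hadd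
    have hlin : ∀ (c : ZMod p) y, τ (c • y) = c • τ y := fun c y => map_smul (f.toZModLinearMap p) c y
    calc τ x = τ (x 0 • e₁ + x 1 • e₂) := congrArg τ hx
      _ = x := by rw [hadd, hlin, hlin, h1, h2, ← hx]

end Cfsg.Agent.S3515
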