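import Cfsg.Statements.S3516
import Cfsg.Agent.PrimStruct.AffineClosure
-- import your own Cfsg.Agent.* helpers here

set_option autoImplicit false
open Cfsg

set_option linter.style.haveILetI false

namespace Cfsg.Agent.S3516

/-- Let p be an odd prime, d ≥ 3, and G a group of affine permutations x ↦ Ax + b of V = F_p^d containing all translations and all maps x ↦ Ax with A of determinant 1. Then the 3-closure of G is the full affine group: a permutation σ of V agrees on every triple of points with some element of G if and only if σ is an affine map. -/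
theorem result (p : ℕ) [Fact p.Prime] (hp : p ≠ 2) (d : ℕ) (hd : 3 ≤ d) (G : Subgroup (Equiv.Perm (Fin d → ZMod p)))
    (haff : (G : Set (Equiv.Perm (Fin d → ZMod p))) ⊆ {τ : Equiv.Perm (Fin d → ZMod p) | ∃ (A : (Fin d → ZMod p) ≃ₗ[ZMod p] (Fin d → ZMod p)) (b : Fin d → ZMod p), ∀ x, τ x = A x + b})
    (htrans : ∀ b : Fin d → ZMod p, ∃ g ∈ G, ∀ x, g x = x + b)
    (hsl : ∀ A : (Fin d → ZMod p) ≃ₗ[ZMod p] (Fin d → ZMod p), LinearMap.det (A : (Fin d → ZMod p) →ₗ[ZMod p] (Fin d → ZMod p)) = 1 → ∃ g ∈ G, ∀ x, g x = A x)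
    (σ : Equiv.Perm (Fin d → ZMod p)) :
    (∀ t : Fin 3 → (Fin d → ZMod p), ∃ g ∈ G, ∀ i, σ (t i) = g (t i)) ↔ σ ∈ {τ : Equiv.Perm (Fin d → ZMod p) | ∃ (A : (Fin d → ZMod p) ≃ₗ[ZMod p] (Fin d → ZMod p)) (b : Fin d → ZMod p), ∀ x, τ x = A x + b} := by
  classical
  constructor
  · intro hσ
    exact PrimStruct.affine_of_threeClosure hp σ fun t => by
      obtain ⟨g, hg, hgt⟩ := hσ t
      obtain ⟨A, b, hA⟩ := haff hg
      exact ⟨A, b, fun i => (hgt i).trans (hA _)⟩
  rintro ⟨A, b, hσ⟩ t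
  -- a linear map fixing the two differences with determinant `(det A)⁻¹`
  let W : Submodule (ZMod p) (Fin d → ZMod p) :=
    Submodule.span (ZMod p) (Set.range ![t 1 - t 0, t 2 - t 0])
  have hW : W < ⊤ := by
    refine lt_top_iff_ne_top.mpr fun e => ?_
    have h1 := finrank_range_le_card (R := ZMod p) ![t 1 - t 0, t 2 - t 0]
    rw [Set.finrank, show Submodule.span (ZMod p) (Set.range ![t 1 - t 0, t 2 - t 0]) = ⊤ from e,
      finrank_top, Module.finrank_fin_fun, Fintype.card_fin] at h1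
    omega
  obtain ⟨φ, hφ, hφW⟩ := W.exists_le_ker_of_lt_top hW
  obtain ⟨v, hv⟩ : ∃ v, φ v = 1 := by
    obtain ⟨w, hw⟩ := DFunLike.ne_iff.mp hφ
    exact ⟨(φ w)⁻¹ • w, by rw [map_smul, smul_eq_mul, inv_mul_cancel₀ hw]⟩
  set a := LinearMap.det (A : (Fin d → ZMod p) →ₗ[ZMod p] (Fin d → ZMod p)) with ha
  have ha0 : a ≠ 0 := (LinearEquiv.isUnit_det' A).ne_zero
  let T := LinearMap.transvection φ ((a⁻¹ - 1) • v)
  have hdetT : LinearMap.det T = a⁻¹ := by
    rw [LinearMap.transvection.det, map_smul, hv, smul_eq_mul, mul_one]; ring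
  let B0 : (Fin d → ZMod p) →ₗ[ZMod p] (Fin d → ZMod p) :=
    (A : (Fin d → ZMod p) →ₗ[ZMod p] (Fin d → ZMod p)) ∘ₗ T
  have hdetB : LinearMap.det B0 = 1 := by
    rw [LinearMap.det_comp, ← ha, hdetT, mul_inv_cancel₀ ha0]
  let B := LinearMap.equivOfDetNeZero B0 (by rw [hdetB]; exact one_ne_zero)
  have hBapp : ∀ x, B x = A (x + φ x • ((a⁻¹ - 1) • v)) := fun x => rfl
  obtain ⟨g, hg, hgB⟩ := hsl B (by exact hdetB)
  obtain ⟨s, hs, hsx⟩ := htrans (A (t 0) - B (t 0) + b)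
  refine ⟨s * g, G.mul_mem hs hg, fun i => ?_⟩
  rw [Equiv.Perm.mul_apply, hgB, hsx, hσ]
  have hmem : t i - t 0 ∈ W := by
    fin_cases i
    · simp
    · exact Submodule.subset_span ⟨0, rfl⟩
    · exact Submodule.subset_span ⟨1, rfl⟩
  have hB' : B (t i - t 0) = A (t i - t 0) := by
    rw [hBapp, show φ (t i - t 0) = 0 from hφW hmem, zero_smul, add_zero]
  rw [map_sub, map_sub] at hB'
  rw [sub_eq_sub_iff_add_eq_add] at hB'
  calc A (t i) + b = (B (t i) + A (t 0)) - B (t 0) + b := by rw [hB']; abel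
    _ = B (t i) + (A (t 0) - B (t 0) + b) := by abel

end Cfsg.Agent.S3516
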