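import Cfsg.Statements.S3517
import Cfsg.Agent.PrimStruct.AffineClosure
-- import your own Cfsg.Agent.* helpers here

set_option autoImplicit false
open Cfsg

set_option linter.style.haveILetI false

namespace Cfsg.Agent.S3517

/-- For d ≥ 3, the 3-closure of the affine group AGL_d(2) acting on F_2^d is the full symmetric group: every permutation of F_2^d agrees on every ordered triple of points with some affine map (AGL_d(2) is 3-transitive). -/
theorem result (d : ℕ) (hd : 3 ≤ d) (σ : Equiv.Perm (Fin d → ZMod 2)) (t : Fin 3 → (Fin d → ZMod 2)) :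
    ∃ (A : (Fin d → ZMod 2) ≃ₗ[ZMod 2] (Fin d → ZMod 2)) (b : Fin d → ZMod 2), ∀ i, σ (t i) = A (t i) + b := by
  classical
  have hz : ∀ a : ZMod 2, a = 0 ∨ a = 1 := by decide
  have hadd : ∀ x : Fin d → ZMod 2, x + x = 0 := fun x => by
    funext j
    rcases hz (x j) with e | e <;> simp [e]
    decide
  suffices h : ∀ u v u' v' : Fin d → ZMod 2, (u = 0 ↔ u' = 0) → (v = 0 ↔ v' = 0) → (u = v ↔ u' = v') →
      ∃ A : (Fin d → ZMod 2) ≃ₗ[ZMod 2] (Fin d → ZMod 2), A u = u' ∧ A v = v' by
    obtain ⟨A, h1, h2⟩ := h (t 1 - t 0) (t 2 - t 0) (σ (t 1) - σ (t 0)) (σ (t 2) - σ (t 0))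
      (by simp [sub_eq_zero]) (by simp [sub_eq_zero]) (by simp [sub_left_inj])
    refine ⟨A, σ (t 0) - A (t 0), fun i => ?_⟩
    rw [map_sub] at h1 h2
    fin_cases i
    · simp
    · calc σ (t 1) = (σ (t 1) - σ (t 0)) + σ (t 0) := (sub_add_cancel _ _).symm
        _ = _ := by rw [← h1]; simp only [Fin.mk_one]; abel
    · calc σ (t 2) = (σ (t 2) - σ (t 0)) + σ (t 0) := (sub_add_cancel _ _).symm
        _ = _ := by rw [← h2]; simp only [Fin.reduceFinMk]; abel
  intro u v u' v' hu hv huv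
  have hli : ∀ a b : Fin d → ZMod 2, a ≠ 0 → b ≠ 0 → a ≠ b → LinearIndependent (ZMod 2) ![a, b] := by
    intro a b ha hb hab
    rw [LinearIndependent.pair_iff]
    intro s r hsr
    rcases hz s with rfl | rfl <;> rcases hz r with rfl | rfl <;> simp at hsr <;> try simp
    · exact absurd hsr hb
    · exact absurd hsr ha
    · refine absurd ?_ hab
      calc a = a + (b + b) := by rw [hadd, add_zero]
        _ = b := by rw [← add_assoc, hsr, zero_add]
  by_cases u0 : u = 0
  · by_cases v0 : v = 0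
    · exact ⟨LinearEquiv.refl _ _, by simp [u0, hu.mp u0, v0, hv.mp v0]⟩
    · obtain ⟨A, hA⟩ := PrimStruct.exists_linearEquiv_map
        (LinearIndependent.of_subsingleton (0 : Fin 1) v0 : LinearIndependent (ZMod 2) ![v])
        (LinearIndependent.of_subsingleton (0 : Fin 1) (fun e => v0 (hv.mpr e)) :
          LinearIndependent (ZMod 2) ![v'])
      exact ⟨A, by simp [u0, hu.mp u0], hA 0⟩
  by_cases hc : v = 0 ∨ u = v
  · obtain ⟨A, hA⟩ := PrimStruct.exists_linearEquiv_map
      (LinearIndependent.of_subsingleton (0 : Fin 1) u0 : LinearIndependent (ZMod 2) ![u])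
      (LinearIndependent.of_subsingleton (0 : Fin 1) (fun e => u0 (hu.mpr e)) :
        LinearIndependent (ZMod 2) ![u'])
    refine ⟨A, hA 0, ?_⟩
    rcases hc with e | e
    · simp [e, hv.mp e]
    · rw [← e, ← huv.mp e]; exact hA 0
  push Not at hc
  obtain ⟨A, hA⟩ := PrimStruct.exists_linearEquiv_map (hli u v u0 hc.1 hc.2)
    (hli u' v' (fun e => u0 (hu.mpr e)) (fun e => hc.1 (hv.mpr e)) (fun e => hc.2 (huv.mpr e)))
  exact ⟨A, hA 0, hA 1⟩

end Cfsg.Agent.S3517
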