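import Cfsg.Statements.S3518
import Cfsg.Agent.PrimStruct.Directions
-- import your own Cfsg.Agent.* helpers here

set_option autoImplicit false
open Cfsg

set_option linter.style.haveILetI false

namespace Cfsg.Agent.S3518

/-- Closures of subgroups of the one-dimensional affine group. Let p be a prime and G a group of permutations of F_p lying in the affine group AGL₁(p) = {x ↦ ax + b, a ≠ 0} and containing all translations. (1) If G is a proper subgroup of AGL₁(p), then G is 2-closed: a permutation of F_p agreeing on every ordered pair of points with some element of G lies in G. (2) Every permutation of F_p agrees on every ordered pair with some element of AGL₁(p) (the 2-closure of AGL₁(p) is the symmetric group). (3) AGL₁(p) is 3-closed: a permutation agreeing on every ordered triple with some affine map is affine. -/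
theorem result (p : ℕ) [Fact p.Prime] (G : Subgroup (Equiv.Perm (ZMod p))) (hG : G ≤ Cfsg.affineGroup (ZMod p))
    (htrans : ∀ b : ZMod p, ∃ g ∈ G, ∀ x, g x = x + b) :
    (G ≠ Cfsg.affineGroup (ZMod p) → ∀ σ : Equiv.Perm (ZMod p), (∀ t : Fin 2 → ZMod p, ∃ g ∈ G, ∀ i, σ (t i) = g (t i)) → σ ∈ G) ∧
    (∀ σ : Equiv.Perm (ZMod p), (∀ t : Fin 2 → ZMod p, ∃ g ∈ Cfsg.affineGroup (ZMod p), ∀ i, σ (t i) = g (t i))) ∧
    (∀ σ : Equiv.Perm (ZMod p), (∀ t : Fin 3 → ZMod p, ∃ g ∈ Cfsg.affineGroup (ZMod p), ∀ i, σ (t i) = g (t i)) → σ ∈ Cfsg.affineGroup (ZMod p)) := by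
  classical
  have hp := (Fact.out : p.Prime).two_le
  have hmemA : ∀ g ∈ Cfsg.affineGroup (ZMod p), ∀ x y : ZMod p,
      (g x - g y) = (g 1 - g 0) * (x - y) := by
    rintro g ⟨a, b, hg⟩ x y
    rw [hg x, hg y, hg 1, hg 0]; ring
  refine ⟨fun hne σ hσ => ?_, fun σ t => ?_, fun σ hσ => ?_⟩
  · -- the multipliers of `G`
    let M : Finset (ZMod p) := Finset.univ.filter fun a => ∃ g ∈ G, g 1 - g 0 = a
    have hM1 : ∀ {a : ZMod p}, a ∈ M ↔ ∃ g ∈ G, g 1 - g 0 = a := fun {a} => by simp [M]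
    have hslope0 : ∀ g ∈ G, g 1 - g 0 ≠ 0 := fun g _ e =>
      one_ne_zero (g.injective (sub_eq_zero.mp e))
    let S : Subgroup (ZMod p)ˣ :=
      { carrier := {u | (u : ZMod p) ∈ M}
        one_mem' := hM1.mpr ⟨1, G.one_mem, by simp⟩
        mul_mem' := fun {u v} hu hv => by
          obtain ⟨g, hg, hg'⟩ := hM1.mp hu
          obtain ⟨k, hk, hk'⟩ := hM1.mp hv
          refine hM1.mpr ⟨g * k, G.mul_mem hg hk, ?_⟩
          rw [Equiv.Perm.mul_apply, Equiv.Perm.mul_apply, hmemA g (hG hg), hg', hk', Units.val_mul]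
        inv_mem' := fun {u} hu => by
          obtain ⟨g, hg, hg'⟩ := hM1.mp hu
          refine hM1.mpr ⟨g⁻¹, G.inv_mem hg, ?_⟩
          have h1 := hmemA g (hG hg) (g⁻¹ 1) (g⁻¹ 0)
          rw [show g (g⁻¹ 1) = 1 from g.apply_symm_apply 1,
            show g (g⁻¹ 0) = 0 from g.apply_symm_apply 0, hg', sub_zero] at h1
          calc g⁻¹ 1 - g⁻¹ 0 = ((u⁻¹ : (ZMod p)ˣ) : ZMod p) * ((u : ZMod p) * (g⁻¹ 1 - g⁻¹ 0)) := by
                rw [← mul_assoc, Units.inv_mul, one_mul]
            _ = _ := by rw [← h1, mul_one] }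
    have hfull : ∀ a : ZMod p, ∀ g ∈ G, g 1 - g 0 = a → ∀ k ∈ Cfsg.affineGroup (ZMod p),
        k 1 - k 0 = a → k ∈ G := by
      intro a g hg hga k hk hka
      obtain ⟨t, ht, htx⟩ := htrans (k 0 - g 0)
      have : k = t * g := by
        ext1 x
        rw [Equiv.Perm.mul_apply, htx]
        have h1 := hmemA g (hG hg) x 0
        have h2 := hmemA k hk x 0
        rw [hga] at h1; rw [hka] at h2
        linear_combination h2 - h1
      exact this ▸ G.mul_mem ht hg
    have hS : S ≠ ⊤ := by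
      intro htop
      apply hne (le_antisymm hG fun k hk => ?_)
      obtain ⟨a, b, hk'⟩ := hk
      have ha : (a : ZMod p) ∈ M := (htop.symm ▸ Subgroup.mem_top a : a ∈ S)
      obtain ⟨g, hg, hga⟩ := hM1.mp ha
      exact hfull _ g hg hga k ⟨a, b, hk'⟩ (by rw [hk', hk']; ring)
    have hcard : 2 * M.card ≤ p - 1 := by
      have h1 : M.card = Nat.card S := by
        rw [← Nat.card_eq_finsetCard]
        refine (Nat.card_congr (Equiv.ofBijective
          (fun u : S => (⟨((u : (ZMod p)ˣ) : ZMod p), u.2⟩ : M)) ⟨fun u v e => ?_, fun a => ?_⟩)).symm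
        · exact Subtype.ext (Units.ext (congrArg Subtype.val e))
        · obtain ⟨g, hg, hga⟩ := hM1.mp a.2
          exact ⟨⟨Units.mk0 a.1 (hga ▸ hslope0 g hg), a.2⟩, rfl⟩
      have h2 := S.card_mul_index
      rw [Nat.card_eq_fintype_card (α := (ZMod p)ˣ), ZMod.card_units] at h2
      have h3 : 2 ≤ S.index := by
        have h4 : S.index ≠ 1 := fun e => hS (Subgroup.index_eq_one.mp e)
        have h5 : S.index ≠ 0 := Subgroup.index_ne_zero_of_finite
        omega
      rw [h1, ← h2]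
      nlinarith
    obtain ⟨a, b, hab⟩ := PrimStruct.affine_of_directions σ σ.bijective M hcard (by
      intro x y hxy
      obtain ⟨g, hg, hgt⟩ := hσ ![x, y]
      refine ⟨g 1 - g 0, hM1.mpr ⟨g, hg, rfl⟩, ?_⟩
      have h1 := hgt 0; have h2 := hgt 1
      simp only [Matrix.cons_val_zero, Matrix.cons_val_one] at h1 h2
      rw [h1, h2, hmemA g (hG hg) x y])
    obtain ⟨g, hg, hgt⟩ := hσ ![0, 1]
    have h1 := hgt 0; have h2 := hgt 1
    simp only [Matrix.cons_val_zero, Matrix.cons_val_one] at h1 h2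
    have : σ = g := by
      ext1 x
      have e := hmemA g (hG hg) x 0
      rw [hab] at h1 h2 ⊢
      linear_combination (1 - x) * h1 + x * h2 - e
    exact this ▸ hg
  · by_cases h : t 0 = t 1
    · refine ⟨Equiv.addRight (σ (t 0) - t 0), ⟨1, σ (t 0) - t 0, fun x => by simp⟩, ?_⟩
      refine Fin.forall_fin_two.mpr ⟨by simp, ?_⟩
      rw [← h]; simp
    · have hd : t 0 - t 1 ≠ 0 := sub_ne_zero.mpr h
      have hd' : σ (t 0) - σ (t 1) ≠ 0 := sub_ne_zero.mpr fun e => h (σ.injective e)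
      set a := Units.mk0 ((σ (t 0) - σ (t 1)) / (t 0 - t 1)) (div_ne_zero hd' hd)
      refine ⟨(Units.mulLeft a).trans (Equiv.addRight (σ (t 0) - a * t 0)),
        ⟨a, σ (t 0) - a * t 0, fun x => rfl⟩, ?_⟩
      refine Fin.forall_fin_two.mpr ⟨?_, ?_⟩
      · simp
      · simp only [Equiv.trans_apply, Units.mulLeft_apply, Equiv.coe_addRight]
        have : (a : ZMod p) * (t 0 - t 1) = σ (t 0) - σ (t 1) := div_mul_cancel₀ _ hd
        linear_combination this
  · have hd : σ 1 - σ 0 ≠ 0 := fun e => one_ne_zero (σ.injective (sub_eq_zero.mp e))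
    refine ⟨Units.mk0 _ hd, σ 0, fun x => ?_⟩
    obtain ⟨g, hg, hgt⟩ := hσ ![0, 1, x]
    have h0 := hgt 0; have h1 := hgt 1; have h2 := hgt 2
    simp only [Matrix.cons_val_zero, Matrix.cons_val_one] at h0 h1
    simp only [Matrix.cons_val] at h2
    have e := hmemA g hg x 0
    rw [Units.val_mk0, h0, h1, h2]
    linear_combination e

end Cfsg.Agent.S3518
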