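import Cfsg.Statements.S3532
import Cfsg.Agent.SpecSquare.PSLTwo
-- import your own Cfsg.Agent.* helpers here

set_option autoImplicit false
open Cfsg

set_option linter.style.haveILetI false

namespace Cfsg.Agent.S3532

/-- Let q ≥ 4 be a prime power and L = PSL(2,q). There is a finite solvable group with the same set of element orders as L × L (so L × L is not determined by its spectrum). -/
theorem result {F : Type*} [Field F] [Fintype F] (hF : 4 ≤ Fintype.card F) :
    ∃ (H : Type) (_ : Group H) (_ : Finite H), Group.IsSolvable H ∧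
      Set.range (orderOf : H → ℕ) = Set.range (orderOf : Matrix.ProjectiveSpecialLinearGroup (Fin 2) F × Matrix.ProjectiveSpecialLinearGroup (Fin 2) F → ℕ) := by
  classical
  obtain ⟨p, hchar⟩ := CharP.exists F
  haveI hp : Fact p.Prime := ⟨CharP.char_is_prime F p⟩
  obtain ⟨f, -, hf⟩ := FiniteField.card F p
  set q := Fintype.card F
  let K := GaloisField p (2 * f)
  have hK : Nat.card K = q * q := by
    rw [GaloisField.card p _ (by have := f.pos; omega), hf, ← pow_add, two_mul]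
  have hdiv : Nat.card K - 1 = (q - 1) * (q + 1) := by
    rw [hK, mul_comm (q - 1), ← Nat.sq_sub_sq, one_pow, sq]
  have hred : ∀ m : ℕ, (p ≠ 2 → 2 ∣ m) → SpecSquare.red p m ∣ m := by
    intro m hm
    unfold SpecSquare.red
    split_ifs with h
    · exact dvd_rfl
    · exact ⟨2, (Nat.div_mul_cancel (hm h)).symm⟩
  obtain ⟨A, hA⟩ := SpecSquare.exists_units_subgroup (K := K) (SpecSquare.red p (q - 1))
    (hdiv ▸ (hred _ fun h => (SpecSquare.even_card_sub_one p h).1).mul_right _)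
  obtain ⟨B, hB⟩ := SpecSquare.exists_units_subgroup (K := K) (SpecSquare.red p (q + 1))
    (hdiv ▸ (hred _ fun h => (SpecSquare.even_card_sub_one p h).2).mul_left _)
  haveI : Finite (SpecSquare.Aff A) := Finite.of_equiv _ SemidirectProduct.equivProd.symm
  haveI : Finite (SpecSquare.Aff B) := Finite.of_equiv _ SemidirectProduct.equivProd.symm
  have hsol : ∀ S : Subgroup Kˣ, Group.IsSolvable (SpecSquare.Aff S) := fun S =>
    Group.isSolvable_of_ker_le_range (SemidirectProduct.inl) SemidirectProduct.rightHom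
      (SemidirectProduct.range_inl_eq_ker_rightHom.ge)
  refine ⟨SpecSquare.Aff A × SpecSquare.Aff B, inferInstance, inferInstance, ?_, ?_⟩
  · haveI := hsol A; haveI := hsol B; infer_instance
  have hL := SpecSquare.mem_range_orderOf_psl_two (F := F) p
  have hXA : ∀ n, n ∈ Set.range (orderOf : SpecSquare.Aff A → ℕ) ↔ n ∣ SpecSquare.red p (q - 1) ∨ n = p :=
    fun n => hA ▸ SpecSquare.range_orderOf_aff A p n
  have hXB : ∀ n, n ∈ Set.range (orderOf : SpecSquare.Aff B → ℕ) ↔ n ∣ SpecSquare.red p (q + 1) ∨ n = p :=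
    fun n => hB ▸ SpecSquare.range_orderOf_aff B p n
  apply le_antisymm
  · rintro _ ⟨⟨x, y⟩, rfl⟩
    obtain ⟨x', hx⟩ := (hL (orderOf x)).mpr (((hXA _).mp ⟨x, rfl⟩).elim Or.inl (Or.inr ∘ Or.inr))
    obtain ⟨y', hy⟩ := (hL (orderOf y)).mpr (Or.inr ((hXB _).mp ⟨y, rfl⟩))
    exact ⟨(x', y'), by rw [Prod.orderOf, Prod.orderOf, ← hx, ← hy]⟩
  · rintro _ ⟨⟨x, y⟩, rfl⟩
    have key : ∀ m n : ℕ, (m ∣ SpecSquare.red p (q - 1) ∨ m = p) → (n ∣ SpecSquare.red p (q + 1) ∨ n = p) →
        m.lcm n ∈ Set.range (orderOf : SpecSquare.Aff A × SpecSquare.Aff B → ℕ) := by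
      intro m n hm hn
      obtain ⟨u, rfl⟩ := (hXA m).mpr hm
      obtain ⟨v, rfl⟩ := (hXB n).mpr hn
      exact ⟨(u, v), Prod.orderOf _⟩
    rw [Prod.orderOf]
    rcases (hL _).mp ⟨x, rfl⟩ with hx | hx | hx <;> rcases (hL _).mp ⟨y, rfl⟩ with hy | hy | hy
    · have := key _ 1 (Or.inl (Nat.lcm_dvd hx hy)) (Or.inl (one_dvd _))
      rwa [Nat.lcm_one_right] at this
    · exact key _ _ (Or.inl hx) (Or.inl hy)
    · exact key _ _ (Or.inl hx) (Or.inr hy)
    · rw [Nat.lcm_comm]; exact key _ _ (Or.inl hy) (Or.inl hx)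
    · have := key 1 _ (Or.inl (one_dvd _)) (Or.inl (Nat.lcm_dvd hx hy))
      rwa [Nat.lcm_one_left] at this
    · rw [Nat.lcm_comm]; exact key _ _ (Or.inr hy) (Or.inl hx)
    · rw [Nat.lcm_comm]; exact key _ _ (Or.inl hy) (Or.inr hx)
    · exact key _ _ (Or.inr hx) (Or.inl hy)
    · have := key 1 _ (Or.inl (one_dvd _)) (Or.inr (show (orderOf x).lcm (orderOf y) = p by rw [hx, hy, Nat.lcm_self]))
      rwa [Nat.lcm_one_left] at this

end Cfsg.Agent.S3532
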