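import Cfsg.Statements.S3547
import Cfsg.Agent.PrimStruct.Derangement
-- import your own Cfsg.Agent.* helpers here

set_option autoImplicit false
open Cfsg

set_option linter.style.haveILetI false

namespace Cfsg.Agent.S3547

/-- Let G act faithfully and transitively on a finite set Ω, let D be the subgroup generated by the derangements, and let r_G and r_D be the numbers of orbits of G and of D on ordered pairs of points (the permutation ranks). Then r_D − 1 = (r_G − 1)·[G : D]. -/
theorem result {G Ω : Type*} [Group G] [Finite G] [MulAction G Ω] [FaithfulSMul G Ω] [Finite Ω]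
    (htrans : MulAction.IsPretransitive G Ω) :
    Nat.card (MulAction.orbitRel.Quotient ↥(Subgroup.closure {g : G | ∀ ω : Ω, g • ω ≠ ω}) (Ω × Ω)) - 1 =
      (Nat.card (MulAction.orbitRel.Quotient G (Ω × Ω)) - 1) * (Subgroup.closure {g : G | ∀ ω : Ω, g • ω ≠ ω}).index := by
  classical
  rcases isEmpty_or_nonempty Ω with hΩ | hΩ
  · have h0 : ∀ (H : Subgroup G), Nat.card (MulAction.orbitRel.Quotient ↥H (Ω × Ω)) = 0 :=
      fun H => Nat.card_of_isEmpty
    simp [h0, Nat.card_of_isEmpty]
  obtain ⟨h1, h2⟩ := PrimStruct.derangementSubgroup_spec (G := G) (X := Ω)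
  set D := Subgroup.closure {g : G | ∀ ω : Ω, g • ω ≠ ω}
  haveI := Fintype.ofFinite G
  have hsplit := PrimStruct.sum_split (X := Ω × Ω) D
  have hfix : ∀ g : {g : G // g ∉ D}, Nat.card (MulAction.fixedBy (Ω × Ω) (g : G)) = 1 := by
    intro g
    have e : MulAction.fixedBy (Ω × Ω) (g : G) ≃
        MulAction.fixedBy Ω (g : G) × MulAction.fixedBy Ω (g : G) :=
      { toFun := fun p => ⟨⟨p.1.1, congrArg Prod.fst p.2⟩, ⟨p.1.2, congrArg Prod.snd p.2⟩⟩
        invFun := fun p => ⟨(p.1, p.2), Prod.ext p.1.2 p.2.2⟩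
        left_inv := fun p => rfl
        right_inv := fun p => rfl }
    rw [Nat.card_congr e, Nat.card_prod, h2 g g.2]
  simp only [hfix, Finset.sum_const, Finset.card_univ, smul_eq_mul, mul_one] at hsplit
  have hcard : Nat.card G = Nat.card D + Fintype.card {g : G // g ∉ D} := by
    rw [Nat.card_eq_fintype_card, Nat.card_eq_fintype_card, Fintype.card_subtype_compl]
    have : Fintype.card D ≤ Fintype.card G := Fintype.card_subtype_le _
    omega
  have hidx := D.card_mul_index
  have hD : 0 < Nat.card D := Nat.card_pos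
  have hG : 0 < Nat.card G := Nat.card_pos
  have hrD : 1 ≤ Nat.card (MulAction.orbitRel.Quotient D (Ω × Ω)) := by
    haveI : Nonempty (MulAction.orbitRel.Quotient D (Ω × Ω)) := Nonempty.map Quotient.mk'' inferInstance
    exact Nat.card_pos
  have hrG : 1 ≤ Nat.card (MulAction.orbitRel.Quotient G (Ω × Ω)) := by
    haveI : Nonempty (MulAction.orbitRel.Quotient G (Ω × Ω)) := Nonempty.map Quotient.mk'' inferInstance
    exact Nat.card_pos
  obtain ⟨a, ha⟩ := Nat.exists_eq_add_of_le hrD
  obtain ⟨b, hb⟩ := Nat.exists_eq_add_of_le hrG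
  rw [ha, hb, Nat.add_sub_cancel_left, Nat.add_sub_cancel_left]
  rw [ha, hb] at hsplit
  have : a * Nat.card D = b * (Nat.card D * D.index) := by rw [hidx]; linarith
  apply Nat.eq_of_mul_eq_mul_right hD
  rw [this]; ring

end Cfsg.Agent.S3547
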