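import Cfsg.Statements.S3548
import Cfsg.Agent.PrimStruct.Derangement
-- import your own Cfsg.Agent.* helpers here

set_option autoImplicit false
open Cfsg

set_option linter.style.haveILetI false

namespace Cfsg.Agent.S3548

/-- Let G act faithfully and transitively on a finite set with n ≥ 2 points and let D be the subgroup generated by the derangements. Then the index of D in G divides n − 1, and if it equals n − 1 then n is a prime power. -/
theorem result {G Ω : Type*} [Group G] [Finite G] [MulAction G Ω] [FaithfulSMul G Ω] [Finite Ω]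
    (htrans : MulAction.IsPretransitive G Ω) (hΩ : 2 ≤ Nat.card Ω) :
    (Subgroup.closure {g : G | ∀ ω : Ω, g • ω ≠ ω}).index ∣ Nat.card Ω - 1 ∧
    ((Subgroup.closure {g : G | ∀ ω : Ω, g • ω ≠ ω}).index = Nat.card Ω - 1 → IsPrimePow (Nat.card Ω)) := by
  classical
  haveI : Nonempty Ω := (Nat.card_pos_iff.mp (by omega : 0 < Nat.card Ω)).1
  obtain ⟨α⟩ := (inferInstance : Nonempty Ω)
  refine ⟨PrimStruct.index_derangementSubgroup_dvd α, fun heq => ?_⟩
  obtain ⟨h1, -⟩ := PrimStruct.derangementSubgroup_spec (G := G) (X := Ω)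
  haveI := PrimStruct.derangementSubgroup_normal (G := G) (X := Ω)
  haveI := h1
  set D := Subgroup.closure {g : G | ∀ ω : Ω, g • ω ≠ ω} with hD
  change D.index = Nat.card Ω - 1 at heq
  haveI : D.Normal := PrimStruct.derangementSubgroup_normal
  haveI : MulAction.IsPretransitive D Ω := PrimStruct.derangementSubgroup_spec.1
  have hpos : 0 < Nat.card Ω - 1 := by omega
  -- every orbit of the point stabiliser on the other points is everything
  have horb : ∀ x y : Ω, x ≠ y → MulAction.orbit (MulAction.stabilizer G x) y = {x}ᶜ := by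
    intro x y hxy
    have hdvd : D.index ∣ Nat.card (MulAction.orbit (MulAction.stabilizer G x) y) :=
      PrimStruct.index_dvd_card_orbit D (PrimStruct.two_point_stabilizer_le hxy)
    rw [heq] at hdvd
    have hsub : MulAction.orbit (MulAction.stabilizer G x) y ⊆ {x}ᶜ := by
      rintro z ⟨⟨g, hg⟩, rfl⟩ (hz : g • y = x)
      exact hxy (smul_left_cancel g (hz.trans (hg : g • x = x).symm)).symm
    refine Set.eq_of_subset_of_ncard_le hsub ?_
    rw [Set.ncard_compl, Set.ncard_singleton, ← Nat.card_coe_set_eq]
    haveI : Nonempty (MulAction.orbit (MulAction.stabilizer G x) y) :=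
      ⟨⟨y, MulAction.mem_orbit_self y⟩⟩
    exact Nat.le_of_dvd Nat.card_pos hdvd
  have htwo : MulAction.IsMultiplyPretransitive G Ω 2 := by
    rw [PermLib.two_pretransitive_iff_stabilizer α]
    intro b c hb hc
    have hmem : c ∈ MulAction.orbit (MulAction.stabilizer G α) b := by
      rw [horb α b hb.symm]; exact hc
    obtain ⟨⟨g, hg⟩, he⟩ := hmem
    exact ⟨g, hg, he⟩
  have hreg : MulAction.stabilizer D α = ⊥ := by
    rw [eq_bot_iff]
    rintro ⟨d, hd⟩ (hfix : d • α = α)
    rw [Subgroup.mem_bot]
    apply Subtype.ext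
    apply eq_of_smul_eq_smul (α := Ω)
    intro y
    change d • y = (1 : G) • y
    rw [one_smul]
    by_cases hy : y = α
    · rw [hy, hfix]
    -- the stabiliser of `α, y` has index `n - 1` in that of `α`, so it is `D ∩ G_α`
    have hle : MulAction.stabilizer (MulAction.stabilizer G α) y ≤
        D.subgroupOf (MulAction.stabilizer G α) :=
      fun s hs => PrimStruct.two_point_stabilizer_le (Ne.symm hy) ⟨s.2, hs⟩
    have hidx : (MulAction.stabilizer (MulAction.stabilizer G α) y).index =
        (D.subgroupOf (MulAction.stabilizer G α)).index := by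
      rw [MulAction.index_stabilizer, horb α y (Ne.symm hy), Set.ncard_compl, Set.ncard_singleton,
        ← heq]
      exact (PrimStruct.relIndex_stabilizer_eq_index D α).symm
    have := Subgroup.relIndex_mul_index hle
    rw [hidx] at this
    have h1 : (MulAction.stabilizer (MulAction.stabilizer G α) y).relIndex
        (D.subgroupOf (MulAction.stabilizer G α)) = 1 :=
      mul_right_cancel₀ Subgroup.index_ne_zero_of_finite (this.trans (one_mul _).symm)
    exact (Subgroup.relIndex_eq_one.mp h1) (show (⟨d, hfix⟩ : MulAction.stabilizer G α) ∈ _ from hd)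
  obtain ⟨-, h⟩ := PermLib.elementary_of_regular_normal htwo hreg
  have hcard : Nat.card D = Nat.card Ω :=
    Nat.card_eq_of_bijective _ (PermLib.smul_bijective_of_regular hreg)
  obtain ⟨p, j, hp, hj, hpj, -⟩ := h (Finite.one_lt_card_iff_nontrivial.mp (by omega))
  exact ⟨p, j, hp.prime, hj, by omega⟩

end Cfsg.Agent.S3548
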