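import Cfsg.Statements.S3549
import Cfsg.Agent.PrimStruct.Derangement
-- import your own Cfsg.Agent.* helpers here

set_option autoImplicit false
open Cfsg

set_option linter.style.haveILetI false

namespace Cfsg.Agent.S3549

open scoped Pointwise

/-- Let G act faithfully, transitively but imprimitively on a finite set with n points, and let D be the subgroup generated by the derangements. Then the index of D in G is at most √n − 1. -/
theorem result {G Ω : Type*} [Group G] [Finite G] [MulAction G Ω] [FaithfulSMul G Ω] [Finite Ω]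
    (htrans : MulAction.IsPretransitive G Ω) (himp : ¬ MulAction.IsPreprimitive G Ω) :
    ((Subgroup.closure {g : G | ∀ ω : Ω, g • ω ≠ ω}).index : ℝ) ≤ Real.sqrt (Nat.card Ω) - 1 := by
  classical
  rcases isEmpty_or_nonempty Ω with hΩ | hΩ
  · exact absurd { isTrivialBlock_of_isBlock := fun {B} _ => Or.inl (Set.subsingleton_of_subsingleton) } himp
  -- a non-trivial block
  obtain ⟨B, hB, hB1, hB2⟩ : ∃ B : Set Ω, MulAction.IsBlock G B ∧ B.Nontrivial ∧ B ≠ Set.univ := by
    by_contra h
    push Not at h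
    exact himp { isTrivialBlock_of_isBlock := fun {B} hB =>
      (Set.subsingleton_or_nontrivial B).imp_right (h B hB) }
  obtain ⟨α, hα⟩ := hB1.nonempty
  haveI := PrimStruct.derangementSubgroup_normal (G := G) (X := Ω)
  haveI := (PrimStruct.derangementSubgroup_spec (G := G) (X := Ω)).1
  set D := PrimStruct.derangementSubgroup G Ω with hD
  change (D.index : ℝ) ≤ _
  set H := MulAction.stabilizer G B with hHdef
  have hinB : ∀ g : G, ∀ x ∈ B, g • x ∈ B → g ∈ H := fun g x hx hgx =>
    hB.smul_eq_of_nonempty ⟨g • x, Set.smul_mem_smul_set hx, hgx⟩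
  letI actB : MulAction H B :=
    { smul := fun g x => ⟨(g : G) • (x : Ω), by
        have := Set.smul_mem_smul_set (a := (g : G)) x.2
        rwa [show (g : G) • B = B from g.2] at this⟩
      one_smul := fun x => Subtype.ext (one_smul G (x : Ω))
      mul_smul := fun g g' x => Subtype.ext (mul_smul (g : G) (g' : G) (x : Ω)) }
  haveI hDH : MulAction.IsPretransitive (D.subgroupOf H) B := by
    refine ⟨fun x y => ?_⟩
    obtain ⟨⟨d, hd⟩, he⟩ := MulAction.exists_smul_eq D (x : Ω) (y : Ω)
    change d • (x : Ω) = y at he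
    exact ⟨⟨⟨d, hinB d x x.2 (he ▸ y.2)⟩, hd⟩, Subtype.ext he⟩
  haveI : Nonempty B := ⟨⟨α, hα⟩⟩
  have hpair : ∀ x y : B, x ≠ y →
      MulAction.stabilizer H x ⊓ MulAction.stabilizer H y ≤ D.subgroupOf H := by
    rintro x y hxy g ⟨hx, hy⟩
    exact PrimStruct.two_point_stabilizer_le (fun e => hxy (Subtype.ext e))
      ⟨congrArg Subtype.val hx, congrArg Subtype.val hy⟩
  have hsup : D ⊔ H = ⊤ := by
    rw [eq_top_iff]
    intro g _
    obtain ⟨⟨d, hd⟩, he⟩ := MulAction.exists_smul_eq D α (g • α)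
    change d • α = g • α at he
    have : d⁻¹ * g ∈ H := hinB _ α hα (by rw [mul_smul, ← he, inv_smul_smul]; exact hα)
    have h := Subgroup.mul_mem _ (Subgroup.mem_sup_left (T := H) hd) (Subgroup.mem_sup_right this)
    rwa [mul_inv_cancel_left] at h
  have hm : D.relIndex H = D.index := by
    rw [← Subgroup.relIndex_sup_left H D, hsup, Subgroup.relIndex_top_right]
  have h1 : D.index ∣ Nat.card B - 1 := by
    have := PrimStruct.index_dvd_card_sub_one (D.subgroupOf H) hpair ⟨α, hα⟩
    rwa [show (D.subgroupOf H).index = D.index from hm] at this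
  -- elements of `H` outside `D` fix a point of `B`
  have hfixB : ∀ g : H, g ∉ D.subgroupOf H → Nat.card (MulAction.fixedBy B g) = 1 := by
    apply PrimStruct.fix_eq_one_of_le_one
    intro g hg
    rw [Finite.card_le_one_iff_subsingleton]
    refine ⟨fun x y => ?_⟩
    by_contra hne
    exact hg (hpair x.1 y.1 (fun e => hne (Subtype.ext e)) ⟨x.2, y.2⟩)
  have hfix' : ∀ g : G, g ∉ D → g ∈ H → ∃ x ∈ B, g • x = x := by
    intro g hg hgH
    obtain ⟨-, ⟨x, hx⟩⟩ := Nat.card_eq_one_iff_unique.mp (hfixB ⟨g, hgH⟩ hg)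
    exact ⟨x, x.2, congrArg Subtype.val hx⟩
  have hDq : MulAction.IsPretransitive D (G ⧸ H) := by
    have hbase : ∀ q : G ⧸ H, ∃ d : D, d • ((1 : G) : G ⧸ H) = q := fun q => by
      obtain ⟨g, rfl⟩ := QuotientGroup.mk_surjective q
      obtain ⟨⟨d, hd⟩, he⟩ := MulAction.exists_smul_eq D α (g • α)
      change d • α = g • α at he
      refine ⟨⟨d, hd⟩, ?_⟩
      change ((d * 1 : G) : G ⧸ H) = (g : G ⧸ H)
      rw [mul_one, QuotientGroup.eq]
      exact hinB _ α hα (by rw [mul_smul, ← he, inv_smul_smul]; exact hα)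
    refine ⟨fun u v => ?_⟩
    obtain ⟨du, hdu⟩ := hbase u
    obtain ⟨dv, hdv⟩ := hbase v
    exact ⟨dv * du⁻¹, by rw [← hdu, mul_smul, inv_smul_smul, hdv]⟩
  have h2 : D.index ∣ Nat.card (G ⧸ H) - 1 := by
    haveI := hDq
    refine @PrimStruct.index_dvd_card_sub_one G (G ⧸ H) _ _ _ D _ hDq ?_ ((1 : G) : G ⧸ H)
    intro u v huv
    obtain ⟨a, rfl⟩ := QuotientGroup.mk_surjective u
    obtain ⟨b, rfl⟩ := QuotientGroup.mk_surjective v
    rintro g ⟨hga, hgb⟩
    by_contra hg
    have hget : ∀ c : G, g • ((c : G) : G ⧸ H) = c → ∃ x, c⁻¹ • x ∈ B ∧ g • x = x := by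
      intro c hc
      have hc' : c⁻¹ * g * c ∈ H := by
        rw [mul_assoc, ← QuotientGroup.eq]; exact hc.symm
      have hcD : c⁻¹ * g * c ∉ D := fun h => hg (by
        have := (inferInstance : D.Normal).conj_mem _ h c
        simpa [mul_assoc] using this)
      obtain ⟨x, hxB, hx⟩ := hfix' _ hcD hc'
      refine ⟨c • x, by rwa [inv_smul_smul], ?_⟩
      rw [mul_smul, mul_smul, inv_smul_eq_iff] at hx
      exact hx
    obtain ⟨x, hxB, hx⟩ := hget a hga
    obtain ⟨y, hyB, hy⟩ := hget b hgb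
    by_cases hxy : x = y
    · subst hxy
      apply huv
      rw [QuotientGroup.eq]
      exact hinB _ (b⁻¹ • x) hyB (by rw [mul_smul, smul_inv_smul]; exact hxB)
    · exact hg (PrimStruct.two_point_stabilizer_le hxy ⟨hx, hy⟩)
  have hab : Nat.card Ω = Nat.card B * Nat.card (G ⧸ H) := by
    rw [← Subgroup.index_eq_card, Nat.card_coe_set_eq]
    have := hB.ncard_block_eq_relIndex hα
    have hs : MulAction.stabilizer G α ≤ H := fun g hg =>
      hinB g α hα (by rw [show g • α = α from hg]; exact hα)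
    rw [this, Subgroup.relIndex_mul_index hs, MulAction.index_stabilizer_of_transitive]
  have hBge : 2 ≤ Nat.card B := by
    rw [Nat.card_coe_set_eq]; exact (Set.one_lt_ncard_iff_nontrivial).mpr hB1
  have hbge : 2 ≤ Nat.card (G ⧸ H) := by
    have hlt : Nat.card B < Nat.card Ω := by
      rw [Nat.card_coe_set_eq, ← Set.ncard_univ]
      exact Set.ncard_lt_ncard (lt_of_le_of_ne (Set.subset_univ _) hB2)
    by_contra h
    have : Nat.card (G ⧸ H) ≤ 1 := by omega
    nlinarith
  have hma := Nat.le_of_dvd (by omega) h1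
  have hmb := Nat.le_of_dvd (by omega) h2
  have hsq : ((D.index : ℝ) + 1) ^ 2 ≤ (Nat.card Ω : ℝ) := by
    have : (D.index + 1) * (D.index + 1) ≤ Nat.card Ω :=
      hab ▸ Nat.mul_le_mul (by omega) (by omega)
    rw [sq]; exact_mod_cast this
  have := Real.le_sqrt_of_sq_le hsq
  linarith

end Cfsg.Agent.S3549
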