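import Cfsg.Statements.S3550
import Cfsg.Agent.DerangeIdx.Affine
import Cfsg.Agent.PrimStruct.Derangement
import Cfsg.Agent.DerIdx.SmallDeg

set_option autoImplicit false
open Cfsg

namespace Cfsg.Agent.S3550

/-- Let G act faithfully and primitively on a finite set with n ≥ 2 points and suppose G has no non-trivial abelian normal subgroup (G is not of affine type). Let D be the subgroup generated by the derangements. Then the index of D in G is at most √n − 1. -/
theorem result {G Ω : Type*} [Group G] [Finite G] [MulAction G Ω] [FaithfulSMul G Ω] [Finite Ω]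
    (hprim : MulAction.IsPreprimitive G Ω) (hΩ : 2 ≤ Nat.card Ω) (hna : ∀ N : Subgroup G, N.Normal → IsMulCommutative ↥N → N = ⊥) :
    ((Subgroup.closure {g : G | ∀ ω : Ω, g • ω ≠ ω}).index : ℝ) ≤ Real.sqrt (Nat.card Ω) - 1 := by
  classical
  haveI := hprim.toIsPretransitive
  set D : Subgroup G := Subgroup.closure {g : G | ∀ ω : Ω, g • ω ≠ ω} with hD
  haveI : D.Normal := Cfsg.Agent.PrimStruct.derangementSubgroup_normal (G := G) (X := Ω)
  have hExt : Cfsg.Agent.DerangeIdx.Ext D Ω := fun g hg => by
    by_contra hno
    push Not at hno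
    exact hg (Subgroup.subset_closure hno)
  have key : (D.index + 1) ^ 2 ≤ Nat.card Ω := by
    by_contra hbig
    rw [not_le] at hbig
    have h0 : D.index ≠ 0 := Subgroup.index_ne_zero_of_finite
    rcases Nat.lt_or_ge D.index 2 with hk | hk
    · have h4 := Cfsg.Agent.DerIdx.four_le_card_of_no_abelian_normal hΩ hna
      rw [show D.index = 1 by omega] at hbig
      omega
    · obtain ⟨R, hRn, hRne, hRc, -⟩ :=
        Cfsg.Agent.DerangeIdx.exists_normal_regular hExt hΩ hbig hk
      exact hRne (hna R hRn hRc)
  rw [le_sub_iff_add_le]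
  refine Real.le_sqrt_of_sq_le ?_
  exact_mod_cast key

end Cfsg.Agent.S3550
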