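import Cfsg.Statements.S3560
-- import your own Cfsg.Agent.* helpers here

set_option autoImplicit false
open Cfsg

set_option linter.style.haveILetI false

namespace Cfsg.Agent.S3560

/-- Let K be a finite group isomorphic to a direct product of r ≥ 2 groups all of the same order m ≥ 3. Then K is not a B-group: there is a primitive but not doubly transitive permutation group (on some finite set) containing a regular subgroup isomorphic to K. -/
theorem result {K : Type*} [Group K] [Finite K] {ι : Type*} [Fintype ι] (F : ι → Type*) [∀ i, Group (F i)]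
    (hr : 2 ≤ Fintype.card ι) (m : ℕ) (hm : 3 ≤ m) (hcard : ∀ i, Nat.card (F i) = m) (e : K ≃* (∀ i, F i)) :
    ∃ (n : ℕ) (G R : Subgroup (Equiv.Perm (Fin n))), R ≤ G ∧ Nonempty (↥R ≃* K) ∧
      MulAction.IsPretransitive ↥R (Fin n) ∧ (∀ a : Fin n, MulAction.stabilizer ↥R a = ⊥) ∧
      MulAction.IsPreprimitive ↥G (Fin n) ∧ ¬ MulAction.IsMultiplyPretransitive ↥G (Fin n) 2 := by
  classical
  haveI : ∀ i, Finite (F i) := fun i => (Nat.card_pos_iff.mp (by rw [hcard i]; omega)).2
  haveI : ∀ i, Nonempty (F i) := fun i => ⟨1⟩
  let eF : ∀ i, F i ≃ Fin m := fun i => (Finite.equivFin _).trans (finCongr (hcard i))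
  let eY : (∀ i, F i) ≃ (ι → Fin m) := Equiv.piCongrRight eF
  let n := Fintype.card (ι → Fin m)
  let eN : Fin n ≃ (ι → Fin m) := (Fintype.equivFin _).symm
  let G : Subgroup (Equiv.Perm (Fin n)) :=
    { carrier := {σ | ∀ a b, hammingDist (eN (σ a)) (eN (σ b)) = hammingDist (eN a) (eN b)}
      one_mem' := fun a b => rfl
      mul_mem' := fun {s t} hs ht a b => (hs (t a) (t b)).trans (ht a b)
      inv_mem' := fun {s} hs a b => by
        have := hs (s⁻¹ a) (s⁻¹ b)
        simpa using this.symm }
  -- coordinatewise maps are isometries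
  have hiso : ∀ (s : Equiv.Perm ι) (τ : ι → Equiv.Perm (Fin m)) (u v : ι → Fin m),
      hammingDist (fun k => τ k (u (s k))) (fun k => τ k (v (s k))) = hammingDist u v := by
    intro s τ u v
    unfold hammingDist
    refine Finset.card_bij (fun k _ => s k) (fun k hk => ?_) (fun a _ b _ h => s.injective h)
      (fun k hk => ⟨s.symm k, ?_, s.apply_symm_apply k⟩)
    · simpa using hk
    · simpa using hk
  let mk : Equiv.Perm (ι → Fin m) → Equiv.Perm (Fin n) := fun f => (eN.trans f).trans eN.symm
  have hmk : ∀ f a, eN (mk f a) = f (eN a) := fun f a => eN.apply_symm_apply _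
  have hmem : ∀ f : Equiv.Perm (ι → Fin m), (∀ u v, hammingDist (f u) (f v) = hammingDist u v) →
      mk f ∈ G := fun f hf a b => by rw [hmk, hmk, hf]
  let ρ : K →* Equiv.Perm (Fin n) :=
    { toFun := fun k => mk ((eY.symm.trans (Equiv.mulLeft (e k))).trans eY)
      map_one' := Equiv.ext fun a => eN.injective (by rw [hmk]; simp)
      map_mul' := fun k l => Equiv.ext fun a => eN.injective (by
        rw [Equiv.Perm.mul_apply, hmk, hmk, hmk]; simp [mul_assoc]) }
  have hρ : ∀ k a, eN (ρ k a) = eY (e k * eY.symm (eN a)) := fun k a => hmk _ a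
  have hρinj : Function.Injective ρ := by
    intro k l h
    have h' := congrArg (fun f : Equiv.Perm (Fin n) => eN (f (eN.symm (eY 1)))) h
    simp only [hρ, Equiv.apply_symm_apply, Equiv.symm_apply_apply, mul_one] at h'
    exact e.injective (eY.injective h')
  have hρG : ∀ k, ρ k ∈ G := by
    intro k
    refine hmem _ fun u v => ?_
    exact hiso (Equiv.refl ι)
      (fun i => ((eF i).symm.trans (Equiv.mulLeft (e k i))).trans (eF i)) u v
  have htr : ∀ a b : Fin n, ∃ k, ρ k a = b := fun a b =>
    ⟨e.symm (eY.symm (eN b) * (eY.symm (eN a))⁻¹), eN.injective (by rw [hρ]; simp)⟩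
  refine ⟨n, G, ρ.range, ?_, ⟨(MonoidHom.ofInjective hρinj).symm⟩, ?_, ?_, ?_, ?_⟩
  · rintro _ ⟨k, rfl⟩; exact hρG k
  · exact ⟨fun a b => let ⟨k, hk⟩ := htr a b; ⟨⟨ρ k, k, rfl⟩, hk⟩⟩
  · intro a
    rw [eq_bot_iff]
    rintro ⟨_, k, rfl⟩ (hk : ρ k a = a)
    have h1 := congrArg eN hk
    rw [hρ, ← eY.eq_symm_apply, mul_eq_right, EmbeddingLike.map_eq_one_iff] at h1
    rw [Subgroup.mem_bot]
    exact Subtype.ext (by simp [h1])
  · haveI : MulAction.IsPretransitive G (Fin n) :=
      ⟨fun a b => let ⟨k, hk⟩ := htr a b; ⟨⟨ρ k, hρG k⟩, hk⟩⟩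
    refine { isTrivialBlock_of_isBlock := fun {B} hB => ?_ }
    rcases Set.subsingleton_or_nontrivial B with h | h
    · exact Or.inl h
    right
    have hstab : ∀ g ∈ G, ∀ x ∈ B, g x ∈ B → ∀ y ∈ B, g y ∈ B := by
      intro g hg x hx hgx y hy
      rcases MulAction.isBlock_iff_smul_eq_or_disjoint.mp hB ⟨g, hg⟩ with h' | h'
      · exact h' ▸ ⟨y, hy, rfl⟩
      · exact absurd hgx (Set.disjoint_left.mp h' ⟨x, hx, rfl⟩)
    obtain ⟨a, ha, b, hb, hab⟩ := h
    obtain ⟨i, hi⟩ := Function.ne_iff.mp (eN.injective.ne hab)
    have hpt : ∀ u v : Fin m, ∃ c, c ≠ u ∧ c ≠ v := by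
      intro u v
      by_contra h
      push Not at h
      have h0 := h ⟨0, by omega⟩
      have h1 := h ⟨1, by omega⟩
      have h2 := h ⟨2, by omega⟩
      simp only [ne_eq, Fin.ext_iff] at h0 h1 h2
      omega
    obtain ⟨c, hca, hcb⟩ := hpt (eN a i) (eN b i)
    -- a neighbour of `b` in `B`
    let b' := eN.symm (Function.update (eN b) i c)
    have hb' : b' ∈ B := by
      let τ : ι → Equiv.Perm (Fin m) := fun k => if k = i then Equiv.swap (eN b i) c else 1
      have hg := hmem (Equiv.piCongrRight τ) (fun u v => hiso (Equiv.refl ι) τ u v)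
      have hga : mk (Equiv.piCongrRight τ) a = a := eN.injective (by
        rw [hmk]; funext k
        by_cases hk : k = i
        · subst hk; simp [τ, Equiv.swap_apply_of_ne_of_ne hi (Ne.symm hca)]
        · simp [τ, hk])
      have hgb : mk (Equiv.piCongrRight τ) b = b' := eN.injective (by
        rw [hmk, Equiv.apply_symm_apply]; funext k
        by_cases hk : k = i
        · subst hk; simp [τ]
        · simp [τ, hk])
      exact hgb ▸ hstab _ hg a ha (by rwa [hga]) b hb
    -- all neighbours of `b` are in `B`
    have hnb : ∀ (j : ι) (z : Fin m), eN.symm (Function.update (eN b) j z) ∈ B := by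
      intro j z
      by_cases hz : z = eN b j
      · subst hz; simpa using hb
      let s := Equiv.swap i j
      let τ : ι → Equiv.Perm (Fin m) := fun k =>
        if k = j then Equiv.swap (Equiv.swap (eN b i) (eN b j) c) z * Equiv.swap (eN b i) (eN b j)
        else Equiv.swap (eN b (s k)) (eN b k)
      let f : Equiv.Perm (ι → Fin m) :=
        { toFun := fun u k => τ k (u (s k))
          invFun := fun u k => (τ (s k)).symm (u (s k))
          left_inv := fun u => by funext k; simp [s]
          right_inv := fun u => by funext k; simp [s] }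
      have hg := hmem f (fun u v => hiso s τ u v)
      have hfb : ∀ k, τ k (eN b (s k)) = eN b k := by
        intro k
        by_cases hk : k = j
        · subst hk
          simp only [τ, s, if_true, Equiv.swap_apply_right, Equiv.Perm.mul_apply,
            Equiv.swap_apply_left]
          refine Equiv.swap_apply_of_ne_of_ne (fun e => hcb ?_) (Ne.symm hz)
          have := congrArg (Equiv.swap (eN b i) (eN b k)) e
          rw [Equiv.swap_apply_right, Equiv.swap_apply_self] at this
          exact this.symm
        · simp [τ, hk]
      have hgb : mk f b = b := eN.injective (by rw [hmk]; funext k; exact hfb k)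
      have hgb' : mk f b' = eN.symm (Function.update (eN b) j z) := eN.injective (by
        rw [hmk, Equiv.apply_symm_apply, Equiv.apply_symm_apply]
        funext k
        by_cases hk : k = j
        · subst hk
          change τ k (Function.update (eN b) i c (s k)) = _
          simp [τ, s]
        · change τ k (Function.update (eN b) i c (s k)) = _
          have hsk : s k ≠ i := fun e => hk (by
            have := congrArg s e; rwa [Equiv.swap_apply_self, Equiv.swap_apply_left] at this)
          rw [Function.update_of_ne hsk, Function.update_of_ne hk, hfb])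
      exact hgb' ▸ hstab _ hg b hb (by rwa [hgb]) b' hb'
    -- hence the neighbours of every point of `B`
    have hnbx : ∀ x ∈ B, ∀ y, hammingDist (eN x) (eN y) = 1 → y ∈ B := by
      intro x hx y hxy
      obtain ⟨k, hk⟩ := htr x b
      have hd : hammingDist (eN b) (eN (ρ k y)) = 1 := by
        rw [← hk, hρG k x y, hxy]
      obtain ⟨j, hj⟩ := Finset.card_eq_one.mp (show (Finset.univ.filter
        fun l => eN b l ≠ eN (ρ k y) l).card = 1 from hd)
      have hy' : ρ k y = eN.symm (Function.update (eN b) j (eN (ρ k y) j)) := by
        apply eN.injective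
        rw [Equiv.apply_symm_apply]
        funext l
        by_cases hl : l = j
        · subst hl; simp
        · rw [Function.update_of_ne hl]
          by_contra hne
          have : l ∈ Finset.univ.filter fun l => eN b l ≠ eN (ρ k y) l :=
            Finset.mem_filter.mpr ⟨Finset.mem_univ _, Ne.symm hne⟩
          rw [hj, Finset.mem_singleton] at this
          exact hl this
      have := hstab _ (G.inv_mem (hρG k)) b hb (by rw [← hk]; simpa using hx) (ρ k y)
        (hy' ▸ hnb j _)
      simpa using this
    rw [Set.eq_univ_iff_forall]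
    intro y
    induction hd : hammingDist (eN b) (eN y) generalizing y with
    | zero => rw [hammingDist_eq_zero] at hd; rwa [← eN.injective hd]
    | succ d ih =>
      obtain ⟨j, hj⟩ := Function.ne_iff.mp
        (fun e => by rw [e, hammingDist_self] at hd; omega : eN b ≠ eN y)
      let y' := eN.symm (Function.update (eN y) j (eN b j))
      have hset : (Finset.univ.filter fun l => eN b l ≠ Function.update (eN y) j (eN b j) l) =
          (Finset.univ.filter fun l => eN b l ≠ eN y l).erase j := by
        ext l
        by_cases hl : l = j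
        · subst hl; simp
        · simp [Function.update_of_ne hl, hl]
      have hd' : hammingDist (eN b) (eN y') = d := by
        rw [show eN y' = _ from eN.apply_symm_apply _]
        unfold hammingDist at hd ⊢
        rw [hset, Finset.card_erase_of_mem (by simpa using hj), hd]
        omega
      refine hnbx y' (ih y' hd') y ?_
      rw [show eN y' = _ from eN.apply_symm_apply _]
      have hone : (Finset.univ.filter fun l => Function.update (eN y) j (eN b j) l ≠ eN y l) = {j} := by
        ext l
        by_cases hl : l = j
        · subst hl; simp [hj]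
        · simp [Function.update_of_ne hl, hl]
      unfold hammingDist
      rw [hone, Finset.card_singleton]
  · intro h2
    rw [MulAction.is_two_pretransitive_iff] at h2
    obtain ⟨i, j, hij⟩ := Fintype.exists_pair_of_one_lt_card (α := ι) (by omega)
    let o : ι → Fin m := fun _ => ⟨0, by omega⟩
    let u := Function.update o i ⟨1, by omega⟩
    let v := Function.update u j ⟨1, by omega⟩
    have hu : hammingDist o u = 1 := by
      have : (Finset.univ.filter fun l => o l ≠ u l) = {i} := by
        ext l
        by_cases hl : l = i
        · subst hl; simp [u, o, Fin.ext_iff]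
        · simp [u, hl]
      unfold hammingDist
      rw [this, Finset.card_singleton]
    have hv : 2 ≤ hammingDist o v := by
      have : ({i, j} : Finset ι) ⊆ Finset.univ.filter fun l => o l ≠ v l := by
        intro l hl
        simp only [Finset.mem_insert, Finset.mem_singleton] at hl
        rcases hl with rfl | rfl
        · simp [v, u, o, Function.update_of_ne hij, Fin.ext_iff]
        · simp [v, o, Fin.ext_iff]
      exact (Finset.card_pair hij).symm.le.trans (Finset.card_le_card this)
    have hne1 : eN.symm o ≠ eN.symm u := fun e => by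
      rw [← eN.symm.injective e, hammingDist_self] at hu; omega
    have hne2 : eN.symm o ≠ eN.symm v := fun e => by
      rw [← eN.symm.injective e, hammingDist_self] at hv; omega
    obtain ⟨⟨g, hg⟩, h1, h2'⟩ := h2 hne1 hne2
    change g (eN.symm o) = eN.symm o at h1
    change g (eN.symm u) = eN.symm v at h2'
    have := hg (eN.symm o) (eN.symm u)
    rw [h1, h2', Equiv.apply_symm_apply, Equiv.apply_symm_apply, Equiv.apply_symm_apply] at this
    omega

end Cfsg.Agent.S3560
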