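import Cfsg.Statements.S3571
import Cfsg.Agent.AltSocle.Derangement

set_option autoImplicit false
open Cfsg MulAction

namespace Cfsg.Agent.S3571

/-- Let G be an almost simple group whose socle is an alternating group of degree m ≥ 5 (G has a normal subgroup T isomorphic to that alternating group with trivial centralizer), acting faithfully and primitively on a finite set Ω with at least two points, and let r be the largest prime divisor of the number of points. Then G contains an element of order r fixing no point. -/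
theorem result {G Ω : Type*} [Group G] [Finite G] [MulAction G Ω] [FaithfulSMul G Ω] [Finite Ω]
    (T : Subgroup G) (hT : T.Normal) (hTc : Subgroup.centralizer (T : Set G) = ⊥) (m : ℕ) (hm : 5 ≤ m)
    (eT : ↥T ≃* ↥(alternatingGroup (Fin m))) (hprim : MulAction.IsPreprimitive G Ω) (hΩ : 2 ≤ Nat.card Ω)
    (r : ℕ) (hr : r.Prime) (hrd : r ∣ Nat.card Ω) (hmax : ∀ s : ℕ, s.Prime → s ∣ Nat.card Ω → s ≤ r) :
    ∃ g : G, orderOf g = r ∧ ∀ ω : Ω, g • ω ≠ ω := by
  classical
  have : T.Normal := hT
  have hnt : Nontrivial Ω := Finite.one_lt_card_iff_nontrivial.1 hΩ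
  obtain ⟨ω⟩ := (inferInstance : Nonempty Ω)
  have : IsPretransitive G Ω := hprim.toIsPretransitive
  -- the socle is transitive
  have hTne : T ≠ ⊥ := fun e => by
    have h1 : Nat.card T = Nat.card (alternatingGroup (Fin m)) := Nat.card_congr eT.toEquiv
    have h2 := AltSocle.two_mul_natCard (m := m) (by omega)
    rw [← h1, e, Subgroup.card_bot] at h2
    have := Nat.self_le_factorial m
    omega
  have hTtr : IsPretransitive T Ω := by
    have hfix : fixedPoints T Ω ≠ Set.univ := fun e => hTne (by
      rw [eq_bot_iff]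
      intro t ht
      rw [Subgroup.mem_bot]
      refine eq_of_smul_eq_smul (α := Ω) fun x => ?_
      rw [one_smul]
      exact (e ▸ Set.mem_univ x : x ∈ fixedPoints T Ω) ⟨t, ht⟩)
    exact IsQuasiPreprimitive.isPretransitive_of_normal hfix
  set K : Subgroup (alternatingGroup (Fin m)) :=
    ((stabilizer G ω).subgroupOf T).map eT.toMonoidHom with hKdef
  have hidx : K.index = Nat.card Ω := by
    rw [hKdef, Subgroup.index_map_of_bijective eT.bijective]
    exact index_stabilizer_of_transitive T ω
  rw [← hidx] at hrd hmax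
  suffices hgood : AltSocle.Good r K by
    obtain ⟨x, hx, hxK⟩ := hgood
    refine ⟨((eT.symm x : T) : G), ?_, fun ω' hω' => ?_⟩
    · rw [Subgroup.orderOf_coe, MulEquiv.orderOf_eq, hx]
    · obtain ⟨s, hs⟩ := MulAction.exists_smul_eq T ω' ω
      apply hxK (eT s)
      rw [hKdef, Subgroup.mem_map_equiv, Subgroup.mem_subgroupOf, mem_stabilizer_iff]
      simp only [map_mul, map_inv, MulEquiv.symm_apply_apply, Subgroup.coe_mul, Subgroup.coe_inv,
        mul_smul]
      rw [show ((s : G))⁻¹ • ω = ω' from inv_smul_eq_iff.2 hs.symm, hω']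
      exact hs
  have hKtop : K ≠ ⊤ := fun e => by
    rw [e, Subgroup.index_top] at hidx
    omega
  rcases eq_or_ne m 6 with rfl | hm6
  · exact AltSocle.good_six hr hKtop hrd hmax
  -- otherwise the group is embedded in the symmetric group
  have hbij := Agent.Alt.conjNormal_bijective (α := Fin m)
    (by rw [Nat.card_fin]; omega) (by rw [Nat.card_fin]; exact hm6)
  let Φ := MulEquiv.ofBijective _ hbij
  let ρ : G →* Equiv.Perm (Fin m) :=
    Φ.symm.toMonoidHom.comp ((MulAut.congr eT).toMonoidHom.comp MulAut.conjNormal)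
  have hρT : ∀ t : T, ρ (t : G) = ((eT t : alternatingGroup (Fin m)) : Equiv.Perm (Fin m)) := by
    intro t
    apply Φ.injective
    change Φ (Φ.symm _) = _
    rw [MulEquiv.apply_symm_apply]
    ext x : 1
    apply Subtype.ext
    change (((eT (MulAut.conjNormal (t : G) (eT.symm x))) : alternatingGroup (Fin m)) :
      Equiv.Perm (Fin m)) = ((MulAut.conjNormal ((eT t : Equiv.Perm (Fin m)))) x :
      alternatingGroup (Fin m))
    have hconj : MulAut.conjNormal (t : G) (eT.symm x) = t * eT.symm x * t⁻¹ :=
      Subtype.ext (by simp [MulAut.conjNormal_apply])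
    rw [hconj, MulAut.conjNormal_apply]
    simp
  have hρinj : Function.Injective ρ := by
    rw [← MonoidHom.ker_eq_bot_iff, eq_bot_iff, ← hTc]
    intro g hg
    rw [Subgroup.mem_centralizer_iff]
    intro t ht
    have h1 : (MulAut.congr eT) (MulAut.conjNormal g) = 1 := by
      apply Φ.symm.injective
      rw [map_one]; exact hg
    rw [MulEquiv.map_eq_one_iff] at h1
    have h2 := congrArg (fun φ : MulAut T => ((φ ⟨t, ht⟩ : T) : G)) h1
    simp only [MulAut.conjNormal_apply, MulAut.one_apply] at h2
    exact (mul_inv_eq_iff_eq_mul.1 h2).symm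
  set H := (stabilizer G ω).map ρ with hH
  have hKH : K = H.subgroupOf (alternatingGroup (Fin m)) := by
    ext x
    rw [hKdef, Subgroup.mem_map_equiv, Subgroup.mem_subgroupOf, Subgroup.mem_subgroupOf, hH]
    have e : (x : Equiv.Perm (Fin m)) = ρ ((eT.symm x : T) : G) := by
      rw [hρT, MulEquiv.apply_symm_apply]
    rw [e, Subgroup.mem_map_iff_mem hρinj]
  have hcoatom : IsCoatom (stabilizer G ω) :=
    (isCoatom_stabilizer_iff_preprimitive G ω).2 hprim
  rw [hKH] at hrd hmax hKtop ⊢
  refine AltSocle.good_of_maximal hm hr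
    (fun hA => hKtop (Subgroup.subgroupOf_eq_top.2 hA)) ?_ hrd hmax
  intro M hM hMA
  have hle : stabilizer G ω ≤ M.comap ρ := Subgroup.map_le_iff_le_comap.1 (hH ▸ hM)
  rcases eq_or_ne (M.comap ρ) (stabilizer G ω) with heq | hne
  · ext x
    have e : (x : Equiv.Perm (Fin m)) = ρ ((eT.symm x : T) : G) := by
      rw [hρT, MulEquiv.apply_symm_apply]
    rw [Subgroup.mem_subgroupOf, Subgroup.mem_subgroupOf, e, ← Subgroup.mem_comap, heq, hH,
      Subgroup.mem_map_iff_mem hρinj]
  · refine absurd (fun x hx => ?_) hMA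
    have htop := hcoatom.2 _ (lt_of_le_of_ne hle (Ne.symm hne))
    have h : ((eT.symm ⟨x, hx⟩ : T) : G) ∈ M.comap ρ := by
      rw [htop]; exact Subgroup.mem_top _
    rw [Subgroup.mem_comap, hρT, MulEquiv.apply_symm_apply] at h
    exact h

end Cfsg.Agent.S3571
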