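import Cfsg.Statements.S3572
import Cfsg.Agent.DihBGroup.Regular

set_option autoImplicit false
open Cfsg

namespace Cfsg.Agent.S3572

/-- A finite primitive permutation group containing a dihedral subgroup that acts regularly (transitively with trivial point stabilizers) is doubly transitive. -/
theorem result {G Ω : Type*} [Group G] [Finite G] [MulAction G Ω] [FaithfulSMul G Ω] [Finite Ω]
    (hprim : MulAction.IsPreprimitive G Ω) (D : Subgroup G) (m : ℕ) (hD : Nonempty (↥D ≃* DihedralGroup m))
    (hDreg : MulAction.IsPretransitive ↥D Ω ∧ ∀ a : Ω, MulAction.stabilizer ↥D a = ⊥) :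
    MulAction.IsMultiplyPretransitive G Ω 2 := by
  classical
  obtain ⟨e⟩ := hD
  haveI : NeZero m := ⟨by
    rintro rfl
    haveI : Finite (DihedralGroup 0) := Finite.of_equiv _ e.toEquiv
    exact not_finite (DihedralGroup 0)⟩
  obtain ⟨htr, hfix⟩ := hDreg
  haveI := hprim
  rw [MulAction.is_two_pretransitive_iff]
  intro x y u v hxy huv
  obtain ⟨g₀, hg₀⟩ := MulAction.exists_smul_eq G x u
  haveI : Nontrivial Ω := ⟨⟨x, y, hxy⟩⟩
  set ι : DihedralGroup m →* G := D.subtype.comp e.symm.toMonoidHom with hι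
  have hbij : Function.Bijective fun d => ι d • u := by
    refine ⟨fun d d' h => ?_, fun w => ?_⟩
    · have h2 : (e.symm d')⁻¹ * e.symm d ∈ MulAction.stabilizer ↥D u := by
        rw [MulAction.mem_stabilizer_iff, mul_smul]
        exact inv_smul_eq_iff.2 h
      rw [hfix u, Subgroup.mem_bot, inv_mul_eq_one] at h2
      exact (e.symm.injective h2).symm
    · obtain ⟨d, hd⟩ := MulAction.exists_smul_eq ↥D u w
      exact ⟨e d, by simpa [hι, Subgroup.smul_def] using hd⟩
  rcases Nat.lt_or_ge m 2 with hm | hm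
  · have hm1 : m = 1 := by have := NeZero.ne m; omega
    subst hm1
    haveI := Fintype.ofFinite Ω
    have hcard : Fintype.card Ω = 2 := by
      rw [← Fintype.card_congr (Equiv.ofBijective _ hbij), DihedralGroup.card]
    refine ⟨g₀, hg₀, ?_⟩
    by_contra hne
    have h3 : ({u, v, g₀ • y} : Finset Ω).card = 3 := by
      rw [Finset.card_insert_of_notMem, Finset.card_pair (Ne.symm hne)]
      simp only [Finset.mem_insert, Finset.mem_singleton, not_or]
      exact ⟨huv, fun h => hxy (smul_left_cancel g₀ (hg₀.trans h))⟩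
    have := Finset.card_le_univ ({u, v, g₀ • y} : Finset Ω)
    omega
  · have hy : g₀ • y ≠ u := fun h => hxy (smul_left_cancel g₀ (hg₀.trans h.symm))
    obtain ⟨g, hg, hgy⟩ := Cfsg.Agent.DihBGroup.stabilizer_transitive (ι := ι) hbij hm hy huv.symm
    exact ⟨g * g₀, by rw [mul_smul, hg₀]; exact MulAction.mem_stabilizer_iff.1 hg,
      by rw [mul_smul, hgy]⟩

end Cfsg.Agent.S3572
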