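import Cfsg.Statements.S3573
-- import your own Cfsg.Agent.* helpers here

set_option autoImplicit false
open Cfsg

set_option linter.style.haveILetI false

namespace Cfsg.Agent.S3573

/-- Let 1 ≤ k with 2k < n and consider the symmetric group of degree n acting on the k-subsets of an n-set. Let r be a prime dividing the number C(n,k) of k-subsets. If r is odd, then every permutation of order r fixes some k-subset if and only if r ≤ k and the remainder of k modulo r is at most the remainder of n modulo r. If r = 2, then every involution fixes some k-subset if and only if k is even or n is odd. -/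
theorem result (n k : ℕ) (hk : 1 ≤ k) (hkn : 2 * k < n) (r : ℕ) (hr : r.Prime) (hrd : r ∣ Nat.choose n k) :
    (r ≠ 2 → ((∀ σ : Equiv.Perm (Fin n), orderOf σ = r → ∃ s : Finset (Fin n), s.card = k ∧ s.image σ = s) ↔
      (r ≤ k ∧ k % r ≤ n % r))) ∧
    (r = 2 → ((∀ σ : Equiv.Perm (Fin n), orderOf σ = 2 → ∃ s : Finset (Fin n), s.card = k ∧ s.image σ = s) ↔
      (Even k ∨ Odd n))) := by
  classical
  have hrn : r ≤ n := by
    by_contra h
    push Not at h
    have h1 : r ∣ n.factorial := by
      rw [← Nat.choose_mul_factorial_mul_factorial (show k ≤ n by omega), mul_assoc]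
      exact hrd.mul_right _
    exact absurd ((Nat.Prime.dvd_factorial hr).mp h1) (by omega)
  haveI := Fact.mk hr
  have key : (∀ σ : Equiv.Perm (Fin n), orderOf σ = r →
      ∃ s : Finset (Fin n), s.card = k ∧ s.image σ = s) ↔ k % r ≤ n % r := by
    constructor
    · intro hall
      obtain ⟨σ, hσ⟩ := (Equiv.Perm.exists_with_cycleType_iff (Fin n)
        (m := Multiset.replicate (n / r) r)).mpr ⟨by
          rw [Multiset.sum_replicate, Fintype.card_fin, smul_eq_mul]
          exact Nat.div_mul_le_self n r, fun a ha => by
          rw [Multiset.eq_of_mem_replicate ha]; exact hr.two_le⟩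
      have hj : n / r ≠ 0 := (Nat.div_pos hrn hr.pos).ne'
      have hord : orderOf σ = r := by
        rw [← Equiv.Perm.lcm_cycleType, hσ]
        refine Nat.dvd_antisymm (Multiset.lcm_dvd.mpr fun a ha => ?_)
          (Multiset.dvd_lcm (Multiset.mem_replicate.mpr ⟨hj, rfl⟩))
        rw [Multiset.eq_of_mem_replicate ha]
      obtain ⟨s, hs, hsσ⟩ := hall σ hord
      have hinv : ∀ x, x ∈ s → σ x ∈ s := fun x hx => hsσ ▸ Finset.mem_image_of_mem σ hx
      have hsupp : σ.support.card = n / r * r := by
        rw [← Equiv.Perm.sum_cycleType, hσ, Multiset.sum_replicate, smul_eq_mul]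
      -- the moved points of `s` come in cycles of length `r`
      have hdvd : r ∣ (s ∩ σ.support).card := by
        let A := {x // x ∈ s ∩ σ.support}
        let f : A → A := fun x => ⟨σ x.1, Finset.mem_inter.mpr
          ⟨hinv _ (Finset.mem_inter.mp x.2).1,
            Equiv.Perm.apply_mem_support.mpr (Finset.mem_inter.mp x.2).2⟩⟩
        have hfe : f^[r ^ 1] = id := by
          funext x
          apply Subtype.ext
          have : ∀ m : ℕ, ((f^[m]) x).1 = (σ ^ m) x.1 := by
            intro m
            induction m with
            | zero => rfl
            | succ m ih =>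
              rw [Function.iterate_succ_apply', pow_succ']
              change σ ((f^[m]) x).1 = _
              rw [ih]; rfl
          rw [this, pow_one, ← hord, pow_orderOf_eq_one]
          rfl
        let fE : Function.End A := f
        have hpowE : ∀ m : ℕ, (fE ^ m : Function.End A) = f^[m] := by
          intro m
          induction m with
          | zero => rfl
          | succ m ih => rw [pow_succ, ih]; rfl
        have hm := Equiv.Perm.card_fixedPoints_modEq (f := fE) (p := r) (n := 1)
          ((hpowE _).trans hfe)
        have h0 : Fintype.card (Function.fixedPoints f) = 0 := by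
          rw [Fintype.card_eq_zero_iff]
          refine ⟨fun ⟨x, hx⟩ => ?_⟩
          exact Equiv.Perm.mem_support.mp (Finset.mem_inter.mp x.2).2 (congrArg Subtype.val hx)
        change Fintype.card A ≡ Fintype.card (Function.fixedPoints f) [MOD r] at hm
        rw [h0, Fintype.card_coe] at hm
        exact (Nat.modEq_zero_iff_dvd).mp hm
      obtain ⟨i, hi⟩ := hdvd
      have hout : (s \ σ.support).card ≤ n % r := by
        refine (Finset.card_le_card
          (fun x hx => Finset.mem_compl.mpr (Finset.mem_sdiff.mp hx).2 : s \ σ.support ⊆ σ.supportᶜ)).trans ?_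
        rw [Finset.card_compl, Fintype.card_fin, hsupp]
        have := Nat.div_add_mod n r
        rw [mul_comm] at this
        omega
      have hsplit := Finset.card_inter_add_card_sdiff s σ.support
      rw [hs, hi] at hsplit
      calc k % r = (r * i + (s \ σ.support).card) % r := by rw [hsplit]
        _ = (s \ σ.support).card % r := Nat.mul_add_mod _ _ _
        _ ≤ (s \ σ.support).card := Nat.mod_le _ _
        _ ≤ n % r := hout
    · intro hk' σ hσ
      -- invariant subsets of the support of every multiple of `r`
      have hperiod : ∀ x ∈ σ.support, (σ.cycleOf x).support.card = r := by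
        intro x hx
        have hne : σ.cycleOf x ∈ σ.cycleFactorsFinset :=
          Equiv.Perm.cycleOf_mem_cycleFactorsFinset_iff.mpr hx
        have hmem : (σ.cycleOf x).support.card ∈ σ.cycleType := by
          rw [Equiv.Perm.cycleType_def]
          exact Multiset.mem_map.mpr ⟨_, hne, rfl⟩
        have h1 := Equiv.Perm.dvd_of_mem_cycleType hmem
        rw [hσ] at h1
        have h2 := Equiv.Perm.two_le_of_mem_cycleType hmem
        exact ((Nat.dvd_prime hr).mp h1).resolve_left (by omega)
      have hsupp : ∃ j, σ.support.card = j * r := by
        refine ⟨σ.cycleType.card, ?_⟩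
        rw [← Equiv.Perm.sum_cycleType]
        rw [Multiset.eq_replicate_card.mpr (fun a ha => ?_ : ∀ a ∈ σ.cycleType, a = r),
          Multiset.sum_replicate, smul_eq_mul, Multiset.card_replicate]
        have h1 := Equiv.Perm.dvd_of_mem_cycleType ha
        rw [hσ] at h1
        exact ((Nat.dvd_prime hr).mp h1).resolve_left
          (by have := Equiv.Perm.two_le_of_mem_cycleType ha; omega)
      obtain ⟨j, hj⟩ := hsupp
      have hex : ∀ i ≤ j, ∃ T : Finset (Fin n), T ⊆ σ.support ∧ T.card = i * r ∧
          ∀ x, x ∈ T → σ x ∈ T := by
        intro i
        induction i with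
        | zero => exact fun _ => ⟨∅, Finset.empty_subset _, by simp, by simp⟩
        | succ i ih =>
          intro hi
          obtain ⟨T, hT, hTc, hTi⟩ := ih (by omega)
          obtain ⟨x, hx, hxT⟩ : ∃ x ∈ σ.support, x ∉ T := by
            by_contra hno
            push Not at hno
            have := Finset.card_le_card (fun x hx => hno x hx : σ.support ⊆ T)
            rw [hTc, hj] at this
            nlinarith [hr.two_le]
          have hTback : ∀ m : ℕ, ∀ y ∈ T, (σ ^ m) y ∈ T := by
            intro m
            induction m with
            | zero => simp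
            | succ m ih' => intro y hy; rw [pow_succ', Equiv.Perm.mul_apply]; exact hTi _ (ih' y hy)
          refine ⟨T ∪ (σ.cycleOf x).support, Finset.union_subset hT
            (Equiv.Perm.support_cycleOf_le σ x), ?_, ?_⟩
          · rw [Finset.card_union_of_disjoint, hTc, hperiod x hx]; ring
            rw [Finset.disjoint_left]
            intro y hyT hy
            rw [Equiv.Perm.mem_support_cycleOf_iff] at hy
            obtain ⟨m, -, hm⟩ := hy.1.symm.exists_pow_eq'
            exact hxT (hm ▸ hTback m y hyT)
          · intro y hy
            rcases Finset.mem_union.mp hy with h | h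
            · exact Finset.mem_union_left _ (hTi y h)
            · refine Finset.mem_union_right _ ?_
              rw [Equiv.Perm.mem_support_cycleOf_iff] at h ⊢
              exact ⟨Equiv.Perm.sameCycle_apply_right.mpr h.1, h.2⟩
      obtain ⟨T, hT, hTc, hTi⟩ := hex (min j (k / r)) (min_le_left _ _)
      have hcompl : σ.supportᶜ.card = n - j * r := by rw [Finset.card_compl, Fintype.card_fin, hj]
      have hjn : j * r ≤ n := by
        rw [← hj]; exact (Finset.card_le_univ _).trans (le_of_eq (Fintype.card_fin n))
      have hTk : T.card ≤ k := by
        rw [hTc]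
        exact (Nat.mul_le_mul_right r (min_le_right _ _)).trans (Nat.div_mul_le_self k r)
      have hneed : k - T.card ≤ σ.supportᶜ.card := by
        rw [hTc, hcompl]
        rcases le_total j (k / r) with h | h
        · rw [min_eq_left h]; omega
        · rw [min_eq_right h]
          have h1 := Nat.div_add_mod k r
          have h2 : n % r ≤ n - j * r := by
            obtain ⟨d, hd⟩ : ∃ d, n = d + j * r := ⟨n - j * r, by omega⟩
            rw [hd, Nat.add_mul_mod_self_right, Nat.add_sub_cancel]
            exact Nat.mod_le _ _
          rw [mul_comm] at h1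
          omega
      obtain ⟨U, hU, hUc⟩ := Finset.exists_subset_card_eq hneed
      refine ⟨T ∪ U, ?_, ?_⟩
      · rw [Finset.card_union_of_disjoint, hUc]
        · omega
        · exact Finset.disjoint_left.mpr fun y hy hy' => Finset.mem_compl.mp (hU hy') (hT hy)
      · apply Finset.eq_of_subset_of_card_le
        · intro y hy
          obtain ⟨z, hz, rfl⟩ := Finset.mem_image.mp hy
          rcases Finset.mem_union.mp hz with h | h
          · exact Finset.mem_union_left _ (hTi z h)
          · rw [Equiv.Perm.notMem_support.mp (Finset.mem_compl.mp (hU h))]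
            exact Finset.mem_union_right _ h
        · rw [Finset.card_image_of_injective _ σ.injective]
  constructor
  · intro _
    rw [key]
    refine ⟨fun h => ⟨?_, h⟩, fun h => h.2⟩
    by_contra hlt
    push Not at hlt
    rw [Nat.mod_eq_of_lt hlt] at h
    have h1 : r ∣ n.descFactorial k := by
      rw [Nat.descFactorial_eq_factorial_mul_choose]; exact hrd.mul_left _
    rw [Nat.descFactorial_eq_prod_range] at h1
    obtain ⟨i, hi, hid⟩ := (Nat.Prime.prime hr).exists_mem_finset_dvd h1
    rw [Finset.mem_range] at hi
    obtain ⟨d, hd⟩ := hid
    have : n % r = i := by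
      rw [show n = i + r * d by omega, Nat.add_mul_mod_self_left, Nat.mod_eq_of_lt (by omega)]
    omega
  · rintro rfl
    rw [key, Nat.even_iff, Nat.odd_iff]
    omega

end Cfsg.Agent.S3573
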