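import Cfsg.Statements.S3575
import Cfsg.Agent.PrimStruct.UniformPartition
-- import your own Cfsg.Agent.* helpers here

set_option autoImplicit false
open Cfsg

set_option linter.style.haveILetI false

namespace Cfsg.Agent.S3575

/-- Let a, b ≥ 2 and consider the symmetric group of degree a·b acting on the partitions of an (a·b)-set into b parts of size a (encoded as maps onto a b-element set all of whose fibres have a elements; a permutation fixes such a partition when it permutes the fibres). Let r be a prime dividing the number (ab)!/((a!)^b·b!) of such partitions, and let ℓ and k be the remainders of a and b modulo r. Then every permutation of order r fixes some such partition if and only if r ≤ a and one of the following holds: ℓ = 0; or k = 0 and ℓ = 1; or ℓ and k are non-zero, k·ℓ < r, and either b < r or (k + r)·ℓ ≤ k·a + r. -/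
theorem result (a b : ℕ) (ha : 2 ≤ a) (hb : 2 ≤ b) (r : ℕ) (hr : r.Prime)
    (hrd : r ∣ (a * b).factorial / (a.factorial ^ b * b.factorial)) :
    (∀ σ : Equiv.Perm (Fin (a * b)), orderOf σ = r →
        ∃ f : Fin (a * b) → Fin b, (∀ j : Fin b, Nat.card {x : Fin (a * b) // f x = j} = a) ∧
          ∃ π : Equiv.Perm (Fin b), ∀ x : Fin (a * b), f (σ x) = π (f x)) ↔
      (r ≤ a ∧ (a % r = 0 ∨ (b % r = 0 ∧ a % r = 1) ∨
        (a % r ≠ 0 ∧ b % r ≠ 0 ∧ (b % r) * (a % r) < r ∧ (b < r ∨ (b % r + r) * (a % r) ≤ (b % r) * a + r)))) := by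
  classical
  have hrab : r ≤ a * b := hr.dvd_factorial.mp
    (hrd.trans (Nat.div_dvd_of_dvd (by
      rw [show a * b = b * a from mul_comm a b, ← Nat.uniformBell_mul_eq b (n := a) (by omega), mul_assoc]
      exact dvd_mul_left _ _)))
  have hcount := PrimStruct.cycleCountOK_iff ha hb hr hrab
  have hlhs : (∀ σ : Equiv.Perm (Fin (a * b)), orderOf σ = r →
        ∃ f : Fin (a * b) → Fin b, (∀ j : Fin b, Nat.card {x : Fin (a * b) // f x = j} = a) ∧
          ∃ π : Equiv.Perm (Fin b), ∀ x : Fin (a * b), f (σ x) = π (f x)) ↔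
      (∀ j, 1 ≤ j → j * r ≤ a * b → PrimStruct.CycleCountOK a b r j) := by
    haveI := Fact.mk hr
    constructor
    · intro h j hj hjr
      obtain ⟨σ, h1, h2⟩ := PrimStruct.exists_perm_moved (a * b) hr hjr
      have h3 : σ ≠ 1 := by
        rintro rfl
        rw [PrimStruct.moved_eq, Equiv.Perm.support_one, Finset.card_empty] at h2
        exact absurd h2 (Nat.ne_of_lt (Nat.mul_pos hj hr.pos))
      obtain ⟨f, hf, π, hπ⟩ := h σ (orderOf_eq_prime h1 h3)
      exact PrimStruct.cycleCountOK_of_fixed hr (by omega) h1 h2 f hf π hπ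
    · intro h σ hσ
      have h1 : σ ^ r = 1 := hσ ▸ pow_orderOf_eq_one σ
      obtain ⟨j, hj⟩ := PrimStruct.dvd_moved hr h1
      replace hj : PrimStruct.moved σ = j * r := hj.trans (mul_comm r j)
      refine PrimStruct.fixed_of_cycleCountOK hr (h j ?_ ?_) h1 hj
      · by_contra hj0
        obtain rfl : j = 0 := by omega
        rw [zero_mul, PrimStruct.moved_eq, Finset.card_eq_zero, Equiv.Perm.support_eq_empty_iff] at hj
        rw [hj, orderOf_one] at hσ
        exact hr.one_lt.ne hσ
      · rw [← hj, PrimStruct.moved_eq]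
        exact (Finset.card_le_univ _).trans (Fintype.card_fin _).le
  rw [hlhs, hcount]
  have hda := Nat.div_add_mod a r
  have hdb := Nat.div_add_mod b r
  have hl := Nat.mod_lt a hr.pos
  have hk := Nat.mod_lt b hr.pos
  generalize a / r = A at hda ⊢
  generalize a % r = l at hda hl ⊢
  generalize b / r = B at hdb
  generalize b % r = k at hdb hk ⊢
  constructor
  · rintro ⟨h1, h2, h3⟩
    refine ⟨h1, ?_⟩
    rcases Nat.eq_zero_or_pos l with hl0 | hl0
    · exact Or.inl hl0
    rcases Nat.eq_zero_or_pos k with rfl | hk0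
    · refine Or.inr (Or.inl ⟨rfl, ?_⟩)
      have hB : r ≤ b := by
        rcases Nat.eq_zero_or_pos B with rfl | hB
        · omega
        · have := Nat.le_mul_of_pos_right r hB
          omega
      have := h3 hB
      omega
    · refine Or.inr (Or.inr ⟨by omega, by omega, mul_comm k l ▸ h2, ?_⟩)
      rcases Nat.lt_or_ge b r with hb' | hb'
      · exact Or.inl hb'
      · right
        have := Nat.mul_le_mul_left r (h3 hb')
        subst hda
        nlinarith
  · rintro ⟨h1, h⟩
    refine ⟨h1, ?_⟩
    rcases h with rfl | ⟨rfl, rfl⟩ | ⟨-, -, h2, h3⟩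
    · exact ⟨by simpa using hr.pos, fun _ => Nat.zero_le _⟩
    · exact ⟨by simpa using hr.pos, fun _ => by omega⟩
    · refine ⟨mul_comm k l ▸ h2, fun hb' => ?_⟩
      rcases h3 with h3 | h3
      · omega
      · subst hda
        refine Nat.le_of_mul_le_mul_left ?_ hr.pos
        nlinarith

end Cfsg.Agent.S3575
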