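import Cfsg.Statements.S3590
import Cfsg.Agent.RecogA.MinusEightSpectrum
import Cfsg.Agent.RecogA.ModuleIsospectral

set_option autoImplicit false
open Cfsg

namespace Cfsg.Agent.S3590

/-- Let F be a finite field of characteristic 2. Then PSp(8,F) is not determined by its set of element orders, not even up to finitely many groups: for every bound there is a finite group of larger order with exactly the same set of element orders as PSp(8,F). -/
theorem result {F : Type*} [Field F] [Fintype F]
    [CharP F 2] (M : ℕ) :
    ∃ (H : Type) (_ : Group H) (_ : Fintype H), M < Fintype.card H ∧ Set.range (orderOf : H → ℕ) = Set.range (orderOf : Cfsg.PSp 4 F → ℕ) := by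
  obtain ⟨a, b, han⟩ := Forms.exists_binaryAniso (F := F)
  refine RecogA.exists_large_isospectral_modExt (RecogA.omegaInt (Classical.minusQF 3 a b))
    (v := fun _ => 1) (fun h => one_ne_zero (congrFun h (Sum.inr 0))) _ ?_ M
  rw [RecogA.range_orderOf_modExt_minus_eight han, RecogA.range_orderOf_psp_even,
    (RecogA.range_orderOf_sp_eight han).2]

end Cfsg.Agent.S3590
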