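import Cfsg.Statements.S3592
import Cfsg.Agent.NSE.MathieuEleven
import Cfsg.Agent.S0420
-- import your own Cfsg.Agent.* helpers here

set_option autoImplicit false
open Cfsg

set_option linter.style.haveILetI false

namespace Cfsg.Agent.S3592

/-- Let M be the Mathieu group M₁₁ (order 7920). If a finite group G has the same order as M and the same set of values of the function 'number of elements of order n' (taken over the element orders n that occur), then G is isomorphic to M. -/
theorem result {G : Type*} [Group G] [Finite G]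
    (hcard : Nat.card G = Nat.card ↥Cfsg.Spor.M11)
    (hnse : {c : ℕ | 0 < c ∧ ∃ n : ℕ, c = Nat.card {g : G // orderOf g = n}} =
      {c : ℕ | 0 < c ∧ ∃ n : ℕ, c = Nat.card {g : ↥Cfsg.Spor.M11 // orderOf g = n}}) :
    Nonempty (G ≃* ↥Cfsg.Spor.M11) := by
  have hM := NSE.M11_eleven
  rw [hM.nse] at hnse
  rw [Golay.card_M11] at hcard
  have hG : Cfsg.IsM11 G := ⟨NSE.isSimpleGroup_of_nse hcard hnse, hcard⟩
  have hMM : Cfsg.IsM11 ↥Cfsg.Spor.M11 := ⟨hM.simple, hM.card⟩
  obtain ⟨d, hd⟩ : ∃ d, d ∈ Cfsg.dodecads := ⟨_, Golay.squareDodecad_mem⟩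
  obtain ⟨p, hp⟩ : d.Nonempty := Finset.card_pos.mp (by rw [(Golay.mem_dodecads_iff.mp hd).2]; norm_num)
  obtain ⟨e1⟩ := S0420.result hG d hd p hp
  obtain ⟨e2⟩ := S0420.result hMM d hd p hp
  exact ⟨e1.trans e2.symm⟩

end Cfsg.Agent.S3592
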