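import Cfsg.Statements.S3598
import Cfsg.Agent.PslDeg.Chars

set_option autoImplicit false
open Cfsg Cfsg.Agent

namespace Cfsg.Agent.S3598

/-- Let p be a prime and F a field with p² elements. If a finite group G has, for every d, the same number of irreducible complex characters of degree d as PSL(2,F) (the same first column of the character table, with multiplicities), then G is isomorphic to PSL(2,F). -/
theorem result {F : Type*} [Field F] [Fintype F] (p : ℕ) (hp : p.Prime)
    (hF : Fintype.card F = p ^ 2) {G : Type*} [Group G] [Finite G]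
    (h : ∀ d : ℕ, Nat.card {χ : Cfsg.IrrCharacter G // (χ : G → ℂ) 1 = (d : ℂ)} =
      Nat.card {χ : Cfsg.IrrCharacter (Matrix.ProjectiveSpecialLinearGroup (Fin 2) F) // (χ : Matrix.ProjectiveSpecialLinearGroup (Fin 2) F → ℂ) 1 = (d : ℂ)}) :
    Nonempty (G ≃* Matrix.ProjectiveSpecialLinearGroup (Fin 2) F) := by
  classical
  have hc : ∀ d, PslDeg.cnt G d = PslDeg.cnt (Matrix.ProjectiveSpecialLinearGroup (Fin 2) F) d := h
  rcases Classical.em (p = 2) with rfl | hp2
  · have hF4 : Fintype.card F = 4 := by rw [hF]; norm_num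
    have hS : ∀ (χ : IrrCharacter (Matrix.ProjectiveSpecialLinearGroup (Fin 2) F)) (d : ℕ),
        (χ : Matrix.ProjectiveSpecialLinearGroup (Fin 2) F → ℂ) 1 = (d : ℂ) → d ∈ Finset.range 61 := fun χ d hd => by
      obtain ⟨e, -, he, hdv⟩ := Char.irr_degree_dvd_card χ.2
      have : e = d := by exact_mod_cast he.symm.trans hd
      subst this
      have := Nat.le_of_dvd Nat.card_pos hdv
      rw [Linear.card_PSL_two_of_even (by rw [hF4]; decide), hF4] at this
      exact Finset.mem_range.2 (by omega)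
    have hG : Nat.card G = 60 := by
      rw [PslDeg.card_eq_sum (Finset.range 61) (fun χ d hd => by
          have h' : PslDeg.cnt G d ≠ 0 := PslDeg.cnt_ne_zero hd
          rw [hc] at h'
          obtain ⟨⟨ψ, hψ⟩⟩ := (Nat.card_ne_zero.1 h').1
          exact hS ψ d hψ),
        Finset.sum_congr rfl (fun d _ => by rw [hc d]), ← PslDeg.card_eq_sum _ hS,
        Linear.card_PSL_two_of_even (by rw [hF4]; decide), hF4]
    have hperf : commutator G = ⊤ := by
      apply PslDeg.perfect_of_cnt
      rw [hc]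
      obtain ⟨e⟩ := Linear.psl_two_four_iso hF4
      refine Nat.card_eq_one_iff_unique.2 ⟨?_, ?_⟩
      · haveI := (e.isSimpleGroup : IsSimpleGroup (Matrix.ProjectiveSpecialLinearGroup (Fin 2) F))
        refine Finite.card_le_one_iff_subsingleton.1 ?_
        rw [Nat.cast_one, Char.card_linear_irr]
        rcases (inferInstance : (commutator (Matrix.ProjectiveSpecialLinearGroup (Fin 2) F)).Normal).eq_bot_or_eq_top with hb | ht
        · exfalso
          have hcm : IsMulCommutative (Matrix.ProjectiveSpecialLinearGroup (Fin 2) F) :=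
            ⟨⟨fun a b => commutatorElement_eq_one_iff_mul_comm.1 (Subgroup.mem_bot.1
              (hb ▸ Subgroup.commutator_mem_commutator (Subgroup.mem_top a) (Subgroup.mem_top b)))⟩⟩
          letI : CommGroup (Matrix.ProjectiveSpecialLinearGroup (Fin 2) F) :=
            { (inferInstance : Group (Matrix.ProjectiveSpecialLinearGroup (Fin 2) F)) with mul_comm := fun a b => hcm.is_comm.comm a b }
          have := IsSimpleGroup.prime_card (α := Matrix.ProjectiveSpecialLinearGroup (Fin 2) F)
          rw [Linear.card_PSL_two_of_even (by rw [hF4]; decide), hF4] at this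
          norm_num at this
        · rw [ht, Subgroup.index_top]
      · exact ⟨⟨Char.trivialIrr _, by rw [Nat.cast_one]; rfl⟩⟩
    obtain ⟨e1⟩ := PslDeg.order_sixty hG hperf
    obtain ⟨e2⟩ := Linear.psl_two_four_iso hF4
    exact ⟨e1.trans e2.symm⟩
  · haveI : Fact p.Prime := ⟨hp⟩
    have hodd : p % 2 = 1 := Nat.odd_iff.1 (hp.odd_of_ne_two hp2)
    have h8 : Fintype.card F % 8 = 1 := by
      rw [hF]
      obtain ⟨a, ha⟩ : ∃ a, p = 2 * a + 1 := ⟨p / 2, by omega⟩
      obtain ⟨b, hb⟩ := Nat.even_mul_succ_self a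
      rw [ha, show (2 * a + 1) ^ 2 = 4 * (a * (a + 1)) + 1 by ring, hb]
      omega
    have hp3 : 3 ≤ p := by have := hp.two_le; omega
    have hq9 : 9 ≤ Fintype.card F := by rw [hF]; nlinarith
    obtain ⟨t, ht⟩ : ∃ t, Fintype.card F = 2 * t + 1 := ⟨Fintype.card F / 2, by omega⟩
    have hdegL := PslDeg.psl_degrees (F := F) h8
    have h1 : PslDeg.cnt G 1 = 1 := (hc 1).trans (PslDeg.psl_perfect_count (by omega))
    have hdegG : ∀ d : ℕ, PslDeg.cnt G d ≠ 0 → d ∈
        ({1, Fintype.card F, 2 * t + 2, 2 * t, t + 1} : Finset ℕ) := fun d hd => by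
      have := hdegL d (hc d ▸ hd)
      rwa [show Fintype.card F + 1 = 2 * t + 2 by omega, show Fintype.card F - 1 = 2 * t by omega,
        show (2 * t + 2) / 2 = t + 1 by omega] at this
    have hcard : Nat.card G = Fintype.card F * (t * (2 * t + 2)) := by
      refine Nat.eq_of_mul_eq_mul_left (show 0 < 2 by omega) ?_
      rw [PslDeg.card_eq_sum _ (fun χ d hd => hdegG d (PslDeg.cnt_ne_zero hd)),
        Finset.sum_congr rfl (fun d _ => by rw [hc d]), ← PslDeg.card_eq_sum _ (fun χ d hd => hdegG d
          (hc d ▸ PslDeg.cnt_ne_zero hd)),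
        Linear.card_PSL_two_of_odd (Nat.odd_iff.2 (by omega)), ht,
        show 2 * t + 1 - 1 = 2 * t by omega]
      ring
    have hpm : ¬ p ∣ t * (2 * t + 2) := fun hd => by
      have hpq : p ∣ 2 * t + 1 := ht ▸ hF ▸ dvd_pow_self p two_ne_zero
      rcases hp.dvd_mul.1 hd with h3 | h3
      · have h4 := Nat.dvd_sub hpq (dvd_mul_of_dvd_right h3 2)
        rw [show 2 * t + 1 - 2 * t = 1 by omega] at h4
        exact hp.not_dvd_one h4
      · have h4 := Nat.dvd_sub h3 hpq
        rw [show 2 * t + 2 - (2 * t + 1) = 1 by omega] at h4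
        exact hp.not_dvd_one h4
    have hsyl : ∀ P : Sylow p G, Nat.card (P : Subgroup G) = p ^ 2 := fun P => by
      rw [P.card_eq_multiplicity, hcard, hF,
        Nat.factorization_mul (pow_pos hp.pos 2).ne' (fun e => hpm (by rw [e]; exact dvd_zero p)), hp.factorization_pow]
      simp [Nat.factorization_eq_zero_of_not_dvd hpm]
    have hH : PslDeg.Hyp G p (Fintype.card F) t := by
      refine ⟨by omega, Nat.even_iff.2 (by omega), ht, hcard, fun P => by rw [hsyl P, hF],
        fun P x hx y hy => congrArg Subtype.val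
          (IsPGroup.commutative_of_card_eq_prime_sq (hsyl P) ⟨x, hx⟩ ⟨y, hy⟩), fun y hy P hyP => ?_⟩
      obtain ⟨⟨j, hj⟩⟩ : Nonempty {j : ℕ // orderOf y = p ^ j} := by
        obtain ⟨j, hj⟩ := IsPGroup.iff_orderOf.1 P.2 ⟨y, hyP⟩
        exact ⟨⟨j, by rw [← hj, Subgroup.orderOf_mk]⟩⟩
      have hpy : p ∣ orderOf y := by
        rw [hj]
        exact dvd_pow_self p fun e => hy (orderOf_eq_one_iff.1 (by rw [hj, e, pow_zero]))
      refine IsPGroup.iff_orderOf.2 fun z => ⟨_, Nat.eq_prime_pow_of_unique_prime_dvd (orderOf_pos z).ne' fun {r} hr hrz => ?_⟩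
      by_contra hrp
      rw [← Subgroup.orderOf_coe] at hrz
      set w : G := (z : G) ^ (orderOf (z : G) / r) with hw
      have how : orderOf w = r := by
        rw [hw, orderOf_pow_orderOf_div (orderOf_pos _).ne' hrz]
      have hcomm : Commute y w :=
        Commute.pow_right (show Commute y (z : G) from
          ((Subgroup.mem_centralizer_singleton_iff.1 z.2 : (z : G) * y = y * z)).symm) _
      have hord := hcomm.orderOf_mul_eq_mul_orderOf_of_coprime (by
        rw [hj, how]; exact ((Nat.coprime_primes hp hr).2 (Ne.symm hrp)).pow_left j)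
      exact PslDeg.not_mixed hr hrp ht (by omega) (Nat.even_iff.2 (by omega))
        ⟨2, by omega, hF⟩ hcard h1 hdegG (y * w) (hord ▸ dvd_mul_of_dvd_left hpy _)
        (hord ▸ how ▸ dvd_mul_left _ _)
    obtain ⟨K, iK, iF, hK, ⟨e⟩⟩ := hH.equiv_psl
    obtain ⟨e'⟩ := Linear.psl_congr (FiniteField.ringEquivOfCardEq hK) (Fin 2)
    exact ⟨e.trans e'⟩

end Cfsg.Agent.S3598
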