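import Cfsg.Statements.S3599
import Cfsg.Agent.PrimStruct.AffineFrob
-- import your own Cfsg.Agent.* helpers here

set_option autoImplicit false
open Cfsg

set_option linter.style.haveILetI false

namespace Cfsg.Agent.S3599

/-- A finite group is critical with respect to a set Ω of natural numbers when its set of element orders is Ω while no proper section H/N (H a subgroup, N normal in H, (H, N) ≠ (whole group, 1)) has Ω as its set of element orders. Let s ≥ 1 and let p(j,0), p(j,1) (j < s) be 2s pairwise distinct primes, and let Ω be the set of all products c(0)·…·c(s−1) with each c(j) ∈ {1, p(j,0), p(j,1)}. Then there are 2^s pairwise non-isomorphic finite groups critical with respect to Ω. -/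
theorem result (s : ℕ) (hs : 1 ≤ s) (p : Fin s → Fin 2 → ℕ)
    (hp : ∀ j i, (p j i).Prime) (hinj : ∀ j i j' i', p j i = p j' i' → j = j' ∧ i = i') :
    ∃ (G : Fin (2 ^ s) → Type) (_ : ∀ a, Group (G a)) (_ : ∀ a, Fintype (G a)),
      (∀ a b, a ≠ b → ¬ Nonempty (G a ≃* G b)) ∧
      ∀ a, Set.range (orderOf : (G a) → ℕ) = {m : ℕ | ∃ c : Fin s → ℕ, (∀ j, c j = 1 ∨ c j = p j 0 ∨ c j = p j 1) ∧ m = ∏ j, c j} ∧
      ∀ (H : Subgroup (G a)) (N : Subgroup ↥H) [N.Normal], (H ≠ ⊤ ∨ N ≠ ⊥) → Set.range (orderOf : (↥H ⧸ N) → ℕ) ≠ {m : ℕ | ∃ c : Fin s → ℕ, (∀ j, c j = 1 ∨ c j = p j 0 ∨ c j = p j 1) ∧ m = ∏ j, c j} := by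
  classical
  let bits : Fin (2 ^ s) → Fin s → Fin 2 := fun a => finFunctionFinEquiv.symm a
  haveI hpf : ∀ j i, Fact (p j i).Prime := fun j i => ⟨hp j i⟩
  have hne : ∀ j i, p j i ≠ p j (i + 1) := by
    intro j i h
    have := (hinj _ _ _ _ h).2
    revert this
    fin_cases i <;> decide
  choose ζ hζ hmin using fun a j =>
    PrimStruct.exists_zetaMinimal (p j (bits a j)) (p j (bits a j + 1)) (hp _ _) (hne j _)
  let G : Fin (2 ^ s) → Type := fun a => ∀ j, PrimStruct.affFrob (ζ a j)
  haveI hfin : ∀ a, Finite (G a) := fun a => inferInstance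
  have htwo : ∀ i e : Fin 2, e = i ∨ e = i + 1 := by decide
  -- element orders in one factor
  have hord1 : ∀ a j (x : PrimStruct.affFrob (ζ a j)),
      orderOf x = 1 ∨ ∃ e, orderOf x = p j e := by
    intro a j x
    rcases PrimStruct.orderOf_affFrob (P := p j (bits a j)) (hp _ _) (hζ a j) x with h | h | h
    · exact Or.inl h
    · exact Or.inr ⟨_, h⟩
    · exact Or.inr ⟨_, h⟩
  have hel : ∀ a j e, ∃ x : PrimStruct.affFrob (ζ a j), orderOf x = p j e := by
    intro a j e
    rcases htwo (bits a j) e with rfl | rfl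
    · exact ⟨_, PrimStruct.orderOf_affTrans_one⟩
    · exact ⟨_, PrimStruct.orderOf_affMul (hp _ _) (hζ a j)⟩
  let Ω : Set ℕ := {m : ℕ | ∃ c : Fin s → ℕ, (∀ j, c j = 1 ∨ c j = p j 0 ∨ c j = p j 1) ∧ m = ∏ j, c j}
  have hcop : ∀ (c : Fin s → ℕ), (∀ j, c j = 1 ∨ ∃ e, c j = p j e) →
      ∀ i j, i ≠ j → (c i).Coprime (c j) := by
    intro c hc i j hij
    rcases hc i with h | ⟨e, h⟩
    · rw [h]; exact Nat.coprime_one_left _
    rcases hc j with h' | ⟨e', h'⟩
    · rw [h']; exact Nat.coprime_one_right _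
    rw [h, h']
    exact (Nat.coprime_primes (hp _ _) (hp _ _)).mpr fun he => hij (hinj _ _ _ _ he).1
  have hord : ∀ a (g : G a), orderOf g = ∏ j, orderOf (g j) := by
    intro a g
    apply Nat.dvd_antisymm
    · apply orderOf_dvd_of_pow_eq_one
      funext j
      rw [Pi.pow_apply, Pi.one_apply, ← orderOf_dvd_iff_pow_eq_one]
      exact Finset.dvd_prod_of_mem (fun j => orderOf (g j)) (Finset.mem_univ j)
    · refine Fintype.prod_dvd_of_isRelPrime (fun i j hij => Nat.coprime_iff_isRelPrime.mp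
        (hcop _ (fun j => hord1 a j (g j)) i j hij)) fun j => ?_
      rw [orderOf_dvd_iff_pow_eq_one]
      exact congrFun (pow_orderOf_eq_one g) j
  have hspec : ∀ a, Set.range (orderOf : G a → ℕ) = Ω := by
    intro a
    ext m
    constructor
    · rintro ⟨g, rfl⟩
      refine ⟨fun j => orderOf (g j), fun j => ?_, hord a g⟩
      rcases hord1 a j (g j) with h | ⟨e, h⟩
      · exact Or.inl h
      · fin_cases e
        · exact Or.inr (Or.inl h)
        · exact Or.inr (Or.inr h)
    · rintro ⟨c, hc, rfl⟩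
      have : ∀ j, ∃ x : PrimStruct.affFrob (ζ a j), orderOf x = c j := by
        intro j
        rcases hc j with h | h | h
        · exact ⟨1, by rw [h, orderOf_one]⟩
        · exact h ▸ hel a j 0
        · exact h ▸ hel a j 1
      choose g hg using this
      exact ⟨g, by rw [hord a g]; exact Finset.prod_congr rfl fun j _ => hg j⟩
  -- the part outside coordinate `j`
  let M : Fin s → ℕ := fun j => ∏ i ∈ Finset.univ.erase j, (p i 0 * p i 1)
  have hMcop : ∀ j e, (M j).Coprime (p j e) := by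
    intro j e
    refine Nat.Coprime.prod_left fun i hi => ?_
    have hij := Finset.ne_of_mem_erase hi
    exact Nat.Coprime.mul_left ((Nat.coprime_primes (hp _ _) (hp _ _)).mpr fun he => hij (hinj _ _ _ _ he).1)
      ((Nat.coprime_primes (hp _ _) (hp _ _)).mpr fun he => hij (hinj _ _ _ _ he).1)
  have hkill : ∀ a j i, i ≠ j → ∀ x : PrimStruct.affFrob (ζ a i), x ^ M j = 1 := by
    intro a j i hij x
    rw [← orderOf_dvd_iff_pow_eq_one]
    refine dvd_trans ?_ (Finset.dvd_prod_of_mem _ (Finset.mem_erase.mpr ⟨hij, Finset.mem_univ i⟩))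
    rcases hord1 a i x with h | ⟨e, h⟩
    · rw [h]; exact one_dvd _
    · rw [h]; fin_cases e
      · exact dvd_mul_right _ _
      · exact dvd_mul_left _ _
  -- a subgroup contains each component of its elements
  have hsingle : ∀ a (H : Subgroup (G a)) (g : G a), g ∈ H → ∀ j,
      (MonoidHom.mulSingle _ j (g j) : G a) ∈ H := by
    intro a H g hg j
    have hj : (MonoidHom.mulSingle _ j ((g j) ^ M j) : G a) = g ^ M j := by
      funext i
      rw [MonoidHom.mulSingle_apply, Pi.pow_apply]
      by_cases hij : i = j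
      · subst hij; simp
      · rw [Pi.mulSingle_eq_of_ne hij, hkill a j i hij]
    have hc : (orderOf (g j)).Coprime (M j) := by
      rcases hord1 a j (g j) with h | ⟨e, h⟩
      · rw [h]; exact Nat.coprime_one_left _
      · rw [h]; exact (hMcop j e).symm
    obtain ⟨m, hm⟩ := exists_pow_eq_self_of_coprime hc.symm
    rw [← hm, map_pow, hj]
    exact H.pow_mem (H.pow_mem hg _) m
  refine ⟨G, fun a => inferInstance, fun a => Fintype.ofFinite _, ?_, fun a => ⟨hspec a, ?_⟩⟩
  · rintro a b hab ⟨φ⟩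
    obtain ⟨j, hj⟩ : ∃ j, bits a j ≠ bits b j := by
      by_contra hno
      push Not at hno
      exact hab (finFunctionFinEquiv.symm.injective (funext hno))
    have hQb : bits b j + 1 = bits a j := by
      rcases htwo (bits b j) (bits a j) with h | h
      · exact absurd h hj
      · exact h.symm
    -- elements of order dividing `p j (bits a j)` form a subgroup in `G a` but not in `G b`
    obtain ⟨u, v, hu, hv, huv⟩ := PrimStruct.mul_pow_ne_one (P := p j (bits b j)) (ζ := ζ b j)
      (hp _ _) (hζ b j) (hne j _)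
    set P := p j (bits a j) with hPdef
    have hP : p j (bits b j + 1) = P := congrArg (p j) hQb
    replace hu : u ^ P = 1 := (congrArg (u ^ ·) hP).symm.trans hu
    replace hv : v ^ P = 1 := (congrArg (v ^ ·) hP).symm.trans hv
    replace huv : (u * v) ^ P ≠ 1 := fun h => huv ((congrArg ((u * v) ^ ·) hP).trans h)
    have h1 : ∀ x y : G a, x ^ P = 1 → y ^ P = 1 → (x * y) ^ P = 1 := by
      intro x y hx hy
      funext i
      rw [Pi.pow_apply, Pi.mul_apply, Pi.one_apply]
      by_cases hij : i = j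
      · subst hij
        exact PrimStruct.mul_pow_char_eq_one (hp _ _) (hζ a i) (hne i _) (congrFun hx i) (congrFun hy i)
      · have htriv : ∀ z : PrimStruct.affFrob (ζ a i), z ^ P = 1 → z = 1 := by
          intro z hz
          rcases hord1 a i z with h | ⟨e, h⟩
          · exact orderOf_eq_one_iff.mp h
          · have := orderOf_dvd_of_pow_eq_one hz
            rw [h] at this
            exact absurd (hinj _ _ _ _ ((Nat.prime_dvd_prime_iff_eq (hp _ _) (hp _ _)).mp this)).1 hij
        rw [htriv (x i) (congrFun hx i), htriv (y i) (congrFun hy i), one_mul, one_pow]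
    have h2 : ∀ x y : G b, x ^ P = 1 → y ^ P = 1 → (x * y) ^ P = 1 := by
      intro x y hx hy
      have := h1 (φ.symm x) (φ.symm y) (by rw [← map_pow, hx, map_one]) (by rw [← map_pow, hy, map_one])
      rw [← map_mul, ← map_pow] at this
      exact φ.symm.injective (by rw [this, map_one])
    have := h2 (MonoidHom.mulSingle _ j u) (MonoidHom.mulSingle _ j v)
      (by rw [← map_pow, hu, map_one]) (by rw [← map_pow, hv, map_one])
    rw [← map_mul, ← map_pow] at this
    exact huv ((Pi.mulSingle_eq_same (M := fun i => ↥(PrimStruct.affFrob (ζ b i))) j ((u * v) ^ P)).symm.trans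
      (congrFun this j))
  intro H N hN hHN hr
  change Set.range (orderOf : (↥H ⧸ N) → ℕ) = Ω at hr
  haveI := hfin a
  have hq : ∀ j e, ∃ q : ↥H ⧸ N, orderOf q = p j e := by
    intro j e
    have hm : p j e ∈ Ω := ⟨Function.update 1 j (p j e), fun i => by
      by_cases hij : i = j
      · subst hij; fin_cases e <;> simp
      · simp [hij], by simp [Finset.prod_update_of_mem]⟩
    rw [← hr] at hm
    exact hm
  -- `H` is everything
  have hjtop : ∀ j, (H.comap (MonoidHom.mulSingle (fun i => ↥(PrimStruct.affFrob (ζ a i))) j)) = ⊤ := by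
    intro j
    have hex : ∀ e, ∃ x ∈ H.comap (MonoidHom.mulSingle (fun i => ↥(PrimStruct.affFrob (ζ a i))) j),
        orderOf x = p j e := by
      intro e
      obtain ⟨q, hq⟩ := hq j e
      obtain ⟨⟨g, hg⟩, rfl⟩ := QuotientGroup.mk_surjective q
      have h1 : p j e ∣ orderOf g := by
        rw [← hq]
        exact (orderOf_map_dvd (QuotientGroup.mk' N) (⟨g, hg⟩ : H)).trans
          (dvd_of_eq (Subgroup.orderOf_coe (⟨g, hg⟩ : H)).symm)
      rw [hord a g] at h1
      obtain ⟨i, -, hi⟩ := ((hp j e).prime.exists_mem_finset_dvd h1)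
      rcases hord1 a i (g i) with h | ⟨e', h⟩
      · rw [h, Nat.dvd_one] at hi; exact absurd hi (hp j e).ne_one
      rw [h] at hi
      obtain ⟨rfl, rfl⟩ := hinj _ _ _ _ ((Nat.prime_dvd_prime_iff_eq (hp _ _) (hp _ _)).mp hi)
      exact ⟨g j, hsingle a H g hg j, h⟩
    obtain ⟨u, hu, hou⟩ := hex (bits a j)
    obtain ⟨v, hv, hov⟩ := hex (bits a j + 1)
    exact PrimStruct.eq_top_of_orders (hp _ _) (hζ a j) (hmin a j) (hne j _) hu hv hou hov
  have hH : H = ⊤ := by
    rw [eq_top_iff]
    intro g _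
    refine Subgroup.pi_mem_of_mulSingle_mem g fun j => ?_
    exact (show g j ∈ H.comap (MonoidHom.mulSingle (fun i => ↥(PrimStruct.affFrob (ζ a i))) j) by
      rw [hjtop j]; exact Subgroup.mem_top _)
  have hN1 : N ≠ ⊥ := hHN.resolve_left (not_not.mpr hH)
  subst hH
  obtain ⟨⟨n, hn⟩, hne'⟩ := Subgroup.ne_bot_iff_exists_ne_one.mp hN1
  obtain ⟨j, hj⟩ : ∃ j, (n : G a) j ≠ 1 := by
    by_contra hno
    push Not at hno
    exact hne' (Subtype.ext (Subtype.ext (funext hno)))
  let N' : Subgroup (G a) := N.map (⊤ : Subgroup (G a)).subtype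
  have hN' : N'.Normal := hN.map _ (fun x => ⟨⟨x, Subgroup.mem_top x⟩, rfl⟩)
  let Nj := N'.comap (MonoidHom.mulSingle (fun i => ↥(PrimStruct.affFrob (ζ a i))) j)
  have hNj : Nj.Normal := hN'.comap _
  have hNj1 : Nj ≠ ⊥ := fun e => hj (by
    have : (n : G a) j ∈ Nj := hsingle a N' n ⟨n, hn, rfl⟩ j
    rwa [e, Subgroup.mem_bot] at this)
  obtain ⟨q, hq'⟩ := hq j (bits a j)
  obtain ⟨⟨g, hg⟩, rfl⟩ := QuotientGroup.mk_surjective q
  have hmem : (g j) ^ (p j (bits a j + 1)) ∈ Nj :=
    PrimStruct.pow_mem_of_normal (hp _ _) (hζ a j) (hmin a j) (hne j _) hNj hNj1 _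
  have hpow : g ^ (p j (bits a j + 1) * M j) ∈ N' := by
    have he : g ^ (p j (bits a j + 1) * M j) =
        (MonoidHom.mulSingle _ j ((g j) ^ p j (bits a j + 1)) : G a) ^ M j := by
      funext i
      by_cases hij : i = j
      · subst hij
        rw [Pi.pow_apply, Pi.pow_apply, MonoidHom.mulSingle_apply, Pi.mulSingle_eq_same, pow_mul]
      · rw [Pi.pow_apply, Pi.pow_apply, mul_comm, pow_mul, hkill a j i hij, one_pow,
          MonoidHom.mulSingle_apply, Pi.mulSingle_eq_of_ne hij, one_pow]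
    rw [he]
    exact N'.pow_mem hmem _
  have hdvd : orderOf ((⟨g, hg⟩ : (⊤ : Subgroup (G a))) : ↥(⊤ : Subgroup (G a)) ⧸ N) ∣
      p j (bits a j + 1) * M j := by
    apply orderOf_dvd_of_pow_eq_one
    rw [← QuotientGroup.mk_pow, QuotientGroup.eq_one_iff]
    obtain ⟨y, hy, hye⟩ := hpow
    rwa [show (⟨g, hg⟩ : (⊤ : Subgroup (G a))) ^ (p j (bits a j + 1) * M j) = y from Subtype.ext hye.symm]
  rw [hq'] at hdvd
  rcases (Nat.Prime.dvd_mul (hp _ _)).mp hdvd with h | h
  · exact hne j _ ((Nat.prime_dvd_prime_iff_eq (hp _ _) (hp _ _)).mp h)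
  · exact (hp _ _).ne_one ((Nat.coprime_self _).mp (Nat.Coprime.coprime_dvd_left h (hMcop j (bits a j))))

end Cfsg.Agent.S3599
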