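import Cfsg.Statements.S3600
import Cfsg.Agent.SpecFive.Extension
import Cfsg.Agent.SpecFive.Affine

set_option autoImplicit false
open Cfsg

namespace Cfsg.Agent.S3600

open SpecFive SpecFive.Natural Cfsg.Agent.Recog

/-- The spectrum of an extension of a non-trivial two-elementary group by `A₅` with orders at
most five. -/
theorem spectrum_eq {X : Type*} [Group X] [Finite X] (h : Bound X) {N : Subgroup X} [N.Normal]
    (hab : ∀ a ∈ N, ∀ b ∈ N, Commute a b) (hexp : ∀ a ∈ N, a ^ 2 = 1) (hne : N ≠ ⊥)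
    (q : X →* A5) (hq : Function.Surjective q) (hker : q.ker = N) :
    Set.range (orderOf : X → ℕ) = ({1, 2, 3, 4, 5} : Set ℕ) := by
  haveI : Fact (Nat.Prime 3) := ⟨by norm_num⟩
  haveI : Fact (Nat.Prime 5) := ⟨by norm_num⟩
  refine Set.Subset.antisymm ?_ ?_
  · rintro _ ⟨g, rfl⟩
    rcases h.order_cases g with e | e | e | e | e <;> simp [e]
  · obtain ⟨g, hg⟩ := h.exists_order_four hab hexp hne q hq hker
    obtain ⟨x, hx⟩ := hq Icosahedral.altX
    obtain ⟨y, hy⟩ := hq Icosahedral.altY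
    intro k hk
    simp only [Set.mem_insert_iff, Set.mem_singleton_iff] at hk
    rcases hk with rfl | rfl | rfl | rfl | rfl
    · exact ⟨1, orderOf_one⟩
    · exact ⟨g ^ 2, by rw [orderOf_pow, hg]; rfl⟩
    · exact ⟨x, order_of_map h q (Or.inl rfl)
        (by rw [hx]; exact orderOf_eq_prime Icosahedral.alt_rel.1 (by decide))⟩
    · exact ⟨g, hg⟩
    · exact ⟨y, order_of_map h q (Or.inr rfl)
        (by rw [hy]; exact orderOf_eq_prime Icosahedral.alt_rel.2.1 (by decide))⟩

/-- A finite group is critical with respect to a set Ω of natural numbers when its set of element orders is Ω while no proper section has Ω as its set of element orders. A finite group critical with respect to {1, 2, 3, 4, 5} (the set of element orders of the alternating group of degree 6) is isomorphic either to the alternating group of degree 6 or to the affine group F² ⋊ SL(2,F) over the field F with four elements (realised as the matrices of SL(3,F) with last row (0, 0, 1)). -/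
theorem result {G : Type*} [Group G] [Finite G]
    (hcrit : Set.range (orderOf : G → ℕ) = ({1, 2, 3, 4, 5} : Set ℕ) ∧
      ∀ (H : Subgroup G) (N : Subgroup ↥H) [N.Normal], (H ≠ ⊤ ∨ N ≠ ⊥) → Set.range (orderOf : (↥H ⧸ N) → ℕ) ≠ ({1, 2, 3, 4, 5} : Set ℕ)) :
    Nonempty (G ≃* alternatingGroup (Fin 6)) ∨
      ∃ (F : Type) (_ : Field F) (_ : Fintype F), Fintype.card F = 4 ∧
        Nonempty (G ≃* ↥(Subgroup.closure {M : Matrix.SpecialLinearGroup (Fin 3) F |
          (M : Matrix (Fin 3) (Fin 3) F) 2 0 = 0 ∧ (M : Matrix (Fin 3) (Fin 3) F) 2 1 = 0 ∧ (M : Matrix (Fin 3) (Fin 3) F) 2 2 = 1})) := by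
  obtain ⟨hspec, hcr⟩ := hcrit
  have hb : Bound G := fun g => by
    have h1 : orderOf g ∈ ({1, 2, 3, 4, 5} : Set ℕ) := hspec ▸ ⟨g, rfl⟩
    simp only [Set.mem_insert_iff, Set.mem_singleton_iff] at h1
    omega
  have hd : ∀ k, k ∈ ({1, 2, 3, 4, 5} : Set ℕ) → k ∣ Nat.card G := fun k hk => by
    obtain ⟨g, rfl⟩ : k ∈ Set.range (orderOf : G → ℕ) := hspec.symm ▸ hk
    exact orderOf_dvd_natCard g
  rcases Full.structure_five ⟨hb, hd 2 (by simp), hd 3 (by simp), hd 5 (by simp)⟩ with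
    h6 | ⟨N, hN, hel, ⟨φ⟩⟩
  · exact Or.inl h6
  refine Or.inr ⟨GFour25.F4, inferInstance, inferInstance, GFour25.card_F4, ?_⟩
  haveI := hN
  have hab : ∀ a ∈ N, ∀ b ∈ N, Commute a b := fun a ha b hb =>
    congrArg Subtype.val (hel.1.is_comm.comm (⟨a, ha⟩ : N) ⟨b, hb⟩)
  have hexp : ∀ a ∈ N, a ^ 2 = 1 := fun a ha => hel.2 a ha
  let q : G →* A5 := φ.toMonoidHom.comp (QuotientGroup.mk' N)
  have hq : Function.Surjective q := φ.surjective.comp (QuotientGroup.mk'_surjective N)
  have hker : q.ker = N := by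
    ext x
    rw [MonoidHom.mem_ker]
    show φ (QuotientGroup.mk' N x) = 1 ↔ _
    rw [MulEquiv.map_eq_one_iff]
    exact QuotientGroup.eq_one_iff x
  have hne : N ≠ ⊥ := by
    intro hbot
    obtain ⟨g, hg⟩ : 4 ∈ Set.range (orderOf : G → ℕ) := hspec.symm ▸ (by simp)
    have h4 : g ^ 4 = 1 := by rw [← hg, pow_orderOf_eq_one]
    have h2 : q g ^ 2 = 1 := alt_five_no_four _ (by rw [← map_pow, h4, map_one])
    rw [← map_pow, ← MonoidHom.mem_ker, hker, hbot, Subgroup.mem_bot] at h2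
    have h3 := orderOf_dvd_of_pow_eq_one h2
    rw [hg] at h3
    norm_num at h3
  refine hb.affine hab hexp hne q hq hker fun W hW hWN => ?_
  by_contra hcon
  rw [not_or] at hcon
  haveI := hW
  let W' : Subgroup (⊤ : Subgroup G) := W.subgroupOf ⊤
  have hW'ne : W' ≠ ⊥ := by
    intro e
    apply hcon.1
    rw [Subgroup.eq_bot_iff_forall]
    intro w hw
    have h1 : (⟨w, Subgroup.mem_top w⟩ : (⊤ : Subgroup G)) ∈ W' := hw
    rw [e, Subgroup.mem_bot] at h1
    exact congrArg Subtype.val h1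
  refine hcr ⊤ W' (Or.inr hW'ne) ?_
  let iso : ((⊤ : Subgroup G) ⧸ W') ≃* G ⧸ W := QuotientGroup.congr W' W Subgroup.topEquiv (by
    ext x
    constructor
    · rintro ⟨y, hy, rfl⟩; exact hy
    · intro hx; exact ⟨⟨x, Subgroup.mem_top x⟩, hx, rfl⟩)
  have hrange : Set.range (orderOf : ((⊤ : Subgroup G) ⧸ W') → ℕ) =
      Set.range (orderOf : G ⧸ W → ℕ) := by
    ext k
    constructor
    · rintro ⟨x, rfl⟩; exact ⟨iso x, iso.orderOf_eq x⟩
    · rintro ⟨x, rfl⟩; exact ⟨iso.symm x, iso.symm.orderOf_eq x⟩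
  rw [hrange]
  haveI : (N.map (QuotientGroup.mk' W)).Normal :=
    Subgroup.Normal.map hN _ (QuotientGroup.mk'_surjective W)
  refine spectrum_eq (hb.quotient W) (N := N.map (QuotientGroup.mk' W)) ?_ ?_ ?_
    (QuotientGroup.lift W q (hker.symm ▸ hWN)) ?_ ?_
  · rintro _ ⟨a, ha, rfl⟩ _ ⟨b, hb', rfl⟩
    exact (hab a ha b hb').map _
  · rintro _ ⟨a, ha, rfl⟩
    rw [← map_pow, hexp a ha, map_one]
  · intro e
    apply hcon.2
    rw [Subgroup.map_eq_bot_iff, QuotientGroup.ker_mk'] at e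
    exact le_antisymm hWN e
  · exact QuotientGroup.lift_surjective_of_surjective W q hq _
  · rw [QuotientGroup.ker_lift, hker]

end Cfsg.Agent.S3600
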