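import Cfsg.Statements.S3619
-- import your own Cfsg.Agent.* helpers here

set_option autoImplicit false
open Cfsg

set_option linter.style.haveILetI false

namespace Cfsg.Agent.S3619

open scoped Pointwise

/-- Let G act faithfully on a finite set in such a way that every non-trivial normal subgroup of G is transitive (G is quasiprimitive). Let Γ be a subset with more than one point and not the whole set, such that the pointwise stabilizer of the complement of Γ acts transitively on Γ (a Jordan set). If that pointwise stabilizer acts primitively on Γ, then G is k-fold transitive where k is one more than the number of points outside Γ (the Jordan set is a trivial one). -/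
theorem result {G Ω : Type*} [Group G] [Finite G] [MulAction G Ω] [FaithfulSMul G Ω] [Finite Ω]
    (hqp : ∀ N : Subgroup G, N.Normal → N ≠ ⊥ → MulAction.IsPretransitive ↥N Ω)
    (Γ : Set Ω) (hΓ1 : 1 < Γ.ncard) (hΓ2 : Γ.ncard < Nat.card Ω)
    (hJ : MulAction.IsPretransitive ↥(fixingSubgroup G Γᶜ) ↥(SubMulAction.ofFixingSubgroup G Γᶜ))
    (hJp : MulAction.IsPreprimitive ↥(fixingSubgroup G Γᶜ) ↥(SubMulAction.ofFixingSubgroup G Γᶜ)) :
    MulAction.IsMultiplyPretransitive G Ω (Nat.card Ω - Γ.ncard + 1) := by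
  classical
  set K := fixingSubgroup G Γᶜ with hK
  have hKfix : ∀ k ∈ K, ∀ x, x ∉ Γ → k • x = x := fun k hk x hx =>
    (mem_fixingSubgroup_iff G).mp hk x hx
  have hKmem : ∀ k ∈ K, ∀ x ∈ Γ, k • x ∈ Γ := fun k hk x hx => by
    by_contra hn
    have h1 := hKfix k hk _ hn
    exact hn (by rw [smul_left_cancel k h1]; exact hx)
  have hKtr : ∀ x ∈ Γ, ∀ y ∈ Γ, ∃ k ∈ K, k • x = y := by
    intro x hx y hy
    obtain ⟨⟨k, hk⟩, he⟩ := MulAction.exists_smul_eq K
      (⟨x, fun h => h hx⟩ : SubMulAction.ofFixingSubgroup G Γᶜ)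
      (⟨y, fun h => h hy⟩ : SubMulAction.ofFixingSubgroup G Γᶜ)
    exact ⟨k, hk, congrArg Subtype.val he⟩
  obtain ⟨x₀, hx₀, y₀, hy₀, hxy⟩ := (Set.one_lt_ncard_iff_nontrivial).mp hΓ1
  obtain ⟨k₀, hk₀, hk₀x⟩ := hKtr x₀ hx₀ y₀ hy₀
  have hk₀1 : k₀ ≠ 1 := fun e => hxy (by rw [← hk₀x, e, one_smul])
  haveI htr : MulAction.IsPretransitive G Ω := by
    haveI := hqp ⊤ inferInstance (fun e => hk₀1 (by
      have : k₀ ∈ (⊥ : Subgroup G) := e ▸ Subgroup.mem_top k₀
      simpa using this))
    exact MulAction.IsPretransitive.of_smul_eq (fun g : (⊤ : Subgroup G) => (g : G)) rfl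
  have hprim : MulAction.IsPreprimitive G Ω := by
    refine { isTrivialBlock_of_isBlock := fun {B} hB => ?_ }
    rcases Set.subsingleton_or_nontrivial B with hB1 | hB1
    · exact Or.inl hB1
    right
    by_contra hBu
    -- no translate of `B` contains `Γ`
    have hnot : ∀ g : G, ¬ Γ ⊆ g • B := by
      intro g hg
      -- then `K` fixes every block
      let N : Subgroup G := ⨅ h : G, MulAction.stabilizer G (h • B)
      have hNn : N.Normal := by
        refine ⟨fun a ha c => ?_⟩
        rw [Subgroup.mem_iInf] at ha ⊢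
        intro h
        have := ha (c⁻¹ * h)
        rw [MulAction.mem_stabilizer_iff] at this ⊢
        calc (c * a * c⁻¹) • h • B = c • a • (c⁻¹ * h) • B := by simp [mul_smul]
          _ = h • B := by rw [this, mul_smul, smul_inv_smul]
      have hkN : k₀ ∈ N := by
        rw [Subgroup.mem_iInf]
        intro h
        rw [MulAction.mem_stabilizer_iff]
        by_cases hgh : h • B = g • B
        · refine (hB.translate h).smul_eq_of_nonempty ⟨k₀ • x₀, ?_, ?_⟩
          · exact Set.smul_mem_smul_set (hgh.symm ▸ hg hx₀)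
          · rw [hk₀x]; exact hgh.symm ▸ hg hy₀
        · have hd : Disjoint (h • B) (g • B) :=
            (MulAction.isBlock_iff_smul_eq_or_disjoint.mp hB (g⁻¹ * h)).elim
              (fun e => absurd (by rw [mul_smul, inv_smul_eq_iff] at e; exact e) hgh)
              (fun e => Set.disjoint_left.mpr fun z hz1 hz2 => Set.disjoint_left.mp e
                (show g⁻¹ • z ∈ (g⁻¹ * h) • B by rw [mul_smul]; exact Set.smul_mem_smul_set hz1)
                (Set.mem_smul_set_iff_inv_smul_mem.mp hz2))
          obtain ⟨b, hb⟩ := hB1.nonempty.smul_set (a := h)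
          refine (hB.translate h).smul_eq_of_nonempty ⟨k₀ • b, Set.smul_mem_smul_set hb, ?_⟩
          rw [hKfix k₀ hk₀ b (fun hbΓ => Set.disjoint_left.mp hd hb (hg hbΓ))]
          exact hb
      haveI := hqp N hNn (fun e => hk₀1 (by simpa [e] using hkN))
      apply hBu
      rw [Set.eq_univ_iff_forall]
      intro y
      obtain ⟨b, hb⟩ := hB1.nonempty
      obtain ⟨⟨a, ha⟩, hab⟩ := MulAction.exists_smul_eq N b y
      have h1 := (Subgroup.mem_iInf.mp ha) 1
      rw [one_smul, MulAction.mem_stabilizer_iff] at h1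
      rw [← h1, ← hab]
      exact Set.smul_mem_smul_set hb
    obtain ⟨b, hb⟩ := hB1.nonempty
    obtain ⟨g, hg⟩ := MulAction.exists_smul_eq G b x₀
    have hC : MulAction.IsBlock G (g • B) := hB.translate g
    have hxC : x₀ ∈ g • B := hg ▸ Set.smul_mem_smul_set hb
    have hsub : g • B ⊆ Γ := by
      intro c hc
      by_contra hcΓ
      apply hnot g
      intro z hz
      obtain ⟨k, hk, rfl⟩ := hKtr x₀ hx₀ z hz
      have : k • (g • B) = g • B :=
        hC.smul_eq_of_nonempty ⟨k • c, Set.smul_mem_smul_set hc, by rwa [hKfix k hk c hcΓ]⟩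
      exact this ▸ Set.smul_mem_smul_set hxC
    -- a block of `K` on `Γ`
    let D : Set (SubMulAction.ofFixingSubgroup G Γᶜ) := Subtype.val ⁻¹' (g • B)
    have hD : MulAction.IsBlock K D := by
      rw [MulAction.isBlock_iff_smul_eq_of_nonempty]
      rintro ⟨k, hk⟩ ⟨z, hz1, hz2⟩
      obtain ⟨u, hu, rfl⟩ := Set.mem_smul_set.mp hz1
      have he : k • (g • B) = g • B :=
        hC.smul_eq_of_nonempty ⟨k • (u : Ω), Set.smul_mem_smul_set hu, hz2⟩
      ext w
      constructor
      · intro hw
        obtain ⟨v, hv, rfl⟩ := Set.mem_smul_set.mp hw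
        change k • (v : Ω) ∈ g • B
        rw [← he]
        exact Set.smul_mem_smul_set hv
      · intro hw
        have hw' : (w : Ω) ∈ k • (g • B) := he.symm ▸ hw
        obtain ⟨v, hv, hvw⟩ := Set.mem_smul_set.mp hw'
        refine Set.mem_smul_set.mpr ⟨⟨v, fun h => h (hsub hv)⟩, hv, Subtype.ext hvw⟩
    haveI := hJp
    rcases MulAction.IsPreprimitive.isTrivialBlock_of_isBlock hD with h | h
    · obtain ⟨u, hu, v, hv, huv⟩ : (g • B).Nontrivial := hB1.image (MulAction.injective g)
      exact huv (congrArg Subtype.val (h (x := ⟨u, fun h' => h' (hsub hu)⟩) hu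
        (y := ⟨v, fun h' => h' (hsub hv)⟩) hv))
    · apply hnot g
      intro z hz
      have : (⟨z, fun h' => h' hz⟩ : SubMulAction.ofFixingSubgroup G Γᶜ) ∈ D := h ▸ Set.mem_univ _
      exact this
  obtain ⟨j, hj⟩ : ∃ j, Γᶜ.ncard = j + 1 := ⟨Γᶜ.ncard - 1, by
    have := Set.ncard_add_ncard_compl Γ; omega⟩
  have hsum := Set.ncard_add_ncard_compl Γ
  have h := hprim.isMultiplyPreprimitive hj (by omega) hJp
  rw [show Nat.card Ω - Γ.ncard + 1 = j + 2 by omega]
  exact MulAction.IsMultiplyPreprimitive.isMultiplyPretransitive G Ω _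

end Cfsg.Agent.S3619
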