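import Cfsg.Statements.S3622


set_option autoImplicit false
open Cfsg

namespace Cfsg.Agent.S3622

/-- Let G be a group of permutations of a finite set, m ≥ 2, and α a point. Say a permutation σ is k-approximated by a set S of permutations if for every k points there is a member of S agreeing with σ at those points. Suppose every permutation that is (m-1)-approximated by the stabilizer of α in G lies in that stabilizer (the stabilizer is (m-1)-closed). Then every permutation that is m-approximated by G lies in G (G is m-closed). -/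
theorem result {Ω : Type*} [Finite Ω] (G : Subgroup (Equiv.Perm Ω)) (m : ℕ) (hm : 2 ≤ m) (α : Ω)
    (hclosed : ∀ σ : Equiv.Perm Ω,
      (∀ t : Fin (m - 1) → Ω, ∃ g ∈ MulAction.stabilizer ↥G α, ∀ i, (g : Equiv.Perm Ω) (t i) = σ (t i)) →
      σ ∈ G ∧ σ α = α) :
    ∀ σ : Equiv.Perm Ω, (∀ t : Fin m → Ω, ∃ g ∈ G, ∀ i, g (t i) = σ (t i)) → σ ∈ G := by
  intro σ hσ
  obtain ⟨g₀, hg₀, hg₀α⟩ := hσ fun _ => α
  have hα : g₀ α = σ α := hg₀α ⟨0, by omega⟩
  suffices h : g₀⁻¹ * σ ∈ G by simpa using mul_mem hg₀ h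
  refine (hclosed _ fun t => ?_).1
  obtain ⟨g, hg, hgt⟩ := hσ fun i => if h : (i : ℕ) < m - 1 then t ⟨i, h⟩ else α
  have hgα : g α = σ α := by
    have := hgt ⟨m - 1, by omega⟩
    simpa using this
  refine ⟨⟨g₀⁻¹ * g, mul_mem (inv_mem hg₀) hg⟩, ?_, fun i => ?_⟩
  · show g₀⁻¹ (g α) = α
    rw [hgα, ← hα, ← Equiv.Perm.mul_apply, inv_mul_cancel, Equiv.Perm.one_apply]
  · show g₀⁻¹ (g (t i)) = g₀⁻¹ (σ (t i))
    have := hgt ⟨i, by omega⟩
    simp only [i.isLt, dite_true, Fin.eta] at this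
    rw [this]

end Cfsg.Agent.S3622
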