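import Cfsg.Statements.S3627
import Cfsg.Agent.GKTools.ProperDivisors
import Cfsg.Agent.SporB.J1Spectrum

set_option autoImplicit false
open Cfsg

namespace Cfsg.Agent.S3627

theorem range_four {G : Type*} [Group G] [Finite G]
    (hf : ∀ y : G, orderOf y ∣ 6 ∨ orderOf y ∣ 10 ∨ orderOf y ∣ 15 ∨ orderOf y = 7 ∨ orderOf y = 11 ∨ orderOf y = 19)
    (he : (∃ x : G, orderOf x = 6) ∧ (∃ x : G, orderOf x = 10) ∧ (∃ x : G, orderOf x = 15))
    (hcard : Nat.card G = 175560) :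
    Set.range (orderOf : G × G × G × G → ℕ) =
      {d | d ∣ 2 * ∏ p ∈ ({3, 5, 7, 11, 19} : Finset ℕ), p ∧ d ≠ 2 * ∏ p ∈ ({3, 5, 7, 11, 19} : Finset ℕ), p} := by
  have hN : 2 * ∏ p ∈ ({3, 5, 7, 11, 19} : Finset ℕ), p = 43890 := by decide
  rw [hN]
  have hmem : ∀ y : G, orderOf y ∈ ([1, 2, 3, 5, 6, 7, 10, 11, 15, 19] : List ℕ) := by
    intro y
    have key6 : ∀ d ∈ Nat.divisors 6, d ∈ ([1, 2, 3, 5, 6, 7, 10, 11, 15, 19] : List ℕ) := by decide
    have key10 : ∀ d ∈ Nat.divisors 10, d ∈ ([1, 2, 3, 5, 6, 7, 10, 11, 15, 19] : List ℕ) := by decide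
    have key15 : ∀ d ∈ Nat.divisors 15, d ∈ ([1, 2, 3, 5, 6, 7, 10, 11, 15, 19] : List ℕ) := by decide
    rcases hf y with h | h | h | h | h | h
    · exact key6 _ (Nat.mem_divisors.2 ⟨h, by norm_num⟩)
    · exact key10 _ (Nat.mem_divisors.2 ⟨h, by norm_num⟩)
    · exact key15 _ (Nat.mem_divisors.2 ⟨h, by norm_num⟩)
    all_goals rw [h]; simp
  -- a least common multiple of four such orders is a proper divisor of 43890
  have hl : ∀ a ∈ ([1, 2, 3, 5, 6, 7, 10, 11, 15, 19] : List ℕ), ∀ b ∈ ([1, 2, 3, 5, 6, 7, 10, 11, 15, 19] : List ℕ),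
      ∀ c ∈ ([1, 2, 3, 5, 6, 7, 10, 11, 15, 19] : List ℕ), ∀ d ∈ ([1, 2, 3, 5, 6, 7, 10, 11, 15, 19] : List ℕ),
      (43890 % Nat.lcm a (Nat.lcm b (Nat.lcm c d)) = 0 ∧ Nat.lcm a (Nat.lcm b (Nat.lcm c d)) ≠ 43890) := by
    decide +kernel
  ext n
  constructor
  · rintro ⟨⟨a, b, c, d⟩, rfl⟩
    simp only [Prod.orderOf]
    obtain ⟨h1, h2⟩ := hl _ (hmem a) _ (hmem b) _ (hmem c) _ (hmem d)
    exact ⟨Nat.dvd_of_mod_eq_zero h1, h2⟩
  · rintro ⟨hn, hne⟩
    obtain ⟨⟨x6, h6⟩, ⟨x10, h10⟩, ⟨x15, h15⟩⟩ := he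
    have pr : ∀ p : ℕ, p.Prime → p ∣ 175560 → ∃ x : G, orderOf x = p := fun p hp h => by
      haveI := Fact.mk hp
      exact exists_prime_orderOf_dvd_card' p (hcard ▸ h)
    obtain ⟨x5, h5⟩ := pr 5 (by norm_num) (by norm_num)
    obtain ⟨x7, h7⟩ := pr 7 (by norm_num) (by norm_num)
    obtain ⟨x11, h11⟩ := pr 11 (by norm_num) (by norm_num)
    obtain ⟨x19, h19⟩ := pr 19 (by norm_num) (by norm_num)
    have hmax : ∃ q ∈ ([2, 3, 5, 7, 11, 19] : List ℕ), n ∣ 43890 / q := by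
      have key : ∀ d ∈ Nat.divisors 43890, d ≠ 43890 → ∃ q ∈ ([2, 3, 5, 7, 11, 19] : List ℕ), 43890 / q % d = 0 := by
        decide +kernel
      obtain ⟨q, hq, h⟩ := key n (Nat.mem_divisors.2 ⟨hn, by norm_num⟩) hne
      exact ⟨q, hq, Nat.dvd_of_mod_eq_zero h⟩
    obtain ⟨q, hq, hnq⟩ := hmax
    obtain ⟨t, ht⟩ : ∃ t : G × G × G × G, orderOf t = 43890 / q := by
      simp only [List.mem_cons, List.not_mem_nil, or_false] at hq
      rcases hq with rfl | rfl | rfl | rfl | rfl | rfl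
      · exact ⟨(x7, x11, x19, x15), by simp only [Prod.orderOf, h7, h11, h19, h15]; decide⟩
      · exact ⟨(x7, x11, x19, x10), by simp only [Prod.orderOf, h7, h11, h19, h10]; decide⟩
      · exact ⟨(x7, x11, x19, x6), by simp only [Prod.orderOf, h7, h11, h19, h6]; decide⟩
      · exact ⟨(x5, x11, x19, x6), by simp only [Prod.orderOf, h5, h11, h19, h6]; decide⟩
      · exact ⟨(x7, x5, x19, x6), by simp only [Prod.orderOf, h7, h5, h19, h6]; decide⟩
      · exact ⟨(x7, x11, x5, x6), by simp only [Prod.orderOf, h7, h11, h5, h6]; decide⟩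
    exact ⟨t ^ (orderOf t / n), orderOf_pow_orderOf_div (orderOf_pos t).ne' (ht ▸ hnq)⟩

/-- Let J be the first Janko group. Then there are finite groups of arbitrarily large order with exactly the same set of element orders as J × J × J × J. -/
theorem result (N : ℕ) : ∃ (H : Type) (_ : Group H) (_ : Fintype H), N < Fintype.card H ∧
      Set.range (orderOf : H → ℕ) = Set.range (orderOf : ↥Cfsg.Spor.J1 × ↥Cfsg.Spor.J1 × ↥Cfsg.Spor.J1 × ↥Cfsg.Spor.J1 → ℕ) := by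
  haveI : ∀ p : {p // p ∈ ({3, 5, 7, 11, 19} : Finset ℕ)}, NeZero p.1 := fun p => ⟨by
    have := p.2
    simp only [Finset.mem_insert, Finset.mem_singleton] at this
    omega⟩
  let H := GKTools.ProperDiv.Model ({3, 5, 7, 11, 19} : Finset ℕ) (N + 1)
  have hP : ∀ p ∈ ({3, 5, 7, 11, 19} : Finset ℕ), p.Prime := by
    intro p hp
    simp only [Finset.mem_insert, Finset.mem_singleton] at hp
    rcases hp with rfl | rfl | rfl | rfl | rfl <;> norm_num
  letI : Fintype H := Fintype.ofFinite H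
  refine ⟨H, inferInstance, inferInstance, ?_, ?_⟩
  · rw [← Nat.card_eq_fintype_card]
    exact (Nat.lt_succ_self N).trans
      (GKTools.ProperDiv.card_model_gt _ _ (Nat.succ_pos N) (p := 3) (by decide) Nat.prime_three)
  rw [GKTools.ProperDiv.range_orderOf _ _ (Nat.succ_pos N) hP (by decide)]
  exact (range_four SporB.J1.orderOf_facts SporB.J1.exists_six_ten_fifteen SporB.J1.card_J1).symm

end Cfsg.Agent.S3627
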