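import Cfsg.Statements.S3641
import Cfsg.Agent.SylowNum17.Main

set_option autoImplicit false
open Cfsg

namespace Cfsg.Agent.S3641

/-- Let G be a finite group with trivial centre whose set of Sylow numbers (numbers of Sylow r-subgroups, r over the prime divisors of its order) is exactly {18, 136, 153}. Then G is isomorphic to PSL(2, 17) or to PGL(2, 17). -/
theorem result {G : Type*} [Group G] [Finite G] (hZ : Subgroup.center G = ⊥) (hNS : {c : ℕ | ∃ r : ℕ, r.Prime ∧ r ∣ Nat.card G ∧ c = Nat.card (Sylow r G)} = ({18, 136, 153} : Set ℕ))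
    {F : Type*} [Field F] [Fintype F] (hF : Fintype.card F = 17) :
    Nonempty (G ≃* Matrix.ProjectiveSpecialLinearGroup (Fin 2) F) ∨ Nonempty (G ≃* (GL (Fin 2) F ⧸ Subgroup.center (GL (Fin 2) F))) := by
  exact Cfsg.Agent.SylowNum17.main hF hZ hNS

end Cfsg.Agent.S3641
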