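import Cfsg.Statements.S3660
import Cfsg.Agent.GKTools.SLTwo

set_option autoImplicit false
open Cfsg

namespace Cfsg.Agent.S3660

/-- The prime graph of a finite group has the prime divisors of its order as vertices, two distinct primes p, q being joined when the group has an element of order pq; two groups have the same prime graph when they have the same prime divisors and the same joined pairs. Let F be a finite field of characteristic 2 with at least 4 elements. Then there are finite groups of arbitrarily large order with the same prime graph as PSL(2,F); in particular PSL(2,F) is not determined by its prime graph. -/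
theorem result {F : Type*} [Field F] [Fintype F] [CharP F 2] (hF : 4 ≤ Fintype.card F) (N : ℕ) :
    ∃ (H : Type) (_ : Group H) (_ : Finite H), N < Nat.card H ∧
      ((∀ p : ℕ, p.Prime → (p ∣ Nat.card (Matrix.ProjectiveSpecialLinearGroup (Fin 2) F) ↔ p ∣ Nat.card H)) ∧
      (∀ p q : ℕ, p.Prime → q.Prime → p ≠ q → ((∃ g : (Matrix.ProjectiveSpecialLinearGroup (Fin 2) F), orderOf g = p * q) ↔ (∃ g : H, orderOf g = p * q)))) := by
  have hc : Subgroup.center (Matrix.SpecialLinearGroup (Fin 2) F) = ⊥ := by
    rw [eq_bot_iff]
    intro A hA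
    obtain ⟨r, hr, hrA⟩ := Matrix.SpecialLinearGroup.mem_center_iff.1 hA
    rw [Subgroup.mem_bot]
    have hr1 : r = 1 := by
      rw [Fintype.card_fin] at hr
      have h2 : (r + 1) ^ 2 = 0 := by rw [CharTwo.add_sq, hr, one_pow, CharTwo.add_self_eq_zero]
      rw [eq_neg_of_add_eq_zero_left (eq_zero_of_pow_eq_zero h2), CharTwo.neg_eq]
    apply Subtype.ext
    rw [← hrA, hr1]
    simp
  have e : Matrix.SpecialLinearGroup (Fin 2) F ≃* Matrix.ProjectiveSpecialLinearGroup (Fin 2) F :=
    (QuotientGroup.quotientBot.symm).trans (QuotientGroup.quotientMulEquivOfEq hc.symm)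
  obtain ⟨H, i1, i2, h1, h2⟩ := GKTools.exists_large_sl_two (F := F) N
  exact ⟨H, i1, i2, h1, (GKTools.samePrimeGraph_of_mulEquiv e.symm).trans h2⟩

end Cfsg.Agent.S3660
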