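import Cfsg.Statements.S3664
import Cfsg.Agent.GKTools.SzFieldExt
import Cfsg.Agent.GKTools.SpSixThree

set_option autoImplicit false
open Cfsg

namespace Cfsg.Agent.S3664

/-- The prime graph of a finite group has the prime divisors of its order as vertices, two distinct primes p, q being joined when the group has an element of order pq; two groups have the same prime graph when they have the same prime divisors and the same joined pairs. Let F be the field with 3 elements and L = PSp(6,F). There are finite groups of arbitrarily large order with the same prime graph as L (a prime graph shared by the orthogonal groups Ω₇(3) and PΩ⁺₈(3)). -/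
theorem result {F : Type*} [Field F] [Fintype F] (hF : Fintype.card F = 3) (N : ℕ) :
    ∃ (H : Type) (_ : Group H) (_ : Finite H), N < Nat.card H ∧
      ((∀ p : ℕ, p.Prime → (p ∣ Nat.card (Cfsg.PSp 3 F) ↔ p ∣ Nat.card H)) ∧
      (∀ p q : ℕ, p.Prime → q.Prime → p ≠ q → ((∃ g : (Cfsg.PSp 3 F), orderOf g = p * q) ↔ (∃ g : H, orderOf g = p * q)))) := by
  haveI : Fact (Nat.Prime 2) := ⟨Nat.prime_two⟩
  haveI : Fact (Nat.Prime 3) := ⟨Nat.prime_three⟩
  haveI : Fintype (GaloisField 2 3) := Fintype.ofFinite _
  haveI : Cfsg.Agent.Suzuki.SuzukiField (GaloisField 2 3) 1 := ⟨le_rfl, by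
    rw [← Nat.card_eq_fintype_card, GaloisField.card 2 3 (by norm_num)]⟩
  obtain ⟨H, i1, i2, hN, hp, hg⟩ := GKTools.SzExt.exists_target_graph (GaloisField 2 3) N
  obtain ⟨hLp, hLg⟩ := GKTools.SpSix.primeGraph
  haveI : CharP F 3 := charP_of_card_eq_prime (by simpa [Nat.card_eq_fintype_card] using hF)
  obtain ⟨e⟩ := GKTools.SpSix.pspCongr 3 (ZMod.ringEquiv F hF)
  obtain ⟨e1, e2⟩ := GKTools.samePrimeGraph_of_mulEquiv e
  exact ⟨H, i1, i2, hN, fun p hpp => ((e1 p hpp).symm.trans (hLp p hpp)).trans (hp p hpp).symm,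
    fun p q hpp hqp hpq => ((e2 p q hpp hqp hpq).symm.trans (hLg p q hpp hqp hpq)).trans (hg p q hpp hqp hpq).symm⟩

end Cfsg.Agent.S3664
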