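import Cfsg.Statements.S3670
import Cfsg.Agent.GKTools.U33Main
import Cfsg.Agent.GKTools.U33Solvable

set_option autoImplicit false
open Cfsg

namespace Cfsg.Agent.S3670

/-- The character degree graph of a finite group has as vertices the primes dividing some irreducible complex character degree, two distinct primes being joined when their product divides some irreducible character degree; two groups have the same character degree graph when they have the same vertices and the same joined pairs. Let F be the field with 9 elements and L = PSU(3,3) realised over F (order 6048). There is a finite solvable group of order 6048 with the same character degree graph as L; so L is not determined by its order together with its character degree graph. -/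
theorem result {F : Type*} [Field F] [Fintype F] (hF : Fintype.card F = 9) :
    ∃ (H : Type) (_ : Group H) (_ : Fintype H), Group.IsSolvable H ∧ Nat.card H = 6048 ∧ Cfsg.degreePrimes H = Cfsg.degreePrimes (Cfsg.PSU 3 F 3) ∧ Cfsg.degreeGraph H = Cfsg.degreeGraph (Cfsg.PSU 3 F 3) := by
  obtain ⟨S⟩ := GKTools.UThree.nonempty_data hF
  haveI : Finite (Cfsg.PSU 3 F 3) := Nat.finite_of_card_ne_zero (by rw [S.card_L]; norm_num)
  letI := Fintype.ofFinite (Cfsg.PSU 3 F 3)
  obtain ⟨H, i1, i2, hs, hc, d, hd, h42⟩ := GKTools.U33Solvable.exists_group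
  obtain ⟨⟨a, x, ha, hx⟩, ⟨b, y, hb, hy⟩, ⟨c, z, hc', hz⟩⟩ := S.degrees
  obtain ⟨l1, l2⟩ := GKTools.AffineChar.graph_eq S.card_L
    ⟨x, ⟨a, Cfsg.Agent.Char.charDegree_of_eq ha⟩, hx⟩ ⟨y, ⟨b, Cfsg.Agent.Char.charDegree_of_eq hb⟩, hy⟩
    ⟨z, ⟨c, Cfsg.Agent.Char.charDegree_of_eq hc'⟩, hz⟩
  obtain ⟨r1, r2⟩ := GKTools.AffineChar.graph_eq hc ⟨d, hd, (by norm_num : 6 ∣ 42).trans h42⟩
    ⟨d, hd, (by norm_num : 14 ∣ 42).trans h42⟩ ⟨d, hd, (by norm_num : 21 ∣ 42).trans h42⟩
  exact ⟨H, i1, i2, hs, hc, r1.trans l1.symm,
    SimpleGraph.ext (funext fun p => funext fun q => propext ((r2 p q).trans (l2 p q).symm))⟩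

end Cfsg.Agent.S3670
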