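import Cfsg.Statements.S3678
import Cfsg.Agent.GKTools.SLTwo
import Cfsg.Agent.Linear.GLTwo

set_option autoImplicit false
open Cfsg

namespace Cfsg.Agent.S3678

/-- The prime graph of a finite group has the prime divisors of its order as vertices, two distinct primes p, q being joined when the group has an element of order pq; two groups have the same prime graph when they have the same prime divisors and the same joined pairs. Let F be the field with 7 elements. There are finite groups of arbitrarily large order with the same prime graph as PSL(2,F) (the graph on {2, 3, 7} with no edges, which is also the prime graph of PSL(2,8)). -/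
theorem result {F : Type*} [Field F] [Fintype F] (hF : Fintype.card F = 7) (N : ℕ) :
    ∃ (H : Type) (_ : Group H) (_ : Finite H), N < Nat.card H ∧
      ((∀ p : ℕ, p.Prime → (p ∣ Nat.card (Matrix.ProjectiveSpecialLinearGroup (Fin 2) F) ↔ p ∣ Nat.card H)) ∧
      (∀ p q : ℕ, p.Prime → q.Prime → p ≠ q → ((∃ g : (Matrix.ProjectiveSpecialLinearGroup (Fin 2) F), orderOf g = p * q) ↔ (∃ g : H, orderOf g = p * q)))) := by
  classical
  haveI : Fact (Nat.Prime 2) := ⟨Nat.prime_two⟩
  haveI : Fact (Nat.Prime 7) := ⟨by norm_num⟩
  haveI : CharP F 7 := charP_of_prime_pow_injective (R := F) 7 1 (by rw [pow_one, hF]) (fun i hi h => by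
    interval_cases i
    · simp at h
    · rfl)
  haveI := Fintype.ofFinite (GaloisField 2 3)
  obtain ⟨H, i1, i2, h1, h2⟩ := GKTools.exists_large_sl_two (F := GaloisField 2 3) N
  refine ⟨H, i1, i2, h1, GKTools.SamePrimeGraph.trans ?_ h2⟩
  have hK : Fintype.card (GaloisField 2 3) = 8 := by
    rw [Fintype.card_eq_nat_card, GaloisField.card 2 3 (by norm_num)]
    norm_num
  have hSL : Nat.card (Matrix.SpecialLinearGroup (Fin 2) (GaloisField 2 3)) = 504 := by
    rw [Linear.card_SL_two, hK]
  have hPSL : Nat.card (Matrix.ProjectiveSpecialLinearGroup (Fin 2) F) = 168 := by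
    have := Linear.card_PSL_two_mul (F := F)
    rw [hF] at this
    norm_num at this ⊢
    omega
  constructor
  · intro p hp
    rw [hSL, hPSL]
    constructor <;> intro h
    · have : p ∣ 2 * 2 * 2 * 3 * 7 := by norm_num; exact h
      rcases hp.dvd_mul.1 this with h | h
      · rcases hp.dvd_mul.1 h with h | h
        · exact (hp.dvd_of_dvd_pow (m := 2) (n := 3) (by norm_num; exact h)).trans (by norm_num)
        · exact h.trans (by norm_num)
      · exact h.trans (by norm_num)
    · have : p ∣ 2 * 2 * 2 * (3 * 3) * 7 := by norm_num; exact h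
      rcases hp.dvd_mul.1 this with h | h
      · rcases hp.dvd_mul.1 h with h | h
        · exact h.trans (by norm_num)
        · rcases hp.dvd_mul.1 h with h | h <;> exact h.trans (by norm_num)
      · exact h.trans (by norm_num)
  · intro p q hp hq hpq
    have key : ∀ d : ℕ, p * q ∣ d → (∃ r k : ℕ, r.Prime ∧ d = r ^ k) → False := by
      rintro d hd ⟨r, k, hr, rfl⟩
      exact hpq (((Nat.prime_dvd_prime_iff_eq hp hr).1 (hp.dvd_of_dvd_pow ((Dvd.intro _ rfl).trans hd))).trans
        ((Nat.prime_dvd_prime_iff_eq hq hr).1 (hq.dvd_of_dvd_pow ((Dvd.intro_left _ rfl).trans hd))).symm)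
    constructor
    · rintro ⟨g, hg⟩
      exfalso
      obtain ⟨A, rfl⟩ := QuotientGroup.mk'_surjective _ g
      have half : ∀ n : ℕ, A ^ (n * 2) = 1 → p * q ∣ n := by
        intro n hn
        rw [← hg]
        refine orderOf_dvd_of_pow_eq_one ?_
        rw [← map_pow]
        refine (QuotientGroup.eq_one_iff _).2 ?_
        rcases eq_or_ne (A ^ n) 1 with h | h
        · rw [h]; exact one_mem _
        · have hneg := Linear.eq_neg_one_of_mul_self (Linear.two_ne_zero_of_odd_card (hF ▸ by decide)) h
            (by rw [← pow_two, ← pow_mul, hn])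
          refine Subgroup.mem_center_iff.2 fun B => Subtype.ext ?_
          rw [Matrix.SpecialLinearGroup.coe_mul, Matrix.SpecialLinearGroup.coe_mul, hneg]
          simp
      rcases GKTools.sl_two_trichotomy 7 A with h | h | h <;> rw [hF] at * 
      · exact key 3 (half 3 h) ⟨3, 1, by norm_num, by norm_num⟩
      · exact key 4 (half 4 h) ⟨2, 2, by norm_num, by norm_num⟩
      · exact key 7 (half 7 h) ⟨7, 1, by norm_num, by norm_num⟩
    · rintro ⟨g, hg⟩
      exfalso
      rcases GKTools.sl_two_trichotomy 2 g with h | h | h <;> rw [hK] at *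
      · exact key 7 (hg ▸ orderOf_dvd_of_pow_eq_one h) ⟨7, 1, by norm_num, by norm_num⟩
      · exact key 9 (hg ▸ orderOf_dvd_of_pow_eq_one h) ⟨3, 2, by norm_num, by norm_num⟩
      · exact key 4 (hg ▸ orderOf_dvd_of_pow_eq_one h) ⟨2, 2, by norm_num, by norm_num⟩

end Cfsg.Agent.S3678
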