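import Cfsg.Statements.S3680
import Cfsg.Agent.Suborbit.Socle

set_option autoImplicit false
open Cfsg

namespace Cfsg.Agent.S3680

/-- The socle of a finite primitive permutation group. Let a finite group G act faithfully and primitively on a set Ω, and let N be the subgroup generated by the minimal normal subgroups of G. Then either N is an elementary abelian p-group for some prime p and acts regularly on Ω (transitively with trivial point stabilizers), or N is isomorphic to a direct product of m ≥ 1 copies of a non-abelian simple group. -/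
theorem result {G Ω : Type*} [Group G] [Finite G] [MulAction G Ω] [FaithfulSMul G Ω] [Finite Ω]
    (hprim : MulAction.IsPreprimitive G Ω) (N : Subgroup G)
    (hN : N = sSup {V : Subgroup G | V.Normal ∧ V ≠ ⊥ ∧ ∀ M : Subgroup G, M.Normal → M ≤ V → M = ⊥ ∨ M = V}) :
    (∃ p : ℕ, p.Prime ∧ IsMulCommutative N ∧ (∀ x : N, x ^ p = 1) ∧
      MulAction.IsPretransitive N Ω ∧ ∀ ω : Ω, MulAction.stabilizer N ω = ⊥) ∨
    (∃ (T : Type) (_ : Group T) (m : ℕ), 1 ≤ m ∧ IsSimpleGroup T ∧ ¬ IsMulCommutative T ∧ Nonempty (N ≃* (Fin m → T))) := by
  exact Suborbit.socle_primitive hprim N hN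

end Cfsg.Agent.S3680
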