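import Cfsg.Statements.S3684
import Cfsg.Agent.Suborbit.Dihedral

set_option autoImplicit false
open Cfsg

namespace Cfsg.Agent.S3684

/-- Let a finite group G act faithfully and primitively on a set Ω, and suppose the stabilizer of a point a has an orbit of length 2. Then the stabilizer of a has order 2 and G is isomorphic to the dihedral group of order 2p for some prime p. -/
theorem result {G Ω : Type*} [Group G] [Finite G] [MulAction G Ω] [FaithfulSMul G Ω] [Finite Ω]
    (hprim : MulAction.IsPreprimitive G Ω) (a b : Ω) (h2 : Nat.card (MulAction.orbit (MulAction.stabilizer G a) b) = 2) :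
    Nat.card (MulAction.stabilizer G a) = 2 ∧ ∃ p : ℕ, p.Prime ∧ Nonempty (G ≃* DihedralGroup p) := by
  exact Suborbit.dihedral_of_suborbit_two hprim a b h2

end Cfsg.Agent.S3684
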