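import Cfsg.Statements.S3687
import Cfsg.Agent.Suborbit.AltArm

set_option autoImplicit false
open Cfsg

namespace Cfsg.Agent.S3687

open Cfsg.Agent

/-- Let a finite group G act faithfully and primitively on a set Ω, let a and b be points such that the orbit Δ of b under the stabilizer H of a has d ≥ 6 elements, and suppose that the permutation group induced by H on Δ contains the alternating group of Δ (the image of H in the symmetric group of Δ has index at most 2) while H does not act faithfully on Δ. Then either H induces exactly the alternating group of Δ and H is isomorphic to the direct product of the alternating groups of degrees d and d - 1; or H induces the full symmetric group of Δ and H is isomorphic to one of: the direct product of the symmetric groups of degrees d and d - 1, the direct product of the symmetric group of degree d with the alternating group of degree d - 1, or the subgroup of the direct product of the symmetric groups of degrees d and d - 1 consisting of the pairs of permutations with equal signs. -/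
theorem result {G Ω : Type*} [Group G] [Finite G] [MulAction G Ω] [FaithfulSMul G Ω] [Finite Ω]
    (hprim : MulAction.IsPreprimitive G Ω) (a b : Ω) (d : ℕ) (hd : Nat.card (MulAction.orbit (MulAction.stabilizer G a) b) = d) (h6 : 6 ≤ d)
    (halt : (MulAction.toPermHom (MulAction.stabilizer G a) (MulAction.orbit (MulAction.stabilizer G a) b)).range.index ≤ 2)
    (hunf : ¬ Function.Injective (MulAction.toPermHom (MulAction.stabilizer G a) (MulAction.orbit (MulAction.stabilizer G a) b))) :
    ((MulAction.toPermHom (MulAction.stabilizer G a) (MulAction.orbit (MulAction.stabilizer G a) b)).range.index = 2 ∧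
      Nonempty (MulAction.stabilizer G a ≃* alternatingGroup (Fin d) × alternatingGroup (Fin (d - 1)))) ∨
    ((MulAction.toPermHom (MulAction.stabilizer G a) (MulAction.orbit (MulAction.stabilizer G a) b)).range = ⊤ ∧
      (Nonempty (MulAction.stabilizer G a ≃* Equiv.Perm (Fin d) × Equiv.Perm (Fin (d - 1))) ∨
       Nonempty (MulAction.stabilizer G a ≃* Equiv.Perm (Fin d) × alternatingGroup (Fin (d - 1))) ∨
       Nonempty (MulAction.stabilizer G a ≃* ((Equiv.Perm.sign.comp (MonoidHom.fst (Equiv.Perm (Fin d)) (Equiv.Perm (Fin (d - 1))))) *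
         (Equiv.Perm.sign.comp (MonoidHom.snd (Equiv.Perm (Fin d)) (Equiv.Perm (Fin (d - 1)))))).ker))) := by
  classical
  haveI := hprim
  haveI : MulAction.IsPretransitive G Ω := hprim.toIsPretransitive
  obtain ⟨hne, hM, hN, -, -, hcM, hcN, g, hg⟩ := Suborbit.suborbit_setup hprim a b d hd (by omega)
  have hd' : Nat.card (MulAction.orbit (MulAction.stabilizer G b) a) = d := by
    rw [Suborbit.card_paired_orbit, hd]
  obtain ⟨hne', -, -, -, -, -, -, -⟩ := Suborbit.suborbit_setup hprim b a d hd' (by omega)
  set A := MulAction.stabilizer G a with hA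
  set B := MulAction.stabilizer G b with hB
  haveI : Fintype (MulAction.orbit A b) := Fintype.ofFinite _
  haveI : Fintype (MulAction.orbit B a) := Fintype.ofFinite _
  obtain ⟨e⟩ : Nonempty (MulAction.orbit A b ≃ Fin d) :=
    ⟨Fintype.equivFinOfCardEq (by rw [← Nat.card_eq_fintype_card, hd])⟩
  obtain ⟨e'⟩ : Nonempty (MulAction.orbit B a ≃ Fin d) :=
    ⟨Fintype.equivFinOfCardEq (by rw [← Nat.card_eq_fintype_card, hd'])⟩
  let P : Suborbit.Arm A B d :=
    { σ := e.permCongrHom.toMonoidHom.comp (MulAction.toPermHom A (MulAction.orbit A b))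
      pt := e ⟨b, MulAction.mem_orbit_self b⟩
      stab := fun x => by
        show e (x • e.symm (e _)) = _ ↔ _
        rw [Equiv.symm_apply_apply, e.injective.eq_iff, Subtype.ext_iff]
        exact Iff.rfl
      trans := fun i => by
        obtain ⟨x, hx⟩ := (e.symm i).2
        refine ⟨x, ?_⟩
        show e (x • e.symm (e _)) = i
        rw [Equiv.symm_apply_apply, ← Equiv.eq_symm_apply]
        exact Subtype.ext hx }
  let Q : Suborbit.Arm B A d :=
    { σ := e'.permCongrHom.toMonoidHom.comp (MulAction.toPermHom B (MulAction.orbit B a))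
      pt := e' ⟨a, MulAction.mem_orbit_self a⟩
      stab := fun x => by
        show e' (x • e'.symm (e' _)) = _ ↔ _
        rw [Equiv.symm_apply_apply, e'.injective.eq_iff, Subtype.ext_iff]
        exact Iff.rfl
      trans := fun i => by
        obtain ⟨x, hx⟩ := (e'.symm i).2
        refine ⟨x, ?_⟩
        show e' (x • e'.symm (e' _)) = i
        rw [Equiv.symm_apply_apply, ← Equiv.eq_symm_apply]
        exact Subtype.ext hx }
  set R := (MulAction.toPermHom A (MulAction.orbit A b)).range with hR
  have hσ : P.σ.range = R.map e.permCongrHom.toMonoidHom := MonoidHom.range_comp _ _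
  have hidx : P.σ.range.index = R.index := by
    rw [hσ]; exact Subgroup.index_map_equiv R e.permCongrHom
  have hP : P.Big := Equiv.Perm.alternatingGroup_le_of_index_le_two (hidx ▸ halt)
  have hne1 : P.ker1 ≠ ⊥ := by
    intro h
    apply hunf
    rw [← MonoidHom.ker_eq_bot_iff, eq_bot_iff]
    intro x hx
    have h1 : P.σ x = 1 := by
      show e.permCongrHom (MulAction.toPermHom A (MulAction.orbit A b) x) = 1
      rw [MonoidHom.mem_ker.1 hx, map_one]
    have h2 := (P.mem_ker1 x).2 h1
    rw [h, Subgroup.mem_bot] at h2
    exact Subgroup.mem_bot.2 (Subtype.ext h2)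
  have hF : ∀ X : Subgroup G, X ≤ A ⊓ B → Group.IsNilpotent X →
      A ⊓ B ≤ Subgroup.normalizer (X : Set G) → X = ⊥ := by
    refine Suborbit.fitting_arc_eq_bot hprim a b d hd (by omega) fun X hX hnil hn x hx c hc => ?_
    have h1 := P.nilpotent_le_ker1 h6 hP hX hnil
      (fun k hk n hn' => (Subgroup.mem_normalizer_iff.1 (hn hk) n).1 hn') hx
    have h2 := (P.mem_ker1 ⟨x, (hX hx).1⟩).1 h1
    have h3 := congrArg (fun p : Equiv.Perm (Fin d) => p (e ⟨c, hc⟩)) h2
    have h4 : e ((⟨x, (hX hx).1⟩ : A) • e.symm (e ⟨c, hc⟩)) = e ⟨c, hc⟩ := h3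
    rw [Equiv.symm_apply_apply, e.injective.eq_iff, Subtype.ext_iff] at h4
    exact h4
  have hnorm : ∀ {X : Subgroup G}, (∀ k ∈ A ⊓ B, ∀ x ∈ X, k * x * k⁻¹ ∈ X) →
      A ⊓ B ≤ Subgroup.normalizer (X : Set G) := fun {X} h k hk =>
    Subgroup.mem_normalizer_fintype fun x hx => h k hk x hx
  have hab : Suborbit.NoAbelian A B := fun X hX hcomm hn => by
    letI : CommGroup X := { (inferInstance : Group X) with
      mul_comm := fun x y => Subtype.ext (hcomm x x.2 y y.2) }
    exact hF X hX CommGroup.isNilpotent (hnorm hn)
  have hc : Suborbit.NoCommon A B := fun X hX h1 h2 =>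
    Suborbit.eq_bot_of_normalized hprim X a b (hX.trans inf_le_left) hne'
      (fun m hm => Subgroup.mem_normalizer_fintype fun x hx => h1 m hm x hx)
      (fun m hm => Subgroup.mem_normalizer_fintype fun x hx => h2 m hm x hx)
  have hor : Suborbit.core2 A B = ⊥ ∨ Suborbit.core2 B A = ⊥ := by
    by_contra hcon
    push Not at hcon
    obtain ⟨p, hp, hAB, -⟩ := ClassicalMax.thompson_wielandt
      (M := A) (N := B) (A1 := Suborbit.coreOf A (A ⊓ B)) (B1 := Suborbit.coreOf B (A ⊓ B))
      (A2 := Suborbit.core2 A B) (B2 := Suborbit.core2 B A)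
      { maxM := hM
        maxN := hN
        ne := fun h => hne h.le
        coreM := hcM
        A1_le := Suborbit.coreOf_le _ _
        B1_le := Suborbit.coreOf_le _ _
        A1_norm := Suborbit.le_normalizer_coreOf _ _
        B1_norm := Suborbit.le_normalizer_coreOf _ _
        A1_max := fun X hX hn => Suborbit.le_coreOf (hX.trans inf_le_left) hX hn
        B1_max := fun X hX hn => Suborbit.le_coreOf (hX.trans inf_le_right) hX hn
        A2_le := (Suborbit.coreOf_le _ _).trans (by rw [inf_comm B A])
        B2_le := (Suborbit.coreOf_le _ _).trans (by rw [inf_comm B A, inf_comm])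
        A2_norm := Suborbit.le_normalizer_coreOf _ _
        B2_norm := Suborbit.le_normalizer_coreOf _ _
        A2_ne := hcon.1
        B2_ne := hcon.2 } hcN g hg
    haveI := Fact.mk hp
    refine hcon.1 (hF _ ?_ (hAB.to_le le_sup_left).isNilpotent ?_)
    · exact (Suborbit.coreOf_le _ _).trans (inf_le_left.trans (Suborbit.coreOf_le _ _))
    · exact inf_le_left.trans (Suborbit.le_normalizer_coreOf _ _)
  obtain ⟨h1, h2⟩ := Suborbit.classification h6 P hP Q hne1 hc hab hor g hg.symm
  rcases Nat.lt_or_ge R.index 2 with hlt | hge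
  · right
    have hR1 : R.index = 1 := by
      have := Subgroup.index_ne_zero_of_finite (H := R)
      omega
    exact ⟨Subgroup.index_eq_one.1 hR1, h2 (Subgroup.index_eq_one.1 (hidx.trans hR1))⟩
  · left
    exact ⟨le_antisymm halt hge, h1 (hidx.trans (le_antisymm halt hge))⟩

end Cfsg.Agent.S3687
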