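import Cfsg.Statements.S3693
import Cfsg.Agent.Suborbit.Cores

set_option autoImplicit false
open Cfsg

namespace Cfsg.Agent.S3693

/-- Let a finite group G act faithfully and primitively on a set Ω, let a and b be points such that the orbit Δ of b under the stabilizer H of a has length d ≥ 2, and consider the permutation group induced on Δ by the elements of H fixing b. If that induced group has trivial Fitting subgroup (no non-trivial nilpotent normal subgroup), then the two-point stabilizer of a and b has trivial Fitting subgroup and the order of H divides d! · ((d - 1)!)^d. -/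
theorem result {G Ω : Type*} [Group G] [Finite G] [MulAction G Ω] [FaithfulSMul G Ω] [Finite Ω]
    (hprim : MulAction.IsPreprimitive G Ω) (a b : Ω) (d : ℕ) (hd : Nat.card (MulAction.orbit (MulAction.stabilizer G a) b) = d) (h2 : 2 ≤ d)
    (hF : Cfsg.fittingSubgroup ↥(((MulAction.stabilizer G b).subgroupOf (MulAction.stabilizer G a)).map (MulAction.toPermHom (MulAction.stabilizer G a) (MulAction.orbit (MulAction.stabilizer G a) b))) = ⊥) :
    Cfsg.fittingSubgroup ↥(MulAction.stabilizer G a ⊓ MulAction.stabilizer G b) = ⊥ ∧
      Nat.card (MulAction.stabilizer G a) ∣ Nat.factorial d * (Nat.factorial (d - 1)) ^ d := by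
  set K : Subgroup G := MulAction.stabilizer G a ⊓ MulAction.stabilizer G b with hK
  have key := Suborbit.fitting_arc_eq_bot hprim a b d hd h2 fun X hXK hXn hXK' x hx c hc => by
    set φ := MulAction.toPermHom (MulAction.stabilizer G a) (MulAction.orbit (MulAction.stabilizer G a) b)
    set Kb := (MulAction.stabilizer G b).subgroupOf (MulAction.stabilizer G a)
    have hXM : X ≤ MulAction.stabilizer G a := hXK.trans inf_le_left
    let Y := (X.subgroupOf (MulAction.stabilizer G a)).map φ
    have hYle : Y ≤ Kb.map φ := Subgroup.map_mono fun z hz => (hXK hz).2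
    haveI hYn : (Y.subgroupOf (Kb.map φ)).Normal := by
      refine (Subgroup.normal_subgroupOf_iff_le_normalizer hYle).2 ?_
      rintro - ⟨k, hk, rfl⟩
      refine Subgroup.le_normalizer_map φ ⟨k, ?_, rfl⟩
      refine Subgroup.mem_normalizer_iff.2 fun z => ?_
      exact Subgroup.mem_normalizer_iff.1 (hXK' ⟨k.2, hk⟩) (z : G)
    haveI := hXn
    haveI h1 : Group.IsNilpotent (X.subgroupOf (MulAction.stabilizer G a)) :=
      Group.nilpotent_of_mulEquiv (Subgroup.subgroupOfEquivOfLe hXM).symm
    haveI h2' : Group.IsNilpotent Y :=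
      Group.nilpotent_of_surjective _ (φ.subgroupMap_surjective (X.subgroupOf (MulAction.stabilizer G a)))
    have h3 : Group.IsNilpotent (Y.subgroupOf (Kb.map φ)) :=
      Group.nilpotent_of_mulEquiv (Subgroup.subgroupOfEquivOfLe hYle).symm
    have h4 := Cores.le_fittingSubgroup hYn h3
    rw [hF, le_bot_iff, Subgroup.subgroupOf_eq_bot, disjoint_iff, inf_eq_left.2 hYle] at h4
    have h5 : φ ⟨x, hXM hx⟩ = 1 := by
      rw [← Subgroup.mem_bot, ← h4]
      exact ⟨⟨x, hXM hx⟩, hx, rfl⟩
    exact congrArg Subtype.val (Equiv.congr_fun h5 ⟨c, hc⟩)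
  constructor
  · refine (Subgroup.map_eq_bot_iff_of_injective _ K.subtype_injective).1 (key _ (Subgroup.map_subtype_le _) ?_ ?_)
    · haveI := Cores.fittingSubgroup_isNilpotent (G := K)
      exact Group.nilpotent_of_mulEquiv (Subgroup.equivMapOfInjective _ K.subtype K.subtype_injective)
    · rintro k hk
      haveI := (inferInstance : (Cfsg.fittingSubgroup ↥K).Normal)
      exact Subgroup.le_normalizer_map K.subtype ⟨⟨k, hk⟩, by rw [Subgroup.normalizer_eq_top_iff.2 inferInstance]; trivial, rfl⟩
  · rcases Suborbit.wielandt_dichotomy hprim a b d hd h2 with h | ⟨p, hp, A2, hne, hA, hle, hn, -, -⟩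
    · exact h
    · haveI := Fact.mk hp
      exact absurd (key A2 hle hA.isNilpotent (inf_le_left.trans hn)) hne

end Cfsg.Agent.S3693
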