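import Cfsg.Statements.S3701
import Cfsg.Agent.LAE62.Nine.Main
-- import your own Cfsg.Agent.* helpers here

set_option autoImplicit false
open Cfsg

namespace Cfsg.Agent.S3701

/-- Let H₀ ≤ Sym(9) be generated by the 3-cycles (1 2 3), (4 5 6), (7 8 9) and the involutions (1 2)(4 5), (1 2)(7 8) (a group of order 108, elementary abelian of order 27 extended by a four-group). Let G be a finite group with a subgroup H ≅ H₀, and T ≤ H of order 27 (a Sylow 3-subgroup of H) with N_G(T) = H and C_G(t) ≤ H for every t ≠ 1 in T. Then G = H. -/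
theorem result {G : Type*} [Group G] [Finite G] (H : Subgroup G)
    (hH : Nonempty (↥H ≃* ↥(Subgroup.closure ({Equiv.swap (0 : Fin 9) 1 * Equiv.swap 1 2, Equiv.swap (3 : Fin 9) 4 * Equiv.swap 4 5, Equiv.swap (6 : Fin 9) 7 * Equiv.swap 7 8,
        Equiv.swap (0 : Fin 9) 1 * Equiv.swap 3 4, Equiv.swap (0 : Fin 9) 1 * Equiv.swap 6 7} : Set (Equiv.Perm (Fin 9))))))
    (T : Subgroup G) (hTH : T ≤ H) (hT : Nat.card T = 27) (hN : Subgroup.normalizer (T : Set G) = H)
    (hC : ∀ t ∈ T, t ≠ 1 → Subgroup.centralizer ({t} : Set G) ≤ H) : H = ⊤ := by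
  obtain ⟨φ⟩ := hH
  let e : H ≃* LAE62.Nine.M :=
    (φ.trans (MulEquiv.subgroupCongr LAE62.Nine.toPerm_range.symm)).trans
      (MonoidHom.ofInjective LAE62.Nine.toPerm_injective).symm
  have hH108 : Nat.card H = 108 := by
    rw [Nat.card_congr e.toEquiv, Nat.card_eq_fintype_card, LAE62.Nine.card_M]
  haveI hTn : (T.subgroupOf H).Normal := Subgroup.normal_subgroupOf_of_le_normalizer hN.ge
  have hidx : (T.subgroupOf H).index = 4 := by
    have h := Subgroup.index_mul_card (T.subgroupOf H)
    rw [Nat.card_congr (Subgroup.subgroupOfEquivOfLe hTH).toEquiv, hT, hH108] at h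
    omega
  refine LAE62.Nine.eq_top (T := T) (e := e) ⟨fun h => ?_, hTH, hN, hC⟩
  constructor
  · intro ht
    have h27 : h ^ 27 = 1 := by
      have := pow_card_eq_one' (x := (⟨h, ht⟩ : T))
      rw [hT] at this
      exact Subtype.ext (by simpa using congrArg Subtype.val this)
    have e1 : e h ^ 27 = 1 := by rw [← map_pow, h27, map_one]
    have e2 := LAE62.Nine.pow_six (e h)
    have : orderOf (e h) ∣ 3 :=
      (Nat.dvd_gcd (orderOf_dvd_of_pow_eq_one e1) (orderOf_dvd_of_pow_eq_one e2)).trans (by norm_num)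
    exact orderOf_dvd_iff_pow_eq_one.1 this
  · intro h3
    have h3' : h ^ 3 = 1 := e.injective (by rw [map_pow, h3, map_one])
    have h4 := Subgroup.pow_index_mem (T.subgroupOf H) h
    rw [hidx, show h ^ 4 = h by rw [pow_succ, h3', one_mul]] at h4
    exact h4

end Cfsg.Agent.S3701
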