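import Cfsg.Statements.S3713
import Cfsg.Agent.SpAmalgam.Induct

set_option autoImplicit false
open Cfsg

namespace Cfsg.Agent.S3713

/-- A presentation of the symplectic group as the universal completion of an amalgam of small subgroups. Let F be a field with more than two elements, n ≥ 2, and Sp the group of 2n × 2n matrices over F preserving the standard alternating form, acting on column vectors; write e_k, f_k for the standard basis vectors of the two halves (a hyperbolic basis). For each k let S_k be the subgroup of Sp fixing e_l and f_l for all l ≠ k (a copy of SL(2, F) on the plane of e_k, f_k), and for each i with i + 1 < n let M_i be the subgroup fixing every e_l and fixing f_l for all l other than i, i+1 (an abelian group isomorphic to the additive group of F³). Then Sp is the universal completion of the amalgam formed by the S_k, the M_i and the subgroups generated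 by two of them: for every group H and homomorphisms σ_k : S_k → H, μ_i : M_i → H such that for each pair of these subgroups some homomorphism on the subgroup they generate restricts to the given ones, there is exactly one homomorphism Sp → H restricting to every σ_k and μ_i. -/
theorem result
    (F : Type*) [Field F] (hF : ∃ a : F, a ≠ 0 ∧ a ≠ 1) (n : ℕ) (hn : 2 ≤ n)
    (S M : Fin n → Subgroup ↥(Matrix.symplecticGroup (Fin n) F))
    (hS : ∀ j : Fin n, S j = Subgroup.closure {A : ↥(Matrix.symplecticGroup (Fin n) F) | ∀ k : Fin n, k ≠ j →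
      ((A : ↥(Matrix.symplecticGroup (Fin n) F)) : Matrix (Fin n ⊕ Fin n) (Fin n ⊕ Fin n) F).mulVec (Pi.single (Sum.inl k) (1 : F)) = (Pi.single (Sum.inl k) (1 : F)) ∧ ((A : ↥(Matrix.symplecticGroup (Fin n) F)) : Matrix (Fin n ⊕ Fin n) (Fin n ⊕ Fin n) F).mulVec (Pi.single (Sum.inr k) (1 : F)) = (Pi.single (Sum.inr k) (1 : F))})
    (hM : ∀ i : Fin n, (i : ℕ) + 1 < n → M i = Subgroup.closure {A : ↥(Matrix.symplecticGroup (Fin n) F) |
      (∀ k : Fin n, ((A : ↥(Matrix.symplecticGroup (Fin n) F)) : Matrix (Fin n ⊕ Fin n) (Fin n ⊕ Fin n) F).mulVec (Pi.single (Sum.inl k) (1 : F)) = (Pi.single (Sum.inl k) (1 : F))) ∧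
        ∀ k : Fin n, (k : ℕ) ≠ i → (k : ℕ) ≠ (i : ℕ) + 1 → ((A : ↥(Matrix.symplecticGroup (Fin n) F)) : Matrix (Fin n ⊕ Fin n) (Fin n ⊕ Fin n) F).mulVec (Pi.single (Sum.inr k) (1 : F)) = (Pi.single (Sum.inr k) (1 : F))})
    {H : Type*} [Group H] (σ : ∀ j : Fin n, ↥(S j) →* H) (μ : ∀ i : Fin n, ↥(M i) →* H)
    (hSS : ∀ j l : Fin n, j ≠ l → ∃ Ψ : ↥(S j ⊔ S l) →* H,
      (∀ (g : ↥(Matrix.symplecticGroup (Fin n) F)) (hg : g ∈ S j), Ψ ⟨g, Subgroup.mem_sup_left hg⟩ = σ j ⟨g, hg⟩) ∧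
        (∀ (g : ↥(Matrix.symplecticGroup (Fin n) F)) (hg : g ∈ S l), Ψ ⟨g, Subgroup.mem_sup_right hg⟩ = σ l ⟨g, hg⟩))
    (hMM : ∀ i i' : Fin n, i ≠ i' → (i : ℕ) + 1 < n → (i' : ℕ) + 1 < n → ∃ Ψ : ↥(M i ⊔ M i') →* H,
      (∀ (g : ↥(Matrix.symplecticGroup (Fin n) F)) (hg : g ∈ M i), Ψ ⟨g, Subgroup.mem_sup_left hg⟩ = μ i ⟨g, hg⟩) ∧
        (∀ (g : ↥(Matrix.symplecticGroup (Fin n) F)) (hg : g ∈ M i'), Ψ ⟨g, Subgroup.mem_sup_right hg⟩ = μ i' ⟨g, hg⟩))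
    (hMS : ∀ i j : Fin n, (i : ℕ) + 1 < n → ∃ Ψ : ↥(M i ⊔ S j) →* H,
      (∀ (g : ↥(Matrix.symplecticGroup (Fin n) F)) (hg : g ∈ M i), Ψ ⟨g, Subgroup.mem_sup_left hg⟩ = μ i ⟨g, hg⟩) ∧
        (∀ (g : ↥(Matrix.symplecticGroup (Fin n) F)) (hg : g ∈ S j), Ψ ⟨g, Subgroup.mem_sup_right hg⟩ = σ j ⟨g, hg⟩)) :
    ∃! Φ : ↥(Matrix.symplecticGroup (Fin n) F) →* H,
      (∀ (j : Fin n) (g : ↥(Matrix.symplecticGroup (Fin n) F)) (hg : g ∈ S j), Φ g = σ j ⟨g, hg⟩) ∧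
        (∀ (i : Fin n), (i : ℕ) + 1 < n → ∀ (g : ↥(Matrix.symplecticGroup (Fin n) F)) (hg : g ∈ M i), Φ g = μ i ⟨g, hg⟩) := by
  classical
  let gS : Fin n → Subgroup (↥(Matrix.symplecticGroup (Fin n) F) × H) :=
    fun j => ((S j).subtype.prod (σ j)).range
  let gM : Fin n → Subgroup (↥(Matrix.symplecticGroup (Fin n) F) × H) :=
    fun i => ((M i).subtype.prod (μ i)).range
  have hSp : ∀ j, S j = SpAmalgam.planeSub j := fun j => by
    rw [hS j, ← Subgroup.closure_eq (SpAmalgam.planeSub j : Subgroup (SpAmalgam.Sp n F))]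
    congr 1
    ext A
    constructor
    · rintro h v ⟨k, hk, rfl | rfl⟩
      exacts [(h k hk).1, (h k hk).2]
    · exact fun h k hk => ⟨h _ ⟨k, hk, Or.inl rfl⟩, h _ ⟨k, hk, Or.inr rfl⟩⟩
  have hMp : ∀ i : Fin n, (i : ℕ) + 1 < n → M i = SpAmalgam.upperSub i := fun i hi => by
    rw [hM i hi, ← Subgroup.closure_eq (SpAmalgam.upperSub i : Subgroup (SpAmalgam.Sp n F))]
    congr 1
    ext A
    constructor
    · rintro h v (⟨k, rfl⟩ | ⟨k, h1, h2, rfl⟩)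
      exacts [h.1 k, h.2 k h1 h2]
    · exact fun h => ⟨fun k => h _ (Or.inl ⟨k, rfl⟩), fun k h1 h2 => h _ (Or.inr ⟨k, h1, h2, rfl⟩)⟩
  have joinFn : ∀ (P Q : Subgroup ↥(Matrix.symplecticGroup (Fin n) F)) (φ : ↥P →* H) (ψ : ↥Q →* H),
      (∃ Ψ : ↥(P ⊔ Q) →* H, (∀ g (hg : g ∈ P), Ψ ⟨g, Subgroup.mem_sup_left hg⟩ = φ ⟨g, hg⟩) ∧
        ∀ g (hg : g ∈ Q), Ψ ⟨g, Subgroup.mem_sup_right hg⟩ = ψ ⟨g, hg⟩) →
      SpAmalgam.Fn ((P.subtype.prod φ).range ⊔ (Q.subtype.prod ψ).range) := by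
    rintro P Q φ ψ ⟨Ψ, h1, h2⟩
    have hle : (P.subtype.prod φ).range ⊔ (Q.subtype.prod ψ).range ≤
        ((P ⊔ Q).subtype.prod Ψ).range := by
      refine sup_le ?_ ?_ <;> rintro _ ⟨⟨g, hg⟩, rfl⟩
      · exact ⟨⟨g, Subgroup.mem_sup_left hg⟩, Prod.ext rfl (h1 g hg)⟩
      · exact ⟨⟨g, Subgroup.mem_sup_right hg⟩, Prod.ext rfl (h2 g hg)⟩
    intro x hx e
    obtain ⟨⟨g, hg⟩, rfl⟩ := hle hx
    have : (⟨g, hg⟩ : ↥(P ⊔ Q)) = 1 := Subtype.ext e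
    rw [this, map_one]
  have okA : ∀ j, SpAmalgam.Fn (gS j) := by
    intro j x hx e
    obtain ⟨⟨g, hg⟩, rfl⟩ := hx
    have : (⟨g, hg⟩ : ↥(S j)) = 1 := Subtype.ext e
    rw [this, map_one]
  let D : SpAmalgam.Amalgam n F H :=
    { A := gS
      B := gM
      memA := fun j g => by
        rw [← hSp j]
        exact ⟨fun h => ⟨_, ⟨⟨g, h⟩, rfl⟩, rfl⟩, fun ⟨x, ⟨y, hy⟩, hx⟩ => hx ▸ hy ▸ y.2⟩
      memB := fun i hi g => by
        rw [← hMp i hi]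
        exact ⟨fun h => ⟨_, ⟨⟨g, h⟩, rfl⟩, rfl⟩, fun ⟨x, ⟨y, hy⟩, hx⟩ => hx ▸ hy ▸ y.2⟩
      okA := okA
      okAA := fun j l h => joinFn _ _ _ _ (hSS j l h)
      okBB := fun i i' h hi hi' => joinFn _ _ _ _ (hMM i i' h hi hi')
      okAB := fun i j hi => joinFn _ _ _ _ (hMS i j hi) }
  obtain ⟨Φ, ⟨hA, hB⟩, huniq⟩ := D.existsUnique_hom hF
  refine ⟨Φ, ⟨fun j g hg => hA j _ ⟨⟨g, hg⟩, rfl⟩, fun i hi g hg => hB i hi _ ⟨⟨g, hg⟩, rfl⟩⟩, ?_⟩
  rintro Φ' ⟨h1, h2⟩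
  refine huniq Φ' ⟨?_, ?_⟩
  · rintro j _ ⟨⟨g, hg⟩, rfl⟩
    exact h1 j g hg
  · rintro i hi _ ⟨⟨g, hg⟩, rfl⟩
    exact h2 i hi g hg

end Cfsg.Agent.S3713
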