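import Cfsg.Statements.S3753
import Cfsg.Agent.PGroup.StablePair

set_option autoImplicit false
open Cfsg

namespace Cfsg.Agent.S3753

/-- Two distinct subgroups M₁, M₂ of G form a primitive pair when, for {i, j} = {1, 2}, every non-trivial normal subgroup A of M_i contained in M₁ ∩ M₂ satisfies N_{M_j}(A) = M₁ ∩ M₂; the pair has characteristic p when moreover C_{M_i}(O_p(M_i)) ≤ O_p(M_i) for both i and O_p(M₁)O_p(M₂) ≤ M₁ ∩ M₂. If the finite group G has a primitive pair (M₁, M₂) of characteristic p for some prime p, then M₁ or M₂ has non-abelian Sylow 2-subgroups. In particular no group of odd order has a primitive pair of characteristic p. -/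
theorem result {G : Type*} [Group G] [Finite G] {p : ℕ} [Fact p.Prime] (M₁ M₂ : Subgroup G) (hne : M₁ ≠ M₂) (hP : ∀ A : Subgroup G, A ≠ ⊥ → A ≤ M₁ ⊓ M₂ → (M₁ ≤ Subgroup.normalizer (A : Set G) → M₂ ⊓ Subgroup.normalizer (A : Set G) = M₁ ⊓ M₂) ∧ (M₂ ≤ Subgroup.normalizer (A : Set G) → M₁ ⊓ Subgroup.normalizer (A : Set G) = M₁ ⊓ M₂)) (hc₁ : Subgroup.centralizer (Cfsg.pCore p ↥M₁ : Set ↥M₁) ≤ Cfsg.pCore p ↥M₁) (hc₂ : Subgroup.centralizer (Cfsg.pCore p ↥M₂ : Set ↥M₂) ≤ Cfsg.pCore p ↥M₂) (hO : (Cfsg.pCore p ↥M₁).map M₁.subtype ⊔ (Cfsg.pCore p ↥M₂).map M₂.subtype ≤ M₁ ⊓ M₂) : (∃ S : Sylow 2 ↥M₁, ¬ IsMulCommutative (S : Subgroup ↥M₁)) ∨ (∃ S : Sylow 2 ↥M₂, ¬ IsMulCommutative (S : Subgroup ↥M₂)) := by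
  by_contra hcon
  rw [not_or] at hcon
  have h₁ : ∀ S : Sylow 2 M₁, IsMulCommutative (S : Subgroup M₁) :=
    fun S => not_not.1 fun h => hcon.1 ⟨S, h⟩
  have h₂ : ∀ S : Sylow 2 M₂, IsMulCommutative (S : Subgroup M₂) :=
    fun S => not_not.1 fun h => hcon.2 ⟨S, h⟩
  by_cases hp : p = 2
  · subst hp
    have key : ∀ M : Subgroup G, Subgroup.centralizer (Cfsg.pCore 2 M : Set M) ≤ Cfsg.pCore 2 M →
        (∀ S : Sylow 2 M, IsMulCommutative (S : Subgroup M)) → ∀ Q : Subgroup G, IsPGroup 2 Q →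
          Q ≤ M → Q ≤ (Cfsg.pCore 2 M).map M.subtype := by
      intro M hc hab Q hQ hQM q hq
      obtain ⟨S, hS⟩ := (hQ.of_equiv (Subgroup.subgroupOfEquivOfLe hQM).symm).exists_le_sylow
      haveI := hab S
      refine ⟨⟨q, hQM hq⟩, hc (Subgroup.mem_centralizer_iff.2 fun z hz => ?_), rfl⟩
      exact congrArg Subtype.val (mul_comm'
        (⟨z, Cfsg.Agent.PSolv.pCore_le_sylow S hz⟩ : (S : Subgroup M)) ⟨⟨q, hQM hq⟩, hS hq⟩)
    set E₁ := (Cfsg.pCore 2 M₁).map M₁.subtype with hE₁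
    set E₂ := (Cfsg.pCore 2 M₂).map M₂.subtype with hE₂
    have hp₁ : IsPGroup 2 E₁ := (Cfsg.Agent.PSolv.isPGroup_pCore 2 M₁).map _
    have hp₂ : IsPGroup 2 E₂ := (Cfsg.Agent.PSolv.isPGroup_pCore 2 M₂).map _
    have heq : E₁ = E₂ := le_antisymm
      (key M₂ hc₂ h₂ E₁ hp₁ (le_sup_left.trans (hO.trans inf_le_right)))
      (key M₁ hc₁ h₁ E₂ hp₂ (le_sup_right.trans (hO.trans inf_le_left)))
    by_cases hb : E₁ = ⊥
    · have hz : ∀ M : Subgroup G, Subgroup.centralizer (Cfsg.pCore 2 M : Set M) ≤ Cfsg.pCore 2 M →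
          (Cfsg.pCore 2 M).map M.subtype = ⊥ → M = ⊥ := by
        intro M hc h0
        rw [Subgroup.map_eq_bot_iff_of_injective _ M.subtype_injective] at h0
        rw [h0] at hc
        refine (Subgroup.eq_bot_iff_forall _).2 fun k hk => ?_
        have h1 : (⟨k, hk⟩ : M) ∈ Subgroup.centralizer ((⊥ : Subgroup M) : Set M) :=
          Subgroup.mem_centralizer_iff.2 fun y hy => by
            rw [Subgroup.coe_bot, Set.mem_singleton_iff] at hy
            rw [hy, one_mul, mul_one]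
        exact congrArg Subtype.val (Subgroup.mem_bot.1 (hc h1))
      exact hne ((hz M₁ hc₁ hb).trans (hz M₂ hc₂ (heq.symm.trans hb)).symm)
    · have hn : ∀ M : Subgroup G, M ≤ Subgroup.normalizer ((Cfsg.pCore 2 M).map M.subtype : Set G) :=
        fun M => Cfsg.Agent.PGroup.StablePair.le_normalizer_core M
      have hJ : E₁ ≤ M₁ ⊓ M₂ := le_sup_left.trans hO
      have a := (hP E₁ hb hJ).1 (hn M₁)
      have b := (hP E₁ hb hJ).2 (heq ▸ hn M₂)
      rw [inf_eq_left.2 (show M₂ ≤ Subgroup.normalizer (E₁ : Set G) from heq ▸ hn M₂)] at a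
      rw [inf_eq_left.2 (show M₁ ≤ Subgroup.normalizer (E₁ : Set G) from hn M₁)] at b
      exact hne (b.trans a.symm)
  · have good : ∀ M : Subgroup G, Subgroup.centralizer (Cfsg.pCore p M : Set M) ≤ Cfsg.pCore p M →
        (∀ S : Sylow 2 M, IsMulCommutative (S : Subgroup M)) →
        Cfsg.Agent.PGroup.StablePair.Good p M := fun M hc hab =>
      ⟨hc, fun P _ hP => (Cfsg.Agent.Stability.pairFree_of_twoGroup_comm hp
        (Cfsg.Agent.Stability.comm_of_abelian_sylow hab)).isPStableOn hp hP⟩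
    exact Cfsg.Agent.PGroup.StablePair.false_of_good hp hne hP (good M₁ hc₁ h₁) (good M₂ hc₂ h₂) hO

end Cfsg.Agent.S3753
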