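import Cfsg.Statements.S3803
import Cfsg.Agent.Coprime.Generation
import Cfsg.Agent.LocEven.CoprimeOmega
import Cfsg.Agent.PGroup.Frattini
import Cfsg.Agent.OddLocal.Basic
-- import your own Cfsg.Agent.* helpers here

set_option autoImplicit false
open Cfsg

namespace Cfsg.Agent.S3803

variable {X : Type*} [Group X] [Finite X]

/-- An odd order group normalizing a 2-group and all its maximal subgroups centralizes it. -/
theorem le_centralizer_of_coatoms {A T : Subgroup X} (hT : IsPGroup 2 T) (hA : Odd (Nat.card A))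
    (hAT : A ≤ Subgroup.normalizer (T : Set X))
    (hmax : ∀ M : Subgroup T, IsCoatom M → A ≤ Subgroup.normalizer (M.map T.subtype : Set X)) :
    A ≤ Subgroup.centralizer (T : Set X) := by
  have : Fact (Nat.Prime 2) := ⟨Nat.prime_two⟩
  refine Coprime.le_centralizer_of_frattini hAT ?_ ?_
  · obtain ⟨k, hk⟩ := IsPGroup.iff_card.mp (hT.to_subgroup (frattini ↥T))
    rw [hk]
    exact Nat.Coprime.pow_right k (Nat.coprime_two_right.mpr hA)
  · intro a ha k hk
    have h1 : a * k * a⁻¹ ∈ T := (Subgroup.mem_normalizer_iff.mp (hAT ha) k).mp hk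
    have hmem : k⁻¹ * a * k * a⁻¹ ∈ T := by
      rw [show k⁻¹ * a * k * a⁻¹ = k⁻¹ * (a * k * a⁻¹) by group]
      exact mul_mem (inv_mem hk) h1
    refine ⟨⟨_, hmem⟩, ?_, rfl⟩
    rw [SetLike.mem_coe, show frattini ↥T = Order.radical (Subgroup ↥T) from rfl, Order.radical]
    simp only [Subgroup.mem_iInf]
    intro M hM
    have hidx := PGroup.index_of_isCoatom hT hM
    have hiff : ∀ z (hz : z ∈ T), a * z * a⁻¹ ∈ M.map T.subtype ↔ (⟨z, hz⟩ : T) ∈ M := by
      intro z hz
      refine ((Subgroup.mem_normalizer_iff.mp (hmax M hM ha) z).symm).trans ?_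
      exact ⟨fun ⟨w, hw, he⟩ => (Subtype.ext he : w = ⟨z, hz⟩) ▸ hw, fun h => ⟨_, h, rfl⟩⟩
    have e : (⟨k⁻¹ * a * k * a⁻¹, hmem⟩ : T) = ⟨k, hk⟩⁻¹ * ⟨a * k * a⁻¹, h1⟩ := Subtype.ext (by simp [mul_assoc])
    rw [e, Subgroup.mul_mem_iff_of_index_two hidx, inv_mem_iff, ← hiff k hk]
    exact ⟨fun ⟨w, hw, he⟩ => (Subtype.ext he : w = ⟨_, h1⟩) ▸ hw, fun h => ⟨_, h, rfl⟩⟩

theorem exists_intermediate {P T : Subgroup X} (hP : IsPGroup 2 P) (hTP : T ≤ P) {k : ℕ}
    (h1 : Nat.card T ≤ 2 ^ k) (h2 : 2 ^ k ≤ Nat.card P) :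
    ∃ Y : Subgroup X, Nat.card Y = 2 ^ k ∧ T ≤ Y ∧ Y ≤ P := by
  have : Fact (Nat.Prime 2) := ⟨Nat.prime_two⟩
  obtain ⟨t, ht⟩ := IsPGroup.iff_card.mp (hP.to_le hTP)
  obtain ⟨n, hn⟩ := IsPGroup.iff_card.mp hP
  obtain ⟨K, hK, hTK⟩ := Sylow.exists_subgroup_card_pow_prime_le (G := P) 2 (m := k)
    (by rw [hn] at h2 ⊢; exact pow_dvd_pow _ ((Nat.pow_le_pow_iff_right (by norm_num)).mp h2))
    (T.subgroupOf P) (by rw [Nat.card_congr (Subgroup.subgroupOfEquivOfLe hTP).toEquiv, ht])
    ((Nat.pow_le_pow_iff_right (by norm_num)).mp (ht ▸ h1))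
  refine ⟨K.map P.subtype, by rw [Subgroup.card_map_of_injective P.subtype_injective, hK], ?_, Subgroup.map_subtype_le K⟩
  intro x hx
  exact ⟨⟨x, hTP hx⟩, hTK hx, rfl⟩

end Cfsg.Agent.S3803

namespace Cfsg.Agent.S3803

/-- Let P be a 2-subgroup and A a subgroup of odd order of a finite group, with A normalizing P. Let D ≤ P with 1 < |D| < |P|. If every subgroup of P of order |D|, and also every subgroup of P of order 4 in case |D| = 2, is normalized by A, then A centralizes P. -/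
theorem result {X : Type*} [Group X] [Finite X] (P A D : Subgroup X) (hP : IsPGroup 2 P) (hA : Odd (Nat.card A))
    (hAP : A ≤ Subgroup.normalizer (P : Set X)) (hDP : D ≤ P) (hD1 : 1 < Nat.card D) (hD2 : Nat.card D < Nat.card P)
    (hinv : ∀ E : Subgroup X, E ≤ P → (Nat.card E = Nat.card D ∨ (Nat.card D = 2 ∧ Nat.card E = 4)) → A ≤ Subgroup.normalizer (E : Set X)) :
    A ≤ Subgroup.centralizer (P : Set X) := by
  classical
  have : Fact (Nat.Prime 2) := ⟨Nat.prime_two⟩
  intro a ha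
  have hodd : Odd (orderOf a) := hA.of_dvd_nat (Subgroup.orderOf_dvd_natCard A ha)
  refine LocEven.centralizes_of_fix_small (Nat.coprime_two_right.mpr hodd) P hP (hAP ha) fun u hu hu4 => ?_
  rw [LocEven.smallExp, if_pos rfl] at hu4
  have hcard_le : ∀ T : Subgroup X, T ≤ P → ∃ t, Nat.card T = 2 ^ t := fun T hT =>
    IsPGroup.iff_card.mp (hP.to_le hT)
  obtain ⟨m, hm⟩ := hcard_le D hDP
  obtain ⟨n, hn⟩ := hcard_le P le_rfl
  have hmn : m < n := (Nat.pow_lt_pow_iff_right (by norm_num)).mp (hm ▸ hn ▸ hD2)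
  have hm0 : m ≠ 0 := fun h0 => by rw [h0, pow_zero] at hm; omega
  suffices h : ∀ T : Subgroup X, T ≤ P → (Nat.card T = Nat.card D ∨ (Nat.card D = 2 ∧ Nat.card T = 4)) →
      A ≤ Subgroup.centralizer (T : Set X) by
    obtain ⟨k, hk2, hk⟩ := (Nat.dvd_prime_pow Nat.prime_two).mp (orderOf_dvd_of_pow_eq_one hu4 : orderOf u ∣ 2 ^ 2)
    obtain ⟨T, hT, huT, hTP⟩ : ∃ T : Subgroup X, (Nat.card T = Nat.card D ∨ (Nat.card D = 2 ∧ Nat.card T = 4)) ∧
        Subgroup.zpowers u ≤ T ∧ T ≤ P := by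
      by_cases hkm : k ≤ m
      · obtain ⟨T, hT, huT, hTP⟩ := exists_intermediate (hP) (Subgroup.zpowers_le.mpr hu)
          (k := m) (by rw [Nat.card_zpowers, hk]; exact Nat.pow_le_pow_right (by norm_num) hkm)
          (by rw [hn]; exact Nat.pow_le_pow_right (by norm_num) hmn.le)
        exact ⟨T, Or.inl (hT.trans hm.symm), huT, hTP⟩
      · refine ⟨Subgroup.zpowers u, Or.inr ⟨?_, ?_⟩, le_rfl, Subgroup.zpowers_le.mpr hu⟩
        · rw [hm, show m = 1 by omega, pow_one]
        · rw [Nat.card_zpowers, hk, show k = 2 by omega]; norm_num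
    exact ((Subgroup.mem_centralizer_iff.mp (h T hTP hT ha)) u (huT (Subgroup.mem_zpowers u))).symm
  intro T hTP hT
  have hAT := hinv T hTP hT
  have hTp : IsPGroup 2 T := hP.to_le hTP
  by_cases hcyc : IsCyclic T
  · refine le_centralizer_of_coatoms hTp hA hAT fun M _ b hb => ?_
    rw [Subgroup.mem_normalizer_iff_map_conj_eq]
    refine OddLocal.eq_of_le_cyclic_of_card_eq (W := T) ?_ (Subgroup.map_subtype_le M) (Subgroup.card_map_of_injective (MulEquiv.injective _))
    refine (Subgroup.map_mono (Subgroup.map_subtype_le M)).trans ?_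
    exact (Subgroup.mem_normalizer_iff_map_conj_eq.mp (hAT hb)).le
  -- a non-cyclic member of the family, and a subgroup of twice its order
  have hTcard : Nat.card T = Nat.card D ∨ Nat.card T = 4 := hT.imp_right And.right
  by_cases hTP' : T = P
  · -- only when `|D| = 2` and `|P| = 4`: every maximal subgroup has order 2
    rcases hT with hT | ⟨hD, hT4⟩
    · exfalso; rw [hTP'] at hT; omega
    refine le_centralizer_of_coatoms hTp hA hAT fun M hM => hinv _ ((Subgroup.map_subtype_le M).trans hTP) (Or.inl ?_)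
    have := Subgroup.index_mul_card M
    rw [PGroup.index_of_isCoatom hTp hM, hT4] at this
    rw [Subgroup.card_map_of_injective T.subtype_injective, hD]; omega
  by_cases hD4 : Nat.card D = 2 ∧ Nat.card T = 4
  · refine le_centralizer_of_coatoms hTp hA hAT fun M hM => hinv _ ((Subgroup.map_subtype_le M).trans hTP) (Or.inl ?_)
    have := Subgroup.index_mul_card M
    rw [PGroup.index_of_isCoatom hTp hM, hD4.2] at this
    rw [Subgroup.card_map_of_injective T.subtype_injective, hD4.1]; omega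
  have hTD : Nat.card T = Nat.card D := hT.resolve_right hD4
  obtain ⟨Y, hY, hTY, hYP⟩ := exists_intermediate hP hTP (k := m + 1)
    (by rw [hTD, hm]; exact Nat.pow_le_pow_right (by norm_num) (Nat.le_succ m))
    (by rw [hn]; exact Nat.pow_le_pow_right (by norm_num) hmn)
  have hYp : IsPGroup 2 Y := hP.to_le hYP
  have hco : ∀ M : Subgroup Y, IsCoatom M → A ≤ Subgroup.normalizer (M.map Y.subtype : Set X) := by
    intro M hM
    refine hinv _ ((Subgroup.map_subtype_le M).trans hYP) (Or.inl ?_)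
    have := Subgroup.index_mul_card M
    rw [PGroup.index_of_isCoatom hYp hM, hY, pow_succ'] at this
    rw [Subgroup.card_map_of_injective Y.subtype_injective, hm]
    omega
  have hAY : A ≤ Subgroup.normalizer (Y : Set X) := by
    have hncY : ¬ IsCyclic Y := fun h => hcyc (isCyclic_of_injective (Subgroup.inclusion hTY) (Subgroup.inclusion_injective hTY))
    obtain ⟨M₁, hM₁, M₂, hM₂, hne⟩ : ∃ M₁ : Subgroup Y, IsCoatom M₁ ∧ ∃ M₂ : Subgroup Y, IsCoatom M₂ ∧ M₁ ≠ M₂ := by
      by_contra hc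
      push_neg at hc
      have hbot : (⊤ : Subgroup Y) ≠ ⊥ := by
        intro he
        have : Nat.card Y = 1 := by rw [← Subgroup.card_top, he, Subgroup.card_bot]
        rw [hY] at this
        simp at this
      obtain ⟨M, hM, -⟩ := (eq_top_or_exists_le_coatom (⊥ : Subgroup Y)).resolve_left (Ne.symm hbot)
      refine hncY (PGroup.isCyclic_of_index_frattini_le hYp (le_of_eq ?_))
      rw [← PGroup.index_of_isCoatom hYp hM]
      congr 1
      refine le_antisymm (frattini_le_coatom hM) ?_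
      rw [show frattini ↥Y = Order.radical (Subgroup ↥Y) from rfl, Order.radical]
      exact le_iInf₂ fun N hN => (hc M hM N hN).le
    have hsup : M₁.map Y.subtype ⊔ M₂.map Y.subtype = Y := by
      rw [← Subgroup.map_sup, hM₁.2 (M₁ ⊔ M₂) (lt_of_le_of_ne le_sup_left fun he => hne ((hM₂.le_iff.mp
        ((le_sup_right : M₂ ≤ M₁ ⊔ M₂).trans he.ge)).resolve_left hM₁.1)), ← MonoidHom.range_eq_map, Subgroup.range_subtype]
    intro b hb
    rw [Subgroup.mem_normalizer_iff_map_conj_eq, ← hsup, Subgroup.map_sup,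
      Subgroup.mem_normalizer_iff_map_conj_eq.mp (hco M₁ hM₁ hb),
      Subgroup.mem_normalizer_iff_map_conj_eq.mp (hco M₂ hM₂ hb)]
  exact (le_centralizer_of_coatoms hYp hA hAY hco).trans (Subgroup.centralizer_le hTY)

end Cfsg.Agent.S3803
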