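import Cfsg.Statements.S3815
import Cfsg.Agent.Lib.Element
import Cfsg.Agent.Cores.Basic

set_option autoImplicit false
open Cfsg

namespace Cfsg.Agent.S3815

/-- Let G be a finite group, p a prime and d ∈ G an element of order prime to p. If dg has order prime to p for every element g ∈ G of order prime to p, then d ∈ O_{p'}(G). -/
theorem result {G : Type*} [Group G] [Finite G] {p : ℕ} [Fact p.Prime]
    (d : G) (hd : (orderOf d).Coprime p)
    (h : ∀ g : G, (orderOf g).Coprime p → (orderOf (d * g)).Coprime p) :
    d ∈ Cfsg.pPrimeCore p G := by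
  let K : Subgroup G :=
    subgroupOfIdempotent {x : G | ∀ g : G, (orderOf g).Coprime p → (orderOf (x * g)).Coprime p} ⟨1, fun g hg => by simpa using hg⟩ (by
      ext x
      constructor
      · rintro ⟨a, ha, b, hb, rfl⟩ g hg
        show (orderOf (a * b * g)).Coprime p
        rw [mul_assoc]; exact ha _ (hb g hg)
      · intro hx
        exact ⟨x, hx, 1, fun g hg => by simpa using hg, mul_one x⟩)
  have hK : K.Normal := by
    refine ⟨fun x hx c g hg => ?_⟩
    have ho : ∀ y z : G, orderOf (z * y * z⁻¹) = orderOf y := fun y z =>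
      orderOf_injective (MulAut.conj z).toMonoidHom (MulAut.conj z).injective y
    have h1 := hx (c⁻¹ * g * (c⁻¹)⁻¹) (by rw [ho]; exact hg)
    rw [← ho _ c] at h1
    rwa [show c * (x * (c⁻¹ * g * c⁻¹⁻¹)) * c⁻¹ = c * x * c⁻¹ * g by group] at h1
  have hcard : (Nat.card K).Coprime p := by
    refine Cfsg.Agent.Element.coprime_card_of_forall_orderOf Fact.out fun x => ?_
    have := x.2 1 (by simp)
    rwa [mul_one, Subgroup.orderOf_coe] at this
  exact Cfsg.Agent.Cores.le_pPrimeCore hK hcard h

end Cfsg.Agent.S3815
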