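import Cfsg.Statements.S3816
import Cfsg.Agent.FG3Gen.Main
-- import your own Cfsg.Agent.* helpers here

set_option autoImplicit false
open Cfsg

namespace Cfsg.Agent.S3816

/-- Let p be an odd prime, H a finite solvable group of order prime to p, and x an automorphism of H of order p (so P = ⟨x⟩ has prime order p > 2 and acts coprimely on H). For h ∈ H let [h, P] be the subgroup generated by the commutators h⁻¹·xⁱ(h), and let [H, P] be the subgroup generated by all of these. Then the fixed points of x in [H, P] are generated by the fixed points of x in the subgroups [h, P], h ∈ H. -/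
theorem result {H : Type*} [Group H] [Finite H]
    [Group.IsSolvable H] {p : ℕ} [Fact p.Prime] (hp : p ≠ 2) (hcop : (Nat.card H).Coprime p)
    (x : MulAut H) (hx : orderOf x = p) :
    Subgroup.closure {c : H | ∃ h : H, ∃ i : ℕ, c = h⁻¹ * (x ^ i) h} ⊓ (x : H →* H).eqLocus (MonoidHom.id H) =
      ⨆ h : H, Subgroup.closure {c : H | ∃ i : ℕ, c = h⁻¹ * (x ^ i) h} ⊓ (x : H →* H).eqLocus (MonoidHom.id H) := by
  classical
  set φ : ↥(Subgroup.zpowers x) →* MulAut H := (Subgroup.zpowers x).subtype with hφ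
  haveI : Finite (H ⋊[φ] ↥(Subgroup.zpowers x)) := Finite.of_equiv _ SemidirectProduct.equivProd.symm
  set H' : Subgroup (H ⋊[φ] ↥(Subgroup.zpowers x)) :=
    (SemidirectProduct.inl : H →* H ⋊[φ] ↥(Subgroup.zpowers x)).range with hH'
  set P' : Subgroup (H ⋊[φ] ↥(Subgroup.zpowers x)) :=
    (SemidirectProduct.inr : ↥(Subgroup.zpowers x) →* H ⋊[φ] ↥(Subgroup.zpowers x)).range with hP'
  have cP : Nat.card P' = p := by
    rw [hP', ← Nat.card_congr (MonoidHom.ofInjective SemidirectProduct.inr_injective).toEquiv,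
      Nat.card_zpowers, hx]
  have cH : Nat.card H' = Nat.card H :=
    (Nat.card_congr (MonoidHom.ofInjective SemidirectProduct.inl_injective).toEquiv).symm
  haveI : H'.Normal := by
    rw [hH', SemidirectProduct.range_inl_eq_ker_rightHom]
    exact MonoidHom.normal_ker _
  have hsol : Group.IsSolvable H' :=
    Group.isSolvable_of_surjective (f := (SemidirectProduct.inl :
      H →* H ⋊[φ] ↥(Subgroup.zpowers x)).rangeRestrict) (MonoidHom.rangeRestrict_surjective _)
  have hcomm : ∀ (h : H) (g : ↥(Subgroup.zpowers x)),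
      (SemidirectProduct.inl h : H ⋊[φ] ↥(Subgroup.zpowers x))⁻¹ * SemidirectProduct.inr g *
        SemidirectProduct.inl h * (SemidirectProduct.inr g)⁻¹ =
      SemidirectProduct.inl (h⁻¹ * (g : MulAut H) h) := by
    intro h g
    rw [map_mul, map_inv, show (g : MulAut H) h = φ g h from rfl, SemidirectProduct.inl_aut, map_inv]
    group
  have hpow : ∀ g : ↥(Subgroup.zpowers x), ∃ i : ℕ, (g : MulAut H) = x ^ i := by
    intro g
    obtain ⟨i, hi⟩ := mem_powers_iff_mem_zpowers.2 g.2
    exact ⟨i, hi.symm⟩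
  refine le_antisymm ?_ (iSup_le fun h => inf_le_inf (Subgroup.closure_mono ?_) le_rfl)
  swap
  · rintro c ⟨i, rfl⟩
    exact ⟨h, i, rfl⟩
  rintro c ⟨hc, hcx⟩
  have hcC : ∀ a : H, (x : H →* H) a = a →
      (SemidirectProduct.inl a : H ⋊[φ] ↥(Subgroup.zpowers x)) ∈
        Subgroup.centralizer (P' : Set _) := by
    intro a ha
    rintro _ ⟨g, rfl⟩
    obtain ⟨i, hi⟩ := hpow g
    have hfix : (g : MulAut H) a = a := by
      rw [hi]
      clear hi
      induction i with
      | zero => rfl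
      | succ i ih => rw [pow_succ, MulAut.mul_apply, show x a = a from ha, ih]
    rw [← mul_inv_eq_iff_eq_mul, ← map_inv, ← SemidirectProduct.inl_aut,
      show φ g a = (g : MulAut H) a from rfl, hfix]
  have hmem : (SemidirectProduct.inl c : H ⋊[φ] ↥(Subgroup.zpowers x)) ∈ ⁅H', P'⁆ := by
    clear hcx
    induction hc using Subgroup.closure_induction with
    | mem y hy =>
      obtain ⟨h, i, rfl⟩ := hy
      have hR := FG3Gen.R_le_commutator (P := P') (H := H') (h := SemidirectProduct.inl h) ⟨h, rfl⟩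
        (FG3Gen.mem_R _ ⟨⟨x ^ i, pow_mem (Subgroup.mem_zpowers x) i⟩, rfl⟩)
      rwa [hcomm] at hR
    | one => rw [map_one]; exact one_mem _
    | mul a b _ _ ha hb => rw [map_mul]; exact mul_mem ha hb
    | inv a _ ha => rw [map_inv]; exact inv_mem ha
  have h2 := FG3Gen.fixed_points_generated P' H' (cP ▸ Fact.out)
    (cP ▸ lt_of_le_of_ne (Fact.out : p.Prime).two_le (Ne.symm hp)) Subgroup.le_normalizer_of_normal
    (by rw [cP, cH]; exact hcop.symm) hsol ⟨hmem, hcC c hcx⟩
  set S := ⨆ h : H, Subgroup.closure {c : H | ∃ i : ℕ, c = h⁻¹ * (x ^ i) h} ⊓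
    (x : H →* H).eqLocus (MonoidHom.id H) with hS
  have hL : FG3Gen.L P' H' ≤ S.map SemidirectProduct.inl := by
    refine iSup₂_le fun y hy => ?_
    obtain ⟨h, rfl⟩ := hy
    rintro z ⟨hzR, hzC⟩
    have hle : FG3Gen.R P' (SemidirectProduct.inl h) ≤
        (Subgroup.closure {c : H | ∃ i : ℕ, c = h⁻¹ * (x ^ i) h}).map SemidirectProduct.inl := by
      refine (Subgroup.closure_le _).2 ?_
      rintro _ ⟨_, ⟨g, rfl⟩, rfl⟩
      obtain ⟨i, hi⟩ := hpow g
      exact ⟨_, Subgroup.subset_closure ⟨i, rfl⟩, by rw [hcomm, hi]⟩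
    obtain ⟨a, ha, rfl⟩ := hle hzR
    refine ⟨a, Subgroup.mem_iSup_of_mem h ⟨ha, ?_⟩, rfl⟩
    have := hzC _ ⟨⟨x, Subgroup.mem_zpowers x⟩, rfl⟩
    rw [← mul_inv_eq_iff_eq_mul, ← map_inv, ← SemidirectProduct.inl_aut] at this
    exact SemidirectProduct.inl_injective this
  obtain ⟨a, ha, hac⟩ := hL h2
  rwa [← SemidirectProduct.inl_injective hac]

end Cfsg.Agent.S3816
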