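import Cfsg.Statements.S3818
import Cfsg.Agent.FG3Fix.Main
-- import your own Cfsg.Agent.* helpers here

set_option autoImplicit false
open Cfsg

namespace Cfsg.Agent.S3818

/-- Let G be a finite solvable group and P a subgroup of G of prime order p > 3 whose conjugates generate G. Let V be a faithful irreducible representation of G over a field of positive characteristic, finite-dimensional. Then the subspace of V fixed by P has dimension less than half the dimension of V. -/
theorem result {G : Type*} [Group G] [Finite G] [Group.IsSolvable G]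
    {p : ℕ} [Fact p.Prime] (hp : 3 < p) (P : Subgroup G) (hP : Nat.card P = p) (hgen : Subgroup.normalClosure (P : Set G) = ⊤)
    {k : Type*} [Field k] (ℓ : ℕ) [Fact ℓ.Prime] [CharP k ℓ]
    {V : Type*} [AddCommGroup V] [Module k V] [FiniteDimensional k V]
    (ρ : Representation k G V) [ρ.IsIrreducible] (hfaith : Function.Injective ρ) :
    2 * Module.finrank k ↥(⨅ g : ↥P, LinearMap.ker (ρ (g : G) - LinearMap.id)) < Module.finrank k V := by
  have hp5 : 5 ≤ p := by
    rcases (lt_or_eq_of_le (Nat.succ_le_of_lt hp)) with h | h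
    · exact h
    · exfalso
      have h4 : ¬ Nat.Prime 4 := by decide
      exact h4 ((show p = 4 by omega) ▸ Fact.out)
  have hP1 : P ≠ ⊥ := fun h => by
    rw [h, Subgroup.card_bot] at hP
    exact (Fact.out : p.Prime).one_lt.ne hP
  obtain ⟨x, hxP, hx1⟩ := (Subgroup.bot_or_exists_ne_one P).resolve_left hP1
  have hz : Subgroup.zpowers x = P := by
    refine le_antisymm (Subgroup.zpowers_le.2 hxP) fun y hy => ?_
    obtain ⟨n, hn⟩ := Subgroup.mem_zpowers_iff.1
      (mem_zpowers_of_prime_card hP (g := (⟨x, hxP⟩ : P)) (fun h => hx1 (congrArg Subtype.val h))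
        (g' := ⟨y, hy⟩))
    exact Subgroup.mem_zpowers_iff.2 ⟨n, congrArg Subtype.val hn⟩
  have hx : orderOf x = p := by rw [← Nat.card_zpowers, hz, hP]
  have hgen' : Subgroup.normalClosure {x} = ⊤ := by
    rw [eq_top_iff, ← hgen]
    refine Subgroup.normalClosure_le_normal ?_
    rw [← hz]
    exact Subgroup.zpowers_le.2 (Subgroup.subset_normalClosure (Set.mem_singleton x))
  have hirr : FG3Fix.Irr (ρ : G →* Module.End k V) := by
    intro W hW
    rcases eq_bot_or_eq_top (⟨W, hW⟩ : Subrepresentation ρ) with h | h
    · exact Or.inl (congrArg Subrepresentation.toSubmodule h)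
    · exact Or.inr (congrArg Subrepresentation.toSubmodule h)
  have hle : (⨅ g : ↥P, LinearMap.ker (ρ (g : G) - LinearMap.id)) ≤
      LinearMap.ker ((ρ : G →* Module.End k V) x - 1) := iInf_le _ (⟨x, hxP⟩ : P)
  exact lt_of_le_of_lt (Nat.mul_le_mul_left 2 (Submodule.finrank_mono hle))
    (FG3Fix.fixed_space_bound hp5 (ρ : G →* Module.End k V) hfaith hirr hx hgen')

end Cfsg.Agent.S3818
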