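import Cfsg.Statements.S3819
import Cfsg.Agent.FG3Core.CoreControl
-- import your own Cfsg.Agent.* helpers here

set_option autoImplicit false
open Cfsg

namespace Cfsg.Agent.S3819

/-- Let G be a finite group with Sylow p-subgroup P and H = O_{p'}(G), and suppose G = PH and the commutator subgroup [H, P] is solvable. Let q be a prime and z an element of q-power order of C_H(P). Then (O_{q'}(C_H(z)) ∩ O_{q'}(C_H(P))) · [O_{q'}(C_H(z)), P] ≤ O_{q'}(H). -/
theorem result {G : Type*} [Group G] [Finite G] {p : ℕ} [Fact p.Prime]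
    (P : Sylow p G) (hPH : Cfsg.pPrimeCore p G ⊔ (P : Subgroup G) = ⊤)
    (hsol : Group.IsSolvable ↥⁅Cfsg.pPrimeCore p G, (P : Subgroup G)⁆)
    {q : ℕ} [Fact q.Prime] (z : G) (hzH : z ∈ Cfsg.pPrimeCore p G) (hzP : z ∈ Subgroup.centralizer ((P : Subgroup G) : Set G))
    (hz : ∃ k : ℕ, orderOf z = q ^ k) :
    ((Cfsg.pPrimeCore q ↥(Cfsg.pPrimeCore p G ⊓ Subgroup.centralizer ({z} : Set G))).map
        (Cfsg.pPrimeCore p G ⊓ Subgroup.centralizer ({z} : Set G)).subtype ⊓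
      (Cfsg.pPrimeCore q ↥(Cfsg.pPrimeCore p G ⊓ Subgroup.centralizer ((P : Subgroup G) : Set G))).map
        (Cfsg.pPrimeCore p G ⊓ Subgroup.centralizer ((P : Subgroup G) : Set G)).subtype) ⊔
    ⁅(Cfsg.pPrimeCore q ↥(Cfsg.pPrimeCore p G ⊓ Subgroup.centralizer ({z} : Set G))).map
        (Cfsg.pPrimeCore p G ⊓ Subgroup.centralizer ({z} : Set G)).subtype, (P : Subgroup G)⁆ ≤
    (Cfsg.pPrimeCore q ↥(Cfsg.pPrimeCore p G)).map (Cfsg.pPrimeCore p G).subtype := by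
  obtain ⟨k, hk⟩ := hz
  obtain ⟨n, hn⟩ := P.isPGroup'.exists_card_eq
  exact Cfsg.Agent.FG3Core.core_control (Cfsg.pPrimeCore p G) (P : Subgroup G) P.isPGroup'
    (by rw [hn]; exact Cfsg.Agent.Cores.pPrimeCore_coprime.symm.pow_left n) hsol hzH hzP
    (IsPGroup.of_card (n := k) (by rw [Nat.card_zpowers, hk]))

end Cfsg.Agent.S3819
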