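import Cfsg.Statements.S3821
import Cfsg.Agent.S3820

set_option autoImplicit false
open Cfsg

namespace Cfsg.Agent.S3821

/-- Let A be a normal subgroup of the finite group G and H a subgroup of A. Then H is pronormal in G (H and gHg⁻¹ conjugate inside ⟨H, gHg⁻¹⟩ for every g ∈ G) if and only if H is pronormal in A and G = A · N_G(H). -/
theorem result {G : Type*} [Group G] [Finite G] (A H : Subgroup G) [A.Normal] (hHA : H ≤ A) :
    Cfsg.IsPronormal H ↔ (Cfsg.IsPronormal (H.subgroupOf A) ∧ A ⊔ Subgroup.normalizer (H : Set G) = ⊤) := by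
  open Cfsg.Agent.S3820 in
  have hmap : ∀ a : A, (H.subgroupOf A).map (MulAut.conj a).toMonoidHom =
      (H.map (MulAut.conj (a : G)).toMonoidHom).subgroupOf A := by
    intro a
    ext x
    simp only [Subgroup.mem_map_equiv, Subgroup.mem_subgroupOf, MulAut.conj_symm_apply,
      Subgroup.coe_mul, Subgroup.coe_inv]
  have hle : ∀ a : G, H.map (MulAut.conj a).toMonoidHom ≤ A := by
    intro a
    rintro _ ⟨y, hy, rfl⟩
    exact ‹A.Normal›.conj_mem y (hHA hy) a
  have hsup : ∀ a : A, (H.subgroupOf A) ⊔ (H.map (MulAut.conj (a : G)).toMonoidHom).subgroupOf A =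
      (H ⊔ H.map (MulAut.conj (a : G)).toMonoidHom).subgroupOf A :=
    fun a => (Subgroup.subgroupOf_sup hHA (hle a)).symm
  constructor
  · intro h
    refine ⟨fun a => ?_, ?_⟩
    · obtain ⟨x, hx, hxeq⟩ := h a
      refine ⟨⟨x, sup_le hHA (hle a) hx⟩, ?_, ?_⟩
      · rw [hmap, hsup]; exact hx
      · rw [hmap, hmap]; exact congrArg (fun K : Subgroup G => K.subgroupOf A) hxeq
    · rw [eq_top_iff]
      intro g _
      obtain ⟨x, hx, hxeq⟩ := h g
      have hn : x⁻¹ * g ∈ Subgroup.normalizer (H : Set G) := by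
        rw [← S3820.map_conj_eq_iff, ← S3820.map_conj_map, hxeq, S3820.map_conj_map, inv_mul_cancel]
        exact S3820.map_conj_one H
      rw [← mul_inv_cancel_left x g]
      exact Subgroup.mul_mem_sup (sup_le hHA (hle g) hx) hn
  · rintro ⟨h, htop⟩ g
    obtain ⟨a, ha, n, hn, rfl⟩ :=
      Subgroup.mem_sup_of_normal_left.mp (htop ▸ Subgroup.mem_top g)
    obtain ⟨x, hx, hxeq⟩ := h ⟨a, ha⟩
    have he : H.map (MulAut.conj (a * n)).toMonoidHom = H.map (MulAut.conj a).toMonoidHom := by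
      rw [← S3820.map_conj_map, (S3820.map_conj_eq_iff H n).mpr hn]
    rw [hmap, hsup] at hx
    refine ⟨x, he ▸ hx, ?_⟩
    rw [he]
    rw [hmap, hmap, Subgroup.subgroupOf_inj, inf_eq_left.mpr (hle a), inf_eq_left.mpr (hle x)] at hxeq
    exact hxeq

end Cfsg.Agent.S3821
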