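import Cfsg.Statements.S3825
import Mathlib

set_option autoImplicit false
open Cfsg

namespace Cfsg.Agent.S3825

/-- Let U be a subgroup of a finite group H and w an involution of H normalizing U and commuting with exactly two elements of U, the identity and y. If V is a non-cyclic elementary abelian 2-subgroup of U containing y which is normal in U and invariant under w, then V is a Sylow 2-subgroup of U, V has order 4, and U/V is abelian. -/
theorem result {H : Type*} [Group H] [Finite H] (U : Subgroup H) (w : H) (hw : orderOf w = 2)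
    (hwU : w ∈ Subgroup.normalizer (U : Set H)) (y : H) (hy : y ≠ 1) (hyU : y ∈ U)
    (hfix : ∀ u ∈ U, w * u * w⁻¹ = u ↔ (u = 1 ∨ u = y))
    (V : Subgroup H) (hVU : V ≤ U) (hVn : (V.subgroupOf U).Normal) (hVw : ∀ v ∈ V, w * v * w⁻¹ ∈ V)
    (hVe : Cfsg.IsElementaryAbelian 2 V) (hVc : ¬ IsCyclic ↥V) (hyV : y ∈ V) :
    ¬ 2 ∣ V.relIndex U ∧ Nat.card ↥V = 4 ∧ ⁅U, U⁆ ≤ V := by
  classical
  obtain ⟨hVab, hVexp⟩ := hVe
  haveI := hVab
  haveI := hVn
  have hy2 : y ^ 2 = 1 := hVexp y hyV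
  have hoy : orderOf y = 2 := orderOf_eq_prime hy2 hy
  have hww : w * w = 1 := by rw [← sq, ← hw, pow_orderOf_eq_one]
  have hwinv : w⁻¹ = w := inv_eq_of_mul_eq_one_right hww
  have hconj2 : ∀ x : H, w * (w * x * w⁻¹) * w⁻¹ = x := fun x => by
    rw [show w * (w * x * w⁻¹) * w⁻¹ = (w * w) * x * (w * w)⁻¹ by group, hww, one_mul, inv_one, mul_one]
  have hself : ∀ v ∈ V, v⁻¹ = v := fun v hv => inv_eq_of_mul_eq_one_right (by rw [← sq]; exact hVexp v hv)
  have hcomm : ∀ a ∈ V, ∀ b ∈ V, a * b = b * a := fun a ha b hb =>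
    congrArg Subtype.val (hVab.is_comm.comm ⟨a, ha⟩ ⟨b, hb⟩)
  -- the map `v ↦ v * vʷ` on `V`
  let δ : V →* V :=
    { toFun := fun v => ⟨(v : H) * (w * v * w⁻¹), mul_mem v.2 (hVw v v.2)⟩
      map_one' := Subtype.ext (by simp)
      map_mul' := fun a b => Subtype.ext (by
        simp only [Subgroup.coe_mul]
        calc (a : H) * b * (w * (a * b) * w⁻¹)
            = a * ((b : H) * (w * a * w⁻¹)) * (w * b * w⁻¹) := by group
          _ = a * ((w * a * w⁻¹) * b) * (w * b * w⁻¹) := by rw [hcomm b b.2 _ (hVw a a.2)]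
          _ = a * (w * a * w⁻¹) * (b * (w * b * w⁻¹)) := by group) }
  set Y : Subgroup V := Subgroup.zpowers ⟨y, hyV⟩ with hY
  have hYcard : Nat.card Y = 2 := by
    rw [hY, Nat.card_zpowers, ← Subgroup.orderOf_coe, hoy]
  have hY1 : ∀ v : V, ((v : H) = 1 ∨ (v : H) = y) → v ∈ Y := by
    rintro v (h | h)
    · rw [show v = 1 from Subtype.ext h]; exact one_mem _
    · rw [show v = ⟨y, hyV⟩ from Subtype.ext h]; exact Subgroup.mem_zpowers _
  have hker : δ.ker ≤ Y := fun v hv => hY1 v ((hfix v (hVU v.2)).mp (by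
    have h : (v : H) * (w * v * w⁻¹) = 1 := congrArg Subtype.val hv
    rw [eq_inv_of_mul_eq_one_right h, hself v v.2]))
  have hrange : δ.range ≤ Y := by
    rintro _ ⟨v, rfl⟩
    refine hY1 _ ((hfix _ (hVU (δ v).2)).mp ?_)
    show w * ((v : H) * (w * v * w⁻¹)) * w⁻¹ = (v : H) * (w * v * w⁻¹)
    rw [show w * ((v : H) * (w * v * w⁻¹)) * w⁻¹ = (w * v * w⁻¹) * (w * (w * v * w⁻¹) * w⁻¹) by group,
      hconj2]
    exact hcomm _ (hVw v v.2) v v.2
  have hd4 : Nat.card V ∣ 2 * 2 := by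
    rw [← δ.ker.card_mul_index, Subgroup.index_ker]
    exact mul_dvd_mul (hYcard ▸ Subgroup.card_dvd_of_le hker)
      (hYcard ▸ Subgroup.card_dvd_of_le hrange)
  have hV4 : Nat.card V = 4 := by
    obtain ⟨i, hi, hVi⟩ := (Nat.dvd_prime_pow Nat.prime_two).mp (show Nat.card V ∣ 2 ^ 2 from hd4)
    rcases hi.lt_or_eq with hi | rfl
    · exfalso
      apply hVc
      interval_cases i
      · haveI := (Nat.card_eq_one_iff_unique.mp (hVi.trans (pow_zero 2))).1
        infer_instance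
      · haveI := Fact.mk Nat.prime_two
        exact isCyclic_of_prime_card (hVi.trans (pow_one 2))
    · exact hVi
  obtain ⟨v0, hv0⟩ : ∃ v0 : V, v0 ∉ Y := by
    by_contra h
    push Not at h
    have := Nat.card_le_card_of_injective (fun v : V => (⟨v, h v⟩ : Y)) (fun a b hab => congrArg Subtype.val hab)
    omega
  have hv0y : w * v0 * w⁻¹ = (v0 : H) * y := by
    have hm := hrange ⟨v0, rfl⟩
    rw [hY, Subgroup.mem_zpowers_iff] at hm
    obtain ⟨k, hk⟩ := hm
    have hk' : y ^ k = (v0 : H) * (w * v0 * w⁻¹) := by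
      have := congrArg Subtype.val hk
      simpa [δ] using this
    rcases Int.even_or_odd k with ⟨j, rfl⟩ | ⟨j, rfl⟩
    · exfalso
      apply hv0
      apply hker
      apply Subtype.ext
      show (v0 : H) * (w * v0 * w⁻¹) = 1
      rw [← hk', ← two_mul, zpow_mul, zpow_two, ← sq, hy2, one_zpow]
    · rw [zpow_add, zpow_mul, zpow_two, ← sq, hy2, one_zpow, one_mul, zpow_one] at hk'
      calc w * v0 * w⁻¹ = (v0 : H)⁻¹ * (v0 * (w * v0 * w⁻¹)) := by group
        _ = v0 * y := by rw [← hk', hself v0 v0.2]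
  -- the induced automorphism of `U ⧸ V`
  set N := V.subgroupOf U with hN
  let σ : U →* U := ((MulAut.conj w).toMonoidHom.comp U.subtype).codRestrict U
    (fun u => (Subgroup.mem_normalizer_iff.mp hwU _).mp u.2)
  have hσN : N ≤ N.comap σ := fun u hu => hVw u hu
  let τ := QuotientGroup.map N N σ hσN
  have hinv : Function.Involutive τ := by
    intro q
    obtain ⟨u, rfl⟩ := QuotientGroup.mk_surjective q
    show ((σ (σ u) : U) : U ⧸ N) = u
    congr 1
    exact Subtype.ext (hconj2 u)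
  have hfpf : MonoidHom.FixedPointFree τ := by
    intro q
    obtain ⟨u, rfl⟩ := QuotientGroup.mk_surjective q
    intro hq
    rw [QuotientGroup.eq_one_iff]
    have hq' : ((σ u : U) : U ⧸ N) = (u : U ⧸ N) := hq
    have hv' : u⁻¹ * σ u ∈ N := QuotientGroup.eq.mp hq'.symm
    have hv : (u : H)⁻¹ * (w * u * w⁻¹) ∈ V := hv' 
    set v := (u : H)⁻¹ * (w * u * w⁻¹) with hvdef
    have hwv : w * v * w⁻¹ = v := by
      rw [hvdef, show w * ((u : H)⁻¹ * (w * u * w⁻¹)) * w⁻¹ =
        (w * u * w⁻¹)⁻¹ * (w * (w * u * w⁻¹) * w⁻¹) by group, hconj2]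
      have := hself _ hv
      rw [mul_inv_rev, inv_inv] at this
      exact this
    show (u : H) ∈ V
    have hu : w * u * w⁻¹ = u * v := by rw [hvdef]; group
    rcases (hfix v (hVU hv)).mp hwv with h1 | h1
    · rw [h1, mul_one] at hu
      rcases (hfix u u.2).mp hu with h | h <;> rw [h]
      · exact one_mem V
      · exact hyV
    · rw [h1] at hu
      have ht : w * ((u : H) * (v0 : H)⁻¹) * w⁻¹ = u * (v0 : H)⁻¹ := by
        rw [show w * ((u : H) * (v0 : H)⁻¹) * w⁻¹ = (w * u * w⁻¹) * (w * v0 * w⁻¹)⁻¹ by group, hu, hv0y]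
        group
      rcases (hfix _ (mul_mem u.2 (inv_mem (hVU v0.2)))).mp ht with h | h <;>
        rw [mul_inv_eq_iff_eq_mul] at h <;> rw [h]
      · exact mul_mem (one_mem V) v0.2
      · exact mul_mem hyV v0.2
  refine ⟨?_, hV4, ?_⟩
  · have hodd := hfpf.odd_card_of_involutive hinv
    rw [← Subgroup.index_eq_card] at hodd
    exact Nat.not_even_iff_odd.mpr hodd ∘ even_iff_two_dvd.mpr
  · rw [Subgroup.commutator_le]
    intro a ha b hb
    have hcq := (hfpf.commute_all_of_involutive hinv (((⟨a, ha⟩ : U)) : U ⧸ N) ((⟨b, hb⟩ : U) : U ⧸ N))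
    let a' : U := ⟨a, ha⟩
    let b' : U := ⟨b, hb⟩
    have h1 : a' * b' * a'⁻¹ * b'⁻¹ ∈ N := by
      rw [← QuotientGroup.eq_one_iff, QuotientGroup.mk_mul, QuotientGroup.mk_mul, QuotientGroup.mk_mul,
        QuotientGroup.mk_inv, QuotientGroup.mk_inv, hcq.eq]
      show (b' : U ⧸ N) * a' * (a' : U ⧸ N)⁻¹ * (b' : U ⧸ N)⁻¹ = 1
      group
    exact h1

end Cfsg.Agent.S3825
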