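import Cfsg.Statements.S3835
import Mathlib
import Cfsg.Agent.EvenLocal.Involved
import Cfsg.Agent.EvenLocal.QdSylow
-- import your own Cfsg.Agent.* helpers here

set_option autoImplicit false
open Cfsg

set_option linter.style.haveILetI false

namespace Cfsg.Agent.S3835
open Cfsg.Agent.EvenLocal Matrix in
theorem pgroup_commutative_aux {p n : ℕ} [Fact p.Prime] (hn : n < p ^ 2)
    (S : Subgroup (Equiv.Perm (Fin n))) (hS : IsPGroup p S) (a b : S) : a * b = b * a := by
  have hp := (Fact.out : p.Prime)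
  have hfix : ∀ x : Fin n, (a * b * a⁻¹ * b⁻¹) • x = x := by
    intro x
    set K := MulAction.stabilizer S x with hK
    obtain ⟨k, hk⟩ := IsPGroup.iff_card.1 hS
    obtain ⟨j, -, hj⟩ := (Nat.dvd_prime_pow hp).1 (hk ▸ K.index_dvd_card)
    have hlt : K.index ≤ n := by
      rw [hK, MulAction.index_stabilizer]
      exact (Set.ncard_le_ncard (Set.subset_univ _)).trans (by simp [Set.ncard_univ])
    have hj2 : j < 2 := by
      by_contra h
      have := Nat.pow_le_pow_right hp.pos (not_lt.1 h)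
      omega
    interval_cases j
    · rw [pow_zero, Subgroup.index_eq_one] at hj
      exact (hj ▸ Subgroup.mem_top _ : a * b * a⁻¹ * b⁻¹ ∈ K)
    · rw [pow_one] at hj
      haveI : Group.IsNilpotent S := hS.isNilpotent
      haveI : K.Normal := Subgroup.normal_of_index_eq_minFac_card (by
        rw [hj, hk, Nat.Prime.pow_minFac hp]
        rintro rfl
        have := K.index_dvd_card
        rw [hj, hk, pow_zero, Nat.dvd_one] at this
        exact hp.ne_one this)
      haveI : IsCyclic (S ⧸ K) := isCyclic_of_prime_card (p := p) (by rw [← Subgroup.index_eq_card, hj])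
      letI := IsCyclic.commGroup (α := S ⧸ K)
      have : ((a * b * a⁻¹ * b⁻¹ : S) : S ⧸ K) = 1 := by
        simp only [QuotientGroup.mk_mul, QuotientGroup.mk_inv]
        rw [mul_comm (a : S ⧸ K) b]; group
      exact (QuotientGroup.eq_one_iff _).1 this
  have h1 : a * b * a⁻¹ * b⁻¹ = 1 := Subtype.ext (Equiv.ext fun x => hfix x)
  calc a * b = (a * b * a⁻¹ * b⁻¹) * (b * a) := by group
    _ = b * a := by rw [h1, one_mul]

open Cfsg.Agent.EvenLocal Matrix in
theorem not_involves_aux {p n : ℕ} [Fact p.Prime] (hp : p ≠ 2) (hn : n < p ^ 2) :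
    ¬ Cfsg.Involves ↥(Cfsg.qd p) ↥(alternatingGroup (Fin n)) := by
  rw [Qd.qd_eq_qdOver]
  intro h
  obtain ⟨K, f, hf⟩ := exists_surjective_of_involves h
  obtain ⟨Q⟩ : Nonempty (Sylow p K) := inferInstance
  have hspec := Qd.sylow_qd hp (Q.mapSurjective hf)
  set P := Q.mapSurjective hf with hP
  have hcomm : ∀ x y : ↥(P : Subgroup (Cfsg.qdOver (ZMod p))), x * y = y * x := by
    intro x y
    obtain ⟨x', hx', hx⟩ : (x : Cfsg.qdOver (ZMod p)) ∈ (Q : Subgroup K).map f := by
      rw [← Sylow.coe_mapSurjective hf Q]; exact x.2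
    obtain ⟨y', hy', hy⟩ : (y : Cfsg.qdOver (ZMod p)) ∈ (Q : Subgroup K).map f := by
      rw [← Sylow.coe_mapSurjective hf Q]; exact y.2
    let ι : K →* Equiv.Perm (Fin n) := (alternatingGroup (Fin n)).subtype.comp K.subtype
    have hι : Function.Injective ι := Subtype.val_injective.comp Subtype.val_injective
    have := pgroup_commutative_aux hn _ (Q.isPGroup'.map ι) ⟨ι x', x', hx', rfl⟩ ⟨ι y', y', hy', rfl⟩
    have h2 : x' * y' = y' * x' := hι (by rw [map_mul, map_mul]; exact congrArg Subtype.val this)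
    apply Subtype.ext
    show (x : Cfsg.qdOver (ZMod p)) * y = y * x
    rw [← hx, ← hy, ← map_mul, ← map_mul, h2]
  have htop : Subgroup.center ↥(P : Subgroup (Cfsg.qdOver (ZMod p))) = ⊤ :=
    eq_top_iff.2 fun x _ => Subgroup.mem_center_iff.2 fun y => hcomm y x
  have h1 := hspec.1.2
  rw [htop, Subgroup.card_top, hspec.2.1] at h1
  have := Nat.pow_eq_self_iff (Fact.out : p.Prime).one_lt |>.1 h1
  omega

open Cfsg.Agent.EvenLocal Matrix in
theorem hom_units_eq_one_aux {p : ℕ} [hp : Fact p.Prime] (hp2 : p ≠ 2)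
    (s : Cfsg.qdOver (ZMod p) →* ℤˣ) (M : Cfsg.qdOver (ZMod p)) : s M = 1 := by
  have hodd : Odd p := hp.out.odd_of_ne_two hp2
  have key : ∀ x : Cfsg.qdOver (ZMod p), x ^ p = 1 → s x = 1 := fun x hx => by
    have h := congrArg s hx
    rw [map_pow, map_one] at h
    rcases Int.units_eq_one_or (s x) with h1 | h1
    · exact h1
    · rw [h1, hodd.neg_one_pow] at h
      exact absurd h (by decide)
  have hfac : M = Qd.mkEl 1 (Qd.tr M) * Qd.mkEl (Qd.lin M) 0 := by
    refine Qd.ext_lin_tr ?_ ?_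
    · rw [map_mul, Qd.lin_mkEl, Qd.lin_mkEl, one_mul]
    · rw [Qd.tr_mul, Qd.tr_mkEl, Qd.tr_mkEl, mulVec_zero, zero_add]
  rw [hfac, map_mul, key _ (Qd.pow_eq_one_of_lin (Qd.lin_mkEl 1 _)), one_mul]
  -- the linear part
  let φ : SpecialLinearGroup (Fin 2) (ZMod p) →* Cfsg.qdOver (ZMod p) :=
    { toFun := fun A => Qd.mkEl A 0
      map_one' := Qd.ext_lin_tr (by rw [Qd.lin_mkEl, map_one]) (by rw [Qd.tr_mkEl, Qd.tr_one])
      map_mul' := fun A B => Qd.ext_lin_tr (by rw [map_mul, Qd.lin_mkEl, Qd.lin_mkEl, Qd.lin_mkEl])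
        (by rw [Qd.tr_mul, Qd.tr_mkEl, Qd.tr_mkEl, Qd.tr_mkEl, mulVec_zero, add_zero]) }
  let u : ZMod p → SpecialLinearGroup (Fin 2) (ZMod p) := fun t => ⟨!![1, t; 0, 1], by simp [det_fin_two]⟩
  let l : ZMod p → SpecialLinearGroup (Fin 2) (ZMod p) := fun t => ⟨!![1, 0; t, 1], by simp [det_fin_two]⟩
  have hu0 : u 0 = 1 := by
    apply Subtype.ext; ext i j; fin_cases i <;> fin_cases j <;> simp [u, Matrix.SpecialLinearGroup.coe_one]
  have huadd : ∀ a b, u a * u b = u (a + b) := fun a b => by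
    apply Subtype.ext
    rw [Matrix.SpecialLinearGroup.coe_mul]
    ext i j
    fin_cases i <;> fin_cases j <;> simp [u, Matrix.mul_apply, Fin.sum_univ_two, add_comm]
  have hu : ∀ t, s (φ (u t)) = 1 := fun t => key _ (by
    have : ∀ k : ℕ, (u t) ^ k = u (k * t) := fun k => by
      induction k with
      | zero => rw [pow_zero, Nat.cast_zero, zero_mul, hu0]
      | succ k ih => rw [pow_succ, ih, huadd, Nat.cast_succ, add_mul, one_mul]
    rw [← map_pow, this, ZMod.natCast_self, zero_mul, hu0, map_one])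
  have hl0 : l 0 = 1 := by
    apply Subtype.ext; ext i j; fin_cases i <;> fin_cases j <;> simp [l, Matrix.SpecialLinearGroup.coe_one]
  have hladd : ∀ a b, l a * l b = l (a + b) := fun a b => by
    apply Subtype.ext
    rw [Matrix.SpecialLinearGroup.coe_mul]
    ext i j
    fin_cases i <;> fin_cases j <;> simp [l, Matrix.mul_apply, Fin.sum_univ_two, add_comm]
  have hl : ∀ t, s (φ (l t)) = 1 := fun t => key _ (by
    have : ∀ k : ℕ, (l t) ^ k = l (k * t) := fun k => by
      induction k with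
      | zero => rw [pow_zero, Nat.cast_zero, zero_mul, hl0]
      | succ k ih => rw [pow_succ, ih, hladd, Nat.cast_succ, add_mul, one_mul]
    rw [← map_pow, this, ZMod.natCast_self, zero_mul, hl0, map_one])
  have hc : ∀ A : SpecialLinearGroup (Fin 2) (ZMod p), (A : Matrix (Fin 2) (Fin 2) (ZMod p)) 1 0 ≠ 0 →
      s (φ A) = 1 := fun A hA => by
    have hd := A.2
    rw [det_fin_two] at hd
    have : A = u (((A : Matrix (Fin 2) (Fin 2) (ZMod p)) 0 0 - 1) / (A : Matrix (Fin 2) (Fin 2) (ZMod p)) 1 0)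
        * l ((A : Matrix (Fin 2) (Fin 2) (ZMod p)) 1 0)
        * u (((A : Matrix (Fin 2) (Fin 2) (ZMod p)) 1 1 - 1) / (A : Matrix (Fin 2) (Fin 2) (ZMod p)) 1 0) := by
      apply Subtype.ext
      rw [Matrix.SpecialLinearGroup.coe_mul, Matrix.SpecialLinearGroup.coe_mul]
      ext i j
      fin_cases i <;> fin_cases j <;> simp [u, l, Matrix.mul_apply, Fin.sum_univ_two] <;> field_simp <;>
        (first | linear_combination -hd | linear_combination hd | ring)
    rw [this, map_mul, map_mul, map_mul, map_mul, hu, hu, hl, one_mul, one_mul]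
  show s (φ (Qd.lin M)) = 1
  set A := Qd.lin M
  by_cases hA : (A : Matrix (Fin 2) (Fin 2) (ZMod p)) 1 0 = 0
  · have h := hc (l 1 * A) (by
      have hd := A.2
      rw [det_fin_two, hA, mul_zero, sub_zero] at hd
      rw [Matrix.SpecialLinearGroup.coe_mul]
      simp [l, Matrix.mul_apply, Fin.sum_univ_two, hA]
      intro h0
      rw [h0, zero_mul] at hd
      exact zero_ne_one hd)
    rwa [map_mul, map_mul, hl, one_mul] at h
  · exact hc A hA

open Cfsg.Agent.EvenLocal Matrix in
theorem exists_subgroup_aux {p n : ℕ} [Fact p.Prime] (hp : p ≠ 2) (hn : p ^ 2 ≤ n) :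
    ∃ H : Subgroup (alternatingGroup (Fin n)), Nonempty (↥H ≃* ↥(Cfsg.qd p)) := by
  rw [Qd.qd_eq_qdOver]
  classical
  let act : Cfsg.qdOver (ZMod p) → (Fin 2 → ZMod p) → (Fin 2 → ZMod p) := fun M v =>
    (Qd.lin M : Matrix (Fin 2) (Fin 2) (ZMod p)) *ᵥ v + Qd.tr M
  letI : MulAction (Cfsg.qdOver (ZMod p)) (Fin 2 → ZMod p) :=
    { smul := act
      one_smul := fun v => by
        show act 1 v = v
        simp only [act, map_one, Qd.tr_one, Matrix.SpecialLinearGroup.coe_one, one_mulVec, add_zero]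
      mul_smul := fun M N v => by
        show act (M * N) v = act M (act N v)
        simp only [act, map_mul, Qd.tr_mul, mulVec_add]
        rw [Matrix.SpecialLinearGroup.coe_mul, mulVec_mulVec]
        abel }
  obtain ⟨ι⟩ : Nonempty ((Fin 2 → ZMod p) ↪ Fin n) :=
    Function.Embedding.nonempty_of_card_le (by simpa using hn)
  let φ : Cfsg.qdOver (ZMod p) →* Equiv.Perm (Fin n) :=
    (Equiv.Perm.viaEmbeddingHom ι).comp (MulAction.toPermHom _ (Fin 2 → ZMod p))
  have hinj : Function.Injective φ := (Equiv.Perm.viaEmbeddingHom_injective ι).comp (by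
    intro M N h
    have h0 : ∀ v, act M v = act N v := fun v => Equiv.Perm.congr_fun h v
    have htr : Qd.tr M = Qd.tr N := by simpa only [act, mulVec_zero, zero_add] using h0 0
    refine Qd.ext_lin_tr (Subtype.ext ?_) htr
    refine Matrix.ext_iff_mulVec.2 fun v => ?_
    have := h0 v
    simp only [act, htr] at this
    exact add_right_cancel this)
  let φ' : Cfsg.qdOver (ZMod p) →* alternatingGroup (Fin n) := φ.codRestrict _ fun M =>
    Equiv.Perm.mem_alternatingGroup.2 (hom_units_eq_one_aux hp (Equiv.Perm.sign.comp φ) M)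
  have hinj' : Function.Injective φ' := fun a b h => hinj (congrArg Subtype.val h)
  exact ⟨φ'.range, ⟨(MonoidHom.ofInjective hinj').symm⟩⟩


/-- Let p be an odd prime and n a natural number. The alternating group of degree n has a subgroup isomorphic to Qd(p) (the natural semidirect product of an elementary abelian group of order p² by SL₂(p)) if and only if n ≥ p²; and if n < p² then Qd(p) is not even involved in it. -/
theorem result {p : ℕ} [Fact p.Prime] (hp : p ≠ 2) (n : ℕ) : ((∃ H : Subgroup (alternatingGroup (Fin n)), Nonempty (↥H ≃* ↥(Cfsg.qd p))) ↔ p ^ 2 ≤ n) ∧ (n < p ^ 2 → ¬ Cfsg.Involves ↥(Cfsg.qd p) ↥(alternatingGroup (Fin n))) := by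
  refine ⟨⟨fun ⟨H, ⟨e⟩⟩ => ?_, fun h => exists_subgroup_aux hp h⟩, fun h => not_involves_aux hp h⟩
  by_contra hlt
  exact not_involves_aux hp (not_le.1 hlt)
    (Cfsg.Agent.EvenLocal.involves_of_surjective e.toMonoidHom e.surjective)

end Cfsg.Agent.S3835
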