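import Cfsg.Statements.S3838
import Mathlib
import Cfsg.Agent.Transfer.Frobenius
import Cfsg.Agent.Coprime.Action
-- import your own Cfsg.Agent.* helpers here

set_option autoImplicit false
open Cfsg

set_option linter.style.haveILetI false

namespace Cfsg.Agent.S3838

open scoped Pointwise

theorem key {H : Type*} [Group H] [Finite H] {p : ℕ} [Fact p.Prime] (P : Sylow p H) (Q : Subgroup H)
    [Q.Normal] (hQP : Q ≤ P) (hfrat : ∀ R : Subgroup H, R ≤ P → (P : Subgroup H) ≤ Q ⊔ R → (P : Subgroup H) ≤ R)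
    (hN : ∀ n ∈ Subgroup.normalizer ((P : Subgroup H) : Set H), ∀ a ∈ (P : Subgroup H), n * a * n⁻¹ * a⁻¹ ∈ Q) :
    Cfsg.HasNormalPComplement p H := by
  classical
  have hsurj := QuotientGroup.mk'_surjective Q
  let P' : Sylow p (H ⧸ Q) := P.mapSurjective hsurj
  have hP' : (P' : Subgroup (H ⧸ Q)) = (P : Subgroup H).map (QuotientGroup.mk' Q) := rfl
  have hcomap : ((P' : Subgroup (H ⧸ Q))).comap (QuotientGroup.mk' Q) = P := by
    rw [hP', Subgroup.comap_map_eq, QuotientGroup.ker_mk']
    exact sup_eq_left.2 hQP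
  have hburn : Cfsg.HasNormalPComplement p (H ⧸ Q) := by
    refine Cfsg.Agent.Transfer.hasNormalPComplement_of_normalizer_le_centralizer P' ?_
    intro n hn
    induction n using QuotientGroup.induction_on with
    | _ n =>
      have hn' : n ∈ Subgroup.normalizer ((P : Subgroup H) : Set H) := by
        rw [← hcomap]
        refine Subgroup.mem_normalizer_iff.2 fun b => ?_
        rw [Subgroup.mem_comap, Subgroup.mem_comap, map_mul, map_mul, map_inv]
        exact Subgroup.mem_normalizer_iff.1 hn _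
      rintro _ ⟨a, ha, rfl⟩
      have h3 := hN n hn' a ha
      rw [← QuotientGroup.eq_one_iff, QuotientGroup.mk_mul, QuotientGroup.mk_mul, QuotientGroup.mk_mul,
        QuotientGroup.mk_inv, QuotientGroup.mk_inv, mul_inv_eq_one, mul_inv_eq_iff_eq_mul] at h3
      exact h3.symm
  obtain ⟨P'', K', hK', hcompl'⟩ := hburn
  set K := K'.comap (QuotientGroup.mk' Q) with hK
  have hKn : K.Normal := hK'.comap _
  have hQK : Q ≤ K := fun x hx => by
    rw [hK, Subgroup.mem_comap, QuotientGroup.mk'_apply, (QuotientGroup.eq_one_iff x).2 hx]; exact one_mem _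
  have hKcard : Nat.card K * Nat.card (P'' : Subgroup (H ⧸ Q)) = Nat.card H := by
    have h1 : K.index = K'.index := Subgroup.index_comap_of_surjective _ hsurj
    rw [← hcompl'.symm.index_eq_card, ← h1]
    exact K.card_mul_index
  have hPcard : Nat.card P = Nat.card Q * Nat.card (P'' : Subgroup (H ⧸ Q)) := by
    rw [Sylow.card_eq_multiplicity P'', ← Sylow.card_eq_multiplicity P', ← hcomap]
    rw [← Subgroup.card_mul_index (Q.subgroupOf ((P' : Subgroup (H ⧸ Q)).comap (QuotientGroup.mk' Q)))]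
    congr 1
    · exact Nat.card_congr (Subgroup.subgroupOfEquivOfLe (hcomap.symm ▸ hQP)).toEquiv
    · show Q.relIndex _ = _
      have h5 := Subgroup.relIndex_ker (f := QuotientGroup.mk' Q) ((P' : Subgroup (H ⧸ Q)).comap (QuotientGroup.mk' Q))
      simp only [QuotientGroup.ker_mk', Subgroup.map_comap_eq_self_of_surjective hsurj] at h5
      exact h5
  -- a complement of `Q` in `K`
  set Q₁ := Q.subgroupOf K with hQ₁
  have hQ₁card : Nat.card Q₁ = Nat.card Q := Nat.card_congr (Subgroup.subgroupOfEquivOfLe hQK).toEquiv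
  have hidx : Q₁.index * Nat.card (P : Subgroup H) = Nat.card H := by
    rw [hPcard, ← hKcard, ← Q₁.card_mul_index, hQ₁card]
    ring
  have hcop : (Nat.card Q₁).Coprime Q₁.index := by
    have h1 : (P : Subgroup H).index = Q₁.index := by
      have h2 := (P : Subgroup H).card_mul_index
      rw [← hidx, mul_comm Q₁.index] at h2
      exact Nat.eq_of_mul_eq_mul_left Nat.card_pos h2
    have h3 : ¬ p ∣ Q₁.index := h1 ▸ P.not_dvd_index
    obtain ⟨k, hk⟩ := (P.2.to_le hQP).exists_card_eq
    rw [hQ₁card, hk]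
    exact ((((Fact.out : p.Prime).coprime_iff_not_dvd).2 h3)).pow_left k
  obtain ⟨R₁, hR₁⟩ := Subgroup.exists_right_complement'_of_coprime hcop
  set R := R₁.map K.subtype with hR
  have hRcard : Nat.card R = Q₁.index := by
    rw [hR, Subgroup.card_map_of_injective Subtype.val_injective, hR₁.symm.index_eq_card]
  have hRcop : (Nat.card R).Coprime (Nat.card Q) := by rw [hRcard, ← hQ₁card]; exact hcop.symm
  have hRQ : R ⊔ Q = K := by
    have : R₁ ⊔ Q₁ = ⊤ := hR₁.symm.sup_eq_top
    calc R ⊔ Q = (R₁ ⊔ Q₁).map K.subtype := by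
          rw [Subgroup.map_sup, hQ₁, Subgroup.subgroupOf_map_subtype, inf_eq_left.2 hQK]
      _ = K := by rw [this, ← MonoidHom.range_eq_map, Subgroup.range_subtype]
  -- the Frattini argument
  have hfr : ∀ x : H, ∃ k ∈ Q, k⁻¹ * x ∈ Subgroup.normalizer (R : Set H) := by
    intro x
    have hqs : Group.IsSolvable Q := by
      have := (P.2.to_le hQP).isNilpotent
      infer_instance
    obtain ⟨k, hk, hke⟩ := Cfsg.Agent.Coprime.complement_conj (A := R) (B := MulAut.conj x • R) (K := Q)
      (fun _ _ => Subgroup.normalizer_eq_top (H := Q) ▸ Subgroup.mem_top _) hRcop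
      (by rw [Cfsg.Agent.Coprime.card_conj_smul]; exact hRcop)
      (by
        haveI := hKn
        conv_lhs => rw [← Subgroup.Normal.conj_smul_eq_self x Q, ← Subgroup.smul_sup, hRQ,
          Subgroup.Normal.conj_smul_eq_self x K]
        exact hRQ.symm) (Or.inr hqs)
    refine ⟨k, hk, Cfsg.Agent.Coprime.conj_smul_eq_self_iff.1 ?_⟩
    rw [map_mul, mul_smul, hke, ← mul_smul, ← map_mul, inv_mul_cancel, map_one, one_smul]
  have hPR : (P : Subgroup H) ≤ Subgroup.normalizer (R : Set H) := by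
    refine fun a ha => (hfrat ((P : Subgroup H) ⊓ Subgroup.normalizer (R : Set H)) inf_le_left ?_ ha).2
    intro x hx
    obtain ⟨k, hk, hkn⟩ := hfr x
    rw [show x = k * (k⁻¹ * x) by group]
    exact Subgroup.mul_mem_sup hk ⟨Subgroup.mul_mem _ (Subgroup.inv_mem _ (hQP hk)) hx, hkn⟩
  have hRn : R.Normal := by
    rw [← Subgroup.normalizer_eq_top_iff, eq_top_iff]
    intro x _
    obtain ⟨k, hk, hkn⟩ := hfr x
    rw [show x = k * (k⁻¹ * x) by group]
    exact mul_mem (hPR (hQP hk)) hkn
  refine ⟨P, R, hRn, Subgroup.isComplement'_of_coprime (by rw [hRcard]; exact hidx) ?_⟩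
  obtain ⟨k, hk⟩ := P.2.exists_card_eq
  have h1 : (P : Subgroup H).index = Q₁.index := by
    have h2 := (P : Subgroup H).card_mul_index
    rw [← hidx, mul_comm Q₁.index] at h2
    exact Nat.eq_of_mul_eq_mul_left Nat.card_pos h2
  rw [hk, hRcard, ← h1]
  exact (((Fact.out : p.Prime).coprime_iff_not_dvd).2 P.not_dvd_index).symm.pow_right k


/-- Let G be a finite group with Sylow p-subgroup P such that N_G(P) has a normal p-complement. Then N_G(Q) has a normal p-complement for every subgroup Q with [P, P] ≤ Q ≤ Φ(P). -/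
theorem result {G : Type*} [Group G] [Finite G] {p : ℕ} [Fact p.Prime] (P : Sylow p G) (hN : Cfsg.HasNormalPComplement p ↥(Subgroup.normalizer ((P : Subgroup G) : Set G))) (Q : Subgroup G) (h1 : (commutator ↥(P : Subgroup G)).map (P : Subgroup G).subtype ≤ Q) (h2 : Q ≤ (frattini ↥(P : Subgroup G)).map (P : Subgroup G).subtype) : Cfsg.HasNormalPComplement p ↥(Subgroup.normalizer (Q : Set G)) := by
  classical
  set T : Subgroup G := (P : Subgroup G) with hT
  have hQP : Q ≤ T := h2.trans (Subgroup.map_subtype_le _)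
  have hcomm : ∀ a ∈ T, ∀ b ∈ T, a * b * a⁻¹ * b⁻¹ ∈ Q := fun a ha b hb =>
    h1 ⟨_, Subgroup.commutator_mem_commutator (Subgroup.mem_top (⟨a, ha⟩ : T)) (Subgroup.mem_top ⟨b, hb⟩), rfl⟩
  have hPN : T ≤ Subgroup.normalizer (Q : Set G) := by
    intro a ha
    refine Subgroup.mem_normalizer_iff.2 fun b => ⟨fun hb => ?_, fun hb => ?_⟩
    · rw [show a * b * a⁻¹ = (a * b * a⁻¹ * b⁻¹) * b by group]
      exact mul_mem (hcomm a ha b (hQP hb)) hb
    · have hbT : b ∈ T := by
        rw [show b = a⁻¹ * (a * b * a⁻¹) * a by group]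
        exact mul_mem (mul_mem (inv_mem ha) (hQP hb)) ha
      rw [show b = (a * b * a⁻¹ * b⁻¹)⁻¹ * (a * b * a⁻¹) by group]
      exact mul_mem (inv_mem (hcomm a ha b hbT)) hb
  set H := Subgroup.normalizer (Q : Set G) with hH
  refine key (P.subtype hPN) (Q.subgroupOf H) ?_ ?_ ?_
  · intro a ha
    exact hQP ha
  · intro R hR hle
    have hle' : T ≤ Q ⊔ R.map H.subtype := by
      intro a ha
      have h3 : a ∈ ((Q.subgroupOf H) ⊔ R).map H.subtype := ⟨⟨a, hPN ha⟩, hle ha, rfl⟩
      rw [Subgroup.map_sup] at h3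
      exact sup_le_sup_right (Subgroup.map_comap_le _ _) _ h3
    have hRT : R.map H.subtype ≤ T := by rintro _ ⟨r, hr, rfl⟩; exact hR hr
    have htop : (R.map H.subtype).subgroupOf T ⊔ frattini T = ⊤ := by
      rw [eq_top_iff]
      calc (⊤ : Subgroup T) ≤ (Q ⊔ R.map H.subtype).subgroupOf T := fun a _ => hle' a.2
        _ = Q.subgroupOf T ⊔ (R.map H.subtype).subgroupOf T := Subgroup.subgroupOf_sup hQP hRT
        _ ≤ _ := by
          refine sup_le (le_sup_of_le_right ?_) le_sup_left
          intro a ha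
          obtain ⟨b, hb, hba⟩ := h2 ha
          exact (Subtype.ext hba : b = a) ▸ hb
    have := frattini_nongenerating htop
    intro a ha
    obtain ⟨r, hr, hra⟩ := (Subgroup.subgroupOf_eq_top.1 this) ha
    exact (Subtype.ext hra : r = a) ▸ hr
  · intro n hn a ha
    have hn' : (n : G) ∈ Subgroup.normalizer (T : Set G) := by
      refine Subgroup.mem_normalizer_iff.2 fun b => ⟨fun hb => ?_, fun hb => ?_⟩
      · exact (Subgroup.mem_normalizer_iff.1 hn ⟨b, hPN hb⟩).1 hb
      · have hbH : b ∈ H := by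
          rw [show b = (n : G)⁻¹ * ((n : G) * b * (n : G)⁻¹) * n by group]
          exact mul_mem (mul_mem (inv_mem n.2) (hPN hb)) n.2
        exact (Subgroup.mem_normalizer_iff.1 hn ⟨b, hbH⟩).2 hb
    set N := Subgroup.normalizer (T : Set G) with hNdef
    obtain ⟨S, L, hL, hLS⟩ := hN
    have hTn : ((P.subtype (Subgroup.le_normalizer : T ≤ N) : Sylow p N) : Subgroup N).Normal :=
      Subgroup.normal_subgroupOf_of_le_normalizer le_rfl
    have hSeq : (S : Subgroup N) = T.subgroupOf N := by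
      obtain ⟨g, hg⟩ := MulAction.exists_smul_eq N (P.subtype (Subgroup.le_normalizer : T ≤ N)) S
      rw [← hg, Sylow.coe_subgroup_smul, Subgroup.Normal.conj_smul_eq_self]
      rfl
    obtain ⟨⟨l, s⟩, hls⟩ := (Subgroup.isComplement_iff_existsUnique.1 hLS ⟨n, hn'⟩).exists
    have hsT : ((s : N) : G) ∈ T := by
      exact hSeq.le s.2
    have hcomm' : ∀ b ∈ T, ((l : N) : G) * b = b * ((l : N) : G) := by
      intro b hb
      have h4 : (⟨b, Subgroup.le_normalizer hb⟩ : N) ∈ (S : Subgroup N) := by rw [hSeq]; exact hb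
      have hSn : (S : Subgroup N).Normal := by rw [hSeq]; exact hTn
      exact congrArg Subtype.val (Subgroup.commute_of_normal_of_disjoint L (S : Subgroup N) hL hSn
        hLS.disjoint _ _ l.2 h4).eq
    have hsa : ((s : N) : G) * (a : G) * ((s : N) : G)⁻¹ ∈ T := mul_mem (mul_mem hsT ha) (inv_mem hsT)
    show (n : G) * a * (n : G)⁻¹ * (a : G)⁻¹ ∈ Q
    rw [show (n : G) = ((l : N) : G) * ((s : N) : G) from (congrArg Subtype.val hls).symm,
      show ((l : N) : G) * ((s : N) : G) * a * (((l : N) : G) * ((s : N) : G))⁻¹ =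
        ((l : N) : G) * (((s : N) : G) * a * ((s : N) : G)⁻¹) * ((l : N) : G)⁻¹ by group,
      hcomm' _ hsa, mul_inv_cancel_right]
    exact hcomm _ hsT _ ha

end Cfsg.Agent.S3838
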