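import Cfsg.Statements.S3839
import Mathlib
import Cfsg.Agent.Transfer.Frobenius
import Cfsg.Agent.Coprime.Action
-- import your own Cfsg.Agent.* helpers here

set_option autoImplicit false
open Cfsg

namespace Cfsg.Agent.S3839

set_option linter.style.haveILetI false
set_option linter.unusedSectionVars false
open Subgroup
open scoped Pointwise commutatorElement

variable {G : Type*} [Group G] [Finite G] {p : ℕ} [Fact p.Prime]

/-- Coprime elements of the normalizer of `U` centralise the `p`-subgroups they normalise. -/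
def Good (p : ℕ) (U : Subgroup G) : Prop :=
  ∀ R : Subgroup G, IsPGroup p R → R ≤ normalizer (U : Set G) → ∀ g ∈ normalizer (U : Set G),
    g ∈ normalizer (R : Set G) → (orderOf g).Coprime p → g ∈ centralizer (R : Set G)

theorem good_of_hasNormalPComplement {U : Subgroup G}
    (h : Cfsg.HasNormalPComplement p (normalizer (U : Set G))) : Good p U := by
  intro R hR hRN g hgU hgR hgo
  refine mem_centralizer_iff.mpr fun x hx => ?_
  have h1 := Cfsg.Agent.Transfer.centralize_of_hasNormalPComplement h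
    (R.subgroupOf (normalizer (U : Set G))) hR.comap_subtype (g := ⟨g, hgU⟩) ?_
    (by rwa [← Subgroup.orderOf_coe])
  · exact congrArg Subtype.val (mem_centralizer_iff.mp h1 ⟨x, hRN hx⟩ hx)
  · exact mem_normalizer_iff.mpr fun y => mem_normalizer_iff.mp hgR y

/-- Conjugates of elements of `D`. -/
def conjSet (D : Subgroup G) : Set G := {x | ∃ d ∈ D, ∃ g : G, g * d * g⁻¹ = x}

theorem conj_mem_conjSet {D : Subgroup G} {x : G} (hx : x ∈ conjSet D) (h : G) :
    h * x * h⁻¹ ∈ conjSet D := by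
  obtain ⟨d, hd, g, rfl⟩ := hx
  exact ⟨d, hd, h * g, by group⟩

theorem normalizer_le_of_coe_eq {D R V : Subgroup G} (hV : (V : Set G) = (R : Set G) ∩ conjSet D) :
    normalizer (R : Set G) ≤ normalizer (V : Set G) := by
  intro g hg
  refine mem_normalizer_fintype fun y hy => ?_
  rw [hV] at hy ⊢
  exact ⟨(mem_normalizer_iff.1 hg y).1 hy.1, conj_mem_conjSet hy.2 g⟩

theorem exists_delta (S : Sylow p G) (D : Subgroup G) (hD : Cfsg.IsStronglyClosed D (S : Subgroup G))
    {R : Subgroup G} (hR : IsPGroup p R) : ∃ V : Subgroup G, (V : Set G) = (R : Set G) ∩ conjSet D := by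
  obtain ⟨T, hT⟩ := hR.exists_le_sylow
  obtain ⟨a, ha⟩ := MulAction.exists_smul_eq G S T
  refine ⟨R ⊓ D.map (MulAut.conj a).toMonoidHom, Set.ext fun x => ⟨?_, ?_⟩⟩
  · rintro ⟨hxR, d, hd, rfl⟩
    exact ⟨hxR, d, hd, a, by simp⟩
  · rintro ⟨hxR, d, hd, g, rfl⟩
    refine ⟨hxR, a⁻¹ * (g * d * g⁻¹) * a, ?_, by simp [mul_assoc]⟩
    have h1 : g * d * g⁻¹ ∈ ((a • S : Sylow p G) : Subgroup G) := ha.symm ▸ hT hxR
    rw [Sylow.coe_subgroup_smul, mem_pointwise_smul_iff_inv_smul_mem] at h1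
    have h2 : a⁻¹ * g * d * (a⁻¹ * g)⁻¹ ∈ (S : Subgroup G) := by simpa [mul_assoc] using h1
    have h3 := hD.2 d hd (a⁻¹ * g) h2
    simpa [mul_assoc] using h3

/-- A Frattini decomposition inside `M`. -/
theorem exists_decomp {M K Z : Subgroup G} (hKM : K ≤ M) (hMK : M ≤ normalizer (K : Set G))
    (hZ : IsPGroup p Z) (hZM : Z ≤ M) {g : G} (hg : g ∈ M) :
    ∃ (T : Subgroup G) (k n : G), IsPGroup p T ∧ T ≤ K ∧ Z ⊓ K ≤ T ∧ Z ≤ normalizer (T : Set G) ∧
      k ∈ K ∧ n ∈ M ∧ n ∈ normalizer (T : Set G) ∧ g = k * n := by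
  haveI : (K.subgroupOf M).Normal := normal_subgroupOf_of_le_normalizer hMK
  obtain ⟨S, hS⟩ := (hZ.comap_subtype : IsPGroup p (Z.subgroupOf M)).exists_le_sylow
  set K' := K.subgroupOf M with hK'
  obtain ⟨P, hP⟩ := (S.2.to_le (inf_le_left : (S : Subgroup M) ⊓ K' ≤ S)).comap_subtype.exists_le_sylow
    (P := ((S : Subgroup M) ⊓ K').subgroupOf K')
  set T' := (P : Subgroup K').map K'.subtype with hT'
  have hle : (S : Subgroup M) ⊓ K' ≤ T' := by
    intro y hy
    exact ⟨⟨y, hy.2⟩, hP hy, rfl⟩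
  have hTe : (S : Subgroup M) ⊓ K' = T' := by
    refine eq_of_le_of_card_ge hle ?_
    obtain ⟨S₂, hS₂⟩ := (P.2.map K'.subtype).exists_le_sylow
    obtain ⟨h, hh⟩ := MulAction.exists_smul_eq M S S₂
    have h1 : T' ≤ MulAut.conj h • ((S : Subgroup M) ⊓ K') := by
      intro y hy
      rw [Subgroup.smul_inf, Subgroup.Normal.conj_smul_eq_self h K', ← Sylow.coe_subgroup_smul]
      exact ⟨by rw [hh]; exact hS₂ hy, map_subtype_le _ hy⟩
    refine (card_le_of_le h1).trans (le_of_eq ?_)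
    exact Cfsg.Agent.Coprime.card_conj_smul _ _
  have hfr : normalizer (T' : Set M) ⊔ K' = ⊤ := Sylow.normalizer_sup_eq_top P
  obtain ⟨k, hk, n, hn, hkn⟩ : ∃ k ∈ K', ∃ n ∈ normalizer (T' : Set M), k * n = ⟨g, hg⟩ := by
    rw [sup_comm] at hfr
    have h1 : (⟨g, hg⟩ : M) ∈ K' ⊔ normalizer (T' : Set M) := hfr.ge (mem_top _)
    rw [← SetLike.mem_coe, Subgroup.normal_mul] at h1
    obtain ⟨a, ha, b, hb, hab⟩ := h1
    exact ⟨a, ha, b, hb, hab⟩
  have hnorm : ∀ y : M, y ∈ normalizer (T' : Set M) → (y : G) ∈ normalizer ((T'.map M.subtype : Subgroup G) : Set G) := by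
    intro y hy
    refine mem_normalizer_fintype ?_
    rintro _ ⟨t, ht, rfl⟩
    exact ⟨y * t * y⁻¹, (mem_normalizer_iff.1 hy t).1 ht, rfl⟩
  refine ⟨T'.map M.subtype, k, n, (P.2.map _).map _, ?_, ?_, ?_, hk, n.2, hnorm n hn, (congrArg Subtype.val hkn).symm⟩
  · rintro _ ⟨t, ⟨u, hu, rfl⟩, rfl⟩
    exact u.2
  · rintro z ⟨hzZ, hzK⟩
    exact ⟨⟨z, hZM hzZ⟩, hle ⟨hS hzZ, hzK⟩, rfl⟩
  · intro z hz
    refine hnorm ⟨z, hZM hz⟩ ?_
    rw [← hTe]
    refine mem_normalizer_fintype ?_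
    rintro t ⟨htS, htK⟩
    refine ⟨?_, Subgroup.Normal.conj_mem ‹K'.Normal› t htK _⟩
    exact (S : Subgroup M).mul_mem ((S : Subgroup M).mul_mem (hS hz) htS) ((S : Subgroup M).inv_mem (hS hz))

theorem mem_of_decomp {K : Subgroup G} {g k n : G} (hk : k ∈ K) (hn : n ∈ normalizer (K : Set G))
    (hgkn : g = k * n) (hgo : (orderOf g).Coprime p) {a : ℕ} (hna : n ^ p ^ a ∈ K) : g ∈ K := by
  have key : ∀ m : ℕ, (k * n) ^ m * (n ^ m)⁻¹ ∈ K := by
    intro m
    induction m with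
    | zero => simp
    | succ m ih =>
      rw [pow_succ, pow_succ, show (k * n) ^ m * (k * n) * (n ^ m * n)⁻¹ =
        ((k * n) ^ m * (n ^ m)⁻¹) * (n ^ m * k * (n ^ m)⁻¹) by group]
      exact mul_mem ih ((mem_normalizer_iff.1 (pow_mem hn m) k).1 hk)
  have h1 : g ^ p ^ a ∈ K := by
    have := mul_mem (key (p ^ a)) hna
    rwa [inv_mul_cancel_right, ← hgkn] at this
  obtain ⟨m, hm⟩ := exists_pow_eq_self_of_coprime (n := p ^ a) (hgo.pow_right a).symm
  exact hm ▸ pow_mem h1 m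

theorem exists_pow_coprime (n : G) : ∃ a : ℕ, (orderOf (n ^ p ^ a)).Coprime p := by
  refine ⟨(orderOf n).factorization p, ?_⟩
  rw [orderOf_pow_of_dvd (pow_ne_zero _ (Fact.out : p.Prime).ne_zero) (Nat.ordProj_dvd _ _)]
  exact (Nat.coprime_ordCompl Fact.out (orderOf_pos n).ne').symm

theorem good_all (S : Sylow p G) (D : Subgroup G) (hD : Cfsg.IsStronglyClosed D (S : Subgroup G))
    (h : ∀ U : Subgroup G, U ≤ D → D ⊓ centralizer (U : Set G) ≤ U →
      Cfsg.HasNormalPComplement p (normalizer (U : Set G))) :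
    ∀ (m : ℕ) (U : Subgroup G), Nat.card G - Nat.card U ≤ m → IsPGroup p U →
      (U : Set G) ⊆ conjSet D → Good p U := by
  intro m
  induction m using Nat.strong_induction_on with
  | _ m ih =>
  intro U hm hUp hUX
  have ihU : ∀ W : Subgroup G, IsPGroup p W → (W : Set G) ⊆ conjSet D → U < W → Good p W := by
    intro W hWp hWX hlt
    have h1 : Nat.card U < Nat.card W := lt_of_le_of_ne (card_le_of_le hlt.le)
      fun e => hlt.ne (eq_of_le_of_card_ge hlt.le e.ge)
    have h2 := W.card_le_card_group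
    exact ih (Nat.card G - Nat.card W) (by omega) W le_rfl hWp hWX
  by_cases hA : ∀ x ∈ conjSet D, x ∈ centralizer (U : Set G) → x ∈ U
  · -- the hypothesis applies to a conjugate
    obtain ⟨T, hT⟩ := hUp.exists_le_sylow
    obtain ⟨a, ha⟩ := MulAction.exists_smul_eq G T S
    set e := MulAut.conj a with he
    set U' := U.map e.toMonoidHom with hU'
    have hU'D : U' ≤ D := by
      rintro _ ⟨u, hu, rfl⟩
      obtain ⟨d, hd, g, hg⟩ := conj_mem_conjSet (hUX hu) a
      have h1 : e u ∈ ((a • T : Sylow p G) : Subgroup G) := by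
        rw [Sylow.coe_subgroup_smul, ← he]
        exact smul_mem_pointwise_smul _ _ _ (hT hu)
      rw [ha, MulAut.conj_apply, ← hg] at h1
      show e u ∈ D
      rw [MulAut.conj_apply, ← hg]
      exact hD.2 d hd g h1
    have hC : D ⊓ centralizer (U' : Set G) ≤ U' := by
      rintro x ⟨hxD, hxC⟩
      have h1 : a⁻¹ * x * a ∈ conjSet D := ⟨x, hxD, a⁻¹, by group⟩
      refine ⟨a⁻¹ * x * a, hA _ h1 ?_, by simp [e, mul_assoc]⟩
      intro u hu
      have h2 := hxC (e u) ⟨u, hu, rfl⟩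
      simp only [e, MulAut.conj_apply] at h2
      calc u * (a⁻¹ * x * a) = a⁻¹ * (a * u * a⁻¹ * x) * a := by group
        _ = a⁻¹ * (x * (a * u * a⁻¹)) * a := by rw [h2]
        _ = a⁻¹ * x * a * u := by group
    have hg := good_of_hasNormalPComplement (h U' hU'D hC)
    intro R hR hRN g hgU hgR hgo
    have hN : (normalizer (U : Set G)).map e.toMonoidHom = normalizer (U' : Set G) :=
      Subgroup.map_equiv_normalizer_eq U e
    have h1 := hg (R.map e.toMonoidHom) (hR.map _) ((map_mono hRN).trans hN.le) (e g)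
      (hN.le ⟨g, hgU, rfl⟩) ((Subgroup.map_equiv_normalizer_eq R e).le ⟨g, hgR, rfl⟩)
      (by rwa [MulEquiv.orderOf_eq])
    intro r hr
    exact e.injective (by rw [map_mul, map_mul]; exact h1 (e r) ⟨r, hr, rfl⟩)
  push Not at hA
  obtain ⟨x, hxX, hxC, hxU⟩ := hA
  have hxp : IsPGroup p (zpowers x) := by
    obtain ⟨d, hd, g, rfl⟩ := hxX
    have h1 : IsPGroup p (zpowers d) := S.2.to_le ((zpowers_le.2 hd).trans hD.1)
    have h2 : (zpowers d).map (MulAut.conj g).toMonoidHom = zpowers (g * d * g⁻¹) := by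
      rw [MonoidHom.map_zpowers]; rfl
    exact h2 ▸ h1.map _
  -- coprime elements of the normalizer centralize `U`
  have hstep1 : ∀ g ∈ normalizer (U : Set G), (orderOf g).Coprime p → g ∈ centralizer (U : Set G) := by
    intro g hg hgo
    have hCM : centralizer (U : Set G) ≤ normalizer (U : Set G) := centralizer_le_normalizer _
    have hMK : normalizer (U : Set G) ≤ normalizer ((centralizer (U : Set G) : Subgroup G) : Set G) := by
      intro a ha
      refine mem_normalizer_fintype fun c hc u hu => ?_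
      have h1 := hc (a⁻¹ * u * a) ((mem_normalizer_iff''.1 ha u).1 hu)
      calc u * (a * c * a⁻¹) = a * ((a⁻¹ * u * a) * c) * a⁻¹ := by group
        _ = a * (c * (a⁻¹ * u * a)) * a⁻¹ := by rw [h1]
        _ = a * c * a⁻¹ * u := by group
    obtain ⟨T, k, n, hTp, hTK, hxT, -, hk, hnM, hnT, hgkn⟩ :=
      exists_decomp hCM hMK hxp ((zpowers_le.2 hxC).trans hCM) hg
    have hWp : IsPGroup p (U ⊔ T : Subgroup G) :=
      hUp.to_sup_of_normal_left' hTp ((hTK.trans hCM))
    obtain ⟨V, hV⟩ := exists_delta S D hD hWp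
    have hUV : U ≤ V := fun u hu => by
      rw [← SetLike.mem_coe, hV]; exact ⟨mem_sup_left hu, hUX hu⟩
    have hxV : x ∈ V := by
      rw [← SetLike.mem_coe, hV]; exact ⟨mem_sup_right (hxT ⟨mem_zpowers x, hxC⟩), hxX⟩
    have hVp : IsPGroup p V := hWp.to_le fun v hv => (hV.le hv).1
    have hgoodV := ihU V hVp (fun v hv => (hV.le hv).2) (lt_of_le_of_ne hUV fun e => hxU (e ▸ hxV))
    have hUN : U ≤ normalizer (V : Set G) :=
      le_trans (le_trans le_sup_left le_normalizer) (normalizer_le_of_coe_eq hV)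
    have hnV : n ∈ normalizer (V : Set G) := normalizer_le_of_coe_eq hV (by
      refine mem_normalizer_fintype ?_
      intro y hy
      have h1 : MulAut.conj n • (U ⊔ T) = U ⊔ T := by
        rw [Subgroup.smul_sup, Cfsg.Agent.Coprime.conj_smul_eq_self_iff.2 hnM,
          Cfsg.Agent.Coprime.conj_smul_eq_self_iff.2 hnT]
      rw [SetLike.mem_coe, ← h1]
      exact smul_mem_pointwise_smul _ _ _ hy)
    obtain ⟨a, ha⟩ := exists_pow_coprime (p := p) n
    refine mem_of_decomp (a := a) hk (hMK hnM) hgkn hgo ?_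
    exact hgoodV U hUp hUN _ (pow_mem hnV _) (pow_mem hnM _) ha
  intro R₀ hR₀ hR₀N g hgU hgR₀ hgo
  -- we may assume `U ≤ R`
  suffices hmain : g ∈ centralizer ((R₀ ⊔ U : Subgroup G) : Set G) from
    fun r hr => hmain r (mem_sup_left hr)
  set R := R₀ ⊔ U with hRdef
  have hR : IsPGroup p R := by
    rw [hRdef, sup_comm]; exact hUp.to_sup_of_normal_left' hR₀ hR₀N
  have hUR : U ≤ R := le_sup_right
  have hRN : R ≤ normalizer (U : Set G) := sup_le hR₀N le_normalizer
  have hgR : g ∈ normalizer (R : Set G) := by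
    refine Cfsg.Agent.Coprime.conj_smul_eq_self_iff.1 ?_
    rw [hRdef, Subgroup.smul_sup, Cfsg.Agent.Coprime.conj_smul_eq_self_iff.2 hgR₀,
      Cfsg.Agent.Coprime.conj_smul_eq_self_iff.2 hgU]
  obtain ⟨V, hV⟩ := exists_delta S D hD hR
  have hUV : U ≤ V := fun u hu => by
    rw [← SetLike.mem_coe, hV]; exact ⟨hUR hu, hUX hu⟩
  rcases hUV.lt_or_eq with hlt | hVU
  · exact ihU V (hR.to_le fun v hv => (hV.le hv).1) (fun v hv => (hV.le hv).2) hlt R hR
      (le_normalizer.trans (normalizer_le_of_coe_eq hV)) g (normalizer_le_of_coe_eq hV hgR) hgR hgo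
  -- a Sylow subgroup of the normalizer containing `R`
  set N := normalizer (U : Set G) with hNdef
  obtain ⟨T, hT⟩ := (hR.comap_subtype : IsPGroup p (R.subgroupOf N)).exists_le_sylow
  set T₁ := (T : Subgroup N).map N.subtype with hT₁
  have hT₁p : IsPGroup p T₁ := T.2.map _
  have hRT : R ≤ T₁ := fun r hr => ⟨⟨r, hRN hr⟩, hT hr, rfl⟩
  have hT₁N : T₁ ≤ N := map_subtype_le _
  obtain ⟨E, hE⟩ := exists_delta S D hD hT₁p
  have hEU : ¬ E ≤ U := by
    intro hle
    have hxN : x ∈ N := centralizer_le_normalizer _ hxC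
    obtain ⟨S₂, hS₂⟩ := (hxp.comap_subtype : IsPGroup p ((zpowers x).subgroupOf N)).exists_le_sylow
    obtain ⟨b, hb⟩ := MulAction.exists_smul_eq N S₂ T
    have h1 : (b : G) * x * (b : G)⁻¹ ∈ T₁ := by
      refine ⟨b * ⟨x, hxN⟩ * b⁻¹, ?_, rfl⟩
      rw [← hb, SetLike.mem_coe, Sylow.coe_subgroup_smul]
      exact smul_mem_pointwise_smul _ _ _ (hS₂ (mem_zpowers x))
    have h2 : (b : G) * x * (b : G)⁻¹ ∈ E := by
      rw [← SetLike.mem_coe, hE]; exact ⟨h1, conj_mem_conjSet hxX _⟩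
    exact hxU ((mem_normalizer_iff.1 b.2 x).2 (hle h2))
  -- an element of `E` outside `U` fixed by `T₁` modulo `U`
  obtain ⟨e, heE, heU, hefix⟩ : ∃ e ∈ E, e ∉ U ∧ ∀ t ∈ T₁, ⁅e, t⁆ ∈ U := by
    by_contra hno
    push Not at hno
    haveI := hT₁p.isNilpotent
    obtain ⟨c, hc⟩ := (Subgroup.isNilpotent_iff_lowerCentralSeries T₁).1 hT₁p.isNilpotent
    have key : ∀ i, ∃ e ∈ E, e ∉ U ∧ e ∈ T₁.lowerCentralSeries i := by
      intro i
      induction i with
      | zero =>
        obtain ⟨e, he, heU⟩ := SetLike.not_le_iff_exists.1 hEU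
        exact ⟨e, he, heU, (hE.le he).1⟩
      | succ i ih =>
        obtain ⟨e, he, heU, hei⟩ := ih
        obtain ⟨t, ht, htU⟩ := hno e he heU
        refine ⟨⁅e, t⁆, ?_, htU, ?_⟩
        · have hEn : T₁ ≤ normalizer (E : Set G) := le_normalizer.trans (normalizer_le_of_coe_eq hE)
          rw [commutatorElement_def, show e * t * e⁻¹ * t⁻¹ = e * (t * e⁻¹ * t⁻¹) by group]
          exact mul_mem he ((mem_normalizer_iff.1 (hEn ht) _).1 (inv_mem he))
        · rw [Subgroup.lowerCentralSeries_succ]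
          exact commutator_mem_commutator hei ht
    obtain ⟨e, -, heU, hec⟩ := key c
    rw [hc, mem_bot] at hec
    exact heU (hec ▸ one_mem U)
  set M := N ⊓ normalizer (R : Set G) with hM
  let K : Subgroup G :=
    { carrier := {k | k ∈ M ∧ ∀ r ∈ R, ⁅k, r⁆ ∈ U}
      one_mem' := ⟨one_mem _, fun r _ => by rw [commutatorElement_one_left]; exact one_mem _⟩
      mul_mem' := fun {a b} ha hb => ⟨mul_mem ha.1 hb.1, fun r hr => by
        rw [show ⁅a * b, r⁆ = (a * ⁅b, r⁆ * a⁻¹) * ⁅a, r⁆ by simp only [commutatorElement_def]; group]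
        exact mul_mem ((mem_normalizer_iff.1 ha.1.1 _).1 (hb.2 r hr)) (ha.2 r hr)⟩
      inv_mem' := fun {a} ha => ⟨inv_mem ha.1, fun r hr => by
        rw [show ⁅a⁻¹, r⁆ = a⁻¹ * ⁅a, r⁆⁻¹ * a⁻¹⁻¹ by simp only [commutatorElement_def]; group]
        exact (mem_normalizer_iff.1 (inv_mem ha.1.1) _).1 (inv_mem (ha.2 r hr))⟩ }
  have hKM : K ≤ M := fun k hk => hk.1
  have hMK : M ≤ normalizer (K : Set G) := by
    intro a ha
    refine mem_normalizer_fintype fun c hc => ⟨mul_mem (mul_mem ha hc.1) (inv_mem ha), fun r hr => ?_⟩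
    rw [show ⁅a * c * a⁻¹, r⁆ = a * ⁅c, a⁻¹ * r * a⁆ * a⁻¹ by simp only [commutatorElement_def]; group]
    exact (mem_normalizer_iff.1 ha.1 _).1 (hc.2 _ ((mem_normalizer_iff''.1 ha.2 r).1 hr))
  have heT : e ∈ T₁ := (hE.le heE).1
  have heM : e ∈ M := by
    refine ⟨hT₁N heT, mem_normalizer_fintype fun r hr => ?_⟩
    rw [show e * r * e⁻¹ = ⁅e, r⁆ * r by rw [commutatorElement_def]; group]
    exact mul_mem (hUR (hefix r (hRT hr))) hr
  have heK : e ∈ K := ⟨heM, fun r hr => hefix r (hRT hr)⟩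
  have hUK : U ≤ K := fun u hu => ⟨⟨le_normalizer hu, le_normalizer (hUR hu)⟩, fun r hr => by
    rw [commutatorElement_def, show u * r * u⁻¹ * r⁻¹ = u * (r * u⁻¹ * r⁻¹) by group]
    exact mul_mem hu ((mem_normalizer_iff.1 (hRN hr) _).1 (inv_mem hu))⟩
  have hZ : IsPGroup p (R ⊔ zpowers e : Subgroup G) :=
    hT₁p.to_le (sup_le hRT (zpowers_le.2 heT))
  obtain ⟨TK, k, n, hTKp, -, hZT, hZN, hk, hnM, hnT, hgkn⟩ :=
    exists_decomp hKM hMK hZ (sup_le (le_inf hRN le_normalizer) (zpowers_le.2 heM))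
      (show g ∈ M from ⟨hgU, hgR⟩)
  obtain ⟨W, hW⟩ := exists_delta S D hD hTKp
  have hUW : U ≤ W := fun u hu => by
    rw [← SetLike.mem_coe, hW]; exact ⟨hZT ⟨mem_sup_left (hUR hu), hUK hu⟩, hUX hu⟩
  have heW : e ∈ W := by
    rw [← SetLike.mem_coe, hW]; exact ⟨hZT ⟨mem_sup_right (mem_zpowers e), heK⟩, (hE.le heE).2⟩
  have hgoodW := ihU W (hTKp.to_le fun v hv => (hW.le hv).1) (fun v hv => (hW.le hv).2)
    (lt_of_le_of_ne hUW fun he => heU (he ▸ heW))
  obtain ⟨a, ha⟩ := exists_pow_coprime (p := p) n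
  have hna : n ^ p ^ a ∈ K := by
    refine ⟨pow_mem hnM _, fun r hr => ?_⟩
    have h1 := hgoodW R hR ((le_sup_left.trans hZN).trans (normalizer_le_of_coe_eq hW)) _
      (pow_mem (normalizer_le_of_coe_eq hW hnT) _) (pow_mem hnM.2 _) ha r hr
    rw [commutatorElement_def, ← h1, mul_inv_cancel_right, mul_inv_cancel]
    exact one_mem _
  have hgK : g ∈ K := mem_of_decomp hk (hMK hnM) hgkn hgo hna
  have hcop : (Nat.card (zpowers g)).Coprime (Nat.card R) := by
    obtain ⟨i, hi⟩ := hR.exists_card_eq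
    rw [Nat.card_zpowers, hi]; exact hgo.pow_right i
  refine Cfsg.Agent.Coprime.le_centralizer_of_stabilizes (N := U) (zpowers_le.2 hgR) hcop ?_
    (zpowers_le.2 (hstep1 g hgU hgo)) (mem_zpowers g)
  rw [commutator_le]
  intro r hr z hz
  have h1 : z ∈ K := zpowers_le.2 hgK hz
  rw [← commutatorElement_inv]
  exact inv_mem (h1.2 r hr)

theorem main (S : Sylow p G) (D : Subgroup G) (hD : Cfsg.IsStronglyClosed D (S : Subgroup G))
    (h : ∀ U : Subgroup G, U ≤ D → D ⊓ centralizer (U : Set G) ≤ U →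
      Cfsg.HasNormalPComplement p (normalizer (U : Set G))) : Cfsg.HasNormalPComplement p G := by
  refine Cfsg.Agent.Transfer.hasNormalPComplement_of_coprime_centralize fun Q hQ _ g hg hgo => ?_
  have h1 := good_all S D hD h _ ⊥ le_rfl (IsPGroup.of_bot) (fun x hx => by
    rw [coe_bot, Set.mem_singleton_iff] at hx
    exact ⟨1, one_mem _, 1, by simp [hx]⟩)
  have htop : normalizer ((⊥ : Subgroup G) : Set G) = ⊤ := normalizer_eq_top_iff.2 inferInstance
  exact h1 Q hQ (htop.symm ▸ le_top) g (htop.symm ▸ mem_top g) hg hgo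


/-- A Frobenius normal p-complement criterion relative to a strongly closed subgroup. Let G be a finite group, S a Sylow p-subgroup and D a subgroup of S strongly closed in S with respect to G. Then G has a normal p-complement if and only if N_G(U) has a normal p-complement for every subgroup U of D with C_D(U) ≤ U. -/
theorem result {G : Type*} [Group G] [Finite G] {p : ℕ} [Fact p.Prime] (S : Sylow p G) (D : Subgroup G) (hD : Cfsg.IsStronglyClosed D (S : Subgroup G)) : Cfsg.HasNormalPComplement p G ↔ ∀ U : Subgroup G, U ≤ D → D ⊓ Subgroup.centralizer (U : Set G) ≤ U → Cfsg.HasNormalPComplement p ↥(Subgroup.normalizer (U : Set G)) := by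
  classical
  refine ⟨fun h U _ _ => Cfsg.Agent.Transfer.hasNormalPComplement_subgroup _ h, fun h => ?_⟩
  exact main S D hD h

end Cfsg.Agent.S3839
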