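import Cfsg.Statements.S3857
import Mathlib
import Cfsg.Agent.Coprime.Conj
import Cfsg.Agent.S0033
import Cfsg.Agent.Cores.Fitting
import Cfsg.Agent.Lib.FrobeniusGroup
import Cfsg.Agent.Lib.FrobeniusComplement
-- import your own Cfsg.Agent.* helpers here

set_option autoImplicit false
open Cfsg

set_option linter.style.haveILetI false

namespace Cfsg.Agent.S3857

open Subgroup
open scoped Pointwise

universe u

variable {G : Type u} [Group G] [Finite G]

theorem kernel_eq {K H : Subgroup G} [hKn : K.Normal] (hc : IsComplement' K H) (hK : K ≠ ⊥) (hH : H ≠ ⊥)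
    (hfpf : ∀ h ∈ H, h ≠ 1 → K ⊓ centralizer {h} = ⊥) :
    Cfsg.IsFrobeniusComplement H ∧ Cfsg.frobeniusKernel H = (K : Set G) := by
  have hC := Cfsg.Agent.Frobenius.isFrobeniusComplement_of_fpf hc hK hH hfpf
  refine ⟨hC, ?_⟩
  obtain ⟨N, hN, hNn, hNc⟩ := Cfsg.Agent.Frobenius.exists_kernel hC
  rw [← hN]
  have hcop := Cfsg.Agent.Frobenius.coprime_of_complement hC hc
  have hcard : Nat.card N = Nat.card K := by
    have h1 := hNc.card_mul
    rw [← hc.card_mul] at h1
    exact Nat.eq_of_mul_eq_mul_right Nat.card_pos h1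
  congr 1
  refine eq_of_le_of_card_ge ?_ (le_of_eq hcard.symm)
  have h2 : N.map (QuotientGroup.mk' K) = ⊥ := by
    refine eq_bot_of_card_eq _ (Nat.eq_one_of_dvd_coprimes hcop ?_ ?_)
    · rw [← hcard]; exact Subgroup.card_map_dvd _ _
    · rw [← hc.symm.index_eq_card, index_eq_card]; exact card_subgroup_dvd_card _
  rwa [Subgroup.map_eq_bot_iff, QuotientGroup.ker_mk'] at h2

/-- The prime divisors of a finite nilpotent group are pairwise joined. -/
theorem exists_commute_of_nilpotent {X : Type*} [Group X] [Finite X] (hX : Group.IsNilpotent X) {a b : ℕ}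
    (ha : a.Prime) (hb : b.Prime) (hne : a ≠ b) (had : a ∣ Nat.card X) (hbd : b ∣ Nat.card X) :
    ∃ g : X, orderOf g = a * b := by
  haveI := Fact.mk ha
  haveI := Fact.mk hb
  have hn := (Group.isNilpotent_of_finite_tfae.out 0 3 rfl rfl).1 hX
  obtain ⟨x, hx⟩ := exists_prime_orderOf_dvd_card' a had
  obtain ⟨y, hy⟩ := exists_prime_orderOf_dvd_card' b hbd
  obtain ⟨P, hP⟩ := (IsPGroup.of_card (n := 1) (by rw [Nat.card_zpowers, hx, pow_one]) :
    IsPGroup a (zpowers x)).exists_le_sylow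
  obtain ⟨Q, hQ⟩ := (IsPGroup.of_card (n := 1) (by rw [Nat.card_zpowers, hy, pow_one]) :
    IsPGroup b (zpowers y)).exists_le_sylow
  have hdisj : Disjoint (P : Subgroup X) (Q : Subgroup X) := IsPGroup.disjoint_of_ne a b hne _ _ P.2 Q.2
  have hc := Subgroup.commute_of_normal_of_disjoint _ _ (hn a ‹_› P) (hn b ‹_› Q) hdisj x y
    (hP (mem_zpowers x)) (hQ (mem_zpowers y))
  refine ⟨x * y, ?_⟩
  rw [hc.orderOf_mul_eq_mul_orderOf_of_coprime (by rw [hx, hy]; exact (Nat.coprime_primes ha hb).2 hne), hx, hy]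

theorem main (hsol : Group.IsSolvable G) (A : Set ℕ) (hB : ∃ b ∉ A, b.Prime ∧ b ∣ Nat.card G)
    (hAB : ∀ a ∈ A, ∀ b ∉ A, a.Prime → b.Prime → a ∣ Nat.card G → b ∣ Nat.card G → ¬ ∃ g : G, orderOf g = a * b)
    (hrF : ∃ r ∈ A, r.Prime ∧ r ∣ Nat.card (Cfsg.fittingSubgroup G)) :
    (∃ C : Subgroup G, Cfsg.IsFrobeniusComplement C) ∨
    (∃ (H K : Subgroup G) (_ : H.Normal), K.Normal ∧ H < K ∧
      (∃ C : Subgroup ↥K, Cfsg.IsFrobeniusComplement C ∧ Cfsg.frobeniusKernel C = (H.subgroupOf K : Set ↥K)) ∧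
      (∃ C : Subgroup (G ⧸ H), Cfsg.IsFrobeniusComplement C ∧
        Cfsg.frobeniusKernel C = (K.map (QuotientGroup.mk' H) : Set (G ⧸ H)))) := by
  classical
  haveI := hsol
  -- no commuting elements from both sides
  have hno : ∀ x y : G, Commute x y → ∀ a b : ℕ, a.Prime → b.Prime → a ∈ A → b ∉ A →
      a ∣ orderOf x → b ∣ orderOf y → False := by
    intro x y hxy a b ha hb haA hbA hax hby
    refine hAB a haA b hbA ha hb (hax.trans (orderOf_dvd_natCard x)) (hby.trans (orderOf_dvd_natCard y))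
      ⟨x ^ (orderOf x / a) * y ^ (orderOf y / b), ?_⟩
    have h1 : orderOf (x ^ (orderOf x / a)) = a := orderOf_pow_orderOf_div (orderOf_pos x).ne' hax
    have h2 : orderOf (y ^ (orderOf y / b)) = b := orderOf_pow_orderOf_div (orderOf_pos y).ne' hby
    rw [(hxy.pow_pow _ _).orderOf_mul_eq_mul_orderOf_of_coprime
      (by rw [h1, h2]; exact (Nat.coprime_primes ha hb).2 fun e => hbA (e ▸ haA)), h1, h2]
  set F := Cfsg.fittingSubgroup G with hF
  haveI hFn : F.Normal := Subgroup.sSup_normal _ fun _ h => h.1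
  have hFA : ∀ a : ℕ, a.Prime → a ∣ Nat.card F → a ∈ A := by
    intro a ha had
    obtain ⟨r, hrA, hr, hrd⟩ := hrF
    by_contra haA
    obtain ⟨g, hg⟩ := exists_commute_of_nilpotent (Cfsg.Agent.Cores.fittingSubgroup_isNilpotent (G := G))
      hr ha (fun e => haA (e ▸ hrA)) hrd had
    exact hAB r hrA a haA hr ha (hrd.trans F.card_subgroup_dvd_card) (had.trans F.card_subgroup_dvd_card)
      ⟨g, by rw [orderOf_coe]; exact hg⟩
  have hFne : F ≠ ⊥ := fun h => by
    obtain ⟨r, -, hr, hrd⟩ := hrF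
    rw [show Nat.card (Cfsg.fittingSubgroup G) = 1 from card_eq_one.2 h] at hrd
    exact hr.not_dvd_one hrd
  have hfix : ∀ y : G, (∃ b ∉ A, b.Prime ∧ b ∣ orderOf y) → ∀ f ∈ F, Commute f y → f = 1 := by
    rintro y ⟨b, hbA, hb, hbd⟩ f hf hc
    by_contra hf1
    obtain ⟨a, ha, had⟩ := Nat.exists_prime_and_dvd (fun h => hf1 (orderOf_eq_one_iff.1 h))
    exact hno f y hc a b ha hb (hFA a ha (had.trans (F.orderOf_dvd_natCard hf))) hbA had hbd
  -- the second Fitting term
  set π := QuotientGroup.mk' F with hπ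
  have hπs := QuotientGroup.mk'_surjective F
  have hlift : ∀ a b : ℕ, a.Prime → b.Prime → a ∈ A → b ∉ A → ¬ ∃ g : G ⧸ F, orderOf g = a * b := by
    rintro a b ha hb haA hbA ⟨g, hg⟩
    induction g using QuotientGroup.induction_on with
    | _ g =>
      have h1 : a * b ∣ orderOf g := hg ▸ orderOf_map_dvd π g
      exact hno g g (Commute.refl g) a b ha hb haA hbA ((dvd_mul_right a b).trans h1) ((dvd_mul_left b a).trans h1)
  have hqne : F ≠ ⊤ := by
    intro h
    obtain ⟨b, hbA, hb, hbd⟩ := hB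
    exact hbA (hFA b hb (by rwa [h, card_top]))
  haveI : Nontrivial (G ⧸ F) := QuotientGroup.nontrivial_iff.2 hqne
  haveI : Group.IsSolvable (G ⧸ F) := inferInstance
  set F₁ := Cfsg.fittingSubgroup (G ⧸ F) with hF₁
  haveI hF₁n : F₁.Normal := Subgroup.sSup_normal _ fun _ h => h.1
  have hF₁ne : F₁ ≠ ⊥ := Cfsg.Agent.Cores.fittingSubgroup_ne_bot
  set K := F₁.comap π with hK
  haveI hKn : K.Normal := hF₁n.comap π
  have hFK : F ≤ K := fun f hf => by
    rw [hK, mem_comap, hπ, QuotientGroup.mk'_apply, (QuotientGroup.eq_one_iff f).2 hf]; exact one_mem _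
  have hFltK : F < K := by
    refine lt_of_le_of_ne hFK fun h => hF₁ne ?_
    rw [← map_comap_eq_self_of_surjective hπs F₁, ← hK, ← h]
    exact QuotientGroup.map_mk'_self F
  have hKcard : Nat.card K = Nat.card F * Nat.card F₁ := by
    have h1 := (F.subgroupOf K).card_mul_index
    have h2 : (F.subgroupOf K).index = Nat.card F₁ := by
      have h3 := relIndex_ker (f := π) K
      rw [hK, map_comap_eq_self_of_surjective hπs] at h3
      simp only [hπ, QuotientGroup.ker_mk'] at h3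
      exact h3
    rw [← h1, h2, Nat.card_congr (subgroupOfEquivOfLe hFK).toEquiv]
  have hF₁B : ∀ b : ℕ, b.Prime → b ∣ Nat.card F₁ → b ∉ A := by
    by_contra h
    push Not at h
    obtain ⟨a, ha, had, haA⟩ := h
    have hall : ∀ c : ℕ, c.Prime → c ∣ Nat.card F₁ → c ∈ A := by
      intro c hc hcd
      by_contra hcA
      obtain ⟨g, hg⟩ := exists_commute_of_nilpotent (Cfsg.Agent.Cores.fittingSubgroup_isNilpotent (G := G ⧸ F))
        ha hc (fun e => hcA (e ▸ haA)) had hcd
      exact hlift a c ha hc haA hcA ⟨g, by rw [orderOf_coe]; exact hg⟩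
    obtain ⟨b, hbA, hb, hbd⟩ := hB
    haveI := Fact.mk hb
    obtain ⟨y, hy⟩ := exists_prime_orderOf_dvd_card' b hbd
    have hKA : ∀ k ∈ K, Commute k y → k = 1 := by
      intro k hk hc
      by_contra hk1
      obtain ⟨c, hcp, hcd⟩ := Nat.exists_prime_and_dvd (fun h => hk1 (orderOf_eq_one_iff.1 h))
      have hcK : c ∣ Nat.card F * Nat.card F₁ := hKcard ▸ hcd.trans (K.orderOf_dvd_natCard hk)
      have hcA : c ∈ A := (hcp.dvd_mul.1 hcK).elim (hFA c hcp) (hall c hcp)
      exact hno k y hc c b hcp hb hcA hbA hcd hy.symm.dvd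
    let φ : K ≃* K :=
      { toFun := fun k => ⟨y * k * y⁻¹, hKn.conj_mem k k.2 y⟩
        invFun := fun k => ⟨y⁻¹ * k * y⁻¹⁻¹, hKn.conj_mem k k.2 y⁻¹⟩
        left_inv := fun k => by ext; simp [mul_assoc]
        right_inv := fun k => by ext; simp [mul_assoc]
        map_mul' := fun k l => by ext; simp [mul_assoc] }
    have hφpow : ∀ (i : ℕ) (k : K), (((φ ^ i : MulAut K) k : K) : G) = y ^ i * k * (y ^ i)⁻¹ := by
      intro i
      induction i with
      | zero => intro k; simp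
      | succ i ih =>
        intro k
        rw [pow_succ, MulAut.mul_apply, ih]
        show y ^ i * (y * k * y⁻¹) * (y ^ i)⁻¹ = _
        group
    have hφ : MonoidHom.FixedPointFree (φ : K →* K) := by
      intro k hk
      have h1 : y * (k : G) * y⁻¹ = k := congrArg Subtype.val hk
      exact Subtype.ext (hKA k k.2 (show (k : G) * y = y * k from by
        rw [mul_inv_eq_iff_eq_mul] at h1; exact h1.symm))
    have hφo : orderOf φ = b := by
      refine orderOf_eq_prime ?_ ?_
      · apply MulEquiv.ext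
        intro k
        apply Subtype.ext
        rw [hφpow, ← hy, pow_orderOf_eq_one]
        simp
      · intro h
        obtain ⟨k, hk, hkF⟩ := SetLike.exists_of_lt hFltK
        apply hkF
        have := hφ ⟨k, hk⟩ (show φ ⟨k, hk⟩ = ⟨k, hk⟩ by rw [h]; rfl)
        rw [show k = 1 from congrArg Subtype.val this]
        exact one_mem _
    exact hFltK.not_ge (Cfsg.Agent.Cores.le_fittingSubgroup hKn (Cfsg.Agent.S0033.result φ hφ b hb hφo))
  -- a complement
  have hcop : (Nat.card (F.subgroupOf K)).Coprime (F.subgroupOf K).index := by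
    have h1 := (F.subgroupOf K).card_mul_index
    rw [hKcard, Nat.card_congr (subgroupOfEquivOfLe hFK).toEquiv] at h1
    rw [Nat.eq_of_mul_eq_mul_left Nat.card_pos h1, Nat.card_congr (subgroupOfEquivOfLe hFK).toEquiv]
    exact Nat.coprime_of_dvd fun c hc hcF hc1 => hF₁B c hc hc1 (hFA c hc hcF)
  obtain ⟨L₀, hL₀⟩ := exists_right_complement'_of_coprime hcop
  set L := L₀.map K.subtype with hL
  have hLK : L ≤ K := map_subtype_le _
  have hLsup : L ⊔ F = K := by
    calc L ⊔ F = (L₀ ⊔ F.subgroupOf K).map K.subtype := by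
          rw [Subgroup.map_sup, subgroupOf_map_subtype, inf_eq_left.2 hFK]
      _ = K := by rw [sup_comm, hL₀.sup_eq_top, ← MonoidHom.range_eq_map, range_subtype]
  have hLF : F ⊓ L = ⊥ := by
    rw [eq_bot_iff]
    rintro x ⟨hxF, y, hy, rfl⟩
    have := Subgroup.disjoint_def.1 hL₀.disjoint (show y ∈ F.subgroupOf K from hxF) hy
    rw [mem_bot, this]; rfl
  have hLcard : Nat.card L = Nat.card F₁ := by
    have h1 := hL₀.card_mul
    rw [hKcard, Nat.card_congr (subgroupOfEquivOfLe hFK).toEquiv] at h1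
    rw [hL, card_map_of_injective K.subtype_injective]
    exact Nat.eq_of_mul_eq_mul_left Nat.card_pos h1
  have hLB : ∀ l ∈ L, l ≠ 1 → ∃ b ∉ A, b.Prime ∧ b ∣ orderOf l := by
    intro l hl hl1
    obtain ⟨b, hb, hbd⟩ := Nat.exists_prime_and_dvd (fun h => hl1 (orderOf_eq_one_iff.1 h))
    exact ⟨b, hF₁B b hb (hLcard ▸ hbd.trans (L.orderOf_dvd_natCard hl)), hb, hbd⟩
  have hLne : L ≠ ⊥ := by
    intro h
    rw [h, bot_sup_eq] at hLsup
    exact hFltK.ne hLsup
  set N := normalizer (L : Set G) with hN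
  have hFN : Disjoint F N := by
    rw [Subgroup.disjoint_def]
    intro f hf hfN
    obtain ⟨l, hl, hl1⟩ : ∃ l ∈ L, l ≠ 1 := by
      by_contra h
      push Not at h
      exact hLne ((eq_bot_iff_forall _).2 h)
    refine hfix l (hLB l hl hl1) f hf ?_
    have h1 : f * l * f⁻¹ * l⁻¹ ∈ F ⊓ L := ⟨by
      rw [show f * l * f⁻¹ * l⁻¹ = f * (l * f⁻¹ * l⁻¹) by group]
      exact mul_mem hf (hFn.conj_mem _ (inv_mem hf) l),
      L.mul_mem ((mem_normalizer_iff.1 hfN l).1 hl) (L.inv_mem hl)⟩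
    rw [hLF, mem_bot, mul_inv_eq_one, mul_inv_eq_iff_eq_mul] at h1
    exact h1
  have hprod : ∀ g : G, ∃ f ∈ F, f⁻¹ * g ∈ N := by
    intro g
    have hLcop : (Nat.card L).Coprime (Nat.card F) := by
      rw [hLcard]
      exact Nat.coprime_of_dvd fun c hc h1 h2 => hF₁B c hc h1 (hFA c hc h2)
    obtain ⟨f, hf, hfe⟩ := Cfsg.Agent.Coprime.complement_conj (A := L) (B := MulAut.conj g • L) (K := F)
      (fun _ _ => normalizer_eq_top (H := F) ▸ mem_top _) hLcop
      (by rw [Cfsg.Agent.Coprime.card_conj_smul]; exact hLcop)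
      (by
        conv_lhs => rw [← Normal.conj_smul_eq_self g F, ← Subgroup.smul_sup, hLsup, Normal.conj_smul_eq_self g K]
        exact hLsup.symm) (Or.inr inferInstance)
    refine ⟨f, hf, Cfsg.Agent.Coprime.conj_smul_eq_self_iff.1 ?_⟩
    rw [map_mul, mul_smul, hfe, ← mul_smul, ← map_mul, inv_mul_cancel, map_one, one_smul]
  have hc : IsComplement' F N := by
    refine isComplement'_of_disjoint_and_mul_eq_univ hFN (Set.eq_univ_of_forall fun g => ?_)
    obtain ⟨f, hf, hfn⟩ := hprod g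
    exact ⟨f, hf, f⁻¹ * g, hfn, mul_inv_cancel_left f g⟩
  have hLN : L ≤ N := le_normalizer
  have hNne : N ≠ ⊥ := fun h => hLne (le_bot_iff.1 (h ▸ hLN))
  by_cases hfree : ∀ n ∈ N, n ≠ 1 → F ⊓ centralizer {n} = ⊥
  · exact Or.inl ⟨N, Cfsg.Agent.Frobenius.isFrobeniusComplement_of_fpf hc hFne hNne hfree⟩
  right
  push Not at hfree
  obtain ⟨n₀, hn₀N, hn₀1, hn₀⟩ := hfree
  obtain ⟨f₀, hf₀, hf₀1⟩ : ∃ f ∈ F ⊓ centralizer {n₀}, f ≠ 1 := by
    by_contra h
    push Not at h
    exact hn₀ ((eq_bot_iff_forall _).2 h)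
  obtain ⟨r, hr, hrd⟩ := Nat.exists_prime_and_dvd (fun h => hn₀1 (orderOf_eq_one_iff.1 h))
  have hrA : r ∈ A := by
    by_contra hrA
    exact hf₀1 (hfix n₀ ⟨r, hrA, hr, hrd⟩ f₀ hf₀.1 (mem_centralizer_singleton_iff.1 hf₀.2))
  set n := n₀ ^ (orderOf n₀ / r) with hn
  have hno' : orderOf n = r := orderOf_pow_orderOf_div (orderOf_pos n₀).ne' hrd
  have hnN : n ∈ N := pow_mem hn₀N _
  have hnfix : ∀ l ∈ L, Commute l n → l = 1 := by
    intro l hl hc
    by_contra hl1
    obtain ⟨b, hbA, hb, hbd⟩ := hLB l hl hl1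
    exact hno n l hc.symm r b hr hb hrA hbA hno'.symm.dvd hbd
  have hLfpf : ∀ l ∈ L, l ≠ 1 → F ⊓ centralizer {l} = ⊥ := by
    intro l hl hl1
    rw [eq_bot_iff]
    rintro f ⟨hf, hfc⟩
    exact mem_bot.2 (hfix l (hLB l hl hl1) f hf (mem_centralizer_singleton_iff.1 hfc))
  -- `L` is nilpotent with cyclic Sylow subgroups
  have hLnil : Group.IsNilpotent L := by
    have hinj : Function.Injective (π.comp L.subtype) := by
      rw [injective_iff_map_eq_one]
      intro l hl
      have h1 : (l : G) ∈ F ⊓ L := ⟨(QuotientGroup.eq_one_iff _).1 hl, l.2⟩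
      rw [hLF, mem_bot] at h1
      exact Subtype.ext h1
    have e := MonoidHom.ofInjective hinj
    have hrange : (π.comp L.subtype).range = F₁ := by
      refine eq_of_le_of_card_ge ?_ (le_of_eq ?_)
      · rintro _ ⟨l, rfl⟩; exact hLK l.2
      · rw [← hLcard, Nat.card_congr e.toEquiv]
    haveI : Group.IsNilpotent (π.comp L.subtype).range := hrange ▸ Cfsg.Agent.Cores.fittingSubgroup_isNilpotent (G := G ⧸ F)
    exact Group.nilpotent_of_mulEquiv e.symm
  have hLcomm : IsMulCommutative L := by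
    have hsn : ∀ {p : ℕ} [Fact p.Prime] (P : Sylow p L), (P : Subgroup L).Normal := fun P =>
      (Group.isNilpotent_of_finite_tfae.out 0 3 rfl rfl).1 hLnil _ ‹_› P
    have hcyc : ∀ (p : ℕ) [Fact p.Prime] (P : Sylow p L), IsCyclic P := by
      intro p _ P
      rcases Cfsg.Agent.FrobeniusCompl.sylow_cyclic_or_quaternion
        (le_top.trans (normalizer_eq_top_iff.mpr hFn).ge) hFne hLfpf P with h | ⟨rfl, k, ⟨e⟩⟩
      · exact h
      -- an involution of `L` would be centralised by `n`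
      exfalso
      haveI : NeZero (2 ^ k) := ⟨by positivity⟩
      haveI := hsn P
      set z : L := (e.symm (QuaternionGroup.a (2 ^ k : ℕ))).1 with hz
      have hinv : ∀ w : L, orderOf w = 2 → w = z := by
        intro w hw
        obtain ⟨T, hT⟩ := (IsPGroup.of_card (n := 1) (by rw [Nat.card_zpowers, hw, pow_one]) :
          IsPGroup 2 (zpowers w)).exists_le_sylow
        obtain ⟨g, hg⟩ := MulAction.exists_smul_eq L P T
        rw [← hg, Sylow.coe_subgroup_smul, Normal.conj_smul_eq_self] at hT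
        have h1 : orderOf (e ⟨w, hT (mem_zpowers w)⟩) = 2 := by rw [MulEquiv.orderOf_eq, orderOf_mk, hw]
        generalize hq : e ⟨w, hT (mem_zpowers w)⟩ = q at h1
        rcases q with i | i
        swap
        · rw [QuaternionGroup.orderOf_xa] at h1; omega
        have h2 : (QuaternionGroup.a i : QuaternionGroup (2 ^ k)) = QuaternionGroup.a ((2 ^ k : ℕ) : ZMod (2 * 2 ^ k)) := by
          have h3 := pow_orderOf_eq_one (QuaternionGroup.a i : QuaternionGroup (2 ^ k))
          rw [h1, pow_two, QuaternionGroup.a_mul_a, QuaternionGroup.one_def, QuaternionGroup.a.injEq] at h3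
          have hne : i ≠ 0 := by
            intro h0
            rw [h0, ← QuaternionGroup.one_def, orderOf_one] at h1
            omega
          congr 1
          have h4 : (((i.val + i.val : ℕ) : ZMod (2 * 2 ^ k))) = 0 := by
            rw [Nat.cast_add, ZMod.natCast_zmod_val]; exact h3
          rw [ZMod.natCast_eq_zero_iff] at h4
          have h5 : i.val < 2 * 2 ^ k := ZMod.val_lt i
          have h6 : i.val ≠ 0 := (ZMod.val_ne_zero i).2 hne
          have h7 : i.val = 2 ^ k := by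
            obtain ⟨c, hc⟩ := h4
            rcases c with _ | _ | c <;> [omega; omega; nlinarith]
          exact (ZMod.natCast_zmod_val i).symm.trans (congrArg Nat.cast h7)
        rw [hz, ← h2, ← hq, MulEquiv.symm_apply_apply]
      have h8 : 4 ∣ Nat.card P := by
        rw [Nat.card_congr e.toEquiv, Nat.card_eq_fintype_card, QuaternionGroup.card]; exact dvd_mul_right 4 _
      obtain ⟨w, hw⟩ := exists_prime_orderOf_dvd_card' 2
        ((show 2 ∣ 4 by norm_num).trans (h8.trans (P : Subgroup L).card_subgroup_dvd_card))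
      have hw' : orderOf (⟨n * w * n⁻¹, (mem_normalizer_iff.1 hnN w).1 w.2⟩ : L) = 2 := by
        rw [orderOf_mk, show n * (w : G) * n⁻¹ = MulAut.conj n w by simp, MulEquiv.orderOf_eq, orderOf_coe, hw]
      have h9 := congrArg Subtype.val ((hinv _ hw').trans (hinv _ hw).symm)
      have h10 := hnfix w w.2 (show (w : G) * n = n * w from (mul_inv_eq_iff_eq_mul.1 h9).symm)
      rw [show w = 1 from Subtype.ext h10, orderOf_one] at hw
      omega
    let e := Sylow.directProductOfNormal (G := L) hsn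
    refine ⟨⟨fun a b => e.symm.injective ?_⟩⟩
    rw [map_mul, map_mul]
    funext q Q
    haveI : Fact (q : ℕ).Prime := ⟨Nat.prime_of_mem_primeFactors q.2⟩
    haveI := hcyc q Q
    haveI := IsCyclic.isMulCommutative (α := (Q : Subgroup L))
    exact mul_comm' _ _
  have hLcyc : IsCyclic L := by
    exact Cfsg.Agent.FrobeniusCompl.isCyclic_of_le (le_top.trans (normalizer_eq_top_iff.mpr hFn).ge)
      hFne hLfpf L le_rfl (Or.inl hLcomm)
  -- self-centralising
  have hCL : ∀ y ∈ N, (∀ l ∈ L, y * l = l * y) → y ∈ L := by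
    intro y hy hyc
    have h1 : (y : G ⧸ F) ∈ centralizer (F₁ : Set (G ⧸ F)) := by
      intro q hq
      induction q using QuotientGroup.induction_on with
      | _ q =>
        have hqK : q ∈ L ⊔ F := hLsup.symm ▸ (show q ∈ K from hq)
        rw [← SetLike.mem_coe, Subgroup.mul_normal] at hqK
        obtain ⟨l, hl, f, hf, rfl⟩ := hqK
        rw [QuotientGroup.mk_mul, (QuotientGroup.eq_one_iff f).2 hf, mul_one, ← QuotientGroup.mk_mul,
          ← QuotientGroup.mk_mul, hyc l hl]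
    have h2 : y ∈ L ⊔ F := hLsup.symm ▸ (show y ∈ K from Cfsg.Agent.Cores.centralizer_fittingSubgroup_le h1)
    rw [← SetLike.mem_coe, Subgroup.mul_normal] at h2
    obtain ⟨l, hl, f, hf, rfl⟩ := h2
    have h3 : f ∈ N := by simpa using mul_mem (inv_mem (hLN hl)) hy
    simp only [Subgroup.disjoint_def.1 hFN hf h3, mul_one]
    exact hl
  -- every element of `N` outside `L` has order divisible by a prime in `A`
  have hquo : ∀ x ∈ N, x ∉ L → ∃ a ∈ A, a.Prime ∧ a ∣ orderOf x := by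
    intro x hx hxL
    by_contra hcon
    push Not at hcon
    -- commute with `n` after a correction
    have hab : x * n * x⁻¹ * n⁻¹ ∈ L := by
      refine hCL _ (mul_mem (mul_mem (mul_mem hx hnN) (inv_mem hx)) (inv_mem hnN)) fun l hl => ?_
      obtain ⟨g, hg⟩ := IsCyclic.exists_generator (α := L)
      have haut : ∀ y ∈ N, ∃ i : ℤ, ∀ l ∈ L, y * l * y⁻¹ = l ^ i := by
        intro y hy
        obtain ⟨i, hi⟩ := mem_zpowers_iff.1 (hg ⟨y * g * y⁻¹, (mem_normalizer_iff.1 hy g).1 g.2⟩)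
        refine ⟨i, fun l hl => ?_⟩
        obtain ⟨j, hj⟩ := mem_zpowers_iff.1 (hg ⟨l, hl⟩)
        have hj' : (g : G) ^ j = l := congrArg Subtype.val hj
        have hi' : (g : G) ^ i = y * g * y⁻¹ := congrArg Subtype.val hi
        rw [← hj', ← conj_zpow, ← hi', ← zpow_mul, ← zpow_mul, mul_comm]
      obtain ⟨i, hi⟩ := haut x hx
      obtain ⟨j, hj⟩ := haut n hnN
      have hsw : ∀ m ∈ L, x * (n * m * n⁻¹) * x⁻¹ = n * (x * m * x⁻¹) * n⁻¹ := by
        intro m hm
        rw [hj m hm, hi m hm, hi _ (zpow_mem hm j), hj _ (zpow_mem hm i), ← zpow_mul, ← zpow_mul, mul_comm]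
      have h5 : n⁻¹ * l * n ∈ L := by
        have := (mem_normalizer_iff.1 (inv_mem hnN) l).1 hl
        rwa [inv_inv] at this
      have h6 : x⁻¹ * (n⁻¹ * l * n) * x ∈ L := by
        have := (mem_normalizer_iff.1 (inv_mem hx) _).1 h5
        rwa [inv_inv] at this
      have h7 := hsw _ h6
      have e1 : n * (x * (x⁻¹ * (n⁻¹ * l * n) * x) * x⁻¹) * n⁻¹ = l := by group
      have e2 : x * (n * (x⁻¹ * (n⁻¹ * l * n) * x) * n⁻¹) * x⁻¹ =
          (x * n * x⁻¹ * n⁻¹) * l * (x * n * x⁻¹ * n⁻¹)⁻¹ := by group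
      rw [e1, e2] at h7
      exact mul_inv_eq_iff_eq_mul.1 h7
    let ψ : L → L := fun k => ⟨k * n * (k : G)⁻¹ * n⁻¹, by
      rw [show (k : G) * n * (k : G)⁻¹ * n⁻¹ = k * (n * (k : G)⁻¹ * n⁻¹) by group]
      exact mul_mem k.2 ((mem_normalizer_iff.1 hnN _).1 (inv_mem k.2))⟩
    have hψ : Function.Injective ψ := by
      intro k k' hkk
      have h1 : (k : G) * n * (k : G)⁻¹ * n⁻¹ = k' * n * (k' : G)⁻¹ * n⁻¹ := congrArg Subtype.val hkk
      rw [mul_left_inj] at h1
      have h2 := hnfix ((k' : G)⁻¹ * k) (mul_mem (inv_mem k'.2) k.2) (by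
        show (k' : G)⁻¹ * k * n = n * ((k' : G)⁻¹ * k)
        calc (k' : G)⁻¹ * k * n = (k' : G)⁻¹ * ((k : G) * n * (k : G)⁻¹) * k := by group
          _ = n * ((k' : G)⁻¹ * k) := by rw [h1]; group)
      exact Subtype.ext (inv_mul_eq_one.1 h2).symm
    obtain ⟨k, hk⟩ := (Finite.injective_iff_surjective.1 hψ) ⟨_, hab⟩
    have hk' : (k : G) * n * (k : G)⁻¹ * n⁻¹ = x * n * x⁻¹ * n⁻¹ := congrArg Subtype.val hk
    rw [mul_left_inj] at hk'
    have hcm : Commute ((k : G)⁻¹ * x) n := by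
      show (k : G)⁻¹ * x * n = n * ((k : G)⁻¹ * x)
      calc (k : G)⁻¹ * x * n = (k : G)⁻¹ * (x * n * x⁻¹) * x := by group
        _ = n * ((k : G)⁻¹ * x) := by rw [← hk']; group
    have hne : (k : G)⁻¹ * x ≠ 1 := fun h => hxL (by rw [← inv_mul_eq_one.1 h]; exact k.2)
    have hNL : (L.subgroupOf N).Normal := normal_subgroupOf_of_le_normalizer le_rfl
    haveI := hNL
    let ρ := QuotientGroup.mk' (L.subgroupOf N)
    have hρk : ρ ⟨(k : G)⁻¹ * x, mul_mem (inv_mem (hLN k.2)) hx⟩ = ρ ⟨x, hx⟩ := by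
      rw [show (⟨(k : G)⁻¹ * x, mul_mem (inv_mem (hLN k.2)) hx⟩ : N) = (⟨k, hLN k.2⟩ : N)⁻¹ * ⟨x, hx⟩ from rfl,
        map_mul, map_inv, QuotientGroup.mk'_apply, (QuotientGroup.eq_one_iff _).2 (show (⟨k, hLN k.2⟩ : N) ∈ L.subgroupOf N from k.2),
        inv_one, one_mul]
    have hρ1 : ρ ⟨x, hx⟩ ≠ 1 := fun h => hxL ((QuotientGroup.eq_one_iff (⟨x, hx⟩ : N)).1 h)
    obtain ⟨b, hb, hbd⟩ := Nat.exists_prime_and_dvd (fun h => hρ1 (orderOf_eq_one_iff.1 h))
    have hbx : b ∣ orderOf x := by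
      have := hbd.trans (orderOf_map_dvd ρ _)
      rwa [orderOf_mk] at this
    have hby : b ∣ orderOf ((k : G)⁻¹ * x) := by
      rw [← hρk] at hbd
      have := hbd.trans (orderOf_map_dvd ρ _)
      rwa [orderOf_mk] at this
    exact hno n _ hcm.symm r b hr hb hrA (fun hbA => hcon b hbA hb hbx) hno'.symm.dvd hby
  refine ⟨F, K, hFn, hKn, hFltK, ⟨L.subgroupOf K, kernel_eq (G := K) ?_ ?_ ?_ ?_⟩, ?_⟩
  · rw [show L.subgroupOf K = L₀ from comap_map_eq_self_of_injective K.subtype_injective L₀]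
    exact hL₀
  · intro h
    rw [subgroupOf_eq_bot] at h
    exact hFne (disjoint_self.1 (h.mono_right hFK))
  · intro h
    rw [subgroupOf_eq_bot] at h
    exact hLne (disjoint_self.1 (h.mono_right hLK))
  · intro l hl hl1
    rw [eq_bot_iff]
    rintro f ⟨hf, hfc⟩
    rw [mem_bot]
    exact Subtype.ext (hfix l (hLB l hl fun h => hl1 (Subtype.ext h)) f hf
      (congrArg Subtype.val (mem_centralizer_singleton_iff.1 hfc)))
  -- the quotient is a Frobenius group
  set L' := L.subgroupOf N with hL'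
  haveI hL'n : L'.Normal := normal_subgroupOf_of_le_normalizer le_rfl
  have hcop' : (Nat.card L').Coprime L'.index := by
    refine Nat.coprime_of_dvd fun b hb h1 h2 => ?_
    rw [Nat.card_congr (subgroupOfEquivOfLe hLN).toEquiv, hLcard] at h1
    haveI := Fact.mk hb
    obtain ⟨q, hq⟩ := exists_prime_orderOf_dvd_card' b (L'.index_eq_card ▸ h2)
    induction q using QuotientGroup.induction_on with
    | _ q =>
      have hqd : b ∣ orderOf q := hq ▸ orderOf_map_dvd (QuotientGroup.mk' L') q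
      have hqb : (q ^ (orderOf q / b ^ (orderOf q).factorization b) : N) ∉ L' := by
        intro hmem
        have h3 : ((q : N ⧸ L')) ^ (orderOf q / b ^ (orderOf q).factorization b) = 1 := by
          rw [← QuotientGroup.mk_pow, QuotientGroup.eq_one_iff]; exact hmem
        have h4 := orderOf_dvd_of_pow_eq_one h3
        rw [hq] at h4
        exact Nat.not_dvd_ordCompl hb (orderOf_pos q).ne' h4
      obtain ⟨a, haA, ha, had⟩ := hquo _ (q ^ (orderOf q / b ^ (orderOf q).factorization b) : N).2 hqb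
      rw [orderOf_coe, orderOf_pow_of_dvd (Nat.ordCompl_pos b (orderOf_pos q).ne').ne'
        (Nat.ordCompl_dvd _ _), Nat.div_div_self (Nat.ordProj_dvd _ _) (orderOf_pos q).ne'] at had
      exact hF₁B b hb h1 ((Nat.prime_dvd_prime_iff_eq ha hb).1 (ha.dvd_of_dvd_pow had) ▸ haA)
  obtain ⟨R, hR⟩ := exists_right_complement'_of_coprime hcop'
  set ν : N →* G ⧸ F := π.comp N.subtype with hν
  have hνb : Function.Bijective ν := by
    constructor
    · rw [injective_iff_map_eq_one]
      intro y hy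
      exact Subtype.ext (Subgroup.disjoint_def.1 hFN ((QuotientGroup.eq_one_iff _).1 hy) y.2)
    · intro q
      induction q using QuotientGroup.induction_on with
      | _ q =>
        obtain ⟨f, hf, hfn⟩ := hprod q
        refine ⟨⟨f⁻¹ * q, hfn⟩, ?_⟩
        show ((f⁻¹ * q : G) : G ⧸ F) = q
        rw [QuotientGroup.mk_mul, QuotientGroup.mk_inv, (QuotientGroup.eq_one_iff f).2 hf, inv_one, one_mul]
  have hKe : K.map π = L'.map ν := by
    rw [hν, ← map_map, subgroupOf_map_subtype, inf_eq_left.2 hLN, ← hLsup, Subgroup.map_sup, hπ,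
      QuotientGroup.map_mk'_self, sup_bot_eq]
  haveI : (K.map π).Normal := hKn.map π hπs
  have hmem : ∀ x : N, ν x ∈ K.map π → x ∈ L' := by
    rw [hKe]
    rintro x ⟨y, hy, hyx⟩
    exact hνb.1 hyx ▸ hy
  refine ⟨R.map ν, kernel_eq ?_ ?_ ?_ ?_⟩
  · refine isComplement'_of_disjoint_and_mul_eq_univ ?_ (Set.eq_univ_of_forall fun q => ?_)
    · rw [Subgroup.disjoint_def]
      rintro q hq ⟨x, hx, rfl⟩
      rw [Subgroup.disjoint_def.1 hR.disjoint (hmem x hq) hx, map_one]
    · obtain ⟨x, rfl⟩ := hνb.2 q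
      obtain ⟨⟨l, s⟩, hls⟩ := (isComplement_iff_existsUnique.1 hR x).exists
      exact ⟨ν l, hKe.ge ⟨l, l.2, rfl⟩, ν s, ⟨s, s.2, rfl⟩, (map_mul ν (l : N) (s : N)).symm.trans (congrArg ν hls)⟩
  · rw [hK, map_comap_eq_self_of_surjective hπs]
    exact hF₁ne
  · intro h
    rw [Subgroup.map_eq_bot_iff_of_injective _ hνb.1] at h
    rw [h, isComplement'_bot_right] at hR
    exact hF₁ne (by
      have hNL : N ≤ L := subgroupOf_eq_top.1 hR
      have hn_ : n ∈ L := hNL hnN
      exact absurd (hnfix n hn_ (Commute.refl n)) (fun h => hr.ne_one (by rw [← hno', h, orderOf_one])))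
  · rintro _ ⟨s, hs, rfl⟩ hs1
    rw [eq_bot_iff]
    rintro q ⟨hq, hqc⟩
    obtain ⟨l, rfl⟩ := hνb.2 q
    have hlL : (l : G) ∈ L := hmem l hq
    rw [mem_bot, ← map_one ν]
    congr 1
    by_contra hl1
    obtain ⟨b, hbA, hb, hbd⟩ := hLB l hlL fun h => hl1 (Subtype.ext h)
    have hsL : (s : G) ∉ L := fun h => hs1 (by rw [Subgroup.disjoint_def.1 hR.disjoint h hs, map_one])
    obtain ⟨a, haA, ha, had⟩ := hquo s s.2 hsL
    have hcm : Commute l s := hνb.1 (by rw [map_mul, map_mul]; exact mem_centralizer_singleton_iff.1 hqc)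
    exact hno (s : G) (l : G) (congrArg Subtype.val hcm.eq.symm) a b ha hb haA hbA had hbd


/-- A finite solvable group whose prime graph (prime divisors of the order, two distinct primes joined when there is an element of order their product) is disconnected is a Frobenius group or a 2-Frobenius group (it has normal subgroups H < K with K a Frobenius group with kernel H and G/H a Frobenius group with kernel K/H). -/
theorem result {G : Type*} [Group G] [Finite G] (hsol : Group.IsSolvable G)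
    (hdisc : (∃ A : Set ℕ, (∃ a ∈ A, a.Prime ∧ a ∣ Nat.card G) ∧ (∃ b ∉ A, b.Prime ∧ b ∣ Nat.card G) ∧
      ∀ a ∈ A, ∀ b ∉ A, a.Prime → b.Prime → a ∣ Nat.card G → b ∣ Nat.card G → ¬ ∃ g : G, orderOf g = a * b)) :
    (∃ C : Subgroup G, Cfsg.IsFrobeniusComplement C) ∨
    (∃ (H K : Subgroup G) (_ : H.Normal), K.Normal ∧ H < K ∧
      (∃ C : Subgroup ↥K, Cfsg.IsFrobeniusComplement C ∧ Cfsg.frobeniusKernel C = (H.subgroupOf K : Set ↥K)) ∧
      (∃ C : Subgroup (G ⧸ H), Cfsg.IsFrobeniusComplement C ∧ Cfsg.frobeniusKernel C = (K.map (QuotientGroup.mk' H) : Set (G ⧸ H)))) := by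
  classical
  obtain ⟨A, hA, hB, hAB⟩ := hdisc
  haveI : Nontrivial G := by
    obtain ⟨a, -, ha, had⟩ := hA
    by_contra hG
    rw [not_nontrivial_iff_subsingleton] at hG
    rw [Nat.card_unique] at had
    exact ha.not_dvd_one had
  haveI := hsol
  set F := Cfsg.fittingSubgroup G
  obtain ⟨r, hr, hrF⟩ := Nat.exists_prime_and_dvd (n := Nat.card F) fun h =>
    Cfsg.Agent.Cores.fittingSubgroup_ne_bot (G := G) (Subgroup.card_eq_one.1 h)
  by_cases hrA : r ∈ A
  · exact main hsol A hB hAB ⟨r, hrA, hr, hrF⟩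
  · refine main hsol Aᶜ (by obtain ⟨a, ha, h⟩ := hA; exact ⟨a, fun h' => h' ha, h⟩) ?_ ⟨r, hrA, hr, hrF⟩
    intro a ha b hb hap hbp had hbd hex
    rw [Set.mem_compl_iff] at ha hb
    push Not at hb
    exact hAB b hb a ha hbp hap hbd had (by obtain ⟨g, hg⟩ := hex; exact ⟨g, by rw [hg, mul_comm]⟩)

end Cfsg.Agent.S3857
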