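import Cfsg.Statements.S3858
import Mathlib
-- import your own Cfsg.Agent.* helpers here

set_option autoImplicit false
open Cfsg

namespace Cfsg.Agent.S3858

/-- Let G be a finite group with a normal non-abelian simple subgroup T whose centralizer is trivial (G almost simple with socle T), r a prime and R a Sylow r-subgroup of G meeting T nontrivially. Then R lies in exactly one maximal subgroup of G if and only if G has exactly one conjugacy class of maximal subgroups whose index is prime to r. -/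
theorem result {G : Type*} [Group G] [Finite G] (T : Subgroup G) [T.Normal] (hT : IsSimpleGroup T) (hna : ¬ IsMulCommutative T)
    (hC : Subgroup.centralizer (T : Set G) = ⊥) {r : ℕ} [Fact r.Prime] (R : Sylow r G) (hR0 : (R : Subgroup G) ⊓ T ≠ ⊥) :
    (∃! M : Subgroup G, IsCoatom M ∧ (R : Subgroup G) ≤ M) ↔
      ((∃ M : Subgroup G, IsCoatom M ∧ ¬ r ∣ M.index) ∧
        ∀ M₁ M₂ : Subgroup G, IsCoatom M₁ → ¬ r ∣ M₁.index → IsCoatom M₂ → ¬ r ∣ M₂.index → ∃ g : G, M₂ = M₁.map (MulAut.conj g).toMonoidHom) := by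
  have hr : r.Prime := Fact.out
  have hRnn : Subgroup.normalizer ((R : Subgroup G) : Set G) ≠ ⊤ := by
    intro htop
    have hn : (R : Subgroup G).Normal := Subgroup.normalizer_eq_top_iff.1 htop
    rcases ((Subgroup.normal_inf_normal (R : Subgroup G) T).subgroupOf T).eq_bot_or_eq_top with h | h
    · rw [Subgroup.subgroupOf_eq_bot, disjoint_iff, inf_eq_left.2 inf_le_right] at h
      exact hR0 h
    · have hTR : T ≤ R := (Subgroup.subgroupOf_eq_top.1 h).trans inf_le_left
      apply hna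
      haveI : Nontrivial T := hT.toNontrivial
      haveI := hT
      rcases (inferInstance : (Subgroup.center T).Normal).eq_bot_or_eq_top with h1 | h1
      · exact absurd h1 (ne_of_gt (R.isPGroup'.to_le hTR).bot_lt_center)
      · exact Subgroup.center_eq_top_iff.1 h1
  have hcont : ∀ M : Subgroup G, ¬ r ∣ M.index → ∃ g : G, (R : Subgroup G) ≤ M.map (MulAut.conj g).toMonoidHom := by
    intro M hM
    obtain ⟨S⟩ : Nonempty (Sylow r M) := inferInstance
    have hSi : ¬ r ∣ ((S : Subgroup M).map M.subtype).index := by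
      rw [Subgroup.index_map_subtype]; exact Nat.Prime.not_dvd_mul hr S.not_dvd_index hM
    obtain ⟨g, hg⟩ := MulAction.exists_smul_eq G ((S.isPGroup'.map M.subtype).toSylow hSi) R
    refine ⟨g, ?_⟩
    rw [← hg]
    rintro - ⟨y, ⟨z, hz, rfl⟩, rfl⟩
    exact ⟨z, z.2, rfl⟩
  have hco : ∀ (M : Subgroup G) (g : G), IsCoatom M → IsCoatom (M.map (MulAut.conj g).toMonoidHom) := fun M g hM =>
    ((MulEquiv.mapSubgroup (MulAut.conj g)).isCoatom_iff M).2 hM
  have hidx : ∀ M : Subgroup G, (R : Subgroup G) ≤ M → ¬ r ∣ M.index := fun M hM h =>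
    R.not_dvd_index (h.trans (Subgroup.index_dvd_of_le hM))
  constructor
  · rintro ⟨M, ⟨hM, hRM⟩, huni⟩
    refine ⟨⟨M, hM, hidx M hRM⟩, fun M₁ M₂ h1 h1' h2 h2' => ?_⟩
    obtain ⟨g1, hg1⟩ := hcont M₁ h1'
    obtain ⟨g2, hg2⟩ := hcont M₂ h2'
    have e1 := huni _ ⟨hco M₁ g1 h1, hg1⟩
    have e2 := huni _ ⟨hco M₂ g2 h2, hg2⟩
    refine ⟨g2⁻¹ * g1, ?_⟩
    apply Subgroup.map_injective (f := (MulAut.conj g2).toMonoidHom) (MulAut.conj g2).injective
    rw [e2, ← e1, Subgroup.map_map]
    congr 1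
    ext y
    simp [mul_assoc]
  · rintro ⟨⟨M0, hM0, hM0'⟩, hconj⟩
    obtain ⟨M3, hM3, hN3⟩ := (eq_top_or_exists_le_coatom _).resolve_left hRnn
    have hR3 : (R : Subgroup G) ≤ M3 := Subgroup.le_normalizer.trans hN3
    refine ⟨M3, ⟨hM3, hR3⟩, ?_⟩
    rintro M ⟨hM, hRM⟩
    obtain ⟨h, rfl⟩ := hconj M3 M hM3 (hidx M3 hR3) hM (hidx M hRM)
    set M' := M3.map (MulAut.conj h).toMonoidHom with hM'
    have hR' : ((h • R : Sylow r G) : Subgroup G) ≤ M' := by
      rintro - ⟨y, hy, rfl⟩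
      exact ⟨y, hR3 hy, rfl⟩
    obtain ⟨m, hm⟩ := MulAction.exists_smul_eq M' ((h • R).subtype hR') (R.subtype hRM)
    simp_rw [Sylow.smul_subtype, Subgroup.smul_def, smul_smul] at hm
    have hn : (m : G) * h ∈ Subgroup.normalizer ((R : Subgroup G) : Set G) :=
      Sylow.smul_eq_iff_mem_normalizer.1 (Sylow.subtype_injective hm)
    obtain ⟨y, hy, hye⟩ := m.2
    simp only [MulEquiv.coe_toMonoidHom, MulAut.conj_apply] at hye
    have hh : h ∈ M3 := by
      have h1 := hN3 hn
      rw [← hye, inv_mul_cancel_right] at h1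
      have h2 := mul_mem h1 (inv_mem hy)
      simpa [mul_assoc] using h2
    refine Subgroup.eq_of_le_of_card_ge ?_ (le_of_eq (Subgroup.card_map_of_injective (MulAut.conj h).injective).symm)
    rintro - ⟨w, hw, rfl⟩
    exact mul_mem (mul_mem hh hw) (inv_mem hh)

end Cfsg.Agent.S3858
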