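import Cfsg.Statements.S3859
import Mathlib
-- import your own Cfsg.Agent.* helpers here

set_option autoImplicit false
open Cfsg

namespace Cfsg.Agent.S3859

/-- Let G be a finite group with a normal non-abelian simple subgroup T whose centralizer is trivial (G almost simple with socle T), r a prime and R a Sylow r-subgroup of G meeting T nontrivially. If R lies in exactly one maximal subgroup of G, then G/T is an r-group. -/
theorem result {G : Type*} [Group G] [Finite G] (T : Subgroup G) [T.Normal] (hT : IsSimpleGroup T) (hna : ¬ IsMulCommutative T)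
    (hC : Subgroup.centralizer (T : Set G) = ⊥) {r : ℕ} [Fact r.Prime] (R : Sylow r G) (hR0 : (R : Subgroup G) ⊓ T ≠ ⊥)
    (huniq : ∃! M : Subgroup G, IsCoatom M ∧ (R : Subgroup G) ≤ M) : IsPGroup r (G ⧸ T) := by
  obtain ⟨M, ⟨hMco, hMR⟩, huniqM⟩ := huniq
  have hr : r.Prime := Fact.out
  have hsup : (R : Subgroup G) ⊔ T = ⊤ := by
    by_contra hne
    obtain ⟨M1, hM1, hle⟩ := (eq_top_or_exists_le_coatom ((R : Subgroup G) ⊔ T)).resolve_left hne
    have hTM : T ≤ M := huniqM M1 ⟨hM1, le_sup_left.trans hle⟩ ▸ le_sup_right.trans hle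
    set D := (R : Subgroup G) ⊓ T with hD
    have hDnn : ¬ D.Normal := by
      intro hn
      rcases (hn.subgroupOf T).eq_bot_or_eq_top with h | h
      · rw [Subgroup.subgroupOf_eq_bot, disjoint_iff, inf_eq_left.2 inf_le_right] at h
        exact hR0 h
      · have hTR : T ≤ R := (Subgroup.subgroupOf_eq_top.1 h).trans inf_le_left
        apply hna
        haveI : Nontrivial T := hT.toNontrivial
        haveI : Group.IsNilpotent T := (R.isPGroup'.to_le hTR).isNilpotent
        haveI := hT
        rcases (inferInstance : (Subgroup.center T).Normal).eq_bot_or_eq_top with h1 | h1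
        · exact absurd h1 (ne_of_gt (R.isPGroup'.to_le hTR).bot_lt_center)
        · exact Subgroup.center_eq_top_iff.1 h1
    have hN : Subgroup.normalizer (D : Set G) ≤ M := by
      obtain ⟨M2, hM2, hle2⟩ := (eq_top_or_exists_le_coatom (Subgroup.normalizer (D : Set G))).resolve_left
        (fun h => hDnn (Subgroup.normalizer_eq_top_iff.1 h))
      refine huniqM M2 ⟨hM2, le_trans (fun y hy => ?_) hle2⟩ ▸ hle2
      refine Subgroup.mem_normalizer_iff.2 fun z => ⟨fun hz => ?_, fun hz => ?_⟩
      · exact ⟨(R : Subgroup G).mul_mem ((R : Subgroup G).mul_mem hy hz.1) ((R : Subgroup G).inv_mem hy),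
          (inferInstance : T.Normal).conj_mem z hz.2 y⟩
      · refine ⟨?_, ?_⟩
        · have := (R : Subgroup G).mul_mem ((R : Subgroup G).mul_mem ((R : Subgroup G).inv_mem hy) hz.1) hy
          show z ∈ (R : Subgroup G)
          simpa [mul_assoc] using this
        · have := (inferInstance : T.Normal).conj_mem _ hz.2 y⁻¹
          simpa [mul_assoc] using this
    apply hMco.1
    rw [eq_top_iff]
    intro g _
    have hDp : IsPGroup r (D.subgroupOf T) :=
      (R.isPGroup'.to_le inf_le_left).comap_of_injective T.subtype T.subtype_injective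
    obtain ⟨SD, hSD⟩ := hDp.exists_le_sylow
    have hSDle : (SD : Subgroup T) = D.subgroupOf T := by
      obtain ⟨Q, hQ⟩ := (SD.isPGroup'.map T.subtype).exists_le_sylow
      obtain ⟨u, hu⟩ := MulAction.exists_smul_eq G Q R
      have hle' : ((SD : Subgroup T).map T.subtype).map (MulAut.conj u).toMonoidHom ≤ D := by
        rintro - ⟨y, ⟨z, hz, rfl⟩, rfl⟩
        refine ⟨?_, (inferInstance : T.Normal).conj_mem _ z.2 u⟩
        rw [SetLike.mem_coe, ← hu]
        exact Subgroup.mem_map_of_mem _ (hQ ⟨z, hz, rfl⟩)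
      refine (Subgroup.eq_of_le_of_card_ge hSD ?_).symm
      have hc := Nat.le_of_dvd Nat.card_pos (Subgroup.card_dvd_of_le hle')
      rw [Subgroup.card_map_of_injective (MulAut.conj u).injective,
        Subgroup.card_map_of_injective T.subtype_injective] at hc
      rwa [Nat.card_congr (Subgroup.subgroupOfEquivOfLe (inf_le_right : D ≤ T)).toEquiv]
    have hgD : IsPGroup r ((D.map (MulAut.conj g).toMonoidHom).subgroupOf T) :=
      ((R.isPGroup'.to_le inf_le_left).map _).comap_of_injective T.subtype T.subtype_injective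
    obtain ⟨S2, hS2⟩ := hgD.exists_le_sylow
    obtain ⟨t, ht⟩ := MulAction.exists_smul_eq T S2 SD
    have hconjT : ∀ d ∈ D, g * d * g⁻¹ ∈ T := fun d hd => (inferInstance : T.Normal).conj_mem d hd.2 g
    have hmap : ∀ d ∈ D, ((t : G) * g) * d * ((t : G) * g)⁻¹ ∈ D := by
      intro d hd
      have h3 : t * (⟨g * d * g⁻¹, hconjT d hd⟩ : T) * t⁻¹ ∈ (SD : Subgroup T) := by
        rw [← ht]
        exact Subgroup.mem_map_of_mem _ (hS2 (show (⟨g * d * g⁻¹, hconjT d hd⟩ : T) ∈ (D.map _).subgroupOf T from ⟨d, hd, rfl⟩))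
      rw [hSDle] at h3
      have h4 : ((t * (⟨g * d * g⁻¹, hconjT d hd⟩ : T) * t⁻¹ : T) : G) ∈ D := h3
      simpa [mul_assoc] using h4
    have htg : (t : G) * g ∈ Subgroup.normalizer (D : Set G) := by
      have e : D.map (MulAut.conj ((t : G) * g)).toMonoidHom = D :=
        Subgroup.eq_of_le_of_card_ge (by rintro - ⟨z, hz, rfl⟩; exact hmap z hz)
          (le_of_eq (Subgroup.card_map_of_injective (MulAut.conj ((t : G) * g)).injective).symm)
      refine Subgroup.mem_normalizer_iff.2 fun z => ⟨hmap z, fun hz => ?_⟩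
      rw [← e] at hz
      obtain ⟨w, hw, hwe⟩ := hz
      have hwz : w = z := (MulAut.conj ((t : G) * g)).injective hwe
      exact hwz ▸ hw
    have := mul_mem (inv_mem (hTM t.2)) (hN htg)
    rwa [inv_mul_cancel_left] at this
  intro z
  obtain ⟨z, rfl⟩ := QuotientGroup.mk_surjective z
  obtain ⟨a, ha, b, hb, rfl⟩ := Subgroup.mem_sup_of_normal_right.1 (hsup.ge (Subgroup.mem_top z))
  obtain ⟨k, hk⟩ := R.isPGroup' ⟨a, ha⟩
  refine ⟨k, ?_⟩
  rw [QuotientGroup.mk_mul, (QuotientGroup.eq_one_iff b).2 hb, mul_one, ← QuotientGroup.mk_pow]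
  have : a ^ r ^ k = 1 := congrArg Subtype.val hk
  rw [this, QuotientGroup.mk_one]

end Cfsg.Agent.S3859
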