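import Cfsg.Statements.S3862
import Mathlib
import Cfsg.Agent.Transfer.Frobenius
import Cfsg.Agent.Coprime.Action
-- import your own Cfsg.Agent.* helpers here

set_option autoImplicit false
open Cfsg

namespace Cfsg.Agent.S3862

/-- If every 2-element of the finite group G that is conjugate to its inverse lies in the centre of G, then G has a normal 2-complement. -/
theorem result {G : Type*} [Group G] [Finite G] (h : ∀ x : G, (∃ j : ℕ, orderOf x = 2 ^ j) → IsConj x x⁻¹ → x ∈ Subgroup.center G) : Cfsg.HasNormalPComplement 2 G := by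
  open Subgroup commutatorElement in
  classical
  by_contra hno
  have h2 : Fact (Nat.Prime 2) := ⟨Nat.prime_two⟩
  obtain ⟨Q₀, hQ₀, g, hg₀, hgo, hgc₀⟩ : ∃ Q : Subgroup G, IsPGroup 2 Q ∧
      ∃ g ∈ normalizer (Q : Set G), Nat.Coprime (orderOf g) 2 ∧ g ∉ centralizer (Q : Set G) := by
    by_contra hcon
    push Not at hcon
    exact hno (Cfsg.Agent.Transfer.hasNormalPComplement_of_coprime_centralize
      fun Q hQ _ g hg hgo => hcon Q hQ g hg hgo)
  obtain ⟨Q, ⟨⟨hQ, hgN, hgc⟩, hQmin⟩⟩ := exists_minimal_of_wellFoundedLT (fun U : Subgroup G =>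
    IsPGroup 2 U ∧ g ∈ normalizer (U : Set G) ∧ g ∉ centralizer (U : Set G)) ⟨Q₀, hQ₀, hg₀, hgc₀⟩
  set A := zpowers g with hA
  have hAQ : A ≤ normalizer (Q : Set G) := zpowers_le.2 hgN
  have hcop : (Nat.card A).Coprime (Nat.card Q) := by
    obtain ⟨i, hi⟩ := hQ.exists_card_eq
    rw [hi, hA, Nat.card_zpowers]
    exact hgo.pow_right i
  -- proper invariant subgroups are centralised
  have hsmall : ∀ U : Subgroup G, U ≤ Q → g ∈ normalizer (U : Set G) → U ≠ Q →
      g ∈ centralizer (U : Set G) := by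
    intro U hUQ hUn hne
    by_contra hc
    exact hne (le_antisymm hUQ (hQmin ⟨hQ.to_le hUQ, hUn, hc⟩ hUQ))
  have hQA : ⁅Q, A⁆ = Q := by
    by_contra hne
    have hle : ⁅Q, A⁆ ≤ Q := Cfsg.Agent.Coprime.commutator_le_of_le_normalizer hAQ
    have hc := hsmall _ hle (Cfsg.Agent.Coprime.le_normalizer_commutator_right Q A (mem_zpowers g)) hne
    refine hgc (Cfsg.Agent.Coprime.le_centralizer_of_commutator_commutator_eq_bot hAQ hcop ?_ (mem_zpowers g))
    rw [commutator_eq_bot_iff_le_centralizer, le_centralizer_iff, hA, zpowers_le]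
    exact hc
  have hQne : Q ≠ ⊥ := by
    rintro rfl
    exact hgc (fun x hx => by rw [show x = 1 from hx, one_mul, mul_one])
  haveI : Nontrivial Q := (nontrivial_iff_ne_bot Q).2 hQne
  -- the Frattini subgroup
  set F := (frattini Q).map Q.subtype with hF
  have hFQ : F ≤ Q := map_subtype_le _
  have hsq : ∀ x ∈ Q, x * x ∈ F := by
    intro x hx
    refine ⟨⟨x, hx⟩ * ⟨x, hx⟩, ?_, rfl⟩
    rw [SetLike.mem_coe, frattini, Order.radical, mem_iInf]
    intro M
    rw [mem_iInf]
    intro hM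
    have hnil := hQ.isNilpotent
    have hMn : M.Normal := (normalizerCondition_of_isNilpotent (G := Q)).normal_of_coatom M hM
    haveI := hMn
    have hi : M.index = 2 := by
      obtain ⟨n, hn⟩ := hQ.index M
      have hn0 : n ≠ 0 := fun h0 => hM.1 (index_eq_one.1 (by rw [hn, h0, pow_zero]))
      have h2d : 2 ∣ Nat.card (Q ⧸ M) := by rw [← index_eq_card, hn]; exact dvd_pow_self 2 hn0
      obtain ⟨z, hz⟩ := exists_prime_orderOf_dvd_card' 2 h2d
      have htop : (zpowers z).comap (QuotientGroup.mk' M) = ⊤ := by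
        refine (hM.le_iff.1 ?_).resolve_right fun h' => ?_
        · intro m hm
          rw [mem_comap, QuotientGroup.mk'_apply, (QuotientGroup.eq_one_iff m).2 hm]
          exact one_mem _
        · induction z using QuotientGroup.induction_on with
          | _ z =>
            have hzM : z ∈ M := h' ▸ (mem_comap.2 (mem_zpowers (z : Q ⧸ M)))
            rw [(QuotientGroup.eq_one_iff z).2 hzM, orderOf_one] at hz
            omega
      have := congrArg (Subgroup.map (QuotientGroup.mk' M)) htop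
      rw [map_comap_eq_self_of_surjective (QuotientGroup.mk'_surjective M),
        map_top_of_surjective _ (QuotientGroup.mk'_surjective M)] at this
      rw [index_eq_card, ← card_top (G := Q ⧸ M), ← this, Nat.card_zpowers, hz]
    exact mul_self_mem_of_index_two hi _
  have hFne : F ≠ Q := by
    intro h'
    have h1 : frattini Q = ⊤ := by
      apply map_injective (f := Q.subtype) Subtype.val_injective
      rw [← hF, h', ← MonoidHom.range_eq_map, range_subtype]
    obtain ⟨M, hM, -⟩ := (eq_top_or_exists_le_coatom (⊥ : Subgroup Q)).resolve_left bot_ne_top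
    exact hM.1 (top_le_iff.1 (h1 ▸ frattini_le_coatom hM))
  have hgF : g ∈ normalizer (F : Set G) := by
    let e : Q ≃* Q :=
      { toFun := fun x => ⟨g * x * g⁻¹, (mem_normalizer_iff.1 hgN x).1 x.2⟩
        invFun := fun x => ⟨g⁻¹ * x * g, (mem_normalizer_iff''.1 hgN x).1 x.2⟩
        left_inv := fun x => by ext; simp [mul_assoc]
        right_inv := fun x => by ext; simp [mul_assoc]
        map_mul' := fun x y => by ext; simp [mul_assoc] }
    refine mem_normalizer_iff.2 fun x => ⟨?_, ?_⟩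
    · rintro ⟨y, hy, rfl⟩
      refine ⟨e y, ?_, rfl⟩
      have := characteristic_iff_map_eq.1 (inferInstance : (frattini Q).Characteristic) e
      rw [← this]
      exact ⟨y, hy, rfl⟩
    · rintro ⟨y, hy, hyx⟩
      refine ⟨e.symm y, ?_, ?_⟩
      · have := characteristic_iff_map_eq.1 (inferInstance : (frattini Q).Characteristic) e.symm
        rw [← this]
        exact ⟨y, hy, rfl⟩
      · show g⁻¹ * (y : G) * g = x
        rw [show (y : G) = g * x * g⁻¹ from hyx]; group
  have hgF' := hsmall F hFQ hgF hFne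
  have hQF : ∀ x ∈ Q, ∀ f ∈ F, x * f = f * x := by
    have h1 : ⁅⁅Q, A⁆, F⁆ = ⊥ := by
      apply Subgroup.commutator_commutator_eq_bot_of_rotate
      · have : ⁅A, F⁆ = ⊥ := by
          rw [commutator_eq_bot_iff_le_centralizer, hA, zpowers_le]; exact hgF'
        rw [this, commutator_bot_left]
      · have h2 : ⁅F, Q⁆ ≤ F := by
          apply Cfsg.Agent.Coprime.commutator_le_of_le_normalizer
          intro x hx
          refine mem_normalizer_iff.2 fun y => ⟨?_, ?_⟩
          · rintro ⟨z, hz, rfl⟩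
            exact ⟨⟨x, hx⟩ * z * ⟨x, hx⟩⁻¹, (inferInstance : (frattini Q).Normal).conj_mem z hz _, rfl⟩
          · rintro ⟨z, hz, hzy⟩
            refine ⟨⟨x, hx⟩⁻¹ * z * ⟨x, hx⟩⁻¹⁻¹, (inferInstance : (frattini Q).Normal).conj_mem z hz _, ?_⟩
            show x⁻¹ * (z : G) * x⁻¹⁻¹ = y
            rw [show (z : G) = x * y * x⁻¹ from hzy]; group
        rw [eq_bot_iff]
        refine (commutator_mono h2 le_rfl).trans (le_of_eq ?_)
        rw [commutator_eq_bot_iff_le_centralizer, le_centralizer_iff, hA, zpowers_le]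
        exact hgF'
    rw [hQA, commutator_eq_bot_iff_le_centralizer] at h1
    intro x hx f hf
    exact (h1 hx f hf).symm
  have hcom : ∀ x ∈ Q, ∀ y ∈ Q, ⁅x, y⁆ ∈ F := by
    intro x hx y hy
    have e : ⁅x, y⁆ = (x * y) * (x * y) * ((y⁻¹ * x⁻¹ * y) * (y⁻¹ * x⁻¹ * y)) * (y⁻¹ * y⁻¹) := by
      rw [commutatorElement_def]; group
    rw [e]
    exact mul_mem (mul_mem (hsq _ (mul_mem hx hy))
      (hsq _ (mul_mem (mul_mem (inv_mem hy) (inv_mem hx)) hy))) (hsq _ (inv_mem hy))
  -- take an element moved by `g`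
  obtain ⟨x, hx, hxg⟩ : ∃ x ∈ Q, x * g ≠ g * x := by
    by_contra h'
    push Not at h'
    exact hgc (fun x hx => h' x hx)
  have hmul : ∀ y₁ ∈ Q, ∀ y₂ ∈ Q, ⁅x, y₁ * y₂⁆ = ⁅x, y₁⁆ * ⁅x, y₂⁆ := by
    intro y₁ h1 y₂ h2
    have hc := hQF y₁ h1 _ (hcom x hx y₂ h2)
    rw [show ⁅x, y₁ * y₂⁆ = ⁅x, y₁⁆ * (y₁ * ⁅x, y₂⁆ * y₁⁻¹) by
      simp only [commutatorElement_def]; group, hc, mul_inv_cancel_right]
  let φ : Q →* G := MonoidHom.mk' (fun y => ⁅x, (y : G)⁆) (fun a b => hmul a a.2 b b.2)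
  have hKF : φ.range ≤ F := by rintro _ ⟨y, rfl⟩; exact hcom x hx y y.2
  -- commutators lie in the range of `φ`
  have hK : ∀ y ∈ Q, ∀ z ∈ Q, ⁅y, z⁆ ∈ φ.range := by
    let D : Subgroup G :=
      { carrier := {y | y ∈ Q ∧ ∀ z ∈ Q, ⁅y, z⁆ ∈ φ.range}
        one_mem' := ⟨one_mem _, fun z _ => by rw [commutatorElement_one_left]; exact one_mem _⟩
        mul_mem' := fun {a b} ha hb => ⟨mul_mem ha.1 hb.1, fun z hz => by
          have hc := hQF a ha.1 _ (hcom b hb.1 z hz)
          rw [show ⁅a * b, z⁆ = (a * ⁅b, z⁆ * a⁻¹) * ⁅a, z⁆ by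
            simp only [commutatorElement_def]; group, hc, mul_inv_cancel_right]
          exact mul_mem (hb.2 z hz) (ha.2 z hz)⟩
        inv_mem' := fun {a} ha => ⟨inv_mem ha.1, fun z hz => by
          have hc := hQF a⁻¹ (inv_mem ha.1) _ (inv_mem (hcom a ha.1 z hz))
          rw [show ⁅a⁻¹, z⁆ = a⁻¹ * ⁅a, z⁆⁻¹ * a⁻¹⁻¹ by
            simp only [commutatorElement_def]; group, hc, mul_inv_cancel_right]
          exact inv_mem (ha.2 z hz)⟩ }
    have hxD : x ∈ D := ⟨hx, fun z hz => ⟨⟨z, hz⟩, rfl⟩⟩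
    have hDQ : D = Q := by
      by_contra hne
      have hgD : g ∈ normalizer (D : Set G) := by
        refine mem_normalizer_fintype fun y hy => ⟨(mem_normalizer_iff.1 hgN y).1 hy.1, fun z hz => ?_⟩
        have h1 := hy.2 (g⁻¹ * z * g) ((mem_normalizer_iff''.1 hgN z).1 hz)
        have h2 : g * ⁅y, g⁻¹ * z * g⁆ * g⁻¹ = ⁅y, g⁻¹ * z * g⁆ := by
          rw [← hgF' _ (hKF h1), mul_inv_cancel_right]
        rw [show ⁅g * y * g⁻¹, z⁆ = g * ⁅y, g⁻¹ * z * g⁆ * g⁻¹ by
          simp only [commutatorElement_def]; group, h2]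
        exact h1
      exact hxg (hsmall D (fun y hy => hy.1) hgD hne x hxD)
    intro y hy
    exact ((hDQ.symm ▸ hy : y ∈ D)).2
  -- squares lie in the range of `φ`
  have hsqK : x * x ∈ φ.range := by
    let T : Subgroup G :=
      { carrier := {y | y ∈ Q ∧ y * y ∈ φ.range}
        one_mem' := ⟨one_mem _, by rw [one_mul]; exact one_mem _⟩
        mul_mem' := fun {a b} ha hb => ⟨mul_mem ha.1 hb.1, by
          have h1 := hK b hb.1 a ha.1
          have hc := hQF a ha.1 _ (hKF h1)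
          rw [show a * b * (a * b) = (a * ⁅b, a⁆) * a * (b * b) by
            simp only [commutatorElement_def]; group, hc, mul_assoc ⁅b, a⁆ a a]
          exact mul_mem (mul_mem h1 ha.2) hb.2⟩
        inv_mem' := fun {a} ha => ⟨inv_mem ha.1, by
          rw [show a⁻¹ * a⁻¹ = (a * a)⁻¹ by group]; exact inv_mem ha.2⟩ }
    have hQT : Q ≤ T := by
      refine hQA.symm.le.trans (commutator_le.2 fun y hy a ha => ?_)
      have hay : a * y⁻¹ * a⁻¹ ∈ Q := (mem_normalizer_iff.1 (hAQ ha) _).1 (inv_mem hy)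
      have hmem : ⁅y, a⁆ ∈ Q := by
        rw [show ⁅y, a⁆ = y * (a * y⁻¹ * a⁻¹) by rw [commutatorElement_def]; group]
        exact mul_mem hy hay
      refine ⟨hmem, ?_⟩
      have hcf : ∀ f ∈ F, a * f * a⁻¹ = f := by
        intro f hf
        have h1 : a ∈ centralizer (F : Set G) := (zpowers_le.2 hgF') ha
        rw [← h1 f hf, mul_inv_cancel_right]
      set b := a * y⁻¹ * a⁻¹ with hb
      have hbb : b * b = y⁻¹ * y⁻¹ := by
        rw [hb, show a * y⁻¹ * a⁻¹ * (a * y⁻¹ * a⁻¹) = a * (y⁻¹ * y⁻¹) * a⁻¹ by group]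
        exact hcf _ (hsq _ (inv_mem hy))
      have h1 := hK b hay y hy
      rw [show ⁅y, a⁆ = y * b by rw [commutatorElement_def, hb]; group]
      have hc := hQF y hy _ (hKF h1)
      rw [show y * b * (y * b) = (y * ⁅b, y⁆) * y * (b * b) by
        simp only [commutatorElement_def]; group, hbb, hc,
        show ⁅b, y⁆ * y * y * (y⁻¹ * y⁻¹) = ⁅b, y⁆ by group]
      exact h1
    exact (hQT hx).2
  obtain ⟨y, hy⟩ := hsqK
  have hreal : IsConj x x⁻¹ := by
    refine (isConj_iff.2 ⟨(y : G), ?_⟩).symm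
    have hy' : x * (y : G) * x⁻¹ * (y : G)⁻¹ = x * x := by rw [← commutatorElement_def]; exact hy
    simp only [mul_assoc] at hy' ⊢
    exact mul_left_cancel hy'
  obtain ⟨j, hj⟩ := hQ ⟨x, hx⟩
  obtain ⟨i, -, hi⟩ := (Nat.dvd_prime_pow Nat.prime_two).1 (orderOf_dvd_of_pow_eq_one (congrArg Subtype.val hj : x ^ 2 ^ j = 1))
  exact hxg (Subgroup.mem_center_iff.1 (h x ⟨i, hi⟩ hreal) g).symm

end Cfsg.Agent.S3862
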