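import Cfsg.Statements.S3863
import Mathlib
import Cfsg.Agent.H73.ClassCount
-- import your own Cfsg.Agent.* helpers here

set_option autoImplicit false
open Cfsg

namespace Cfsg.Agent.S3863

/-- Let x be an element of the finite group G that is conjugate to its inverse. Then some 2-element conjugates x to its inverse; if the conjugacy class of x has odd size then x ^ 2 = 1; and x lies in, and is conjugate to its inverse inside, every normal subgroup of odd index. -/
theorem result {G : Type*} [Group G] [Finite G] (x : G) (hx : IsConj x x⁻¹) : (∃ t : G, (∃ j : ℕ, orderOf t = 2 ^ j) ∧ t * x * t⁻¹ = x⁻¹) ∧ (Odd (Subgroup.centralizer ({x} : Set G)).index → x ^ 2 = 1) ∧ ∀ (N : Subgroup G) [N.Normal], Odd N.index → ∃ hxN : x ∈ N, IsConj (⟨x, hxN⟩ : N) (⟨x, hxN⟩ : N)⁻¹ := by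
  obtain ⟨g, hg⟩ := isConj_iff.1 hx
  set a := (orderOf g).factorization 2 with ha
  set m := orderOf g / 2 ^ a with hm
  have hnm : 2 ^ a * m = orderOf g := Nat.mul_div_cancel' (Nat.ordProj_dvd _ _)
  have hmodd : Odd m := by
    rw [← Nat.not_even_iff_odd, even_iff_two_dvd]
    exact Nat.not_dvd_ordCompl Nat.prime_two (orderOf_pos g).ne'
  have hiter : ∀ i : ℕ, g ^ i * x * (g ^ i)⁻¹ = if Even i then x else x⁻¹ := by
    intro i
    induction i with
    | zero => simp
    | succ i ih =>
      have e : g ^ (i + 1) * x * (g ^ (i + 1))⁻¹ = g * (g ^ i * x * (g ^ i)⁻¹) * g⁻¹ := by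
        rw [pow_succ']; group
      rw [e, ih]
      by_cases hi : Even i
      · simp [hi, Nat.even_add_one, hg]
      · simp only [hi, if_false, Nat.even_add_one, not_false_eq_true, if_true]
        rw [← conj_inv, hg, inv_inv]
  set t := g ^ m with ht
  have htinv : t * x * t⁻¹ = x⁻¹ := by
    rw [ht, hiter, if_neg (Nat.not_even_iff_odd.2 hmodd)]
  have htord : ∃ j : ℕ, orderOf t = 2 ^ j := by
    have h1 : orderOf t ∣ 2 ^ a := orderOf_dvd_of_pow_eq_one (by
      rw [ht, ← pow_mul, Nat.mul_comm, hnm, pow_orderOf_eq_one])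
    obtain ⟨k, -, hk⟩ := (Nat.dvd_prime_pow Nat.prime_two).1 h1
    exact ⟨k, hk⟩
  refine ⟨⟨t, htord, htinv⟩, fun hodd => ?_, ?_⟩
  · by_contra hx2
    set C := Subgroup.centralizer ({x} : Set G) with hC
    have hCn : ∀ u : G, u * x * u⁻¹ = x⁻¹ → ∀ c ∈ C, u * c * u⁻¹ ∈ C := by
      intro u hu c hc
      rw [hC, Subgroup.mem_centralizer_singleton_iff] at hc ⊢
      have hx' : u * x⁻¹ * u⁻¹ = x := by rw [← conj_inv, hu, inv_inv]
      have hc' : c * x⁻¹ = x⁻¹ * c := (Commute.inv_right hc).eq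
      calc u * c * u⁻¹ * x = u * c * u⁻¹ * (u * x⁻¹ * u⁻¹) := by rw [hx']
        _ = u * (c * x⁻¹) * u⁻¹ := by group
        _ = u * (x⁻¹ * c) * u⁻¹ := by rw [hc']
        _ = (u * x⁻¹ * u⁻¹) * (u * c * u⁻¹) := by group
        _ = _ := by rw [hx']
    have htN : t ∈ Subgroup.normalizer (C : Set G) := by
      refine Subgroup.mem_normalizer_iff.2 fun c => ⟨hCn t htinv c, fun hc => ?_⟩
      have h' : t⁻¹ * x * t⁻¹⁻¹ = x⁻¹ := by
        have h0 := congrArg (fun z => (t⁻¹ * z * t)⁻¹) htinv
        simp [mul_assoc] at h0 ⊢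
        exact h0.symm
      have := hCn t⁻¹ h' _ hc
      simpa [mul_assoc] using this
    let T : ↥(Subgroup.normalizer (C : Set G)) ⧸ C.subgroupOf (Subgroup.normalizer (C : Set G)) :=
      QuotientGroup.mk ⟨t, htN⟩
    have hT1 : T ≠ 1 := by
      intro h
      rw [QuotientGroup.eq_one_iff, Subgroup.mem_subgroupOf, Subgroup.mem_centralizer_singleton_iff] at h
      have h1 : t * x * t⁻¹ = x := mul_inv_eq_iff_eq_mul.2 h
      rw [htinv] at h1
      apply hx2
      rw [pow_two]
      nth_rewrite 1 [← h1]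
      exact inv_mul_cancel x
    obtain ⟨j, hj⟩ := htord
    have h2 : orderOf T ∣ 2 ^ j := by
      refine dvd_trans (orderOf_map_dvd (QuotientGroup.mk' _) _) ?_
      rw [Subgroup.orderOf_mk, hj]
    obtain ⟨k, -, hk⟩ := (Nat.dvd_prime_pow Nat.prime_two).1 h2
    have hk0 : k ≠ 0 := by rintro rfl; exact hT1 (orderOf_eq_one_iff.1 (by simpa using hk))
    have h3 : 2 ∣ C.relIndex (Subgroup.normalizer (C : Set G)) := by
      refine dvd_trans ?_ (_root_.orderOf_dvd_natCard T)
      rw [hk]; exact dvd_pow_self 2 hk0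
    exact (Nat.not_even_iff_odd.2 hodd) (even_iff_two_dvd.2
      (h3.trans (Dvd.intro _ (Subgroup.relIndex_mul_index Subgroup.le_normalizer))))
  · intro N _ hN
    obtain ⟨j, hj⟩ := htord
    have hodd' : ∀ y : G ⧸ N, Odd (orderOf y) := fun y =>
      hN.of_dvd_nat (_root_.orderOf_dvd_natCard y)
    have htN : t ∈ N := by
      rw [← QuotientGroup.eq_one_iff, ← orderOf_eq_one_iff]
      have h1 : orderOf (QuotientGroup.mk t : G ⧸ N) ∣ 2 ^ j := hj ▸ orderOf_map_dvd (QuotientGroup.mk' N) t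
      obtain ⟨k, -, hk⟩ := (Nat.dvd_prime_pow Nat.prime_two).1 h1
      rcases Nat.eq_zero_or_pos k with rfl | hk0
      · simpa using hk
      · exfalso
        have := hodd' (QuotientGroup.mk t)
        rw [hk] at this
        exact (Nat.not_even_iff_odd.2 this) (even_iff_two_dvd.2 (dvd_pow_self 2 hk0.ne'))
    have hxN : x ∈ N := by
      rw [← QuotientGroup.eq_one_iff, ← orderOf_eq_one_iff]
      have h1 : ((QuotientGroup.mk x : G ⧸ N)) ^ 2 = 1 := by
        have h0 := congrArg (QuotientGroup.mk' N) htinv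
        simp only [map_mul, map_inv, QuotientGroup.mk'_apply, (QuotientGroup.eq_one_iff t).2 htN,
          one_mul, inv_one, mul_one] at h0
        rw [pow_two]
        nth_rewrite 1 [h0]
        exact inv_mul_cancel _
      rcases (Nat.dvd_prime Nat.prime_two).1 (orderOf_dvd_of_pow_eq_one h1) with h | h
      · exact h
      · exfalso
        have := hodd' (QuotientGroup.mk x)
        rw [h] at this
        exact absurd this (by decide)
    exact ⟨hxN, isConj_iff.2 ⟨⟨t, htN⟩, Subtype.ext htinv⟩⟩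

end Cfsg.Agent.S3863
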