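import Cfsg.Statements.S3864
import Mathlib
import Cfsg.Agent.TwoFusion.DihedralFusion
-- import your own Cfsg.Agent.* helpers here

set_option autoImplicit false
open Cfsg

set_option linter.style.haveILetI false

namespace Cfsg.Agent.S3864

open Cfsg.Agent.TwoFusion Cfsg.Agent.TwoFusion.MC Cfsg.Agent.TwoGroups

variable {G : Type*} [Group G] [Finite G] {S : Sylow 2 G} {n : ℕ} {a b : (S : Subgroup G)}

/-- The class of an involution of `G`. -/
theorem classes (h : DData n a b) (x : G) (hx : orderOf x = 2) :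
    IsConj (zG n a) x ∨ IsConj (b : G) x ∨ IsConj ((a ^ (1 : ℤ) * b : (S : Subgroup G)) : G) x := by
  obtain ⟨u, hu, hux⟩ := exists_conj_mem S (t := x) (j := 1) (by simpa using hx)
  have hu2 : u * u = 1 := by
    rw [← pow_two, ← orderOf_dvd_iff_pow_eq_one, hu]; rfl
  have hu1 : u ≠ 1 := fun e => by rw [e, orderOf_one] at hu; norm_num at hu
  rcases Dih.involution_cases h hu2 hu1 with e | hA
  · exact Or.inl (e ▸ hux)
  obtain ⟨i, rfl⟩ := h.exists_eq_of_notMem hA
  by_cases h2 : 2 ∣ i
  · refine Or.inr (Or.inl (IsConj.trans ?_ hux))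
    have h3 := h.isConj_zpow_mul_of_dvd 0 i (by omega)
    rw [zpow_zero, one_mul] at h3
    exact ((S : Subgroup G).subtype).map_isConj h3
  · refine Or.inr (Or.inr (IsConj.trans ?_ hux))
    exact ((S : Subgroup G).subtype).map_isConj (h.isConj_zpow_mul_of_dvd 1 i (by omega))

theorem orderOf_outer (h : DData n a b) {t : (S : Subgroup G)} (ht : t ∉ Subgroup.zpowers a) :
    orderOf (t : G) = 2 := by
  rw [Subgroup.orderOf_coe]
  exact orderOf_eq_prime (by rw [pow_two]; exact Dih.sq_out h ht) fun e => ht (e ▸ one_mem _)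

/-- An involution not conjugate to the central one has a four-group as Sylow centraliser. -/
theorem card_le_four (h : DData n a b) {v : G} (hv : orderOf v = 2) (hnz : ¬ IsConj (zG n a) v)
    {P : Subgroup G} (hP : IsPGroup 2 P) (hPv : P ≤ Subgroup.centralizer ({v} : Set G)) : Nat.card P ≤ 4 := by
  haveI : Fact (Nat.Prime 2) := ⟨Nat.prime_two⟩
  have hV : IsPGroup 2 (Subgroup.zpowers v) :=
    IsPGroup.of_card (n := 1) (by rw [Nat.card_zpowers, hv, pow_one])
  have hsup : IsPGroup 2 (Subgroup.zpowers v ⊔ P : Subgroup G) := by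
    refine hV.to_sup_of_normal_left' hP fun x hx => Subgroup.centralizer_le_normalizer _ ?_
    intro y hy
    obtain ⟨i, rfl⟩ := Subgroup.mem_zpowers_iff.1 hy
    exact (Commute.zpow_left (Subgroup.mem_centralizer_singleton_iff.1 (hPv hx)).symm i).eq
  obtain ⟨g, hg⟩ := exists_conj_le_sylow S hsup
  set u : (S : Subgroup G) := ⟨g * v * g⁻¹, hg v (Subgroup.mem_sup_left (Subgroup.mem_zpowers v))⟩
  have huv : IsConj v (g * v * g⁻¹) := isConj_iff.2 ⟨g, rfl⟩
  have huo : orderOf (g * v * g⁻¹) = 2 := by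
    rw [show g * v * g⁻¹ = MulAut.conj g v from rfl, MulEquiv.orderOf_eq, hv]
  have hu2 : u * u = 1 := Subtype.ext (by
    show g * v * g⁻¹ * (g * v * g⁻¹) = 1
    rw [← pow_two, ← orderOf_dvd_iff_pow_eq_one, huo])
  have hu1 : u ≠ 1 := fun e => by
    rw [show g * v * g⁻¹ = 1 from congrArg Subtype.val e, orderOf_one] at huo
    omega
  have hA : u ∉ Subgroup.zpowers a := fun hA => hnz (by
    have := congrArg Subtype.val ((eq_invol h.toMaxClassData hA hu2).resolve_left hu1)
    exact (show g * v * g⁻¹ = zG n a from this) ▸ huv.symm)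
  rw [← h.card_centralizer hA, ← Subgroup.card_map_of_injective (K := P) (f := (MulAut.conj g).toMonoidHom) (MulAut.conj g).injective]
  refine le_of_le_of_eq ?_ (Subgroup.card_map_of_injective (K := Subgroup.centralizer ({u} : Set (S : Subgroup G)))
    (S : Subgroup G).subtype_injective)
  refine Subgroup.card_le_of_le ?_
  rintro _ ⟨x, hx, rfl⟩
  refine ⟨⟨g * x * g⁻¹, hg x (Subgroup.mem_sup_right hx)⟩, ?_, rfl⟩
  rw [SetLike.mem_coe, Subgroup.mem_centralizer_singleton_iff]
  apply Subtype.ext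
  have hc := Subgroup.mem_centralizer_singleton_iff.1 (hPv hx)
  show g * x * g⁻¹ * (g * v * g⁻¹) = g * v * g⁻¹ * (g * x * g⁻¹)
  calc g * x * g⁻¹ * (g * v * g⁻¹) = g * (x * v) * g⁻¹ := by group
    _ = g * (v * x) * g⁻¹ := by rw [hc]
    _ = g * v * g⁻¹ * (g * x * g⁻¹) := by group

/-- The two outer classes are distinct unless one of them meets the central one. -/
theorem not_conj_outer (h : DData n a b) (hb : ¬ IsConj (zG n a) (b : G)) :
    ¬ IsConj (b : G) ((a ^ (1 : ℤ) * b : (S : Subgroup G)) : G) := by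
  haveI : Fact (Nat.Prime 2) := ⟨Nat.prime_two⟩
  intro hc
  have hA1 : a ^ (1 : ℤ) * b ∉ Subgroup.zpowers a := h.zpow_mul_notMem 1
  obtain ⟨X, hXS, hX, hbX, -, -⟩ := exists_fourG h.toMaxClassData h.notMem h.b_sq
  obtain ⟨Y, hYS, hY, hvY, -, -⟩ := exists_fourG h.toMaxClassData hA1 (Dih.sq_out h hA1)
  set v : G := ((a ^ (1 : ℤ) * b : (S : Subgroup G)) : G)
  obtain ⟨g, hg⟩ := isConj_iff.1 hc
  have hv2 : orderOf v = 2 := orderOf_outer h hA1
  have hvz : ¬ IsConj (zG n a) v := fun h' => hb (h'.trans hc.symm)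
  set C := Subgroup.centralizer ({v} : Set G) with hC
  have hsyl : ∀ U : Subgroup G, IsFour U → v ∈ U →
      ∃ T : Sylow 2 C, (T : Subgroup C).map C.subtype = U := by
    intro U hU hvU
    have hUC : U ≤ C := fun x hx => Subgroup.mem_centralizer_singleton_iff.2 (hU.comm hx hvU)
    have hUp : IsPGroup 2 U := IsPGroup.of_card (n := 2) (by rw [hU.1]; rfl)
    obtain ⟨T, hT⟩ := (hUp.comap_subtype : IsPGroup 2 (U.subgroupOf C)).exists_le_sylow
    have hle : U ≤ (T : Subgroup C).map C.subtype := fun x hx => ⟨⟨x, hUC hx⟩, hT hx, rfl⟩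
    refine ⟨T, (Subgroup.eq_of_le_of_card_ge hle ?_).symm⟩
    rw [hU.1]
    exact card_le_four h hv2 hvz (T.2.map _) (Subgroup.map_subtype_le _)
  obtain ⟨T₁, hT₁⟩ := hsyl (X.map (MulAut.conj g).toMonoidHom) (hX.map _ (MulAut.conj g).injective)
    ⟨_, hbX, hg⟩
  obtain ⟨T₂, hT₂⟩ := hsyl Y hY hvY
  obtain ⟨c, hc'⟩ := MulAction.exists_smul_eq C T₁ T₂
  refine Dih.four_not_conj h hX hXS hY hYS hbX hvY ⟨(c : G) * g, ?_⟩
  rw [← map_conj_map_conj, ← hT₂, ← hc', ← hT₁, Sylow.coe_subgroup_smul]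
  show _ = (((T₁ : Subgroup C).map (MulAut.conj c).toMonoidHom)).map C.subtype
  rw [Subgroup.map_map, Subgroup.map_map]
  rfl

theorem no_index_four (h : DData n a b) (e : b ∈ Subgroup.zpowers a → False)
    (hz : IsConj (zG n a) (b : G) ∨ IsConj (zG n a) ((a ^ (1 : ℤ) * b : (S : Subgroup G)) : G))
    (N : Subgroup G) (hN : N.Normal) : N.index ≠ 4 := by
  haveI : Fact (Nat.Prime 2) := ⟨Nat.prime_two⟩
  intro hi
  haveI := hN
  let f : (S : Subgroup G) →* G ⧸ N := (QuotientGroup.mk' N).comp (S : Subgroup G).subtype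
  have hcard : Nat.card (G ⧸ N) = 4 := by rw [← N.index_eq_card, hi]
  have hrange : f.range = ⊤ := by
    apply Subgroup.eq_top_of_card_eq
    refine Nat.dvd_antisymm (Subgroup.card_subgroup_dvd_card _) ?_
    obtain ⟨T, hT⟩ : ∃ T : Sylow 2 (G ⧸ N), (T : Subgroup (G ⧸ N)) = f.range :=
      ⟨S.mapSurjective (QuotientGroup.mk'_surjective N), by
        show (S : Subgroup G).map _ = f.range
        rw [MonoidHom.range_comp, Subgroup.range_subtype]⟩
    rw [← hT, T.card_eq_multiplicity, hcard]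
    rw [show (4 : ℕ) = 2 ^ 2 from rfl, Nat.factorization_pow, Finsupp.smul_apply,
      Nat.prime_two.factorization_self, smul_eq_mul, mul_one]
  haveI : Fintype (G ⧸ N) := Fintype.ofFinite _
  have hcomm : ∀ p q : G ⧸ N, p * q = q * p := by
    haveI := IsPGroup.isMulCommutative_of_card_eq_prime_sq (p := 2) (G := G ⧸ N) hcard
    exact fun p q => mul_comm' p q
  -- the image of `a` squares to `1`
  have hba : f a * f a = 1 := by
    have h1 := congrArg f h.conj
    rw [map_mul, map_mul, map_inv, map_zpow, zpow_neg_one, hcomm (f b), mul_inv_cancel_right] at h1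
    nth_rewrite 2 [h1]
    rw [mul_inv_cancel]
  have hz0 : f (a ^ (2 ^ (n - 1))) = 1 := by
    rw [map_pow]
    obtain ⟨k, hk⟩ := dvd_pow_self 2 (show n - 1 ≠ 0 by have := h.two_le; omega)
    rw [hk, pow_mul, pow_two, hba, one_pow]
  have hzN : zG n a ∈ N := (QuotientGroup.eq_one_iff _).1 hz0
  have hor : f b = 1 ∨ f (a ^ (1 : ℤ) * b) = 1 := by
    rcases hz with hz | hz <;> obtain ⟨g, hg⟩ := isConj_iff.1 hz
    · refine Or.inl ((QuotientGroup.eq_one_iff _).2 ?_)
      show (b : G) ∈ N
      rw [← hg]; exact hN.conj_mem _ hzN g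
    · refine Or.inr ((QuotientGroup.eq_one_iff _).2 ?_)
      show ((a ^ (1 : ℤ) * b : (S : Subgroup G)) : G) ∈ N
      rw [← hg]; exact hN.conj_mem _ hzN g
  have himg : f.range ≤ Subgroup.zpowers (f a) := by
    rintro _ ⟨x, rfl⟩
    have hfb : f b ∈ Subgroup.zpowers (f a) := by
      rcases hor with h1 | h1
      · rw [h1]; exact one_mem _
      · rw [map_mul, map_zpow, zpow_one] at h1
        rw [eq_inv_of_mul_eq_one_right h1]
        exact inv_mem (Subgroup.mem_zpowers _)
    rcases h.exists_eq x with ⟨i, rfl⟩ | ⟨i, rfl⟩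
    · rw [map_zpow]; exact Subgroup.zpow_mem_zpowers _ i
    · rw [map_mul, map_zpow]; exact mul_mem (Subgroup.zpow_mem_zpowers _ i) hfb
  have h2 := Subgroup.card_le_of_le himg
  rw [hrange, Subgroup.card_top, hcard, Nat.card_zpowers] at h2
  have h3 := Nat.le_of_dvd two_pos (orderOf_dvd_of_pow_eq_one (show f a ^ 2 = 1 by rw [pow_two, hba]))
  omega

theorem ncard_eq {α : Type*} (P : α → Prop) (s : Finset α) (h : ∀ x, P x ↔ x ∈ s) :
    Nat.card {x : α // P x} = s.card := by
  rw [Nat.card_congr (Equiv.subtypeEquivRight h), Nat.card_eq_fintype_card, Fintype.card_coe]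

theorem main (h : DData n a b) {m : ℕ} (e : (S : Subgroup G) ≃* DihedralGroup m) :
    (Nat.card {C : ConjClasses G // ∃ g : G, ConjClasses.mk g = C ∧ orderOf g = 2} = 1 ∧ ∀ N : Subgroup G, N.Normal → N.index ≠ 2) ∨ (Nat.card {C : ConjClasses G // ∃ g : G, ConjClasses.mk g = C ∧ orderOf g = 2} = 2 ∧ (∃ N : Subgroup G, N.Normal ∧ N.index = 2) ∧ ∀ N : Subgroup G, N.Normal → N.index ≠ 4) ∨ (Nat.card {C : ConjClasses G // ∃ g : G, ConjClasses.mk g = C ∧ orderOf g = 2} = 3 ∧ Cfsg.HasNormalPComplement 2 G) := by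
  classical
  set z := zG n a
  set v : G := ((a ^ (1 : ℤ) * b : (S : Subgroup G)) : G)
  have oz : orderOf z = 2 := orderOf_zG h.toMaxClassData
  have ob : orderOf (b : G) = 2 := orderOf_outer h h.notMem
  have ov : orderOf v = 2 := orderOf_outer h (h.zpow_mul_notMem 1)
  have hset : ∀ C : ConjClasses G, (∃ g : G, ConjClasses.mk g = C ∧ orderOf g = 2) ↔
      C ∈ ({ConjClasses.mk z, ConjClasses.mk (b : G), ConjClasses.mk v} : Finset (ConjClasses G)) := by
    intro C
    constructor
    · rintro ⟨x, rfl, hx⟩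
      simp only [Finset.mem_insert, Finset.mem_singleton, ConjClasses.mk_eq_mk_iff_isConj]
      rcases classes h x hx with h1 | h1 | h1
      · exact Or.inl h1.symm
      · exact Or.inr (Or.inl h1.symm)
      · exact Or.inr (Or.inr h1.symm)
    · intro hC
      simp only [Finset.mem_insert, Finset.mem_singleton] at hC
      rcases hC with rfl | rfl | rfl
      exacts [⟨z, rfl, oz⟩, ⟨_, rfl, ob⟩, ⟨v, rfl, ov⟩]
  rw [ncard_eq _ _ hset]
  have hne : ∀ {x y : G}, ¬ IsConj x y → ConjClasses.mk x ≠ ConjClasses.mk y :=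
    fun hxy e => hxy (ConjClasses.mk_eq_mk_iff_isConj.1 e)
  have heq : ∀ {x y : G}, IsConj x y → ConjClasses.mk x = ConjClasses.mk y :=
    fun hxy => ConjClasses.mk_eq_mk_iff_isConj.2 hxy
  by_cases hall : IsConj z (b : G) ∧ IsConj z v
  · left
    have hA : ∀ x y : G, orderOf x = 2 → orderOf y = 2 → IsConj x y := by
      have key : ∀ x : G, orderOf x = 2 → IsConj z x := fun x hx => by
        rcases classes h x hx with h1 | h1 | h1
        exacts [h1, hall.1.trans h1, hall.2.trans h1]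
      exact fun x y hx hy => (key x hx).symm.trans (key y hy)
    obtain ⟨X, hXS, hX, -⟩ := exists_fourG h.toMaxClassData h.notMem h.b_sq
    refine ⟨?_, fun N _ hN => not_index_two_of_all_conj e hA hX hN⟩
    rw [← heq hall.1, ← heq hall.2]
    simp
  right
  by_cases hsome : IsConj z (b : G) ∨ IsConj z v
  · left
    refine ⟨?_, ?_, fun N hN => no_index_four h h.notMem hsome N hN⟩
    · rcases hsome with h1 | h1
      · rw [← heq h1]
        have h2 : ¬ IsConj z v := fun h2 => hall ⟨h1, h2⟩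
        simp [hne h2]
      · rw [← heq h1]
        have h2 : ¬ IsConj z (b : G) := fun h2 => hall ⟨h2, h1⟩
        simp [hne h2, (hne h2).symm]
    · by_contra hno
      push Not at hno
      have hA := Dih.all_conj_of_no_index_two h fun H hH =>
        hno H (Subgroup.normal_of_index_eq_two hH) hH
      exact hall ⟨hA _ _ oz ob, hA _ _ oz ov⟩
  right
  push Not at hsome
  refine ⟨?_, ?_⟩
  · exact Finset.card_eq_three.2 ⟨_, _, _, hne hsome.1, hne hsome.2, hne (not_conj_outer h hsome.1), rfl⟩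
  · refine hasNormalTwoComplement_of_odd_centralizes S fun X hXS c hc hodd =>
      odd_centralizes h.toMaxClassData hXS (fun hX => ?_) (fun hX => (Dih.not_q8 h hX hXS).elim) hc hodd
    refine (four_r h.toMaxClassData hX hXS).resolve_right fun e6 => ?_
    obtain ⟨-, ⟨t, htX, htA⟩, -, -⟩ := four_le h.toMaxClassData hX hXS
    have ht1 : (t : G) ≠ 1 := fun e1 => htA (by rw [show t = 1 from Subtype.ext e1]; exact one_mem _)
    have hzt := four_fused_of_six h.toMaxClassData hX hXS e6 htX ht1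
    obtain ⟨i, rfl⟩ := h.exists_eq_of_notMem htA
    by_cases h2 : 2 ∣ i
    · refine hsome.1 (hzt.trans ?_)
      have h3 := h.isConj_zpow_mul_of_dvd i 0 (by omega)
      rw [zpow_zero, one_mul] at h3
      exact ((S : Subgroup G).subtype).map_isConj h3
    · exact hsome.2 (hzt.trans (((S : Subgroup G).subtype).map_isConj (h.isConj_zpow_mul_of_dvd i 1 (by omega))))


/-- Let G be a finite group whose Sylow 2-subgroups are dihedral of order 2 ^ n with n ≥ 3, and count the conjugacy classes of involutions of G. Then exactly one of the following holds: there is one class of involutions and no normal subgroup of index 2; there are two classes of involutions, a normal subgroup of index 2 and none of index 4; there are three classes of involutions and G has a normal 2-complement. -/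
theorem result {G : Type*} [Group G] [Finite G] (P : Sylow 2 G) (n : ℕ) (hn : 3 ≤ n) (hdih : Nonempty (↥(P : Subgroup G) ≃* DihedralGroup (2 ^ (n - 1)))) : (Nat.card {C : ConjClasses G // ∃ g : G, ConjClasses.mk g = C ∧ orderOf g = 2} = 1 ∧ ∀ N : Subgroup G, N.Normal → N.index ≠ 2) ∨ (Nat.card {C : ConjClasses G // ∃ g : G, ConjClasses.mk g = C ∧ orderOf g = 2} = 2 ∧ (∃ N : Subgroup G, N.Normal ∧ N.index = 2) ∧ ∀ N : Subgroup G, N.Normal → N.index ≠ 4) ∨ (Nat.card {C : ConjClasses G // ∃ g : G, ConjClasses.mk g = C ∧ orderOf g = 2} = 3 ∧ Cfsg.HasNormalPComplement 2 G) := by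
  obtain ⟨e⟩ := hdih
  obtain ⟨a, b, h⟩ := Cfsg.Agent.TwoFusion.DData.of_dihedral (n := n - 1) (by omega) e
  exact main h e

end Cfsg.Agent.S3864
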