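import Cfsg.Statements.S3865
import Cfsg.Agent.MaxClassP.Fusion
import Cfsg.Agent.S0662
-- import your own Cfsg.Agent.* helpers here

set_option autoImplicit false
open Cfsg

namespace Cfsg.Agent.S3865

open Subgroup
open scoped commutatorElement Pointwise

variable {G : Type*} [Group G] [Finite G] {p : ℕ} [hp : Fact p.Prime]

theorem eq_bot_of_coprime (hcore : Cfsg.pPrimeCore p G = ⊥) {N : Subgroup G} (hN : N.Normal)
    (h : ¬ p ∣ Nat.card N) : N = ⊥ :=
  le_bot_iff.1 (hcore ▸ le_sSup ⟨hN, ((hp.out.coprime_iff_not_dvd).2 h).symm⟩)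

theorem eq_top_of_sylow_le (hres : ∀ N : Subgroup G, N.Normal → (N.index).Coprime p → N = ⊤)
    (P : Sylow p G) {N : Subgroup G} (hN : N.Normal) (h : (P : Subgroup G) ≤ N) : N = ⊤ :=
  hres N hN ((hp.out.coprime_iff_not_dvd).2 fun hd =>
    P.not_dvd_index (hd.trans (index_dvd_of_le h))).symm

theorem exists_conj_mem (P : Sylow p G) {Q : Subgroup G} (hQ : IsPGroup p Q) :
    ∃ g : G, ∀ a ∈ Q, g⁻¹ * a * g ∈ (P : Subgroup G) := by
  obtain ⟨S, hS⟩ := hQ.exists_le_sylow
  obtain ⟨g, hg⟩ := MulAction.exists_smul_eq G P S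
  refine ⟨g, fun a ha => ?_⟩
  have h : a ∈ ((g • P : Sylow p G) : Subgroup G) := hg ▸ hS ha
  obtain ⟨b, hb, hba⟩ := h
  rw [← hba]
  show g⁻¹ * (g * b * g⁻¹) * g ∈ (P : Subgroup G)
  rwa [show g⁻¹ * (g * b * g⁻¹) * g = b by group]

/-- The `p`-part of a normal subgroup is bounded by its intersection with a Sylow subgroup. -/
theorem not_dvd_card (P : Sylow p G) {N : Subgroup G} [N.Normal] {k : ℕ}
    (hk : Nat.card (N ⊓ (P : Subgroup G) : Subgroup G) < p ^ k) : ¬ p ^ k ∣ Nat.card N := by
  intro hd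
  obtain ⟨Q, hQ⟩ := Sylow.exists_subgroup_card_pow_prime (G := N) p hd
  set Q' := Q.map N.subtype with hQ'
  have hQc : Nat.card Q' = p ^ k := by rw [hQ', card_map_of_injective (subtype_injective _), hQ]
  obtain ⟨g, hg⟩ := exists_conj_mem P (IsPGroup.of_card hQc)
  refine hk.not_ge (hQc.ge.trans ?_)
  rw [← card_map_of_injective (K := Q') (f := (MulAut.conj g⁻¹).toMonoidHom) (MulAut.conj g⁻¹).injective]
  refine card_le_of_le ?_
  rintro _ ⟨a, ha, rfl⟩
  refine ⟨(inferInstance : N.Normal).conj_mem a (map_subtype_le Q ha) g⁻¹, ?_⟩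
  show g⁻¹ * a * g⁻¹⁻¹ ∈ (P : Subgroup G)
  rw [inv_inv]
  exact hg a ha

theorem quasisimple_of_normal (P : Sylow p G) {c : ℕ}
    (hc : c ≤ Nat.card (commutator ↥(P : Subgroup G))) (hc1 : 1 < c)
    (h : ∀ N : Subgroup G, N.Normal → N ≠ ⊤ → N ≤ center G ∧ Nat.card N ≤ p ∧ Nat.card N < c) :
    Cfsg.IsQuasisimple G ∧ Nat.card (center G) ≤ p := by
  have hperf : commutator G = ⊤ := by
    by_contra hne
    have h1 := (h _ inferInstance hne).2.2
    refine (h1.trans_le hc).not_ge ?_
    rw [← card_map_of_injective (K := commutator ↥(P : Subgroup G)) (subtype_injective (P : Subgroup G))]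
    refine card_le_of_le ?_
    rw [map_subtype_commutator, _root_.commutator_def]
    exact commutator_mono le_top le_top
  have hctop : center G ≠ ⊤ := fun he => by
    have h1 : commutator G = ⊥ := by rw [commutator_eq_bot_iff_center_eq_top]; exact he
    have h2 : Nat.card (commutator ↥(P : Subgroup G)) ≤ 1 := by
      rw [← card_map_of_injective (K := commutator ↥(P : Subgroup G)) (subtype_injective (P : Subgroup G))]
      refine (card_le_of_le (?_ : _ ≤ commutator G)).trans (by rw [h1, card_bot])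
      rw [map_subtype_commutator, _root_.commutator_def]
      exact commutator_mono le_top le_top
    omega
  refine ⟨⟨⟨hperf⟩, ?_⟩, (h _ inferInstance hctop).2.1⟩
  haveI : Nontrivial (G ⧸ center G) := by
    obtain ⟨a, -, ha⟩ := SetLike.exists_of_lt (lt_top_iff_ne_top.2 hctop)
    exact ⟨QuotientGroup.mk a, 1, fun e => ha ((QuotientGroup.eq_one_iff a).1 e)⟩
  refine ⟨fun M hM => ?_⟩
  have hs := QuotientGroup.mk'_surjective (center G)
  by_cases htop : M.comap (QuotientGroup.mk' (center G)) = ⊤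
  · exact Or.inr (comap_injective hs (htop.trans (comap_top _).symm))
  · left
    have h1 := (h _ (hM.comap _) htop).1
    rw [← map_comap_eq_self_of_surjective hs M, eq_bot_iff]
    refine (map_mono h1).trans (le_of_eq ?_)
    exact QuotientGroup.map_mk'_self _

section MaxClass

variable (P : Sylow p G) {n : ℕ} (hP : Nat.card P = p ^ n)
  (hmax : Group.nilpotencyClass ↥(P : Subgroup G) = n - 1)
  (hcore : Cfsg.pPrimeCore p G = ⊥)
  (hres : ∀ N : Subgroup G, N.Normal → (N.index).Coprime p → N = ⊤)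
  (hno : ∀ x ∈ (P : Subgroup G), (Nat.card (centralizer ({x} : Set G))).factorization p ≠ 2)

include hP hmax hcore hres hno

/-- Order `p ^ 3`: no proper non-trivial normal subgroup. -/
theorem normal_three (hn : n = 3) {N : Subgroup G} (hN : N.Normal) (hNt : N ≠ ⊤) : N = ⊥ := by
  subst hn
  have hp' := hp.out
  have hPp : IsPGroup p ↥(P : Subgroup G) := P.isPGroup'
  haveI := hPp.isNilpotent
  by_contra hbot
  refine hNt (eq_top_of_sylow_le hres P hN ?_)
  -- the centre
  haveI : Nontrivial ↥(P : Subgroup G) := Finite.one_lt_card_iff_nontrivial.1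
    (hP ▸ Nat.one_lt_pow (by norm_num) hp'.one_lt)
  haveI := hPp.center_nontrivial
  have hctop : center ↥(P : Subgroup G) ≠ ⊤ := fun he => by
    have h1 : (⊤ : Subgroup ↥(P : Subgroup G)).lowerCentralSeries 1 = ⊥ := by
      rw [top_lowerCentralSeries_one, commutator_eq_bot_iff_center_eq_top]; exact he
    have := Subgroup.lowerCentralSeries_eq_bot_iff_nilpotencyClass_le.1 h1
    omega
  set C := center ↥(P : Subgroup G) with hCdef
  obtain ⟨a, ha⟩ := IsPGroup.iff_card.1 (hPp.to_subgroup C)
  have hCp : Nat.card C = p := by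
    have h1 : 1 < Nat.card C := Finite.one_lt_card
    have h2 : Nat.card C < p ^ 3 := hP ▸ lt_of_le_of_ne (card_le_card_group C)
      fun e => hctop (eq_top_of_card_eq _ e)
    rw [ha, Nat.pow_lt_pow_iff_right hp'.one_lt] at h2
    rw [ha] at h1
    rcases (by omega : a = 0 ∨ a = 1 ∨ a = 2) with rfl | rfl | rfl
    · simp at h1
    · rw [ha, pow_one]
    · exfalso
      have h3 := C.card_mul_index
      rw [ha, hP, pow_succ p 2] at h3
      haveI : IsCyclic (↥(P : Subgroup G) ⧸ C) := isCyclic_of_prime_card (p := p)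
        (by rw [← index_eq_card]; exact Nat.eq_of_mul_eq_mul_left (pow_pos hp'.pos 2) h3)
      refine hctop (eq_top_iff.2 fun u _ => mem_center_iff.2 fun v => ?_)
      exact commutative_of_cyclic_center_quotient (QuotientGroup.mk' C) (QuotientGroup.ker_mk' C).le v u
  -- `N` contains the centre
  set M := N.subgroupOf (P : Subgroup G)
  haveI : M.Normal := hN.subgroupOf _
  have hMne : M ≠ ⊥ := fun he => hbot (eq_bot_of_coprime hcore hN (fun hd => not_dvd_card P (N := N) (k := 1) (by
    rw [← Nat.card_congr (subgroupOfEquivOfLe (inf_le_right : N ⊓ (P : Subgroup G) ≤ _)).toEquiv,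
      inf_subgroupOf_right, show N.subgroupOf (P : Subgroup G) = ⊥ from he, card_bot, pow_one]
    exact hp'.one_lt) (by rwa [pow_one])))
  have hCN : C ≤ M := by
    have h1 := PGroup.inf_center_ne_bot hPp M hMne
    have h2 : M ⊓ C = C := by
      refine eq_of_le_of_card_ge inf_le_right ?_
      rcases hp'.eq_one_or_self_of_dvd _ (hCp ▸ card_dvd_of_le (inf_le_right : M ⊓ C ≤ C)) with h | h
      · exact absurd (card_eq_one.1 h) h1
      · rw [h, hCp]
    exact h2 ▸ inf_le_left
  -- non-central elements are conjugate into the centre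
  have hout : ∀ u : ↥(P : Subgroup G), u ∉ C → (u : G) ∈ N := by
    intro u hu
    set D := centralizer ({(u : G)} : Set G)
    have hlt : C < centralizer ({u} : Set ↥(P : Subgroup G)) :=
      lt_of_le_of_ne (center_le_centralizer _) fun e => hu (e ▸ mem_centralizer_singleton_iff.2 rfl)
    obtain ⟨b, hb⟩ := IsPGroup.iff_card.1 (hPp.to_subgroup (centralizer ({u} : Set ↥(P : Subgroup G))))
    have h2 : Nat.card C < Nat.card (centralizer ({u} : Set ↥(P : Subgroup G))) :=
      Set.ncard_lt_ncard (SetLike.coe_ssubset_coe.mpr hlt) (Set.toFinite _)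
    rw [hCp, hb, ← pow_one p, ← pow_mul, one_mul, Nat.pow_lt_pow_iff_right hp'.one_lt] at h2
    have hd : p ^ 2 ∣ Nat.card D := by
      refine (pow_dvd_pow p (by omega : 2 ≤ b)).trans ?_
      rw [← hb, ← card_map_of_injective (K := centralizer ({u} : Set ↥(P : Subgroup G)))
        (subtype_injective (P : Subgroup G))]
      refine card_dvd_of_le ?_
      rintro _ ⟨v, hv, rfl⟩
      exact mem_centralizer_singleton_iff.2 (congrArg Subtype.val (mem_centralizer_singleton_iff.1 hv))
    have hne : Nat.card D ≠ 0 := Nat.card_pos.ne'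
    have h3 : p ^ 3 ∣ Nat.card D := (hp'.pow_dvd_iff_le_factorization hne).2 (by
      have := (hp'.pow_dvd_iff_le_factorization hne).1 hd
      have := hno u u.2
      change (Nat.card D).factorization p ≠ 2 at this
      omega)
    obtain ⟨S', hS'⟩ := Sylow.exists_subgroup_card_pow_prime (G := D) p h3
    set S := S'.map D.subtype with hSdef
    have hSc : Nat.card S = p ^ 3 := by rw [hSdef, card_map_of_injective (subtype_injective _), hS']
    have hSD : S ≤ D := map_subtype_le _
    have hzu : zpowers (u : G) ≤ (P : Subgroup G) := zpowers_le.2 u.2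
    have hsup : IsPGroup p (S ⊔ zpowers (u : G) : Subgroup G) := by
      refine (IsPGroup.of_card hSc).to_sup_of_normal_right' (hPp.to_le hzu) fun s hs => ?_
      refine MaxClassP.mem_normalizer_of_forall fun e he => ?_
      obtain ⟨i, rfl⟩ := mem_zpowers_iff.1 he
      rw [((show Commute s (u : G) from mem_centralizer_singleton_iff.1 (hSD hs)).zpow_right i).eq,
        mul_inv_cancel_right]
      exact zpow_mem (mem_zpowers _) i
    obtain ⟨g, hg⟩ := exists_conj_mem P hsup
    set v : ↥(P : Subgroup G) := ⟨g⁻¹ * u * g, hg u (mem_sup_right (mem_zpowers _))⟩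
    have hv : v ∈ C := by
      refine mem_center_iff.2 fun w => ?_
      have hSmap : S.map (MulAut.conj g⁻¹).toMonoidHom = (P : Subgroup G) := by
        refine eq_of_le_of_card_ge ?_ ?_
        · rintro _ ⟨s, hs, rfl⟩
          show g⁻¹ * s * g⁻¹⁻¹ ∈ (P : Subgroup G)
          rw [inv_inv]
          exact hg s (mem_sup_left hs)
        · rw [card_map_of_injective (MulAut.conj g⁻¹).injective, hSc, hP]
      obtain ⟨s, hs, hsw⟩ := hSmap.ge w.2
      apply Subtype.ext
      show (w : G) * (g⁻¹ * u * g) = g⁻¹ * u * g * w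
      rw [← hsw]
      show g⁻¹ * s * g⁻¹⁻¹ * (g⁻¹ * u * g) = g⁻¹ * u * g * (g⁻¹ * s * g⁻¹⁻¹)
      calc g⁻¹ * s * g⁻¹⁻¹ * (g⁻¹ * u * g) = g⁻¹ * (s * u) * g := by group
        _ = g⁻¹ * (u * s) * g := by rw [mem_centralizer_singleton_iff.1 (hSD hs)]
        _ = _ := by group
    have hvN : g⁻¹ * (u : G) * g ∈ N := mem_subgroupOf.1 (hCN hv)
    have := hN.conj_mem _ hvN g
    rwa [show g * (g⁻¹ * (u : G) * g) * g⁻¹ = u by group] at this
  intro u hu
  by_cases huC : (⟨u, hu⟩ : ↥(P : Subgroup G)) ∈ C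
  · exact mem_subgroupOf.1 (hCN huC)
  · exact hout ⟨u, hu⟩ huC

/-- Order at least `p ^ 4`: proper normal subgroups are central of order at most `p`. -/
theorem normal_ge_four (hn : 4 ≤ n) {N : Subgroup G} (hN : N.Normal) (hNt : N ≠ ⊤) :
    N ≤ center G ∧ Nat.card N ≤ p := by
  classical
  have hp' := hp.out
  have hPp : IsPGroup p ↥(P : Subgroup G) := P.isPGroup'
  have hc := MaxClassP.card_lcs (Q := ↥(P : Subgroup G)) (by omega) hP hmax
  set M := N.subgroupOf (P : Subgroup G) with hMdef
  haveI : M.Normal := hN.subgroupOf _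
  obtain ⟨e, he⟩ := IsPGroup.iff_card.1 (hPp.to_subgroup M)
  have hen : e ≤ n := by
    have := card_le_card_group M
    rw [he, hP] at this
    exact (Nat.pow_le_pow_iff_right hp'.one_lt).1 this
  have hMidx : M.index = p ^ (n - e) := by
    have h := M.card_mul_index
    rw [he, hP, show p ^ n = p ^ e * p ^ (n - e) by rw [← pow_add]; congr 1; omega] at h
    exact Nat.eq_of_mul_eq_mul_left (pow_pos hp'.pos e) h
  -- `P ∩ N` has order at most `p`
  have he1 : e ≤ 1 := by
    by_contra hlt
    have hM2 : MaxClassP.lcs ↥(P : Subgroup G) (n - 3) ≤ M := by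
      rcases Nat.lt_or_ge (n - e) 2 with hr | hr
      · refine (Subgroup.lowerCentralSeries_antitone _ (show 1 ≤ n - 3 by omega)).trans ?_
        rw [top_lowerCentralSeries_one, _root_.commutator_def, commutator_le]
        intro a _ b _
        have hcy : IsCyclic (↥(P : Subgroup G) ⧸ M) := by
          rcases (by omega : n - e = 0 ∨ n - e = 1) with hz | hz
          · haveI := (Nat.card_eq_one_iff_unique.1 (by
              rw [← index_eq_card, hMidx, hz, pow_zero] : Nat.card (↥(P : Subgroup G) ⧸ M) = 1)).1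
            infer_instance
          · exact isCyclic_of_prime_card (p := p) (by rw [← index_eq_card, hMidx, hz, pow_one])
        refine (QuotientGroup.eq_one_iff _).1 ?_
        show QuotientGroup.mk' M ⁅a, b⁆ = 1
        rw [map_commutatorElement, commutatorElement_eq_one_iff_mul_comm]
        exact hcy.isMulCommutative.is_comm.comm _ _
      · rw [(S0662.result n hP hmax (by omega)).1 M (n - e) hr hMidx]
        exact Subgroup.lowerCentralSeries_antitone _ (by omega)
    have hZN : MaxClassP.lowL P (n - 3) ≤ N := by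
      rintro _ ⟨z, hz, rfl⟩
      exact mem_subgroupOf.1 (hM2 hz)
    have hMtop : M ≠ ⊤ := fun ht => hNt (eq_top_of_sylow_le hres P hN fun a ha =>
      mem_subgroupOf.1 (ht.ge (mem_top (⟨a, ha⟩ : ↥(P : Subgroup G)))))
    obtain ⟨x, hxM, hxC, hxts⟩ := MaxClassP.exists_gamma hn hP hmax hMtop
    exact hno x x.2 (MaxClassP.factorization_centralizer_eq_two P hn hP hmax x hxC hxts N hZN
      fun h => hxM (mem_subgroupOf.2 h))
  set Z0 := N ⊓ (P : Subgroup G) with hZ0
  have hZ0c : Nat.card Z0 = p ^ e := by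
    rw [← he, hMdef, ← inf_subgroupOf_right,
      Nat.card_congr (subgroupOfEquivOfLe (inf_le_right : N ⊓ (P : Subgroup G) ≤ _)).toEquiv]
  by_cases hpN : p ∣ Nat.card N
  swap
  · rw [eq_bot_of_coprime hcore hN hpN, card_bot]
    exact ⟨bot_le, hp'.one_lt.le⟩
  have he' : e = 1 := by
    rcases Nat.le_one_iff_eq_zero_or_eq_one.1 he1 with rfl | rfl
    · exact absurd (by rwa [pow_one]) (not_dvd_card P (N := N) (k := 1) (by
        rw [hZ0c, pow_zero, pow_one]; exact hp'.one_lt))
    · rfl
  subst he'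
  rw [pow_one] at hZ0c he
  have hZ0P : Z0 ≤ (P : Subgroup G) := inf_le_right
  have hMc : M ≤ center ↥(P : Subgroup G) := PGroup.le_center_of_card_eq hPp he
  have hPcent : (P : Subgroup G) ≤ centralizer (Z0 : Set G) := fun a ha => mem_centralizer_iff.2 fun z hz => by
    have h := mem_center_iff.1 (hMc (show (⟨z, hZ0P hz⟩ : ↥(P : Subgroup G)) ∈ M from hz.1)) ⟨a, ha⟩
    exact (congrArg Subtype.val h).symm
  have hMlcs : M ≤ commutator ↥(P : Subgroup G) := by
    rw [(S0662.result n hP hmax (by omega)).1 M (n - 1) (by omega) hMidx, ← top_lowerCentralSeries_one]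
    exact Subgroup.lowerCentralSeries_antitone _ (by omega)
  -- `Z0` is a Sylow subgroup of `N`
  have hsyl : Nat.card (Z0.subgroupOf N) = p ^ (Nat.card N).factorization p := by
    rw [Nat.card_congr (subgroupOfEquivOfLe (inf_le_left : N ⊓ (P : Subgroup G) ≤ N)).toEquiv, hZ0c]
    have hne : Nat.card N ≠ 0 := Nat.card_pos.ne'
    have h1 := (hp'.dvd_iff_one_le_factorization hne).1 hpN
    have h2 : ¬ 2 ≤ (Nat.card N).factorization p := fun h2 =>
      not_dvd_card P (N := N) (k := 2) (by
        rw [hZ0c]; nth_rw 1 [← pow_one p]; exact Nat.pow_lt_pow_right hp'.one_lt one_lt_two)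
        ((hp'.pow_dvd_iff_le_factorization hne).2 h2)
    rw [show (Nat.card N).factorization p = 1 by omega, pow_one]
  by_cases hnc : ∀ t ∈ N, t ∈ normalizer (Z0 : Set G) → t ∈ centralizer (Z0 : Set G)
  · -- Burnside
    set S : Sylow p N := Sylow.ofCard (Z0.subgroupOf N) hsyl
    have hS : (S : Subgroup N) = Z0.subgroupOf N := rfl
    have hNC : normalizer ((S : Subgroup N) : Set N) ≤ centralizer ((S : Subgroup N) : Set N) := by
      intro t ht
      have htn : (t : G) ∈ normalizer (Z0 : Set G) := MaxClassP.mem_normalizer_of_forall fun z hz => by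
        have h := (mem_normalizer_iff.1 ht ⟨z, hz.1⟩).1 (show (⟨z, hz.1⟩ : N) ∈ (S : Subgroup N) from hz)
        exact mem_subgroupOf.1 h
      refine mem_centralizer_iff.2 fun z hz => Subtype.ext ?_
      exact mem_centralizer_iff.1 (hnc t t.2 htn) z (mem_subgroupOf.1 hz)
    set K := (MonoidHom.transferSylow S hNC).ker
    have hKp := MonoidHom.not_dvd_card_ker_transferSylow S hNC
    have hKchar : ∀ (g : G) (k : N), k ∈ K → (⟨g * k * g⁻¹, hN.conj_mem _ k.2 g⟩ : N) ∈ K := by
      intro g k hk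
      rw [MonoidHom.mem_ker, ← orderOf_eq_one_iff]
      set k' : N := ⟨g * k * g⁻¹, hN.conj_mem _ k.2 g⟩
      have ho : orderOf k' = orderOf k := by
        rw [← orderOf_coe, ← orderOf_coe]
        exact MulEquiv.orderOf_eq (MulAut.conj g) k
      have h1 : orderOf k ∣ Nat.card K := (orderOf_coe (⟨k, hk⟩ : K)).dvd.trans (orderOf_dvd_natCard _)
      have h2 : orderOf (MonoidHom.transferSylow S hNC k') ∣ orderOf k := ho ▸ orderOf_map_dvd _ _
      have h3 : orderOf (MonoidHom.transferSylow S hNC k') ∣ p ^ (Nat.card N).factorization p := by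
        rw [← hsyl, ← hS]
        exact orderOf_dvd_natCard _
      obtain ⟨i, -, hi⟩ := (Nat.dvd_prime_pow hp').1 h3
      rw [hi]
      rcases Nat.eq_zero_or_pos i with rfl | hi0
      · rw [pow_zero]
      · exact absurd (((dvd_pow_self p hi0.ne').trans (hi ▸ h2)).trans h1) hKp
    have hKn : (K.map N.subtype).Normal := ⟨fun k hk g => by
      obtain ⟨k, hk, rfl⟩ := hk
      exact ⟨_, hKchar g k hk, rfl⟩⟩
    have hKbot : K = ⊥ := by
      have h := eq_bot_of_coprime hcore hKn (by rwa [card_map_of_injective (subtype_injective _)])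
      exact (map_eq_bot_iff_of_injective _ (subtype_injective _)).1 h
    have hcard : Nat.card N = p := by
      have h := (MonoidHom.ker_transferSylow_isComplement' S hNC).card_mul_card
      rw [show (MonoidHom.transferSylow S hNC).ker = ⊥ from hKbot, card_bot, one_mul] at h
      rw [← h, hS, Nat.card_congr (subgroupOfEquivOfLe (inf_le_left : N ⊓ (P : Subgroup G) ≤ N)).toEquiv, hZ0c]
    have hNeq : Z0 = N := eq_of_le_of_card_ge inf_le_left (by rw [hcard, hZ0c])
    refine ⟨?_, hcard.le⟩
    haveI := hN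
    have htop : centralizer (N : Set G) = ⊤ :=
      eq_top_of_sylow_le hres P inferInstance (hNeq ▸ hPcent)
    exact fun z hz => mem_center_iff.2 fun a => (mem_centralizer_iff.1 (htop.ge (mem_top a)) z hz).symm
  -- otherwise an element of `N` normalises `P` and moves `Z0`
  exfalso
  push Not at hnc
  obtain ⟨t, htN, htn, htc⟩ := hnc
  set C := N ⊓ centralizer (Z0 : Set G) with hC
  have hPC : (P : Subgroup G) ≤ normalizer (C : Set G) := by
    intro a ha
    refine MaxClassP.mem_normalizer_of_forall fun c hc => ⟨hN.conj_mem c hc.1 a, ?_⟩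
    exact Subgroup.mul_mem _ (Subgroup.mul_mem _ (hPcent ha) hc.2) (Subgroup.inv_mem _ (hPcent ha))
  set R := C ⊔ (P : Subgroup G) with hR
  have hRc : R ≤ centralizer (Z0 : Set G) := sup_le inf_le_right hPcent
  have htP : ((t • P : Sylow p G) : Subgroup G) ≤ R := by
    rintro _ ⟨a, ha, rfl⟩
    show t * a * t⁻¹ ∈ R
    have h1 : t * a * t⁻¹ ∈ centralizer (Z0 : Set G) := by
      refine mem_centralizer_iff.2 fun z hz => ?_
      have hz' : t⁻¹ * z * t ∈ Z0 := (mem_normalizer_iff.1 htn _).2 (by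
        rwa [show t * (t⁻¹ * z * t) * t⁻¹ = z by group])
      have h := mem_centralizer_iff.1 (hPcent ha) _ hz'
      calc z * (t * a * t⁻¹) = t * (t⁻¹ * z * t * a) * t⁻¹ := by group
        _ = t * (a * (t⁻¹ * z * t)) * t⁻¹ := by rw [h]
        _ = t * a * t⁻¹ * z := by group
    have h2 : t * a * t⁻¹ * a⁻¹ ∈ C := by
      refine ⟨?_, Subgroup.mul_mem _ h1 (Subgroup.inv_mem _ (hPcent ha))⟩
      rw [show t * a * t⁻¹ * a⁻¹ = t * (a * t⁻¹ * a⁻¹) by group]
      exact mul_mem htN (hN.conj_mem _ (inv_mem htN) a)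
    have := mul_mem (mem_sup_left h2 : _ ∈ R) (mem_sup_right ha : a ∈ R)
    rwa [inv_mul_cancel_right] at this
  have hPR : (P : Subgroup G) ≤ R := le_sup_right
  obtain ⟨r, hr⟩ := MulAction.exists_smul_eq R ((t • P).subtype htP) (P.subtype hPR)
  rw [Sylow.smul_subtype] at hr
  have hr' : (((r : G) * t) • P : Sylow p G) = P := by
    rw [mul_smul]
    exact Sylow.subtype_injective hr
  have hrR : (r : G) ∈ (C : Set G) * ((P : Subgroup G) : Set G) := by
    rw [← coe_mul_of_right_le_normalizer_left C (P : Subgroup G) hPC]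
    exact r.2
  obtain ⟨c, hcC, a, haP, hca⟩ := hrR
  -- `d` lies in `N`, normalises `P` and acts on `Z0` as `t`
  set d := a⁻¹ * c * a * t with hd
  have hdN : d ∈ N := mul_mem (by
    have := hN.conj_mem c hcC.1 a⁻¹
    rwa [inv_inv] at this) htN
  have hdP : ∀ u ∈ (P : Subgroup G), d * u * d⁻¹ ∈ (P : Subgroup G) := by
    intro u hu
    have h : (r : G) * t * u * ((r : G) * t)⁻¹ ∈ (P : Subgroup G) := by
      have h0 : (r : G) * t * u * ((r : G) * t)⁻¹ ∈ ((((r : G) * t) • P : Sylow p G) : Subgroup G) :=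
        ⟨u, hu, rfl⟩
      rwa [hr'] at h0
    have := mul_mem (mul_mem (inv_mem haP) h) haP
    rw [show (r : G) = c * a from hca.symm] at this
    rwa [show a⁻¹ * (c * a * t * u * (c * a * t)⁻¹) * a = d * u * d⁻¹ by rw [hd]; group] at this
  have hφmem : ∀ u : ↥(P : Subgroup G), (⟨⁅d, (u : G)⁆, by
      rw [commutatorElement_def]; exact mul_mem (hdP u u.2) (inv_mem u.2)⟩ : ↥(P : Subgroup G)) ∈ M :=
    fun u => mem_subgroupOf.2 (by
      show ⁅d, (u : G)⁆ ∈ N
      rw [show ⁅d, (u : G)⁆ = d * ((u : G) * d⁻¹ * (u : G)⁻¹) by rw [commutatorElement_def]; group]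
      exact mul_mem hdN (hN.conj_mem _ (inv_mem hdN) u))
  haveI : IsMulCommutative M := ⟨⟨fun a b => Subtype.ext (mem_center_iff.1 (hMc b.2) a)⟩⟩
  let φ : ↥(P : Subgroup G) →* M :=
    { toFun := fun u => ⟨_, hφmem u⟩
      map_one' := Subtype.ext (Subtype.ext (by simp))
      map_mul' := fun u v => Subtype.ext (Subtype.ext (by
        show ⁅d, (u : G) * v⁆ = ⁅d, (u : G)⁆ * ⁅d, (v : G)⁆
        have h := congrArg Subtype.val (mem_center_iff.1 (hMc (hφmem v)) u)
        rw [show ⁅d, (u : G) * v⁆ = ⁅d, (u : G)⁆ * ((u : G) * ⁅d, (v : G)⁆ * (u : G)⁻¹) by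
          simp only [commutatorElement_def]; group]
        congr 1
        rw [show (u : G) * ⁅d, (v : G)⁆ = ⁅d, (v : G)⁆ * u from h, mul_inv_cancel_right])) }
  have hker : commutator ↥(P : Subgroup G) ≤ φ.ker := by
    rw [_root_.commutator_def, commutator_le]
    intro u _ v _
    rw [MonoidHom.mem_ker, map_commutatorElement, commutatorElement_eq_one_iff_mul_comm]
    exact ‹IsMulCommutative M›.is_comm.comm _ _
  have hdc : d ∈ centralizer (Z0 : Set G) := mem_centralizer_iff.2 fun z hz => by
    have h1 := hker (hMlcs (show (⟨z, hZ0P hz⟩ : ↥(P : Subgroup G)) ∈ M from hz.1))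
    have h2 : ⁅d, z⁆ = 1 := congrArg (fun w : M => ((w : ↥(P : Subgroup G)) : G)) h1
    exact (commutatorElement_eq_one_iff_mul_comm.1 h2).symm
  refine htc ?_
  have : (a⁻¹ * c * a)⁻¹ * d ∈ centralizer (Z0 : Set G) :=
    mul_mem (inv_mem (mul_mem (mul_mem (inv_mem (hPcent haP)) hcC.2) (hPcent haP))) hdc
  rwa [hd, inv_mul_cancel_left] at this

end MaxClass

/-- Let G be a finite group whose Sylow p-subgroup P has order p ^ n with n ≥ 2 and nilpotency class n - 1 (maximal class), whose largest normal subgroup of order prime to p is trivial, and which has no proper normal subgroup of index prime to p. Then either some x ∈ P has a centralizer in G whose order has p-part p ^ 2, or G is quasisimple with centre of order at most p. -/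
theorem result {G : Type*} [Group G] [Finite G] (p : ℕ) [Fact p.Prime] (P : Sylow p G) (n : ℕ) (hP : Nat.card P = p ^ n) (hn : 2 ≤ n) (hmax : Group.nilpotencyClass ↥(P : Subgroup G) = n - 1) (hcore : Cfsg.pPrimeCore p G = ⊥) (hres : ∀ N : Subgroup G, N.Normal → (N.index).Coprime p → N = ⊤) : (∃ x ∈ (P : Subgroup G), (Nat.card (Subgroup.centralizer ({x} : Set G))).factorization p = 2) ∨ (Cfsg.IsQuasisimple G ∧ Nat.card (Subgroup.center G) ≤ p) := by
  have hp' := (Fact.out : p.Prime)
  rcases Nat.eq_or_lt_of_le hn with rfl | hn3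
  · refine Or.inl ⟨1, one_mem _, ?_⟩
    have htop : Subgroup.centralizer ({1} : Set G) = ⊤ :=
      top_unique fun g _ => Subgroup.mem_centralizer_singleton_iff.2 (by simp)
    rw [htop, Subgroup.card_top]
    have h := P.card_eq_multiplicity
    rw [hP] at h
    exact (Nat.pow_right_injective hp'.two_le h).symm
  by_cases hex : ∃ x ∈ (P : Subgroup G), (Nat.card (Subgroup.centralizer ({x} : Set G))).factorization p = 2
  · exact Or.inl hex
  right
  push Not at hex
  have hc : Nat.card (commutator ↥(P : Subgroup G)) = p ^ (n - 2) := by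
    rw [← top_lowerCentralSeries_one, show n - 2 = n - 1 - 1 by omega]
    exact MaxClassP.card_lcs (by omega) hP hmax 1 le_rfl (by omega)
  refine quasisimple_of_normal P (c := p ^ (n - 2)) hc.ge (Nat.one_lt_pow (by omega) hp'.one_lt)
    fun N hN hNt => ?_
  rcases Nat.lt_or_ge n 4 with h4 | h4
  · rw [normal_three P hP hmax hcore hres hex (by omega) hN hNt, Subgroup.card_bot]
    exact ⟨bot_le, hp'.one_lt.le, Nat.one_lt_pow (by omega) hp'.one_lt⟩
  · obtain ⟨h1, h2⟩ := normal_ge_four P hP hmax hcore hres hex h4 hN hNt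
    exact ⟨h1, h2, h2.trans_lt (by nth_rw 1 [← pow_one p]; exact Nat.pow_lt_pow_right hp'.one_lt (by omega))⟩

end Cfsg.Agent.S3865
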