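import Mathlib
import Cfsg.Statements.S3866
-- import your own Cfsg.Agent.* helpers here

set_option autoImplicit false
open Cfsg

namespace Cfsg.Agent.S3866

/-- Let A be a commutative normal subgroup of the finite group G with G generated by A and an element x. Then a ↦ x a x⁻¹ a⁻¹ is a surjective homomorphism from A onto the commutator subgroup of G whose kernel is the centralizer of x in A; in particular the commutator subgroup has order equal to the index in A of that centralizer. -/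
theorem result {G : Type*} [Group G] [Finite G] (A : Subgroup G) [A.Normal] (hA : IsMulCommutative A) (x : G) (hgen : A ⊔ Subgroup.zpowers x = ⊤) : (∀ a ∈ A, x * a * x⁻¹ * a⁻¹ ∈ commutator G) ∧ (∀ c ∈ commutator G, ∃ a ∈ A, x * a * x⁻¹ * a⁻¹ = c) ∧ (∀ a ∈ A, ∀ b ∈ A, x * (a * b) * x⁻¹ * (a * b)⁻¹ = (x * a * x⁻¹ * a⁻¹) * (x * b * x⁻¹ * b⁻¹)) ∧ Nat.card (commutator G) * Nat.card ↥(A ⊓ Subgroup.centralizer ({x} : Set G)) = Nat.card A := by
  have hconjA : ∀ a ∈ A, x * a * x⁻¹ ∈ A := fun a ha => (inferInstance : A.Normal).conj_mem a ha x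
  have hfA : ∀ a ∈ A, x * a * x⁻¹ * a⁻¹ ∈ A := fun a ha => mul_mem (hconjA a ha) (inv_mem ha)
  have hmul : ∀ a ∈ A, ∀ b ∈ A,
      x * (a * b) * x⁻¹ * (a * b)⁻¹ = (x * a * x⁻¹ * a⁻¹) * (x * b * x⁻¹ * b⁻¹) := by
    intro a ha b hb
    have hc : (x * b * x⁻¹ * b⁻¹) * a⁻¹ = a⁻¹ * (x * b * x⁻¹ * b⁻¹) :=
      congrArg Subtype.val (hA.is_comm.comm (⟨_, hfA b hb⟩ : A) ⟨_, inv_mem ha⟩)
    calc x * (a * b) * x⁻¹ * (a * b)⁻¹ = (x * a * x⁻¹) * ((x * b * x⁻¹ * b⁻¹) * a⁻¹) := by group
      _ = _ := by rw [hc]; group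
  let f : A →* G :=
    { toFun := fun a => x * (a : G) * x⁻¹ * (a : G)⁻¹
      map_one' := by simp
      map_mul' := fun a b => hmul a a.2 b b.2 }
  have hBA : f.range ≤ A := by
    rintro - ⟨a, rfl⟩; exact hfA a a.2
  have hGle : f.range ≤ commutator G := by
    rintro - ⟨a, rfl⟩
    show x * (a : G) * x⁻¹ * (a : G)⁻¹ ∈ commutator G
    rw [← commutatorElement_def, commutator_def]
    exact Subgroup.commutator_mem_commutator (Subgroup.mem_top _) (Subgroup.mem_top _)
  have hN : f.range.Normal := by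
    refine ⟨fun y hy g => ?_⟩
    have hgen' : A ⊔ Subgroup.zpowers x ≤ Subgroup.normalizer (f.range : Set G) := by
      have key : ∀ u : G, (∀ z ∈ f.range, u * z * u⁻¹ ∈ f.range) → u ∈ Subgroup.normalizer (f.range : Set G) := by
        intro u hu
        have e : f.range.map (MulAut.conj u).toMonoidHom = f.range :=
          Subgroup.eq_of_le_of_card_ge (by rintro - ⟨z, hz, rfl⟩; exact hu z hz)
            (le_of_eq (Subgroup.card_map_of_injective (MulAut.conj u).injective).symm)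
        refine Subgroup.mem_normalizer_iff.2 fun z => ⟨hu z, fun hz => ?_⟩
        rw [← e] at hz
        obtain ⟨w, hw, hwe⟩ := hz
        have : w = z := (MulAut.conj u).injective (by simpa using hwe)
        exact this ▸ hw
      refine sup_le (fun a ha => key a fun z hz => ?_) ?_
      · have hc : a * z = z * a := congrArg Subtype.val (hA.is_comm.comm (⟨a, ha⟩ : A) ⟨z, hBA hz⟩)
        rwa [hc, mul_inv_cancel_right]
      · rw [Subgroup.zpowers_le]
        refine key x ?_
        rintro - ⟨a, rfl⟩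
        exact ⟨⟨x * a * x⁻¹, hconjA a a.2⟩, by
          show x * (x * (a : G) * x⁻¹) * x⁻¹ * (x * (a : G) * x⁻¹)⁻¹ = x * (x * (a : G) * x⁻¹ * (a : G)⁻¹) * x⁻¹
          group⟩
    exact (Subgroup.mem_normalizer_iff.1 (hgen' (hgen.ge (Subgroup.mem_top g))) y).1 hy
  have hle : commutator G ≤ f.range := by
    rw [← Subgroup.Normal.quotient_commutative_iff_commutator_le]
    have hx : ∀ a ∈ A, (QuotientGroup.mk x : G ⧸ f.range) * QuotientGroup.mk a = QuotientGroup.mk a * QuotientGroup.mk x := by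
      intro a ha
      have h1 : x * a * x⁻¹ * a⁻¹ ∈ f.range := ⟨⟨a, ha⟩, rfl⟩
      rw [← QuotientGroup.eq_one_iff] at h1
      simp only [QuotientGroup.mk_mul, QuotientGroup.mk_inv] at h1
      rwa [mul_inv_eq_one, mul_inv_eq_iff_eq_mul] at h1
    refine ⟨⟨fun u v => ?_⟩⟩
    obtain ⟨u, rfl⟩ := QuotientGroup.mk_surjective u
    obtain ⟨v, rfl⟩ := QuotientGroup.mk_surjective v
    obtain ⟨a, ha, s, ⟨i, rfl⟩, rfl⟩ := Subgroup.mem_sup_of_normal_left.1 (hgen.ge (Subgroup.mem_top u))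
    obtain ⟨b, hb, t, ⟨j, rfl⟩, rfl⟩ := Subgroup.mem_sup_of_normal_left.1 (hgen.ge (Subgroup.mem_top v))
    have cab : Commute (QuotientGroup.mk a : G ⧸ f.range) (QuotientGroup.mk b) := by
      have : a * b = b * a := congrArg Subtype.val (hA.is_comm.comm (⟨a, ha⟩ : A) ⟨b, hb⟩)
      show _ * _ = _ * _
      rw [← QuotientGroup.mk_mul, this, QuotientGroup.mk_mul]
    simp only [QuotientGroup.mk_mul, QuotientGroup.mk_zpow]
    exact (Commute.mul_left (cab.mul_right (Commute.zpow_right (hx a ha).symm j))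
      ((Commute.zpow_left (hx b hb) i).mul_right (Commute.zpow_zpow (Commute.refl _) i j))).eq
  have heq : commutator G = f.range := le_antisymm hle hGle
  refine ⟨fun a ha => hGle ⟨⟨a, ha⟩, rfl⟩, fun c hc => ?_, hmul, ?_⟩
  · obtain ⟨a, ha⟩ := hle hc
    exact ⟨a, a.2, ha⟩
  · have hker : f.ker = (A ⊓ Subgroup.centralizer ({x} : Set G)).subgroupOf A := by
      ext a
      rw [MonoidHom.mem_ker, Subgroup.mem_subgroupOf, Subgroup.mem_inf, Subgroup.mem_centralizer_singleton_iff]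
      show x * (a : G) * x⁻¹ * (a : G)⁻¹ = 1 ↔ _
      rw [mul_inv_eq_one, mul_inv_eq_iff_eq_mul]
      exact ⟨fun h => ⟨a.2, h.symm⟩, fun h => h.2.symm⟩
    rw [heq, ← Subgroup.index_ker, ← Nat.card_congr (Subgroup.subgroupOfEquivOfLe (inf_le_left :
      A ⊓ Subgroup.centralizer ({x} : Set G) ≤ A)).toEquiv, ← hker]
    exact f.ker.index_mul_card

end Cfsg.Agent.S3866
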