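import Mathlib
import Cfsg.Statements.S3867
import Cfsg.Agent.H73.ClassCount
-- import your own Cfsg.Agent.* helpers here

set_option autoImplicit false
open Cfsg

namespace Cfsg.Agent.S3867

/-- Let M and N be nontrivial normal subgroups of the finite group G with M ⊓ N trivial, and let p be a prime. Writing n(X) for the number of Sylow p-subgroups of a group X, one has n(G) · n(G/MN) = n(G/M) · n(G/N). -/
theorem result {G : Type*} [Group G] [Finite G] (p : ℕ) [Fact p.Prime] (M N : Subgroup G) [M.Normal] [N.Normal] (hM : M ≠ ⊥) (hN : N ≠ ⊥) (hMN : M ⊓ N = ⊥) : Nat.card (Sylow p G) * Nat.card (Sylow p (G ⧸ (M ⊔ N))) = Nat.card (Sylow p (G ⧸ M)) * Nat.card (Sylow p (G ⧸ N)) := by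
  have hfr : ∀ (L : Subgroup G) [L.Normal] (P : Sylow p G),
      Subgroup.normalizer (((P : Subgroup G) ⊔ L : Subgroup G) : Set G) =
        Subgroup.normalizer ((P : Subgroup G) : Set G) ⊔ L := by
    intro L _ P
    apply le_antisymm
    · intro x hx
      have hle : ((x • P : Sylow p G) : Subgroup G) ≤ (P : Subgroup G) ⊔ L := by
        rintro - ⟨y, hy, rfl⟩
        exact (Subgroup.mem_normalizer_iff.1 hx y).1 (Subgroup.mem_sup_left hy)
      obtain ⟨y, hy⟩ := MulAction.exists_smul_eq ↥((P : Subgroup G) ⊔ L)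
        ((x • P).subtype hle) (P.subtype le_sup_left)
      simp_rw [Sylow.smul_subtype, Subgroup.smul_def, smul_smul] at hy
      have h1 : (y : G) * x ∈ Subgroup.normalizer ((P : Subgroup G) : Set G) :=
        Sylow.smul_eq_iff_mem_normalizer.1 (Sylow.subtype_injective hy)
      have h2 : (y : G) ∈ Subgroup.normalizer ((P : Subgroup G) : Set G) ⊔ L :=
        (sup_le_sup_right Subgroup.le_normalizer L) y.2
      have := mul_mem (inv_mem h2) (Subgroup.mem_sup_left h1)
      rwa [inv_mul_cancel_left] at this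
    · refine sup_le (fun x hx => ?_) (le_sup_right.trans Subgroup.le_normalizer)
      have hx' : ∀ u : G, u ∈ Subgroup.normalizer ((P : Subgroup G) : Set G) → ∀ z ∈ (P : Subgroup G) ⊔ L,
          u * z * u⁻¹ ∈ (P : Subgroup G) ⊔ L := by
        intro u hu z hz
        obtain ⟨a, ha, b, hb, rfl⟩ := Subgroup.mem_sup_of_normal_right.1 hz
        rw [show u * (a * b) * u⁻¹ = (u * a * u⁻¹) * (u * b * u⁻¹) by group]
        exact mul_mem (Subgroup.mem_sup_left ((Subgroup.mem_normalizer_iff.1 hu a).1 ha))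
          (Subgroup.mem_sup_right ((inferInstance : L.Normal).conj_mem b hb u))
      refine Subgroup.mem_normalizer_iff.2 fun z => ⟨hx' x hx z, fun hz => ?_⟩
      have := hx' x⁻¹ (inv_mem hx) _ hz
      simpa [mul_assoc] using this
  have hn : ∀ (L : Subgroup G) [L.Normal] (P : Sylow p G), Nat.card (Sylow p (G ⧸ L)) =
      (Subgroup.normalizer ((P : Subgroup G) : Set G) ⊔ L).index := by
    intro L _ P
    rw [Sylow.card_eq_index_normalizer (P.mapSurjective (QuotientGroup.mk'_surjective L)), ← hfr L P,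
      ← Subgroup.index_comap_of_surjective _ (QuotientGroup.mk'_surjective L),
      show (((P.mapSurjective (QuotientGroup.mk'_surjective L)) : Sylow p (G ⧸ L)) : Set (G ⧸ L)) =
        ((((P : Subgroup G).map (QuotientGroup.mk' L)) : Subgroup (G ⧸ L)) : Set (G ⧸ L)) from rfl,
      Subgroup.comap_normalizer_eq_of_surjective _ (QuotientGroup.mk'_surjective L),
      Subgroup.comap_map_eq, QuotientGroup.ker_mk']
  obtain ⟨P⟩ : Nonempty (Sylow p G) := inferInstance
  rw [Sylow.card_eq_index_normalizer P, hn (M ⊔ N) P, hn M P, hn N P]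
  set H := Subgroup.normalizer ((P : Subgroup G) : Set G) with hH
  have hAB : (H ⊔ M) ⊓ (H ⊔ N) = H := by
    refine le_antisymm ?_ (le_inf le_sup_left le_sup_left)
    rintro x ⟨h1, h2⟩
    rw [SetLike.mem_coe, hH, ← hfr M P] at h1
    rw [SetLike.mem_coe, hH, ← hfr N P] at h2
    have hPP : ((P : Subgroup G) ⊔ M) ⊓ ((P : Subgroup G) ⊔ N) = (P : Subgroup G) := by
      refine (P.is_maximal' ?_ (le_inf le_sup_left le_sup_left))
      intro z
      have hpow : ∀ (L : Subgroup G) [L.Normal], (z : G) ∈ (P : Subgroup G) ⊔ L → ∃ k, (z : G) ^ p ^ k ∈ L := by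
        intro L _ hz
        have hm : QuotientGroup.mk' L (z : G) ∈ (P : Subgroup G).map (QuotientGroup.mk' L) := by
          have := Subgroup.mem_map_of_mem (QuotientGroup.mk' L) hz
          rwa [Subgroup.map_sup, (Subgroup.map_eq_bot_iff L).2 (by rw [QuotientGroup.ker_mk']), sup_bot_eq] at this
        obtain ⟨k, hk⟩ := (P.isPGroup'.map (QuotientGroup.mk' L)) ⟨_, hm⟩
        refine ⟨k, (QuotientGroup.eq_one_iff _).1 ?_⟩
        have := congrArg Subtype.val hk
        simpa using this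
      obtain ⟨a, ha⟩ := hpow M z.2.1
      obtain ⟨b, hb⟩ := hpow N z.2.2
      refine ⟨a + b, Subtype.ext ?_⟩
      have h3 : (z : G) ^ p ^ (a + b) ∈ M ⊓ N := by
        refine ⟨?_, ?_⟩
        · rw [pow_add, pow_mul]; exact pow_mem ha _
        · rw [pow_add, mul_comm, pow_mul]; exact pow_mem hb _
      rwa [hMN, Subgroup.mem_bot] at h3
    rw [hH, Subgroup.mem_normalizer_iff]
    intro z
    constructor
    · intro hz
      rw [← hPP]
      exact ⟨(Subgroup.mem_normalizer_iff.1 h1 z).1 (Subgroup.mem_sup_left hz),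
        (Subgroup.mem_normalizer_iff.1 h2 z).1 (Subgroup.mem_sup_left hz)⟩
    · intro hz
      rw [← hPP]
      exact ⟨(Subgroup.mem_normalizer_iff.1 h1 z).2 (Subgroup.mem_sup_left hz),
        (Subgroup.mem_normalizer_iff.1 h2 z).2 (Subgroup.mem_sup_left hz)⟩
  have hC : H ⊔ (M ⊔ N) = (H ⊔ M) ⊔ N := by rw [sup_assoc]
  have hcap : (H ⊔ M) ⊓ N = H ⊓ N :=
    le_antisymm (le_inf ((inf_le_inf_left _ le_sup_right).trans hAB.le) inf_le_right)
      (inf_le_inf_right _ le_sup_left)
  have hprod : ∀ A : Subgroup G, (A ⊓ N).relIndex A = N.relIndex (A ⊔ N) := by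
    intro A
    rw [Subgroup.inf_relIndex_left, Subgroup.relIndex_sup_right]
  have hcard : ∀ A : Subgroup G, Nat.card (A ⊔ N : Subgroup G) * Nat.card (A ⊓ N : Subgroup G) =
      Nat.card A * Nat.card N := by
    intro A
    have h1 := (N.subgroupOf (A ⊔ N)).index_mul_card
    rw [Nat.card_congr (Subgroup.subgroupOfEquivOfLe le_sup_right).toEquiv] at h1
    have h2 := ((A ⊓ N).subgroupOf A).index_mul_card
    rw [Nat.card_congr (Subgroup.subgroupOfEquivOfLe inf_le_left).toEquiv] at h2
    have h3 := hprod A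
    unfold Subgroup.relIndex at h3
    rw [← h1, ← h2, h3]; ring
  have h1 := hcard (H ⊔ M)
  have h2 := hcard H
  rw [hcap, ← hC] at h1
  have hpos := Nat.card_pos (α := G)
  have e : ∀ A : Subgroup G, A.index * Nat.card A = Nat.card G := fun A => A.index_mul_card
  have key : Nat.card H * Nat.card (H ⊔ (M ⊔ N) : Subgroup G) =
      Nat.card (H ⊔ M : Subgroup G) * Nat.card (H ⊔ N : Subgroup G) := by
    refine Nat.eq_of_mul_eq_mul_right (Nat.card_pos (α := N)) ?_
    calc Nat.card H * Nat.card (H ⊔ (M ⊔ N) : Subgroup G) * Nat.card N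
        = Nat.card (H ⊔ (M ⊔ N) : Subgroup G) * (Nat.card H * Nat.card N) := by ring
      _ = Nat.card (H ⊔ (M ⊔ N) : Subgroup G) * (Nat.card (H ⊔ N : Subgroup G) * Nat.card (H ⊓ N : Subgroup G)) := by rw [h2]
      _ = Nat.card (H ⊔ (M ⊔ N) : Subgroup G) * Nat.card (H ⊓ N : Subgroup G) * Nat.card (H ⊔ N : Subgroup G) := by ring
      _ = _ := by rw [h1]; ring
  refine Nat.eq_of_mul_eq_mul_right (Nat.mul_pos (Nat.card_pos (α := H)) (Nat.card_pos (α := (H ⊔ (M ⊔ N) : Subgroup G)))) ?_
  calc H.index * (H ⊔ (M ⊔ N)).index * (Nat.card H * Nat.card (H ⊔ (M ⊔ N) : Subgroup G))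
      = (H.index * Nat.card H) * ((H ⊔ (M ⊔ N)).index * Nat.card (H ⊔ (M ⊔ N) : Subgroup G)) := by ring
    _ = ((H ⊔ M).index * Nat.card (H ⊔ M : Subgroup G)) * ((H ⊔ N).index * Nat.card (H ⊔ N : Subgroup G)) := by
        rw [e, e, e, e]
    _ = _ := by rw [key]; ring

end Cfsg.Agent.S3867
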