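import Cfsg.Statements.S3878
import Mathlib
import Cfsg.Agent.H73.HallSym
-- import your own Cfsg.Agent.* helpers here

set_option autoImplicit false
open Cfsg

set_option linter.style.haveILetI false

namespace Cfsg.Agent.S3878

/-- For a set of primes π the following are equivalent: every finite group has a Hall π-subgroup; in every finite group the maximal π-subgroups are pairwise conjugate; π contains at most one prime or contains every prime. -/
theorem result (π : Set ℕ) :
    ((∀ (G : Type) [Group G] [Finite G], Cfsg.IsEPiGroup π G) ↔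
      ((∀ p q : ℕ, p.Prime → q.Prime → p ∈ π → q ∈ π → p = q) ∨ ∀ p : ℕ, p.Prime → p ∈ π)) ∧
    ((∀ (G : Type) [Group G] [Finite G], Cfsg.IsDPiGroup π G) ↔
      ((∀ p q : ℕ, p.Prime → q.Prime → p ∈ π → q ∈ π → p = q) ∨ ∀ p : ℕ, p.Prime → p ∈ π)) := by
  exact ⟨⟨fun h => Cfsg.Agent.H73.HallSym.trivial_of_all h,
      fun h G _ _ => Cfsg.Agent.H73.HallSym.isEPiGroup_of_isDPiGroup
        (Cfsg.Agent.H73.HallSym.isDPiGroup_of h G)⟩,
    ⟨fun h => Cfsg.Agent.H73.HallSym.trivial_of_all
        (fun G _ _ => Cfsg.Agent.H73.HallSym.isEPiGroup_of_isDPiGroup (h G)),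
      fun h G _ _ => Cfsg.Agent.H73.HallSym.isDPiGroup_of h G⟩⟩

end Cfsg.Agent.S3878
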