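import Cfsg.Statements.S3881
import Mathlib
import Cfsg.Agent.H73.MetaSubgroups
-- import your own Cfsg.Agent.* helpers here

set_option autoImplicit false
open Cfsg

namespace Cfsg.Agent.S3881

/-- Let p be an odd prime and G a finite metacyclic p-group (G has a cyclic normal subgroup with cyclic quotient). Suppose G is non-abelian with |G'| = p^n. Then for 1 ≤ i ≤ n the number of elements of G whose conjugacy class has exactly p^i elements is |Z(G)| · (p^(2i) − p^(2i−2)). -/
theorem result {G : Type*} [Group G] [Finite G] {p : ℕ} [Fact p.Prime] (hp : p ≠ 2) (hG : IsPGroup p G) (hmc : Cfsg.IsMetacyclic G) (n : ℕ) (hn : n ≠ 0) (hGn : Nat.card ↥(commutator G) = p ^ n) (i : ℕ) (hi : 1 ≤ i) (hin : i ≤ n) :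
    Nat.card {g : G // (Subgroup.centralizer ({g} : Set G)).index = p ^ i} =
      Nat.card ↥(Subgroup.center G) * (p ^ (2 * i) - p ^ (2 * i - 2)) := by
  obtain ⟨D⟩ := Cfsg.Agent.H73.Meta.exists_data hG hmc
  have hp' : p.Prime := Fact.out
  have hnn : D.n = n := Nat.pow_right_injective hp'.two_le (D.card_commutator.symm.trans hGn)
  subst hnn
  have hset : {g : G | (Subgroup.centralizer ({g} : Set G)).index = p ^ i} =
      (D.H (D.n - i) : Set G) \ (D.H (D.n - i + 1) : Set G) := by
    ext g
    obtain ⟨v, hv, hiff, hidx⟩ := D.exists_level hp g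
    show _ = _ ↔ D.DivP (D.n - i) g ∧ ¬ D.DivP (D.n - i + 1) g
    rw [hidx, (Nat.pow_right_injective hp'.two_le).eq_iff, hiff _ (by omega), hiff _ (by omega)]
    omega
  show Nat.card ↥{g : G | (Subgroup.centralizer ({g} : Set G)).index = p ^ i} = _
  have hsub : (D.H (D.n - i + 1) : Set G) ⊆ (D.H (D.n - i) : Set G) := fun g hg =>
    D.divP_mono (Nat.le_succ _) hg
  rw [hset, Nat.card_coe_set_eq, Set.ncard_sdiff hsub,
    ← Nat.card_coe_set_eq, ← Nat.card_coe_set_eq, SetLike.coe_sort_coe, SetLike.coe_sort_coe,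
    D.card_H hp (by omega), D.card_H hp (by omega), ← Nat.mul_sub]
  congr 1
  rw [show D.n - (D.n - i) = i by omega, show D.n - (D.n - i + 1) = i - 1 by omega, ← pow_mul, ← pow_mul]
  congr 2 <;> omega

end Cfsg.Agent.S3881
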