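import Cfsg.Statements.S3882
import Mathlib
import Cfsg.Agent.H73.MetaSubgroups
-- import your own Cfsg.Agent.* helpers here

set_option autoImplicit false
open Cfsg

namespace Cfsg.Agent.S3882

/-- Let p be an odd prime and G a finite metacyclic p-group (G has a cyclic normal subgroup with cyclic quotient). Suppose |G'| = p^n and 0 ≤ s ≤ n. Then an element g lies in the subgroup generated by the p^s-th powers if and only if its conjugacy class has at most p^(n−s) elements; in particular the subgroup generated by the p^n-th powers is the center of G. -/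
theorem result {G : Type*} [Group G] [Finite G] {p : ℕ} [Fact p.Prime] (hp : p ≠ 2) (hG : IsPGroup p G) (hmc : Cfsg.IsMetacyclic G) (n : ℕ) (hGn : Nat.card ↥(commutator G) = p ^ n) (s : ℕ) (hs : s ≤ n) (g : G) :
    (g ∈ Subgroup.closure {x : G | ∃ y : G, y ^ p ^ s = x} ↔ (Subgroup.centralizer ({g} : Set G)).index ≤ p ^ (n - s)) ∧
      Subgroup.closure {x : G | ∃ y : G, y ^ p ^ n = x} = Subgroup.center G := by
  obtain ⟨D⟩ := Cfsg.Agent.H73.Meta.exists_data hG hmc
  have hp' : p.Prime := Fact.out
  have hn : D.n = n := Nat.pow_right_injective hp'.two_le (D.card_commutator.symm.trans hGn)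
  subst hn
  refine ⟨?_, by rw [D.closure_pow_eq hp le_rfl, D.H_n]⟩
  rw [D.closure_pow_eq hp hs, D.mem_H]
  obtain ⟨v, hv, hiff, hidx⟩ := D.exists_level hp g
  rw [hiff s hs, hidx, Nat.pow_le_pow_iff_right hp'.one_lt]
  omega

end Cfsg.Agent.S3882
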