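import Cfsg.Statements.S3883
import Mathlib
import Cfsg.Agent.H73.MetaSubgroups
-- import your own Cfsg.Agent.* helpers here

set_option autoImplicit false
open Cfsg

namespace Cfsg.Agent.S3883

/-- Let p be an odd prime and G a finite metacyclic p-group (G has a cyclic normal subgroup with cyclic quotient). Suppose G is non-abelian. Then an element g of G lies outside the Frattini subgroup if and only if its centralizer C_G(g) is abelian. -/
theorem result {G : Type*} [Group G] [Finite G] {p : ℕ} [Fact p.Prime] (hp : p ≠ 2) (hG : IsPGroup p G) (hmc : Cfsg.IsMetacyclic G) (hna : ¬ IsMulCommutative G) (g : G) :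
    g ∉ frattini G ↔ IsMulCommutative ↥(Subgroup.centralizer ({g} : Set G)) := by
  obtain ⟨D⟩ := Cfsg.Agent.H73.Meta.exists_data hG hmc
  have hn : D.n ≠ 0 := fun h => hna (D.isMulCommutative_iff.2 h)
  rw [D.frattini_eq hp hG hn, D.centralizer_comm_iff hp hn]
  rfl

end Cfsg.Agent.S3883
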