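import Cfsg.Statements.S3884
import Mathlib
import Cfsg.Agent.H73.MetaTheory
-- import your own Cfsg.Agent.* helpers here

set_option autoImplicit false
open Cfsg

namespace Cfsg.Agent.S3884

/-- Let p be an odd prime and G a finite metacyclic p-group (G has a cyclic normal subgroup with cyclic quotient). Then G is the product of two cyclic subgroups with trivial intersection: there are cyclic subgroups A and B with A ∩ B = 1 and |A| · |B| = |G|. -/
theorem result {G : Type*} [Group G] [Finite G] {p : ℕ} [Fact p.Prime] (hp : p ≠ 2) (hG : IsPGroup p G) (hmc : Cfsg.IsMetacyclic G) : ∃ A B : Subgroup G, IsCyclic ↥A ∧ IsCyclic ↥B ∧ A ⊓ B = ⊥ ∧ Nat.card ↥A * Nat.card ↥B = Nat.card G := by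
  classical
  obtain ⟨D⟩ := Cfsg.Agent.H73.Meta.exists_data hG hmc
  have hp' : p.Prime := Fact.out
  have hcard : ∀ A B : Subgroup G, A ⊓ B = ⊥ → (∀ g : G, ∃ x ∈ A, ∃ y ∈ B, g = x * y) →
      Nat.card A * Nat.card B = Nat.card G := by
    intro A B h1 h2
    rw [← Nat.card_prod]
    refine Nat.card_eq_of_bijective (fun q : A × B => (q.1 : G) * q.2) ⟨?_, fun g => ?_⟩
    · rintro ⟨x, y⟩ ⟨x', y'⟩ h
      simp only at h
      have he : (x' : G)⁻¹ * x = (y' : G) * (y : G)⁻¹ := by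
        rw [eq_mul_inv_iff_mul_eq, mul_assoc, h, inv_mul_cancel_left]
      have hm : (x' : G)⁻¹ * x ∈ A ⊓ B :=
        ⟨A.mul_mem (A.inv_mem x'.2) x.2, he ▸ B.mul_mem y'.2 (B.inv_mem y.2)⟩
      rw [h1, Subgroup.mem_bot] at hm
      rw [hm] at he
      exact Prod.ext (Subtype.ext (inv_mul_eq_one.1 hm).symm) (Subtype.ext (mul_inv_eq_one.1 he.symm).symm)
    · obtain ⟨x, hx, y, hy, rfl⟩ := h2 g
      exact ⟨(⟨x, hx⟩, ⟨y, hy⟩), rfl⟩
  obtain ⟨m, hm⟩ := IsPGroup.iff_orderOf.1 hG D.a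
  obtain ⟨e, he⟩ := IsPGroup.iff_orderOf.1 hG D.b
  have hex : ∃ k, D.b ^ p ^ k ∈ Subgroup.zpowers D.a := ⟨e, by rw [← he, pow_orderOf_eq_one]; exact one_mem _⟩
  set t := Nat.find hex with ht
  obtain ⟨c, hc⟩ : ∃ c : ℤ, D.a ^ c = D.b ^ p ^ t := Nat.find_spec hex
  have hmin : ∀ N : ℕ, D.b ^ N ∈ Subgroup.zpowers D.a → p ^ t ∣ N := by
    intro N hN
    by_cases hN0 : N = 0
    · rw [hN0]; exact dvd_zero _
    obtain ⟨s, N', hN', rfl⟩ := Nat.exists_eq_pow_mul_and_not_dvd hN0 p hp'.ne_one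
    refine Dvd.dvd.mul_right (pow_dvd_pow p (Nat.find_min' hex ?_)) N'
    rw [pow_mul] at hN
    have hcop : N'.Coprime (orderOf (D.b ^ p ^ s)) := by
      obtain ⟨f, hf⟩ := IsPGroup.iff_orderOf.1 hG (D.b ^ p ^ s)
      rw [hf]
      exact Nat.Coprime.pow_right _ (hp'.coprime_iff_not_dvd.2 hN').symm
    obtain ⟨q, hq⟩ := exists_pow_eq_self_of_coprime hcop
    rw [← hq]; exact pow_mem hN q
  by_cases hcase : (p : ℤ) ^ min t m ∣ c
  · -- some translate of b has trivial intersection with ⟨a⟩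
    obtain ⟨u, hu, hu1⟩ := Cfsg.Agent.H73.Geom.S_pow hp' hp t D.r_one
    obtain ⟨i, hi⟩ : ∃ i : ℤ, (p : ℤ) ^ m ∣ i * Cfsg.Agent.H73.Geom.S D.r (p ^ t) + c := by
      rcases le_total m t with hle | hle
      · rw [min_eq_right hle] at hcase
        exact ⟨0, by simpa using hcase⟩
      · rw [min_eq_left hle] at hcase
        obtain ⟨c', rfl⟩ := hcase
        obtain ⟨A, B, hAB⟩ := (IsCoprime.pow_right (n := m) ((Prime.coprime_iff_not_dvd
          (Nat.prime_iff_prime_int.1 hp')).2 (Cfsg.Agent.H73.Geom.not_dvd_of_dvd_sub_one hp' hu1)).symm :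
          IsCoprime u _)
        refine ⟨-c' * A, (p : ℤ) ^ t * c' * B, ?_⟩
        rw [hu]
        linear_combination (-((p : ℤ) ^ t * c')) * hAB
    set y := D.a ^ i * D.b with hy
    have hpow : ∀ N : ℕ, y ^ N = D.a ^ (i * Cfsg.Agent.H73.Geom.S D.r N) * D.b ^ N := by
      intro N
      have h := D.pow_formula i 1 N
      simpa using h
    have hy1 : y ^ p ^ t = 1 := by
      rw [hpow, ← hc, ← zpow_add, ← orderOf_dvd_iff_zpow_eq_one, hm]
      exact_mod_cast hi
    refine ⟨Subgroup.zpowers D.a, Subgroup.zpowers y, inferInstance, inferInstance, ?_, ?_⟩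
    · rw [eq_bot_iff]
      rintro z ⟨hz1, hz2⟩
      replace hz2 : z ∈ Subgroup.zpowers y := hz2
      rw [mem_zpowers_iff_mem_range_orderOf, Finset.mem_image] at hz2
      obtain ⟨N, -, rfl⟩ := hz2
      rw [SetLike.mem_coe, hpow] at hz1
      have h2 : D.b ^ N ∈ Subgroup.zpowers D.a :=
        (Subgroup.mul_mem_cancel_left _ (zpow_mem (Subgroup.mem_zpowers _) _)).1 hz1
      obtain ⟨N', rfl⟩ := hmin N h2
      show y ^ (p ^ t * N') ∈ (⊥ : Subgroup G)
      rw [pow_mul, hy1, one_pow]; exact one_mem _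
    · refine hcard _ _ ?_ ?_
      · rw [eq_bot_iff]
        rintro z ⟨hz1, hz2⟩
        replace hz2 : z ∈ Subgroup.zpowers y := hz2
        rw [mem_zpowers_iff_mem_range_orderOf, Finset.mem_image] at hz2
        obtain ⟨N, -, rfl⟩ := hz2
        rw [SetLike.mem_coe, hpow] at hz1
        have h2 : D.b ^ N ∈ Subgroup.zpowers D.a :=
          (Subgroup.mul_mem_cancel_left _ (zpow_mem (Subgroup.mem_zpowers _) _)).1 hz1
        obtain ⟨N', rfl⟩ := hmin N h2
        show y ^ (p ^ t * N') ∈ (⊥ : Subgroup G)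
        rw [pow_mul, hy1, one_pow]; exact one_mem _
      · intro g
        obtain ⟨k, l, rfl⟩ := D.surj g
        refine ⟨D.a ^ (k - i * Cfsg.Agent.H73.Geom.S D.r l), zpow_mem (Subgroup.mem_zpowers _) _, y ^ l,
          pow_mem (Subgroup.mem_zpowers y) l, ?_⟩
        rw [hpow, ← mul_assoc, ← zpow_add, sub_add_cancel]
  · -- otherwise use ⟨b⟩ and a complement
    have hc0 : c ≠ 0 := fun h => hcase (by rw [h]; exact dvd_zero _)
    set w := padicValInt p c with hwdef
    have hwdvd : (p : ℤ) ^ w ∣ c := padicValInt_dvd c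
    have hwlt : w < min t m := by
      by_contra hge
      push Not at hge
      exact hcase ((pow_dvd_pow _ hge).trans hwdvd)
    obtain ⟨k, hk⟩ := hwdvd
    have hk' : ¬ (p : ℤ) ∣ k := by
      intro hd
      have : (p : ℤ) ^ (w + 1) ∣ c := by rw [hk, pow_succ]; exact mul_dvd_mul_left _ hd
      rw [padicValInt_dvd_iff] at this
      rcases this with h | h
      · exact hc0 h
      · omega
    obtain ⟨k', B, hkB⟩ := (IsCoprime.pow_right (n := m) ((Prime.coprime_iff_not_dvd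
      (Nat.prime_iff_prime_int.1 hp')).2 hk').symm : IsCoprime k _)
    have haw : D.a ^ ((p : ℤ) ^ w) = D.b ^ (((p : ℤ) ^ t) * k') := by
      have ham : D.a ^ ((p : ℤ) ^ m) = 1 := by
        rw [← Nat.cast_pow, zpow_natCast, ← hm, pow_orderOf_eq_one]
      rw [zpow_mul, show D.b ^ ((p : ℤ) ^ t) = D.b ^ p ^ t by rw [← Nat.cast_pow, zpow_natCast], ← hc,
        ← zpow_mul]
      calc D.a ^ ((p : ℤ) ^ w) = D.a ^ (c * k' + (p : ℤ) ^ m * ((p : ℤ) ^ w * B)) := by
            congr 1; rw [hk]; linear_combination (-((p : ℤ) ^ w)) * hkB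
        _ = _ := by rw [zpow_add, zpow_mul D.a ((p : ℤ) ^ m), ham, one_zpow, mul_one]
    choose u hu _ using fun j : ℕ => Cfsg.Agent.H73.Geom.S_pow hp' hp w (Cfsg.Agent.H73.Geom.pow_one_mod D.r_one j)
    obtain ⟨E, hE⟩ := IsPGroup.iff_orderOf.1 hG (D.b ^ p ^ w)
    let F : ℕ → ℤ := fun j => (p : ℤ) ^ (t - w) * k' * u j + j
    have hroot : ∀ j : ℕ, (D.a * D.b ^ j) ^ p ^ w = (D.b ^ p ^ w) ^ F j := by
      intro j
      have h := D.pow_formula 1 j (p ^ w)
      rw [zpow_one, one_mul] at h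
      rw [h, hu j, zpow_mul, haw, ← zpow_mul, ← zpow_natCast D.b (j * p ^ w), ← zpow_add,
        ← zpow_natCast D.b (p ^ w), ← zpow_mul]
      congr 1
      rw [show (p : ℤ) ^ t = (p : ℤ) ^ w * (p : ℤ) ^ (t - w) by rw [← pow_add]; congr 1; omega]
      push_cast
      ring
    obtain ⟨j, hj⟩ : ∃ j : ℕ, (p : ℤ) ^ E ∣ F j := by
      have hinj : Function.Injective (fun j : Fin (p ^ E) => (F j : ZMod (p ^ E))) := by
        intro j l hjl
        wlog hle : (j : ℕ) ≤ l generalizing j l with H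
        · exact (H hjl.symm (le_of_not_ge hle)).symm
        simp only at hjl
        rw [ZMod.intCast_eq_intCast_iff, Int.modEq_iff_dvd, Nat.cast_pow] at hjl
        have hs : ∀ s ≤ E, p ^ s ∣ (l : ℕ) - j := by
          intro s hs
          induction s with
          | zero => simp
          | succ s ih =>
            have hd := ih (by omega)
            have hx : (p : ℤ) ^ (s + 1) ∣ D.r ^ (l : ℕ) - D.r ^ (j : ℕ) := by
              have e : (l : ℕ) = j + ((l : ℕ) - j) := by omega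
              rw [e, pow_add D.r, ← mul_sub_one, ← Cfsg.Agent.H73.Geom.sub_one_mul_S, pow_succ']
              exact dvd_mul_of_dvd_right (mul_dvd_mul D.r_one
                ((Cfsg.Agent.H73.Geom.dvd_S_iff hp' hp s D.r_one _).2 hd)) _
            have h1 := Cfsg.Agent.H73.Geom.S_sub_dvd hp' hp w (by omega : 1 ≤ s + 1)
              (Cfsg.Agent.H73.Geom.pow_one_mod D.r_one (l : ℕ))
              (Cfsg.Agent.H73.Geom.pow_one_mod D.r_one (j : ℕ)) hx
            rw [hu, hu, ← mul_sub, pow_add, mul_comm ((p : ℤ) ^ (s + 1)),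
              mul_dvd_mul_iff_left (pow_ne_zero _ (by exact_mod_cast hp'.ne_zero))] at h1
            have h2 := dvd_sub ((pow_dvd_pow (p : ℤ) hs).trans hjl)
              (dvd_mul_of_dvd_right h1 ((p : ℤ) ^ (t - w) * k'))
            have e2 : F l - F j - (p : ℤ) ^ (t - w) * k' * (u l - u j) = (((l : ℕ) - (j : ℕ) : ℕ) : ℤ) := by
              rw [Nat.cast_sub hle]; simp only [F]; ring
            rw [e2] at h2
            exact_mod_cast h2
        have h := hs E le_rfl
        apply Fin.ext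
        rcases Nat.eq_zero_or_pos ((l : ℕ) - j) with h4 | h4
        · omega
        · have := Nat.le_of_dvd h4 h; have := l.2; omega
      haveI : NeZero (p ^ E) := ⟨pow_ne_zero _ hp'.ne_zero⟩
      obtain ⟨j, hj⟩ := ((Fintype.bijective_iff_injective_and_card _).2 ⟨hinj, by simp⟩).2 0
      refine ⟨j, ?_⟩
      rw [← Nat.cast_pow]
      exact (ZMod.intCast_zmod_eq_zero_iff_dvd _ _).1 hj
    set y := D.a * D.b ^ j with hy
    have hy1 : y ^ p ^ w = 1 := by
      rw [hy, hroot, ← orderOf_dvd_iff_zpow_eq_one, hE]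
      exact_mod_cast hj
    have hpow : ∀ N : ℕ, y ^ N = D.a ^ (Cfsg.Agent.H73.Geom.S (D.r ^ j) N) * D.b ^ (j * N) := by
      intro N
      have h := D.pow_formula 1 j N
      simpa using h
    have hint : Subgroup.zpowers D.b ⊓ Subgroup.zpowers y = ⊥ := by
      rw [eq_bot_iff]
      rintro z ⟨hz1, hz2⟩
      replace hz2 : z ∈ Subgroup.zpowers y := hz2
      rw [mem_zpowers_iff_mem_range_orderOf, Finset.mem_image] at hz2
      obtain ⟨N, -, rfl⟩ := hz2
      rw [SetLike.mem_coe, hpow] at hz1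
      have h2 : D.a ^ Cfsg.Agent.H73.Geom.S (D.r ^ j) N ∈ Subgroup.zpowers D.b :=
        (Subgroup.mul_mem_cancel_right _ (pow_mem (Subgroup.mem_zpowers _) _)).1 hz1
      rw [mem_zpowers_iff_mem_range_orderOf, Finset.mem_image] at h2
      obtain ⟨M, -, hM⟩ := h2
      obtain ⟨M', rfl⟩ := hmin M (hM ▸ zpow_mem (Subgroup.mem_zpowers _) _)
      rw [pow_mul, ← hc, ← zpow_natCast (D.a ^ c), ← zpow_mul, zpow_eq_zpow_iff_modEq, hm,
        Int.modEq_iff_dvd, Nat.cast_pow] at hM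
      have h3 : (p : ℤ) ^ w ∣ Cfsg.Agent.H73.Geom.S (D.r ^ j) N := by
        have h5 : (p : ℤ) ^ w ∣ c * (M' : ℤ) := by rw [hk, mul_assoc]; exact dvd_mul_right _ _
        have h6 := dvd_add ((pow_dvd_pow (p : ℤ) (by omega : w ≤ m)).trans hM) h5
        simpa using h6
      rw [Cfsg.Agent.H73.Geom.dvd_S_iff hp' hp w (Cfsg.Agent.H73.Geom.pow_one_mod D.r_one j)] at h3
      obtain ⟨N', rfl⟩ := h3
      show y ^ (p ^ w * N') ∈ (⊥ : Subgroup G)
      rw [pow_mul, hy1, one_pow]; exact one_mem _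
    have hint' : Subgroup.zpowers y ⊓ Subgroup.zpowers D.b = ⊥ := by rw [inf_comm]; exact hint
    refine ⟨Subgroup.zpowers y, Subgroup.zpowers D.b, inferInstance, inferInstance, hint', hcard _ _ hint' ?_⟩
    intro g
    obtain ⟨kk, l, rfl⟩ := D.surj g
    obtain ⟨N, hN⟩ : ∃ N : ℕ, (p : ℤ) ^ m ∣ Cfsg.Agent.H73.Geom.S (D.r ^ j) N - kk := by
      have hinj : Function.Injective (fun N : Fin (p ^ m) => (Cfsg.Agent.H73.Geom.S (D.r ^ j) N : ZMod (p ^ m))) := by
        intro a b h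
        wlog hle : (a : ℕ) ≤ b generalizing a b with H
        · exact (H h.symm (le_of_not_ge hle)).symm
        simp only at h
        rw [ZMod.intCast_eq_intCast_iff, Int.modEq_iff_dvd, Nat.cast_pow] at h
        have e : (b : ℕ) = a + ((b : ℕ) - a) := by omega
        rw [e, Cfsg.Agent.H73.Geom.S_add, add_sub_cancel_left] at h
        have h2 : IsCoprime ((p : ℤ) ^ m) ((D.r ^ j) ^ (a : ℕ)) :=
          IsCoprime.pow_left ((Prime.coprime_iff_not_dvd (Nat.prime_iff_prime_int.1 hp')).2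
            (Cfsg.Agent.H73.Geom.not_dvd_of_dvd_sub_one hp' (Cfsg.Agent.H73.Geom.pow_one_mod
              (Cfsg.Agent.H73.Geom.pow_one_mod D.r_one j) _)))
        have h3 := (Cfsg.Agent.H73.Geom.dvd_S_iff hp' hp m (Cfsg.Agent.H73.Geom.pow_one_mod D.r_one j) _).1
          (h2.dvd_of_dvd_mul_left h)
        apply Fin.ext
        rcases Nat.eq_zero_or_pos ((b : ℕ) - a) with h4 | h4
        · omega
        · have := Nat.le_of_dvd h4 h3; have := b.2; omega
      haveI : NeZero (p ^ m) := ⟨pow_ne_zero _ hp'.ne_zero⟩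
      obtain ⟨N, hN⟩ := ((Fintype.bijective_iff_injective_and_card _).2 ⟨hinj, by simp⟩).2 (kk : ZMod (p ^ m))
      refine ⟨N, ?_⟩
      have := (ZMod.intCast_eq_intCast_iff _ _ _).1 hN.symm
      rw [Int.modEq_iff_dvd, Nat.cast_pow] at this
      exact this
    have e : D.a ^ Cfsg.Agent.H73.Geom.S (D.r ^ j) N = D.a ^ kk := by
      rw [← mul_inv_eq_one, ← zpow_neg, ← zpow_add, ← orderOf_dvd_iff_zpow_eq_one, hm, Nat.cast_pow,
        ← sub_eq_add_neg]
      exact hN
    refine ⟨y ^ N, pow_mem (Subgroup.mem_zpowers y) N, (D.b ^ (j * N))⁻¹ * D.b ^ l,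
      mul_mem (inv_mem (pow_mem (Subgroup.mem_zpowers _) _)) (pow_mem (Subgroup.mem_zpowers _) _), ?_⟩
    rw [hpow, e, mul_assoc, mul_inv_cancel_left]

end Cfsg.Agent.S3884
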