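import Cfsg.Statements.S3885
import Mathlib
import Cfsg.Agent.H73.MetaSubgroups
-- import your own Cfsg.Agent.* helpers here

set_option autoImplicit false
open Cfsg

namespace Cfsg.Agent.S3885

/-- Let p be an odd prime and G a finite metacyclic p-group (G has a cyclic normal subgroup with cyclic quotient). Then every abelian subgroup K of G containing the center of G is the center of its own centralizer: K = Z(C_G(K)). -/
theorem result {G : Type*} [Group G] [Finite G] {p : ℕ} [Fact p.Prime] (hp : p ≠ 2) (hG : IsPGroup p G) (hmc : Cfsg.IsMetacyclic G) (K : Subgroup G) (hK : IsMulCommutative ↥K) (hZ : Subgroup.center G ≤ K) :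
    K = Subgroup.centralizer (K : Set G) ⊓ Subgroup.centralizer (Subgroup.centralizer (K : Set G) : Set G) := by
  rw [Cfsg.Agent.H73.Meta.double_centralizer hp hG hmc hZ]
  refine (inf_eq_right.2 fun a ha => Subgroup.mem_centralizer_iff.2 fun b hb => ?_).symm
  exact congrArg Subtype.val (hK.is_comm.comm (⟨b, hb⟩ : K) ⟨a, ha⟩)

end Cfsg.Agent.S3885
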