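import Cfsg.Statements.S3895
import Cfsg.Agent.H73.TwoClasses
-- import your own Cfsg.Agent.* helpers here

set_option autoImplicit false
open Cfsg

namespace Cfsg.Agent.S3895

/-- Let G be a finite group with Sylow 2-subgroup P, and write k₂(G) for the number of conjugacy classes of G consisting of 2-elements (elements of 2-power order, the identity included). Then k₂(G) > |P|/2 if and only if G has a normal 2-complement and P has more than |P|/2 conjugacy classes. -/
theorem result {G : Type*} [Group G] [Finite G] (P : Sylow 2 G) :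
    Nat.card ↥(P : Subgroup G) < 2 * Nat.card {c : ConjClasses G // ∀ x ∈ c.carrier, ∃ k : ℕ, orderOf x = 2 ^ k} ↔
      Cfsg.HasNormalPComplement 2 G ∧ Nat.card ↥(P : Subgroup G) < 2 * Nat.card (ConjClasses ↥(P : Subgroup G)) := by
  refine ⟨fun h => ⟨Cfsg.Agent.H73.TwoClasses.hasNormalPComplement_of_many P h, ?_⟩, ?_⟩
  · exact h.trans_le (Nat.mul_le_mul_left _ (Cfsg.Agent.H73.kP_le_conjClasses P))
  · rintro ⟨⟨Q, N, hN, hQ⟩, hlt⟩
    have hcardPQ : Nat.card ↥(Q : Subgroup G) = Nat.card ↥(P : Subgroup G) :=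
      Nat.card_congr (Q.equiv P).toEquiv
    have hnd : ¬ 2 ∣ Nat.card N := by
      rw [← hQ.index_eq_card]; exact Q.not_dvd_index
    have hcomp : N.IsComplement' (P : Subgroup G) := by
      refine Subgroup.isComplement'_of_coprime ?_ ?_
      · rw [← hcardPQ]; exact hQ.card_mul_card
      · obtain ⟨k, hk⟩ := P.isPGroup'.exists_card_eq
        rw [hk]; exact ((Nat.prime_two.coprime_iff_not_dvd.2 hnd).symm).pow_right _
    let φ : G →* ↥(P : Subgroup G) := hcomp.symm.QuotientMulEquiv.toMonoidHom.comp (QuotientGroup.mk' N)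
    have hφ : ∀ x : ↥(P : Subgroup G), φ x = x := fun x => by
      show hcomp.symm.QuotientMulEquiv (QuotientGroup.mk (x : G)) = x
      rw [← MulEquiv.eq_symm_apply]; rfl
    let f : ConjClasses ↥(P : Subgroup G) → {c : ConjClasses G // ∀ x ∈ c.carrier, ∃ k : ℕ, orderOf x = 2 ^ k} :=
      fun c => ⟨ConjClasses.mk (c.out : G), (Cfsg.Agent.H73.forall_carrier_mk
        (P := fun y : G => ∃ k : ℕ, orderOf y = 2 ^ k)
        (fun g y h => by rwa [Cfsg.Agent.H73.orderOf_conj_eq])).2 (by
          rw [Subgroup.orderOf_coe]; exact IsPGroup.iff_orderOf.1 P.isPGroup' _)⟩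
    have hinj : Function.Injective f := by
      intro a b h
      obtain ⟨g, hg⟩ := isConj_iff.1 (ConjClasses.mk_eq_mk_iff_isConj.1 (congrArg Subtype.val h))
      have h2 := congrArg φ hg
      rw [map_mul, map_mul, map_inv, hφ, hφ] at h2
      have h3 : ConjClasses.mk a.out = ConjClasses.mk b.out :=
        ConjClasses.mk_eq_mk_iff_isConj.2 (isConj_iff.2 ⟨φ g, h2⟩)
      exact (Quotient.out_eq a).symm.trans (h3.trans (Quotient.out_eq b))
    exact hlt.trans_le (Nat.mul_le_mul_left _ (Nat.card_le_card_of_injective f hinj))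

end Cfsg.Agent.S3895
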