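import Cfsg.Statements.S3897
import Cfsg.Agent.H73.ClassCount
-- import your own Cfsg.Agent.* helpers here

set_option autoImplicit false
open Cfsg

namespace Cfsg.Agent.S3897

/-- Let p be an odd prime and G a finite group with Sylow p-subgroup P, and write k_p(G) for the number of conjugacy classes of G consisting of p-elements (elements of p-power order, the identity included). Then k_p(G) > (p + 1)|P|/(2p) if and only if G has a normal p-complement and P is abelian. -/
theorem result {G : Type*} [Group G] [Finite G] {p : ℕ} [Fact p.Prime] (hp : p ≠ 2) (P : Sylow p G) :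
    (p + 1) * Nat.card ↥(P : Subgroup G) < 2 * p * Nat.card {c : ConjClasses G // ∀ x ∈ c.carrier, ∃ k : ℕ, orderOf x = p ^ k} ↔
      Cfsg.HasNormalPComplement p G ∧ IsMulCommutative ↥(P : Subgroup G) := by
  refine ⟨fun h => ?_, ?_⟩
  · obtain ⟨hc, hN⟩ := Cfsg.Agent.H73.comm_and_le_centralizer hp P h
    exact ⟨Cfsg.Agent.H73.hasNormalPComplement_of_le P hN, hc⟩
  · rintro ⟨⟨Q, N, hN, hcomp⟩, hab⟩
    have hQc : IsMulCommutative (Q : Subgroup G) := by
      refine ⟨⟨fun a b => (P.equiv Q).symm.injective ?_⟩⟩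
      rw [map_mul, map_mul]
      exact hab.is_comm.comm _ _
    let e := hcomp.symm.QuotientMulEquiv
    let φ : G →* ↥(Q : Subgroup G) := e.toMonoidHom.comp (QuotientGroup.mk' N)
    have hφ : ∀ x : ↥(Q : Subgroup G), φ x = x := fun x => by
      show e (QuotientGroup.mk (x : G)) = x
      rw [← MulEquiv.eq_symm_apply]; rfl
    let f : ↥(Q : Subgroup G) → {c : ConjClasses G // ∀ x ∈ c.carrier, ∃ k : ℕ, orderOf x = p ^ k} :=
      fun x => ⟨ConjClasses.mk (x : G), (Cfsg.Agent.H73.forall_carrier_mk
        (P := fun y : G => ∃ k : ℕ, orderOf y = p ^ k)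
        (fun g y h => by rwa [Cfsg.Agent.H73.orderOf_conj_eq])).2 (by
          rw [Subgroup.orderOf_coe]; exact IsPGroup.iff_orderOf.1 Q.isPGroup' x)⟩
    have hinj : Function.Injective f := by
      intro x y h
      obtain ⟨g, hg⟩ := isConj_iff.1 (ConjClasses.mk_eq_mk_iff_isConj.1 (congrArg Subtype.val h))
      have h2 := congrArg φ hg
      rw [map_mul, map_mul, map_inv, hφ, hφ, hQc.is_comm.comm (φ g) x, mul_inv_cancel_right] at h2
      exact h2
    have hle := Nat.card_le_card_of_injective f hinj
    rw [Nat.card_congr (Q.equiv P).toEquiv] at hle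
    have hp2 := (Fact.out : p.Prime).two_le
    calc (p + 1) * Nat.card ↥(P : Subgroup G) < 2 * p * Nat.card ↥(P : Subgroup G) :=
          Nat.mul_lt_mul_of_pos_right (by omega) Nat.card_pos
      _ ≤ _ := Nat.mul_le_mul_left _ hle

end Cfsg.Agent.S3897
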