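import Cfsg.Statements.S3898
import Cfsg.Agent.H73.TwoClasses
-- import your own Cfsg.Agent.* helpers here

set_option autoImplicit false
open Cfsg

namespace Cfsg.Agent.S3898

/-- Let π be a finite set of primes containing 2 and G a finite group. Write k_π(G) for the number of conjugacy classes of G consisting of π-elements (elements all of whose order's prime divisors lie in π) and |G|_π for the π-part of the order of G. If k_π(G) > |G|_π/2, then G has a normal π-complement (a normal subgroup of order prime to π whose index is a π-number) and an abelian Hall subgroup for the set of odd primes in π. -/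
theorem result {G : Type*} [Group G] [Finite G] (π : Finset ℕ) (hπ : ∀ r ∈ π, r.Prime) (h2 : 2 ∈ π)
    (hk : π.prod (fun r => r ^ (Nat.card G).factorization r) < 2 * Nat.card {c : ConjClasses G // ∀ x ∈ c.carrier, ∀ r : ℕ, r.Prime → r ∣ orderOf x → r ∈ π}) :
    (∃ N : Subgroup G, N.Normal ∧ (∀ r : ℕ, r.Prime → r ∣ Nat.card ↥N → r ∉ π) ∧ ∀ r : ℕ, r.Prime → r ∣ N.index → r ∈ π) ∧ ∃ H : Subgroup G, Cfsg.IsPiHall ((↑π : Set ℕ) \ {2}) H ∧ IsMulCommutative ↥H := by
  classical
  have hfac : ∀ r ∈ π, r ^ (Nat.card G).factorization r < 2 * Cfsg.Agent.H73.kP r G := by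
    intro r hr
    have hb := Cfsg.Agent.H73.kPi_le_kP_mul (G := G) hπ hr
    rw [← Finset.mul_prod_erase π _ hr] at hk
    refine Nat.lt_of_mul_lt_mul_right (a := (π.erase r).prod fun q => q ^ (Nat.card G).factorization q) ?_
    calc _ < _ := hk
      _ ≤ _ := Nat.mul_le_mul_left 2 hb
      _ = _ := by ring
  haveI : Fact (Nat.Prime 2) := ⟨Nat.prime_two⟩
  obtain ⟨S0⟩ : Nonempty (Sylow 2 G) := inferInstance
  obtain ⟨Q, N2, hN2, hQ⟩ := Cfsg.Agent.H73.TwoClasses.hasNormalPComplement_of_many S0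
    (by rw [Sylow.card_eq_multiplicity S0]; exact hfac 2 h2)
  have hN2odd : ¬ 2 ∣ Nat.card N2 := by rw [← hQ.index_eq_card]; exact Q.not_dvd_index
  obtain ⟨e2, he2⟩ : ∃ e, N2.index = 2 ^ e := by
    rw [hQ.symm.index_eq_card]; exact Q.isPGroup'.exists_card_eq
  set π' := π.erase 2
  have hπ' : ∀ r ∈ π', r.Prime := fun r hr => hπ r (Finset.mem_of_mem_erase hr)
  have key : ∀ r ∈ π', ∃ N : Subgroup N2, N.Normal ∧ ¬ r ∣ Nat.card N ∧ (∃ k, N.index = r ^ k) ∧
      ∀ a b : N2, (a * b)⁻¹ * (b * a) ∈ N := by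
    intro r hr
    have hrp := hπ' r hr
    haveI := Fact.mk hrp
    have hr2 : r ≠ 2 := Finset.ne_of_mem_erase hr
    have hr3 : 3 ≤ r := by have := hrp.two_le; omega
    obtain ⟨R⟩ : Nonempty (Sylow r G) := inferInstance
    have hkr := hfac r (Finset.mem_of_mem_erase hr)
    rw [← Sylow.card_eq_multiplicity R] at hkr
    have hab : IsMulCommutative ↥(R : Subgroup G) := by
      by_contra hna
      have h1 := Cfsg.Agent.H73.kP_le_of_not_comm R hna
      have h3 : 2 * (r * r + (r - 1)) ≤ r * r * r := by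
        have : 3 * (r * r) ≤ r * r * r := Nat.mul_le_mul_right r (Nat.mul_le_mul_right r hr3) |>.trans' (by ring_nf; exact le_rfl)
        have : 3 * r ≤ r * r := Nat.mul_le_mul_right r hr3
        omega
      have h4 := Nat.mul_le_mul_right (Nat.card ↥(R : Subgroup G)) h3
      have h5 : r * r * r * Nat.card ↥(R : Subgroup G) < r * r * r * (2 * Cfsg.Agent.H73.kP r G) :=
        Nat.mul_lt_mul_of_pos_left hkr (by positivity)
      have e : r * r * r * (2 * Cfsg.Agent.H73.kP r G) = 2 * (r * r * r * Cfsg.Agent.H73.kP r G) := by ring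
      rw [Nat.mul_assoc] at h4
      omega
    have hRN : (R : Subgroup G) ≤ N2 := by
      intro y hy
      rw [← QuotientGroup.eq_one_iff, ← orderOf_eq_one_iff]
      obtain ⟨k, hk'⟩ := IsPGroup.iff_orderOf.1 R.isPGroup' ⟨y, hy⟩
      rw [Subgroup.orderOf_mk] at hk'
      have h1 := orderOf_map_dvd (QuotientGroup.mk' N2) y
      rw [hk'] at h1
      have h2' : orderOf (QuotientGroup.mk' N2 y) ∣ 2 ^ e2 := by
        rw [← he2]; exact _root_.orderOf_dvd_natCard _
      exact Nat.dvd_one.1 (((Nat.coprime_primes hrp Nat.prime_two).2 hr2).pow k e2 ▸ Nat.dvd_gcd h1 h2')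
    have hcen : Subgroup.normalizer ((R : Subgroup G) : Set G) ⊓ N2 ≤
        Subgroup.centralizer ((R : Subgroup G) : Set G) := by
      by_contra hmove
      obtain ⟨g, hg, hgr, y, hy, hgy⟩ := Cfsg.Agent.H73.exists_pPrime_moving R hab _ inf_le_left hmove
      have hg2 : ¬ 2 ∣ orderOf g := fun h => hN2odd (h.trans (Subgroup.orderOf_dvd_natCard _ hg.2))
      have hlt : (R : Subgroup G) ⊓ Subgroup.centralizer {g} < (R : Subgroup G) :=
        lt_of_le_of_ne inf_le_left fun he => hgy (Subgroup.mem_centralizer_singleton_iff.1 ((he.ge hy).2)).symm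
      have hF := Cfsg.Agent.H73.card_mul_le_of_lt R.isPGroup' hlt
      by_cases hr33 : r = 3
      · subst hr33
        have h5 := Cfsg.Agent.H73.kP_le_of_normalizing R g hg.1 5 (fun d h0 hd => by
          interval_cases d
          · exact Nat.coprime_one_left _
          · exact Nat.prime_two.coprime_iff_not_dvd.2 hg2
          · exact hrp.coprime_iff_not_dvd.2 hgr
          · exact (Nat.prime_two.coprime_iff_not_dvd.2 hg2).pow_left 2)
        omega
      · have h5 := Cfsg.Agent.H73.kP_le_of_normalizing R g hg.1 3 (fun d h0 hd => by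
          interval_cases d
          · exact Nat.coprime_one_left _
          · exact Nat.prime_two.coprime_iff_not_dvd.2 hg2)
        have h4 : 4 * Nat.card ↥((R : Subgroup G) ⊓ Subgroup.centralizer {g}) ≤ Nat.card ↥(R : Subgroup G) :=
          le_trans (Nat.mul_le_mul_right _ (by omega)) hF
        omega
    have hNR : Subgroup.normalizer ((R.subtype hRN : Subgroup N2) : Set N2) ≤
        Subgroup.centralizer ((R.subtype hRN : Subgroup N2) : Set N2) := by
      intro n hn
      have hn' : (n : G) ∈ Subgroup.normalizer ((R : Subgroup G) : Set G) := by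
        refine Subgroup.mem_normalizer_iff.2 fun y => ⟨fun hy => ?_, fun hy => ?_⟩
        · have := (Subgroup.mem_normalizer_iff.1 hn ⟨y, hRN hy⟩).1 hy
          exact this
        · have hy2 : y ∈ N2 := by
            have := mul_mem (mul_mem (inv_mem n.2) (hRN hy)) n.2
            simpa [mul_assoc] using this
          exact (Subgroup.mem_normalizer_iff.1 hn ⟨y, hy2⟩).2 hy
      refine Subgroup.mem_centralizer_iff.2 fun y hy => Subtype.ext ?_
      exact Subgroup.mem_centralizer_iff.1 (hcen ⟨hn', n.2⟩) (y : G) hy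
    have hcomp := MonoidHom.ker_transferSylow_isComplement' (R.subtype hRN) hNR
    refine ⟨_, inferInstance, MonoidHom.not_dvd_card_ker_transferSylow (R.subtype hRN) hNR, ?_, fun a b => ?_⟩
    · rw [hcomp.symm.index_eq_card]; exact (R.subtype hRN).isPGroup'.exists_card_eq
    · rw [← QuotientGroup.eq_one_iff]
      apply hcomp.symm.QuotientMulEquiv.injective
      simp only [QuotientGroup.mk_mul, QuotientGroup.mk_inv, map_mul, map_inv, map_one]
      rw [inv_mul_eq_one]
      refine Subtype.ext (Subtype.ext ?_)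
      simp only [Subgroup.coe_mul]
      exact congrArg Subtype.val (hab.is_comm.comm ⟨_, (hcomp.symm.QuotientMulEquiv (QuotientGroup.mk a)).2⟩
        ⟨_, (hcomp.symm.QuotientMulEquiv (QuotientGroup.mk b)).2⟩)
  obtain ⟨M, hM, h1, h3, hcomm⟩ := Cfsg.Agent.H73.exists_pi_complement π' hπ' key
  have hM2 : ∀ r : ℕ, r.Prime → r ∣ Nat.card M → r ∉ π := by
    intro r hr hd hrπ
    refine h1 r hr hd (Finset.mem_erase.2 ⟨?_, hrπ⟩)
    rintro rfl
    exact hN2odd (hd.trans (Subgroup.card_subgroup_dvd_card M))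
  refine ⟨⟨M.map N2.subtype, ⟨?_⟩, ?_, ?_⟩, ?_⟩
  · rintro - ⟨y, hy, rfl⟩ g
    refine ⟨⟨g * y * g⁻¹, hN2.conj_mem _ y.2 g⟩, ?_, rfl⟩
    rw [SetLike.mem_coe, ← QuotientGroup.eq_one_iff, ← orderOf_eq_one_iff]
    by_contra hne
    obtain ⟨r, hr, hrd⟩ := Nat.exists_prime_and_dvd hne
    have hr1 : r ∈ π' := h3 r hr (hrd.trans (_root_.orderOf_dvd_natCard _))
    refine h1 r hr ?_ hr1
    have h4 := hrd.trans (orderOf_map_dvd (QuotientGroup.mk' M) _)
    rw [Subgroup.orderOf_mk, Cfsg.Agent.H73.orderOf_conj_eq, Subgroup.orderOf_coe] at h4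
    exact h4.trans (Subgroup.orderOf_dvd_natCard _ hy)
  · intro r hr hd
    rw [Subgroup.card_map_of_injective N2.subtype_injective] at hd
    exact hM2 r hr hd
  · intro r hr hd
    rw [Subgroup.index_map_subtype] at hd
    rcases hr.dvd_mul.1 hd with h | h
    · exact Finset.mem_of_mem_erase (h3 r hr h)
    · rw [he2] at h
      rwa [(Nat.prime_dvd_prime_iff_eq hr Nat.prime_two).1 (hr.dvd_of_dvd_pow h)]
  · obtain ⟨H, ⟨hH1, hH2⟩, hHc⟩ := Cfsg.Agent.H73.exists_hall_of_pi_complement (↑π' : Set ℕ) M hM h1 h3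
    refine ⟨H.map N2.subtype, ⟨?_, ?_⟩, ⟨⟨?_⟩⟩⟩
    · intro r hr hd
      rw [Subgroup.card_map_of_injective N2.subtype_injective] at hd
      obtain ⟨hr2, hrπ⟩ := Finset.mem_erase.1 (hH1 r hr hd)
      exact ⟨hrπ, hr2⟩
    · rintro r hr ⟨hrπ, hr2⟩ hd
      rw [Subgroup.index_map_subtype] at hd
      rcases hr.dvd_mul.1 hd with h | h
      · exact hH2 r hr (Finset.mem_erase.2 ⟨hr2, hrπ⟩) h
      · rw [he2] at h
        exact hr2 ((Nat.prime_dvd_prime_iff_eq hr Nat.prime_two).1 (hr.dvd_of_dvd_pow h))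
    · rintro ⟨-, a, ha, rfl⟩ ⟨-, b, hb, rfl⟩
      apply Subtype.ext
      show ((a * b : N2) : G) = ((b * a : N2) : G)
      congr 1
      have hz : (a * b)⁻¹ * (b * a) ∈ M ⊓ H :=
        ⟨hcomm a b, H.mul_mem (H.inv_mem (H.mul_mem ha hb)) (H.mul_mem hb ha)⟩
      rw [disjoint_iff.1 hHc.disjoint, Subgroup.mem_bot, inv_mul_eq_one] at hz
      exact hz

end Cfsg.Agent.S3898
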