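import Cfsg.Statements.S3899
import Cfsg.Agent.H73.ClassCount
-- import your own Cfsg.Agent.* helpers here

set_option autoImplicit false
open Cfsg

namespace Cfsg.Agent.S3899

/-- Let π be a finite non-empty set of odd primes with smallest member p and G a finite group. Write k_π(G) for the number of conjugacy classes of G consisting of π-elements (elements all of whose order's prime divisors lie in π) and |G|_π for the π-part of the order of G. If k_π(G) > (p + 1)|G|_π/(2p), then G has a normal π-complement (a normal subgroup of order prime to π whose index is a π-number) and an abelian Hall π-subgroup. -/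
theorem result {G : Type*} [Group G] [Finite G] (π : Finset ℕ) (hπ : ∀ r ∈ π, r.Prime) (h2 : 2 ∉ π) (p : ℕ) (hp : p ∈ π)
    (hmin : ∀ r ∈ π, p ≤ r) (hk : (p + 1) * π.prod (fun r => r ^ (Nat.card G).factorization r) < 2 * p * Nat.card {c : ConjClasses G // ∀ x ∈ c.carrier, ∀ r : ℕ, r.Prime → r ∣ orderOf x → r ∈ π}) :
    (∃ N : Subgroup G, N.Normal ∧ (∀ r : ℕ, r.Prime → r ∣ Nat.card ↥N → r ∉ π) ∧ ∀ r : ℕ, r.Prime → r ∣ N.index → r ∈ π) ∧ ∃ H : Subgroup G, Cfsg.IsPiHall (↑π : Set ℕ) H ∧ IsMulCommutative ↥H := by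
  classical
  have hp0 : 0 < p := (hπ p hp).pos
  have key : ∀ r ∈ π, ∃ N : Subgroup G, N.Normal ∧ ¬ r ∣ Nat.card N ∧ (∃ k, N.index = r ^ k) ∧
      ∀ a b : G, (a * b)⁻¹ * (b * a) ∈ N := by
    intro r hr
    haveI := Fact.mk (hπ r hr)
    obtain ⟨P⟩ : Nonempty (Sylow r G) := inferInstance
    have hr2 : r ≠ 2 := fun h => h2 (h ▸ hr)
    have hb := Cfsg.Agent.H73.kPi_le_kP_mul (G := G) hπ hr
    have hpr : (r + 1) * Nat.card (P : Subgroup G) < 2 * r * Cfsg.Agent.H73.kP r G := by
      rw [← Finset.mul_prod_erase π _ hr, ← Sylow.card_eq_multiplicity P] at hk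
      set A := Nat.card (P : Subgroup G)
      set K := Cfsg.Agent.H73.kP r G
      set B := (π.erase r).prod fun q => q ^ (Nat.card G).factorization q
      have h1 : (p + 1) * A * B < 2 * p * K * B := by
        calc (p + 1) * A * B = (p + 1) * (A * B) := by ring
          _ < _ := hk
          _ ≤ 2 * p * (K * B) := Nat.mul_le_mul_left _ hb
          _ = _ := by ring
      have h3 : (p + 1) * A < 2 * p * K := Nat.lt_of_mul_lt_mul_right h1
      refine Nat.lt_of_mul_lt_mul_left (a := p) ?_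
      have h4 : p * (r + 1) ≤ r * (p + 1) := by have := hmin r hr; linarith [Nat.mul_comm p r]
      calc p * ((r + 1) * A) = p * (r + 1) * A := by ring
        _ ≤ r * (p + 1) * A := Nat.mul_le_mul_right _ h4
        _ = r * ((p + 1) * A) := by ring
        _ < r * (2 * p * K) := Nat.mul_lt_mul_of_pos_left h3 (hπ r hr).pos
        _ = _ := by ring
    obtain ⟨hc, hN⟩ := Cfsg.Agent.H73.comm_and_le_centralizer hr2 P hpr
    have hcomp := MonoidHom.ker_transferSylow_isComplement' P hN
    refine ⟨_, inferInstance, MonoidHom.not_dvd_card_ker_transferSylow P hN, ?_, fun a b => ?_⟩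
    · rw [hcomp.symm.index_eq_card]; exact P.isPGroup'.exists_card_eq
    · rw [← QuotientGroup.eq_one_iff]
      apply hcomp.symm.QuotientMulEquiv.injective
      simp only [QuotientGroup.mk_mul, QuotientGroup.mk_inv, map_mul, map_inv, map_one]
      rw [inv_mul_eq_one]
      exact hc.is_comm.comm _ _
  obtain ⟨N, hN, h1, h3, hcomm⟩ := Cfsg.Agent.H73.exists_pi_complement π hπ key
  refine ⟨⟨N, hN, h1, h3⟩, ?_⟩
  obtain ⟨H, hH, hcomp⟩ := Cfsg.Agent.H73.exists_hall_of_pi_complement (↑π : Set ℕ) N hN h1 h3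
  refine ⟨H, hH, ⟨⟨fun a b => ?_⟩⟩⟩
  apply hcomp.symm.QuotientMulEquiv.symm.injective
  obtain ⟨x, hx⟩ := QuotientGroup.mk_surjective (hcomp.symm.QuotientMulEquiv.symm a)
  obtain ⟨y, hy⟩ := QuotientGroup.mk_surjective (hcomp.symm.QuotientMulEquiv.symm b)
  rw [map_mul, map_mul, ← hx, ← hy, ← QuotientGroup.mk_mul, ← QuotientGroup.mk_mul, QuotientGroup.eq]
  exact hcomm x y

end Cfsg.Agent.S3899
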