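import Cfsg.Statements.S3901
import Mathlib
import Cfsg.Agent.H73.PPCoset.Main
-- import your own Cfsg.Agent.* helpers here

set_option autoImplicit false
set_option linter.style.haveILetI false
open Cfsg

namespace Cfsg.Agent.S3901

/-- Let N be a non-trivial normal subgroup of the finite group G such that every element of G outside N has prime power order. If N is not solvable, then G/N is solvable. -/
theorem result {G : Type*} [Group G] [Finite G] (N : Subgroup G) [N.Normal] (hN : N ≠ ⊥) (hns : ¬ Group.IsSolvable ↥N)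
    (h : ∀ x : G, x ∉ N → IsPrimePow (orderOf x)) : Group.IsSolvable (G ⧸ N) := by
  by_contra hX
  obtain ⟨r, hr, hrd, hr2, -⟩ :=
    Cfsg.Agent.H73.PPCoset.exists_prime_dvd_of_nonsolvable hns Nat.prime_two Nat.prime_two
  obtain ⟨r', hr', hrd', hr2', hne⟩ :=
    Cfsg.Agent.H73.PPCoset.exists_prime_dvd_of_nonsolvable hns Nat.prime_two hr
  haveI : IsZGroup (G ⧸ N) := ⟨fun q hq Q => by
    by_cases hqr : q = r
    · exact Cfsg.Agent.H73.PPCoset.sylow_cyclic h hX hr' hr2' hrd' q hq (hqr ▸ hne.symm) Q
    · exact Cfsg.Agent.H73.PPCoset.sylow_cyclic h hX hr hr2 hrd q hq hqr Q⟩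
  exact hX inferInstance

end Cfsg.Agent.S3901
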