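import Cfsg.Statements.S3903
import Cfsg.Agent.FGSev.MaxCentralizer

set_option autoImplicit false
open Cfsg

namespace Cfsg.Agent.S3903

/-- Let N be a proper normal subgroup of the finite group G such that every element x of G outside N has prime power order and has centralizer C_G(x) a maximal subgroup of G. Then N is solvable. -/
theorem result {G : Type*} [Group G] [Finite G] (N : Subgroup G) [N.Normal] (hN : N ≠ ⊤)
    (h : ∀ x : G, x ∉ N → IsPrimePow (orderOf x) ∧ IsCoatom (Subgroup.centralizer ({x} : Set G))) : Group.IsSolvable ↥N := by
  exact Cfsg.Agent.FGSev.solvable_of_prime_pow_maximal_centralizers N hN h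

end Cfsg.Agent.S3903
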