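import Cfsg.Statements.S3904
import Mathlib
import Cfsg.Agent.H73.MaxCent.Main
-- import your own Cfsg.Agent.* helpers here

set_option autoImplicit false
set_option linter.style.haveILetI false
open Cfsg

namespace Cfsg.Agent.S3904

/-- Let G be a non-abelian finite group in which the centralizer of every non-central element is a maximal subgroup. Then G/Z(G) is either an elementary abelian p-group for some prime p, or a minimal non-abelian group (non-abelian with all proper subgroups abelian) of order p^a · q for distinct primes p, q with a normal Sylow p-subgroup. -/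
theorem result {G : Type*} [Group G] [Finite G] (hna : ¬ IsMulCommutative G)
    (h : ∀ x : G, x ∉ Subgroup.center G → IsCoatom (Subgroup.centralizer ({x} : Set G))) :
    (∃ p : ℕ, p.Prime ∧ Cfsg.IsElementaryAbelian p (⊤ : Subgroup (G ⧸ Subgroup.center G))) ∨
    (¬ IsMulCommutative (G ⧸ Subgroup.center G) ∧ (∀ H : Subgroup (G ⧸ Subgroup.center G), H ≠ ⊤ → IsMulCommutative ↥H) ∧
      ∃ p q a : ℕ, p.Prime ∧ q.Prime ∧ p ≠ q ∧ Nat.card (G ⧸ Subgroup.center G) = p ^ a * q ∧
        ∀ P : Subgroup (G ⧸ Subgroup.center G), Nat.card ↥P = p ^ a → P.Normal) := by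
  let S : Cfsg.Agent.H73.MaxCent.Setup G G :=
    { φ := MulAut.conj
      c := MonoidHom.id G
      hc := fun n m => by simp
      hmax := fun x hx H hle => by
        rintro ⟨g, hg, hgx⟩
        refine (h x hx).2 H (lt_of_le_of_ne (fun k hk => hle k ?_) fun e => hgx ?_)
        · rw [MulAut.conj_apply, mul_inv_eq_iff_eq_mul]
          exact Subgroup.mem_centralizer_singleton_iff.1 hk
        · rw [← e] at hg
          rw [MulAut.conj_apply, mul_inv_eq_iff_eq_mul]
          exact Subgroup.mem_centralizer_singleton_iff.1 hg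
      hproper := fun x hx => by
        by_contra hne
        push Not at hne
        refine hx (Subgroup.mem_center_iff.2 fun m => ?_)
        have h1 := hne m
        rw [MulAut.conj_apply, mul_inv_eq_iff_eq_mul] at h1
        exact h1 }
  rcases S.dichotomy with h' | ⟨x, hx, hF, hpr, K, r, hr, hKn, hKs, hKe, hc⟩
  · exact Or.inl h'
  right
  set Q := Cfsg.Agent.H73.MaxCent.czb x with hQ
  obtain ⟨a, ha⟩ : ∃ a, Nat.card K = r ^ a := by
    haveI : Fact r.Prime := ⟨hr⟩
    exact IsPGroup.iff_card.1 fun k => ⟨1, Subtype.ext (by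
      show (k : G ⧸ Subgroup.center G) ^ r ^ 1 = 1
      rw [pow_one]; exact hKe.2 _ k.2)⟩
  have hcard : Nat.card (G ⧸ Subgroup.center G) = r ^ a * Nat.card Q := by
    rw [← ha, hc.card_mul]
  have hco : IsCoatom Q := by
    refine ⟨Cfsg.Agent.H73.MaxCent.czb_ne_top hx, fun H hH => ?_⟩
    have hle : Cfsg.Agent.H73.MaxCent.cz x < H.comap (QuotientGroup.mk' (Subgroup.center G)) := by
      refine lt_of_le_of_ne (fun y hy => hH.le (Subgroup.mem_map_of_mem _ hy)) fun e => hH.ne ?_
      rw [hQ, Cfsg.Agent.H73.MaxCent.czb, e,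
        Subgroup.map_comap_eq_self_of_surjective (QuotientGroup.mk'_surjective _)]
    rw [← Subgroup.map_comap_eq_self_of_surjective
      (QuotientGroup.mk'_surjective (Subgroup.center G)) H, (h x hx).2 _ hle,
      Subgroup.map_top_of_surjective _ (QuotientGroup.mk'_surjective _)]
  have hmem : ∀ w : G ⧸ Subgroup.center G, w ∈ K ∨ ∃ g, w ≠ 1 ∧ g⁻¹ * w * g ∈ Q := by
    intro w
    by_cases hw : w ∈ K
    · exact Or.inl hw
    rw [← SetLike.mem_coe, hKs, Cfsg.Agent.Frobenius.mem_frobeniusKernel] at hw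
    push Not at hw
    obtain ⟨hw1, g, hg⟩ := hw
    exact Or.inr ⟨g, hw1, hg⟩
  haveI : Fact (Nat.card Q).Prime := ⟨hpr⟩
  refine ⟨fun hcomm => ?_, fun H hH => ?_, r, Nat.card Q, a, hr, hpr, ?_, hcard, fun P hP => ?_⟩
  · haveI := hcomm
    have hne : ∃ g, g ∉ Q := by
      by_contra hall
      push Not at hall
      exact hF.2.1 (eq_top_iff.2 fun g _ => hall g)
    obtain ⟨g, hg⟩ := hne
    obtain ⟨b, hb, hb1⟩ := Q.bot_or_exists_ne_one.resolve_left hF.1
    refine hb1 (Cfsg.Agent.Frobenius.ti_of_isFrobeniusComplement hF g hg b hb ?_)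
    rw [mul_comm' g b, mul_inv_cancel_right]
    exact hb
  · by_cases hHK : H ≤ K
    · haveI := hKe.1
      exact ⟨⟨fun u v => Subtype.ext (congrArg (fun k : K => (k : G ⧸ Subgroup.center G))
        (mul_comm' (⟨u, hHK u.2⟩ : K) ⟨v, hHK v.2⟩) :)⟩⟩
    obtain ⟨w, hwH, hwK⟩ := SetLike.not_le_iff_exists.1 hHK
    obtain ⟨g, hw1, hg⟩ := (hmem w).resolve_left hwK
    have hQc : IsCyclic Q := isCyclic_of_prime_card rfl
    have hconj : Q ≤ H.comap (MulAut.conj g).toMonoidHom := by
      intro b hb
      have htop : Subgroup.zpowers (⟨g⁻¹ * w * g, hg⟩ : Q) = ⊤ :=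
        (Subgroup.eq_bot_or_eq_top_of_prime_card _).resolve_left fun e => hw1 (by
          have := congrArg Subtype.val (Subgroup.zpowers_eq_bot.1 e)
          calc w = g * (g⁻¹ * w * g) * g⁻¹ := by group
            _ = 1 := by rw [show g⁻¹ * w * g = 1 from this]; group)
      obtain ⟨i, hi⟩ := Subgroup.mem_zpowers_iff.1 (htop ▸ Subgroup.mem_top (⟨b, hb⟩ : Q))
      have hb' : (g⁻¹ * w * g) ^ i = b := congrArg Subtype.val hi
      refine Subgroup.mem_comap.2 ?_
      rw [← hb', map_zpow]
      exact Subgroup.zpow_mem _ (by simpa [mul_assoc] using hwH) i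
    have heq : Q = H.comap (MulAut.conj g).toMonoidHom := by
      rcases (hco.le_iff).1 hconj with e | e
      · refine absurd ?_ hH
        rw [← Subgroup.map_comap_eq_self_of_surjective
          (f := (MulAut.conj g).toMonoidHom) (MulAut.conj g).surjective H, e,
          Subgroup.map_top_of_surjective _ (MulAut.conj g).surjective]
      · exact e.symm
    haveI : IsMulCommutative Q := ⟨⟨(IsCyclic.commGroup (α := Q)).mul_comm⟩⟩
    refine ⟨⟨fun u v => Subtype.ext ((MulAut.conj g).symm.injective ?_)⟩⟩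
    have hu : ∀ u : H, (MulAut.conj g).symm (u : G ⧸ Subgroup.center G) ∈ Q := fun u => by
      rw [heq]
      refine Subgroup.mem_comap.2 ?_
      show MulAut.conj g ((MulAut.conj g).symm (u : G ⧸ Subgroup.center G)) ∈ H
      rw [MulEquiv.apply_symm_apply]; exact u.2
    rw [Subgroup.coe_mul, Subgroup.coe_mul, map_mul, map_mul]
    exact congrArg Subtype.val (mul_comm' (⟨_, hu u⟩ : Q) ⟨_, hu v⟩)
  · intro e
    haveI := hKn
    have hd := Cfsg.Agent.Frobenius.coprime_of_complement hF hc
    rcases a with _ | a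
    · exact Cfsg.Agent.Frobenius.ne_bot_of_isComplement' hF hc
        (Subgroup.card_eq_one.1 (by simpa using ha))
    · rw [ha, ← e] at hd
      exact hr.ne_one (Nat.eq_one_of_dvd_coprimes hd (dvd_pow_self r a.succ_ne_zero) dvd_rfl)
  · haveI := hKn
    have hd := Cfsg.Agent.Frobenius.coprime_of_complement hF hc
    suffices P = K from this ▸ hKn
    refine Subgroup.eq_of_le_of_card_ge (fun w hw => ?_) (by rw [ha, hP])
    rcases hmem w with hwK | ⟨g, hw1, hg⟩
    · exact hwK
    exfalso
    apply hw1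
    have h1 : w ^ Nat.card K = 1 := by
      rw [ha, ← hP]
      exact congrArg Subtype.val (pow_card_eq_one' (x := (⟨w, hw⟩ : P)))
    have h2 : (g⁻¹ * w * g) ^ Nat.card Q = 1 :=
      congrArg Subtype.val (pow_card_eq_one' (x := (⟨_, hg⟩ : Q)))
    have h3 : (g⁻¹ * w * g) ^ Nat.card K = 1 := by
      have := conj_pow (a := g⁻¹) (b := w) (i := Nat.card K)
      rw [inv_inv] at this
      rw [this, h1, mul_one, inv_mul_cancel]
    have h4 := pow_gcd_eq_one.2 ⟨h3, h2⟩
    rw [hd.gcd_eq_one, pow_one] at h4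
    calc w = g * (g⁻¹ * w * g) * g⁻¹ := by group
      _ = 1 := by rw [h4]; group

end Cfsg.Agent.S3904
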