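import Cfsg.Statements.S3905
import Mathlib
import Cfsg.Agent.H73.MaxCent.Main
-- import your own Cfsg.Agent.* helpers here

set_option autoImplicit false
set_option linter.style.haveILetI false
open Cfsg

namespace Cfsg.Agent.S3905

/-- Let N be a normal subgroup of the finite group G such that for every element x of N outside the center of N the centralizer C_G(x) is a maximal subgroup of G. Then N/Z(N) is either an elementary abelian p-group for some prime p, or a Frobenius group whose kernel is an elementary abelian normal subgroup and whose complement has prime order. -/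
theorem result {G : Type*} [Group G] [Finite G] (N : Subgroup G) [N.Normal]
    (h : ∀ x : G, x ∈ N → x ∉ Subgroup.centralizer (N : Set G) → IsCoatom (Subgroup.centralizer ({x} : Set G))) :
    (∃ p : ℕ, p.Prime ∧ Cfsg.IsElementaryAbelian p (⊤ : Subgroup (↥N ⧸ Subgroup.center ↥N))) ∨
    (∃ (Q K : Subgroup (↥N ⧸ Subgroup.center ↥N)) (p : ℕ), p.Prime ∧ Cfsg.IsFrobeniusComplement Q ∧ (Nat.card ↥Q).Prime ∧
      K.Normal ∧ (K : Set (↥N ⧸ Subgroup.center ↥N)) = Cfsg.frobeniusKernel Q ∧ Cfsg.IsElementaryAbelian p K) := by
  let S : Cfsg.Agent.H73.MaxCent.Setup ↥N G :=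
    { φ := MulAut.conjNormal
      c := N.subtype
      hc := fun n m => Subtype.ext (by simp)
      hmax := fun x hx H hle => by
        rintro ⟨g, hg, hgx⟩
        have hx' : (x : G) ∉ Subgroup.centralizer (N : Set G) := fun hm =>
          hx (Subgroup.mem_center_iff.2 fun m => Subtype.ext (Subgroup.mem_centralizer_iff.1 hm m m.2))
        refine (h x x.2 hx').2 H (lt_of_le_of_ne (fun k hk => hle k (Subtype.ext ?_)) fun e => hgx ?_)
        · rw [MulAut.conjNormal_apply, mul_inv_eq_iff_eq_mul]
          exact Subgroup.mem_centralizer_singleton_iff.1 hk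
        · rw [← e] at hg
          apply Subtype.ext
          rw [MulAut.conjNormal_apply, mul_inv_eq_iff_eq_mul]
          exact Subgroup.mem_centralizer_singleton_iff.1 hg
      hproper := fun x hx => by
        by_contra hne
        push Not at hne
        refine hx (Subgroup.mem_center_iff.2 fun m => Subtype.ext ?_)
        have h1 := congrArg Subtype.val (hne (m : G))
        rw [MulAut.conjNormal_apply, mul_inv_eq_iff_eq_mul] at h1
        exact h1 }
  rcases S.dichotomy with h' | ⟨x, -, hF, hpr, K, r, hr, hKn, hKs, hKe, -⟩
  · exact Or.inl h'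
  · exact Or.inr ⟨_, K, r, hr, hF, hpr, hKn, hKs, hKe⟩

end Cfsg.Agent.S3905
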