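import Cfsg.Statements.S3909
import Mathlib
-- import your own Cfsg.Agent.* helpers here

set_option autoImplicit false
open Cfsg

namespace Cfsg.Agent.S3909

/-- Let G be a finite group in which any two abelian subgroups of the same order are conjugate. Let M be a normal subgroup of G. If M contains an element of the same order as a ∈ G, then a ∈ M; and if M is elementary abelian of order p^t with p prime and t ≥ 2, then M is the unique Sylow p-subgroup of G. -/
theorem result {G : Type*} [Group G] [Finite G] (hB : ∀ A B : Subgroup G, IsMulCommutative ↥A → IsMulCommutative ↥B → Nat.card ↥A = Nat.card ↥B → ∃ g : G, B = A.map (MulAut.conj g).toMonoidHom) (M : Subgroup G) [M.Normal] :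
    (∀ a : G, (∃ m ∈ M, orderOf m = orderOf a) → a ∈ M) ∧
    ∀ (p t : ℕ) [Fact p.Prime], 2 ≤ t → Nat.card ↥M = p ^ t → Cfsg.IsElementaryAbelian p M → ∀ P : Sylow p G, (P : Subgroup G) = M := by
  have hfirst : ∀ a : G, (∃ m ∈ M, orderOf m = orderOf a) → a ∈ M := by
    rintro a ⟨m, hm, hma⟩
    obtain ⟨g, hg⟩ := hB (Subgroup.zpowers m) (Subgroup.zpowers a) inferInstance inferInstance
      (by rw [Nat.card_zpowers, Nat.card_zpowers, hma])
    obtain ⟨y, hy, hye⟩ := hg.le (Subgroup.mem_zpowers a)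
    rw [← hye]
    exact (inferInstance : M.Normal).conj_mem y (Subgroup.zpowers_le.2 hm hy) g
  refine ⟨hfirst, fun p t _ ht hcard hel P => ?_⟩
  have hp : p.Prime := Fact.out
  have hMP : M ≤ P := by
    obtain ⟨Q, hQ⟩ := (IsPGroup.of_card (p := p) hcard).exists_le_sylow
    obtain ⟨g, hg⟩ := MulAction.exists_smul_eq G Q P
    intro y hy
    rw [← hg]
    refine ⟨g⁻¹ * y * g, hQ ?_, by simp [mul_assoc]⟩
    have := (inferInstance : M.Normal).conj_mem y hy g⁻¹
    rwa [inv_inv] at this
  obtain ⟨K, hKM, hKcard⟩ : ∃ K : Subgroup G, K ≤ M ∧ Nat.card K = p ^ 2 := by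
    obtain ⟨K, hK⟩ := Sylow.exists_subgroup_card_pow_prime (G := M) p (n := 2)
      (hcard ▸ pow_dvd_pow p ht)
    exact ⟨K.map M.subtype, Subgroup.map_subtype_le K,
      (Subgroup.card_map_of_injective M.subtype_injective).trans hK⟩
  refine le_antisymm (fun x hx => ?_) hMP
  obtain ⟨k, hk⟩ := IsPGroup.iff_orderOf.1 P.isPGroup' ⟨x, hx⟩
  rw [Subgroup.orderOf_mk] at hk
  rcases Nat.lt_or_ge k 2 with hk2 | hk2
  · by_cases hk0 : k = 0
    · rw [hk0, pow_zero, orderOf_eq_one_iff] at hk
      rw [hk]; exact one_mem M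
    · rw [show k = 1 by omega, pow_one] at hk
      have : Nontrivial M := by
        rw [← Finite.one_lt_card_iff_nontrivial, hcard]
        exact Nat.one_lt_pow (by omega) hp.one_lt
      obtain ⟨m, hm⟩ := exists_ne (1 : M)
      refine hfirst x ⟨m, m.2, ?_⟩
      rw [hk]
      exact orderOf_eq_prime (hel.2 m m.2) fun h => hm (Subtype.ext h)
  · exfalso
    set u := x ^ p ^ (k - 2) with hu
    have hu2 : orderOf u = p ^ 2 := by
      rw [hu, orderOf_pow_of_dvd (pow_ne_zero _ hp.ne_zero) (hk ▸ pow_dvd_pow p (by omega)), hk,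
        Nat.pow_div (by omega) hp.pos]
      congr 1; omega
    obtain ⟨g, hg⟩ := hB K (Subgroup.zpowers u)
      ⟨⟨fun a b => Subtype.ext (congrArg (fun z : M => (z : G)) (hel.1.is_comm.comm (⟨a.1, hKM a.2⟩ : M) ⟨b.1, hKM b.2⟩) : a.1 * b.1 = b.1 * a.1)⟩⟩
      inferInstance (by rw [hKcard, Nat.card_zpowers, hu2])
    obtain ⟨y, hy, hye⟩ := hg.le (Subgroup.mem_zpowers u)
    have h1 : orderOf u = orderOf y := by
      rw [← hye]; exact MulEquiv.orderOf_eq (MulAut.conj g) y
    have h2 := orderOf_dvd_of_pow_eq_one (hel.2 y (hKM hy))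
    rw [← h1, hu2] at h2
    have h3 := Nat.le_of_dvd hp.pos h2
    have : p < p ^ 2 := lt_self_pow₀ hp.one_lt (by norm_num)
    omega

end Cfsg.Agent.S3909
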