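import Cfsg.Statements.S3910
import Mathlib
import Cfsg.Agent.SolvStruct.Nilpotent
import Cfsg.Agent.PGroup.Rank
import Cfsg.Agent.PGroup.Basic
-- import your own Cfsg.Agent.* helpers here

set_option autoImplicit false
open Cfsg

namespace Cfsg.Agent.S3910

/-- A finite nilpotent group in which any two abelian subgroups of the same order are conjugate is cyclic. -/
theorem result {G : Type*} [Group G] [Finite G] (hB : ∀ A B : Subgroup G, IsMulCommutative ↥A → IsMulCommutative ↥B → Nat.card ↥A = Nat.card ↥B → ∃ g : G, B = A.map (MulAut.conj g).toMonoidHom) (hnil : Group.IsNilpotent G) : IsCyclic G := by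
  classical
  have hconj := fun (a b : G) (h : orderOf a = orderOf b) =>
    hB (Subgroup.zpowers a) (Subgroup.zpowers b) inferInstance inferInstance
      (by rw [Nat.card_zpowers, Nat.card_zpowers, h])
  haveI := hnil
  suffices hall : ∀ (p : ℕ) [Fact p.Prime] (P : Sylow p G), IsCyclic (P : Subgroup G) by
    haveI : IsZGroup G := ⟨fun p hp P => by haveI := Fact.mk hp; exact hall p P⟩
    infer_instance
  intro p _ P
  have hp : p.Prime := Fact.out
  have hPn : (P : Subgroup G).Normal := (inferInstance : (P : Subgroup G).Normal)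
  have hPp := P.isPGroup'
  by_cases hbot : (P : Subgroup G) = ⊥
  · rw [hbot]; infer_instance
  haveI : Nontrivial (P : Subgroup G) := (P : Subgroup G).nontrivial_iff_ne_bot.2 hbot
  -- the elements of order p form the subgroup generated by one central element
  obtain ⟨n, hn0, hn⟩ := hPp.nontrivial_iff_card.1 inferInstance
  obtain ⟨z0, hz0⟩ : ∃ z : G, z ∈ (P : Subgroup G) ⊓ Subgroup.center G ∧ z ≠ 1 := by
    by_contra hno
    push Not at hno
    apply hbot
    by_contra hne
    haveI := hPn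
    exact Cfsg.Agent.SolvStruct.nilpotent_inf_center_ne_bot (P : Subgroup G) hne (eq_bot_iff.2 fun z hz => hno z hz)
  obtain ⟨hz0', hz01⟩ := hz0
  obtain ⟨k, hk⟩ := IsPGroup.iff_orderOf.1 hPp ⟨z0, hz0'.1⟩
  rw [Subgroup.orderOf_mk] at hk
  have hk0 : k ≠ 0 := by intro h; rw [h, pow_zero, orderOf_eq_one_iff] at hk; exact hz01 hk
  set z := z0 ^ p ^ (k - 1)
  have hz : orderOf z = p := by
    rw [orderOf_pow_of_dvd (pow_ne_zero _ hp.ne_zero) (hk ▸ pow_dvd_pow p (by omega)), hk,
      Nat.pow_div (by omega) hp.pos, show k - (k - 1) = 1 by omega, pow_one]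
  have hzc : z ∈ Subgroup.center G := pow_mem hz0'.2 _
  have hone : ∀ y : G, orderOf y = p → y ∈ Subgroup.zpowers z := by
    intro y hy
    obtain ⟨g, hg⟩ := hconj z y (hz.trans hy.symm)
    obtain ⟨w, ⟨i, rfl⟩, hwe⟩ := hg.le (Subgroup.mem_zpowers y)
    refine ⟨i, ?_⟩
    rw [← hwe]
    show z ^ i = g * z ^ i * g⁻¹
    rw [Subgroup.mem_center_iff.1 (zpow_mem hzc i) g, mul_inv_cancel_right]
  -- commutative normal subgroups of P are cyclic
  obtain ⟨A, hA, hAn, hAmax⟩ : ∃ A : Subgroup G, IsMulCommutative A ∧ (A.Normal ∧ A ≤ (P : Subgroup G)) ∧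
      ∀ B : Subgroup G, IsMulCommutative B → B.Normal → B ≤ (P : Subgroup G) → A ≤ B → B = A := by
    obtain ⟨A, hA⟩ := Set.Finite.exists_maximal (s := {B : Subgroup G | IsMulCommutative B ∧ B.Normal ∧ B ≤ (P : Subgroup G)})
      (Set.toFinite _) ⟨⊥, ⟨⟨fun a b => Subsingleton.elim _ _⟩⟩, inferInstance, bot_le⟩
    exact ⟨A, hA.1.1, hA.1.2, fun B h1 h2 h3 h4 => le_antisymm (hA.2 ⟨h1, h2, h3⟩ h4) h4⟩
  have hAc : IsCyclic A := by
    refine Cfsg.Agent.PGroup.isCyclic_of_pRankLE_one (hPp.to_le hAn.2) hA fun E hE hEp => ?_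
    rw [pow_one, ← hz, ← Nat.card_zpowers, ← Subgroup.card_map_of_injective A.subtype_injective]
    refine Nat.le_of_dvd Nat.card_pos (Subgroup.card_dvd_of_le ?_)
    rintro - ⟨y, hy, rfl⟩
    by_cases hy1 : y = 1
    · simp [hy1]
    · refine hone _ ?_
      exact orderOf_eq_prime (congrArg Subtype.val (hEp y hy)) fun h => hy1 (Subtype.ext h)
  obtain ⟨a, ha⟩ := hAc.exists_generator
  have hsub : ∀ y : G, orderOf y ∣ Nat.card A → y ∈ (P : Subgroup G) → y ∈ A := by
    intro y hy hyP
    have hca : orderOf (a : G) = Nat.card A := by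
      rw [Subgroup.orderOf_coe, orderOf_eq_card_of_forall_mem_zpowers ha]
    set w := (a : G) ^ (orderOf (a : G) / orderOf y)
    have hw : orderOf w = orderOf y := orderOf_pow_orderOf_div (orderOf_pos _).ne' (hca ▸ hy)
    obtain ⟨g, hg⟩ := hconj w y hw
    obtain ⟨v, hv, hve⟩ := hg.le (Subgroup.mem_zpowers y)
    rw [← hve]
    exact hAn.1.conj_mem _ (Subgroup.zpowers_le.2 (pow_mem a.2 _) hv) g
  have hPA : (P : Subgroup G) ≤ A := by
    intro x hx
    obtain ⟨e, he⟩ := IsPGroup.iff_orderOf.1 hPp ⟨x, hx⟩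
    rw [Subgroup.orderOf_mk] at he
    induction e using Nat.strong_induction_on generalizing x with
    | _ e ih =>
      by_cases hdvd : orderOf x ∣ Nat.card A
      · exact hsub x hdvd hx
      have he0 : e ≠ 0 := by intro h; rw [he, h, pow_zero] at hdvd; exact hdvd (one_dvd _)
      have hxp : x ^ p ∈ A := by
        refine ih (e - 1) (by omega) (x := x ^ p) (pow_mem hx p) ?_
        rw [orderOf_pow_of_dvd hp.ne_zero (he ▸ dvd_pow_self p he0), he]
        calc p ^ e / p = p ^ e / p ^ 1 := by rw [pow_one]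
          _ = _ := Nat.pow_div (by omega) hp.pos
      have hAeq : Subgroup.zpowers (x ^ p) = A := by
        refine Subgroup.eq_of_le_of_card_ge (Subgroup.zpowers_le.2 hxp) ?_
        obtain ⟨m, hm⟩ := (hPp.to_le hAn.2).exists_card_eq
        rw [Nat.card_zpowers, orderOf_pow_of_dvd hp.ne_zero (he ▸ dvd_pow_self p he0), he, hm]
        have : m < e := by
          by_contra hle; push Not at hle
          exact hdvd (by rw [he, hm]; exact pow_dvd_pow p hle)
        calc p ^ m ≤ p ^ (e - 1) := Nat.pow_le_pow_right hp.pos (by omega)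
          _ = p ^ e / p ^ 1 := (Nat.pow_div (by omega) hp.pos).symm
          _ = _ := by rw [pow_one]
      -- x centralises A, so a larger commutative normal subgroup exists
      set C := (P : Subgroup G) ⊓ Subgroup.centralizer (A : Set G)
      have hxC : x ∈ C := ⟨hx, Subgroup.mem_centralizer_iff.2 fun y hy => by
        rw [SetLike.mem_coe, ← hAeq] at hy
        obtain ⟨i, rfl⟩ := hy
        exact (((Commute.refl x).pow_left p).zpow_left i).eq⟩
      by_contra hxA
      haveI := hPn
      haveI := hAn.1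
      haveI : C.Normal := Subgroup.normal_inf_normal _ _
      have hne : C.map (QuotientGroup.mk' A) ≠ ⊥ := by
        rw [ne_eq, Subgroup.map_eq_bot_iff, QuotientGroup.ker_mk']
        exact fun h => hxA (h hxC)
      haveI : (C.map (QuotientGroup.mk' A)).Normal := Subgroup.Normal.map inferInstance _ (QuotientGroup.mk'_surjective A)
      have hq := Cfsg.Agent.SolvStruct.nilpotent_inf_center_ne_bot _ hne
      obtain ⟨Y, hY, hY1⟩ := (Subgroup.bot_or_exists_ne_one _).resolve_left hq
      obtain ⟨y, hy, rfl⟩ := hY.1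
      set B := A ⊔ Subgroup.zpowers y with hBdef
      have hyA : y ∉ A := fun h => hY1 ((QuotientGroup.eq_one_iff y).2 h)
      have hBn : B.Normal := by
        refine ⟨fun b hb g => ?_⟩
        obtain ⟨u, hu, v, ⟨i, rfl⟩, rfl⟩ := Subgroup.mem_sup_of_normal_left.1 hb
        rw [show g * (u * y ^ i) * g⁻¹ = (g * u * g⁻¹) * (g * y ^ i * g⁻¹) by group]
        refine mul_mem (Subgroup.mem_sup_left (hAn.1.conj_mem u hu g)) ?_
        have h1 : (QuotientGroup.mk (g * y ^ i * g⁻¹) : G ⧸ A) = QuotientGroup.mk (y ^ i) := by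
          have hc := Subgroup.mem_center_iff.1 ((Subgroup.center _).zpow_mem hY.2 i) (QuotientGroup.mk g)
          simp only [QuotientGroup.mk'_apply] at hc
          rw [QuotientGroup.mk_mul, QuotientGroup.mk_mul, QuotientGroup.mk_inv, QuotientGroup.mk_zpow,
            hc, mul_inv_cancel_right]
        rw [QuotientGroup.eq] at h1
        have h2 : g * y ^ i * g⁻¹ = y ^ i * ((g * y ^ i * g⁻¹)⁻¹ * y ^ i)⁻¹ := by group
        rw [h2]
        exact mul_mem (Subgroup.mem_sup_right (zpow_mem (Subgroup.mem_zpowers y) i))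
          (inv_mem (Subgroup.mem_sup_left h1))
      have hBc : IsMulCommutative B := by
        have hyc : ∀ u ∈ A, u * y = y * u := fun u hu => Subgroup.mem_centralizer_iff.1 hy.2 u hu
        refine ⟨⟨fun b1 b2 => Subtype.ext ?_⟩⟩
        obtain ⟨u1, hu1, v1, ⟨i, rfl⟩, e1⟩ := Subgroup.mem_sup_of_normal_left.1 b1.2
        obtain ⟨u2, hu2, v2, ⟨j, rfl⟩, e2⟩ := Subgroup.mem_sup_of_normal_left.1 b2.2
        show (b1 : G) * b2 = b2 * b1
        rw [← e1, ← e2]
        have cu : Commute u1 u2 := congrArg Subtype.val (hA.is_comm.comm (⟨u1, hu1⟩ : A) ⟨u2, hu2⟩)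
        exact ((cu.mul_right (Commute.zpow_right (hyc u1 hu1) j)).mul_left
          ((Commute.zpow_left (Commute.symm (hyc u2 hu2)) i).mul_right (Commute.zpow_zpow (Commute.refl y) i j))).eq
      have hBP : B ≤ (P : Subgroup G) := sup_le hAn.2 (Subgroup.zpowers_le.2 hy.1)
      exact hyA (hAmax B hBc hBn hBP le_sup_left ▸ Subgroup.mem_sup_right (Subgroup.mem_zpowers y))
  rwa [le_antisymm hPA hAn.2]

end Cfsg.Agent.S3910
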