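import Cfsg.Statements.S3911
import Mathlib
import Cfsg.Agent.H73.BGroup
-- import your own Cfsg.Agent.* helpers here

set_option autoImplicit false
open Cfsg

set_option linter.style.haveILetI false

namespace Cfsg.Agent.S3911

/-- Let G be a finite group in which any two abelian subgroups of the same order are conjugate. If M is a normal subgroup of G of odd order, then any two abelian subgroups of G/M of the same order are conjugate in G/M. -/
theorem result {G : Type*} [Group G] [Finite G] (hB : ∀ A B : Subgroup G, IsMulCommutative ↥A → IsMulCommutative ↥B → Nat.card ↥A = Nat.card ↥B → ∃ g : G, B = A.map (MulAut.conj g).toMonoidHom) (M : Subgroup G) [M.Normal] (hM : Odd (Nat.card ↥M)) :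
    ∀ A B : Subgroup (G ⧸ M), IsMulCommutative ↥A → IsMulCommutative ↥B → Nat.card ↥A = Nat.card ↥B →
      ∃ g : G ⧸ M, B = A.map (MulAut.conj g).toMonoidHom := by
  intro A B hA hBc hcard
  refine Cfsg.Agent.H73.conj_of_lift hB M A B hA hBc hcard fun q hq hqM hqA Q hQ hQM _ => ?_
  haveI := Fact.mk hq
  have hqi : q ∣ M.index := hqA.trans (M.index_eq_card.symm ▸ A.card_subgroup_dvd_card)
  exact Cfsg.Agent.H73.lift_cond_of_cyclic M (Cfsg.Agent.H73.cyclic_of_dvd hB M hqM hqi
    (fun h2 => by
      obtain ⟨k, hk⟩ := hM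
      obtain ⟨m, hm⟩ := h2 ▸ hqM
      omega)) Q hQ hQM

end Cfsg.Agent.S3911
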