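import Cfsg.Statements.S3913
import Mathlib
import Cfsg.Agent.Lib.CyclicNormal
import Cfsg.Agent.H73.BStruct
-- import your own Cfsg.Agent.* helpers here

set_option autoImplicit false
open Cfsg

namespace Cfsg.Agent.S3913
open Subgroup
open scoped Pointwise
open Cfsg.Agent.H73

universe u

theorem iSup_normal_of_forall {G : Type*} [Group G] (s : Set (Subgroup G)) (h : ∀ P ∈ s, P.Normal) :
    (⨆ P : s, (P : Subgroup G)).Normal := by
  rw [← sSup_eq_iSup']
  exact Subgroup.sSup_normal s h

theorem main : ∀ (n : ℕ) (G : Type u) [Group G] [Finite G], Nat.card G ≤ n → AbelianConj G →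
    Group.IsSolvable G → AllConj G := by
  intro n
  induction n with
  | zero => intro G _ _ h; exact absurd h (by simp [Nat.card_pos.ne'])
  | succ n ih =>
    intro G _ _ hn hB hsol A B hcard
    classical
    haveI := hsol
    by_cases htriv : Nat.card G = 1
    · haveI : Subsingleton G := (Nat.card_eq_one_iff_unique.1 htriv).1
      exact ⟨1, Subgroup.ext fun x => by simp [Subsingleton.elim x 1, one_mem]⟩
    have hquot : ∀ (M : Subgroup G) (_ : M.Normal), M ≠ ⊥ → AllConj (G ⧸ M) := fun M hMn hM1 =>
      ih _ (by have := card_quotient_lt M hM1; omega) (Cfsg.Agent.S3912.result hB hsol M) inferInstance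
    -- the minimal normal subgroups
    let Big : Set (Subgroup G) :=
      {P | P.Normal ∧ P ≠ ⊥ ∧ ∀ N : Subgroup G, N.Normal → N ≤ P → N = ⊥ ∨ N = P}
    have helem : ∀ P ∈ Big, IsMulCommutative P ∧ ∃ q : ℕ, q.Prime ∧ (∀ x ∈ P, x ^ q = 1) ∧ IsPGroup q P :=
      fun P hP => by
        haveI := hP.1
        exact Cfsg.Agent.MinNormal.elementary_abelian P hP.2.1 hP.2.2
    by_cases hgood : ∀ P ∈ Big, ∃ q : ℕ, q.Prime ∧ (∀ x ∈ P, x ^ q = 1) ∧ IsPGroup q P ∧
        q ∣ Nat.card A ∧ ¬ q ∣ P.index
    swap
    · push Not at hgood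
      obtain ⟨P, hP, hno⟩ := hgood
      haveI := hP.1
      obtain ⟨hPc, q, hq, hexp, hPp⟩ := helem P hP
      haveI := Fact.mk hq
      haveI := hPc
      haveI : Group.IsSolvable P := Group.isSolvable_of_comm fun a b => mul_comm' a b
      have hQ := hquot P hP.1 hP.2.1
      by_cases hqA : q ∣ Nat.card A
      swap
      · have hbot : ∀ C : Subgroup G, ¬ q ∣ Nat.card C → C ⊓ P = ⊥ := by
          intro C hC
          obtain ⟨k, hk⟩ := (hPp.to_le (inf_le_right : C ⊓ P ≤ P)).exists_card_eq
          rcases k with _ | k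
          · exact eq_bot_of_card_eq _ (by rw [hk, pow_zero])
          · exact absurd ((dvd_pow_self q k.succ_ne_zero).trans (hk ▸ card_dvd_of_le inf_le_left)) hC
        refine glue P ⊥ A B (hbot A hqA) (hbot B (hcard ▸ hqA)) hcard ?_ ?_
        · obtain ⟨k, hk⟩ := hPp.exists_card_eq
          rw [hk]
          exact (hq.coprime_iff_not_dvd.2 fun hd => hqA (hd.trans (relIndex_dvd_card P A))).pow_left k
        · rw [show (normalizer ((⊥ : Subgroup G) : Set G)) = ⊤ from normalizer_eq_top _,
            map_top_of_surjective _ (QuotientGroup.mk'_surjective P)]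
          intro A' B' h'
          obtain ⟨g, hg⟩ := hQ (A'.map (⊤ : Subgroup (G ⧸ P)).subtype)
            (B'.map (⊤ : Subgroup (G ⧸ P)).subtype)
            (by rw [card_map_of_injective (Subgroup.subtype_injective _),
              card_map_of_injective (Subgroup.subtype_injective _), h'])
          refine ⟨⟨g, mem_top g⟩, map_injective (Subgroup.subtype_injective _) ?_⟩
          rw [hg, map_conj_map]; rfl
      · -- a unique subgroup of order `q`
        have hqi : q ∣ P.index := by
          by_contra h
          exact h (hno q hq hexp hPp hqA)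
        let S : Sylow q G := default
        have hqP : q ∣ Nat.card P := by
          obtain ⟨k, hk⟩ := hPp.exists_card_eq
          rw [hk]
          refine dvd_pow_self q ?_
          rintro rfl
          exact hP.2.1 (eq_bot_of_card_eq _ (by rw [hk, pow_zero]))
        rcases Cfsg.Agent.S3908.main hB S with huniq | h
        swap
        · exact absurd hqi (not_dvd_index_of_exponent hB P hqP S h)
        obtain ⟨m, hm⟩ := exists_prime_orderOf_dvd_card' (G := P) q hqP
        have hm' : orderOf (m : G) = q := by rw [orderOf_coe, hm]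
        have hPS : P ≤ S := hPp.le_sylow_of_normal S
        have hPcard : Nat.card P = q := by
          have hle : P ≤ zpowers (m : G) := by
            intro y hy
            by_cases hy1 : y = 1
            · rw [hy1]; exact one_mem _
            have h1 := huniq (zpowers ⟨y, hPS hy⟩) (zpowers ⟨(m : G), hPS m.2⟩)
              (by rw [Nat.card_zpowers, orderOf_mk, orderOf_eq_prime (hexp y hy) hy1])
              (by rw [Nat.card_zpowers, orderOf_mk, hm'])
            obtain ⟨i, hi⟩ := mem_zpowers_iff.1 (h1.le (mem_zpowers _))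
            exact ⟨i, congrArg Subtype.val hi⟩
          rw [le_antisymm hle (zpowers_le.2 m.2), Nat.card_zpowers, hm']
        have hall : ∀ x : G, orderOf x = q → x ∈ P := fun x hx =>
          mem_of_orderOf_eq hB P m.2 (hm'.trans hx.symm)
        exact conj_of_ge P hQ A B (le_of_forall_order P hPcard hall A hqA)
          (le_of_forall_order P hPcard hall B (hcard ▸ hqA)) hcard
    -- every minimal normal subgroup is a Sylow subgroup meeting `A`
    set F : Subgroup G := ⨆ P : Big, (P : Subgroup G) with hF
    have hPF : ∀ P ∈ Big, P ≤ F := fun P hP => le_iSup (fun P : Big => (P : Subgroup G)) ⟨P, hP⟩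
    haveI hFn : F.Normal := iSup_normal_of_forall Big fun P hP => hP.1
    haveI hFc : IsMulCommutative F := by
      rw [hF, Subgroup.iSup_eq_closure]
      refine Subgroup.isMulCommutative_closure ?_
      intro x hx y hy
      obtain ⟨P, hxP⟩ := Set.mem_iUnion.1 hx
      obtain ⟨Q, hyQ⟩ := Set.mem_iUnion.1 hy
      haveI := P.2.1
      haveI := Q.2.1
      by_cases hPQ : (P : Subgroup G) = Q
      · have hc := (helem P P.2).1
        exact congrArg Subtype.val (hc.is_comm.comm ⟨x, hxP⟩ ⟨y, hPQ.symm.le hyQ⟩)
      · refine Subgroup.commute_of_normal_of_disjoint _ _ P.2.1 Q.2.1 ?_ x y hxP hyQ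
        rw [disjoint_iff]
        rcases P.2.2.2 ((P : Subgroup G) ⊓ Q) inferInstance inf_le_left with h | h
        · exact h
        · exfalso
          rcases Q.2.2.2 P P.2.1 (inf_eq_left.1 h) with h' | h'
          · exact P.2.2.1 h'
          · exact hPQ h'
    have hsub : ∀ (N : Subgroup G), N.Normal → N ≠ ⊥ → ∀ (s : ℕ) [Fact s.Prime], IsPGroup s N →
        ∃ P ∈ Big, P ≤ N ∧ s ∣ Nat.card A ∧ ¬ s ∣ P.index ∧ IsPGroup s P := by
      intro N hNn hN1 s hs hNp
      haveI := hNn
      obtain ⟨P, hPn, hP1, hPN, hPmin⟩ := Cfsg.Agent.MinNormal.exists_minimal_normal_le N hN1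
      obtain ⟨q, hq, -, hPq, hqA, hqi⟩ := hgood P ⟨hPn, hP1, hPmin⟩
      haveI := Fact.mk hq
      have hsq : s = q := by
        obtain ⟨a, ha, hca⟩ := ((hNp.to_le hPN).nontrivial_iff_card).1 ((nontrivial_iff_ne_bot P).2 hP1)
        obtain ⟨b, hb, hcb⟩ := (hPq.nontrivial_iff_card).1 ((nontrivial_iff_ne_bot P).2 hP1)
        exact (Nat.prime_dvd_prime_iff_eq hs.out hq).1
          (hs.out.dvd_of_dvd_pow ((hcb ▸ hca ▸ dvd_pow_self s ha.ne' : s ∣ q ^ b)))
      subst hsq
      exact ⟨P, ⟨hPn, hP1, hPmin⟩, hPN, hqA, hqi, hPq⟩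
    have hFprime : ∀ s : ℕ, s.Prime → s ∣ Nat.card F → s ∣ Nat.card A ∧ ¬ s ∣ F.index := by
      intro s hs hsF
      haveI := Fact.mk hs
      let Q : Sylow s F := default
      haveI : (Q : Subgroup F).Normal := ⟨fun a ha g => by
        rw [mul_comm' g a, mul_inv_cancel_right]; exact ha⟩
      haveI := Q.characteristic_of_normal inferInstance
      have hn' : ((Q : Subgroup F).map F.subtype).Normal := ConjAct.normal_of_characteristic_of_normal
      obtain ⟨P, hP, -, h1, h2, -⟩ := hsub _ hn' (by
        rw [Ne, map_eq_bot_iff_of_injective _ F.subtype_injective]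
        exact Q.ne_bot_of_dvd_card hsF) s (Q.2.map _)
      exact ⟨h1, fun h => h2 (h.trans (index_dvd_of_le (hPF P hP)))⟩
    have hFcop : (Nat.card F).Coprime F.index :=
      Nat.coprime_of_dvd fun s hs hsF hsi => (hFprime s hs hsF).2 hsi
    have hFit : Cfsg.fittingSubgroup G ≤ F := by
      rw [Cfsg.Agent.Cores.fittingSubgroup_eq_iSup_pCore]
      refine iSup_le fun s => ?_
      haveI : Fact (s : ℕ).Prime := ⟨s.2⟩
      by_cases hO : Cfsg.pCore s G = ⊥
      · rw [hO]; exact bot_le
      obtain ⟨P, hP, -, -, hsi, hPs⟩ := hsub _ inferInstance hO s (Cfsg.Agent.PSolv.isPGroup_pCore s G)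
      haveI := hP.1
      let S : Sylow s G := default
      exact ((Cfsg.Agent.PSolv.pCore_le_sylow S).trans (sylow_le_of_not_dvd_index P S hsi)).trans (hPF P hP)
    have hCF : ∀ x : G, (∀ P ∈ Big, x ∈ centralizer (P : Set G)) → x ∈ F := by
      intro x hx
      refine hFit (Cfsg.Agent.Cores.centralizer_fittingSubgroup_le ?_)
      intro y hy
      have hle : F ≤ centralizer {x} := iSup_le fun P w hw v hv => by
        rw [Set.mem_singleton_iff.1 hv]
        exact (hx P P.2 w hw).symm
      exact (hle (hFit hy) x rfl).symm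
    -- equalise the intersections with `F`
    have hcopF : ∀ C : Subgroup G, (Nat.card F).Coprime (F.relIndex C) := fun C =>
      hFcop.coprime_dvd_right (relIndex_dvd_index_of_normal F C)
    have hsplit : ∀ C : Subgroup G, Nat.card C = Nat.card ↥(C ⊓ F) * F.relIndex C := fun C => by
      rw [← inf_relIndex_right F C, inf_comm F C]
      calc Nat.card C = Nat.card ((C ⊓ F).subgroupOf C) * ((C ⊓ F).subgroupOf C).index :=
            (card_mul_index _).symm
        _ = _ := by rw [Nat.card_congr (subgroupOfEquivOfLe inf_le_left).toEquiv]; rfl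
    have hWcard : Nat.card ↥(A ⊓ F) = Nat.card ↥(B ⊓ F) := by
      have e := (hsplit A).symm.trans (hcard.trans (hsplit B))
      have cop : ∀ C D : Subgroup G, (Nat.card ↥(C ⊓ F)).Coprime (F.relIndex D) := fun C D =>
        (hcopF D).coprime_dvd_left (card_dvd_of_le inf_le_right)
      exact Nat.dvd_antisymm ((cop A B).dvd_of_dvd_mul_right (e ▸ dvd_mul_right _ _))
        ((cop B A).dvd_of_dvd_mul_right (e.symm ▸ dvd_mul_right _ _))
    have habel : ∀ C : Subgroup G, IsMulCommutative ↥(C ⊓ F) := fun C => ⟨⟨fun a b => Subtype.ext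
      (congrArg (fun t : F => (t : G)) (mul_comm' (⟨a, a.2.2⟩ : F) ⟨b, b.2.2⟩))⟩⟩
    obtain ⟨g₀, hg₀⟩ := hB _ _ (habel A) (habel B) hWcard
    set A₁ := A.map (MulAut.conj g₀).toMonoidHom with hA₁
    set W := B ⊓ F with hW
    have hA₁W : A₁ ⊓ F = W := by
      rw [hg₀, map_inf _ _ _ (MulAut.conj g₀).injective,
        map_conj_eq_of_mem_normalizer (W := F) (by rw [normalizer_eq_top]; exact mem_top g₀)]
    have hWmeet : ∀ P ∈ Big, P ⊓ W ≠ ⊥ := by
      intro P hP
      haveI := hP.1
      obtain ⟨q, hq, -, hPq, hqA, hqi⟩ := hgood P hP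
      haveI := Fact.mk hq
      obtain ⟨w, hw⟩ := exists_prime_orderOf_dvd_card' (G := B) q (hcard ▸ hqA)
      have hw' : orderOf (w : G) = q := by rw [orderOf_coe, hw]
      obtain ⟨S, hS⟩ := (IsPGroup.of_card (G := zpowers (w : G)) (p := q) (n := 1)
        (by rw [Nat.card_zpowers, hw', pow_one])).exists_le_sylow
      have hwP : (w : G) ∈ P := sylow_le_of_not_dvd_index P S hqi (hS (mem_zpowers _))
      intro h
      have : (w : G) ∈ P ⊓ W := ⟨hwP, w.2, hPF P hP hwP⟩
      rw [h, mem_bot] at this
      rw [this, orderOf_one] at hw'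
      exact hq.ne_one hw'.symm
    haveI : Group.IsSolvable F := Group.isSolvable_of_comm fun a b => mul_comm' a b
    set N := normalizer (W : Set G) with hN
    set π := QuotientGroup.mk' F with hπ
    have hX := Cfsg.Agent.S3912.result hB hsol F
    -- Sylow subgroups of the quotient
    have hsylF : ∀ (r : ℕ) [Fact r.Prime] (T : Sylow r (G ⧸ F)),
        IsCyclic (T : Subgroup (G ⧸ F)) ∨
          (r = 2 ∧ Nonempty ((T : Subgroup (G ⧸ F)) ≃* QuaternionGroup 2)) := by
      intro r hr T
      by_cases hrF : r ∣ Nat.card F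
      · left
        obtain ⟨k, hk⟩ := T.2.exists_card_eq
        rcases k with _ | k
        · haveI := (Nat.card_eq_one_iff_unique.1 (hk.trans (pow_zero r))).1
          exact isCyclic_of_subsingleton
        · exact absurd ((dvd_pow_self r k.succ_ne_zero).trans
            (hk ▸ F.index_eq_card ▸ card_subgroup_dvd_card _)) (hFprime r hr.out hrF).2
      obtain ⟨R, hRT, -⟩ := sylow_eq_of_coprime F hrF T
      rcases sylow_cases hX inferInstance T with h | h | h
      · left
        have hinj : ∀ x ∈ (R : Subgroup G), x ∈ F → x = 1 := by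
          intro x hx hxF
          obtain ⟨k, hk⟩ := R.2 ⟨x, hx⟩
          exact orderOf_eq_one_iff.1 (Nat.eq_one_of_dvd_coprimes
            ((hr.out.coprime_iff_not_dvd.2 hrF).pow_left k)
            (orderOf_dvd_of_pow_eq_one (congrArg Subtype.val hk)) (F.orderOf_dvd_natCard hxF))
        have hexpR : ∀ x ∈ (R : Subgroup G), x ^ r = 1 := by
          intro x hx
          refine hinj _ (pow_mem hx r) ?_
          rw [← QuotientGroup.eq_one_iff, QuotientGroup.mk_pow]
          exact h _ (hRT ▸ ⟨x, hx, rfl⟩)
        have hRcyc : IsCyclic (R : Subgroup G) := by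
          by_contra hnc
          apply hnc
          obtain ⟨P, hP, hne⟩ : ∃ P ∈ Big, ¬ (R : Subgroup G) ≤ centralizer (P : Set G) := by
            by_contra hcon
            push Not at hcon
            apply hnc
            have : Subsingleton (R : Subgroup G) := ⟨fun a b => Subtype.ext (by
              rw [hinj a a.2 (hCF a fun P hP => hcon P hP a.2),
                hinj b b.2 (hCF b fun P hP => hcon P hP b.2)])⟩
            exact isCyclic_of_subsingleton
          haveI := hP.1
          haveI := (helem P hP).1
          obtain ⟨q, hq, hexp, -⟩ := (helem P hP).2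
          haveI := Fact.mk hq
          exact cyclic_of_not_centralizes hB hsol P hexp hP.2.1 R hexpR hne
        rw [← hRT]
        exact isCyclic_of_surjective _ (π.subgroupMap_surjective (R : Subgroup G))
      · exact Or.inl h
      · exact Or.inr h
    have hodd : OddCyclic (G ⧸ F) := fun r hr h2 T =>
      haveI := Fact.mk hr
      (hsylF r T).resolve_right fun h => h2 h.1
    -- the group in which the conjugation happens
    obtain ⟨x, hx⟩ := glue F W A₁ B hA₁W rfl ((card_map_conj A g₀).trans hcard) (hcopF A₁) (by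
      refine allConj_small _ _ le_rfl inferInstance ?_
      haveI : Fact (Nat.Prime 2) := ⟨Nat.prime_two⟩
      set L := N.map π with hL
      by_cases hZ : ∀ R : Sylow 2 L, IsCyclic (R : Subgroup L)
      · refine Or.inl fun r hr R => ?_
        haveI := Fact.mk hr
        by_cases hr2 : r = 2
        · subst hr2; exact hZ R
        · exact sylow_cyclic_subgroup L (hodd r hr hr2) R
      have hfull : ∀ R : Sylow 2 L, ∃ T : Sylow 2 (G ⧸ F), (R : Subgroup L).map L.subtype = T ∧
          Nonempty ((T : Subgroup (G ⧸ F)) ≃* QuaternionGroup 2) := by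
        intro R
        obtain ⟨T, hT⟩ := (R.2.map L.subtype).exists_le_sylow
        have hnc : ¬ IsCyclic (R : Subgroup L) := fun h => hZ fun R' => by
          haveI := h
          exact isCyclic_of_surjective (Sylow.equiv R R').toMonoidHom (Sylow.equiv R R').surjective
        rcases hsylF 2 T with h | ⟨-, ⟨e⟩⟩
        · haveI := h
          exact absurd (isCyclic_of_injective ((Subgroup.inclusion hT).comp
            (L.subtype.subgroupMap (R : Subgroup L))) ((inclusion_injective hT).comp
            ((R : Subgroup L).equivMapOfInjective L.subtype L.subtype_injective).injective)) hnc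
        · rcases cyclic_of_le_q8 hT e with h | h
          · haveI := h
            exact absurd (isCyclic_of_injective (L.subtype.subgroupMap (R : Subgroup L))
              ((R : Subgroup L).equivMapOfInjective L.subtype L.subtype_injective).injective) hnc
          · exact ⟨T, h, ⟨e⟩⟩
      refine Or.inr (Or.inr ⟨fun r hr hr2 R => by
        haveI := Fact.mk hr
        exact sylow_cyclic_subgroup L (hodd r hr hr2) R, fun R => ?_, fun x y hx hy => ?_⟩)
      · obtain ⟨T, hT, ⟨e⟩⟩ := hfull R
        obtain ⟨h8, h4, hu, -⟩ := q8_facts _ e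
        refine ⟨?_, fun x hx => Subtype.ext ?_, fun x hx y hy hx2 hy2 => Subtype.ext ?_⟩
        · rw [← card_map_of_injective (K := (R : Subgroup L)) L.subtype_injective, hT, h8]
        · rw [SubgroupClass.coe_pow]; exact h4 _ (hT.le ⟨x, hx, rfl⟩)
        · exact hu _ (hT.le ⟨x, hx, rfl⟩) _ (hT.le ⟨y, hy, rfl⟩) (by rw [Subgroup.subtype_apply, orderOf_coe, hx2])
            (by rw [orderOf_coe, hy2])
      · -- lift to elements of order four of `N`
        let R₀ : Sylow 2 L := default
        obtain ⟨T₀, hT₀, ⟨e₀⟩⟩ := hfull R₀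
        have h8 := (q8_facts _ e₀).1
        have hF2 : ¬ 2 ∣ Nat.card F := fun h => by
          have h1 := card_subgroup_dvd_card (T₀ : Subgroup (G ⧸ F))
          rw [h8, ← F.index_eq_card] at h1
          exact (hFprime 2 Nat.prime_two h).2 ((show 2 ∣ 8 by norm_num).trans h1)
        have hco : Nat.Coprime 4 (Nat.card F) := ((Nat.prime_two.coprime_iff_not_dvd).2 hF2).pow_left 2
        obtain ⟨a, haN, ha, ha4⟩ := lift_coprime F N (x : G ⧸ F) x.2 (by rw [orderOf_coe, hx]; exact hco)
        obtain ⟨b, hbN, hb, hb4⟩ := lift_coprime F N (y : G ⧸ F) y.2 (by rw [orderOf_coe, hy]; exact hco)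
        rw [orderOf_coe, hx] at ha4
        rw [orderOf_coe, hy] at hb4
        have hcent : ∀ c ∈ N, orderOf c = 4 → ∀ P ∈ Big, ¬ P ≤ W → c ∈ centralizer (P : Set G) := by
          intro c hcN hc4 P hP hPW
          haveI := hP.1
          haveI := (helem P hP).1
          obtain ⟨q, hq, hexp, hPq, -, -⟩ := hgood P hP
          haveI := Fact.mk hq
          have hq2 : q ≠ 2 := by
            rintro rfl
            obtain ⟨k, hk, hkc⟩ := (hPq.nontrivial_iff_card).1 ((nontrivial_iff_ne_bot P).2 hP.2.1)
            exact hF2 ((hkc ▸ dvd_pow_self 2 hk.ne').trans (card_dvd_of_le (hPF P hP)))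
          obtain ⟨S', hS'⟩ := (IsPGroup.of_card (G := zpowers (⟨c, hcN⟩ : N)) (p := 2) (n := 2)
            (by rw [Nat.card_zpowers, orderOf_mk, hc4]; rfl)).exists_le_sylow
          have hS'c : Nat.card ((S' : Subgroup N).map N.subtype) = 8 := by
            rw [card_map_of_injective N.subtype_injective, S'.card_eq_multiplicity]
            have hFN : F ≤ N := by
              intro f hf
              refine mem_normalizer_iff.2 fun w => ?_
              constructor
              · intro hw
                have h1 := congrArg Subtype.val (mul_comm' (⟨f, hf⟩ : F) ⟨w, hw.2⟩)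
                simp only [coe_mul] at h1
                rwa [h1, mul_inv_cancel_right]
              · intro hw
                have h1 := congrArg Subtype.val (mul_comm' (⟨f⁻¹, inv_mem hf⟩ : F) ⟨f * w * f⁻¹, hw.2⟩)
                simp only [coe_mul] at h1
                have h2 : f⁻¹ * (f * w * f⁻¹) * f = w := by group
                rw [← h2, h1, inv_mul_cancel_right]
                exact hw
            have h1 := (F.subgroupOf N).index_mul_card
            rw [Nat.card_congr (subgroupOfEquivOfLe hFN).toEquiv] at h1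
            have h2 : (F.subgroupOf N).index = Nat.card L := by
              show F.relIndex N = Nat.card L
              rw [hL, hπ, ← relIndex_ker, QuotientGroup.ker_mk']
            rw [← h1, h2, Nat.factorization_mul Nat.card_pos.ne' Nat.card_pos.ne', Finsupp.add_apply,
              Nat.factorization_eq_zero_of_not_dvd hF2, add_zero, ← R₀.card_eq_multiplicity,
              ← card_map_of_injective (K := (R₀ : Subgroup L)) L.subtype_injective, hT₀, h8]
          obtain ⟨S, hS⟩ := (S'.2.map N.subtype).exists_le_sylow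
          obtain ⟨T, hRT, hTc⟩ : ∃ T : Sylow 2 (G ⧸ F), (S : Subgroup G).map π = T ∧
              Nat.card (S : Subgroup G) = Nat.card (T : Subgroup (G ⧸ F)) := by
            refine ⟨S.mapSurjective (QuotientGroup.mk'_surjective F), rfl, ?_⟩
            rw [S.card_eq_multiplicity, Sylow.card_eq_multiplicity, ← F.index_mul_card,
              Nat.factorization_mul index_ne_zero_of_finite Nat.card_pos.ne', Finsupp.add_apply,
              Nat.factorization_eq_zero_of_not_dvd hF2, add_zero, F.index_eq_card]
          have hS8 : Nat.card (S : Subgroup G) = 8 := by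
            rw [hTc, T.card_eq_multiplicity, ← T₀.card_eq_multiplicity, h8]
          have hSeq : (S : Subgroup G) = (S' : Subgroup N).map N.subtype :=
            (eq_of_le_of_card_ge hS (by rw [hS8, hS'c])).symm
          have hSN : (S : Subgroup G) ≤ N := hSeq.le.trans (map_subtype_le _)
          have eS : ∃ _ : (S : Subgroup G) ≃* QuaternionGroup 2, True := by
            let f : (S : Subgroup G) →* (T : Subgroup (G ⧸ F)) :=
              (MulEquiv.subgroupCongr hRT).toMonoidHom.comp (π.subgroupMap (S : Subgroup G))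
            have hf : Function.Bijective f :=
              (Nat.bijective_iff_surjective_and_card f).2
                ⟨(MulEquiv.subgroupCongr hRT).surjective.comp (π.subgroupMap_surjective _), hTc⟩
            obtain ⟨u⟩ : Nonempty ((T : Subgroup (G ⧸ F)) ≃* QuaternionGroup 2) := ⟨(Sylow.equiv T T₀).trans e₀⟩
            exact ⟨(MulEquiv.ofBijective f hf).trans u, trivial⟩
          obtain ⟨eS, -⟩ := eS
          have hcS : c ∈ (S : Subgroup G) := hSeq.ge ⟨⟨c, hcN⟩, hS' (mem_zpowers _), rfl⟩
          refine q8_centralizes hB hsol P hexp hq2 hP.2.2 S eS (P ⊓ W) inf_le_left (hWmeet P hP)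
            (fun h => hPW (inf_eq_left.1 h)) ?_ hcS
          intro s hs
          refine mem_normalizer_iff.2 fun w => ?_
          simp only [mem_inf]
          exact and_congr ((mem_normalizer_iff.1 (by rw [normalizer_eq_top]; exact mem_top s :
            s ∈ normalizer (P : Set G))) w) ((mem_normalizer_iff.1 (hSN hs)) w)
        -- the part of `W` outside the normal part
        set D : Subgroup G := ⨆ P : {P : Subgroup G | P ∈ Big ∧ P ≤ W}, (P : Subgroup G) with hD
        set F₁ : Subgroup G := ⨆ P : {P : Subgroup G | P ∈ Big ∧ ¬ P ≤ W}, (P : Subgroup G) with hF₁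
        haveI hDn : D.Normal := iSup_normal_of_forall _ fun P hP => hP.1.1
        haveI hF₁n : F₁.Normal := iSup_normal_of_forall _ fun P hP => hP.1.1
        have hDW : D ≤ W := iSup_le fun P => P.2.2
        have hFD : F ≤ D ⊔ F₁ := iSup_le fun P => by
          by_cases h : (P : Subgroup G) ≤ W
          · exact le_sup_of_le_left (le_iSup (fun P : {P : Subgroup G | P ∈ Big ∧ P ≤ W} =>
              (P : Subgroup G)) ⟨P, P.2, h⟩)
          · exact le_sup_of_le_right (le_iSup (fun P : {P : Subgroup G | P ∈ Big ∧ ¬ P ≤ W} =>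
              (P : Subgroup G)) ⟨P, P.2, h⟩)
        set W₁ := W ⊓ F₁ with hW₁
        have hWsplit : W = D ⊔ W₁ := by
          refine le_antisymm (fun w hw => ?_) (sup_le hDW inf_le_left)
          obtain ⟨d, hd, f, hf, rfl⟩ := mem_sup_of_normal_right.1 (hFD hw.2)
          exact mul_mem (mem_sup_left hd) (mem_sup_right ⟨by simpa using mul_mem (inv_mem (hDW hd)) hw, hf⟩)
        have hW₁F : W₁ ≤ F := inf_le_left.trans inf_le_right
        have hW₁cent : ∀ c ∈ N, orderOf c = 4 → ∀ w ∈ W₁, Commute c w := by
          intro c hcN hc4 w hw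
          have hle : F₁ ≤ centralizer {c} := iSup_le fun P u hu v hv => by
            rw [Set.mem_singleton_iff.1 hv]
            exact (hcent c hcN hc4 P P.2.1 P.2.2 u hu).symm
          exact hle hw.2 c rfl
        have hAc : ∀ c ∈ N, orderOf c = 4 →
            IsMulCommutative ↥(W₁ ⊔ zpowers c) ∧ Nat.card ↥(W₁ ⊔ zpowers c) = Nat.card W₁ * 4 ∧
              (W₁ ⊔ zpowers c) ⊓ F = W₁ ∧ (W₁ ⊔ zpowers c).map π = zpowers (π c) := by
          intro c hcN hc4
          have hle : W₁ ≤ normalizer (zpowers c : Set G) := by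
            intro w hw
            refine centralizer_le_normalizer _ fun v hv => ?_
            obtain ⟨i, rfl⟩ := mem_zpowers_iff.1 hv
            exact ((hW₁cent c hcN hc4 w hw).zpow_left i).eq
          have hcF : ∀ i : ℤ, c ^ i ∈ F → c ^ i = 1 := fun i hi => orderOf_eq_one_iff.1
            (Nat.eq_one_of_dvd_coprimes hco
              (orderOf_dvd_of_pow_eq_one (by rw [← zpow_natCast, zpow_comm, zpow_natCast, ← hc4, pow_orderOf_eq_one, one_zpow]))
              (F.orderOf_dvd_natCard hi))
          have hmem : ∀ u, u ∈ W₁ ⊔ zpowers c ↔ ∃ w ∈ W₁, ∃ i : ℤ, w * c ^ i = u := by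
            intro u
            rw [← SetLike.mem_coe, coe_mul_of_left_le_normalizer_right W₁ (zpowers c) hle]
            constructor
            · rintro ⟨w, hw, v, hv, rfl⟩
              obtain ⟨i, rfl⟩ := mem_zpowers_iff.1 hv
              exact ⟨w, hw, i, rfl⟩
            · rintro ⟨w, hw, i, rfl⟩
              exact ⟨w, hw, c ^ i, zpow_mem (mem_zpowers c) i, rfl⟩
          refine ⟨⟨⟨fun u v => Subtype.ext ?_⟩⟩, ?_, ?_, ?_⟩
          · obtain ⟨w, hw, i, hu⟩ := (hmem _).1 u.2
            obtain ⟨w', hw', j, hv⟩ := (hmem _).1 v.2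
            show (u : G) * v = v * u
            rw [← hu, ← hv]
            have h1 : Commute w w' :=
              congrArg Subtype.val (mul_comm' (⟨w, hW₁F hw⟩ : F) ⟨w', hW₁F hw'⟩)
            exact ((h1.mul_right ((hW₁cent c hcN hc4 w hw).zpow_left j).symm).mul_left
              (((hW₁cent c hcN hc4 w' hw').zpow_left i).mul_right (Commute.zpow_zpow_self c i j))).eq
          · rw [← hc4, ← Nat.card_zpowers]
            exact Cfsg.Agent.CyclicNormal.card_sup_of_disjoint hle ((eq_bot_iff_forall _).2 fun u hu => by
              obtain ⟨i, rfl⟩ := mem_zpowers_iff.1 hu.2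
              exact hcF i (hW₁F hu.1))
          · refine le_antisymm (fun u hu => ?_) (le_inf le_sup_left hW₁F)
            obtain ⟨w, hw, i, rfl⟩ := (hmem _).1 hu.1
            have h1 : c ^ i ∈ F := by simpa using mul_mem (inv_mem (hW₁F hw)) hu.2
            rw [hcF i h1, mul_one]
            exact hw
          · rw [Subgroup.map_sup, MonoidHom.map_zpowers, sup_eq_right]
            refine le_trans (le_of_eq ((Subgroup.map_eq_bot_iff _).2 ?_)) bot_le
            rw [hπ, QuotientGroup.ker_mk']
            exact hW₁F
        obtain ⟨hca, hcarda, hinta, hmapa⟩ := hAc a haN ha4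
        obtain ⟨hcb, hcardb, hintb, hmapb⟩ := hAc b hbN hb4
        obtain ⟨g, hg⟩ := hB _ _ hca hcb (hcarda.trans hcardb.symm)
        have hgW₁ : W₁.map (MulAut.conj g).toMonoidHom = W₁ := by
          conv_rhs => rw [← hintb, hg]
          rw [← map_conj_eq_of_mem_normalizer (W := F) (g := g) (by rw [normalizer_eq_top]; exact mem_top g),
            ← map_inf _ _ _ (MulAut.conj g).injective, hinta]
        have hgN : g ∈ N := by
          refine mem_normalizer_of_map_conj_eq ?_
          rw [hWsplit, Subgroup.map_sup, hgW₁,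
            map_conj_eq_of_mem_normalizer (W := D) (by rw [normalizer_eq_top]; exact mem_top g)]
        refine ⟨⟨π g, ⟨g, hgN, rfl⟩⟩, ?_⟩
        have h1 := congrArg (Subgroup.map π) hg
        rw [map_conj_map, hmapa, hmapb, MonoidHom.map_zpowers,
          show π a = (x : G ⧸ F) from ha, show π b = (y : G ⧸ F) from hb] at h1
        obtain ⟨i, hi⟩ := mem_zpowers_iff.1 (h1.le (mem_zpowers (y : G ⧸ F)))
        exact mem_zpowers_iff.2 ⟨i, Subtype.ext (by rw [SubgroupClass.coe_zpow]; exact hi)⟩)
    exact ⟨x * g₀, by rw [hx, hA₁, map_conj_mul]⟩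


/-- If G is a finite solvable group in which any two abelian subgroups of the same order are conjugate, then any two subgroups of G of the same order are conjugate. -/
theorem result {G : Type*} [Group G] [Finite G] (hB : ∀ A B : Subgroup G, IsMulCommutative ↥A → IsMulCommutative ↥B → Nat.card ↥A = Nat.card ↥B → ∃ g : G, B = A.map (MulAut.conj g).toMonoidHom) (hsol : Group.IsSolvable G) (A B : Subgroup G)
    (h : Nat.card ↥A = Nat.card ↥B) : ∃ g : G, B = A.map (MulAut.conj g).toMonoidHom := by
  exact main _ G le_rfl hB hsol A B h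

end Cfsg.Agent.S3913
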