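import Cfsg.Statements.S3917
import Mathlib
-- import your own Cfsg.Agent.* helpers here

set_option autoImplicit false
open Cfsg

namespace Cfsg.Agent.S3917

/-- Say that a group has self-centralizing non-cyclic subgroups when every non-cyclic subgroup H satisfies C_G(H) ≤ H. A finite abelian group with self-centralizing non-cyclic subgroups is cyclic or elementary abelian of order p² for a prime p. -/
theorem result {G : Type*} [CommGroup G] [Finite G] (hX : (∀ H : Subgroup G, ¬ IsCyclic ↥H → Subgroup.centralizer (H : Set G) ≤ H)) :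
    IsCyclic G ∨ ∃ p : ℕ, p.Prime ∧ Nat.card G = p ^ 2 ∧ Monoid.exponent G = p := by
  classical
  by_cases hcyc : IsCyclic G
  · exact Or.inl hcyc
  right
  have htop : ∀ H : Subgroup G, ¬ IsCyclic H → H = ⊤ := fun H hH =>
    eq_top_iff.2 fun x _ => hX H hH (Subgroup.mem_centralizer_iff.2 fun y _ => mul_comm y x)
  obtain ⟨a, ha⟩ := Monoid.exists_orderOf_eq_exponent (Monoid.ExponentExists.of_finite (G := G))
  have hA : Subgroup.zpowers a ≠ ⊤ := by
    intro h
    exact hcyc ⟨a, fun x => h.ge (Subgroup.mem_top x)⟩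
  have hnt : Nontrivial (G ⧸ Subgroup.zpowers a) := by
    rw [← not_subsingleton_iff_nontrivial]
    intro hs
    exact hA (Subgroup.index_eq_one.1 (Nat.card_eq_one_iff_unique.2 ⟨hs, ⟨1⟩⟩))
  obtain ⟨p, hp, hpd⟩ := Nat.exists_prime_and_dvd
    (n := Nat.card (G ⧸ Subgroup.zpowers a)) (Finite.one_lt_card.ne')
  haveI := Fact.mk hp
  obtain ⟨q, hq⟩ := exists_prime_orderOf_dvd_card' p hpd
  obtain ⟨b, rfl⟩ := QuotientGroup.mk_surjective q
  have hbA : b ∉ Subgroup.zpowers a := by
    intro h
    rw [(QuotientGroup.eq_one_iff b).2 h, orderOf_one] at hq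
    exact hp.ne_one hq.symm
  obtain ⟨e, he⟩ : p ∣ orderOf a := by
    rw [ha]
    exact (hq ▸ orderOf_map_dvd (QuotientGroup.mk' (Subgroup.zpowers a)) b).trans (Monoid.order_dvd_exponent b)
  have he0 : e ≠ 0 := by rintro rfl; exact (orderOf_pos a).ne' (by rw [he, Nat.mul_zero])
  obtain ⟨j, hj⟩ : b ^ p ∈ Subgroup.zpowers a := by
    rw [← QuotientGroup.eq_one_iff, QuotientGroup.mk_pow, ← hq, pow_orderOf_eq_one]
  have hbe : b ^ (p * e) = 1 := by
    rw [← he, ha, Monoid.pow_exponent_eq_one]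
  have hpj : (p : ℤ) ∣ j := by
    have h1 : a ^ (j * e) = 1 := by
      rw [zpow_mul, show a ^ j = b ^ p from hj, zpow_natCast, ← pow_mul, hbe]
    have h2 := orderOf_dvd_iff_zpow_eq_one.2 h1
    rw [he, Nat.cast_mul] at h2
    exact Int.dvd_of_mul_dvd_mul_right (Int.natCast_ne_zero.2 he0) h2
  obtain ⟨i, hi⟩ := hpj
  set b' := b * (a ^ i)⁻¹ with hb'
  have hb'p : b' ^ p = 1 := by
    have e1 : (a ^ i) ^ p = a ^ j := by rw [← zpow_natCast (a ^ i) p, ← zpow_mul, hi, mul_comm]
    have e2 : a ^ j = b ^ p := hj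
    rw [hb', mul_pow, inv_pow, e1, e2, mul_inv_cancel]
  have hb'A : b' ∉ Subgroup.zpowers a := fun h => hbA (by
    simpa [hb'] using mul_mem h (zpow_mem (Subgroup.mem_zpowers a) i))
  set a0 := a ^ e with ha0
  have ha0p : a0 ^ p = 1 := by rw [ha0, ← pow_mul, Nat.mul_comm, ← he, pow_orderOf_eq_one]
  have ha01 : orderOf a0 = p := by
    refine orderOf_eq_prime ha0p fun h => ?_
    have h2 := orderOf_dvd_of_pow_eq_one h
    have h3 := Nat.le_of_dvd (Nat.pos_of_ne_zero he0) h2
    have h4 : 2 * e ≤ p * e := Nat.mul_le_mul_right e hp.two_le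
    omega
  set H := Subgroup.closure ({a0, b'} : Set G) with hH
  have hexp : ∀ x ∈ H, x ^ p = 1 := by
    intro x hx
    induction hx using Subgroup.closure_induction with
    | mem y hy => rcases hy with rfl | rfl <;> assumption
    | one => exact one_pow _
    | mul y z _ _ hy hz => rw [mul_pow, hy, hz, one_mul]
    | inv y _ hy => rw [inv_pow, hy, inv_one]
  have haH : a0 ∈ H := Subgroup.subset_closure (Set.mem_insert _ _)
  have hncyc : ¬ IsCyclic H := by
    intro hc
    have h1 : Nat.card H ∣ p := by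
      rw [← IsCyclic.exponent_eq_card (α := H)]
      exact Monoid.exponent_dvd_of_forall_pow_eq_one fun x => Subtype.ext (hexp x x.2)
    have h2 : Subgroup.zpowers a0 = H := Subgroup.eq_of_le_of_card_ge (Subgroup.zpowers_le.2 haH)
      (by rw [Nat.card_zpowers, ha01]; exact Nat.le_of_dvd hp.pos h1)
    apply hb'A
    have : b' ∈ Subgroup.zpowers a0 := h2.ge (Subgroup.subset_closure (Set.mem_insert_of_mem _ rfl))
    exact Subgroup.zpowers_le.2 (pow_mem (Subgroup.mem_zpowers a) e) this
  have hHtop := htop H hncyc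
  have hpall : ∀ x : G, x ^ p = 1 := fun x => hexp x (hHtop ▸ Subgroup.mem_top x)
  have hexpG : Monoid.exponent G = p := by
    refine ((Nat.dvd_prime hp).1 (Monoid.exponent_dvd_of_forall_pow_eq_one hpall)).resolve_left fun h => ?_
    exact hp.ne_one (by rw [← Nat.dvd_one, ← h, ← ha, he]; exact dvd_mul_right p e)
  have he1 : e = 1 := by
    have h5 : p * e = p * 1 := by rw [← he, ha, hexpG, Nat.mul_one]
    exact Nat.eq_of_mul_eq_mul_left hp.pos h5
  have hq' : Subgroup.zpowers (QuotientGroup.mk b : G ⧸ Subgroup.zpowers a) = ⊤ := by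
    rw [eq_top_iff]
    intro z _
    obtain ⟨z, rfl⟩ := QuotientGroup.mk_surjective z
    have hz : z ∈ H := hHtop ▸ Subgroup.mem_top z
    have hle : H ≤ (Subgroup.zpowers (QuotientGroup.mk b : G ⧸ Subgroup.zpowers a)).comap
        (QuotientGroup.mk' (Subgroup.zpowers a)) := by
      rw [hH, Subgroup.closure_le]
      rintro y (rfl | rfl)
      · rw [SetLike.mem_coe, Subgroup.mem_comap, QuotientGroup.mk'_apply]
        rw [(QuotientGroup.eq_one_iff a0).2 (pow_mem (Subgroup.mem_zpowers a) e)]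
        exact one_mem _
      · rw [SetLike.mem_coe, Subgroup.mem_comap, QuotientGroup.mk'_apply]
        rw [hb', QuotientGroup.mk_mul, QuotientGroup.mk_inv,
          (QuotientGroup.eq_one_iff (a ^ i)).2 (zpow_mem (Subgroup.mem_zpowers a) i), inv_one, mul_one]
        exact Subgroup.mem_zpowers _
    exact hle hz
  refine ⟨p, hp, ?_, hexpG⟩
  have hidx : (Subgroup.zpowers a).index = p := by
    rw [Subgroup.index, ← Subgroup.card_top, ← hq', Nat.card_zpowers, hq]
  rw [← (Subgroup.zpowers a).index_mul_card, hidx, Nat.card_zpowers, he, he1, Nat.mul_one, pow_two]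

end Cfsg.Agent.S3917
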