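-- statement Cfsg.CfsgFrozen.S3918 (Cfsg/Statements/S3918.lean; the theorem Cfsg.fg3_odd_p_group_with_selfcentralizing_noncyclic_subgroups);
import Cfsg.Statements.S3918
import Cfsg.Agent.Known.NormalRankTwo

set_option autoImplicit false
open Cfsg

namespace Cfsg.Agent.S3918

theorem card_le_of_selfCent {G : Type*} [Group G] [Finite G] {p : ℕ} [Fact p.Prime] (hp : p ≠ 2)
    (hG : IsPGroup p G) (hnc : ¬ IsCyclic G)
    (h : ∀ H : Subgroup G, ¬ IsCyclic ↥H → Subgroup.centralizer (H : Set G) ≤ H) :
    Nat.card G = p ^ 2 ∨ Nat.card G = p ^ 3 := by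
  have hpp : p.Prime := Fact.out
  obtain ⟨E, hEn, hEc, hEcomm, hEexp⟩ := Cfsg.Agent.Known.exists_normal_elemAb_sq hp hG hnc
  haveI := hEn
  have hEnc : ¬ IsCyclic E := by
    intro hc
    obtain ⟨g, hg⟩ := IsCyclic.exists_generator (α := E)
    have ho := orderOf_eq_card_of_forall_mem_zpowers hg
    have : g ^ p = 1 := Subtype.ext (by rw [Subgroup.coe_pow]; exact hEexp g g.2)
    have hd : orderOf g ∣ p := orderOf_dvd_of_pow_eq_one this
    rw [ho, hEc] at hd
    have := Nat.le_of_dvd hpp.pos hd
    have := hpp.one_lt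
    nlinarith
  have hCE := h E hEnc
  -- a nontrivial central element of `E`
  have hEbot : E ≠ ⊥ := fun e => hEnc (e ▸ (inferInstance : IsCyclic (⊥ : Subgroup G)))
  haveI : Nontrivial G := by
    by_contra hn
    rw [not_nontrivial_iff_subsingleton] at hn
    exact hnc inferInstance
  obtain ⟨z, hzE, hzZ, hz1⟩ : ∃ z ∈ E, z ∈ Subgroup.center G ∧ z ≠ 1 := by
    have := Cfsg.Agent.PGroup.inf_center_ne_bot hG E hEbot
    obtain ⟨⟨z, hz⟩, hz1⟩ := (Subgroup.ne_bot_iff_exists_ne_one (H := E ⊓ Subgroup.center G)).mp this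
    exact ⟨z, hz.1, hz.2, fun e => hz1 (Subtype.ext e)⟩
  have hzo : orderOf z = p := orderOf_eq_prime (hEexp z hzE) hz1
  obtain ⟨e, heE, hez⟩ : ∃ e ∈ E, e ∉ Subgroup.zpowers z := by
    by_contra hne
    push Not at hne
    exact hEnc (Subgroup.isCyclic_of_le (show E ≤ Subgroup.zpowers z from hne))
  have hCe : Subgroup.centralizer ({e} : Set G) ≤ E := by
    refine le_trans ?_ hCE
    intro x hx
    rw [Subgroup.mem_centralizer_iff] at hx ⊢
    have hex := hx e rfl
    let W := Subgroup.centralizer ({x} : Set G)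
    have hWe : e ∈ W := Subgroup.mem_centralizer_singleton_iff.mpr hex
    have hWz : z ∈ W := Subgroup.mem_centralizer_singleton_iff.mpr
      (Subgroup.mem_center_iff.mp hzZ x).symm
    have hEW : E ≤ W := by
      have hWE : E ⊓ W = E := by
        apply Subgroup.eq_of_le_of_card_ge inf_le_left
        have hd : Nat.card ↥(E ⊓ W) ∣ p ^ 2 := hEc ▸ Subgroup.card_dvd_of_le inf_le_left
        obtain ⟨j, hj, hje⟩ := (Nat.dvd_prime_pow hpp).mp hd
        rw [hEc, hje]
        apply Nat.pow_le_pow_right hpp.pos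
        by_contra hlt
        have hzle : Subgroup.zpowers z ≤ E ⊓ W :=
          Subgroup.zpowers_le.mpr ⟨hzE, hWz⟩
        have heq : Subgroup.zpowers z = E ⊓ W := by
          apply Subgroup.eq_of_le_of_card_ge hzle
          rw [Nat.card_zpowers, hzo, hje]
          conv_rhs => rw [← pow_one p]
          exact Nat.pow_le_pow_right hpp.pos (by omega)
        exact hez (heq ▸ ⟨heE, hWe⟩)
      exact hWE ▸ inf_le_right
    intro y hy
    exact Subgroup.mem_centralizer_singleton_iff.mp (hEW hy)
  -- the conjugates of `e` lie in `E` without the identity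
  let f : G ⧸ Subgroup.centralizer ({e} : Set G) → {x : E // x ≠ 1} :=
    Quotient.lift (fun g : G => (⟨⟨g * e * g⁻¹, hEn.conj_mem e heE g⟩, by
      intro he
      have := congrArg Subtype.val he
      simp only [OneMemClass.coe_one, conj_eq_one_iff] at this
      exact hez (this ▸ Subgroup.one_mem _)⟩ : {x : E // x ≠ 1}))
      (by
        intro g g' hgg
        have hgg' : g⁻¹ * g' ∈ Subgroup.centralizer ({e} : Set G) :=
          QuotientGroup.leftRel_apply.mp hgg
        rw [Subgroup.mem_centralizer_singleton_iff] at hgg'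
        apply Subtype.ext; apply Subtype.ext
        show g * e * g⁻¹ = g' * e * g'⁻¹
        calc g * e * g⁻¹ = g * (e * (g⁻¹ * g')) * g'⁻¹ := by group
          _ = g * ((g⁻¹ * g') * e) * g'⁻¹ := by rw [hgg']
          _ = g' * e * g'⁻¹ := by group)
  have hf : Function.Injective f := by
    intro a b
    refine Quotient.inductionOn₂ a b fun g g' hab => ?_
    have h' : g * e * g⁻¹ = g' * e * g'⁻¹ := congrArg (fun x => ((x.1 : E) : G)) hab
    refine Quotient.sound (QuotientGroup.leftRel_apply.mpr ?_)
    rw [Subgroup.mem_centralizer_singleton_iff]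
    calc g⁻¹ * g' * e = g⁻¹ * (g' * e * g'⁻¹) * g' := by group
      _ = g⁻¹ * (g * e * g⁻¹) * g' := by rw [h']
      _ = e * (g⁻¹ * g') := by group
  have hlt : (Subgroup.centralizer ({e} : Set G)).index < p ^ 2 := by
    refine lt_of_le_of_lt (Nat.card_le_card_of_injective f hf) ?_
    rw [← hEc]
    exact Finite.card_subtype_lt (x := (1 : E)) (by simp)
  obtain ⟨j, hj⟩ := hG.index (Subgroup.centralizer ({e} : Set G))
  rw [hj] at hlt
  have hj2 : j < 2 := (Nat.pow_lt_pow_iff_right hpp.one_lt).mp hlt
  have hce : Nat.card (Subgroup.centralizer ({e} : Set G)) = p ^ 2 := by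
    have hge : E ≤ Subgroup.centralizer ({e} : Set G) := fun x hx =>
      Subgroup.mem_centralizer_singleton_iff.mpr
        (congrArg Subtype.val (hEcomm.is_comm.comm (⟨x, hx⟩ : E) ⟨e, heE⟩))
    rw [le_antisymm hCe hge, hEc]
  have hcard := Subgroup.card_mul_index (Subgroup.centralizer ({e} : Set G))
  rw [hce, hj, ← pow_add] at hcard
  interval_cases j
  · exact Or.inl hcard.symm
  · exact Or.inr hcard.symm

/-- Say that a group has self-centralizing non-cyclic subgroups when every non-cyclic subgroup H satisfies C_G(H) ≤ H. For an odd prime p, a finite non-abelian p-group has self-centralizing non-cyclic subgroups if and only if it has order p³. -/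
theorem result {G : Type*} [Group G] [Finite G] {p : ℕ} [Fact p.Prime] (hp : p ≠ 2) (hG : IsPGroup p G) (hna : ¬ IsMulCommutative G) :
    (∀ H : Subgroup G, ¬ IsCyclic ↥H → Subgroup.centralizer (H : Set G) ≤ H) ↔ Nat.card G = p ^ 3 := by
  have hpp : p.Prime := Fact.out
  have hnc : ¬ IsCyclic G := fun hc => hna inferInstance
  refine ⟨fun h => ?_, fun hc H hH x hx => ?_⟩
  · rcases card_le_of_selfCent hp hG hnc h with h2 | h3
    · exact absurd ⟨⟨IsPGroup.commutative_of_card_eq_prime_sq h2⟩⟩ hna
    · exact h3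
  · by_contra hxH
    have hd : Nat.card H ∣ p ^ 3 := hc ▸ H.card_subgroup_dvd_card
    obtain ⟨j, hj, hje⟩ := (Nat.dvd_prime_pow hpp).mp hd
    interval_cases j
    · rw [pow_zero, Subgroup.card_eq_one] at hje
      exact hH (hje ▸ inferInstance)
    · exact hH (isCyclic_of_prime_card (p := p) (by rw [hje, pow_one]))
    · -- `H ∪ {x}` generates `G`, which is then abelian
      have hcH : ∀ a ∈ H, ∀ b ∈ H, a * b = b * a := fun a ha b hb =>
        congrArg Subtype.val (IsPGroup.commutative_of_card_eq_prime_sq hje ⟨a, ha⟩ ⟨b, hb⟩)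
      have hxc := Subgroup.mem_centralizer_iff.mp hx
      let S : Set G := insert x (H : Set G)
      have hS : ∀ a ∈ S, ∀ b ∈ S, a * b = b * a := by
        rintro a (rfl | ha) b (rfl | hb)
        · rfl
        · exact (hxc b hb).symm
        · exact hxc a ha
        · exact hcH a ha b hb
      have hK : Subgroup.closure S = ⊤ := by
        apply Subgroup.eq_top_of_card_eq
        have hdK : Nat.card (Subgroup.closure S) ∣ p ^ 3 := hc ▸ Subgroup.card_subgroup_dvd_card _
        obtain ⟨i, hi, hie⟩ := (Nat.dvd_prime_pow hpp).mp hdK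
        have hlt : H < Subgroup.closure S := by
          refine lt_of_le_of_ne (fun a ha => Subgroup.subset_closure (Or.inr ha)) ?_
          intro he
          exact hxH (he ▸ Subgroup.subset_closure (Or.inl rfl))
        have hl := Set.ncard_lt_ncard (SetLike.coe_ssubset_coe.mpr hlt)
        rw [← Nat.card_coe_set_eq, ← Nat.card_coe_set_eq] at hl
        change Nat.card H < Nat.card (Subgroup.closure S) at hl
        rw [hje, hie] at hl
        have := (Nat.pow_lt_pow_iff_right hpp.one_lt).mp hl
        rw [hie, hc]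
        congr 1
        omega
      refine hna ⟨⟨fun a b => ?_⟩⟩
      have hmc : IsMulCommutative (Subgroup.closure S) := Subgroup.isMulCommutative_closure hS
      exact congrArg Subtype.val (hmc.is_comm.comm (⟨a, hK ▸ Subgroup.mem_top a⟩ : Subgroup.closure S)
        ⟨b, hK ▸ Subgroup.mem_top b⟩)
    · have : H = ⊤ := Subgroup.eq_top_of_card_eq H (by rw [hje, hc])
      exact hxH (this ▸ Subgroup.mem_top x)

end Cfsg.Agent.S3918
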