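import Cfsg.Statements.S3919
import Cfsg.Agent.TwoGroups.MaxClassCriterion

set_option autoImplicit false
open Cfsg

namespace Cfsg.Agent.S3919

open Cfsg.Agent.TwoGroups

/-- The four-group `{1, x, y, x * y}` on two commuting involutions. -/
def fourOf {G : Type*} [Group G] (x y : G) (hx : x * x = 1) (hy : y * y = 1)
    (hxy : x * y = y * x) : Subgroup G where
  carrier := {g | g = 1 ∨ g = x ∨ g = y ∨ g = x * y}
  one_mem' := Or.inl rfl
  mul_mem' := by
    have e1 : x * (x * y) = y := by rw [← mul_assoc, hx, one_mul]
    have e2 : y * (x * y) = x := by rw [hxy, ← mul_assoc, hy, one_mul]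
    have e3 : x * y * x = y := by rw [hxy, mul_assoc, hx, mul_one]
    have e4 : x * y * y = x := by rw [mul_assoc, hy, mul_one]
    have e5 : x * y * (x * y) = 1 := by rw [mul_assoc, e2, hx]
    rintro a b (rfl | rfl | rfl | rfl) (rfl | rfl | rfl | rfl) <;>
      simp [hx, hy, e1, e2, e3, e4, e5, ← hxy]
  inv_mem' := by
    have i1 : x⁻¹ = x := inv_eq_of_mul_eq_one_right hx
    have i2 : y⁻¹ = y := inv_eq_of_mul_eq_one_right hy
    rintro a (rfl | rfl | rfl | rfl) <;> simp [mul_inv_rev, i1, i2, ← hxy]

theorem not_isCyclic_fourOf {G : Type*} [Group G] {x y : G} (hx : orderOf x = 2)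
    (hy : orderOf y = 2) (hne : x ≠ y) (hx2 : x * x = 1) (hy2 : y * y = 1)
    (hxy : x * y = y * x) : ¬ IsCyclic (fourOf x y hx2 hy2 hxy) := by
  intro hc
  have hsq : ∀ a : fourOf x y hx2 hy2 hxy, a * a = 1 := by
    rintro ⟨a, rfl | rfl | rfl | rfl⟩ <;> apply Subtype.ext
    · simp
    · simp [hx2]
    · simp [hy2]
    · simp only [Subgroup.coe_mul, Subgroup.coe_one]
      rw [show x * y * (x * y) = x * (y * x) * y by group, ← hxy,
        show x * (x * y) * y = x * x * (y * y) by group, hx2, hy2, one_mul]
  obtain ⟨g, hg⟩ := hc.exists_generator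
  have hall : ∀ a : fourOf x y hx2 hy2 hxy, a = 1 ∨ a = g := by
    intro a
    obtain ⟨i, rfl⟩ := Subgroup.mem_zpowers_iff.mp (hg a)
    rcases Int.even_or_odd i with ⟨k, rfl⟩ | ⟨k, rfl⟩
    · left; rw [zpow_add, ← (Commute.refl g).mul_zpow, hsq, one_zpow]
    · right; rw [zpow_add, zpow_one, two_mul, zpow_add, ← (Commute.refl g).mul_zpow, hsq,
        one_zpow, one_mul]
  have hx1 : x ≠ 1 := fun h => by simp [h] at hx
  have hy1 : y ≠ 1 := fun h => by simp [h] at hy
  rcases hall ⟨x, Or.inr (Or.inl rfl)⟩ with h | h
  · exact hx1 (congrArg Subtype.val h)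
  rcases hall ⟨y, Or.inr (Or.inr (Or.inl rfl))⟩ with h' | h'
  · exact hy1 (congrArg Subtype.val h')
  exact hne (congrArg Subtype.val (h.trans h'.symm))

/-- Say that a group has self-centralizing non-cyclic subgroups when every non-cyclic subgroup H satisfies C_G(H) ≤ H. A finite non-abelian 2-group G of order 2^n has self-centralizing non-cyclic subgroups if and only if G has nilpotency class n − 1 (that is, G is dihedral, semidihedral or generalized quaternion). -/
theorem result {G : Type*} [Group G] [Finite G] (hna : ¬ IsMulCommutative G) (n : ℕ) (hG : Nat.card G = 2 ^ n) :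
    (∀ H : Subgroup G, ¬ IsCyclic ↥H → Subgroup.centralizer (H : Set G) ≤ H) ↔ (⊤ : Subgroup G).lowerCentralSeries (n - 2) ≠ ⊥ := by
  have : Fact (Nat.Prime 2) := ⟨Nat.prime_two⟩
  have hp : IsPGroup 2 G := IsPGroup.of_card hG
  have hne : ∃ x y : G, x * y ≠ y * x := by
    by_contra h
    push Not at h
    exact hna ⟨⟨h⟩⟩
  constructor
  · intro hsc
    -- the derived subgroup has index four
    have h4 : (commutator G).index = 4 := by
      by_cases huniq : ∀ x y : G, orderOf x = 2 → orderOf y = 2 → x = y
      · rcases cyclic_or_quaternion_of_unique_involution hp huniq with hc | ⟨m, hm, hcard, ⟨e⟩⟩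
        · obtain ⟨g, hg⟩ := hc.exists_generator
          obtain ⟨x, y, hxy⟩ := hne
          obtain ⟨i, rfl⟩ := Subgroup.mem_zpowers_iff.mp (hg x)
          obtain ⟨j, rfl⟩ := Subgroup.mem_zpowers_iff.mp (hg y)
          exact absurd (Commute.zpow_zpow_self g i j).eq hxy
        · have ha : orderOf (e.symm (QuaternionGroup.a 1)) = 2 ^ m := by
            rw [e.symm.orderOf_eq, QuaternionGroup.orderOf_a_one, ← pow_succ']
            congr 1; omega
          obtain ⟨b, hd, -⟩ := quaternion_data_of_unique_involution hcard ha hne huniq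
          exact index_commutator_of_card_centralizer hp hne (hd.card_centralizer hd.notMem)
      · push Not at huniq
        obtain ⟨x, y, hx, hy, hxy⟩ := huniq
        have sq : ∀ u : G, orderOf u = 2 → u * u = 1 := fun u hu => by
          rw [← pow_two, ← hu, pow_orderOf_eq_one]
        have hntop : (⊤ : Subgroup G) ≠ ⊥ := fun h => by
          have hm : x ∈ (⊥ : Subgroup G) := h ▸ Subgroup.mem_top x
          rw [Subgroup.mem_bot.mp hm] at hx; simp at hx
        by_cases hcen : ∀ t : G, orderOf t = 2 → t ∈ Subgroup.center G
        · -- two central involutions: impossible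
          have hc : x * y = y * x := Subgroup.mem_center_iff.mp (hcen y hy) x
          have hle := hsc _ (not_isCyclic_fourOf hx hy hxy (sq x hx) (sq y hy) hc)
          obtain ⟨u, v, huv⟩ := hne
          have hall : ∀ g : G, g ∈ fourOf x y (sq x hx) (sq y hy) hc := fun g => hle (by
            refine Subgroup.mem_centralizer_iff.mpr ?_
            rintro w (rfl | rfl | rfl | rfl)
            · simp
            · exact (Subgroup.mem_center_iff.mp (hcen _ hx) g).symm
            · exact (Subgroup.mem_center_iff.mp (hcen _ hy) g).symm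
            · exact (Subgroup.mem_center_iff.mp (mul_mem (hcen _ hx) (hcen _ hy)) g).symm)
          have hmem : ∀ g : G, g ∈ Subgroup.center G := fun g => by
            rcases hall g with rfl | rfl | rfl | rfl
            · exact one_mem _
            · exact hcen _ hx
            · exact hcen _ hy
            · exact mul_mem (hcen _ hx) (hcen _ hy)
          exact absurd (Subgroup.mem_center_iff.mp (hmem v) u) huv
        · push Not at hcen
          obtain ⟨t, ht, htc⟩ := hcen
          obtain ⟨z, -, hzc, hz⟩ := exists_central_involution_of_normal hp ⊤ hntop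
          have hzt : z ≠ t := fun h => htc (h ▸ hzc)
          have hc : z * t = t * z := (Subgroup.mem_center_iff.mp hzc t).symm
          set V := fourOf z t (sq z hz) (sq t ht) hc with hV
          have hle := hsc V (not_isCyclic_fourOf hz ht hzt (sq z hz) (sq t ht) hc)
          have hCt : Subgroup.centralizer ({t} : Set G) = V := by
            refine le_antisymm (fun g hg => hle ?_) ?_
            · rw [Subgroup.mem_centralizer_singleton_iff] at hg
              refine Subgroup.mem_centralizer_iff.mpr ?_
              rintro w (rfl | rfl | rfl | rfl)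
              · simp
              · exact (Subgroup.mem_center_iff.mp hzc g).symm
              · exact hg.symm
              · rw [mul_assoc, ← hg, ← mul_assoc, ← Subgroup.mem_center_iff.mp hzc g, mul_assoc]
            · rintro w (rfl | rfl | rfl | rfl) <;> rw [Subgroup.mem_centralizer_singleton_iff]
              · simp
              · exact hc
              · rw [← mul_assoc t, ← hc]
          refine index_commutator_of_card_centralizer hp hne (t := t) ?_
          rw [hCt]
          have hz1 : z ≠ 1 := fun h => by simp [h] at hz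
          have ht1 : t ≠ 1 := fun h => by simp [h] at ht
          have h1 : z * t ≠ 1 := fun h => hzt (by
            rw [← inv_eq_of_mul_eq_one_right (sq z hz)]; exact inv_eq_of_mul_eq_one_right h)
          have hset : (V : Set G) = {1, z, t, z * t} := by
            ext g; simp [hV, fourOf]
          show Nat.card (V : Set G) = 4
          rw [Nat.card_congr (Equiv.setCongr hset), Nat.card_coe_set_eq, Set.ncard_insert_of_notMem
            (by simp [hz1.symm, ht1.symm, h1.symm]), Set.ncard_insert_of_notMem (by simp [hzt, ht1]),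
            Set.ncard_pair (by simp [hz1])]
    have hb : commutator G ≠ ⊥ := fun h => by
      obtain ⟨x, y, hxy⟩ := hne
      have hm : x * y * x⁻¹ * y⁻¹ ∈ commutator G :=
        Subgroup.commutator_mem_commutator (Subgroup.mem_top x) (Subgroup.mem_top y)
      rw [h, Subgroup.mem_bot] at hm
      exact hxy (by rwa [mul_inv_eq_one, mul_inv_eq_iff_eq_mul] at hm)
    obtain ⟨m, a, b, r, hd⟩ := exists_maxClassData hp h4 hb
    have hm : n = m + 1 := Nat.pow_right_injective (le_refl 2) (hG.symm.trans hd.card)
    rw [hm, show m + 1 - 2 = m - 1 by omega]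
    exact hd.lowerCentralSeries_ne_bot
  · intro h H hH
    have h4 := index_commutator_of_lowerCentralSeries hG hne h
    have hb : commutator G ≠ ⊥ := fun hb => by
      obtain ⟨x, y, hxy⟩ := hne
      have hm : x * y * x⁻¹ * y⁻¹ ∈ commutator G :=
        Subgroup.commutator_mem_commutator (Subgroup.mem_top x) (Subgroup.mem_top y)
      rw [hb, Subgroup.mem_bot] at hm
      exact hxy (by rwa [mul_inv_eq_one, mul_inv_eq_iff_eq_mul] at hm)
    obtain ⟨m, a, b, r, hd⟩ := exists_maxClassData hp h4 hb
    have hm2 := hd.two_le
    have hnle : ¬ H ≤ Subgroup.zpowers a := fun hle => hH (Subgroup.isCyclic_of_le hle)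
    obtain ⟨g, hgH, hgA⟩ := SetLike.not_le_iff_exists.mp hnle
    -- the centre lies in `H`
    have hZ : Subgroup.center G ≤ H := by
      obtain ⟨k, hk, hke⟩ := hd.exists_two_pow_of_le (H := H ⊓ Subgroup.zpowers a) inf_le_right
      have hkn : k ≠ m := by
        intro hkm
        have h2 : Nat.card H = 2 := by
          rw [hd.toCyclicExt.card_eq_two_mul hnle, hke, hd.card_zpowers_two_pow hk, hkm,
            Nat.sub_self, pow_zero, mul_one]
        exact hH (isCyclic_of_prime_card h2)
      rw [hd.center_eq, Subgroup.zpowers_le]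
      have : a ^ (2 ^ (m - 1)) ∈ H ⊓ Subgroup.zpowers a := by
        rw [hke, ← hd.zpow_invol_cast, hd.mem_zpowers_two_pow_iff hk]
        exact pow_dvd_pow 2 (by omega)
      exact this.1
    intro x hx
    have hxg : g * x = x * g := Subgroup.mem_centralizer_iff.mp hx g hgH
    have key : ∀ y : G, y ∈ Subgroup.zpowers a → g * y = y * g → y ∈ H := fun y hy hyg => hZ (by
      rw [← hd.centralizer_inf_zpowers hgA]
      exact ⟨Subgroup.mem_centralizer_singleton_iff.mpr hyg.symm, hy⟩)
    by_cases hxA : x ∈ Subgroup.zpowers a
    · exact key x hxA hxg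
    · have hi : (Subgroup.zpowers a).index = 2 := hd.toCyclicExt.index_two
      have hmem : x * g⁻¹ ∈ Subgroup.zpowers a :=
        (Subgroup.mul_mem_iff_of_index_two hi).mpr (by simp [hxA, hgA])
      have := key _ hmem (by rw [inv_mul_cancel_right, ← mul_assoc, hxg, mul_inv_cancel_right])
      simpa [mul_assoc] using mul_mem this hgH

end Cfsg.Agent.S3919
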