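-- statement Cfsg.CfsgFrozen.S3920 (Cfsg/Statements/S3920.lean; the theorem Cfsg.fg3_dihedral_group_selfcentralizing_noncyclic_subgroups_iff);
import Cfsg.Statements.S3920

set_option autoImplicit false
open Cfsg

namespace Cfsg.Agent.S3920

open DihedralGroup in
theorem self_cent {n : ℕ} [NeZero n] (h : Odd n ∨ ∃ k : ℕ, n = 2 ^ k)
    (H : Subgroup (DihedralGroup n)) (hH : ¬ IsCyclic ↥H) :
    Subgroup.centralizer (H : Set (DihedralGroup n)) ≤ H := by
  have hsr : ∃ i, sr i ∈ H := by
    by_contra hne
    push Not at hne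
    apply hH
    have hle : H ≤ Subgroup.zpowers (r (1 : ZMod n)) := by
      intro x hx
      rcases x with j | j
      · exact ⟨(j.val : ℤ), by simp [ZMod.natCast_zmod_val]⟩
      · exact absurd hx (hne j)
    exact Subgroup.isCyclic_of_le hle
  obtain ⟨i, hi⟩ := hsr
  have key : ∀ j : ZMod n, 2 * j = 0 → r j ∈ H := by
    intro j hj
    rcases h with hodd | ⟨k, rfl⟩
    · have h2 : IsUnit ((2 : ℕ) : ZMod n) :=
        (ZMod.isUnit_iff_coprime 2 n).mpr (Nat.coprime_two_left.mpr hodd)
      rw [Nat.cast_ofNat] at h2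
      rw [h2.mul_right_eq_zero.mp hj, r_zero]
      exact H.one_mem
    · by_cases hj0 : j = 0
      · subst hj0
        rw [r_zero]
        exact H.one_mem
      -- a nontrivial rotation in `H`
      have hl : ∃ l : ZMod (2 ^ k), l ≠ 0 ∧ r l ∈ H := by
        by_contra hne
        push Not at hne
        apply hH
        have hle : H ≤ Subgroup.zpowers (sr i) := by
          intro x hx
          rcases x with l | l
          · have : l = 0 := by
              by_contra h0
              exact hne l h0 hx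
            subst this
            rw [r_zero]
            exact Subgroup.one_mem _
          · have hm := H.mul_mem hi hx
            rw [sr_mul_sr] at hm
            have : l - i = 0 := by
              by_contra h0
              exact hne _ h0 hm
            rw [sub_eq_zero.mp this]
            exact Subgroup.mem_zpowers _
        exact Subgroup.isCyclic_of_le hle
      obtain ⟨l, hl0, hlH⟩ := hl
      have hv0 : l.val ≠ 0 := fun h0 => hl0 ((ZMod.val_eq_zero l).mp h0)
      obtain ⟨b, u, hu, hv⟩ := Nat.exists_eq_two_pow_mul_odd hv0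
      have hvlt : l.val < 2 ^ k := ZMod.val_lt l
      have hbk : b < k := by
        rw [hv] at hvlt
        rcases hu with ⟨c, rfl⟩
        by_contra hge
        push Not at hge
        have : 2 ^ k ≤ 2 ^ b := Nat.pow_le_pow_right (by norm_num) hge
        nlinarith
      have hj2 : (2 ^ k : ℕ) ∣ 2 * j.val := by
        rw [← ZMod.natCast_eq_zero_iff, Nat.cast_mul, ZMod.natCast_zmod_val]
        exact_mod_cast hj
      have hjv : j.val ≠ 0 := fun h0 => hj0 ((ZMod.val_eq_zero j).mp h0)
      have hjlt : j.val < 2 ^ k := ZMod.val_lt j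
      have hjk : 2 * j.val = 2 ^ k := by
        obtain ⟨c, hc⟩ := hj2
        rcases c with _ | _ | c
        · omega
        · omega
        · nlinarith
      obtain ⟨c, rfl⟩ := hu
      have hp : r l ^ (2 ^ (k - 1 - b)) = r j := by
        rw [r_pow]
        congr 1
        rw [← ZMod.natCast_zmod_val l, ← ZMod.natCast_zmod_val j, hv, ← Nat.cast_mul]
        have h1 : 2 ^ b * (2 * c + 1) * 2 ^ (k - 1 - b) = j.val + 2 ^ k * c := by
          have e : 2 ^ b * 2 ^ (k - 1 - b) = 2 ^ (k - 1) := by
            rw [← pow_add]; congr 1; omega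
          have e2 : 2 * 2 ^ (k - 1) = 2 ^ k := by
            rw [← pow_succ']; congr 1; omega
          have e3 : j.val = 2 ^ (k - 1) := by omega
          rw [e3, ← e2, ← e]
          ring
        rw [h1, Nat.cast_add, Nat.cast_mul, ZMod.natCast_self, zero_mul, add_zero]
      rw [← hp]
      exact H.pow_mem hlH _
  intro x hx
  have hcomm := Subgroup.mem_centralizer_iff.mp hx (sr i) hi
  rcases x with j | j
  · simp only [sr_mul_r, r_mul_sr, sr.injEq] at hcomm
    exact key j (by linear_combination hcomm)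
  · simp only [sr_mul_sr, r.injEq] at hcomm
    have h1 := key (j - i) (by linear_combination hcomm)
    have h2 := H.mul_mem hi h1
    rw [sr_mul_r, add_sub_cancel] at h2
    exact h2
open DihedralGroup in
theorem not_self_cent {n a m : ℕ} [NeZero n] (ha : a ≠ 0) (hm : Odd m) (hm1 : m ≠ 1)
    (hn : n = 2 ^ a * m)
    (h : ∀ H : Subgroup (DihedralGroup n), ¬ IsCyclic ↥H →
      Subgroup.centralizer (H : Set (DihedralGroup n)) ≤ H) : False := by
  let H : Subgroup (DihedralGroup n) :=
    { carrier := {x | match x with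
        | r i => (m : ZMod n) * i = 0
        | sr i => (m : ZMod n) * i = 0}
      mul_mem' := by
        rintro (i | i) (j | j) hi hj <;>
          simp only [Set.mem_ofPred_eq, r_mul_r, r_mul_sr, sr_mul_r, sr_mul_sr] at * <;>
          simp [mul_add, mul_sub, hi, hj]
      one_mem' := mul_zero (m : ZMod n)
      inv_mem' := by
        rintro (i | i) hi <;> simp only [Set.mem_ofPred_eq, inv_r, inv_sr] at * <;>
          simp [hi] }
  have hmem_r : ∀ i : ZMod n, r i ∈ H ↔ (m : ZMod n) * i = 0 := fun i => Iff.rfl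
  have hmem_sr : ∀ i : ZMod n, sr i ∈ H ↔ (m : ZMod n) * i = 0 := fun i => Iff.rfl
  obtain ⟨a', rfl⟩ : ∃ a', a = a' + 1 := ⟨a - 1, by omega⟩
  have h2 : r (((2 ^ (a' + 1) : ℕ)) : ZMod n) ∈ H := by
    rw [hmem_r, ← Nat.cast_mul, ZMod.natCast_eq_zero_iff, hn, mul_comm]
  have h0 : sr (0 : ZMod n) ∈ H := by rw [hmem_sr, mul_zero]
  have hnc : ¬ IsCyclic H := by
    intro hc
    haveI := hc
    have e := IsMulCommutative.is_comm.comm (⟨_, h2⟩ : H) ⟨_, h0⟩
    have e' := congrArg Subtype.val e
    simp only [Subgroup.coe_mul, r_mul_sr, sr_mul_r, sr.injEq, zero_sub, zero_add] at e'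
    have e'' : ((2 ^ (a' + 1) + 2 ^ (a' + 1) : ℕ) : ZMod n) = 0 := by
      rw [Nat.cast_add]
      linear_combination -e'
    rw [ZMod.natCast_eq_zero_iff, hn, ← two_mul, mul_comm 2] at e''
    have hm2 : m ∣ 2 := (Nat.mul_dvd_mul_iff_left (pow_pos (by norm_num) _)).mp e''
    rcases (Nat.dvd_prime Nat.prime_two).mp hm2 with rfl | rfl
    · exact hm1 rfl
    · exact absurd hm (by decide)
  let c : ZMod n := ((2 ^ a' * m : ℕ) : ZMod n)
  have hc2 : c + c = 0 := by
    show ((2 ^ a' * m : ℕ) : ZMod n) + ((2 ^ a' * m : ℕ) : ZMod n) = 0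
    rw [← Nat.cast_add, ZMod.natCast_eq_zero_iff, hn]
    exact ⟨1, by ring⟩
  have hcent : r c ∈ Subgroup.centralizer (H : Set (DihedralGroup n)) := by
    rw [Subgroup.mem_centralizer_iff]
    rintro (i | i) -
    · rw [r_mul_r, r_mul_r, add_comm]
    · rw [sr_mul_r, r_mul_sr, sr.injEq]
      linear_combination hc2
  have hcH := h H hnc hcent
  rw [hmem_r, ← Nat.cast_mul, ZMod.natCast_eq_zero_iff, hn] at hcH
  have : 2 ^ a' * 2 * m ∣ 2 ^ a' * (m * m) := by
    rw [← pow_succ]; convert hcH using 1; ring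
  rw [mul_assoc] at this
  have h2m : 2 ∣ m * m :=
    (Dvd.intro m rfl).trans ((Nat.mul_dvd_mul_iff_left (pow_pos (by norm_num) _)).mp this)
  exact hm.not_two_dvd_nat ((Nat.prime_two.dvd_mul.mp h2m).elim id id)

/-- Say that a group has self-centralizing non-cyclic subgroups when every non-cyclic subgroup H satisfies C_G(H) ≤ H. For n ≥ 3, the dihedral group of order 2n has self-centralizing non-cyclic subgroups if and only if n is odd or a power of 2. -/
theorem result (n : ℕ) (hn : 3 ≤ n) : (∀ H : Subgroup (DihedralGroup n), ¬ IsCyclic ↥H → Subgroup.centralizer (H : Set (DihedralGroup n)) ≤ H) ↔ (Odd n ∨ ∃ k : ℕ, n = 2 ^ k) := by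
  haveI : NeZero n := ⟨by omega⟩
  refine ⟨fun h => ?_, fun h H hH => self_cent h H hH⟩
  by_contra hne
  push Not at hne
  obtain ⟨hodd, hpow⟩ := hne
  obtain ⟨a, m, hm, hnm⟩ := Nat.exists_eq_two_pow_mul_odd (show n ≠ 0 by omega)
  have ha : a ≠ 0 := by
    rintro rfl
    rw [pow_zero, one_mul] at hnm
    exact hodd (hnm ▸ hm)
  have hm1 : m ≠ 1 := fun h1 => hpow a (by rw [hnm, h1, mul_one])
  exact not_self_cent ha hm hm1 hnm h

end Cfsg.Agent.S3920
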