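-- statement Cfsg.CfsgFrozen.S3927 (Cfsg/Statements/S3927.lean; the theorem Cfsg.fg3_iterated_commutators_with_automorphism_generate);
import Cfsg.Statements.S3927
import Cfsg.Agent.Zipper.Iterate

set_option autoImplicit false
open Cfsg

namespace Cfsg.Agent.S3927

open scoped commutatorElement

theorem closure_iterate {G : Type*} [Group G] [Finite G] (α : MulAut G)
    (hG : Subgroup.closure (Set.range (fun c : G => c * (α c)⁻¹)) = ⊤) (k : ℕ) :
    Subgroup.closure (Set.range ((fun c : G => c * (α c)⁻¹)^[k])) = ⊤ := by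
  set c : G → G := fun c => c * (α c)⁻¹ with hc
  set A := Subgroup.zpowers α with hA
  set φ : ↥A →* MulAut G := A.subtype with hφ
  let a : G ⋊[φ] ↥A := SemidirectProduct.inr ⟨α, Subgroup.mem_zpowers α⟩
  haveI : Finite (G ⋊[φ] ↥A) :=
    Finite.of_equiv _ SemidirectProduct.equivProd.symm
  have hf : ∀ x : G ⋊[φ] ↥A, ⁅x, a⁆ = SemidirectProduct.inl (c x.left) := by
    intro x
    have hcomm : Commute (SemidirectProduct.inr x.right : G ⋊[φ] ↥A) a :=
      Commute.map (IsMulCommutative.is_comm.comm x.right ⟨α, Subgroup.mem_zpowers α⟩) SemidirectProduct.inr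
    conv_lhs => rw [← SemidirectProduct.inl_left_mul_inr_right x]
    have haut : a * SemidirectProduct.inl x.left⁻¹ * a⁻¹ =
        SemidirectProduct.inl (α x.left⁻¹) := by
      rw [← map_inv]
      exact (SemidirectProduct.inl_aut (⟨α, Subgroup.mem_zpowers α⟩ : A) x.left⁻¹).symm
    calc _ = SemidirectProduct.inl x.left *
          (SemidirectProduct.inr x.right * a * (SemidirectProduct.inr x.right)⁻¹) *
          (SemidirectProduct.inl x.left⁻¹ * a⁻¹) := by
          rw [commutatorElement_def, map_inv]; group
      _ = SemidirectProduct.inl x.left * (a * SemidirectProduct.inl x.left⁻¹ * a⁻¹) := by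
          rw [hcomm.eq, mul_inv_cancel_right]; group
      _ = _ := by rw [haut, ← map_mul, hc, map_inv]
  have hiter : ∀ (j : ℕ) (g : G), (fun y : G ⋊[φ] ↥A => ⁅y, a⁆)^[j] (SemidirectProduct.inl g) =
      SemidirectProduct.inl (c^[j] g) := fun j g =>
    ((Function.Semiconj.iterate_right (f := fun g : G => (SemidirectProduct.inl g : G ⋊[φ] ↥A))
      (fun y => by rw [hf, SemidirectProduct.left_inl]) j).eq g).symm
  have hgen : Cfsg.Agent.Zipper.GenG (Subgroup.zpowers a) := by
    set N := Subgroup.normalClosure ((Subgroup.zpowers a : Subgroup (G ⋊[φ] ↥A)) : Set (G ⋊[φ] ↥A))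
    have haN : a ∈ N := Subgroup.subset_normalClosure (Subgroup.mem_zpowers a)
    have hl : ∀ g : G, (SemidirectProduct.inl g : G ⋊[φ] ↥A) ∈ N := by
      have hle : Subgroup.closure (Set.range c) ≤ N.comap SemidirectProduct.inl := by
        rw [Subgroup.closure_le]
        rintro _ ⟨g, rfl⟩
        show SemidirectProduct.inl (c g) ∈ N
        have h := hf (SemidirectProduct.inl g)
        rw [SemidirectProduct.left_inl] at h
        rw [← h, commutatorElement_def]
        exact N.mul_mem (Subgroup.normalClosure_normal.conj_mem a haN _) (N.inv_mem haN)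
      intro g
      exact hle (hG ▸ Subgroup.mem_top g)
    refine eq_top_iff.2 fun x _ => ?_
    rw [← SemidirectProduct.inl_left_mul_inr_right x]
    refine N.mul_mem (hl _) ?_
    obtain ⟨i, hi⟩ := Subgroup.mem_zpowers_iff.1 x.right.2
    have : x.right = (⟨α, Subgroup.mem_zpowers α⟩ : A) ^ i := Subtype.ext (by simpa using hi.symm)
    rw [this, map_zpow]
    exact N.zpow_mem haN i
  cases k with
  | zero => simp
  | succ k =>
    set L := Subgroup.closure (Set.range (c^[k + 1])) with hL
    have hαL : L.map α.toMonoidHom = L := by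
      refine Subgroup.eq_of_le_of_card_ge ?_ ?_
      · rw [Subgroup.map_le_iff_le_comap, Subgroup.closure_le]
        rintro _ ⟨g, rfl⟩
        refine Subgroup.subset_closure ⟨α g, ?_⟩
        exact ((Function.Semiconj.iterate_right (f := fun g : G => α g)
          (ga := c) (gb := c) (fun y => by simp [hc]) (k + 1)).eq g).symm
      · exact le_of_eq (Nat.card_congr (L.equivMapOfInjective α.toMonoidHom α.injective).toEquiv)
    set L' := L.map (SemidirectProduct.inl : G →* G ⋊[φ] ↥A) with hL'
    have hnorm : Subgroup.zpowers a ≤ Subgroup.normalizer (L' : Set (G ⋊[φ] ↥A)) := by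
      rw [Subgroup.zpowers_le, Subgroup.mem_normalizer_iff_map_conj_eq, hL', Subgroup.map_map]
      conv_rhs => rw [← hαL, Subgroup.map_map]
      congr 1
      ext g
      · simp [a, hφ]
      · simp [a, hφ]
    have htop : Subgroup.zpowers a ⊔ L' = ⊤ := by
      rw [eq_top_iff, ← Cfsg.Agent.Zipper.zpowers_sup_iterate_eq_top a hgen (k + 1)]
      refine sup_le_sup le_rfl ?_
      rw [Subgroup.closure_le]
      rintro _ ⟨x, rfl⟩
      refine ⟨c^[k + 1] x.left, Subgroup.subset_closure ⟨_, rfl⟩, ?_⟩
      rw [Function.iterate_succ_apply _ k x, hf, hiter, ← Function.iterate_succ_apply]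
    refine eq_top_iff.2 fun g _ => ?_
    obtain ⟨b, hb, l, ⟨l0, hl0, rfl⟩, hbl⟩ := Cfsg.Agent.Coprime.exists_mul_of_mem_sup hnorm
      (g := SemidirectProduct.inl g) (htop ▸ Subgroup.mem_top _)
    obtain ⟨i, rfl⟩ := Subgroup.mem_zpowers_iff.1 hb
    have hr := congrArg SemidirectProduct.right hbl
    have hi : a ^ i = 1 := by
      simp only [SemidirectProduct.right_inl, SemidirectProduct.mul_right, mul_one] at hr
      have e : a ^ i = SemidirectProduct.inr ((⟨α, Subgroup.mem_zpowers α⟩ : A) ^ i) :=
        (map_zpow _ _ _).symm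
      rw [e, SemidirectProduct.right_inr] at hr
      first
        | rw [e, hr, map_one]
        | rw [e, ← hr, map_one]
    rw [hi, one_mul] at hbl
    have : g = l0 := SemidirectProduct.inl_injective (by first | exact hbl | exact hbl.symm)
    exact this ▸ hl0

/-- Let G be a finite group and α an automorphism of G with [G, α] = G, that is, the elements g·α(g)⁻¹ generate G. Then for every k ≥ 1 the iterated commutators [g, α, …, α] with k entries α — the values of the k-th iterate of the map c ↦ c·α(c)⁻¹ — also generate G. -/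
theorem result {G : Type*} [Group G] [Finite G] (α : MulAut G) (hG : Subgroup.closure (Set.range (fun c : G => c * (α c)⁻¹)) = ⊤) (k : ℕ) (hk : 1 ≤ k) :
    Subgroup.closure (Set.range ((fun c : G => c * (α c)⁻¹)^[k])) = ⊤ := by
  exact closure_iterate α hG k

end Cfsg.Agent.S3927
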