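-- statement Cfsg.CfsgFrozen.S3933 (Cfsg/Statements/S3933.lean; the theorem Cfsg.fg3_all_sylow_numbers_prime_powers_implies_solvable);
import Cfsg.Statements.S3933
import Cfsg.Agent.Char.Burnside
import Cfsg.Agent.PGroup.Basic

set_option autoImplicit false
open Cfsg

namespace Cfsg.Agent.S3933

universe v

theorem card_syl {G : Type*} [Group G] [Finite G] {p : ℕ} [Fact p.Prime] (P : Sylow p G) :
    Nat.card (Sylow p G) = (Subgroup.normalizer ((P : Subgroup G) : Set G)).index :=
  P.card_eq_index_normalizer

/-- The hypothesis on Sylow numbers. -/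
def PP (G : Type*) [Group G] : Prop :=
  ∀ (r : ℕ) [Fact r.Prime], Nat.card (Sylow r G) = 1 ∨ IsPrimePow (Nat.card (Sylow r G))

theorem pp_of_dvd {G H : Type*} [Group G] [Group H] (hG : PP G)
    (h : ∀ (r : ℕ) [Fact r.Prime], Nat.card (Sylow r H) ∣ Nat.card (Sylow r G)) : PP H := by
  intro r _
  rcases hG r with h1 | h1
  · exact Or.inl (Nat.eq_one_of_dvd_one (h1 ▸ h r))
  · by_cases h2 : Nat.card (Sylow r H) = 1
    · exact Or.inl h2
    · exact Or.inr (h1.dvd (h r) h2)

theorem pp_quotient {G : Type*} [Group G] [Finite G] (N : Subgroup G) [N.Normal] (hG : PP G) :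
    PP (G ⧸ N) := by
  refine pp_of_dvd hG fun r _ => ?_
  obtain ⟨P⟩ := (inferInstance : Nonempty (Sylow r G))
  have hf := QuotientGroup.mk'_surjective N
  rw [card_syl (P.mapSurjective hf), card_syl P,
    Sylow.coe_mapSurjective]
  exact (Subgroup.index_dvd_of_le (Subgroup.le_normalizer_map _)).trans (Subgroup.index_map_dvd _ hf)

theorem pp_normal {G : Type*} [Group G] [Finite G] (N : Subgroup G) [N.Normal] (hG : PP G) :
    PP N := by
  refine pp_of_dvd hG fun r _ => ?_
  obtain ⟨Q⟩ := (inferInstance : Nonempty (Sylow r N))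
  obtain ⟨P, hP⟩ := (Q.2.map N.subtype).exists_le_sylow
  rw [card_syl Q, card_syl P]
  set Q' := (Q : Subgroup N).map N.subtype with hQ'
  set H := Subgroup.normalizer (Q' : Set G) with hH
  have hPN : (P : Subgroup G).subgroupOf N = Q := by
    refine Q.3 (P.2.comap_of_injective _ N.subtype_injective) ?_
    rw [Subgroup.subgroupOf, ← Subgroup.map_le_iff_le_comap]
    exact hP
  have hle : Subgroup.normalizer ((P : Subgroup G) : Set G) ≤ H := by
    intro g hg
    have h1 := Subgroup.mem_normalizer_iff_map_conj_eq.1 hg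
    rw [hH, Subgroup.mem_normalizer_iff_map_conj_eq, hQ', ← hPN, Subgroup.subgroupOf_map_subtype,
      Subgroup.map_inf _ _ _ (MulAut.conj g).injective, h1]
    congr 1
    exact Subgroup.mem_normalizer_iff_map_conj_eq.1
      (Subgroup.normalizer_eq_top_iff.2 (inferInstance : N.Normal) ▸ Subgroup.mem_top g)
  have hsup : H ⊔ N = ⊤ := Sylow.normalizer_sup_eq_top Q
  have h1 : (Subgroup.normalizer ((Q : Subgroup N) : Set N)).index = H.relIndex N := by
    have e := Subgroup.subgroupOf_normalizer_eq (H := Q') (Subgroup.map_subtype_le _ : Q' ≤ N)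
    have eQ : Q'.subgroupOf N = (Q : Subgroup N) := by
      rw [hQ', Subgroup.subgroupOf, Subgroup.comap_map_eq_self_of_injective N.subtype_injective]
    rw [eQ] at e
    rw [Subgroup.relIndex, hH, e]
  have h2 : H.relIndex N = H.index := by
    have e1 := Subgroup.relIndex_mul_index (inf_le_right : H ⊓ N ≤ N)
    have e2 := Subgroup.relIndex_mul_index (inf_le_left : H ⊓ N ≤ H)
    rw [Subgroup.inf_relIndex_right] at e1
    rw [Subgroup.inf_relIndex_left, ← Subgroup.relIndex_sup_right (H := H) (K := N), hsup,
      Subgroup.relIndex_top_right] at e2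
    exact Nat.eq_of_mul_eq_mul_right (Nat.pos_of_ne_zero Subgroup.index_ne_zero_of_finite)
      (by rw [e1, ← e2, mul_comm])
  show (Subgroup.normalizer ((Q : Subgroup N) : Set N)).index ∣ _
  rw [h1, h2]
  exact Subgroup.index_dvd_of_le hle

theorem exists_sylow_le {G : Type*} [Group G] [Finite G] {s : ℕ} [Fact s.Prime] (H : Subgroup G)
    (hs : ¬ s ∣ H.index) : ∃ S : Sylow s G, (S : Subgroup G) ≤ H := by
  obtain ⟨T⟩ := (inferInstance : Nonempty (Sylow s H))
  obtain ⟨S, hS⟩ := (T.2.map H.subtype).exists_le_sylow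
  refine ⟨S, ?_⟩
  have hc : Nat.card ((T : Subgroup H).map H.subtype) = Nat.card (S : Subgroup G) := by
    rw [Subgroup.card_map_of_injective H.subtype_injective, Sylow.card_eq_multiplicity,
      Sylow.card_eq_multiplicity, ← Subgroup.card_mul_index H, Nat.factorization_mul
        Nat.card_pos.ne' Subgroup.index_ne_zero_of_finite, Finsupp.add_apply,
      Nat.factorization_eq_zero_of_not_dvd hs, add_zero]
  exact (Subgroup.eq_of_le_of_card_ge hS hc.ge) ▸ Subgroup.map_subtype_le _

theorem not_isSimple {G : Type*} [Group G] [Finite G] [IsSimpleGroup G]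
    (hnc : ¬ Group.IsSolvable G) (hG : PP G) : False := by
  have hnp : ¬ (Nat.card G).Prime := fun h => by
    haveI := Fact.mk h
    haveI := isCyclic_of_prime_card (α := G) rfl
    letI := IsCyclic.commGroup (α := G)
    exact hnc inferInstance
  have hnp' : ∀ r : ℕ, r.Prime → ∀ P : Subgroup G, IsPGroup r P → P ≠ ⊤ := by
    intro r hr P hP e
    haveI := Fact.mk hr
    haveI : Group.IsNilpotent G :=
      haveI := hP.isNilpotent
      Group.isNilpotent_top.1 (e ▸ this)
    exact hnc inferInstance
  -- every prime divisor has a prime attached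
  have hq : ∀ r : ℕ, r.Prime → r ∣ Nat.card G → ∃ q : ℕ, q.Prime ∧ q ≠ r ∧ q ∣ Nat.card G ∧
      ∀ (_ : Fact r.Prime) (R : Sylow r G), ∃ a : ℕ,
        (Subgroup.normalizer ((R : Subgroup G) : Set G)).index = q ^ a := by
    intro r hr hrd
    haveI := Fact.mk hr
    obtain ⟨R⟩ := (inferInstance : Nonempty (Sylow r G))
    rcases hG r with h1 | h1
    · exfalso
      rw [card_syl R, Subgroup.index_eq_one,
        Subgroup.normalizer_eq_top_iff] at h1
      rcases h1.eq_bot_or_eq_top with h | h
      · exact R.ne_bot_of_dvd_card hrd h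
      · exact hnp' r hr _ R.2 h
    · obtain ⟨q, a, hq, ha, he⟩ := (isPrimePow_nat_iff _).1 h1
      refine ⟨q, hq, ?_, ?_, fun _ R' => ⟨a, by rw [← card_syl R', he]⟩⟩
      · rintro rfl
        exact not_dvd_card_sylow q G (he ▸ dvd_pow_self q ha.ne')
      · refine dvd_trans ?_ (Subgroup.index_dvd_card (Subgroup.normalizer ((R : Subgroup G) : Set G)))
        rw [← card_syl R, ← he]
        exact dvd_pow_self q ha.ne'
  choose q hqp hqr hqd hqn using hq
  -- Sylow subgroups for other primes normalise
  have hnorm : ∀ r (hr : r.Prime) (hrd : r ∣ Nat.card G) (_ : Fact r.Prime) (R : Sylow r G) (s : ℕ)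
      (_ : Fact s.Prime), s ≠ q r hr hrd → ∃ S : Sylow s G,
        (S : Subgroup G) ≤ Subgroup.normalizer ((R : Subgroup G) : Set G) := by
    intro r hr hrd _ R s hs hne
    obtain ⟨a, ha⟩ := hqn r hr hrd inferInstance R
    refine exists_sylow_le _ ?_
    rw [ha]
    exact fun hd => hne ((Nat.prime_dvd_prime_iff_eq hs.out (hqp r hr hrd)).1
      (hs.out.dvd_of_dvd_pow hd))
  have hpair : ∀ r (hr : r.Prime) (hrd : r ∣ Nat.card G),
      q (q r hr hrd) (hqp r hr hrd) (hqd r hr hrd) = r := by
    intro r hr hrd
    by_contra hne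
    set p := q r hr hrd with hp
    haveI := Fact.mk (hqp r hr hrd)
    haveI := Fact.mk hr
    obtain ⟨Q⟩ := (inferInstance : Nonempty (Sylow p G))
    obtain ⟨R, hR⟩ := hnorm p (hqp r hr hrd) (hqd r hr hrd) inferInstance Q r inferInstance
      (fun e => hne e.symm)
    set K := (R : Subgroup G) ⊔ (Q : Subgroup G) with hK
    -- `Q` permutes the conjugates of `R` transitively
    have htrans : ∀ R' : Sylow r G, ∃ x : (Q : Subgroup G), (x : G) • R = R' := by
      have hb : Function.Surjective (fun x : (Q : Subgroup G) ⧸ MulAction.stabilizer (Q : Subgroup G) R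
          => Quotient.liftOn' x (fun x => (x : G) • R) (fun a b hab => by
            have h := MulAction.mem_stabilizer_iff.1 (QuotientGroup.leftRel_apply.1 hab)
            rw [Subgroup.smul_def, Subgroup.coe_mul, Subgroup.coe_inv, mul_smul, inv_smul_eq_iff] at h
            exact h.symm)) := by
        set f := fun x : (Q : Subgroup G) ⧸ MulAction.stabilizer (Q : Subgroup G) R
          => Quotient.liftOn' x (fun x => (x : G) • R) _ with hf
        have hinj : Function.Injective f := by
          intro x y
          refine Quotient.inductionOn₂' x y fun a b hab => ?_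
          refine Quotient.sound' (QuotientGroup.leftRel_apply.2 (MulAction.mem_stabilizer_iff.2 ?_))
          rw [Subgroup.smul_def, Subgroup.coe_mul, Subgroup.coe_inv, mul_smul, inv_smul_eq_iff]
          exact hab.symm
        refine ((Nat.bijective_iff_injective_and_card f).2 ⟨hinj, ?_⟩).2
        refine le_antisymm (Nat.card_le_card_of_injective f hinj) ?_
        rw [card_syl R]
        obtain ⟨a, ha⟩ := hqn r hr hrd inferInstance R
        set N := Subgroup.normalizer ((R : Subgroup G) : Set G) with hN
        set St := MulAction.stabilizer (Q : Subgroup G) R with hSt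
        have hst : Nat.card St ∣ Nat.card N := by
          refine Subgroup.card_dvd_of_injective
            ((Q : Subgroup G).subtype.comp St.subtype |>.codRestrict N fun x => ?_) ?_
          · exact Sylow.smul_eq_iff_mem_normalizer.1 (MulAction.mem_stabilizer_iff.1 x.2)
          · intro x y hxy
            exact Subtype.ext (Subtype.ext (congrArg (fun z : N => (z : G)) hxy))
        obtain ⟨i, hi⟩ := IsPGroup.iff_card.1 (Q.2.to_subgroup St)
        have e1 : Nat.card St * Nat.card ((Q : Subgroup G) ⧸ St) =
            p ^ (Nat.card G).factorization p := by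
          rw [← Subgroup.index_eq_card, Subgroup.card_mul_index, Sylow.card_eq_multiplicity]
        have e2 : p ^ a * Nat.card St ∣ Nat.card G := by
          rw [← Subgroup.card_mul_index N, ha, mul_comm (p ^ a)]
          exact Nat.mul_dvd_mul_right hst _
        rw [hi, ← pow_add] at e2
        rw [ha]
        refine Nat.le_of_mul_le_mul_left ?_ (Nat.card_pos (α := St))
        rw [e1, hi, ← pow_add]
        refine Nat.pow_le_pow_right (hqp r hr hrd).pos ?_
        have := ((hqp r hr hrd).pow_dvd_iff_le_factorization Nat.card_pos.ne').1 e2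
        change a + i ≤ (Nat.card G).factorization p at this
        omega
      intro R'
      obtain ⟨x, hx⟩ := hb R'
      obtain ⟨x, rfl⟩ := QuotientGroup.mk_surjective x
      exact ⟨x, hx⟩
    have hconj : ∀ g : G, ∀ y ∈ (R : Subgroup G), g * y * g⁻¹ ∈ K := by
      intro g y hy
      obtain ⟨x, hx⟩ := htrans (g • R)
      have h1 : g * y * g⁻¹ ∈ ((g • R : Sylow r G) : Subgroup G) := by
        rw [Sylow.smul_def, Sylow.pointwise_smul_def, Subgroup.mem_pointwise_smul_iff_inv_smul_mem]
        simpa [MulAut.smul_def, mul_assoc] using hy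
      rw [← hx] at h1
      rw [Sylow.smul_def, Sylow.pointwise_smul_def, Subgroup.mem_pointwise_smul_iff_inv_smul_mem] at h1
      have h2 : (x : G)⁻¹ * (g * y * g⁻¹) * (x : G) ∈ (R : Subgroup G) := by
        simpa [MulAut.smul_def, mul_assoc] using h1
      have e : g * y * g⁻¹ = (x : G) * ((x : G)⁻¹ * (g * y * g⁻¹) * (x : G)) * (x : G)⁻¹ := by group
      rw [e]
      exact K.mul_mem (K.mul_mem (Subgroup.mem_sup_right x.2) (Subgroup.mem_sup_left h2))
        (K.inv_mem (Subgroup.mem_sup_right x.2))
    have hKtop : K = ⊤ := by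
      have hle : Subgroup.normalClosure ((R : Subgroup G) : Set G) ≤ K := by
        rw [Subgroup.normalClosure, Subgroup.closure_le]
        intro z hz
        obtain ⟨y, hy, hc⟩ := Group.mem_conjugatesOfSet_iff.1 hz
        obtain ⟨g, rfl⟩ := isConj_iff.1 hc
        exact hconj g y hy
      rcases (Subgroup.normalClosure_normal (s := ((R : Subgroup G) : Set G))).eq_bot_or_eq_top
        with h | h
      · exact absurd (le_bot_iff.1 (h ▸ Subgroup.le_normalClosure)) (R.ne_bot_of_dvd_card hrd)
      · exact top_le_iff.1 (h ▸ hle)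
    have hQn : Subgroup.normalizer ((Q : Subgroup G) : Set G) = ⊤ :=
      top_le_iff.1 (hKtop ▸ sup_le hR Subgroup.le_normalizer)
    rcases (Subgroup.normalizer_eq_top_iff.1 hQn).eq_bot_or_eq_top with h | h
    · exact Q.ne_bot_of_dvd_card (hqd r hr hrd) h
    · exact hnp' p (hqp r hr hrd) _ Q.2 h
  -- an element with prime power class
  haveI : Nontrivial G := IsSimpleGroup.toNontrivial
  obtain ⟨r, hr, hrd⟩ := Nat.exists_prime_and_dvd
    (show Nat.card G ≠ 1 from (Finite.one_lt_card (α := G)).ne')
  haveI := Fact.mk hr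
  obtain ⟨R⟩ := (inferInstance : Nonempty (Sylow r G))
  haveI : Nontrivial (R : Subgroup G) :=
    (Subgroup.nontrivial_iff_ne_bot _).2 (R.ne_bot_of_dvd_card hrd)
  obtain ⟨⟨⟨z, hzR⟩, hzc⟩, hz1⟩ : ∃ z : Subgroup.center (R : Subgroup G), z ≠ 1 := by
    haveI := R.2.center_nontrivial
    exact exists_ne 1
  have hz : z ≠ 1 := fun e => hz1 (Subtype.ext (Subtype.ext e))
  have hindex : ∀ s : ℕ, s.Prime → s ∣ (Subgroup.centralizer ({z} : Set G)).index →
      s = q r hr hrd := by
    intro s hs hsd
    by_contra hne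
    haveI := Fact.mk hs
    have hsd' : s ∣ Nat.card G := hsd.trans (Subgroup.index_dvd_card _)
    suffices ∃ S : Sylow s G, (S : Subgroup G) ≤ Subgroup.centralizer ({z} : Set G) by
      obtain ⟨S, hS⟩ := this
      exact S.not_dvd_index (hsd.trans (Subgroup.index_dvd_of_le hS))
    by_cases hsr : s = r
    · subst hsr
      refine ⟨R, fun y hy => Subgroup.mem_centralizer_singleton_iff.2 ?_⟩
      exact congrArg Subtype.val (Subgroup.mem_center_iff.1 hzc ⟨y, hy⟩)
    obtain ⟨S, hS⟩ := hnorm r hr hrd inferInstance R s inferInstance hne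
    refine ⟨S, ?_⟩
    set HR := Subgroup.normalizer ((R : Subgroup G) : Set G) with hHR
    set HS := Subgroup.normalizer ((S : Subgroup G) : Set G) with hHS
    obtain ⟨a, ha⟩ := hqn r hr hrd inferInstance R
    obtain ⟨b, hb⟩ := hqn s hs hsd' inferInstance S
    set p := q r hr hrd with hp
    set t := q s hs hsd' with ht
    have hts : t ≠ p := by
      intro e
      have h1 := hpair s hs hsd'
      have h2 := hpair r hr hrd
      simp only [← hp, ← ht] at h1 h2
      exact hsr (by
        rw [← h1, ← h2]
        congr 1)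
    have htr : t ≠ r := by
      intro e
      apply hne
      rw [← hpair s hs hsd']
      simp only [← ht]
      congr 1
    have hd : ¬ r ∣ (HR ⊓ HS).index := by
      have hd1 : HR.index ∣ (HR ⊓ HS).index := Subgroup.index_dvd_of_le inf_le_left
      have hd2 : HS.index ∣ (HR ⊓ HS).index := Subgroup.index_dvd_of_le inf_le_right
      have hle : (HR ⊓ HS).index ≤ HR.index * HS.index := Subgroup.index_inf_le
      have hcop : HR.index.Coprime HS.index := by
        rw [ha, hb]
        exact ((Nat.coprime_primes (hqp r hr hrd) (hqp s hs hsd')).2 hts.symm).pow _ _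
      have he : (HR ⊓ HS).index = HR.index * HS.index :=
        le_antisymm hle (Nat.le_of_dvd (Nat.pos_of_ne_zero Subgroup.index_ne_zero_of_finite)
          (hcop.mul_dvd_of_dvd_of_dvd hd1 hd2))
      rw [he, ha, hb]
      intro hdd
      rcases hr.dvd_mul.1 hdd with h | h
      · exact hqr r hr hrd ((Nat.prime_dvd_prime_iff_eq hr (hqp r hr hrd)).1 (hr.dvd_of_dvd_pow h)).symm
      · exact htr ((Nat.prime_dvd_prime_iff_eq hr (hqp s hs hsd')).1 (hr.dvd_of_dvd_pow h)).symm
    obtain ⟨R₁, hR₁⟩ := exists_sylow_le (s := r) _ hd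
    have hRR : (R₁ : Subgroup G) = (R : Subgroup G) := by
      have h1 : (R₁ : Subgroup G) ≤ HR := hR₁.trans inf_le_left
      haveI : ((R.subtype Subgroup.le_normalizer : Sylow r HR) : Subgroup HR).Normal := by
        rw [Sylow.coe_subtype]
        exact Subgroup.normal_in_normalizer
      haveI := Sylow.unique_of_normal
        (R.subtype (Subgroup.le_normalizer : (R : Subgroup G) ≤ HR)) inferInstance
      have h2 := congrArg (fun T : Sylow r HR => (T : Subgroup HR).map HR.subtype)
        (Subsingleton.elim (R₁.subtype h1) (R.subtype Subgroup.le_normalizer))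
      have hle : (R : Subgroup G) ≤ HR := Subgroup.le_normalizer
      simpa [Sylow.coe_subtype, Subgroup.subgroupOf_map_subtype, inf_eq_left.2 h1,
        inf_eq_left.2 hle] using h2
    have hRS : (R : Subgroup G) ≤ HS := hRR ▸ hR₁.trans inf_le_right
    intro y hy
    rw [Subgroup.mem_centralizer_singleton_iff]
    -- `[R, S] ≤ R ⊓ S = 1`
    have hy : y ∈ (S : Subgroup G) := hy
    have hm : y * z * y⁻¹ * z⁻¹ ∈ (R : Subgroup G) ⊓ (S : Subgroup G) := by
      constructor
      · exact Subgroup.mul_mem _ ((Subgroup.mem_normalizer_iff.1 (hS hy) z).1 hzR)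
          (Subgroup.inv_mem _ hzR)
      · have := (Subgroup.mem_normalizer_iff.1 (hRS hzR) y⁻¹).1 (Subgroup.inv_mem _ hy)
        have h2 : y * (z * y⁻¹ * z⁻¹) ∈ (S : Subgroup G) := Subgroup.mul_mem _ hy this
        show y * z * y⁻¹ * z⁻¹ ∈ (S : Subgroup G)
        rw [show y * z * y⁻¹ * z⁻¹ = y * (z * y⁻¹ * z⁻¹) by group]
        exact h2
    rw [(IsPGroup.disjoint_of_ne r s (Ne.symm hsr) _ _ R.2 S.2).eq_bot, Subgroup.mem_bot,
      mul_inv_eq_one, mul_inv_eq_iff_eq_mul] at hm
    exact hm
  obtain ⟨k, hk⟩ : ∃ k, (Subgroup.centralizer ({z} : Set G)).index = q r hr hrd ^ k := by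
    set n := (Subgroup.centralizer ({z} : Set G)).index with hn
    refine ⟨n.primeFactorsList.length, ?_⟩
    conv_lhs => rw [← Nat.prod_primeFactorsList (n := n) Subgroup.index_ne_zero_of_finite]
    exact List.prod_eq_pow_card _ _ fun s hs =>
      hindex s (Nat.prime_of_mem_primeFactorsList hs) (Nat.dvd_of_mem_primeFactorsList hs)
  exact hnp (Cfsg.Agent.Char.prime_card_of_prime_power_class (q r hr hrd) k (hqp r hr hrd) z hz hk)

theorem solvable_aux : ∀ (n : ℕ) (G : Type v) [Group G] [Finite G], Nat.card G ≤ n → PP G →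
    Group.IsSolvable G := by
  intro n
  induction n with
  | zero => intro G _ _ hn; have := Nat.card_pos (α := G); omega
  | succ n ih =>
    intro G _ _ hn hG
    rcases subsingleton_or_nontrivial G with h | h
    · infer_instance
    by_cases hs : IsSimpleGroup G
    · by_contra hnc
      exact not_isSimple hnc hG
    obtain ⟨N, hN, hN0, hN1⟩ : ∃ N : Subgroup G, N.Normal ∧ N ≠ ⊥ ∧ N ≠ ⊤ := by
      by_contra hne
      push Not at hne
      exact hs ⟨fun H hH => or_iff_not_imp_left.2 (hne H hH)⟩
    haveI := hN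
    have hNn : Nat.card N ≤ n := by
      have : Nat.card N < Nat.card G :=
        lt_of_le_of_ne (Subgroup.card_le_card_group N) fun e => hN1 (Subgroup.eq_top_of_card_eq N e)
      omega
    have hQn : Nat.card (G ⧸ N) ≤ n := by
      have h1 := Subgroup.card_eq_card_quotient_mul_card_subgroup N
      have h2 : 1 < Nat.card N := (Subgroup.one_lt_card_iff_ne_bot N).2 hN0
      have h3 := Nat.card_pos (α := G ⧸ N)
      nlinarith
    haveI := ih N hNn (pp_normal N hG)
    haveI := ih (G ⧸ N) hQn (pp_quotient N hG)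
    exact Group.isSolvable_of_ker_le_range N.subtype (QuotientGroup.mk' N)
      (by rw [QuotientGroup.ker_mk', Subgroup.range_subtype])

/-- If for every prime r the number of Sylow r-subgroups of the finite group G is a prime power or 1, then G is solvable. -/
theorem result {G : Type*} [Group G] [Finite G] (h : ∀ (r : ℕ) [Fact r.Prime], Nat.card (Sylow r G) = 1 ∨ IsPrimePow (Nat.card (Sylow r G))) :
    Group.IsSolvable G := by
  exact solvable_aux _ G le_rfl h

end Cfsg.Agent.S3933
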