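-- statement Cfsg.CfsgFrozen.S3937 (Cfsg/Statements/S3937.lean; the theorem Cfsg.fg3_fitting_subgroup_equals_engel_elements);
import Cfsg.Statements.S3937
import Cfsg.Agent.Zipper.Iterate
import Cfsg.Agent.Cores.Fitting

set_option autoImplicit false
open Cfsg

namespace Cfsg.Agent.S3937

open scoped commutatorElement

theorem foldl_eq_iterate {G : Type*} [Group G] (g : G) : ∀ (n : ℕ) (x : G),
    (List.replicate n g).foldl (fun a b => a * b * a⁻¹ * b⁻¹) x = (fun y : G => ⁅y, g⁆)^[n] x := by
  intro n
  induction n with
  | zero => intro x; rfl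
  | succ n ih => intro x; rw [List.replicate_succ, List.foldl_cons, ih]; rfl

/-- Baer's characterization of the Fitting subgroup: in a finite group G, an element g lies in the Fitting subgroup if and only if g is a left Engel element, that is, for every x there is n with [x, g, g, …, g] = 1 (n entries g, [a, b] = aba⁻¹b⁻¹). -/
theorem result {G : Type*} [Group G] [Finite G] (g : G) :
    g ∈ Cfsg.fittingSubgroup G ↔ ∀ x : G, ∃ n : ℕ, (List.replicate n g).foldl (fun a b => a * b * a⁻¹ * b⁻¹) x = 1 := by
  simp_rw [foldl_eq_iterate]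
  constructor
  · intro hg x
    set F := Cfsg.fittingSubgroup G with hF
    haveI : F.Normal := inferInstance
    have hx : ⁅x, g⁆ ∈ F := by
      rw [commutatorElement_def]
      exact F.mul_mem (Subgroup.Normal.conj_mem inferInstance g hg x) (F.inv_mem hg)
    obtain ⟨n, hn⟩ := (Subgroup.isNilpotent_iff_lowerCentralSeries F).1
      Cfsg.Agent.Cores.fittingSubgroup_isNilpotent
    have key : ∀ i : ℕ, (fun y : G => ⁅y, g⁆)^[i] ⁅x, g⁆ ∈ F.lowerCentralSeries i := by
      intro i
      induction i with
      | zero => exact hx
      | succ i ih =>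
        rw [Function.iterate_succ_apply', Subgroup.lowerCentralSeries_succ]
        exact Subgroup.commutator_mem_commutator ih hg
    exact ⟨n + 1, by rw [Function.iterate_succ_apply]; exact Subgroup.mem_bot.1 (hn ▸ key n)⟩
  · intro h
    exact Cfsg.Agent.Cores.le_fittingSubgroup_of_isSubnormal
      (Cfsg.Agent.Zipper.isSubnormal_zpowers_of_engel g h)
      (letI : CommGroup (Subgroup.zpowers g) := IsCyclic.commGroup; CommGroup.isNilpotent) (Subgroup.mem_zpowers g)

end Cfsg.Agent.S3937
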