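-- statement Cfsg.CfsgFrozen.S3941 (Cfsg/Statements/S3941.lean; the theorem Cfsg.fg3_alternating_group_with_p_closed_proper_pd_subgroups);
import Cfsg.Statements.S3941

set_option autoImplicit false
open Cfsg

namespace Cfsg.Agent.S3941

variable {α : Type*} [Fintype α] [DecidableEq α]

/-- Let n ≥ 5 and p an odd prime with p ≤ n, and suppose that every proper subgroup of the alternating group of degree n whose order is divisible by p has a normal Sylow p-subgroup. Then n = p. -/
theorem result (n p : ℕ) (hn : 5 ≤ n) [Fact p.Prime] (hp : p ≠ 2) (hpn : p ≤ n)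
    (h : ∀ H : Subgroup ↥(alternatingGroup (Fin n)), H ≠ ⊤ → p ∣ Nat.card ↥H → Cfsg.IsPClosed p ↥H) : n = p := by
  by_contra hne
  have hlt : p < n := lt_of_le_of_ne hpn (Ne.symm hne)
  have hpp : p.Prime := Fact.out
  set k : ℕ := if p = 3 then 4 else p with hk
  have hk3 : 4 ≤ k ∧ p ≤ k ∧ k < n := by
    rw [hk]; split
    · omega
    · have := hpp.two_le
      have : p ≠ 4 := fun h4 => by subst h4; norm_num at hpp
      omega
  clear_value k
  let e : Fin k ↪ Fin n := Fin.castLEEmb hk3.2.2.le
  let f : Equiv.Perm (Fin k) →* Equiv.Perm (Fin n) := Equiv.Perm.viaEmbeddingHom e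
  have hf : Function.Injective f := Equiv.Perm.viaEmbeddingHom_injective e
  have hmem : ∀ σ : alternatingGroup (Fin k), f σ ∈ alternatingGroup (Fin n) := by
    intro σ
    have := σ.2
    rw [Equiv.Perm.mem_alternatingGroup] at this ⊢
    simpa [f, Equiv.Perm.viaEmbeddingHom_apply, Equiv.Perm.viaEmbedding] using this
  let g : alternatingGroup (Fin k) →* alternatingGroup (Fin n) :=
    (f.comp (alternatingGroup (Fin k)).subtype).codRestrict _ hmem
  have hg : Function.Injective g := fun a b hab => Subtype.ext (hf (congrArg Subtype.val hab))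
  have hcardk : 2 * Nat.card (alternatingGroup (Fin k)) = k.factorial := by
    haveI : Nontrivial (Fin k) := Fin.nontrivial_iff_two_le.mpr (by omega)
    rw [two_mul_nat_card_alternatingGroup, Nat.card_perm, Nat.card_eq_fintype_card, Fintype.card_fin]
  have hcardn : 2 * Nat.card (alternatingGroup (Fin n)) = n.factorial := by
    haveI : Nontrivial (Fin n) := Fin.nontrivial_iff_two_le.mpr (by omega)
    rw [two_mul_nat_card_alternatingGroup, Nat.card_perm, Nat.card_eq_fintype_card, Fintype.card_fin]
  have hcr : Nat.card g.range = Nat.card (alternatingGroup (Fin k)) :=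
    (Nat.card_congr (MonoidHom.ofInjective hg).toEquiv).symm
  have htop : g.range ≠ ⊤ := by
    intro h'
    rw [h', Subgroup.card_top] at hcr
    have : k.factorial < n.factorial := (Nat.factorial_lt (by omega)).mpr hk3.2.2
    omega
  have hdvd : p ∣ Nat.card (alternatingGroup (Fin k)) := by
    have h1 : p ∣ k.factorial := hpp.dvd_factorial.mpr hk3.2.1
    rw [← hcardk] at h1
    exact ((hpp.dvd_mul).mp h1).resolve_left (fun h2 => hp ((Nat.prime_dvd_prime_iff_eq hpp Nat.prime_two).mp h2))
  have hclosed := h g.range htop (hcr ▸ hdvd)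
  let E := MonoidHom.ofInjective hg
  have hcl : ∀ P : Sylow p (alternatingGroup (Fin k)), (P : Subgroup (alternatingGroup (Fin k))).Normal := by
    intro P
    have h1 := hclosed (P.mapSurjective (f := E.toMonoidHom) E.surjective)
    have h2 := h1.comap E.toMonoidHom
    rwa [show ((P.mapSurjective (f := E.toMonoidHom) E.surjective : Sylow p g.range) : Subgroup g.range) = (P : Subgroup _).map E.toMonoidHom from rfl, Subgroup.comap_map_eq_self_of_injective (f := E.toMonoidHom) E.injective] at h2
  obtain ⟨P⟩ : Nonempty (Sylow p (alternatingGroup (Fin k))) := inferInstance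
  have hPne : (P : Subgroup (alternatingGroup (Fin k))) ≠ ⊥ := P.ne_bot_of_dvd_card hdvd
  rcases eq_or_ne p 3 with rfl | hp3
  · have h4 : k = 4 := by rw [hk]; simp
    have hP3 : Nat.card P = 3 := by
      rw [P.card_eq_multiplicity]
      have : Nat.card (alternatingGroup (Fin k)) = 12 := by
        rw [h4, show (4 : ℕ).factorial = 24 from rfl] at hcardk; rw [h4]; omega
      rw [this, show (12:ℕ) = 2^2*3 by norm_num, Nat.factorization_mul (by norm_num) (by norm_num),
        Nat.factorization_pow]
      simp [Nat.prime_two.factorization, Nat.prime_three.factorization]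
    have hu : ∀ x : alternatingGroup (Fin k), orderOf x ∣ 3 → x ∈ (P : Subgroup _) := by
      intro x hx
      have hz : IsPGroup 3 (Subgroup.zpowers x) := by
        obtain ⟨i, -, hi⟩ := (Nat.dvd_prime_pow (m := 1) Nat.prime_three).mp (by simpa using hx)
        exact IsPGroup.of_card (n := i) (by rw [Nat.card_zpowers, hi])
      obtain ⟨Q, hQ⟩ := hz.exists_le_sylow
      have : Unique (Sylow 3 (alternatingGroup (Fin k))) := Sylow.unique_of_normal P (hcl P)
      rw [Subsingleton.elim P Q]; exact hQ (Subgroup.mem_zpowers x)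
    subst h4
    let s : Finset (alternatingGroup (Fin 4)) := Finset.univ.filter (fun x => x ^ 3 = 1)
    have hs : 3 < s.card := by decide
    have hsub : Nat.card (s : Set (alternatingGroup (Fin 4))) ≤ Nat.card P :=
      Nat.card_mono (Set.toFinite _) (fun x hx => hu x (orderOf_dvd_of_pow_eq_one (by simpa [s] using hx)))
    rw [hP3, Nat.card_coe_set_eq, Set.ncard_coe_finset] at hsub
    omega
  · have hkp : k = p := by rw [hk, if_neg hp3]
    haveI : IsSimpleGroup (alternatingGroup (Fin k)) :=
      alternatingGroup.isSimpleGroup (by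
      rw [Nat.card_eq_fintype_card, Fintype.card_fin]
      have h5 : k ≠ 4 := fun h4 => by rw [hkp] at h4; rw [h4] at hpp; norm_num at hpp
      omega)
    have hT := (hcl P).eq_bot_or_eq_top.resolve_left hPne
    have hP : IsPGroup p (alternatingGroup (Fin k)) := by
      have := P.isPGroup'; rw [hT] at this; exact this.of_equiv Subgroup.topEquiv
    obtain ⟨i, hi⟩ := hP.exists_card_eq
    have h2 : 2 ∣ Nat.card (alternatingGroup (Fin k)) := by
      have : 4 ∣ k.factorial := Nat.dvd_factorial (by norm_num) hk3.1
      omega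
    rw [hi] at h2
    exact hp ((Nat.prime_dvd_prime_iff_eq Nat.prime_two hpp).mp (Nat.prime_two.dvd_of_dvd_pow h2)).symm

end Cfsg.Agent.S3941
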