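import Cfsg.Statements.S3946
import Cfsg.Agent.Solvable.Kegel
import Mathlib.GroupTheory.SemidirectProduct

set_option autoImplicit false
open Cfsg

namespace Cfsg.Agent.S3946

/-- Call an automorphism α of order n of a group G splitting when x · α(x) · α²(x) ⋯ α^(n−1)(x) = 1 for every x ∈ G. A finite group admitting a splitting automorphism of prime order is nilpotent (this contains the case of a fixed-point-free automorphism of prime order). -/
theorem result {G : Type*} [Group G] [Finite G] (α : MulAut G) (hp : (orderOf α).Prime)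
    (hsplit : ∀ x : G, (((List.range (orderOf α)).map (fun i : ℕ => (α ^ i) x)).prod = 1)) : Group.IsNilpotent G := by
  set p := orderOf α with hpdef
  let φ : Subgroup.zpowers α →* MulAut G := (Subgroup.zpowers α).subtype
  let L := G ⋊[φ] Subgroup.zpowers α
  have : Finite L := Finite.of_equiv _ SemidirectProduct.equivProd.symm
  let H : Subgroup L := (SemidirectProduct.rightHom : L →* Subgroup.zpowers α).ker
  let a : Subgroup.zpowers α := ⟨α, Subgroup.mem_zpowers α⟩
  have ha : a ≠ 1 := fun h => hp.ne_one (orderOf_eq_one_iff.2 (congrArg Subtype.val h))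
  have hne : H ≠ ⊤ := fun h => ha (by
    have h1 : (SemidirectProduct.inr a : L) ∈ H := h ▸ Subgroup.mem_top _
    simpa [H] using h1)
  -- powers of an element of the coset of `a`
  have hbase : ∀ (x : G) (n : ℕ), ((⟨x, a⟩ : L) ^ n).left =
      ((List.range n).map (fun i : ℕ => (α ^ i) x)).prod ∧ ((⟨x, a⟩ : L) ^ n).right = a ^ n := by
    intro x n
    induction n with
    | zero => simp
    | succ n ih =>
      rw [pow_succ, SemidirectProduct.mul_left, SemidirectProduct.mul_right, ih.1, ih.2,
        List.range_succ, List.map_append, List.prod_append]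
      exact ⟨by simp [φ, a], (pow_succ a n).symm⟩
  have hcard : Nat.card (Subgroup.zpowers α) = p := Nat.card_zpowers α
  have hap : a ^ p = 1 := Subtype.ext (by simp [a, p, pow_orderOf_eq_one])
  have hcoset : ∀ g : L, g.right = a → g ^ p = 1 := by
    rintro ⟨x, c⟩ (rfl : c = a)
    exact SemidirectProduct.ext ((hbase x p).1.trans (hsplit x)) ((hbase x p).2.trans hap)
  have hout : ∀ g : L, g ∉ H → g ^ p = 1 := by
    intro g hg
    have hc : g.right ≠ 1 := fun h => hg (MonoidHom.mem_ker.2 h)
    obtain ⟨j, hj⟩ := (Submonoid.mem_powers_iff g.right a).1 (mem_powers_iff_mem_zpowers.2 (by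
      have htop : Subgroup.zpowers a = ⊤ := by
        apply Subgroup.eq_top_of_card_eq
        rw [Nat.card_zpowers, ← Subgroup.orderOf_coe, hcard]
      rw [htop]
      exact Subgroup.mem_top _))
    have hjp : ¬ p ∣ j := by
      rintro ⟨d, rfl⟩
      exact hc (by rw [← hj, pow_mul, hap, one_pow])
    obtain ⟨i, hi⟩ := Nat.exists_mul_mod_eq_one_of_coprime
      (Nat.Coprime.symm ((hp.coprime_iff_not_dvd).2 hjp)) hp.one_lt
    let F : G → G := fun x => ((⟨x, a⟩ : L) ^ j).left
    have hF : Function.Injective F := by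
      intro x y h
      have h1 : (⟨x, a⟩ : L) ^ j = (⟨y, a⟩ : L) ^ j :=
        SemidirectProduct.ext h ((hbase x j).2.trans (hbase y j).2.symm)
      have h2 : ∀ z : G, ((⟨z, a⟩ : L) ^ j) ^ i = ⟨z, a⟩ := fun z => by
        rw [← pow_mul, ← Nat.mod_add_div (j * i) p, hi.2, pow_add, pow_one, pow_mul,
          hcoset _ rfl, one_pow, mul_one]
      exact congrArg SemidirectProduct.left ((h2 x).symm.trans ((congrArg (· ^ i) h1).trans (h2 y)))
    obtain ⟨x, hx⟩ := (Finite.injective_iff_surjective.1 hF) g.left
    have hgx : g = (⟨x, a⟩ : L) ^ j :=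
      SemidirectProduct.ext hx.symm (hj.symm.trans (hbase x j).2.symm)
    rw [hgx, ← pow_mul, mul_comm, pow_mul, hcoset _ rfl, one_pow]
  have := Cfsg.Agent.Solvable.isNilpotent_of_outside hp H hne hout
  refine Group.nilpotent_of_mulEquiv (G := H) (MulEquiv.symm ?_)
  refine MulEquiv.ofBijective ((SemidirectProduct.inl : G →* L).codRestrict H
    (fun x => MonoidHom.mem_ker.2 (SemidirectProduct.rightHom_inl x))) ⟨fun x y h =>
      SemidirectProduct.inl_injective (congrArg Subtype.val h :), ?_⟩
  rintro ⟨g, hg⟩
  exact ⟨g.left, Subtype.ext (SemidirectProduct.ext rfl (MonoidHom.mem_ker.1 hg).symm)⟩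

end Cfsg.Agent.S3946
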