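-- statement Cfsg.CfsgFrozen.S3949 (Cfsg/Statements/S3949.lean; the theorem Cfsg.fg3_involutory_automorphism_inverted_odd_elements_are_iterated_commutators);
import Cfsg.Statements.S3949

set_option autoImplicit false
open Cfsg

namespace Cfsg.Agent.S3949

variable {G : Type*} [Group G]

theorem iterate_step (α : MulAut G) (c : G) : ∀ n : ℕ,
    (fun c : G => c * (α c)⁻¹)^[n + 1] c = (c * (α c)⁻¹) ^ (2 ^ n) ∨ α (α c) ≠ c := by
  intro n
  by_cases h2 : α (α c) = c
  · left
    induction n with
    | zero => simp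
    | succ n ih =>
      have hinv : α (c * (α c)⁻¹) = (c * (α c)⁻¹)⁻¹ := by simp [h2]
      rw [Function.iterate_succ_apply', ih]
      simp only [map_pow, hinv, inv_pow, inv_inv]
      rw [← pow_add, pow_succ, mul_two]
  · exact Or.inr h2

/-- Let G be a finite group and α an automorphism of G of order 2 such that the elements g·α(g)⁻¹ generate G. Let j be a positive integer such that 2^j divides the order of no element inverted by α. Then the set of values of the j-th iterate of the map c ↦ c·α(c)⁻¹ is exactly the set of elements of odd order inverted by α. -/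
theorem result {G : Type*} [Group G] [Finite G] (α : MulAut G) (hα : orderOf α = 2) (hG : Subgroup.closure (Set.range (fun c : G => c * (α c)⁻¹)) = ⊤)
    (j : ℕ) (hj : ∀ g : G, α g = g⁻¹ → ¬ 2 ^ j ∣ orderOf g) :
    Set.range ((fun c : G => c * (α c)⁻¹)^[j]) = {g : G | Odd (orderOf g) ∧ α g = g⁻¹} := by
  have h2 : ∀ c, α (α c) = c := by
    intro c
    have h : α ^ 2 = 1 := by rw [← hα]; exact pow_orderOf_eq_one α
    have h' := congrArg (fun e : MulAut G => e c) h
    simpa [sq] using h'
  have hit : ∀ c n, (fun c : G => c * (α c)⁻¹)^[n + 1] c = (c * (α c)⁻¹) ^ (2 ^ n) :=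
    fun c n => (iterate_step α c n).resolve_right (fun h => h (h2 c))
  obtain ⟨i, rfl⟩ : ∃ i, j = i + 1 := by
    refine ⟨j - 1, ?_⟩
    rcases Nat.eq_zero_or_pos j with rfl | h
    · exact absurd (by simp) (hj 1 (by simp))
    · omega
  ext g
  simp only [Set.mem_range, Set.mem_ofPred_eq]
  constructor
  · rintro ⟨c, rfl⟩
    rw [hit]
    set d := c * (α c)⁻¹ with hd
    have hdi : α d = d⁻¹ := by simp [hd, h2]
    refine ⟨?_, by simp [hdi]⟩
    obtain ⟨a, b, hb, hab⟩ := Nat.exists_eq_two_pow_mul_odd (orderOf_pos d).ne'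
    have ha : a ≤ i := by
      by_contra hlt
      push Not at hlt
      exact hj d hdi (by rw [hab]; exact dvd_mul_of_dvd_left (pow_dvd_pow 2 (by omega)) _)
    refine Odd.of_dvd_nat hb (orderOf_dvd_of_pow_eq_one ?_)
    rw [← pow_mul, ← orderOf_dvd_iff_pow_eq_one, hab]
    exact Nat.mul_dvd_mul_right (pow_dvd_pow 2 ha) b
  · rintro ⟨hodd, hg⟩
    have hcop : Nat.Coprime (orderOf g) (2 ^ (i + 1)) :=
      Nat.Coprime.pow_right _ ((Nat.coprime_two_right).mpr hodd)
    obtain ⟨m, hm⟩ := exists_pow_eq_self_of_coprime hcop.symm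
    refine ⟨g ^ m, ?_⟩
    rw [hit, map_pow, hg, inv_pow, inv_inv, ← pow_add, ← pow_mul, ← two_mul, mul_comm (2*m),
      ← mul_assoc, ← pow_succ, mul_comm, pow_mul, ← pow_mul, mul_comm, pow_mul]
    exact hm

end Cfsg.Agent.S3949
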