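import Cfsg.Statements.S3977
import Cfsg.Agent.S0016
import Cfsg.Agent.Lib.FrobeniusComplement

set_option autoImplicit false
open Cfsg

open Subgroup
open scoped Pointwise
namespace Cfsg.Agent.S3977

/-- Let `p` be a prime and `G` a group of order `p ^ m` which has exactly one subgroup of order `p ^ s`, where `1 ≤ s < m`, and where `s ≥ 2` if `p = 2`. Then `G` is cyclic. (For `p = 2` and `s = 1` the generalized quaternion groups also occur; that case is the classical criterion for a unique involution.) -/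
theorem result {G : Type*} [Group G] [Finite G] (p m s : ℕ) (hp : p.Prime) (hG : Nat.card G = p ^ m) (hs : 1 ≤ s) (hsm : s < m) (h2 : p ≠ 2 ∨ 2 ≤ s) (huniq : ∀ H K : Subgroup G, Nat.card H = p ^ s → Nat.card K = p ^ s → H = K) : IsCyclic G := by
  have : Fact p.Prime := ⟨hp⟩
  have hPG : IsPGroup p G := IsPGroup.of_card hG
  have hext : ∀ x : G, orderOf x ∣ p ^ s → ∃ K : Subgroup G, Nat.card K = p ^ s ∧ x ∈ K := by
    intro x hx
    obtain ⟨j, hj, hje⟩ := (Nat.dvd_prime_pow hp).mp hx
    obtain ⟨K, hK, hle⟩ := Sylow.exists_subgroup_card_pow_prime_le p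
      (hG ▸ Nat.pow_dvd_pow p hsm.le : p ^ s ∣ Nat.card G) (zpowers x) (by rw [Nat.card_zpowers, hje]) hj
    exact ⟨K, hK, hle (mem_zpowers x)⟩
  obtain ⟨H, hH⟩ := Sylow.exists_subgroup_card_pow_prime p (hG ▸ Nat.pow_dvd_pow p hsm.le : p ^ s ∣ Nat.card G)
  have hin : ∀ x : G, orderOf x ∣ p ^ s → x ∈ H := by
    intro x hx
    obtain ⟨K, hK, hxK⟩ := hext x hx
    rwa [huniq H K hH hK]
  have hcyc : ∃ h : G, H ≤ zpowers h := by
    by_contra hno
    have hall : ∀ x : G, x ∈ H := by
      intro x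
      obtain ⟨a, ha⟩ := hPG x
      obtain ⟨j, -, hje⟩ := (Nat.dvd_prime_pow hp).mp (orderOf_dvd_of_pow_eq_one ha)
      refine hin x (hje ▸ Nat.pow_dvd_pow p ?_)
      by_contra hjs
      apply hno
      obtain ⟨L, hL⟩ := Sylow.exists_subgroup_card_pow_prime p (G := zpowers x) (n := s)
        (by rw [Nat.card_zpowers, hje]; exact Nat.pow_dvd_pow p (by omega))
      refine ⟨x, ?_⟩
      rw [huniq H (L.map (zpowers x).subtype) hH
        (by rw [Subgroup.card_map_of_injective (zpowers x).subtype_injective, hL])]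
      exact Subgroup.map_subtype_le L
    have : Nat.card H = p ^ m := by
      rw [← hG, (eq_top_iff.mpr fun x _ => hall x : H = ⊤), Subgroup.card_top]
    exact absurd (Nat.pow_right_injective hp.two_le (hH.symm.trans this)) hsm.ne
  have hHcyc : IsCyclic H := by
    obtain ⟨h, hh⟩ := hcyc
    exact isCyclic_of_surjective (Subgroup.subgroupOfEquivOfLe hh).toMonoidHom
      (Subgroup.subgroupOfEquivOfLe hh).surjective
  have h1 : ∀ A B : Subgroup G, Nat.card A = p → Nat.card B = p → A = B := by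
    intro A B hA hB
    have hsub : ∀ C : Subgroup G, Nat.card C = p → C ≤ H := by
      intro C hC x hx
      refine hin x ((C.orderOf_dvd_natCard hx).trans ?_)
      rw [hC]
      exact dvd_pow_self p (by omega)
    have e : A.subgroupOf H = B.subgroupOf H :=
      Cfsg.Agent.FrobeniusCompl.eq_of_card_eq (by
        rw [Nat.card_congr (subgroupOfEquivOfLe (hsub A hA)).toEquiv,
          Nat.card_congr (subgroupOfEquivOfLe (hsub B hB)).toEquiv, hA, hB])
    rwa [subgroupOf_inj, inf_eq_left.mpr (hsub A hA), inf_eq_left.mpr (hsub B hB)] at e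
  rcases Cfsg.Agent.S0016.result p hPG h1 with h | ⟨rfl, n, ⟨e⟩⟩
  · exact h
  exfalso
  have hs2 : 2 ≤ s := h2.resolve_left (by simp)
  have : NeZero (2 ^ n) := ⟨by positivity⟩
  have hxa : ∀ i, e.symm (QuaternionGroup.xa i) ∈ H := by
    intro i
    refine hin _ ?_
    rw [MulEquiv.orderOf_eq, QuaternionGroup.orderOf_xa]
    exact Nat.pow_dvd_pow 2 hs2
  have hall : ∀ x : G, x ∈ H := by
    intro x
    obtain ⟨y, rfl⟩ := e.symm.surjective x
    cases y with
    | xa i => exact hxa i
    | a i =>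
      have : (QuaternionGroup.a i : QuaternionGroup (2 ^ n)) =
          QuaternionGroup.xa 0 * QuaternionGroup.xa (i - ((2 ^ n : ℕ) : ZMod (2 * 2 ^ n))) := by
        simp [QuaternionGroup.xa_mul_xa]
      rw [this, map_mul]
      exact H.mul_mem (hxa _) (hxa _)
  have : Nat.card H = 2 ^ m := by
    rw [← hG, (eq_top_iff.mpr fun x _ => hall x : H = ⊤), Subgroup.card_top]
  exact absurd (Nat.pow_right_injective (le_refl 2) (hH.symm.trans this)) hsm.ne

end Cfsg.Agent.S3977
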