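import Cfsg.Statements.S3982
import Cfsg.Agent.BlocksChar.Inverted
import Mathlib.GroupTheory.FixedPointFree

set_option autoImplicit false
open Cfsg

open Subgroup
open scoped Pointwise
namespace Cfsg.Agent.S3982

/-- Let p be an odd prime and G a finite group of even order divisible by p in which the centralizer of every non-identity p-element has odd order. If some nontrivial p-subgroup of G has a normalizer of even order, then the normalizer of every Sylow p-subgroup of G has even order. -/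
theorem result {G : Type*} [Group G] [Finite G] (p : ℕ) [Fact p.Prime] (hp2 : p ≠ 2) (hpG : p ∣ Nat.card G) (h2G : 2 ∣ Nat.card G) (hC : ∀ g : G, g ≠ 1 → (∃ k : ℕ, orderOf g = p ^ k) → Odd (Nat.card ↥(Subgroup.centralizer ({g} : Set G)))) (Q : Subgroup G) (hQ : IsPGroup p ↥Q) (hQ1 : Q ≠ ⊥) (hev : Even (Nat.card ↥(Subgroup.normalizer (Q : Set G)))) (P : Sylow p G) : Even (Nat.card ↥(Subgroup.normalizer ((P : Subgroup G) : Set G))) := by
  have hp : p.Prime := Fact.out
  have : Fact (Nat.Prime 2) := ⟨Nat.prime_two⟩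
  have h2p : ∀ g : G, orderOf g ≠ 2 * p := by
    intro g hg
    have ho2 : orderOf (g ^ 2) = p := by
      rw [orderOf_pow_of_dvd two_ne_zero (hg ▸ dvd_mul_right 2 p), hg, Nat.mul_div_cancel_left _ two_pos]
    have hop : orderOf (g ^ p) = 2 := by
      rw [orderOf_pow_of_dvd hp.ne_zero (hg ▸ dvd_mul_left p 2), hg, Nat.mul_div_cancel _ hp.pos]
    have hodd := hC (g ^ 2) (fun e => hp.ne_one (by rw [← ho2, e, orderOf_one])) ⟨1, by rw [ho2, pow_one]⟩
    have h2 := orderOf_dvd_natCard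
      (⟨g ^ p, Subgroup.mem_centralizer_singleton_iff.mpr (Commute.pow_pow_self g p 2)⟩ :
        Subgroup.centralizer ({g ^ 2} : Set G))
    rw [Subgroup.orderOf_mk, hop] at h2
    exact (Nat.not_even_iff_odd.mpr hodd) (even_iff_two_dvd.mpr h2)
  obtain ⟨⟨t, htN⟩, hto⟩ := exists_prime_orderOf_dvd_card' (G := Subgroup.normalizer (Q : Set G)) 2
    (even_iff_two_dvd.mp hev)
  rw [Subgroup.orderOf_mk] at hto
  have htt : t * t = 1 := by rw [← sq, ← hto, pow_orderOf_eq_one]
  have hti : t⁻¹ = t := inv_eq_of_mul_eq_one_right htt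
  let φ : Q →* Q :=
    { toFun := fun q => ⟨t * q * t⁻¹, (mem_normalizer_iff.mp htN q).mp q.2⟩
      map_one' := Subtype.ext (by simp)
      map_mul' := fun a b => Subtype.ext (by
        show t * ((a : G) * b) * t⁻¹ = t * a * t⁻¹ * (t * b * t⁻¹)
        group) }
  have hφ : MonoidHom.FixedPointFree φ := by
    intro q hq
    by_contra hq1
    obtain ⟨k, hk⟩ := IsPGroup.iff_orderOf.mp hQ q
    rw [← Subgroup.orderOf_coe] at hk
    refine Cfsg.Agent.BlocksChar.not_commute_of_no_twop hp2 h2p hto hk (fun e => hq1 (Subtype.ext e)) ?_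
    exact mul_inv_eq_iff_eq_mul.mp (congrArg Subtype.val hq)
  have hinvol : Function.Involutive φ := fun q => Subtype.ext (by
    show t * (t * q * t⁻¹) * t⁻¹ = q
    rw [hti]
    simp [mul_assoc, htt, ← mul_assoc t t])
  have hinvQ : ∀ r ∈ Q, t * r * t⁻¹ = r⁻¹ := fun r hr =>
    congrArg Subtype.val (congrFun (hφ.coe_eq_inv_of_involutive hinvol) ⟨r, hr⟩)
  obtain ⟨R, hQR, ⟨hR, hRinv⟩, hRmax⟩ := Finite.exists_le_maximal
    (p := fun R : Subgroup G => IsPGroup p R ∧ ∀ r ∈ R, t * r * t⁻¹ = r⁻¹) (a := Q) ⟨hQ, hinvQ⟩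
  have hR1 : R ≠ ⊥ := fun e => hQ1 (le_bot_iff.mp (e ▸ hQR))
  have hsyl := Cfsg.Agent.BlocksChar.sylow_of_maximal_inverted hp2 h2p hto hR hR1 hRinv
    (fun T hT hRT hTinv => (hRmax ⟨hT, hTinv⟩ hRT).antisymm hRT)
  obtain ⟨S, hS⟩ := hR.exists_le_sylow
  have hSR : (S : Subgroup G) = R := hsyl _ S.2 hS
  have htS : t ∈ Subgroup.normalizer ((S : Subgroup G) : Set G) := by
    rw [hSR, mem_normalizer_iff]
    intro x
    constructor
    · intro hx; rw [hRinv x hx]; exact inv_mem hx
    · intro hx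
      have h := hRinv _ hx
      have h' : t * (t * x * t⁻¹) * t⁻¹ = x := by
        rw [hti]; simp [mul_assoc, htt, ← mul_assoc t t]
      rw [h'] at h
      rw [h]
      exact inv_mem hx
  obtain ⟨g, hg⟩ := MulAction.exists_smul_eq G S P
  have hmem : g * t * g⁻¹ ∈ Subgroup.normalizer ((P : Subgroup G) : Set G) := by
    have htS' : t • S = S := Sylow.smul_eq_iff_mem_normalizer.mpr htS
    refine Sylow.smul_eq_iff_mem_normalizer.mp ?_
    rw [← hg, mul_smul, mul_smul, inv_smul_smul, htS']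
  have h2 := orderOf_dvd_natCard (⟨_, hmem⟩ : Subgroup.normalizer ((P : Subgroup G) : Set G))
  rw [Subgroup.orderOf_mk] at h2
  have ho : orderOf (g * t * g⁻¹) = 2 := by
    rw [← hto]; exact orderOf_injective (MulAut.conj g).toMonoidHom (MulAut.conj g).injective t
  exact even_iff_two_dvd.mpr (ho ▸ h2)

end Cfsg.Agent.S3982
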