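import Cfsg.Statements.S3983
import Cfsg.Agent.Lib.TISylow

set_option autoImplicit false
open scoped Pointwise
open Cfsg

open Subgroup
open scoped Pointwise
namespace Cfsg.Agent.S3983

/-- Let P be a Sylow p-subgroup of the finite group G that meets each conjugate g P g⁻¹ with g outside N_G(P) trivially, and let U be a subgroup of G of order divisible by p. Then a Sylow p-subgroup Q of U has the same property inside U: Q meets each conjugate u Q u⁻¹ with u ∈ U outside N_U(Q) trivially. -/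
theorem result {G : Type*} [Group G] [Finite G] (p : ℕ) [Fact p.Prime] (P : Sylow p G) (hTI : ∀ g : G, g ∉ Subgroup.normalizer ((P : Subgroup G) : Set G) → (P : Subgroup G) ⊓ (MulAut.conj g • (P : Subgroup G)) = ⊥) (U : Subgroup G) (hU : p ∣ Nat.card ↥U) (Q : Sylow p ↥U) : ∀ u : ↥U, u ∉ Subgroup.normalizer ((Q : Subgroup ↥U) : Set ↥U) → (Q : Subgroup ↥U) ⊓ (MulAut.conj u • (Q : Subgroup ↥U)) = ⊥ := by
  intro u hu
  by_contra hne
  apply hu
  obtain ⟨R, hR⟩ := (Q.2.map U.subtype).exists_le_sylow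
  have hmap : ((Q : Subgroup U) ⊓ MulAut.conj u • (Q : Subgroup U)).map U.subtype ≠ ⊥ := by
    rwa [Ne, Subgroup.map_eq_bot_iff_of_injective _ U.subtype_injective]
  have hle : ((Q : Subgroup U) ⊓ MulAut.conj u • (Q : Subgroup U)).map U.subtype ≤
      (R : Subgroup G) ⊓ ((u : G) • R : Sylow p G) := by
    refine le_inf ((map_mono inf_le_left).trans hR) ?_
    refine ((map_mono inf_le_right).trans ?_)
    rw [SZ.map_conj_smul, Sylow.coe_subgroup_smul]
    exact Subgroup.pointwise_smul_le_pointwise_smul_iff.mpr hR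
  have heq := TISylow.eq_of_inf_ne_bot P hTI R ((u : G) • R) (fun e => hmap (le_bot_iff.mp (e ▸ hle)))
  have hcap : (R : Subgroup G).subgroupOf U = (Q : Subgroup U) :=
    Q.3 (R.2.comap_of_injective U.subtype U.subtype_injective) fun x hx => hR ⟨x, hx, rfl⟩
  rw [mem_normalizer_iff_map_conj_eq]
  show MulAut.conj u • (Q : Subgroup U) = Q
  refine eq_of_le_of_card_ge ?_ (le_of_eq (SZ.card_conj_smul u _).symm)
  intro x hx
  rw [← hcap]
  show (x : G) ∈ (R : Subgroup G)
  rw [heq, Sylow.coe_subgroup_smul]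
  obtain ⟨y, hy, rfl⟩ := hx
  exact ⟨(y : G), hR ⟨y, hy, rfl⟩, rfl⟩

end Cfsg.Agent.S3983
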