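import Cfsg.Statements.S3984
import Cfsg.Agent.Lib.TISylow
import Cfsg.Agent.Lib.Element

set_option autoImplicit false
open scoped Pointwise
open Cfsg

open Subgroup
open scoped Pointwise
namespace Cfsg.Agent.S3984

/-- Let P be a Sylow p-subgroup of the finite group G that meets each conjugate g P g⁻¹ with g outside N_G(P) trivially, and let N be a normal subgroup of G of order prime to p. Then every Sylow p-subgroup Q of G ⧸ N meets each conjugate x Q x⁻¹ with x outside its normalizer trivially. -/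
theorem result {G : Type*} [Group G] [Finite G] (p : ℕ) [Fact p.Prime] (P : Sylow p G) (hTI : ∀ g : G, g ∉ Subgroup.normalizer ((P : Subgroup G) : Set G) → (P : Subgroup G) ⊓ (MulAut.conj g • (P : Subgroup G)) = ⊥) (N : Subgroup G) [N.Normal] (hN : (Nat.card ↥N).Coprime p) (Q : Sylow p (G ⧸ N)) : ∀ x : G ⧸ N, x ∉ Subgroup.normalizer ((Q : Subgroup (G ⧸ N)) : Set (G ⧸ N)) → (Q : Subgroup (G ⧸ N)) ⊓ (MulAut.conj x • (Q : Subgroup (G ⧸ N))) = ⊥ := by
  intro x hx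
  by_contra hne
  apply hx
  have hf := QuotientGroup.mk'_surjective N
  obtain ⟨R, hR⟩ := Sylow.mapSurjective_surjective hf p Q
  have hQ : (Q : Subgroup (G ⧸ N)) = (R : Subgroup G).map (QuotientGroup.mk' N) := by
    rw [← hR, Sylow.coe_mapSurjective]
  obtain ⟨g, rfl⟩ := hf x
  set L := (R : Subgroup G) ⊔ N with hL
  obtain ⟨z, ⟨hz1, hz2⟩, hzne⟩ : ∃ z, (z ∈ (Q : Subgroup (G ⧸ N)) ∧
      z ∈ MulAut.conj (QuotientGroup.mk' N g) • (Q : Subgroup (G ⧸ N))) ∧ z ≠ 1 := by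
    obtain ⟨⟨z, hz⟩, hz1⟩ := Subgroup.ne_bot_iff_exists_ne_one.mp hne
    exact ⟨z, ⟨hz.1, hz.2⟩, fun e => hz1 (Subtype.ext e)⟩
  obtain ⟨k, hk⟩ := Q.2 ⟨z, hz1⟩
  obtain ⟨j, -, hj⟩ := (Nat.dvd_prime_pow Fact.out).mp
    (orderOf_dvd_of_pow_eq_one (show z ^ p ^ k = 1 from congrArg Subtype.val hk))
  obtain ⟨w, rfl, i, hw⟩ := Cfsg.Agent.Element.exists_pElement_preimage Fact.out _ hf hj
  have hwL : w ∈ L := by
    rw [hQ] at hz1
    obtain ⟨r, hr, hrw⟩ := hz1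
    have : r⁻¹ * w ∈ N := QuotientGroup.eq.mp hrw
    simpa using mul_mem ((le_sup_left : (R : Subgroup G) ≤ L) hr) ((le_sup_right : N ≤ L) this)
  have hwL' : g⁻¹ * w * g ∈ L := by
    rw [SZ.mem_conj_smul, hQ, ← map_inv, ← map_mul, ← map_mul] at hz2
    obtain ⟨r, hr, hrw⟩ := hz2
    have : r⁻¹ * (g⁻¹ * w * g) ∈ N := QuotientGroup.eq.mp hrw
    simpa [mul_assoc] using mul_mem ((le_sup_left : (R : Subgroup G) ≤ L) hr) ((le_sup_right : N ≤ L) this)
  have key : ∀ v : G, v ∈ L → orderOf v = p ^ i → ∃ l ∈ L, v ∈ ((l • R : Sylow p G) : Subgroup G) := by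
    intro v hv hov
    have hp' : IsPGroup p (zpowers v) := IsPGroup.of_card (n := i) (by rw [Nat.card_zpowers, hov])
    obtain ⟨S, hS⟩ := ((hp'.comap_of_injective L.subtype L.subtype_injective) :
      IsPGroup p ((zpowers v).subgroupOf L)).exists_le_sylow
    obtain ⟨l, hl⟩ := MulAction.exists_smul_eq L (R.subtype (le_sup_left : (R : Subgroup G) ≤ L)) S
    refine ⟨(l : G), l.2, ?_⟩
    have hmem : (⟨v, hv⟩ : L) ∈ (S : Subgroup L) := hS (mem_zpowers v)
    rw [← hl, Sylow.coe_subgroup_smul, SZ.mem_conj_smul] at hmem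
    rw [Sylow.coe_subgroup_smul, SZ.mem_conj_smul]
    simpa [mem_subgroupOf] using hmem
  obtain ⟨l₁, hl₁, hm₁⟩ := key w hwL hw
  have hogw : orderOf (g⁻¹ * w * g) = orderOf w := by
    simpa using orderOf_injective (MulAut.conj g⁻¹).toMonoidHom (MulAut.conj g⁻¹).injective w
  obtain ⟨l₂, hl₂, hm₂⟩ := key (g⁻¹ * w * g) hwL' (hogw.trans hw)
  have hm₂' : w ∈ (((g * l₂) • R : Sylow p G) : Subgroup G) := by
    rw [Sylow.coe_subgroup_smul, SZ.mem_conj_smul] at hm₂ ⊢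
    simpa [mul_assoc] using hm₂
  have hwmem : w ∈ ((l₁ • R : Sylow p G) : Subgroup G) ⊓ ((g * l₂) • R : Sylow p G) := ⟨hm₁, hm₂'⟩
  have heq := TISylow.eq_of_inf_ne_bot P hTI _ _ (fun e => hzne (by
    rw [e, mem_bot] at hwmem
    rw [hwmem, map_one]))
  have hLQ : ∀ l ∈ L, ((l • R : Sylow p G) : Subgroup G).map (QuotientGroup.mk' N) = Q := by
    intro l hl
    rw [Sylow.coe_subgroup_smul, SZ.map_conj_smul, ← hQ]
    apply Subgroup.conj_smul_eq_self_of_mem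
    rw [hQ]
    have := mem_map_of_mem (QuotientGroup.mk' N) hl
    rw [Subgroup.map_sup, (Subgroup.map_eq_bot_iff N).mpr (by rw [QuotientGroup.ker_mk']), sup_bot_eq] at this
    exact this
  rw [mem_normalizer_iff_map_conj_eq]
  show MulAut.conj (QuotientGroup.mk' N g) • (Q : Subgroup (G ⧸ N)) = Q
  conv_rhs => rw [← hLQ l₁ hl₁, heq]
  rw [← hLQ l₂ hl₂, ← SZ.map_conj_smul, Sylow.coe_subgroup_smul, Sylow.coe_subgroup_smul, SZ.conj_smul_smul]

end Cfsg.Agent.S3984
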