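import Cfsg.Statements.S3985
import Cfsg.Agent.Lib.TISylow
import Cfsg.Agent.Lib.Element
import Cfsg.Agent.S0056
import Cfsg.Agent.Lib.FrobeniusComplement

set_option autoImplicit false
open scoped Pointwise
open Cfsg

open Subgroup
open scoped Pointwise
namespace Cfsg.Agent.S3985

/-- Let P be a cyclic Sylow p-subgroup of the finite group G. Then P meets each conjugate g P g⁻¹ with g outside N_G(P) trivially if and only if P is weakly self-centralizing: C_G(x) = C_G(P) for every non-identity x ∈ P. -/
theorem result {G : Type*} [Group G] [Finite G] (p : ℕ) [Fact p.Prime] (P : Sylow p G) (hcyc : IsCyclic ↥(P : Subgroup G)) : (∀ g : G, g ∉ Subgroup.normalizer ((P : Subgroup G) : Set G) → (P : Subgroup G) ⊓ (MulAut.conj g • (P : Subgroup G)) = ⊥) ↔ ∀ x : G, x ∈ (P : Subgroup G) → x ≠ 1 → Subgroup.centralizer ({x} : Set G) = Subgroup.centralizer ((P : Subgroup G) : Set G) := by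
  have hcomm : IsMulCommutative (P : Subgroup G) :=
    ⟨⟨fun a b => (IsCyclic.commGroup (α := (P : Subgroup G))).mul_comm a b⟩⟩
  have hPC : (P : Subgroup G) ≤ Subgroup.centralizer ((P : Subgroup G) : Set G) :=
    le_centralizer_iff_isMulCommutative.mpr hcomm
  have hp : p.Prime := Fact.out
  constructor
  · intro hTI x hx hx1
    refine le_antisymm (fun g hg => ?_) (centralizer_le (Set.singleton_subset_iff.mpr hx))
    have hgx : g * x = x * g := (mem_centralizer_singleton_iff.mp hg)
    have hgN : g ∈ Subgroup.normalizer ((P : Subgroup G) : Set G) := by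
      by_contra h
      have hmem : x ∈ (P : Subgroup G) ⊓ MulAut.conj g • (P : Subgroup G) :=
        ⟨hx, SZ.mem_conj_smul.mpr (by rwa [mul_assoc, ← hgx, inv_mul_cancel_left])⟩
      rw [hTI g h, mem_bot] at hmem
      exact hx1 hmem
    -- split `g` into its `p`-part and `p'`-part
    set a := Cfsg.Agent.Element.pPart p g with ha
    set b := Cfsg.Agent.Element.pComplPart p g with hb
    rw [← Cfsg.Agent.Element.pPart_mul_pComplPart p g, ← ha, ← hb]
    refine mul_mem ?_ ?_
    · apply hPC
      have hap : IsPGroup p (zpowers a) :=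
        IsPGroup.of_card (by rw [Nat.card_zpowers, ha, Cfsg.Agent.Element.orderOf_pPart_eq_pow hp g])
      have haN : zpowers a ≤ Subgroup.normalizer ((P : Subgroup G) : Set G) :=
        zpowers_le.mpr ((zpowers_le.mpr hgN) (Cfsg.Agent.Element.pPart_mem_zpowers p g))
      have h2 : zpowers a ⊔ (P : Subgroup G) = P := (P.3 (hap.to_sup_of_normal_right' P.2 haN) le_sup_right)
      rw [← h2]
      exact le_sup_left (b := (P : Subgroup G)) (mem_zpowers a)
    · have hbz : b ∈ zpowers g := Cfsg.Agent.Element.pComplPart_mem_zpowers p g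
      have hbN : zpowers b ≤ Subgroup.normalizer ((P : Subgroup G) : Set G) :=
        zpowers_le.mpr ((zpowers_le.mpr hgN) hbz)
      have hcop : (Nat.card (zpowers b)).Coprime (Nat.card (P : Subgroup G)) := by
        obtain ⟨k, hk⟩ := IsPGroup.iff_card.mp P.2
        rw [hk, Nat.card_zpowers]
        exact Nat.Coprime.pow_right k (Cfsg.Agent.Element.coprime_orderOf_pComplPart hp g)
      refine Cfsg.Agent.S0056.result (zpowers b) (P : Subgroup G) hbN hcop ?_ (mem_zpowers b)
      intro v hv hvp c hc
      -- `v` is a power of `x`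
      have hvx : v ∈ zpowers x := by
        have hv' : orderOf v = p := by
          obtain ⟨k, hk⟩ := P.2 ⟨v, hv⟩
          obtain ⟨j, -, hj⟩ := (Nat.dvd_prime_pow hp).mp
            (orderOf_dvd_of_pow_eq_one (show v ^ p ^ k = 1 from congrArg Subtype.val hk))
          rw [hj] at hvp ⊢
          rcases Nat.eq_zero_or_pos j with rfl | hj0
          · simp at hvp; exact absurd hvp Nat.not_prime_one
          · rw [(Nat.Prime.pow_eq_iff hvp).mp rfl |>.2, pow_one]
        obtain ⟨k, hk⟩ := P.2 ⟨x, hx⟩
        obtain ⟨j, -, hj⟩ := (Nat.dvd_prime_pow hp).mp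
          (orderOf_dvd_of_pow_eq_one (show x ^ p ^ k = 1 from congrArg Subtype.val hk))
        have hj0 : j ≠ 0 := by
          rintro rfl
          exact hx1 (orderOf_eq_one_iff.mp (by rw [hj, pow_zero]))
        have hpc : p ∣ Nat.card (zpowers x) := by rw [Nat.card_zpowers, hj]; exact dvd_pow_self p hj0
        obtain ⟨y, hy⟩ := exists_prime_orderOf_dvd_card' p hpc
        have hyP : (y : G) ∈ (P : Subgroup G) := (zpowers_le.mpr hx) y.2
        have huniq : zpowers (⟨v, hv⟩ : (P : Subgroup G)) = zpowers (⟨y, hyP⟩ : (P : Subgroup G)) := by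
          refine Cfsg.Agent.FrobeniusCompl.eq_of_card_eq ?_
          rw [Nat.card_zpowers, Nat.card_zpowers, Subgroup.orderOf_mk, Subgroup.orderOf_mk, hv', Subgroup.orderOf_coe, hy]
        have h3 : (⟨v, hv⟩ : (P : Subgroup G)) ∈ zpowers (⟨y, hyP⟩ : (P : Subgroup G)) :=
          huniq ▸ mem_zpowers _
        obtain ⟨n, hn⟩ := mem_zpowers_iff.mp h3
        have hn' : (y : G) ^ n = v := by simpa using congrArg Subtype.val hn
        exact hn' ▸ zpow_mem y.2 n
      have hcx : Commute c x := by
        obtain ⟨n, rfl⟩ := mem_zpowers_iff.mp hc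
        obtain ⟨m, hm⟩ := mem_zpowers_iff.mp hbz
        rw [← hm, ← zpow_mul]
        exact (show Commute g x from hgx).zpow_left _
      obtain ⟨n, rfl⟩ := mem_zpowers_iff.mp hvx
      exact hcx.zpow_right n
  · intro h g hg
    by_contra hne
    apply hg
    obtain ⟨⟨z, hz1, hz2⟩, hzne⟩ := Subgroup.ne_bot_iff_exists_ne_one.mp hne
    have hz : z ≠ 1 := fun e => hzne (Subtype.ext e)
    have hle : MulAut.conj g • (P : Subgroup G) ≤ Subgroup.centralizer ((P : Subgroup G) : Set G) := by
      rw [← h z hz1 hz]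
      rintro _ ⟨y, hy, rfl⟩
      rw [mem_centralizer_singleton_iff]
      obtain ⟨w, hw, hwz⟩ := hz2
      rw [← hwz]
      show g * y * g⁻¹ * (g * w * g⁻¹) = g * w * g⁻¹ * (g * y * g⁻¹)
      have hwy : y * w = w * y := (hPC hw) y hy
      calc g * y * g⁻¹ * (g * w * g⁻¹) = g * (y * w) * g⁻¹ := by group
        _ = _ := by rw [hwy]; group
    have hcent : MulAut.conj g • (P : Subgroup G) ≤ Subgroup.normalizer ((P : Subgroup G) : Set G) :=
      hle.trans (centralizer_le_normalizer _)
    have hpg : IsPGroup p (MulAut.conj g • (P : Subgroup G) : Subgroup G) :=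
      P.2.map (MulAut.conj g).toMonoidHom
    have hsup : MulAut.conj g • (P : Subgroup G) ⊔ (P : Subgroup G) = P :=
      P.3 (hpg.to_sup_of_normal_right' P.2 hcent) le_sup_right
    rw [mem_normalizer_iff_map_conj_eq]
    show MulAut.conj g • (P : Subgroup G) = P
    exact eq_of_le_of_card_ge (le_sup_left.trans (le_of_eq hsup)) (le_of_eq (SZ.card_conj_smul g _).symm)

end Cfsg.Agent.S3985
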