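import Cfsg.Statements.S3986
import Cfsg.Agent.Lib.SchurZassenhaus

set_option autoImplicit false
open Cfsg

open Subgroup
open scoped Pointwise
namespace Cfsg.Agent.S3986

theorem iff_commute {G : Type*} [Group G] [Finite G] (p : ℕ) [Fact p.Prime] :
    (∃ (P : Sylow p G) (K : Subgroup G), (P : Subgroup G).Normal ∧ K.Normal ∧
      (P : Subgroup G) ⊓ K = ⊥ ∧ (P : Subgroup G) ⊔ K = ⊤) ↔
    ∀ x y : G, (∃ a : ℕ, orderOf x = p ^ a) → (∃ q b : ℕ, q.Prime ∧ q ≠ p ∧ orderOf y = q ^ b) →
      x * y = y * x := by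
  classical
  have hp : p.Prime := Fact.out
  constructor
  · rintro ⟨P, K, hP, hK, hd, htop⟩ x y ⟨a, ha⟩ ⟨q, b, hq, hqp, hb⟩
    have hx : x ∈ (P : Subgroup G) := by
      have h := (IsPGroup.of_card (n := a) (by rw [Nat.card_zpowers, ha]) : IsPGroup p (zpowers x))
      have h2 : zpowers x ⊔ (P : Subgroup G) = P :=
        P.3 (h.to_sup_of_normal_right P.2) le_sup_right
      exact h2 ▸ le_sup_left (b := (P : Subgroup G)) (mem_zpowers x)
    have hc : Subgroup.IsComplement' K (P : Subgroup G) := by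
      refine Subgroup.isComplement'_of_disjoint_and_mul_eq_univ
        (disjoint_iff.mpr (by rw [inf_comm]; exact hd)) ?_
      rw [← Subgroup.normal_mul, sup_comm, htop, Subgroup.coe_top]
    have hy : y ∈ K := by
      rw [← QuotientGroup.eq_one_iff, ← orderOf_eq_one_iff]
      obtain ⟨k, hk⟩ := IsPGroup.iff_card.mp P.2
      have h1 : orderOf (y : G ⧸ K) ∣ q ^ b := hb ▸ orderOf_map_dvd (QuotientGroup.mk' K) y
      have h2 : orderOf (y : G ⧸ K) ∣ p ^ k := by
        rw [← hk, ← hc.symm.index_eq_card, Subgroup.index_eq_card]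
        exact orderOf_dvd_natCard _
      exact Nat.eq_one_of_dvd_coprimes (Nat.Coprime.pow b k ((Nat.coprime_primes hq hp).mpr hqp)) h1 h2
    exact Subgroup.commute_of_normal_of_disjoint _ _ hP hK (disjoint_iff.mpr hd) x y hx hy
  · intro h
    obtain ⟨P⟩ : Nonempty (Sylow p G) := inferInstance
    set C := Subgroup.centralizer ((P : Subgroup G) : Set G) with hC
    have hsyl : ∀ q : ℕ, q.Prime → q ≠ p → ∀ Q : Sylow q G, (Q : Subgroup G) ≤ C := by
      intro q hq hqp Q y hy x hx
      have : Fact q.Prime := ⟨hq⟩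
      obtain ⟨i, hi⟩ := P.2 ⟨x, hx⟩
      obtain ⟨j, hj⟩ := Q.2 ⟨y, hy⟩
      obtain ⟨a, -, ha⟩ := (Nat.dvd_prime_pow hp).mp
        (orderOf_dvd_of_pow_eq_one (show x ^ p ^ i = 1 from congrArg Subtype.val hi))
      obtain ⟨b, -, hb⟩ := (Nat.dvd_prime_pow hq).mp
        (orderOf_dvd_of_pow_eq_one (show y ^ q ^ j = 1 from congrArg Subtype.val hj))
      exact h x y ⟨a, ha⟩ ⟨q, b, hq, hqp, hb⟩
    have hidx : ∀ q : ℕ, q.Prime → q ∣ C.index → q = p := by
      intro q hq hd
      by_contra hqp
      have : Fact q.Prime := ⟨hq⟩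
      obtain ⟨Q⟩ : Nonempty (Sylow q G) := inferInstance
      exact Q.not_dvd_index (hd.trans (Subgroup.index_dvd_of_le (hsyl q hq hqp Q)))
    have hPn : (P : Subgroup G).Normal := by
      rw [← Subgroup.normalizer_eq_top_iff]
      apply Subgroup.index_eq_one.mp
      by_contra hne
      obtain ⟨q, hq, hd⟩ := Nat.exists_prime_and_dvd hne
      have := hidx q hq (hd.trans (Subgroup.index_dvd_of_le (Subgroup.centralizer_le_normalizer _)))
      subst this
      exact P.not_dvd_index (hd.trans (Subgroup.index_dvd_of_le Subgroup.le_normalizer))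
    obtain ⟨K, hK⟩ := Subgroup.exists_right_complement'_of_coprime (N := (P : Subgroup G)) P.card_coprime_index
    have hKC : K ≤ C := by
      intro k hk
      rw [← QuotientGroup.eq_one_iff, ← orderOf_eq_one_iff]
      by_contra hne
      obtain ⟨q, hq, hd⟩ := Nat.exists_prime_and_dvd hne
      have h1 : q ∣ Nat.card K :=
        hd.trans ((orderOf_map_dvd (QuotientGroup.mk' C) k).trans (K.orderOf_dvd_natCard hk))
      have h2 : q ∣ C.index := by
        rw [Subgroup.index_eq_card]; exact hd.trans (orderOf_dvd_natCard _)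
      have := hidx q hq h2
      subst this
      rw [← hK.symm.index_eq_card] at h1
      exact P.not_dvd_index h1
    have hKn : K.Normal := by
      rw [← Subgroup.normalizer_eq_top_iff, eq_top_iff, ← hK.sup_eq_top, sup_le_iff]
      refine ⟨fun x hx => Subgroup.centralizer_le_normalizer _ ?_, Subgroup.le_normalizer⟩
      intro k hk
      exact (hKC hk x hx).symm
    exact ⟨P, K, hPn, hKn, hK.disjoint.eq_bot, hK.sup_eq_top⟩

/-- Let p be a prime and G a finite group. Then some Sylow p-subgroup of G is a direct factor of G (it is normal and has a normal complement) if and only if every element of p-power order commutes with every element whose order is a power of a prime other than p. -/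
theorem result {G : Type*} [Group G] [Finite G] (p : ℕ) [Fact p.Prime] : (∃ (P : Sylow p G) (K : Subgroup G), (P : Subgroup G).Normal ∧ K.Normal ∧ (P : Subgroup G) ⊓ K = ⊥ ∧ (P : Subgroup G) ⊔ K = ⊤) ↔ ∀ x y : G, (∃ a : ℕ, orderOf x = p ^ a) → (∃ q b : ℕ, q.Prime ∧ q ≠ p ∧ orderOf y = q ^ b) → x * y = y * x := by
  exact iff_commute p

end Cfsg.Agent.S3986
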