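import Cfsg.Statements.S3987
import Cfsg.Agent.S3986
import Cfsg.Agent.Lib.ClassSize
import Cfsg.Agent.Lib.Element

set_option autoImplicit false
open Cfsg

open Subgroup
open scoped Pointwise
namespace Cfsg.Agent.S3987

/-- Let p be a prime and G a finite group. Then some Sylow p-subgroup of G is a direct factor of G (normal with a normal complement) if and only if for every element x of p-power order and every element y whose order is a power of a prime other than p, the conjugacy class of x y has as many elements as the product of the sizes of the classes of x and of y. -/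
theorem result {G : Type*} [Group G] [Finite G] (p : ℕ) [Fact p.Prime] : (∃ (P : Sylow p G) (K : Subgroup G), (P : Subgroup G).Normal ∧ K.Normal ∧ (P : Subgroup G) ⊓ K = ⊥ ∧ (P : Subgroup G) ⊔ K = ⊤) ↔ ∀ x y : G, (∃ a : ℕ, orderOf x = p ^ a) → (∃ q b : ℕ, q.Prime ∧ q ≠ p ∧ orderOf y = q ^ b) → (Subgroup.centralizer ({x * y} : Set G)).index = (Subgroup.centralizer ({x} : Set G)).index * (Subgroup.centralizer ({y} : Set G)).index := by
  classical
  constructor
  · intro h x y hx hy
    have hcomm : Commute x y := (Cfsg.Agent.S3986.result p).mp h x y hx hy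
    obtain ⟨P, K, hP, hK, hd, htop⟩ := h
    have hC : Subgroup.centralizer ({x * y} : Set G) =
        Subgroup.centralizer ({x} : Set G) ⊓ Subgroup.centralizer ({y} : Set G) := by
      obtain ⟨a, ha⟩ := hx
      obtain ⟨q, b, hq, hqp, hb⟩ := hy
      have hp : p.Prime := Fact.out
      obtain ⟨e1, e2⟩ := Cfsg.Agent.Element.eq_pPart hp hcomm rfl ha
        (by rw [hb]; exact Nat.Coprime.pow_left b ((Nat.coprime_primes hq hp).mpr hqp))
      rw [Cfsg.Agent.Element.centralizer_eq_inf_pPart p (x * y), ← e1, ← e2]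
    set A := Subgroup.centralizer ({x} : Set G) with hA
    set B := Subgroup.centralizer ({y} : Set G) with hB
    have hAB : A ⊔ B = ⊤ ∧ ∀ g : G, ∃ a ∈ A, ∃ b ∈ B, g = b * a := by
      have hKA : K ≤ A := by
        intro k hk
        rw [hA, mem_centralizer_singleton_iff]
        obtain ⟨a, ha⟩ := hx
        have hxP : x ∈ (P : Subgroup G) := by
          have h := (IsPGroup.of_card (n := a) (by rw [Nat.card_zpowers, ha]) : IsPGroup p (zpowers x))
          have h2 : zpowers x ⊔ (P : Subgroup G) = P := P.3 (h.to_sup_of_normal_right P.2) le_sup_right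
          exact h2 ▸ le_sup_left (b := (P : Subgroup G)) (mem_zpowers x)
        exact (Subgroup.commute_of_normal_of_disjoint _ _ hP hK (disjoint_iff.mpr hd) x k hxP hk).symm
      have hPB : (P : Subgroup G) ≤ B := by
        intro z hz
        rw [hB, mem_centralizer_singleton_iff]
        obtain ⟨i, hi⟩ := P.2 ⟨z, hz⟩
        obtain ⟨a, -, ha⟩ := (Nat.dvd_prime_pow Fact.out).mp
          (orderOf_dvd_of_pow_eq_one (show z ^ p ^ i = 1 from congrArg Subtype.val hi))
        exact (Cfsg.Agent.S3986.result p).mp ⟨P, K, hP, hK, hd, htop⟩ z y ⟨a, ha⟩ hy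
      refine ⟨top_le_iff.mp (htop ▸ sup_le (hPB.trans le_sup_right) (hKA.trans le_sup_left)), fun g => ?_⟩
      have hg : g ∈ (P : Subgroup G) ⊔ K := htop ▸ mem_top g
      rw [mem_sup_of_normal_right] at hg
      obtain ⟨z, hz, k, hk, rfl⟩ := hg
      exact ⟨k, hKA hk, z, hPB hz, rfl⟩
    rw [hC]
    -- `G = B * A`, so the index is multiplicative
    have hrel : A.relIndex B = A.index := by
      let f : B ⧸ A.subgroupOf B → G ⧸ A := Quotient.map' (fun b : B => (b : G))
        (fun a b h => by rw [QuotientGroup.leftRel_apply] at h ⊢; exact h)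
      refine Nat.card_eq_of_bijective f ⟨fun u v h => ?_, fun q => ?_⟩
      · induction u using Quotient.inductionOn' with | h u => ?_
        induction v using Quotient.inductionOn' with | h v => ?_
        have h' := Quotient.exact' h
        apply Quotient.sound'
        rw [QuotientGroup.leftRel_apply] at h' ⊢
        exact h'
      · induction q using Quotient.inductionOn' with | h g => ?_
        obtain ⟨a, ha, b, hb, rfl⟩ := hAB.2 g
        refine ⟨Quotient.mk'' ⟨b, hb⟩, Quotient.sound' ?_⟩
        rw [QuotientGroup.leftRel_apply]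
        simpa using ha
    rw [← relIndex_mul_index (inf_le_right : A ⊓ B ≤ B), inf_relIndex_right, hrel]
  · intro h
    refine (Cfsg.Agent.S3986.result p).mpr fun x y hx hy => ?_
    let S : Set (G × G) := conjugatesOf x ×ˢ conjugatesOf y
    let m : G × G → G := fun ab => ab.1 * ab.2
    have hsub : conjugatesOf (x * y) ⊆ m '' S := by
      intro z hz
      obtain ⟨c, rfl⟩ := isConj_iff.mp hz
      exact ⟨(c * x * c⁻¹, c * y * c⁻¹),
        ⟨isConj_iff.mpr ⟨c, rfl⟩, isConj_iff.mpr ⟨c, rfl⟩⟩, by simp [m, mul_assoc]⟩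
    have hcard : S.ncard = (conjugatesOf (x * y)).ncard := by
      rw [Set.ncard_prod, Cfsg.Agent.ClassSize.ncard_conjugatesOf, Cfsg.Agent.ClassSize.ncard_conjugatesOf,
        Cfsg.Agent.ClassSize.ncard_conjugatesOf, h x y hx hy]
    have hinj : Set.InjOn m S := by
      rw [← Set.ncard_image_iff]
      exact le_antisymm (Set.ncard_image_le (Set.toFinite S)) (hcard ▸ Set.ncard_le_ncard hsub (Set.toFinite _))
    have e := hinj (x₁ := (y * x * y⁻¹, y)) ⟨isConj_iff.mpr ⟨y, rfl⟩, mem_conjugatesOf_self⟩
      (x₂ := (x, x⁻¹ * y * x)) ⟨mem_conjugatesOf_self, isConj_iff.mpr ⟨x⁻¹, by simp⟩⟩ (by simp [m, mul_assoc])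
    have e1 : y * x * y⁻¹ = x := congrArg Prod.fst e
    exact (mul_inv_eq_iff_eq_mul.mp e1).symm

end Cfsg.Agent.S3987
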