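-- Proof of statement S3989.
import Cfsg.Statements.S3989
import Cfsg.Agent.PSolv.Basic
import Cfsg.Agent.Transfer.Frobenius

set_option autoImplicit false
open Cfsg

namespace Cfsg.Agent.S3989

/-- The hypothesis of the statement. -/
def MulClass (p : ℕ) (G : Type*) [Group G] : Prop :=
  ∀ x y : G, (∃ a : ℕ, orderOf x = p ^ a) → (∃ q b : ℕ, q.Prime ∧ q ≠ p ∧ orderOf y = q ^ b) →
    ∀ z : G, IsConj (x * y) z ↔ ∃ a b : G, z = a * x * a⁻¹ * (b * y * b⁻¹)

/-- A group element of prime power order in a quotient has a preimage of prime power order. -/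
theorem exists_lift_pow {G H : Type*} [Group G] [Finite G] [Group H] (f : G →* H) (g : G)
    {q a : ℕ} (hq : q.Prime) (hg : orderOf (f g) = q ^ a) :
    ∃ x : G, f x = f g ∧ ∃ k : ℕ, orderOf x = q ^ k := by
  haveI : Fact q.Prime := ⟨hq⟩
  have hn0 : orderOf g ≠ 0 := (orderOf_pos g).ne'
  obtain ⟨k, m, hm, hkm⟩ := Nat.exists_eq_pow_mul_and_not_dvd hn0 q hq.ne_one
  have hco : Nat.Coprime (q ^ a) m := ((hq.coprime_iff_not_dvd).2 hm).pow_left a
  obtain ⟨e, he1, he2⟩ := Nat.chineseRemainder hco 1 0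
  refine ⟨g ^ e, ?_, ?_⟩
  · rw [map_pow]
    conv_rhs => rw [← pow_one (f g)]
    rw [pow_eq_pow_iff_modEq, hg]
    exact he1
  · obtain ⟨c, hc⟩ := (Nat.modEq_zero_iff_dvd).1 he2
    have hpow : (g ^ e) ^ (q ^ k) = 1 := by
      have hd : e * q ^ k = orderOf g * c := by rw [hkm, hc]; ring
      rw [← pow_mul, hd, pow_mul, pow_orderOf_eq_one, one_pow]
    obtain ⟨i, -, hi⟩ := (Nat.dvd_prime_pow hq).1 (orderOf_dvd_of_pow_eq_one hpow)
    exact ⟨i, hi⟩

theorem MulClass.quotient {p : ℕ} [Fact p.Prime] {G : Type*} [Group G] [Finite G]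
    (h : MulClass p G) (N : Subgroup G) [N.Normal] : MulClass p (G ⧸ N) := by
  rintro x y ⟨a, ha⟩ ⟨q, b, hq, hqp, hb⟩ z
  obtain ⟨x₀, rfl⟩ := QuotientGroup.mk'_surjective N x
  obtain ⟨y₀, rfl⟩ := QuotientGroup.mk'_surjective N y
  obtain ⟨x₁, hx₁, hx₂⟩ := exists_lift_pow (QuotientGroup.mk' N) x₀ (Fact.out : p.Prime) ha
  obtain ⟨y₁, hy₁, k, hy₂⟩ := exists_lift_pow (QuotientGroup.mk' N) y₀ hq hb
  have key := h x₁ y₁ hx₂ ⟨q, k, hq, hqp, hy₂⟩
  rw [← hx₁, ← hy₁]
  constructor
  · intro hc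
    obtain ⟨c, hc⟩ := isConj_iff.1 hc
    obtain ⟨u, v, huv⟩ := (key (Quotient.out c * (x₁ * y₁) * (Quotient.out c)⁻¹)).1
      (isConj_iff.2 ⟨Quotient.out c, rfl⟩)
    refine ⟨QuotientGroup.mk' N u, QuotientGroup.mk' N v, ?_⟩
    have h' := congrArg (QuotientGroup.mk' N) huv
    simp only [map_mul, map_inv] at h'
    have hoc : QuotientGroup.mk' N (Quotient.out c) = c := QuotientGroup.out_eq' c
    rw [hoc] at h'
    rw [← hc, h']
  · rintro ⟨u, v, rfl⟩
    obtain ⟨u', rfl⟩ := QuotientGroup.mk'_surjective N u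
    obtain ⟨v', rfl⟩ := QuotientGroup.mk'_surjective N v
    have h' := (key (u' * x₁ * u'⁻¹ * (v' * y₁ * v'⁻¹))).2 ⟨u', v', rfl⟩
    have h'' := (QuotientGroup.mk' N).map_isConj h'
    simpa only [map_mul, map_inv] using h''

/-- If a `q`-element `y` moves an element `v` of a `p`-subgroup that it normalises, then `y` lies
in no normal subgroup `N` that is generated, as a normal subgroup, by any of its elements `≠ 1`. -/
theorem commute_of_minimal {p : ℕ} {G : Type*} [Group G] [Finite G] (h : MulClass p G)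
    (N : Subgroup G) [N.Normal]
    (hmin : ∀ M : Subgroup G, M.Normal → M ≤ N → M ≠ ⊥ → M = N)
    (y v : G) (hy : y ∈ N) (hv : v ∈ N)
    (hyq : ∃ q b : ℕ, q.Prime ∧ q ≠ p ∧ orderOf y = q ^ b)
    (hpv : ∃ a : ℕ, orderOf (v⁻¹ * (y * v * y⁻¹)) = p ^ a) : y * v = v * y := by
  by_contra hne
  set x : G := v⁻¹ * (y * v * y⁻¹) with hx
  have hx1 : x ≠ 1 := by
    intro h1
    apply hne
    have h2 : v = y * v * y⁻¹ := inv_mul_eq_one.1 (hx ▸ h1)
    calc y * v = (y * v * y⁻¹) * y := by group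
      _ = v * y := by rw [← h2]
  have hxy : x * y = v⁻¹ * y * v := by rw [hx]; group
  have hyy : IsConj y (x * y) := isConj_iff.2 ⟨v⁻¹, by rw [hxy]; group⟩
  have hstep : ∀ a z : G, IsConj y z → IsConj y (a * x * a⁻¹ * z) := by
    intro a z hz
    obtain ⟨b, rfl⟩ := isConj_iff.1 hz
    exact hyy.trans ((h x y hpv hyq _).2 ⟨a, b, rfl⟩)
  -- left multipliers of the class of `y`
  let S : Submonoid G :=
    { carrier := {m | ∀ z : G, IsConj y z → IsConj y (m * z)}
      one_mem' := fun z hz => by simpa using hz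
      mul_mem' := fun {m n} hm hn z hz => by rw [mul_assoc]; exact hm _ (hn z hz) }
  have hle : (Subgroup.normalClosure ({x} : Set G)).toSubmonoid ≤ S := by
    rw [Subgroup.normalClosure, Subgroup.closure_toSubmonoid_of_finite, Submonoid.closure_le]
    intro w hw
    rw [Group.conjugatesOfSet, Set.mem_iUnion₂] at hw
    obtain ⟨x', hx', hw⟩ := hw
    rw [Set.mem_singleton_iff] at hx'
    subst hx'
    obtain ⟨a, rfl⟩ := isConj_iff.1 hw
    exact hstep a
  have hM : Subgroup.normalClosure ({x} : Set G) = N := by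
    refine hmin _ Subgroup.normalClosure_normal (Subgroup.normalClosure_le_normal ?_) ?_
    · rw [Set.singleton_subset_iff]
      exact N.mul_mem (N.inv_mem hv) (N.mul_mem (N.mul_mem hy hv) (N.inv_mem hy))
    · intro h0
      exact hx1 ((Subgroup.mem_bot).1 (h0 ▸ Subgroup.subset_normalClosure (Set.mem_singleton x)))
  have hyS : y⁻¹ ∈ S := hle (by rw [Subgroup.mem_toSubmonoid, hM]; exact N.inv_mem hy)
  have h1 : IsConj y 1 := by simpa using hyS y (IsConj.refl y)
  have hy1 : y = 1 := isConj_one_right.1 h1.symm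
  exact hne (by simp [hy1])

/-- A minimal normal subgroup has a normal `p`-complement. -/
theorem hasNormalPComplement_of_minimal {p : ℕ} [Fact p.Prime] {G : Type*} [Group G] [Finite G]
    (h : MulClass p G) (N : Subgroup G) [N.Normal]
    (hmin : ∀ M : Subgroup G, M.Normal → M ≤ N → M ≠ ⊥ → M = N) :
    Cfsg.HasNormalPComplement p N := by
  refine Transfer.hasNormalPComplement_of_coprime_centralize fun Q hQ _ g hg hgp => ?_
  set Z := Subgroup.zpowers g with hZ
  set C := Subgroup.centralizer (Q : Set N) with hC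
  by_contra hgC
  have hi : (C ⊓ Z).relIndex Z ≠ 1 := by
    rw [Ne, Subgroup.relIndex_eq_one]
    exact fun hle => hgC (hle (Subgroup.mem_zpowers g)).1
  obtain ⟨q, hq, hqi⟩ := Nat.exists_prime_and_dvd hi
  have hcard : Nat.card ↥(C ⊓ Z) * (C ⊓ Z).relIndex Z = orderOf g := by
    have := Subgroup.relIndex_mul_relIndex ⊥ (C ⊓ Z) Z bot_le inf_le_right
    rw [Subgroup.relIndex_bot_left, Subgroup.relIndex_bot_left, hZ, Nat.card_zpowers] at this
    exact this
  have hqo : q ∣ orderOf g := hcard ▸ hqi.mul_left _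
  have hqp : q ≠ p := by
    rintro rfl
    exact hq.not_dvd_one (hgp ▸ Nat.dvd_gcd hqo dvd_rfl)
  obtain ⟨k, m, hm, hkm⟩ := Nat.exists_eq_pow_mul_and_not_dvd (orderOf_pos g).ne' q hq.ne_one
  have hm0 : m ≠ 0 := fun h0 => hm (h0 ▸ dvd_zero q)
  have hy : orderOf (g ^ m) = q ^ k := by
    rw [orderOf_pow_of_dvd hm0 (hkm ▸ dvd_mul_left _ _), hkm,
      Nat.mul_div_cancel _ (Nat.pos_of_ne_zero hm0)]
  have hyn : g ^ m ∈ Subgroup.normalizer (Q : Set N) := pow_mem hg m
  have hyC : g ^ m ∈ C := by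
    rw [hC, Subgroup.mem_centralizer_iff]
    intro v hv
    have hxQ : v⁻¹ * (g ^ m * v * (g ^ m)⁻¹) ∈ Q :=
      Q.mul_mem (Q.inv_mem hv) ((Subgroup.mem_normalizer_iff.1 hyn v).1 hv)
    obtain ⟨a, ha⟩ := IsPGroup.iff_orderOf.1 hQ ⟨_, hxQ⟩
    have := commute_of_minimal h N hmin ((g ^ m : N) : G) ((v : N) : G) (g ^ m).2 v.2
      ⟨q, k, hq, hqp, by rw [Subgroup.orderOf_coe]; exact hy⟩
      ⟨a, by
        have hc : ((v : N) : G)⁻¹ * (((g ^ m : N) : G) * (v : G) * ((g ^ m : N) : G)⁻¹) =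
            ((v⁻¹ * (g ^ m * v * (g ^ m)⁻¹) : N) : G) := by simp
        rw [hc, Subgroup.orderOf_coe]
        simpa [Subgroup.orderOf_mk] using ha⟩
    exact (Subtype.ext this).symm
  have hdvd : q ^ k ∣ Nat.card ↥(C ⊓ Z) :=
    hy ▸ Subgroup.orderOf_dvd_natCard (C ⊓ Z) ⟨hyC, pow_mem (Subgroup.mem_zpowers g) m⟩
  have : q ^ (k + 1) ∣ q ^ k * m := by
    rw [pow_succ, ← hkm, ← hcard]
    exact Nat.mul_dvd_mul hdvd hqi
  rw [pow_succ, Nat.mul_dvd_mul_iff_left (pow_pos hq.pos k)] at this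
  exact hm this

theorem isPSolvable_of_hasNormalPComplement {p : ℕ} [Fact p.Prime] {G : Type*} [Group G]
    [Finite G] (h : Cfsg.HasNormalPComplement p G) : IsPSolvable p G := by
  obtain ⟨P, K, hK, hc⟩ := h
  have hidx : K.index = Nat.card (P : Subgroup G) := hc.symm.index_eq_card
  have hco : (Nat.card K).Coprime p := by
    refine (Nat.Prime.coprime_iff_not_dvd (Fact.out : p.Prime)).2 ?_ |>.symm
    intro hd
    apply P.not_dvd_index
    rw [hc.index_eq_card]
    exact hd
  refine PSolv.isPSolvable_of_extension K (PSolv.isPSolvable_of_coprime hco)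
    (PSolv.isPSolvable_of_isPGroup ?_)
  exact IsPGroup.of_card (by rw [← Subgroup.index_eq_card, hidx]; exact P.card_eq_multiplicity)

theorem main {p : ℕ} [Fact p.Prime] (n : ℕ) : ∀ {G : Type*} [Group G] [Finite G],
    Nat.card G = n → MulClass p G → IsPSolvable p G := by
  induction n using Nat.strong_induction_on with
  | _ n ih =>
    intro G _ _ hn h
    rcases subsingleton_or_nontrivial G with hG | hG
    · exact PSolv.isPSolvable_of_coprime (by simp)
    obtain ⟨N, ⟨hN, hN0⟩, hmin⟩ := Set.Finite.exists_minimal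
      (Set.toFinite {M : Subgroup G | M.Normal ∧ M ≠ ⊥})
      ⟨⊤, inferInstance, top_ne_bot⟩
    haveI := hN
    have hmin' : ∀ M : Subgroup G, M.Normal → M ≤ N → M ≠ ⊥ → M = N :=
      fun M hM hle hM0 => le_antisymm hle (hmin ⟨hM, hM0⟩ hle)
    have hlt : Nat.card (G ⧸ N) < n := by
      have h1 : 1 < Nat.card N := (Subgroup.one_lt_card_iff_ne_bot N).2 hN0
      have h2 := Subgroup.card_eq_card_quotient_mul_card_subgroup N
      have h3 : 0 < Nat.card (G ⧸ N) := Nat.card_pos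
      rw [← hn, h2]
      exact lt_mul_of_one_lt_right h3 h1
    exact PSolv.isPSolvable_of_extension N
      (isPSolvable_of_hasNormalPComplement (hasNormalPComplement_of_minimal h N hmin'))
      (ih _ hlt rfl (h.quotient N))

/-- Let p be a prime and G a finite group such that for every element x of p-power order and every element y whose order is a power of a prime other than p, the conjugacy class of x y is the set of all products of a conjugate of x with a conjugate of y. Then G is p-solvable. -/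
theorem result {G : Type*} [Group G] [Finite G] (p : ℕ) [Fact p.Prime] (h : ∀ x y : G, (∃ a : ℕ, orderOf x = p ^ a) → (∃ q b : ℕ, q.Prime ∧ q ≠ p ∧ orderOf y = q ^ b) → ∀ z : G, IsConj (x * y) z ↔ ∃ a b : G, z = a * x * a⁻¹ * (b * y * b⁻¹)) : Cfsg.IsPSolvable p G :=
  main _ rfl h

end Cfsg.Agent.S3989
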