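import Cfsg.Statements.S4013
import Cfsg.Agent.Lib.ClassSize

set_option autoImplicit false
open Cfsg

namespace Cfsg.Agent.S4013


/-- Let G be a finite p-group (p prime) and N < M normal subgroups of G such that for some g ∈ M ∖ N the conjugacy class of g is exactly M ∖ N. Then p = 2 and N has index 2 in M. -/
theorem result {G : Type*} [Group G] [Finite G] (p : ℕ) [Fact p.Prime] (hG : IsPGroup p G) (N M : Subgroup G) [N.Normal] [M.Normal] (hNM : N < M) (g : G) (hgM : g ∈ M) (hgN : g ∉ N) (hcl : {h : G | IsConj g h} = (M : Set G) \ (N : Set G)) : p = 2 ∧ N.relIndex M = 2 := by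
  obtain ⟨p', hp'⟩ : ∃ q, q = N.relIndex M := ⟨_, rfl⟩
  have hp := (Fact.out : p.Prime)
  have hsub : (N : Set G) ⊆ M := hNM.le
  have hcard : Nat.card N * p' = Nat.card M := by
    rw [hp', ← Subgroup.relIndex_bot_left, ← Subgroup.relIndex_bot_left,
      Subgroup.relIndex_mul_relIndex _ _ _ bot_le hNM.le]
  have h1 : (Subgroup.centralizer ({g} : Set G)).index = Nat.card N * (p' - 1) := by
    rw [← Cfsg.Agent.ClassSize.ncard_setOf_isConj, hcl, Set.ncard_diff hsub, Nat.mul_sub,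
      mul_one, hcard]
    rfl
  obtain ⟨a, ha⟩ := hG.index (Subgroup.centralizer ({g} : Set G))
  obtain ⟨b, hb⟩ : ∃ b, p' = p ^ b := by
    obtain ⟨c, hc⟩ := (hG.to_subgroup M).exists_card_eq
    obtain ⟨b, -, hb⟩ := (Nat.dvd_prime_pow hp).mp (hc ▸ Dvd.intro_left _ hcard)
    exact ⟨b, hb⟩
  have hne : p' ≠ 1 := fun h => hgN (Subgroup.relIndex_eq_one.mp (hp' ▸ h) hgM)
  obtain ⟨c, -, hc⟩ : ∃ c ≤ a, p' - 1 = p ^ c :=
    (Nat.dvd_prime_pow hp).mp (ha ▸ h1 ▸ Dvd.intro_left _ rfl)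
  have hb0 : b ≠ 0 := by rintro rfl; simp_all
  have hc0 : c = 0 := by
    by_contra hc0
    have e1 : p ∣ p' := hb ▸ dvd_pow_self p hb0
    have e2 : p ∣ p' - 1 := hc ▸ dvd_pow_self p hc0
    have e3 := Nat.dvd_sub e1 e2
    have : p' - (p' - 1) = 1 := by
      have : 0 < p' := hb ▸ pow_pos hp.pos _
      omega
    exact hp.not_dvd_one (this ▸ e3)
  subst hc0
  have h2 : p' = 2 := by
    have : 0 < p' := hb ▸ pow_pos hp.pos _
    simp at hc; omega
  refine ⟨?_, hp' ▸ h2⟩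
  have : p ∣ 2 := h2 ▸ hb ▸ dvd_pow_self p hb0
  exact (Nat.prime_dvd_prime_iff_eq hp Nat.prime_two).mp this

end Cfsg.Agent.S4013
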