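import Cfsg.Statements.S4023
import Mathlib
import Cfsg.Agent.TwoGroups.UniqueInvolution
import Cfsg.Agent.H4.CyclicMax
import Cfsg.Agent.Cores.Basic

set_option autoImplicit false
open Cfsg
open scoped commutatorElement

namespace Cfsg.Agent.S4023

theorem structure_of_iso {Q : Type*} [Group Q] [Finite Q] {p : ℕ} [hp : Fact p.Prime]
    (hQ : IsPGroup p Q) (hiso : ∀ A B : Subgroup Q, Nat.card A = Nat.card B → Nonempty (A ≃* B)) :
    IsCyclic Q ∨ ((∀ a b : Q, a * b = b * a) ∧ ∀ a : Q, a ^ p = 1) ∨
      (p = 2 ∧ Nonempty (Q ≃* QuaternionGroup 2)) ∨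
      (p ≠ 2 ∧ ¬ IsMulCommutative Q ∧ Nat.card Q = p ^ 3 ∧ Monoid.exponent Q = p) := by
  classical
  obtain ⟨N, hN⟩ := hQ.exists_card_eq
  by_cases hexp : ∀ a : Q, a ^ p = 1
  · by_cases hcomm : ∀ a b : Q, a * b = b * a
    · exact Or.inr (Or.inl ⟨hcomm, hexp⟩)
    right; right; right
    have hp2 : p ≠ 2 := by
      rintro rfl
      apply hcomm
      intro a b
      have h1 : ∀ u : Q, u⁻¹ = u := fun u => inv_eq_of_mul_eq_one_right (pow_two u ▸ hexp u)
      calc a * b = (a * b)⁻¹ := (h1 _).symm
        _ = b * a := by rw [mul_inv_rev, h1 a, h1 b]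
    have hab : ¬ IsMulCommutative Q := fun h => hcomm (isMulCommutative_iff.mp h)
    haveI : Nontrivial Q := by
      by_contra h
      rw [not_nontrivial_iff_subsingleton] at h
      exact hcomm fun a b => Subsingleton.elim _ _
    have hexp' : Monoid.exponent Q = p := by
      rcases (Nat.dvd_prime hp.out).mp (Monoid.exponent_dvd_iff_forall_pow_eq_one.mpr hexp) with h | h
      · exact absurd (Monoid.exp_eq_one_iff.mp h) (not_subsingleton Q)
      · exact h
    refine ⟨hp2, hab, ?_, hexp'⟩
    -- a nonabelian subgroup of order `p^3`, so no abelian one of that order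
    set Z := Subgroup.center Q
    have hZne : Z ≠ ⊤ := fun h => hcomm fun a b =>
      (Subgroup.mem_center_iff.mp (h ▸ Subgroup.mem_top b : b ∈ Z) a)
    haveI : Nontrivial (Q ⧸ Z) := QuotientGroup.nontrivial_iff.mpr hZne
    obtain ⟨⟨u, hu⟩, hu1⟩ := @exists_ne _ ((hQ.to_quotient Z).center_nontrivial) 1
    obtain ⟨x, rfl⟩ := QuotientGroup.mk'_surjective Z u
    have hxZ : x ∉ Z := fun h => hu1 (Subtype.ext ((QuotientGroup.eq_one_iff x).mpr h))
    have hxc : ∀ g : Q, ⁅g, x⁆ ∈ Z := by
      intro g
      rw [← QuotientGroup.eq_one_iff, ← QuotientGroup.mk'_apply, map_commutatorElement,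
        commutatorElement_eq_one_iff_mul_comm]
      exact Subgroup.mem_center_iff.mp hu _
    obtain ⟨y, hy⟩ : ∃ y : Q, y * x ≠ x * y := by
      by_contra h
      push Not at h
      exact hxZ (Subgroup.mem_center_iff.mpr h)
    set z := ⁅y, x⁆
    have hz : z ∈ Z := hxc y
    have hz1 : z ≠ 1 := fun h => hy (commutatorElement_eq_one_iff_mul_comm.mp h)
    have hord : ∀ {g : Q}, g ≠ 1 → orderOf g = p := fun h => orderOf_eq_prime (hexp _) h
    -- `⟨z, x⟩` has order `p^2`
    set B := Subgroup.zpowers z ⊔ Subgroup.zpowers x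
    have hxz : x ∉ Subgroup.zpowers z := fun h => hxZ (Subgroup.zpowers_le.mpr hz h)
    haveI hzn : (Subgroup.zpowers z).Normal := ⟨fun a ha g => by
      rw [Subgroup.mem_center_iff.mp (Subgroup.zpowers_le.mpr hz ha) g, mul_inv_cancel_right]
      exact ha⟩
    have hBcard : Nat.card B = p ^ 2 := by
      have hle : Nat.card B ∣ p * p := by
        have h := Cores.card_sup_dvd_mul (Subgroup.zpowers x) (Subgroup.zpowers z)
        rw [sup_comm, Nat.card_zpowers, Nat.card_zpowers, hord hz1,
          hord (fun h => hxz (by rw [h]; exact one_mem _))] at h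
        exact h
      obtain ⟨i, hi2, hi⟩ := (Nat.dvd_prime_pow hp.out).mp (by rwa [pow_two] : Nat.card B ∣ p ^ 2)
      interval_cases i
      · rw [pow_zero] at hi
        exact absurd (Subgroup.mem_sup_left (Subgroup.mem_zpowers z) : z ∈ B)
          (by rw [show Subgroup.zpowers z ⊔ Subgroup.zpowers x = ⊥ from Subgroup.card_eq_one.mp hi, Subgroup.mem_bot]; exact hz1)
      · refine absurd (Subgroup.mem_sup_right (Subgroup.mem_zpowers x) : x ∈ B) ?_
        rw [← Subgroup.eq_of_le_of_card_ge (le_sup_left : Subgroup.zpowers z ≤ B)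
          (by rw [hi, pow_one, Nat.card_zpowers, hord hz1])]
        exact hxz
      · exact hi
    have hBc : ∀ g : Q, (∀ b ∈ B, g * b = b * g) ↔ g * x = x * g := fun g =>
      ⟨fun h => h x (Subgroup.mem_sup_right (Subgroup.mem_zpowers x)), fun h b hb => by
        have : B ≤ Subgroup.centralizer {g} := sup_le
          (Subgroup.zpowers_le.mpr (Subgroup.mem_centralizer_singleton_iff.mpr
            (Subgroup.mem_center_iff.mp hz g).symm))
          (Subgroup.zpowers_le.mpr (Subgroup.mem_centralizer_singleton_iff.mpr h.symm))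
        exact (Subgroup.mem_centralizer_singleton_iff.mp (this hb)).symm⟩
    have hyB : y ∉ B := by
      intro h
      have : B ≤ Subgroup.centralizer {x} := sup_le
        (Subgroup.zpowers_le.mpr (Subgroup.mem_centralizer_singleton_iff.mpr
          (Subgroup.mem_center_iff.mp hz x).symm))
        (Subgroup.zpowers_le.mpr (Subgroup.mem_centralizer_singleton_iff.mpr rfl))
      exact hy (Subgroup.mem_centralizer_singleton_iff.mp (this h))
    set T := B ⊔ Subgroup.zpowers y
    have hyN : Subgroup.zpowers y ≤ Subgroup.normalizer (B : Set Q) := by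
      rw [Subgroup.zpowers_le]
      have hmap : B.map (MulAut.conj y).toMonoidHom ≤ B := by
        rw [Subgroup.map_sup, sup_le_iff, MonoidHom.map_zpowers, MonoidHom.map_zpowers,
          Subgroup.zpowers_le, Subgroup.zpowers_le]
        refine ⟨Subgroup.mem_sup_left ?_, ?_⟩
        · show y * z * y⁻¹ ∈ _
          rw [Subgroup.mem_center_iff.mp hz y, mul_inv_cancel_right]
          exact Subgroup.mem_zpowers z
        · show y * x * y⁻¹ ∈ B
          have : y * x * y⁻¹ = z * x := by simp only [z, commutatorElement_def]; group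
          rw [this]
          exact mul_mem (Subgroup.mem_sup_left (Subgroup.mem_zpowers z))
            (Subgroup.mem_sup_right (Subgroup.mem_zpowers x))
      have heq : B.map (MulAut.conj y).toMonoidHom = B := Subgroup.eq_of_le_of_card_ge hmap
        (Subgroup.card_map_of_injective (MulAut.conj y).injective).ge
      refine Subgroup.mem_normalizer_iff.mpr fun b => ⟨fun hb => ?_, fun hb => ?_⟩
      · rw [← heq]; exact ⟨b, hb, rfl⟩
      · rw [← heq] at hb
        obtain ⟨c, hc, hc'⟩ := hb
        exact ((MulAut.conj y).injective hc' : c = b) ▸ hc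
    have hy1 : y ≠ 1 := fun h => hy (by rw [h, one_mul, mul_one])
    have hT : Nat.card T = p ^ 3 := by
      haveI : (B.subgroupOf T).Normal :=
        Subgroup.normal_subgroupOf_of_le_normalizer (sup_le Subgroup.le_normalizer hyN)
      have hdvd := Cores.card_sup_dvd_mul ((Subgroup.zpowers y).subgroupOf T) (B.subgroupOf T)
      rw [← Subgroup.subgroupOf_sup le_sup_right le_sup_left, sup_comm (Subgroup.zpowers y) B,
        Subgroup.subgroupOf_self, Subgroup.card_top,
        Nat.card_congr (Subgroup.subgroupOfEquivOfLe (le_sup_left : B ≤ T)).toEquiv,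
        Nat.card_congr (Subgroup.subgroupOfEquivOfLe (le_sup_right : Subgroup.zpowers y ≤ T)).toEquiv,
        hBcard, Nat.card_zpowers, hord hy1, ← pow_succ'] at hdvd
      obtain ⟨i, hi2, hi⟩ := (Nat.dvd_prime_pow hp.out).mp hdvd
      have hlt : p ^ 2 < p ^ i := by
        rw [← hi, ← hBcard]
        refine lt_of_le_of_ne (Subgroup.card_le_of_le le_sup_left) fun e => hyB ?_
        rw [Subgroup.eq_of_le_of_card_ge (le_sup_left : B ≤ T) e.ge]
        exact Subgroup.mem_sup_right (Subgroup.mem_zpowers y)
      have := (Nat.pow_lt_pow_iff_right hp.out.one_lt).mp hlt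
      rw [hi, show i = 3 by omega]
    have hnoab : ∀ A : Subgroup Q, (∀ a ∈ A, ∀ b ∈ A, a * b = b * a) → ¬ p ^ 3 ∣ Nat.card A := by
      intro A hA hd
      obtain ⟨K, hK⟩ := Sylow.exists_subgroup_card_pow_prime (G := A) p hd
      obtain ⟨e⟩ := hiso (K.map A.subtype) T (by
        rw [Subgroup.card_map_of_injective A.subtype_injective, hK, hT])
      apply hy
      have hyT : y ∈ T := Subgroup.mem_sup_right (Subgroup.mem_zpowers y)
      have hxT : x ∈ T := Subgroup.mem_sup_left (Subgroup.mem_sup_right (Subgroup.mem_zpowers x))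
      have : e.symm ⟨y, hyT⟩ * e.symm ⟨x, hxT⟩ = e.symm ⟨x, hxT⟩ * e.symm ⟨y, hyT⟩ :=
        Subtype.ext (hA _ (Subgroup.map_subtype_le _ (e.symm ⟨y, hyT⟩).2) _
          (Subgroup.map_subtype_le _ (e.symm ⟨x, hxT⟩).2))
      rw [← map_mul, ← map_mul] at this
      exact congrArg Subtype.val (e.symm.injective this)
    -- the centre has order `p`
    obtain ⟨k, hk⟩ := (hQ.to_subgroup Z).exists_card_eq
    have hkpos : 1 ≤ k := by
      by_contra h
      rw [show k = 0 by omega, pow_zero] at hk
      exact hz1 (by rw [Subgroup.card_eq_one.mp hk, Subgroup.mem_bot] at hz; exact hz)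
    have hk1 : k = 1 := by
      by_contra hne
      refine hnoab (Z ⊔ Subgroup.zpowers x) ?_ ?_
      · have hle : Z ⊔ Subgroup.zpowers x ≤ Subgroup.centralizer ((Z : Set Q) ∪ {x}) := by
          refine sup_le (fun a ha => Subgroup.mem_centralizer_iff.mpr fun b _ => Subgroup.mem_center_iff.mp ha b)
            (Subgroup.zpowers_le.mpr (Subgroup.mem_centralizer_iff.mpr ?_))
          rintro b (hb | hb)
          · exact (Subgroup.mem_center_iff.mp hb x).symm
          · rw [Set.mem_singleton_iff.mp hb]
        intro a ha b hb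
        have hb' : b ∈ Subgroup.centralizer (Subgroup.centralizer ((Z : Set Q) ∪ {x}) : Set Q) := by
          refine (sup_le (fun u hu => ?_) (Subgroup.zpowers_le.mpr ?_) :
            Z ⊔ Subgroup.zpowers x ≤ _) hb
          · exact Subgroup.mem_centralizer_iff.mpr fun c hc =>
              (Subgroup.mem_centralizer_iff.mp hc u (Or.inl hu)).symm
          · exact Subgroup.mem_centralizer_iff.mpr fun c hc =>
              (Subgroup.mem_centralizer_iff.mp hc x (Or.inr rfl)).symm
        exact Subgroup.mem_centralizer_iff.mp hb' a (hle ha)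
      · obtain ⟨j, hj⟩ := (hQ.to_subgroup (Z ⊔ Subgroup.zpowers x)).exists_card_eq
        have hlt : p ^ k < p ^ j := by
          rw [← hk, ← hj]
          refine lt_of_le_of_ne (Subgroup.card_le_of_le le_sup_left) fun e => hxZ ?_
          rw [Subgroup.eq_of_le_of_card_ge (le_sup_left : Z ≤ Z ⊔ Subgroup.zpowers x) e.ge]
          exact Subgroup.mem_sup_right (Subgroup.mem_zpowers x)
        have := (Nat.pow_lt_pow_iff_right hp.out.one_lt).mp hlt
        rw [hj]; exact pow_dvd_pow p (by omega)
    -- hence `|Q| ≤ p^3`
    set C := Subgroup.centralizer ({x} : Set Q)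
    have hCi : C.index ≤ p := by
      rw [← pow_one p, ← hk1, ← hk]
      refine Nat.card_le_card_of_injective (α := Q ⧸ C) (fun u => (⟨⁅u.out, x⁆, hxc _⟩ : Z)) ?_
      intro u v huv
      have e : ⁅u.out, x⁆ = ⁅v.out, x⁆ := congrArg Subtype.val huv
      rw [← QuotientGroup.out_eq' u, ← QuotientGroup.out_eq' v, QuotientGroup.eq,
        Subgroup.mem_centralizer_singleton_iff]
      rw [commutatorElement_def, commutatorElement_def] at e
      have e' : u.out * x * u.out⁻¹ = v.out * x * v.out⁻¹ := by
        have := congrArg (· * x) e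
        simpa using this
      calc u.out⁻¹ * v.out * x = u.out⁻¹ * (v.out * x * v.out⁻¹) * v.out := by group
        _ = x * (u.out⁻¹ * v.out) := by rw [← e']; group
    have hC : C = B := by
      refine le_antisymm (fun c hc => ?_) (sup_le (Subgroup.zpowers_le.mpr
        (Subgroup.mem_centralizer_singleton_iff.mpr (Subgroup.mem_center_iff.mp hz x).symm))
        (Subgroup.zpowers_le.mpr (Subgroup.mem_centralizer_singleton_iff.mpr rfl)))
      by_contra hcB
      have hcx := Subgroup.mem_centralizer_singleton_iff.mp hc
      have hBcomm : ∀ a ∈ B, ∀ b ∈ B, a * b = b * a := fun a ha =>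
        (hBc a).mpr ((hBc x).mpr rfl a ha).symm
      refine hnoab (Subgroup.closure ((B : Set Q) ∪ {c})) ?_ ?_
      · haveI := Subgroup.isMulCommutative_closure (k := (B : Set Q) ∪ {c}) (by
          rintro a (ha | ha) b (hb | hb)
          · exact hBcomm a ha b hb
          · rw [Set.mem_singleton_iff.mp hb]; exact ((hBc c).mpr hcx a ha).symm
          · rw [Set.mem_singleton_iff.mp ha]; exact (hBc c).mpr hcx b hb
          · rw [Set.mem_singleton_iff.mp ha, Set.mem_singleton_iff.mp hb])
        intro a ha b hb
        exact congrArg Subtype.val (isMulCommutative_iff.mp this ⟨a, ha⟩ ⟨b, hb⟩)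
      · obtain ⟨j, hj⟩ := (hQ.to_subgroup (Subgroup.closure ((B : Set Q) ∪ {c}))).exists_card_eq
        have hle : B ≤ Subgroup.closure ((B : Set Q) ∪ {c}) :=
          fun u hu => Subgroup.subset_closure (Or.inl hu)
        have hlt : p ^ 2 < p ^ j := by
          rw [← hBcard, ← hj]
          refine lt_of_le_of_ne (Subgroup.card_le_of_le hle) fun e => hcB ?_
          rw [Subgroup.eq_of_le_of_card_ge hle e.ge]
          exact Subgroup.subset_closure (Or.inr rfl)
        have := (Nat.pow_lt_pow_iff_right hp.out.one_lt).mp hlt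
        rw [hj]; exact pow_dvd_pow p (by omega)
    have hle : Nat.card Q ≤ p ^ 3 := by
      rw [← Subgroup.card_mul_index C, hC, hBcard, pow_succ p 2]
      exact Nat.mul_le_mul_left _ (hC ▸ hCi)
    exact le_antisymm hle (hT ▸ Subgroup.card_le_card_group T)
  · -- all subgroups of order `p^2` are cyclic
    push Not at hexp
    obtain ⟨g, hg⟩ := hexp
    obtain ⟨i, -, hi⟩ := (Nat.dvd_prime_pow hp.out).mp (hN ▸ orderOf_dvd_natCard g)
    have hi2 : 2 ≤ i := by
      by_contra h
      exact hg (orderOf_dvd_iff_pow_eq_one.mp (hi ▸ (pow_dvd_pow p (by omega : i ≤ 1)).trans (pow_one p).dvd))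
    have hno : ∀ A : Subgroup Q, (∀ a ∈ A, a ^ p = 1) → Nat.card A ≠ p ^ 2 := by
      intro A hA hc
      set h := g ^ p ^ (i - 2)
      have hh : orderOf h = p ^ 2 := by
        rw [orderOf_pow_of_dvd (pow_ne_zero _ hp.out.ne_zero) (hi ▸ pow_dvd_pow p (by omega)), hi,
          Nat.pow_div (by omega) hp.out.pos]
        congr 1; omega
      obtain ⟨e⟩ := hiso A (Subgroup.zpowers h) (by rw [hc, Nat.card_zpowers, hh])
      have h1 : e.symm ⟨h, Subgroup.mem_zpowers h⟩ ^ p = 1 := Subtype.ext (hA _ (e.symm _).2)
      rw [← map_pow, map_eq_one_iff _ e.symm.injective] at h1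
      have := orderOf_dvd_of_pow_eq_one (congrArg Subtype.val h1 : h ^ p = 1)
      rw [hh] at this
      have := Nat.le_of_dvd hp.out.pos this
      have : p ^ 1 < p ^ 2 := Nat.pow_lt_pow_right hp.out.one_lt (by norm_num)
      simp at this
      omega
    -- so there is only one subgroup of order `p`
    have huniq : ∀ a b : Q, orderOf a = p → orderOf b = p → b ∈ Subgroup.zpowers a := by
      have key : ∀ z : Q, z ∈ Subgroup.center Q → orderOf z = p → ∀ b : Q, orderOf b = p →
          b ∈ Subgroup.zpowers z := by
        intro z hz hzo b hbo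
        by_contra hbz
        haveI hzn : (Subgroup.zpowers z).Normal := ⟨fun a ha g => by
          rw [Subgroup.mem_center_iff.mp (Subgroup.zpowers_le.mpr hz ha) g, mul_inv_cancel_right]
          exact ha⟩
        set A := Subgroup.zpowers z ⊔ Subgroup.zpowers b
        refine hno A (fun a ha => ?_) ?_
        · obtain ⟨u, hu, v, hv, rfl⟩ := Subgroup.mem_sup_of_normal_left.mp ha
          have hu' : Commute u v :=
            (Subgroup.mem_center_iff.mp (Subgroup.zpowers_le.mpr hz hu) v).symm
          rw [hu'.mul_pow, orderOf_dvd_iff_pow_eq_one.mp (hzo ▸ orderOf_dvd_of_mem_zpowers hu),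
            orderOf_dvd_iff_pow_eq_one.mp (hbo ▸ orderOf_dvd_of_mem_zpowers hv), one_mul]
        · have hle : Nat.card A ∣ p ^ 2 := by
            have h := Cores.card_sup_dvd_mul (Subgroup.zpowers b) (Subgroup.zpowers z)
            rw [sup_comm, Nat.card_zpowers, Nat.card_zpowers, hzo, hbo, ← pow_two] at h
            exact h
          obtain ⟨j, hj2, hj⟩ := (Nat.dvd_prime_pow hp.out).mp hle
          have hlt : p ^ 1 < p ^ j := by
            rw [← hj, pow_one, ← hzo, ← Nat.card_zpowers]
            refine lt_of_le_of_ne (Subgroup.card_le_of_le le_sup_left) fun e => hbz ?_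
            rw [Subgroup.eq_of_le_of_card_ge (le_sup_left : Subgroup.zpowers z ≤ A) e.ge]
            exact Subgroup.mem_sup_right (Subgroup.mem_zpowers b)
          have := (Nat.pow_lt_pow_iff_right hp.out.one_lt).mp hlt
          rw [hj, show j = 2 by omega]
      haveI : Nontrivial Q := ⟨g, 1, fun h => hg (by rw [h, one_pow])⟩
      haveI := hQ.center_nontrivial
      obtain ⟨z, hz⟩ := exists_prime_orderOf_dvd_card' (G := Subgroup.center Q) p (by
        obtain ⟨n, hn⟩ := (hQ.to_subgroup (Subgroup.center Q)).exists_card_eq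
        have := Finite.one_lt_card (α := Subgroup.center Q)
        rw [hn] at this ⊢
        exact dvd_pow_self p (fun h => by simp [h] at this))
      rw [← Subgroup.orderOf_coe] at hz
      intro a b ha hb
      have h1 := key z z.2 hz a ha
      have h2 := key z z.2 hz b hb
      rwa [Subgroup.eq_of_le_of_card_ge (Subgroup.zpowers_le.mpr h1)
        (by rw [Nat.card_zpowers, Nat.card_zpowers, hz, ha])]
    rcases eq_or_ne p 2 with rfl | hp2
    · rcases TwoGroups.cyclic_or_quaternion_of_unique_involution hQ (fun a b ha hb => by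
        obtain ⟨k, hk⟩ := huniq a b ha hb
        simp only at hk
        rw [← zpow_mod_orderOf, ha] at hk
        rcases Int.emod_two_eq_zero_or_one k with h | h
        · simp [h] at hk; rw [← hk, orderOf_one] at hb; omega
        · simp [h] at hk; exact hk) with h | ⟨n, hn, hc, ⟨e⟩⟩
      · exact Or.inl h
      · right; right; left
        refine ⟨rfl, ?_⟩
        by_cases hn2 : n = 2
        · subst hn2; exact ⟨e⟩
        exfalso
        -- a cyclic and a non-cyclic subgroup of order 8
        set a : QuaternionGroup (2 ^ (n - 1)) := QuaternionGroup.a 1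
        have hao : orderOf a = 2 ^ n := by
          rw [QuaternionGroup.orderOf_a_one, ← pow_succ']; congr 1; omega
        set c := a ^ 2 ^ (n - 2)
        set w : QuaternionGroup (2 ^ (n - 1)) := QuaternionGroup.xa 0
        have hco : orderOf c = 4 := by
          rw [orderOf_pow_of_dvd (by positivity) (hao ▸ pow_dvd_pow 2 (by omega)), hao,
            Nat.pow_div (by omega) two_pos, show n - (n - 2) = 2 by omega]; norm_num
        set d := a ^ 2 ^ (n - 3)
        have hdo : orderOf d = 8 := by
          rw [orderOf_pow_of_dvd (by positivity) (hao ▸ pow_dvd_pow 2 (by omega)), hao,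
            Nat.pow_div (by omega) two_pos, show n - (n - 3) = 3 by omega]; norm_num
        have hc' : c = QuaternionGroup.a ((2 ^ (n - 2) : ℕ) : ZMod _) := QuaternionGroup.a_one_pow _
        have hwinv : w * c * w⁻¹ = c⁻¹ := by
          rw [hc', mul_inv_eq_iff_eq_mul]
          show w * _ = QuaternionGroup.a _ * w
          simp only [w, QuaternionGroup.xa_mul_a, QuaternionGroup.a_mul_xa]
          congr 1; ring
        have hww : w * w = c ^ 2 := by
          rw [hc', pow_two, QuaternionGroup.a_mul_a]
          simp only [w, QuaternionGroup.xa_mul_xa]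
          congr 1
          have h2' : 2 * 2 ^ (n - 2) = 2 ^ (n - 1) := by
            rw [← pow_succ', show n - 2 + 1 = n - 1 by omega]
          rw [← Nat.cast_add, ← two_mul, h2']
          simp
        have hwc : w ∉ Subgroup.zpowers c := by
          intro h
          have h' : w ∈ Subgroup.zpowers a := Subgroup.zpowers_le.mpr (pow_mem (Subgroup.mem_zpowers a) _) h
          obtain ⟨k, hk, e'⟩ := (isOfFinOrder_of_finite a).mem_powers_iff_mem_zpowers.mpr h' |> fun ⟨k, hk⟩ => (⟨k, trivial, hk⟩ : ∃ k : ℕ, True ∧ a ^ k = w)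
          rw [QuaternionGroup.a_one_pow] at e'
          simp [w] at e'
        have hwN : Subgroup.zpowers w ≤ Subgroup.normalizer (Subgroup.zpowers c : Set _) := by
          rw [Subgroup.zpowers_le]
          have hmap : (Subgroup.zpowers c).map (MulAut.conj w).toMonoidHom = Subgroup.zpowers c := by
            rw [MonoidHom.map_zpowers]
            show Subgroup.zpowers (w * c * w⁻¹) = _
            rw [hwinv, Subgroup.zpowers_inv]
          refine Subgroup.mem_normalizer_iff.mpr fun b => ⟨fun hb => ?_, fun hb => ?_⟩
          · rw [← hmap]; exact ⟨b, hb, rfl⟩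
          · rw [← hmap] at hb
            obtain ⟨u, hu, hu'⟩ := hb
            exact ((MulAut.conj w).injective hu' : u = b) ▸ hu
        set K := Subgroup.zpowers c ⊔ Subgroup.zpowers w
        have hwo : orderOf w = 4 := by
          refine (orderOf_eq_prime_pow (p := 2) (n := 1) ?_ ?_).trans (by norm_num)
          · rw [pow_one, pow_two, hww]
            intro h
            have := Nat.le_of_dvd two_pos (orderOf_dvd_of_pow_eq_one h)
            omega
          · exact QuaternionGroup.xa_pow_four _
        have hK : Nat.card K = 8 := by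
          haveI : ((Subgroup.zpowers c).subgroupOf K).Normal :=
            Subgroup.normal_subgroupOf_of_le_normalizer (sup_le Subgroup.le_normalizer hwN)
          have h2 : (Subgroup.zpowers c).index * 4 = 2 ^ (n + 1) := by
            rw [← hc, Nat.card_congr e.toEquiv, mul_comm, ← hco, ← Nat.card_zpowers,
              Subgroup.card_mul_index]
          have hrel : (Subgroup.zpowers c).relIndex K = 2 := by
            have hw2 : (⟨w, Subgroup.mem_sup_right (Subgroup.mem_zpowers w)⟩ : K) ^ 2 ∈
                (Subgroup.zpowers c).subgroupOf K := by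
              show w ^ 2 ∈ Subgroup.zpowers c
              rw [pow_two, hww]; exact pow_mem (Subgroup.mem_zpowers c) _
            have hq : ((Subgroup.zpowers c).subgroupOf K).index =
                orderOf ((⟨w, Subgroup.mem_sup_right (Subgroup.mem_zpowers w)⟩ : K) :
                  K ⧸ (Subgroup.zpowers c).subgroupOf K) := by
              rw [← Nat.card_zpowers, Subgroup.index]
              refine (Nat.card_congr ((Equiv.setCongr ?_).trans (Equiv.Set.univ _))).symm
              rw [Set.eq_univ_iff_forall]
              intro u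
              obtain ⟨⟨u, hu⟩, rfl⟩ := QuotientGroup.mk_surjective u
              obtain ⟨p', hp', q', hq', rfl⟩ :
                  ∃ p' ∈ Subgroup.zpowers c, ∃ q' ∈ Subgroup.zpowers w, p' * q' = u := by
                have : u ∈ Subgroup.zpowers w ⊔ Subgroup.zpowers c := by rwa [sup_comm]
                rw [← SetLike.mem_coe, Subgroup.coe_mul_of_left_le_normalizer_right _ _ hwN] at this
                obtain ⟨q', hq', p', hp', rfl⟩ := this
                refine ⟨q' * p' * q'⁻¹, ?_, q', hq', by group⟩
                exact (Subgroup.mem_normalizer_iff.mp (hwN hq') p').mp hp'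
              obtain ⟨l, rfl⟩ := hq'
              refine ⟨l, ?_⟩
              simp only
              rw [← QuotientGroup.mk_zpow, eq_comm, QuotientGroup.eq]
              have e1 : ((⟨p' * w ^ l, hu⟩ : K)⁻¹ *
                  (⟨w, Subgroup.mem_sup_right (Subgroup.mem_zpowers w)⟩ : K) ^ l : K).1
                  = (w ^ l)⁻¹ * p'⁻¹ * w ^ l := by simp [mul_inv_rev]
              show _ ∈ Subgroup.zpowers c
              rw [Subgroup.coe_subtype, e1]
              have := (Subgroup.mem_normalizer_iff.mp
                (hwN (inv_mem (Subgroup.zpow_mem _ (Subgroup.mem_zpowers w) l))) p'⁻¹).mp (inv_mem hp')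
              simpa using this
            rw [Subgroup.relIndex, hq]
            refine orderOf_eq_prime (by rw [← QuotientGroup.mk_pow]; exact (QuotientGroup.eq_one_iff _).mpr hw2) ?_
            rw [Ne, QuotientGroup.eq_one_iff]
            exact hwc
          have h3 := Subgroup.relIndex_mul_relIndex ⊥ (Subgroup.zpowers c) K bot_le le_sup_left
          rw [Subgroup.relIndex_bot_left, Subgroup.relIndex_bot_left, Nat.card_zpowers, hco, hrel] at h3
          omega
        obtain ⟨f⟩ := hiso ((Subgroup.zpowers d).map e.symm.toMonoidHom) (K.map e.symm.toMonoidHom)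
          (by rw [Subgroup.card_map_of_injective e.symm.injective,
            Subgroup.card_map_of_injective e.symm.injective, Nat.card_zpowers, hdo, hK])
        have hKc : IsCyclic K := by
          let g1 := ((Subgroup.zpowers d).equivMapOfInjective e.symm.toMonoidHom e.symm.injective).trans
            (f.trans (K.equivMapOfInjective e.symm.toMonoidHom e.symm.injective).symm)
          exact isCyclic_of_surjective g1.toMonoidHom g1.surjective
        have hcm : w * c = c * w := congrArg Subtype.val (IsMulCommutative.is_comm.comm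
          (⟨w, Subgroup.mem_sup_right (Subgroup.mem_zpowers w)⟩ : K)
          ⟨c, Subgroup.mem_sup_left (Subgroup.mem_zpowers c)⟩)
        rw [hcm, mul_inv_cancel_right] at hwinv
        have h4 : c ^ 2 = 1 := by rw [pow_two]; exact mul_eq_one_iff_eq_inv.mpr hwinv
        have := Nat.le_of_dvd two_pos (hco ▸ orderOf_dvd_of_pow_eq_one h4)
        omega
    · left
      refine H4.isCyclic_of_card_pow_le hp2 hQ ?_
      by_cases hex : ∃ a : Q, orderOf a = p
      · obtain ⟨a, ha⟩ := hex
        refine le_of_le_of_eq (Nat.card_le_card_of_injective (fun x : {x : Q // x ^ p = 1} =>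
          (⟨x.1, ?_⟩ : Subgroup.zpowers a)) fun u v h => Subtype.ext (congrArg (fun t : Subgroup.zpowers a => t.1) h))
          (by rw [Nat.card_zpowers, ha])
        by_cases hx : x.1 = 1
        · rw [hx]; exact one_mem _
        · exact huniq a x.1 ha (orderOf_eq_prime x.2 hx)
      · push Not at hex
        haveI : Subsingleton {x : Q // x ^ p = 1} := ⟨fun u v => Subtype.ext (by
          have : ∀ w : {x : Q // x ^ p = 1}, w.1 = 1 := fun w => by
            by_contra h; exact hex _ (orderOf_eq_prime w.2 h)
          rw [this u, this v])⟩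
        exact (Finite.card_le_one_iff_subsingleton.mpr inferInstance).trans hp.out.one_lt.le


/-- Let p be a prime and G a finite group in which any two p-subgroups of the same order are conjugate, with Sylow p-subgroup P. Then P is cyclic, or elementary abelian, or p = 2 and P is a quaternion group of order 8, or p is odd and P is non-abelian of order p³ and exponent p. -/
theorem result {G : Type*} [Group G] [Finite G]
    {p : ℕ} [Fact p.Prime] (hC : ∀ H K : Subgroup G, IsPGroup p H → IsPGroup p K → Nat.card H = Nat.card K →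
      ∃ g : G, K = H.map (MulAut.conj g).toMonoidHom) (P : Sylow p G) :
    IsCyclic P ∨ Cfsg.IsElementaryAbelian p (P : Subgroup G) ∨
      (p = 2 ∧ Nonempty ((P : Subgroup G) ≃* QuaternionGroup 2)) ∨
      (p ≠ 2 ∧ ¬ IsMulCommutative P ∧ Nat.card P = p ^ 3 ∧ Monoid.exponent P = p) := by
  have hiso : ∀ A B : Subgroup (P : Subgroup G), Nat.card A = Nat.card B → Nonempty (A ≃* B) := by
    intro A B h
    have hinj := (P : Subgroup G).subtype_injective
    obtain ⟨g, hg⟩ := hC (A.map (P : Subgroup G).subtype) (B.map (P : Subgroup G).subtype)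
      ((P.isPGroup'.to_subgroup A).map _) ((P.isPGroup'.to_subgroup B).map _)
      (by rw [Subgroup.card_map_of_injective hinj, Subgroup.card_map_of_injective hinj, h])
    exact ⟨(A.equivMapOfInjective _ hinj).trans
      ((Subgroup.equivMapOfInjective _ (MulAut.conj g).toMonoidHom (MulAut.conj g).injective).trans
        ((MulEquiv.subgroupCongr hg.symm).trans (B.equivMapOfInjective _ hinj).symm))⟩
  rcases structure_of_iso P.isPGroup' hiso with h | ⟨h1, h2⟩ | h | h
  · exact Or.inl h
  · exact Or.inr (Or.inl ⟨isMulCommutative_iff.mpr h1, fun a ha => congrArg Subtype.val (h2 ⟨a, ha⟩)⟩)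
  · exact Or.inr (Or.inr (Or.inl h))
  · exact Or.inr (Or.inr (Or.inr h))

end Cfsg.Agent.S4023
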