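import Cfsg.Statements.S4024
import Cfsg.Agent.S4023
import Cfsg.Agent.PSolv.HallHigman

set_option autoImplicit false
open Cfsg Cfsg.Agent Subgroup

namespace Cfsg.Agent.S4024

/-- An element of order `p` lies in every normal subgroup of order divisible by `p`. -/
theorem mem_of_normal {G : Type*} [Group G] [Finite G] {p : ℕ} [Fact p.Prime]
    (hC : ∀ H K : Subgroup G, IsPGroup p H → IsPGroup p K → Nat.card H = Nat.card K →
      ∃ g : G, K = H.map (MulAut.conj g).toMonoidHom)
    (X : Subgroup G) [hX : X.Normal] (hd : p ∣ Nat.card X) {x : G} (hx : x ^ p = 1) : x ∈ X := by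
  rcases eq_or_ne x 1 with rfl | hx1
  · exact X.one_mem
  obtain ⟨⟨y, hy⟩, hyo⟩ := exists_prime_orderOf_dvd_card' p hd
  rw [Subgroup.orderOf_mk] at hyo
  have hxo := orderOf_eq_prime hx hx1
  obtain ⟨g, hg⟩ := hC (zpowers y) (zpowers x)
    (IsPGroup.of_card (n := 1) (by rw [Nat.card_zpowers, hyo, pow_one]))
    (IsPGroup.of_card (n := 1) (by rw [Nat.card_zpowers, hxo, pow_one]))
    (by rw [Nat.card_zpowers, Nat.card_zpowers, hyo, hxo])
  obtain ⟨z, hz, rfl⟩ := hg ▸ mem_zpowers x
  exact hX.conj_mem z (zpowers_le.2 hy hz) g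

theorem inner {G : Type*} [Group G] [Finite G] {p : ℕ} [Fact p.Prime]
    (hC : ∀ H K : Subgroup G, IsPGroup p H → IsPGroup p K → Nat.card H = Nat.card K →
      ∃ g : G, K = H.map (MulAut.conj g).toMonoidHom) (P : Sylow p G)
    (hexp : ∀ x ∈ (P : Subgroup G), x ^ p = 1)
    (H : Subgroup G) [H.Normal] (hsolv : Cfsg.IsPSolvable p H) (hdiv : p ∣ Nat.card H) :
    IsMulCommutative P := by
  have hp : p.Prime := Fact.out
  set Y := (Cfsg.pPrimeCore p H).map H.subtype with hY
  haveI : Y.Normal := inferInstance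
  set π := QuotientGroup.mk' Y with hπ
  have hπs : Function.Surjective π := QuotientGroup.mk'_surjective Y
  have hYH : Y ≤ H := map_subtype_le _
  have hYcop : (Nat.card Y).Coprime p := by
    rw [hY, Subgroup.card_map_of_injective H.subtype_injective]
    exact Cores.pPrimeCore_coprime
  have hPY : ∀ x ∈ (P : Subgroup G), π x = 1 → x = 1 := fun x hx h1 => by
    have hmem : x ∈ Y := (QuotientGroup.eq_one_iff x).1 h1
    refine orderOf_eq_one_iff.1 (Nat.eq_one_of_dvd_coprimes hYcop
      (Subgroup.orderOf_dvd_natCard _ hmem) (orderOf_dvd_of_pow_eq_one (hexp x hx)))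
  -- the image of `H` has trivial `p'`-core
  set Hb := H.map π with hHb
  haveI hHbn : Hb.Normal := Subgroup.Normal.map inferInstance π hπs
  let f : H →* Hb := π.subgroupMap H
  have hf : Function.Surjective f := π.subgroupMap_surjective H
  have hker : f.ker = Cfsg.pPrimeCore p H := by
    ext x
    rw [MonoidHom.mem_ker, Subtype.ext_iff]
    show π x = 1 ↔ _
    rw [hπ, QuotientGroup.mk'_apply, QuotientGroup.eq_one_iff]
    exact ⟨fun ⟨y, hy, e⟩ => (Subtype.ext e : y = x) ▸ hy, fun h => ⟨x, h, rfl⟩⟩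
  have hO : Cfsg.pPrimeCore p Hb = ⊥ := by
    set W := (Cfsg.pPrimeCore p Hb).comap f
    have hle : W ≤ Cfsg.pPrimeCore p H := by
      refine Cores.le_pPrimeCore inferInstance ?_
      have h1 := Subgroup.card_mul_index (f.ker.subgroupOf W)
      have h2 : f.ker.relIndex W = Nat.card (W.map f) := Subgroup.relIndex_ker W f
      have hkW : f.ker ≤ W := comap_mono bot_le
      rw [Nat.card_congr (subgroupOfEquivOfLe hkW).toEquiv,
        show (f.ker.subgroupOf W).index = f.ker.relIndex W from rfl, h2,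
        Subgroup.map_comap_eq_self_of_surjective hf, hker] at h1
      rw [← h1]
      exact Nat.Coprime.mul_left Cores.pPrimeCore_coprime Cores.pPrimeCore_coprime
    have h3 := Subgroup.map_mono (f := f) hle
    rw [Subgroup.map_comap_eq_self_of_surjective hf, ← hker,
      (Subgroup.map_eq_bot_iff _).2 le_rfl] at h3
    exact le_bot_iff.1 h3
  have hpHb : p ∣ Nat.card Hb := by
    have h1 := Subgroup.card_mul_index f.ker
    rw [Subgroup.index_ker, MonoidHom.range_eq_top.2 hf, Subgroup.card_top, hker] at h1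
    exact ((Nat.Prime.dvd_mul hp).1 (h1 ▸ hdiv)).resolve_left fun h =>
      hp.ne_one (Nat.eq_one_of_dvd_coprimes Cores.pPrimeCore_coprime h dvd_rfl)
  haveI : Nontrivial Hb := Finite.one_lt_card_iff_nontrivial.1
    (lt_of_lt_of_le hp.one_lt (Nat.le_of_dvd Nat.card_pos hpHb))
  have hne := PSolv.pCore_ne_bot_of_pPrimeCore_eq_bot
    (PSolv.isPSolvable_of_surjective f hf hsolv) hO
  set V := Cfsg.pCore p (G ⧸ Y) with hV
  have hVne : V ≠ ⊥ := fun h => hne ((Subgroup.map_eq_bot_iff_of_injective _ Hb.subtype_injective).1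
    (le_bot_iff.1 (h ▸ Cores.le_pCore inferInstance (Cores.pCore_isPGroup.map _))))
  have hdvdV : ∀ U : Subgroup (G ⧸ Y), U ≠ ⊥ → IsPGroup p U → p ∣ Nat.card (U.comap π) := by
    intro U hU hUp
    obtain ⟨i, hi⟩ := hUp.exists_card_eq
    have hi0 : i ≠ 0 := fun h => hU (Subgroup.card_eq_one.1 (by rw [hi, h, pow_zero]))
    refine (dvd_pow_self p hi0).trans (hi ▸ ?_)
    conv_lhs => rw [← Subgroup.map_comap_eq_self_of_surjective hπs U]
    exact Subgroup.card_map_dvd _ π
  have hPV : ∀ x ∈ (P : Subgroup G), π x ∈ V := fun x hx =>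
    mem_of_normal hC (V.comap π) (hdvdV V hVne Cores.pCore_isPGroup) (hexp x hx)
  set Pb := P.mapSurjective hπs
  have hPbV : (Pb : Subgroup (G ⧸ Y)) = V := by
    refine le_antisymm ?_ (Cores.pCore_le_sylow Pb)
    rw [Sylow.coe_mapSurjective]
    rintro _ ⟨x, hx, rfl⟩
    exact hPV x hx
  -- the centre of the image of `P`
  set Zb := V ⊓ centralizer (V : Set (G ⧸ Y)) with hZb
  haveI : Zb.Normal := inferInstance
  have hZne : Zb ≠ ⊥ := by
    haveI : Nontrivial V := (Subgroup.nontrivial_iff_ne_bot V).2 hVne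
    haveI := (Cores.pCore_isPGroup (p := p) (G := G ⧸ Y)).center_nontrivial
    obtain ⟨⟨⟨z, hzV⟩, hz⟩, hz1⟩ := exists_ne (1 : center V)
    intro h
    have hmem : z ∈ Zb := ⟨hzV, mem_centralizer_iff.2 fun y hy =>
      congrArg Subtype.val (Subgroup.mem_center_iff.1 hz ⟨y, hy⟩)⟩
    rw [h, Subgroup.mem_bot] at hmem
    exact hz1 (Subtype.ext (Subtype.ext hmem))
  have hd := hdvdV Zb hZne (Cores.pCore_isPGroup.to_le inf_le_left)
  refine ⟨⟨fun a b => Subtype.ext ?_⟩⟩
  have hac : π a ∈ Zb := mem_of_normal hC (Zb.comap π) hd (hexp a a.2)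
  have hcomm : π b * π a = π a * π b :=
    mem_centralizer_iff.1 (Subgroup.mem_inf.1 hac).2 _ (hPV b b.2)
  have h1 : (a : G) * b * (a : G)⁻¹ * (b : G)⁻¹ = 1 := hPY _
    ((P : Subgroup G).mul_mem ((P : Subgroup G).mul_mem ((P : Subgroup G).mul_mem a.2 b.2)
      ((P : Subgroup G).inv_mem a.2)) ((P : Subgroup G).inv_mem b.2))
    (by simp only [map_mul, map_inv]; rw [← hcomm, mul_inv_cancel_right, mul_inv_cancel])
  exact mul_inv_eq_iff_eq_mul.1 (mul_inv_eq_one.1 h1)

/-- Let p be an odd prime and G a finite group in which any two p-subgroups of the same order are conjugate, with Sylow p-subgroup P. If H is a normal p-solvable subgroup of G whose order is divisible by p, then P is abelian, and either P ≤ H or P is cyclic. -/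
theorem result {G : Type*} [Group G] [Finite G]
    {p : ℕ} [Fact p.Prime] (hp : p ≠ 2) (hC : ∀ H K : Subgroup G, IsPGroup p H → IsPGroup p K → Nat.card H = Nat.card K →
      ∃ g : G, K = H.map (MulAut.conj g).toMonoidHom) (P : Sylow p G)
    (H : Subgroup G) [H.Normal] (hsolv : Cfsg.IsPSolvable p H) (hdiv : p ∣ Nat.card H) :
    IsMulCommutative P ∧ ((P : Subgroup G) ≤ H ∨ IsCyclic P) := by
  have main : (∀ x ∈ (P : Subgroup G), x ^ p = 1) →
      IsMulCommutative P ∧ ((P : Subgroup G) ≤ H ∨ IsCyclic P) := fun hexp =>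
    ⟨inner hC P hexp H hsolv hdiv, Or.inl fun x hx => mem_of_normal hC H hdiv (hexp x hx)⟩
  rcases Cfsg.Agent.S4023.result hC P with hc | hel | ⟨h2, -⟩ | ⟨-, -, -, hexp⟩
  · haveI := hc
    let : CommGroup P := IsCyclic.commGroup
    exact ⟨⟨⟨mul_comm⟩⟩, Or.inr hc⟩
  · exact main hel.2
  · exact absurd h2 hp
  · exact main fun x hx => congrArg Subtype.val
      (hexp ▸ Monoid.pow_exponent_eq_one (⟨x, hx⟩ : (P : Subgroup G)))

end Cfsg.Agent.S4024
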