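import Cfsg.Statements.S4025
import Mathlib
import Cfsg.Agent.SubConj.ElementarySylow
import Cfsg.Agent.Transfer.Fusion

set_option autoImplicit false
open Cfsg Cfsg.Agent

namespace Cfsg.Agent.S4025

/-- Let p be a prime and G a finite group in which any two p-subgroups of the same order are conjugate, and suppose a Sylow p-subgroup P of G is elementary abelian of order pⁿ with n ≥ 3. Let N be the normalizer of P and K the largest normal subgroup of N of order prime to p, and assume N/K is solvable. Then either n = 3 and N/K embeds in the one-dimensional semi-affine group over the field with p³ elements (and for p = 2 it is isomorphic to the affine or the semi-affine group over the field with 8 elements), or n = 5, p = 2 and N/K is isomorphic to the one-dimensional semi-affine group over the field with 32 elements. -/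
theorem result {G : Type*} [Group G] [Finite G]
    {p : ℕ} [Fact p.Prime] (hC : ∀ H K : Subgroup G, IsPGroup p H → IsPGroup p K → Nat.card H = Nat.card K →
      ∃ g : G, K = H.map (MulAut.conj g).toMonoidHom) (P : Sylow p G) (n : ℕ) (hn : 3 ≤ n)
    (hel : Cfsg.IsElementaryAbelian p (P : Subgroup G)) (hcard : Nat.card P = p ^ n)
    (N : Subgroup G) (hN : N = Subgroup.normalizer ((P : Subgroup G) : Set G))
    (hsolv : Group.IsSolvable (↥N ⧸ Cfsg.pPrimeCore p ↥N)) :
    (n = 3 ∧ (∃ f : ↥N ⧸ Cfsg.pPrimeCore p ↥N →* ↥(Cfsg.semiaffineGroup (GaloisField p 3)), Function.Injective f) ∧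
      (p = 2 → Nonempty (↥N ⧸ Cfsg.pPrimeCore p ↥N ≃* Cfsg.semiaffineGroup (GaloisField 2 3)) ∨
               Nonempty (↥N ⧸ Cfsg.pPrimeCore p ↥N ≃* Cfsg.affineGroup (GaloisField 2 3)))) ∨
    (n = 5 ∧ p = 2 ∧ Nonempty (↥N ⧸ Cfsg.pPrimeCore p ↥N ≃* Cfsg.semiaffineGroup (GaloisField 2 5))) := by
  classical
  subst hN
  set N := Subgroup.normalizer ((P : Subgroup G) : Set G)
  have hPN : (P : Subgroup G) ≤ N := Subgroup.le_normalizer
  set Q := (P : Subgroup G).subgroupOf N with hQdef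
  haveI : Q.Normal := Subgroup.normal_in_normalizer
  obtain ⟨hc, he⟩ := hel
  have hQc : IsMulCommutative Q := isMulCommutative_iff.mpr fun a b => Subtype.ext (Subtype.ext
    (congrArg Subtype.val (isMulCommutative_iff.mp hc ⟨_, Subgroup.mem_subgroupOf.mp a.2⟩ ⟨_, Subgroup.mem_subgroupOf.mp b.2⟩) :))
  have hQe : ∀ x ∈ Q, x ^ p = 1 := fun x hx => Subtype.ext (he x hx)
  have hQcard : Nat.card Q = p ^ n := by
    rw [← hcard]; exact Nat.card_congr (Subgroup.subgroupOfEquivOfLe hPN).toEquiv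
  have hidx : ¬ p ∣ Q.index := fun h => P.not_dvd_index (h.trans (Subgroup.relIndex_dvd_index_of_le hPN))
  have htr : ∀ A B : Subgroup N, A ≤ Q → B ≤ Q → Nat.card A = Nat.card B →
      ∃ g : N, ∀ x, x ∈ A ↔ g * x * g⁻¹ ∈ B := by
    intro A B hA hB hAB
    have hAP : A.map N.subtype ≤ (P : Subgroup G) := by
      rintro _ ⟨a, ha, rfl⟩; exact Subgroup.mem_subgroupOf.mp (hA ha)
    have hBP : B.map N.subtype ≤ (P : Subgroup G) := by
      rintro _ ⟨a, ha, rfl⟩; exact Subgroup.mem_subgroupOf.mp (hB ha)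
    obtain ⟨g, hg⟩ := hC (A.map N.subtype) (B.map N.subtype) (P.isPGroup'.to_le hAP) (P.isPGroup'.to_le hBP)
      (by rw [Subgroup.card_map_of_injective N.subtype_injective, Subgroup.card_map_of_injective N.subtype_injective, hAB])
    have hinv : ∀ Z : Subgroup G, Z ≤ (P : Subgroup G) → ∀ x ∈ P, (fun y => x * y * x⁻¹) '' (Z : Set G) = Z := by
      intro Z hZ x hx
      have e : ∀ y ∈ Z, x * y * x⁻¹ = y := fun y hy => by
        have h1 : x * y = y * x := congrArg Subtype.val (isMulCommutative_iff.mp hc ⟨x, hx⟩ ⟨y, hZ hy⟩)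
        rw [h1, mul_inv_cancel_right]
      ext y
      exact ⟨by rintro ⟨z, hz, rfl⟩; simpa [e z hz] using hz, fun hy => ⟨y, hy, e y hy⟩⟩
    have himg : (fun y => g * y * g⁻¹) '' (A.map N.subtype : Set G) = (B.map N.subtype : Set G) := by
      rw [hg]; rfl
    obtain ⟨m, hm, he'⟩ := Transfer.exists_normalizer_conj_of_invariant P _ _ (hinv _ hAP) (hinv _ hBP) g himg
    refine ⟨⟨m, hm⟩, fun x => ?_⟩
    constructor
    · intro hx
      have hmem : m * (x : G) * m⁻¹ ∈ (B.map N.subtype : Set G) := he' ▸ ⟨x, ⟨x, hx, rfl⟩, rfl⟩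
      obtain ⟨z, hz, hzx⟩ := hmem
      exact (show z = ⟨m, hm⟩ * x * ⟨m, hm⟩⁻¹ from Subtype.ext hzx) ▸ hz
    · intro hx
      have hmem : m * (x : G) * m⁻¹ ∈ (B.map N.subtype : Set G) := ⟨_, hx, rfl⟩
      rw [← he'] at hmem
      obtain ⟨y, ⟨z, hz, rfl⟩, hyx⟩ := hmem
      exact (show z = x from Subtype.ext (mul_left_cancel (mul_right_cancel hyx))) ▸ hz
  obtain ⟨hcase, f, hf, h2, h5⟩ := SubConj.main Q hQc hQe n hn hQcard hidx htr hsolv
  rcases hcase with rfl | ⟨rfl, rfl⟩
  · refine Or.inl ⟨rfl, ⟨f, hf⟩, fun hp2 => ?_⟩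
    subst hp2
    rcases h2 rfl rfl with hs | hr
    · exact Or.inl ⟨MulEquiv.ofBijective f ⟨hf, hs⟩⟩
    · exact Or.inr ⟨((MonoidHom.ofInjective hf).trans (MulEquiv.subgroupCongr hr)).trans
        (Subgroup.subgroupOfEquivOfLe (SubConj.affine_le_semiaffine 2 3))⟩
  · exact Or.inr ⟨rfl, rfl, ⟨MulEquiv.ofBijective f ⟨hf, h5 rfl⟩⟩⟩

end Cfsg.Agent.S4025
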