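import Cfsg.Statements.S4027
import Mathlib
import Cfsg.Agent.FGS75.OddReal

set_option autoImplicit false
open Cfsg

namespace Cfsg.Agent.S4027


/-- Let G be a finite group in which every element x of odd order satisfies N_G(⟨x⟩) = C_G(x). Then the Sylow 2-subgroups of G are normal. -/
theorem result {G : Type*} [Group G] [Finite G]
    (hirr : ∀ x : G, (∀ r : ℕ, r.Prime → r ∣ orderOf x → r ≠ 2) →
      Subgroup.normalizer ((Subgroup.zpowers x : Subgroup G) : Set G) ≤ Subgroup.centralizer {x}) (P : Sylow 2 G) :
    (P : Subgroup G).Normal := by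
  by_contra hP
  obtain ⟨g, h, hh, hodd, hg⟩ := FGS75.exists_inverted_of_not_normal P hP
  have hc := Subgroup.mem_centralizer_singleton_iff.mp (hirr h (fun r _ hd hr2 => by
    subst hr2; exact Nat.not_even_iff_odd.mpr hodd (even_iff_two_dvd.mpr hd))
    (FGS75.mem_normalizer_zpowers_of_inverts hg))
  rw [hc, mul_inv_cancel_right] at hg
  exact hh (FGS75.eq_one_of_inv_eq_self_of_odd hg.symm hodd)

end Cfsg.Agent.S4027
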