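import Cfsg.Statements.S4028
import Mathlib
import Cfsg.Agent.FGS75.Irrational

set_option autoImplicit false
open Cfsg

namespace Cfsg.Agent.S4028


/-- Let G be a finite group with Sylow 2-subgroup P. Then N_G(⟨x⟩) = C_G(x) holds for every 2-element x of G if and only if N_P(⟨y⟩) = C_P(y) holds for every y ∈ P (computed inside P). -/
theorem result {G : Type*} [Group G] [Finite G] (P : Sylow 2 G) :
    (∀ x : G, (∀ r : ℕ, r.Prime → r ∣ orderOf x → r = 2) →
      Subgroup.normalizer ((Subgroup.zpowers x : Subgroup G) : Set G) ≤ Subgroup.centralizer {x}) ↔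
    (∀ y : ↥(P : Subgroup G), Subgroup.normalizer ((Subgroup.zpowers y : Subgroup ↥(P : Subgroup G)) : Set ↥(P : Subgroup G)) ≤
        Subgroup.centralizer {y}) := by
  haveI : Fact (Nat.Prime 2) := ⟨Nat.prime_two⟩
  constructor
  · intro h y g hg
    have hy : ∀ r : ℕ, r.Prime → r ∣ orderOf (y : G) → r = 2 := by
      intro r hr hd
      obtain ⟨k, hk⟩ := IsPGroup.iff_orderOf.mp P.isPGroup' y
      rw [Subgroup.orderOf_coe, hk] at hd
      exact (Nat.prime_dvd_prime_iff_eq hr Nat.prime_two).mp (hr.dvd_of_dvd_pow hd)
    have hgn : (g : G) ∈ Subgroup.normalizer ((Subgroup.zpowers (y : G) : Subgroup G) : Set G) := by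
      rw [← Subgroup.coe_subtype, ← MonoidHom.map_zpowers]
      exact Subgroup.le_normalizer_map _ ⟨g, hg, rfl⟩
    exact Subgroup.mem_centralizer_singleton_iff.mpr
      (Subtype.ext (Subgroup.mem_centralizer_singleton_iff.mp (h _ hy hgn)))
  · intro h x hx g hg
    obtain ⟨k, hk⟩ := FGS75.exists_pow_two_of_forall_prime hx
    have hpn := Subgroup.zpowers_le.mpr hg (Element.pPart_mem_zpowers 2 g)
    have hcn := Subgroup.zpowers_le.mpr hg (Element.pComplPart_mem_zpowers 2 g)
    set a := Element.pPart 2 g with ha
    set b := Element.pComplPart 2 g with hb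
    have hbx : b * x = x * b := FGS75.commute_of_odd_of_normalizes_two hk hcn
      (Nat.not_even_iff_odd.mp fun h => Nat.prime_two.coprime_iff_not_dvd.mp
        (Element.coprime_orderOf_pComplPart Nat.prime_two g).symm (even_iff_two_dvd.mp h))
    have hax : a * x = x * a := by
      have hU : IsPGroup 2 (Subgroup.zpowers x ⊔ Subgroup.zpowers a : Subgroup G) :=
        IsPGroup.to_sup_of_normal_left' (IsPGroup.of_card (n := k) (by rw [Nat.card_zpowers, hk]))
          (IsPGroup.of_card (n := (orderOf g).factorization 2) (by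
            rw [Nat.card_zpowers, ha]
            exact (Element.orderOf_pPart Nat.prime_two g (orderOf_pos g).ne').1))
          (Subgroup.zpowers_le.mpr hpn)
      obtain ⟨Q, hQ⟩ := hU.exists_le_sylow
      obtain ⟨t, rfl⟩ := MulAction.exists_smul_eq G P Q
      have hm : ∀ z ∈ (Subgroup.zpowers x ⊔ Subgroup.zpowers a : Subgroup G),
          t⁻¹ * z * t ∈ (P : Subgroup G) := by
        intro z hz
        have := hQ hz
        rw [Sylow.coe_subgroup_smul, Subgroup.mem_pointwise_smul_iff_inv_smul_mem] at this
        simpa [MulAut.smul_def, mul_assoc] using this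
      let x' : (P : Subgroup G) := ⟨_, hm x (Subgroup.mem_sup_left (Subgroup.mem_zpowers x))⟩
      let a' : (P : Subgroup G) := ⟨_, hm a (Subgroup.mem_sup_right (Subgroup.mem_zpowers a))⟩
      have han : a' ∈ Subgroup.normalizer
          ((Subgroup.zpowers x' : Subgroup (P : Subgroup G)) : Set (P : Subgroup G)) := by
        have key : ∀ z : (P : Subgroup G), z ∈ Subgroup.zpowers x' ↔
            (t * z * t⁻¹ : G) ∈ Subgroup.zpowers x := by
          intro z
          constructor
          · rintro ⟨i, rfl⟩
            refine ⟨i, ?_⟩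
            show x ^ i = t * ((x' ^ i : (P : Subgroup G)) : G) * t⁻¹
            rw [SubgroupClass.coe_zpow]
            show x ^ i = MulAut.conj t ((t⁻¹ * x * t) ^ i)
            rw [map_zpow]
            congr 1
            simp [mul_assoc]
          · rintro ⟨i, hi⟩
            refine ⟨i, Subtype.ext ?_⟩
            show ((x' ^ i : (P : Subgroup G)) : G) = z
            rw [SubgroupClass.coe_zpow]
            have : (z : G) = MulAut.conj t⁻¹ (x ^ i) := by
              have hi' : x ^ i = t * z * t⁻¹ := hi
              rw [hi']; simp [mul_assoc]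
            rw [this, map_zpow]
            congr 1
            simp [x']
        rw [Subgroup.mem_normalizer_iff]
        intro z
        rw [key, key]
        have e : t * ((a' * z * a'⁻¹ : (P : Subgroup G)) : G) * t⁻¹ = a * (t * z * t⁻¹) * a⁻¹ := by
          show t * ((t⁻¹ * a * t) * z * (t⁻¹ * a * t)⁻¹) * t⁻¹ = _
          group
        rw [e]
        exact Subgroup.mem_normalizer_iff.mp hpn _
      have := congrArg Subtype.val (Subgroup.mem_centralizer_singleton_iff.mp (h x' han))
      calc a * x = t * ((t⁻¹ * a * t) * (t⁻¹ * x * t)) * t⁻¹ := by group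
        _ = t * ((t⁻¹ * x * t) * (t⁻¹ * a * t)) * t⁻¹ := congrArg (fun w => t * w * t⁻¹) this
        _ = x * a := by group
    rw [Subgroup.mem_centralizer_singleton_iff, ← Element.pPart_mul_pComplPart 2 g, ← ha, ← hb]
    exact Commute.mul_left hax hbx

end Cfsg.Agent.S4028
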