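import Cfsg.Statements.S4029
import Mathlib
import Cfsg.Agent.Char.Real
import Cfsg.Agent.Char.Linear
import Cfsg.Agent.PGroup.Frattini

set_option autoImplicit false
open Cfsg
open scoped commutatorElement

namespace Cfsg.Agent.S4029




/-- Let P be a finite 2-group in which N_P(⟨y⟩) = C_P(y) for every y ∈ P. If s is the number of conjugacy classes of involutions of P, then #(P/Φ(P)) ≤ s + 1; in particular the subgroup generated by the involutions of P has order at least #(P/Φ(P)). -/
theorem result {P : Type*} [Group P] [Finite P] (hP : IsPGroup 2 P)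
    (hirr : ∀ y : P, Subgroup.normalizer ((Subgroup.zpowers y : Subgroup P) : Set P) ≤ Subgroup.centralizer {y}) :
    Nat.card (P ⧸ frattini P) ≤ Nat.card {c : ConjClasses P // ∃ y : P, ConjClasses.mk y = c ∧ orderOf y = 2} + 1 ∧
    Nat.card (P ⧸ frattini P) ≤ Nat.card (Subgroup.closure {y : P | orderOf y = 2}) := by
  classical
  haveI : Fact (Nat.Prime 2) := ⟨Nat.prime_two⟩
  set Φ := frattini P
  haveI hΦn : Φ.Normal := PGroup.normal_of_commutator_le (PGroup.commutator_le_frattini hP)
  let s := {c : ConjClasses P // ∃ y : P, ConjClasses.mk y = c ∧ orderOf y = 2}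
  haveI : Finite (ConjClasses P) := Finite.of_surjective _ ConjClasses.mk_surjective
  have hreal : Nat.card {C : ConjClasses P // ∀ g : P, ConjClasses.mk g = C → IsConj g g⁻¹}
      ≤ Nat.card s + 1 := by
    rw [← Finite.card_option]
    let F : Option s → ConjClasses P := fun o => o.elim (ConjClasses.mk 1) Subtype.val
    refine le_trans (b := Nat.card (Set.range F)) (Nat.card_le_card_of_injective
      (fun C => (⟨C.1, ?_⟩ : Set.range F)) fun a b h => Subtype.ext (congrArg (fun z : Set.range F => z.1) h))
      (Nat.card_le_card_of_surjective _ Set.rangeFactorization_surjective)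
    obtain ⟨y, hy⟩ := ConjClasses.mk_surjective C.1
    obtain ⟨c, hc⟩ := isConj_iff.mp (C.2 y hy)
    have hN : c ∈ Subgroup.normalizer ((Subgroup.zpowers y : Subgroup P) : Set P) := by
      rw [Subgroup.mem_normalizer_iff]
      intro u
      have hmap : (Subgroup.zpowers y).map (MulAut.conj c).toMonoidHom = Subgroup.zpowers y := by
        rw [MonoidHom.map_zpowers]
        show Subgroup.zpowers (c * y * c⁻¹) = _
        rw [hc, Subgroup.zpowers_inv]
      constructor
      · intro hu
        rw [← hmap]
        exact ⟨u, hu, rfl⟩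
      · intro hu
        rw [← hmap] at hu
        obtain ⟨v, hv, hv'⟩ := hu
        have : v = u := (MulAut.conj c).injective hv'
        exact this ▸ hv
    have hcy := Subgroup.mem_centralizer_singleton_iff.mp (hirr y hN)
    rw [hcy, mul_inv_cancel_right] at hc
    by_cases hy1 : y = 1
    · exact ⟨none, by show ConjClasses.mk 1 = C.1; rw [← hy, hy1]⟩
    · have ho : orderOf y = 2 := orderOf_eq_prime (by rw [pow_two]; exact mul_eq_one_iff_eq_inv.mpr hc) hy1
      exact ⟨some ⟨C.1, y, hy, ho⟩, rfl⟩
  have hlin : Nat.card (P ⧸ Φ) ≤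
      Nat.card {χ : IrrCharacter P // ∀ g : P, ((χ : P → ℂ) g).im = 0} := by
    have hc : (commutator (P ⧸ Φ)).index = Nat.card (P ⧸ Φ) := by
      rw [show commutator (P ⧸ Φ) = ⊥ from ?_, Subgroup.index_bot]
      rw [commutator_eq_closure, Subgroup.closure_eq_bot_iff]
      rintro _ ⟨a, b, rfl⟩
      obtain ⟨a, rfl⟩ := QuotientGroup.mk'_surjective Φ a
      obtain ⟨b, rfl⟩ := QuotientGroup.mk'_surjective Φ b
      rw [← map_commutatorElement]
      exact (QuotientGroup.eq_one_iff _).mpr (PGroup.commutatorElement_mem_frattini hP a b)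
    rw [← hc, ← Char.card_monoidHom_complex]
    refine Nat.card_le_card_of_injective (fun f =>
      ⟨⟨_, Char.isIrrCharacter_monoidHom (f.comp (QuotientGroup.mk' Φ))⟩, fun g => ?_⟩) ?_
    · show ((f (g : P ⧸ Φ) : ℂˣ) : ℂ).im = 0
      have h2 : ((f (g : P ⧸ Φ) : ℂˣ) : ℂ) ^ 2 = 1 := by
        rw [← Units.val_pow_eq_pow_val, ← map_pow, ← QuotientGroup.mk_pow,
          (QuotientGroup.eq_one_iff _).mpr (PGroup.pow_mem_frattini hP g), map_one, Units.val_one]
      rcases sq_eq_one_iff.mp h2 with e | e <;> simp [e]
    · intro f f' h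
      have h' := congrArg Subtype.val (congrArg Subtype.val h)
      refine MonoidHom.ext fun u => ?_
      obtain ⟨g, rfl⟩ := QuotientGroup.mk'_surjective Φ u
      exact Units.ext (congrFun h' g)
  rw [Char.card_real_irr_eq_card_real_classes] at hlin
  refine ⟨hlin.trans hreal, hlin.trans (hreal.trans ?_)⟩
  set I := Subgroup.closure {y : P | orderOf y = 2}
  rw [← Finite.card_option]
  choose rep hrep1 hrep2 using fun c : s => c.2
  refine Nat.card_le_card_of_injective (fun o : Option s =>
    o.elim (1 : I) fun c => ⟨rep c, Subgroup.subset_closure (hrep2 c)⟩) ?_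
  rintro (_ | a) (_ | b) h
  · rfl
  · exact absurd (congrArg Subtype.val h).symm (fun e => by
      have := hrep2 b; rw [show rep b = 1 from e, orderOf_one] at this; omega)
  · exact absurd (congrArg Subtype.val h) (fun e => by
      have := hrep2 a; rw [show rep a = 1 from e, orderOf_one] at this; omega)
  · have e : rep a = rep b := congrArg Subtype.val h
    exact congrArg some (Subtype.ext (by rw [← hrep1 a, ← hrep1 b, e]))

end Cfsg.Agent.S4029
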