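import Cfsg.Statements.S4033
import Cfsg.Agent.TwoRegSizes.Main

set_option autoImplicit false
open Cfsg

namespace Cfsg.Agent.S4033

/-- Let G be a finite group and p a prime, and suppose the conjugacy classes of p-regular elements of G (elements of order prime to p) have exactly two distinct sizes. Then either G has an abelian p-complement (an abelian subgroup of order prime to p and p-power index), or there are a prime q ≠ p, a Sylow p-subgroup P, a Sylow q-subgroup Q and a central subgroup A such that PQ is a normal subgroup of order #P·#Q and G is the internal direct product PQ × A. -/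
theorem result {G : Type*} [Group G] [Finite G] {p : ℕ} (hp : p.Prime)
    (h2 : Set.ncard (Set.range fun x : {x : G // (orderOf x).Coprime p} => (ConjClasses.mk (x : G)).carrier.ncard) = 2) :
    (∃ H : Subgroup G, IsMulCommutative H ∧ ¬ p ∣ Nat.card H ∧ ∃ k : ℕ, H.index = p ^ k) ∨
    (∃ (q : ℕ) (_ : Fact q.Prime) (P : Sylow p G) (Q : Sylow q G) (A : Subgroup G), q ≠ p ∧
        A ≤ Subgroup.center G ∧ Nat.card ↥((P : Subgroup G) ⊔ (Q : Subgroup G)) = Nat.card P * Nat.card Q ∧
        ((P : Subgroup G) ⊔ (Q : Subgroup G)).Normal ∧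
        ((P : Subgroup G) ⊔ (Q : Subgroup G)) ⊓ A = ⊥ ∧ ((P : Subgroup G) ⊔ (Q : Subgroup G)) ⊔ A = ⊤) := by
  exact TwoRegSizes.main hp h2

end Cfsg.Agent.S4033
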