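import Cfsg.Statements.S4035
import Mathlib
import Cfsg.Agent.Lib.ClassSize
import Cfsg.Agent.Lib.Element
import Cfsg.Agent.Perm.Basic

set_option autoImplicit false
open Cfsg

namespace Cfsg.Agent.S4035


/-- Let G be a finite group and p a prime such that p divides the size of no conjugacy class of p-regular elements (elements of order prime to p). Then G is the internal direct product of a Sylow p-subgroup P and a normal subgroup H of order prime to p: P is normal, P ⊓ H = 1 and PH = G. -/
theorem result {G : Type*} [Group G] [Finite G] {p : ℕ} [Fact p.Prime]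
    (h : ∀ x : G, (orderOf x).Coprime p → ¬ p ∣ (ConjClasses.mk x).carrier.ncard) (P : Sylow p G) :
    (P : Subgroup G).Normal ∧ ∃ H : Subgroup G, H.Normal ∧ ¬ p ∣ Nat.card H ∧
      (P : Subgroup G) ⊓ H = ⊥ ∧ (P : Subgroup G) ⊔ H = ⊤ := by
  have hp : p.Prime := Fact.out
  let C := Subgroup.centralizer ((P : Subgroup G) : Set G)
  let N := Subgroup.normalizer ((P : Subgroup G) : Set G)
  have hCN : C ≤ N := Subgroup.centralizer_le_normalizer _
  let M := (P : Subgroup G) ⊔ C
  have hM : M = ⊤ := by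
    by_contra hne
    haveI : Nontrivial (G ⧸ M) := by
      rw [← Finite.one_lt_card_iff_nontrivial]
      exact lt_of_le_of_ne (Nat.pos_of_ne_zero Subgroup.index_ne_zero_of_finite)
        (fun e => hne (Subgroup.index_eq_one.mp e.symm))
    obtain ⟨g, hg⟩ := Cfsg.Agent.PermLib.exists_forall_smul_ne (G := G) (α := G ⧸ M)
    suffices ∃ h : G, h⁻¹ * g * h ∈ M by
      obtain ⟨k, hk⟩ := this
      refine hg (k : G ⧸ M) ?_
      show ((g * k : G) : G ⧸ M) = _
      rw [QuotientGroup.eq]
      simpa [mul_assoc] using inv_mem hk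
    have hx : ¬ p ∣ (Subgroup.centralizer ({Element.pComplPart p g} : Set G)).index := by
      rw [← Cfsg.Agent.ClassSize.natCard_carrier, Nat.card_coe_set_eq]
      exact h _ (Element.coprime_orderOf_pComplPart hp g)
    set x := Element.pComplPart p g
    set y := Element.pPart p g
    set D := Subgroup.centralizer ({x} : Set G)
    obtain ⟨Q, hQ⟩ := (ClassSize.coprime_index_centralizer_iff x).mp
      ((Nat.Prime.coprime_iff_not_dvd hp).mpr hx).symm
    have hy : y ∈ D :=
      Subgroup.mem_centralizer_singleton_iff.mpr (Element.commute_pPart_pComplPart p g).eq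
    have hyp : IsPGroup p (Subgroup.zpowers (⟨y, hy⟩ : D)) :=
      IsPGroup.of_card (n := (orderOf g).factorization p) (by
        rw [Nat.card_zpowers, Subgroup.orderOf_mk]
        exact (Element.orderOf_pPart hp g (orderOf_pos g).ne').1)
    obtain ⟨R, hR⟩ := hyp.exists_le_sylow
    obtain ⟨d, hd⟩ := MulAction.exists_smul_eq D (Q.subtype hQ) R
    have hyR : (⟨y, hy⟩ : D) ∈ (d • Q.subtype hQ : Sylow p D) := by
      rw [hd]; exact hR (Subgroup.mem_zpowers _)
    have hyQ : (d : G)⁻¹ * y * d ∈ (Q : Subgroup G) := by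
      have h1 : (⟨y, hy⟩ : D) ∈ ((d • Q.subtype hQ : Sylow p D) : Subgroup D) := hyR
      rw [Sylow.coe_subgroup_smul, Subgroup.mem_pointwise_smul_iff_inv_smul_mem] at h1
      simpa [MulAut.smul_def, Subgroup.mem_subgroupOf] using h1
    obtain ⟨t, rfl⟩ := MulAction.exists_smul_eq G P Q
    refine ⟨(d : G) * t, ?_⟩
    have hyP : t⁻¹ * ((d : G)⁻¹ * y * d) * t ∈ (P : Subgroup G) := by
      rw [Sylow.coe_subgroup_smul, Subgroup.mem_pointwise_smul_iff_inv_smul_mem] at hyQ
      simpa [MulAut.smul_def, mul_assoc] using hyQ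
    have hxC : t⁻¹ * x * t ∈ C := by
      rw [Subgroup.mem_centralizer_iff]
      intro s hs
      have hs' : t * s * t⁻¹ ∈ D := hQ (by
        rw [Sylow.coe_subgroup_smul, Subgroup.mem_pointwise_smul_iff_inv_smul_mem]
        have e : (MulAut.conj t)⁻¹ • (t * s * t⁻¹) = s := by simp [MulAut.smul_def, mul_assoc]
        rw [e]; exact hs)
      rw [Subgroup.mem_centralizer_singleton_iff] at hs'
      calc s * (t⁻¹ * x * t) = t⁻¹ * ((t * s * t⁻¹) * x) * t := by group
        _ = t⁻¹ * (x * (t * s * t⁻¹)) * t := by rw [hs']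
        _ = t⁻¹ * x * t * s := by group
    have hdx : (d : G)⁻¹ * x * d = x := by
      have := Subgroup.mem_centralizer_singleton_iff.mp d.2
      calc (d : G)⁻¹ * x * d = (d : G)⁻¹ * (x * d) := by group
        _ = x := by rw [← this]; group
    have e : ((d : G) * t)⁻¹ * g * (d * t) =
        (t⁻¹ * ((d : G)⁻¹ * y * d) * t) * (t⁻¹ * ((d : G)⁻¹ * x * d) * t) := by
      conv_lhs => rw [← Element.pPart_mul_pComplPart p g]
      group
      rfl
    rw [e, hdx]
    exact mul_mem (Subgroup.mem_sup_left hyP) (Subgroup.mem_sup_right hxC)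
  haveI hPn : (P : Subgroup G).Normal := by
    rw [← Subgroup.normalizer_eq_top_iff, eq_top_iff, ← hM]
    exact sup_le Subgroup.le_normalizer hCN
  obtain ⟨H, hH⟩ := Subgroup.exists_right_complement'_of_coprime P.card_coprime_index
  have hidx : ¬ p ∣ Nat.card H := by
    rw [← hH.symm.index_eq_card]; exact P.not_dvd_index
  have hcentral : ∀ u ∈ H, u ∈ C := by
    intro u hu
    haveI : (C : Subgroup G).Normal := inferInstance
    have hCtop : ¬ p ∣ Nat.card H := hidx
    have : u ∈ (P : Subgroup G) ⊔ C := by show u ∈ M; rw [hM]; trivial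
    obtain ⟨a, ha, c, hc, rfl⟩ := Subgroup.mem_sup_of_normal_left.mp this
    obtain ⟨k, hk⟩ : ∃ k, orderOf ((a * c : G) : G ⧸ C) = p ^ k := by
      have hac : ((a * c : G) : G ⧸ C) = (QuotientGroup.mk' C) a := by
        show QuotientGroup.mk' C (a * c) = _
        rw [map_mul, show QuotientGroup.mk' C c = 1 from (QuotientGroup.eq_one_iff c).mpr hc,
          mul_one]
      rw [hac]
      obtain ⟨j, hj⟩ := P.isPGroup'.exists_card_eq
      have : orderOf ((QuotientGroup.mk' C) a) ∣ p ^ j :=
        hj ▸ (orderOf_map_dvd _ a).trans (Subgroup.orderOf_mk a ha ▸ orderOf_dvd_natCard _)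
      obtain ⟨i, -, hi⟩ := (Nat.dvd_prime_pow hp).mp this
      exact ⟨i, hi⟩
    have h2 : orderOf ((a * c : G) : G ⧸ C) ∣ Nat.card H := by
      refine (orderOf_map_dvd (QuotientGroup.mk' C) (a * c)).trans ?_
      rw [← Subgroup.orderOf_mk (a * c) hu]
      exact orderOf_dvd_natCard _
    have h3 : k = 0 := by
      by_contra hk0
      exact hidx ((dvd_pow_self p hk0).trans (hk ▸ h2))
    subst h3
    rw [pow_zero, orderOf_eq_one_iff] at hk
    exact (QuotientGroup.eq_one_iff _).mp hk
  refine ⟨hPn, H, ?_, hidx, disjoint_iff.mp hH.disjoint, hH.sup_eq_top⟩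
  rw [← Subgroup.normalizer_eq_top_iff, eq_top_iff, ← hH.sup_eq_top]
  refine sup_le ?_ Subgroup.le_normalizer
  intro a ha
  refine Subgroup.mem_normalizer_iff.mpr fun u => ?_
  have key : ∀ v ∈ H, a * v * a⁻¹ = v := fun v hv => by
    rw [(Subgroup.mem_centralizer_iff.mp (hcentral v hv) a ha)]; group
  constructor
  · intro hu; show a * u * a⁻¹ ∈ H; rw [key u hu]; exact hu
  · intro hu
    have : a * u * a⁻¹ ∈ H := hu
    have h1 := key _ this
    have : u = a * u * a⁻¹ := by
      calc u = a⁻¹ * (a * u * a⁻¹) * a := by group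
        _ = a⁻¹ * (a * (a * u * a⁻¹) * a⁻¹) * a := by rw [h1]
        _ = a * u * a⁻¹ := by group
    rw [this]; assumption

end Cfsg.Agent.S4035
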