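import Cfsg.Statements.S4036
import Mathlib

set_option autoImplicit false
open Cfsg

namespace Cfsg.Agent.S4036


/-- Let P be a finite abelian p-group and K a group of automorphisms of P (a subgroup of Aut P) whose order is divisible by p. If all non-identity elements of K have the same fixed-point subgroup on P, then K has no non-trivial normal subgroup of order prime to p. -/
theorem result {P : Type*} [CommGroup P] [Finite P] {p : ℕ}
    [Fact p.Prime] (hP : IsPGroup p P) (K : Subgroup (MulAut P)) (hK : p ∣ Nat.card K)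
    (hfix : ∀ x y : MulAut P, x ∈ K → y ∈ K → x ≠ 1 → y ≠ 1 → ∀ v : P, x v = v ↔ y v = v) :
    ∀ N : Subgroup ↥K, N.Normal → ¬ p ∣ Nat.card N → N = ⊥ := by
  intro N hNn hNp
  have hp : p.Prime := Fact.out
  by_contra hne
  obtain ⟨n₀, hn₀, hn₀1⟩ := (Subgroup.bot_or_exists_ne_one N).resolve_left hne
  obtain ⟨x, hx⟩ := exists_prime_orderOf_dvd_card' p hK
  have hx1 : (x : MulAut P) ≠ 1 := fun h => hp.ne_one (by
    rw [← hx, ← Subgroup.orderOf_coe, h, orderOf_one])
  have hn01 : ((n₀ : K) : MulAut P) ≠ 1 := fun h => hn₀1 (Subtype.ext h)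
  classical
  haveI : Fintype N := Fintype.ofFinite _
  let E : P →* P :=
    { toFun := fun v => ∏ n : N, ((n : K) : MulAut P) v
      map_one' := by simp
      map_mul' := fun u v => by simp [Finset.prod_mul_distrib] }
  have hfixN : ∀ v, (((n₀ : K) : MulAut P)) (E v) = E v := by
    intro v
    show ((n₀ : K) : MulAut P) (∏ n : N, ((n : K) : MulAut P) v) = _
    rw [map_prod]
    exact Fintype.prod_equiv (Equiv.mulLeft ⟨n₀, hn₀⟩) _ _ fun n => rfl
  have hfixx : ∀ v, (x : MulAut P) (E v) = E v := fun v =>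
    (hfix _ _ x.2 n₀.2 hx1 hn01 _).mpr (hfixN v)
  have hall : ∀ v, (x : MulAut P) v = v → ∀ n : N, ((n : K) : MulAut P) v = v := by
    intro v hv n
    by_cases h1 : ((n : K) : MulAut P) = 1
    · rw [h1]; rfl
    · exact (hfix _ _ (n : K).2 x.2 h1 hx1 v).mpr hv
  have hEx : ∀ v, E ((x : MulAut P) v) = E v := by
    intro v
    refine Eq.trans ?_ (hfixx v)
    show ∏ n : N, ((n : K) : MulAut P) ((x : MulAut P) v) = (x : MulAut P) (∏ n : N, ((n : K) : MulAut P) v)
    rw [map_prod]
    let e : N ≃ N :=
      { toFun := fun n => ⟨x⁻¹ * n * x, by simpa using hNn.conj_mem _ n.2 x⁻¹⟩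
        invFun := fun n => ⟨x * n * x⁻¹, hNn.conj_mem _ n.2 x⟩
        left_inv := fun n => Subtype.ext (by simp [mul_assoc])
        right_inv := fun n => Subtype.ext (by simp [mul_assoc]) }
    refine Fintype.prod_equiv e _ _ fun n => ?_
    show ((n : K) : MulAut P) ((x : MulAut P) v) =
      ((x : MulAut P) * ((x⁻¹ * n * x : K) : MulAut P)) v
    rw [Subgroup.coe_mul, Subgroup.coe_mul, Subgroup.coe_inv, mul_assoc, mul_inv_cancel_left]
    rfl
  have hker : ∀ v, E v = 1 → (x : MulAut P) v = v → v = 1 := by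
    intro v h1 h2
    have h3 : v ^ Nat.card N = 1 := by
      rw [← h1]
      show v ^ Nat.card N = ∏ n : N, ((n : K) : MulAut P) v
      rw [Finset.prod_congr rfl (fun n _ => hall v h2 n), Finset.prod_const, Finset.card_univ,
        Nat.card_eq_fintype_card]
    obtain ⟨j, hj⟩ := IsPGroup.iff_orderOf.mp hP v
    have h4 := orderOf_dvd_of_pow_eq_one h3
    rw [hj] at h4
    rcases j with _ | j
    · exact orderOf_eq_one_iff.mp (by rw [hj, pow_zero])
    · exact absurd ((dvd_pow_self p j.succ_ne_zero).trans h4) hNp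
  have hbot : E.ker = ⊥ := by
    by_contra hQ
    let H : Subgroup (MulAut P) := Subgroup.zpowers (x : MulAut P)
    have hH : IsPGroup p H := IsPGroup.of_card (n := 1) (by
      rw [Nat.card_zpowers, Subgroup.orderOf_coe, hx, pow_one])
    have hinv : ∀ h ∈ H, ∀ v, E (h v) = E v := by
      rintro _ ⟨i, rfl⟩
      induction i using Int.induction_on with
      | zero => intro v; simp
      | succ i ih =>
        intro v
        show E (((x : MulAut P) ^ ((i : ℤ) + 1)) v) = E v
        rw [zpow_add, zpow_one]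
        exact (ih _).trans (hEx v)
      | pred i ih =>
        intro v
        show E (((x : MulAut P) ^ (-(i : ℤ) - 1)) v) = E v
        rw [zpow_sub, zpow_one]
        refine (ih _).trans ?_
        rw [← hEx]
        exact congrArg E (MulEquiv.apply_symm_apply _ _)
    let S : Type _ := E.ker
    letI : MulAction H S :=
      { smul := fun h v => ⟨(h : MulAut P) v.1, by rw [MonoidHom.mem_ker, hinv _ h.2]; exact v.2⟩
        one_smul := fun v => Subtype.ext rfl
        mul_smul := fun a b v => Subtype.ext rfl }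
    have hd : p ∣ Nat.card S := by
      obtain ⟨m, hm⟩ := (hP.to_subgroup E.ker).exists_card_eq
      rcases m with _ | m
      · exact absurd (Subgroup.card_eq_one.mp (by simpa using hm)) hQ
      · rw [show Nat.card S = _ from hm]; exact dvd_pow_self p m.succ_ne_zero
    obtain ⟨b, hb, hb1⟩ := hH.exists_fixed_point_of_prime_dvd_card_of_fixed_point S hd
      (a := (⟨1, E.ker.one_mem⟩ : S)) (fun h => Subtype.ext (map_one (h : MulAut P)))
    exact hb1 (Subtype.ext (hker b.1 b.2
      (congrArg Subtype.val (hb ⟨_, Subgroup.mem_zpowers _⟩))).symm)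
  refine hn01 (MulEquiv.ext fun v => ?_)
  have hmem : ((n₀ : K) : MulAut P) v / v ∈ E.ker := by
    rw [MonoidHom.mem_ker, map_div, div_eq_one]
    show ∏ n : N, ((n : K) : MulAut P) (((n₀ : K) : MulAut P) v) = ∏ n : N, ((n : K) : MulAut P) v
    exact Fintype.prod_equiv (Equiv.mulRight ⟨n₀, hn₀⟩) _ _ fun n => rfl
  rw [hbot, Subgroup.mem_bot, div_eq_one] at hmem
  exact hmem

end Cfsg.Agent.S4036
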