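-- statement Cfsg.CfsgFrozen.S4040 (Cfsg/Statements/S4040.lean; the theorem Cfsg.fg5_odd_nilpotent_maximal_subgroup_implies_solvable);
import Cfsg.Statements.S4040
import Cfsg.Agent.NilMax.Basic

set_option autoImplicit false
open Cfsg

namespace Cfsg.Agent.S4040

/-- A finite group possessing a maximal subgroup that is nilpotent of odd order is solvable. -/
theorem result {G : Type*} [Group G] [Finite G]
    (M : Subgroup G) (hmax : IsCoatom M) (hnil : Group.IsNilpotent M) (hodd : Odd (Nat.card M)) :
    Group.IsSolvable G := by
  exact Cfsg.Agent.NilMax.isSolvable_aux (Nat.card G) G le_rfl M hmax hnil (Or.inr hodd)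

end Cfsg.Agent.S4040
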