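import Cfsg.Statements.S4043
import Mathlib
import Cfsg.Agent.Coprime.Conj

set_option autoImplicit false
open Cfsg
open scoped Pointwise

namespace Cfsg.Agent.S4043

theorem normalizer_eq {G : Type*} [Group G] [Finite G] {p : ℕ} [Fact p.Prime] (N : Subgroup G)
    [N.Normal] (hN : IsPGroup p N) (A : Subgroup G) (hA : A.IsComplement' N)
    (K : Subgroup A) [K.Normal] (S : Sylow p A) (hKS : K.IsComplement' (S : Subgroup A))
    (hC : ∀ n : G, n ∈ N → (∀ a : G, a ∈ A → a * n * a⁻¹ = n) → n = 1) :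
    Subgroup.normalizer ((K.map A.subtype : Subgroup G) : Set G) = A := by
  set κ := K.map A.subtype
  have hκA : κ ≤ A := Subgroup.map_subtype_le K
  have hAκ : A ≤ Subgroup.normalizer (κ : Set G) := by
    intro a ha
    rw [Subgroup.mem_normalizer_iff]
    intro u
    constructor
    · rintro ⟨k, hk, rfl⟩
      exact ⟨⟨a, ha⟩ * k * ⟨a, ha⟩⁻¹, ‹K.Normal›.conj_mem k hk _, rfl⟩
    · rintro ⟨k, hk, hku⟩
      refine ⟨⟨a, ha⟩⁻¹ * k * ⟨a, ha⟩, ?_, ?_⟩
      · simpa using ‹K.Normal›.conj_mem k hk (⟨a, ha⟩⁻¹ : A)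
      · show a⁻¹ * A.subtype k * a = u
        rw [hku]; group
  set D := N ⊓ Subgroup.normalizer (κ : Set G)
  have hDk : ∀ m ∈ D, ∀ k ∈ κ, m * k = k * m := by
    intro m hm k hk
    have h1 : m * k * m⁻¹ * k⁻¹ ∈ κ :=
      mul_mem ((Subgroup.mem_normalizer_iff.mp hm.2 k).mp hk) (inv_mem hk)
    have h2 : m * k * m⁻¹ * k⁻¹ ∈ N := by
      rw [show m * k * m⁻¹ * k⁻¹ = m * (k * m⁻¹ * k⁻¹) by group]
      exact mul_mem hm.1 (‹N.Normal›.conj_mem _ (inv_mem hm.1) k)
    have := Subgroup.disjoint_def.mp hA.disjoint (hκA h1) h2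
    calc m * k = (m * k * m⁻¹ * k⁻¹) * (k * m) := by group
      _ = k * m := by rw [this, one_mul]
  have hD : D = ⊥ := by
    by_contra hne
    have hDinv : ∀ a ∈ A, ∀ m ∈ D, a * m * a⁻¹ ∈ D := fun a ha m hm =>
      ⟨‹N.Normal›.conj_mem m hm.1 a, Subgroup.mul_mem _ (Subgroup.mul_mem _ (hAκ ha) hm.2) (Subgroup.inv_mem _ (hAκ ha))⟩
    let X : Type _ := D
    letI : MulAction (S : Subgroup A) X :=
      { smul := fun s m => ⟨((s : A) : G) * m.1 * ((s : A) : G)⁻¹, hDinv _ (s : A).2 _ m.2⟩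
        one_smul := fun m => Subtype.ext (by show ((1 : A) : G) * m.1 * ((1 : A) : G)⁻¹ = m.1; simp)
        mul_smul := fun s t m => Subtype.ext (by
          show ((s * t : A) : G) * m.1 * ((s * t : A) : G)⁻¹ =
            ((s : A) : G) * (((t : A) : G) * m.1 * ((t : A) : G)⁻¹) * ((s : A) : G)⁻¹
          rw [Subgroup.coe_mul]; group) }
    have hd : p ∣ Nat.card X := by
      obtain ⟨m, hm⟩ := (hN.to_le (inf_le_left : D ≤ N)).exists_card_eq
      rcases m with _ | m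
      · exact absurd (Subgroup.card_eq_one.mp (hm.trans (pow_zero p))) hne
      · rw [show Nat.card X = _ from hm]; exact dvd_pow_self p m.succ_ne_zero
    obtain ⟨b, hb, hb1⟩ := S.isPGroup'.exists_fixed_point_of_prime_dvd_card_of_fixed_point X hd
      (a := (⟨1, D.one_mem⟩ : X)) (fun s => Subtype.ext (by
        show ((s : A) : G) * 1 * ((s : A) : G)⁻¹ = 1; group))
    refine hb1 (Subtype.ext (hC b.1 b.2.1 fun a ha => ?_).symm)
    obtain ⟨⟨⟨k, hk⟩, ⟨s, hs⟩⟩, hks⟩ := hKS.2 ⟨a, ha⟩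
    have hks' : (k : G) * (s : G) = a := congrArg Subtype.val hks
    have h1 : (s : G) * b.1 * (s : G)⁻¹ = b.1 := congrArg Subtype.val (hb ⟨s, hs⟩)
    have h2 : (k : G) * b.1 * (k : G)⁻¹ = b.1 := by
      have e : b.1 * (k : G) = (k : G) * b.1 := hDk b.1 b.2 _ ⟨k, hk, rfl⟩
      rw [← e, mul_inv_cancel_right]
    calc a * b.1 * a⁻¹ = (k : G) * ((s : G) * b.1 * (s : G)⁻¹) * (k : G)⁻¹ := by rw [← hks']; group
      _ = b.1 := by rw [h1, h2]
  refine le_antisymm (fun g hg => ?_) hAκ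
  obtain ⟨⟨⟨a, ha⟩, ⟨m, hm⟩⟩, hg'⟩ := hA.2 g
  have hg'' : a * m = g := hg'
  have : m ∈ D := ⟨hm, by
    have : m = a⁻¹ * g := by rw [← hg'']; group
    rw [this]; exact Subgroup.mul_mem _ (Subgroup.inv_mem _ (hAκ ha)) hg⟩
  rw [hD, Subgroup.mem_bot] at this
  rw [← hg'', this, mul_one]; exact ha


/-- Let G be a finite group that is the semidirect product of a normal p-subgroup N by a subgroup A, and also of N by a subgroup A₁, where p is a prime and A and A₁ both have normal p-complements. If C_N(A) = C_N(A₁) = 1, then A₁ is conjugate to A by an element of N. -/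
theorem result {G : Type*} [Group G] [Finite G] {p : ℕ}
    [Fact p.Prime] (N : Subgroup G) [N.Normal] (hN : IsPGroup p N) (A A₁ : Subgroup G)
    (hA : A.IsComplement' N) (hA₁ : A₁.IsComplement' N)
    (hAp : Cfsg.HasNormalPComplement p A) (hA₁p : Cfsg.HasNormalPComplement p A₁)
    (hC : ∀ n : G, n ∈ N → (∀ a : G, a ∈ A → a * n * a⁻¹ = n) → n = 1)
    (hC₁ : ∀ n : G, n ∈ N → (∀ a : G, a ∈ A₁ → a * n * a⁻¹ = n) → n = 1) :
    ∃ n : G, n ∈ N ∧ A₁ = A.map (MulAut.conj n).toMonoidHom := by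
  have hp : p.Prime := Fact.out
  obtain ⟨S, K, hK, hKS⟩ := hAp
  obtain ⟨S₁, K₁, hK₁, hKS₁⟩ := hA₁p
  have hcop : ∀ (B : Subgroup G) (T : Sylow p B) (M : Subgroup B), M.IsComplement' (T : Subgroup B) →
      (Nat.card M).Coprime p := by
    intro B T M hM
    rw [← hM.index_eq_card]
    exact ((Nat.Prime.coprime_iff_not_dvd hp).mpr T.not_dvd_index).symm
  set κ := K.map A.subtype with hκdef
  set κ₁ := K₁.map A₁.subtype with hκ₁def
  have hnK : Subgroup.normalizer (κ : Set G) = A := normalizer_eq N hN A hA K S hKS hC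
  have hnK₁ : Subgroup.normalizer (κ₁ : Set G) = A₁ := normalizer_eq N hN A₁ hA₁ K₁ S₁ hKS₁ hC₁
  have cκ : Nat.card κ = Nat.card K := Subgroup.card_map_of_injective A.subtype_injective
  have cκ₁ : Nat.card κ₁ = Nat.card K₁ := Subgroup.card_map_of_injective A₁.subtype_injective
  obtain ⟨e, he⟩ := hN.exists_card_eq
  have hcκ : (Nat.card κ).Coprime (Nat.card N) := by
    rw [cκ, he]; exact Nat.Coprime.pow_right _ (hcop A S K hKS)
  have hcκ₁ : (Nat.card κ₁).Coprime (Nat.card N) := by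
    rw [cκ₁, he]; exact Nat.Coprime.pow_right _ (hcop A₁ S₁ K₁ hKS₁)
  haveI hL : (κ ⊔ N).Normal := by
    rw [← Subgroup.normalizer_eq_top_iff, eq_top_iff, ← hA.sup_eq_top]
    refine sup_le (fun a ha => ?_) (le_sup_right.trans Subgroup.le_normalizer)
    have ha' : a ∈ Subgroup.normalizer (κ : Set G) := hnK ▸ ha
    rw [Subgroup.mem_normalizer_iff_map_conj_eq] at ha' ⊢
    have hN' : a ∈ Subgroup.normalizer (N : Set G) := by
      rw [Subgroup.normalizer_eq_top]; trivial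
    rw [Subgroup.map_sup, ha', Subgroup.mem_normalizer_iff_map_conj_eq.mp hN']
  have hle : κ₁ ⊔ N ≤ κ ⊔ N := by
    refine sup_le (fun u hu => ?_) le_sup_right
    have hidx : ∃ j, (κ ⊔ N).index = p ^ j := by
      obtain ⟨j, hj⟩ := S.isPGroup'.exists_card_eq
      refine ⟨j, ?_⟩
      have h1 : Nat.card ↥(κ ⊔ N) = Nat.card κ * Nat.card N :=
        Coprime.card_sup_of_coprime Subgroup.le_normalizer_of_normal hcκ
      have h2 := (κ ⊔ N).card_mul_index
      rw [h1, cκ, ← hA.card_mul, ← hKS.card_mul, hj] at h2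
      have : 0 < Nat.card K * Nat.card N := Nat.mul_pos Nat.card_pos Nat.card_pos
      exact Nat.eq_of_mul_eq_mul_left this (h2.trans (by ring))
    obtain ⟨j, hj⟩ := hidx
    have h1 : orderOf (u : G ⧸ (κ ⊔ N)) ∣ p ^ j := by
      rw [← hj]; exact orderOf_dvd_natCard _
    have h2 : orderOf (u : G ⧸ (κ ⊔ N)) ∣ Nat.card K₁ := by
      rw [← cκ₁]
      exact (orderOf_map_dvd (QuotientGroup.mk' (κ ⊔ N)) u).trans
        (Subgroup.orderOf_mk u hu ▸ orderOf_dvd_natCard _)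
    exact (QuotientGroup.eq_one_iff u).mp (orderOf_eq_one_iff.mp
      (Nat.eq_one_of_dvd_coprimes ((hcop A₁ S₁ K₁ hKS₁).symm.pow_left j) h1 h2))
  have hcard : Nat.card K₁ = Nat.card K := by
    have hAA : Nat.card A₁ = Nat.card A := Nat.eq_of_mul_eq_mul_right Nat.card_pos
      (hA₁.card_mul.trans hA.card_mul.symm)
    obtain ⟨i, hi⟩ := S₁.isPGroup'.exists_card_eq
    obtain ⟨j, hj⟩ := S.isPGroup'.exists_card_eq
    have h1 : Nat.card K₁ * p ^ i = Nat.card K * p ^ j := by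
      rw [← hi, ← hj, hKS₁.card_mul, hKS.card_mul, hAA]
    refine Nat.dvd_antisymm ?_ ?_
    · exact ((hcop A₁ S₁ K₁ hKS₁).pow_right j).dvd_of_dvd_mul_right (h1 ▸ Dvd.intro _ rfl)
    · exact ((hcop A S K hKS).pow_right i).dvd_of_dvd_mul_right (h1.symm ▸ Dvd.intro _ rfl)
  have hsup : κ₁ ⊔ N = κ ⊔ N := Subgroup.eq_of_le_of_card_ge hle (le_of_eq (by
    rw [Coprime.card_sup_of_coprime Subgroup.le_normalizer_of_normal hcκ,
      Coprime.card_sup_of_coprime Subgroup.le_normalizer_of_normal hcκ₁, cκ, cκ₁, hcard]))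
  haveI : Group.IsNilpotent N := hN.isNilpotent
  obtain ⟨n, hn, hκ⟩ := Coprime.complement_conj (A := κ) (B := κ₁) (K := N)
    Subgroup.le_normalizer_of_normal hcκ hcκ₁ hsup (Or.inr inferInstance)
  refine ⟨n, hn, ?_⟩
  rw [← hnK₁, hκ, ← hnK]
  exact (Subgroup.map_equiv_normalizer_eq κ (MulAut.conj n)).symm

end Cfsg.Agent.S4043
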