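import Cfsg.Statements.S4049
import Mathlib
import Cfsg.Agent.FGS75.OddReal

set_option autoImplicit false
open Cfsg

namespace Cfsg.Agent.S4049


/-- Let G be a finite group such that N_G(H)/C_G(H) has odd order for every nontrivial subgroup H of odd order. Then the Sylow 2-subgroups of G are normal. -/
theorem result {G : Type*} [Group G] [Finite G]
    (hhom : ∀ H : Subgroup G, H ≠ ⊥ → ¬ 2 ∣ Nat.card ↥H →
        ¬ 2 ∣ (Subgroup.centralizer (H : Set G)).relIndex (Subgroup.normalizer (H : Set G))) (P : Sylow 2 G) :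
    (P : Subgroup G).Normal := by
  by_contra hP
  obtain ⟨g, h, hh, hodd, hg⟩ := FGS75.exists_inverted_of_not_normal P hP
  set H := Subgroup.zpowers h
  have hgn := FGS75.mem_normalizer_zpowers_of_inverts hg
  refine hhom H (by simpa [H, Subgroup.zpowers_eq_bot] using hh)
    (by rw [Nat.card_zpowers]; exact fun h' => Nat.not_even_iff_odd.mpr hodd (even_iff_two_dvd.mpr h')) ?_
  set C := (Subgroup.centralizer (H : Set G)).subgroupOf (Subgroup.normalizer (H : Set G))
  haveI : C.Normal := by
    show ((Subgroup.centralizer (H : Set G)).subgroupOf (Subgroup.normalizer (H : Set G))).Normal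
    rw [← Subgroup.normalizerMonoidHom_ker]; infer_instance
  have hmem : ∀ u : G, u * h = h * u → u ∈ Subgroup.centralizer (H : Set G) := by
    intro u hu
    rw [Subgroup.mem_centralizer_iff]
    rintro _ ⟨i, rfl⟩
    exact ((show Commute u h from hu).zpow_right i).eq.symm
  have hne : ((⟨g, hgn⟩ : Subgroup.normalizer (H : Set G)) : _ ⧸ C) ≠ 1 := by
    intro e
    have e' := Subgroup.mem_subgroupOf.mp ((QuotientGroup.eq_one_iff _).mp e)
    have hc : h * g = g * h := Subgroup.mem_centralizer_iff.mp e' h (Subgroup.mem_zpowers h)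
    rw [← hc, mul_inv_cancel_right] at hg
    exact hh (FGS75.eq_one_of_inv_eq_self_of_odd hg.symm hodd)
  have hsq : ((⟨g, hgn⟩ : Subgroup.normalizer (H : Set G)) : _ ⧸ C) ^ 2 = 1 := by
    rw [← QuotientGroup.mk_pow, QuotientGroup.eq_one_iff]
    refine Subgroup.mem_subgroupOf.mpr (hmem _ ?_)
    show g ^ 2 * h = h * g ^ 2
    calc g ^ 2 * h = g * (g * h * g⁻¹) * g := by rw [sq]; group
      _ = (g * h * g⁻¹)⁻¹ * g ^ 2 := by rw [hg, sq]; rw [show g * h⁻¹ = (g * h * g⁻¹)⁻¹ * g by group, hg]; group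
      _ = h * g ^ 2 := by rw [hg, inv_inv]
  rw [Subgroup.relIndex, ← orderOf_eq_prime hsq hne]
  exact orderOf_dvd_natCard _

end Cfsg.Agent.S4049
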