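import Cfsg.Statements.S4050
import Mathlib
import Cfsg.Agent.FGS75.PiClosed

set_option autoImplicit false
open Cfsg

namespace Cfsg.Agent.S4050


/-- Let π be a set of primes and G a finite group. The π-elements of G (elements whose order is divisible only by primes of π) form a subgroup if and only if G is π-separable (it has a chain of normal subgroups from 1 to G with each successive index divisible only by primes in π or only by primes outside π) and N_G(H)/C_G(H) is a π'-group for every nontrivial π'-subgroup H of G. -/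
theorem result {G : Type*} [Group G] [Finite G] (π : Set ℕ)
    (hπ : ∀ p ∈ π, p.Prime) :
    (∃ K : Subgroup G, ∀ x : G, x ∈ K ↔ ∀ p : ℕ, p.Prime → p ∣ orderOf x → p ∈ π) ↔
    ((∃ (n : ℕ) (H : Fin (n + 1) → Subgroup G), H 0 = ⊥ ∧ H (Fin.last n) = ⊤ ∧ Monotone H ∧ (∀ i, (H i).Normal) ∧
      ∀ i : Fin n, (∀ q : ℕ, q.Prime → q ∣ (H i.castSucc).relIndex (H i.succ) → q ∈ π) ∨
        (∀ q : ℕ, q.Prime → q ∣ (H i.castSucc).relIndex (H i.succ) → q ∉ π)) ∧
     (∀ H : Subgroup G, H ≠ ⊥ → (∀ p : ℕ, p.Prime → p ∣ Nat.card ↥H → p ∉ π) →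
        ∀ p : ℕ, p.Prime → p ∣ (Subgroup.centralizer (H : Set G)).relIndex (Subgroup.normalizer (H : Set G)) → p ∉ π)) := by
  constructor
  · rintro ⟨K, hK⟩
    haveI := FGS75.normal_of_piEl hK
    obtain ⟨h1, h2⟩ := FGS75.piClosed_iff_index hK
    refine ⟨⟨2, ![⊥, K, ⊤], rfl, rfl, ?_, ?_, ?_⟩, ?_⟩
    · refine Fin.monotone_iff_le_succ.mpr fun i => ?_
      fin_cases i
      · exact bot_le
      · exact le_top
    · intro i
      fin_cases i
      · exact inferInstanceAs (⊥ : Subgroup G).Normal
      · exact inferInstanceAs K.Normal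
      · exact inferInstanceAs (⊤ : Subgroup G).Normal
    · intro i
      fin_cases i
      · refine Or.inl fun q hq hd => h2 q hq ?_
        rw [← Subgroup.relIndex_bot_left]; exact hd
      · refine Or.inr fun q hq hd => h1 q hq ?_
        rw [← Subgroup.relIndex_top_right]; exact hd
    · intro H hne hH p hp hd hpπ
      haveI := Fact.mk hp
      set C := (Subgroup.centralizer (H : Set G)).subgroupOf (Subgroup.normalizer (H : Set G))
      haveI : C.Normal := by
        show ((Subgroup.centralizer (H : Set G)).subgroupOf (Subgroup.normalizer (H : Set G))).Normal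
        rw [← Subgroup.normalizerMonoidHom_ker]; infer_instance
      obtain ⟨y, hy⟩ := exists_prime_orderOf_dvd_card' p (G := _ ⧸ C) hd
      obtain ⟨u, rfl, j, hj⟩ := Element.exists_pElement_preimage hp (QuotientGroup.mk' C)
        (QuotientGroup.mk'_surjective C) (y := y) (k := 1) (by rw [hy, pow_one])
      have huK : (u : G) ∈ K := (hK _).mpr fun q hq hd' => by
        rw [Subgroup.orderOf_coe, hj] at hd'
        rw [(Nat.prime_dvd_prime_iff_eq hq hp).mp (hq.dvd_of_dvd_pow hd')]
        exact hpπ
      have hc : u ∈ C := by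
        refine Subgroup.mem_subgroupOf.mpr (Subgroup.mem_centralizer_iff.mpr fun h hh => ?_)
        have e1 : (u : G) * h * (u : G)⁻¹ * h⁻¹ ∈ H :=
          Subgroup.mul_mem _ ((Subgroup.mem_normalizer_iff.mp u.2 h).mp hh) (Subgroup.inv_mem _ hh)
        have e2 : (u : G) * h * (u : G)⁻¹ * h⁻¹ ∈ K := by
          rw [show (u : G) * h * (u : G)⁻¹ * h⁻¹ = (u : G) * (h * (u : G)⁻¹ * h⁻¹) by group]
          exact Subgroup.mul_mem _ huK (‹K.Normal›.conj_mem _ (Subgroup.inv_mem _ huK) h)
        have := FGS75.eq_one_of_piEl_of_card hH e1 ((hK _).mp e2)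
        calc h * u = ((u : G) * h * (u : G)⁻¹ * h⁻¹) * (h * u) := by rw [this, one_mul]
          _ = u * h := by group
      have h1 : QuotientGroup.mk' C u = 1 := (QuotientGroup.eq_one_iff u).mpr hc
      rw [h1, orderOf_one] at hy
      exact hp.ne_one hy.symm
  · rintro ⟨⟨n, H, h0, hn, hmono, hnorm, hser⟩, hhom⟩
    haveI : ∀ i, (H i).Normal := hnorm
    have key : ∀ i, FGS75.PiClosed π (H i) := by
      intro i
      induction i using Fin.induction with
      | zero =>
        refine ⟨⊤, fun x => ⟨fun _ q hq hd => absurd hd ?_, fun _ => trivial⟩⟩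
        have hx : (x : G) = 1 := Subgroup.mem_bot.mp (h0.le x.2)
        rw [← Subgroup.orderOf_coe, hx, orderOf_one]
        exact hq.not_dvd_one
      | succ i ih =>
        have hle : H i.castSucc ≤ H i.succ := hmono Fin.castSucc_lt_succ.le
        refine FGS75.piClosed_extension (FGS75.CoPiHom.subgroup hhom _)
          ((H i.castSucc).subgroupOf (H i.succ))
          (FGS75.CoPiHom.piClosed_of_equiv (Subgroup.subgroupOfEquivOfLe hle).symm ih) ?_
        rcases hser i with h | h
        · refine ⟨⊤, fun x => ⟨fun _ q hq hd => h q hq (hd.trans ?_), fun _ => trivial⟩⟩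
          exact orderOf_dvd_natCard _
        · refine ⟨⊥, fun x => ⟨fun hx q hq hd => absurd hd ?_, fun hx => ?_⟩⟩
          · rw [Subgroup.mem_bot.mp hx, orderOf_one]; exact hq.not_dvd_one
          · by_contra hne
            obtain ⟨q, hq, hd⟩ := Nat.exists_prime_and_dvd (orderOf_eq_one_iff.not.mpr hne)
            exact h q hq (hd.trans (orderOf_dvd_natCard _)) (hx q hq hd)
    have h := key (Fin.last n)
    rw [hn] at h
    exact FGS75.CoPiHom.piClosed_of_equiv Subgroup.topEquiv h

end Cfsg.Agent.S4050
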