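import Cfsg.Statements.S4052
import Cfsg.Agent.PiHom.Fusion
import Cfsg.Agent.S0877

set_option autoImplicit false
open Cfsg Cfsg.Agent

namespace Cfsg.Agent.S4052

/-- Let π be a set of primes and G a finite group whose maximal π-subgroups are pairwise conjugate (so Hall π-subgroups exist, any two are conjugate, and every π-subgroup lies in one of them), and suppose N_G(H)/C_G(H) is a π-group for every nontrivial π-subgroup H. If either 3 does not divide the order of G, or the π'-elements of every proper subgroup of G form a subgroup, then the π'-elements of G form a subgroup. -/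
theorem result {G : Type*} [Group G] [Finite G] (π : Set ℕ)
    (hπ : ∀ p ∈ π, p.Prime) (hD : Cfsg.IsDPiGroup π G) (hhom : (∀ H : Subgroup G, H ≠ ⊥ → (∀ p : ℕ, p.Prime → p ∣ Nat.card ↥H → p ∈ π) →
        ∀ p : ℕ, p.Prime → p ∣ (Subgroup.centralizer (H : Set G)).relIndex (Subgroup.normalizer (H : Set G)) → p ∈ π))
    (hcase : ¬ 3 ∣ Nat.card G ∨ ∀ M : Subgroup G, M ≠ ⊤ →
      ∃ L : Subgroup ↥M, ∀ x : ↥M, x ∈ L ↔ ∀ p : ℕ, p.Prime → p ∣ orderOf x → p ∉ π) :
    (∃ K : Subgroup G, ∀ x : G, x ∈ K ↔ ∀ p : ℕ, p.Prime → p ∣ orderOf x → p ∉ π) := by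
  classical
  haveI : Fintype G := Fintype.ofFinite G
  -- every π-subgroup lies in a maximal one
  have hmax : ∀ S : Subgroup G, Cfsg.IsPiSubgroup π S →
      ∃ M : Subgroup G, S ≤ M ∧ Maximal (Cfsg.IsPiSubgroup π) M := fun S hS =>
    Finite.exists_le_maximal hS
  obtain ⟨H, -, hHmax⟩ := hmax ⊥ fun p hp hd => absurd (Subgroup.card_bot (G := G) ▸ hd) hp.not_dvd_one
  have hdom : PiHom.Dom π H := by
    refine ⟨hHmax.prop, fun S hS => ?_⟩
    obtain ⟨M, hSM, hM⟩ := hmax S hS
    obtain ⟨g, hg⟩ := hD M H hM hHmax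
    exact ⟨g, hg ▸ Subgroup.map_mono hSM⟩
  -- `H` is a Hall subgroup
  have hidx : ∀ p : ℕ, p.Prime → p ∣ H.index → p ∉ π := by
    intro p hp hd hpπ
    haveI := Fact.mk hp
    let P : Sylow p G := default
    obtain ⟨g, hg⟩ := hdom.2 P (PiHom.isPi_of_isPGroup hp hpπ P.2)
    exact (g • P).not_dvd_index (hd.trans (Subgroup.index_dvd_of_le hg))
  have hcop : Nat.Coprime (Nat.card H) H.index :=
    Nat.coprime_of_dvd fun p hp h1 h2 => hidx p hp h2 (hHmax.prop p hp h1)
  -- π'-elements normalizing a p-subgroup centralize it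
  have hhom' : PiHom.Hom π G := by
    intro p hp hpπ T hT g hg hgπ
    rcases eq_or_ne T ⊥ with rfl | hne
    · rw [Subgroup.mem_centralizer_iff]
      intro x hx
      rw [Subgroup.coe_bot, Set.mem_singleton_iff] at hx
      simp [hx]
    set C := (Subgroup.centralizer (T : Set G)).subgroupOf (Subgroup.normalizer (T : Set G))
    haveI : C.Normal := by
      show ((Subgroup.centralizer (T : Set G)).subgroupOf (Subgroup.normalizer (T : Set G))).Normal
      rw [← Subgroup.normalizerMonoidHom_ker]; infer_instance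
    by_contra hc
    have hne' : orderOf (QuotientGroup.mk' C ⟨g, hg⟩) ≠ 1 := fun e => hc (Subgroup.mem_subgroupOf.mp
      ((QuotientGroup.eq_one_iff _).mp (orderOf_eq_one_iff.mp e)))
    obtain ⟨q, hq, hd⟩ := Nat.exists_prime_and_dvd hne'
    refine hgπ q hq ?_ (hhom T hne (PiHom.isPi_of_isPGroup hp hpπ hT) q hq
      (hd.trans (orderOf_dvd_natCard _)))
    exact hd.trans ((orderOf_map_dvd _ _).trans (dvd_of_eq (Subgroup.orderOf_mk g hg)))
  -- Brauer–Suzuki
  obtain ⟨K, hK, hsup, hinf⟩ := Cfsg.Agent.S0877.result H hcop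
    (fun x hx y hy h => PiHom.elem_fusion hdom hhom' hx hy h)
    (fun E p hp hE hd => hdom.2 E fun q hq h => hHmax.prop q hq (h.trans hd))
  have hKidx : K.index = Nat.card H := by
    have h1 : K.relIndex (K ⊔ H) = K.relIndex H := Subgroup.relIndex_sup_left H K
    rw [hsup, Subgroup.relIndex_top_right, ← Subgroup.inf_relIndex_right, hinf,
      Subgroup.relIndex_bot_left] at h1
    exact h1
  have hKcard : Nat.card K = H.index := by
    have h1 := K.card_mul_index
    rw [hKidx, ← H.card_mul_index, mul_comm (Nat.card H)] at h1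
    exact Nat.eq_of_mul_eq_mul_right Nat.card_pos h1
  refine ⟨K, fun x => ⟨fun hx p hp hd => hidx p hp (hKcard ▸ hd.trans ?_), fun hx => ?_⟩⟩
  · exact Subgroup.orderOf_mk x hx ▸ orderOf_dvd_natCard _
  · rw [← QuotientGroup.eq_one_iff]
    refine orderOf_eq_one_iff.mp (Nat.eq_one_of_dvd_coprimes (?_ : (orderOf x).Coprime K.index)
      (orderOf_map_dvd (QuotientGroup.mk' K) x) (orderOf_dvd_natCard _))
    exact Nat.coprime_of_dvd fun p hp h1 h2 => hx p hp h1 (hHmax.prop p hp (hKidx ▸ h2))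

end Cfsg.Agent.S4052
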