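import Cfsg.Statements.S4056
import Cfsg.Agent.FGS75.ClassTwo
import Cfsg.Agent.PGroup.Frattini

set_option autoImplicit false
open Cfsg
open scoped commutatorElement

namespace Cfsg.Agent.S4056


/-- In a finite 2-group of nilpotency class at most 2 and exponent dividing 4, the Frattini subgroup lies in the centre and is elementary abelian. -/
theorem result {P : Type*} [Group P] [Finite P] (hP : IsPGroup 2 P)
    (hcl : Group.nilpotencyClass P ≤ 2) (hexp : Monoid.exponent P ∣ 4) :
    frattini P ≤ Subgroup.center P ∧ Cfsg.IsElementaryAbelian 2 (frattini P) := by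
  haveI : Fact (Nat.Prime 2) := ⟨Nat.prime_two⟩
  haveI := hP.isNilpotent
  have h4 : ∀ x : P, x ^ 4 = 1 := fun x => Monoid.exponent_dvd_iff_forall_pow_eq_one.mp hexp x
  have hz : ∀ a b g : P, g * ⁅a, b⁆ = ⁅a, b⁆ * g := fun a b =>
    Subgroup.mem_center_iff.mp (FGS75.comm_mem_center_of_class_le_two hcl a b)
  have hc2 : ∀ a b : P, ⁅a, b⁆ ^ 2 = 1 := by
    intro a b
    have e := FGS75.mul_pow_central b a (hz a b) 4
    rw [h4, h4, h4, one_mul, one_mul, show Nat.choose 4 2 = 2 + 4 from rfl, pow_add, h4,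
      mul_one] at e
    exact e.symm
  have hsqc : ∀ a : P, a ^ 2 ∈ Subgroup.center P := by
    intro a
    rw [Subgroup.mem_center_iff]
    intro b
    have : ⁅a ^ 2, b⁆ = 1 := by rw [FGS75.comm_pow_left a b (hz a b) 2, hc2]
    exact (commutatorElement_eq_one_iff_commute.mp this).eq.symm
  have hle : frattini P ≤ Subgroup.center P := by
    rw [Cfsg.Agent.PGroup.frattini_eq_closure_sq hP, Subgroup.closure_le]
    rintro _ ⟨x, rfl⟩
    exact hsqc x
  refine ⟨hle, ⟨⟨fun u v => Subtype.ext (Subgroup.mem_center_iff.mp (hle v.2) u)⟩⟩, ?_⟩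
  intro a ha
  rw [Cfsg.Agent.PGroup.frattini_eq_closure_sq hP] at ha
  induction ha using Subgroup.closure_induction with
  | mem x hx =>
    obtain ⟨y, rfl⟩ := hx
    show (y ^ 2) ^ 2 = 1
    rw [← pow_mul]; exact h4 y
  | one => simp
  | mul x y hx hy ihx ihy =>
    have hxc : x ∈ Subgroup.center P :=
      hle (by rw [Cfsg.Agent.PGroup.frattini_eq_closure_sq hP]; exact hx)
    have : Commute x y := (Subgroup.mem_center_iff.mp hxc y).symm
    rw [this.mul_pow, ihx, ihy, one_mul]
  | inv x _ ihx => rw [inv_pow, ihx, inv_one]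

end Cfsg.Agent.S4056
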