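import Cfsg.Statements.S4057
import Cfsg.Agent.PGroupExtra.OmegaOdd
import Cfsg.Agent.PGroupExtra.UniPivot
import Cfsg.Agent.Perm.Modules

set_option autoImplicit false
set_option linter.style.haveILetI false
open Cfsg Subgroup
open scoped IsMulCommutative

namespace Cfsg.Agent.S4057

universe u

/-- Conjugation of `H` on a normal abelian subgroup of exponent `q`. -/
noncomputable def conjRep {P : Type u} [Group P] (q : ℕ) (A : Subgroup P) [A.Normal] [IsMulCommutative A]
    [Module (ZMod q) (Additive A)] (H : Subgroup P) : H →* Module.End (ZMod q) (Additive A) where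
  toFun h := AddMonoidHom.toZModLinearMap q (M := Additive A) (M₁ := Additive A)
    (MulAut.conjNormal (H := A) (h : P)).toMonoidHom.toAdditive
  map_one' := by
    refine LinearMap.ext fun x => ?_
    show Additive.ofMul (MulAut.conjNormal (H := A) ((1 : H) : P) x.toMul) = x
    rw [Subgroup.coe_one, map_one]; rfl
  map_mul' a b := by
    refine LinearMap.ext fun x => ?_
    show Additive.ofMul (MulAut.conjNormal (H := A) ((a * b : H) : P) x.toMul) = _
    rw [Subgroup.coe_mul, map_mul]; rfl

variable {P : Type u} [Group P] [Finite P] {p : ℕ} [Fact p.Prime]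

theorem mapQ_one {V : Type*} [AddCommGroup V] [Module (ZMod p) V] (W : Submodule (ZMod p) V)
    (h : W ≤ W.comap (1 : Module.End (ZMod p) V)) : W.mapQ W (1 : Module.End (ZMod p) V) h = 1 :=
  LinearMap.ext fun x => Quotient.inductionOn' x fun _ => rfl

/-- A flag basis for a p-group action in characteristic `p`. -/
theorem exists_tri (hP : IsPGroup p P) {V : Type u} [AddCommGroup V] [Module (ZMod p) V]
    [FiniteDimensional (ZMod p) V] (ρ : Representation (ZMod p) P V) :
    ∀ m ≤ Module.finrank (ZMod p) V, ∃ e : Fin m → V, LinearIndependent (ZMod p) e ∧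
      ∀ g i, ρ g (e i) - e i ∈ Submodule.span (ZMod p) (e '' {j | j < i}) := by
  intro m
  induction m with
  | zero => exact fun _ => ⟨Fin.elim0, linearIndependent_empty_type, fun _ i => i.elim0⟩
  | succ m ih =>
    intro hm
    obtain ⟨e, he, hup⟩ := ih (Nat.le_of_succ_le hm)
    set W := Submodule.span (ZMod p) (Set.range e) with hW
    have hinv : ∀ g, W ≤ W.comap (ρ g) := fun g => Submodule.span_le.2 (by
      rintro _ ⟨i, rfl⟩
      show ρ g (e i) ∈ W
      rw [← sub_add_cancel (ρ g (e i)) (e i)]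
      exact W.add_mem (Submodule.span_mono (Set.image_subset_range _ _) (hup g i))
        (Submodule.subset_span ⟨i, rfl⟩))
    let σ : Representation (ZMod p) P (V ⧸ W) :=
      { toFun := fun g => W.mapQ W (ρ g) (hinv g)
        map_one' := LinearMap.ext fun x => Quotient.inductionOn' x fun v => by
          show Submodule.Quotient.mk (ρ 1 v) = Submodule.Quotient.mk v
          rw [map_one]; rfl
        map_mul' := fun a b => LinearMap.ext fun x => Quotient.inductionOn' x fun v => by
          show Submodule.Quotient.mk (ρ (a * b) v) = Submodule.Quotient.mk (ρ a (ρ b v))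
          rw [map_mul]; rfl }
    have hne : (⊤ : Submodule (ZMod p) (V ⧸ W)) ≠ ⊥ := by
      intro h
      have hWtop : W = ⊤ := eq_top_iff.2 fun v _ => (Submodule.Quotient.mk_eq_zero W).1
        ((Submodule.mem_bot (ZMod p)).1 (h ▸ Submodule.mem_top : Submodule.Quotient.mk v ∈ (⊥ : Submodule (ZMod p) (V ⧸ W))))
      have := finrank_span_eq_card he
      rw [← hW, hWtop, finrank_top, Fintype.card_fin] at this
      omega
    obtain ⟨w, -, hw0, hw⟩ := PermLib.exists_fixed_vector hP σ ⊤ (fun _ _ _ => Submodule.mem_top) hne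
    obtain ⟨v, rfl⟩ := Submodule.Quotient.mk_surjective W w
    refine ⟨Fin.snoc e v, linearIndependent_finSnoc.2 ⟨he, fun h => hw0 ?_⟩, fun g i => ?_⟩
    · exact (Submodule.Quotient.mk_eq_zero W).2 h
    induction i using Fin.lastCases with
    | last =>
      rw [Fin.snoc_last]
      have h1 : ρ g v - v ∈ W := (Submodule.Quotient.eq W).1 (hw g)
      refine Submodule.span_mono ?_ h1
      rintro _ ⟨i, rfl⟩
      exact ⟨i.castSucc, Fin.castSucc_lt_last i, by simp⟩
    | cast i =>
      rw [Fin.snoc_castSucc]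
      refine Submodule.span_mono ?_ (hup g i)
      rintro _ ⟨j, hj, rfl⟩
      exact ⟨j.castSucc, Fin.castSucc_lt_castSucc_iff.2 hj, by simp⟩

/-- A p-group acting on an elementary abelian group of order `p ^ n` is generated modulo the
kernel by `n² / 4` elements. -/
theorem exists_generators_mod {H : Type u} [Group H] [Finite H] (hH : IsPGroup p H) {V : Type u}
    [AddCommGroup V] [Module (ZMod p) V] [Finite V] (ρ : Representation (ZMod p) H V) {n : ℕ}
    (hn : Nat.card V = p ^ n) :
    ∃ S : Finset H, S.card ≤ n * n / 4 ∧ ∀ g, ∃ k ∈ closure (S : Set H), ρ k = ρ g := by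
  haveI : Module.Finite (ZMod p) V := Module.Finite.of_finite
  have hrk : Module.finrank (ZMod p) V = n := by
    have h := Module.natCard_eq_pow_finrank (K := ZMod p) (V := V)
    rw [Nat.card_zmod, hn] at h
    exact (Nat.pow_right_injective (Fact.out : p.Prime).two_le h).symm
  obtain ⟨e, he, hup⟩ := exists_tri hH ρ n hrk.ge
  rcases Nat.eq_zero_or_pos n with rfl | hpos
  · refine ⟨∅, by simp, fun g => ⟨1, one_mem _, LinearMap.ext fun v => ?_⟩⟩
    haveI : Subsingleton V := (Nat.card_eq_one_iff_unique.1 (by rw [hn, pow_zero])).1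
    exact Subsingleton.elim _ _
  haveI : Nonempty (Fin n) := ⟨⟨0, hpos⟩⟩
  let b := basisOfLinearIndependentOfCardEqFinrank he (by rw [Fintype.card_fin, hrk])
  have hb : ⇑b = e := coe_basisOfLinearIndependentOfCardEqFinrank _ _
  let T : H →* Matrix (Fin n) (Fin n) (ZMod p) :=
    (LinearMap.toMatrixAlgEquiv b).toAlgHom.toRingHom.toMonoidHom.comp ρ
  have hT : ∀ g, T g = LinearMap.toMatrixAlgEquiv b (ρ g) := fun g => rfl
  obtain ⟨S, hS, hgen⟩ := UniPivot.exists_generators T fun g r c hcr => by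
    have hsub : b.repr (ρ g (e c) - e c) r = 0 := by
      have h1 := hup g c
      rw [← hb, Module.Basis.mem_span_image] at h1
      rw [← hb]
      by_contra h0
      exact (not_lt.2 hcr) (h1 (Finsupp.mem_support_iff.2 h0))
    rw [hT, LinearMap.toMatrixAlgEquiv_apply, hb]
    rw [map_sub, Finsupp.sub_apply, sub_eq_zero] at hsub
    rw [hsub, ← hb, Module.Basis.repr_self, Matrix.one_apply, Finsupp.single_apply]
    simp [eq_comm]
  refine ⟨S, hS, fun g => ?_⟩
  obtain ⟨k, hk, hkg⟩ := hgen g
  rw [hT, hT] at hkg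
  exact ⟨k, hk, (LinearMap.toMatrixAlgEquiv b).injective hkg⟩

theorem card_le_pow {A : Subgroup P} (hA : ∀ a ∈ A, ∀ b ∈ A, a * b = b * a) (hA2 : ∀ a ∈ A, a ^ p = 1)
    {S : Finset P} (hS : closure (S : Set P) = A) : Nat.card A ≤ p ^ S.card := by
  classical
  have hAp : IsPGroup p A := fun a => ⟨1, Subtype.ext (by
    rw [pow_one, SubmonoidClass.coe_pow]; exact hA2 a a.2)⟩
  have hbot : frattini A = ⊥ := (PGroup.frattini_eq_bot_iff hAp).2
    ⟨⟨⟨fun a b => Subtype.ext (hA a a.2 b b.2)⟩⟩, fun a => Subtype.ext (hA2 a a.2)⟩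
  let S' : Finset A := S.subtype (· ∈ A)
  have hgen : closure (S' : Set A) = ⊤ := by
    refine map_injective A.subtype_injective ?_
    rw [MonoidHom.map_closure, ← MonoidHom.range_eq_map, Subgroup.range_subtype]
    refine Eq.trans (congrArg Subgroup.closure (Set.ext fun x => ?_)) hS
    constructor
    · rintro ⟨⟨y, hy⟩, hy', rfl⟩
      exact Finset.mem_subtype.1 hy'
    · exact fun hx => ⟨⟨x, hS ▸ subset_closure hx⟩, Finset.mem_subtype.2 hx, rfl⟩
  have h := PGroup.index_frattini_le_pow_card hAp hgen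
  rw [hbot, index_bot] at h
  exact h.trans (Nat.pow_le_pow_right (Fact.out : p.Prime).pos
    (by rw [Finset.card_subtype]; exact Finset.card_filter_le _ _))

theorem numeric {n k : ℕ} (h : n ≤ k) : n + n * n / 4 ≤ k * (k + 4) / 4 := by
  rw [Nat.le_div_iff_mul_le (by norm_num)]
  have := Nat.div_mul_le_self (n * n) 4
  have := Nat.mul_le_mul h h
  nlinarith

/-- Let p be an odd prime and P a finite p-group in which every normal abelian subgroup can be generated by k elements. Then every subgroup of P can be generated by at most ⌊k(k+4)/4⌋ elements. -/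
theorem result {P : Type*} [Group P] [Finite P] {p : ℕ} [Fact p.Prime]
    (hp : p ≠ 2) (hP : IsPGroup p P) (k : ℕ)
    (hab : ∀ A : Subgroup P, A.Normal → IsMulCommutative A → ∃ S : Finset P, S.card ≤ k ∧ Subgroup.closure (S : Set P) = A) :
    ∀ H : Subgroup P, ∃ S : Finset P, S.card ≤ k * (k + 4) / 4 ∧ Subgroup.closure (S : Set P) = H := by
  classical
  obtain ⟨A, -, hAmax⟩ := Finite.exists_le_maximal (p := fun B : Subgroup P =>
    B.Normal ∧ (∀ a ∈ B, ∀ b ∈ B, a * b = b * a) ∧ ∀ a ∈ B, a ^ p = 1) (a := (⊥ : Subgroup P))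
    ⟨inferInstance, fun a ha b hb => by rw [mem_bot.1 ha, mem_bot.1 hb],
      fun a ha => by rw [mem_bot.1 ha, one_pow]⟩
  obtain ⟨hAn, hA1, hA2⟩ := hAmax.prop
  haveI := hAn
  haveI hAc : IsMulCommutative A := ⟨⟨fun a b => Subtype.ext (hA1 a a.2 b b.2)⟩⟩
  have homega : ∀ x : P, x ^ p = 1 → x ∈ centralizer (A : Set P) → x ∈ A := fun x hx hxc =>
    OmegaOdd.mem_of_pow_eq_one hp hP hA1 hA2 (fun B h1 h2 h3 h4 => hAmax.le_of_ge ⟨h1, h3, h4⟩ h2) hx hxc
  obtain ⟨SA, hSA, hSAgen⟩ := hab A hAn hAc
  obtain ⟨n, hn⟩ := IsPGroup.iff_card.1 (hP.to_subgroup A)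
  have hnk : n ≤ k := by
    have := (hn ▸ card_le_pow hA1 hA2 hSAgen).trans (Nat.pow_le_pow_right (Fact.out : p.Prime).pos hSA)
    exact (Nat.pow_le_pow_iff_right (Fact.out : p.Prime).one_lt).1 this
  intro H
  letI : Module (ZMod p) (Additive A) := AddCommGroup.zmodModule fun a => Subtype.ext (hA2 _ a.toMul.2)
  let ρ := conjRep p A H
  obtain ⟨S, hS, hSgen⟩ := exists_generators_mod (hP.to_subgroup H) ρ
    (show Nat.card (Additive A) = p ^ n by rw [← hn]; rfl)
  set K := H ⊓ centralizer (A : Set P) with hK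
  have hKker : ∀ a b : H, ρ a = ρ b → ((a : P))⁻¹ * b ∈ K := by
    intro a b hab
    refine Subgroup.mem_inf.2 ⟨mul_mem (inv_mem a.2) b.2, mem_centralizer_iff.2 fun x hx => ?_⟩
    have h1 : (a : P) * x * (a : P)⁻¹ = (b : P) * x * (b : P)⁻¹ :=
      congrArg Subtype.val (congrArg Additive.toMul (LinearMap.congr_fun hab (Additive.ofMul ⟨x, hx⟩)))
    calc x * ((a : P)⁻¹ * b) = (a : P)⁻¹ * ((a : P) * x * (a : P)⁻¹) * b := by group
      _ = _ := by rw [h1]; group
  have hKΩ : ∀ z : K, z ^ p = 1 → z ∈ center K := fun z hz => mem_center_iff.2 fun g => Subtype.ext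
    ((mem_centralizer_iff.1 g.2.2 (z : P)
      (homega z (by rw [← SubmonoidClass.coe_pow, hz]; rfl) z.2.2)).symm)
  have hKcard : Nat.card {z : K // z ^ p = 1} ≤ p ^ n := by
    rw [← hn]
    refine Nat.card_le_card_of_injective (fun z => (⟨(z.1 : P),
      homega z.1 (by rw [← SubmonoidClass.coe_pow, z.2]; rfl) z.1.2.2⟩ : A)) fun a b h => ?_
    exact Subtype.ext (Subtype.ext (congrArg (fun w : A => (w : P)) h))
  obtain ⟨T, hT, hTgen⟩ := OmegaOdd.exists_generators_le hp (hP.to_subgroup K) hKΩ hKcard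
  refine ⟨S.image Subtype.val ∪ T.image Subtype.val, ?_, ?_⟩
  · refine (Finset.card_union_le _ _).trans ((Nat.add_le_add Finset.card_image_le Finset.card_image_le).trans ?_)
    rw [add_comm]
    exact (Nat.add_le_add hT hS).trans (numeric hnk)
  rw [Finset.coe_union, Finset.coe_image, Finset.coe_image, Subgroup.closure_union]
  have e1 : closure (Subtype.val '' (S : Set H)) = (closure (S : Set H)).map H.subtype :=
    (MonoidHom.map_closure H.subtype _).symm
  have e2 : closure (Subtype.val '' (T : Set K)) = K := by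
    rw [show (Subtype.val : K → P) = K.subtype from rfl, ← MonoidHom.map_closure, hTgen,
      ← MonoidHom.range_eq_map, Subgroup.range_subtype]
  rw [e1, e2]
  refine le_antisymm (sup_le (map_subtype_le _) inf_le_left) fun h hh => ?_
  obtain ⟨c, hc, hcg⟩ := hSgen ⟨h, hh⟩
  rw [show h = (c : P) * ((c : P)⁻¹ * h) by rw [mul_inv_cancel_left]]
  exact mul_mem (mem_sup_left ⟨c, hc, rfl⟩) (mem_sup_right (hKker c ⟨h, hh⟩ hcg))

end Cfsg.Agent.S4057
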