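import Cfsg.Statements.S4058
import Mathlib
import Cfsg.Agent.RealChar.Indicator
import Cfsg.Agent.Char.Real
import Cfsg.Agent.Char.Linear
import Cfsg.Agent.Char.Integrality
import Cfsg.Agent.PGroup.Frattini

set_option autoImplicit false
open Cfsg
open scoped commutatorElement

namespace Cfsg.Agent.S4058

theorem card_stab_le {G : Type*} [Group G] [Finite G] {χ : G → ℂ}
    (hχ : Cfsg.IsIrrCharacter G χ) (S : Set (G →* ℂˣ)) (hS : ∀ f ∈ S, ∀ g, (f g : ℂ) * χ g = χ g)
    {n : ℕ} (hn : χ 1 = n) : Nat.card S ≤ n ^ 2 := by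
  classical
  letI := Fintype.ofFinite G
  let K : Subgroup G :=
    { carrier := {g | ∀ f ∈ S, f g = 1}
      one_mem' := fun f _ => map_one f
      mul_mem' := fun ha hb f hf => by rw [map_mul, ha f hf, hb f hf, one_mul]
      inv_mem' := fun ha f hf => by rw [map_inv, ha f hf, inv_one] }
  haveI : K.Normal := ⟨fun a ha g f hf => by rw [map_mul, map_mul, ha f hf, mul_one, map_inv, mul_inv_cancel]⟩
  have h0 : ∀ g, g ∉ K → χ g = 0 := by
    intro g hg
    change ¬ ∀ f ∈ S, f g = 1 at hg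
    push Not at hg
    obtain ⟨f, hf, hfg⟩ := hg
    have h1 := hS f hf g
    have hz : ((f g : ℂ) - 1) * χ g = 0 := by rw [sub_mul, h1, one_mul, sub_self]
    rcases mul_eq_zero.mp hz with h | h
    · exact absurd (Units.ext (sub_eq_zero.mp h)) hfg
    · exact h
  have hstab : Nat.card S ≤ K.index := by
    haveI : Finite (G ⧸ K →* ℂˣ) := Char.monoidHom_complex_finite
    refine le_trans (Nat.card_le_card_of_injective (fun f : S => QuotientGroup.lift K f.1
      (fun g hg => MonoidHom.mem_ker.mpr (hg f.1 f.2))) fun a b h => Subtype.ext (MonoidHom.ext fun g => ?_)) ?_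
    · exact DFunLike.congr_fun h (g : G ⧸ K)
    · rw [Char.card_monoidHom_complex]
      exact Nat.le_of_dvd Nat.card_pos ((commutator (G ⧸ K)).index_dvd_card)
  refine hstab.trans ?_
  have hinner := Char.classInner_irr_self hχ
  have hre : ∑ g : G, ‖χ g‖ ^ 2 = (Nat.card G : ℝ) := by
    have h := Char.sum_mul_conj_eq_card_mul_classInner χ χ
    rw [hinner, mul_one] at h
    simp only [Complex.mul_conj'] at h
    exact_mod_cast h
  have hb : ∑ g : G, ‖χ g‖ ^ 2 ≤ (Nat.card K : ℝ) * (n : ℝ) ^ 2 := by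
    rw [← Finset.sum_filter_of_ne (p := fun g => g ∈ K) (fun g _ hne => by
      by_contra hg; exact hne (by rw [h0 g hg]; simp))]
    refine le_trans (Finset.sum_le_card_nsmul _ _ ((n : ℝ) ^ 2) fun g _ => ?_) ?_
    · refine pow_le_pow_left₀ (norm_nonneg _) ?_ 2
      have := Char.isCharacter_norm_le (Char.isCharacter_of_irr hχ) g
      rw [hn, Complex.natCast_re] at this
      exact this
    · rw [nsmul_eq_mul, ← Fintype.card_subtype, Nat.card_eq_fintype_card]
  rw [hre, ← K.card_mul_index] at hb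
  push_cast at hb
  have hpos : (0 : ℝ) < Nat.card K := Nat.cast_pos.mpr Nat.card_pos
  exact_mod_cast le_of_mul_le_mul_left hb hpos


/-- Let G be a finite 2-group with #(G/Φ(G)) ≥ 2^(2k+1). Then the number of elements x of G with x² = 1 is divisible by 2^(k+1). -/
theorem result {G : Type*} [Group G] [Finite G] (hG : IsPGroup 2 G) (k : ℕ)
    (hgen : 2 ^ (2 * k + 1) ≤ Nat.card (G ⧸ frattini G)) :
    2 ^ (k + 1) ∣ Nat.card {x : G // x ^ 2 = 1} := by
  classical
  letI := Fintype.ofFinite G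
  haveI : Fact (Nat.Prime 2) := ⟨Nat.prime_two⟩
  haveI : (frattini G).Normal := inferInstance
  let Λ := (G ⧸ frattini G) →* ℂˣ
  haveI : Finite Λ := Char.monoidHom_complex_finite
  have hΛsq : ∀ (f : Λ) (g : G), f ((g * g : G) : G ⧸ frattini G) = 1 := by
    intro f g
    rw [show ((g * g : G) : G ⧸ frattini G) = 1 from
      (QuotientGroup.eq_one_iff _).mpr (by rw [← pow_two]; exact PGroup.pow_mem_frattini hG g),
      map_one]
  have hΛcard : Nat.card Λ = Nat.card (G ⧸ frattini G) := by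
    have hc : commutator (G ⧸ frattini G) = ⊥ := by
      rw [eq_bot_iff, commutator_eq_closure, Subgroup.closure_le]
      rintro _ ⟨a, b, rfl⟩
      obtain ⟨a, rfl⟩ := QuotientGroup.mk'_surjective _ a
      obtain ⟨b, rfl⟩ := QuotientGroup.mk'_surjective _ b
      rw [← map_commutatorElement, SetLike.mem_coe, Subgroup.mem_bot]
      exact (QuotientGroup.eq_one_iff _).mpr (PGroup.commutatorElement_mem_frattini hG a b)
    rw [Char.card_monoidHom_complex, hc, Subgroup.index_bot]
  let tw : Λ → Cfsg.IrrCharacter G → Cfsg.IrrCharacter G := fun f χ =>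
    ⟨fun g => ((f.comp (QuotientGroup.mk' _)) g : ℂ) * (χ : G → ℂ) g,
      Char.isIrrCharacter_mul_monoidHom χ.2 _⟩
  letI : MulAction Λ (Cfsg.IrrCharacter G) :=
    { smul := tw
      one_smul := fun χ => Subtype.ext (funext fun g => one_mul _)
      mul_smul := fun a b χ => Subtype.ext (funext fun g => by
        show (((a * b).comp (QuotientGroup.mk' _)) g : ℂ) * (χ : G → ℂ) g =
          ((a.comp (QuotientGroup.mk' _)) g : ℂ) * (((b.comp (QuotientGroup.mk' _)) g : ℂ) * (χ : G → ℂ) g)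
        rw [← mul_assoc]; rfl) }
  have hν : ∀ χ : Cfsg.IrrCharacter G, ∃ z : ℤ, RealChar.fsNu (χ : G → ℂ) = z := fun χ => by
    rcases RealChar.fsNu_cases χ.2 with ⟨-, h⟩ | ⟨-, h | h⟩
    exacts [⟨0, by simp [h]⟩, ⟨1, by simp [h]⟩, ⟨-1, by simp [h]⟩]
  choose z hz using hν
  choose d hd hd1 hdvd using fun χ : Cfsg.IrrCharacter G => Char.irr_degree_dvd_card χ.2
  have htot : (Nat.card {x : G // x ^ 2 = 1} : ℤ) = ∑ χ : Cfsg.IrrCharacter G, z χ * (d χ : ℤ) := by
    have h := Char.card_sq_eq_one (G := G)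
    have h' : (Nat.card {x : G // x ^ 2 = 1} : ℂ) = ∑ χ : Cfsg.IrrCharacter G, (z χ : ℂ) * (d χ : ℂ) := by
      rw [show Nat.card {x : G // x ^ 2 = 1} = Nat.card {s : G // s * s = 1} from
        Nat.card_congr (Equiv.subtypeEquivRight fun x => by rw [pow_two]), h]
      refine Finset.sum_congr rfl fun χ _ => ?_
      rw [← hd1, ← hz, RealChar.fsNu_eq_sum]
    exact_mod_cast h'
  have hinv : ∀ (f : Λ) (χ : Cfsg.IrrCharacter G), z (f • χ) * (d (f • χ) : ℤ) = z χ * (d χ : ℤ) := by
    intro f χ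
    have h1 : RealChar.fsNu ((f • χ : Cfsg.IrrCharacter G) : G → ℂ) = RealChar.fsNu (χ : G → ℂ) := by
      rw [RealChar.fsNu_eq_sum, RealChar.fsNu_eq_sum]
      congr 1
      refine Finset.sum_congr rfl fun g _ => ?_
      show ((f ((g * g : G) : G ⧸ frattini G) : ℂˣ) : ℂ) * _ = _
      rw [hΛsq, Units.val_one, one_mul]
    have h2 : ((f • χ : Cfsg.IrrCharacter G) : G → ℂ) 1 = (χ : G → ℂ) 1 := by
      show ((f.comp (QuotientGroup.mk' _)) 1 : ℂ) * _ = _
      rw [map_one, Units.val_one, one_mul]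
    rw [hz, hz] at h1
    rw [hd1, hd1] at h2
    rw [show z (f • χ) = z χ by exact_mod_cast h1, show d (f • χ) = d χ by exact_mod_cast h2]
  obtain ⟨e, he⟩ := IsPGroup.iff_card.mp hG
  obtain ⟨dd, hdd'⟩ := IsPGroup.iff_card.mp (hG.to_quotient (frattini G))
  have hdd : 2 * k + 1 ≤ dd := (Nat.pow_le_pow_iff_right (one_lt_two (α := ℕ))).mp (hdd' ▸ hgen)
  let r := MulAction.orbitRel Λ (Cfsg.IrrCharacter G)
  have key : ((2 ^ (k + 1) : ℕ) : ℤ) ∣ ∑ χ : Cfsg.IrrCharacter G, z χ * (d χ : ℤ) := by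
    rw [← Finset.sum_fiberwise Finset.univ (fun χ => (Quotient.mk r χ : Quotient r))]
    refine Finset.dvd_sum fun q _ => ?_
    obtain ⟨χ, rfl⟩ := Quotient.mk_surjective q
    have hfib : ∀ ψ, ψ ∈ Finset.univ.filter (fun ψ => Quotient.mk r ψ = Quotient.mk r χ) ↔
        ψ ∈ MulAction.orbit Λ χ := by
      intro ψ
      rw [Finset.mem_filter, Quotient.eq]
      exact ⟨fun h => h.2, fun h => ⟨Finset.mem_univ _, h⟩⟩
    rw [Finset.sum_congr rfl (g := fun _ => z χ * (d χ : ℤ)) (fun ψ hψ => by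
      obtain ⟨f, rfl⟩ := (hfib ψ).mp hψ; exact hinv f χ), Finset.sum_const, nsmul_eq_mul]
    have hcard : (Finset.univ.filter (fun ψ => Quotient.mk r ψ = Quotient.mk r χ)).card =
        Nat.card (MulAction.orbit Λ χ) := by
      rw [Nat.card_eq_fintype_card, ← Set.toFinset_card]
      congr 1; ext ψ; rw [hfib, Set.mem_toFinset]
    rw [hcard, mul_comm (z χ) _, ← mul_assoc]
    refine Dvd.dvd.mul_right (show ((2 ^ (k + 1) : ℕ) : ℤ) ∣
      ((Nat.card (MulAction.orbit Λ χ)) : ℤ) * (d χ : ℤ) from ?_) _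
    rw [← Nat.cast_mul, Int.natCast_dvd_natCast]
    obtain ⟨j, -, hj⟩ := (Nat.dvd_prime_pow Nat.prime_two).mp (he ▸ hdvd χ)
    by_cases hjk : k < j
    · rw [hj]
      exact (pow_dvd_pow 2 hjk).trans (Dvd.intro_left _ rfl)
    · have hos : Nat.card (MulAction.orbit Λ χ) * Nat.card (MulAction.stabilizer Λ χ) = 2 ^ dd := by
        rw [← hdd', ← hΛcard, ← Nat.card_prod]
        exact Nat.card_congr (MulAction.orbitProdStabilizerEquivGroup Λ χ)
      obtain ⟨s, -, hs⟩ := (Nat.dvd_prime_pow Nat.prime_two).mp (hos ▸ Dvd.intro_left _ rfl :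
        Nat.card (MulAction.stabilizer Λ χ) ∣ 2 ^ dd)
      have hs2 : s ≤ 2 * j := by
        refine (Nat.pow_le_pow_iff_right (one_lt_two (α := ℕ))).mp ?_
        rw [pow_mul', ← hs, ← hj]
        let ι : Λ → (G →* ℂˣ) := fun f => f.comp (QuotientGroup.mk' _)
        have hι : Function.Injective ι := fun a b h =>
          MonoidHom.cancel_right (QuotientGroup.mk'_surjective _) |>.mp h
        refine le_trans (le_of_eq ?_) (card_stab_le χ.2 (ι '' (MulAction.stabilizer Λ χ : Set Λ))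
          ?_ (hd1 χ))
        · rw [Nat.card_image_of_injective hι]; rfl
        · rintro _ ⟨f, hf, rfl⟩ g
          exact congrFun (congrArg Subtype.val (MulAction.mem_stabilizer_iff.mp hf)) g
      rw [hs] at hos
      have hsd : s ≤ dd := (Nat.pow_dvd_pow_iff_le_right (by norm_num)).mp (Dvd.intro_left _ hos)
      have horb : Nat.card (MulAction.orbit Λ χ) = 2 ^ (dd - s) :=
        Nat.eq_of_mul_eq_mul_right (pow_pos two_pos s) (by
          rw [hos, ← pow_add, Nat.sub_add_cancel hsd])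
      rw [horb, hj, ← pow_add]
      exact pow_dvd_pow 2 (by omega)
  rw [← htot, Int.natCast_dvd_natCast] at key
  exact key

end Cfsg.Agent.S4058
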