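import Cfsg.Statements.S4064
import Mathlib
import Cfsg.Agent.FGS75.TICent.Final

set_option autoImplicit false
open Cfsg

namespace Cfsg.Agent.S4064


/-- Let G be a finite group in which the centralizer of every element meets each of its conjugates by elements outside its normalizer trivially. Then G is nilpotent; or G is a Frobenius group with a complement that is cyclic or isomorphic to the direct product of a cyclic group of odd order and the quaternion group of order 8; or G is isomorphic to PSL₂(2ⁿ) for some n ≥ 2. -/
theorem result {G : Type*} [Group G] [Finite G] (hTI : ∀ x : G, Cfsg.IsTISubset (Subgroup.centralizer ({x} : Set G) : Set G)) :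
    Group.IsNilpotent G ∨
    (∃ H : Subgroup G, Cfsg.IsFrobeniusComplement H ∧
      (IsCyclic H ∨ ∃ m : ℕ, Odd m ∧ Nonempty (H ≃* Multiplicative (ZMod m) × QuaternionGroup 2))) ∨
    (∃ n : ℕ, 2 ≤ n ∧ Nonempty (G ≃* Matrix.ProjectiveSpecialLinearGroup (Fin 2) (GaloisField 2 n))) := by
  open FGS75.TICent in
  by_cases hs : Group.IsSolvable G
  · haveI := hs
    rcases solvable_case (G := G) hTI with h | h
    · exact Or.inl h
    · exact Or.inr (Or.inl h)
  · obtain ⟨S, z, hd⟩ := exists_dat (G := G) hTI hs
    exact Or.inr (Or.inr hd.psl2)

end Cfsg.Agent.S4064
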