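import Cfsg.Statements.S4065
import Mathlib
import Cfsg.Agent.Elusive.TwoByTwo

set_option autoImplicit false
open Cfsg

namespace Cfsg.Agent.S4065

theorem isTISubset_centralizer_of_ca {G : Type*} [Group G]
    (hca : ∀ x : G, x ≠ 1 → ∀ a b : G, a * x = x * a → b * x = x * b → a * b = b * a) (x : G) :
    Cfsg.IsTISubset (Subgroup.centralizer ({x} : Set G) : Set G) := by
  intro g hg c hc hgc
  by_contra hc1
  apply hg
  by_cases hx : x = 1
  · have htop : Subgroup.centralizer ({x} : Set G) = ⊤ := eq_top_iff.mpr fun u _ =>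
      Subgroup.mem_centralizer_singleton_iff.mpr (by rw [hx, mul_one, one_mul])
    rw [htop]
    exact Subgroup.le_normalizer (Subgroup.mem_top g)
  have key : ∀ d : G, d ≠ 1 → d ∈ Subgroup.centralizer ({x} : Set G) →
      Subgroup.centralizer ({d} : Set G) = Subgroup.centralizer ({x} : Set G) := by
    intro d hd hdx
    have hdx' := Subgroup.mem_centralizer_singleton_iff.mp hdx
    ext a
    rw [Subgroup.mem_centralizer_singleton_iff, Subgroup.mem_centralizer_singleton_iff]
    exact ⟨fun ha => hca d hd a x ha hdx'.symm, fun ha => hca x hx a d ha hdx'⟩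
  have hd1 : g * c * g⁻¹ ≠ 1 := fun e => hc1 (conj_eq_one_iff.mp e)
  have e1 := key c hc1 hc
  have e2 := key _ hd1 hgc
  rw [Subgroup.mem_normalizer_iff]
  intro a
  conv_lhs => rw [← e1]
  rw [← e2, Subgroup.mem_centralizer_singleton_iff, Subgroup.mem_centralizer_singleton_iff]
  constructor
  · intro h
    calc g * a * g⁻¹ * (g * c * g⁻¹) = g * (a * c) * g⁻¹ := by group
      _ = g * c * g⁻¹ * (g * a * g⁻¹) := by rw [h]; group
  · intro h
    calc a * c = g⁻¹ * (g * a * g⁻¹ * (g * c * g⁻¹)) * g := by group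
      _ = c * a := by rw [h]; group


/-- Let F be a finite field with 2ⁿ elements, n ≥ 2. In PSL₂(F) the centralizer of every element meets each of its conjugates by elements outside its normalizer trivially. -/
theorem result (n : ℕ) (hn : 2 ≤ n)
    (x : Matrix.ProjectiveSpecialLinearGroup (Fin 2) (GaloisField 2 n)) :
    Cfsg.IsTISubset (Subgroup.centralizer ({x} : Set (Matrix.ProjectiveSpecialLinearGroup (Fin 2) (GaloisField 2 n))) :
      Set (Matrix.ProjectiveSpecialLinearGroup (Fin 2) (GaloisField 2 n))) := by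
  have hn0 : n ≠ 0 := by omega
  refine isTISubset_centralizer_of_ca (fun y hy a b ha hb => ?_) x
  set Z := Subgroup.center (Matrix.SpecialLinearGroup (Fin 2) (GaloisField 2 n))
  have hZ : Z = ⊥ := by
    rw [eq_bot_iff]
    intro A hA
    obtain ⟨r, hr, hrA⟩ := Matrix.SpecialLinearGroup.mem_center_iff.mp hA
    rw [Fintype.card_fin] at hr
    haveI : CharP (GaloisField 2 n) 2 := inferInstance
    have hr1 : r = 1 := by
      have h2 : (2 : GaloisField 2 n) = 0 := CharTwo.two_eq_zero
      have : (r - 1) ^ 2 = 0 := by linear_combination hr - (r - 1) * h2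
      exact sub_eq_zero.mp (pow_eq_zero_iff (by norm_num) |>.mp this)
    rw [Subgroup.mem_bot]
    refine Subtype.ext ?_
    rw [← hrA, hr1, map_one]
    rfl
  obtain ⟨A, rfl⟩ := QuotientGroup.mk'_surjective Z y
  obtain ⟨M, rfl⟩ := QuotientGroup.mk'_surjective Z a
  obtain ⟨N, rfl⟩ := QuotientGroup.mk'_surjective Z b
  have hinj : Function.Injective (QuotientGroup.mk' Z) :=
    (MonoidHom.ker_eq_bot_iff _).mp (by rw [QuotientGroup.ker_mk', hZ])
  rw [← map_mul, ← map_mul] at ha hb ⊢
  have ha' := congrArg Subtype.val (hinj ha)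
  have hb' := congrArg Subtype.val (hinj hb)
  simp only [Matrix.SpecialLinearGroup.coe_mul] at ha' hb'
  congr 1
  refine Subtype.ext ?_
  simp only [Matrix.SpecialLinearGroup.coe_mul]
  refine Elusive.commute_of_commute_two (Z := (A : Matrix (Fin 2) (Fin 2) (GaloisField 2 n))) (fun z hz => hy ?_) ha'.symm hb'.symm
  have hA : A ∈ Z := by
    rw [Subgroup.mem_center_iff]
    intro B
    refine Subtype.ext ?_
    simp only [Matrix.SpecialLinearGroup.coe_mul, hz]
    simp
  exact (QuotientGroup.eq_one_iff A).mpr hA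

end Cfsg.Agent.S4065
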