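import Cfsg.Statements.S4066
import Mathlib
import Cfsg.Agent.Cores.Fitting

set_option autoImplicit false
open Cfsg
open scoped IsMulCommutative

namespace Cfsg.Agent.S4066

theorem ti_subgroup {G : Type*} [Group G] (hTI : ∀ x : G, Cfsg.IsTISubset (Subgroup.centralizer ({x} : Set G) : Set G))
    (C : Subgroup G) (y : C) : Cfsg.IsTISubset (Subgroup.centralizer ({y} : Set C) : Set C) := by
  intro g hg a ha hga
  apply Subtype.ext
  refine hTI (y : G) (g : G) ?_ (a : G) ?_ ?_
  · intro hn
    apply hg
    rw [Subgroup.mem_normalizer_iff] at hn ⊢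
    intro h
    have := hn (h : G)
    simp only [SetLike.mem_coe, Subgroup.mem_centralizer_singleton_iff, Subtype.ext_iff,
      Subgroup.coe_mul, Subgroup.coe_inv] at this ⊢
    exact this
  · simp only [SetLike.mem_coe, Subgroup.mem_centralizer_singleton_iff] at ha ⊢
    exact congrArg Subtype.val ha
  · simp only [SetLike.mem_coe, Subgroup.mem_centralizer_singleton_iff] at hga ⊢
    exact congrArg Subtype.val hga

theorem mem_fitting_of_normal_centralizers {G : Type*} [Group G] [Finite G]
    (h : ∀ y : G, (Subgroup.centralizer ({y} : Set G)).Normal) (y : G) :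
    y ∈ Cfsg.fittingSubgroup G := by
  haveI : (Subgroup.normalClosure ({y} : Set G)).Normal := Subgroup.normalClosure_normal
  haveI : IsMulCommutative (Subgroup.normalClosure ({y} : Set G)) := by
    refine Subgroup.isMulCommutative_closure ?_
    intro a ha b hb
    simp only [Group.mem_conjugatesOfSet_iff, isConj_iff, Set.mem_singleton_iff] at ha hb
    obtain ⟨_, ha0, c, hc⟩ := ha
    obtain ⟨_, hb0, d, hd⟩ := hb
    rw [ha0] at hc
    rw [hb0] at hd
    subst hc hd
    have hy : ∀ e : G, e * y * e⁻¹ * y = y * (e * y * e⁻¹) := fun e =>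
      Subgroup.mem_centralizer_singleton_iff.mp
        ((h y).conj_mem y (Subgroup.mem_centralizer_singleton_iff.mpr rfl) e)
    have key := hy (d⁻¹ * c)
    calc c * y * c⁻¹ * (d * y * d⁻¹)
        = d * ((d⁻¹ * c) * y * (d⁻¹ * c)⁻¹ * y) * d⁻¹ := by group
      _ = d * (y * ((d⁻¹ * c) * y * (d⁻¹ * c)⁻¹)) * d⁻¹ := by rw [key]
      _ = d * y * d⁻¹ * (c * y * c⁻¹) := by group
  haveI : Group.IsNilpotent (Subgroup.normalClosure ({y} : Set G)) := CommGroup.isNilpotent
  exact Cfsg.Agent.Cores.le_fittingSubgroup (N := Subgroup.normalClosure ({y} : Set G))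
    inferInstance inferInstance
    (Subgroup.subset_normalClosure rfl)


/-- Let G be a finite group in which the centralizer of every element meets each of its conjugates by elements outside its normalizer trivially. Then any two distinct Sylow p-subgroups of G, for any prime p, intersect trivially. -/
theorem result {G : Type*} [Group G] [Finite G] (hTI : ∀ x : G, Cfsg.IsTISubset (Subgroup.centralizer ({x} : Set G) : Set G))
    {p : ℕ} [Fact p.Prime] (P Q : Sylow p G) (hPQ : P ≠ Q) : (P : Subgroup G) ⊓ (Q : Subgroup G) = ⊥ := by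
  by_contra hne
  apply hPQ
  have hp : p.Prime := Fact.out
  obtain ⟨d, hd, hd1⟩ := (Subgroup.bot_or_exists_ne_one _).resolve_left hne
  -- nontrivial central elements
  have hcen : ∀ R : Sylow p G, d ∈ (R : Subgroup G) → ∃ z : G, z ≠ 1 ∧ z ∈ (R : Subgroup G) ∧
      ∀ r ∈ (R : Subgroup G), r * z = z * r := by
    intro R hdR
    haveI : Nontrivial (R : Subgroup G) := ⟨⟨⟨d, hdR⟩, 1, fun h => hd1 (congrArg Subtype.val h)⟩⟩
    haveI := R.isPGroup'.center_nontrivial
    obtain ⟨⟨⟨z, hz⟩, hzc⟩, hz1⟩ := exists_ne (1 : Subgroup.center (R : Subgroup G))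
    exact ⟨z, fun h => hz1 (Subtype.ext (Subtype.ext h)), hz,
      fun r hr => congrArg Subtype.val (Subgroup.mem_center_iff.mp hzc ⟨r, hr⟩)⟩
  obtain ⟨z, hz1, hzP, hz⟩ := hcen P hd.1
  set C := Subgroup.centralizer ({z} : Set G) with hC
  have hPC : (P : Subgroup G) ≤ C := fun r hr => Subgroup.mem_centralizer_singleton_iff.mpr (hz r hr)
  have hQC : (Q : Subgroup G) ≤ C := by
    obtain ⟨g, hg⟩ := MulAction.exists_smul_eq G P Q
    have hmem : ∀ r ∈ (Q : Subgroup G), g⁻¹ * r * g ∈ (P : Subgroup G) := by
      intro r hr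
      rw [← hg, Sylow.coe_subgroup_smul, Subgroup.mem_pointwise_smul_iff_inv_smul_mem] at hr
      simpa [MulAut.smul_def, mul_assoc] using hr
    have hgn : g⁻¹ ∈ Subgroup.normalizer (C : Set G) := by
      by_contra hn
      refine hd1 (hTI z g⁻¹ hn d (hPC hd.1) ?_)
      simpa [mul_assoc] using hPC (hmem d hd.2)
    intro r hr
    have := (Subgroup.mem_normalizer_iff.mp hgn r).mpr (by simpa [mul_assoc] using hPC (hmem r hr))
    exact this
  let zC : C := ⟨z, Subgroup.mem_centralizer_singleton_iff.mpr rfl⟩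
  have hnorm : ∀ y : C, (Subgroup.centralizer ({y} : Set C)).Normal := by
    intro y
    refine ⟨fun a ha g => ?_⟩
    have hzy : zC ∈ Subgroup.centralizer ({y} : Set C) := Subgroup.mem_centralizer_singleton_iff.mpr
      (Subtype.ext (Subgroup.mem_centralizer_singleton_iff.mp y.2).symm)
    have hgn : g ∈ Subgroup.normalizer ((Subgroup.centralizer ({y} : Set C)) : Set C) := by
      by_contra hn
      refine hz1 (congrArg Subtype.val (ti_subgroup hTI C y g hn zC hzy ?_))
      have : g * zC * g⁻¹ = zC := by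
        apply Subtype.ext
        show (g : G) * z * (g : G)⁻¹ = z
        rw [Subgroup.mem_centralizer_singleton_iff.mp g.2, mul_inv_cancel_right]
      rw [this]; exact hzy
    exact (Subgroup.mem_normalizer_iff.mp hgn a).mp ha
  haveI : Group.IsNilpotent C := Cfsg.Agent.Cores.fittingSubgroup_eq_top_iff.mp
    (eq_top_iff.mpr fun y _ => mem_fitting_of_normal_centralizers hnorm y)
  have hall : ∀ R : Sylow p C, (R : Subgroup C).Normal := fun R =>
    Sylow.normal_of_normalizerCondition Group.normalizerCondition_of_isNilpotent R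
  haveI := hall (P.subtype hPC)
  letI := Sylow.unique_of_normal (P.subtype hPC) inferInstance
  exact Sylow.subtype_injective (Subsingleton.elim (P.subtype hPC) (Q.subtype hQC))

end Cfsg.Agent.S4066
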