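import Cfsg.Statements.S4067
import Mathlib
import Cfsg.Agent.Lib.ClassSize
import Cfsg.Agent.FGS75.ClassTwo
import Cfsg.Agent.PGroup.Frattini

set_option autoImplicit false
open Cfsg
open scoped commutatorElement

namespace Cfsg.Agent.S4067

theorem card_orbit_eq_of_class {G : Type*} [Group G] [Finite G] (x : G) :
    Nat.card (ConjClasses.mk x).carrier ≤ Nat.card (MulAction.orbit (MulAut G) x) := by
  refine Nat.card_mono (Set.toFinite _) fun y hy => ?_
  rw [ConjClasses.mem_carrier_iff_mk_eq, ConjClasses.mk_eq_mk_iff_isConj] at hy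
  obtain ⟨g, hg⟩ := isConj_iff.mp hy.symm
  exact ⟨MulAut.conj g, hg⟩

theorem two_classes {G : Type*} [Group G] [Finite G] {x y : G}
    (hy : y ∈ MulAction.orbit (MulAut G) x) (hne : y ∉ (ConjClasses.mk x).carrier) :
    (Subgroup.centralizer ({x} : Set G)).index + (Subgroup.centralizer ({y} : Set G)).index
      ≤ Nat.card (MulAction.orbit (MulAut G) x) := by
  rw [← ClassSize.natCard_carrier, ← ClassSize.natCard_carrier, Nat.card_coe_set_eq,
    Nat.card_coe_set_eq, Nat.card_coe_set_eq, ← Set.ncard_union_eq ?_ (Set.toFinite _) (Set.toFinite _)]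
  · refine Set.ncard_le_ncard ?_ (Set.toFinite _)
    rintro u (hu | hu)
    · rw [ConjClasses.mem_carrier_iff_mk_eq, ConjClasses.mk_eq_mk_iff_isConj] at hu
      obtain ⟨g, hg⟩ := isConj_iff.mp hu.symm
      exact ⟨MulAut.conj g, hg⟩
    · rw [ConjClasses.mem_carrier_iff_mk_eq, ConjClasses.mk_eq_mk_iff_isConj] at hu
      obtain ⟨g, hg⟩ := isConj_iff.mp hu.symm
      obtain ⟨φ, hφ⟩ := hy
      refine ⟨MulAut.conj g * φ, ?_⟩
      show MulAut.conj g (φ x) = u
      rw [show φ x = y from hφ]
      exact hg
  · rw [Set.disjoint_left]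
    intro u hu hu'
    apply hne
    rw [ConjClasses.mem_carrier_iff_mk_eq] at hu hu' ⊢
    exact hu'.symm.trans hu

/-- The subgroup generated by the centre and the elements with small orbit is proper. -/
theorem closure_ne_top {G : Type*} [Group G] [Finite G] (hna : ¬ IsMulCommutative G) {p : ℕ}
    [hp : Fact p.Prime] (hpmin : ∀ d : ℕ, d ∣ Nat.card G → 1 < d → p ≤ d)
    (hcard : p * p ≤ (Subgroup.center G).index) :
    Subgroup.closure ((Subgroup.center G : Set G) ∪
      {x : G | x ∉ Subgroup.center G ∧ Nat.card (MulAction.orbit (MulAut G) x) ≤ p}) ≠ ⊤ := by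
  classical
  intro htop
  set Z := Subgroup.center G
  set bad := {x : G | x ∉ Z ∧ Nat.card (MulAction.orbit (MulAut G) x) ≤ p}
  -- facts about a small orbit
  have hidx : ∀ x ∈ bad, (Subgroup.centralizer ({x} : Set G)).index = p ∧
      MulAction.orbit (MulAut G) x = (ConjClasses.mk x).carrier := by
    rintro x ⟨hxZ, hxo⟩
    have hd : (Subgroup.centralizer ({x} : Set G)).index ∣ Nat.card G := Subgroup.index_dvd_card _
    have h1 : 1 < (Subgroup.centralizer ({x} : Set G)).index := by
      refine Nat.lt_of_le_of_ne (Nat.pos_of_ne_zero Subgroup.index_ne_zero_of_finite) fun e => hxZ ?_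
      have := Subgroup.index_eq_one.mp e.symm
      exact Subgroup.mem_center_iff.mpr fun g =>
        Subgroup.mem_centralizer_singleton_iff.mp (this ▸ Subgroup.mem_top g :
          g ∈ Subgroup.centralizer ({x} : Set G))
    have hle := card_orbit_eq_of_class x
    rw [ClassSize.natCard_carrier] at hle
    refine ⟨le_antisymm (hle.trans hxo) (hpmin _ hd h1), ?_⟩
    refine (Set.eq_of_subset_of_ncard_le ?_ ?_ (Set.toFinite _)).symm
    · intro y hy
      rw [ConjClasses.mem_carrier_iff_mk_eq, ConjClasses.mk_eq_mk_iff_isConj] at hy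
      obtain ⟨g, hg⟩ := isConj_iff.mp hy.symm
      exact ⟨MulAut.conj g, hg⟩
    · rw [← Nat.card_coe_set_eq, ← Nat.card_coe_set_eq, ClassSize.natCard_carrier]
      exact hxo.trans (hpmin _ hd h1)
  -- class two
  have hcen : commutator G ≤ Z := by
    suffices Subgroup.centralizer (commutator G : Set G) = ⊤ from fun u hu =>
      Subgroup.mem_center_iff.mpr fun g => (Subgroup.mem_centralizer_iff.mp (this ▸ Subgroup.mem_top g :
        g ∈ Subgroup.centralizer (commutator G : Set G)) u hu).symm
    rw [eq_top_iff, ← htop, Subgroup.closure_le]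
    rintro x (hx | hx)
    · exact Subgroup.mem_centralizer_iff.mpr fun u _ => Subgroup.mem_center_iff.mp hx u
    · obtain ⟨hi, -⟩ := hidx x hx
      have hmin : (Nat.card G).minFac = p := by
        have hd : (Subgroup.centralizer ({x} : Set G)).index ∣ Nat.card G := Subgroup.index_dvd_card _
        rw [hi] at hd
        refine le_antisymm (Nat.minFac_le_of_dvd hp.out.two_le hd) (hpmin _ (Nat.minFac_dvd _) ?_)
        exact (Nat.minFac_prime fun e => by rw [e] at hd; exact hp.out.ne_one (Nat.dvd_one.mp hd)).one_lt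
      haveI hn : (Subgroup.centralizer ({x} : Set G)).Normal :=
        Subgroup.normal_of_index_eq_minFac_card (hi.trans hmin.symm)
      haveI : IsCyclic (G ⧸ Subgroup.centralizer ({x} : Set G)) := isCyclic_of_prime_card (p := p) hi
      have hG' : commutator G ≤ Subgroup.centralizer ({x} : Set G) := by
        rw [commutator_eq_closure, Subgroup.closure_le]
        rintro _ ⟨a, b, rfl⟩
        rw [SetLike.mem_coe, ← QuotientGroup.eq_one_iff, ← QuotientGroup.mk'_apply,
          map_commutatorElement, commutatorElement_eq_one_iff_mul_comm]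
        exact IsMulCommutative.is_comm.comm _ _
      exact Subgroup.mem_centralizer_iff.mpr fun u hu =>
        Subgroup.mem_centralizer_singleton_iff.mp (hG' hu)
  have hc : ∀ a b g : G, g * ⁅a, b⁆ = ⁅a, b⁆ * g := fun a b =>
    Subgroup.mem_center_iff.mp (hcen (Subgroup.commutator_mem_commutator (Subgroup.mem_top a) (Subgroup.mem_top b)))
  have hmul_left : ∀ a b c : G, ⁅a * b, c⁆ = ⁅a, c⁆ * ⁅b, c⁆ := fun a b c => by
    calc ⁅a * b, c⁆ = a * ⁅b, c⁆ * a⁻¹ * ⁅a, c⁆ := by simp only [commutatorElement_def]; group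
      _ = ⁅a, c⁆ * ⁅b, c⁆ := by rw [hc b c a, mul_inv_cancel_right, hc b c]
  -- the commutators of a bad element
  let φ : G → (G →* G) := fun x =>
    MonoidHom.mk' (fun g => ⁅g, x⁆) (fun a b => hmul_left a b x)
  have hrange : ∀ x ∈ bad, Nat.card (φ x).range = p := by
    intro x hx
    rw [← Subgroup.index_ker, ← (hidx x hx).1]
    congr 1
    ext g
    rw [MonoidHom.mem_ker, Subgroup.mem_centralizer_singleton_iff]
    exact commutatorElement_eq_one_iff_mul_comm
  have hxp : ∀ x ∈ bad, x ^ p ∈ Z := by
    intro x hx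
    refine Subgroup.mem_center_iff.mpr fun g => ?_
    have h1 : ⁅g, x⁆ ^ p = 1 := by
      have := pow_card_eq_one' (x := (⟨⁅g, x⁆, g, rfl⟩ : (φ x).range))
      rw [hrange x hx] at this
      exact congrArg Subtype.val this
    have h2 : ⁅x, g⁆ ^ p = 1 := by rw [FGS75.comm_inv_eq g x, inv_pow, h1, inv_one]
    have := FGS75.comm_pow_left x g (hc x g) p
    rw [h2, commutatorElement_eq_one_iff_mul_comm] at this
    exact this.symm
  have hexp : ∀ y : G, y ^ p ∈ Z := by
    intro y
    have hy : y ∈ Subgroup.closure ((Z : Set G) ∪ bad) := htop ▸ Subgroup.mem_top y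
    induction hy using Subgroup.closure_induction with
    | mem u hu => rcases hu with hu | hu
                  · exact pow_mem hu p
                  · exact hxp u hu
    | one => rw [one_pow]; exact one_mem _
    | mul u v _ _ hu hv =>
      rw [FGS75.mul_pow_central u v (hc v u) p]
      exact mul_mem (mul_mem hu hv)
        (pow_mem (hcen (Subgroup.commutator_mem_commutator (Subgroup.mem_top v) (Subgroup.mem_top u))) _)
    | inv u _ hu => rw [inv_pow]; exact inv_mem hu
  -- `Z` has a unique subgroup of order `p`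
  obtain ⟨x₀, hx₀⟩ : ∃ x, x ∈ bad := by
    by_contra h
    push Not at h
    rw [show bad = ∅ from Set.eq_empty_iff_forall_notMem.mpr h, Set.union_empty, Subgroup.closure_eq] at htop
    have : Z.index = 1 := Subgroup.index_eq_one.mpr htop
    have := hp.out.two_le
    nlinarith
  set L := (φ x₀).range
  have hLZ : L ≤ Z := by
    rintro _ ⟨g, rfl⟩
    exact hcen (Subgroup.commutator_mem_commutator (Subgroup.mem_top g) (Subgroup.mem_top x₀))
  have hZp : ∀ z ∈ Z, z ^ p = 1 → z ∈ L := by
    intro z hz hzp
    by_contra hzL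
    have hz1 : z ≠ 1 := fun e => hzL (e ▸ one_mem _)
    -- a functional on `G ⧸ Z` not vanishing at `x₀`
    have hQc : ∀ a b : G ⧸ Z, a * b = b * a := by
      intro a b
      obtain ⟨a, rfl⟩ := QuotientGroup.mk'_surjective Z a
      obtain ⟨b, rfl⟩ := QuotientGroup.mk'_surjective Z b
      rw [← commutatorElement_eq_one_iff_mul_comm, ← map_commutatorElement]
      exact (QuotientGroup.eq_one_iff _).mpr
        (hcen (Subgroup.commutator_mem_commutator (Subgroup.mem_top a) (Subgroup.mem_top b)))
    have hQp : ∀ a : G ⧸ Z, a ^ p = 1 := by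
      intro a
      obtain ⟨a, rfl⟩ := QuotientGroup.mk'_surjective Z a
      rw [← map_pow]
      exact (QuotientGroup.eq_one_iff _).mpr (hexp a)
    have hQ : IsPGroup p (G ⧸ Z) := fun a => ⟨1, by rw [pow_one]; exact hQp a⟩
    have hcb : commutator (G ⧸ Z) ≤ ⊥ := by
      rw [commutator_eq_closure, Subgroup.closure_le]
      rintro _ ⟨a, b, rfl⟩
      exact commutatorElement_eq_one_iff_mul_comm.mpr (hQc a b)
    obtain ⟨M, hM, -, hxM⟩ := PGroup.exists_isCoatom_not_mem hp.out hcb (fun a => hQp a)
      (x := QuotientGroup.mk' Z x₀) (fun h => hx₀.1 ((QuotientGroup.eq_one_iff _).mp h))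
    haveI := PGroup.normal_of_isCoatom hQ hM
    have hMi := PGroup.index_of_isCoatom hQ hM
    have hzo : Nat.card (Subgroup.zpowers z) = p := by
      rw [Nat.card_zpowers, orderOf_eq_prime hzp hz1]
    let e : (G ⧸ Z) ⧸ M ≃* Subgroup.zpowers z := mulEquivOfPrimeCardEq hMi hzo
    let f : G →* G := (Subgroup.zpowers z).subtype.comp
      (e.toMonoidHom.comp ((QuotientGroup.mk' M).comp (QuotientGroup.mk' Z)))
    have hfZ : ∀ g, f g ∈ Z := fun g => Subgroup.zpowers_le.mpr hz (e _).2
    have hf1 : ∀ u ∈ Z, f u = 1 := by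
      intro u hu
      simp only [f, MonoidHom.comp_apply, show QuotientGroup.mk' Z u = 1 from
        (QuotientGroup.eq_one_iff u).mpr hu, map_one]
    let τ : G →* G := MonoidHom.mk' (fun g => g * f g) fun a b => by
      show a * b * f (a * b) = a * f a * (b * f b)
      rw [map_mul]
      have := Subgroup.mem_center_iff.mp (hfZ a) b
      calc a * b * (f a * f b) = a * (b * f a) * f b := by group
        _ = a * f a * (b * f b) := by rw [this]; group
    have hτ : Function.Injective τ := by
      rw [injective_iff_map_eq_one]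
      intro g hg
      have hg' : g = (f g)⁻¹ := eq_inv_of_mul_eq_one_left hg
      have hgZ : g ∈ Z := hg' ▸ inv_mem (hfZ g)
      rw [hg', hf1 g hgZ, inv_one]
    let α : MulAut G := MulEquiv.ofBijective τ ⟨hτ, Finite.injective_iff_surjective.mp hτ⟩
    have hmem : x₀ * f x₀ ∈ (ConjClasses.mk x₀).carrier := (hidx x₀ hx₀).2 ▸ ⟨α, rfl⟩
    rw [ConjClasses.mem_carrier_iff_mk_eq, ConjClasses.mk_eq_mk_iff_isConj] at hmem
    obtain ⟨g, hg⟩ := isConj_iff.mp hmem.symm
    have hfL : f x₀ ∈ L := ⟨g, by
      show ⁅g, x₀⁆ = f x₀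
      rw [commutatorElement_def, hg]
      rw [Subgroup.mem_center_iff.mp (hfZ x₀) x₀, mul_inv_cancel_right]⟩
    have hfne : f x₀ ≠ 1 := by
      intro h1
      have h1' : e (QuotientGroup.mk' M (QuotientGroup.mk' Z x₀)) = 1 := Subtype.ext h1
      rw [map_eq_one_iff _ e.injective] at h1'
      exact hxM ((QuotientGroup.eq_one_iff _).mp h1')
    apply hzL
    have hle : Subgroup.zpowers (f x₀) ≤ Subgroup.zpowers z := Subgroup.zpowers_le.mpr (e _).2
    have heq : Subgroup.zpowers (f x₀) = Subgroup.zpowers z := Subgroup.eq_of_le_of_card_ge hle (by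
      rw [hzo, Nat.card_zpowers, orderOf_eq_prime (by
        have := Subgroup.orderOf_dvd_natCard _ (e (QuotientGroup.mk' M (QuotientGroup.mk' Z x₀))).2
        rw [hzo] at this
        exact orderOf_dvd_iff_pow_eq_one.mp this) hfne])
    have : z ∈ Subgroup.zpowers (f x₀) := heq ▸ Subgroup.mem_zpowers z
    exact Subgroup.zpowers_le.mpr hfL this
  have hLcard : Nat.card L = p := hrange x₀ hx₀
  obtain ⟨⟨ζ, hζL⟩, hζo⟩ := exists_prime_orderOf_dvd_card' (G := L) p (dvd_of_eq hLcard.symm)
  rw [Subgroup.orderOf_mk] at hζo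
  have hLζ : L = Subgroup.zpowers ζ := (Subgroup.eq_of_le_of_card_ge (Subgroup.zpowers_le.mpr hζL)
    (by rw [hLcard, Nat.card_zpowers, hζo])).symm
  have hcommL : ∀ a b : G, ⁅a, b⁆ ∈ Subgroup.zpowers ζ := fun a b => by
    rw [← hLζ]
    refine hZp _ (hcen (Subgroup.commutator_mem_commutator (Subgroup.mem_top a) (Subgroup.mem_top b))) ?_
    have h1 := FGS75.comm_pow_left a b (hc a b) p
    rw [← h1, commutatorElement_eq_one_iff_mul_comm]
    exact (Subgroup.mem_center_iff.mp (hexp a) b).symm
  have hζp : ζ ^ p = 1 := hζo ▸ pow_orderOf_eq_one ζ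
  have hζZ : ζ ∈ Z := hLZ hζL
  have hζc : ∀ g : G, g * ζ = ζ * g := Subgroup.mem_center_iff.mp hζZ
  -- `ζ ^ u` for `u : ZMod p`
  let ez : ZMod p → G := fun u => ζ ^ u.val
  have hez : ∀ u v, ez (u + v) = ez u * ez v := fun u v => by
    simp only [ez, ← pow_add, ZMod.val_add]
    conv_rhs => rw [pow_eq_pow_mod _ hζp]
  have hez0 : ez 0 = 1 := by simp [ez]
  have hez_inj : ∀ u v, ez u = ez v → u = v := fun u v h => by
    have := pow_inj_mod.mp h
    rw [hζo, Nat.mod_eq_of_lt (ZMod.val_lt u), Nat.mod_eq_of_lt (ZMod.val_lt v)] at this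
    exact ZMod.val_injective p this
  have hezc : ∀ u (g : G), g * ez u = ez u * g := fun u g =>
    ((show Commute g ζ from hζc g).pow_right _).eq
  have hezp : ∀ {g : G}, g ∈ Subgroup.zpowers ζ → ∃ u, ez u = g := fun {g} hg => by
    obtain ⟨k, rfl⟩ := (isOfFinOrder_of_finite ζ).mem_powers_iff_mem_zpowers.mpr hg
    refine ⟨(k : ZMod p), ?_⟩
    simp only [ez, ZMod.val_natCast]
    exact (pow_eq_pow_mod k hζp).symm
  -- a noncentral element with `a ^ p` prescribed
  obtain ⟨a, haZ, haE⟩ : ∃ a : G, a ∉ Z ∧ ∃ E : ZMod p → G, E 0 = 1 ∧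
      (∀ i, ∃ (n : ℕ) (u : ZMod p), E i = a ^ n * ez u ∧ (n : ZMod p) = i) ∧
      ∀ i j, E i * E j = E (i + j) * ez (i * j) := by
    rcases hp.out.eq_two_or_odd with h2 | hodd
    · subst h2
      have h01 : ∀ u : ZMod 2, u = 0 ∨ u = 1 := by
        intro u; fin_cases u
        exacts [Or.inl rfl, Or.inr rfl]
      have hez1 : ez 1 = ζ := by
        show ζ ^ (1 : ZMod 2).val = ζ
        rw [ZMod.val_one, pow_one]
      have hζ2 : ∀ {g : G}, g ∈ Subgroup.zpowers ζ → g = 1 ∨ g = ζ := fun {g} hg => by
        obtain ⟨u, rfl⟩ := hezp hg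
        rcases h01 u with rfl | rfl
        · exact Or.inl hez0
        · exact Or.inr hez1
      suffices ∃ a : G, a ∉ Z ∧ a ^ 2 = ζ by
        obtain ⟨a, ha, ha2⟩ := this
        refine ⟨a, ha, fun i => a ^ i.val, by simp, fun i => ⟨i.val, 0, by simp [hez0], ZMod.natCast_zmod_val i⟩, ?_⟩
        intro i j
        rcases h01 i with rfl | rfl <;> rcases h01 j with rfl | rfl
        · simp [hez0]
        · simp [hez0]
        · simp [hez0]
        · show a ^ (1 : ZMod 2).val * a ^ (1 : ZMod 2).val = a ^ ((1 : ZMod 2) + 1).val * ez (1 * 1)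
          rw [show (1 : ZMod 2) + 1 = 0 from rfl, ZMod.val_zero, pow_zero, one_mul, one_mul, hez1,
            ZMod.val_one, pow_one, ← pow_two, ha2]
      by_contra hcon
      push Not at hcon
      let ψ : G →* Z ⧸ (Subgroup.zpowers ζ).subgroupOf Z :=
        MonoidHom.mk' (fun g => QuotientGroup.mk ⟨g ^ 2, hexp g⟩) fun u v => by
          refine Eq.symm ?_
          rw [← QuotientGroup.mk_mul, QuotientGroup.eq, Subgroup.mem_subgroupOf]
          show (u ^ 2 * v ^ 2)⁻¹ * (u * v) ^ 2 ∈ _
          rw [FGS75.mul_pow_central u v (hc v u) 2, inv_mul_cancel_left]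
          exact pow_mem (hcommL v u) _
      have hker : ∀ g, g ∈ ψ.ker ↔ g ^ 2 ∈ Subgroup.zpowers ζ := by
        intro g
        rw [MonoidHom.mem_ker]
        show (QuotientGroup.mk (⟨g ^ 2, hexp g⟩ : Z) : Z ⧸ _) = 1 ↔ _
        rw [QuotientGroup.eq_one_iff, Subgroup.mem_subgroupOf]
      by_cases hc2 : ∃ c ∈ Z, c ^ 2 = ζ
      · obtain ⟨c, hcZ, hcζ⟩ := hc2
        have hle : ψ.ker ≤ Subgroup.zpowers c := by
          intro g hg
          have hcg : Commute g c := Subgroup.mem_center_iff.mp hcZ g |> fun e => e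
          rcases hζ2 ((hker g).mp hg) with e | e
          · by_cases hgZ : g ∈ Z
            · have h1 : g ∈ L := hZp g hgZ e
              rw [hLζ] at h1
              exact (Subgroup.zpowers_le.mpr (hcζ ▸ pow_mem (Subgroup.mem_zpowers c) 2)) h1
            · refine absurd ?_ (hcon (g * c) fun h => hgZ ?_)
              · rw [hcg.mul_pow, e, hcζ, one_mul]
              · have := mul_mem h (inv_mem hcZ)
                rwa [mul_inv_cancel_right] at this
          · have hgZ : g ∈ Z := by
              by_contra hgZ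
              exact hcon g hgZ e
            have h1 : g * c⁻¹ ∈ L := hZp _ (mul_mem hgZ (inv_mem hcZ)) (by
              rw [hcg.inv_right.mul_pow, e, inv_pow, hcζ, mul_inv_cancel])
            rw [hLζ] at h1
            have := mul_mem ((Subgroup.zpowers_le.mpr (hcζ ▸ pow_mem (Subgroup.mem_zpowers c) 2)) h1)
              (Subgroup.mem_zpowers c)
            rwa [inv_mul_cancel_right] at this
        have hK4 : Nat.card ψ.ker ≤ 4 := by
          refine (Subgroup.card_le_of_le hle).trans ?_
          rw [Nat.card_zpowers]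
          refine Nat.le_of_dvd (by norm_num) (orderOf_dvd_iff_pow_eq_one.mpr ?_)
          rw [show (4 : ℕ) = 2 * 2 from rfl, pow_mul, hcζ, hζp]
        have hi : ψ.ker.index ≤ ((Subgroup.zpowers ζ).subgroupOf Z).index := by
          rw [Subgroup.index_ker]
          exact Subgroup.card_le_card_group _
        have h1 := Subgroup.card_mul_index ψ.ker
        have h2 := Subgroup.card_mul_index ((Subgroup.zpowers ζ).subgroupOf Z)
        rw [Nat.card_congr (Subgroup.subgroupOfEquivOfLe (Subgroup.zpowers_le.mpr hζZ)).toEquiv,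
          Nat.card_zpowers, hζo] at h2
        have h3 := Subgroup.card_mul_index Z
        have hZpos := Nat.card_pos (α := Z)
        nlinarith [Nat.mul_le_mul hK4 hi]
      · push Not at hc2
        have hK2 : ∀ g ∈ ψ.ker, g⁻¹ = g := by
          intro g hg
          refine inv_eq_of_mul_eq_one_right ?_
          rcases hζ2 ((hker g).mp hg) with e | e
          · rw [← pow_two, e]
          · exfalso
            by_cases hgZ : g ∈ Z
            · exact hc2 g hgZ e
            · exact hcon g hgZ e
        let ψ' : Z →* Z ⧸ (Subgroup.zpowers ζ).subgroupOf Z := ψ.comp Z.subtype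
        have hle' : ψ'.ker ≤ (Subgroup.zpowers ζ).subgroupOf Z := by
          intro g hg
          have hg' : (g : G) ∈ ψ.ker := MonoidHom.mem_ker.mpr (MonoidHom.mem_ker.mp hg)
          rw [Subgroup.mem_subgroupOf, ← hLζ]
          refine hZp g g.2 ?_
          rw [pow_two]; exact mul_eq_one_iff_eq_inv.mpr (hK2 g hg').symm
        have hr : ψ'.range = ⊤ := by
          refine Subgroup.eq_top_of_le_card _ ?_
          rw [← Subgroup.index_ker]
          exact Nat.le_of_dvd (Nat.pos_of_ne_zero Subgroup.index_ne_zero_of_finite)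
            (Subgroup.index_dvd_of_le hle')
        apply hna
        have hdec : ∀ g : G, ∃ c ∈ Z, ∃ k ∈ ψ.ker, g = c * k := by
          intro g
          obtain ⟨c, hc'⟩ := MonoidHom.range_eq_top.mp hr (ψ g)
          refine ⟨c, c.2, (c : G)⁻¹ * g, ?_, by group⟩
          rw [MonoidHom.mem_ker, map_mul, map_inv]
          exact inv_mul_eq_one.mpr hc'
        refine isMulCommutative_iff.mpr fun g g' => ?_
        obtain ⟨c, hc', k, hk, rfl⟩ := hdec g
        obtain ⟨c', hc'', k', hk', rfl⟩ := hdec g'
        have hkk : k * k' = k' * k := by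
          calc k * k' = (k * k')⁻¹ := (hK2 _ (mul_mem hk hk')).symm
            _ = k' * k := by rw [mul_inv_rev, hK2 k hk, hK2 k' hk']
        have e1 := Subgroup.mem_center_iff.mp hc'' (c * k)
        have e2 := Subgroup.mem_center_iff.mp hc' k'
        calc c * k * (c' * k') = (c * k * c') * k' := by group
          _ = c' * (c * (k * k')) := by rw [e1]; group
          _ = c' * ((c * k') * k) := by rw [hkk]; group
          _ = c' * k' * (c * k) := by rw [← e2]; group
    · -- odd `p`: a noncentral element of order `p`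
      have hch : p ∣ p.choose 2 := hp.out.dvd_choose_self (by norm_num) (by
        have := hp.out.two_le; omega)
      let pw : G →* G := MonoidHom.mk' (fun g => g ^ p) fun u v => by
        show (u * v) ^ p = u ^ p * v ^ p
        refine FGS75.mul_pow_central' u v p (hc v u) ?_
        obtain ⟨k, hk⟩ := hch
        obtain ⟨w, hw⟩ := hezp (hcommL v u)
        rw [← hw, hk, pow_mul, ← pow_mul (ζ) _ p, mul_comm _ p, pow_mul, hζp, one_pow, one_pow]
      obtain ⟨a, haZ, hap⟩ : ∃ a : G, a ∉ Z ∧ a ^ p = 1 := by
        by_contra h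
        push Not at h
        have hker : Nat.card pw.ker ≤ p := by
          rw [← hLcard]
          refine Subgroup.card_le_of_le fun g hg => ?_
          have hg' : g ^ p = 1 := MonoidHom.mem_ker.mp hg
          refine hZp g ?_ hg'
          by_contra hgZ
          exact h g hgZ hg'
        have hran : pw.ker.index ≤ Nat.card Z := by
          rw [Subgroup.index_ker]
          refine Subgroup.card_le_of_le ?_
          rintro _ ⟨g, rfl⟩; exact hexp g
        have h1 := Subgroup.card_mul_index pw.ker
        have h3 := Subgroup.card_mul_index Z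
        have := Nat.card_pos (α := Z)
        have := hp.out.two_le
        nlinarith [Nat.mul_le_mul hker hran]
      have h2 : (2 : ZMod p) ≠ 0 := by
        rw [show (2 : ZMod p) = ((2 : ℕ) : ZMod p) by norm_num, Ne, ZMod.natCast_eq_zero_iff]
        intro h
        have := (Nat.prime_dvd_prime_iff_eq hp.out Nat.prime_two).mp h
        omega
      refine ⟨a, haZ, fun i => a ^ i.val * ez (-(i * i) / 2), by simp [hez0],
        fun i => ⟨i.val, _, rfl, ZMod.natCast_zmod_val i⟩, fun i j => ?_⟩
      show a ^ i.val * ez _ * (a ^ j.val * ez _) = a ^ (i + j).val * ez _ * ez _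
      rw [mul_assoc (a ^ i.val), ← mul_assoc (ez _) (a ^ j.val), ← hezc, mul_assoc (a ^ j.val),
        ← mul_assoc (a ^ i.val), ← pow_add, ← hez, mul_assoc (a ^ (i + j).val), ← hez, ZMod.val_add,
        ← pow_eq_pow_mod _ hap]
      congr 2
      field_simp
      ring
  obtain ⟨E, hE0, hEn, hEmul⟩ := haE
  -- the coordinate `⁅y, a⁆`
  choose c hcdef using fun y : G => hezp (hcommL y a)
  have hcadd : ∀ y w, c (y * w) = c y + c w := fun y w => hez_inj _ _ (by
    rw [hez, hcdef, hcdef, hcdef, hmul_left])
  have haw : ∀ (w : G) (n : ℕ), a ^ n * w = w * a ^ n * ez (-((n : ZMod p) * c w)) := by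
    intro w n
    induction n with
    | zero => simp [hez0]
    | succ n ih =>
      have hw : a * w = w * a * ez (-(c w)) := by
        have : ez (-(c w)) = ⁅a, w⁆ := by
          have h0 : ez (-(c w)) * ez (c w) = 1 := by rw [← hez, neg_add_cancel, hez0]
          rw [eq_inv_of_mul_eq_one_left h0, hcdef, FGS75.comm_inv_eq w a]
        rw [this, hc a w (w * a), commutatorElement_def]; group
      calc a ^ (n + 1) * w = a * (a ^ n * w) := by rw [pow_succ', mul_assoc]
        _ = (a * w) * a ^ n * ez (-((n : ZMod p) * c w)) := by rw [ih]; simp only [mul_assoc]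
        _ = w * a * (a ^ n * ez (-(c w))) * ez (-((n : ZMod p) * c w)) := by
          rw [hw, hezc _ (a ^ n)]; simp only [mul_assoc]
        _ = w * a ^ (n + 1) * ez (-(((n + 1 : ℕ) : ZMod p) * c w)) := by
          rw [show -(((n + 1 : ℕ) : ZMod p) * c w) = -(c w) + -((n : ZMod p) * c w) by push_cast; ring,
            hez, pow_succ']
          simp only [mul_assoc]
  have hEw : ∀ i w, E i * w = w * E i * ez (-(i * c w)) := by
    intro i w
    obtain ⟨n, u, hEi, hni⟩ := hEn i
    rw [hEi, mul_assoc (a ^ n), ← hezc u w, ← mul_assoc, haw w n, hni]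
    simp only [mul_assoc]
    rw [← hezc u (ez _)]
  let τ : G →* G := MonoidHom.mk' (fun y => y * E (c y)) fun y w => by
    show y * w * E (c (y * w)) = y * E (c y) * (w * E (c w))
    calc y * w * E (c (y * w))
        = y * w * (E (c y + c w) * (ez (c y * c w) * ez (-(c y * c w)))) := by
          rw [← hez, add_neg_cancel, hez0, mul_one, hcadd]
      _ = y * w * (E (c y) * E (c w) * ez (-(c y * c w))) := by rw [hEmul]; simp only [mul_assoc]
      _ = y * (w * E (c y) * ez (-(c y * c w))) * E (c w) := by
          rw [mul_assoc (E (c y)), hezc _ (E (c w))]; simp only [mul_assoc]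
      _ = y * E (c y) * (w * E (c w)) := by rw [← hEw]; simp only [mul_assoc]
  have hτ : Function.Injective τ := by
    rw [injective_iff_map_eq_one]
    intro y hy
    have hy' : y = (E (c y))⁻¹ := eq_inv_of_mul_eq_one_left hy
    have hcy : c y = 0 := by
      refine hez_inj _ _ ?_
      rw [hcdef, hez0, commutatorElement_eq_one_iff_mul_comm]
      obtain ⟨n, u, hEi, -⟩ := hEn (c y)
      rw [hy', hEi]
      exact ((show Commute (a ^ n * ez u) a from ((Commute.refl a).pow_left n).mul_left (hezc u a).symm).inv_left).eq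
    rw [hy', hcy, hE0, inv_one]
  let α : MulAut G := MulEquiv.ofBijective τ ⟨hτ, Finite.injective_iff_surjective.mp hτ⟩
  have hbadC : ∀ x ∈ bad, x ∈ Subgroup.centralizer ({a} : Set G) := by
    intro x hx
    have hmem : x * E (c x) ∈ (ConjClasses.mk x).carrier := (hidx x hx).2 ▸ ⟨α, rfl⟩
    rw [ConjClasses.mem_carrier_iff_mk_eq, ConjClasses.mk_eq_mk_iff_isConj] at hmem
    obtain ⟨g, hg⟩ := isConj_iff.mp hmem.symm
    have hEZ : E (c x) ∈ Z := by
      have : E (c x) = x⁻¹ * (⁅g, x⁆ * x) := by
        rw [eq_inv_mul_iff_mul_eq, ← hg, commutatorElement_def]; group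
      rw [this, ← hc g x x, inv_mul_cancel_left]
      exact hcen (Subgroup.commutator_mem_commutator (Subgroup.mem_top g) (Subgroup.mem_top x))
    rw [Subgroup.mem_centralizer_singleton_iff, ← commutatorElement_eq_one_iff_mul_comm, ← hcdef, ← hez0]
    congr 1
    obtain ⟨n, u, hEi, hni⟩ := hEn (c x)
    by_contra hcx
    apply haZ
    rw [hEi] at hEZ
    have han : a ^ n ∈ Z := by
      have := mul_mem hEZ (inv_mem (pow_mem hζZ u.val))
      rwa [mul_inv_cancel_right] at this
    have hcop : n.Coprime p := by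
      rw [Nat.coprime_comm, hp.out.coprime_iff_not_dvd]
      intro hd
      exact hcx (hni ▸ (ZMod.natCast_eq_zero_iff n p).mpr hd)
    have hbez := Nat.gcd_eq_gcd_ab n p
    rw [hcop] at hbez
    have ha' : a = (a ^ n) ^ Nat.gcdA n p * (a ^ p) ^ Nat.gcdB n p := by
      rw [← zpow_natCast a n, ← zpow_natCast a p, ← zpow_mul, ← zpow_mul, ← zpow_add, ← hbez]
      simp
    rw [ha']
    exact mul_mem (zpow_mem han _) (zpow_mem (hexp a) _)
  apply haZ
  refine Subgroup.mem_center_iff.mpr fun g => ?_
  have hle : (⊤ : Subgroup G) ≤ Subgroup.centralizer ({a} : Set G) := by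
    rw [← htop, Subgroup.closure_le]
    rintro u (hu | hu)
    · exact Subgroup.mem_centralizer_singleton_iff.mpr (Subgroup.mem_center_iff.mp hu a).symm
    · exact hbadC u hu
  exact Subgroup.mem_centralizer_singleton_iff.mp (hle (Subgroup.mem_top g))


/-- Let G be a finite non-abelian group and p the least prime dividing its order. Then the automorphism group of G has at most #G/p orbits on G. -/
theorem result {G : Type*} [Group G] [Finite G] (hna : ¬ IsMulCommutative G) :
    Nat.card (MulAction.orbitRel.Quotient (MulAut G) G) ≤ Nat.card G / (Nat.card G).minFac := by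
  classical
  haveI := Fintype.ofFinite G
  set N := Nat.card G
  have hN1 : N ≠ 1 := fun h => hna (by
    haveI := (Nat.card_eq_one_iff_unique.mp h).1
    exact isMulCommutative_iff.mpr fun a b => Subsingleton.elim _ _)
  set p := N.minFac
  haveI hp : Fact p.Prime := ⟨Nat.minFac_prime hN1⟩
  have hp2 := hp.out.two_le
  have hpmin : ∀ d : ℕ, d ∣ N → 1 < d → p ≤ d := fun d hd h1 => Nat.minFac_le_of_dvd h1 hd
  set Z := Subgroup.center G
  -- the index of the centre
  have hm2 : p * p ≤ Z.index ∧ (Z.index = p * p ∨ p * (p + 1) ≤ Z.index) := by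
    have hne1 : Z.index ≠ 1 := fun h => hna (isMulCommutative_iff.mpr fun a b =>
      (Subgroup.mem_center_iff.mp (Subgroup.index_eq_one.mp h ▸ Subgroup.mem_top b : b ∈ Z) a))
    obtain ⟨r, hr, k, hk⟩ := Nat.exists_prime_and_dvd hne1
    have hk1 : k ≠ 1 := by
      rintro rfl
      apply hna
      haveI := Fact.mk hr
      haveI : IsCyclic (G ⧸ Z) := isCyclic_of_prime_card (p := r) (by rw [← Subgroup.index, hk, mul_one])
      exact isMulCommutative_iff.mpr
        (commutative_of_cyclic_center_quotient (QuotientGroup.mk' Z) (by rw [QuotientGroup.ker_mk']))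
    have hrp : p ≤ r := hpmin r ((Dvd.intro k hk.symm).trans (Subgroup.index_dvd_card _)) hr.one_lt
    have hk0 : k ≠ 0 := fun h => Subgroup.index_ne_zero_of_finite (H := Z) (by rw [hk, h, mul_zero])
    have hkp : p ≤ k := hpmin k ((Dvd.intro_left r hk.symm).trans (Subgroup.index_dvd_card _)) (by omega)
    refine ⟨hk ▸ Nat.mul_le_mul hrp hkp, ?_⟩
    rcases eq_or_lt_of_le hrp with e | e <;> rcases eq_or_lt_of_le hkp with e' | e'
    · exact Or.inl (by rw [hk, ← e, ← e'])
    · exact Or.inr (hk ▸ Nat.mul_le_mul hrp e')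
    all_goals exact Or.inr (hk ▸ (mul_comm p (p + 1)).le.trans (Nat.mul_le_mul e hkp))
  set bad := {x : G | x ∉ Z ∧ Nat.card (MulAction.orbit (MulAut G) x) ≤ p}
  set W := Subgroup.closure ((Z : Set G) ∪ bad)
  have hW : W ≠ ⊤ := closure_ne_top hna hpmin hm2.1
  have hWN : p * Nat.card W ≤ N := by
    have hi : p ≤ W.index := hpmin _ (Subgroup.index_dvd_card _)
      (Nat.lt_of_le_of_ne (Nat.pos_of_ne_zero Subgroup.index_ne_zero_of_finite)
        fun e => hW (Subgroup.index_eq_one.mp e.symm))
    calc p * Nat.card W ≤ W.index * Nat.card W := Nat.mul_le_mul_right _ hi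
      _ = N := Subgroup.index_mul_card W
  -- orbit sizes
  have hclass : ∀ x, x ∉ Z → p ≤ (Subgroup.centralizer ({x} : Set G)).index := fun x hx => by
    refine hpmin _ (Subgroup.index_dvd_card _) (Nat.lt_of_le_of_ne
      (Nat.pos_of_ne_zero Subgroup.index_ne_zero_of_finite) fun e => hx ?_)
    have := Subgroup.index_eq_one.mp e.symm
    exact Subgroup.mem_center_iff.mpr fun g =>
      Subgroup.mem_centralizer_singleton_iff.mp (this ▸ Subgroup.mem_top g :
        g ∈ Subgroup.centralizer ({x} : Set G))
  have hnc : ∀ x, x ∉ Z → p ≤ Nat.card (MulAction.orbit (MulAut G) x) := fun x hx => by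
    have := card_orbit_eq_of_class x
    rw [ClassSize.natCard_carrier] at this
    exact (hclass x hx).trans this
  obtain ⟨s, hs, hgood⟩ : ∃ s, p < s ∧ (p - 1) * s * p ≤ (s - p) * ((p - 1) * Z.index) ∧
      ∀ x, x ∉ Z → x ∉ bad → s ≤ Nat.card (MulAction.orbit (MulAut G) x) := by
    rcases hm2.2 with hm | hm
    · refine ⟨2 * p, by omega, ?_, fun x hx hxb => ?_⟩
      · rw [hm, show 2 * p - p = p by omega]
        nlinarith [Nat.mul_le_mul_left ((p - 1) * p * p) hp2]
      · have hbig : p < Nat.card (MulAction.orbit (MulAut G) x) := by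
          by_contra h; exact hxb ⟨hx, not_lt.mp h⟩
        have hone : ∀ y, y ∉ Z → (Subgroup.centralizer ({y} : Set G)).index = p := by
          intro y hy
          refine le_antisymm ?_ (hclass y hy)
          have hle : Z ≤ Subgroup.centralizer ({y} : Set G) := fun c hc =>
            Subgroup.mem_centralizer_singleton_iff.mpr (Subgroup.mem_center_iff.mp hc y).symm
          have h := Subgroup.relIndex_mul_index hle
          rw [hm] at h
          have h2 : p ≤ Z.relIndex (Subgroup.centralizer ({y} : Set G)) := by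
            refine hpmin _ ((Dvd.intro _ h).trans (hm ▸ Subgroup.index_dvd_card Z)) ?_
            refine Nat.lt_of_le_of_ne (Nat.pos_of_ne_zero Subgroup.index_ne_zero_of_finite) fun e => hy ?_
            exact Subgroup.relIndex_eq_one.mp e.symm (Subgroup.mem_centralizer_singleton_iff.mpr rfl)
          nlinarith
        obtain ⟨y, hy, hyne⟩ : ∃ y ∈ MulAction.orbit (MulAut G) x, y ∉ (ConjClasses.mk x).carrier := by
          by_contra h
          push Not at h
          have := Nat.card_mono (Set.toFinite _) h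
          rw [ClassSize.natCard_carrier, hone x hx] at this
          omega
        have hyZ : y ∉ Z := by
          obtain ⟨φ, rfl⟩ := hy
          intro h
          refine hx (Subgroup.mem_center_iff.mpr fun g => φ.injective ?_)
          rw [map_mul, map_mul]
          exact Subgroup.mem_center_iff.mp h (φ g)
        have := two_classes hy hyne
        rw [hone x hx, hone y hyZ] at this
        omega
    · refine ⟨p + 1, by omega, ?_, fun x hx hxb => ?_⟩
      · rw [show p + 1 - p = 1 by omega, one_mul, mul_assoc]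
        exact Nat.mul_le_mul_left _ ((mul_comm (p + 1) p).le.trans hm)
      · by_contra h; exact hxb ⟨hx, by omega⟩
  obtain ⟨hsm, hgood⟩ := hgood
  -- count
  haveI : Finite (MulAut G) := inferInstance
  haveI := Fintype.ofFinite (MulAction.orbitRel.Quotient (MulAut G) G)
  set O := MulAction.orbitRel.Quotient (MulAut G) G
  let sz : G → ℕ := fun x => Nat.card (MulAction.orbit (MulAut G) x)
  let cls : G → Fin 3 := fun x => if x ∈ Z then 0 else if sz x ≤ p then 1 else 2
  have hinvZ : ∀ (φ : MulAut G) (x : G), φ x ∈ Z ↔ x ∈ Z := by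
    intro φ x
    simp only [Z, Subgroup.mem_center_iff]
    constructor
    · intro h g
      apply φ.injective
      rw [map_mul, map_mul]
      exact h (φ g)
    · intro h g
      obtain ⟨g, rfl⟩ := φ.surjective g
      rw [← map_mul, ← map_mul, h g]
  have hcls : ∀ (φ : MulAut G) (x : G), cls (φ x) = cls x := by
    intro φ x
    have hsz : sz (φ x) = sz x := by
      show Nat.card (MulAction.orbit (MulAut G) (φ • x)) = _
      rw [MulAction.orbit_smul]
    simp only [cls, hinvZ, hsz]
  let clsO : O → Fin 3 := Quotient.lift cls fun a b h => by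
    obtain ⟨φ, rfl⟩ := h
    exact hcls φ b
  have hfib : ∀ (k : Fin 3) (w : ℕ), (∀ x, cls x = k → w ≤ sz x) →
      w * (Finset.univ.filter fun q : O => clsO q = k).card ≤ (Finset.univ.filter fun x : G => cls x = k).card := by
    intro k w hw
    rw [Finset.card_eq_sum_card_fiberwise (f := fun x : G => (Quotient.mk'' x : O))
      (t := Finset.univ.filter fun q : O => clsO q = k) (fun x hx => by
        simp only [Finset.coe_filter, Set.mem_setOf_eq, Finset.mem_univ, true_and] at hx ⊢
        exact hx), mul_comm, ← smul_eq_mul, ← Finset.sum_const]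
    refine Finset.sum_le_sum fun q hq => ?_
    obtain ⟨x, rfl⟩ := Quotient.mk''_surjective q
    have hxk : cls x = k := (Finset.mem_filter.mp hq).2
    refine (hw x hxk).trans (le_of_eq ?_)
    rw [show sz x = (MulAction.orbit (MulAut G) x).toFinset.card by
      rw [← Set.ncard_eq_toFinset_card', ← Nat.card_coe_set_eq]]
    congr 1
    ext y
    simp only [Set.mem_toFinset, Finset.mem_filter, Finset.mem_univ, true_and]
    constructor
    · intro hy
      obtain ⟨φ, rfl⟩ := hy
      exact ⟨(hcls φ x).trans hxk, Quotient.sound ⟨φ, rfl⟩⟩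
    · rintro ⟨-, hy⟩
      exact Quotient.exact hy
  have hc0 : ∀ {x}, x ∈ Z → cls x = 0 := fun h => if_pos h
  have hc1 : ∀ {x}, x ∉ Z → sz x ≤ p → cls x = 1 := fun h h' => by
    show ite _ _ _ = _
    rw [if_neg h, if_pos h']
  have hc2 : ∀ {x}, x ∉ Z → ¬ sz x ≤ p → cls x = 2 := fun h h' => by
    show ite _ _ _ = _
    rw [if_neg h, if_neg h']
  have h0 := hfib 0 1 fun x _ => by
    haveI := (MulAction.nonempty_orbit (M := MulAut G) x).to_subtype
    exact Finite.card_pos
  have h1 := hfib 1 p fun x hx => hnc x (fun h => by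
    rw [hc0 h] at hx; exact absurd hx (by decide))
  have h2 := hfib 2 s fun x hx => hgood x (fun h => by
    rw [hc0 h] at hx; exact absurd hx (by decide)) (fun h => by
    rw [hc1 h.1 h.2] at hx; exact absurd hx (by decide))
  set A0 := (Finset.univ.filter fun x : G => cls x = 0).card
  set A1 := (Finset.univ.filter fun x : G => cls x = 1).card
  set A2 := (Finset.univ.filter fun x : G => cls x = 2).card
  set B0 := (Finset.univ.filter fun q : O => clsO q = 0).card
  set B1 := (Finset.univ.filter fun q : O => clsO q = 1).card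
  set B2 := (Finset.univ.filter fun q : O => clsO q = 2).card
  have hA : A0 + A1 + A2 = N := by
    rw [show N = Fintype.card _ from Nat.card_eq_fintype_card, ← Finset.card_univ]
    refine Eq.symm (Eq.trans (Finset.card_eq_sum_card_fiberwise (f := cls) (t := Finset.univ)
      (fun x _ => Finset.mem_coe.mpr (Finset.mem_univ _))) ?_)
    rw [Fin.sum_univ_three]
  have hB : B0 + B1 + B2 = Nat.card O := by
    rw [show Nat.card O = Fintype.card _ from Nat.card_eq_fintype_card, ← Finset.card_univ]
    refine Eq.symm (Eq.trans (Finset.card_eq_sum_card_fiberwise (f := clsO) (t := Finset.univ)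
      (fun x _ => Finset.mem_coe.mpr (Finset.mem_univ _))) ?_)
    rw [Fin.sum_univ_three]
  have hA0 : A0 = Nat.card Z := by
    rw [Nat.card_eq_fintype_card, Fintype.card_subtype]
    simp only [A0]
    congr 1
    ext x
    simp only [Finset.mem_filter, Finset.mem_univ, true_and]
    by_cases hx : x ∈ Z
    · exact iff_of_true (hc0 hx) hx
    · refine iff_of_false (fun e => ?_) hx
      by_cases h : sz x ≤ p
      · rw [hc1 hx h] at e; exact absurd e (by decide)
      · rw [hc2 hx h] at e; exact absurd e (by decide)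
  have hA01 : A0 + A1 ≤ Nat.card W := by
    rw [Nat.card_eq_fintype_card, Fintype.card_subtype]
    simp only [A0, A1]
    rw [← Finset.card_union_of_disjoint (Finset.disjoint_filter.mpr fun x _ h h' => by rw [h] at h'; simp at h')]
    refine Finset.card_le_card fun x hx => ?_
    simp only [Finset.mem_union, Finset.mem_filter, Finset.mem_univ, true_and] at hx ⊢
    by_cases hxZ : x ∈ Z
    · exact Subgroup.subset_closure (Or.inl hxZ)
    · by_cases h : sz x ≤ p
      · exact Subgroup.subset_closure (Or.inr ⟨hxZ, h⟩)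
      · rw [hc2 hxZ h] at hx; exact absurd hx (by decide)
  have hNm : Nat.card Z * Z.index = N := Subgroup.card_mul_index Z
  -- arithmetic
  rw [Nat.le_div_iff_mul_le hp.out.pos]
  show Nat.card O * p ≤ N
  have hA2 : (p - 1) * N ≤ p * A2 := by
    have : p * (A0 + A1) ≤ N := (Nat.mul_le_mul_left p hA01).trans hWN
    have e : p * N = p * (A0 + A1) + p * A2 := by rw [← hA, mul_add]
    rw [Nat.sub_one_mul]
    omega
  have key : (p - 1) * s * A0 ≤ (s - p) * A2 := by
    refine Nat.le_of_mul_le_mul_left ?_ hp.out.pos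
    calc p * ((p - 1) * s * A0) = A0 * ((p - 1) * s * p) := by ring
      _ ≤ A0 * ((s - p) * ((p - 1) * Z.index)) := Nat.mul_le_mul_left _ hsm
      _ = (s - p) * ((p - 1) * N) := by rw [hA0, ← hNm]; ring
      _ ≤ (s - p) * (p * A2) := Nat.mul_le_mul_left _ hA2
      _ = p * ((s - p) * A2) := by ring
  refine Nat.le_of_mul_le_mul_left ?_ (by omega : 0 < s)
  obtain ⟨r, hr⟩ := Nat.exists_eq_add_of_lt hs
  obtain ⟨u, hu⟩ : ∃ u, p = u + 1 := ⟨p - 1, by omega⟩
  rw [show s - p = r + 1 by omega, show p - 1 = u by omega] at key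
  have hs' : s = p + (r + 1) := by omega
  have key2 : s * p * A0 + p * A2 ≤ s * A0 + s * A2 := by
    calc s * p * A0 + p * A2 = s * A0 + u * s * A0 + p * A2 := by rw [hu]; ring
      _ ≤ s * A0 + (r + 1) * A2 + p * A2 := by omega
      _ = s * A0 + s * A2 := by rw [hs']; ring
  rw [← hA, ← hB]
  calc s * ((B0 + B1 + B2) * p) = s * p * (1 * B0) + s * (p * B1) + p * (s * B2) := by ring
    _ ≤ s * p * A0 + s * A1 + p * A2 :=
        add_le_add (add_le_add (Nat.mul_le_mul_left _ h0) (Nat.mul_le_mul_left _ h1)) (Nat.mul_le_mul_left _ h2)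
    _ ≤ s * (A0 + A1 + A2) := by rw [mul_add, mul_add]; omega

end Cfsg.Agent.S4067
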