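import Cfsg.Statements.S4068
import Mathlib
import Cfsg.Agent.FGS75.FourOrbits
import Cfsg.Agent.Linear.OrderSixty

set_option autoImplicit false
open Cfsg

namespace Cfsg.Agent.S4068




/-- A finite non-solvable group on which its automorphism group has exactly four orbits is isomorphic to the alternating group of degree 5. -/
theorem result {G : Type*} [Group G] [Finite G] (hns : ¬ Group.IsSolvable G)
    (h4 : Nat.card (MulAction.orbitRel.Quotient (MulAut G) G) = 4) : Nonempty (G ≃* alternatingGroup (Fin 5)) := by
  classical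
  haveI := Fintype.ofFinite G
  let O := MulAction.orbitRel.Quotient (MulAut G) G
  let f : O → ℕ := Quotient.lift orderOf fun a b h => by
    obtain ⟨φ, rfl⟩ := h
    exact MulEquiv.orderOf_eq φ b
  -- three primes divide the order
  obtain ⟨q1, hq1, hd1, -, -⟩ := FGS75.three_primes hns 0 0
  obtain ⟨q2, hq2, hd2, h21, -⟩ := FGS75.three_primes hns q1 q1
  obtain ⟨q3, hq3, hd3, h31, h32⟩ := FGS75.three_primes hns q1 q2
  have hpre : ∀ n ∈ ({1, q1, q2, q3} : Finset ℕ), ∃ g : G, orderOf g = n := by
    intro n hn
    simp only [Finset.mem_insert, Finset.mem_singleton] at hn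
    rcases hn with rfl | rfl | rfl | rfl
    · exact ⟨1, orderOf_one⟩
    all_goals exact @exists_prime_orderOf_dvd_card' G _ _ _ ⟨by assumption⟩ (by assumption)
  haveI : Finite O := Nat.finite_of_card_ne_zero (by
    show Nat.card (MulAction.orbitRel.Quotient (MulAut G) G) ≠ 0
    omega)
  haveI := Fintype.ofFinite O
  have hOcard : Fintype.card O = 4 := by rw [← Nat.card_eq_fintype_card]; exact h4
  have hsub : ({1, q1, q2, q3} : Finset ℕ) ⊆ Finset.univ.image f := fun n hn => by
    obtain ⟨g, hg⟩ := hpre n hn
    exact Finset.mem_image.mpr ⟨Quotient.mk'' g, Finset.mem_univ _, hg⟩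
  have hcard4 : ({1, q1, q2, q3} : Finset ℕ).card = 4 := by
    rw [Finset.card_insert_of_notMem (by simp [hq1.ne_one.symm, hq2.ne_one.symm, hq3.ne_one.symm]),
      Finset.card_insert_of_notMem (by simp [h21.symm, h31.symm]),
      Finset.card_pair h32.symm]
  have himg : Finset.univ.image f = ({1, q1, q2, q3} : Finset ℕ) :=
    (Finset.eq_of_subset_of_card_le hsub (by
      rw [hcard4, ← hOcard, ← Finset.card_univ]; exact Finset.card_image_le)).symm
  have hinj : Function.Injective f := by
    rw [← Set.injOn_univ, ← Finset.coe_univ, ← Finset.card_image_iff, himg, hcard4, Finset.card_univ,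
      hOcard]
  have hord : ∀ g : G, g = 1 ∨ orderOf g = q1 ∨ orderOf g = q2 ∨ orderOf g = q3 := by
    intro g
    have : f (Quotient.mk'' g) ∈ ({1, q1, q2, q3} : Finset ℕ) :=
      himg ▸ Finset.mem_image.mpr ⟨_, Finset.mem_univ _, rfl⟩
    simp only [Finset.mem_insert, Finset.mem_singleton] at this
    rcases this with h | h | h | h
    · exact Or.inl (orderOf_eq_one_iff.mp h)
    all_goals first | exact Or.inr (Or.inl h) | exact Or.inr (Or.inr (Or.inl h)) | exact Or.inr (Or.inr (Or.inr h))
  have hd : FGS75.FourData G := by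
    refine ⟨fun g => ?_, fun x y hxy => ?_⟩
    · rcases hord g with h | h | h | h
      · exact Or.inl h
      all_goals exact Or.inr (h ▸ by assumption)
    · have := hinj (show f (Quotient.mk'' y) = f (Quotient.mk'' x) from hxy.symm)
      obtain ⟨φ, hφ⟩ := Quotient.exact this
      exact ⟨φ, hφ⟩
  have hpr : ∀ s : ℕ, s.Prime → s ∣ Nat.card G → s = q1 ∨ s = q2 ∨ s = q3 := by
    intro s hs hsd
    obtain ⟨g, hg⟩ := @exists_prime_orderOf_dvd_card' G _ _ s ⟨hs⟩ hsd
    rcases hord g with h | h
    · rw [h, orderOf_one] at hg; exact absurd hg.symm hs.ne_one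
    · rw [hg] at h; exact h
  have heven := hd.even_card hns hq1 hq2 hq3 h21.symm h31.symm h32.symm hd1 hd2 hd3 hpr
  have h60 : Nat.card G = 60 := by
    rcases hpr 2 Nat.prime_two heven with e | e | e
    · exact hd.order_eq_sixty hns hq2 hq3 h32.symm (by omega) (by omega) heven hd2 hd3
        (fun s hs hsd => by have := hpr s hs hsd; omega)
    · exact hd.order_eq_sixty hns hq1 hq3 h31.symm (by omega) (by omega) heven hd1 hd3
        (fun s hs hsd => by have := hpr s hs hsd; omega)
    · exact hd.order_eq_sixty hns hq1 hq2 h21.symm (by omega) (by omega) heven hd1 hd2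
        (fun s hs hsd => by have := hpr s hs hsd; omega)
  haveI : Nontrivial G := Finite.one_lt_card_iff_nontrivial.mp (by omega)
  have h235 : ∀ s : ℕ, s.Prime → s ∣ 60 → s = 2 ∨ s = 3 ∨ s = 5 := by
    intro s hs hsd
    have h' : s ∣ 2 ^ 2 * (3 * 5) := by norm_num; exact hsd
    rcases (Nat.Prime.dvd_mul hs).mp h' with h | h
    · exact Or.inl ((Nat.prime_dvd_prime_iff_eq hs Nat.prime_two).mp (hs.dvd_of_dvd_pow h))
    · rcases (Nat.Prime.dvd_mul hs).mp h with h | h
      · exact Or.inr (Or.inl ((Nat.prime_dvd_prime_iff_eq hs Nat.prime_three).mp h))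
      · exact Or.inr (Or.inr ((Nat.prime_dvd_prime_iff_eq hs (by norm_num)).mp h))
  haveI : Fact (Nat.Prime 2) := ⟨Nat.prime_two⟩
  obtain ⟨S⟩ := (inferInstance : Nonempty (Sylow 2 G))
  obtain ⟨hsq, hTI, -, -, -, -⟩ := hd.sylow_two hns Nat.prime_three (by norm_num : Nat.Prime 5)
    (by norm_num) (by norm_num) heven (fun s hs hsd => h235 s hs (h60 ▸ hsd)) S
  haveI : IsSimpleGroup G := by
    refine ⟨fun N hN => ?_⟩
    by_contra hcon
    push Not at hcon
    haveI := hN
    have hmul : Nat.card N * N.index = 60 := by rw [Subgroup.card_mul_index, h60]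
    by_cases hns' : Group.IsSolvable N
    · have hq : ¬ Group.IsSolvable (G ⧸ N) := fun h => hns
        (Group.isSolvable_of_ker_le_range N.subtype (QuotientGroup.mk' N)
          (by rw [QuotientGroup.ker_mk', Subgroup.range_subtype]))
      have h30 : 30 ∣ N.index := by
        have hix : Nat.card (G ⧸ N) = N.index := rfl
        have hd60 : ∀ s, s ∣ Nat.card (G ⧸ N) → s ∣ 60 := fun s hs =>
          (hix ▸ hs).trans ⟨Nat.card N, by rw [mul_comm, hmul]⟩
        obtain ⟨a, ha, had, ha1, ha2⟩ := FGS75.three_primes hq 2 3
        obtain ⟨b, hb, hbd, hb1, hb2⟩ := FGS75.three_primes hq 2 5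
        obtain ⟨c, hc, hcd, hc1, hc2⟩ := FGS75.three_primes hq 3 5
        have := h235 a ha (hd60 a had)
        have := h235 b hb (hd60 b hbd)
        have := h235 c hc (hd60 c hcd)
        rw [show (30 : ℕ) = 2 * 3 * 5 from rfl]
        refine Nat.Coprime.mul_dvd_of_dvd_of_dvd (by decide) (Nat.Coprime.mul_dvd_of_dvd_of_dvd (by decide) ?_ ?_) ?_
        · exact hix ▸ (show c = 2 by omega) ▸ hcd
        · exact hix ▸ (show b = 3 by omega) ▸ hbd
        · exact hix ▸ (show a = 5 by omega) ▸ had
      have hN1 : Nat.card N ≠ 1 := fun e => hcon.1 (Subgroup.card_eq_one.mp e)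
      have hN2 : Nat.card N = 2 := by
        obtain ⟨m, hm⟩ := h30
        rw [hm] at hmul
        rcases m with _ | _ | m
        · omega
        · omega
        · have : 2 ≤ Nat.card N := by have := Nat.card_pos (α := N); omega
          nlinarith
      -- a central involution
      obtain ⟨⟨u, huN⟩, hu⟩ := exists_prime_orderOf_dvd_card' (G := N) 2 (by rw [hN2])
      rw [Subgroup.orderOf_mk] at hu
      have hZ : ∀ g : G, g * u = u * g := by
        intro g
        have hmem := hN.conj_mem u huN g
        have hone : ∀ v ∈ N, v = 1 ∨ v = u := by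
          intro v hv
          by_contra hv'
          push Not at hv'
          haveI := Fintype.ofFinite N
          have : ({⟨1, one_mem N⟩, ⟨u, huN⟩, ⟨v, hv⟩} : Finset N).card ≤ Fintype.card N :=
            Finset.card_le_univ _
          rw [Finset.card_insert_of_notMem (by
              simp only [Finset.mem_insert, Finset.mem_singleton, Subtype.ext_iff]
              push Not
              exact ⟨fun e => by rw [← e, orderOf_one] at hu; omega, hv'.1.symm⟩),
            Finset.card_pair (by simpa [Subtype.ext_iff] using hv'.2.symm),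
            ← Nat.card_eq_fintype_card, hN2] at this
          omega
        rcases hone _ hmem with e | e
        · rw [mul_inv_eq_one] at e
          have : u = 1 := mul_eq_left.mp e
          rw [this, orderOf_one] at hu; omega
        · exact mul_inv_eq_iff_eq_mul.mp e
      have htop : (⊤ : Subgroup G) ≤ Subgroup.centralizer ({u} : Set G) := fun g _ =>
        Subgroup.mem_centralizer_singleton_iff.mpr (hZ g)
      have hp : IsPGroup 2 (Subgroup.centralizer ({u} : Set G)) :=
        hd.isPGroup_centralizer Nat.prime_two hu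
      obtain ⟨k, hk⟩ := hp.exists_card_eq
      rw [le_antisymm le_top htop, Subgroup.card_top, h60] at hk
      have : 3 ∣ 2 ^ k := hk ▸ by norm_num
      have := (Nat.prime_dvd_prime_iff_eq Nat.prime_three Nat.prime_two).mp (Nat.prime_three.dvd_of_dvd_pow this)
      omega
    · -- `N` contains every involution
      have hd60 : ∀ s, s ∣ Nat.card N → s ∣ 60 := fun s hs => hs.trans ⟨N.index, hmul.symm⟩
      obtain ⟨a, ha, had, ha1, ha2⟩ := FGS75.three_primes hns' 2 3
      obtain ⟨b, hb, hbd, hb1, hb2⟩ := FGS75.three_primes hns' 2 5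
      obtain ⟨c, hc, hcd, hc1, hc2⟩ := FGS75.three_primes hns' 3 5
      have := h235 a ha (hd60 a had)
      have := h235 b hb (hd60 b hbd)
      have := h235 c hc (hd60 c hcd)
      have e30 : 30 ∣ Nat.card N := by
        rw [show (30 : ℕ) = 2 * 3 * 5 from rfl]
        exact Nat.Coprime.mul_dvd_of_dvd_of_dvd (by decide) (Nat.Coprime.mul_dvd_of_dvd_of_dvd (by decide)
          ((show c = 2 by omega) ▸ hcd) ((show b = 3 by omega) ▸ hbd)) ((show a = 5 by omega) ▸ had)
      -- index two
      have hi : N.index = 2 := by
        obtain ⟨m, hm⟩ := e30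
        rw [hm] at hmul
        have hne : N.index ≠ 1 := fun e => hcon.2 (Subgroup.index_eq_one.mp e)
        have h0 : N.index ≠ 0 := Subgroup.index_ne_zero_of_finite
        have h2 : m * N.index = 2 := by nlinarith
        rcases (Nat.dvd_prime Nat.prime_two).mp (Dvd.intro_left m h2) with e | e
        · exact absurd e hne
        · exact e
      obtain ⟨g, hg⟩ : ∃ g, g ∉ N := by
        by_contra h
        push Not at h
        exact hcon.2 (eq_top_iff.mpr fun g _ => h g)
      -- every element outside `N` is an involution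
      have hout : ∀ g : G, g ∉ N → orderOf g = 2 := by
        intro g hg
        rcases hd.ord g with e | e
        · exact absurd (e ▸ one_mem N) hg
        · by_contra hne
          apply hg
          obtain ⟨l, hl⟩ := e.odd_of_ne_two hne
          have h2 : (g ^ 2) ^ (l + 1) = g := by
            rw [← pow_mul, show 2 * (l + 1) = orderOf g + 1 by omega, pow_succ, pow_orderOf_eq_one,
              one_mul]
          rw [← h2]
          exact pow_mem (Subgroup.sq_mem_of_index_two hi g) _
      -- an element outside `N` inverts `N`, so `N` is abelian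
      have hNc : ∀ u ∈ N, g * u * g⁻¹ = u⁻¹ := by
        intro u hu
        have h1 := hout (g * u) fun h => hg (by
          have := mul_mem h (inv_mem hu); rwa [mul_inv_cancel_right] at this)
        have h2 : g * u * (g * u) = 1 := by rw [← pow_two, ← h1]; exact pow_orderOf_eq_one _
        have hgg : g⁻¹ = g := inv_eq_of_mul_eq_one_right (by
          rw [← pow_two, ← hout g hg]; exact pow_orderOf_eq_one g)
        rw [hgg]
        exact eq_inv_of_mul_eq_one_left (by rw [← h2]; group)
      exact hns' (Group.isSolvable_of_comm fun u v => Subtype.ext (by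
        show (u : G) * v = v * u
        have h1 := hNc _ (mul_mem u.2 v.2)
        have h2 : g * ((u : G) * v) * g⁻¹ = (u : G)⁻¹ * (v : G)⁻¹ := by
          rw [← hNc u u.2, ← hNc v v.2]; group
        exact inv_injective (by rw [← h1, h2, mul_inv_rev])))
  exact Linear.simple_order_sixty_iso h60

end Cfsg.Agent.S4068
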