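-- statement Cfsg.CfsgFrozen.S4071 (Cfsg/Statements/S4071.lean; the theorem Cfsg.fg5_selfnormalizing_nonabelian_subgroups_solvable_nonnilpotent_structure);
import Cfsg.Statements.S4071
import Cfsg.Agent.PGroup.Basic
import Cfsg.Agent.Lib.Element

set_option autoImplicit false
open Cfsg

namespace Cfsg.Agent.S4071

open Subgroup
open scoped commutatorElement

theorem forward {G : Type*} [Group G] [Finite G] [Group.IsSolvable G] (hnn : ¬ Group.IsNilpotent G)
    (hS : ∀ H : Subgroup G, ¬ IsMulCommutative H → Subgroup.normalizer (H : Set G) = H) :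
    ∃ (x : G) (A : Subgroup G) (p : ℕ), p.Prime ∧ A.Normal ∧ IsMulCommutative A ∧ (∃ k : ℕ, orderOf x = p ^ k) ∧
      ¬ p ∣ Nat.card A ∧ (Subgroup.zpowers x).IsComplement' A ∧ x ^ p ∈ Subgroup.center G ∧
      ∀ a : G, a ∈ A → a ≠ 1 → x * a * x⁻¹ ≠ a := by
  classical
  haveI : Nontrivial G := by
    rcases subsingleton_or_nontrivial G with h | h
    · exact absurd (inferInstance : Group.IsNilpotent G) hnn
    · exact h
  obtain ⟨N, -, hN⟩ := Finite.exists_le_maximal (a := (⊥ : Subgroup G))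
    (p := fun N : Subgroup G => N.Normal ∧ N ≠ ⊤) ⟨inferInstance, bot_ne_top⟩
  obtain ⟨hNn, hNt⟩ := hN.1
  haveI := hNn
  have hNc : IsMulCommutative N := by
    by_contra h
    exact hNt ((hS N h).symm.trans (normalizer_eq_top_iff.2 hNn))
  have hNcomm : ∀ a ∈ N, ∀ b ∈ N, Commute a b := fun a ha b hb =>
    congrArg Subtype.val (isMulCommutative_iff.1 hNc ⟨a, ha⟩ ⟨b, hb⟩)
  haveI : Nontrivial (G ⧸ N) := QuotientGroup.nontrivial_iff.2 hNt
  haveI : IsSimpleGroup (G ⧸ N) := ⟨fun H hH => by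
    haveI := hH
    rcases eq_or_ne (H.comap (QuotientGroup.mk' N)) ⊤ with h | h
    · right
      rw [← map_comap_eq_self_of_surjective (QuotientGroup.mk'_surjective N) H, h,
        map_top_of_surjective _ (QuotientGroup.mk'_surjective N)]
    · left
      have hle : N ≤ H.comap (QuotientGroup.mk' N) := fun n hn => by
        rw [mem_comap, show (QuotientGroup.mk' N) n = 1 from (QuotientGroup.eq_one_iff n).2 hn]
        exact one_mem H
      have := hN.2 ⟨inferInstance, h⟩ hle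
      rw [← map_comap_eq_self_of_surjective (QuotientGroup.mk'_surjective N) H,
        le_antisymm this hle, QuotientGroup.map_mk'_self]⟩
  haveI : Group.IsSolvable (G ⧸ N) :=
    Group.isSolvable_of_surjective (QuotientGroup.mk'_surjective N)
  letI : CommGroup (G ⧸ N) :=
    { (inferInstance : Group (G ⧸ N)) with
      mul_comm := IsSimpleGroup.comm_iff_isSolvable.2 inferInstance }
  set p := Nat.card (G ⧸ N) with hpdef
  have hp : p.Prime := IsSimpleGroup.prime_card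
  haveI : Fact p.Prime := ⟨hp⟩
  obtain ⟨g₀, hg₀⟩ := SetLike.exists_of_lt (lt_top_iff_ne_top.2 hNt)
  have hpow : ∀ g : G, g ^ p ∈ N := fun g => by
    rw [← QuotientGroup.eq_one_iff, QuotientGroup.mk_pow, hpdef]
    exact pow_card_eq_one'
  set x := Element.pPart p g₀ with hxdef
  obtain ⟨hxo, hco⟩ := Element.orderOf_pPart hp g₀ (orderOf_pos g₀).ne'
  have hxN : x ∉ N := by
    intro hx
    have hc : Element.pComplPart p g₀ ∈ N := by
      have hcop : Nat.Coprime p (orderOf (Element.pComplPart p g₀)) := by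
        rw [hco]; exact Nat.coprime_ordCompl hp (orderOf_pos g₀).ne'
      obtain ⟨m, hm⟩ := exists_pow_eq_self_of_coprime hcop
      rw [← hm]
      exact pow_mem (hpow _) m
    exact hg₀.2 (Element.pPart_mul_pComplPart p g₀ ▸ mul_mem hx hc)
  have hgen : N ⊔ zpowers x = ⊤ := by
    have hz : (zpowers (x : G ⧸ N)) = ⊤ := zpowers_eq_top_of_prime_card (p := p) hpdef.symm
      (fun h => hxN ((QuotientGroup.eq_one_iff x).1 h))
    have h1 : (N ⊔ zpowers x).map (QuotientGroup.mk' N) = ⊤ := by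
      rw [Subgroup.map_sup, QuotientGroup.map_mk'_self, bot_sup_eq, MonoidHom.map_zpowers]
      exact hz
    have h2 := congrArg (Subgroup.comap (QuotientGroup.mk' N)) h1
    rwa [comap_map_eq, QuotientGroup.ker_mk', comap_top, sup_eq_left.2 le_sup_left] at h2
  have hxp : x ^ p ∈ center G := by
    rw [mem_center_iff]
    intro g
    have hg : g ∈ centralizer {x ^ p} := by
      refine (sup_le (fun n hn => ?_) ?_ : N ⊔ zpowers x ≤ _) (hgen ▸ mem_top g)
      · exact mem_centralizer_singleton_iff.2 (hNcomm n hn _ (hpow x))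
      · exact zpowers_le.2 (mem_centralizer_singleton_iff.2 ((Commute.refl x).pow_right p))
    exact mem_centralizer_singleton_iff.1 hg
  -- the p'-part and the p-part of N
  let A : Subgroup G :=
    { carrier := {a | a ∈ N ∧ Nat.Coprime (orderOf a) p}
      one_mem' := ⟨one_mem N, by simp⟩
      mul_mem' := fun {a b} ha hb => ⟨mul_mem ha.1 hb.1, Nat.Coprime.coprime_dvd_left
        (hNcomm a ha.1 b hb.1).orderOf_mul_dvd_lcm
        (Nat.Coprime.coprime_dvd_left (Nat.lcm_dvd_mul _ _) (Nat.Coprime.mul_left ha.2 hb.2))⟩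
      inv_mem' := fun {a} ha => ⟨inv_mem ha.1, by rw [orderOf_inv]; exact ha.2⟩ }
  let Q : Subgroup G :=
    { carrier := {a | a ∈ N ∧ ∃ k, a ^ p ^ k = 1}
      one_mem' := ⟨one_mem N, 0, one_pow _⟩
      mul_mem' := fun {a b} ⟨ha, k, hk⟩ ⟨hb, l, hl⟩ => ⟨mul_mem ha hb, k + l, by
        rw [(hNcomm a ha b hb).mul_pow, pow_add, pow_mul, hk, one_pow, mul_comm, pow_mul, hl,
          one_pow, one_mul]⟩
      inv_mem' := fun {a} ⟨ha, k, hk⟩ => ⟨inv_mem ha, k, by rw [inv_pow, hk, inv_one]⟩ }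
  have hA : ∀ a, a ∈ A ↔ a ∈ N ∧ Nat.Coprime (orderOf a) p := fun a => Iff.rfl
  haveI hAn : A.Normal := ⟨fun a ha g => ⟨hNn.conj_mem a ha.1 g, by
    rw [← MulAut.conj_apply, MulEquiv.orderOf_eq]; exact ha.2⟩⟩
  haveI hQn : Q.Normal := ⟨fun a ha g => ⟨hNn.conj_mem a ha.1 g, by
    obtain ⟨k, hk⟩ := ha.2
    exact ⟨k, by rw [← MulAut.conj_apply, ← map_pow, hk, map_one]⟩⟩⟩
  have hNsplit : N ≤ A ⊔ Q := fun n hn => by
    obtain ⟨h1, h2⟩ := Element.orderOf_pPart hp n (orderOf_pos n).ne'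
    have h3 : Element.pPart p n ∈ N := (zpowers_le.2 hn) (Element.pPart_mem_zpowers p n)
    have h4 : Element.pComplPart p n ∈ N := (zpowers_le.2 hn) (Element.pComplPart_mem_zpowers p n)
    rw [← Element.pPart_mul_pComplPart p n]
    refine mul_mem (mem_sup_right ⟨h3, _, h1 ▸ pow_orderOf_eq_one _⟩) (mem_sup_left ⟨h4, ?_⟩)
    rw [h2]
    exact (Nat.coprime_ordCompl hp (orderOf_pos n).ne').symm
  have hAp : ¬ p ∣ Nat.card A := fun h => by
    obtain ⟨a, ha⟩ := exists_prime_orderOf_dvd_card' p h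
    have h1 := a.2.2
    rw [orderOf_coe, ha, Nat.coprime_self] at h1
    exact hp.ne_one h1
  have hxpk : ∃ k, orderOf x = p ^ k := ⟨_, hxo⟩
  have hdisj : ∀ y ∈ A, (∃ k, y ^ p ^ k = 1) → y = 1 := by
    rintro y hy ⟨k, hk⟩
    rw [← orderOf_eq_one_iff]
    exact Nat.eq_one_of_dvd_coprimes (hy.2.pow_right k) dvd_rfl (orderOf_dvd_of_pow_eq_one hk)
  have hxk : ∃ k, x ^ p ^ k = 1 := ⟨_, hxo ▸ pow_orderOf_eq_one x⟩
  -- `x` does not centralize `A`
  have hmove : ¬ ∀ a ∈ A, Commute x a := by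
    intro hc
    refine hnn ?_
    have hAc : A ≤ center G := by
      intro a ha
      rw [mem_center_iff]
      intro g
      have hg : g ∈ centralizer {a} := by
        refine (sup_le (fun n hn => ?_) ?_ : N ⊔ zpowers x ≤ _) (hgen ▸ mem_top g)
        · exact mem_centralizer_singleton_iff.2 (hNcomm n hn a ha.1)
        · exact zpowers_le.2 (mem_centralizer_singleton_iff.2 (hc a ha))
      exact mem_centralizer_singleton_iff.1 hg
    have hq : IsPGroup p (G ⧸ A) := by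
      intro q
      obtain ⟨g, rfl⟩ := QuotientGroup.mk'_surjective A q
      obtain ⟨e, m, hm, he⟩ := Nat.exists_eq_pow_mul_and_not_dvd (orderOf_pos g).ne' p hp.ne_one
      refine ⟨e + 1, ?_⟩
      rw [← map_pow, QuotientGroup.mk'_apply, QuotientGroup.eq_one_iff]
      refine ⟨?_, ?_⟩
      · rw [pow_succ, pow_mul]
        exact hpow _
      · refine Nat.Coprime.coprime_dvd_left ?_ (hp.coprime_iff_not_dvd.2 hm).symm
        refine orderOf_dvd_of_pow_eq_one ?_
        rw [← pow_mul, pow_succ, mul_right_comm, pow_mul, ← he, pow_orderOf_eq_one, one_pow]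
    haveI := hq.isNilpotent
    exact Subgroup.isNilpotent_of_ker_le_center (QuotientGroup.mk' A)
      (by rwa [QuotientGroup.ker_mk'])
  have hAc : IsMulCommutative A := isMulCommutative_iff.2 fun a b =>
    Subtype.ext (hNcomm a a.2.1 b b.2.1).eq
  have hnab : ¬ IsMulCommutative (A ⊔ zpowers x : Subgroup G) := fun h => hmove fun a ha => by
    have h8 := congrArg Subtype.val (isMulCommutative_iff.1 h
      ⟨x, mem_sup_right (mem_zpowers x)⟩ ⟨a, mem_sup_left ha⟩)
    exact h8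
  -- `Q ≤ ⟨x⟩`
  have hQx : Q ≤ zpowers x := by
    by_contra hne
    have hxpg : IsPGroup p (zpowers x) :=
      IsPGroup.of_card (n := _) (by rw [Nat.card_zpowers, hxo])
    have hQp : IsPGroup p Q := fun a => by
      obtain ⟨k, hk⟩ := a.2.2
      exact ⟨k, Subtype.ext hk⟩
    have hP : IsPGroup p (zpowers x ⊔ Q : Subgroup G) := hxpg.to_sup_of_normal_right hQp
    have hlt : zpowers x < zpowers x ⊔ Q := lt_of_le_of_ne le_sup_left fun h => hne (h ▸ le_sup_right)
    obtain ⟨y, hy, hyx⟩ := SetLike.exists_of_lt (PGroup.lt_inf_normalizer hP hlt)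
    have hyn : y ∈ normalizer ((A ⊔ zpowers x : Subgroup G) : Set G) := by
      rw [mem_normalizer_iff_map_conj_eq, Subgroup.map_sup,
        mem_normalizer_iff_map_conj_eq.1 hy.2,
        mem_normalizer_iff_map_conj_eq.1 (by rw [normalizer_eq_top_iff.2 hAn]; exact mem_top y :
          y ∈ normalizer (A : Set G))]
    rw [hS _ hnab] at hyn
    obtain ⟨a, ha, z, hz, rfl⟩ := mem_sup_of_normal_left.1 hyn
    have ha' : a ∈ zpowers x ⊔ Q := by
      have hz' : z ∈ zpowers x ⊔ Q := mem_sup_left hz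
      have hy1 : a * z ∈ zpowers x ⊔ Q := hy.1
      simpa using mul_mem hy1 (inv_mem hz')
    obtain ⟨k, hk⟩ := hP ⟨a, ha'⟩
    have := hdisj a ha ⟨k, congrArg Subtype.val hk⟩
    subst this
    exact hyx (by rwa [one_mul])
  have hsup : zpowers x ⊔ A = ⊤ := by
    rw [eq_top_iff, ← hgen]
    exact sup_le (hNsplit.trans (sup_le le_sup_right (hQx.trans le_sup_left))) le_sup_left
  have hcompl : (zpowers x).IsComplement' A := by
    refine isComplement'_of_disjoint_and_mul_eq_univ ?_ ?_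
    · rw [disjoint_def]
      intro y hy hyA
      obtain ⟨k, hk⟩ := hxk
      refine hdisj y hyA ⟨k, ?_⟩
      obtain ⟨i, rfl⟩ := hy
      rw [← zpow_natCast, ← zpow_mul, mul_comm, zpow_mul, zpow_natCast, hk, one_zpow]
    · rw [← mul_normal, hsup, coe_top]
  refine ⟨x, A, p, hp, hAn, hAc, hxpk, hAp, hcompl, hxp, ?_⟩
  -- fixed-point-freeness
  let φ : A →* A :=
    { toFun := fun a => ⟨x * a * x⁻¹ * (a : G)⁻¹, mul_mem (hAn.conj_mem a a.2 x) (inv_mem a.2)⟩
      map_one' := Subtype.ext (by simp)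
      map_mul' := fun a b => Subtype.ext (by
        show x * (a * b : G) * x⁻¹ * (a * b : G)⁻¹ = (x * a * x⁻¹ * (a : G)⁻¹) * (x * b * x⁻¹ * (b : G)⁻¹)
        have h1 : Commute ((a : G)⁻¹) (x * b * x⁻¹ * (b : G)⁻¹) :=
          hNcomm _ (inv_mem a.2.1) _ (mul_mem (hNn.conj_mem _ b.2.1 x) (inv_mem b.2.1))
        rw [mul_assoc (x * (a : G) * x⁻¹), h1.eq]
        group) }
  let D : Subgroup G := φ.range.map A.subtype
  have hDA : D ≤ A := map_subtype_le _
  have hD : ∀ a ∈ A, x * a * x⁻¹ * a⁻¹ ∈ D := fun a ha => ⟨φ ⟨a, ha⟩, ⟨_, rfl⟩, rfl⟩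
  have hH : ¬ IsMulCommutative (D ⊔ zpowers x : Subgroup G) := by
    intro h
    refine hmove fun a ha => ?_
    have hd := hD a ha
    set d := x * a * x⁻¹ * a⁻¹ with hddef
    have hxd : Commute x d := by
      have h8 := congrArg Subtype.val (isMulCommutative_iff.1 h
        ⟨x, mem_sup_right (mem_zpowers x)⟩ ⟨d, mem_sup_left hd⟩)
      exact h8
    have hk : ∀ k : ℕ, x ^ k * a * (x ^ k)⁻¹ = d ^ k * a := by
      intro k
      induction k with
      | zero => simp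
      | succ k ih =>
        have e1 : x ^ (k + 1) * a * (x ^ (k + 1))⁻¹ = x * (x ^ k * a * (x ^ k)⁻¹) * x⁻¹ := by
          rw [pow_succ' x]; group
        have e2 : x * (d ^ k * a) * x⁻¹ = d ^ k * (x * a * x⁻¹) := by
          rw [← mul_assoc x, (hxd.pow_right k).eq]; group
        rw [e1, ih, e2, show x * a * x⁻¹ = d * a by rw [hddef]; group, pow_succ d]
        group
    obtain ⟨k, hk'⟩ := hxk
    have h9 := hk (p ^ k)
    rw [hk'] at h9
    simp only [one_mul, inv_one, mul_one] at h9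
    have hd1 : d = 1 := hdisj d (hDA hd) ⟨k, mul_eq_right.1 h9.symm⟩
    have : x * a * x⁻¹ = a := by
      rw [show x * a * x⁻¹ = d * a by rw [hddef]; group, hd1, one_mul]
    exact mul_inv_eq_iff_eq_mul.1 this
  have hAH : A ≤ D ⊔ zpowers x := by
    rw [← hS _ hH]
    intro a ha
    rw [mem_normalizer_iff_map_conj_eq]
    have hle : ∀ b ∈ A, (D ⊔ zpowers x).map (MulAut.conj b).toMonoidHom ≤ D ⊔ zpowers x := by
      intro b hb
      rw [Subgroup.map_sup, MonoidHom.map_zpowers]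
      refine sup_le ?_ (zpowers_le.2 ?_)
      · rintro _ ⟨d, hd, rfl⟩
        show b * d * b⁻¹ ∈ _
        rw [(hNcomm b hb.1 d (hDA hd).1).eq, mul_inv_cancel_right]
        exact mem_sup_left hd
      · show b * x * b⁻¹ ∈ _
        rw [show b * x * b⁻¹ = (x * b * x⁻¹ * b⁻¹)⁻¹ * x by group]
        exact mul_mem (inv_mem (mem_sup_left (hD b hb))) (mem_sup_right (mem_zpowers x))
    exact Subgroup.eq_of_le_of_card_ge (hle a ha)
      (card_map_of_injective (MulEquiv.injective _)).ge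
  have hsurj : Function.Surjective φ := by
    intro a
    have hDn : zpowers x ≤ normalizer (D : Set G) := zpowers_le.2 (by
      rw [mem_normalizer_iff_map_conj_eq]
      refine Subgroup.eq_of_le_of_card_ge ?_ (card_map_of_injective (MulEquiv.injective _)).ge
      rintro _ ⟨_, ⟨_, ⟨b, rfl⟩, rfl⟩, rfl⟩
      refine ⟨φ ⟨x * b * x⁻¹, hAn.conj_mem b b.2 x⟩, ⟨_, rfl⟩, ?_⟩
      show x * (x * b * x⁻¹) * x⁻¹ * (x * b * x⁻¹)⁻¹ = x * (x * b * x⁻¹ * (b : G)⁻¹) * x⁻¹
      group)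
    have ha : (a : G) ∈ (↑(D ⊔ zpowers x) : Set G) := hAH a.2
    rw [coe_mul_of_right_le_normalizer_left D (zpowers x) hDn] at ha
    obtain ⟨d, hd, z, hz, hdz⟩ := ha
    have hdz' : d * z = (a : G) := hdz
    have hzA : z ∈ A := by
      rw [show z = d⁻¹ * (a : G) by rw [← hdz']; group]
      exact mul_mem (inv_mem (hDA hd)) a.2
    have hz1 : z = 1 := (disjoint_def.1 hcompl.disjoint) hz hzA
    rw [hz1, mul_one] at hdz'
    obtain ⟨_, ⟨b, rfl⟩, hb⟩ := hd
    exact ⟨b, Subtype.ext (hb.trans hdz')⟩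
  intro a ha ha1 hfix
  have : φ ⟨a, ha⟩ = φ 1 := Subtype.ext (by
    show x * a * x⁻¹ * a⁻¹ = x * 1 * x⁻¹ * 1⁻¹
    rw [hfix]; group)
  exact ha1 (congrArg Subtype.val ((Finite.injective_iff_surjective.2 hsurj) this))

theorem backward {G : Type*} [Group G] [Finite G] {x : G} {A : Subgroup G} {p : ℕ}
    (hp : p.Prime) (hAn : A.Normal) (hAc : IsMulCommutative A) (hxk : ∃ k : ℕ, orderOf x = p ^ k)
    (hcompl : (Subgroup.zpowers x).IsComplement' A) (hxp : x ^ p ∈ Subgroup.center G)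
    (hfpf : ∀ a : G, a ∈ A → a ≠ 1 → x * a * x⁻¹ ≠ a) (H : Subgroup G)
    (hH : ¬ IsMulCommutative H) : Subgroup.normalizer (H : Set G) = H := by
  classical
  haveI := hAn
  have hAcomm : ∀ a ∈ A, ∀ b ∈ A, Commute a b := fun a ha b hb =>
    congrArg Subtype.val (isMulCommutative_iff.1 hAc ⟨a, ha⟩ ⟨b, hb⟩)
  have hdec : ∀ g : G, ∃ i : ℤ, ∃ a ∈ A, g = a * x ^ i := by
    intro g
    have hg : g ∈ A ⊔ zpowers x := by rw [sup_comm, hcompl.sup_eq_top]; exact mem_top g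
    obtain ⟨a, ha, z, ⟨i, rfl⟩, rfl⟩ := mem_sup_of_normal_left.1 hg
    exact ⟨i, a, ha, rfl⟩
  -- an element of `H` outside `A⟨x^p⟩`
  obtain ⟨h, hh, i, hi, a, ha, rfl⟩ : ∃ h ∈ H, ∃ i : ℤ, ¬ (p : ℤ) ∣ i ∧ ∃ a ∈ A, h = a * x ^ i := by
    by_contra! hc
    refine hH (isMulCommutative_iff.2 fun u v => Subtype.ext ?_)
    have key : ∀ g ∈ H, ∃ z ∈ center G, ∃ a ∈ A, g = a * z := by
      intro g hg
      obtain ⟨i, a, ha, rfl⟩ := hdec g
      by_cases hi : (p : ℤ) ∣ i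
      · obtain ⟨j, rfl⟩ := hi
        exact ⟨x ^ ((p : ℤ) * j), by rw [zpow_mul, zpow_natCast]; exact zpow_mem hxp j, a, ha, rfl⟩
      · exact absurd rfl (hc _ hg i hi a ha)
    obtain ⟨z, hz, a, ha, hu⟩ := key u u.2
    obtain ⟨w, hw, b, hb, hv⟩ := key v v.2
    show (u : G) * v = v * u
    have h1 : ∀ g, Commute z g := fun g => (mem_center_iff.1 hz g).symm
    have h2 : ∀ g, Commute w g := fun g => (mem_center_iff.1 hw g).symm
    rw [hu, hv]
    exact (((hAcomm a ha b hb).mul_right (h2 a).symm).mul_left (h1 (b * w))).eq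
  -- conjugate so that `x ^ i` lies in `H`
  have hcop : IsCoprime i (p : ℤ) := by
    rw [Int.isCoprime_iff_nat_coprime, Int.natAbs_natCast]
    exact (hp.coprime_iff_not_dvd.2 fun h => hi (Int.natCast_dvd.2 h)).symm
  obtain ⟨k, hk⟩ := hxk
  have hxi : x ∈ zpowers (x ^ i) := by
    obtain ⟨s, t, hst⟩ := hcop.pow_right (n := k)
    refine ⟨s, ?_⟩
    show (x ^ i) ^ s = x
    rw [← zpow_mul]
    conv_rhs => rw [← zpow_one x, ← hst, zpow_add, mul_comm t, zpow_mul x _ t,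
      show ((p : ℤ) ^ k) = ((p ^ k : ℕ) : ℤ) by push_cast; rfl, zpow_natCast, ← hk,
      pow_orderOf_eq_one, one_zpow, mul_one, mul_comm]
  have hinj : ∀ b ∈ A, b * (x ^ i) * b⁻¹ = x ^ i → b = 1 := by
    intro b hb hbx
    by_contra h1
    refine hfpf b hb h1 ?_
    have hc : Commute (x ^ i) b := (mul_inv_eq_iff_eq_mul.1 hbx).symm
    obtain ⟨s, hs⟩ := hxi
    have hs' : (x ^ i) ^ s = x := hs
    have hcx : Commute x b := hs' ▸ hc.zpow_left s
    rw [hcx.eq, mul_inv_cancel_right]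
  let ψ : A → A := fun b => ⟨b * (x ^ i * (b : G)⁻¹ * (x ^ i)⁻¹),
    mul_mem b.2 (hAn.conj_mem _ (inv_mem b.2) _)⟩
  have hψ : Function.Bijective ψ := by
    refine Finite.injective_iff_bijective.1 fun b c hbc => ?_
    have h := congrArg Subtype.val hbc
    simp only [ψ] at h
    have : (c : G)⁻¹ * b * x ^ i * ((c : G)⁻¹ * b)⁻¹ = x ^ i := by
      calc (c : G)⁻¹ * b * x ^ i * ((c : G)⁻¹ * b)⁻¹
          = (c : G)⁻¹ * ((b : G) * (x ^ i * (b : G)⁻¹ * (x ^ i)⁻¹)) * x ^ i * c := by group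
        _ = x ^ i := by rw [h]; group
    exact Subtype.ext (inv_mul_eq_one.1 (hinj _ (mul_mem (inv_mem c.2) b.2) this)).symm
  obtain ⟨b, hb⟩ := hψ.2 ⟨a, ha⟩
  have hb' : (b : G) * (x ^ i * (b : G)⁻¹ * (x ^ i)⁻¹) = a := congrArg Subtype.val hb
  -- the conjugate containing `x`
  set H' : Subgroup G := H.comap (MulAut.conj (b : G)).toMonoidHom with hH'
  have hxH' : x ∈ H' := by
    refine (zpowers_le.2 ?_) hxi
    show (b : G) * x ^ i * (b : G)⁻¹ ∈ H
    rw [show (b : G) * x ^ i * (b : G)⁻¹ = ((b : G) * (x ^ i * (b : G)⁻¹ * (x ^ i)⁻¹)) * x ^ i by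
      group, hb']
    exact hh
  have hN' : ∀ g, g ∈ normalizer (H' : Set G) → g ∈ H' := by
    intro g hg
    obtain ⟨j, c, hc, rfl⟩ := hdec g
    have hc' : c ∈ normalizer (H' : Set G) := by
      simpa using mul_mem hg (inv_mem (le_normalizer (zpow_mem hxH' j)))
    have hd : c * x * c⁻¹ * x⁻¹ ∈ H' :=
      mul_mem ((mem_normalizer_iff.1 hc' x).1 hxH') (inv_mem hxH')
    let θ : {u : A // (u : G) ∈ H'} → {u : A // (u : G) ∈ H'} := fun u =>
      ⟨⟨(u.1 : G) * (x * (u.1 : G)⁻¹ * x⁻¹), mul_mem u.1.2 (hAn.conj_mem _ (inv_mem u.1.2) _)⟩,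
        mul_mem u.2 (mul_mem (mul_mem hxH' (inv_mem u.2)) (inv_mem hxH'))⟩
    have hθ : Function.Bijective θ := by
      refine Finite.injective_iff_bijective.1 fun u v huv => ?_
      have h := congrArg (fun w => ((w : {u : A // (u : G) ∈ H'}).1 : G)) huv
      simp only [θ] at h
      have hx1 : (v.1 : G)⁻¹ * u.1 * x * ((v.1 : G)⁻¹ * u.1)⁻¹ = x := by
        calc (v.1 : G)⁻¹ * u.1 * x * ((v.1 : G)⁻¹ * u.1)⁻¹
            = (v.1 : G)⁻¹ * ((u.1 : G) * (x * (u.1 : G)⁻¹ * x⁻¹)) * x * v.1 := by group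
          _ = x := by rw [h]; group
      have hmem := mul_mem (inv_mem v.1.2) u.1.2
      refine Subtype.ext (Subtype.ext ?_)
      by_contra hne
      refine hfpf _ hmem (fun h1 => hne (inv_mul_eq_one.1 h1).symm) ?_
      calc x * ((v.1 : G)⁻¹ * u.1) * x⁻¹
          = ((v.1 : G)⁻¹ * u.1 * x * ((v.1 : G)⁻¹ * u.1)⁻¹) * ((v.1 : G)⁻¹ * u.1) * x⁻¹ := by rw [hx1]
        _ = _ := by group
    have hdA : c * x * c⁻¹ * x⁻¹ ∈ A := by
      rw [show c * x * c⁻¹ * x⁻¹ = c * (x * c⁻¹ * x⁻¹) by group]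
      exact mul_mem hc (hAn.conj_mem _ (inv_mem hc) _)
    obtain ⟨u, hu⟩ := hθ.2 ⟨⟨_, hdA⟩, hd⟩
    have hu' : (u.1 : G) * (x * (u.1 : G)⁻¹ * x⁻¹) = c * x * c⁻¹ * x⁻¹ :=
      congrArg (fun w => ((w : {u : A // (u : G) ∈ H'}).1 : G)) hu
    have hcu : c = u.1 := by
      by_contra hne
      refine hfpf _ (mul_mem (inv_mem u.1.2) hc) (fun h1 => hne (inv_mul_eq_one.1 h1).symm) ?_
      have h3 : (u.1 : G)⁻¹ * c * x * ((u.1 : G)⁻¹ * c)⁻¹ = x := by
        calc (u.1 : G)⁻¹ * c * x * ((u.1 : G)⁻¹ * c)⁻¹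
            = (u.1 : G)⁻¹ * (c * x * c⁻¹ * x⁻¹) * x * u.1 := by group
          _ = x := by rw [← hu']; group
      calc x * ((u.1 : G)⁻¹ * c) * x⁻¹
          = ((u.1 : G)⁻¹ * c * x * ((u.1 : G)⁻¹ * c)⁻¹) * ((u.1 : G)⁻¹ * c) * x⁻¹ := by rw [h3]
        _ = _ := by group
    exact mul_mem (hcu ▸ u.2) (zpow_mem hxH' j)
  refine le_antisymm (fun g hg => ?_) le_normalizer
  have h1 : (b : G)⁻¹ * g * b ∈ normalizer (H' : Set G) := by
    rw [mem_normalizer_iff]
    intro u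
    show (b : G) * u * (b : G)⁻¹ ∈ H ↔
      (b : G) * ((b : G)⁻¹ * g * b * u * ((b : G)⁻¹ * g * b)⁻¹) * (b : G)⁻¹ ∈ H
    rw [mem_normalizer_iff.1 hg ((b : G) * u * (b : G)⁻¹),
      show (b : G) * ((b : G)⁻¹ * g * b * u * ((b : G)⁻¹ * g * b)⁻¹) * (b : G)⁻¹ =
        g * ((b : G) * u * (b : G)⁻¹) * g⁻¹ by group]
  have h2 : (b : G) * ((b : G)⁻¹ * g * b) * (b : G)⁻¹ ∈ H := hN' _ h1
  simpa [mul_assoc] using h2

/-- Let G be a finite solvable non-nilpotent group. Every non-abelian subgroup of G is self-normalizing if and only if G is a semidirect product ⟨x⟩ ⋉ A in which ⟨x⟩ is a p-group for some prime p, A is a normal abelian subgroup of order prime to p, x^p is central in G, and x acts fixed-point-freely on A (no non-identity element of A commutes with x). -/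
theorem result {G : Type*} [Group G] [Finite G]
    [Group.IsSolvable G] (hnn : ¬ Group.IsNilpotent G) :
    (∀ H : Subgroup G, ¬ IsMulCommutative H → Subgroup.normalizer (H : Set G) = H) ↔
    ∃ (x : G) (A : Subgroup G) (p : ℕ), p.Prime ∧ A.Normal ∧ IsMulCommutative A ∧ (∃ k : ℕ, orderOf x = p ^ k) ∧
      ¬ p ∣ Nat.card A ∧ (Subgroup.zpowers x).IsComplement' A ∧ x ^ p ∈ Subgroup.center G ∧
      ∀ a : G, a ∈ A → a ≠ 1 → x * a * x⁻¹ ≠ a := by
  constructor
  · exact forward hnn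
  · rintro ⟨x, A, p, hp, hAn, hAc, hxk, -, hcompl, hxp, hfpf⟩ H hH
    exact backward hp hAn hAc hxk hcompl hxp hfpf H hH

end Cfsg.Agent.S4071
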