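import Cfsg.Statements.S4216
import Mathlib

set_option autoImplicit false
open Cfsg

namespace Cfsg.Agent.S4216

open Subgroup MulAction
open scoped commutatorElement

variable {G : Type*} [Group G] [Finite G] {p : ℕ} [Fact p.Prime]

theorem orderOf_pow_lt {u : G} (hp : ∃ k, orderOf u = p ^ k) (hu : u ≠ 1) {m : ℕ} (hm : p ∣ m) :
    orderOf (u ^ m) < orderOf u := by
  obtain ⟨k, hk⟩ := hp
  have hp1 := (Fact.out : p.Prime).one_lt
  rw [orderOf_pow]
  refine Nat.div_lt_self (orderOf_pos u) (lt_of_lt_of_le hp1 (Nat.le_of_dvd ?_ (Nat.dvd_gcd ?_ hm)))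
  · exact Nat.gcd_pos_of_pos_left _ (orderOf_pos u)
  · rw [hk]
    refine dvd_pow_self p ?_
    rintro rfl
    exact hu (orderOf_eq_one_iff.1 (by rw [hk, pow_zero]))

/-- Grün's first theorem, the nontrivial inclusion. -/
theorem mem_of_mem (P : Sylow p G) (U : Subgroup G) (hUP : U ≤ (P : Subgroup G))
    (hN : ∀ n ∈ normalizer ((P : Subgroup G) : Set G), ∀ u ∈ (P : Subgroup G), ⁅n, u⁆ ∈ U)
    (hZ : ∀ z : G, ∀ d ∈ ⁅(P : Subgroup G), (P : Subgroup G)⁆, z * d * z⁻¹ ∈ (P : Subgroup G) → z * d * z⁻¹ ∈ U)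
    (u : G) (hu : u ∈ (P : Subgroup G)) (hu' : u ∈ commutator G) : u ∈ U := by
  classical
  have hp := (Fact.out : p.Prime)
  induction hn : orderOf u using Nat.strong_induction_on generalizing u with
  | _ n ih =>
  by_cases hu1 : u = 1
  · exact hu1 ▸ one_mem U
  have hppow : ∃ k, orderOf u = p ^ k := by
    obtain ⟨k, hk⟩ := IsPGroup.iff_orderOf.1 P.2 ⟨u, hu⟩
    exact ⟨k, by rw [← hk, Subgroup.orderOf_mk]⟩
  have hsmall : ∀ m : ℕ, p ∣ m → ∀ s : G, s * u ^ m * s⁻¹ ∈ (P : Subgroup G) → s * u ^ m * s⁻¹ ∈ U := by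
    intro m hm s hs
    refine ih _ ?_ _ hs ((inferInstance : (commutator G).Normal).conj_mem _ (pow_mem hu' m) s) rfl
    rw [← hn, ← MulAut.conj_apply, MulEquiv.orderOf_eq]
    exact orderOf_pow_lt hppow hu1 hm
  have hnormU : (U.subgroupOf (P : Subgroup G)).Normal := by
    refine ⟨fun x hx g => ?_⟩
    have h1 := hN g ((P : Subgroup G).le_normalizer g.2) x (hUP hx)
    have h2 := mul_mem h1 hx
    rw [commutatorElement_def] at h2
    simpa [mem_subgroupOf, mul_assoc] using h2
  let A := (P : Subgroup G) ⧸ U.subgroupOf (P : Subgroup G)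
  let φ : (P : Subgroup G) →* A := QuotientGroup.mk' _
  have hcomm : ∀ a b : A, a * b = b * a := by
    intro a b
    obtain ⟨a, rfl⟩ := QuotientGroup.mk'_surjective _ a
    obtain ⟨b, rfl⟩ := QuotientGroup.mk'_surjective _ b
    rw [← map_mul, ← map_mul]
    refine QuotientGroup.eq.2 (mem_subgroupOf.2 ?_)
    have h1 := hN _ ((P : Subgroup G).le_normalizer (inv_mem b.2)) (a : G)⁻¹ (inv_mem a.2)
    rw [commutatorElement_def] at h1
    simpa [mul_assoc] using h1
  let : CommGroup A := { (inferInstance : Group A) with mul_comm := hcomm }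
  have hφ : ∀ {a b : G} (ha : a ∈ (P : Subgroup G)) (hb : b ∈ (P : Subgroup G)),
      a⁻¹ * b ∈ U → φ ⟨a, ha⟩ = φ ⟨b, hb⟩ := fun _ _ h => QuotientGroup.eq.2 (mem_subgroupOf.2 h)
  have hφ1 : ∀ {a : G} (ha : a ∈ (P : Subgroup G)), a ∈ U → φ ⟨a, ha⟩ = 1 := fun ha h =>
    (QuotientGroup.eq_one_iff _).2 (mem_subgroupOf.2 h)
  have : Fintype (G ⧸ (P : Subgroup G)) := Fintype.ofFinite _
  let c : G ⧸ (P : Subgroup G) → A := fun x =>
    if h : x.out⁻¹ * u * x.out ∈ (P : Subgroup G) then φ ⟨_, h⟩ else 1
  have hfix : ∀ x : G ⧸ (P : Subgroup G), u • x = x ↔ x.out⁻¹ * u * x.out ∈ (P : Subgroup G) := by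
    intro x
    conv_lhs => rw [← x.out_eq']
    rw [MulAction.Quotient.smul_coe, eq_comm, QuotientGroup.eq, smul_eq_mul, mul_assoc]
  have hc0 : ∀ x, ¬ u • x = x → c x = 1 := fun x hx => dif_neg (fun h => hx ((hfix x).2 h))
  -- the transfer is the product of `c`
  have htr : MonoidHom.transfer φ u = ∏ x, c x := by
    have : Fintype (Quotient (orbitRel (zpowers u) (G ⧸ (P : Subgroup G)))) := Fintype.ofFinite _
    rw [MonoidHom.transfer_eq_prod_quotient_orbitRel_zpowers_quot]
    rw [← Fintype.prod_fiberwise (fun x => Quotient.mk (orbitRel (zpowers u) (G ⧸ (P : Subgroup G))) x) c]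
    refine Fintype.prod_congr _ _ fun q => ?_
    have hstuck : ∀ x y : G ⧸ (P : Subgroup G), u • x = x →
        Quotient.mk (orbitRel (zpowers u) _) x = Quotient.mk _ y → y = x := by
      intro x y hx hxy
      obtain ⟨⟨g, hg⟩, hgy⟩ := Quotient.exact hxy.symm
      have : g • x = x := (show zpowers u ≤ MulAction.stabilizer G x from
        Subgroup.zpowers_le.2 hx) hg
      exact hgy.symm.trans this
    by_cases hq : u • q.out = q.out
    · have hper : Function.minimalPeriod (u • ·) q.out = 1 :=
        Function.minimalPeriod_eq_one_iff_isFixedPt.2 hq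
      have hmem := (hfix q.out).1 hq
      rw [Fintype.prod_eq_single (⟨q.out, q.out_eq⟩ : {x // Quotient.mk _ x = q})
        (fun x hx => absurd (Subtype.ext (hstuck q.out x.1 hq (q.out_eq.trans x.2.symm))) hx)]
      show _ = c q.out
      rw [show c q.out = φ ⟨_, hmem⟩ from dif_pos hmem]
      congr 1
      exact Subtype.ext (by simp [hper])
    · rw [Finset.prod_eq_one (fun (x : {y // Quotient.mk _ y = q}) _ => hc0 x.1 (fun hx => hq ((hstuck x.1 q.out hx (x.2.trans q.out_eq.symm)).symm ▸ hx)))]
      apply hφ1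
      have hm : p ∣ Function.minimalPeriod (u • ·) q.out := by
        obtain ⟨k, hk⟩ := hppow
        have hd : Function.minimalPeriod (u • ·) q.out ∣ p ^ k := by
          rw [← MulAction.pow_smul_eq_iff_minimalPeriod_dvd, ← hk, pow_orderOf_eq_one, one_smul]
        obtain ⟨i, -, hi⟩ := (Nat.dvd_prime_pow hp).1 hd
        rw [hi]
        refine dvd_pow_self p ?_
        rintro rfl
        exact hq (Function.minimalPeriod_eq_one_iff_isFixedPt.1 (by rw [hi, pow_zero]))
      have h := hsmall _ hm q.out.out⁻¹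
      rw [inv_inv] at h
      exact h (QuotientGroup.out_conj_pow_minimalPeriod_mem (P : Subgroup G) u q.out)
  -- grouping by the orbits of `P`
  have hprod : ∏ x, c x = φ ⟨u, hu⟩ ^ Nat.card (fixedPoints (P : Subgroup G) (G ⧸ (P : Subgroup G))) := by
    rw [← Finset.prod_filter_mul_prod_filter_not Finset.univ
      (fun x => x ∈ fixedPoints (P : Subgroup G) (G ⧸ (P : Subgroup G))) c]
    have h1 : ∀ x ∈ fixedPoints (P : Subgroup G) (G ⧸ (P : Subgroup G)), c x = φ ⟨u, hu⟩ := by
      intro x hx
      have hmem : ∀ w ∈ (P : Subgroup G), x.out⁻¹ * w * x.out ∈ (P : Subgroup G) := by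
        intro w hw
        have h : w • x = x := hx ⟨w, hw⟩
        conv_lhs at h => rw [← x.out_eq']
        conv_rhs at h => rw [← x.out_eq']
        rw [MulAction.Quotient.smul_coe, eq_comm, QuotientGroup.eq, smul_eq_mul, ← mul_assoc] at h
        exact h
      have hn' : x.out⁻¹ ∈ normalizer ((P : Subgroup G) : Set G) := by
        refine Subgroup.mem_normalizer_iff_map_conj_eq.2 (Subgroup.eq_of_le_of_card_ge ?_
          (le_of_eq (Subgroup.card_map_of_injective (MulAut.conj x.out⁻¹).injective).symm))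
        rintro _ ⟨w, hw, rfl⟩
        simpa using hmem w hw
      show c x = _
      rw [show c x = φ ⟨_, hmem u hu⟩ from dif_pos (hmem u hu)]
      refine (hφ _ _ ?_).symm
      have := hN _ hn' _ hu
      rw [commutatorElement_def, inv_inv] at this
      have h2 := (inferInstance : (U.subgroupOf (P : Subgroup G)).Normal).conj_mem
        ⟨_, hUP this⟩ (mem_subgroupOf.2 this) ⟨u⁻¹, inv_mem hu⟩
      simpa [mem_subgroupOf, mul_assoc] using h2
    rw [Finset.prod_congr rfl (fun x hx => h1 x (Finset.mem_filter.1 hx).2), Finset.prod_const]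
    refine (mul_eq_left.2 ?_).trans ?_; rotate_left
    · rw [Nat.card_eq_fintype_card, Fintype.card_of_subtype]
      simp
    · rw [← Finset.prod_fiberwise_of_maps_to (g := fun x => Quotient.mk (orbitRel (P : Subgroup G) (G ⧸ (P : Subgroup G))) x)
        (t := Finset.univ) (fun _ _ => Finset.mem_univ _)]
      refine Finset.prod_eq_one fun O _ => ?_
      set T := (Finset.univ.filter fun x => ¬ x ∈ fixedPoints (P : Subgroup G) (G ⧸ (P : Subgroup G))).filter
        (fun x => Quotient.mk (orbitRel (P : Subgroup G) (G ⧸ (P : Subgroup G))) x = O) with hT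
      rw [← Finset.prod_filter_mul_prod_filter_not T (fun x => u • x = x),
        Finset.prod_eq_one (fun x hx => hc0 x (Finset.mem_filter.1 hx).2), mul_one]
      set F := T.filter (fun x => u • x = x) with hF
      rcases F.eq_empty_or_nonempty with he | ⟨a, ha⟩
      · rw [he, Finset.prod_empty]
      have haT := (Finset.mem_filter.1 ha).1
      have hau := (Finset.mem_filter.1 ha).2
      have haf : a ∉ fixedPoints (P : Subgroup G) (G ⧸ (P : Subgroup G)) := by
        have := (Finset.mem_filter.1 haT).1; simpa using this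
      have haO := (Finset.mem_filter.1 haT).2
      have hamem := (hfix a).1 hau
      have hconst : ∀ b ∈ F, c b = c a := by
        intro b hb
        have hbmem := (hfix b).1 (Finset.mem_filter.1 hb).2
        obtain ⟨⟨w, hw⟩, hwab⟩ := Quotient.exact ((Finset.mem_filter.1 (Finset.mem_filter.1 hb).1).2.trans haO.symm)
        change w • a = b at hwab
        conv_lhs at hwab => rw [← a.out_eq']
        conv_rhs at hwab => rw [← b.out_eq']
        rw [MulAction.Quotient.smul_coe, QuotientGroup.eq, smul_eq_mul] at hwab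
        set k := (w * a.out)⁻¹ * b.out with hk
        rw [show c b = φ ⟨_, hbmem⟩ from dif_pos hbmem, show c a = φ ⟨_, hamem⟩ from dif_pos hamem]
        have e : b.out⁻¹ * u * b.out = k⁻¹ * (a.out⁻¹ * (w⁻¹ * u * w) * a.out) * k := by
          rw [hk]; group
        have hmid : a.out⁻¹ * (w⁻¹ * u * w) * a.out ∈ (P : Subgroup G) := by
          have := mul_mem (mul_mem hwab hbmem) (inv_mem hwab)
          rw [e] at this
          simpa [mul_assoc] using this
        have hconj : φ ⟨_, hbmem⟩ = φ ⟨_, hmid⟩ := by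
          rw [show (⟨_, hbmem⟩ : (P : Subgroup G)) = (⟨k, hwab⟩ : (P : Subgroup G))⁻¹ * ⟨_, hmid⟩ * ⟨k, hwab⟩ from
            Subtype.ext e, map_mul, map_mul, map_inv, hcomm, mul_inv_cancel_left]
        rw [hconj]
        refine (hφ _ _ ?_).symm
        have hd : ⁅u⁻¹, w⁻¹⁆ ∈ ⁅(P : Subgroup G), (P : Subgroup G)⁆ :=
          commutator_mem_commutator (inv_mem hu) (inv_mem hw)
        have e2 : a.out⁻¹ * ⁅u⁻¹, w⁻¹⁆ * a.out⁻¹⁻¹ =
            (a.out⁻¹ * u * a.out)⁻¹ * (a.out⁻¹ * (w⁻¹ * u * w) * a.out) := by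
          rw [commutatorElement_def]; group
        have := hZ a.out⁻¹ _ hd (by rw [e2]; exact mul_mem (inv_mem hamem) hmid)
        rwa [e2] at this
      rw [Finset.prod_congr rfl hconst, Finset.prod_const]
      -- the number of fixed cosets in a nontrivial orbit is divisible by `p`
      have hdvd : p ∣ F.card := by
        let Z : Subgroup (P : Subgroup G) := zpowers ⟨u, hu⟩
        have hZp : IsPGroup p Z := P.2.to_subgroup Z
        have hmod := hZp.card_modEq_card_fixedPoints (orbit (P : Subgroup G) a)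
        obtain ⟨k, hk⟩ := IsPGroup.card_orbit (p := p) (G := (P : Subgroup G)) P.2 a
        have hk0 : k ≠ 0 := by
          rintro rfl
          rw [pow_zero] at hk
          apply haf
          intro w
          have := (Nat.card_eq_one_iff_unique.1 hk).1
          exact congrArg Subtype.val (Subsingleton.elim (⟨w • a, mem_orbit a w⟩ : orbit (P : Subgroup G) a) ⟨a, mem_orbit_self a⟩)
        have hcard : Nat.card (fixedPoints Z (orbit (P : Subgroup G) a)) = F.card := by
          rw [← Nat.card_eq_finsetCard]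
          refine Nat.card_congr
            { toFun := fun y => ⟨y.1.1, ?_⟩
              invFun := fun y => ⟨⟨y.1, ?_⟩, ?_⟩
              left_inv := fun _ => rfl
              right_inv := fun _ => rfl }
          · have hy1 : (⟨y.1.1, y.1.2⟩ : orbit (P : Subgroup G) a) = y.1 := rfl
            refine Finset.mem_filter.2 ⟨Finset.mem_filter.2 ⟨Finset.mem_filter.2 ⟨Finset.mem_univ _, ?_⟩, ?_⟩, ?_⟩
            · intro hf
              obtain ⟨g, hg⟩ := y.1.2
              apply haf
              intro w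
              have : a = y.1.1 := by
                rw [← hf g⁻¹, ← hg]
                exact (inv_smul_smul g a).symm
              rw [this]; exact hf w
            · rw [← haO]; exact Quotient.sound y.1.2
            · exact congrArg Subtype.val (y.2 ⟨⟨u, hu⟩, mem_zpowers _⟩)
          · have hy := (Finset.mem_filter.1 y.2).1
            exact Quotient.exact ((Finset.mem_filter.1 hy).2.trans haO.symm)
          · intro z
            have hz : (zpowers (⟨u, hu⟩ : (P : Subgroup G))) ≤ MulAction.stabilizer (P : Subgroup G) y.1 :=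
              Subgroup.zpowers_le.2 (Finset.mem_filter.1 y.2).2
            exact Subtype.ext (hz z.2)
        rw [← hcard]
        exact Nat.modEq_zero_iff_dvd.1 (hmod.symm.trans (Nat.modEq_zero_iff_dvd.2 (hk ▸ dvd_pow_self p hk0)))
      rw [show c a = φ ⟨_, hamem⟩ from dif_pos hamem, ← map_pow]
      have e3 : ((⟨_, hamem⟩ : (P : Subgroup G)) ^ F.card : (P : Subgroup G)).val =
          a.out⁻¹ * u ^ F.card * a.out⁻¹⁻¹ := by
        rw [Subgroup.coe_pow, inv_inv]
        have h := @conj_pow G _ F.card a.out⁻¹ u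
        rw [inv_inv] at h
        exact h
      exact (QuotientGroup.eq_one_iff _).2 (mem_subgroupOf.2 (by
        rw [e3]
        exact hsmall _ hdvd a.out⁻¹ (e3 ▸ Subtype.prop _)))
  -- conclude
  have hone : MonoidHom.transfer φ u = 1 :=
    (Abelianization.commutator_subset_ker (MonoidHom.transfer φ)) hu'
  rw [htr, hprod] at hone
  have hm : ¬ p ∣ Nat.card (fixedPoints (P : Subgroup G) (G ⧸ (P : Subgroup G))) := fun hd =>
    P.not_dvd_index (Nat.modEq_zero_iff_dvd.1 ((P.2.card_modEq_card_fixedPoints (G ⧸ (P : Subgroup G))).trans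
      (Nat.modEq_zero_iff_dvd.2 hd)))
  obtain ⟨k, hk⟩ := hppow
  have h2 : φ ⟨u, hu⟩ ^ p ^ k = 1 := by
    rw [← map_pow, ← hk]
    exact (congrArg φ (Subtype.ext (pow_orderOf_eq_one u) : (⟨u, hu⟩ : (P : Subgroup G)) ^ orderOf u = 1)).trans (map_one φ)
  have h3 : φ ⟨u, hu⟩ = 1 := by
    rw [← orderOf_eq_one_iff]
    exact Nat.eq_one_of_dvd_coprimes ((hp.coprime_iff_not_dvd.2 hm).pow_left k)
      (orderOf_dvd_of_pow_eq_one h2) (orderOf_dvd_of_pow_eq_one hone)
  exact mem_subgroupOf.1 ((QuotientGroup.eq_one_iff _).1 h3)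

/-- Grün's first Theorem: if `P` is a Sylow `p`-subgroup of the finite group `G`, then `P ∩ G'` is the subgroup generated by `P ∩ N_G(P)'` together with the subgroups `P ∩ z P' z⁻¹` for all `z ∈ G`, where `'` denotes the derived subgroup and `N_G(P)` the normalizer of `P`. -/
theorem result {G : Type*} [Group G] [Finite G] {p : ℕ} [Fact p.Prime] (P : Sylow p G) : (P : Subgroup G) ⊓ commutator G = ((P : Subgroup G) ⊓ ⁅Subgroup.normalizer ((P : Subgroup G) : Set G), Subgroup.normalizer ((P : Subgroup G) : Set G)⁆) ⊔ ⨆ z : G, (P : Subgroup G) ⊓ (⁅(P : Subgroup G), (P : Subgroup G)⁆).map (MulAut.conj z).toMonoidHom := by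
  set S := (P : Subgroup G) with hS
  refine le_antisymm (fun u hu => ?_) (sup_le (inf_le_inf_left _ ?_) (iSup_le fun z => inf_le_inf_left _ ?_))
  · refine mem_of_mem P _ (sup_le inf_le_left (iSup_le fun z => inf_le_left)) ?_ ?_ u hu.1 hu.2
    · intro n hn x hx
      have h1 : ⁅n, x⁆ ∈ S := by
        rw [commutatorElement_def]
        exact mul_mem ((Subgroup.mem_normalizer_iff.1 hn x).1 hx) (inv_mem hx)
      exact Subgroup.mem_sup_left ⟨h1, Subgroup.commutator_mem_commutator hn (S.le_normalizer hx)⟩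
    · intro z d hd hzd
      exact Subgroup.mem_sup_right (Subgroup.mem_iSup_of_mem z ⟨hzd, ⟨d, hd, rfl⟩⟩)
  · rw [commutator_def]
    exact Subgroup.commutator_mono le_top le_top
  · rintro _ ⟨d, hd, rfl⟩
    refine (inferInstance : (commutator G).Normal).conj_mem d ?_ z
    rw [commutator_def]
    exact Subgroup.commutator_mono le_top le_top hd

end Cfsg.Agent.S4216
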