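-- statement Cfsg.CfsgFrozen.S4072 (Cfsg/Statements/S4072.lean; the theorem Cfsg.fg5_selfnormalizing_nonabelian_subgroups_solvable_or_simple);
import Cfsg.Statements.S4072
import Cfsg.Agent.S4216
import Cfsg.Agent.PGroup.Frattini
import Cfsg.Agent.PGroup.ClassTwo
import Cfsg.Agent.Transfer.Frobenius

set_option autoImplicit false
open Cfsg

namespace Cfsg.Agent.S4072

open Subgroup
open scoped commutatorElement

theorem not_npc_of_simple {S : Type*} [Group S] [Finite S] [IsSimpleGroup S]
    (hS : ¬ Group.IsSolvable S) {p : ℕ} [Fact p.Prime] (hp : p ∣ Nat.card S) :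
    ¬ Cfsg.HasNormalPComplement p S := by
  rintro ⟨P, K, hK, hc⟩
  rcases hK.eq_bot_or_eq_top with rfl | rfl
  · haveI : Group.IsNilpotent S := by
      refine IsPGroup.isNilpotent (p := p) ?_
      obtain ⟨k, hk⟩ := IsPGroup.iff_card.1 P.2
      refine IsPGroup.of_card (n := k) ?_
      rw [← hc.card_mul_card, card_bot, one_mul, hk]
    exact hS inferInstance
  · have := Agent.Transfer.card_coprime_of_mem_normal_complement P hc
    rw [card_top] at this
    exact this hp

theorem comap_normalizer_image {G : Type*} [Group G] (N : Subgroup G) [N.Normal] (H : Subgroup G)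
    (hNH : N ≤ H) (hH : normalizer (H : Set G) = H) :
    normalizer ((H.map (QuotientGroup.mk' N) : Subgroup (G ⧸ N)) : Set (G ⧸ N)) =
      H.map (QuotientGroup.mk' N) := by
  refine le_antisymm ?_ le_normalizer
  intro x hx
  obtain ⟨g, rfl⟩ := QuotientGroup.mk'_surjective N x
  refine ⟨g, hH.le ?_, rfl⟩
  have hc : (H.map (QuotientGroup.mk' N)).comap (QuotientGroup.mk' N) = H := by
    rw [comap_map_eq, QuotientGroup.ker_mk', sup_eq_left.2 hNH]
  rw [mem_normalizer_iff]
  intro h
  rw [← hc, mem_comap, mem_comap, map_mul, map_mul, map_inv]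
  exact mem_normalizer_iff.1 hx _

/-- A `p`-group all of whose proper subgroups are abelian has central Frattini subgroup. -/
theorem frattini_le_center {P : Type*} [Group P] [Finite P]
    (hP : ¬ IsMulCommutative P) (hab : ∀ H : Subgroup P, H ≠ ⊤ → IsMulCommutative H) :
    frattini P ≤ center P := by
  intro z hz
  rw [mem_center_iff]
  intro a
  have hne : zpowers a ⊔ frattini P ≠ ⊤ := fun h => hP (by
    have h' := frattini_nongenerating h
    refine isMulCommutative_iff.2 fun u v => ?_
    obtain ⟨i, rfl⟩ : u ∈ zpowers a := h' ▸ mem_top u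
    obtain ⟨j, rfl⟩ : v ∈ zpowers a := h' ▸ mem_top v
    exact (Commute.refl a).zpow_zpow i j)
  exact congrArg Subtype.val (isMulCommutative_iff.1 (hab _ hne)
    ⟨a, mem_sup_left (mem_zpowers a)⟩ ⟨z, mem_sup_right hz⟩)

theorem pow_eq_one_commutator {P : Type*} [Group P] [Finite P] {p : ℕ} [Fact p.Prime]
    (hPp : IsPGroup p P) (hP : ¬ IsMulCommutative P)
    (hab : ∀ H : Subgroup P, H ≠ ⊤ → IsMulCommutative H) :
    ∀ d ∈ commutator P, d ^ p = 1 := by
  have hΦ := frattini_le_center hP hab
  have hcl : commutator P ≤ center P := (Cfsg.Agent.PGroup.commutator_le_frattini hPp).trans hΦ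
  intro d hd
  rw [_root_.commutator_def, Subgroup.commutator_def] at hd
  induction hd using Subgroup.closure_induction with
  | mem x hx =>
    obtain ⟨a, -, b, -, rfl⟩ := hx
    exact Cfsg.Agent.PGroup.commutatorElement_pow_eq_one
      (hcl (commutator_mem_commutator (mem_top a) (mem_top b)))
      (hΦ (Cfsg.Agent.PGroup.pow_mem_frattini hPp a))
  | one => exact one_pow p
  | mul a b ha hb iha ihb =>
    have hac : a ∈ center P := hcl (by rwa [_root_.commutator_def, Subgroup.commutator_def])
    have : Commute a b := ((mem_center_iff.1 hac) b).symm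
    rw [this.mul_pow, iha, ihb, mul_one]
  | inv a ha iha => rw [inv_pow, iha, inv_one]

/-- Two non-commuting elements of order `p` in a minimal non-abelian group: the centre meets
outside the derived group trivially. -/
theorem mem_commutator_of_central {P : Type*} [Group P] [Finite P] {p : ℕ} [Fact p.Prime]
    (hPp : IsPGroup p P) (hP : ¬ IsMulCommutative P)
    (hab : ∀ H : Subgroup P, H ≠ ⊤ → IsMulCommutative H) {x y : P} (hx : x ^ p = 1)
    (hy : y ^ p = 1) (hxy : x * y ≠ y * x) {n : P} (hn : n ∈ center P) : n ∈ commutator P := by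
  have hp : p.Prime := Fact.out
  have hgen : closure ({x, y} : Set P) = ⊤ := by
    by_contra h
    exact hxy (congrArg Subtype.val (isMulCommutative_iff.1 (hab _ h)
      ⟨x, subset_closure (Or.inl rfl)⟩ ⟨y, subset_closure (Or.inr rfl)⟩))
  have himg : Abelianization.of n ∈ closure ({Abelianization.of x, Abelianization.of y} : Set (Abelianization P)) := by
    have h1 := mem_map_of_mem Abelianization.of (hgen ▸ mem_top n : n ∈ closure ({x, y} : Set P))
    rwa [MonoidHom.map_closure, Set.image_insert_eq, Set.image_singleton] at h1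
  obtain ⟨i, j, hij⟩ := mem_closure_pair.1 himg
  have hd : (x ^ i * y ^ j)⁻¹ * n ∈ commutator P := by
    rw [← Abelianization.ker_of P, MonoidHom.mem_ker, map_mul, map_inv, map_mul, map_zpow,
      map_zpow, hij, inv_mul_cancel]
  have hcl : commutator P ≤ center P :=
    (Cfsg.Agent.PGroup.commutator_le_frattini hPp).trans (frattini_le_center hP hab)
  have hxi : x ^ i * y ^ j ∈ center P := by
    have := mul_mem hn (inv_mem (hcl hd))
    simpa using this
  have key : ∀ {u v : P} (k : ℤ), u ^ p = 1 → Commute v (u ^ k) → ¬ Commute v u → (p : ℤ) ∣ k := by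
    intro u v k hu hc hnc
    by_contra hk
    refine hnc ?_
    have hco : IsCoprime k (p : ℤ) := by
      rw [Int.isCoprime_iff_nat_coprime, Int.natAbs_natCast]
      exact ((hp.coprime_iff_not_dvd).2 fun h => hk (Int.natCast_dvd.2 h)).symm
    obtain ⟨a, b, hab'⟩ := hco
    have : u = (u ^ k) ^ a := by
      rw [← zpow_mul]
      conv_lhs => rw [← zpow_one u, ← hab', zpow_add, mul_comm b, zpow_mul u (p : ℤ) b,
        zpow_natCast, hu, one_zpow, mul_one, mul_comm]
    rw [this]
    exact hc.zpow_right a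
  have hcomm1 : Commute x (y ^ j) := by
    have h1 : Commute x (x ^ i * y ^ j) := mem_center_iff.1 hxi x
    have h2 : Commute x (x ^ i)⁻¹ := ((Commute.refl x).zpow_right i).inv_right
    simpa [mul_assoc] using h2.mul_right h1
  have hj := key j hy hcomm1 hxy
  have hcomm2 : Commute y (x ^ i) := by
    have h1 : Commute y (x ^ i * y ^ j) := mem_center_iff.1 hxi y
    have h2 : Commute y (y ^ j)⁻¹ := ((Commute.refl y).zpow_right j).inv_right
    simpa [mul_assoc] using h1.mul_right h2
  have hi := key i hx hcomm2 fun h => hxy h.symm.eq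
  obtain ⟨a, rfl⟩ := hi
  obtain ⟨b, rfl⟩ := hj
  simpa [zpow_mul, zpow_natCast, hx, hy] using hd

/-- The central case. -/
theorem central_case {G : Type*} [Group G] [Finite G]
    (hS : ∀ H : Subgroup G, ¬ IsMulCommutative H → Subgroup.normalizer (H : Set G) = H)
    (hperf : commutator G = ⊤) (N : Subgroup G) [N.Normal] (hN : N ≤ center G) (hNne : N ≠ ⊥)
    [IsSimpleGroup (G ⧸ N)] (hns : ¬ Group.IsSolvable (G ⧸ N)) : False := by
  classical
  obtain ⟨p, hp, hpN⟩ := Nat.exists_prime_and_dvd (fun h => hNne (card_eq_one.1 h))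
  haveI : Fact p.Prime := ⟨hp⟩
  obtain ⟨z, hz⟩ := exists_prime_orderOf_dvd_card' (G := N) p hpN
  obtain ⟨P⟩ : Nonempty (Sylow p G) := inferInstance
  have hzP : (z : G) ∈ (P : Subgroup G) := by
    have hzp : IsPGroup p (zpowers (z : G)) :=
      IsPGroup.of_card (n := 1) (by rw [Nat.card_zpowers, orderOf_coe, hz, pow_one])
    have hzn : (zpowers (z : G)).Normal := ⟨fun a ha g => by
      rw [mem_center_iff.1 ((zpowers_le.2 (hN z.2)) ha) g, mul_inv_cancel_right]; exact ha⟩
    have h := P.3 (P.2.to_sup_of_normal_right hzp) le_sup_left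
    exact h ▸ mem_sup_right (mem_zpowers _)
  by_cases hPab : IsMulCommutative (P : Subgroup G)
  · -- abelian Sylow: transfer
    letI : CommGroup (P : Subgroup G) :=
      { (inferInstance : Group (P : Subgroup G)) with mul_comm := isMulCommutative_iff.1 hPab }
    let φ : (P : Subgroup G) →* (P : Subgroup G) := MonoidHom.id _
    have h1 : MonoidHom.transfer φ (z : G) = 1 := by
      have h2 : (MonoidHom.transfer φ).ker = ⊤ :=
        eq_top_iff.2 (hperf ▸ Abelianization.commutator_subset_ker (MonoidHom.transfer φ))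
      exact MonoidHom.mem_ker.1 (h2 ▸ mem_top (z : G))
    rw [MonoidHom.transfer_eq_pow φ (z : G) (fun k g₀ _ => by
      rw [mem_center_iff.1 (pow_mem (hN z.2) k) g₀⁻¹, mul_assoc, inv_mul_cancel, mul_one])] at h1
    have h3 : (z : G) ^ (P : Subgroup G).index = 1 := congrArg Subtype.val h1
    refine P.not_dvd_index ?_
    have h4 := orderOf_dvd_of_pow_eq_one h3
    rwa [orderOf_coe, hz] at h4
  have hself := hS _ hPab
  -- `P` is minimal non-abelian
  have hmin : ∀ H : Subgroup (P : Subgroup G), H ≠ ⊤ → IsMulCommutative H := by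
    intro H hH
    by_contra hnab
    have hnab' : ¬ IsMulCommutative (H.map (P : Subgroup G).subtype) := fun h => hnab
      (isMulCommutative_iff.2 fun a b => Subtype.ext (Subtype.ext (by
        have := congrArg Subtype.val (isMulCommutative_iff.1 h ⟨_, a, a.2, rfl⟩ ⟨_, b, b.2, rfl⟩)
        exact this)))
    haveI : Group.IsNilpotent (P : Subgroup G) := P.2.isNilpotent
    obtain ⟨x, hx, hx'⟩ := SetLike.exists_of_lt
      (Group.normalizerCondition_of_isNilpotent H (lt_top_iff_ne_top.2 hH))
    have h4 := le_normalizer_map (H := H) (P : Subgroup G).subtype ⟨x, hx, rfl⟩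
    rw [hS _ hnab'] at h4
    obtain ⟨y, hy, hyx⟩ := h4
    exact hx' (Subtype.val_injective hyx ▸ hy)
  have hPnab : ¬ IsMulCommutative ((P : Subgroup G) : Type _) := hPab
  have hexp := pow_eq_one_commutator P.2 hPnab hmin
  -- `P` is generated by elements of order `p`
  set X : Set G := {x | x ∈ (P : Subgroup G) ∧ x ^ p = 1} with hX
  have hgen : (P : Subgroup G) ≤ closure X := by
    intro u hu
    have hUP : closure X ≤ (P : Subgroup G) := (closure_le _).2 fun x hx => hx.1
    have hd : ∀ d ∈ ⁅(P : Subgroup G), (P : Subgroup G)⁆, d ^ p = 1 := by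
      intro d hd
      have h5 : (commutator (P : Subgroup G)).map (P : Subgroup G).subtype =
          ⁅(P : Subgroup G), (P : Subgroup G)⁆ := by
        rw [_root_.commutator_def, map_commutator, ← MonoidHom.range_eq_map, range_subtype]
      obtain ⟨d', hd', rfl⟩ := h5.symm ▸ hd
      rw [← map_pow, hexp d' hd', map_one]
    refine Cfsg.Agent.S4216.mem_of_mem P (closure X) hUP (fun n hn v hv => ?_) (fun w d hd' hw => ?_)
      u hu (hperf ▸ mem_top u)
    · rw [hself] at hn
      refine subset_closure ⟨?_, hd _ (commutator_mem_commutator hn hv)⟩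
      exact commutator_le_self _ (commutator_mem_commutator hn hv)
    · refine subset_closure ⟨hw, ?_⟩
      rw [← MulAut.conj_apply, ← map_pow, hd d hd', map_one]
  -- two non-commuting generators
  obtain ⟨x, hx, y, hy, hxy⟩ : ∃ x ∈ X, ∃ y ∈ X, x * y ≠ y * x := by
    by_contra! hc
    refine hPab (isMulCommutative_iff.2 fun a b => Subtype.ext ?_)
    haveI := isMulCommutative_closure (k := X) hc
    have h8 := congrArg Subtype.val (isMulCommutative_iff.1 this ⟨a, hgen a.2⟩ ⟨b, hgen b.2⟩)
    exact h8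
  have hzc : (⟨(z : G), hzP⟩ : (P : Subgroup G)) ∈ commutator (P : Subgroup G) :=
    mem_commutator_of_central P.2 hPnab hmin (x := ⟨x, hx.1⟩) (y := ⟨y, hy.1⟩)
      (Subtype.ext hx.2) (Subtype.ext hy.2) (fun h => hxy (congrArg Subtype.val h))
      (mem_center_iff.2 fun a => Subtype.ext (mem_center_iff.1 (hN z.2) a))
  -- the derived group of `P` is cyclic of order `p`, hence in `N`
  set c : (P : Subgroup G) := ⁅(⟨x, hx.1⟩ : (P : Subgroup G)), ⟨y, hy.1⟩⁆ with hc
  have hccen : c ∈ center (P : Subgroup G) :=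
    (Cfsg.Agent.PGroup.commutator_le_frattini P.2).trans (frattini_le_center hPnab hmin)
      (commutator_mem_commutator (mem_top _) (mem_top _))
  haveI hcn : (zpowers c).Normal :=
    ⟨fun a ha g => by
      rw [mem_center_iff.1 ((zpowers_le.2 hccen) ha) g, mul_inv_cancel_right]; exact ha⟩
  have hPcN : commutator (P : Subgroup G) ≤ zpowers c := by
    rw [← Subgroup.Normal.quotient_commutative_iff_commutator_le]
    have hgen2 : closure ({⟨x, hx.1⟩, ⟨y, hy.1⟩} : Set (P : Subgroup G)) = ⊤ := by
      by_contra h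
      exact hxy (congrArg (fun t => ((t : Subgroup.closure _) : (P : Subgroup G)).1)
        (isMulCommutative_iff.1 (hmin _ h) ⟨⟨x, hx.1⟩, subset_closure (Or.inl rfl)⟩
          ⟨⟨y, hy.1⟩, subset_closure (Or.inr rfl)⟩))
    have hab2 : ∀ a ∈ ({⟨x, hx.1⟩, ⟨y, hy.1⟩} : Set (P : Subgroup G)),
        ∀ b ∈ ({⟨x, hx.1⟩, ⟨y, hy.1⟩} : Set (P : Subgroup G)),
          (QuotientGroup.mk' (zpowers c) a) * (QuotientGroup.mk' (zpowers c) b) =
            (QuotientGroup.mk' (zpowers c) b) * (QuotientGroup.mk' (zpowers c) a) := by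
      have h1 : ⁅QuotientGroup.mk' (zpowers c) ⟨x, hx.1⟩, QuotientGroup.mk' (zpowers c) ⟨y, hy.1⟩⁆ = 1 := by
        rw [← map_commutatorElement]
        exact (QuotientGroup.eq_one_iff c).2 (mem_zpowers c)
      rw [commutatorElement_eq_one_iff_mul_comm] at h1
      rintro a (rfl | rfl) b (rfl | rfl) <;> first | rfl | exact h1 | exact h1.symm
    have hcl := isMulCommutative_closure (k := (QuotientGroup.mk' (zpowers c)) '' ({⟨x, hx.1⟩, ⟨y, hy.1⟩} : Set (P : Subgroup G)))
      (by rintro _ ⟨a, ha, rfl⟩ _ ⟨b, hb, rfl⟩; exact hab2 a ha b hb)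
    rw [← MonoidHom.map_closure, hgen2, map_top_of_surjective _ (QuotientGroup.mk'_surjective _)] at hcl
    exact ⟨⟨fun a b => congrArg Subtype.val (isMulCommutative_iff.1 hcl ⟨a, mem_top a⟩ ⟨b, mem_top b⟩)⟩⟩
  have hc1 : c ^ p = 1 := hexp c (commutator_mem_commutator (mem_top _) (mem_top _))
  have hzeq : zpowers (⟨(z : G), hzP⟩ : (P : Subgroup G)) = zpowers c := by
    refine eq_of_le_of_card_ge (zpowers_le.2 (hPcN hzc)) ?_
    rw [Nat.card_zpowers, Nat.card_zpowers, show orderOf (⟨(z : G), hzP⟩ : (P : Subgroup G)) = p by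
      rw [Subgroup.orderOf_mk, orderOf_coe, hz]]
    exact Nat.le_of_dvd hp.pos (orderOf_dvd_of_pow_eq_one hc1)
  have hcommN : ∀ a b : (P : Subgroup G), ((⁅a, b⁆ : (P : Subgroup G)) : G) ∈ N := by
    intro a b
    obtain ⟨i, hi⟩ : ⁅a, b⁆ ∈ zpowers (⟨(z : G), hzP⟩ : (P : Subgroup G)) :=
      hzeq ▸ hPcN (commutator_mem_commutator (mem_top a) (mem_top b))
    rw [← hi]
    exact zpow_mem z.2 i
  -- Burnside in the quotient
  set π := QuotientGroup.mk' N with hπ
  set Pb := P.mapSurjective (QuotientGroup.mk'_surjective N) with hPb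
  have hpd : p ∣ Nat.card (G ⧸ N) := by
    have hne : (P : Subgroup G).map π ≠ ⊥ := fun h => hPab (by
      rw [Subgroup.map_eq_bot_iff, QuotientGroup.ker_mk'] at h
      exact isMulCommutative_iff.2 fun a b =>
        Subtype.ext (mem_center_iff.1 (hN (h b.2)) a))
    obtain ⟨k, hk⟩ := IsPGroup.iff_card.1 (P.2.map π)
    refine dvd_trans ?_ (card_subgroup_dvd_card ((P : Subgroup G).map π))
    rw [hk]
    refine dvd_pow_self p fun h0 => hne (card_eq_one.1 ?_)
    rw [hk, h0, pow_zero]
  refine not_npc_of_simple hns hpd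
    (Cfsg.Agent.Transfer.hasNormalPComplement_of_normalizer_le_centralizer Pb ?_)
  intro t ht
  obtain ⟨g, rfl⟩ := QuotientGroup.mk'_surjective N t
  have hg : g ∈ (P : Subgroup G) ⊔ N := by
    have hnorm : normalizer (((P : Subgroup G) ⊔ N : Subgroup G) : Set G) = (P : Subgroup G) ⊔ N :=
      hS _ fun h => hPab (isMulCommutative_iff.2 fun a b => Subtype.ext (by
        have h8 := congrArg Subtype.val (isMulCommutative_iff.1 h ⟨a, mem_sup_left a.2⟩ ⟨b, mem_sup_left b.2⟩)
        exact h8))
    have h6 := comap_normalizer_image N _ le_sup_right hnorm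
    rw [Subgroup.map_sup, QuotientGroup.map_mk'_self, sup_bot_eq] at h6
    have h7 : π g ∈ (P : Subgroup G).map π := h6.le ht
    rw [← mem_comap, comap_map_eq, QuotientGroup.ker_mk'] at h7
    exact h7
  obtain ⟨a, ha, n, hn, rfl⟩ := mem_sup_of_normal_right.1 hg
  rw [mem_centralizer_iff]
  rintro _ ⟨b, hb, rfl⟩
  rw [map_mul, (QuotientGroup.eq_one_iff n).2 hn |> fun h => (show π n = 1 from h), mul_one,
    ← map_mul, ← map_mul, QuotientGroup.mk'_eq_mk']
  refine ⟨(b * a)⁻¹ * (a * b), ?_, by group⟩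
  have := hcommN ⟨a, ha⟩⁻¹ ⟨b, hb⟩⁻¹
  simpa [commutatorElement_def, mul_assoc] using this

/-- The faithful case. -/
theorem noncentral_case {G : Type*} [Group G] [Finite G]
    (hS : ∀ H : Subgroup G, ¬ IsMulCommutative H → Subgroup.normalizer (H : Set G) = H)
    (N : Subgroup G) [N.Normal] (hC : centralizer (N : Set G) ≤ N)
    [IsSimpleGroup (G ⧸ N)] (hns : ¬ Group.IsSolvable (G ⧸ N)) : False := by
  classical
  have hcard : Nat.card (G ⧸ N) ≠ 1 := fun h => hns (by
    haveI := (Nat.card_eq_one_iff_unique.1 h).1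
    exact Group.isSolvable_of_comm fun a b => Subsingleton.elim _ _)
  obtain ⟨p, hp, hpd⟩ := Nat.exists_prime_and_dvd hcard
  haveI : Fact p.Prime := ⟨hp⟩
  obtain ⟨Q⟩ : Nonempty (Sylow p (G ⧸ N)) := inferInstance
  haveI : Nontrivial (Q : Subgroup (G ⧸ N)) :=
    (Subgroup.nontrivial_iff_ne_bot _).2 (Q.ne_bot_of_dvd_card hpd)
  obtain ⟨⟨t, htQ⟩, htc, ht1⟩ := (Subgroup.ne_bot_iff_exists_ne_one.1
    (ne_of_gt (bot_lt_iff_ne_bot.2 (by
      haveI := Q.2.center_nontrivial
      exact (Subgroup.nontrivial_iff_ne_bot _).1 this)))) |> fun ⟨w, hw⟩ =>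
        (⟨w.1, w.2, fun h => hw (Subtype.ext h)⟩ : ∃ w : (Q : Subgroup (G ⧸ N)), w ∈ center _ ∧ w ≠ 1)
  have ht1' : t ≠ 1 := fun h => ht1 (Subtype.ext h)
  obtain ⟨x, rfl⟩ := QuotientGroup.mk'_surjective N t
  have hxN : x ∉ N := fun h => ht1' ((QuotientGroup.eq_one_iff x).2 h)
  have hnab : ¬ IsMulCommutative ((N ⊔ zpowers x : Subgroup G)) := fun h => hxN (hC
    (mem_centralizer_iff.2 fun a ha => congrArg Subtype.val (isMulCommutative_iff.1 h
      ⟨a, mem_sup_left ha⟩ ⟨x, mem_sup_right (mem_zpowers x)⟩)))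
  have h1 := comap_normalizer_image N _ le_sup_left (hS _ hnab)
  rw [Subgroup.map_sup, QuotientGroup.map_mk'_self, bot_sup_eq, MonoidHom.map_zpowers] at h1
  have h2 : (Q : Subgroup (G ⧸ N)) ≤ normalizer ((zpowers (QuotientGroup.mk' N x) : Subgroup (G ⧸ N)) : Set (G ⧸ N)) := by
    refine le_trans (fun q hq => mem_centralizer_iff.2 ?_) (centralizer_le_normalizer _)
    rintro _ ⟨i, rfl⟩
    exact (Commute.zpow_left (show Commute (QuotientGroup.mk' N x) q from
      (congrArg Subtype.val (mem_center_iff.1 htc ⟨q, hq⟩)).symm) i).eq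
  rw [h1] at h2
  have hQ : (Q : Subgroup (G ⧸ N)) = zpowers (QuotientGroup.mk' N x) :=
    le_antisymm h2 (zpowers_le.2 htQ)
  refine not_npc_of_simple hns hpd
    (Cfsg.Agent.Transfer.hasNormalPComplement_of_normalizer_le_centralizer Q ?_)
  rw [hQ, h1, zpowers_le, mem_centralizer_iff]
  rintro _ ⟨i, rfl⟩
  exact ((Commute.refl _).zpow_left i).eq

/-- A finite group in which every non-abelian subgroup is self-normalizing is solvable or simple. -/
theorem result {G : Type*} [Group G] [Finite G] (hS : ∀ H : Subgroup G, ¬ IsMulCommutative H → Subgroup.normalizer (H : Set G) = H) :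
    Group.IsSolvable G ∨ IsSimpleGroup G := by
  classical
  by_contra! hcon
  obtain ⟨hns, hnsimple⟩ := hcon
  haveI : Nontrivial G := by
    rcases subsingleton_or_nontrivial G with h | h
    · exact absurd (Group.isSolvable_of_comm fun a b => Subsingleton.elim (a * b) (b * a)) hns
    · exact h
  have hab : ∀ H : Subgroup G, H.Normal → H ≠ ⊤ → IsMulCommutative H := fun H hn hH => by
    by_contra h
    exact hH ((hS H h).symm.trans (normalizer_eq_top_iff.2 hn))
  obtain ⟨M, hMn, hMne, hMt⟩ : ∃ M : Subgroup G, M.Normal ∧ M ≠ ⊥ ∧ M ≠ ⊤ := by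
    by_contra! h
    exact hnsimple ⟨fun H hH => or_iff_not_imp_left.2 (h H hH)⟩
  obtain ⟨N, hMN, hN⟩ := Finite.exists_le_maximal (a := M)
    (p := fun N : Subgroup G => N.Normal ∧ N ≠ ⊤) ⟨hMn, hMt⟩
  obtain ⟨hNn, hNt⟩ := hN.1
  haveI := hNn
  have hNne : N ≠ ⊥ := ne_bot_of_le_ne_bot hMne hMN
  haveI : Nontrivial (G ⧸ N) := (QuotientGroup.nontrivial_iff).2 hNt
  haveI : IsSimpleGroup (G ⧸ N) := ⟨fun H hH => by
    haveI := hH
    rcases eq_or_ne (H.comap (QuotientGroup.mk' N)) ⊤ with h | h
    · right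
      rw [← map_comap_eq_self_of_surjective (QuotientGroup.mk'_surjective N) H, h,
        map_top_of_surjective _ (QuotientGroup.mk'_surjective N)]
    · left
      have hle : N ≤ H.comap (QuotientGroup.mk' N) := fun n hn => by
        rw [mem_comap, show (QuotientGroup.mk' N) n = 1 from (QuotientGroup.eq_one_iff n).2 hn]
        exact one_mem H
      have := hN.2 ⟨inferInstance, h⟩ hle
      rw [← map_comap_eq_self_of_surjective (QuotientGroup.mk'_surjective N) H,
        le_antisymm this hle, QuotientGroup.map_mk'_self]⟩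
  haveI hNc : IsMulCommutative N := hab N hNn hNt
  haveI : Group.IsSolvable N := Group.isSolvable_of_comm fun a b => isMulCommutative_iff.1 hNc a b
  have hq : ¬ Group.IsSolvable (G ⧸ N) := fun h =>
    hns (Group.isSolvable_of_ker_le_range N.subtype (QuotientGroup.mk' N) (by simp))
  have hperf : commutator G = ⊤ := by
    by_contra h
    have h' := hab _ inferInstance h
    haveI : Group.IsSolvable (commutator G) :=
      Group.isSolvable_of_comm fun a b => isMulCommutative_iff.1 h' a b
    exact hns (Group.isSolvable_of_ker_le_range (commutator G).subtype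
      (Abelianization.of) (by rw [Abelianization.ker_of, range_subtype]))
  by_cases hcen : centralizer (N : Set G) = ⊤
  · refine central_case hS hperf N ?_ hNne hq
    intro n hn
    rw [mem_center_iff]
    intro g
    exact (mem_centralizer_iff.1 (hcen ▸ mem_top g) n hn).symm
  · refine noncentral_case hS N ?_ hq
    refine hN.2 ⟨inferInstance, hcen⟩ ?_
    intro n hn
    exact mem_centralizer_iff.2 fun a ha => congrArg Subtype.val
      (isMulCommutative_iff.1 hNc ⟨a, ha⟩ ⟨n, hn⟩)

end Cfsg.Agent.S4072
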