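import Cfsg.Statements.S4074
import Mathlib

set_option autoImplicit false
open Cfsg

namespace Cfsg.Agent.S4074

theorem exists_sr_mem {n : ℕ} (H : Subgroup (DihedralGroup n)) (hH : ¬ IsMulCommutative H) :
    ∃ i, DihedralGroup.sr i ∈ H := by
  by_contra hc
  push Not at hc
  refine hH (isMulCommutative_iff.mpr fun a b => Subtype.ext ?_)
  show (a : DihedralGroup n) * b = b * a
  rcases ha : (a : DihedralGroup n) with i | i
  · rcases hb : (b : DihedralGroup n) with j | j
    · rw [DihedralGroup.r_mul_r, DihedralGroup.r_mul_r, add_comm]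
    · exact absurd (hb ▸ b.2) (hc j)
  · exact absurd (ha ▸ a.2) (hc i)

theorem odd_case {n : ℕ} (hodd : Odd n) (H : Subgroup (DihedralGroup n)) (hH : ¬ IsMulCommutative H) :
    Subgroup.normalizer (H : Set (DihedralGroup n)) = H := by
  obtain ⟨i, hi⟩ := exists_sr_mem H hH
  have hrot : ∀ j, DihedralGroup.r j ∈ Subgroup.normalizer (H : Set (DihedralGroup n)) →
      DihedralGroup.r j ∈ H := by
    intro j hj
    have h1 := (Subgroup.mem_normalizer_iff.mp hj _).mp hi
    have h2 : DihedralGroup.r (-(j + j)) ∈ H := by
      have := mul_mem hi h1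
      simpa [DihedralGroup.r_mul_sr, DihedralGroup.sr_mul_r, DihedralGroup.sr_mul_sr,
        sub_eq_add_neg, add_assoc, add_comm, add_left_comm] using this
    obtain ⟨k, hk⟩ := hodd
    have hn : ((2 * k + 1 : ℕ) : ZMod n) = 0 := by rw [← hk]; exact ZMod.natCast_self n
    push_cast at hn
    have h3 := pow_mem h2 k
    have hp : ∀ (a : ZMod n) (m : ℕ), DihedralGroup.r a ^ m = DihedralGroup.r ((m : ZMod n) * a) := by
      intro a m
      induction m with
      | zero => rw [pow_zero, Nat.cast_zero, zero_mul]; rfl
      | succ m ih => rw [pow_succ, ih, DihedralGroup.r_mul_r, Nat.cast_succ, add_mul, one_mul]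
    rw [hp] at h3
    convert h3 using 2
    linear_combination j * hn
  refine le_antisymm (fun g hg => ?_) Subgroup.le_normalizer
  rcases g with j | j
  · exact hrot j hg
  · have h1 : DihedralGroup.r (i - j) ∈ H := hrot _ (by
      rw [← DihedralGroup.sr_mul_sr]; exact mul_mem hg (Subgroup.le_normalizer hi))
    have := mul_mem h1 hi
    rwa [DihedralGroup.r_mul_sr, sub_sub_cancel] at this

theorem even_case {n : ℕ} (hn : 4 < n) (hev : 2 ∣ n) :
    ∃ H : Subgroup (DihedralGroup n), ¬ IsMulCommutative H ∧
      Subgroup.normalizer (H : Set (DihedralGroup n)) ≠ H := by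
  let φ := ZMod.castHom hev (ZMod 2)
  have h11 : (1 : ZMod 2) + 1 = 0 := by decide
  let H : Subgroup (DihedralGroup n) :=
    { carrier := {g | match g with | .r i => φ i = 0 | .sr i => φ i = 0}
      one_mem' := by show φ 0 = 0; exact map_zero φ
      mul_mem' := by
        rintro (a | a) (b | b) (ha : φ a = 0) (hb : φ b = 0)
        · show φ (a + b) = 0; rw [map_add, ha, hb, add_zero]
        · show φ (b - a) = 0; rw [map_sub, ha, hb, sub_zero]
        · show φ (a + b) = 0; rw [map_add, ha, hb, add_zero]
        · show φ (b - a) = 0; rw [map_sub, ha, hb, sub_zero]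
      inv_mem' := by
        rintro (a | a) (ha : φ a = 0)
        · show φ (-a) = 0; rw [map_neg, ha, neg_zero]
        · exact ha }
  refine ⟨H, fun hc => ?_, fun he => ?_⟩
  · have h2 : DihedralGroup.r 2 ∈ H := by
      show φ 2 = 0; rw [map_ofNat]; rfl
    have h0 : DihedralGroup.sr 0 ∈ H := map_zero φ
    have := congrArg Subtype.val (isMulCommutative_iff.mp hc ⟨_, h2⟩ ⟨_, h0⟩)
    simp only [Subgroup.coe_mul, DihedralGroup.r_mul_sr, DihedralGroup.sr_mul_r,
      DihedralGroup.sr.injEq] at this
    have h4 : ((4 : ℕ) : ZMod n) = 0 := by push_cast; linear_combination -this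
    rw [ZMod.natCast_eq_zero_iff] at h4
    exact absurd (Nat.le_of_dvd (by norm_num) h4) (by omega)
  · have hr : DihedralGroup.r 1 ∈ Subgroup.normalizer (H : Set (DihedralGroup n)) := by
      rw [Subgroup.mem_normalizer_iff]
      rintro (a | a)
      · show φ a = 0 ↔ φ (1 + a + -1) = 0
        rw [add_neg_cancel_comm]
      · show φ a = 0 ↔ φ (a - 1 + -1) = 0
        rw [map_add, map_sub, map_neg, map_one]
        rw [sub_add_eq_add_sub, show φ a + -1 - 1 = φ a - (1 + 1) by ring, h11, sub_zero]
    rw [he] at hr
    have : φ 1 = 0 := hr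
    rw [map_one] at this
    exact one_ne_zero this


/-- For n > 2, every non-abelian subgroup of the dihedral group of order 2n is self-normalizing if and only if n = 4 or n is odd. -/
theorem result (n : ℕ) (hn : 2 < n) :
    (∀ H : Subgroup (DihedralGroup n), ¬ IsMulCommutative H → Subgroup.normalizer (H : Set (DihedralGroup n)) = H) ↔
    (n = 4 ∨ Odd n) := by
  constructor
  · intro h
    by_contra hc
    push Not at hc
    obtain ⟨h4, hodd⟩ := hc
    rw [Nat.not_odd_iff_even, even_iff_two_dvd] at hodd
    obtain ⟨H, h1, h2⟩ := even_case (show 4 < n by omega) hodd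
    exact h2 (h H h1)
  · rintro (rfl | hodd) H hH
    · have : H = ⊤ := by
        by_contra ht
        apply hH
        have hd : Nat.card H ∣ 8 := by
          have := Subgroup.card_subgroup_dvd_card H
          rwa [DihedralGroup.nat_card] at this
        have h8 : Nat.card H ≠ 8 := fun e => ht (Subgroup.eq_top_of_card_eq H (by
          rw [DihedralGroup.nat_card, e]))
        obtain ⟨k, hk3, hk⟩ := (Nat.dvd_prime_pow Nat.prime_two).mp (show Nat.card H ∣ 2 ^ 3 from hd)
        haveI : Fact (Nat.Prime 2) := ⟨Nat.prime_two⟩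
        rcases k with _ | _ | _ | k
        · haveI := (Nat.card_eq_one_iff_unique.mp (hk.trans (pow_zero 2))).1
          exact isMulCommutative_iff.mpr fun a b => Subsingleton.elim _ _
        · haveI : IsCyclic H := isCyclic_of_prime_card (p := 2) (by simpa using hk)
          exact IsCyclic.isMulCommutative
        · exact IsPGroup.isMulCommutative_of_card_eq_prime_sq (p := 2) (by simpa using hk)
        · exfalso; apply h8; rw [hk, show k = 0 by omega]; rfl
      subst this
      exact Subgroup.normalizer_eq_top_iff.mpr inferInstance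
    · exact odd_case hodd H hH

end Cfsg.Agent.S4074
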