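import Cfsg.Statements.S4075
import Mathlib
import Cfsg.Agent.Lib.Element

set_option autoImplicit false
open Cfsg

namespace Cfsg.Agent.S4075


/-- Let G be a finite nilpotent group. Every non-abelian subgroup of G is self-normalizing if and only if G is abelian or G is a minimal non-abelian p-group for some prime p (non-abelian of prime-power order with every proper subgroup abelian). -/
theorem result {G : Type*} [Group G] [Finite G]
    [Group.IsNilpotent G] :
    (∀ H : Subgroup G, ¬ IsMulCommutative H → Subgroup.normalizer (H : Set G) = H) ↔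
    (IsMulCommutative G ∨ (IsPrimePow (Nat.card G) ∧ ¬ IsMulCommutative G ∧ ∀ H : Subgroup G, H ≠ ⊤ → IsMulCommutative H)) := by
  constructor
  · intro h
    have hab : ∀ H : Subgroup G, H ≠ ⊤ → IsMulCommutative H := fun H hH => by
      by_contra hn
      exact hH (normalizerCondition_iff_only_full_group_self_normalizing.mp
        Group.normalizerCondition_of_isNilpotent H (h H hn))
    by_cases hG : IsMulCommutative G
    · exact Or.inl hG
    refine Or.inr ⟨?_, hG, hab⟩
    by_contra hpp
    apply hG
    have hsyl : ∀ x : G, (∃ p k : ℕ, p.Prime ∧ orderOf x = p ^ k) → x ≠ 1 →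
        ∃ (p : ℕ) (P : Sylow p G), p.Prime ∧ x ∈ (P : Subgroup G) ∧ (P : Subgroup G).Normal ∧
          IsMulCommutative (P : Subgroup G) := by
      rintro x ⟨p, k, hp, hk⟩ hx
      haveI : Fact p.Prime := ⟨hp⟩
      obtain ⟨P, hP⟩ := (IsPGroup.of_card (n := k) (by rw [Nat.card_zpowers, hk]) :
        IsPGroup p (Subgroup.zpowers x)).exists_le_sylow
      refine ⟨p, P, hp, hP (Subgroup.mem_zpowers x),
        P.normal_of_normalizerCondition Group.normalizerCondition_of_isNilpotent, hab _ fun ht => hpp ?_⟩
      obtain ⟨j, hj⟩ := P.isPGroup'.exists_card_eq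
      rw [ht, Subgroup.card_top] at hj
      rw [hj]
      refine ⟨p, j, hp.prime, Nat.pos_of_ne_zero ?_, rfl⟩
      rintro rfl
      rw [pow_zero, Nat.card_eq_one_iff_unique] at hj
      exact hx (@Subsingleton.elim _ hj.1 x 1)
    have hgen : ∀ x ∈ {g : G | ∃ p k : ℕ, p.Prime ∧ orderOf g = p ^ k},
        ∀ y ∈ {g : G | ∃ p k : ℕ, p.Prime ∧ orderOf g = p ^ k}, x * y = y * x := by
      intro x hx y hy
      rcases eq_or_ne x 1 with rfl | hx1
      · simp
      rcases eq_or_ne y 1 with rfl | hy1
      · simp
      obtain ⟨p, P, hp, hxP, hPn, hPc⟩ := hsyl x hx hx1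
      obtain ⟨q, Q, hq, hyQ, hQn, -⟩ := hsyl y hy hy1
      haveI := Fact.mk hp
      haveI := Fact.mk hq
      by_cases hpq : p = q
      · subst hpq
        letI := Sylow.unique_of_normal P hPn
        rw [Subsingleton.elim Q P] at hyQ
        exact congrArg Subtype.val (isMulCommutative_iff.mp hPc ⟨x, hxP⟩ ⟨y, hyQ⟩)
      · exact Subgroup.commute_of_normal_of_disjoint _ _ hPn hQn
          (P.isPGroup'.disjoint_of_ne p q hpq _ _ Q.isPGroup') x y hxP hyQ
    have hc := Subgroup.isMulCommutative_closure hgen
    rw [Cfsg.Agent.Element.closure_primePow_orderOf] at hc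
    exact isMulCommutative_iff.mpr fun a b =>
      congrArg Subtype.val (isMulCommutative_iff.mp hc ⟨a, trivial⟩ ⟨b, trivial⟩)
  · rintro (h | ⟨-, -, h⟩) H hH
    · exact absurd (isMulCommutative_iff.mpr fun a b => Subtype.ext (isMulCommutative_iff.mp h _ _)) hH
    · have : H = ⊤ := by_contra fun ht => hH (h H ht)
      subst this
      exact Subgroup.normalizer_eq_top_iff.mpr inferInstance

end Cfsg.Agent.S4075
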