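import Cfsg.Statements.S4079
import Cfsg.Agent.PGroupExtra.MetaOmega
import Cfsg.Agent.PGroup.Basic
import Cfsg.Agent.FGSev.MaxClass
import Cfsg.Agent.FusionSys.MaxClassZTwo

set_option autoImplicit false
set_option linter.style.haveILetI false
open Cfsg Subgroup
open scoped commutatorElement

namespace Cfsg.Agent.S4079

/-- Commutators with a normal subgroup of order `p²` are central. -/
theorem comm_mem_center {G : Type*} [Group G] [Finite G] {p : ℕ} [hp : Fact p.Prime] (hG : IsPGroup p G)
    {E : Subgroup G} [E.Normal] (hE : Nat.card E = p ^ 2) {y : G} (hy : y ∈ E) (g : G) :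
    ⁅g, y⁆ ∈ E ⊓ center G := by
  set Z := E ⊓ center G
  haveI : Z.Normal := Subgroup.normal_inf_normal _ _
  have hne : Z ≠ ⊥ := PGroup.inf_center_ne_bot hG E fun h => by
    rw [h, card_bot] at hE
    exact (Nat.one_lt_pow two_ne_zero hp.out.one_lt).ne hE
  set f := (QuotientGroup.mk' Z).comp E.subtype with hf
  have hker : f.ker = Z.subgroupOf E := by
    rw [hf, ← MonoidHom.comap_ker, QuotientGroup.ker_mk']; rfl
  have hprod : Nat.card f.range * Nat.card Z = p ^ 2 := by
    rw [← hE, ← f.ker.card_mul_index, index_ker, mul_comm, hker,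
      Nat.card_congr (subgroupOfEquivOfLe (inf_le_left : Z ≤ E)).toEquiv]
  obtain ⟨i, hi⟩ := IsPGroup.iff_card.1 ((hG.to_quotient Z).to_subgroup f.range)
  obtain ⟨j, hj⟩ := IsPGroup.iff_card.1 (hG.to_subgroup Z)
  have hj0 : j ≠ 0 := fun h => hne (card_eq_one.1 (by rw [hj, h, pow_zero]))
  rw [hi, hj, ← pow_add] at hprod
  have hij := Nat.pow_right_injective hp.out.two_le hprod
  haveI : f.range.Normal := by
    rw [hf, MonoidHom.range_comp, Subgroup.range_subtype]
    exact Subgroup.Normal.map inferInstance _ (QuotientGroup.mk'_surjective Z)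
  have hc : f.range ≤ center (G ⧸ Z) := by
    rcases Nat.eq_zero_or_pos i with h0 | h0
    · rw [card_eq_one.1 (show Nat.card f.range = 1 by rw [hi, h0, pow_zero])]; exact bot_le
    · exact PGroup.le_center_of_card_eq (hG.to_quotient Z) (by rw [hi, show i = 1 by omega, pow_one])
  rw [← QuotientGroup.eq_one_iff, ← QuotientGroup.mk'_apply, map_commutatorElement,
    commutatorElement_eq_one_iff_mul_comm]
  exact mem_center_iff.1 (hc ⟨⟨y, hy⟩, rfl⟩) _

variable {L : Type*} [Group L] [Finite L] {p : ℕ} [Fact p.Prime]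

theorem conj_inl (a : MulAut L) (x : L) :
    (SemidirectProduct.inl (a x) : SemidirectProduct L (zpowers a) (zpowers a).subtype) =
      SemidirectProduct.inr ⟨a, mem_zpowers a⟩ * SemidirectProduct.inl x *
        (SemidirectProduct.inr ⟨a, mem_zpowers a⟩)⁻¹ := by
  rw [← map_inv]
  exact SemidirectProduct.inl_aut (φ := (zpowers a).subtype) ⟨a, mem_zpowers a⟩ x

/-- Let p be an odd prime and L a finite metacyclic p-group with no cyclic subgroup of index p, and let a be an automorphism of L of order p. Then a moves some element of order p of L if and only if p = 3 and the semidirect product L ⋊ ⟨a⟩ (of order 3·#L) has maximal class, i.e. nilpotency class m where #L = 3^m. -/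
theorem result {L : Type*} [Group L] [Finite L] {p : ℕ} [Fact p.Prime]
    (hp : p ≠ 2) (hL : IsPGroup p L) (hmc : Cfsg.IsMetacyclic L) (hnc : ∀ C : Subgroup L, IsCyclic C → C.index ≠ p)
    (a : MulAut L) (ha : orderOf a = p) (m : ℕ) (hm : Nat.card L = p ^ m) :
    (∃ x : L, orderOf x = p ∧ a x ≠ x) ↔
    (p = 3 ∧ Group.nilpotencyClass (SemidirectProduct L ↥(Subgroup.zpowers a) (Subgroup.zpowers a).subtype) = m) := by
  classical
  have hpp : p.Prime := Fact.out
  have hnt : Nontrivial L := by
    by_contra h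
    rw [not_nontrivial_iff_subsingleton] at h
    rw [show a = 1 from MulEquiv.ext fun x => Subsingleton.elim _ _, orderOf_one] at ha
    exact hpp.ne_one ha.symm
  obtain ⟨J, E, hJ, hE, hpow, hEJ, hroot, hEcard, hdvd, N, hNc, hN⟩ :=
    MetaOmega.exists_omega hp hL hmc hnt hnc
  set G := SemidirectProduct L ↥(zpowers a) (zpowers a).subtype
  let s : G := SemidirectProduct.inr ⟨a, mem_zpowers a⟩
  haveI : Finite G := Finite.of_equiv _ SemidirectProduct.equivProd.symm
  have hGcard : Nat.card G = p ^ (m + 1) := by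
    rw [Nat.card_congr SemidirectProduct.equivProd, Nat.card_prod, hm, Nat.card_zpowers, ha, pow_succ]
  have hG : IsPGroup p G := IsPGroup.of_card hGcard
  have hm4 : 4 ≤ m := (Nat.pow_dvd_pow_iff_le_right hpp.one_lt).1 (hm ▸ hdvd)
  set EG := E.map (SemidirectProduct.inl : L →* G) with hEG
  haveI hEGn : EG.Normal := by
    refine ⟨fun z hz g => ?_⟩
    obtain ⟨y, hy, rfl⟩ := hz
    have hr : g * SemidirectProduct.inl y * g⁻¹ ∈ (SemidirectProduct.inl : L →* G).range := by
      rw [SemidirectProduct.range_inl_eq_ker_rightHom, MonoidHom.mem_ker]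
      simp
    obtain ⟨x, hx⟩ := hr
    refine ⟨x, (hE x).2 (SemidirectProduct.inl_injective (φ := (zpowers a).subtype) ?_), hx⟩
    rw [map_pow, hx, conj_pow, ← map_pow, (hE y).1 hy, map_one, mul_one, mul_inv_cancel, ]
  have hEGcard : Nat.card EG = p ^ 2 := by
    rw [hEG, card_map_of_injective SemidirectProduct.inl_injective, hEcard]
  have hdiff : ∀ y ∈ E, a y * y⁻¹ ∈ E ∧ a (a y * y⁻¹) = a y * y⁻¹ := by
    intro y hy
    have h1 := comm_mem_center hG hEGcard (y := SemidirectProduct.inl y) ⟨y, hy, rfl⟩ s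
    have e : ⁅s, (SemidirectProduct.inl y : G)⁆ = SemidirectProduct.inl (a y * y⁻¹) := by
      rw [commutatorElement_def, map_mul, map_inv, conj_inl a y]
    rw [e] at h1
    obtain ⟨z, hz, hze⟩ := h1.1
    refine ⟨SemidirectProduct.inl_injective hze ▸ hz, SemidirectProduct.inl_injective (φ := (zpowers a).subtype) ?_⟩
    rw [conj_inl a (a y * y⁻¹)]
    exact mul_inv_eq_iff_eq_mul.2 (mem_center_iff.1 h1.2 s)
  constructor
  · rintro ⟨y, hy, hay⟩
    have hyE : y ∈ E := (hE y).2 (hy ▸ pow_orderOf_eq_one y)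
    set e := a y * y⁻¹ with he
    obtain ⟨heE, hefix⟩ := hdiff y hyE
    have he1 : e ≠ 1 := fun h => hay (mul_inv_eq_one.1 h)
    obtain ⟨w, hwJ, hw⟩ := hroot y hyE
    have haJ : ∀ x ∈ J, a x ∈ J := fun x hx => (hJ _).2 (by rw [← map_pow, (hJ x).1 hx, map_one])
    set c := a w * w⁻¹ with hc
    have hcJ : c ∈ J := mul_mem (haJ w hwJ) (inv_mem hwJ)
    have haw : a w = c * w := by rw [hc, inv_mul_cancel_right]
    have hcp : c ^ p = e := by
      rw [hc, hpow _ (haJ w hwJ) _ (inv_mem hwJ), inv_pow, ← map_pow, hw]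
    set g := a c * c⁻¹ with hg
    have hac : a c = g * c := by rw [hg, inv_mul_cancel_right]
    have hgE : g ∈ E := by
      rw [hE, hg, hpow _ (haJ c hcJ) _ (inv_mem hcJ), inv_pow, ← map_pow, hcp, hefix, mul_inv_cancel]
    set e' := a g * g⁻¹ with he'
    have hag : a g = e' * g := by rw [he', inv_mul_cancel_right]
    obtain ⟨he'E, he'fix⟩ := hdiff g hgE
    have hEJm : ∀ z ∈ E, z ∈ J := fun z hz => (hJ z).2 (by rw [pow_two, pow_mul, (hE z).1 hz, one_pow])
    have hiter : ∀ i : ℕ, (a ^ i) w = e' ^ i.choose 3 * g ^ i.choose 2 * c ^ i * w := by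
      intro i
      induction i with
      | zero => simp
      | succ i ih =>
        rw [pow_succ', MulAut.mul_apply, ih, map_mul, map_mul, map_mul, map_pow, map_pow, map_pow, haw,
          hag, hac, he'fix, (hEJ e' he'E g (hEJm g hgE)).mul_pow, (hEJ g hgE c hcJ).mul_pow,
          Nat.choose_succ_succ i 2, Nat.choose_succ_succ i 1, Nat.choose_one_right,
          pow_add e', pow_add g, pow_succ c]
        have hcg : Commute g e' := (hEJ e' he'E g (hEJm g hgE)).symm
        calc e' ^ i.choose 3 * (e' ^ i.choose 2 * g ^ i.choose 2) * (g ^ i * c ^ i) * (c * w)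
            = e' ^ i.choose 3 * e' ^ i.choose 2 * (g ^ i.choose 2 * g ^ i) * (c ^ i * c) * w := by group
          _ = _ := by
            rw [((Commute.refl e').pow_pow _ _).eq, ((Commute.refl g).pow_pow (i.choose 2) i).eq]
    have hfin : e' ^ p.choose 3 * g ^ p.choose 2 * e = 1 := by
      have h := hiter p
      rw [← ha, pow_orderOf_eq_one, MulAut.one_apply, ha, hcp] at h
      exact mul_eq_right.1 h.symm
    rw [orderOf_dvd_iff_pow_eq_one.1 ((orderOf_dvd_of_pow_eq_one ((hE g).1 hgE)).trans
      (hpp.dvd_choose_self two_ne_zero (lt_of_le_of_ne hpp.two_le (Ne.symm hp)))), mul_one] at hfin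
    have hp3 : p = 3 := by
      by_contra h3
      have h3p : 3 < p := lt_of_le_of_ne (by have := hpp.two_le; omega) (Ne.symm h3)
      rw [orderOf_dvd_iff_pow_eq_one.1 ((orderOf_dvd_of_pow_eq_one ((hE e').1 he'E)).trans
        (hpp.dvd_choose_self (by norm_num) h3p)), one_mul] at hfin
      exact he1 hfin
    refine ⟨hp3, ?_⟩
    rw [hp3, Nat.choose_self, pow_one] at hfin
    -- the fixed points
    set F := a.toMonoidHom.eqLocus (MonoidHom.id L)
    have hF : ∀ x, x ∈ F ↔ a x = x := fun x => Iff.rfl
    have hF1 : Nat.card ↥(E ⊓ F) = p := by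
      have hlt : E ⊓ F < E := lt_of_le_of_ne inf_le_left fun h => hay ((hF y).1 (h.ge hyE).2)
      obtain ⟨i, hi⟩ := IsPGroup.iff_card.1 (hL.to_subgroup (E ⊓ F))
      have h2 := Set.Finite.card_lt_card (Set.toFinite _) (SetLike.coe_ssubset_coe.mpr hlt)
      change Nat.card ↥(E ⊓ F) < Nat.card E at h2
      rw [hi, hEcard] at h2
      have := (Nat.pow_lt_pow_iff_right hpp.one_lt).1 h2
      have : i ≠ 0 := by
        rintro rfl
        rw [pow_zero] at hi
        have hmem : e ∈ E ⊓ F := ⟨heE, hefix⟩
        rw [card_eq_one.1 hi, mem_bot] at hmem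
        exact he1 hmem
      rw [hi, show i = 1 by omega, pow_one]
    have hFe : ∀ x ∈ E ⊓ F, x ∈ zpowers e := fun x hx => by
      have hle : zpowers e ≤ E ⊓ F := zpowers_le.2 ⟨heE, hefix⟩
      have := eq_of_le_of_card_ge hle (by
        rw [hF1, Nat.card_zpowers, orderOf_eq_prime ((hE e).1 heE) he1])
      exact this.ge hx
    have hFE : F ≤ E := by
      intro x hx
      rw [hE]
      by_contra hxp
      obtain ⟨o, ho⟩ := IsPGroup.iff_orderOf.1 hL x
      have ho2 : 2 ≤ o := by
        by_contra h
        refine hxp (orderOf_dvd_iff_pow_eq_one.1 (ho ▸ ?_))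
        conv_rhs => rw [← pow_one p]
        exact pow_dvd_pow p (by omega)
      set z₀ := x ^ p ^ (o - 2)
      have hz₀ : orderOf z₀ = p ^ 2 := by
        rw [orderOf_pow' _ (pow_pos hpp.pos _).ne', ho, Nat.gcd_eq_right (pow_dvd_pow p (by omega)),
          Nat.pow_div (by omega) hpp.pos]
        congr 1; omega
      have hz₀F : z₀ ∈ F := pow_mem hx _
      have hzp : z₀ ^ p ∈ E ⊓ F := ⟨(hE _).2 (by
        rw [← pow_mul, ← pow_two, ← hz₀, pow_orderOf_eq_one]), pow_mem hz₀F _⟩
      have hzne : z₀ ^ p ≠ 1 := fun h => by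
        have := Nat.le_of_dvd hpp.pos (hz₀ ▸ orderOf_dvd_of_pow_eq_one h)
        nlinarith [hpp.two_le]
      have hle : zpowers (z₀ ^ p) ≤ zpowers e := zpowers_le.2 (hFe _ hzp)
      have heq := eq_of_le_of_card_ge hle (by
        rw [Nat.card_zpowers, Nat.card_zpowers, orderOf_eq_prime ((hE e).1 heE) he1,
          orderOf_eq_prime ((hE _).1 hzp.1) hzne])
      obtain ⟨l, hl⟩ := mem_zpowers_iff.1 (heq.ge (mem_zpowers e))
      set z := z₀ ^ l
      have hzp' : z ^ p = e := by
        rw [← hl, ← zpow_natCast, ← zpow_mul, ← zpow_natCast z₀ p, ← zpow_mul, mul_comm]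
      have hzF : z ∈ F := zpow_mem hz₀F _
      have hzJ : z ∈ J := zpow_mem ((hJ z₀).2 (hz₀ ▸ pow_orderOf_eq_one z₀)) _
      set f := c * z⁻¹ with hf
      have hfE : f ∈ E := by
        rw [hE, hf, hpow _ hcJ _ (inv_mem hzJ), inv_pow, hcp, hzp', mul_inv_cancel]
      have hgf : g = a f * f⁻¹ := by
        have hzfix : a z = z := (hF z).1 hzF
        rw [hg, hf, map_mul a c, map_inv, hzfix]; group
      have : e' = 1 := by rw [he', hgf, (hdiff f hfE).2, mul_inv_cancel]
      rw [this, one_mul] at hfin
      exact he1 hfin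
    have hcent : Nat.card (centralizer ({s} : Set G)) ≤ p ^ 2 := by
      have hmem : ∀ x : centralizer ({s} : Set G), (x : G).left ∈ E ⊓ F := by
        intro x
        have h := congrArg SemidirectProduct.left (mem_centralizer_singleton_iff.1 x.2)
        simp only [s, SemidirectProduct.mul_left, SemidirectProduct.left_inr, SemidirectProduct.right_inr,
          map_one, mul_one, one_mul] at h
        have hxF : (x : G).left ∈ F := (hF _).2 h.symm
        exact ⟨hFE hxF, hxF⟩
      refine (Nat.card_le_card_of_injective (fun x : centralizer ({s} : Set G) =>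
        ((⟨(x : G).left, hmem x⟩ : ↥(E ⊓ F)), (x : G).right)) fun x y h => ?_).trans ?_
      · simp only [Prod.mk.injEq, Subtype.mk.injEq] at h
        exact Subtype.ext (SemidirectProduct.ext h.1 h.2)
      · rw [Nat.card_prod, hF1, Nat.card_zpowers, ha, pow_two]
    have h := FGSev.nilpotencyClass_of_small_centralizer (p := p) (m + 1) G hGcard (by omega) s hcent
    simpa using h
  · rintro ⟨-, hcl⟩
    by_contra hno
    push Not at hno
    have hfix : ∀ y ∈ E, a y = y := fun y hy => by
      by_cases h1 : y = 1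
      · rw [h1, map_one]
      · exact hno y (orderOf_eq_prime ((hE y).1 hy) h1)
    haveI := hG.isNilpotent
    obtain ⟨hZ, hZ2⟩ := FusionSys.card_upperCentralSeries_of_maxClass hG hGcard (by omega) (fun h => by
      have := Subgroup.lowerCentralSeries_eq_bot_iff_nilpotencyClass_le.1 h
      rw [hcl] at this
      omega)
    have hnormal : ∀ Q : Subgroup G, Q.Normal → Nat.card Q = p ^ 2 → Q = EG := by
      have key : ∀ Q : Subgroup G, Q.Normal → Nat.card Q = p ^ 2 → Q = Subgroup.upperCentralSeries G 2 := by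
        intro Q hQn hQ
        haveI := hQn
        refine eq_of_le_of_card_ge (fun q hq => ?_) (by rw [hQ, hZ2])
        rw [show (2 : ℕ) = 1 + 1 from rfl, Subgroup.mem_upperCentralSeries_succ_iff]
        intro g
        rw [Subgroup.upperCentralSeries_one, ← commutatorElement_inv g q]
        exact inv_mem (comm_mem_center hG hQ hq g).2
      exact fun Q hQn hQ => (key Q hQn hQ).trans (key EG hEGn hEGcard).symm
    set D := (commutator L).map (SemidirectProduct.inl : L →* G) with hD
    haveI hDn : D.Normal := by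
      rw [hD, _root_.commutator_def, map_commutator, ← MonoidHom.range_eq_map,
        SemidirectProduct.range_inl_eq_ker_rightHom]
      infer_instance
    haveI : IsCyclic (commutator L) := isCyclic_of_injective (inclusion hN) (inclusion_injective hN)
    obtain ⟨d, hd⟩ := IsCyclic.exists_generator (α := commutator L)
    obtain ⟨l, hl⟩ := IsPGroup.iff_card.1 (hL.to_subgroup (commutator L))
    have hl1 : l ≤ 1 := by
      by_contra hl2
      set q : G := SemidirectProduct.inl ((d : L)) ^ p ^ (l - 2) with hq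
      have hod : orderOf (SemidirectProduct.inl (d : L) : G) = p ^ l := by
        rw [orderOf_injective _ SemidirectProduct.inl_injective, orderOf_coe,
          orderOf_eq_card_of_forall_mem_zpowers hd, hl]
      have hoq : orderOf q = p ^ 2 := by
        rw [hq, orderOf_pow' _ (pow_pos hpp.pos _).ne', hod, Nat.gcd_eq_right (pow_dvd_pow p (by omega)),
          Nat.pow_div (by omega) hpp.pos]
        congr 1; omega
      have hn : (zpowers q).Normal := by
        refine ⟨fun z hz g => ?_⟩
        obtain ⟨i, rfl⟩ := hz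
        obtain ⟨x, hx, hxe⟩ := hDn.conj_mem _ ⟨(d : L), d.2, rfl⟩ g
        obtain ⟨j, hj⟩ := mem_zpowers_iff.1 (hd ⟨x, hx⟩)
        refine ⟨j * i, ?_⟩
        have hxe' : (SemidirectProduct.inl (d : L) : G) ^ j = g * SemidirectProduct.inl (d : L) * g⁻¹ := by
          rw [← hxe, ← map_zpow, ← SubgroupClass.coe_zpow, hj]
        show q ^ (j * i) = g * q ^ i * g⁻¹
        rw [← conj_zpow, zpow_mul]
        congr 1
        rw [hq, ← conj_pow, ← hxe', ← zpow_natCast, ← zpow_mul, ← zpow_natCast, ← zpow_mul, mul_comm]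
      obtain ⟨z, hz, hze⟩ := (hnormal _ hn (by rw [Nat.card_zpowers, hoq])).le (mem_zpowers q)
      have hq1 : q ^ p = 1 := by rw [← hze, ← map_pow, (hE z).1 hz, map_one]
      have := Nat.le_of_dvd hpp.pos (hoq ▸ orderOf_dvd_of_pow_eq_one hq1)
      nlinarith [hpp.two_le]
    have hcomm : ∀ x y : L, ⁅x, y⁆ ∈ center L ∧ ⁅x, y⁆ ^ p = 1 := by
      intro x y
      have hxy : ⁅x, y⁆ ∈ commutator L := commutator_mem_commutator (mem_top x) (mem_top y)
      refine ⟨?_, ?_⟩
      · rcases Nat.eq_zero_or_pos l with h0 | h0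
        · rw [card_eq_one.1 (show Nat.card (commutator L) = 1 by rw [hl, h0, pow_zero]), mem_bot] at hxy
          rw [hxy]; exact one_mem _
        · exact PGroup.le_center_of_card_eq hL (N := commutator L)
            (by rw [hl, show l = 1 by omega, pow_one]) hxy
      · refine orderOf_dvd_iff_pow_eq_one.1 ((Subgroup.orderOf_dvd_natCard _ hxy).trans ?_)
        rw [hl]
        conv_rhs => rw [← pow_one p]
        exact pow_dvd_pow p hl1
    have hEc : EG ≤ center G := by
      rintro _ ⟨e, he, rfl⟩
      obtain ⟨w, -, hw⟩ := hroot e he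
      refine mem_center_iff.2 fun x => ?_
      rw [← SemidirectProduct.inl_left_mul_inr_right x]
      have h1 : ∀ v : L, Commute v e := fun v => by
        refine Commute.symm (commutatorElement_eq_one_iff_mul_comm.1 ?_)
        rw [← hw, PGroup.commutatorElement_pow_left (hcomm w v).1, (hcomm w v).2]
      have h2 : ∀ t : zpowers a, (t : MulAut L) e = e := by
        rintro ⟨t, i, rfl⟩
        show (a ^ i : MulAut L) e = e
        have : a ∈ MulAction.stabilizer (MulAut L) e := hfix e he
        exact zpow_mem this i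
      refine Commute.mul_left ?_ ?_
      · exact (h1 _).map SemidirectProduct.inl
      · show SemidirectProduct.inr x.right * SemidirectProduct.inl e = SemidirectProduct.inl e * SemidirectProduct.inr x.right
        rw [← mul_inv_eq_iff_eq_mul, ← map_inv, ← SemidirectProduct.inl_aut]
        exact congrArg _ (h2 x.right)
    have := Subgroup.card_le_of_le hEc
    rw [hEGcard, ← Subgroup.upperCentralSeries_one, hZ] at this
    nlinarith [hpp.two_le]

end Cfsg.Agent.S4079
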