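import Cfsg.Statements.S4080
import Mathlib

set_option autoImplicit false
open Cfsg

namespace Cfsg.Agent.S4080

theorem exists_smul_of_smul_eq_zero {p : ℕ} (hp : 0 < p) (z : ZMod (p ^ 2)) (h : p • z = 0) :
    ∃ w : ZMod (p ^ 2), p • w = z := by
  haveI : NeZero (p ^ 2) := ⟨(pow_pos hp 2).ne'⟩
  rw [nsmul_eq_mul] at h
  have : ((p * z.val : ℕ) : ZMod (p ^ 2)) = 0 := by
    rw [Nat.cast_mul, ZMod.natCast_zmod_val]; exact h
  rw [ZMod.natCast_eq_zero_iff] at this
  obtain ⟨c, hc⟩ : p ∣ z.val := Nat.dvd_of_mul_dvd_mul_left hp (by rwa [← pow_two])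
  refine ⟨(c : ZMod (p ^ 2)), ?_⟩
  rw [nsmul_eq_mul, ← Nat.cast_mul, ← hc, ZMod.natCast_zmod_val]

theorem sq_zero_of_nilpotent {B : Type*} [AddCommGroup B] [Finite B] {p : ℕ} (hp : p.Prime)
    (hB : Nat.card B = p ^ 2) (f : B →+ B) {n : ℕ} (hn : ∀ b, f^[n] b = 0) :
    ∀ b, f (f b) = 0 := by
  have key : ∀ H : AddSubgroup B, H ≠ ⊥ → H.map f ≤ H → Nat.card (H.map f) < Nat.card H := by
    intro H hH hle
    refine lt_of_le_of_ne (Nat.card_le_card_of_injective (AddSubgroup.inclusion hle)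
      (AddSubgroup.inclusion_injective hle)) fun he => hH ?_
    have heq : H.map f = H := AddSubgroup.eq_of_le_of_card_ge hle he.ge
    have hall : ∀ k, ∀ b ∈ H, ∃ c ∈ H, f^[k] c = b := by
      intro k
      induction k with
      | zero => exact fun b hb => ⟨b, hb, rfl⟩
      | succ k ih =>
        intro b hb
        obtain ⟨c, hc, rfl⟩ := ih b hb
        obtain ⟨d, hd, rfl⟩ := heq.ge hc
        exact ⟨d, hd, by rw [Function.iterate_succ_apply]⟩
    rw [AddSubgroup.eq_bot_iff_forall]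
    intro b hb
    obtain ⟨c, -, rfl⟩ := hall n b hb
    exact hn c
  intro b
  by_contra hb
  set H1 := (⊤ : AddSubgroup B).map f
  have h1b : f b ∈ H1 := ⟨b, trivial, rfl⟩
  have h1ne : H1 ≠ ⊥ := fun h => hb (by
    rw [h, AddSubgroup.mem_bot] at h1b; rw [h1b, map_zero])
  have htop : (⊤ : AddSubgroup B) ≠ ⊥ := fun h => h1ne (by
    show (⊤ : AddSubgroup B).map f = ⊥
    rw [h, AddSubgroup.map_bot])
  have c1 : Nat.card H1 < p ^ 2 := by
    have := key ⊤ htop le_top
    rwa [AddSubgroup.card_top, hB] at this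
  have c2 : Nat.card (H1.map f) < Nat.card H1 := key H1 h1ne (AddSubgroup.map_mono le_top)
  have d2 : p ∣ Nat.card (H1.map f) := by
    have hne : H1.map f ≠ ⊥ := fun h => hb (by
      have : f (f b) ∈ H1.map f := ⟨f b, h1b, rfl⟩
      rwa [h, AddSubgroup.mem_bot] at this)
    have hd := AddSubgroup.card_addSubgroup_dvd_card (H1.map f)
    rw [hB] at hd
    obtain ⟨i, -, hi⟩ := (Nat.dvd_prime_pow hp).mp hd
    rcases i with _ | i
    · exact absurd (AddSubgroup.card_eq_one.mp (by simpa using hi)) hne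
    · rw [hi]; exact dvd_pow_self p (Nat.succ_ne_zero i)
  have hd := AddSubgroup.card_addSubgroup_dvd_card H1
  rw [hB] at hd
  obtain ⟨i, hi2, hi⟩ := (Nat.dvd_prime_pow hp).mp hd
  have hge : p ≤ Nat.card (H1.map f) := Nat.le_of_dvd Nat.card_pos d2
  rw [hi] at c1 c2
  have : i < 2 := (Nat.pow_lt_pow_iff_right hp.one_lt).mp c1
  have hpos := Nat.card_pos (α := H1.map f)
  rcases i with _ | _ | i
  · rw [pow_zero] at c2; omega
  · rw [zero_add, pow_one] at c2; omega
  · omega

theorem sum_apply' {A : Type*} [AddCommGroup A] (s : Finset ℕ) (g : ℕ → AddMonoid.End A) (y : A) :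
    (∑ k ∈ s, g k) y = ∑ k ∈ s, g k y := by
  induction s using Finset.cons_induction with
  | empty => rfl
  | cons i s hi ih => rw [Finset.sum_cons, Finset.sum_cons, ← ih]; rfl

theorem add_pow_apply {A : Type*} [AddCommGroup A] (f : AddMonoid.End A) (n : ℕ) (y : A) :
    ((1 + f) ^ n) y = ∑ k ∈ Finset.range (n + 1), n.choose k • (f ^ k) y := by
  rw [add_comm (1 : AddMonoid.End A) f, (Commute.one_right f).add_pow,
    sum_apply']
  refine Finset.sum_congr rfl fun k _ => ?_
  rw [one_pow, mul_one, (Nat.cast_commute (n.choose k) (f ^ k)).symm.eq]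
  show ((n.choose k : AddMonoid.End A)) ((f ^ k) y) = _
  exact AddMonoid.End.natCast_apply _ _


/-- Let p > 3 be a prime and L the direct product of two cyclic groups of order p². Every automorphism of L of order p fixes every element of order p of L. -/
theorem result {p : ℕ} [Fact p.Prime] (hp : 3 < p)
    (a : MulAut (Multiplicative (ZMod (p ^ 2) × ZMod (p ^ 2)))) (ha : orderOf a = p)
    (x : Multiplicative (ZMod (p ^ 2) × ZMod (p ^ 2))) (hx : orderOf x = p) : a x = x := by
  have hp' : p.Prime := Fact.out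
  haveI : NeZero (p ^ 2) := ⟨(pow_pos hp'.pos 2).ne'⟩
  let A := ZMod (p ^ 2) × ZMod (p ^ 2)
  let α : AddMonoid.End A := AddMonoidHom.mk' (fun y => (a (Multiplicative.ofAdd y)).toAdd)
    (fun u v => by rw [ofAdd_add, map_mul, toAdd_mul])
  have hα : ∀ (n : ℕ) (y : A), (α ^ n) y = ((a ^ n) (Multiplicative.ofAdd y)).toAdd := by
    intro n
    induction n with
    | zero => intro y; simp
    | succ n ih =>
      intro y
      rw [pow_succ' α, pow_succ' a]
      show α ((α ^ n) y) = _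
      rw [ih]
      rfl
  have hαp : α ^ p = 1 := by
    refine AddMonoidHom.ext fun y => ?_
    refine (hα p y).trans ?_
    rw [show a ^ p = 1 from orderOf_dvd_iff_pow_eq_one.mp (dvd_of_eq ha)]
    rfl
  set f : AddMonoid.End A := α - 1 with hf
  have hp2 : ∀ y : A, p • p • y = 0 := fun y => by
    rw [← mul_smul, ← pow_two]
    exact Prod.ext (by rw [Prod.smul_fst, nsmul_eq_mul, ZMod.natCast_self, zero_mul]; rfl)
      (by rw [Prod.smul_snd, nsmul_eq_mul, ZMod.natCast_self, zero_mul]; rfl)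
  have hroot : ∀ y : A, p • y = 0 → ∃ w : A, p • w = y := by
    rintro ⟨u, v⟩ h
    obtain ⟨u', hu⟩ := exists_smul_of_smul_eq_zero hp'.pos u (congrArg Prod.fst h)
    obtain ⟨v', hv⟩ := exists_smul_of_smul_eq_zero hp'.pos v (congrArg Prod.snd h)
    exact ⟨(u', v'), Prod.ext hu hv⟩
  have hexp : ∀ y : A, ∑ k ∈ Finset.range (p + 1), p.choose k • (f ^ k) y = y := fun y => by
    rw [← add_pow_apply, hf, add_sub_cancel, hαp]; rfl
  have hf_smul : ∀ (k : ℕ) (n : ℕ) (y : A), (f ^ k) (n • y) = n • (f ^ k) y :=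
    fun k n y => map_nsmul _ n y
  let B : AddSubgroup A := (nsmulAddMonoidHom (α := A) p).ker
  have hBmem : ∀ y, y ∈ B ↔ p • y = 0 := fun y => Iff.rfl
  have hBcard : Nat.card B = p ^ 2 := by
    have h1 : (nsmulAddMonoidHom (α := A) p).range = B := by
      ext y
      exact ⟨fun ⟨w, hw⟩ => (hBmem y).mpr (hw ▸ hp2 w), fun h => hroot y h⟩
    have h2 := AddSubgroup.card_eq_card_quotient_mul_card_addSubgroup B
    rw [Nat.card_congr (QuotientAddGroup.quotientKerEquivRange (nsmulAddMonoidHom (α := A) p)).toEquiv,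
      h1, Nat.card_prod, Nat.card_zmod] at h2
    nlinarith [h2, sq_nonneg ((Nat.card B : ℤ) - (p:ℤ) ^ 2)]
  let fB : B →+ B := AddMonoidHom.mk' (fun b => ⟨f b, (hBmem _).mpr (by
      rw [← map_nsmul, (hBmem _).mp b.2, map_zero])⟩) (fun u v => Subtype.ext (map_add f _ _))
  have hfB : ∀ (k : ℕ) (b : B), ((fB^[k] b : B) : A) = (f ^ k) b := by
    intro k
    induction k with
    | zero => intro b; rfl
    | succ k ih =>
      intro b
      rw [Function.iterate_succ_apply', pow_succ' f]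
      exact congrArg f (ih b)
  have hnil : ∀ b, fB^[p] b = 0 := by
    intro b
    refine Subtype.ext ?_
    rw [hfB]
    have h := hexp b
    rw [Finset.sum_range_succ, Finset.sum_eq_single 0] at h
    · simpa using h
    · intro k hk hk0
      obtain ⟨c, hc⟩ := hp'.dvd_choose_self hk0 (Finset.mem_range.mp hk)
      rw [hc, ← hf_smul, mul_comm, mul_smul, (hBmem _).mp b.2, smul_zero, map_zero]
    · intro h0; exact absurd (Finset.mem_range.mpr hp'.pos) h0
  have hsq := sq_zero_of_nilpotent hp' hBcard fB hnil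
  have hsq' : ∀ y : A, p • (f ^ 2) y = 0 := fun y => by
    rw [← hf_smul]
    exact (hfB 2 ⟨p • y, (hBmem _).mpr (hp2 y)⟩).symm.trans (congrArg Subtype.val (hsq _))
  have hfour : ∀ k, 4 ≤ k → ∀ y : A, (f ^ k) y = 0 := by
    intro k hk y
    obtain ⟨j, rfl⟩ := Nat.exists_eq_add_of_le hk
    obtain ⟨w, hw⟩ := hroot ((f ^ 2) ((f ^ j) y)) (hsq' _)
    rw [show 4 + j = 2 + (2 + j) by omega, pow_add, pow_add]
    show (f ^ 2) ((f ^ 2) ((f ^ j) y)) = 0
    rw [← hw, hf_smul, hsq']
  have hpf : ∀ y : A, p • f y = 0 := fun y => by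
    have h := hexp y
    rw [Finset.sum_eq_add_of_mem (0 : ℕ) 1 (Finset.mem_range.mpr (by omega))
      (Finset.mem_range.mpr (by omega)) (by norm_num)] at h
    · simpa using h
    · rintro k hk ⟨hk0, hk1⟩
      have hk' := Finset.mem_range.mp hk
      rcases eq_or_ne k p with rfl | hkp
      · rw [hfour k (by omega), smul_zero]
      · obtain ⟨j, rfl⟩ := Nat.exists_eq_add_of_le (show 2 ≤ k by omega)
        obtain ⟨c, hc⟩ := hp'.dvd_choose_self hk0 (show 2 + j < p by omega)
        rw [hc, pow_add, mul_comm, mul_smul]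
        show c • p • (f ^ 2) ((f ^ j) y) = 0
        rw [hsq', smul_zero]
  have hxp : x ^ p = 1 := orderOf_dvd_iff_pow_eq_one.mp (dvd_of_eq hx)
  obtain ⟨w, hw⟩ := hroot x.toAdd (by rw [← toAdd_pow, hxp, toAdd_one])
  have h0 : f x.toAdd = 0 := by rw [← hw, map_nsmul, hpf]
  have h1 : α x.toAdd - x.toAdd = 0 := h0
  exact Multiplicative.toAdd.injective (sub_eq_zero.mp h1)

end Cfsg.Agent.S4080
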