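import Cfsg.Statements.S4081
import Mathlib
import Cfsg.Agent.FGS75.PrimitiveAction
import Cfsg.Agent.S0144
import Cfsg.Agent.Cores.Fitting
import Cfsg.Agent.Lib.Element
import Cfsg.Agent.Coprime.Generation

set_option autoImplicit false
open Cfsg
open scoped IsMulCommutative

namespace Cfsg.Agent.S4081

theorem card_two_primes {n p q : ℕ} (hp : p.Prime) (hq : q.Prime) (hpq : p ≠ q) (hn : n ≠ 0)
    (h : ∀ r : ℕ, r.Prime → r ∣ n → r = p ∨ r = q) :
    n = p ^ n.factorization p * q ^ n.factorization q := by
  conv_lhs => rw [← Nat.prod_factorization_pow_eq_self hn]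
  rw [Finsupp.prod]
  have hsub : n.factorization.support ⊆ {p, q} := by
    intro r hr
    rw [Nat.support_factorization, Nat.mem_primeFactors] at hr
    rcases h r hr.1 hr.2.1 with rfl | rfl <;> simp
  rw [Finset.prod_subset hsub (fun r _ hr => by rw [Finsupp.notMem_support_iff.mp hr, pow_zero]),
    Finset.prod_pair hpq]

theorem not_isPrimePow_mul {p q n : ℕ} (hp : p.Prime) (hq : q.Prime) (hpq : p ≠ q) (hn : 1 ≤ n) :
    ¬ IsPrimePow (p ^ n * q) := by
  intro h
  obtain ⟨r, -, hr⟩ := isPrimePow_iff_unique_prime_dvd.mp h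
  exact hpq ((hr p ⟨hp, (dvd_pow_self p (by omega)).mul_right q⟩).trans
    (hr q ⟨hq, dvd_mul_left q _⟩).symm)

theorem orderOf_smul {G : Type*} [Group G] (a : MulAut G) (g : G) : orderOf (a • g) = orderOf g :=
  MulEquiv.orderOf_eq a g

theorem exists_aut_of_mem_orbit {G : Type*} [Group G] {a b : G}
    (h : b ∈ MulAction.orbit (MulAut G) a) : ∃ α : MulAut G, α a = b := h

/-- the forward structural step, with `p` the prime whose Sylow subgroup is normal -/
theorem forward {G : Type*} [Group G] [Finite G] {p q : ℕ} [Fact p.Prime] [Fact q.Prime]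
    (hpq : p ≠ q) (hord : ∀ g : G, g = 1 ∨ orderOf g = p ∨ orderOf g = q)
    (htp : ∀ a b : G, orderOf a = p → orderOf b = p → ∃ α : MulAut G, α a = b)
    (htq : ∀ a b : G, orderOf a = q → orderOf b = q → ∃ α : MulAut G, α a = b)
    {x : G} (hx : orderOf x = q) (hcore : Cfsg.pCore p G ≠ ⊥) :
    ∃ n : ℕ, 1 ≤ n ∧ Nat.card G = p ^ n * q ∧
      (∀ P : Sylow p G, (P : Subgroup G).Normal ∧ Cfsg.IsElementaryAbelian p (P : Subgroup G)) ∧
      orderOf (p : ZMod q) = q - 1 ∧
      ∀ x y : G, orderOf x = q → orderOf y = p → x * y * x⁻¹ ≠ y := by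
  classical
  have hp : p.Prime := Fact.out
  have hq : q.Prime := Fact.out
  have hnopq : ∀ a b : G, orderOf a = q → orderOf b = p → a * b * a⁻¹ ≠ b := by
    intro a b ha hb hab
    have hc : Commute a b := mul_inv_eq_iff_eq_mul.mp hab
    have ho := hc.orderOf_mul_eq_mul_orderOf_of_coprime (by
      rw [ha, hb]; exact (Nat.coprime_primes hq hp).mpr hpq.symm)
    rw [ha, hb] at ho
    rcases hord (a * b) with h | h | h
    · rw [h, orderOf_one] at ho
      exact hq.ne_one (Nat.eq_one_of_mul_eq_one_right ho.symm)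
    · rw [ho] at h
      exact hq.ne_one ((mul_eq_right₀ hp.ne_zero).mp h)
    · rw [ho] at h
      exact hp.ne_one ((mul_eq_left₀ hq.ne_zero).mp h)
  set P := Cfsg.pCore p G with hPdef
  haveI : P.Characteristic := inferInstance
  have hPp : IsPGroup p P := Cores.pCore_isPGroup
  have hPchar : ∀ (α : MulAut G) (g : G), g ∈ P → α g ∈ P := fun α g hg => by
    have := Subgroup.characteristic_iff_map_eq.mp ‹P.Characteristic› α
    rw [← this]; exact ⟨g, hg, rfl⟩
  have hordP : ∀ g ∈ P, g = 1 ∨ orderOf g = p := by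
    intro g hg
    rcases hord g with h | h | h
    · exact Or.inl h
    · exact Or.inr h
    · obtain ⟨k, hk⟩ := IsPGroup.iff_orderOf.mp hPp ⟨g, hg⟩
      rw [Subgroup.orderOf_mk, h] at hk
      exact absurd ((Nat.prime_dvd_prime_iff_eq hq hp).mp (hq.dvd_of_dvd_pow (dvd_of_eq hk)))
        hpq.symm
  obtain ⟨z, hz, hz1⟩ : ∃ z ∈ P, z ≠ 1 := (Subgroup.bot_or_exists_ne_one P).resolve_left hcore
  have hzp : orderOf z = p := (hordP z hz).resolve_left hz1
  have hmemP : ∀ g : G, orderOf g = p → g ∈ P := fun g hg => by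
    obtain ⟨α, hα⟩ := htp z g hzp hg
    exact hα ▸ hPchar α z hz
  -- `P` is elementary abelian
  have hPel : Cfsg.IsElementaryAbelian p P := by
    haveI : Nontrivial P := ⟨⟨⟨z, hz⟩, 1, fun h => hz1 (congrArg Subtype.val h)⟩⟩
    haveI := hPp.center_nontrivial
    obtain ⟨⟨⟨c, hc⟩, hcc⟩, hc1⟩ := exists_ne (1 : Subgroup.center P)
    have hcne : c ≠ 1 := fun h => hc1 (Subtype.ext (Subtype.ext h))
    refine ⟨isMulCommutative_iff.mpr fun a b => ?_, fun a ha => ?_⟩
    · rcases hordP a a.2 with ha | ha
      · rw [show a = 1 from Subtype.ext ha, one_mul, mul_one]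
      · obtain ⟨α, hα⟩ := htp c a ((hordP c hc).resolve_left hcne) ha
        refine Subtype.ext ?_
        show (a : G) * b = b * a
        have hb : α.symm b ∈ P := hPchar α.symm b b.2
        have h := congrArg α (congrArg Subtype.val (Subgroup.mem_center_iff.mp hcc ⟨_, hb⟩))
        simp only [Subgroup.coe_mul, map_mul, MulEquiv.apply_symm_apply, hα] at h
        exact h.symm
    · rcases hordP a ha with h | h
      · rw [h, one_pow]
      · rw [← h, pow_orderOf_eq_one]
  -- `P` is the Sylow `p`-subgroup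
  have hPidx : ¬ p ∣ P.index := by
    intro h
    obtain ⟨y, hy⟩ := exists_prime_orderOf_dvd_card' p (G := G ⧸ P) h
    obtain ⟨g, rfl⟩ := QuotientGroup.mk'_surjective P y
    have hd : p ∣ orderOf g := hy ▸ orderOf_map_dvd (QuotientGroup.mk' P) g
    have hgp : orderOf g = p := by
      rcases hord g with h' | h' | h'
      · rw [h', orderOf_one] at hd; exact absurd hd hp.not_dvd_one
      · exact h'
      · rw [h'] at hd; exact absurd ((Nat.prime_dvd_prime_iff_eq hp hq).mp hd) hpq
    rw [show QuotientGroup.mk' P g = 1 from (QuotientGroup.eq_one_iff g).mpr (hmemP g hgp),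
      orderOf_one] at hy
    exact hp.ne_one hy.symm
  obtain ⟨n, hn⟩ := hPp.exists_card_eq
  have hn1 : 1 ≤ n := by
    rcases n with _ | n
    · exact absurd (Subgroup.card_eq_one.mp (by simpa using hn)) hcore
    · omega
  -- the quotient has order `q`
  obtain ⟨Q⟩ : Nonempty (Sylow q G) := inferInstance
  have hQexp : ∀ g ∈ (Q : Subgroup G), g ^ q = 1 := by
    intro g hg
    rcases hord g with h | h | h
    · rw [h, one_pow]
    · obtain ⟨k, hk⟩ := IsPGroup.iff_orderOf.mp Q.isPGroup' ⟨g, hg⟩
      rw [Subgroup.orderOf_mk, h] at hk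
      exact absurd ((Nat.prime_dvd_prime_iff_eq hp hq).mp (hp.dvd_of_dvd_pow (dvd_of_eq hk))) hpq
    · rw [← h, pow_orderOf_eq_one]
  have hQcard : Nat.card Q = q := by
    obtain ⟨m, hm⟩ := Q.isPGroup'.exists_card_eq
    have hxd : q ∣ Nat.card G := hx ▸ orderOf_dvd_natCard x
    rcases m with _ | _ | m
    · exfalso
      refine Q.not_dvd_index ?_
      have := Subgroup.card_mul_index (Q : Subgroup G)
      rw [show Nat.card (Q : Subgroup G) = 1 from hm, one_mul] at this
      rw [this]; exact hxd
    · simpa using hm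
    · exfalso
      obtain ⟨E₀, hE₀⟩ := Sylow.exists_subgroup_card_pow_prime (G := (Q : Subgroup G)) q (n := 2)
        (hm ▸ pow_dvd_pow q (show 2 ≤ m + 1 + 1 by omega))
      set E := E₀.map (Q : Subgroup G).subtype
      have hE : Nat.card E = q ^ 2 := by
        rw [Subgroup.card_map_of_injective (Q : Subgroup G).subtype_injective, hE₀]
      have hEQ : E ≤ (Q : Subgroup G) := Subgroup.map_subtype_le _
      haveI : IsMulCommutative E := IsPGroup.isMulCommutative_of_card_eq_prime_sq hE
      have hnc : ¬ IsCyclic E := by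
        intro hc
        obtain ⟨g, hg⟩ := hc.exists_generator
        have h1 : orderOf g = q ^ 2 := by rw [orderOf_eq_card_of_forall_mem_zpowers hg, hE]
        have h2 : orderOf g ∣ q := orderOf_dvd_of_pow_eq_one (Subtype.ext (hQexp g (hEQ g.2)))
        rw [h1] at h2
        have := Nat.le_of_dvd hq.pos h2
        nlinarith [hq.two_le]
      have hgen := Coprime.iSup_centralizer_eq (A := E) (K := P) hnc
        Subgroup.le_normalizer_of_normal (by
          rw [hE, hn]; exact Nat.Coprime.pow _ _ ((Nat.coprime_primes hq hp).mpr hpq.symm))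
      apply hcore
      rw [eq_bot_iff, ← hgen]
      refine iSup₂_le fun a ha v hv => ?_
      obtain ⟨haE, ha1⟩ := ha
      rcases hordP v hv.1 with h | h
      · exact h
      · have haq : orderOf a = q := orderOf_eq_prime (hQexp a (hEQ haE)) ha1
        exact absurd (by
          rw [show a * v = v * a from (Subgroup.mem_centralizer_singleton_iff.mp hv.2).symm,
            mul_inv_cancel_right]) (hnopq a v haq h)
  have hGcard : Nat.card G = p ^ n * q := by
    have h := card_two_primes hp hq hpq (n := Nat.card G) Nat.card_pos.ne' (fun r hr hrd => by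
      haveI := Fact.mk hr
      obtain ⟨g, hg⟩ := exists_prime_orderOf_dvd_card' r hrd
      rcases hord g with h | h | h
      · rw [h, orderOf_one] at hg; exact absurd hg.symm hr.ne_one
      · exact Or.inl (hg ▸ h)
      · exact Or.inr (hg ▸ h))
    rw [Sylow.card_eq_multiplicity Q] at hQcard
    have hP' : p ^ (Nat.card G).factorization p = Nat.card P := by
      rw [← Sylow.card_eq_multiplicity (hPp.toSylow hPidx)]
      exact congrArg (fun S : Subgroup G => Nat.card S) (IsPGroup.toSylow_coe hPp hPidx)
    rw [h, hQcard, hP', hn]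
  refine ⟨n, hn1, hGcard, fun S => ?_, ?_, hnopq⟩
  · have hle : P ≤ (S : Subgroup G) := Cores.pCore_le_sylow S
    have : (S : Subgroup G) = P := (Subgroup.eq_of_le_of_card_ge hle (le_of_eq (by
      rw [Sylow.card_eq_multiplicity S, hn, hGcard, Nat.factorization_mul (pow_ne_zero _ hp.ne_zero)
        hq.ne_zero, Finsupp.add_apply, Nat.factorization_pow, Finsupp.smul_apply,
        hp.factorization_self, hq.factorization]
      simp [hpq.symm]))).symm
    rw [this]
    exact ⟨inferInstance, hPel⟩
  -- the linear algebra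
  · haveI : IsMulCommutative P := hPel.1
    have hzmod : ∀ v : Additive P, p • v = 0 := fun v => by
      apply Additive.toMul.injective
      exact Subtype.ext (hPel.2 _ v.toMul.2)
    haveI : Module (ZMod p) (Additive P) := AddCommGroup.zmodModule hzmod
    let T : Module.End (ZMod p) (Additive P) :=
      AddMonoidHom.toZModLinearMap p ((MulAut.conjNormal x : MulAut P).toMonoidHom.toAdditive)
    have hT : ∀ u : Additive P, ((T u).toMul : G) = x * (u.toMul : G) * x⁻¹ :=
      fun u => MulAut.conjNormal_apply _ _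
    have hTpow : ∀ (i : ℕ) (u : Additive P), (((T ^ i) u).toMul : G) = x ^ i * (u.toMul : G) * (x ^ i)⁻¹ := by
      intro i
      induction i with
      | zero => intro u; simp
      | succ i ih =>
        intro u
        rw [pow_succ', Module.End.mul_apply, hT, ih, pow_succ']
        group
    have hfixT : ∀ u, T u = u → u = 0 := by
      intro u hu
      by_contra hne
      refine hnopq x u.toMul hx ((hordP _ u.toMul.2).resolve_left fun h => hne ?_) ?_
      · exact Additive.toMul.injective (Subtype.ext h)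
      · rw [← hT, hu]
    have hTq : T ^ q = 1 := LinearMap.ext fun u => Additive.toMul.injective (Subtype.ext (by
      rw [hTpow, ← hx, pow_orderOf_eq_one]; simp))
    haveI : Nontrivial (Additive P) := ⟨⟨Additive.ofMul ⟨z, hz⟩, 0, fun h =>
      hz1 (congrArg (fun u : Additive P => (u.toMul : G)) h)⟩⟩
    -- every automorphism induces a power of `x` on `P`
    have hAut : ∀ α : MulAut G, ∃ (A : Additive P ≃ₗ[ZMod p] Additive P) (i : ℕ), ¬ q ∣ i ∧
        (∀ u, A (T u) = (T ^ i) (A u)) ∧ (∀ u, ((A u).toMul : G) = α u.toMul) ∧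
        ((α x : G) : G ⧸ P) = (x : G ⧸ P) ^ i := by
      intro α
      have hAmem : ∀ u : P, α u ∈ P := fun u => hPchar α u u.2
      let β : P →* P := MonoidHom.mk' (fun u => ⟨α u, hAmem u⟩)
        (fun u v => Subtype.ext (map_mul α _ _))
      have hβ : Function.Bijective (AddMonoidHom.toZModLinearMap p β.toAdditive) :=
        Finite.injective_iff_bijective.mp fun u v h => Additive.toMul.injective (Subtype.ext
          (α.injective (congrArg (fun w : Additive P => (w.toMul : G)) h)))
      let A : Additive P ≃ₗ[ZMod p] Additive P := LinearEquiv.ofBijective _ hβ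
      have hqidx : Nat.card (G ⧸ P) = q := by
        have h1 := Subgroup.card_mul_index P
        rw [hn, hGcard] at h1
        exact Nat.eq_of_mul_eq_mul_left (pow_pos hp.pos n) h1
      have hxP : x ∉ P := fun h => by
        rcases hordP x h with h' | h'
        · rw [h', orderOf_one] at hx; exact hq.ne_one hx.symm
        · exact hpq (h'.symm.trans hx)
      obtain ⟨i, hi⟩ : ∃ i : ℕ, ((α x : G) : G ⧸ P) = (x : G ⧸ P) ^ i := by
        have hxq : (x : G ⧸ P) ≠ 1 := fun h => hxP ((QuotientGroup.eq_one_iff x).mp h)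
        have := mem_zpowers_of_prime_card (p := q) hqidx hxq (g' := ((α x : G) : G ⧸ P))
        obtain ⟨i, hi⟩ := (mem_powers_iff_mem_zpowers.mpr this)
        exact ⟨i, hi.symm⟩
      refine ⟨A, i, fun hd => ?_, fun u => ?_, fun u => rfl, hi⟩
      · obtain ⟨c, rfl⟩ := hd
        rw [pow_mul, show (x : G ⧸ P) ^ q = 1 by rw [← QuotientGroup.mk_pow, ← hx, pow_orderOf_eq_one]; rfl,
          one_pow, QuotientGroup.eq_one_iff] at hi
        exact hxP (by simpa using hPchar α.symm _ hi)
      · apply Additive.toMul.injective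
        apply Subtype.ext
        show α ((T u).toMul : G) = (((T ^ i) (A u)).toMul : G)
        rw [hT, hTpow, map_mul, map_mul, map_inv]
        show α x * α u.toMul * (α x)⁻¹ = x ^ i * α u.toMul * (x ^ i)⁻¹
        have hw : (x ^ i)⁻¹ * α x ∈ P := by
          rw [← QuotientGroup.eq_one_iff, QuotientGroup.mk_mul, QuotientGroup.mk_inv,
            QuotientGroup.mk_pow, hi, inv_mul_cancel]
        have hc := congrArg Subtype.val
          (isMulCommutative_iff.mp hPel.1 ⟨_, hw⟩ ⟨_, hAmem u.toMul⟩)
        simp only [Subgroup.coe_mul] at hc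
        calc α x * α u.toMul * (α x)⁻¹
            = x ^ i * (((x ^ i)⁻¹ * α x) * α u.toMul * ((x ^ i)⁻¹ * α x)⁻¹) * (x ^ i)⁻¹ := by group
          _ = x ^ i * α u.toMul * (x ^ i)⁻¹ := by rw [hc, mul_inv_cancel_right]
    refine FGS75.orderOf_eq_sub_one_of_transitive hpq T hTq hfixT (fun v w hv hw => ?_) (fun i hi => ?_)
    · have hv' : orderOf (v.toMul : G) = p := (hordP _ v.toMul.2).resolve_left fun h =>
        hv (Additive.toMul.injective (Subtype.ext h))
      have hw' : orderOf (w.toMul : G) = p := (hordP _ w.toMul.2).resolve_left fun h =>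
        hw (Additive.toMul.injective (Subtype.ext h))
      obtain ⟨α, hα⟩ := htp _ _ hv' hw'
      obtain ⟨A, i, hi, hA, hAα, -⟩ := hAut α
      exact ⟨A, i, hi, hA, Additive.toMul.injective (Subtype.ext (by rw [hAα, hα]))⟩
    · have hxi : orderOf (x ^ i) = q := by
        rw [orderOf_pow, hx, Nat.Coprime.gcd_eq_one (hq.coprime_iff_not_dvd.mpr hi), Nat.div_one]
      obtain ⟨α, hα⟩ := htq x (x ^ i) hx hxi
      obtain ⟨A, j, -, hA, -, hj⟩ := hAut α
      refine ⟨A, fun u => (hA u).trans ?_⟩
      rw [hα, QuotientGroup.mk_pow] at hj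
      have hxq : orderOf (x : G ⧸ P) = q := by
        refine orderOf_eq_prime ?_ fun h => ?_
        · rw [← QuotientGroup.mk_pow, ← hx, pow_orderOf_eq_one]; rfl
        · rcases hordP x ((QuotientGroup.eq_one_iff x).mp h) with h' | h'
          · rw [h', orderOf_one] at hx; exact hq.ne_one hx.symm
          · exact hpq (h'.symm.trans hx)
      have hmod : i ≡ j [MOD q] := hxq ▸ pow_eq_pow_iff_modEq.mp hj
      rw [FGS75.pow_eq_pow_of_modEq hTq hmod]


/-- Let G be a finite group whose order is not a prime power. Then the automorphism group of G has exactly three orbits on G if and only if there are distinct primes p, q with #G = pⁿ·q (n ≥ 1) such that G has a normal elementary abelian Sylow p-subgroup P, p is a primitive root modulo q (the multiplicative order of p mod q is q − 1), and every element of order q of G acts on P without non-identity fixed points. -/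
theorem result {G : Type*} [Group G] [Finite G] (hnpp : ¬ IsPrimePow (Nat.card G)) (hnt : Nat.card G ≠ 1) :
    Nat.card (MulAction.orbitRel.Quotient (MulAut G) G) = 3 ↔
    ∃ (p q n : ℕ) (_ : Fact p.Prime) (_ : Fact q.Prime), p ≠ q ∧ 1 ≤ n ∧ Nat.card G = p ^ n * q ∧
      (∀ P : Sylow p G, (P : Subgroup G).Normal ∧ Cfsg.IsElementaryAbelian p (P : Subgroup G)) ∧
      orderOf (p : ZMod q) = q - 1 ∧
      ∀ x y : G, orderOf x = q → orderOf y = p → x * y * x⁻¹ ≠ y := by
  classical
  letI := Fintype.ofFinite G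
  have hmk : ∀ {a b : G}, (Quotient.mk (MulAction.orbitRel (MulAut G) G) a) =
      Quotient.mk (MulAction.orbitRel (MulAut G) G) b ↔ ∃ α : MulAut G, α b = a := by
    intro a b
    rw [Quotient.eq]
    exact Iff.rfl
  constructor
  · intro h3
    have hG1 : 1 < Nat.card G := by have := Nat.card_pos (α := G); omega
    obtain ⟨p, hp, hpd⟩ := Nat.exists_prime_and_dvd hnt
    obtain ⟨q, hq, hqd, hqp⟩ : ∃ q : ℕ, q.Prime ∧ q ∣ Nat.card G ∧ q ≠ p := by
      by_contra hc
      push Not at hc
      exact hnpp (isPrimePow_iff_unique_prime_dvd.mpr ⟨p, ⟨hp, hpd⟩, fun r hr => hc r hr.1 hr.2⟩)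
    haveI := Fact.mk hp
    haveI := Fact.mk hq
    obtain ⟨a, ha⟩ := exists_prime_orderOf_dvd_card' p hpd
    obtain ⟨b, hb⟩ := exists_prime_orderOf_dvd_card' q hqd
    have hne : ∀ {c d : G}, orderOf c ≠ orderOf d →
        (Quotient.mk (MulAction.orbitRel (MulAut G) G) c) ≠
          Quotient.mk (MulAction.orbitRel (MulAut G) G) d := by
      intro c d hcd he
      obtain ⟨α, hα⟩ := hmk.mp he
      exact hcd (hα ▸ MulEquiv.orderOf_eq α d)
    have hall : ∀ g : G, (∃ α : MulAut G, α 1 = g) ∨ (∃ α : MulAut G, α a = g) ∨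
        ∃ α : MulAut G, α b = g := by
      intro g
      let Ω := MulAction.orbitRel.Quotient (MulAut G) G
      let s : Finset Ω := {Quotient.mk _ 1, Quotient.mk _ a, Quotient.mk _ b}
      have h1a : (Quotient.mk _ (1 : G) : Ω) ≠ Quotient.mk _ a :=
        hne (by rw [orderOf_one, ha]; exact hp.ne_one.symm)
      have h1b : (Quotient.mk _ (1 : G) : Ω) ≠ Quotient.mk _ b :=
        hne (by rw [orderOf_one, hb]; exact hq.ne_one.symm)
      have hab : (Quotient.mk _ a : Ω) ≠ Quotient.mk _ b := hne (by rw [ha, hb]; exact hqp.symm)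
      haveI : Fintype Ω := Fintype.ofFinite Ω
      have hs : s = Finset.univ := by
        refine Finset.eq_univ_of_card s ?_
        rw [← Nat.card_eq_fintype_card, h3, Finset.card_insert_of_notMem (by simp [h1a, h1b]),
          Finset.card_pair hab]
      have : (Quotient.mk _ g : Ω) ∈ s := hs ▸ Finset.mem_univ _
      simp only [s, Finset.mem_insert, Finset.mem_singleton] at this
      exact this.imp hmk.mp (Or.imp hmk.mp hmk.mp)
    have hord : ∀ g : G, g = 1 ∨ orderOf g = p ∨ orderOf g = q := by
      intro g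
      rcases hall g with ⟨α, h⟩ | ⟨α, h⟩ | ⟨α, h⟩
      · exact Or.inl (by rw [← h, map_one])
      · exact Or.inr (Or.inl (by rw [← h, MulEquiv.orderOf_eq, ha]))
      · exact Or.inr (Or.inr (by rw [← h, MulEquiv.orderOf_eq, hb]))
    have htrans : ∀ (r : ℕ) (a₀ : G), (∀ g : G, orderOf g = r → ∃ α : MulAut G, α a₀ = g) →
        ∀ c d : G, orderOf c = r → orderOf d = r → ∃ α : MulAut G, α c = d := by
      intro r a₀ h c d hc hd
      obtain ⟨α, rfl⟩ := h c hc
      obtain ⟨β, rfl⟩ := h d hd
      exact ⟨β * α⁻¹, by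
        show β (α.symm (α a₀)) = β a₀
        rw [MulEquiv.symm_apply_apply]⟩
    have htp := htrans p a (fun g hg => by
      rcases hall g with ⟨α, h⟩ | h | ⟨α, h⟩
      · rw [← h, map_one, orderOf_one] at hg; exact absurd hg.symm hp.ne_one
      · exact h
      · rw [← h, MulEquiv.orderOf_eq, hb] at hg; exact absurd hg hqp)
    have htq := htrans q b (fun g hg => by
      rcases hall g with ⟨α, h⟩ | ⟨α, h⟩ | h
      · rw [← h, map_one, orderOf_one] at hg; exact absurd hg.symm hq.ne_one
      · rw [← h, MulEquiv.orderOf_eq, ha] at hg; exact absurd hg hqp.symm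
      · exact h)
    haveI : Group.IsSolvable G := Cfsg.Agent.S0144.result p q _ _ hp hq
      (card_two_primes hp hq hqp.symm Nat.card_pos.ne' fun r hr hrd => by
        haveI := Fact.mk hr
        obtain ⟨g, hg⟩ := exists_prime_orderOf_dvd_card' r hrd
        rcases hord g with h | h | h
        · rw [h, orderOf_one] at hg; exact absurd hg.symm hr.ne_one
        · exact Or.inl (hg ▸ h)
        · exact Or.inr (hg ▸ h))
    haveI : Nontrivial G := Finite.one_lt_card_iff_nontrivial.mp hG1
    obtain ⟨r, hr, hcore⟩ := Cores.exists_pCore_ne_bot (G := G)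
    haveI := Fact.mk hr
    obtain ⟨c, hc, hc1⟩ := (Subgroup.bot_or_exists_ne_one _).resolve_left hcore
    obtain ⟨k, hk⟩ := IsPGroup.iff_orderOf.mp (Cores.pCore_isPGroup (p := r) (G := G)) ⟨c, hc⟩
    rw [Subgroup.orderOf_mk] at hk
    rcases hord c with h | h | h
    · exact absurd h hc1
    · obtain rfl : p = r := (Nat.prime_dvd_prime_iff_eq hp hr).mp
        (hp.dvd_of_dvd_pow (dvd_of_eq (h.symm.trans hk)))
      obtain ⟨n, h1, h2, h3, h4, h5⟩ := forward hqp.symm hord htp htq hb hcore
      exact ⟨p, q, n, ⟨hp⟩, ⟨hq⟩, hqp.symm, h1, h2, h3, h4, h5⟩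
    · obtain rfl : q = r := (Nat.prime_dvd_prime_iff_eq hq hr).mp
        (hq.dvd_of_dvd_pow (dvd_of_eq (h.symm.trans hk)))
      obtain ⟨n, h1, h2, h3, h4, h5⟩ := forward hqp (fun g => (hord g).imp_right Or.symm) htq htp ha hcore
      exact ⟨q, p, n, ⟨hq⟩, ⟨hp⟩, hqp, h1, h2, h3, h4, h5⟩
  · rintro ⟨p, q, n, hpF, hqF, hpq, hn, hcard, hP, hprim, hfpf⟩
    have hp : p.Prime := hpF.out
    have hq : q.Prime := hqF.out
    obtain ⟨S⟩ : Nonempty (Sylow p G) := inferInstance
    obtain ⟨hSn, hSel⟩ := hP S
    haveI := hSn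
    set P := (S : Subgroup G) with hPdef
    have hPcard : Nat.card P = p ^ n := by
      rw [Sylow.card_eq_multiplicity S, hcard, Nat.factorization_mul (pow_ne_zero _ hp.ne_zero)
        hq.ne_zero, Finsupp.add_apply, Nat.factorization_pow, Finsupp.smul_apply,
        hp.factorization_self, hq.factorization]
      simp [hpq.symm]
    have hidx : Nat.card (G ⧸ P) = q := by
      have h1 := Subgroup.card_mul_index P
      rw [hPcard, hcard] at h1
      exact Nat.eq_of_mul_eq_mul_left (pow_pos hp.pos n) h1
    have hordP : ∀ g ∈ P, g = 1 ∨ orderOf g = p := fun g hg => by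
      by_cases h : g = 1
      · exact Or.inl h
      · exact Or.inr (orderOf_eq_prime (hSel.2 g hg) h)
    have hout : ∀ g : G, g ∉ P → orderOf g = q := by
      intro g hg
      have hd : orderOf g ∣ p ^ n * q := hcard ▸ orderOf_dvd_natCard g
      have hqd : q ∣ orderOf g := by
        by_contra hnd
        refine hg ((QuotientGroup.eq_one_iff g).mp (orderOf_eq_one_iff.mp ?_))
        exact Nat.eq_one_of_dvd_coprimes ((hq.coprime_iff_not_dvd.mpr hnd).symm)
          (orderOf_map_dvd (QuotientGroup.mk' P) g) (hidx ▸ orderOf_dvd_natCard _)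
      by_contra hne
      have hpd : p ∣ orderOf g := by
        by_contra hnd
        refine hne (Nat.dvd_antisymm ?_ hqd)
        exact ((hp.coprime_iff_not_dvd.mpr hnd).symm.pow_right n).dvd_of_dvd_mul_left hd
      obtain ⟨u, hug, hu⟩ := Element.exists_orderOf_eq_of_dvd (orderOf_pos g).ne' hqd
      obtain ⟨v, hvg, hv⟩ := Element.exists_orderOf_eq_of_dvd (orderOf_pos g).ne' hpd
      refine hfpf u v hu hv ?_
      obtain ⟨i, rfl⟩ := hug
      obtain ⟨j, rfl⟩ := hvg
      show g ^ i * g ^ j * (g ^ i)⁻¹ = g ^ j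
      rw [← zpow_add, add_comm, zpow_add, mul_inv_cancel_right]
    obtain ⟨x, hx⟩ := exists_prime_orderOf_dvd_card' q (hcard ▸ dvd_mul_left q _ : q ∣ Nat.card G)
    have hxP : x ∉ P := fun h => by
      rcases hordP x h with h' | h'
      · rw [h', orderOf_one] at hx; exact hq.ne_one hx.symm
      · exact hpq (h'.symm.trans hx)
    obtain ⟨z, hz, hz1⟩ : ∃ z ∈ P, z ≠ 1 := (Subgroup.bot_or_exists_ne_one P).resolve_left fun h => by
      rw [h, Subgroup.card_bot] at hPcard
      exact (Nat.one_lt_pow (by omega) hp.one_lt).ne hPcard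
    -- automorphisms
    haveI : IsMulCommutative P := hSel.1
    have hzmod : ∀ v : Additive P, p • v = 0 := fun v => by
      apply Additive.toMul.injective
      exact Subtype.ext (hSel.2 _ v.toMul.2)
    haveI : Module (ZMod p) (Additive P) := AddCommGroup.zmodModule hzmod
    let T : Module.End (ZMod p) (Additive P) :=
      AddMonoidHom.toZModLinearMap p ((MulAut.conjNormal x : MulAut P).toMonoidHom.toAdditive)
    have hT : ∀ u : Additive P, ((T u).toMul : G) = x * (u.toMul : G) * x⁻¹ :=
      fun u => MulAut.conjNormal_apply _ _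
    have hTpow : ∀ (i : ℕ) (u : Additive P), (((T ^ i) u).toMul : G) = x ^ i * (u.toMul : G) * (x ^ i)⁻¹ := by
      intro i
      induction i with
      | zero => intro u; simp
      | succ i ih =>
        intro u
        rw [pow_succ', Module.End.mul_apply, hT, ih, pow_succ']
        group
    have hfixT : ∀ u, T u = u → u = 0 := by
      intro u hu
      by_contra hne
      refine hfpf x u.toMul hx ((hordP _ u.toMul.2).resolve_left fun h => hne ?_) ?_
      · exact Additive.toMul.injective (Subtype.ext h)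
      · rw [← hT, hu]
    have hTq : T ^ q = 1 := LinearMap.ext fun u => Additive.toMul.injective (Subtype.ext (by
      rw [hTpow, ← hx, pow_orderOf_eq_one]; simp))
    set H := Subgroup.zpowers x
    have hPH : P.IsComplement' H := Subgroup.isComplement'_of_coprime
      (by rw [hPcard, Nat.card_zpowers, hx, hcard])
      (by rw [hPcard, Nat.card_zpowers, hx]; exact ((Nat.coprime_primes hp hq).mpr hpq).pow_left n)
    -- for each exponent and pair of nonzero vectors there is an automorphism
    have hext : ∀ (i : ℕ), ¬ q ∣ i → ∀ v w : P, v ≠ 1 → w ≠ 1 →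
        ∃ α : MulAut G, α x = x ^ i ∧ α v = w := by
      intro i hi v w hv hw
      obtain ⟨A, hA, hAv⟩ := FGS75.exists_semiconj_of_primitive hpq hprim T hTq hfixT hi
        (v := Additive.ofMul v) (w := Additive.ofMul w) (fun h => hv h) (fun h => hw h)
      let fn : P →* G := P.subtype.comp
        (MonoidHom.mk' (fun u : P => (A (Additive.ofMul u)).toMul) (fun u u' => by
          rw [ofMul_mul, map_add, toMul_add]))
      let fg : H →* G := H.subtype.comp (powMonoidHom i)
      let φ := (Subgroup.normalizerMonoidHom P).comp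
        (Subgroup.inclusion (P.normalizer_eq_top ▸ le_top : H ≤ Subgroup.normalizer (P : Set G)))
      have hcompat : ∀ h : H, fn.comp (φ h).toMonoidHom =
          (MulAut.conj (fg h)).toMonoidHom.comp fn := by
        rintro ⟨_, hh⟩
        obtain ⟨k, rfl⟩ := mem_powers_iff_mem_zpowers.mpr hh
        ext u
        show ((A (Additive.ofMul (φ ⟨_, hh⟩ u))).toMul : G) =
          (x ^ k) ^ i * ((A (Additive.ofMul u)).toMul : G) * ((x ^ k) ^ i)⁻¹
        have h1 : Additive.ofMul (φ ⟨_, hh⟩ u) = (T ^ k) (Additive.ofMul u) :=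
          Additive.toMul.injective (Subtype.ext (by rw [hTpow]; rfl))
        have h2 : ∀ (k : ℕ) (u : Additive P), A ((T ^ k) u) = (T ^ (i * k)) (A u) := by
          intro k
          induction k with
          | zero => intro u; simp
          | succ k ih =>
            intro u
            rw [pow_succ, Module.End.mul_apply, ih, hA, ← Module.End.mul_apply, ← pow_add]
            rfl
        rw [h1, h2, hTpow, ← pow_mul, mul_comm i k]
      let e := SemidirectProduct.mulEquivSubgroup hPH
      let F : G →* G := (SemidirectProduct.lift (φ := φ) fn fg hcompat).comp e.symm.toMonoidHom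
      have hFn : ∀ u : P, F u = fn u := fun u => by
        have : e.symm (u : G) = SemidirectProduct.inl u := by
          rw [MulEquiv.symm_apply_eq]
          show (u : G) = u * ((1 : H) : G)
          simp
        show SemidirectProduct.lift fn fg hcompat (e.symm (u : G)) = fn u
        rw [this, SemidirectProduct.lift_inl]
      have hFg : ∀ h : H, F h = fg h := fun h => by
        have : e.symm (h : G) = SemidirectProduct.inr h := by
          rw [MulEquiv.symm_apply_eq]
          show (h : G) = ((1 : P) : G) * h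
          simp
        show SemidirectProduct.lift fn fg hcompat (e.symm (h : G)) = fg h
        rw [this, SemidirectProduct.lift_inr]
      have hsurj : Function.Surjective F := by
        obtain ⟨k, hk⟩ := FGS75.exists_inv_mod (q := q) hi
        have hxr : x ∈ F.range := ⟨x ^ k, by
          rw [map_pow, show F x = fg ⟨x, Subgroup.mem_zpowers x⟩ from hFg ⟨x, _⟩]
          show (x ^ i) ^ k = x
          rw [← pow_mul, FGS75.pow_eq_pow_of_modEq (hx ▸ pow_orderOf_eq_one x) hk, pow_one]⟩
        have hPr : P ≤ F.range := by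
          intro u hu
          obtain ⟨u', hu'⟩ := A.surjective (Additive.ofMul ⟨u, hu⟩)
          refine ⟨(u'.toMul : P), ?_⟩
          rw [hFn]
          show ((A u').toMul : G) = u
          rw [hu']; rfl
        rw [← MonoidHom.range_eq_top, eq_top_iff, ← hPH.sup_eq_top]
        exact sup_le hPr (Subgroup.zpowers_le.mpr hxr)
      refine ⟨MulEquiv.ofBijective F ⟨Finite.injective_iff_surjective.mpr hsurj, hsurj⟩, ?_, ?_⟩
      · show F x = x ^ i
        rw [show F x = fg ⟨x, Subgroup.mem_zpowers x⟩ from hFg ⟨x, _⟩]; rfl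
      · show F v = w
        rw [hFn]
        show ((A (Additive.ofMul v)).toMul : G) = w
        rw [hAv]; rfl
    -- transitivity
    have hA : ∀ a ∈ P, a ≠ 1 → ∃ α : MulAut G, α z = a := by
      intro a ha ha1
      obtain ⟨α, -, hα⟩ := hext 1 hq.not_dvd_one ⟨z, hz⟩ ⟨a, ha⟩
        (fun h => hz1 (congrArg Subtype.val h)) (fun h => ha1 (congrArg Subtype.val h))
      exact ⟨α, hα⟩
    have hB : ∀ b : G, b ∉ P → ∃ α : MulAut G, α x = b := by
      intro b hb
      have hxq : (x : G ⧸ P) ≠ 1 := fun h => hxP ((QuotientGroup.eq_one_iff x).mp h)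
      obtain ⟨i, hi'⟩ := mem_powers_iff_mem_zpowers.mpr
        (mem_zpowers_of_prime_card (p := q) hidx hxq (g' := (b : G ⧸ P)))
      have hi'' : (x : G ⧸ P) ^ i = (b : G ⧸ P) := hi'
      have hi : ¬ q ∣ i := by
        rintro ⟨c, rfl⟩
        rw [pow_mul, show (x : G ⧸ P) ^ q = 1 by rw [← QuotientGroup.mk_pow, ← hx, pow_orderOf_eq_one]; rfl,
          one_pow] at hi''
        exact hb ((QuotientGroup.eq_one_iff b).mp hi''.symm)
      -- `b` is conjugate to `x ^ i` by an element of `P`
      let g : P → P := fun u => ⟨u * x ^ i * (u : G)⁻¹ * (x ^ i)⁻¹, by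
        rw [mul_assoc, mul_assoc, ← mul_assoc (x ^ i)]
        exact mul_mem u.2 (hSn.conj_mem _ (inv_mem u.2) _)⟩
      have hg : Function.Injective g := by
        intro u u' h
        have h' : (u : G) * x ^ i * (u : G)⁻¹ = u' * x ^ i * (u' : G)⁻¹ :=
          mul_right_cancel (congrArg Subtype.val h)
        by_contra hne
        refine hfpf (x ^ i) ((u' : G)⁻¹ * u) ?_ ((hordP _ (mul_mem (inv_mem u'.2) u.2)).resolve_left
          fun e => hne (Subtype.ext (inv_mul_eq_one.mp e).symm)) ?_
        · rw [orderOf_pow, hx, Nat.Coprime.gcd_eq_one (hq.coprime_iff_not_dvd.mpr hi), Nat.div_one]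
        · have : ((u' : G)⁻¹ * u) * x ^ i = x ^ i * ((u' : G)⁻¹ * u) := by
            calc ((u' : G)⁻¹ * u) * x ^ i = (u' : G)⁻¹ * (u * x ^ i * (u : G)⁻¹) * u := by group
              _ = x ^ i * ((u' : G)⁻¹ * u) := by rw [h']; group
          rw [← this, mul_inv_cancel_right]
      have hbP : b * (x ^ i)⁻¹ ∈ P := by
        rw [← QuotientGroup.eq_one_iff, QuotientGroup.mk_mul, QuotientGroup.mk_inv,
          QuotientGroup.mk_pow, hi'', mul_inv_cancel]
      obtain ⟨u, hu⟩ := (Finite.injective_iff_surjective.mp hg) ⟨_, hbP⟩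
      have hu' : (u : G) * x ^ i * (u : G)⁻¹ = b := mul_right_cancel (congrArg Subtype.val hu)
      obtain ⟨α, hα, -⟩ := hext i hi ⟨z, hz⟩ ⟨z, hz⟩ (fun h => hz1 (congrArg Subtype.val h))
        (fun h => hz1 (congrArg Subtype.val h))
      exact ⟨MulAut.conj (u : G) * α, by rw [MulAut.mul_apply, hα, MulAut.conj_apply, hu']⟩
    let f : Fin 3 → MulAction.orbitRel.Quotient (MulAut G) G :=
      fun j => Quotient.mk _ (![1, z, x] j)
    have hfb : Function.Bijective f := by
      have hordj : ∀ j, orderOf (![1, z, x] j) = ![1, p, q] j := by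
        intro j; fin_cases j
        · simp
        · exact (hordP z hz).resolve_left hz1
        · exact hx
      refine ⟨fun j k h => ?_, fun o => ?_⟩
      · obtain ⟨α, hα⟩ := hmk.mp h
        have h1 := congrArg orderOf hα
        rw [MulEquiv.orderOf_eq, hordj, hordj] at h1
        fin_cases j <;> fin_cases k <;> first | rfl | (simp at h1; exfalso; first
          | exact hp.ne_one h1 | exact hp.ne_one h1.symm | exact hq.ne_one h1
          | exact hq.ne_one h1.symm | exact hpq h1 | exact hpq h1.symm)
      · obtain ⟨g, rfl⟩ := Quotient.mk_surjective o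
        by_cases hg1 : g = 1
        · exact ⟨0, by rw [hg1]; rfl⟩
        by_cases hgP : g ∈ P
        · exact ⟨1, (hmk.mpr (hA g hgP hg1)).symm⟩
        · exact ⟨2, (hmk.mpr (hB g hgP)).symm⟩
    rw [← Nat.card_eq_of_bijective f hfb, Nat.card_fin]

end Cfsg.Agent.S4081
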