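-- statement Cfsg.CfsgFrozen.S4082 (Cfsg/Statements/S4082.lean; the theorem Cfsg.fg5_groups_whose_p_by_cyclic_subgroups_are_cyclic_or_dihedral_odd);
import Cfsg.Statements.S4082
import Cfsg.Agent.PByCyclic.Basic
import Cfsg.Agent.Lib.Element
import Cfsg.Agent.Lib.FrobeniusComplement
import Cfsg.Agent.TwoGroups.Recognition
import Cfsg.Agent.Transfer.Frobenius

set_option autoImplicit false
open Cfsg

namespace Cfsg.Agent.S4082

open Subgroup Cfsg.Agent

/-- A `p'`-element of a dihedral group of order `2 p^n` inverts the `p`-elements, or is trivial. -/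
theorem dihedral_facts {p n : ℕ} (hp : p.Prime) (hp2 : p ≠ 2) (y s : DihedralGroup (p ^ n))
    (hy : Nat.Coprime (orderOf y) p) (hs : ∃ k, orderOf s = p ^ k) :
    y = 1 ∨ (y * y = 1 ∧ y * s * y⁻¹ = s⁻¹) := by
  haveI : NeZero (p ^ n) := ⟨pow_ne_zero _ hp.ne_zero⟩
  rcases y with i | i
  · left
    have h1 : orderOf (DihedralGroup.r i) ∣ p ^ n := by
      refine orderOf_dvd_of_pow_eq_one ?_
      rw [DihedralGroup.r_pow, ZMod.natCast_self, mul_zero, DihedralGroup.r_zero]
    have : DihedralGroup.r i = 1 := orderOf_eq_one_iff.1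
      (Nat.eq_one_of_dvd_coprimes (hy.pow_right n) dvd_rfl h1)
    exact this
  · rcases s with j | j
    · right
      refine ⟨DihedralGroup.sr_mul_self i, ?_⟩
      rw [DihedralGroup.inv_sr, DihedralGroup.sr_mul_r, DihedralGroup.sr_mul_sr, DihedralGroup.inv_r,
        sub_add_cancel_left]
    · exfalso
      obtain ⟨k, hk⟩ := hs
      rw [DihedralGroup.orderOf_sr] at hk
      have h1 : p ∣ 2 := by
        refine hk ▸ dvd_pow_self p ?_
        rintro rfl
        simp at hk
      exact hp2 ((Nat.prime_dvd_prime_iff_eq hp Nat.prime_two).1 h1)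

variable {G : Type*} [Group G] [Finite G] {p : ℕ} [Fact p.Prime]

/-- Consequence of the hypothesis for a `p'`-element normalizing a `p`-subgroup. -/
theorem act (hp : p ≠ 2)
    (hyp : ∀ H : Subgroup G, (∀ S : Sylow p ↥H, (S : Subgroup ↥H).Normal) →
      (∀ (S : Sylow p ↥H) [(S : Subgroup ↥H).Normal], IsCyclic (↥H ⧸ (S : Subgroup ↥H))) →
      IsCyclic H ∨ (∃ n : ℕ, Nonempty (H ≃* DihedralGroup (p ^ n))))
    (S : Subgroup G) (hS : IsPGroup p S) (y : G) (hy : y ∈ normalizer (S : Set G))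
    (hyo : Nat.Coprime (orderOf y) p) :
    y ∈ centralizer (S : Set G) ∨ (y * y = 1 ∧ ∀ s ∈ S, y * s * y⁻¹ = s⁻¹) := by
  rcases PByCyclic.apply_hyp hyp S hS y hy hyo with h | ⟨n, ⟨e⟩⟩
  · left
    haveI := h
    letI := IsCyclic.commGroup (α := ↥(S ⊔ zpowers y))
    refine mem_centralizer_iff.2 fun s hs => ?_
    exact congrArg Subtype.val (mul_comm (⟨s, mem_sup_left hs⟩ : ↥(S ⊔ zpowers y))
      ⟨y, mem_sup_right (mem_zpowers y)⟩)
  · by_cases hc : y ∈ centralizer (S : Set G)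
    · exact Or.inl hc
    right
    let yy : ↥(S ⊔ zpowers y) := ⟨y, mem_sup_right (mem_zpowers y)⟩
    have hyo' : Nat.Coprime (orderOf (e yy)) p := by
      rw [MulEquiv.orderOf_eq, Subgroup.orderOf_mk]; exact hyo
    have key : ∀ s ∈ S, y * y = 1 ∧ y * s * y⁻¹ = s⁻¹ := by
      intro s hs
      let ss : ↥(S ⊔ zpowers y) := ⟨s, mem_sup_left hs⟩
      have hso : ∃ k, orderOf (e ss) = p ^ k := by
        obtain ⟨k, hk⟩ := IsPGroup.iff_orderOf.1 hS ⟨s, hs⟩
        exact ⟨k, by rw [MulEquiv.orderOf_eq, Subgroup.orderOf_mk]; rwa [Subgroup.orderOf_mk] at hk⟩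
      rcases dihedral_facts Fact.out hp (e yy) (e ss) hyo' hso with h | ⟨h1, h2⟩
      · exfalso
        rw [MulEquiv.map_eq_one_iff] at h
        have hy1 : y = 1 := congrArg Subtype.val h
        exact hc (hy1 ▸ one_mem _)
      · rw [← map_mul, MulEquiv.map_eq_one_iff] at h1
        rw [← map_mul, ← map_inv, ← map_mul, ← map_inv] at h2
        exact ⟨congrArg Subtype.val h1, congrArg Subtype.val (e.injective h2)⟩
    exact ⟨(key 1 (one_mem S)).1, fun s hs => (key s hs).2⟩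


/-- In a cyclic group the subgroup generated by an element of order `p` is normalized by
every automorphism. -/
theorem zpowers_eq_of_orderOf_eq {C : Type*} [Group C] [IsCyclic C] [Finite C] {u v : C}
    (h : orderOf u = orderOf v) : zpowers u = zpowers v :=
  FrobeniusCompl.eq_of_card_eq (by rw [Nat.card_zpowers, Nat.card_zpowers, h])

omit [Fact p.Prime] in
theorem isCyclic_of_le {S T : Subgroup G} (hT : IsCyclic T) (hST : S ≤ T) : IsCyclic S := by
  haveI := hT
  exact (subgroupOfEquivOfLe hST).isCyclic.1 inferInstance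

theorem isCyclic_pSubgroup (P : Sylow p G) (hP : IsCyclic P) (S : Subgroup G) (hS : IsPGroup p S) :
    IsCyclic S := by
  obtain ⟨T, hT⟩ := hS.exists_le_sylow
  exact isCyclic_of_le ((Sylow.equiv P T).isCyclic.1 hP) hT

omit [Fact p.Prime] in
theorem mem_centralizer_map_conj {Q : Subgroup G} {c g : G} (hc : c ∈ centralizer (Q : Set G)) :
    g * c * g⁻¹ ∈ centralizer ((Q.map (MulAut.conj g).toMonoidHom : Subgroup G) : Set G) := by
  rw [mem_centralizer_iff]
  rintro _ ⟨q, hq, rfl⟩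
  show g * q * g⁻¹ * (g * c * g⁻¹) = g * c * g⁻¹ * (g * q * g⁻¹)
  calc g * q * g⁻¹ * (g * c * g⁻¹) = g * (q * c) * g⁻¹ := by group
    _ = g * (c * q) * g⁻¹ := by rw [mem_centralizer_iff.1 hc q hq]
    _ = _ := by group

/-- The forward direction. -/
theorem forward (hp : p ≠ 2) (P : Sylow p G)
    (hyp : ∀ H : Subgroup G, (∀ S : Sylow p ↥H, (S : Subgroup ↥H).Normal) →
      (∀ (S : Sylow p ↥H) [(S : Subgroup ↥H).Normal], IsCyclic (↥H ⧸ (S : Subgroup ↥H))) →
      IsCyclic H ∨ (∃ n : ℕ, Nonempty (H ≃* DihedralGroup (p ^ n)))) :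
    (IsCyclic P ∧
      (Subgroup.normalizer ((P : Subgroup G) : Set G) = Subgroup.centralizer ((P : Subgroup G) : Set G) ∨
       ((Subgroup.centralizer ((P : Subgroup G) : Set G)).relIndex (Subgroup.normalizer ((P : Subgroup G) : Set G)) = 2 ∧
        ∀ Q : Subgroup G, Q ≤ P → Nat.card Q = p →
          IsMulCommutative ↥(Subgroup.centralizer (Q : Set G)) ∧
          ∀ x : G, x ∈ Subgroup.normalizer (Q : Set G) → x ∉ Subgroup.centralizer (Q : Set G) →
            orderOf x = 2 ∧ ∀ c : G, c ∈ Subgroup.centralizer (Q : Set G) → x * c * x⁻¹ = c⁻¹))) := by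
  have hpp : p.Prime := Fact.out
  have hcyc : IsCyclic P := by
    have h := PByCyclic.apply_hyp hyp (P : Subgroup G) P.2 1 (one_mem _) (by simp)
    rw [zpowers_one_eq_bot, sup_bot_eq] at h
    rcases h with h | ⟨n, ⟨e⟩⟩
    · exact h
    · exfalso
      obtain ⟨k, hk⟩ := IsPGroup.iff_card.1 P.2
      have h2 := Nat.card_congr e.toEquiv
      rw [hk, DihedralGroup.nat_card] at h2
      have : 2 ∣ p ^ k := h2 ▸ dvd_mul_right _ _
      exact hp ((Nat.prime_dvd_prime_iff_eq Nat.prime_two hpp).1 (Nat.prime_two.dvd_of_dvd_pow this)).symm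
  refine ⟨hcyc, ?_⟩
  set NP := normalizer ((P : Subgroup G) : Set G)
  set CP := centralizer ((P : Subgroup G) : Set G)
  haveI hPc : IsCyclic (P : Subgroup G) := hcyc
  have hPCP : (P : Subgroup G) ≤ CP := fun a ha => mem_centralizer_iff.2 fun b hb => by
    letI := IsCyclic.commGroup (α := (P : Subgroup G))
    exact congrArg Subtype.val (mul_comm (⟨b, hb⟩ : (P : Subgroup G)) ⟨a, ha⟩)
  -- the decomposition of elements normalizing a `p`-subgroup
  have hsplit : ∀ g : G, ∃ u v : G, g = u * v ∧ (∃ k, orderOf u = p ^ k) ∧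
      Nat.Coprime (orderOf v) p ∧ u ∈ zpowers g ∧ v ∈ zpowers g := by
    intro g
    obtain ⟨h1, h2⟩ := Element.orderOf_pPart hpp g (orderOf_pos g).ne'
    exact ⟨_, _, (Element.pPart_mul_pComplPart p g).symm, ⟨_, h1⟩,
      by rw [h2]; exact (Nat.coprime_ordCompl hpp (orderOf_pos g).ne').symm,
      Element.pPart_mem_zpowers p g, Element.pComplPart_mem_zpowers p g⟩
  -- `p`-elements normalizing a `p`-subgroup centralize it
  have hpel : ∀ (S : Subgroup G), IsPGroup p S → ∀ u ∈ normalizer (S : Set G),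
      (∃ k, orderOf u = p ^ k) → u ∈ centralizer (S : Set G) := by
    rintro S hS u hu ⟨k, hk⟩
    have hu' : IsPGroup p (zpowers u) := IsPGroup.of_card (n := k) (by rw [Nat.card_zpowers, hk])
    haveI := isCyclic_pSubgroup P hcyc _ (hu'.to_sup_of_normal_right' hS (zpowers_le.2 hu))
    letI := IsCyclic.commGroup (α := ↥(zpowers u ⊔ S))
    exact mem_centralizer_iff.2 fun s hs => congrArg Subtype.val
      (mul_comm (⟨s, mem_sup_right hs⟩ : ↥(zpowers u ⊔ S)) ⟨u, mem_sup_left (mem_zpowers u)⟩)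
  by_cases hNC : NP ≤ CP
  · exact Or.inl (le_antisymm hNC (centralizer_le_normalizer _))
  right
  obtain ⟨g0, hg0, hg0'⟩ := SetLike.not_le_iff_exists.1 hNC
  obtain ⟨y, hyN, hyC, hyo⟩ : ∃ y, y ∈ NP ∧ y ∉ CP ∧ Nat.Coprime (orderOf y) p := by
    obtain ⟨u, v, rfl, hu, hv, hum, hvm⟩ := hsplit g0
    refine ⟨v, zpowers_le.2 hg0 hvm, fun h => hg0' (mul_mem ?_ h), hv⟩
    exact hpel _ P.2 u (zpowers_le.2 hg0 hum) hu
  obtain ⟨hy2, hyinv⟩ := (act hp hyp (P : Subgroup G) P.2 y hyN hyo).resolve_left hyC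
  refine ⟨?_, ?_⟩
  · rw [relIndex, index_eq_two_iff]
    refine ⟨⟨y, hyN⟩, fun b => ?_⟩
    rw [xor_iff_iff_not, mem_subgroupOf, mem_subgroupOf, Subgroup.coe_mul]
    refine ⟨fun h h' => hyC ((Subgroup.mul_mem_cancel_left _ h').1 h), fun h => ?_⟩
    obtain ⟨u, v, he, hu, hv, hum, hvm⟩ := hsplit (b : G)
    have huC : u ∈ CP := hpel _ P.2 u (zpowers_le.2 b.2 hum) hu
    have hvC : v ∉ CP := fun h' => h (by rw [he]; exact mul_mem huC h')
    obtain ⟨-, hvinv⟩ := (act hp hyp (P : Subgroup G) P.2 v (zpowers_le.2 b.2 hvm) hv).resolve_left hvC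
    show (b : G) * y ∈ CP
    rw [he, mul_assoc]
    refine mul_mem huC (mem_centralizer_iff.2 fun a ha => ?_)
    have e1 : y * a * y⁻¹ = a⁻¹ := hyinv a ha
    have e2 : v * a⁻¹ * v⁻¹ = a := by rw [hvinv _ (inv_mem ha), inv_inv]
    calc a * (v * y) = (v * a⁻¹ * v⁻¹) * (v * y) := by rw [e2]
      _ = v * (y * a * y⁻¹) * y := by rw [e1]; group
      _ = v * y * a := by group
  intro Q hQP hQ
  set C := centralizer (Q : Set G) with hC
  have hQp : IsPGroup p Q := IsPGroup.of_card (n := 1) (by rw [hQ, pow_one])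
  obtain ⟨⟨q0, hq0⟩, hq0o⟩ := exists_prime_orderOf_dvd_card' (G := Q) p (hQ.symm ▸ dvd_rfl)
  rw [Subgroup.orderOf_mk] at hq0o
  have hq0ne : q0⁻¹ ≠ q0 := fun h => by
    have h2 : orderOf q0 ∣ 2 := orderOf_dvd_of_pow_eq_one (by
      rw [pow_two]; nth_rewrite 1 [← h]; exact inv_mul_cancel q0)
    rw [hq0o] at h2
    exact hp ((Nat.prime_dvd_prime_iff_eq hpp Nat.prime_two).1 h2)
  have hinvnot : ∀ v : G, (∀ a ∈ Q, v * a * v⁻¹ = a⁻¹) → v ∉ C := fun v hv h => by
    refine hq0ne ?_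
    rw [← hv q0 hq0, ← mem_centralizer_iff.1 h q0 hq0, mul_inv_cancel_right]
  have hyQN : y ∈ normalizer (Q : Set G) := by
    rw [mem_normalizer_iff]
    intro a
    constructor
    · intro ha
      rw [hyinv a (hQP ha)]
      exact inv_mem ha
    · intro ha
      have hyinv' : y⁻¹ = y := inv_eq_of_mul_eq_one_left hy2
      have h1 := hyinv _ (hQP ha)
      have : a = y * (y * a * y⁻¹) * y⁻¹ := by
        rw [hyinv']
        calc a = (y * y) * a * (y * y) := by rw [hy2]; group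
          _ = y * (y * a * y) * y := by group
      rw [this, h1]
      exact inv_mem ha
  have hyQ : ∀ a ∈ Q, y * a * y⁻¹ = a⁻¹ := fun a ha => hyinv a (hQP ha)
  -- the normal `p`-complement of the centralizer
  have hPC : (P : Subgroup G) ≤ C := fun a ha => mem_centralizer_iff.2 fun b hb =>
    mem_centralizer_iff.1 (hPCP ha) b (hQP hb)
  let PC : Sylow p C := P.subtype hPC
  have hnpc : Cfsg.HasNormalPComplement p C := by
    refine Transfer.hasNormalPComplement_of_normalizer_le_centralizer PC ?_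
    intro g hg
    have hgN : (g : G) ∈ NP := by
      rw [Sylow.coe_subtype] at hg
      have hmem := le_normalizer_map (H := (P : Subgroup G).subgroupOf C) C.subtype ⟨g, hg, rfl⟩
      rwa [subgroupOf_map_subtype, inf_eq_left.2 hPC] at hmem
    have hgCP : (g : G) ∈ CP := by
      obtain ⟨u, v, he, hu, hv, hum, hvm⟩ := hsplit (g : G)
      rw [he]
      refine mul_mem (hpel _ P.2 u (zpowers_le.2 hgN hum) hu) ?_
      by_contra hvC
      obtain ⟨-, hvinv⟩ := (act hp hyp (P : Subgroup G) P.2 v (zpowers_le.2 hgN hvm) hv).resolve_left hvC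
      exact hinvnot v (fun a ha => hvinv a (hQP ha)) (zpowers_le.2 g.2 hvm)
    rw [Sylow.coe_subtype, mem_centralizer_iff]
    intro a ha
    exact Subtype.ext (mem_centralizer_iff.1 hgCP (a : G) (mem_subgroupOf.1 ha))
  obtain ⟨R, K, hKn, hKc⟩ := hnpc
  haveI := hKn
  have hKmem := Transfer.mem_normal_p_complement_iff R K hKc
  have hodd2 : Nat.Coprime 2 p := (Nat.coprime_primes Nat.prime_two hpp).2 hp.symm
  have hyC' : ∀ k : G, k ∈ C → y * k * y⁻¹ ∈ C := by
    intro k hk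
    rw [mem_centralizer_iff]
    intro a ha
    have h1 := mem_centralizer_iff.1 hk a⁻¹ (inv_mem ha)
    calc a * (y * k * y⁻¹) = (y * a⁻¹ * y⁻¹) * (y * k * y⁻¹) := by rw [hyQ _ (inv_mem ha), inv_inv]
      _ = y * (a⁻¹ * k) * y⁻¹ := by group
      _ = y * (k * a⁻¹) * y⁻¹ := by rw [h1]
      _ = (y * k * y⁻¹) * (y * a⁻¹ * y⁻¹) := by group
      _ = (y * k * y⁻¹) * a := by rw [hyQ _ (inv_mem ha), inv_inv]
  -- `y` inverts the `p'`-elements of the centralizer
  have hinvK : ∀ k : C, k ∈ K → y * (k : G) * y⁻¹ = (k : G)⁻¹ := by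
    intro k hk
    have hk' : (⟨_, hyC' _ k.2⟩ : C) ∈ K := by
      rw [hKmem, Subgroup.orderOf_mk, ← MulAut.conj_apply, MulEquiv.orderOf_eq, orderOf_coe]
      exact (hKmem k).1 hk
    have hsq : (y * (k : G)) ^ 2 = ((⟨_, hyC' _ k.2⟩ * k : C) : G) := by
      rw [pow_two, Subgroup.coe_mul]
      show y * (k : G) * (y * k) = y * (k : G) * y⁻¹ * k
      rw [inv_eq_of_mul_eq_one_left hy2, mul_assoc (y * (k : G)) y]
    have hcop : Nat.Coprime (orderOf (y * (k : G))) p := by
      refine Nat.Coprime.coprime_dvd_left ?_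
        (Nat.Coprime.mul_left hodd2 ((hKmem _).1 (mul_mem hk' hk)))
      refine orderOf_dvd_of_pow_eq_one ?_
      rw [pow_mul, hsq, ← Subgroup.coe_pow, pow_orderOf_eq_one, coe_one]
    have hnC : y * (k : G) ∉ C := fun h => hinvnot y hyQ ((Subgroup.mul_mem_cancel_right _ k.2).1 h)
    have hN : y * (k : G) ∈ normalizer (Q : Set G) :=
      mul_mem hyQN (centralizer_le_normalizer _ k.2)
    obtain ⟨h1, -⟩ := (act hp hyp Q hQp _ hN hcop).resolve_left hnC
    rw [inv_eq_of_mul_eq_one_left hy2]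
    refine eq_inv_of_mul_eq_one_left ?_
    calc y * (k : G) * y * k = y * (k : G) * (y * k) := by group
      _ = 1 := h1
  have hKcomm : ∀ k ∈ K, ∀ l ∈ K, Commute (k : C) l := by
    intro k hk l hl
    refine Subtype.ext ?_
    have e := hinvK _ (mul_mem hk hl)
    have e' : y * ((k : G) * l) * y⁻¹ = (y * (k : G) * y⁻¹) * (y * (l : G) * y⁻¹) := by group
    rw [Subgroup.coe_mul, e', hinvK k hk, hinvK l hl, mul_inv_rev] at e
    show (k : G) * l = l * k
    calc (k : G) * l = ((l : G)⁻¹ * (k : G)⁻¹)⁻¹ := by group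
      _ = ((k : G)⁻¹ * (l : G)⁻¹)⁻¹ := by rw [e]
      _ = l * k := by group
  have hKP : ∀ k ∈ K, ∀ s : C, (s : G) ∈ (P : Subgroup G) → Commute s k := by
    intro k hk s hs
    have e1 := hinvK _ (hKn.conj_mem k hk s)
    have e2 : y * ((s : G) * k * (s : G)⁻¹) * y⁻¹ =
        (y * (s : G) * y⁻¹) * (y * (k : G) * y⁻¹) * (y * (s : G) * y⁻¹)⁻¹ := by group
    simp only [Subgroup.coe_mul, InvMemClass.coe_inv] at e1
    rw [e2, hyinv _ hs, hinvK k hk] at e1
    have h4 : Commute ((s : G) ^ 2) (k : G) := by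
      have e3 : (s : G)⁻¹ * k * s = (s : G) * k * (s : G)⁻¹ := by
        calc (s : G)⁻¹ * k * s = ((s : G)⁻¹ * (k : G)⁻¹ * ((s : G)⁻¹)⁻¹)⁻¹ := by group
          _ = _ := by rw [e1, inv_inv]
      show (s : G) ^ 2 * k = k * (s : G) ^ 2
      rw [pow_two]
      calc (s : G) * s * k = (s : G) * ((s : G) * k * (s : G)⁻¹) * s := by group
        _ = (s : G) * ((s : G)⁻¹ * k * s) * s := by rw [e3]
        _ = k * ((s : G) * s) := by group
    obtain ⟨j, hj⟩ := IsPGroup.iff_orderOf.1 P.2 ⟨_, hs⟩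
    rw [Subgroup.orderOf_mk] at hj
    obtain ⟨m, hm⟩ := exists_pow_eq_self_of_coprime (x := (s : G)) (n := 2) (hj ▸ hodd2.pow_right j)
    exact Subtype.ext (hm ▸ h4.pow_left m).eq
  have hdec : ∀ c : C, ∃ k ∈ K, ∃ s : C, (s : G) ∈ (P : Subgroup G) ∧ c = k * s := by
    intro c
    obtain ⟨w, hw, s, hs, he⟩ := Transfer.exists_mul_eq_of_not_dvd_index PC.not_dvd_index c
    rw [Transfer.normal_p_complement_eq_pResidual R K hKc]
    exact ⟨w, hw, s, mem_subgroupOf.1 hs, he.symm⟩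
  have hCab : IsMulCommutative C := by
    refine isMulCommutative_iff.2 fun a b => ?_
    obtain ⟨k, hk, s, hs, rfl⟩ := hdec a
    obtain ⟨l, hl, t, ht, rfl⟩ := hdec b
    have hst : Commute s t := Subtype.ext (mem_centralizer_iff.1 (hPCP ht) s hs)
    exact (((hKcomm k hk l hl).mul_right (hKP k hk t ht).symm).mul_left
      ((hKP l hl s hs).mul_right hst)).eq
  refine ⟨hCab, fun x hxN hxC => ?_⟩
  have hinvC : ∀ c ∈ C, y * c * y⁻¹ = c⁻¹ := by
    intro c hc
    obtain ⟨k, hk, s, hs, he⟩ := hdec ⟨c, hc⟩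
    have he' : c = (k : G) * s := congrArg Subtype.val he
    have hks : (s : G) * k = k * s := congrArg Subtype.val (hKP k hk s hs).eq
    rw [he']
    calc y * ((k : G) * s) * y⁻¹ = (y * (k : G) * y⁻¹) * (y * (s : G) * y⁻¹) := by group
      _ = (k : G)⁻¹ * (s : G)⁻¹ := by rw [hinvK k hk, hyinv _ hs]
      _ = ((s : G) * k)⁻¹ := by group
      _ = _ := by rw [hks]
  obtain ⟨u, v, he, hu, hv, hum, hvm⟩ := hsplit x
  have huC : u ∈ C := hpel Q hQp u (zpowers_le.2 hxN hum) hu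
  have hvC : v ∉ C := fun h => hxC (he ▸ mul_mem huC h)
  obtain ⟨-, hvinv⟩ := (act hp hyp Q hQp v (zpowers_le.2 hxN hvm) hv).resolve_left hvC
  set c := x * y⁻¹ with hcdef
  have hcC : c ∈ C := by
    rw [hcdef, he, mul_assoc]
    refine mul_mem huC (mem_centralizer_iff.2 fun a ha => ?_)
    rw [inv_eq_of_mul_eq_one_left hy2]
    calc a * (v * y) = (v * a⁻¹ * v⁻¹) * (v * y) := by rw [hvinv _ (inv_mem ha), inv_inv]
      _ = v * (y * a * y⁻¹) * y := by rw [hyQ a ha]; group
      _ = v * y * a := by group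
  have hx : x = c * y := by rw [hcdef, inv_mul_cancel_right]
  have hcc : ∀ d ∈ C, Commute c d := fun d hd =>
    congrArg Subtype.val (isMulCommutative_iff.1 hCab ⟨c, hcC⟩ ⟨d, hd⟩)
  refine ⟨orderOf_eq_prime ?_ fun h => hxC (h ▸ one_mem C), fun d hd => ?_⟩
  · rw [hx, pow_two]
    calc c * y * (c * y) = c * (y * c * y⁻¹) * (y * y) := by group
      _ = 1 := by rw [hinvC c hcC, hy2]; group
  · rw [hx]
    calc c * y * d * (c * y)⁻¹ = c * (y * d * y⁻¹) * c⁻¹ := by group
      _ = c * d⁻¹ * c⁻¹ := by rw [hinvC d hd]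
      _ = d⁻¹ := by rw [(hcc _ (inv_mem hd)).eq, mul_inv_cancel_right]

/-- The backward direction. -/
theorem backward (hp : p ≠ 2) (P : Sylow p G) (hcyc : IsCyclic P)
    (hcase : Subgroup.normalizer ((P : Subgroup G) : Set G) = Subgroup.centralizer ((P : Subgroup G) : Set G) ∨
       ((Subgroup.centralizer ((P : Subgroup G) : Set G)).relIndex (Subgroup.normalizer ((P : Subgroup G) : Set G)) = 2 ∧
        ∀ Q : Subgroup G, Q ≤ P → Nat.card Q = p →
          IsMulCommutative ↥(Subgroup.centralizer (Q : Set G)) ∧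
          ∀ x : G, x ∈ Subgroup.normalizer (Q : Set G) → x ∉ Subgroup.centralizer (Q : Set G) →
            orderOf x = 2 ∧ ∀ c : G, c ∈ Subgroup.centralizer (Q : Set G) → x * c * x⁻¹ = c⁻¹))
    (H : Subgroup G) (hn : ∀ S : Sylow p ↥H, (S : Subgroup ↥H).Normal)
    (hq : ∀ (S : Sylow p ↥H) [(S : Subgroup ↥H).Normal], IsCyclic (↥H ⧸ (S : Subgroup ↥H))) :
    IsCyclic H ∨ (∃ n : ℕ, Nonempty (H ≃* DihedralGroup (p ^ n))) := by
  have hpp : p.Prime := Fact.out
  obtain ⟨S⟩ : Nonempty (Sylow p H) := inferInstance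
  haveI := hn S
  obtain ⟨y, hyo, hsup⟩ := PByCyclic.exists_complement_gen (S : Subgroup H) S.card_coprime_index (hq S)
  have hyp' : Nat.Coprime (orderOf y) p := by
    rw [hyo]; exact (hpp.coprime_iff_not_dvd.2 S.not_dvd_index).symm
  set Sm := (S : Subgroup H).map H.subtype with hSm
  have hSmp : IsPGroup p Sm := S.2.map _
  have hSc : IsCyclic (S : Subgroup H) :=
    ((S : Subgroup H).equivMapOfInjective _ H.subtype_injective).isCyclic.2
      (isCyclic_pSubgroup P hcyc Sm hSmp)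
  by_cases hc : y ∈ centralizer ((S : Subgroup H) : Set H)
  · exact Or.inl (PByCyclic.isCyclic_of_centralize _ hSc S.card_coprime_index hyo hc)
  have hyN : (y : G) ∈ normalizer (Sm : Set G) :=
    le_normalizer_map H.subtype ⟨y, by rw [normalizer_eq_top_iff.2 (hn S)]; exact mem_top y, rfl⟩
  rcases hcase with h1 | ⟨-, h2⟩
  · exfalso
    have hP : normalizer ((P : Subgroup G) : Set G) ≤ centralizer ((P : Subgroup G) : Set G) := h1.le
    have hnpc := Transfer.hasNormalPComplement_of_normalizer_le_centralizer P hP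
    have h3 := Transfer.centralize_of_hasNormalPComplement hnpc Sm hSmp hyN
      (by rwa [orderOf_coe])
    exact hc (mem_centralizer_iff.2 fun s hs => Subtype.ext
      (mem_centralizer_iff.1 h3 (s : G) ⟨s, hs, rfl⟩))
  obtain ⟨a, ha⟩ := hSc.exists_ofOrder_eq_natCard
  have ha1 : (a : H) ≠ 1 := by
    intro h
    refine hc (mem_centralizer_iff.2 fun s hs => ?_)
    have hbot : Nat.card (S : Subgroup H) = 1 := by rw [← ha, ← orderOf_coe, h, orderOf_one]
    rw [Subgroup.card_eq_one] at hbot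
    have hs1 : s = 1 := by rwa [hbot, SetLike.mem_coe, mem_bot] at hs
    rw [hs1, one_mul, mul_one]
  obtain ⟨k, hk⟩ := IsPGroup.iff_card.1 S.2
  have hk0 : k ≠ 0 := by
    rintro rfl
    rw [pow_zero] at hk
    exact ha1 (orderOf_eq_one_iff.1 (by rw [orderOf_coe, ha, hk]))
  obtain ⟨q, hq0⟩ := exists_prime_orderOf_dvd_card' (G := Sm) p (by
    rw [hSm, card_map_of_injective H.subtype_injective, hk]; exact dvd_pow_self p hk0)
  set Q := zpowers (q : G) with hQdef
  have hQ : Nat.card Q = p := by rw [hQdef, Nat.card_zpowers, orderOf_coe, hq0]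
  have hQS : Q ≤ Sm := zpowers_le.2 q.2
  obtain ⟨g, hg⟩ : ∃ g : G, Q.map (MulAut.conj g).toMonoidHom ≤ (P : Subgroup G) := by
    obtain ⟨T, hT⟩ := (IsPGroup.of_card (n := 1) (by rw [hQ, pow_one]) : IsPGroup p Q).exists_le_sylow
    obtain ⟨g, rfl⟩ := MulAction.exists_smul_eq G T P
    refine ⟨g, ?_⟩
    rw [Sylow.coe_subgroup_smul, Subgroup.pointwise_smul_def]
    exact map_mono hT
  obtain ⟨hab, hinv⟩ := h2 _ hg (by rw [card_map_of_injective (MulEquiv.injective _), hQ])
  set Q' := Q.map (MulAut.conj g).toMonoidHom with hQ'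
  have hSCQ : ∀ s ∈ Sm, s ∈ centralizer (Q : Set G) := by
    haveI := isCyclic_pSubgroup P hcyc Sm hSmp
    letI := IsCyclic.commGroup (α := Sm)
    exact fun s hs => mem_centralizer_iff.2 fun b hb =>
      congrArg Subtype.val (mul_comm (⟨b, hQS hb⟩ : Sm) ⟨s, hs⟩)
  have hyQ : (y : G) ∈ normalizer (Q : Set G) := by
    rw [mem_normalizer_iff_map_conj_eq, hQdef, MonoidHom.map_zpowers]
    haveI := isCyclic_pSubgroup P hcyc Sm hSmp
    let q' : Sm := ⟨(y : G) * q * (y : G)⁻¹, (mem_normalizer_iff.1 hyN _).1 q.2⟩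
    have hq' : orderOf q' = p := by
      rw [Subgroup.orderOf_mk, ← MulAut.conj_apply, MulEquiv.orderOf_eq, orderOf_coe, hq0]
    have h5 := congrArg (Subgroup.map Sm.subtype) (zpowers_eq_of_orderOf_eq (u := q') (v := q) (hq'.trans hq0.symm))
    rw [MonoidHom.map_zpowers, MonoidHom.map_zpowers] at h5
    exact h5
  have hyC : (y : G) ∉ centralizer (Q : Set G) := by
    intro hyC
    refine hc (mem_centralizer_iff.2 fun s hs => Subtype.ext ?_)
    have h6 := congrArg Subtype.val (isMulCommutative_iff.1 hab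
      ⟨_, mem_centralizer_map_conj (g := g) (hSCQ (s : G) ⟨s, hs, rfl⟩)⟩
      ⟨_, mem_centralizer_map_conj (g := g) hyC⟩)
    have h7 : g * ((s : G) * y) * g⁻¹ = g * ((y : G) * s) * g⁻¹ := by
      calc g * ((s : G) * y) * g⁻¹ = g * (s : G) * g⁻¹ * (g * y * g⁻¹) := by group
        _ = g * (y : G) * g⁻¹ * (g * s * g⁻¹) := h6
        _ = _ := by group
    exact mul_left_cancel (mul_right_cancel h7)
  have hyN' : g * (y : G) * g⁻¹ ∈ normalizer (Q' : Set G) := by
    have := le_normalizer_map (H := Q) (MulAut.conj g).toMonoidHom ⟨y, hyQ, rfl⟩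
    exact this
  have hyC' : g * (y : G) * g⁻¹ ∉ centralizer (Q' : Set G) := by
    intro h
    refine hyC (mem_centralizer_iff.2 fun b hb => ?_)
    have h7 : g * (b * y) * g⁻¹ = g * ((y : G) * b) * g⁻¹ := by
      calc g * (b * y) * g⁻¹ = (g * b * g⁻¹) * (g * y * g⁻¹) := by group
        _ = (g * y * g⁻¹) * (g * b * g⁻¹) := mem_centralizer_iff.1 h _ ⟨b, hb, rfl⟩
        _ = _ := by group
    exact mul_left_cancel (mul_right_cancel h7)
  obtain ⟨ho, hi⟩ := hinv _ hyN' hyC'
  rw [← MulAut.conj_apply, MulEquiv.orderOf_eq, orderOf_coe] at ho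
  have hinvS : ∀ s ∈ (S : Subgroup H), y * s * y⁻¹ = s⁻¹ := by
    intro s hs
    refine Subtype.ext ?_
    have h8 := hi _ (mem_centralizer_map_conj (g := g) (hSCQ (s : G) ⟨s, hs, rfl⟩))
    show (y : G) * s * (y : G)⁻¹ = (s : G)⁻¹
    have h7 : g * ((y : G) * s * (y : G)⁻¹) * g⁻¹ = g * (s : G)⁻¹ * g⁻¹ := by
      calc g * ((y : G) * s * (y : G)⁻¹) * g⁻¹
          = g * y * g⁻¹ * (g * s * g⁻¹) * (g * (y : G) * g⁻¹)⁻¹ := by group
        _ = (g * s * g⁻¹)⁻¹ := h8
        _ = _ := by group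
    exact mul_left_cancel (mul_right_cancel h7)
  right
  haveI : NeZero (p ^ k) := ⟨pow_ne_zero _ hpp.ne_zero⟩
  refine ⟨k, TwoGroups.equiv_dihedral_of_generators (a := (a : H)) (b := y) ?_ ?_ ?_ ?_
    (hinvS _ a.2)⟩
  · rw [orderOf_coe, ha, hk]
  · rw [← (S : Subgroup H).card_mul_index, hk, ← hyo, ho, mul_comm]
  · intro h
    have h9 : y ∈ (S : Subgroup H) := (zpowers_le.2 a.2) h
    obtain ⟨j, hj⟩ := S.2 ⟨y, h9⟩
    have h10 : y ^ p ^ j = 1 := congrArg Subtype.val hj
    have h11 := orderOf_dvd_of_pow_eq_one h10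
    rw [ho] at h11
    exact hp ((Nat.prime_dvd_prime_iff_eq Nat.prime_two hpp).1 (Nat.prime_two.dvd_of_dvd_pow h11)).symm
  · rw [← pow_two, ← ho, pow_orderOf_eq_one]

/-- Let p be an odd prime and G a finite group with Sylow p-subgroup P. Say that G has restricted p-by-cyclic subgroups when every subgroup H of G whose Sylow p-subgroup is normal in H with cyclic quotient is itself cyclic or dihedral of order 2pⁿ for some n. Then G has restricted p-by-cyclic subgroups if and only if P is cyclic and one of the following holds: (1) N_G(P) = C_G(P); or (2) N_G(P)/C_G(P) has order 2 and, for the subgroup Q of order p of P, the centralizer C_G(Q) is abelian and every element of N_G(Q) outside C_G(Q) is an involution inverting every element of C_G(Q). -/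
theorem result {G : Type*} [Group G] [Finite G] {p : ℕ}
    [Fact p.Prime] (hp : p ≠ 2) (P : Sylow p G) :
    (∀ H : Subgroup G, (∀ S : Sylow p ↥H, (S : Subgroup ↥H).Normal) →
        (∀ (S : Sylow p ↥H) [(S : Subgroup ↥H).Normal], IsCyclic (↥H ⧸ (S : Subgroup ↥H))) →
        IsCyclic H ∨ (∃ n : ℕ, Nonempty (H ≃* DihedralGroup (p ^ n)))) ↔
    (IsCyclic P ∧
      (Subgroup.normalizer ((P : Subgroup G) : Set G) = Subgroup.centralizer ((P : Subgroup G) : Set G) ∨
       ((Subgroup.centralizer ((P : Subgroup G) : Set G)).relIndex (Subgroup.normalizer ((P : Subgroup G) : Set G)) = 2 ∧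
        ∀ Q : Subgroup G, Q ≤ P → Nat.card Q = p →
          IsMulCommutative ↥(Subgroup.centralizer (Q : Set G)) ∧
          ∀ x : G, x ∈ Subgroup.normalizer (Q : Set G) → x ∉ Subgroup.centralizer (Q : Set G) →
            orderOf x = 2 ∧ ∀ c : G, c ∈ Subgroup.centralizer (Q : Set G) → x * c * x⁻¹ = c⁻¹))) := by
  exact ⟨forward hp P, fun ⟨hcyc, hcase⟩ => backward hp P hcyc hcase⟩

end Cfsg.Agent.S4082
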