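-- statement Cfsg.CfsgFrozen.S4083 (Cfsg/Statements/S4083.lean; the theorem Cfsg.fg5_groups_whose_two_by_cyclic_subgroups_are_cyclic_dihedral_or_alt_four);
import Cfsg.Statements.S4083
import Cfsg.Agent.PByCyclic.Basic
import Cfsg.Agent.Lib.Element
import Cfsg.Agent.TwoGroups.Recognition
import Cfsg.Agent.MaxSub.Dickson.Small

set_option autoImplicit false
open Cfsg

namespace Cfsg.Agent.S4083

open Subgroup Cfsg.Agent

theorem alt_four_not_comm : ¬ IsMulCommutative (alternatingGroup (Fin 4)) := by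
  intro h
  have key : ∃ a b : alternatingGroup (Fin 4), a * b ≠ b * a := by decide
  obtain ⟨a, b, hab⟩ := key
  exact hab (isMulCommutative_iff.1 h a b)

theorem alt_four_card : Nat.card (alternatingGroup (Fin 4)) = 12 := by
  rw [Nat.card_eq_fintype_card]; decide

theorem dihedral_not_comm {n : ℕ} (hn : 2 ≤ n) : ¬ IsMulCommutative (DihedralGroup (2 ^ n)) := by
  intro h
  have h1 := isMulCommutative_iff.1 h (DihedralGroup.r 1) (DihedralGroup.sr 0)
  rw [DihedralGroup.r_mul_sr, DihedralGroup.sr_mul_r, DihedralGroup.sr.injEq, zero_sub, zero_add] at h1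
  have h2 : ((2 : ℕ) : ZMod (2 ^ n)) = 0 := by
    rw [Nat.cast_ofNat, show (2 : ZMod (2 ^ n)) = 1 - -1 by ring, h1, sub_self]
  rw [ZMod.natCast_eq_zero_iff] at h2
  have h3 := Nat.le_of_dvd two_pos h2
  have h4 : 2 ^ 2 ≤ 2 ^ n := Nat.pow_le_pow_right two_pos hn
  norm_num at h4
  omega

theorem dihedral_rot {n : ℕ} (i : ZMod (2 ^ n)) :
    DihedralGroup.r i ∈ zpowers (DihedralGroup.r (1 : ZMod (2 ^ n))) :=
  ⟨(i.val : ℤ), by simp [ZMod.natCast_zmod_val]⟩

theorem dihedral_refl {n : ℕ} {z : DihedralGroup (2 ^ n)}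
    (hz : z ∉ zpowers (DihedralGroup.r (1 : ZMod (2 ^ n)))) :
    z * z = 1 ∧ (∀ w ∈ zpowers (DihedralGroup.r (1 : ZMod (2 ^ n))), z * w * z⁻¹ = w⁻¹) ∧
    ∀ w, w ∉ zpowers (DihedralGroup.r (1 : ZMod (2 ^ n))) →
      w * z ∈ zpowers (DihedralGroup.r (1 : ZMod (2 ^ n))) := by
  rcases z with i | i
  · exact absurd (dihedral_rot i) hz
  refine ⟨DihedralGroup.sr_mul_self i, ?_, fun w hw => ?_⟩
  · rintro _ ⟨j, rfl⟩
    show DihedralGroup.sr i * DihedralGroup.r 1 ^ j * _ = (DihedralGroup.r 1 ^ j)⁻¹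
    rw [DihedralGroup.r_one_zpow, DihedralGroup.inv_sr, DihedralGroup.sr_mul_r,
      DihedralGroup.sr_mul_sr, DihedralGroup.inv_r, sub_add_cancel_left]
  · rcases w with j | j
    · exact absurd (dihedral_rot j) hw
    · rw [DihedralGroup.sr_mul_sr]
      exact dihedral_rot _

theorem perm_three : ∀ σ : Equiv.Perm (Fin 3), σ ^ 3 = 1 → (∃ x, σ x = x) → σ = 1 := by decide

variable {G : Type*} [Group G] [Finite G]

theorem isMulCommutative_of_exp_two (K : Subgroup G) (h : ∀ k ∈ K, k ^ 2 = 1) :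
    ∀ a ∈ K, ∀ b ∈ K, Commute a b := by
  intro a ha b hb
  have hinv : ∀ k ∈ K, k⁻¹ = k := fun k hk =>
    inv_eq_of_mul_eq_one_left (by rw [← pow_two]; exact h k hk)
  show a * b = b * a
  rw [← hinv _ (mul_mem hb ha), mul_inv_rev, hinv a ha, hinv b hb]

theorem forward (P : Sylow 2 G)
    (hyp : ∀ H : Subgroup G, (∀ S : Sylow 2 ↥H, (S : Subgroup ↥H).Normal) →
        (∀ (S : Sylow 2 ↥H) [(S : Subgroup ↥H).Normal], IsCyclic (↥H ⧸ (S : Subgroup ↥H))) →
        IsCyclic H ∨ (∃ n : ℕ, Nonempty (H ≃* DihedralGroup (2 ^ n))) ∨ Nonempty (H ≃* alternatingGroup (Fin 4))) :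
    (IsCyclic P ∨
      ((∃ n : ℕ, 1 ≤ n ∧ Nonempty ((P : Subgroup G) ≃* DihedralGroup (2 ^ n))) ∧
        ∀ K : Subgroup G, K ≤ P → Nat.card K = 4 → (∀ k ∈ K, k ^ 2 = 1) → Subgroup.centralizer (K : Set G) = K)) := by
  haveI : Fact (Nat.Prime 2) := ⟨Nat.prime_two⟩
  rcases em (IsCyclic P) with hcyc | hcyc
  · exact Or.inl hcyc
  refine Or.inr ⟨?_, ?_⟩
  · have h := PByCyclic.apply_hyp hyp (P : Subgroup G) P.2 1 (one_mem _) (by simp)
    rw [zpowers_one_eq_bot, sup_bot_eq] at h
    rcases h with h | ⟨n, ⟨e⟩⟩ | ⟨⟨e⟩⟩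
    · exact absurd h hcyc
    · refine ⟨n, Nat.pos_of_ne_zero ?_, ⟨e⟩⟩
      rintro rfl
      refine hcyc (isCyclic_of_prime_card (p := 2) ?_)
      rw [Nat.card_congr e.toEquiv, DihedralGroup.nat_card]; rfl
    · exfalso
      obtain ⟨k, hk⟩ := IsPGroup.iff_card.1 P.2
      have h2 := Nat.card_congr e.toEquiv
      rw [hk, alt_four_card] at h2
      have : 3 ∣ 2 ^ k := h2 ▸ ⟨4, rfl⟩
      exact absurd ((Nat.prime_dvd_prime_iff_eq Nat.prime_three Nat.prime_two).1
        (Nat.prime_three.dvd_of_dvd_pow this)) (by norm_num)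
  intro K hKP hK hK2
  have hKc := isMulCommutative_of_exp_two K hK2
  refine le_antisymm ?_ fun a ha => mem_centralizer_iff.2 fun b hb => (hKc b hb a ha).eq
  have habel : ∀ w ∈ centralizer (K : Set G), ∀ a ∈ K ⊔ zpowers w, ∀ b ∈ K ⊔ zpowers w,
      Commute a b := by
    intro w hw a ha b hb
    have h1 : ∀ c ∈ K ⊔ zpowers w, ∀ d ∈ (K : Set G) ∪ {w}, Commute c d := by
      intro c hc d hd
      have hle : K ⊔ zpowers w ≤ centralizer {d} := by
        refine sup_le (fun k hk => mem_centralizer_singleton_iff.2 ?_) (zpowers_le.2 (mem_centralizer_singleton_iff.2 ?_))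
        · rcases hd with hd | rfl
          · exact hKc k hk d hd
          · exact mem_centralizer_iff.1 hw k hk
        · rcases hd with hd | rfl
          · exact (mem_centralizer_iff.1 hw d hd).symm
          · rfl
      exact mem_centralizer_singleton_iff.1 (hle hc)
    have hle : K ⊔ zpowers w ≤ centralizer {a} :=
      sup_le (fun k hk => mem_centralizer_singleton_iff.2 (h1 a ha k (Or.inl hk)).symm.eq)
        (zpowers_le.2 (mem_centralizer_singleton_iff.2 (h1 a ha w (Or.inr rfl)).symm.eq))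
    exact (mem_centralizer_singleton_iff.1 (hle hb) : b * a = a * b).symm
  have hnc : ∀ H : Subgroup G, K ≤ H → ¬ IsCyclic H := by
    intro H hKH hc
    haveI := (subgroupOfEquivOfLe hKH).isCyclic.1 (inferInstance : IsCyclic (K.subgroupOf H))
    obtain ⟨k, hk⟩ := IsCyclic.exists_ofOrder_eq_natCard (α := K)
    have h4 : orderOf (k : G) ∣ 2 := orderOf_dvd_of_pow_eq_one (hK2 k k.2)
    rw [orderOf_coe, hk, hK] at h4
    exact absurd (Nat.le_of_dvd two_pos h4) (by norm_num)
  have hA4 : ∀ w ∈ centralizer (K : Set G), ¬ Nonempty (↥(K ⊔ zpowers w) ≃* alternatingGroup (Fin 4)) := by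
    rintro w hw ⟨e⟩
    refine alt_four_not_comm (isMulCommutative_iff.2 fun a b => ?_)
    apply e.symm.injective
    rw [map_mul, map_mul]
    exact Subtype.ext (habel w hw _ (e.symm a).2 _ (e.symm b).2).eq
  have hKp : IsPGroup 2 K := IsPGroup.of_card (n := 2) hK
  intro z hz
  obtain ⟨h1, h2⟩ := Element.orderOf_pPart Nat.prime_two z (orderOf_pos z).ne'
  set u := Element.pPart 2 z
  set v := Element.pComplPart 2 z
  have huC : u ∈ centralizer (K : Set G) := zpowers_le.2 hz (Element.pPart_mem_zpowers 2 z)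
  have hvC : v ∈ centralizer (K : Set G) := zpowers_le.2 hz (Element.pComplPart_mem_zpowers 2 z)
  have hvo : Nat.Coprime (orderOf v) 2 := by
    rw [h2]; exact (Nat.coprime_ordCompl Nat.prime_two (orderOf_pos z).ne').symm
  have hv1 : v = 1 := by
    rcases PByCyclic.apply_hyp hyp K hKp v (centralizer_le_normalizer _ hvC) hvo with h | ⟨n, ⟨e⟩⟩ | h
    · exact absurd h (hnc _ le_sup_left)
    · rw [← orderOf_eq_one_iff]
      refine Nat.eq_one_of_dvd_coprimes (hvo.pow_right (n + 1)) dvd_rfl ?_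
      have h3 := orderOf_dvd_natCard (K ⊔ zpowers v) (mem_sup_right (mem_zpowers v))
      rwa [Nat.card_congr e.toEquiv, DihedralGroup.nat_card, ← pow_succ'] at h3
    · exact absurd h (hA4 v hvC)
  have hu : u ∈ K := by
    have hup : IsPGroup 2 (zpowers u) := IsPGroup.of_card (n := _) (by rw [Nat.card_zpowers, h1])
    have hTp : IsPGroup 2 (K ⊔ zpowers u : Subgroup G) :=
      hKp.to_sup_of_normal_left' hup (zpowers_le.2 (centralizer_le_normalizer _ huC))
    have h := PByCyclic.apply_hyp hyp (K ⊔ zpowers u) hTp 1 (one_mem _) (by simp)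
    rw [zpowers_one_eq_bot, sup_bot_eq] at h
    rcases h with h | ⟨n, ⟨e⟩⟩ | h
    · exact absurd h (hnc _ le_sup_left)
    · have hn : n ≤ 1 := by
        by_contra hn
        refine dihedral_not_comm (n := n) (by omega) (isMulCommutative_iff.2 fun a b => ?_)
        apply e.symm.injective
        rw [map_mul, map_mul]
        exact Subtype.ext (habel u huC _ (e.symm a).2 _ (e.symm b).2).eq
      have hT : K = K ⊔ zpowers u := eq_of_le_of_card_ge le_sup_left (by
        rw [hK, Nat.card_congr e.toEquiv, DihedralGroup.nat_card]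
        interval_cases n <;> norm_num)
      rw [hT]; exact mem_sup_right (mem_zpowers u)
    · exact absurd h (hA4 u huC)
  rw [← Element.pPart_mul_pComplPart 2 z]
  show u * v ∈ K
  rwa [hv1, mul_one]

theorem backward (P : Sylow 2 G)
    (hcase : IsCyclic P ∨
      ((∃ n : ℕ, 1 ≤ n ∧ Nonempty ((P : Subgroup G) ≃* DihedralGroup (2 ^ n))) ∧
        ∀ K : Subgroup G, K ≤ P → Nat.card K = 4 → (∀ k ∈ K, k ^ 2 = 1) → Subgroup.centralizer (K : Set G) = K))
    (H : Subgroup G) (hn : ∀ S : Sylow 2 ↥H, (S : Subgroup ↥H).Normal)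
    (hq : ∀ (S : Sylow 2 ↥H) [(S : Subgroup ↥H).Normal], IsCyclic (↥H ⧸ (S : Subgroup ↥H))) :
    IsCyclic H ∨ (∃ n : ℕ, Nonempty (H ≃* DihedralGroup (2 ^ n))) ∨ Nonempty (H ≃* alternatingGroup (Fin 4)) := by
  classical
  haveI : Fact (Nat.Prime 2) := ⟨Nat.prime_two⟩
  obtain ⟨S⟩ : Nonempty (Sylow 2 H) := inferInstance
  haveI := hn S
  obtain ⟨y, hyo, hsup⟩ := PByCyclic.exists_complement_gen (S : Subgroup H) S.card_coprime_index (hq S)
  have hyodd : Odd (orderOf y) := by
    rw [hyo, ← Nat.not_even_iff_odd, even_iff_two_dvd]; exact S.not_dvd_index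
  have hyn : ∀ s ∈ (S : Subgroup H), y * s * y⁻¹ ∈ (S : Subgroup H) := fun s hs =>
    (hn S).conj_mem s hs y
  set Sm := (S : Subgroup H).map H.subtype with hSm
  have hSmp : IsPGroup 2 Sm := S.2.map _
  obtain ⟨T, hT⟩ := hSmp.exists_le_sylow
  let ψ := Sylow.equiv T P
  let ι : (S : Subgroup H) →* (P : Subgroup G) :=
    ψ.toMonoidHom.comp ((Subgroup.inclusion hT).comp
      ((S : Subgroup H).equivMapOfInjective _ H.subtype_injective).toMonoidHom)
  have hι : Function.Injective ι :=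
    ψ.injective.comp ((Subgroup.inclusion_injective hT).comp (MulEquiv.injective _))
  by_cases hSc : IsCyclic (S : Subgroup H)
  · left
    obtain ⟨a, ha⟩ := hSc.exists_ofOrder_eq_natCard
    obtain ⟨k, hk⟩ := IsPGroup.iff_card.1 S.2
    have hza : zpowers (a : H) = (S : Subgroup H) := eq_of_le_of_card_ge (zpowers_le.2 a.2) (by
      rw [Nat.card_zpowers, orderOf_coe, ha])
    have hc : Commute (a : H) y := PByCyclic.centralize_cyclic_two (k := k)
      (by rw [orderOf_coe, ha, hk]) hyodd (by rw [hza, normalizer_eq_top_iff.2 (hn S)]; exact mem_top y)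
    refine PByCyclic.isCyclic_of_centralize _ hSc S.card_coprime_index hyo ?_
    rw [← hza, mem_centralizer_iff]
    rintro _ ⟨i, rfl⟩
    exact (hc.zpow_left i).eq
  rcases hcase with hP | ⟨⟨n, -, ⟨e⟩⟩, hK⟩
  · exfalso
    haveI := hP
    exact hSc ((MonoidHom.ofInjective hι).isCyclic.2 inferInstance)
  let φ : (S : Subgroup H) →* DihedralGroup (2 ^ n) := e.toMonoidHom.comp ι
  have hφ : Function.Injective φ := e.injective.comp hι
  set R : Subgroup (S : Subgroup H) := (zpowers (DihedralGroup.r (1 : ZMod (2 ^ n)))).comap φ with hR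
  have hRc : IsCyclic R := by
    refine (R.equivMapOfInjective φ hφ).isCyclic.2 ?_
    haveI : IsCyclic (zpowers (DihedralGroup.r (1 : ZMod (2 ^ n)))) := inferInstance
    exact (subgroupOfEquivOfLe (show R.map φ ≤ zpowers _ from map_comap_le _ _)).isCyclic.1 inferInstance
  obtain ⟨b, hb⟩ : ∃ b : (S : Subgroup H), b ∉ R := by
    by_contra! h
    have htop : R = ⊤ := eq_top_iff.2 fun x _ => h x
    exact hSc ((topEquiv (G := (S : Subgroup H))).isCyclic.1 (htop ▸ hRc))
  have hrefl : ∀ c : (S : Subgroup H), c ∉ R → c * c = 1 ∧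
      (∀ w ∈ R, c * w * c⁻¹ = w⁻¹) ∧ ∀ d, d ∉ R → d * c ∈ R := by
    intro c hc
    obtain ⟨h1, h2, h3⟩ := dihedral_refl (n := n) (z := φ c) hc
    refine ⟨hφ (by rw [map_mul, h1, map_one]), fun w hw => hφ ?_, fun d hd => ?_⟩
    · rw [map_mul, map_mul, map_inv, map_inv]; exact h2 _ hw
    · show φ (d * c) ∈ zpowers (DihedralGroup.r (1 : ZMod (2 ^ n)))
      rw [map_mul]; exact h3 _ hd
  obtain ⟨hbb, hbinv, -⟩ := hrefl b hb
  obtain ⟨a, ha⟩ := hRc.exists_ofOrder_eq_natCard
  obtain ⟨j, hj⟩ := IsPGroup.iff_orderOf.1 S.2 (a : (S : Subgroup H))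
  have haR : zpowers (a : (S : Subgroup H)) = R := eq_of_le_of_card_ge (zpowers_le.2 a.2) (by
    rw [Nat.card_zpowers, orderOf_coe, ha])
  have hcardR : Nat.card R = 2 ^ j := by rw [← haR, Nat.card_zpowers, hj]
  have hidx : R.index = 2 := by
    rw [index_eq_two_iff]
    refine ⟨b, fun c => ?_⟩
    rw [xor_iff_iff_not]
    refine ⟨fun h hc => hb (by simpa using mul_mem (inv_mem hc) h), fun hc => (hrefl b hb).2.2 c hc⟩
  have hScard : Nat.card (S : Subgroup H) = 2 * 2 ^ j := by
    rw [← R.card_mul_index, hidx, hcardR, mul_comm]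
  have hj1 : 1 ≤ j := by
    by_contra h0
    exact hSc (isCyclic_of_prime_card (p := 2) (by rw [hScard, show j = 0 by omega]; rfl))
  haveI : NeZero (2 ^ j) := ⟨(Nat.two_pow_pos j).ne'⟩
  have hDih : Nonempty ((S : Subgroup H) ≃* DihedralGroup (2 ^ j)) :=
    TwoGroups.equiv_dihedral_of_generators (a := (a : (S : Subgroup H))) (b := b) hj hScard
      (fun h => hb (haR.le h)) hbb (hbinv _ a.2)
  by_cases hy1 : y = 1
  · refine Or.inr (Or.inl ⟨j, hDih.map fun f => ?_⟩)
    rw [hy1, zpowers_one_eq_bot, sup_bot_eq] at hsup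
    exact (topEquiv.symm.trans (MulEquiv.subgroupCongr hsup.symm)).trans f
  -- a four-group in `S`
  set c : (S : Subgroup H) := (a : (S : Subgroup H)) ^ 2 ^ (j - 1) with hc
  have hco : orderOf c = 2 := by
    rw [hc, orderOf_pow_of_dvd (by positivity) (hj ▸ pow_dvd_pow 2 (by omega)), hj,
      Nat.pow_div (by omega) two_pos, show j - (j - 1) = 1 by omega, pow_one]
  have hcR : c ∈ R := pow_mem a.2 _
  obtain ⟨f⟩ := TwoGroups.closure_equiv_dihedral (a := c) (b := b) hco
    (fun h => hb ((zpowers_le.2 hcR) h)) hbb (hbinv c hcR)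
  set K0 := Subgroup.closure ({c, b} : Set (S : Subgroup H)) with hK0
  have hK0card : Nat.card K0 = 4 := by
    rw [Nat.card_congr f.toEquiv, DihedralGroup.nat_card]
  have hK0exp : ∀ k ∈ K0, k ^ 2 = 1 := by
    intro k hk
    have h1 : ∀ d : DihedralGroup 2, d ^ 2 = 1 := by decide
    have h2 : f ((⟨k, hk⟩ : K0) ^ 2) = 1 := by rw [map_pow, h1]
    exact congrArg Subtype.val ((MulEquiv.map_eq_one_iff f).1 h2)
  set KG := (K0.map (S : Subgroup H).subtype).map H.subtype with hKG
  have hKGcard : Nat.card KG = 4 := by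
    rw [hKG, card_map_of_injective H.subtype_injective,
      card_map_of_injective (S : Subgroup H).subtype_injective, hK0card]
  have hKGexp : ∀ k ∈ KG, k ^ 2 = 1 := by
    rintro _ ⟨_, ⟨k, hk, rfl⟩, rfl⟩
    rw [← map_pow, ← map_pow, hK0exp k hk, map_one, map_one]
  have hCK : centralizer (KG : Set G) = KG := by
    obtain ⟨g, hg⟩ := MulAction.exists_smul_eq G T P
    have hle : KG.map (MulAut.conj g).toMonoidHom ≤ (P : Subgroup G) := by
      rw [← hg, Sylow.coe_subgroup_smul, Subgroup.pointwise_smul_def]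
      refine map_mono (le_trans ?_ hT)
      exact map_mono (map_subtype_le K0)
    have h := hK _ hle (by rw [card_map_of_injective (MulEquiv.injective _), hKGcard]) (by
      rintro _ ⟨k, hk, rfl⟩
      rw [← map_pow, hKGexp k hk, map_one])
    refine le_antisymm (fun w hw => ?_) fun w hw => mem_centralizer_iff.2 fun u hu =>
      (isMulCommutative_of_exp_two KG hKGexp u hu w hw).eq
    have hw' : g * w * g⁻¹ ∈ centralizer ((KG.map (MulAut.conj g).toMonoidHom : Subgroup G) : Set G) := by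
      rw [mem_centralizer_iff]
      rintro _ ⟨q, hq', rfl⟩
      show g * q * g⁻¹ * (g * w * g⁻¹) = g * w * g⁻¹ * (g * q * g⁻¹)
      calc g * q * g⁻¹ * (g * w * g⁻¹) = g * (q * w) * g⁻¹ := by group
        _ = g * (w * q) * g⁻¹ := by rw [mem_centralizer_iff.1 hw q hq']
        _ = _ := by group
    rw [h] at hw'
    obtain ⟨k, hk, hkw⟩ := hw'
    have : k = w := (MulAut.conj g).injective hkw
    exact this ▸ hk
  have hnotcent : ∀ w : H, Odd (orderOf w) → (∀ s ∈ (S : Subgroup H), Commute w s) → w = 1 := by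
    intro w hw hws
    have hwK : (w : G) ∈ centralizer (KG : Set G) := by
      rw [mem_centralizer_iff]
      rintro _ ⟨_, ⟨k, -, rfl⟩, rfl⟩
      exact congrArg Subtype.val (hws k k.2).eq.symm
    rw [hCK] at hwK
    have h2 := hKGexp _ hwK
    have h3 : orderOf w ∣ 2 := orderOf_dvd_of_pow_eq_one (Subtype.ext h2)
    rw [← orderOf_eq_one_iff]
    exact Nat.eq_one_of_dvd_coprimes (Nat.coprime_two_right.2 hw) dvd_rfl h3
  let σ : ↥(S : Subgroup H) → ↥(S : Subgroup H) := fun s => ⟨y * s * y⁻¹, hyn _ s.2⟩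
  have hj2 : j = 1 := by
    by_contra hne
    have haR' : σ a ∈ R := by
      by_contra h
      have h1 := congrArg Subtype.val (hrefl _ h).1
      simp only [σ, Subgroup.coe_mul, Subgroup.coe_one] at h1
      have h2 : ((a : (S : Subgroup H)) : H) * ((a : (S : Subgroup H)) : H) = 1 := by
        calc _ = y⁻¹ * (y * ((a : (S : Subgroup H)) : H) * y⁻¹ * (y * ((a : (S : Subgroup H)) : H) * y⁻¹)) * y := by group
          _ = 1 := by rw [h1]; group
      have h3 : orderOf (a : (S : Subgroup H)) ∣ 2 := orderOf_dvd_of_pow_eq_one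
        (Subtype.ext (by rw [pow_two, Subgroup.coe_mul]; exact h2))
      rw [hj] at h3
      have := (Nat.pow_dvd_pow_iff_le_right (show 1 < 2 by norm_num)).1 (h3.trans (pow_one 2).symm.dvd)
      omega
    have hay : Commute ((a : (S : Subgroup H)) : H) y := by
      refine PByCyclic.centralize_cyclic_two (k := j) (by rw [orderOf_coe, hj]) hyodd ?_
      rw [mem_normalizer_iff_map_conj_eq, MonoidHom.map_zpowers]
      refine eq_of_le_of_card_ge (zpowers_le.2 ?_) (by
        rw [Nat.card_zpowers, Nat.card_zpowers]; exact (MulEquiv.orderOf_eq (MulAut.conj y) _).ge)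
      obtain ⟨i, hi⟩ := haR.ge haR'
      exact ⟨i, congrArg Subtype.val hi⟩
    have hRy : ∀ w ∈ R, Commute (w : H) y := by
      intro w hw
      rw [← haR] at hw
      obtain ⟨i, rfl⟩ := hw
      rw [Subgroup.coe_zpow]
      exact hay.zpow_left i
    have hσb : σ b ∉ R := by
      intro h
      refine hb ?_
      have h1 : (b : H) = (σ b : H) := by
        have h2 := (hRy _ h).eq
        simp only [σ] at h2 ⊢
        calc (b : H) = y⁻¹ * (y * (b : H) * y⁻¹) * y := by group
          _ = y⁻¹ * (y * (y * (b : H) * y⁻¹)) := by rw [mul_assoc, h2]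
          _ = _ := by group
      exact Subtype.ext h1 ▸ h
    set t := b * σ b with ht
    have htR : t ∈ R := (hrefl _ hσb).2.2 b hb
    have htb : σ b = b * t := by rw [ht, ← mul_assoc, hbb, one_mul]
    have hiter : ∀ i : ℕ, y ^ i * (b : H) * (y ^ i)⁻¹ = (b : H) * (t : H) ^ i := by
      intro i
      induction i with
      | zero => simp
      | succ i ih =>
        have hty : Commute y ((t : H) ^ i) := (hRy t htR).symm.pow_right i
        rw [show y ^ (i + 1) * (b : H) * (y ^ (i + 1))⁻¹ = y * (y ^ i * (b : H) * (y ^ i)⁻¹) * y⁻¹ by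
          rw [pow_succ' y]; group, ih]
        calc y * ((b : H) * (t : H) ^ i) * y⁻¹ = (y * (b : H) * y⁻¹) * (y * (t : H) ^ i * y⁻¹) := by group
          _ = (b : H) * t * (t : H) ^ i := by
            rw [hty.eq, mul_inv_cancel_right, show y * (b : H) * y⁻¹ = (σ b : H) from rfl, htb,
              Subgroup.coe_mul]
          _ = _ := by rw [mul_assoc, ← pow_succ']
    have htm := hiter (orderOf y)
    rw [pow_orderOf_eq_one] at htm
    simp only [one_mul, inv_one, mul_one] at htm
    have ht1 : (t : H) = 1 := by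
      rw [← orderOf_eq_one_iff]
      obtain ⟨i, hi⟩ := IsPGroup.iff_orderOf.1 S.2 t
      refine Nat.eq_one_of_dvd_coprimes (a := 2 ^ i) (b := orderOf y) ?_ (by rw [orderOf_coe, hi])
        (orderOf_dvd_of_pow_eq_one (mul_eq_left.1 htm.symm))
      exact (Nat.coprime_two_left.2 hyodd).pow_left i
    have hby : Commute (b : H) y := by
      have h := congrArg Subtype.val htb
      rw [Subgroup.coe_mul, ht1, mul_one] at h
      exact (mul_inv_eq_iff_eq_mul.1 h).symm
    refine hy1 (hnotcent y hyodd fun s hs => ?_)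
    by_cases h : (⟨s, hs⟩ : (S : Subgroup H)) ∈ R
    · exact (hRy _ h).symm
    · have h' := hRy _ ((hrefl b hb).2.2 _ h)
      rw [Subgroup.coe_mul] at h'
      have h'' : Commute (s * (b : H)) y := h'
      have := h''.mul_left hby.inv_left
      rw [mul_inv_cancel_right] at this
      exact this.symm
  -- order twelve
  right; right
  have hS4 : Nat.card (S : Subgroup H) = 4 := by rw [hScard, hj2]; rfl
  let X := {s : (S : Subgroup H) // s ≠ 1}
  haveI : Fintype X := Fintype.ofFinite X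
  have hX : Fintype.card X = 3 := by
    haveI : Fintype (S : Subgroup H) := Fintype.ofFinite _
    show Fintype.card {s : (S : Subgroup H) // s ≠ 1} = 3
    rw [Fintype.card_subtype_compl, Fintype.card_subtype_eq, ← Nat.card_eq_fintype_card, hS4]
  let eX : X ≃ Fin 3 := Fintype.equivFinOfCardEq hX
  let θ : H →* Equiv.Perm X :=
    { toFun := fun w =>
        { toFun := fun s => ⟨⟨w * s.1 * w⁻¹, (hn S).conj_mem _ s.1.2 w⟩, fun h => s.2 (Subtype.ext
            (conj_eq_one_iff.1 (congrArg Subtype.val h)))⟩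
          invFun := fun s => ⟨⟨w⁻¹ * s.1 * w⁻¹⁻¹, (hn S).conj_mem _ s.1.2 w⁻¹⟩, fun h => s.2 (Subtype.ext
            (conj_eq_one_iff.1 (congrArg Subtype.val h)))⟩
          left_inv := fun s => Subtype.ext (Subtype.ext (by simp [mul_assoc]))
          right_inv := fun s => Subtype.ext (Subtype.ext (by simp [mul_assoc])) }
      map_one' := Equiv.ext fun s => Subtype.ext (Subtype.ext (by simp))
      map_mul' := fun w w' => Equiv.ext fun s => Subtype.ext (Subtype.ext (by simp [mul_assoc])) }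
  let θ' : H →* Equiv.Perm (Fin 3) := eX.permCongrHom.toMonoidHom.comp θ
  have hker : ∀ w : H, θ' w = 1 → ∀ s ∈ (S : Subgroup H), Commute w s := by
    intro w hw s hs
    rcases eq_or_ne s 1 with rfl | hs1
    · exact Commute.one_right w
    have hw' : θ w = 1 := eX.permCongrHom.injective (by rw [map_one]; exact hw)
    have h := congrArg (fun x : X => (x.1 : H))
      (Equiv.congr_fun hw' ⟨⟨s, hs⟩, fun h => hs1 (congrArg Subtype.val h)⟩)
    exact mul_inv_eq_iff_eq_mul.1 h
  have hyim : orderOf (θ' y) = orderOf y := by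
    refine Nat.dvd_antisymm (orderOf_map_dvd _ _) (orderOf_dvd_of_pow_eq_one ?_)
    exact hnotcent _ (hyodd.of_dvd_nat (orderOf_pow_dvd _))
      (hker _ (by rw [map_pow, pow_orderOf_eq_one]))
  have hy3 : orderOf y = 3 := by
    have h6 : orderOf y ∣ 6 := by
      rw [← hyim]
      refine (orderOf_dvd_natCard (θ' y)).trans ?_
      rw [Nat.card_perm, Nat.card_fin]
      exact dvd_rfl
    have hne : orderOf y ≠ 1 := fun h => hy1 (orderOf_eq_one_iff.1 h)
    have hle := Nat.le_of_dvd (by norm_num) h6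
    interval_cases h : orderOf y <;> simp_all +decide
  refine MaxSub.Dickson.equiv_alt_four (G := H) ?_ ?_
  · rw [← (S : Subgroup H).card_mul_index, hS4, ← hyo, hy3]
  intro z hz
  have h2 : orderOf (z ^ 3) = 2 := by rw [orderOf_pow_of_dvd (by norm_num) (by rw [hz]; norm_num), hz]
  have h3 : orderOf (z ^ 2) = 3 := by rw [orderOf_pow_of_dvd (by norm_num) (by rw [hz]; norm_num), hz]
  have ht : z ^ 3 ∈ (S : Subgroup H) := by
    have hp : IsPGroup 2 (zpowers (z ^ 3)) :=
      IsPGroup.of_card (n := 1) (by rw [Nat.card_zpowers, h2, pow_one])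
    have h := S.3 (hp.to_sup_of_normal_right S.2) le_sup_right
    exact h ▸ mem_sup_left (mem_zpowers _)
  have hz2 : z ^ 2 ∈ (S : Subgroup H) ⊔ zpowers y := hsup ▸ mem_top _
  obtain ⟨s, hs, _, ⟨i, rfl⟩, hw⟩ := mem_sup_of_normal_left.1 hz2
  have htne : (⟨z ^ 3, ht⟩ : (S : Subgroup H)) ≠ 1 := fun h => by
    have h' : z ^ 3 = 1 := congrArg Subtype.val h
    rw [h', orderOf_one] at h2
    norm_num at h2
  have hθs : θ' s = 1 := by
    show eX.permCongrHom (θ s) = 1
    rw [show θ s = 1 from ?_, map_one]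
    refine Equiv.ext fun x => Subtype.ext (Subtype.ext ?_)
    show s * (x.1 : H) * s⁻¹ = (x.1 : H)
    have hab : IsMulCommutative (S : Subgroup H) := ⟨⟨IsPGroup.commutative_of_card_eq_prime_sq (p := 2) hS4⟩⟩
    have h := congrArg Subtype.val (isMulCommutative_iff.1 hab ⟨s, hs⟩ x.1)
    exact mul_inv_eq_iff_eq_mul.2 h
  have hfix : θ' (z ^ 2) (eX ⟨⟨z ^ 3, ht⟩, htne⟩) = eX ⟨⟨z ^ 3, ht⟩, htne⟩ := by
    show eX (θ (z ^ 2) (eX.symm (eX ⟨⟨z ^ 3, ht⟩, htne⟩))) = _
    rw [Equiv.symm_apply_apply]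
    congr 1
    refine Subtype.ext (Subtype.ext ?_)
    show z ^ 2 * z ^ 3 * (z ^ 2)⁻¹ = z ^ 3
    group
  have h1 : θ' (z ^ 2) = 1 := perm_three _ (by
    rw [← map_pow, orderOf_dvd_iff_pow_eq_one.1 h3.dvd, map_one]) ⟨_, hfix⟩
  have hcz : z ^ 2 = 1 := hnotcent _ (by rw [h3]; decide) (hker _ h1)
  rw [hcz, orderOf_one] at h3
  norm_num at h3

/-- Let G be a finite group with Sylow 2-subgroup P. Every subgroup H of G whose Sylow 2-subgroup is normal in H with cyclic quotient is cyclic, dihedral of 2-power order, or isomorphic to the alternating group of degree 4, if and only if either P is cyclic, or P is dihedral (of order at least 4) and every elementary abelian subgroup K of order 4 of P satisfies C_G(K) = K. -/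
theorem result {G : Type*} [Group G] [Finite G] (P : Sylow 2 G) :
    (∀ H : Subgroup G, (∀ S : Sylow 2 ↥H, (S : Subgroup ↥H).Normal) →
        (∀ (S : Sylow 2 ↥H) [(S : Subgroup ↥H).Normal], IsCyclic (↥H ⧸ (S : Subgroup ↥H))) →
        IsCyclic H ∨ (∃ n : ℕ, Nonempty (H ≃* DihedralGroup (2 ^ n))) ∨ Nonempty (H ≃* alternatingGroup (Fin 4))) ↔
    (IsCyclic P ∨
      ((∃ n : ℕ, 1 ≤ n ∧ Nonempty ((P : Subgroup G) ≃* DihedralGroup (2 ^ n))) ∧
        ∀ K : Subgroup G, K ≤ P → Nat.card K = 4 → (∀ k ∈ K, k ^ 2 = 1) → Subgroup.centralizer (K : Set G) = K)) := by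
  exact ⟨forward P, fun h => backward P h⟩

end Cfsg.Agent.S4083
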