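import Cfsg.Statements.S4084
import Mathlib

set_option autoImplicit false
open Cfsg

namespace Cfsg.Agent.S4084

theorem dir {G H : Type*} [Group G] [Finite G] [Group H] [Finite H] (e : G ≃ H)
    (he : ∀ x y : G, Commute x y ↔ Commute (e x) (e y))
    {p q : ℕ} (hp : p.Prime) (hq : q.Prime) (hpq : p ≠ q)
    (h : ∃ g : G, orderOf g = p * q) : ∃ k : H, orderOf k = p * q := by
  classical
  obtain ⟨g, hg⟩ := h
  let S : Set (Set G) := {s | g ∈ s ∧ ∀ a ∈ s, ∀ b ∈ s, Commute a b}
  obtain ⟨s, hgs, hmax⟩ : ∃ s, s ∈ S ∧ ∀ t ∈ S, s ⊆ t → t = s := by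
    obtain ⟨s, hs, hm⟩ := Set.Finite.exists_maximal (s := S) (Set.toFinite _)
      ⟨{g}, rfl, fun a ha b hb => by
        rw [Set.mem_singleton_iff] at ha hb; rw [ha, hb]⟩
    exact ⟨s, hs, fun t ht hst => le_antisymm (hm ht hst) hst⟩
  obtain ⟨hg_s, hcomm⟩ := hgs
  let A : Subgroup G := Subgroup.closure s
  have hAcomm : ∀ a ∈ A, ∀ b ∈ A, Commute a b := by
    intro a ha b hb
    haveI : IsMulCommutative A := Subgroup.isMulCommutative_closure hcomm
    exact congrArg Subtype.val (isMulCommutative_iff.mp ‹IsMulCommutative A› ⟨a, ha⟩ ⟨b, hb⟩)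
  have hA : (A : Set G) = s := hmax _ ⟨Subgroup.subset_closure hg_s, hAcomm⟩ Subgroup.subset_closure
  let B : Subgroup H := Subgroup.closure (e '' s)
  have hBcomm : ∀ a ∈ B, ∀ b ∈ B, Commute a b := by
    intro a ha b hb
    haveI : IsMulCommutative B := Subgroup.isMulCommutative_closure (by
      rintro _ ⟨u, hu, rfl⟩ _ ⟨v, hv, rfl⟩
      exact (he u v).mp (hcomm u hu v hv))
    exact congrArg Subtype.val (isMulCommutative_iff.mp ‹IsMulCommutative B› ⟨a, ha⟩ ⟨b, hb⟩)
  have hB : (B : Set H) = e '' s := by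
    have : e ⁻¹' (B : Set H) = s := hmax _
      ⟨Subgroup.subset_closure ⟨g, hg_s, rfl⟩, fun a ha b hb => (he a b).mpr (hBcomm _ ha _ hb)⟩
      (fun a ha => Subgroup.subset_closure ⟨a, ha, rfl⟩)
    rw [← this, Equiv.image_preimage]
  have hcard : Nat.card B = Nat.card A := by
    show Nat.card (B : Set H) = Nat.card (A : Set G)
    rw [hB, hA, Nat.card_image_of_injective e.injective]
  have hd : p * q ∣ Nat.card A := by
    rw [← hg, ← Subgroup.orderOf_mk g (Subgroup.subset_closure hg_s : g ∈ A)]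
    exact orderOf_dvd_natCard _
  haveI := Fact.mk hp
  haveI := Fact.mk hq
  obtain ⟨⟨a, ha⟩, hoa⟩ := exists_prime_orderOf_dvd_card' p (G := B)
    (hcard ▸ (Dvd.intro q rfl).trans hd)
  obtain ⟨⟨b, hb⟩, hob⟩ := exists_prime_orderOf_dvd_card' q (G := B)
    (hcard ▸ (Dvd.intro_left p rfl).trans hd)
  rw [Subgroup.orderOf_mk] at hoa hob
  refine ⟨a * b, ?_⟩
  rw [(hBcomm a ha b hb).orderOf_mul_eq_mul_orderOf_of_coprime
    (by rw [hoa, hob]; exact (Nat.coprime_primes hp hq).mpr hpq), hoa, hob]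


/-- Let G and H be finite groups whose commuting graphs are isomorphic: there is a bijection e : G → H with x, y commuting exactly when e(x), e(y) commute. Then G and H have the same prime graph: for distinct primes p, q, G has an element of order pq if and only if H does (and #G = #H, so the prime divisors agree). -/
theorem result {G H : Type*} [Group G] [Finite G] [Group H] [Finite H] (e : G ≃ H)
    (he : ∀ x y : G, Commute x y ↔ Commute (e x) (e y))
    {p q : ℕ} (hp : p.Prime) (hq : q.Prime) (hpq : p ≠ q) :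
    (∃ g : G, orderOf g = p * q) ↔ (∃ h : H, orderOf h = p * q) := by
  refine ⟨dir e he hp hq hpq, dir e.symm (fun x y => ?_) hp hq hpq⟩
  simpa using (he (e.symm x) (e.symm y)).symm

end Cfsg.Agent.S4084
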