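import Cfsg.Statements.S4085
import Mathlib

set_option autoImplicit false
open Cfsg

namespace Cfsg.Agent.S4085

/-- Adjacency in the power graph (reflexive). -/
def Adj {G : Type*} [Group G] (x y : G) : Prop := x ∈ Subgroup.zpowers y ∨ y ∈ Subgroup.zpowers x

theorem adj_symm {G : Type*} [Group G] {x y : G} (h : Adj x y) : Adj y x := h.symm

theorem adj_of_dvd {G : Type*} [Group G] [Finite G] {z x y : G} (hx : x ∈ Subgroup.zpowers z)
    (hy : y ∈ Subgroup.zpowers z) (h : orderOf x ∣ orderOf y) : x ∈ Subgroup.zpowers y := by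
  classical
  haveI := Fintype.ofFinite (Subgroup.zpowers z)
  set T := (Finset.univ.filter fun u : Subgroup.zpowers z => u ^ orderOf y = 1)
  have hle : T.card ≤ orderOf y := IsCyclic.card_pow_eq_one_le (orderOf_pos y)
  let i : Fin (orderOf y) → Subgroup.zpowers z := fun j => ⟨y ^ (j : ℕ), pow_mem hy _⟩
  have hi : Function.Injective i := fun j k hjk => by
    have := congrArg Subtype.val hjk
    rw [pow_inj_mod, Nat.mod_eq_of_lt j.2, Nat.mod_eq_of_lt k.2] at this
    exact Fin.ext this
  have hmem : ∀ j, i j ∈ T := fun j => Finset.mem_filter.mpr ⟨Finset.mem_univ _, Subtype.ext (by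
    show (y ^ (j : ℕ)) ^ orderOf y = 1
    rw [← pow_mul, mul_comm, pow_mul, pow_orderOf_eq_one, one_pow])⟩
  have hT : Finset.univ.image i = T := Finset.eq_of_subset_of_card_le
    (fun u hu => by obtain ⟨j, -, rfl⟩ := Finset.mem_image.mp hu; exact hmem j)
    (by rw [Finset.card_image_of_injective _ hi, Finset.card_univ, Fintype.card_fin]; exact hle)
  have hxT : (⟨x, hx⟩ : Subgroup.zpowers z) ∈ T := Finset.mem_filter.mpr ⟨Finset.mem_univ _,
    Subtype.ext (orderOf_dvd_iff_pow_eq_one.mp h)⟩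
  rw [← hT] at hxT
  obtain ⟨j, -, hj⟩ := Finset.mem_image.mp hxT
  rw [← show y ^ (j : ℕ) = x from congrArg Subtype.val hj]
  exact pow_mem (Subgroup.mem_zpowers y) _

theorem exists_orderOf_eq {G : Type*} [Group G] [Finite G] {z : G} {d : ℕ} (hd : d ∣ orderOf z) :
    ∃ x ∈ Subgroup.zpowers z, orderOf x = d := by
  obtain ⟨k, hk⟩ := hd
  have hk0 : k ≠ 0 := by rintro rfl; rw [mul_zero] at hk; exact (orderOf_pos z).ne' hk
  refine ⟨z ^ k, pow_mem (Subgroup.mem_zpowers z) _, ?_⟩
  rw [orderOf_pow_of_dvd hk0 (hk ▸ dvd_mul_left k d), hk, Nat.mul_div_cancel _ (Nat.pos_of_ne_zero hk0)]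

theorem adj_iff_dvd {G : Type*} [Group G] [Finite G] {z x y : G} (hx : x ∈ Subgroup.zpowers z)
    (hy : y ∈ Subgroup.zpowers z) : Adj x y ↔ orderOf x ∣ orderOf y ∨ orderOf y ∣ orderOf x :=
  ⟨fun h => h.imp (fun h => orderOf_dvd_of_mem_zpowers h) (fun h => orderOf_dvd_of_mem_zpowers h),
    fun h => h.imp (adj_of_dvd hx hy) (adj_of_dvd hy hx)⟩

theorem card_same_order {G : Type*} [Group G] [Finite G] {z : G} {d : ℕ} (hd : d ∣ orderOf z) :
    Nat.card {u : G // u ∈ Subgroup.zpowers z ∧ orderOf u = d} = Nat.totient d := by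
  classical
  haveI := Fintype.ofFinite (Subgroup.zpowers z)
  rw [← IsCyclic.card_orderOf_eq_totient (α := Subgroup.zpowers z)
    (by rw [← Nat.card_eq_fintype_card, Nat.card_zpowers]; exact hd), ← Fintype.card_subtype,
    ← Nat.card_eq_fintype_card]
  exact Nat.card_congr
    ⟨fun u => ⟨⟨u.1, u.2.1⟩, by rw [Subgroup.orderOf_mk]; exact u.2.2⟩,
      fun u => ⟨u.1.1, u.1.2, by rw [Subgroup.orderOf_coe]; exact u.2⟩, fun _ => rfl, fun _ => rfl⟩

/-- In a cyclic group of order divisible by two primes, elements of different order are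
distinguished by comparability. -/
theorem exists_distinguishing {n da db : ℕ} (hnp : ¬ ∃ r j : ℕ, r.Prime ∧ n = r ^ j) (hn : n ≠ 0)
    (hb : db ∣ n) (hab : da ∣ db) (hne : da ≠ db) (ha1 : da ≠ 1) :
    ∃ c, c ∣ n ∧ ¬ ((c ∣ db ∨ db ∣ c) ↔ (c ∣ da ∨ da ∣ c)) := by
  have hdb : db ≠ 0 := ne_zero_of_dvd_ne_zero hn hb
  have hda : da ≠ 0 := ne_zero_of_dvd_ne_zero hdb hab
  obtain ⟨r, hr, hrv⟩ : ∃ r, r.Prime ∧ da.factorization r < db.factorization r := by
    by_contra h
    push Not at h
    refine hne (Nat.dvd_antisymm hab ((Nat.factorization_le_iff_dvd hdb hda).mp fun r => ?_))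
    by_cases hr : r.Prime
    · exact h r hr
    · simp [Nat.factorization_eq_zero_of_not_prime _ hr]
  set i := db.factorization r
  have hri : r ^ i ∣ db := Nat.ordProj_dvd db r
  have hnri : ¬ r ^ i ∣ da := fun h => by
    have := (hr.pow_dvd_iff_le_factorization hda).mp h; omega
  by_cases hA : ∃ q, q.Prime ∧ q ≠ r ∧ q ∣ da
  · obtain ⟨q, hq, hqr, hqa⟩ := hA
    refine ⟨r ^ i, hri.trans hb, fun h => ?_⟩
    rcases h.mp (Or.inl hri) with h' | h'
    · exact hnri h'
    · exact hqr ((Nat.prime_dvd_prime_iff_eq hq hr).mp (hq.dvd_of_dvd_pow (hqa.trans h')))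
  push Not at hA
  have hra : r ∣ da := by
    obtain ⟨q, hq, hqa⟩ := Nat.exists_prime_and_dvd ha1
    have : q = r := by by_contra hne'; exact hA q hq hne' hqa
    exact this ▸ hqa
  obtain ⟨q, hq, hqn, hqr⟩ : ∃ q, q.Prime ∧ q ∣ n ∧ q ≠ r := by
    by_contra h
    push Not at h
    exact hnp ⟨r, _, hr, Nat.eq_prime_pow_of_unique_prime_dvd hn fun {d} hd hdn => h d hd hdn⟩
  have hqa : ¬ q ∣ da := hA q hq hqr
  by_cases hqb : q ∣ db
  · refine ⟨q, hqn, fun h => ?_⟩
    rcases h.mp (Or.inl hqb) with h' | h'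
    · exact hqa h'
    · exact hqr.symm ((Nat.prime_dvd_prime_iff_eq hr hq).mp (hra.trans h'))
  · have hcop : q.Coprime da := hq.coprime_iff_not_dvd.mpr hqa
    refine ⟨q * da, hcop.mul_dvd_of_dvd_of_dvd hqn (hab.trans hb), fun h => ?_⟩
    rcases h.mpr (Or.inr (dvd_mul_left da q)) with h' | h'
    · exact hqb ((dvd_mul_right q da).trans h')
    · have hcop' : (r ^ i).Coprime q := Nat.Coprime.pow_left i ((Nat.coprime_primes hr hq).mpr hqr.symm)
      exact hnri (hcop'.dvd_of_dvd_mul_left (hri.trans h'))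

theorem two_mul_totient_min {n : ℕ} (hnp : ¬ ∃ r j : ℕ, r.Prime ∧ n = r ^ j) (hn : 1 < n) :
    ∃ r, r.Prime ∧ r ∣ n ∧ r < n ∧ 2 * Nat.totient r ≤ Nat.totient n := by
  have hr : n.minFac.Prime := Nat.minFac_prime (by omega)
  obtain ⟨q, hq, hqn, hqr⟩ : ∃ q, q.Prime ∧ q ∣ n ∧ q ≠ n.minFac := by
    by_contra h
    push Not at h
    exact hnp ⟨_, _, hr, Nat.eq_prime_pow_of_unique_prime_dvd (by omega) fun {d} hd hdn => h d hd hdn⟩
  have hcop := (Nat.coprime_primes hr hq).mpr hqr.symm
  have hdvd : n.minFac * q ∣ n := hcop.mul_dvd_of_dvd_of_dvd (Nat.minFac_dvd n) hqn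
  refine ⟨n.minFac, hr, Nat.minFac_dvd n, ?_, ?_⟩
  · calc n.minFac < n.minFac * q := lt_mul_of_one_lt_right hr.pos hq.one_lt
      _ ≤ n := Nat.le_of_dvd (by omega) hdvd
  · have h1 : n.minFac ≤ q := Nat.minFac_le_of_dvd hq.two_le hqn
    have h2 := Nat.le_of_dvd (Nat.totient_pos.mpr (by omega)) (Nat.totient_dvd_of_dvd hdvd)
    rw [Nat.totient_mul hcop, Nat.totient_prime hq] at h2
    have : 2 ≤ q - 1 := by have := hr.two_le; omega
    calc 2 * Nat.totient n.minFac ≤ (q - 1) * Nat.totient n.minFac := Nat.mul_le_mul_right _ this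
      _ = Nat.totient n.minFac * (q - 1) := mul_comm _ _
      _ ≤ _ := h2

theorem totient_le_of_dvd {d n : ℕ} (hdn : d ∣ n) (hlt : d < n) :
    Nat.totient d ≤ Nat.totient n ∧ (Nat.totient d = Nat.totient n → n = 2 * d) := by
  have hn : 0 < n := by omega
  refine ⟨Nat.le_of_dvd (Nat.totient_pos.mpr hn) (Nat.totient_dvd_of_dvd hdn), fun he => ?_⟩
  obtain ⟨k, rfl⟩ := hdn
  have hd : 0 < d := Nat.pos_of_mul_pos_right hn
  have hk : 0 < k := Nat.pos_of_mul_pos_left hn
  have h1 := Nat.totient_super_multiplicative d k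
  rw [← he] at h1
  have hk1 : Nat.totient k = 1 := by
    have := Nat.totient_pos.mpr hk
    have h2 : Nat.totient k ≤ 1 := Nat.le_of_mul_le_mul_left (by simpa using h1) (Nat.totient_pos.mpr hd)
    omega
  rcases Nat.totient_eq_one_iff.mp hk1 with rfl | rfl
  · simp at hlt
  · ring

/-- A maximal cyclic subgroup of non-prime-power order gives an element of the same order on
the other side. -/
theorem exists_of_maximal {G H : Type*} [Group G] [Finite G] [Group H] [Finite H] (e : G ≃ H)
    (he : ∀ x y : G, Adj x y ↔ Adj (e x) (e y)) {z : G}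
    (hmax : ∀ y : G, z ∈ Subgroup.zpowers y → y ∈ Subgroup.zpowers z)
    (hnp : ¬ ∃ r j : ℕ, r.Prime ∧ orderOf z = r ^ j) : ∃ h : H, orderOf h = orderOf z := by
  classical
  set n := orderOf z with hn
  have hn1 : 1 < n := by
    by_contra h
    exact hnp ⟨2, 0, Nat.prime_two, by rw [pow_zero]; have := orderOf_pos z; omega⟩
  -- choose the generator so that it does not go to `1`
  obtain ⟨r₀, hr₀, hr₀n, hr₀lt, hr₀2⟩ := two_mul_totient_min hnp hn1
  have hphi : 2 ≤ Nat.totient n := le_trans (by have := Nat.totient_pos.mpr hr₀.pos; omega) hr₀2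
  obtain ⟨z', hz'z, hz'o, hz'1⟩ : ∃ z' ∈ Subgroup.zpowers z, orderOf z' = n ∧ e z' ≠ 1 := by
    by_contra h
    push Not at h
    have hle : Nat.card {u : G // u ∈ Subgroup.zpowers z ∧ orderOf u = n} ≤ 1 :=
      Finite.card_le_one_iff_subsingleton.mpr ⟨fun u v => Subtype.ext (e.injective
        ((h u.1 u.2.1 u.2.2).trans (h v.1 v.2.1 v.2.2).symm))⟩
    rw [card_same_order dvd_rfl, ← hn] at hle
    omega
  have hzz' : z ∈ Subgroup.zpowers z' := adj_of_dvd (Subgroup.mem_zpowers z) hz'z (by rw [hz'o])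
  have heq : Subgroup.zpowers z' = Subgroup.zpowers z :=
    le_antisymm (Subgroup.zpowers_le.mpr hz'z) (Subgroup.zpowers_le.mpr hzz')
  set w := e z'
  have hN : ∀ y : H, Adj w y ↔ e.symm y ∈ Subgroup.zpowers z := by
    intro y
    obtain ⟨x, rfl⟩ := e.surjective y
    rw [← he, e.symm_apply_apply]
    constructor
    · rintro (h | h)
      · exact hmax x (Subgroup.zpowers_le.mpr h hzz')
      · exact heq ▸ h
    · exact fun h => Or.inr (heq ▸ h)
  -- universal vertices of the neighbourhood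
  let U := {u : H | Adj w u ∧ ∀ v, Adj w v → Adj u v}
  have hUG : ∀ u : H, u ∈ U ↔ e.symm u ∈ Subgroup.zpowers z ∧ (e.symm u = 1 ∨ orderOf (e.symm u) = n) := by
    intro u
    constructor
    · rintro ⟨hu, huv⟩
      have hu' := (hN u).mp hu
      refine ⟨hu', ?_⟩
      by_contra hc
      push Not at hc
      set a := e.symm u
      have hda : orderOf a ∣ n := orderOf_dvd_of_mem_zpowers hu'
      obtain ⟨c, hc', hnot⟩ := exists_distinguishing hnp (by omega) dvd_rfl hda hc.2
        (fun h => hc.1 (orderOf_eq_one_iff.mp h))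
      obtain ⟨x, hx, hxo⟩ := exists_orderOf_eq hc'
      have hax : Adj a x := by
        rw [he, show e a = u from e.apply_symm_apply u]
        exact huv _ ((hN _).mpr (by rwa [e.symm_apply_apply]))
      rw [adj_iff_dvd hu' hx, hxo] at hax
      exact hnot ⟨fun _ => hax.symm, fun _ => Or.inl hc'⟩
    · rintro ⟨hu', hcase⟩
      refine ⟨(hN u).mpr hu', fun v hv => ?_⟩
      have hv' := (hN v).mp hv
      rw [← e.apply_symm_apply u, ← e.apply_symm_apply v, ← he, adj_iff_dvd hu' hv']
      rcases hcase with h | h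
      · rw [h, orderOf_one]; exact Or.inl (one_dvd _)
      · rw [h]; exact Or.inr (orderOf_dvd_of_mem_zpowers hv')
  -- all nontrivial universal vertices have the neighbourhood of `w`
  have hP : ∀ u ∈ U, u ≠ 1 → ∀ y, Adj u y → Adj w y := by
    intro u hu hu1 y hy
    obtain ⟨hu', hcase⟩ := (hUG u).mp hu
    have hgen : ∀ a : G, a ∈ Subgroup.zpowers z → orderOf a = n → ∀ x, Adj a x → x ∈ Subgroup.zpowers z := by
      intro a ha hao x hx
      have hza : z ∈ Subgroup.zpowers a := adj_of_dvd (Subgroup.mem_zpowers z) ha (by rw [hao])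
      rcases hx with h | h
      · exact hmax x (Subgroup.zpowers_le.mpr h hza)
      · exact Subgroup.zpowers_le.mpr ha h
    rw [hN]
    rcases hcase with h | h
    · -- `u` is the image of `1`: then `z` generates `G`
      set g := e.symm 1
      have hg1 : g ≠ 1 := fun e' => hu1 (by
        rw [← e.apply_symm_apply u, h, ← e', e.apply_symm_apply])
      have hgu : ∀ x : G, Adj g x := fun x => by
        rw [he, e.apply_symm_apply]; exact Or.inl (one_mem _)
      have hgz : g ∈ Subgroup.zpowers z := (hN 1).mp (Or.inr (one_mem _))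
      have hgn : orderOf g = n := by
        by_contra hne
        obtain ⟨c, hc', hnot⟩ := exists_distinguishing hnp (by omega) dvd_rfl
          (orderOf_dvd_of_mem_zpowers hgz) hne (fun h => hg1 (orderOf_eq_one_iff.mp h))
        obtain ⟨x, hx, hxo⟩ := exists_orderOf_eq hc'
        have := hgu x
        rw [adj_iff_dvd hgz hx, hxo] at this
        exact hnot ⟨fun _ => this.symm, fun _ => Or.inl hc'⟩
      exact hgen g hgz hgn _ (hgu _)
    · refine hgen _ hu' h _ ?_
      rw [he, e.apply_symm_apply, e.apply_symm_apply]; exact hy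
  have h1U : (1 : H) ∈ U := ⟨Or.inr (one_mem _), fun v _ => Or.inl (one_mem _)⟩
  have hUcard : Nat.card U = Nat.totient n + 1 := by
    have h1 : Nat.card U = Nat.card ({a : G | a ∈ Subgroup.zpowers z ∧ (a = 1 ∨ orderOf a = n)} : Set G) :=
      Nat.card_congr (e.symm.subtypeEquiv fun u => hUG u)
    rw [h1, Nat.card_coe_set_eq,
      show {a : G | a ∈ Subgroup.zpowers z ∧ (a = 1 ∨ orderOf a = n)}
        = insert (1 : G) {a : G | a ∈ Subgroup.zpowers z ∧ orderOf a = n} by
        ext a
        simp only [Set.mem_setOf_eq, Set.mem_insert_iff]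
        constructor
        · rintro ⟨ha, h | h⟩
          · exact Or.inl h
          · exact Or.inr ⟨ha, h⟩
        · rintro (h | ⟨ha, h⟩)
          · exact ⟨h ▸ one_mem _, Or.inl h⟩
          · exact ⟨ha, Or.inr h⟩,
      Set.ncard_insert_of_notMem (by
        rintro ⟨-, h⟩
        rw [orderOf_one] at h
        omega) (Set.toFinite _), ← Nat.card_coe_set_eq]
    exact congrArg (· + 1) (card_same_order dvd_rfl)
  -- twins
  let Tw : H → Set H := fun v => {u | Adj w u ∧ ∀ y, Adj w y → (Adj u y ↔ Adj v y)}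
  have hTw : ∀ v, Adj w v → v ∉ U → ∀ u ∈ Tw v, orderOf (e.symm u) = orderOf (e.symm v) := by
    intro v hv hvU u ⟨hu, hiff⟩
    have hu' := (hN u).mp hu
    have hv' := (hN v).mp hv
    set a := e.symm v
    set b := e.symm u
    have hiff' : ∀ x ∈ Subgroup.zpowers z, Adj b x ↔ Adj a x := fun x hx => by
      rw [he, he, e.apply_symm_apply, e.apply_symm_apply]
      exact hiff _ ((hN _).mpr (by rwa [e.symm_apply_apply]))
    have hcmp : orderOf b ∣ orderOf a ∨ orderOf a ∣ orderOf b :=
      (adj_iff_dvd hu' hv').mp ((hiff' a hv').mpr (Or.inl (Subgroup.mem_zpowers a)))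
    have hna : a ≠ 1 ∧ orderOf a ≠ n := by
      exact ⟨fun h => hvU ((hUG v).mpr ⟨hv', Or.inl h⟩), fun h => hvU ((hUG v).mpr ⟨hv', Or.inr h⟩)⟩
    by_contra hne
    have key : ∀ {x y : G}, x ∈ Subgroup.zpowers z → y ∈ Subgroup.zpowers z →
        orderOf x ∣ orderOf y → orderOf x ≠ orderOf y → orderOf x ≠ 1 →
        ∃ c ∈ Subgroup.zpowers z, ¬ (Adj y c ↔ Adj x c) := by
      intro x y hx hy hxy hne' hx1
      obtain ⟨c, hc', hnot⟩ := exists_distinguishing hnp (by omega) (orderOf_dvd_of_mem_zpowers hy) hxy hne' hx1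
      obtain ⟨c', hcz, hco⟩ := exists_orderOf_eq hc'
      refine ⟨c', hcz, fun h => hnot ?_⟩
      rw [adj_iff_dvd hy hcz, adj_iff_dvd hx hcz, hco] at h
      exact or_comm.trans (h.trans or_comm)
    rcases hcmp with h | h
    · by_cases hb1 : orderOf b = 1
      · -- then `a` is universal
        refine hvU ⟨hv, fun y hy => ?_⟩
        have := (hiff' _ ((hN y).mp hy)).mp (by rw [orderOf_eq_one_iff.mp hb1]; exact Or.inl (one_mem _))
        rwa [he, e.apply_symm_apply, e.apply_symm_apply] at this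
      · obtain ⟨c, hcz, hc⟩ := key hu' hv' h hne hb1
        exact hc (hiff' c hcz).symm
    · obtain ⟨c, hcz, hc⟩ := key hv' hu' h (Ne.symm hne) (fun h1 => hna.1 (orderOf_eq_one_iff.mp h1))
      exact hc (hiff' c hcz)
  have hTwcard : ∀ v, Adj w v → v ∉ U → Nat.card (Tw v) ≤ Nat.totient (orderOf (e.symm v)) := by
    intro v hv hvU
    rw [← card_same_order (orderOf_dvd_of_mem_zpowers ((hN v).mp hv))]
    exact Nat.card_le_card_of_injective (fun u : Tw v =>
      (⟨e.symm u.1, (hN _).mp u.2.1, hTw v hv hvU _ u.2⟩ :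
        {b : G // b ∈ Subgroup.zpowers z ∧ orderOf b = orderOf (e.symm v)}))
      fun u u' h => Subtype.ext (e.symm.injective (congrArg Subtype.val h))
  -- generators of the same cyclic subgroup are twins
  have hgens : ∀ v, Adj w v → Nat.totient (orderOf v) ≤ Nat.card (Tw v) := by
    intro v hv
    rw [← card_same_order (z := v) dvd_rfl]
    refine Nat.card_le_card_of_injective (fun u => (⟨u.1, ?_⟩ : Tw v)) fun u u' h =>
      Subtype.ext (congrArg (fun t : Tw v => t.1) h)
    have hvu : v ∈ Subgroup.zpowers u.1 := adj_of_dvd (Subgroup.mem_zpowers v) u.2.1 (by rw [u.2.2])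
    have hz : Subgroup.zpowers u.1 = Subgroup.zpowers v :=
      le_antisymm (Subgroup.zpowers_le.mpr u.2.1) (Subgroup.zpowers_le.mpr hvu)
    have hadj : ∀ y, Adj u.1 y ↔ Adj v y := fun y => by
      constructor <;> rintro (h | h)
      · exact Or.inl (Subgroup.zpowers_le.mpr h hvu)
      · exact Or.inr (hz ▸ h)
      · exact Or.inl (Subgroup.zpowers_le.mpr h u.2.1)
      · exact Or.inr (hz.symm ▸ h)
    exact ⟨adj_symm ((hadj w).mpr (adj_symm hv)), fun y _ => hadj y⟩
  by_cases hwpp : ∃ s j, s.Prime ∧ orderOf w = s ^ j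
  · exfalso
    obtain ⟨s, j, hs, hwj⟩ := hwpp
    obtain ⟨t, htU, htmax⟩ := Set.exists_max_image U (fun u => orderOf u) (Set.toFinite _) ⟨1, h1U⟩
    have hUt : ∀ u ∈ U, u ∈ Subgroup.zpowers t := by
      intro u hu
      rcases htU.2 u hu.1 with h | h
      · have hz : Subgroup.zpowers t = Subgroup.zpowers u :=
          Subgroup.eq_of_le_of_card_ge (Subgroup.zpowers_le.mpr h)
            (by rw [Nat.card_zpowers, Nat.card_zpowers]; exact htmax u hu)
        exact hz ▸ Subgroup.mem_zpowers u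
      · exact h
    have hcardU : Nat.totient n + 1 ≤ orderOf t := by
      rw [← hUcard, ← Nat.card_zpowers]
      exact Nat.card_le_card_of_injective (fun u : U => (⟨u.1, hUt _ u.2⟩ : Subgroup.zpowers t))
        fun a b h => Subtype.ext (congrArg (fun x : Subgroup.zpowers t => x.1) h)
    have ht1 : t ≠ 1 := fun h => by rw [h, orderOf_one] at hcardU; omega
    have htpp : ∀ r, r.Prime → r ∣ orderOf t → r = s := by
      intro r hr hrt
      by_contra hne
      obtain ⟨x, hx, hxo⟩ := exists_orderOf_eq hrt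
      rcases hP t htU ht1 x (Or.inr hx) with h | h
      · have hd := orderOf_dvd_of_mem_zpowers h
        rw [hwj, hxo] at hd
        rcases (Nat.dvd_prime hr).mp hd with e1 | e1
        · exact hz'1 (orderOf_eq_one_iff.mp (hwj.trans e1))
        · exact hne (((Nat.prime_dvd_prime_iff_eq hs hr).mp (by
            rcases j with _ | j
            · rw [pow_zero] at e1; exact absurd e1.symm hr.ne_one
            · exact e1 ▸ dvd_pow_self s (Nat.succ_ne_zero j))).symm)
      · have hd := orderOf_dvd_of_mem_zpowers h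
        rw [hxo, hwj] at hd
        exact hne ((Nat.prime_dvd_prime_iff_eq hr hs).mp (hr.dvd_of_dvd_pow hd))
    obtain ⟨c, hc⟩ : ∃ c, orderOf t = s ^ c :=
      ⟨_, Nat.eq_prime_pow_of_unique_prime_dvd (orderOf_pos t).ne' fun {d} hd hdt => htpp d hd hdt⟩
    -- vertices outside `U` lie above `t`
    have habove : ∀ v, Adj w v → v ∉ U → t ∈ Subgroup.zpowers v := by
      intro v hv hvU
      refine (htU.2 v hv).resolve_right fun h => hvU ⟨hv, fun y hy => ?_⟩
      rcases htU.2 y hy with h' | h'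
      · exact Or.inl (Subgroup.zpowers_le.mpr h' h)
      · obtain ⟨i, -, hi⟩ := (Nat.dvd_prime_pow hs).mp (hc ▸ orderOf_dvd_of_mem_zpowers h)
        obtain ⟨k, -, hk⟩ := (Nat.dvd_prime_pow hs).mp (hc ▸ orderOf_dvd_of_mem_zpowers h')
        rw [adj_iff_dvd h h', hi, hk]
        exact (le_total i k).imp (pow_dvd_pow s) (pow_dvd_pow s)
    obtain ⟨a, haz, hao⟩ := exists_orderOf_eq (z := z) hr₀n
    have hva : Adj w (e a) := (hN _).mpr (by rwa [e.symm_apply_apply])
    have hvU : e a ∉ U := by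
      intro h
      obtain ⟨-, h | h⟩ := (hUG _).mp h <;> rw [e.symm_apply_apply] at h
      · rw [h, orderOf_one] at hao; exact hr₀.ne_one hao.symm
      · omega
    have h1 := (hgens _ hva).trans (hTwcard _ hva hvU)
    rw [e.symm_apply_apply, hao] at h1
    have h2 := Nat.le_of_dvd (Nat.totient_pos.mpr (orderOf_pos (e a)))
      (Nat.totient_dvd_of_dvd (orderOf_dvd_of_mem_zpowers (habove _ hva hvU)))
    have h3 : orderOf t ≤ 2 * Nat.totient (orderOf t) := by
      rcases c with _ | c
      · rw [hc, pow_zero]; simp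
      · rw [hc, Nat.totient_prime_pow_succ hs, pow_succ, mul_comm 2, mul_assoc]
        exact Nat.mul_le_mul_left _ (by have := hs.two_le; omega)
    omega
  · -- `w` is not of prime power order
    have hwne : orderOf w ≠ 0 := (orderOf_pos w).ne'
    by_cases habove : ∃ v, w ∈ Subgroup.zpowers v ∧ v ∉ Subgroup.zpowers w
    swap
    · push Not at habove
      refine ⟨w, ?_⟩
      rw [← Nat.card_zpowers, hn, ← Nat.card_zpowers]
      refine Nat.card_congr (e.symm.subtypeEquiv fun y => ?_)
      rw [← hN]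
      exact ⟨fun h => Or.inr h, fun h => h.elim (habove y) id⟩
    exfalso
    obtain ⟨v, hwv, hvw⟩ := habove
    -- universal vertices are the generators of `⟨w⟩`
    have hUw : ∀ u ∈ U, u ≠ 1 → u ∈ Subgroup.zpowers w ∧ orderOf u = orderOf w := by
      intro u hu hu1
      rcases hu.1 with h | h
      · -- `u` above `w`
        have hle : u ∈ Subgroup.zpowers w := by
          by_contra hnot
          have hd : orderOf w ∣ orderOf u := orderOf_dvd_of_mem_zpowers h
          have hne : orderOf w ≠ orderOf u := fun he' => hnot (by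
            have hz : Subgroup.zpowers w = Subgroup.zpowers u := Subgroup.eq_of_le_of_card_ge
              (Subgroup.zpowers_le.mpr h) (by rw [Nat.card_zpowers, Nat.card_zpowers, he'])
            exact hz ▸ Subgroup.mem_zpowers u)
          have hnpu : ¬ ∃ r j, r.Prime ∧ orderOf u = r ^ j := fun ⟨r, j, hr, hj⟩ => by
            obtain ⟨i, -, hi⟩ := (Nat.dvd_prime_pow hr).mp (hj ▸ hd)
            exact hwpp ⟨r, i, hr, hi⟩
          obtain ⟨c, hc', hnot'⟩ := exists_distinguishing hnpu (orderOf_pos u).ne' dvd_rfl hd hne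
            (fun h1 => hz'1 (orderOf_eq_one_iff.mp h1))
          obtain ⟨x, hx, hxo⟩ := exists_orderOf_eq hc'
          have := hP u hu hu1 x (Or.inr hx)
          rw [adj_iff_dvd h hx, hxo] at this
          exact hnot' ⟨fun _ => this.symm, fun _ => Or.inl hc'⟩
        refine ⟨hle, Nat.dvd_antisymm (orderOf_dvd_of_mem_zpowers hle) (orderOf_dvd_of_mem_zpowers h)⟩
      · refine ⟨h, ?_⟩
        by_contra hne
        obtain ⟨c, hc', hnot'⟩ := exists_distinguishing hwpp hwne dvd_rfl
          (orderOf_dvd_of_mem_zpowers h) hne (fun h1 => hu1 (orderOf_eq_one_iff.mp h1))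
        obtain ⟨x, hx, hxo⟩ := exists_orderOf_eq hc'
        have := hu.2 x (Or.inr hx)
        rw [adj_iff_dvd h hx, hxo] at this
        exact hnot' ⟨fun _ => this.symm, fun _ => Or.inl hc'⟩
    have hphiw : Nat.totient n ≤ Nat.totient (orderOf w) := by
      rw [← card_same_order (z := w) dvd_rfl]
      have h1 : Nat.card (U \ {1} : Set H) = Nat.totient n := by
        rw [Nat.card_coe_set_eq, Set.ncard_diff_singleton_of_mem h1U, ← Nat.card_coe_set_eq, hUcard]
        omega
      rw [← h1]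
      exact Nat.card_le_card_of_injective (fun u : (U \ {1} : Set H) =>
        (⟨u.1, hUw u.1 u.2.1 u.2.2⟩ : {b : H // b ∈ Subgroup.zpowers w ∧ orderOf b = orderOf w}))
        fun a b h => Subtype.ext (congrArg (fun x : {b : H // b ∈ Subgroup.zpowers w ∧ orderOf b = orderOf w} => x.1) h)
    -- every vertex above `w` corresponds to order `n / 2`
    have hhalf : ∀ v, w ∈ Subgroup.zpowers v → v ∉ Subgroup.zpowers w → n = 2 * orderOf (e.symm v) := by
      intro v hwv hvw
      have hv : Adj w v := Or.inl hwv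
      have hvU : v ∉ U := fun h => hvw (hUw v h (fun h1 => hvw (h1 ▸ one_mem _))).1
      have hlt : orderOf (e.symm v) < n := by
        refine lt_of_le_of_ne (Nat.le_of_dvd (by omega) (orderOf_dvd_of_mem_zpowers ((hN v).mp hv))) fun h => ?_
        exact hvU ((hUG v).mpr ⟨(hN v).mp hv, Or.inr h⟩)
      obtain ⟨h1, h2⟩ := totient_le_of_dvd (orderOf_dvd_of_mem_zpowers ((hN v).mp hv)) hlt
      have h3 := (hgens v hv).trans (hTwcard v hv hvU)
      have h4 := Nat.le_of_dvd (Nat.totient_pos.mpr (orderOf_pos v))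
        (Nat.totient_dvd_of_dvd (orderOf_dvd_of_mem_zpowers hwv))
      exact h2 (le_antisymm h1 (hphiw.trans (h4.trans h3)))
    apply hvw
    refine (hUw v ⟨Or.inl hwv, fun y hy => ?_⟩ (fun h1 => hvw (h1 ▸ one_mem _))).1
    rcases hy with h | h
    · by_cases hy' : y ∈ Subgroup.zpowers w
      · exact Or.inr (Subgroup.zpowers_le.mpr hwv hy')
      · have e1 := hhalf v hwv hvw
        have e2 := hhalf y h hy'
        rw [← e.apply_symm_apply v, ← e.apply_symm_apply y, ← he,
          adj_iff_dvd ((hN v).mp (Or.inl hwv)) ((hN y).mp (Or.inl h))]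
        exact Or.inl (dvd_of_eq (by omega))
    · exact Or.inr (Subgroup.zpowers_le.mpr hwv h)

theorem one_direction {G H : Type*} [Group G] [Finite G] [Group H] [Finite H] (e : G ≃ H)
    (he : ∀ x y : G, Adj x y ↔ Adj (e x) (e y)) {p q : ℕ} (hp : p.Prime) (hq : q.Prime) (hpq : p ≠ q)
    (h : ∃ g : G, orderOf g = p * q) : ∃ k : H, orderOf k = p * q := by
  obtain ⟨g, hg⟩ := h
  obtain ⟨z, hgz, hzmax⟩ := Set.exists_max_image {y : G | g ∈ Subgroup.zpowers y} (fun y => orderOf y)
    (Set.toFinite _) ⟨g, Subgroup.mem_zpowers g⟩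
  have hmax : ∀ y : G, z ∈ Subgroup.zpowers y → y ∈ Subgroup.zpowers z := fun y hy => by
    have hz : Subgroup.zpowers z = Subgroup.zpowers y := Subgroup.eq_of_le_of_card_ge
      (Subgroup.zpowers_le.mpr hy) (by
        rw [Nat.card_zpowers, Nat.card_zpowers]
        exact hzmax y (Subgroup.zpowers_le.mpr hy hgz))
    exact hz ▸ Subgroup.mem_zpowers y
  have hd : p * q ∣ orderOf z := hg ▸ orderOf_dvd_of_mem_zpowers hgz
  obtain ⟨k, hk⟩ := exists_of_maximal e he hmax (fun ⟨r, j, hr, hj⟩ => by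
    rw [hj] at hd
    have e1 := (Nat.prime_dvd_prime_iff_eq hp hr).mp (hp.dvd_of_dvd_pow ((dvd_mul_right p q).trans hd))
    have e2 := (Nat.prime_dvd_prime_iff_eq hq hr).mp (hq.dvd_of_dvd_pow ((dvd_mul_left q p).trans hd))
    exact hpq (e1.trans e2.symm))
  obtain ⟨x, -, hx⟩ := exists_orderOf_eq (z := k) (hk ▸ hd)
  exact ⟨x, hx⟩


/-- Let G and H be finite groups whose power graphs are isomorphic: there is a bijection e : G → H such that, for all x, y, one of x, y is a power of the other exactly when one of e(x), e(y) is a power of the other. Then G and H have the same prime graph: for distinct primes p, q, G has an element of order pq if and only if H does. -/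
theorem result {G H : Type*} [Group G] [Finite G] [Group H] [Finite H] (e : G ≃ H)
    (he : ∀ x y : G, (x ∈ Subgroup.zpowers y ∨ y ∈ Subgroup.zpowers x) ↔
      (e x ∈ Subgroup.zpowers (e y) ∨ e y ∈ Subgroup.zpowers (e x)))
    {p q : ℕ} (hp : p.Prime) (hq : q.Prime) (hpq : p ≠ q) :
    (∃ g : G, orderOf g = p * q) ↔ (∃ h : H, orderOf h = p * q) := by
  refine ⟨one_direction e he hp hq hpq, one_direction e.symm (fun x y => ?_) hp hq hpq⟩
  show Adj x y ↔ Adj (e.symm x) (e.symm y)
  rw [show Adj (e.symm x) (e.symm y) ↔ Adj (e (e.symm x)) (e (e.symm y)) from he _ _,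
    e.apply_symm_apply, e.apply_symm_apply]

end Cfsg.Agent.S4085
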