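import Cfsg.Statements.S4086
import Cfsg.Agent.Lib.Element

set_option autoImplicit false
open Cfsg

namespace Cfsg.Agent.S4086


/-- For a finite group G the following are equivalent: every non-identity element has prime-power order; whenever two elements generate a cyclic subgroup, one of them is a power of the other (the enhanced power graph of G coincides with its power graph). -/
theorem result {G : Type*} [Group G] [Finite G] :
    (∀ g : G, g ≠ 1 → IsPrimePow (orderOf g)) ↔
    (∀ x y : G, IsCyclic ↥(Subgroup.closure ({x, y} : Set G)) → (x ∈ Subgroup.zpowers y ∨ y ∈ Subgroup.zpowers x)) := by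
  constructor
  · intro h x y hcyc
    obtain ⟨⟨g, hg⟩, hgen⟩ := hcyc.exists_generator
    have hx : (⟨x, Subgroup.subset_closure (by simp)⟩ : Subgroup.closure ({x, y} : Set G)) ∈
        Subgroup.zpowers (⟨g, hg⟩ : Subgroup.closure ({x, y} : Set G)) := hgen _
    have hy : (⟨y, Subgroup.subset_closure (by simp)⟩ : Subgroup.closure ({x, y} : Set G)) ∈
        Subgroup.zpowers (⟨g, hg⟩ : Subgroup.closure ({x, y} : Set G)) := hgen _
    obtain ⟨a, ha⟩ := hx
    obtain ⟨b, hb⟩ := hy
    have ha' : g ^ a = x := by simpa using congrArg Subtype.val ha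
    have hb' : g ^ b = y := by simpa using congrArg Subtype.val hb
    by_cases hg1 : g = 1
    · left; subst hg1; rw [← ha', one_zpow]; exact Subgroup.one_mem _
    obtain ⟨p, k, hp, -, hk⟩ := h g hg1
    rw [← Nat.prime_iff] at hp
    haveI : Fact p.Prime := ⟨hp⟩
    have hord : ∀ z ∈ Subgroup.zpowers g, ∃ j, j ≤ k ∧ orderOf z = p ^ j := by
      intro z hz
      have := orderOf_dvd_of_mem_zpowers hz
      rw [← hk] at this
      obtain ⟨j, hj, e⟩ := (Nat.dvd_prime_pow hp).mp this
      exact ⟨j, hj, e⟩
    have key : ∀ u ∈ Subgroup.zpowers g, ∀ v ∈ Subgroup.zpowers g, orderOf u ∣ orderOf v →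
        u ∈ Subgroup.zpowers v := by
      intro u hu v hv huv
      classical
      haveI : Fintype (Subgroup.zpowers g) := Fintype.ofFinite _
      let u' : Subgroup.zpowers g := ⟨u, hu⟩
      let v' : Subgroup.zpowers g := ⟨v, hv⟩
      have hu' : u' ^ orderOf v = 1 := Subtype.ext (orderOf_dvd_iff_pow_eq_one.mp huv)
      have hsub : (Finset.univ.filter fun z : Subgroup.zpowers g => z ∈ Subgroup.zpowers v') ⊆
          Finset.univ.filter fun z : Subgroup.zpowers g => z ^ orderOf v = 1 := by
        intro z
        simp only [Finset.mem_filter, Finset.mem_univ, true_and]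
        rintro ⟨c, rfl⟩
        show (v' ^ c) ^ orderOf v = 1
        rw [← zpow_natCast, ← zpow_mul, mul_comm, zpow_mul, zpow_natCast]
        simp [show v' ^ orderOf v = 1 from Subtype.ext (pow_orderOf_eq_one v)]
      have hc : (Finset.univ.filter fun z : Subgroup.zpowers g => z ^ orderOf v = 1).card ≤
          (Finset.univ.filter fun z : Subgroup.zpowers g => z ∈ Subgroup.zpowers v').card := by
        refine le_trans (IsCyclic.card_pow_eq_one_le (orderOf_pos v)) ?_
        rw [← Fintype.card_subtype, ← Nat.card_eq_fintype_card,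
          show orderOf v = orderOf v' from (Subgroup.orderOf_coe v')]
        exact (Nat.card_zpowers v').ge
      have : u' ∈ Finset.univ.filter fun z : Subgroup.zpowers g => z ∈ Subgroup.zpowers v' := by
        rw [Finset.eq_of_subset_of_card_le hsub hc]; simp [hu']
      obtain ⟨c, hc'⟩ := (Finset.mem_filter.mp this).2
      exact ⟨c, congrArg Subtype.val hc'⟩
    have hxg : x ∈ Subgroup.zpowers g := ⟨a, ha'⟩
    have hyg : y ∈ Subgroup.zpowers g := ⟨b, hb'⟩
    obtain ⟨i, -, hi⟩ := hord x hxg
    obtain ⟨j, -, hj⟩ := hord y hyg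
    rcases le_total i j with hij | hij
    · exact Or.inl (key x hxg y hyg (hi ▸ hj ▸ pow_dvd_pow p hij))
    · exact Or.inr (key y hyg x hxg (hi ▸ hj ▸ pow_dvd_pow p hij))
  · intro h g hg
    by_contra hnp
    have hn1 : orderOf g ≠ 1 := by simpa using hg
    rw [isPrimePow_iff_unique_prime_dvd] at hnp
    obtain ⟨p, hp, hpd⟩ := Nat.exists_prime_and_dvd hn1
    obtain ⟨q, hq, hqd, hpq⟩ : ∃ q, q.Prime ∧ q ∣ orderOf g ∧ q ≠ p := by
      by_contra hc
      push Not at hc
      exact hnp ⟨p, ⟨hp, hpd⟩, fun q hq => hc q hq.1 hq.2⟩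
    obtain ⟨x, hxg, hx⟩ := Cfsg.Agent.Element.exists_orderOf_eq_of_dvd (orderOf_pos g).ne' hpd
    obtain ⟨y, hyg, hy⟩ := Cfsg.Agent.Element.exists_orderOf_eq_of_dvd (orderOf_pos g).ne' hqd
    have hle : Subgroup.closure ({x, y} : Set G) ≤ Subgroup.zpowers g := by
      rw [Subgroup.closure_le]
      intro z hz
      rcases hz with rfl | rfl
      · exact hxg
      · exact hyg
    rcases h x y (Subgroup.isCyclic_of_le hle) with h' | h'
    · have := orderOf_dvd_of_mem_zpowers h'
      rw [hx, hy] at this
      exact hpq ((Nat.prime_dvd_prime_iff_eq hp hq).mp this).symm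
    · have := orderOf_dvd_of_mem_zpowers h'
      rw [hx, hy] at this
      exact hpq ((Nat.prime_dvd_prime_iff_eq hq hp).mp this)

end Cfsg.Agent.S4086
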