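import Cfsg.Statements.S4088
import Cfsg.Agent.FGSev.Subnormalizer
-- import your own Cfsg.Agent.* helpers here

set_option autoImplicit false
open Cfsg

namespace Cfsg.Agent.S4088

/-- Let G be a finite group, p a prime dividing the order of G, H a p-subgroup of G and P a Sylow p-subgroup of G. Call the subnormalizer of H the set of elements g of G such that H is subnormal in the subgroup generated by H and g. Then the number of elements of the subnormalizer of H equals the number of Sylow p-subgroups of G containing H times the order of N_G(P), and also equals the number of conjugates of H contained in P times the order of N_G(H). -/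
theorem result {G : Type*} [Group G] [Finite G] (p : ℕ) [Fact p.Prime]
    (hp : p ∣ Nat.card G) (H : Subgroup G) (hH : IsPGroup p H) (P : Sylow p G) :
    Nat.card {g : G // ((H).subgroupOf (H ⊔ Subgroup.zpowers g)).IsSubnormal} =
        Nat.card {Q : Sylow p G // H ≤ (Q : Subgroup G)} * Nat.card (Subgroup.normalizer ((P : Subgroup G) : Set G)) ∧
    Nat.card {g : G // ((H).subgroupOf (H ⊔ Subgroup.zpowers g)).IsSubnormal} =
        Nat.card {K : Subgroup G // K ≤ (P : Subgroup G) ∧ ∃ g : G, K = H.map (MulAut.conj g).toMonoidHom} *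
          Nat.card (Subgroup.normalizer (H : Set G)) := by
  classical
  set lam := Nat.card {Q : Sylow p G // H ≤ (Q : Subgroup G)} with hlam
  have h1 : Nat.card {g : G // ((H).subgroupOf (H ⊔ Subgroup.zpowers g)).IsSubnormal} =
      lam * Nat.card (Subgroup.normalizer ((P : Subgroup G) : Set G)) :=
    Cfsg.Agent.FGSev.card_subnormalizer hH P
  refine ⟨h1, h1.trans ?_⟩
  set α : Subgroup G → ℕ := fun A =>
    Nat.card {K : Subgroup G // K ≤ A ∧ ∃ g : G, K = H.map (MulAut.conj g).toMonoidHom} with hα
  show _ = α (P : Subgroup G) * _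
  let C := {K : Subgroup G // ∃ g : G, K = H.map (MulAut.conj g).toMonoidHom}
  haveI : Fintype C := Fintype.ofFinite _
  haveI : Fintype (Sylow p G) := Fintype.ofFinite _
  -- the number of conjugates of `H`
  have hC : Nat.card C * Nat.card (Subgroup.normalizer (H : Set G)) = Nat.card G := by
    rw [Subgroup.card_eq_card_quotient_mul_card_subgroup (Subgroup.normalizer (H : Set G))]
    congr 1
    symm
    refine Nat.card_congr (Equiv.ofBijective (Quotient.lift
      (fun g : G => (⟨H.map (MulAut.conj g).toMonoidHom, g, rfl⟩ : C)) ?_) ⟨?_, ?_⟩)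
    · intro a b hab
      apply Subtype.ext
      have hab' := Cfsg.Agent.Fusion.cj_eq_iff_mem_normalizer.mpr (QuotientGroup.leftRel_apply.mp hab)
      show Cfsg.Agent.Fusion.cj a H = Cfsg.Agent.Fusion.cj b H
      conv_lhs => rw [← hab']
      rw [Cfsg.Agent.Fusion.cj_cj, mul_inv_cancel_left]
    · intro a b hab
      induction a using QuotientGroup.induction_on with
      | H a => induction b using QuotientGroup.induction_on with
        | H b =>
          refine QuotientGroup.eq.mpr (Cfsg.Agent.Fusion.cj_eq_iff_mem_normalizer.mp ?_)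
          have hab' : Cfsg.Agent.Fusion.cj a H = Cfsg.Agent.Fusion.cj b H := congrArg Subtype.val hab
          rw [← Cfsg.Agent.Fusion.cj_cj, ← hab', Cfsg.Agent.Fusion.cj_inv_cj]
    · rintro ⟨K, g, rfl⟩
      exact ⟨QuotientGroup.mk g, rfl⟩
  have hP : Nat.card (Sylow p G) * Nat.card (Subgroup.normalizer ((P : Subgroup G) : Set G)) =
      Nat.card G := by
    rw [Sylow.card_eq_index_normalizer P, mul_comm]; exact Subgroup.card_mul_index _
  -- the counts are invariant under conjugation
  have hconst1 : ∀ K : C, Nat.card {Q : Sylow p G // (K : Subgroup G) ≤ (Q : Subgroup G)} = lam := by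
    rintro ⟨K, g, rfl⟩
    refine (Nat.card_congr ((MulAction.toPerm g).subtypeEquiv fun Q => ?_)).symm
    rw [MulAction.toPerm_apply, Cfsg.Agent.Fusion.coe_smul_sylow]
    exact (Subgroup.map_le_map_iff_of_injective (MulAut.conj g).injective).symm
  have hconst2 : ∀ Q : Sylow p G, α (Q : Subgroup G) = α (P : Subgroup G) := by
    intro Q
    obtain ⟨y, hy⟩ := MulAction.exists_smul_eq G P Q
    rw [← hy, Cfsg.Agent.Fusion.coe_smul_sylow]
    let e : Subgroup G ≃ Subgroup G :=
      { toFun := fun K => Cfsg.Agent.Fusion.cj y K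
        invFun := fun K => Cfsg.Agent.Fusion.cj y⁻¹ K
        left_inv := Cfsg.Agent.Fusion.cj_inv_cj y
        right_inv := Cfsg.Agent.Fusion.cj_cj_inv y }
    refine (Nat.card_congr (e.subtypeEquiv fun K => ?_)).symm
    refine and_congr (Subgroup.map_le_map_iff_of_injective (MulAut.conj y).injective).symm ?_
    constructor
    · rintro ⟨g, rfl⟩
      exact ⟨y * g, Cfsg.Agent.Fusion.cj_cj y g H⟩
    · rintro ⟨g, hg⟩
      refine ⟨y⁻¹ * g, ?_⟩
      show K = Cfsg.Agent.Fusion.cj (y⁻¹ * g) H
      have hg' : Cfsg.Agent.Fusion.cj y K = Cfsg.Agent.Fusion.cj g H := hg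
      rw [← Cfsg.Agent.Fusion.cj_cj, ← hg']
      exact (Cfsg.Agent.Fusion.cj_inv_cj y K).symm
  -- double counting of incidences
  have hdc : Nat.card C * lam = Nat.card (Sylow p G) * α (P : Subgroup G) := by
    have e : ((K : C) × {Q : Sylow p G // (K : Subgroup G) ≤ (Q : Subgroup G)}) ≃
        ((Q : Sylow p G) × {K : Subgroup G // K ≤ (Q : Subgroup G) ∧
          ∃ g : G, K = H.map (MulAut.conj g).toMonoidHom}) :=
      { toFun := fun z => ⟨z.2.1, z.1.1, z.2.2, z.1.2⟩
        invFun := fun z => ⟨⟨z.2.1, z.2.2.2⟩, z.1, z.2.2.1⟩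
        left_inv := fun z => rfl
        right_inv := fun z => rfl }
    have := Nat.card_congr e
    rw [Nat.card_sigma, Nat.card_sigma, Finset.sum_congr rfl fun K _ => hconst1 K,
      Finset.sum_congr rfl fun Q _ => hconst2 Q] at this
    simpa [Nat.card_eq_fintype_card] using this
  refine Nat.eq_of_mul_eq_mul_left (Nat.card_pos : 0 < Nat.card (Sylow p G)) ?_
  calc Nat.card (Sylow p G) * (lam * Nat.card (Subgroup.normalizer ((P : Subgroup G) : Set G)))
      = lam * Nat.card G := by rw [← hP]; ring
    _ = Nat.card C * lam * Nat.card (Subgroup.normalizer (H : Set G)) := by rw [← hC]; ring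
    _ = _ := by rw [hdc]; ring

end Cfsg.Agent.S4088
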