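import Cfsg.Statements.S4089
import Cfsg.Agent.FGSev.Subnormalizer
-- import your own Cfsg.Agent.* helpers here

set_option autoImplicit false
open Cfsg

namespace Cfsg.Agent.S4089

/-- Let G be a finite group, p a prime and H a p-subgroup of G. Then the set of elements g of G such that H is subnormal in the subgroup generated by H and g is the union of the normalizers N_G(R) over the subgroups R of G containing H with R = O_p(N_G(R)); and this set does not change when H is replaced by the intersection of all Sylow p-subgroups of G containing H. -/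
theorem result {G : Type*} [Group G] [Finite G] (p : ℕ) [Fact p.Prime]
    (H : Subgroup G) (hH : IsPGroup p H) :
    {g : G | ((H).subgroupOf (H ⊔ Subgroup.zpowers g)).IsSubnormal} =
      {g : G | ∃ R : Subgroup G, H ≤ R ∧ (Cfsg.pCore p (Subgroup.normalizer (R : Set G))).map (Subgroup.normalizer (R : Set G)).subtype = R ∧ g ∈ Subgroup.normalizer (R : Set G)} ∧
    ∀ g : G, (((H).subgroupOf (H ⊔ Subgroup.zpowers g)).IsSubnormal ↔
      (((sInf {K : Subgroup G | ∃ Q : Sylow p G, H ≤ (Q : Subgroup G) ∧ K = (Q : Subgroup G)})).subgroupOf ((sInf {K : Subgroup G | ∃ Q : Sylow p G, H ≤ (Q : Subgroup G) ∧ K = (Q : Subgroup G)}) ⊔ Subgroup.zpowers g)).IsSubnormal) := by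
  classical
  -- every `g` in the subnormalizer normalizes a radical `p`-subgroup above `H`
  have hrad : ∀ g : G, Cfsg.Agent.FGSev.InSubnormalizer H g →
      ∃ R : Subgroup G, H ≤ R ∧ (Cfsg.pCore p (Subgroup.normalizer (R : Set G))).map
        (Subgroup.normalizer (R : Set G)).subtype = R ∧ g ∈ Subgroup.normalizer (R : Set G) := by
    intro g hg
    obtain ⟨R, ⟨hHR, hRp, hgR⟩, hmax⟩ := Set.Finite.exists_maximal
      (s := {K : Subgroup G | H ≤ K ∧ IsPGroup p K ∧ g ∈ Subgroup.normalizer (K : Set G)})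
      (Set.toFinite _) ((Cfsg.Agent.FGSev.inSubnormalizer_iff hH g).mp hg)
    set N := Subgroup.normalizer (R : Set G) with hN
    have hle : R ≤ (Cfsg.pCore p N).map N.subtype := by
      rw [← Subgroup.map_subgroupOf_eq_of_le (show R ≤ N from Subgroup.le_normalizer)]
      exact Subgroup.map_mono (Cfsg.Agent.Cores.le_pCore Subgroup.normal_in_normalizer
        (hRp.comap_of_injective N.subtype N.subtype_injective))
    refine ⟨R, hHR, le_antisymm (hmax (y := (Cfsg.pCore p N).map N.subtype) ?_ hle) hle, hgR⟩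
    refine ⟨hHR.trans hle, Cfsg.Agent.Cores.pCore_isPGroup.map _, ?_⟩
    have hn := Subgroup.le_normalizer_map (H := Cfsg.pCore p N) N.subtype
    refine hn ⟨⟨g, hgR⟩, ?_, rfl⟩
    rw [Subgroup.normalizer_eq_top]
    trivial
  have hradP : ∀ R : Subgroup G, (Cfsg.pCore p (Subgroup.normalizer (R : Set G))).map
      (Subgroup.normalizer (R : Set G)).subtype = R → IsPGroup p R := fun R hR => by
    rw [← hR]
    exact Cfsg.Agent.Cores.pCore_isPGroup.map _
  refine ⟨Set.ext fun g => ⟨hrad g, ?_⟩, fun g => ?_⟩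
  · rintro ⟨R, hHR, hR, hg⟩
    exact (Cfsg.Agent.FGSev.inSubnormalizer_iff hH g).mpr ⟨R, hHR, hradP R hR, hg⟩
  set I := sInf {K : Subgroup G | ∃ Q : Sylow p G, H ≤ (Q : Subgroup G) ∧ K = (Q : Subgroup G)} with hI
  have hHI : H ≤ I := le_sInf fun K ⟨Q, hQ, hK⟩ => hK ▸ hQ
  have hIp : IsPGroup p I := by
    obtain ⟨Q, hQ⟩ := hH.exists_le_sylow
    exact Q.2.to_le (sInf_le ⟨Q, hQ, rfl⟩)
  show Cfsg.Agent.FGSev.InSubnormalizer H g ↔ Cfsg.Agent.FGSev.InSubnormalizer I g
  rw [Cfsg.Agent.FGSev.inSubnormalizer_iff hH, Cfsg.Agent.FGSev.inSubnormalizer_iff hIp]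
  refine ⟨fun h => ?_, fun ⟨K, hK, h⟩ => ⟨K, hHI.trans hK, h⟩⟩
  obtain ⟨R, hHR, hR, hg⟩ := hrad g ((Cfsg.Agent.FGSev.inSubnormalizer_iff hH g).mpr h)
  refine ⟨R, ?_, hradP R hR, hg⟩
  -- a radical `p`-subgroup is the intersection of the Sylow subgroups containing it
  set D := sInf {K : Subgroup G | ∃ Q : Sylow p G, R ≤ (Q : Subgroup G) ∧ K = (Q : Subgroup G)} with hD
  refine le_trans (le_sInf ?_ : I ≤ D) ?_
  · rintro K ⟨Q, hQ, rfl⟩
    exact sInf_le ⟨Q, hHR.trans hQ, rfl⟩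
  have hRD : R ≤ D := le_sInf fun K ⟨Q, hQ, hK⟩ => hK ▸ hQ
  have hDp : IsPGroup p D := by
    obtain ⟨Q, hQ⟩ := (hradP R hR).exists_le_sylow
    exact Q.2.to_le (sInf_le ⟨Q, hQ, rfl⟩)
  by_contra hne
  have hlt := Cfsg.Agent.FGSev.lt_inf_normalizer hDp (lt_of_le_not_ge hRD hne)
  apply hlt.not_ge
  intro x hx
  rw [← hR]
  refine ⟨⟨x, hx.2⟩, ?_, rfl⟩
  rw [SetLike.mem_coe, Cfsg.Agent.Cores.pCore_eq_iInf_sylow, Subgroup.mem_iInf]
  intro T
  obtain ⟨Q, hQ⟩ := (T.2.map (Subgroup.normalizer (R : Set G)).subtype).exists_le_sylow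
  have hRQ : R ≤ (Q : Subgroup G) := by
    rw [← hR]
    exact le_trans (Subgroup.map_mono (Cfsg.Agent.Cores.pCore_le_sylow T)) hQ
  have hxQ : x ∈ (Q : Subgroup G) := (sInf_le ⟨Q, hRQ, rfl⟩ : D ≤ (Q : Subgroup G)) hx.1
  have h1 := T.3 (Q.2.comap_of_injective (Subgroup.normalizer (R : Set G)).subtype
    (Subgroup.normalizer (R : Set G)).subtype_injective) (Subgroup.map_le_iff_le_comap.mp hQ)
  show (⟨x, hx.2⟩ : Subgroup.normalizer (R : Set G)) ∈ (T : Subgroup (Subgroup.normalizer (R : Set G)))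
  rw [← h1]
  exact hxQ

end Cfsg.Agent.S4089
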