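import Cfsg.Statements.S4090
import Cfsg.Agent.FGSev.Subnormalizer
-- import your own Cfsg.Agent.* helpers here

set_option autoImplicit false
open scoped BigOperators
open Cfsg

namespace Cfsg.Agent.S4090

/-- Let G be a finite p-solvable group, H a p-subgroup of G and P a Sylow p-subgroup, and fix a chain of normal subgroups 1 = M₀ ≤ M₁ ≤ ⋯ ≤ Mₙ = G of G each of whose factors is a p-group or a p'-group. Then the number of elements g of G such that H is subnormal in the subgroup generated by H and g equals the order of P times the product, over the factors Mᵢ₊₁/Mᵢ of order prime to p, of the order of the centralizer of H in Mᵢ₊₁/Mᵢ (counted as the number of u ∈ Mᵢ₊₁ with [h, u] ∈ Mᵢ for all h ∈ H, divided by the order of Mᵢ). -/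
theorem result {G : Type*} [Group G] [Finite G] (p : ℕ) [Fact p.Prime]
    (hG : Cfsg.IsPSolvable p G) (H : Subgroup G) (hH : IsPGroup p H) (P : Sylow p G)
    (n : ℕ) (M : Fin (n + 1) → Subgroup G) (h0 : M 0 = ⊥) (hn : M (Fin.last n) = ⊤) (hmono : Monotone M)
    (hnormal : ∀ i, (M i).Normal)
    (hfac : ∀ i : Fin n, (∃ m : ℕ, (M i.castSucc).relIndex (M i.succ) = p ^ m) ∨ ((M i.castSucc).relIndex (M i.succ)).Coprime p) :
    Nat.card {g : G // ((H).subgroupOf (H ⊔ Subgroup.zpowers g)).IsSubnormal} =
      Nat.card (P : Subgroup G) *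
        ∏ i : Fin n, (if ((M i.castSucc).relIndex (M i.succ)).Coprime p then
          Nat.card {u : G // u ∈ M i.succ ∧ ∀ h ∈ H, h * u * h⁻¹ * u⁻¹ ∈ M i.castSucc} / Nat.card (M i.castSucc)
          else 1) := by
  classical
  have hp : p.Prime := Fact.out
  haveI : ∀ i, (M i).Normal := hnormal
  let S : Fin (n + 1) → ℕ := fun i =>
    Nat.card {g : G ⧸ M i // Cfsg.Agent.FGSev.InSubnormalizer (H.map (QuotientGroup.mk' (M i))) g}
  let d : Fin n → ℕ := fun i => if ((M i.castSucc).relIndex (M i.succ)).Coprime p then
    Nat.card {u : G // u ∈ M i.succ ∧ ∀ h ∈ H, h * u * h⁻¹ * u⁻¹ ∈ M i.castSucc} /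
      Nat.card (M i.castSucc) else 1
  let e : Fin n → ℕ := fun i => if ((M i.castSucc).relIndex (M i.succ)).Coprime p then 1
    else (M i.castSucc).relIndex (M i.succ)
  have hle : ∀ i : Fin n, M i.castSucc ≤ M i.succ := fun i => hmono (Fin.castSucc_le_succ i)
  -- the step along one factor
  have hstep : ∀ i : Fin n, S i.castSucc = (d i * e i) * S i.succ := by
    intro i
    let A := M i.castSucc
    let B := M i.succ
    let φ : G ⧸ A →* G ⧸ B := QuotientGroup.map A B (MonoidHom.id G) (hle i)
    have hφmk : φ.comp (QuotientGroup.mk' A) = QuotientGroup.mk' B := by ext g; rfl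
    have hφ : Function.Surjective φ := by
      intro y
      obtain ⟨g, rfl⟩ := QuotientGroup.mk'_surjective B y
      exact ⟨QuotientGroup.mk' A g, rfl⟩
    have hker : φ.ker = B.map (QuotientGroup.mk' A) := by
      refine le_antisymm (fun x hx => ?_) ?_
      · obtain ⟨g, rfl⟩ := QuotientGroup.mk'_surjective A x
        exact ⟨g, (QuotientGroup.eq_one_iff g).mp hx, rfl⟩
      · rintro _ ⟨g, hg, rfl⟩
        exact (QuotientGroup.eq_one_iff g).mpr hg
    have hcker : Nat.card φ.ker = A.relIndex B := by
      rw [hker]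
      have h1 := Cfsg.Agent.Cores.card_comap_mk_eq A (B.map (QuotientGroup.mk' A))
      have h2 : (B.map (QuotientGroup.mk' A)).comap (QuotientGroup.mk' A) = B :=
        Subgroup.comap_map_eq_self (by rw [QuotientGroup.ker_mk']; exact hle i)
      rw [h2] at h1
      have h3 := Subgroup.relIndex_mul_relIndex ⊥ A B bot_le (hle i)
      rw [Subgroup.relIndex_bot_left, Subgroup.relIndex_bot_left] at h3
      exact Nat.eq_of_mul_eq_mul_left Nat.card_pos (h1.symm.trans h3.symm)
    have hmap : (H.map (QuotientGroup.mk' A)).map φ = H.map (QuotientGroup.mk' B) := by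
      rw [Subgroup.map_map, hφmk]
    show Nat.card {g : G ⧸ A // _} = _
    by_cases hc : (A.relIndex B).Coprime p
    · rw [Cfsg.Agent.FGSev.card_subnormalizer_of_coprime_ker φ hφ (hcker.symm ▸ hc)
        (hH.map (QuotientGroup.mk' A)), hmap]
      congr 1
      simp only [d, e, A, B] at hc ⊢
      rw [if_pos hc, if_pos hc, mul_one]
      set Z := φ.ker ⊓ Subgroup.centralizer ((H.map (QuotientGroup.mk' A) : Subgroup (G ⧸ A)) : Set (G ⧸ A)) with hZ
      refine (Nat.div_eq_of_eq_mul_left Nat.card_pos ?_).symm
      rw [mul_comm, ← Cfsg.Agent.Cores.card_comap_mk_eq A Z]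
      refine Nat.card_congr (Equiv.subtypeEquivRight fun u => ?_)
      rw [hZ, hker, Subgroup.mem_comap, Subgroup.mem_inf, Subgroup.mem_centralizer_iff]
      refine and_congr ?_ ?_
      · rw [← Subgroup.mem_comap, Subgroup.comap_map_eq_self (by rw [QuotientGroup.ker_mk']; exact hle i)]
      · simp only [SetLike.mem_coe, Subgroup.mem_map, forall_exists_index, and_imp,
          forall_apply_eq_imp_iff₂, QuotientGroup.mk'_apply]
        refine forall₂_congr fun h _ => ?_
        rw [← QuotientGroup.mk_mul, ← QuotientGroup.mk_mul, eq_comm (a := ((h * u : G) : G ⧸ A)),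
          QuotientGroup.eq]
        constructor
        · intro hu
          have := (inferInstance : A.Normal).conj_mem _ hu (u * h)⁻¹
          simpa [mul_assoc] using this
        · intro hu
          have := (inferInstance : A.Normal).conj_mem _ hu (u * h)
          simpa [mul_assoc] using this
    · obtain ⟨m, hm⟩ := (hfac i).resolve_right hc
      rw [Cfsg.Agent.FGSev.card_subnormalizer_of_pGroup_ker φ hφ
        (IsPGroup.of_card (n := m) (hcker.trans hm)) (hH.map (QuotientGroup.mk' A)), hmap, hcker]
      congr 1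
      simp only [d, e, A, B] at hc ⊢
      rw [if_neg hc, if_neg hc, one_mul]
  have htel := Cfsg.Agent.FGSev.prod_telescope S (fun i => d i * e i) hstep
  -- the last term
  have hlast : S (Fin.last n) = 1 := by
    haveI : Subsingleton (G ⧸ M (Fin.last n)) := by rw [hn]; exact QuotientGroup.subsingleton_quotient_top
    refine Nat.card_eq_one_iff_unique.mpr ⟨inferInstance, ⟨⟨1, ?_⟩⟩⟩
    exact (Cfsg.Agent.FGSev.inSubnormalizer_iff (hH.map _) _).mpr ⟨_, le_rfl, hH.map _, one_mem _⟩
  -- the first term
  have hfirst : Nat.card {g : G // Cfsg.Agent.FGSev.InSubnormalizer H g} = S 0 := by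
    have hk : Nat.card (QuotientGroup.mk' (M 0)).ker = 1 := by
      rw [QuotientGroup.ker_mk', h0, Subgroup.card_bot]
    rw [Cfsg.Agent.FGSev.card_subnormalizer_of_pGroup_ker (QuotientGroup.mk' (M 0))
      (QuotientGroup.mk'_surjective _) (IsPGroup.of_card (n := 0) (by rw [hk, pow_zero])) hH, hk, one_mul]
  -- the product of the `p`-factors is the order of `P`
  have hP : ∏ i, e i = Nat.card (P : Subgroup G) := by
    have hidx := Cfsg.Agent.FGSev.prod_telescope (fun i => (M i).index)
      (fun i => (M i.castSucc).relIndex (M i.succ))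
      (fun i => (Subgroup.relIndex_mul_index (hle i)).symm)
    simp only [h0, hn, Subgroup.index_bot, Subgroup.index_top, mul_one] at hidx
    rw [P.card_eq_multiplicity, hidx,
      Nat.factorization_prod fun i _ => (Subgroup.index_ne_zero_of_finite :
        ((M i.castSucc).subgroupOf (M i.succ)).index ≠ 0),
      Finset.sum_apply', ← Finset.prod_pow_eq_pow_sum]
    refine Finset.prod_congr rfl fun i _ => ?_
    simp only [e]
    split_ifs with hc
    · rw [Nat.factorization_eq_zero_of_not_dvd fun hd => (hp.coprime_iff_not_dvd.mp hc.symm) hd,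
        pow_zero]
    · obtain ⟨m, hm⟩ := (hfac i).resolve_right hc
      rw [hm, hp.factorization_pow, Finsupp.single_eq_same]
  show Nat.card {g : G // Cfsg.Agent.FGSev.InSubnormalizer H g} = _ * ∏ i, d i
  rw [hfirst, htel, hlast, mul_one, Finset.prod_mul_distrib, hP, mul_comm]

end Cfsg.Agent.S4090
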