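import Cfsg.Statements.S4091
import Cfsg.Agent.S4090
import Cfsg.Agent.FGSev.CoprimeProduct
import Cfsg.Agent.FGSev.PElem
import Mathlib.Analysis.MeanInequalities

set_option autoImplicit false
open Cfsg
open Subgroup

namespace Cfsg.Agent.S4091

universe v

/-- The numerical consequence of the product bound by the inequality of means. -/
theorem mean_bound {ι : Type*} [Fintype ι] (lam : ι → ℕ) (n p k : ℕ) (hlam : ∀ i, 0 < lam i)
    (hk : Fintype.card ι = p * k) (hk0 : k ≠ 0) (hp0 : p ≠ 0) (hn : 0 < n)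
    (hprod : ∏ i, lam i ≤ n ^ k) :
    ((Fintype.card ι : ℝ)) ^ p ≤ (n : ℝ) * (∑ i, ((lam i : ℝ))⁻¹) ^ p := by
  have hN : (0 : ℝ) < Fintype.card ι := by
    rw [hk]; exact_mod_cast Nat.mul_pos (Nat.pos_of_ne_zero hp0) (Nat.pos_of_ne_zero hk0)
  have hgm := Real.geom_mean_le_arith_mean Finset.univ (fun _ : ι => (1 : ℝ))
    (fun i => ((lam i : ℝ))⁻¹) (fun _ _ => zero_le_one) (by simpa using hN)
    (fun i _ => inv_nonneg.2 (Nat.cast_nonneg _))
  simp only [Real.rpow_one, one_mul, Finset.sum_const, Finset.card_univ, nsmul_eq_mul, mul_one] at hgm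
  set A := ∑ i, ((lam i : ℝ))⁻¹ with hA
  set B := ∏ i, ((lam i : ℝ))⁻¹ with hB
  have hB0 : 0 < B := Finset.prod_pos fun i _ => inv_pos.2 (by exact_mod_cast hlam i)
  have hA0 : 0 ≤ A := Finset.sum_nonneg fun i _ => inv_nonneg.2 (Nat.cast_nonneg _)
  have h1 : B ≤ (A / Fintype.card ι) ^ Fintype.card ι := by
    refine le_trans (le_of_eq ?_) (pow_le_pow_left₀ (Real.rpow_nonneg hB0.le _) hgm _)
    rw [Real.rpow_inv_natCast_pow hB0.le (by rw [hk]; positivity)]
  have h2 : ((n : ℝ) ^ k)⁻¹ ≤ B := by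
    rw [hB, Finset.prod_inv_distrib]
    refine inv_anti₀ (Finset.prod_pos fun i _ => by exact_mod_cast hlam i) ?_
    exact_mod_cast hprod
  have h3 : ((n : ℝ))⁻¹ ^ k ≤ ((A / Fintype.card ι) ^ p) ^ k := by
    rw [inv_pow, ← pow_mul, ← hk]
    exact h2.trans h1
  have h4 := le_of_pow_le_pow_left₀ hk0 (pow_nonneg (div_nonneg hA0 hN.le) p) h3
  rw [div_pow, le_div_iff₀ (pow_pos hN p), inv_mul_le_iff₀ (by exact_mod_cast hn)] at h4
  exact h4

/-- The centraliser count on a factor. -/
theorem factor_card {G : Type v} [Group G] [Finite G] (A B : Subgroup G) [A.Normal] (hAB : A ≤ B)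
    (H : Subgroup G) :
    Nat.card {u : G // u ∈ B ∧ ∀ h ∈ H, h * u * h⁻¹ * u⁻¹ ∈ A} / Nat.card A =
      Nat.card ↥(B.map (QuotientGroup.mk' A) ⊓
        centralizer ((H.map (QuotientGroup.mk' A) : Subgroup (G ⧸ A)) : Set (G ⧸ A))) := by
  set Z := B.map (QuotientGroup.mk' A) ⊓
        centralizer ((H.map (QuotientGroup.mk' A) : Subgroup (G ⧸ A)) : Set (G ⧸ A)) with hZ
  refine Nat.div_eq_of_eq_mul_left Nat.card_pos ?_
  rw [mul_comm, ← Cfsg.Agent.Cores.card_comap_mk_eq A Z]
  refine Nat.card_congr (Equiv.subtypeEquivRight fun u => ?_)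
  rw [hZ, Subgroup.mem_comap, Subgroup.mem_inf, Subgroup.mem_centralizer_iff]
  refine and_congr ?_ ?_
  · rw [← Subgroup.mem_comap, Subgroup.comap_map_eq_self (by rw [QuotientGroup.ker_mk']; exact hAB)]
  · simp only [SetLike.mem_coe, Subgroup.mem_map, forall_exists_index, and_imp,
      forall_apply_eq_imp_iff₂, QuotientGroup.mk'_apply]
    refine forall₂_congr fun h _ => ?_
    rw [← QuotientGroup.mk_mul, ← QuotientGroup.mk_mul, eq_comm (a := ((h * u : G) : G ⧸ A)),
      QuotientGroup.eq]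
    constructor
    · intro hu
      have := (inferInstance : A.Normal).conj_mem _ hu (u * h)⁻¹
      simpa [mul_assoc] using this
    · intro hu
      have := (inferInstance : A.Normal).conj_mem _ hu (u * h)
      simpa [mul_assoc] using this

/-- Let G be a finite p-solvable group, P a Sylow p-subgroup of G, u the number of p-elements of G (elements of p-power order, the identity included) and n the number of Sylow p-subgroups of G. Then u/#P ≥ n^((p−1)/p), stated as u^p ≥ #P^p · n^(p−1). -/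
theorem result {G : Type*} [Group G] [Finite G] (p : ℕ) [Fact p.Prime]
    (hG : Cfsg.IsPSolvable p G) (P : Sylow p G) :
    Nat.card (P : Subgroup G) ^ p * Nat.card (Sylow p G) ^ (p - 1) ≤ Nat.card {g : G // ∃ k : ℕ, orderOf g = p ^ k} ^ p := by
  classical
  have hp : p.Prime := Fact.out
  haveI : Fintype G := Fintype.ofFinite G
  haveI : Fintype (Sylow p G) := Fintype.ofFinite _
  obtain ⟨m, M, h0, hn, hmono, hnormal, hfac⟩ := hG
  haveI : ∀ i, (M i).Normal := hnormal
  have hG' : Cfsg.IsPSolvable p G := ⟨m, M, h0, hn, hmono, hnormal, hfac⟩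
  set N := Nat.card (P : Subgroup G) with hN
  set n := Nat.card (Sylow p G) with hn'
  set Np := Nat.card (normalizer ((P : Subgroup G) : Set G)) with hNp
  let I : Finset (Fin m) :=
    Finset.univ.filter fun i => ((M i.castSucc).relIndex (M i.succ)).Coprime p
  let c : Subgroup G → Fin m → ℕ := fun H i => Nat.card ↥((M i.succ).map (QuotientGroup.mk' (M i.castSucc)) ⊓
    centralizer ((H.map (QuotientGroup.mk' (M i.castSucc)) : Subgroup (G ⧸ M i.castSucc)) : Set (G ⧸ M i.castSucc)))
  have hmain : ∀ H : Subgroup G, IsPGroup p H →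
      Nat.card {Q : Sylow p G // H ≤ (Q : Subgroup G)} * Np = N * ∏ i ∈ I, c H i := by
    intro H hH
    have h1 := S4090.result p hG' H hH P m M h0 hn hmono hnormal hfac
    have h2 := FGSev.card_subnormalizer hH P
    rw [hNp, ← h2]
    refine h1.trans ?_
    rw [← hN, Finset.prod_filter]
    congr 1
    refine Finset.prod_congr rfl fun i _ => ?_
    split_ifs
    · exact factor_card _ _ (hmono (Fin.castSucc_le_succ i)) H
    · rfl
  -- the normaliser and the index
  have hP1 : Np = N * ∏ i ∈ I, c P i := by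
    rw [← hmain P P.2]
    haveI : Subsingleton {Q : Sylow p G // (P : Subgroup G) ≤ (Q : Subgroup G)} :=
      ⟨fun a b => Subtype.ext (Sylow.ext ((P.3 a.1.2 a.2).trans (P.3 b.1.2 b.2).symm))⟩
    haveI : Nonempty {Q : Sylow p G // (P : Subgroup G) ≤ (Q : Subgroup G)} := ⟨⟨P, le_rfl⟩⟩
    rw [Nat.card_unique, one_mul]
  have hbot : n * Np = N * ∏ i ∈ I, c ⊥ i := by
    rw [← hmain ⊥ IsPGroup.of_bot]
    congr 1
    exact Nat.card_congr (Equiv.subtypeUnivEquiv fun Q => bot_le).symm
  set C0 := ∏ i ∈ I, c P i with hC0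
  have hNpos : 0 < N := Nat.card_pos
  have hC0pos : 0 < C0 := Finset.prod_pos fun i _ => Nat.card_pos
  have hnC : n * C0 = ∏ i ∈ I, Nat.card ↥((M i.succ).map (QuotientGroup.mk' (M i.castSucc))) := by
    apply Nat.eq_of_mul_eq_mul_left hNpos
    rw [← mul_assoc, mul_comm N n, mul_assoc, ← hP1, hbot]
    congr 1
    refine Finset.prod_congr rfl fun i _ => ?_
    simp only [c]
    rw [Subgroup.map_bot, show centralizer ((⊥ : Subgroup (G ⧸ M i.castSucc)) : Set (G ⧸ M i.castSucc)) = ⊤ by
      rw [eq_top_iff]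
      intro y _
      rw [mem_centralizer_iff]
      intro s hs
      rw [mem_bot.1 hs, one_mul, mul_one], inf_top_eq]
  let lam : G → ℕ := fun x => Nat.card {Q : Sylow p G // x ∈ (Q : Subgroup G)}
  have hlam : ∀ x : (P : Subgroup G), lam x * C0 = ∏ i ∈ I, c (zpowers (x : G)) i := by
    intro x
    have h1 := hmain (zpowers (x : G)) (P.2.to_le (zpowers_le.2 x.2))
    rw [Nat.card_congr (Equiv.subtypeEquivRight fun Q : Sylow p G => zpowers_le), hP1] at h1
    apply Nat.eq_of_mul_eq_mul_left hNpos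
    rw [← h1]
    ring
  have hlampos : ∀ x : (P : Subgroup G), 0 < lam x := fun x =>
    Nat.card_pos_iff.2 ⟨⟨⟨P, x.2⟩⟩, inferInstance⟩
  -- the product bound
  haveI : Fintype (P : Subgroup G) := Fintype.ofFinite _
  have hcardP : Fintype.card (P : Subgroup G) = N := (Nat.card_eq_fintype_card).symm
  have hprod : ∏ x : (P : Subgroup G), lam x ≤ n ^ (N / p) := by
    refine Nat.le_of_mul_le_mul_right ?_ (pow_pos hC0pos N)
    calc (∏ x : (P : Subgroup G), lam x) * C0 ^ N
        = ∏ i ∈ I, ∏ x : (P : Subgroup G), c (zpowers (x : G)) i := by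
          rw [Finset.prod_comm, ← hcardP, ← Finset.card_univ, ← Finset.prod_const,
            ← Finset.prod_mul_distrib]
          exact Finset.prod_congr rfl fun x _ => hlam x
      _ ≤ ∏ i ∈ I, (c P i ^ (N - N / p) *
            Nat.card ↥((M i.succ).map (QuotientGroup.mk' (M i.castSucc))) ^ (N / p)) := by
          refine Finset.prod_le_prod' fun i hi => ?_
          let π := QuotientGroup.mk' (M i.castSucc)
          haveI : ((M i.succ).map π).Normal := (hnormal i.succ).map π (QuotientGroup.mk'_surjective _)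
          have hcop : (Nat.card ((M i.succ).map π)).Coprime p := by
            rw [← relIndex_ker, QuotientGroup.ker_mk']
            exact (Finset.mem_filter.1 hi).2
          have h := FGSev.prod_centralizer_le P.2 (π.comp (P : Subgroup G).subtype) ((M i.succ).map π) hcop
          rw [hcardP, MonoidHom.range_comp, range_subtype] at h
          refine le_trans (le_of_eq (Finset.prod_congr rfl fun x _ => ?_)) h
          simp only [c]
          rw [MonoidHom.map_zpowers, zpowers_eq_closure, centralizer_closure]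
          rfl
      _ = C0 ^ (N - N / p) * (n * C0) ^ (N / p) := by
          rw [Finset.prod_mul_distrib, Finset.prod_pow, Finset.prod_pow, ← hnC]
      _ = n ^ (N / p) * C0 ^ N := by
          rw [mul_pow, mul_left_comm, ← pow_add, Nat.sub_add_cancel (Nat.div_le_self N p)]
  -- counting pairs
  set U := {g : G // ∃ k : ℕ, orderOf g = p ^ k}
  haveI : Fintype U := Fintype.ofFinite U
  have hu : (Nat.card U : ℝ) = (n : ℝ) * ∑ x : (P : Subgroup G), ((lam x : ℝ))⁻¹ := by
    have h1 : ∀ g : U, (1 : ℝ) = ∑ _Q ∈ Finset.univ.filter (fun Q : Sylow p G => (g : G) ∈ (Q : Subgroup G)),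
        ((lam g : ℝ))⁻¹ := by
      intro g
      have hc : (Finset.univ.filter (fun Q : Sylow p G => (g : G) ∈ (Q : Subgroup G))).card = lam g := by
        rw [← Fintype.card_subtype, ← Nat.card_eq_fintype_card]
      rw [Finset.sum_const, hc, nsmul_eq_mul, mul_inv_cancel₀]
      obtain ⟨Q, hQ⟩ := FGSev.pElem_exists_sylow g.2
      exact_mod_cast (Nat.card_pos_iff.2 ⟨⟨⟨Q, hQ⟩⟩, inferInstance⟩ : 0 < lam g).ne'
    have h2 : ∀ Q : Sylow p G, ∑ g ∈ Finset.univ.filter (fun g : U => (g : G) ∈ (Q : Subgroup G)),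
        ((lam g : ℝ))⁻¹ = ∑ x : (P : Subgroup G), ((lam x : ℝ))⁻¹ := by
      intro Q
      obtain ⟨y, hy⟩ := MulAction.exists_smul_eq G Q P
      have hmem : ∀ (g : G), g ∈ (Q : Subgroup G) ↔ y * g * y⁻¹ ∈ (P : Subgroup G) := by
        intro g
        rw [← hy]
        simp [Sylow.coe_subgroup_smul, mem_pointwise_smul_iff_inv_smul_mem, mul_assoc]
      have hlamc : ∀ g : G, lam (y * g * y⁻¹) = lam g := by
        intro g
        refine Nat.card_congr ((MulAction.toPerm y⁻¹).subtypeEquiv fun R => ?_)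
        simp [Sylow.coe_subgroup_smul, mem_pointwise_smul_iff_inv_smul_mem, mul_assoc]
      refine Finset.sum_bij' (fun g hg => (⟨y * g * y⁻¹, (hmem g).1 (Finset.mem_filter.1 hg).2⟩ : (P : Subgroup G)))
        (fun x _ => (⟨y⁻¹ * x * y, by
          simpa using FGSev.pElem_conj y⁻¹ (FGSev.pElem_of_mem P.2 x.2)⟩ : U))
        (fun _ _ => Finset.mem_univ _) (fun x _ => Finset.mem_filter.2 ⟨Finset.mem_univ _, ?_⟩)
        (fun g _ => ?_) (fun x _ => ?_) (fun g _ => ?_)
      · rw [hmem]
        simp [mul_assoc]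
      · apply Subtype.ext
        simp [mul_assoc]
      · apply Subtype.ext
        simp [mul_assoc]
      · show _ = ((lam (y * g * y⁻¹) : ℝ))⁻¹
        rw [hlamc]
    calc (Nat.card U : ℝ) = ∑ _g : U, (1 : ℝ) := by
          rw [Finset.sum_const, Finset.card_univ, nsmul_eq_mul, mul_one, Nat.card_eq_fintype_card]
      _ = ∑ g : U, ∑ _Q ∈ Finset.univ.filter (fun Q : Sylow p G => (g : G) ∈ (Q : Subgroup G)),
            ((lam g : ℝ))⁻¹ := Finset.sum_congr rfl fun g _ => h1 g
      _ = ∑ Q : Sylow p G, ∑ g ∈ Finset.univ.filter (fun g : U => (g : G) ∈ (Q : Subgroup G)),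
            ((lam g : ℝ))⁻¹ := by
          simp only [Finset.sum_filter]
          exact Finset.sum_comm
      _ = _ := by
          rw [Finset.sum_congr rfl fun Q _ => h2 Q, Finset.sum_const, Finset.card_univ, nsmul_eq_mul,
            hn', Nat.card_eq_fintype_card]
  have hnpos : 0 < n := Nat.card_pos
  obtain ⟨a, ha⟩ := IsPGroup.iff_card.1 P.2
  rw [← hN] at ha
  rcases Nat.eq_zero_or_pos a with rfl | hapos
  · -- trivial Sylow subgroup
    have hn1 : n = 1 := by
      have hPbot : (P : Subgroup G) = ⊥ := by rw [← card_eq_one, ← hN, ha, pow_zero]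
      refine Nat.card_eq_one_iff_unique.2 ⟨⟨fun a b => ?_⟩, ⟨P⟩⟩
      have hb : ∀ Q : Sylow p G, (Q : Subgroup G) = ⊥ := fun Q => by
        rw [← card_eq_one, Nat.card_congr (Sylow.equiv Q P).toEquiv, hPbot, card_bot]
      exact Sylow.ext ((hb a).trans (hb b).symm)
    rw [hn1, ha, pow_zero, one_pow, one_pow, one_mul]
    exact Nat.one_le_pow _ _ (Nat.card_pos_iff.2 ⟨⟨⟨1, 0, by simp⟩⟩, inferInstance⟩)
  · have hk : N / p * p = N := Nat.div_mul_cancel (ha ▸ dvd_pow_self p (by omega))
    have hb := mean_bound (fun x : (P : Subgroup G) => lam x) n p (N / p) hlampos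
      (by rw [hcardP, mul_comm, hk]) (fun e => by rw [e, zero_mul] at hk; omega) hp.ne_zero hnpos hprod
    rw [hcardP] at hb
    suffices hr : ((N : ℝ)) ^ p * (n : ℝ) ^ (p - 1) ≤ (Nat.card U : ℝ) ^ p by exact_mod_cast hr
    rw [hu, mul_pow]
    calc ((N : ℝ)) ^ p * (n : ℝ) ^ (p - 1)
        ≤ ((n : ℝ) * (∑ x : (P : Subgroup G), ((lam x : ℝ))⁻¹) ^ p) * (n : ℝ) ^ (p - 1) :=
          mul_le_mul_of_nonneg_right hb (by positivity)
      _ = _ := by
          have e : (n : ℝ) ^ p = (n : ℝ) * (n : ℝ) ^ (p - 1) := by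
            rw [← pow_succ', Nat.sub_add_cancel hp.one_le]
          rw [e]
          ring

end Cfsg.Agent.S4091
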