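import Cfsg.Statements.S4092
import Cfsg.Agent.FGSev.PElem
-- import your own Cfsg.Agent.* helpers here

set_option autoImplicit false
open Cfsg

namespace Cfsg.Agent.S4092

/-- Let G be a finite group, p a prime and P a Sylow p-subgroup of G that is not normal in G. Then G has at least p·#P elements of p-power order (the identity included). -/
theorem result {G : Type*} [Group G] [Finite G] (p : ℕ) [Fact p.Prime]
    (P : Sylow p G) (hP : ¬ (P : Subgroup G).Normal) :
    p * Nat.card (P : Subgroup G) ≤ Nat.card {g : G // ∃ k : ℕ, orderOf g = p ^ k} := by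
  classical
  -- a pair of distinct Sylow subgroups with intersection as large as possible
  have hne : ∃ Q : Sylow p G, Q ≠ P := by
    by_contra h
    push Not at h
    haveI : Subsingleton (Sylow p G) := ⟨fun a b => (h a).trans (h b).symm⟩
    exact hP (Sylow.normal_of_subsingleton P)
  obtain ⟨Q₁, hQ₁⟩ := hne
  haveI : Nonempty {ab : Sylow p G × Sylow p G // ab.1 ≠ ab.2} := ⟨⟨(Q₁, P), hQ₁⟩⟩
  obtain ⟨⟨⟨A, B⟩, hAB⟩, hmax⟩ := Finite.exists_max
    (fun ab : {ab : Sylow p G × Sylow p G // ab.1 ≠ ab.2} =>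
      Nat.card ↥((ab.1.1 : Subgroup G) ⊓ (ab.1.2 : Subgroup G)))
  obtain ⟨a, ha⟩ := MulAction.exists_smul_eq G A P
  set Q : Sylow p G := a • B with hQdef
  have hQP : P ≠ Q := by
    rw [← ha, hQdef]
    exact fun h => hAB (MulAction.injective a h)
  set D : Subgroup G := (P : Subgroup G) ⊓ (Q : Subgroup G) with hD
  have hcardD : Nat.card ↥((A : Subgroup G) ⊓ (B : Subgroup G)) = Nat.card D := by
    rw [hD, hQdef, ← ha, Sylow.coe_subgroup_smul, Sylow.coe_subgroup_smul, ← Subgroup.smul_inf]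
    exact Nat.card_congr (Subgroup.equivSMul _ _).toEquiv
  have hmaxD : ∀ R S : Sylow p G, R ≠ S → D ≤ (R : Subgroup G) ⊓ (S : Subgroup G) →
      (R : Subgroup G) ⊓ (S : Subgroup G) = D := by
    intro R S hRS hle
    refine (Subgroup.eq_of_le_of_card_ge hle ?_).symm
    rw [← hcardD]
    exact hmax ⟨(R, S), hRS⟩
  have hDlt : D < (P : Subgroup G) := by
    refine lt_of_le_of_ne inf_le_left fun h => hQP ?_
    apply Sylow.ext
    refine Subgroup.eq_of_le_of_card_ge (h ▸ inf_le_right) ?_
    rw [P.card_eq_multiplicity, Q.card_eq_multiplicity]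
  -- the normalizer of `D` in `P` properly contains `D`
  haveI : Group.IsNilpotent (P : Subgroup G) := P.2.isNilpotent
  have hlt' : D.subgroupOf P < ⊤ := lt_top_iff_ne_top.mpr fun h =>
    hDlt.not_ge (Subgroup.subgroupOf_eq_top.mp h)
  obtain ⟨v, hv, hvD⟩ := SetLike.exists_of_lt
    (Group.normalizerCondition_of_isNilpotent (D.subgroupOf P) hlt')
  set C : Subgroup G := (P : Subgroup G) ⊓ Subgroup.normalizer (D : Set G) with hC
  have hDC : D < C := by
    refine lt_of_le_of_ne (le_inf inf_le_left Subgroup.le_normalizer) fun h => hvD ?_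
    rw [Subgroup.mem_subgroupOf, h]
    refine ⟨v.2, ?_⟩
    refine Subgroup.mem_normalizer_iff.mpr ?_
    intro d
    constructor
    · intro hd
      have := (Subgroup.mem_normalizer_iff.mp hv ⟨d, inf_le_left (a := (P : Subgroup G)) hd⟩).mp hd
      exact this
    · intro hd
      have hdP : d ∈ (P : Subgroup G) := by
        have := mul_mem (mul_mem (inv_mem v.2) (inf_le_left (a := (P : Subgroup G)) hd)) v.2
        simpa [mul_assoc] using this
      exact (Subgroup.mem_normalizer_iff.mp hv ⟨d, hdP⟩).mpr hd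
  set k := Nat.card (C ⧸ D.subgroupOf C) with hk
  have hCk : Nat.card C = k * Nat.card D := by
    rw [Subgroup.card_eq_card_quotient_mul_card_subgroup (D.subgroupOf C),
      Nat.card_congr (Subgroup.subgroupOfEquivOfLe hDC.le).toEquiv]
  obtain ⟨e, he⟩ := IsPGroup.iff_card.mp P.2
  have hpk : p ≤ k := by
    have hk' : k ∣ p ^ e := by
      rw [← he]
      exact (Dvd.intro _ hCk.symm).trans (Subgroup.card_dvd_of_le inf_le_left)
    obtain ⟨i, _, hi⟩ := (Nat.dvd_prime_pow Fact.out).mp hk'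
    rcases Nat.eq_zero_or_pos i with rfl | hipos
    · exfalso
      rw [hi, pow_zero, one_mul] at hCk
      exact hDC.ne (Subgroup.eq_of_le_of_card_ge hDC.le hCk.le)
    · rw [hi]; exact Nat.le_self_pow (by omega) p
  have hpD : p * Nat.card D ≤ Nat.card (P : Subgroup G) := calc
    p * Nat.card D ≤ k * Nat.card D := Nat.mul_le_mul_right _ hpk
    _ = Nat.card C := hCk.symm
    _ ≤ Nat.card (P : Subgroup G) := Subgroup.card_le_of_le inf_le_left
  -- the conjugates of `Q` by the cosets of `D` in `C`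
  let R : C ⧸ D.subgroupOf C → Sylow p G := fun c => (c.out : G) • Q
  have hRmem : ∀ (c : C ⧸ D.subgroupOf C) (g : G), g ∈ (R c : Subgroup G) ↔
      (c.out : G)⁻¹ * g * (c.out : G) ∈ (Q : Subgroup G) := by
    intro c g
    simp [R, Sylow.coe_subgroup_smul, Subgroup.mem_pointwise_smul_iff_inv_smul_mem]
  have hDR : ∀ c : C ⧸ D.subgroupOf C, D ≤ (R c : Subgroup G) := by
    intro c g hg
    rw [hRmem]
    have hN : (c.out : G) ∈ Subgroup.normalizer (D : Set G) := c.out.2.2
    have := (Subgroup.mem_normalizer_iff.mp (inv_mem hN) g).mp hg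
    rw [inv_inv] at this
    exact inf_le_right (a := (P : Subgroup G)) this
  have hRP : ∀ c : C ⧸ D.subgroupOf C, P ≠ R c := by
    intro c h
    refine hQP ?_
    have hcP : (c.out : G) • P = P :=
      Sylow.smul_eq_iff_mem_normalizer.mpr (Subgroup.le_normalizer c.out.2.1)
    exact MulAction.injective (c.out : G) (hcP.trans h)
  have hRinj : Function.Injective R := by
    intro c d h
    have h1 : ((c.out : G)⁻¹ * (d.out : G)) • Q = Q := by
      rw [mul_smul]
      show (c.out : G)⁻¹ • R d = Q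
      rw [← h]
      exact inv_smul_smul _ _
    have hmemP : (c.out : G)⁻¹ * (d.out : G) ∈ (P : Subgroup G) :=
      mul_mem (inv_mem c.out.2.1) d.out.2.1
    have h2 : (c.out : G)⁻¹ * (d.out : G) ∈ (Q : Subgroup G) := by
      have hz := (Cfsg.Agent.FGSev.pElem_iff_isPGroup p _).mp
        (Cfsg.Agent.FGSev.pElem_of_mem P.2 hmemP)
      have hle := hz.inf_normalizer_sylow Q
      have : (c.out : G)⁻¹ * (d.out : G) ∈
          Subgroup.zpowers ((c.out : G)⁻¹ * (d.out : G)) ⊓ Subgroup.normalizer ((Q : Subgroup G) : Set G) :=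
        ⟨Subgroup.mem_zpowers _, Sylow.smul_eq_iff_mem_normalizer.mp h1⟩
      exact (hle.le this).2
    rw [← c.out_eq, ← d.out_eq]
    refine Quotient.sound ?_
    show QuotientGroup.leftRel _ _ _
    rw [QuotientGroup.leftRel_apply, Subgroup.mem_subgroupOf]
    exact ⟨hmemP, h2⟩
  let f : (P : Subgroup G) ⊕ ((C ⧸ D.subgroupOf C) × {q : G // q ∈ (Q : Subgroup G) ∧ q ∉ D}) →
      {g : G // ∃ k : ℕ, orderOf g = p ^ k} := fun z => match z with
    | .inl g => ⟨g, Cfsg.Agent.FGSev.pElem_of_mem P.2 g.2⟩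
    | .inr (c, q) => ⟨(c.out : G) * q * (c.out : G)⁻¹,
        Cfsg.Agent.FGSev.pElem_conj _ (Cfsg.Agent.FGSev.pElem_of_mem Q.2 q.2.1)⟩
  have hout : ∀ (c : C ⧸ D.subgroupOf C) (q : {q : G // q ∈ (Q : Subgroup G) ∧ q ∉ D}),
      (c.out : G) * q * (c.out : G)⁻¹ ∈ (R c : Subgroup G) ∧
        (c.out : G) * q * (c.out : G)⁻¹ ∉ D := by
    intro c q
    refine ⟨by rw [hRmem]; simpa [mul_assoc] using q.2.1, fun h => q.2.2 ?_⟩
    exact (Subgroup.mem_normalizer_iff.mp c.out.2.2 (q : G)).mpr h
  have hf : Function.Injective f := by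
    rintro (g | ⟨c, q⟩) (g' | ⟨c', q'⟩) h
    · exact congrArg Sum.inl (Subtype.ext (congrArg Subtype.val h :))
    · exfalso
      have h' : (g : G) = (c'.out : G) * q' * (c'.out : G)⁻¹ := congrArg Subtype.val h
      apply (hout c' q').2
      exact (hmaxD P (R c') (hRP c') (le_inf inf_le_left (hDR c'))).le ⟨h' ▸ g.2, (hout c' q').1⟩
    · exfalso
      have h' : (c.out : G) * q * (c.out : G)⁻¹ = (g' : G) := congrArg Subtype.val h
      apply (hout c q).2
      exact (hmaxD P (R c) (hRP c) (le_inf inf_le_left (hDR c))).le ⟨h'.symm ▸ g'.2, (hout c q).1⟩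
    · have h' : (c.out : G) * q * (c.out : G)⁻¹ = (c'.out : G) * q' * (c'.out : G)⁻¹ :=
        congrArg Subtype.val h
      obtain rfl : c = c' := by
        by_contra hcc
        apply (hout c q).2
        exact (hmaxD (R c) (R c') (fun e => hcc (hRinj e)) (le_inf (hDR c) (hDR c'))).le ⟨(hout c q).1, h'.symm ▸ (hout c' q').1⟩
      obtain rfl : q = q' := Subtype.ext (mul_left_cancel (mul_right_cancel h'))
      rfl
  have hQD : Nat.card {q : G // q ∈ (Q : Subgroup G) ∧ q ∉ D} + Nat.card D =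
      Nat.card (P : Subgroup G) := by
    have hcQ : Nat.card (Q : Subgroup G) = Nat.card (P : Subgroup G) := by
      rw [P.card_eq_multiplicity, Q.card_eq_multiplicity]
    rw [← hcQ, ← SetLike.coe_sort_coe (Q : Subgroup G)]
    have e1 : {q : G // q ∈ (Q : Subgroup G) ∧ q ∉ D} ≃
        ↥(((Q : Subgroup G) : Set G) \ (D : Set G)) := Equiv.refl _
    rw [Nat.card_congr e1, ← SetLike.coe_sort_coe D, Nat.card_coe_set_eq, Nat.card_coe_set_eq,
      Nat.card_coe_set_eq]
    exact Set.ncard_diff_add_ncard_of_subset (fun d hd => inf_le_right (a := (P : Subgroup G)) hd)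
      (Set.toFinite _)
  have hcard := Nat.card_le_card_of_injective f hf
  rw [Nat.card_sum, Nat.card_prod, ← hk] at hcard
  have h3 : p * Nat.card {q : G // q ∈ (Q : Subgroup G) ∧ q ∉ D} ≤
      k * Nat.card {q : G // q ∈ (Q : Subgroup G) ∧ q ∉ D} := Nat.mul_le_mul_right _ hpk
  have h4 : p * Nat.card (P : Subgroup G) =
      p * Nat.card {q : G // q ∈ (Q : Subgroup G) ∧ q ∉ D} + p * Nat.card D := by
    rw [← hQD, Nat.mul_add]
  omega

end Cfsg.Agent.S4092
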