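import Cfsg.Statements.S4093
import Cfsg.Agent.FGSev.PElem
-- import your own Cfsg.Agent.* helpers here

set_option autoImplicit false
open scoped BigOperators
open Cfsg

namespace Cfsg.Agent.S4093

/-- Let G be a finite group with a normal subgroup N complementing a Sylow p-subgroup P (a normal p-complement). Then the number of elements of G of p-power order equals the sum over x ∈ P of the index of C_N(x) in N. -/
theorem result {G : Type*} [Group G] [Finite G] (p : ℕ) [Fact p.Prime]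
    (P : Sylow p G) (N : Subgroup G) [N.Normal] (hNP : N.IsComplement' (P : Subgroup G)) :
    Nat.card {g : G // ∃ k : ℕ, orderOf g = p ^ k} =
      ∑ᶠ x : (P : Subgroup G), Nat.card N / Nat.card ↥(N ⊓ Subgroup.centralizer ({(x : G)} : Set G)) := by
  classical
  haveI : Fintype (P : Subgroup G) := Fintype.ofFinite _
  rw [finsum_eq_sum_of_fintype]
  have hdiv : ∀ x : (P : Subgroup G),
      Nat.card N / Nat.card ↥(N ⊓ Subgroup.centralizer ({(x : G)} : Set G)) =
        Nat.card {g : G // ∃ s ∈ N, g = s * (x : G) * s⁻¹} := by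
    intro x
    rw [← Cfsg.Agent.FGSev.card_conj_mul_card_centralizer N (x : G),
      Nat.mul_div_cancel _ Nat.card_pos]
  simp only [hdiv]
  rw [← Nat.card_sigma]
  have hmul : ∀ g : G, ∃ n ∈ N, ∃ y ∈ (P : Subgroup G), g = n * y := by
    intro g
    obtain ⟨⟨n, y⟩, hny⟩ := hNP.2 g
    exact ⟨n, n.2, y, y.2, hny.symm⟩
  refine Nat.card_congr (Equiv.ofBijective
    (fun z : (x : (P : Subgroup G)) × {g : G // ∃ s ∈ N, g = s * (x : G) * s⁻¹} =>
      (⟨(z.2 : G), ?_⟩ : {g : G // ∃ k : ℕ, orderOf g = p ^ k})) ⟨?_, ?_⟩).symm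
  · obtain ⟨s, _, hs⟩ := z.2.2
    rw [hs]
    exact Cfsg.Agent.FGSev.pElem_conj s (Cfsg.Agent.FGSev.pElem_of_mem P.2 z.1.2)
  · rintro ⟨x, a, s, hs, rfl⟩ ⟨y, b, t, ht, rfl⟩ h
    have h' : s * (x : G) * s⁻¹ = t * (y : G) * t⁻¹ := congrArg Subtype.val h
    have hmem : (x : G) * (y : G)⁻¹ ∈ N := by
      rw [← QuotientGroup.eq_one_iff (N := N)]
      have h'' : (QuotientGroup.mk' N) (s * (x : G) * s⁻¹) =
          (QuotientGroup.mk' N) (t * (y : G) * t⁻¹) := congrArg _ h'
      simp only [map_mul, map_inv] at h''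
      have hs1 : (QuotientGroup.mk' N) s = 1 := (QuotientGroup.eq_one_iff s).mpr hs
      have ht1 : (QuotientGroup.mk' N) t = 1 := (QuotientGroup.eq_one_iff t).mpr ht
      rw [hs1, ht1] at h''
      simp only [one_mul, inv_one, mul_one, QuotientGroup.mk'_apply] at h''
      rw [QuotientGroup.mk_mul, QuotientGroup.mk_inv, h'', mul_inv_cancel]
    have hxy : (x : G) * (y : G)⁻¹ = 1 :=
      Subgroup.disjoint_def.mp hNP.disjoint hmem (mul_mem x.2 (inv_mem y.2))
    obtain rfl : x = y := Subtype.ext (mul_inv_eq_one.mp hxy)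
    exact Sigma.ext rfl (heq_of_eq (Subtype.ext h'))
  · rintro ⟨g, hg⟩
    obtain ⟨y, hy⟩ := Cfsg.Agent.FGSev.pElem_conj_mem P hg
    obtain ⟨n, hn, q, hq, rfl⟩ := hmul y
    refine ⟨⟨⟨n⁻¹ * g * n, ?_⟩, ⟨g, n, hn, by simp only [mul_assoc, mul_inv_cancel_left, mul_inv_cancel, mul_one]⟩⟩, rfl⟩
    have := mul_mem (mul_mem hq hy) (inv_mem hq)
    simpa [mul_assoc] using this

end Cfsg.Agent.S4093
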