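import Cfsg.Statements.S4100
import Cfsg.Agent.AltModCert.Alt
import Cfsg.Agent.AltModCert.Two
import Cfsg.Agent.AltModCert.Five

set_option autoImplicit false
open Cfsg

namespace Cfsg.Agent.S4100

universe u

theorem orderOf_double_swap :
    orderOf (⟨Equiv.swap (0 : Fin 4) 1 * Equiv.swap 2 3, Equiv.Perm.mem_alternatingGroup.mpr
      (by decide)⟩ : alternatingGroup (Fin 4)) = 2 := by
  refine orderOf_eq_prime ?_ ?_
  · exact Subtype.ext (by decide)
  · intro h
    exact absurd (congrArg Subtype.val h) (by decide)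

theorem exists_orderOf_eq (p : ℕ) (hp : p.Prime) (h2 : p ≠ 2) :
    ∃ s : alternatingGroup (Fin p), orderOf s = p := by
  obtain ⟨k, rfl⟩ : ∃ k, p = k + 1 := ⟨p - 1, by have := hp.pos; omega⟩
  have hodd : Even k := by
    rcases hp.eq_two_or_odd' with h | h
    · exact absurd h h2
    · rcases h with ⟨a, ha⟩; exact ⟨a, by omega⟩
  have hk : 1 ≤ k := by have := hp.two_le; omega
  refine ⟨⟨finRotate (k + 1), Equiv.Perm.mem_alternatingGroup.mpr ?_⟩, ?_⟩
  · rw [sign_finRotate, Nat.add_sub_cancel, hodd.neg_one_pow]
  · rw [← orderOf_injective (alternatingGroup (Fin (k + 1))).subtype Subtype.val_injective,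
      Subgroup.coe_subtype]
    show orderOf (finRotate (k + 1)) = _
    obtain ⟨j, rfl⟩ : ∃ j, k = j + 1 := ⟨k - 1, by omega⟩
    rw [isCycle_finRotate.orderOf, support_finRotate, Finset.card_univ, Fintype.card_fin]

/-- Let G be a finite group and p a prime other than 3 such that the centralizer of every non-central element of p-power order is solvable. Then every alternating group of degree at least 5 involved in G (as a section) has degree at most p + 4, or at most p + 6 = 8 when p = 2. -/
theorem result {G : Type*} [Group G] [Finite G] (p : ℕ) [Fact p.Prime] (hp3 : p ≠ 3)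
    (h : ∀ x : G, x ∉ Subgroup.center G → (∃ k : ℕ, orderOf x = p ^ k) → Group.IsSolvable (Subgroup.centralizer ({x} : Set G)))
    (d : ℕ) (hd : 5 ≤ d) (hinv : Cfsg.Involves (alternatingGroup (Fin d)) G) :
    d ≤ p + 4 + (if p = 2 then 2 else 0) := by
  by_contra hlt
  push Not at hlt
  have hp := (Fact.out : p.Prime)
  rcases eq_or_ne p 2 with rfl | h2
  · refine AltModCert.bound 2 h (m := 4) (n := 9) rfl _ orderOf_double_swap (.inr ?_)
      (by simp at hlt; omega) hinv
    intro V _ _ hV hNF v
    exact AltModCert.Two.eq_zero hV hNF v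
  rw [if_neg h2] at hlt
  obtain ⟨s, hs⟩ := exists_orderOf_eq p hp h2
  rcases eq_or_ne p 5 with rfl | h5
  · refine AltModCert.bound 5 h (m := 5) (n := 10) rfl s hs (.inr ?_) (by omega) hinv
    intro V _ _ hV hNF v
    exact AltModCert.Five.eq_zero hV hNF v
  · refine AltModCert.bound p h (m := p) (n := p + 5) rfl s hs (.inl ?_) (by omega) hinv
    intro h60
    have hle : p ≤ 60 := Nat.le_of_dvd (by norm_num) h60
    interval_cases p <;> norm_num at *

end Cfsg.Agent.S4100
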