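import Cfsg.Statements.S4106
import Cfsg.Agent.FGSev.PiClasses
-- import your own Cfsg.Agent.* helpers here

set_option autoImplicit false
open Cfsg

namespace Cfsg.Agent.S4106

/-- Let G be a finite group, π a set of primes and m the π-part of the order of G. Then the number of conjugacy classes of G consisting of π-elements (elements whose order is divisible only by primes in π) is at most m. -/
theorem result {G : Type*} [Group G] [Finite G]
    (π : Set ℕ) (hπ : ∀ q ∈ π, q.Prime)
    (m : ℕ) (hm : m ∣ Nat.card G) (hmπ : ∀ q : ℕ, q.Prime → q ∣ m → q ∈ π)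
    (hm' : ∀ q ∈ π, ¬ q ∣ Nat.card G / m) :
    Nat.card {C : ConjClasses G // ∀ q : ℕ, q.Prime → (∃ g : G, ConjClasses.mk g = C ∧ q ∣ orderOf g) → q ∈ π} ≤ m := by
  classical
  have hG : Nat.card G ≠ 0 := Nat.card_pos.ne'
  have hm0 : m ≠ 0 := fun h => hG (Nat.eq_zero_of_zero_dvd (h ▸ hm))
  have hqm : ∀ q ∈ π, q ∣ Nat.card G → q ∣ m := by
    intro q hq hqG
    rw [← Nat.mul_div_cancel' hm] at hqG
    exact ((hπ q hq).dvd_mul.mp hqG).resolve_right (hm' q hq)
  refine le_trans ?_ (le_trans (Cfsg.Agent.FGSev.card_piClasses_le m.primeFactors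
    (fun q hq => Nat.prime_of_mem_primeFactors hq) G) ?_)
  · let f : {C : ConjClasses G // ∀ q : ℕ, q.Prime → (∃ g : G, ConjClasses.mk g = C ∧ q ∣ orderOf g) → q ∈ π} →
        {C : ConjClasses G // ∀ q : ℕ, q.Prime → (∃ g : G, ConjClasses.mk g = C ∧ q ∣ orderOf g) → q ∈ m.primeFactors} :=
      fun C => ⟨C.1, fun q hq h => Nat.mem_primeFactors.mpr ⟨hq,
        hqm q (C.2 q hq h) (by obtain ⟨g, _, hd⟩ := h; exact hd.trans (orderOf_dvd_natCard g)), hm0⟩⟩
    exact Nat.card_le_card_of_injective f fun a b h => Subtype.ext (congrArg Subtype.val h :)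
  · have heq : ∀ q ∈ m.primeFactors, (Nat.card G).factorization q = m.factorization q := by
      intro q hq
      have hqπ := hmπ q (Nat.prime_of_mem_primeFactors hq) (Nat.dvd_of_mem_primeFactors hq)
      have h0 : (Nat.card G / m).factorization q = 0 :=
        Nat.factorization_eq_zero_of_not_dvd (hm' q hqπ)
      rw [Nat.factorization_div hm] at h0
      simp only [Finsupp.coe_tsub, Pi.sub_apply] at h0
      have := (Nat.factorization_le_iff_dvd hm0 hG).mpr hm q
      omega
    rw [Finset.prod_congr rfl fun q hq => by rw [heq q hq]]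
    exact le_of_eq (Nat.prod_factorization_pow_eq_self hm0)

end Cfsg.Agent.S4106
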