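import Cfsg.Statements.S4107
import Cfsg.Agent.FGSev.Nilpotent
import Cfsg.Agent.Cores.Fitting
-- import your own Cfsg.Agent.* helpers here

set_option autoImplicit false
open Cfsg

namespace Cfsg.Agent.S4107

/-- Let G be a finite group and N a proper non-trivial normal subgroup such that for every x outside N all elements of the coset xN have the same order as x. Then N ≤ F(G) or F(G) ≤ N, where F(G) is the Fitting subgroup; and if N is properly contained in F(G) then F(G) has prime-power order. -/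
theorem result {G : Type*} [Group G] [Finite G] (N : Subgroup G) [N.Normal] (hN1 : N ≠ ⊥) (hN2 : N ≠ ⊤)
    (heq : ∀ x : G, x ∉ N → ∀ n ∈ N, orderOf (x * n) = orderOf x) :
    (N ≤ Cfsg.fittingSubgroup G ∨ Cfsg.fittingSubgroup G ≤ N) ∧
    (N < Cfsg.fittingSubgroup G → IsPrimePow (Nat.card (Cfsg.fittingSubgroup G))) := by
  classical
  set F := Cfsg.fittingSubgroup G with hF
  haveI hFnil : Group.IsNilpotent F := Cfsg.Agent.Cores.fittingSubgroup_isNilpotent
  haveI hFn : F.Normal := inferInstance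
  suffices key : ¬ F ≤ N → N ≤ F ∧ IsPrimePow (Nat.card F) by
    refine ⟨?_, fun hlt => (key hlt.not_ge).2⟩
    by_cases h : F ≤ N
    · exact Or.inr h
    · exact Or.inl (key h).1
  intro hFN
  -- an element of prime power order in `F \ N`
  obtain ⟨x, p, hp, hxF, hxN, hxp⟩ : ∃ (x : G) (p : ℕ), p.Prime ∧ x ∈ F ∧ x ∉ N ∧ ∃ k, orderOf x = p ^ k := by
    by_contra hcon
    push Not at hcon
    apply hFN
    intro z hz
    have hle : Subgroup.closure {g : F | ∃ p k : ℕ, p.Prime ∧ orderOf g = p ^ k} ≤ N.subgroupOf F := by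
      rw [Subgroup.closure_le]
      rintro g ⟨p, k, hp, hg⟩
      by_contra hgN
      exact hcon g p hp g.2 hgN k (by rwa [Subgroup.orderOf_coe])
    rw [Cfsg.Agent.Element.closure_primePow_orderOf] at hle
    exact hle (Subgroup.mem_top ⟨z, hz⟩)
  haveI := Fact.mk hp
  obtain ⟨a, ha⟩ := hxp
  have hcopx : ∀ {q : ℕ} {n : G}, q.Prime → q ≠ p → (∃ k, orderOf n = q ^ k) →
      (orderOf x).Coprime (orderOf n) := by
    intro q n hq hqp hn
    obtain ⟨b, hb⟩ := hn
    rw [ha, hb]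
    exact Nat.Coprime.pow _ _ ((Nat.coprime_primes hp hq).mpr (Ne.symm hqp))
  -- `q`-elements of `N ∩ F` are trivial
  have hNF : ∀ {q : ℕ} {n : G}, q.Prime → q ≠ p → n ∈ N → n ∈ F → (∃ k, orderOf n = q ^ k) → n = 1 := by
    intro q n hq hqp hn hnF hnq
    haveI := Fact.mk hq
    have hc : Commute (⟨x, hxF⟩ : F) ⟨n, hnF⟩ := Cfsg.Agent.FGSev.commute_of_nilpotent (Ne.symm hqp)
      ⟨a, by rwa [Subgroup.orderOf_mk]⟩ (by simpa [Subgroup.orderOf_mk] using hnq)
    exact Cfsg.Agent.FGSev.eq_one_of_orderOf_mul_eq (congrArg Subtype.val hc.eq) (hcopx hq hqp hnq)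
      (heq x hxN n hn)
  have hNFp : IsPGroup p ↥(N ⊓ F) := by
    refine IsPGroup.iff_orderOf.mpr fun ⟨n, hnN, hnF⟩ => ?_
    rw [← Subgroup.orderOf_coe]
    refine ⟨_, Nat.eq_prime_pow_of_unique_prime_dvd (orderOf_pos n).ne' fun {q} hq hqd => ?_⟩
    by_contra hqp
    obtain ⟨y, hy, hyo⟩ := Cfsg.Agent.Element.exists_orderOf_eq_of_dvd (orderOf_pos n).ne' hqd
    have h1 : y = 1 := hNF hq hqp (Subgroup.zpowers_le.mpr hnN hy) (Subgroup.zpowers_le.mpr hnF hy)
      ⟨1, by rw [hyo, pow_one]⟩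
    rw [h1, orderOf_one] at hyo
    exact hq.one_lt.ne hyo
  -- `q`-elements of `N` are trivial
  have hNp : IsPGroup p N := by
    refine IsPGroup.iff_orderOf.mpr fun ⟨n, hnN⟩ => ?_
    rw [Subgroup.orderOf_mk]
    refine ⟨_, Nat.eq_prime_pow_of_unique_prime_dvd (orderOf_pos n).ne' fun {q} hq hqd => ?_⟩
    by_contra hqp
    obtain ⟨y, hy, hyo⟩ := Cfsg.Agent.Element.exists_orderOf_eq_of_dvd (orderOf_pos n).ne' hqd
    have hyN : y ∈ N := Subgroup.zpowers_le.mpr hnN hy
    haveI := Fact.mk hq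
    -- the coset `x (N ∩ F)` as a set with an action of `⟨y⟩`
    let S := {z : G // x⁻¹ * z ∈ N ⊓ F}
    have hmem : ∀ (g : Subgroup.zpowers y) (z : S), x⁻¹ * ((g : G) * z * (g : G)⁻¹) ∈ N ⊓ F := by
      intro g z
      have hg : (g : G) ∈ N := Subgroup.zpowers_le.mpr hyN g.2
      have hzF : (z : G) ∈ F := by
        have := mul_mem hxF z.2.2
        rwa [mul_inv_cancel_left] at this
      refine Subgroup.mem_inf.mpr ⟨?_, mul_mem (inv_mem hxF) (hFn.conj_mem _ hzF _)⟩
      have h1 : x⁻¹ * (g : G) * x ∈ N := by simpa using (inferInstance : N.Normal).conj_mem _ hg x⁻¹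
      have := mul_mem (mul_mem h1 z.2.1) (inv_mem hg)
      simpa [mul_assoc] using this
    letI : MulAction (Subgroup.zpowers y) S :=
      { smul := fun g z => ⟨(g : G) * z * (g : G)⁻¹, hmem g z⟩
        one_smul := fun z => Subtype.ext (by show (1 : G) * z * (1 : G)⁻¹ = z; simp)
        mul_smul := fun g h z => Subtype.ext (by
          show ((g * h : Subgroup.zpowers y) : G) * z * ((g * h : Subgroup.zpowers y) : G)⁻¹ =
            (g : G) * ((h : G) * z * (h : G)⁻¹) * (g : G)⁻¹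
          push_cast; group) }
    have hy' : IsPGroup q (Subgroup.zpowers y) :=
      IsPGroup.of_card (n := 1) (by rw [Nat.card_zpowers, hyo, pow_one])
    have hcard : ¬ q ∣ Nat.card S := by
      have : Nat.card S = Nat.card ↥(N ⊓ F) :=
        Nat.card_congr ((Equiv.mulLeft x⁻¹).subtypeEquiv fun z => Iff.rfl)
      obtain ⟨k, hk⟩ := IsPGroup.iff_card.mp hNFp
      rw [this, hk]
      exact fun h => hqp ((Nat.prime_dvd_prime_iff_eq hq hp).mp (hq.dvd_of_dvd_pow h))
    obtain ⟨⟨z, hz⟩, hzfix⟩ := hy'.nonempty_fixed_point_of_prime_not_dvd_card S hcard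
    have hzy : Commute z y := by
      have h1 : y * z * y⁻¹ = z := congrArg Subtype.val (hzfix ⟨y, Subgroup.mem_zpowers y⟩)
      exact (mul_inv_eq_iff_eq_mul.mp h1).symm
    have hzN : z ∉ N := fun h => hxN (by
      have := mul_mem h (inv_mem hz.1)
      simpa using this)
    obtain ⟨l, hl⟩ : ∃ l, orderOf z = p ^ l := by
      have h1 := heq x hxN _ hz.1
      rw [mul_inv_cancel_left] at h1
      exact ⟨a, h1.trans ha⟩
    have := Cfsg.Agent.FGSev.eq_one_of_orderOf_mul_eq hzy (by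
      rw [hl, hyo]; exact ((Nat.coprime_primes hp hq).mpr (Ne.symm hqp)).pow_left l) (heq z hzN y hyN)
    rw [this, orderOf_one] at hyo
    exact hq.one_lt.ne hyo
  have hNle : N ≤ F := Cfsg.Agent.Cores.le_fittingSubgroup inferInstance hNp.isNilpotent
  refine ⟨hNle, ?_⟩
  have hFp : IsPGroup p F := by
    refine IsPGroup.iff_orderOf.mpr fun f => ?_
    refine ⟨_, Nat.eq_prime_pow_of_unique_prime_dvd (orderOf_pos f).ne' fun {q} hq hqd => ?_⟩
    by_contra hqp
    obtain ⟨y, hy, hyo⟩ := Cfsg.Agent.Element.exists_orderOf_eq_of_dvd (orderOf_pos f).ne' hqd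
    haveI := Fact.mk hq
    by_cases hyN : (y : G) ∈ N
    · have h1 := hNF hq hqp hyN y.2 ⟨1, by rw [Subgroup.orderOf_coe, hyo, pow_one]⟩
      rw [← Subgroup.orderOf_coe, h1, orderOf_one] at hyo
      exact hq.one_lt.ne hyo
    · -- then `N` is both a `p`-group and centralized by `y` of order `q`
      apply hN1
      rw [eq_bot_iff]
      intro n hn
      rw [Subgroup.mem_bot]
      obtain ⟨k, hk⟩ := Cfsg.Agent.Element.orderOf_eq_pow_of_mem_isPGroup hNp hn
      have hc : Commute y (⟨n, hNle hn⟩ : F) := Cfsg.Agent.FGSev.commute_of_nilpotent hqp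
        ⟨1, by rw [hyo, pow_one]⟩ ⟨k, by rwa [Subgroup.orderOf_mk]⟩
      refine Cfsg.Agent.FGSev.eq_one_of_orderOf_mul_eq (congrArg Subtype.val hc.eq) ?_ (heq y hyN n hn)
      rw [Subgroup.orderOf_coe, hyo, hk]
      exact ((Nat.coprime_primes hq hp).mpr hqp).pow_right k
  obtain ⟨k, hk⟩ := IsPGroup.iff_card.mp hFp
  rw [hk]
  refine (Nat.Prime.isPrimePow hp).pow ?_
  rintro rfl
  rw [pow_zero, Subgroup.card_eq_one] at hk
  exact hFN (hk ▸ bot_le)

end Cfsg.Agent.S4107
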