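import Cfsg.Statements.S4108
import Cfsg.Agent.Lib.FrobeniusGroup
import Cfsg.Agent.FGSev.Nilpotent
-- import your own Cfsg.Agent.* helpers here

set_option autoImplicit false
open Cfsg

namespace Cfsg.Agent.S4108

/-- Let G be a finite group, p a prime and N a proper non-trivial normal p-subgroup such that for every x outside N all elements of the coset xN have the same order as x. Then every non-trivial subgroup H of G of order prime to p acts fixed-point-freely on N: NH is a Frobenius group with complement H and kernel N. -/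
theorem result {G : Type*} [Group G] [Finite G] (N : Subgroup G) [N.Normal] (hN1 : N ≠ ⊥) (hN2 : N ≠ ⊤)
    (heq : ∀ x : G, x ∉ N → ∀ n ∈ N, orderOf (x * n) = orderOf x)
    (p : ℕ) [Fact p.Prime] (hNp : IsPGroup p N) :
    ∀ H : Subgroup G, H ≠ ⊥ → (Nat.card H).Coprime p →
      Cfsg.IsFrobeniusComplement (H.subgroupOf (N ⊔ H)) ∧ Cfsg.frobeniusKernel (H.subgroupOf (N ⊔ H)) = (N.subgroupOf (N ⊔ H) : Set ↥(N ⊔ H)) := by
  classical
  intro H hH hcop
  have hp : p.Prime := Fact.out
  have hfpf : ∀ h ∈ H, h ≠ 1 → ∀ n ∈ N, Commute h n → n = 1 := by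
    intro h hh h1 n hn hc
    have hhcop : (orderOf h).Coprime p := Cfsg.Agent.Element.coprime_orderOf_of_mem hcop hh
    have hhN : h ∉ N := fun hhN => by
      obtain ⟨k, hk⟩ := Cfsg.Agent.Element.orderOf_eq_pow_of_mem_isPGroup hNp hhN
      apply h1
      rw [← orderOf_eq_one_iff]
      exact Nat.Coprime.eq_one_of_dvd (hhcop.pow_right k) hk.dvd
    refine Cfsg.Agent.FGSev.eq_one_of_orderOf_mul_eq hc ?_ (heq h hhN n hn)
    obtain ⟨k, hk⟩ := Cfsg.Agent.Element.orderOf_eq_pow_of_mem_isPGroup hNp hn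
    rw [hk]; exact hhcop.pow_right k
  set X := N ⊔ H with hX
  set K := N.subgroupOf X with hK
  set C := H.subgroupOf X with hC
  haveI : K.Normal := Subgroup.Normal.subgroupOf inferInstance X
  have hdisj : ∀ z, z ∈ N → z ∈ H → z = 1 := by
    intro z hzN hzH
    by_contra hz
    exact hz (hfpf z hzH hz z hzN (Commute.refl z))
  have hc : K.IsComplement' C := by
    refine Subgroup.isComplement'_of_disjoint_and_mul_eq_univ ?_ ?_
    · refine Subgroup.disjoint_def.mpr fun {z} hz hz' => ?_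
      exact Subtype.ext (hdisj z hz hz')
    · refine Set.eq_univ_of_forall fun z => ?_
      obtain ⟨n, hn, h, hh, hz⟩ := Subgroup.mem_sup_of_normal_left.mp (z.2 : (z : G) ∈ N ⊔ H)
      exact ⟨⟨n, le_sup_left (b := H) hn⟩, hn, ⟨h, le_sup_right (a := N) hh⟩, hh, Subtype.ext hz⟩
  have hK1 : K ≠ ⊥ := fun h => hN1 (le_bot_iff.mp fun n hn => by
    have : (⟨n, le_sup_left (b := H) hn⟩ : X) ∈ K := hn
    rw [h, Subgroup.mem_bot] at this
    exact Subgroup.mem_bot.mpr (congrArg Subtype.val this))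
  have hC1 : C ≠ ⊥ := fun h => hH (le_bot_iff.mp fun n hn => by
    have : (⟨n, le_sup_right (a := N) hn⟩ : X) ∈ C := hn
    rw [h, Subgroup.mem_bot] at this
    exact Subgroup.mem_bot.mpr (congrArg Subtype.val this))
  have hFC := Cfsg.Agent.Frobenius.isFrobeniusComplement_of_fpf hc hK1 hC1 fun h hh h1 => by
    refine le_bot_iff.mp fun z ⟨hzK, hzc⟩ => Subgroup.mem_bot.mpr (Subtype.ext ?_)
    exact hfpf h hh (fun e => h1 (Subtype.ext e)) z hzK
      (congrArg Subtype.val (Subgroup.mem_centralizer_singleton_iff.mp hzc)).symm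
  refine ⟨hFC, ?_⟩
  obtain ⟨K', hK', -, hc'⟩ := Cfsg.Agent.Frobenius.exists_kernel hFC
  rw [← hK']
  congr 1
  symm
  refine Subgroup.eq_of_le_of_card_ge ?_ ?_
  · intro z hz
    show z ∈ (K' : Set X)
    rw [hK', Cfsg.Agent.Frobenius.mem_frobeniusKernel]
    by_cases hz1 : z = 1
    · exact Or.inl hz1
    refine Or.inr fun g hg => hz1 ?_
    have hgK : g⁻¹ * z * g ∈ K := by simpa using (inferInstance : K.Normal).conj_mem z hz g⁻¹
    have := Subgroup.disjoint_def.mp hc.disjoint hgK hg
    calc z = g * (g⁻¹ * z * g) * g⁻¹ := by group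
      _ = 1 := by rw [this]; group
  · have h1 := hc.card_mul
    have h2 := hc'.card_mul
    exact (Nat.eq_of_mul_eq_mul_right Nat.card_pos (h1.trans h2.symm)).ge

end Cfsg.Agent.S4108
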