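import Cfsg.Statements.S4112
import Cfsg.Agent.FGSev.Nilpotent
-- import your own Cfsg.Agent.* helpers here

set_option autoImplicit false
open Cfsg

namespace Cfsg.Agent.S4112

/-- Let G be a finite group and M ≤ N non-trivial proper normal subgroups such that for every g outside N the conjugacy class of g is a union of cosets of M (equivalently gm is conjugate to g for every m ∈ M). Then (1) and (2) below are equivalent, and they imply (3): (1) every g outside N acts fixed-point-freely on M, that is C_G(x) ≤ N for every x ∈ M, x ≠ 1; (2) the index of N in G is coprime to the order of M; (3) there is a subgroup H of G with HN = G and H ∩ M = 1. -/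
theorem result {G : Type*} [Group G] [Finite G] (N M : Subgroup G) [N.Normal] [M.Normal] (hMN : M ≤ N) (hM1 : M ≠ ⊥) (hN2 : N ≠ ⊤)
    (hcam : ∀ g : G, g ∉ N → ∀ m ∈ M, ∃ x : G, x * g * x⁻¹ = g * m) :
    ((∀ x ∈ M, x ≠ 1 → Subgroup.centralizer ({x} : Set G) ≤ N) ↔ N.index.Coprime (Nat.card M)) ∧
    ((∀ x ∈ M, x ≠ 1 → Subgroup.centralizer ({x} : Set G) ≤ N) → ∃ H : Subgroup G, H ⊔ N = ⊤ ∧ H ⊓ M = ⊥) := by
  classical
  have h12 : (∀ x ∈ M, x ≠ 1 → Subgroup.centralizer ({x} : Set G) ≤ N) → N.index.Coprime (Nat.card M) := by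
    intro h
    refine Nat.coprime_of_dvd fun p hp hpi hpM => ?_
    haveI := Fact.mk hp
    obtain ⟨S, -⟩ : ∃ S : Sylow p G, True := ⟨default, trivial⟩
    have hSN : ¬ (S : Subgroup G) ≤ N := fun hle => S.not_dvd_index (hpi.trans (Subgroup.index_dvd_of_le hle))
    obtain ⟨g, hgS, hgN⟩ := SetLike.not_le_iff_exists.mp hSN
    -- a central element of `S` inside `M`
    have hSM : ∃ z ∈ M, z ≠ 1 ∧ ∀ s ∈ (S : Subgroup G), s * z = z * s := by
      letI : MulAction (S : Subgroup G) M :=
        { smul := fun s m => ⟨(s : G) * m * (s : G)⁻¹, (inferInstance : M.Normal).conj_mem _ m.2 _⟩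
          one_smul := fun m => Subtype.ext (by show (1 : G) * m * (1 : G)⁻¹ = m; simp)
          mul_smul := fun s t m => Subtype.ext (by
            show ((s * t : (S : Subgroup G)) : G) * m * ((s * t : (S : Subgroup G)) : G)⁻¹ =
              (s : G) * ((t : G) * m * (t : G)⁻¹) * (s : G)⁻¹
            push_cast; group) }
      have hone : (1 : M) ∈ MulAction.fixedPoints (S : Subgroup G) M := fun s => by
        apply Subtype.ext; show (s : G) * ((1 : M) : G) * (s : G)⁻¹ = ((1 : M) : G); simp
      obtain ⟨z, hz, hz1⟩ := S.2.exists_fixed_point_of_prime_dvd_card_of_fixed_point M hpM hone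
      refine ⟨z, z.2, fun e => hz1 (Subtype.ext e.symm), fun s hs => ?_⟩
      exact mul_inv_eq_iff_eq_mul.mp (congrArg Subtype.val (hz ⟨s, hs⟩))
    obtain ⟨z, hzM, hz1, hzc⟩ := hSM
    exact hgN (h z hzM hz1 (Subgroup.mem_centralizer_singleton_iff.mpr (hzc g hgS)))
  have h21 : N.index.Coprime (Nat.card M) → ∀ x ∈ M, x ≠ 1 → Subgroup.centralizer ({x} : Set G) ≤ N := by
    intro hcop x hx hx1 g hg
    by_contra hgN
    have hgx : Commute g x := Subgroup.mem_centralizer_singleton_iff.mp hg
    have hne : orderOf (g : G ⧸ N) ≠ 1 := fun h => hgN ((QuotientGroup.eq_one_iff g).mp (orderOf_eq_one_iff.mp h))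
    obtain ⟨p, hp, hpd⟩ := Nat.exists_prime_and_dvd hne
    haveI := Fact.mk hp
    set s := Cfsg.Agent.Element.pPart p g with hs
    have hsN : s ∉ N := by
      intro hsN
      have h1 := (Cfsg.Agent.Element.map_pPart hp (QuotientGroup.mk' N) g).1
      have h2 : (QuotientGroup.mk' N) s = 1 := (QuotientGroup.eq_one_iff s).mpr hsN
      rw [h2] at h1
      have h3 := Cfsg.Agent.Element.coprime_orderOf_pComplPart hp (QuotientGroup.mk' N g)
      have h4 := Cfsg.Agent.Element.pPart_mul_pComplPart p (QuotientGroup.mk' N g)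
      rw [← h1, one_mul] at h4
      rw [h4] at h3
      exact (hp.coprime_iff_not_dvd.mp h3.symm) hpd
    have hpM : (Nat.card M).Coprime p :=
      (hcop.symm.coprime_dvd_right (hpd.trans (orderOf_dvd_natCard _)))
    obtain ⟨k, hk⟩ : ∃ k, orderOf s = p ^ k := ⟨_, Cfsg.Agent.Element.orderOf_pPart_eq_pow hp g⟩
    obtain ⟨y, hy⟩ := hcam s hsN x hx
    have hc : Commute s x := (Cfsg.Agent.Element.commute_pPart hgx.symm).symm
    refine hx1 (Cfsg.Agent.FGSev.eq_one_of_orderOf_mul_eq hc ?_ ?_)
    · rw [hk]; exact ((Cfsg.Agent.Element.coprime_orderOf_of_mem hpM hx).pow_right k).symm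
    · rw [← hy]; exact orderOf_injective (MulAut.conj y).toMonoidHom (MulAut.conj y).injective s
  refine ⟨⟨h12, h21⟩, fun h => ?_⟩
  -- a minimal supplement
  obtain ⟨H, hH, hmin⟩ := Set.Finite.exists_minimal (s := {H : Subgroup G | H ⊔ N = ⊤}) (Set.toFinite _)
    ⟨⊤, top_sup_eq _⟩
  refine ⟨H, hH, ?_⟩
  have hfr : N.subgroupOf H ≤ frattini H := by
    refine le_iInf₂ fun K (hK : IsCoatom K) => ?_
    by_contra hle
    have h1 : K < K ⊔ N.subgroupOf H := lt_of_le_of_ne le_sup_left fun e => hle (e ▸ le_sup_right)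
    have h2 := hK.2 _ h1
    have h3 : K.map H.subtype ⊔ N = ⊤ := by
      rw [eq_top_iff, ← (hH : H ⊔ N = ⊤)]
      refine sup_le ?_ le_sup_right
      have h4 := congrArg (Subgroup.map H.subtype) h2
      rw [← MonoidHom.range_eq_map, Subgroup.range_subtype, Subgroup.map_sup] at h4
      intro z hz
      rw [← h4] at hz
      have hle' : (N.subgroupOf H).map H.subtype ≤ N := Subgroup.map_le_iff_le_comap.mpr le_rfl
      exact sup_le_sup_left hle' _ hz
    apply hK.1
    rw [eq_top_iff]
    intro z _
    have := hmin (y := K.map H.subtype) h3 (Subgroup.map_subtype_le K) z.2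
    rwa [← Subgroup.mem_map_iff_mem H.subtype_injective]
  rw [Subgroup.eq_bot_iff_card]
  by_contra hne
  obtain ⟨r, hr, hrd⟩ := Nat.exists_prime_and_dvd hne
  haveI := Fact.mk hr
  have hrM : r ∣ Nat.card M := hrd.trans (Subgroup.card_dvd_of_le inf_le_right)
  have hrN : ¬ r ∣ N.index := fun hd =>
    hr.one_lt.ne' (Nat.eq_one_of_dvd_coprimes (h12 h) hd hrM)
  let R : Sylow r H := default
  have hRN : (R : Subgroup H) ≤ N.subgroupOf H := by
    intro z hz
    obtain ⟨k, hk⟩ := Cfsg.Agent.Element.orderOf_eq_pow_of_mem_isPGroup R.2 hz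
    refine Cfsg.Agent.Element.mem_of_coprime_index (N := N) ?_
    rw [orderOf_injective H.subtype H.subtype_injective z, hk]
    exact (hr.coprime_iff_not_dvd.mpr hrN).pow_left k
  haveI : Group.IsNilpotent (frattini H) := frattini_nilpotent
  have hRfr : (R : Subgroup H) ≤ frattini H := hRN.trans hfr
  have hRn : (R : Subgroup H).Normal := by
    -- Frattini argument
    have hsub : (R.subtype hRfr : Subgroup (frattini H)).Normal :=
      (R.subtype hRfr).normal_of_normalizerCondition Group.normalizerCondition_of_isNilpotent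
    haveI : (R.subtype hRfr : Subgroup (frattini H)).Characteristic :=
      Sylow.characteristic_of_normal _ hsub
    have : (((R.subtype hRfr : Sylow r (frattini H)) : Subgroup (frattini H)).map (frattini H).subtype).Normal :=
      ConjAct.normal_of_characteristic_of_normal
    rwa [Sylow.coe_subtype, Subgroup.map_subgroupOf_eq_of_le hRfr] at this
  haveI := hRn
  obtain ⟨C, hC⟩ := Subgroup.exists_right_complement'_of_coprime R.card_coprime_index
  have hCtop : C = ⊤ := by
    refine frattini_nongenerating (top_unique ?_)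
    rw [← hC.sup_eq_top]
    exact sup_le (hRfr.trans le_sup_right) le_sup_left
  have hdvdH : r ∣ Nat.card H := hrd.trans (Subgroup.card_dvd_of_le inf_le_left)
  refine R.ne_bot_of_dvd_card hdvdH ?_
  have := hC.disjoint
  rwa [hCtop, disjoint_top] at this

end Cfsg.Agent.S4112
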