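import Cfsg.Statements.S4115
import Cfsg.Agent.OddChar43.TIComplement

set_option autoImplicit false
set_option linter.style.haveILetI false
universe u
open Cfsg

namespace Cfsg.Agent.S4115

/-- Let G be a finite group and H a subgroup that meets each of its conjugates by elements outside N_G(H) trivially and whose order is coprime to its index in N_G(H). Then H has a normal complement in N_G(H) if and only if H has a normal complement in G. Moreover, if H is not normal in G and has a normal complement in N_G(H), then H is isomorphic to a Frobenius complement of some finite Frobenius group. -/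
theorem result {G : Type u} [Group G] [Finite G] (H : Subgroup G)
    (hTI : Cfsg.IsTISubset (H : Set G)) (hHall : (Nat.card H).Coprime (H.subgroupOf (Subgroup.normalizer (H : Set G))).index) :
    ((∃ K : Subgroup (Subgroup.normalizer (H : Set G)), K.Normal ∧ K.IsComplement' (H.subgroupOf (Subgroup.normalizer (H : Set G)))) ↔
      (∃ N : Subgroup G, N.Normal ∧ N.IsComplement' H)) ∧
    (¬ H.Normal → (∃ K : Subgroup (Subgroup.normalizer (H : Set G)), K.Normal ∧ K.IsComplement' (H.subgroupOf (Subgroup.normalizer (H : Set G)))) →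
      ∃ (F : Type u) (_ : Group F) (_ : Finite F) (C : Subgroup F), Cfsg.IsFrobeniusComplement C ∧ Nonempty (H ≃* C)) := by
  have hfw : (∃ K : Subgroup (Subgroup.normalizer (H : Set G)), K.Normal ∧
      K.IsComplement' (H.subgroupOf (Subgroup.normalizer (H : Set G)))) →
      ∃ N : Subgroup G, N.Normal ∧ N.IsComplement' H := by
    rintro ⟨K, hKn, hK⟩
    haveI := hKn
    exact OddChar43.exists_normal_complement_of_ti H hTI hHall K hK
  refine ⟨⟨hfw, ?_⟩, fun hnn hK => ?_⟩
  · rintro ⟨M, hMn, hM⟩
    haveI := hMn
    refine ⟨M.subgroupOf _, inferInstance, Subgroup.isComplement'_of_disjoint_and_mul_eq_univ ?_ ?_⟩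
    · rw [Subgroup.disjoint_def]
      intro x hx hx'
      exact Subtype.ext (Subgroup.disjoint_def.1 hM.disjoint hx hx')
    rw [Set.eq_univ_iff_forall]
    · rintro ⟨x, hx⟩
      obtain ⟨⟨⟨a, ha⟩, ⟨b, hb⟩⟩, hab⟩ := hM.2 x
      have hab' : a * b = x := hab
      have hbN : b ∈ Subgroup.normalizer (H : Set G) := Subgroup.le_normalizer hb
      have haN : a ∈ Subgroup.normalizer (H : Set G) := by
        rw [show a = x * b⁻¹ by rw [← hab', mul_inv_cancel_right]]
        exact Subgroup.mul_mem _ hx (Subgroup.inv_mem _ hbN)
      exact ⟨⟨a, haN⟩, ha, ⟨b, hbN⟩, hb, Subtype.ext hab'⟩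
  · obtain ⟨M, hMn, hM⟩ := hfw hK
    haveI := hMn
    exact OddChar43.exists_frobenius_of_ti_complement H hTI hHall M hM hnn

end Cfsg.Agent.S4115
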