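import Cfsg.Statements.S4116
import Cfsg.Agent.Fusion.Basic
import Cfsg.Agent.Lib.Element
-- import your own Cfsg.Agent.* helpers here

set_option autoImplicit false
open Cfsg
open Cfsg.Agent.Fusion

namespace Cfsg.Agent.S4116

/-- Let G be a finite group with a subgroup H whose order is coprime to its index (a Hall subgroup) and which meets each of its conjugates by elements outside N_G(H) trivially. Then every subgroup of G whose order is divisible only by primes dividing the order of H lies in a conjugate of H. -/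
theorem result {G : Type*} [Group G] [Finite G] (H : Subgroup G)
    (hHall : (Nat.card H).Coprime H.index) (hTI : Cfsg.IsTISubset (H : Set G))
    (K : Subgroup G) (hK : ∀ q : ℕ, q.Prime → q ∣ Nat.card K → q ∣ Nat.card H) :
    ∃ g : G, K ≤ H.map (MulAut.conj g).toMonoidHom := by
  classical
  -- two conjugates of `H` sharing a nontrivial element coincide
  have huniq : ∀ a b : G, ∀ y, y ≠ 1 → y ∈ cj a H → y ∈ cj b H → cj a H = cj b H := by
    intro a b y hy1 ha hb
    rw [mem_cj] at ha hb
    have hn : b⁻¹ * a ∈ Subgroup.normalizer (H : Set G) := by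
      by_contra hn
      refine hy1 ?_
      have h1 := hTI _ hn _ ha (by
        show b⁻¹ * a * (a⁻¹ * y * a) * (b⁻¹ * a)⁻¹ ∈ H
        have e : b⁻¹ * a * (a⁻¹ * y * a) * (b⁻¹ * a)⁻¹ = b⁻¹ * y * b := by group
        rw [e]; exact hb)
      calc y = a * (a⁻¹ * y * a) * a⁻¹ := by group
        _ = 1 := by rw [h1]; group
    conv_rhs => rw [← cj_eq_of_mem hn, cj_cj]
    rw [mul_inv_cancel_left]
  -- elements of `N_G(Hᵃ)` of order supported in `π` lie in `Hᵃ`
  have hin : ∀ a : G, ∀ z ∈ K, z ∈ Subgroup.normalizer ((cj a H : Subgroup G) : Set G) → z ∈ cj a H := by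
    intro a z hz hzn
    set N := Subgroup.normalizer ((cj a H : Subgroup G) : Set G)
    haveI : ((cj a H).subgroupOf N).Normal := Subgroup.normal_in_normalizer
    refine Cfsg.Agent.Element.mem_of_coprime_index (N := (cj a H).subgroupOf N) (g := ⟨z, hzn⟩) ?_
    rw [Subgroup.orderOf_mk]
    refine Nat.coprime_of_dvd fun q hq hqz hqi => ?_
    have h1 : q ∣ Nat.card H := hK q hq (hqz.trans (K.orderOf_dvd_natCard hz))
    have h2 : q ∣ H.index := by
      refine hqi.trans ?_
      show (cj a H).relIndex N ∣ H.index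
      refine (Subgroup.relIndex_dvd_index_of_le Subgroup.le_normalizer).trans ?_
      have e1 := Subgroup.card_mul_index (cj a H)
      have e2 := Subgroup.card_mul_index H
      rw [card_cj] at e1
      rw [Nat.eq_of_mul_eq_mul_left Nat.card_pos (e1.trans e2.symm)]
    exact hq.one_lt.ne' (Nat.eq_one_of_dvd_coprimes hHall h1 h2)
  by_cases hK1 : K = ⊥
  · exact ⟨1, hK1 ▸ bot_le⟩
  by_contra hcon
  push Not at hcon
  -- the intersections of `K` with conjugates of `H`
  set A : G → Subgroup G := fun a => K ⊓ cj a H with hA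
  have hAlt : ∀ a, A a < K := fun a => lt_of_le_of_ne inf_le_left fun e => hcon a (inf_eq_left.mp e)
  have htwice : ∀ a, A a ≠ ⊥ → Nat.card K ≤ 2 * ((A a).relIndex K * (Nat.card (A a) - 1)) := by
    intro a ha
    have h2 : 2 ≤ Nat.card (A a) := by
      have := Nat.card_pos (α := A a)
      by_contra h
      exact ha (Subgroup.card_eq_one.mp (by omega))
    have hmul : (A a).relIndex K * Nat.card (A a) = Nat.card K := by
      have := Subgroup.relIndex_mul_relIndex ⊥ (A a) K bot_le inf_le_left
      rw [Subgroup.relIndex_bot_left, Subgroup.relIndex_bot_left] at this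
      rw [mul_comm]; exact this
    rw [← hmul, mul_left_comm]
    exact Nat.mul_le_mul_left _ (by omega)
  -- the elements covered by the `K`-conjugates of one intersection
  set U : G → Set G := fun a => {y | y ≠ 1 ∧ ∃ k ∈ K, k⁻¹ * y * k ∈ A a} with hU
  have hUcard : ∀ a, A a ≠ ⊥ → Nat.card (U a) = (A a).relIndex K * (Nat.card (A a) - 1) := by
    intro a ha
    let Q := K ⧸ (A a).subgroupOf K
    have hQ : Nat.card Q = (A a).relIndex K := rfl
    have hB : Nat.card {y : A a // y ≠ 1} = Nat.card (A a) - 1 := by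
      have h := Set.ncard_compl (s := {(1 : A a)}) (Set.toFinite _)
      rw [Set.ncard_singleton] at h
      rw [← h, ← Nat.card_coe_set_eq]
      exact Nat.card_congr (Equiv.subtypeEquivRight fun y => Iff.rfl)
    rw [← hQ, ← hB, ← Nat.card_prod]
    refine (Nat.card_congr (Equiv.ofBijective (fun z : Q × {y : A a // y ≠ 1} =>
      (⟨(z.1.out : G) * ((z.2.1 : G)) * (z.1.out : G)⁻¹, ?_, (z.1.out : G), z.1.out.2, ?_⟩ : U a)) ⟨?_, ?_⟩)).symm
    · intro e
      rw [conj_eq_one_iff] at e
      exact z.2.2 (Subtype.ext e)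
    · have e : (z.1.out : G)⁻¹ * ((z.1.out : G) * (z.2.1 : G) * (z.1.out : G)⁻¹) * (z.1.out : G) = z.2.1 := by
        group
      rw [e]; exact z.2.1.2
    · rintro ⟨c, ⟨u, hu⟩, hu1⟩ ⟨d, ⟨v, hv⟩, hv1⟩ h
      have h' : (c.out : G) * u * (c.out : G)⁻¹ = (d.out : G) * v * (d.out : G)⁻¹ := congrArg Subtype.val h
      set t := (d.out : G)⁻¹ * (c.out : G) with ht
      have htK : t ∈ K := mul_mem (inv_mem d.out.2) c.out.2
      have hv' : v = t * u * t⁻¹ := by
        calc v = (d.out : G)⁻¹ * ((d.out : G) * v * (d.out : G)⁻¹) * (d.out : G) := by group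
          _ = (d.out : G)⁻¹ * ((c.out : G) * u * (c.out : G)⁻¹) * (d.out : G) := by rw [h']
          _ = t * u * t⁻¹ := by rw [ht]; group
      have hvne : v ≠ 1 := fun e => hv1 (Subtype.ext e)
      have htA : t ∈ A a := by
        refine ⟨htK, hin a t htK ?_⟩
        have hmem : v ∈ cj t (cj a H) := by
          rw [mem_cj, hv']
          have e : t⁻¹ * (t * u * t⁻¹) * t = u := by group
          rw [e]; exact hu.2
        rw [cj_cj] at hmem
        have heq := huniq a (t * a) v hvne hv.2 hmem
        refine cj_eq_iff_mem_normalizer.mp ?_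
        rw [cj_cj]; exact heq.symm
      obtain rfl : c = d := by
        rw [← c.out_eq, ← d.out_eq]
        refine Quotient.sound ?_
        show QuotientGroup.leftRel _ _ _
        rw [QuotientGroup.leftRel_apply, Subgroup.mem_subgroupOf]
        have := inv_mem htA
        simpa [ht] using this
      exact Prod.ext rfl (Subtype.ext (Subtype.ext (mul_left_cancel (mul_right_cancel h'))))
    · rintro ⟨y, hy1, k, hk, hky⟩
      let c : Q := QuotientGroup.mk ⟨k, hk⟩
      have hc : k⁻¹ * (c.out : G) ∈ A a := by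
        have h : (⟨k, hk⟩ : K)⁻¹ * c.out ∈ (A a).subgroupOf K :=
          QuotientGroup.eq.mp (Quotient.out_eq c).symm
        exact Subgroup.mem_subgroupOf.mp h
      refine ⟨(c, ⟨⟨(k⁻¹ * (c.out : G))⁻¹ * (k⁻¹ * y * k) * (k⁻¹ * (c.out : G)), ?_⟩, ?_⟩), ?_⟩
      · exact mul_mem (mul_mem (inv_mem hc) hky) hc
      · intro e
        have e' : (k⁻¹ * (c.out : G))⁻¹ * (k⁻¹ * y * k) * (k⁻¹ * (c.out : G)) = 1 := congrArg Subtype.val e
        apply hy1
        calc y = k * (k⁻¹ * (c.out : G)) * ((k⁻¹ * (c.out : G))⁻¹ * (k⁻¹ * y * k) * (k⁻¹ * (c.out : G))) *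
            (k⁻¹ * (c.out : G))⁻¹ * k⁻¹ := by group
          _ = 1 := by rw [e']; group
      · apply Subtype.ext
        show (c.out : G) * ((k⁻¹ * (c.out : G))⁻¹ * (k⁻¹ * y * k) * (k⁻¹ * (c.out : G))) * (c.out : G)⁻¹ = y
        group
  have hUle : ∀ a, U a ⊆ (K : Set G) \ {1} := by
    rintro a y ⟨hy1, k, hk, hky⟩
    refine ⟨?_, hy1⟩
    have := mul_mem (mul_mem hk hky.1) (inv_mem hk)
    simpa [mul_assoc] using this
  -- any two nontrivial intersections have the same order
  have hsame : ∀ a b, A a ≠ ⊥ → A b ≠ ⊥ → Nat.card (A a) = Nat.card (A b) := by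
    intro a b ha hb
    by_contra hne
    have hdisj : Disjoint (U a) (U b) := by
      rw [Set.disjoint_left]
      rintro y ⟨hy1, k, hk, hky⟩ ⟨-, l, hl, hly⟩
      apply hne
      have h1 : y ∈ cj (k * a) H := by rw [← cj_cj, mem_cj]; exact hky.2
      have h2 : y ∈ cj (l * b) H := by rw [← cj_cj, mem_cj]; exact hly.2
      have h3 := huniq _ _ y hy1 h1 h2
      have hc : ∀ (t : G) (c : G), t ∈ K → cj t (A c) = K ⊓ cj (t * c) H := fun t c ht => by
        rw [hA, cj_inf, cj_eq_self_of_mem ht, cj_cj]
      rw [← card_cj k (A a), hc k a hk, ← card_cj l (A b), hc l b hl, h3]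
    have h := Set.ncard_le_ncard (Set.union_subset (hUle a) (hUle b)) (Set.toFinite _)
    rw [Set.ncard_union_eq hdisj, ← Nat.card_coe_set_eq, ← Nat.card_coe_set_eq, hUcard a ha,
      hUcard b hb, Set.ncard_diff (by simp), Set.ncard_singleton,
      ← Nat.card_coe_set_eq (K : Set G)] at h
    have h1 := htwice a ha
    have h2 := htwice b hb
    have h3 : 0 < Nat.card K := Nat.card_pos
    simp only [SetLike.coe_sort_coe] at h
    omega
  -- every Sylow subgroup of `K` lies in some intersection
  have hsyl : ∀ q : ℕ, q.Prime → q ∣ Nat.card K →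
      ∃ a, A a ≠ ⊥ ∧ q ^ (Nat.card K).factorization q ∣ Nat.card (A a) := by
    intro q hq hqK
    haveI := Fact.mk hq
    let T : Sylow q K := default
    let S : Sylow q H := default
    obtain ⟨P, hP⟩ := (S.2.map H.subtype).exists_le_sylow
    have hcardeq : (Subgroup.map H.subtype (S : Subgroup H)) = (P : Subgroup G) := by
      refine Subgroup.eq_of_le_of_card_ge hP ?_
      rw [P.card_eq_multiplicity, Subgroup.card_map_of_injective H.subtype_injective, S.card_eq_multiplicity]
      refine Nat.pow_le_pow_right hq.pos (le_of_eq ?_)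
      rw [← H.card_mul_index, Nat.factorization_mul Nat.card_pos.ne' Subgroup.index_ne_zero_of_finite,
        Finsupp.add_apply, Nat.factorization_eq_zero_of_not_dvd fun h =>
          hq.one_lt.ne' (Nat.eq_one_of_dvd_coprimes hHall (hK q hq hqK) h), add_zero]
    obtain ⟨Q, hQ⟩ := (T.2.map K.subtype).exists_le_sylow
    obtain ⟨a, ha⟩ := MulAction.exists_smul_eq G P Q
    have hle : (T : Subgroup K).map K.subtype ≤ A a := by
      refine le_inf (Subgroup.map_subtype_le _) (hQ.trans ?_)
      rw [← ha, coe_smul_sylow, ← hcardeq]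
      exact cj_mono _ (Subgroup.map_subtype_le _)
    refine ⟨a, fun e => ?_, ?_⟩
    · rw [e, le_bot_iff, Subgroup.map_eq_bot_iff_of_injective _ K.subtype_injective] at hle
      exact T.ne_bot_of_dvd_card hqK hle
    · rw [← T.card_eq_multiplicity, ← Subgroup.card_map_of_injective K.subtype_injective]
      exact Subgroup.card_dvd_of_le hle
  obtain ⟨q, hq, hqK⟩ := Nat.exists_prime_and_dvd (fun h => hK1 (Subgroup.card_eq_one.mp h))
  obtain ⟨a, ha, -⟩ := hsyl q hq hqK
  have hall : Nat.card K ∣ Nat.card (A a) := by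
    rw [← Nat.factorization_le_iff_dvd Nat.card_pos.ne' Nat.card_pos.ne', Finsupp.le_def]
    intro r
    by_cases hr : r.Prime ∧ r ∣ Nat.card K
    · obtain ⟨b, hb, hbd⟩ := hsyl r hr.1 hr.2
      rw [hsame a b ha hb]
      exact (hr.1.pow_dvd_iff_le_factorization Nat.card_pos.ne').mp hbd
    · rw [not_and_or] at hr
      rcases hr with hr | hr
      · simp [Nat.factorization_eq_zero_of_not_prime _ hr]
      · simp [Nat.factorization_eq_zero_of_not_dvd hr]
  exact (hAlt a).ne (Subgroup.eq_of_le_of_card_ge inf_le_left (Nat.le_of_dvd Nat.card_pos hall))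

end Cfsg.Agent.S4116
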