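import Cfsg.Statements.S4117
import Cfsg.Agent.FGSev.ZGroupAction
import Mathlib.GroupTheory.SemidirectProduct

set_option autoImplicit false
open Cfsg
open scoped commutatorElement

namespace Cfsg.Agent.S4117

/-- Let A be a finite group acting on the finite group G by automorphisms with the orders of A and G coprime, and suppose every Sylow subgroup of G is cyclic. Then the fixed-point subgroup C_G(A) is a Hall subgroup of G (its order is coprime to its index), the subgroup [G, A] generated by the elements g⁻¹·a(g) is cyclic and normal with [G, A] ∩ C_G(A) = 1 and [G, A]·C_G(A) = G. -/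
theorem result {G A : Type*} [Group G] [Finite G] [Group A] [Finite A]
    [MulDistribMulAction A G] (hcop : (Nat.card A).Coprime (Nat.card G))
    (hcyc : ∀ (p : ℕ) [Fact p.Prime] (P : Sylow p G), IsCyclic (P : Subgroup G)) :
    (Nat.card (MulAction.fixedPoints A G : Set G)).Coprime (Nat.card G / Nat.card (MulAction.fixedPoints A G : Set G)) ∧
    IsCyclic (Subgroup.closure {y : G | ∃ (a : A) (g : G), y = g⁻¹ * a • g}) ∧
    (Subgroup.closure {y : G | ∃ (a : A) (g : G), y = g⁻¹ * a • g}).Normal ∧
    (Subgroup.closure {y : G | ∃ (a : A) (g : G), y = g⁻¹ * a • g} : Set G) ∩ MulAction.fixedPoints A G = {1} ∧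
    Subgroup.closure {y : G | ∃ (a : A) (g : G), y = g⁻¹ * a • g} ⊔ Subgroup.closure (MulAction.fixedPoints A G) = ⊤ := by
  classical
  haveI hZ : IsZGroup G := ⟨fun q hq P => by haveI := Fact.mk hq; exact hcyc q P⟩
  set D : Subgroup G := Subgroup.closure {y : G | ∃ (a : A) (g : G), y = g⁻¹ * a • g} with hD
  let C : Subgroup G := FixedPoints.subgroup A G
  let φ : A →* MulAut G := MulDistribMulAction.toMulAut A G
  let X := G ⋊[φ] A
  haveI : Finite X := Finite.of_equiv _ SemidirectProduct.equivProd.symm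
  let i : G →* X := SemidirectProduct.inl
  have hi : Function.Injective i := SemidirectProduct.inl_injective
  let K : Subgroup X := i.range
  let B : Subgroup X := (SemidirectProduct.inr : A →* X).range
  have hcK : Nat.card K = Nat.card G :=
    (Nat.card_congr (MonoidHom.ofInjective hi).toEquiv).symm
  have hcB : Nat.card B = Nat.card A :=
    (Nat.card_congr (MonoidHom.ofInjective SemidirectProduct.inr_injective).toEquiv).symm
  haveI : IsZGroup K :=
    IsZGroup.of_injective (f := (MonoidHom.ofInjective hi).symm.toMonoidHom)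
      (MonoidHom.ofInjective hi).symm.injective
  have hconj : ∀ (a : A) (g : G), (SemidirectProduct.inr a : X) * i g *
      (SemidirectProduct.inr a)⁻¹ = i (a • g) := by
    intro a g
    rw [← map_inv, ← SemidirectProduct.inl_aut]
    rfl
  have hBK : B ≤ Subgroup.normalizer (K : Set X) := by
    rintro _ ⟨a, rfl⟩
    rw [Subgroup.mem_normalizer_iff]
    intro x
    constructor
    · rintro ⟨g, rfl⟩
      exact ⟨a • g, (hconj a g).symm⟩
    · rintro ⟨g, hg⟩
      refine ⟨a⁻¹ • g, ?_⟩
      rw [← hconj a⁻¹ g, hg, map_inv]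
      group
  obtain ⟨hcy, -, hn, hinf, hsup, hco⟩ := FGSev.zgroup_action hBK (by rwa [hcK, hcB])
  have hcomm : ∀ (a : A) (g : G), ⁅i g⁻¹, (SemidirectProduct.inr a : X)⁆ = i (g⁻¹ * a • g) := by
    intro a g
    rw [commutatorElement_def, map_mul, ← hconj]
    simp [mul_assoc]
    exact inv_inv _
  have hDe : D.map i = ⁅K, B⁆ := by
    refine le_antisymm ?_ ?_
    · rw [hD, MonoidHom.map_closure, Subgroup.closure_le]
      rintro _ ⟨_, ⟨a, g, rfl⟩, rfl⟩
      rw [← hcomm]
      exact Subgroup.commutator_mem_commutator ⟨g⁻¹, rfl⟩ ⟨a, rfl⟩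
    · rw [Subgroup.commutator_le]
      rintro _ ⟨g, rfl⟩ _ ⟨a, rfl⟩
      have h := hcomm a g⁻¹
      rw [inv_inv] at h
      rw [h]
      exact Subgroup.mem_map_of_mem i (Subgroup.subset_closure ⟨a, g⁻¹, by rw [inv_inv]⟩)
  have hCe : C.map i = K ⊓ Subgroup.centralizer (B : Set X) := by
    ext x
    constructor
    · rintro ⟨g, hg, rfl⟩
      refine ⟨⟨g, rfl⟩, Subgroup.mem_centralizer_iff.2 ?_⟩
      rintro _ ⟨a, rfl⟩
      have := hconj a g
      rw [show a • g = g from hg a] at this
      exact mul_inv_eq_iff_eq_mul.1 this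
    · rintro ⟨⟨g, rfl⟩, hg⟩
      refine ⟨g, fun a => hi ?_, rfl⟩
      rw [← hconj]
      exact mul_inv_eq_iff_eq_mul.2 (Subgroup.mem_centralizer_iff.1 hg _ ⟨a, rfl⟩)
  have hnorm : D.Normal := by
    refine ⟨fun d hd g => ?_⟩
    rw [← Subgroup.mem_map_iff_mem hi, hDe, map_mul, map_mul, map_inv]
    refine (Subgroup.mem_normalizer_iff.1 (hn ⟨g, rfl⟩) _).1 ?_
    rw [← hDe]
    exact Subgroup.mem_map_of_mem i hd
  have hbot : D ⊓ C = ⊥ := by
    apply Subgroup.map_injective hi
    rw [Subgroup.map_inf _ _ _ hi, hDe, hCe, hinf, Subgroup.map_bot]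
  have htop : D ⊔ C = ⊤ := by
    apply Subgroup.map_injective hi
    rw [Subgroup.map_sup, hDe, hCe, hsup, ← MonoidHom.range_eq_map]
  rw [← hDe, ← hCe, Subgroup.card_map_of_injective hi, Subgroup.card_map_of_injective hi] at hco
  have hcard : Nat.card D * Nat.card C = Nat.card G := by
    haveI := hnorm
    rw [← Subgroup.card_top (G := G), ← htop, sup_comm,
      Coprime.card_sup_of_coprime (Subgroup.le_normalizer_of_normal) hco.symm, mul_comm]
  refine ⟨?_, ?_, hnorm, ?_, ?_⟩
  · rw [show (MulAction.fixedPoints A G : Set G) = (C : Set G) from rfl]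
    show (Nat.card C).Coprime (Nat.card G / Nat.card C)
    rw [← hcard, Nat.mul_div_cancel _ Nat.card_pos]
    exact hco.symm
  · rw [← hDe] at hcy
    exact isCyclic_of_surjective _ (D.equivMapOfInjective i hi).symm.surjective
  · rw [show (MulAction.fixedPoints A G : Set G) = (C : Set G) from rfl, ← Subgroup.coe_inf, hbot,
      Subgroup.coe_bot]
  · rw [show (MulAction.fixedPoints A G : Set G) = (C : Set G) from rfl, Subgroup.closure_eq]
    exact htop

end Cfsg.Agent.S4117
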