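import Cfsg.Statements.S4118
import Cfsg.Agent.FGSev.TISolvable
-- import your own Cfsg.Agent.* helpers here

set_option autoImplicit false
open Cfsg

namespace Cfsg.Agent.S4118

/-- Let G be a finite group and H a non-normal subgroup meeting each of its conjugates by elements outside N_G(H) trivially, with the order of H coprime to its index in N_G(H); let π be the set of primes dividing the order of H and suppose G is π-separable (it has a chain of normal subgroups from 1 to G each of whose factors has order divisible only by primes in π or coprime to the order of H). Let O be the largest normal subgroup of G of order coprime to the order of H. Then G = O·N_G(H), O·H is normal in G, and G is solvable if and only if O is solvable and H has no subgroup isomorphic to SL₂(5). -/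
theorem result {G : Type*} [Group G] [Finite G] (H : Subgroup G)
    (hTI : Cfsg.IsTISubset (H : Set G)) (hnn : ¬ H.Normal)
    (hHall : (Nat.card H).Coprime (H.subgroupOf (Subgroup.normalizer (H : Set G))).index)
    (hsep : ∃ (n : ℕ) (M : Fin (n + 1) → Subgroup G), M 0 = ⊥ ∧ M (Fin.last n) = ⊤ ∧ Monotone M ∧ (∀ i, (M i).Normal) ∧
      ∀ i : Fin n, (∀ q : ℕ, q.Prime → q ∣ (M i.castSucc).relIndex (M i.succ) → q ∣ Nat.card H) ∨
        ((M i.castSucc).relIndex (M i.succ)).Coprime (Nat.card H))
    (O : Subgroup G) (hO : O = sSup {K : Subgroup G | K.Normal ∧ (Nat.card K).Coprime (Nat.card H)}) :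
    O ⊔ Subgroup.normalizer (H : Set G) = ⊤ ∧ (O ⊔ H).Normal ∧
    (Group.IsSolvable G ↔ Group.IsSolvable O ∧
      ∀ K : Subgroup G, K ≤ H → ¬ Nonempty (K ≃* Matrix.SpecialLinearGroup (Fin 2) (ZMod 5))) := by
  have hH := Cfsg.Agent.FGSev.hall_of_ti hTI hHall
  have hHb : H ≠ ⊥ := Cfsg.Agent.FGSev.ne_bot_of_not_normal hnn
  obtain ⟨hOn, hOc⟩ := hO ▸ Cfsg.Agent.FGSev.coprime_sSup_normal (G := G) (Nat.card H)
  haveI := hOn
  obtain ⟨K, hKn, hOK, hKne, hcard⟩ := Cfsg.Agent.FGSev.exists_layer hHb hH hsep hO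
  haveI := hKn
  have htop := Cfsg.Agent.FGSev.sup_normalizer_eq_top hTI hOc hOK hKne hcard
  have hON := Cfsg.Agent.FGSev.not_le_normalizer_of_layer hTI hnn hOc hOK hKne hcard
  refine ⟨htop, Cfsg.Agent.FGSev.sup_normal_of_top htop, fun hG => ⟨inferInstance, ?_⟩, ?_⟩
  · rintro L hL ⟨e⟩
    exact Cfsg.Agent.FGSev.not_isSolvable_sl_five
      (Group.isSolvable_of_surjective (f := e.toMonoidHom) e.surjective)
  · rintro ⟨hOs, hno⟩
    haveI := Cfsg.Agent.FGSev.isSolvable_of_ti hTI hOc hON hno
    exact Cfsg.Agent.FGSev.isSolvable_of_sup_normalizer hOc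
      (fun L hL hLc => hO ▸ le_sSup ⟨hL, hLc⟩) hH htop
      (Cfsg.Agent.FGSev.abelian_cyclic_of_ti hTI hOc hON)

end Cfsg.Agent.S4118
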