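import Cfsg.Statements.S4126
import Cfsg.Agent.FGSev.PPowerIndex
import Cfsg.Agent.Transfer.Frobenius
-- import your own Cfsg.Agent.* helpers here

set_option autoImplicit false
open Cfsg

namespace Cfsg.Agent.S4126

/-- Let G be a finite group and p a prime. Suppose every element of order p, and when p = 2 also every element of order 4, has a conjugacy class of p-power size. Then G has a normal p-complement. -/
theorem result {G : Type*} [Group G] [Finite G] (p : ℕ) [Fact p.Prime]
    (h : ∀ x : G, (orderOf x = p ∨ (p = 2 ∧ orderOf x = 4)) → ∃ a : ℕ, (Subgroup.centralizer ({x} : Set G)).index = p ^ a) :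
    Cfsg.HasNormalPComplement p G := by
  classical
  have hp : p.Prime := Fact.out
  -- the small elements
  have hsmall : ∀ x : G, x ^ (if p = 2 then 4 else p) = 1 → x ≠ 1 →
      x ∈ Cfsg.pCore p G ∧ ∃ a : ℕ, (Subgroup.centralizer ({x} : Set G)).index = p ^ a := by
    intro x hx hx1
    have hd := orderOf_dvd_of_pow_eq_one hx
    have hor : orderOf x = p ∨ (p = 2 ∧ orderOf x = 4) := by
      have h1 : orderOf x ≠ 1 := fun h => hx1 (orderOf_eq_one_iff.mp h)
      by_cases h2 : p = 2
      · subst h2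
        simp only [if_true] at hd
        have hle : orderOf x ≤ 4 := Nat.le_of_dvd (by norm_num) hd
        have hpos := orderOf_pos x
        interval_cases orderOf x <;> omega
      · rw [if_neg h2] at hd
        exact Or.inl ((hp.eq_one_or_self_of_dvd _ hd).resolve_left h1)
    obtain ⟨a, ha⟩ := h x hor
    refine ⟨Cfsg.Agent.FGSev.mem_pCore_of_index_pow (p := p) ?_ ha, a, ha⟩
    rcases hor with h1 | ⟨h2, h4⟩
    · exact ⟨1, by rw [h1, pow_one]⟩
    · exact ⟨2, by rw [h4, h2]; norm_num⟩
  -- elements of order prime to `p` centralise `O_p(G)`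
  have hcore : ∀ y : G, (orderOf y).Coprime p → ∀ w ∈ Cfsg.pCore p G, y * w * y⁻¹ = w := by
    refine Cfsg.Agent.FGSev.centralizes_normal_pGroup (fun W hWn hW hWe hfix y hy w hw => ?_)
      (Cfsg.pCore p G) inferInstance Cfsg.Agent.Cores.pCore_isPGroup
    rcases eq_or_ne W ⊥ with hb | hne
    · obtain rfl : w = 1 := Subgroup.mem_bot.mp (hb ▸ hw)
      simp
    obtain ⟨P, hP⟩ := hW.exists_le_sylow
    haveI : (W.subgroupOf (P : Subgroup G)).Normal := Subgroup.Normal.subgroupOf hWn _
    have hlt := Cfsg.Agent.PGroup.commutator_top_lt P.2 (N := W.subgroupOf (P : Subgroup G))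
      (fun e => hne ((Subgroup.subgroupOf_eq_bot.mp e).eq_bot_of_le hP))
    set E := (⁅W.subgroupOf (P : Subgroup G), (⊤ : Subgroup (P : Subgroup G))⁆).map (P : Subgroup G).subtype with hE
    have hEW : E < W := by
      have h1 : E < (W.subgroupOf (P : Subgroup G)).map (P : Subgroup G).subtype :=
        lt_of_le_of_ne (Subgroup.map_mono hlt.le) fun e =>
          hlt.ne (Subgroup.map_injective (Subgroup.subtype_injective _) e)
      rwa [Subgroup.map_subgroupOf_eq_of_le hP] at h1
    set V := Subgroup.closure {z : G | ∃ a ∈ W, ∃ g ∈ (Set.univ : Set G), z = a⁻¹ * (g * a * g⁻¹)} with hV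
    have hVE : V ≤ E := by
      rw [hV, Subgroup.closure_le]
      rintro _ ⟨a, ha, g, -, rfl⟩
      by_cases ha1 : a = 1
      · subst ha1; simp
      obtain ⟨_, k, hk⟩ := hsmall a (hWe a ha) ha1
      obtain ⟨u, hu, he⟩ := Cfsg.Agent.FGSev.exists_sylow_conj_eq hk P g
      rw [he]
      have hmem : (⟨a, hP ha⟩⁻¹ * (⟨u, hu⟩ * ⟨a, hP ha⟩ * ⟨u, hu⟩⁻¹) : (P : Subgroup G)) ∈
          ⁅W.subgroupOf (P : Subgroup G), (⊤ : Subgroup (P : Subgroup G))⁆ := by
        have h1 := Subgroup.commutator_mem_commutator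
          (show (⟨a, hP ha⟩ : (P : Subgroup G))⁻¹ ∈ W.subgroupOf (P : Subgroup G) from inv_mem ha)
          (Subgroup.mem_top (⟨u, hu⟩ : (P : Subgroup G)))
        rw [commutatorElement_def, inv_inv] at h1
        simpa [mul_assoc] using h1
      exact ⟨_, hmem, rfl⟩
    have hVn : V.Normal := Cfsg.Agent.FGSev.closure_commutators_normal W Set.univ (fun _ _ _ => trivial)
    refine Cfsg.Agent.OddPre.commute_of_conj_mem_fixed y w V
      (fun x hx => hfix V hVn (hVE.trans_lt hEW) y hy x hx)
      (Subgroup.subset_closure ⟨w, hw, y, trivial, rfl⟩) ?_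
    obtain ⟨k, hk⟩ := IsPGroup.iff_card.mp (hW.to_le (hVE.trans hEW.le))
    rw [hk]; exact hy.pow_right k
  refine Cfsg.Agent.Transfer.hasNormalPComplement_of_coprime_centralize fun Q hQ _ y hyQ hy => ?_
  refine Subgroup.mem_centralizer_iff.mpr fun r hr => ?_
  have := Cfsg.Agent.FGSev.centralizes_of_fixes_small hQ hy hyQ (fun z hz _ a _ hae => ?_) r hr
  · exact (mul_inv_eq_iff_eq_mul.mp this).symm
  · by_cases ha1 : a = 1
    · subst ha1; simp
    · exact hcore z hz a (hsmall a hae ha1).1

end Cfsg.Agent.S4126
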