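import Cfsg.Statements.S4138
import Cfsg.Agent.ClassCount.TwoLargest

set_option autoImplicit false
open Cfsg

namespace Cfsg.Agent.S4138

/-- Let G be a finite group whose two largest conjugacy class sizes m > n > 1 are coprime, and let x, y ∈ G have classes of sizes n and m respectively. Then C_G(x) and C_G(y) are abelian, and G/Z(G) is a Frobenius group with kernel C_G(x)/Z(G) and complement C_G(y)/Z(G). -/
theorem result {G : Type*} [Group G] [Finite G] (m n : ℕ) (hmn : n < m) (hn : 1 < n)
    (hcop : m.Coprime n) (htop : ∀ z : G, (Subgroup.centralizer ({z} : Set G)).index ≤ m) (hsecond : ∀ z : G, (Subgroup.centralizer ({z} : Set G)).index < m → (Subgroup.centralizer ({z} : Set G)).index ≤ n)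
    (x y : G) (hx : (Subgroup.centralizer ({x} : Set G)).index = n) (hy : (Subgroup.centralizer ({y} : Set G)).index = m) :
    IsMulCommutative (Subgroup.centralizer ({x} : Set G)) ∧ IsMulCommutative (Subgroup.centralizer ({y} : Set G)) ∧
    Cfsg.IsFrobeniusComplement ((Subgroup.centralizer ({y} : Set G)).map (QuotientGroup.mk' (Subgroup.center G))) ∧
    Cfsg.frobeniusKernel ((Subgroup.centralizer ({y} : Set G)).map (QuotientGroup.mk' (Subgroup.center G))) =
      ((Subgroup.centralizer ({x} : Set G)).map (QuotientGroup.mk' (Subgroup.center G)) : Set (G ⧸ Subgroup.center G)) := by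
  have H : TwoLargest.Hyp G m n := ⟨hmn, hn, hcop, htop, hsecond⟩
  obtain ⟨x', y', P, hxe, hye⟩ := H.exists_pair hx hy
  have h := H.main P
  rwa [hxe, hye] at h

end Cfsg.Agent.S4138
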