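import Cfsg.Statements.S4139
import Cfsg.Agent.ClassCount.SameSizes

set_option autoImplicit false
open Cfsg

namespace Cfsg.Agent.S4139

/-- Let G and H be finite groups such that for every natural number k, G and H have the same number of conjugacy classes of size k. If H is nilpotent then G is nilpotent. -/
theorem result {G H : Type*} [Group G] [Finite G] [Group H] [Finite H]
    (hH : Group.IsNilpotent H)
    (h : ∀ k : ℕ, Nat.card {C : ConjClasses G // Nat.card C.carrier = k} = Nat.card {C : ConjClasses H // Nat.card C.carrier = k}) :
    Group.IsNilpotent G := by
  obtain ⟨Ψ, hΨ⟩ := ClassCount.exists_equiv_of_classCount h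
  exact ClassCount.isNilpotent_of_equiv hH Ψ hΨ

end Cfsg.Agent.S4139
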