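import Cfsg.Statements.S4145
import Cfsg.Agent.FGSev.CyclicSylow
import Cfsg.Agent.PSolv.Basic
-- import your own Cfsg.Agent.* helpers here

set_option autoImplicit false
open Cfsg

namespace Cfsg.Agent.S4145

/-- Let G be a finite group with a cyclic Sylow p-subgroup and H a normal subgroup such that p divides both the order of H and the index of H. Then H has a normal p-complement and G is p-solvable. -/
theorem result {G : Type*} [Group G] [Finite G] (p : ℕ) [Fact p.Prime]
    (P : Sylow p G) (hP : IsCyclic (P : Subgroup G)) (H : Subgroup G) [H.Normal] (h1 : p ∣ Nat.card H) (h2 : p ∣ H.index) :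
    Cfsg.HasNormalPComplement p H ∧ Cfsg.IsPSolvable p G := by
  classical
  have hp : p.Prime := Fact.out
  set P₀ := (P : Subgroup G) ⊓ H with hP₀
  have hHn : H.Normal := inferInstance
  obtain ⟨⟨z, hz⟩, hgen⟩ := IsCyclic.exists_generator (α := (P : Subgroup G))
  have hgen' : ∀ y ∈ (P : Subgroup G), ∃ i : ℤ, z ^ i = y := fun y hy => by
    obtain ⟨i, hi⟩ := Subgroup.mem_zpowers_iff.mp (hgen ⟨y, hy⟩)
    exact ⟨i, congrArg Subtype.val hi⟩
  obtain ⟨s, hs⟩ := Cfsg.Agent.FGSev.pElem_of_mem P.2 hz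
  -- `P₀` is a nontrivial proper subgroup of `P`
  have hzH : z ∉ H := by
    intro hzH
    have hle : (P : Subgroup G) ≤ H := fun y hy => by
      obtain ⟨i, rfl⟩ := hgen' y hy
      exact H.zpow_mem hzH i
    exact P.not_dvd_index (h2.trans (Subgroup.index_dvd_of_le hle))
  have hP₀syl : ∃ Q : Sylow p H, (Q : Subgroup H) = (P : Subgroup G).subgroupOf H := by
    obtain ⟨Q⟩ : Nonempty (Sylow p H) := inferInstance
    obtain ⟨T, hT⟩ := (Q.2.map H.subtype).exists_le_sylow
    obtain ⟨y, hy⟩ := Cfsg.Agent.FGSev.sylow_exists_conj P T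
    obtain ⟨S, hS⟩ := ((P.2).comap_of_injective H.subtype H.subtype_injective).exists_le_sylow
    refine ⟨S, le_antisymm ?_ hS⟩
    refine (Subgroup.eq_of_le_of_card_ge hS ?_).ge
    rw [S.card_eq_multiplicity, ← Q.card_eq_multiplicity]
    have hmem : ∀ q : Q, y⁻¹ * ((q : H) : G) * y ∈ (P : Subgroup G) := fun q =>
      (hy _).mp (hT ⟨q, q.2, rfl⟩)
    refine Nat.card_le_card_of_injective
      (fun q : Q => (⟨⟨y⁻¹ * ((q : H) : G) * y, by
        simpa using hHn.conj_mem _ (q : H).2 y⁻¹⟩, hmem q⟩ : (P : Subgroup G).subgroupOf H)) ?_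
    intro a b hab
    have := congrArg (fun w : (P : Subgroup G).subgroupOf H => ((w : H) : G)) hab
    exact Subtype.ext (Subtype.ext (mul_left_cancel (mul_right_cancel this)))
  obtain ⟨Q, hQ⟩ := hP₀syl
  obtain ⟨x₀, hx₀, hx₀1⟩ : ∃ x ∈ P₀, x ≠ 1 := by
    obtain ⟨⟨w, hwH⟩, hwQ, hw1⟩ := (Subgroup.ne_bot_iff_exists_ne_one.mp (Q.ne_bot_of_dvd_card h1)) |>
      fun ⟨w, hw⟩ => (⟨(w : H), w.2, fun e => hw (Subtype.ext e)⟩ : ∃ w : H, w ∈ (Q : Subgroup H) ∧ w ≠ 1)
    rw [hQ] at hwQ
    exact ⟨w, ⟨hwQ, hwH⟩, fun e => hw1 (Subtype.ext e)⟩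
  set N := Subgroup.normalizer (P₀ : Set G) with hN
  set C := Subgroup.centralizer (P₀ : Set G) with hC
  have hPC : (P : Subgroup G) ≤ C := fun u hu => Subgroup.mem_centralizer_iff.mpr fun w hw => by
    obtain ⟨i, rfl⟩ := hgen' u hu
    obtain ⟨j, rfl⟩ := hgen' w hw.1
    exact ((Commute.refl z).zpow_zpow j i).eq
  have hCN : C ≤ N := Subgroup.centralizer_le_normalizer _
  -- `C` has a normal `p`-complement
  obtain ⟨⟨P', K, hKn, hK⟩, hKc⟩ : Cfsg.HasNormalPComplement p C ∧ True := by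
    refine ⟨Cfsg.Agent.FGSev.hasNormalPComplement_of_cyclic_sylow_central (P.subtype hPC) ?_
      (x := ⟨x₀, hPC hx₀.1⟩) hx₀.1 (fun e => hx₀1 (congrArg Subtype.val e)) ?_, trivial⟩
    · rw [Sylow.coe_subtype]
      exact (Subgroup.subgroupOfEquivOfLe hPC).symm.isCyclic.mp hP
    · exact Subgroup.mem_center_iff.mpr fun c =>
        Subtype.ext ((Subgroup.mem_centralizer_iff.mp c.2 x₀ hx₀).symm)
  have hKcop : (Nat.card K).Coprime p := by
    rw [Nat.coprime_comm, hp.coprime_iff_not_dvd, ← hK.index_eq_card]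
    exact P'.not_dvd_index
  have hKidx : K.index = Nat.card (P' : Subgroup C) := hK.symm.index_eq_card
  -- main claim
  have key : ∀ y : G, y ∈ H → y ∈ N → (orderOf y).Coprime p → y ∈ C := by
    intro y hyH hyN hyo
    -- Frattini argument in `N`
    obtain ⟨c, hc, hn⟩ : ∃ c ∈ C, c⁻¹ * y ∈ Subgroup.normalizer ((P : Subgroup G) : Set G) := by
      have hle : ((y • P : Sylow p G) : Subgroup G) ≤ C := fun u hu => by
        rw [Cfsg.Agent.Fusion.coe_smul_sylow, Cfsg.Agent.Fusion.mem_cj] at hu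
        refine Subgroup.mem_centralizer_iff.mpr fun w hw => ?_
        have hw' : y⁻¹ * w * y ∈ P₀ := by
          have := (Subgroup.mem_normalizer_iff.mp (inv_mem hyN) w).mp hw
          rwa [inv_inv] at this
        have h3 := Subgroup.mem_centralizer_iff.mp (hPC hu) _ hw'
        calc w * u = y * (y⁻¹ * w * y * (y⁻¹ * u * y)) * y⁻¹ := by group
          _ = y * (y⁻¹ * u * y * (y⁻¹ * w * y)) * y⁻¹ := by rw [h3]
          _ = u * w := by group
      obtain ⟨⟨c, hc⟩, hcP⟩ := MulAction.exists_smul_eq C (P.subtype hPC) ((y • P).subtype hle)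
      rw [Sylow.smul_subtype] at hcP
      refine ⟨c, hc, Sylow.smul_eq_iff_mem_normalizer.mp ?_⟩
      rw [mul_smul, ← Sylow.subtype_injective hcP]
      exact inv_smul_smul c P
    set n := c⁻¹ * y with hndef
    obtain ⟨e, he⟩ := hgen' (n * z * n⁻¹) ((Subgroup.mem_normalizer_iff.mp hn z).mp hz)
    -- `z ^ (e - 1)` lies in `H`
    have hdiv : z ^ (e - 1) ∈ P₀ := by
      refine ⟨(P : Subgroup G).zpow_mem hz _, ?_⟩
      obtain ⟨⟨k, u⟩, hku⟩ := hK.2 (⟨c, hc⟩ : C)⁻¹
      -- modulo `H`, conjugation by `n` agrees with conjugation by `c⁻¹`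
      set π := QuotientGroup.mk' H with hπ
      have hny : π n = π c⁻¹ := by
        rw [hndef, map_mul, show π y = 1 from (QuotientGroup.eq_one_iff y).mpr hyH, mul_one]
      have hcu : c⁻¹ = ((k : C) : G) * ((u : C) : G) := (congrArg Subtype.val hku).symm
      -- `z` and `u` commute as the Sylow subgroups of `C` are cyclic
      obtain ⟨d, hd⟩ := MulAction.exists_smul_eq C P' (P.subtype hPC)
      have hd' : ((d : G) * ((u : C) : G) * (d : G)⁻¹) ∈ (P : Subgroup G) := by
        have h4 : d * (u : C) * d⁻¹ ∈ ((d • P' : Sylow p C) : Subgroup C) := by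
          rw [Cfsg.Agent.Fusion.coe_smul_sylow, Cfsg.Agent.Fusion.mem_cj]
          simp [mul_assoc]
        rw [hd, Sylow.coe_subtype, Subgroup.mem_subgroupOf] at h4
        exact h4
      -- reduce to the decomposition with `u` inside `P`
      obtain ⟨k', hk'⟩ : ∃ k' : C, k' ∈ K ∧ (⟨c, hc⟩ : C)⁻¹ = k' * ⟨_, hPC hd'⟩ := by
        refine ⟨(⟨c, hc⟩ : C)⁻¹ * (⟨_, hPC hd'⟩ : C)⁻¹, ?_, by group⟩
        have e1 : (⟨_, hPC hd'⟩ : C) = d * (u : C) * d⁻¹ := rfl
        rw [e1, ← QuotientGroup.eq_one_iff, ← hku]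
        have hkK : ((k : C) : C ⧸ K) = 1 := (QuotientGroup.eq_one_iff (k : C)).mpr k.2
        simp only [QuotientGroup.mk_mul, QuotientGroup.mk_inv, hkK, one_mul]
        -- the quotient by `K` is abelian
        have hab : ∀ a b : C ⧸ K, a * b = b * a := by
          intro a b
          have hsurj : ∀ q : C ⧸ K, ∃ v ∈ ((P.subtype hPC : Sylow p C) : Subgroup C), (v : C ⧸ K) = q := by
            intro q
            obtain ⟨v, rfl⟩ := QuotientGroup.mk'_surjective K q
            have htop : K ⊔ ((P.subtype hPC : Sylow p C) : Subgroup C) = ⊤ := by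
              refine Subgroup.IsComplement'.sup_eq_top (Subgroup.isComplement'_of_coprime ?_ ?_)
              · rw [← hK.card_mul, Sylow.card_eq_multiplicity, P'.card_eq_multiplicity]
              · rw [Sylow.card_eq_multiplicity]; exact hKcop.pow_right _
            obtain ⟨k₁, hk₁, v₁, hv₁, hv⟩ := Subgroup.mem_sup_of_normal_left.mp
              (htop.symm ▸ Subgroup.mem_top v : v ∈ K ⊔ _)
            refine ⟨v₁, hv₁, ?_⟩
            rw [← hv, map_mul, show (QuotientGroup.mk' K) k₁ = 1 from (QuotientGroup.eq_one_iff k₁).mpr hk₁,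
              one_mul]
            rfl
          obtain ⟨v, hv, rfl⟩ := hsurj a
          obtain ⟨w, hw, rfl⟩ := hsurj b
          obtain ⟨i, hi⟩ := hgen' (v : G) hv
          obtain ⟨j, hj⟩ := hgen' (w : G) hw
          rw [← QuotientGroup.mk_mul, ← QuotientGroup.mk_mul]
          congr 1
          apply Subtype.ext
          show (v : G) * w = w * v
          rw [← hi, ← hj]
          exact ((Commute.refl z).zpow_zpow i j).eq
        rw [hab (d : C ⧸ K), mul_inv_cancel_right, mul_inv_cancel]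
      obtain ⟨hk'K, hk'c⟩ := hk'
      obtain ⟨j, hj⟩ := hgen' _ hd'
      have hc' : c⁻¹ = (k' : G) * z ^ j := by rw [hj]; exact congrArg Subtype.val hk'c
      -- the commutator of `k'` and `z` lies in `K`
      have hzC : z ∈ C := hPC hz
      have hcomm : (k' * ⟨z, hzC⟩ * k'⁻¹ * (⟨z, hzC⟩ : C)⁻¹) ∈ K := by
        have := mul_mem hk'K (hKn.conj_mem _ (inv_mem hk'K) ⟨z, hzC⟩)
        simpa [mul_assoc] using this
      -- so `z ^ (e - 1)` lies in `K H`
      have h5 : π (z ^ (e - 1)) = π ((k' : G) * z * (k' : G)⁻¹ * z⁻¹) := by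
        rw [zpow_sub_one, he, map_mul, map_mul, map_mul, map_inv, hny, hc', map_mul, map_mul, map_mul,
          map_mul, map_inv, map_inv]
        have hcz : Commute (π (z ^ j)) (π z) := ((Commute.refl z).zpow_left j).map π
        calc π (k' : G) * π (z ^ j) * π z * (π (k' : G) * π (z ^ j))⁻¹ * (π z)⁻¹
            = π (k' : G) * (π (z ^ j) * π z) * (π (z ^ j))⁻¹ * (π (k' : G))⁻¹ * (π z)⁻¹ := by group
          _ = π (k' : G) * π z * (π (k' : G))⁻¹ * (π z)⁻¹ := by rw [hcz.eq]; group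
      obtain ⟨i, hi⟩ := Cfsg.Agent.FGSev.pElem_of_mem P.2 ((P : Subgroup G).zpow_mem hz (e - 1))
      have h6 : orderOf (π (z ^ (e - 1))) ∣ p ^ i := hi ▸ orderOf_map_dvd π _
      have h7 : orderOf (π (z ^ (e - 1))) ∣ Nat.card K := by
        rw [h5]
        have h8 : orderOf (k' * ⟨z, hzC⟩ * k'⁻¹ * (⟨z, hzC⟩ : C)⁻¹) ∣ Nat.card K := K.orderOf_dvd_natCard hcomm
        exact (orderOf_map_dvd (π.comp C.subtype) _).trans h8
      exact (QuotientGroup.eq_one_iff _).mp
        (orderOf_eq_one_iff.mp (Nat.eq_one_of_dvd_coprimes (hKcop.symm.pow_left i) h6 h7))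
    obtain ⟨l, hl⟩ := Cfsg.Agent.FGSev.exists_pow_commute hs he.symm
      (Cfsg.Agent.FGSev.dvd_of_zpow_mem hs (K := P₀) (fun h => hzH (Subgroup.mem_inf.mp h).2) hdiv)
    -- conjugation by `y` and by `n` agree on `P₀`
    refine Subgroup.mem_centralizer_iff.mpr fun w hw => ?_
    have hagree : ∀ m : ℕ, y ^ m * w * (y ^ m)⁻¹ = n ^ m * w * (n ^ m)⁻¹ := by
      intro m
      induction m with
      | zero => simp
      | succ m ih =>
        set w' := y ^ m * w * (y ^ m)⁻¹ with hw'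
        have hw'P₀ : w' ∈ P₀ := (Subgroup.mem_normalizer_iff.mp (pow_mem hyN m) w).mp hw
        have hyw : y * w' * y⁻¹ ∈ P₀ := (Subgroup.mem_normalizer_iff.mp hyN w').mp hw'P₀
        calc y ^ (m + 1) * w * (y ^ (m + 1))⁻¹ = y * w' * y⁻¹ := by rw [hw', pow_succ']; group
          _ = c⁻¹ * (y * w' * y⁻¹) * c := by
            rw [mul_assoc c⁻¹, Subgroup.mem_centralizer_iff.mp hc _ hyw, inv_mul_cancel_left]
          _ = n * w' * n⁻¹ := by rw [hndef]; group
          _ = n ^ (m + 1) * w * (n ^ (m + 1))⁻¹ := by rw [ih, pow_succ']; group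
    refine (Cfsg.Agent.FGSev.commute_of_pow_commute hyo (i := l) ?_).eq.symm
    obtain ⟨i, rfl⟩ := hgen' w hw.1
    have h9 := hagree (p ^ l)
    rw [(hl.zpow_right i).eq, mul_inv_cancel_right] at h9
    exact mul_inv_eq_iff_eq_mul.mp h9
  -- Burnside's theorem in `H`
  have hH : Cfsg.HasNormalPComplement p H := by
    refine Cfsg.Agent.Transfer.hasNormalPComplement_of_normalizer_le_centralizer Q fun w hw => ?_
    refine Subgroup.mem_centralizer_iff.mpr fun q hq => ?_
    have hnorm : (w : G) ∈ N := by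
      refine Subgroup.mem_normalizer_iff.mpr fun v => ?_
      constructor
      · rintro ⟨hvP, hvH⟩
        have h3 := (Subgroup.mem_normalizer_iff.mp hw ⟨v, hvH⟩).mp (by rw [hQ]; exact hvP)
        rw [hQ] at h3
        exact Subgroup.mem_inf.mpr ⟨h3, mul_mem (mul_mem w.2 hvH) (inv_mem w.2)⟩
      · rintro ⟨hvP, hvH⟩
        have hvH' : v ∈ H := by
          have := mul_mem (mul_mem (inv_mem w.2) hvH) w.2
          simpa [mul_assoc] using this
        have h3 := (Subgroup.mem_normalizer_iff.mp hw ⟨v, hvH'⟩).mpr (by rw [hQ]; exact hvP)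
        rw [hQ] at h3
        exact ⟨h3, hvH'⟩
    have hwC : (w : G) ∈ C := by
      rw [← Cfsg.Agent.Element.pPart_mul_pComplPart p (w : G)]
      refine mul_mem ?_ (key _ (Subgroup.zpowers_le.mpr w.2 (Cfsg.Agent.Element.pComplPart_mem_zpowers p _))
        (Subgroup.zpowers_le.mpr hnorm (Cfsg.Agent.Element.pComplPart_mem_zpowers p _))
        (Cfsg.Agent.Element.coprime_orderOf_pComplPart hp _))
      refine hPC ?_
      set uH : H := ⟨_, Subgroup.zpowers_le.mpr w.2 (Cfsg.Agent.Element.pPart_mem_zpowers p (w : G))⟩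
      have hpu : IsPGroup p (Subgroup.zpowers uH) :=
        (Cfsg.Agent.FGSev.pElem_iff_isPGroup p uH).mp
          ⟨_, by rw [Subgroup.orderOf_mk]; exact Cfsg.Agent.Element.orderOf_pPart_eq_pow hp (w : G)⟩
      have huN : uH ∈ Subgroup.normalizer ((Q : Subgroup H) : Set H) := by
        obtain ⟨i, hi⟩ := Subgroup.mem_zpowers_iff.mp (Cfsg.Agent.Element.pPart_mem_zpowers p (w : G))
        have : uH = w ^ i := Subtype.ext (by rw [Subgroup.coe_zpow]; exact hi.symm)
        rw [this]; exact Subgroup.zpow_mem _ hw i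
      have h4 : uH ∈ (Q : Subgroup H) :=
        ((hpu.inf_normalizer_sylow Q).le ⟨Subgroup.mem_zpowers uH, huN⟩).2
      rw [hQ] at h4
      exact h4
    rw [hQ] at hq
    exact Subtype.ext (Subgroup.mem_centralizer_iff.mp hwC q ⟨hq, q.2⟩)
  refine ⟨hH, ?_⟩
  -- `p`-solvability
  have hNPC : ∀ {X : Type _} [Group X] [Finite X], Cfsg.HasNormalPComplement p X → Cfsg.IsPSolvable p X := by
    intro X _ _ hX
    obtain ⟨R, M, hMn, hM⟩ := hX
    haveI := hMn
    refine Cfsg.Agent.PSolv.isPSolvable_of_extension M (Cfsg.Agent.PSolv.isPSolvable_of_coprime ?_)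
      (Cfsg.Agent.PSolv.isPSolvable_of_isPGroup ?_)
    · rw [Nat.coprime_comm, hp.coprime_iff_not_dvd, ← hM.index_eq_card]
      exact R.not_dvd_index
    · exact IsPGroup.of_card (n := (Nat.card X).factorization p)
        ((show M.index = _ from hM.symm.index_eq_card).trans R.card_eq_multiplicity)
  haveI : (C.subgroupOf N).Normal := by
    refine Subgroup.normal_subgroupOf_of_le_normalizer fun g hg => Subgroup.mem_normalizer_iff.mpr fun c => ?_
    have hconj : ∀ g ∈ N, ∀ c ∈ C, g * c * g⁻¹ ∈ C := by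
      intro g hg c hc
      refine Subgroup.mem_centralizer_iff.mpr fun w hw => ?_
      have hw' : g⁻¹ * w * g ∈ P₀ := by
        have := (Subgroup.mem_normalizer_iff.mp (inv_mem hg) w).mp hw
        rwa [inv_inv] at this
      have h3 := Subgroup.mem_centralizer_iff.mp hc _ hw'
      calc w * (g * c * g⁻¹) = g * (g⁻¹ * w * g * c) * g⁻¹ := by group
        _ = g * (c * (g⁻¹ * w * g)) * g⁻¹ := by rw [h3]
        _ = g * c * g⁻¹ * w := by group
    refine ⟨hconj g hg c, fun h => ?_⟩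
    have := hconj g⁻¹ (inv_mem hg) _ h
    simpa [mul_assoc] using this
  have hNsolv : Cfsg.IsPSolvable p N := by
    refine Cfsg.Agent.PSolv.isPSolvable_of_extension (C.subgroupOf N) ?_ ?_
    · exact Cfsg.Agent.PSolv.isPSolvable_of_equiv (Subgroup.subgroupOfEquivOfLe hCN).symm (hNPC ⟨P', K, hKn, hK⟩)
    · refine Cfsg.Agent.PSolv.isPSolvable_of_isSolvable ?_
      refine Group.isSolvable_of_comm fun a b => ?_
      obtain ⟨a, rfl⟩ := QuotientGroup.mk'_surjective _ a
      obtain ⟨b, rfl⟩ := QuotientGroup.mk'_surjective _ b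
      rw [← map_mul, ← map_mul, QuotientGroup.mk'_apply, QuotientGroup.mk'_apply, QuotientGroup.eq,
        Subgroup.mem_subgroupOf]
      refine Subgroup.mem_centralizer_iff.mpr fun w hw => ?_
      -- conjugations act on the generator as powers
      have hact : ∀ g : N, ∀ v ∈ P₀, ∀ i : ℤ, (g : G) * v ^ i * (g : G)⁻¹ = ((g : G) * v * (g : G)⁻¹) ^ i :=
        fun g v _ i => (conj_zpow ..).symm
      haveI : IsCyclic P₀ := Subgroup.isCyclic_of_le (inf_le_left : P₀ ≤ (P : Subgroup G))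
      obtain ⟨⟨v, hv⟩, hv'⟩ := IsCyclic.exists_generator (α := P₀)
      have hpow : ∀ v' ∈ P₀, ∃ i : ℤ, v ^ i = v' := fun v' hv'' => by
        obtain ⟨i, hi⟩ := Subgroup.mem_zpowers_iff.mp (hv' ⟨v', hv''⟩)
        exact ⟨i, congrArg Subtype.val hi⟩
      obtain ⟨α, hα⟩ := hpow _ ((Subgroup.mem_normalizer_iff.mp a.2 v).mp hv)
      obtain ⟨β, hβ⟩ := hpow _ ((Subgroup.mem_normalizer_iff.mp b.2 v).mp hv)
      obtain ⟨i, rfl⟩ := hpow w hw
      have h10 : (a : G) * (b : G) * v * ((a : G) * (b : G))⁻¹ = (b : G) * (a : G) * v * ((b : G) * (a : G))⁻¹ := by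
        calc (a : G) * (b : G) * v * ((a : G) * (b : G))⁻¹ = (a : G) * ((b : G) * v * (b : G)⁻¹) * (a : G)⁻¹ := by group
          _ = v ^ (α * β) := by rw [← hβ, hact a v hv, ← hα, ← zpow_mul]
          _ = (b : G) * ((a : G) * v * (a : G)⁻¹) * (b : G)⁻¹ := by
            rw [← hα, hact b v hv, ← hβ, ← zpow_mul, mul_comm]
          _ = _ := by group
      have h11 : Commute (((a * b)⁻¹ * (b * a) : N) : G) v := by
        apply mul_inv_eq_iff_eq_mul.mp
        push_cast
        calc ((a : G) * b)⁻¹ * ((b : G) * a) * v * (((a : G) * b)⁻¹ * ((b : G) * a))⁻¹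
            = ((a : G) * b)⁻¹ * ((b : G) * a * v * ((b : G) * a)⁻¹) * ((a : G) * b) := by group
          _ = v := by rw [← h10]; group
      exact (h11.zpow_right i).eq.symm
  refine Cfsg.Agent.PSolv.isPSolvable_of_extension H (hNPC hH) ?_
  refine Cfsg.Agent.PSolv.isPSolvable_of_surjective ((QuotientGroup.mk' H).comp N.subtype) (fun q => ?_) hNsolv
  obtain ⟨g, rfl⟩ := QuotientGroup.mk'_surjective H q
  -- Frattini argument
  have htop := Sylow.normalizer_sup_eq_top Q
  have hmap : (Q : Subgroup H).map H.subtype = P₀ := by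
    rw [hQ, Subgroup.subgroupOf_map_subtype]
  rw [hmap] at htop
  obtain ⟨n, hn, w, hw, rfl⟩ := Subgroup.mem_sup_of_normal_right.mp (htop.symm ▸ Subgroup.mem_top g : g ∈ N ⊔ H)
  refine ⟨⟨n, hn⟩, ?_⟩
  simp [(QuotientGroup.eq_one_iff w).mpr hw]

end Cfsg.Agent.S4145
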