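import Cfsg.Statements.S4146
import Cfsg.Agent.ClassCount.FourSizesTwo

set_option autoImplicit false
open Cfsg

namespace Cfsg.Agent.S4146

/-- Let G be a finite group whose conjugacy class sizes are exactly 1, n, m and nm for coprime integers n, m > 1. Then G is nilpotent and n and m are prime powers. -/
theorem result {G : Type*} [Group G] [Finite G] (n m : ℕ) (hn : 1 < n) (hm : 1 < m) (hcop : n.Coprime m)
    (h : Set.range (fun x : G => (Subgroup.centralizer ({x} : Set G)).index) = ({1, n, m, n * m} : Set ℕ)) :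
    Group.IsNilpotent G ∧ IsPrimePow n ∧ IsPrimePow m := by
  have hset : ∀ k, k ∈ ({1, n, m, n * m} : Set ℕ) →
      ∃ x : G, (Subgroup.centralizer ({x} : Set G)).index = k := by
    intro k hk
    rw [← h] at hk
    exact hk
  have H : FourSizes.Hyp G n m := by
    refine ⟨hn, hm, hcop, fun x => ?_, hset n (by simp), hset m (by simp), hset (n * m) (by simp)⟩
    have hx : (Subgroup.centralizer ({x} : Set G)).index ∈ ({1, n, m, n * m} : Set ℕ) :=
      h ▸ ⟨x, rfl⟩
    simpa using hx
  have hnp := H.symm.isPrimePow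
  have hmp := H.isPrimePow
  obtain ⟨q, α, hq, -, hqn⟩ := (isPrimePow_nat_iff n).1 hnp
  obtain ⟨p, β, hp, -, hpm⟩ := (isPrimePow_nat_iff m).1 hmp
  exact ⟨(⟨H, hp, hq, hqn.symm, hpm.symm⟩ : FourSizes.TwoPrimes G p q α β n m).isNilpotent,
    hnp, hmp⟩

end Cfsg.Agent.S4146
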