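import Cfsg.Statements.S4149
import Cfsg.Agent.FGSev.DeficientCount
import Cfsg.Agent.Transfer.Frobenius

set_option autoImplicit false
open Cfsg

namespace Cfsg.Agent.S4149

/-- Let G be a finite group that has a normal p-complement for at most one prime p dividing its order, and let σ be a natural number such that every conjugacy class size of G has at most σ distinct prime divisors. Then the number of primes dividing at least one conjugacy class size of G is at most 2σ. -/
theorem result {G : Type*} [Group G] [Finite G] (σ : ℕ)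
    (hσ : ∀ x : G, ((Subgroup.centralizer ({x} : Set G)).index).primeFactors.card ≤ σ)
    (hnil : ∀ p q : ℕ, p.Prime → q.Prime → p ∣ Nat.card G → q ∣ Nat.card G →
      Cfsg.HasNormalPComplement p G → Cfsg.HasNormalPComplement q G → p = q) :
    Nat.card {p : ℕ | p.Prime ∧ ∃ x : G, p ∣ (Subgroup.centralizer ({x} : Set G)).index} ≤ 2 * σ := by
  classical
  set ρ := {p : ℕ | p.Prime ∧ ∃ x : G, p ∣ (Subgroup.centralizer ({x} : Set G)).index} with hρ
  have hdvd : ∀ p ∈ ρ, p ∣ Nat.card G := fun p ⟨_, x, hx⟩ => hx.trans (Subgroup.index_dvd_card _)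
  have hfin : ρ.Finite := (Set.finite_le_nat (Nat.card G)).subset fun p hp =>
    Nat.le_of_dvd Nat.card_pos (hdvd p hp)
  rw [Nat.card_coe_set_eq, Set.ncard_eq_toFinset_card ρ hfin]
  set A := hfin.toFinset.filter fun p => Cfsg.HasNormalPComplement p G
  set B := hfin.toFinset.filter fun p => ¬ Cfsg.HasNormalPComplement p G
  have hA : A.card ≤ 1 := Finset.card_le_one.2 fun p hp q hq => by
    simp only [A, Finset.mem_filter, Set.Finite.mem_toFinset] at hp hq
    exact hnil p q hp.1.1 hq.1.1 (hdvd p hp.1) (hdvd q hq.1) hp.2 hq.2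
  have hB := FGSev.card_le_two_mul_of_half (σ := σ) B (fun p hp => by
    simp only [B, Finset.mem_filter, Set.Finite.mem_toFinset] at hp
    haveI : Fact p.Prime := ⟨hp.1.1⟩
    obtain ⟨P⟩ : Nonempty (Sylow p G) := inferInstance
    refine ⟨hp.1.1, FGSev.two_mul_ncard_full_le P fun e => hp.2 ?_⟩
    refine Transfer.hasNormalPComplement_of_normalizer_le_centralizer P ?_
    intro g hg
    have h1 : g ∈ Subgroup.normalizer (Subgroup.centralizer ((P : Subgroup G) : Set G) : Set G) := by
      have hconj : ∀ n : G, n ∈ Subgroup.normalizer ((P : Subgroup G) : Set G) →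
          ∀ c ∈ Subgroup.centralizer ((P : Subgroup G) : Set G),
          n * c * n⁻¹ ∈ Subgroup.centralizer ((P : Subgroup G) : Set G) := by
        intro n hn c hc
        rw [Subgroup.mem_centralizer_iff] at hc ⊢
        intro y hy
        have hy' : n⁻¹ * y * n ∈ (P : Subgroup G) := by
          simpa using (Subgroup.mem_normalizer_iff.1 (Subgroup.inv_mem _ hn) y).1 hy
        have := hc _ hy'
        calc y * (n * c * n⁻¹) = n * (n⁻¹ * y * n * c) * n⁻¹ := by group
          _ = n * (c * (n⁻¹ * y * n)) * n⁻¹ := by rw [this]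
          _ = n * c * n⁻¹ * y := by group
      rw [Subgroup.mem_normalizer_iff]
      intro c
      refine ⟨hconj g hg c, fun hc => ?_⟩
      simpa [mul_assoc] using hconj g⁻¹ (Subgroup.inv_mem _ hg) _ hc
    rwa [e] at h1) hσ
  have hsplit : A.card + B.card = hfin.toFinset.card :=
    Finset.card_filter_add_card_filter_not _
  by_cases hσ0 : σ = 0
  · have : hfin.toFinset = ∅ := by
      refine Finset.eq_empty_of_forall_notMem fun p hp => ?_
      obtain ⟨hp1, x, hx⟩ := hfin.mem_toFinset.1 hp
      have := hσ x
      rw [hσ0, Nat.le_zero, Finset.card_eq_zero] at this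
      exact (Finset.notMem_empty p) (this ▸ Nat.mem_primeFactors.2 ⟨hp1, hx, Subgroup.index_ne_zero_of_finite⟩)
    rw [this, Finset.card_empty]
    exact Nat.zero_le _
  · omega

end Cfsg.Agent.S4149
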