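import Cfsg.Statements.S4151
import Cfsg.Agent.FGSev.TIHall
import Cfsg.Agent.FGSev.ZGroupAction

set_option autoImplicit false
open Cfsg
open scoped commutatorElement

namespace Cfsg.Agent.S4151

/-- Let G be a finite group and H a non-normal subgroup meeting each of its conjugates by elements outside N_G(H) trivially, with the order of H coprime to its index in N_G(H), such that G is π-separable for π the set of primes dividing the order of H (G has a chain of normal subgroups from 1 to G each of whose factors has order divisible only by primes dividing the order of H or coprime to it). Suppose a Sylow 2-subgroup of H is abelian and Q is a complement of H in N_G(H). Then C_H(Q), the subgroup of elements of H commuting with Q, has order coprime to its index in G and has a normal complement in G. -/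
theorem result {G : Type*} [Group G] [Finite G] (H : Subgroup G)
    (hTI : Cfsg.IsTISubset (H : Set G)) (hnn : ¬ H.Normal)
    (hHall : (Nat.card H).Coprime (H.subgroupOf (Subgroup.normalizer (H : Set G))).index)
    (hsep : ∃ (n : ℕ) (M : Fin (n + 1) → Subgroup G), M 0 = ⊥ ∧ M (Fin.last n) = ⊤ ∧ Monotone M ∧ (∀ i, (M i).Normal) ∧
      ∀ i : Fin n, (∀ q : ℕ, q.Prime → q ∣ (M i.castSucc).relIndex (M i.succ) → q ∣ Nat.card H) ∨
        ((M i.castSucc).relIndex (M i.succ)).Coprime (Nat.card H))
    (h2 : ∀ P : Sylow 2 H, IsMulCommutative (P : Subgroup H))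
    (Q : Subgroup G) (hQ : Q ≤ Subgroup.normalizer (H : Set G)) (hQH : Q ⊓ H = ⊥) (hQH' : Q ⊔ H = Subgroup.normalizer (H : Set G)) :
    (Nat.card ↥(H ⊓ Subgroup.centralizer (Q : Set G))).Coprime (H ⊓ Subgroup.centralizer (Q : Set G)).index ∧
    ∃ N : Subgroup G, N.Normal ∧ N.IsComplement' (H ⊓ Subgroup.centralizer (Q : Set G)) := by
  classical
  have hnb := FGSev.ne_bot_of_not_normal hnn
  have hH : (Nat.card H).Coprime H.index := FGSev.hall_of_ti hTI hHall
  set O := sSup {K : Subgroup G | K.Normal ∧ (Nat.card K).Coprime (Nat.card H)} with hO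
  obtain ⟨hOn, hOc⟩ := FGSev.coprime_sSup_normal (G := G) (Nat.card H)
  rw [← hO] at hOn hOc
  haveI := hOn
  obtain ⟨L, hLn, hOL, hLH, hLc⟩ := FGSev.exists_layer hnb hH hsep hO
  haveI := hLn
  have hON := FGSev.not_le_normalizer_of_layer hTI hnn hOc hOL hLH hLc
  haveI := FGSev.isZGroup_of_ti hTI hOc hON h2
  have hGON := FGSev.sup_normalizer_eq_top hTI hOc hOL hLH hLc
  set N := Subgroup.normalizer (H : Set G) with hN
  have hcN : Nat.card N = Nat.card Q * Nat.card H := by
    rw [← hQH', sup_comm Q H, ← sup_comm Q H]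
    exact Coprime.card_sup_of_disjoint hQ hQH
  have hcQ : (Nat.card Q).Coprime (Nat.card H) := by
    have e := (H.subgroupOf N).card_mul_index
    rw [Nat.card_congr (Subgroup.subgroupOfEquivOfLe Subgroup.le_normalizer).toEquiv, hcN,
      mul_comm (Nat.card Q)] at e
    rw [← Nat.eq_of_mul_eq_mul_left Nat.card_pos e]
    exact hHall.symm
  obtain ⟨-, hDH, hHD, hinf, hsup, hco⟩ := FGSev.zgroup_action hQ hcQ
  set D := ⁅H, Q⁆ with hD
  set C := H ⊓ Subgroup.centralizer (Q : Set G) with hC
  have hQD : Q ≤ Subgroup.normalizer (D : Set G) := Coprime.le_normalizer_commutator_right H Q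
  set M := O ⊔ (Q ⊔ D) with hM
  have hcard : Nat.card D * Nat.card C = Nat.card H := by
    have h := Coprime.card_sup_of_coprime (A := C) (K := D) ((inf_le_left : C ≤ H).trans hHD)
      hco.symm
    rw [sup_comm, hsup, mul_comm] at h
    exact h.symm
  have hcM : Nat.card M ∣ Nat.card O * (Nat.card Q * Nat.card D) := by
    rw [← Coprime.card_sup_of_coprime hQD (hcQ.coprime_dvd_right (Subgroup.card_dvd_of_le hDH)), hM,
      ← Subgroup.relIndex_bot_left (H := O ⊔ (Q ⊔ D)),
      ← Subgroup.relIndex_mul_relIndex _ _ _ bot_le (le_sup_left : O ≤ O ⊔ (Q ⊔ D)),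
      Subgroup.relIndex_bot_left, sup_comm, Subgroup.relIndex_sup_right]
    exact Nat.mul_dvd_mul_left _ (Subgroup.relIndex_dvd_card O (Q ⊔ D))
  have hMC : (Nat.card C).Coprime (Nat.card M) := by
    refine Nat.Coprime.coprime_dvd_right hcM (Nat.Coprime.mul_right ?_ (Nat.Coprime.mul_right ?_ hco.symm))
    · exact hOc.symm.coprime_dvd_left (Subgroup.card_dvd_of_le inf_le_left)
    · exact hcQ.symm.coprime_dvd_left (Subgroup.card_dvd_of_le inf_le_left)
  have htop : M ⊔ C = ⊤ := by
    rw [eq_top_iff, ← hGON, ← hQH']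
    refine sup_le (le_sup_left.trans le_sup_left)
      (sup_le ((le_sup_left.trans le_sup_right).trans le_sup_left) ?_)
    rw [← hsup]
    exact sup_le_sup_right (le_sup_right.trans le_sup_right) C
  have hMn : M.Normal := by
    rw [← Subgroup.normalizer_eq_top_iff, eq_top_iff, ← htop]
    refine sup_le Subgroup.le_normalizer ?_
    intro c hc
    have key : ∀ c ∈ C, ∀ x ∈ M, c * x * c⁻¹ ∈ M := by
      intro c hc x hx
      have hle : M ≤ M.comap (MulAut.conj c).toMonoidHom := by
        refine sup_le (fun o ho => le_sup_left (b := Q ⊔ D) (hOn.conj_mem o ho c)) (sup_le ?_ ?_)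
        · intro q hq
          show c * q * c⁻¹ ∈ M
          rw [← Subgroup.mem_centralizer_iff.1 hc.2 q hq, mul_inv_cancel_right]
          exact le_sup_right (a := O) (le_sup_left (b := D) hq)
        · intro d hd
          exact le_sup_right (a := O) (le_sup_right (a := Q)
            ((Subgroup.mem_normalizer_iff.1 (hHD hc.1) d).1 hd))
      exact hle hx
    rw [Subgroup.mem_normalizer_iff]
    intro x
    refine ⟨key c hc x, fun h => ?_⟩
    have := key c⁻¹ (inv_mem hc) _ h
    simpa [mul_assoc] using this
  haveI := hMn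
  have hcG : Nat.card C * Nat.card M = Nat.card G := by
    rw [← Subgroup.card_top (G := G), ← htop, sup_comm,
      Coprime.card_sup_of_coprime Subgroup.le_normalizer_of_normal hMC]
  refine ⟨?_, M, hMn, Subgroup.isComplement'_of_coprime (by rw [mul_comm]; exact hcG) hMC.symm⟩
  rw [Nat.eq_of_mul_eq_mul_left Nat.card_pos (C.card_mul_index.trans hcG.symm)]
  exact hMC

end Cfsg.Agent.S4151
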