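import Cfsg.Statements.S4152
import Cfsg.Agent.ClassCount.PiCoset

set_option autoImplicit false
open Cfsg

namespace Cfsg.Agent.S4152

/-- Let G be a finite group, N a normal subgroup and π a set of primes. Then the number of conjugacy classes of π-elements of G (elements whose order is divisible only by primes in π) is at most the number of conjugacy classes of π-elements of N (under conjugation by N) times the number of conjugacy classes of π-elements of G/N. -/
theorem result {G : Type*} [Group G] [Finite G] (N : Subgroup G) [N.Normal] (π : Set ℕ) :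
    Nat.card {C : ConjClasses G // ∀ q : ℕ, q.Prime → (∃ g : G, ConjClasses.mk g = C ∧ q ∣ orderOf g) → q ∈ π} ≤ Nat.card {C : ConjClasses N // ∀ q : ℕ, q.Prime → (∃ g : N, ConjClasses.mk g = C ∧ q ∣ orderOf g) → q ∈ π} * Nat.card {C : ConjClasses (G ⧸ N) // ∀ q : ℕ, q.Prime → (∃ g : (G ⧸ N), ConjClasses.mk g = C ∧ q ∣ orderOf g) → q ∈ π} := by
  have key : ∀ (H : Type _) [Group H], ∀ C : ConjClasses H,
      (∀ q : ℕ, q.Prime → (∃ g : H, ConjClasses.mk g = C ∧ q ∣ orderOf g) → q ∈ π) ↔
        ∃ g : H, ConjClasses.mk g = C ∧ ∀ q : ℕ, q.Prime → q ∣ orderOf g → q ∈ π := by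
    intro H _ C
    constructor
    · intro hC
      obtain ⟨g, rfl⟩ := ConjClasses.exists_rep C
      exact ⟨g, rfl, fun q hq hd => hC q hq ⟨g, rfl, hd⟩⟩
    · rintro ⟨g, rfl, hg⟩ q hq ⟨g', hg', hd⟩
      obtain ⟨c, hc⟩ := isConj_iff.1 (ConjClasses.mk_eq_mk_iff_isConj.1 hg')
      refine hg q hq ?_
      rwa [← hc, ← MulAut.conj_apply, MulEquiv.orderOf_eq]
  rw [Nat.card_congr (Equiv.subtypeEquivRight (key G)), Nat.card_congr (Equiv.subtypeEquivRight (key N)),
    Nat.card_congr (Equiv.subtypeEquivRight (key (G ⧸ N)))]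
  exact ClassCount.card_piClasses_le N π

end Cfsg.Agent.S4152
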