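import Cfsg.Statements.S4153
import Cfsg.Agent.FGSev.PElem
-- import your own Cfsg.Agent.* helpers here

set_option autoImplicit false
open Cfsg

namespace Cfsg.Agent.S4153

/-- Let G be a finite group, p a prime, N a normal subgroup, P a Sylow p-subgroup of G and P̄ a Sylow p-subgroup of G/N. Count the elements of p-power order, the identity included. Then (number of such elements of G/N)/#P̄ ≤ (number of such elements of G)/#P, stated as a cross-multiplied inequality, with equality when N is central. -/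
theorem result {G : Type*} [Group G] [Finite G] (p : ℕ) [Fact p.Prime] (N : Subgroup G) [N.Normal]
    (P : Sylow p G) (Pbar : Sylow p (G ⧸ N)) :
    Nat.card {g : (G ⧸ N) // ∃ k : ℕ, orderOf g = p ^ k} * Nat.card (P : Subgroup G) ≤ Nat.card {g : G // ∃ k : ℕ, orderOf g = p ^ k} * Nat.card (Pbar : Subgroup (G ⧸ N)) ∧
    (N ≤ Subgroup.center G → Nat.card {g : (G ⧸ N) // ∃ k : ℕ, orderOf g = p ^ k} * Nat.card (P : Subgroup G) = Nat.card {g : G // ∃ k : ℕ, orderOf g = p ^ k} * Nat.card (Pbar : Subgroup (G ⧸ N))) := by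
  classical
  set M : Subgroup G := (P : Subgroup G) ⊓ N with hM
  have hπ := QuotientGroup.mk'_surjective N
  set P₁ : Sylow p (G ⧸ N) := P.mapSurjective hπ with hP₁
  -- order of `P`
  have hcard : Nat.card (P : Subgroup G) = Nat.card (Pbar : Subgroup (G ⧸ N)) * Nat.card M := by
    have h1 : Nat.card (Pbar : Subgroup (G ⧸ N)) = Nat.card (P₁ : Subgroup (G ⧸ N)) := by
      rw [P₁.card_eq_multiplicity, Pbar.card_eq_multiplicity]
    rw [h1, hP₁, Sylow.coe_mapSurjective]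
    let φ : (P : Subgroup G) →* G ⧸ N := (QuotientGroup.mk' N).comp (P : Subgroup G).subtype
    have hr : φ.range = (P : Subgroup G).map (QuotientGroup.mk' N) := by
      rw [MonoidHom.range_comp, Subgroup.range_subtype]
    have hk : φ.ker = N.subgroupOf P := by
      ext x
      rw [MonoidHom.mem_ker, Subgroup.mem_subgroupOf, ← QuotientGroup.eq_one_iff (N := N)]
      rfl
    rw [← hr, Subgroup.card_eq_card_quotient_mul_card_subgroup φ.ker,
      Nat.card_congr (QuotientGroup.quotientKerEquivRange φ).toEquiv, hk]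
    congr 1
    rw [hM, ← Subgroup.inf_subgroupOf_left]
    exact Nat.card_congr (Subgroup.subgroupOfEquivOfLe inf_le_left).toEquiv
  -- a lift of each `p`-element into a conjugate of `P`
  have hlift : ∀ y : {y : (G ⧸ N) // ∃ k : ℕ, orderOf y = p ^ k}, ∃ a : G × G,
      a.2 ∈ (P : Subgroup G) ∧ ((a.1 * a.2 * a.1⁻¹ : G) : G ⧸ N) = y := by
    intro y
    obtain ⟨c, hc⟩ := Cfsg.Agent.FGSev.pElem_conj_mem P₁ y.2
    obtain ⟨c, rfl⟩ := hπ c
    rw [hP₁, Sylow.coe_mapSurjective] at hc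
    obtain ⟨z, hz, hzy⟩ := Subgroup.mem_map.mp hc
    refine ⟨(c, z), hz, ?_⟩
    rw [QuotientGroup.mk'_apply] at hzy
    show ((c * z * c⁻¹ : G) : G ⧸ N) = y
    rw [QuotientGroup.mk_mul, QuotientGroup.mk_mul, hzy, QuotientGroup.mk_inv]
    simp only [QuotientGroup.mk'_apply]
    group
  choose a ha1 ha2 using hlift
  let f : {y : (G ⧸ N) // ∃ k : ℕ, orderOf y = p ^ k} × M →
      {g : G // ∃ k : ℕ, orderOf g = p ^ k} := fun z =>
    ⟨(a z.1).1 * ((a z.1).2 * z.2) * (a z.1).1⁻¹, Cfsg.Agent.FGSev.pElem_conj _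
      (Cfsg.Agent.FGSev.pElem_of_mem P.2 (mul_mem (ha1 z.1) z.2.2.1))⟩
  have hfmk : ∀ z, ((f z : G) : G ⧸ N) = z.1 := by
    intro z
    rw [← ha2 z.1]
    have h1 : ((z.2 : G) : G ⧸ N) = 1 := (QuotientGroup.eq_one_iff _).mpr z.2.2.2
    simp [f, h1]
  have hf : Function.Injective f := by
    rintro ⟨y, m⟩ ⟨y', m'⟩ h
    obtain rfl : y = y' := Subtype.ext ((hfmk (y, m)).symm.trans (by rw [h]; exact hfmk (y', m')))
    exact Prod.ext rfl (Subtype.ext (mul_left_cancel (mul_left_cancel (mul_right_cancel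
      (congrArg Subtype.val h)))))
  have hle := Nat.card_le_card_of_injective f hf
  rw [Nat.card_prod] at hle
  refine ⟨?_, fun hNZ => ?_⟩
  · rw [hcard, mul_comm (Nat.card (Pbar : Subgroup (G ⧸ N))), ← mul_assoc]
    exact Nat.mul_le_mul_right _ hle
  · have hsurj : Function.Surjective f := by
      rintro ⟨g, hg⟩
      have hgb : ∃ k : ℕ, orderOf ((g : G ⧸ N)) = p ^ k := by
        obtain ⟨k, hk⟩ := hg
        obtain ⟨i, _, hi⟩ := (Nat.dvd_prime_pow Fact.out).mp
          (hk ▸ orderOf_map_dvd (QuotientGroup.mk' N) g)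
        exact ⟨i, hi⟩
      set u := (a ⟨_, hgb⟩).1 with hu
      set v := (a ⟨_, hgb⟩).2 with hv
      set w := u * v * u⁻¹ with hw
      have hn : w⁻¹ * g ∈ N := QuotientGroup.eq.mp (ha2 ⟨_, hgb⟩)
      have hcomm : Commute w⁻¹ g := by
        have hcen := Subgroup.mem_center_iff.mp (hNZ hn)
        have hw' : g = w * (w⁻¹ * g) := by group
        calc w⁻¹ * g = (w⁻¹ * g) := rfl
          _ = w * (w⁻¹ * g) * w⁻¹ := by rw [hcen w]; group
          _ = g * w⁻¹ := by rw [← hw']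
      obtain ⟨i, hi⟩ : ∃ k : ℕ, orderOf (w⁻¹ * g) = p ^ k := by
        obtain ⟨k, hk⟩ := hg
        obtain ⟨l, hl⟩ := Cfsg.Agent.FGSev.pElem_conj u
          (Cfsg.Agent.FGSev.pElem_of_mem P.2 (ha1 ⟨_, hgb⟩))
        have hdvd := hcomm.orderOf_mul_dvd_lcm
        rw [orderOf_inv, hk, hl] at hdvd
        obtain ⟨i, _, hi⟩ := (Nat.dvd_prime_pow Fact.out).mp
          (hdvd.trans ((Nat.lcm_dvd_mul _ _).trans (pow_add p l k).symm.dvd))
        exact ⟨i, hi⟩
      have hnP : w⁻¹ * g ∈ (P : Subgroup G) := by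
        obtain ⟨y, hy⟩ := Cfsg.Agent.FGSev.pElem_conj_mem P ⟨i, hi⟩
        have hcen := Subgroup.mem_center_iff.mp (hNZ hn) y⁻¹
        rwa [hcen, mul_assoc (w⁻¹ * g), inv_mul_cancel, mul_one] at hy
      refine ⟨(⟨_, hgb⟩, ⟨w⁻¹ * g, hnP, hn⟩), Subtype.ext ?_⟩
      show u * (v * (w⁻¹ * g)) * u⁻¹ = g
      have hcen := Subgroup.mem_center_iff.mp (hNZ hn) u⁻¹
      calc u * (v * (w⁻¹ * g)) * u⁻¹ = u * v * ((w⁻¹ * g) * u⁻¹) := by group
        _ = u * v * (u⁻¹ * (w⁻¹ * g)) := by rw [hcen]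
        _ = g := by rw [hw]; group
    rw [hcard, ← Nat.card_congr (Equiv.ofBijective f ⟨hf, hsurj⟩), Nat.card_prod]
    ring

end Cfsg.Agent.S4153
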