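import Cfsg.Statements.S4154
-- import your own Cfsg.Agent.* helpers here

set_option autoImplicit false
open Cfsg

namespace Cfsg.Agent.S4154

/-- Let G be a finite group and α an automorphism of G such that every element of G is the product of an element fixed by α and an element of the form g⁻¹α(g). If N is a normal α-invariant subgroup, then the automorphism ᾱ induced on G/N has the same property, and every coset fixed by ᾱ contains an element fixed by α (so the fixed points of ᾱ are the images of the fixed points of α). -/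
theorem result {G : Type*} [Group G] [Finite G] (α : MulAut G)
    (hccp : ∀ x : G, ∃ c g : G, α c = c ∧ x = c * (g⁻¹ * α g))
    (N : Subgroup G) [N.Normal] (hN : ∀ n ∈ N, α n ∈ N) :
    (∀ x : G, ∃ c g : G, c⁻¹ * α c ∈ N ∧ x⁻¹ * (c * (g⁻¹ * α g)) ∈ N) ∧
    (∀ x : G, x⁻¹ * α x ∈ N → ∃ c : G, α c = c ∧ c⁻¹ * x ∈ N) := by
  classical
  let C := {x : G // α x = x}
  let f : C → G → G := fun c g => (c : G) * (g⁻¹ * α g)
  refine ⟨fun x => ?_, fun x hx => ?_⟩
  · obtain ⟨c, g, hc, rfl⟩ := hccp x
    exact ⟨c, g, by rw [hc, inv_mul_cancel]; exact N.one_mem,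
      by rw [inv_mul_cancel]; exact N.one_mem⟩
  · -- counting in the quotient by `N`
    have hNcomap : N ≤ N.comap α.toMonoidHom := fun n hn => hN n hn
    set β : G ⧸ N →* G ⧸ N := QuotientGroup.map N N α.toMonoidHom hNcomap with hβ
    have hβmk : ∀ g : G, β (g : G ⧸ N) = ((α g : G) : G ⧸ N) := fun g => rfl
    let I : Set (G ⧸ N) := Set.range fun y : G ⧸ N => y⁻¹ * β y
    let Cb : Set (G ⧸ N) := {y | β y = y}
    let Ci : Set (G ⧸ N) := (QuotientGroup.mk : G → G ⧸ N) '' {c : G | α c = c}
    -- `I` has one element for each coset of the fixed points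
    have hI : Nat.card I * Nat.card Cb = Nat.card (G ⧸ N) := by
      let Cs : Subgroup (G ⧸ N) := β.eqLocus (MonoidHom.id _)
      have hCs : Nat.card Cb = Nat.card Cs := rfl
      rw [hCs, Subgroup.card_eq_card_quotient_mul_card_subgroup Cs]
      congr 1
      have key : ∀ a b : G ⧸ N, a * b⁻¹ ∈ Cs ↔ a⁻¹ * β a = b⁻¹ * β b := by
        intro a b
        show β (a * b⁻¹) = a * b⁻¹ ↔ _
        rw [map_mul, map_inv]
        constructor
        · intro h
          calc a⁻¹ * β a = a⁻¹ * (β a * (β b)⁻¹) * β b := by group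
            _ = b⁻¹ * β b := by rw [h]; group
        · intro h
          calc β a * (β b)⁻¹ = a * (a⁻¹ * β a) * (β b)⁻¹ := by group
            _ = a * b⁻¹ := by rw [h]; group
      refine (Nat.card_congr (Equiv.ofBijective (Quotient.lift
        (fun a : G ⧸ N => (⟨(a⁻¹)⁻¹ * β a⁻¹, a⁻¹, rfl⟩ : I)) ?_) ⟨?_, ?_⟩)).symm
      · intro a b h
        apply Subtype.ext
        have h' : a⁻¹ * b ∈ Cs := QuotientGroup.leftRel_apply.mp h
        exact ((key a⁻¹ b⁻¹).mp (by simpa using h'))
      · intro a b h
        induction a using QuotientGroup.induction_on with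
        | H a => induction b using QuotientGroup.induction_on with
          | H b =>
            refine QuotientGroup.eq.mpr ?_
            simpa using (key (a : G ⧸ N)⁻¹ (b : G ⧸ N)⁻¹).mpr (congrArg Subtype.val h)
      · rintro ⟨_, y, rfl⟩
        exact ⟨QuotientGroup.mk y⁻¹, by simp⟩
    have hsurj : Function.Surjective fun z : Ci × I => (z.1 : G ⧸ N) * (z.2 : G ⧸ N) := by
      intro y
      induction y using QuotientGroup.induction_on with
      | H y =>
        obtain ⟨c, g, hc, rfl⟩ := hccp y
        exact ⟨(⟨_, c, hc, rfl⟩, ⟨_, (g : G ⧸ N), rfl⟩), by simp [hβmk]⟩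
    have h1 : Nat.card (G ⧸ N) ≤ Nat.card Ci * Nat.card I := by
      rw [← Nat.card_prod]
      exact Nat.card_le_card_of_surjective _ hsurj
    have hsub : Ci ⊆ Cb := by
      rintro _ ⟨c, hc, rfl⟩
      show β c = c
      rw [hβmk, Set.mem_setOf_eq.mp hc]
    have hIpos : 0 < Nat.card I := by
      haveI : Nonempty I := ⟨⟨_, 1, rfl⟩⟩
      exact Nat.card_pos
    have heq : Ci = Cb := by
      refine Set.eq_of_subset_of_ncard_le hsub ?_ (Set.toFinite _)
      rw [← Nat.card_coe_set_eq, ← Nat.card_coe_set_eq]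
      refine Nat.le_of_mul_le_mul_left ?_ hIpos
      rw [hI]
      linarith [h1]
    have hxC : (x : G ⧸ N) ∈ Cb := by
      show β x = x
      rw [hβmk]
      exact (QuotientGroup.eq.mpr hx).symm
    rw [← heq] at hxC
    obtain ⟨c, hc, hcx⟩ := hxC
    exact ⟨c, hc, QuotientGroup.eq.mp hcx⟩

end Cfsg.Agent.S4154
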