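import Cfsg.Statements.S4155
import Cfsg.Agent.S4107
import Cfsg.Agent.FGSev.TIHall

set_option autoImplicit false
open Cfsg
open Subgroup

namespace Cfsg.Agent.S4155

/-- Let G be a finite group and N a proper non-trivial normal nilpotent subgroup whose order is not a prime power, such that for every x outside N all elements of the coset xN have the same order as x. Then N is the Fitting subgroup of G, and for every prime q every Sylow q-subgroup of G/N is cyclic or generalized quaternion. -/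
theorem result {G : Type*} [Group G] [Finite G] (N : Subgroup G) [N.Normal] (hN1 : N ≠ ⊥) (hN2 : N ≠ ⊤)
    (heq : ∀ x : G, x ∉ N → ∀ n ∈ N, orderOf (x * n) = orderOf x)
    (hnil : Group.IsNilpotent N) (hnpp : ¬ IsPrimePow (Nat.card N)) :
    N = Cfsg.fittingSubgroup G ∧
    ∀ (q : ℕ) [Fact q.Prime] (Q : Sylow q (G ⧸ N)), IsCyclic (Q : Subgroup (G ⧸ N)) ∨ ∃ n : ℕ, Nonempty ((Q : Subgroup (G ⧸ N)) ≃* QuaternionGroup (2 ^ n)) := by
  classical
  haveI := hnil
  refine ⟨?_, fun q hq Q => ?_⟩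
  · rcases eq_or_lt_of_le (Cores.le_fittingSubgroup (inferInstance : N.Normal) hnil) with h | h
    · exact h
    · exact absurd (((S4107.result N hN1 hN2 heq).2 h).dvd (card_dvd_of_le h.le)
        (fun e => hN1 (card_eq_one.1 e))) hnpp
  have hq' : q.Prime := hq.out
  -- a prime `r ≠ q` dividing the order of `N`
  obtain ⟨r, hr, hrq, hrd⟩ : ∃ r : ℕ, r.Prime ∧ r ≠ q ∧ r ∣ Nat.card N := by
    by_contra hcon
    push Not at hcon
    have h := Nat.eq_prime_pow_of_unique_prime_dvd (n := Nat.card N) (p := q) Nat.card_pos.ne'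
      (fun {d} hd hdN => by_contra fun hdq => hcon d hd hdq hdN)
    apply hnpp
    rw [h]
    refine hq'.isPrimePow.pow ?_
    intro e
    rw [e, pow_zero] at h
    exact hN1 (card_eq_one.1 h)
  haveI := Fact.mk hr
  -- the characteristic Sylow subgroups of `N`
  have hchar : ∀ (s : ℕ) [Fact s.Prime] (S : Sylow s N), ((S : Subgroup N).map N.subtype).Normal := by
    intro s _ S
    haveI := S.normal_of_normalizerCondition Group.normalizerCondition_of_isNilpotent
    haveI : (S : Subgroup N).Characteristic := Sylow.characteristic_of_normal S inferInstance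
    infer_instance
  let Sq : Sylow q N := default
  let Sr : Sylow r N := default
  set Nq : Subgroup G := (Sq : Subgroup N).map N.subtype with hNq
  set R : Subgroup G := (Sr : Subgroup N).map N.subtype with hR
  haveI : Nq.Normal := hchar q Sq
  haveI hRn : R.Normal := hchar r Sr
  have hNqN : Nq ≤ N := map_subtype_le _
  have hRN : R ≤ N := map_subtype_le _
  have hRne : R ≠ ⊥ := by
    rw [hR, Ne, map_eq_bot_iff_of_injective _ N.subtype_injective]
    exact Sr.ne_bot_of_dvd_card hrd
  have hNqp : IsPGroup q Nq := Sq.2.map _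
  have hRp : IsPGroup r R := Sr.2.map _
  -- a Sylow subgroup of `G` over `Q`
  obtain ⟨P, hP⟩ := Sylow.mapSurjective_surjective (f := QuotientGroup.mk' N)
    (QuotientGroup.mk'_surjective N) q Q
  have hPN : ∀ x ∈ (P : Subgroup G), x ∈ N → x ∈ Nq := by
    intro x hx hxN
    obtain ⟨k, hk⟩ := Element.orderOf_eq_pow_of_mem_isPGroup P.2 hx
    have hk' : orderOf (⟨x, hxN⟩ : N) = q ^ k := by rw [Subgroup.orderOf_mk, hk]
    obtain ⟨S, hS⟩ := Element.exists_sylow_mem hk'
    haveI := Sq.normal_of_normalizerCondition Group.normalizerCondition_of_isNilpotent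
    haveI := Sq.unique_of_normal inferInstance
    exact ⟨⟨x, hxN⟩, by rw [Subsingleton.elim Sq S]; exact hS, rfl⟩
  -- work modulo `Nq`
  let π := QuotientGroup.mk' Nq
  let P' : Subgroup (G ⧸ Nq) := (P : Subgroup G).map π
  have hP'p : IsPGroup q P' := P.2.map π
  have hfpf : ∀ a ∈ P', a ≠ 1 → R.map π ⊓ centralizer {a} = ⊥ := by
    rintro _ ⟨x, hx, rfl⟩ hx1
    rw [eq_bot_iff]
    rintro _ ⟨⟨n, hn, rfl⟩, hc⟩
    replace hc : π n ∈ centralizer {π x} := hc
    rw [mem_centralizer_singleton_iff, ← map_mul, ← map_mul] at hc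
    have hxN : x ∉ N := fun h => hx1 ((QuotientGroup.eq_one_iff x).2 (hPN x hx h))
    have hdis : Nq ⊓ R = ⊥ := (IsPGroup.disjoint_of_ne q r (Ne.symm hrq) _ _ hNqp hRp).eq_bot
    have hmem : n * x * (x * n)⁻¹ ∈ Nq ⊓ R := by
      refine ⟨?_, ?_⟩
      · have h1 : π (n * x * (x * n)⁻¹) = 1 := by rw [map_mul, map_inv, hc, mul_inv_cancel]
        exact (QuotientGroup.eq_one_iff _).1 h1
      · have h2 := R.mul_mem hn (hRn.conj_mem _ (R.inv_mem hn) x)
        simpa [mul_assoc] using h2
    rw [hdis, mem_bot, mul_inv_eq_one] at hmem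
    obtain ⟨k, hk⟩ := Element.orderOf_eq_pow_of_mem_isPGroup P.2 hx
    obtain ⟨l, hl⟩ := Element.orderOf_eq_pow_of_mem_isPGroup hRp hn
    have : n = 1 := FGSev.eq_one_of_orderOf_mul_eq (hmem.symm : x * n = n * x) (by
      rw [hk, hl]; exact Nat.Coprime.pow _ _ ((Nat.coprime_primes hq' hr).2 (Ne.symm hrq)))
      (heq x hxN n (hRN hn))
    simp [this]
  have hR'ne : R.map π ≠ ⊥ := by
    rw [Ne, Subgroup.map_eq_bot_iff, QuotientGroup.ker_mk']
    intro hle
    refine hRne ?_
    rw [← inf_eq_left.2 hle, inf_comm]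
    exact (IsPGroup.disjoint_of_ne q r (Ne.symm hrq) _ _ hNqp hRp).eq_bot
  have hab : ∀ A : Subgroup P', IsMulCommutative A → IsCyclic A := by
    intro A hA
    set A' := A.map P'.subtype with hA'
    haveI : IsMulCommutative A' := by
      refine ⟨⟨?_⟩⟩
      rintro ⟨_, ⟨a, ha, rfl⟩⟩ ⟨_, ⟨b, hb, rfl⟩⟩
      exact Subtype.ext (congrArg (fun z : A => ((z : P') : G ⧸ Nq)) (hA.is_comm.comm ⟨a, ha⟩ ⟨b, hb⟩))
    suffices IsCyclic A' from
      isCyclic_of_surjective _ (A.equivMapOfInjective _ P'.subtype_injective).symm.surjective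
    by_contra hc
    apply hR'ne
    have hn' : (R.map π).Normal := hRn.map π (QuotientGroup.mk'_surjective Nq)
    have hcop : (Nat.card A').Coprime (Nat.card (R.map π)) :=
      ((IsPGroup.coprime_card_of_ne q r (Ne.symm hrq) _ _ hP'p (hRp.map π))).coprime_dvd_left
        (card_dvd_of_le (map_subtype_le A))
    rw [← Coprime.iSup_centralizer_eq hc (by rw [normalizer_eq_top]; exact le_top) hcop, eq_bot_iff]
    exact iSup₂_le fun a ha => (hfpf a (map_subtype_le A ha.1) ha.2).le
  -- `P'` is isomorphic to `Q`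
  have hle : Nq ≤ (QuotientGroup.mk' N).ker := by rw [QuotientGroup.ker_mk']; exact hNqN
  let ψ : G ⧸ Nq →* G ⧸ N := QuotientGroup.lift Nq (QuotientGroup.mk' N) hle
  have hmap : P'.map ψ = (Q : Subgroup (G ⧸ N)) := by
    rw [← hP, Sylow.coe_mapSurjective, Subgroup.map_map]
    exact congrArg (fun f => (P : Subgroup G).map f) (MonoidHom.ext fun g => rfl)
  have hinj : Function.Injective (ψ.comp P'.subtype) := by
    rw [injective_iff_map_eq_one]
    rintro ⟨_, x, hx, rfl⟩ h
    exact Subtype.ext ((QuotientGroup.eq_one_iff x).2 (hPN x hx ((QuotientGroup.eq_one_iff x).1 h)))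
  have e : P' ≃* (Q : Subgroup (G ⧸ N)) := (MonoidHom.ofInjective hinj).trans
    (MulEquiv.subgroupCongr (by rw [MonoidHom.range_comp, Subgroup.range_subtype, hmap]))
  rcases FGSev.cyclic_or_quaternion_of_abelian_cyclic hP'p hab with h | ⟨-, n, ⟨e'⟩⟩
  · exact Or.inl (isCyclic_of_surjective _ e.surjective)
  · exact Or.inr ⟨n, ⟨e.symm.trans e'⟩⟩

end Cfsg.Agent.S4155
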