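import Cfsg.Statements.S4156
-- import your own Cfsg.Agent.* helpers here

set_option autoImplicit false
open Cfsg

namespace Cfsg.Agent.S4156

/-- Let n ≥ 5 and F a finite field. Then the projective special linear group PSL_n(F) contains a subgroup isomorphic to the alternating group of degree n + 1. -/
theorem result (n : ℕ) (hn : 5 ≤ n) (F : Type*) [Field F] [Finite F] :
    ∃ f : alternatingGroup (Fin (n + 1)) →* Matrix.ProjectiveSpecialLinearGroup (Fin n) F, Function.Injective f := by
  have h6 : 6 ≤ Nat.card (Fin (n + 1)) := by rw [Nat.card_fin]; omega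
  let M : Equiv.Perm (Fin (n + 1)) → Matrix (Fin n) (Fin n) F := fun σ => Matrix.of fun i j =>
    (if σ j.castSucc = i.castSucc then 1 else 0) - (if σ (Fin.last n) = i.castSucc then 1 else 0)
  have hone : M 1 = 1 := by
    ext i j
    simp only [M, Matrix.of_apply, Matrix.one_apply, Equiv.Perm.one_apply]
    rcases eq_or_ne i j with rfl | hij
    · simp [(Fin.castSucc_lt_last i).ne']
    · simp [(Fin.castSucc_lt_last i).ne', hij, hij.symm]
  have hmul : ∀ σ τ, M (σ * τ) = M σ * M τ := by
    intro σ τ
    ext i j
    rw [Matrix.mul_apply]
    simp only [M, Matrix.of_apply, Equiv.Perm.mul_apply]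
    set g : Fin (n + 1) → F := fun k =>
      (if σ k = i.castSucc then 1 else 0) - (if σ (Fin.last n) = i.castSucc then 1 else 0) with hg
    have hlast : g (Fin.last n) = 0 := sub_self _
    have hsum : ∀ a : Fin (n + 1), ∑ k : Fin n, g k.castSucc * (if a = k.castSucc then 1 else 0) = g a := by
      intro a
      have h : ∑ k : Fin (n + 1), g k * (if a = k then (1 : F) else 0) = g a := by simp
      rw [Fin.sum_univ_castSucc, hlast, zero_mul, add_zero] at h
      exact h
    symm
    calc ∑ k : Fin n, g k.castSucc * ((if τ j.castSucc = k.castSucc then 1 else 0) -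
          (if τ (Fin.last n) = k.castSucc then 1 else 0)) = g (τ j.castSucc) - g (τ (Fin.last n)) := by
          simp only [mul_sub, Finset.sum_sub_distrib, hsum]
      _ = _ := by simp only [hg]; abel
  let ρ : alternatingGroup (Fin (n + 1)) →* Matrix (Fin n) (Fin n) F :=
    { toFun := fun σ => M σ
      map_one' := by rw [OneMemClass.coe_one, hone]
      map_mul' := fun a b => by rw [Subgroup.coe_mul, hmul] }
  -- the determinant is trivial as the alternating group is perfect
  have hdet : ∀ σ : alternatingGroup (Fin (n + 1)), (ρ σ).det = 1 := by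
    let d : alternatingGroup (Fin (n + 1)) →* Fˣ := (Matrix.detMonoidHom.comp ρ).toHomUnits
    have hd : d.ker = ⊤ := by
      refine top_unique ?_
      rw [← commutator_alternatingGroup_eq_top (α := Fin (n + 1)) (by omega)]
      exact Abelianization.commutator_subset_ker d
    intro σ
    have hσ : d σ = 1 := by rw [← MonoidHom.mem_ker, hd]; exact Subgroup.mem_top σ
    exact congrArg Units.val hσ
  have hρ : Function.Injective ρ := by
    have hker : ∀ σ : Equiv.Perm (Fin (n + 1)), M σ = 1 → σ = 1 := by
      intro σ hσ
      have hcol : ∀ i j : Fin n, (if σ j.castSucc = i.castSucc then (1 : F) else 0) -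
          (if σ (Fin.last n) = i.castSucc then 1 else 0) = if i = j then 1 else 0 := fun i j => by
        have := congrFun (congrFun hσ i) j
        simpa [M, Matrix.of_apply, Matrix.one_apply] using this
      have hl : σ (Fin.last n) = Fin.last n := by
        rcases Fin.eq_castSucc_or_eq_last (σ (Fin.last n)) with ⟨i, hi⟩ | h
        · exfalso
          haveI : Nontrivial (Fin n) := Fin.nontrivial_iff_two_le.mpr (by omega)
          obtain ⟨j, hj⟩ := exists_ne i
          have := hcol i j
          rw [if_pos hi, if_neg hj.symm, sub_eq_zero] at this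
          split_ifs at this with h'
          · exact (Fin.castSucc_lt_last j).ne (σ.injective (h'.trans hi.symm))
          · exact zero_ne_one this
        · exact h
      apply Equiv.ext
      intro a
      rcases Fin.eq_castSucc_or_eq_last a with ⟨j, rfl⟩ | rfl
      · have := hcol j j
        rw [hl, if_neg (Fin.castSucc_lt_last j).ne', sub_zero, if_pos rfl] at this
        split_ifs at this with h'
        · exact h'
        · exact absurd this zero_ne_one
      · exact hl
    intro a b hab
    have h : ρ (a⁻¹ * b) = 1 := by rw [map_mul, ← hab, ← map_mul, inv_mul_cancel, map_one]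
    exact inv_mul_eq_one.mp (Subtype.ext (hker _ h))
  let r : alternatingGroup (Fin (n + 1)) →* Matrix.SpecialLinearGroup (Fin n) F :=
    { toFun := fun σ => ⟨ρ σ, hdet σ⟩
      map_one' := Subtype.ext (map_one ρ)
      map_mul' := fun a b => Subtype.ext (map_mul ρ a b) }
  refine ⟨(QuotientGroup.mk' _).comp r, ?_⟩
  rw [← MonoidHom.ker_eq_bot_iff, eq_bot_iff]
  intro c hc
  have hcen : r c ∈ Subgroup.center (Matrix.SpecialLinearGroup (Fin n) F) :=
    (QuotientGroup.eq_one_iff _).mp hc
  rw [← alternatingGroup.center_eq_bot (α := Fin (n + 1)) (by omega)]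
  refine Subgroup.mem_center_iff.mpr fun g => hρ ?_
  have := Subgroup.mem_center_iff.mp hcen (r g)
  rw [map_mul, map_mul]
  exact congrArg Subtype.val this

end Cfsg.Agent.S4156
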