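import Cfsg.Statements.S4160
import Cfsg.Agent.FGSev.PElem

set_option autoImplicit false
open Cfsg

namespace Cfsg.Agent.S4160

open Subgroup

/-- An element whose class size is prime to `p` centralises a Sylow `p`-subgroup. -/
theorem exists_conj_mem_centralizer {G : Type*} [Group G] [Finite G] {p : ℕ} [hp : Fact p.Prime]
    (P : Sylow p G) {x : G} (hx : ¬ p ∣ (centralizer ({x} : Set G)).index) :
    ∃ g : G, g⁻¹ * x * g ∈ centralizer ((P : Subgroup G) : Set G) := by
  set C := centralizer ({x} : Set G) with hC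
  obtain ⟨S⟩ : Nonempty (Sylow p C) := inferInstance
  have hcard : Nat.card ((S : Subgroup C).map C.subtype) = p ^ (Nat.card G).factorization p := by
    rw [card_map_of_injective C.subtype_injective, S.card_eq_multiplicity, ← C.card_mul_index,
      Nat.factorization_mul Nat.card_pos.ne' C.index_ne_zero_of_finite, Finsupp.add_apply,
      Nat.factorization_eq_zero_of_not_dvd hx, add_zero]
  let S' : Sylow p G := Sylow.ofCard ((S : Subgroup C).map C.subtype) hcard
  obtain ⟨g, hg⟩ := MulAction.exists_smul_eq G P S'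
  refine ⟨g, mem_centralizer_iff.2 fun u hu => ?_⟩
  have hmem : g * u * g⁻¹ ∈ (S' : Subgroup G) := by
    rw [← hg, Sylow.coe_subgroup_smul]
    exact smul_mem_pointwise_smul u (MulAut.conj g) _ hu
  have hcomm := mem_centralizer_singleton_iff.1 ((map_subtype_le _) hmem : g * u * g⁻¹ ∈ C)
  calc u * (g⁻¹ * x * g) = g⁻¹ * (g * u * g⁻¹ * x) * g := by group
    _ = g⁻¹ * (x * (g * u * g⁻¹)) * g := by rw [hcomm]
    _ = g⁻¹ * x * g * u := by group

/-- The size of the union of the conjugates of the centraliser of a subgroup. -/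
theorem exists_small_cover {G : Type*} [Group G] [Finite G] (P : Subgroup G)
    (hne : centralizer (P : Set G) ≠ normalizer (P : Set G)) :
    ∃ U : Set G, (∀ x g : G, x ≠ 1 → g⁻¹ * x * g ∈ centralizer (P : Set G) → x ∈ U) ∧
      2 * U.ncard + 2 ≤ Nat.card G := by
  classical
  set A := centralizer (P : Set G) with hA
  set N := normalizer (P : Set G) with hN
  have hAN : A ≤ N := centralizer_le_normalizer _
  let c : (G ⧸ N) × {a : A // a ≠ 1} → G := fun t => t.1.out * (t.2.1 : G) * t.1.out⁻¹
  refine ⟨Set.range c, fun x g hx1 hx => ?_, ?_⟩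
  · obtain ⟨n, hn⟩ := QuotientGroup.mk_out_eq_mul N g
    have hnA : (n : G)⁻¹ * (g⁻¹ * x * g) * n ∈ A := by
      rw [hA, mem_centralizer_iff]
      intro u hu
      have hu' : (n : G) * u * (n : G)⁻¹ ∈ P := (mem_normalizer_iff.1 n.2 u).1 hu
      have h := mem_centralizer_iff.1 hx _ hu'
      calc u * ((n : G)⁻¹ * (g⁻¹ * x * g) * n)
          = (n : G)⁻¹ * ((n : G) * u * (n : G)⁻¹ * (g⁻¹ * x * g)) * n := by group
        _ = (n : G)⁻¹ * ((g⁻¹ * x * g) * ((n : G) * u * (n : G)⁻¹)) * n := by rw [h]
        _ = (n : G)⁻¹ * (g⁻¹ * x * g) * n * u := by group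
    refine ⟨⟨QuotientGroup.mk g, ⟨⟨_, hnA⟩, fun h => hx1 ?_⟩⟩, ?_⟩
    · have h' : (n : G)⁻¹ * (g⁻¹ * x * g) * n = 1 := congrArg Subtype.val h
      calc x = g * n * ((n : G)⁻¹ * (g⁻¹ * x * g) * n) * (g * n)⁻¹ := by group
        _ = 1 := by rw [h']; group
    · show (QuotientGroup.mk g : G ⧸ N).out * _ * _ = x
      rw [hn]; group
  · have hcA : Nat.card {a : A // a ≠ 1} + 1 = Nat.card A := by
      haveI : Fintype A := Fintype.ofFinite A
      rw [Nat.card_eq_fintype_card, Fintype.card_subtype_compl, Fintype.card_subtype_eq,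
        Nat.card_eq_fintype_card]
      have := Fintype.card_pos (α := A)
      omega
    have hU : (Set.range c).ncard ≤ N.index * Nat.card {a : A // a ≠ 1} := by
      rw [← Nat.card_coe_set_eq, Subgroup.index, ← Nat.card_prod]
      exact Finite.card_range_le c
    have h2 : 2 * Nat.card A ≤ Nat.card N := by
      have hm := (A.subgroupOf N).card_mul_index
      rw [Nat.card_congr (subgroupOfEquivOfLe hAN).toEquiv] at hm
      have h1 : (A.subgroupOf N).index ≠ 1 := fun e =>
        hne (le_antisymm hAN (subgroupOf_eq_top.1 (index_eq_one.1 e)))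
      have h0 : (A.subgroupOf N).index ≠ 0 := index_ne_zero_of_finite
      rw [← hm, mul_comm]
      exact Nat.mul_le_mul_left _ (by omega)
    have hG := N.card_mul_index
    have hi : 1 ≤ N.index := Nat.pos_of_ne_zero N.index_ne_zero_of_finite
    nlinarith

/-- Let G be a finite group and p ≠ q primes each dividing the size of some conjugacy class of G, such that no conjugacy class size is divisible by pq. Then G has a normal p-complement or a normal q-complement. -/
theorem result {G : Type*} [Group G] [Finite G] (p q : ℕ) (hp : p.Prime) (hq : q.Prime) (hpq : p ≠ q)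
    (hp' : ∃ x : G, p ∣ (Subgroup.centralizer ({x} : Set G)).index) (hq' : ∃ x : G, q ∣ (Subgroup.centralizer ({x} : Set G)).index) (h : ∀ x : G, ¬ p * q ∣ (Subgroup.centralizer ({x} : Set G)).index) :
    Cfsg.HasNormalPComplement p G ∨ Cfsg.HasNormalPComplement q G := by
  classical
  haveI := Fact.mk hp
  haveI := Fact.mk hq
  let P : Sylow p G := default
  let Q : Sylow q G := default
  by_contra hcon
  push Not at hcon
  have hP : centralizer ((P : Subgroup G) : Set G) ≠ normalizer ((P : Subgroup G) : Set G) := by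
    intro e
    exact hcon.1 ⟨P, _, MonoidHom.normal_ker _,
      MonoidHom.ker_transferSylow_isComplement' P (le_of_eq e.symm)⟩
  have hQ : centralizer ((Q : Subgroup G) : Set G) ≠ normalizer ((Q : Subgroup G) : Set G) := by
    intro e
    exact hcon.2 ⟨Q, _, MonoidHom.normal_ker _,
      MonoidHom.ker_transferSylow_isComplement' Q (le_of_eq e.symm)⟩
  obtain ⟨U, hU, hUc⟩ := exists_small_cover (P : Subgroup G) hP
  obtain ⟨V, hV, hVc⟩ := exists_small_cover (Q : Subgroup G) hQ
  have hcover : (Set.univ : Set G) ⊆ {1} ∪ (U ∪ V) := by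
    intro x _
    by_cases hx1 : x = 1
    · exact Or.inl hx1
    refine Or.inr ?_
    by_cases hpx : p ∣ (centralizer ({x} : Set G)).index
    · have hqx : ¬ q ∣ (centralizer ({x} : Set G)).index := fun hd =>
        h x (Nat.Coprime.mul_dvd_of_dvd_of_dvd ((Nat.coprime_primes hp hq).2 hpq) hpx hd)
      obtain ⟨g, hg⟩ := exists_conj_mem_centralizer Q hqx
      exact Or.inr (hV x g hx1 hg)
    · obtain ⟨g, hg⟩ := exists_conj_mem_centralizer P hpx
      exact Or.inl (hU x g hx1 hg)
  have h1 := Set.ncard_le_ncard hcover (Set.toFinite _)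
  rw [Set.ncard_univ] at h1
  have h2 := Set.ncard_union_le ({1} : Set G) (U ∪ V)
  have h3 := Set.ncard_union_le U V
  rw [Set.ncard_singleton] at h2
  omega

end Cfsg.Agent.S4160
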