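import Cfsg.Statements.S4163
import Cfsg.Agent.FGSev.SmallClass
-- import your own Cfsg.Agent.* helpers here

set_option autoImplicit false
open Cfsg

namespace Cfsg.Agent.S4163

/-- Let G be a finite group with a normal abelian subgroup A satisfying C_G(A) = A. Suppose some conjugacy class of G has size greater than 1, let m be the smallest such size, and let M be the subgroup generated by the elements whose class has size 1 or m. Then M is nilpotent of class at most 3. -/
theorem result {G : Type*} [Group G] [Finite G]
    (A : Subgroup G) [A.Normal] (hA : IsMulCommutative A) (hCA : Subgroup.centralizer (A : Set G) = A)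
    (m : ℕ) (hm1 : 1 < m) (hm : ∃ x : G, (Subgroup.centralizer ({x} : Set G)).index = m) (hmin : ∀ x : G, 1 < (Subgroup.centralizer ({x} : Set G)).index → m ≤ (Subgroup.centralizer ({x} : Set G)).index) :
    Subgroup.upperCentralSeries ↥(Subgroup.closure {x : G | (Subgroup.centralizer ({x} : Set G)).index = 1 ∨ (Subgroup.centralizer ({x} : Set G)).index = m}) 3 = ⊤ := by
  classical
  set S := {x : G | (Subgroup.centralizer ({x} : Set G)).index = 1 ∨
    (Subgroup.centralizer ({x} : Set G)).index = m} with hS
  have hz : ∀ x ∈ S, ∀ a ∈ A, a * x * a⁻¹ * x⁻¹ ∈ Subgroup.center G := by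
    intro x hx a ha
    rcases hx with h1 | hm'
    · have hxc := (Cfsg.Agent.ClassSize.index_centralizer_eq_one_iff x).mp h1
      rw [Subgroup.mem_center_iff.mp hxc a, mul_inv_cancel_right, mul_inv_cancel]
      exact one_mem _
    · exact Cfsg.Agent.FGSev.comm_mem_center_of_minimal A hA hm' hmin ha
  have h := Cfsg.Agent.FGSev.lowerCentralSeries_small_class_eq_bot A hA hCA S hz
  rw [← Subgroup.lowerCentralSeries_eq_bot_iff_upperCentralSeries_eq_top]
  apply Subgroup.map_injective (Subgroup.closure S).subtype_injective
  rw [Subgroup.map_bot, Subgroup.top_subtype_lowerCentralSeries, h]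

end Cfsg.Agent.S4163
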