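import Cfsg.Statements.S4168
-- import your own Cfsg.Agent.* helpers here

set_option autoImplicit false
open Cfsg

namespace Cfsg.Agent.S4168

/-- Let L be a finite quasisimple group (perfect with L/Z(L) simple). Then every prime dividing the order of the centre Z(L) also divides the order of L/Z(L). -/
theorem result {L : Type*} [Group L] [Finite L] (hL : Cfsg.IsQuasisimple L)
    (p : ℕ) (hp : p.Prime) (hdiv : p ∣ Nat.card (Subgroup.center L)) : p ∣ (Subgroup.center L).index := by
  classical
  obtain ⟨hperf, hsimp⟩ := hL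
  haveI := Fact.mk hp
  by_contra hndvd
  set Z := Subgroup.center L with hZ
  -- a Sylow `p`-subgroup is central
  let P : Sylow p L := default
  have hPZ : (P : Subgroup L) ≤ Z := by
    intro x hx
    have hmap : ((x : L ⧸ Z)) = 1 := by
      rw [← orderOf_eq_one_iff]
      obtain ⟨k, hk⟩ := IsPGroup.iff_orderOf.mp P.2 ⟨x, hx⟩
      rw [Subgroup.orderOf_mk] at hk
      have h1 : orderOf (x : L ⧸ Z) ∣ p ^ k := hk ▸ orderOf_map_dvd (QuotientGroup.mk' Z) x
      have h2 : orderOf (x : L ⧸ Z) ∣ Z.index := orderOf_dvd_natCard _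
      exact Nat.eq_one_of_dvd_coprimes ((hp.coprime_iff_not_dvd.mpr hndvd).pow_left k) h1 h2
    exact (QuotientGroup.eq_one_iff x).mp hmap
  have hN : Subgroup.normalizer ((P : Subgroup L) : Set L) ≤
      Subgroup.centralizer ((P : Subgroup L) : Set L) := fun g _ => Subgroup.mem_centralizer_iff.mpr
        fun x hx => (Subgroup.mem_center_iff.mp (hPZ hx) g).symm
  have hK := MonoidHom.ker_transferSylow_isComplement' P hN
  set K := (MonoidHom.transferSylow P hN).ker with hKdef
  have hKtop : K = ⊤ := by
    refine top_unique ?_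
    rw [← Group.IsPerfect.commutator_eq_top (G := L)]
    rw [commutator_def, Subgroup.commutator_le]
    intro a _ b _
    rw [hKdef, MonoidHom.mem_ker, map_commutatorElement, commutatorElement_eq_one_iff_mul_comm]
    exact Subtype.ext (Subgroup.mem_center_iff.mp (hPZ (MonoidHom.transferSylow P hN b).2) _)
  have hP : (P : Subgroup L) = ⊥ := by
    have := hK.disjoint
    rw [hKtop, disjoint_iff, top_inf_eq] at this
    exact this
  have hpL : p ∣ Nat.card L := hdiv.trans (Subgroup.card_subgroup_dvd_card _)
  exact P.ne_bot_of_dvd_card hpL hP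

end Cfsg.Agent.S4168
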