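import Cfsg.Statements.S4170
import Mathlib.GroupTheory.PGroup
import Mathlib.GroupTheory.GroupAction.Quotient

set_option autoImplicit false
open scoped Pointwise
open Cfsg

namespace Cfsg.Agent.S4170

/-- Let p be an odd prime and G a nontrivial group of permutations of a finite set Ω that is generated by its elements of p-power order. Then Ω has two disjoint nonempty subsets Δ₁ and Δ₂ such that the index in G of the subgroup of elements mapping Δ₁ onto Δ₁ and Δ₂ onto Δ₂ (and hence also the complement of their union onto itself) is divisible by p. -/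
theorem result {Ω : Type*} [Fintype Ω] (p : ℕ) [Fact p.Prime] (hp : p ≠ 2) (G : Subgroup (Equiv.Perm Ω)) (hG : G ≠ ⊥) (hgen : Subgroup.closure {g : G | ∃ k : ℕ, orderOf g = p ^ k} = ⊤) :
    ∃ Δ₁ Δ₂ : Set Ω, Δ₁.Nonempty ∧ Δ₂.Nonempty ∧ Disjoint Δ₁ Δ₂ ∧ p ∣ (MulAction.stabilizer G Δ₁ ⊓ MulAction.stabilizer G Δ₂).index := by
  classical
  -- a non-identity element of `p`-power order
  obtain ⟨g, ⟨k, hk⟩, hg1⟩ : ∃ g : G, (∃ k : ℕ, orderOf g = p ^ k) ∧ g ≠ 1 := by
    by_contra h
    push Not at h
    refine hG ((Subgroup.eq_bot_iff_forall G).2 fun x hx => ?_)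
    have h1 : Subgroup.closure {g : G | ∃ k : ℕ, orderOf g = p ^ k} = ⊥ :=
      (Subgroup.closure_eq_bot_iff).2 fun y hy => h y hy
    have h2 : (⟨x, hx⟩ : G) ∈ (⊥ : Subgroup G) := by
      rw [← h1, hgen]; exact Subgroup.mem_top _
    simpa using congrArg Subtype.val (Subgroup.mem_bot.1 h2)
  -- a point moved by it
  obtain ⟨a, ha⟩ : ∃ a : Ω, g • a ≠ a := by
    by_contra h
    push Not at h
    exact hg1 (Subtype.ext (Equiv.ext h))
  have hP : IsPGroup p (Subgroup.zpowers g) :=
    IsPGroup.of_card (n := k) (by rw [Nat.card_zpowers, hk])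
  let P : Subgroup G := Subgroup.zpowers g
  let C : Set Ω := MulAction.orbit P a
  have hgC : g • a ∈ C := ⟨⟨g, Subgroup.mem_zpowers g⟩, rfl⟩
  refine ⟨{a}, C \ {a}, Set.singleton_nonempty a, ⟨g • a, hgC, ha⟩,
    Set.disjoint_sdiff_right, ?_⟩
  -- `K` is the stabiliser of the orbit
  let K : Subgroup G := MulAction.stabilizer G C
  have hPK : P ≤ K := fun x hx => MulAction.mem_stabilizer_iff.2
    (MulAction.smul_orbit (⟨x, hx⟩ : P) a)
  have hS : MulAction.stabilizer G ({a} : Set Ω) ⊓ MulAction.stabilizer G (C \ {a}) ≤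
      K ⊓ MulAction.stabilizer G a := by
    rintro x ⟨h1, h2⟩
    have h1' : x • ({a} : Set Ω) = {a} := MulAction.mem_stabilizer_iff.1 h1
    have h2' : x • (C \ {a}) = C \ {a} := MulAction.mem_stabilizer_iff.1 h2
    refine ⟨MulAction.mem_stabilizer_iff.2 ?_, MulAction.mem_stabilizer_iff.2 ?_⟩
    · have haC : ({a} : Set Ω) ⊆ C := Set.singleton_subset_iff.2 (MulAction.mem_orbit_self a)
      calc x • C = x • ({a} ∪ C \ {a}) := by rw [Set.union_diff_cancel haC]
        _ = C := by rw [Set.smul_set_union, h1', h2', Set.union_diff_cancel haC]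
    · simpa [Set.smul_set_singleton] using h1'
  refine dvd_trans ?_ (Subgroup.index_dvd_of_le hS)
  refine dvd_trans ?_ (Dvd.intro _ (Subgroup.relIndex_mul_index
    (inf_le_left : K ⊓ MulAction.stabilizer G a ≤ K)))
  rw [Subgroup.inf_relIndex_left]
  -- its index is the size of the orbit
  have hidx : (MulAction.stabilizer G a).relIndex K = Nat.card C := by
    have hst : (MulAction.stabilizer G a).subgroupOf K = MulAction.stabilizer K a := by
      ext x; rfl
    have horb : MulAction.orbit K a = C := by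
      apply Set.Subset.antisymm
      · rintro _ ⟨x, rfl⟩
        have h := MulAction.mem_stabilizer_iff.1 x.2
        rw [← h]
        exact Set.smul_mem_smul_set (MulAction.mem_orbit_self a)
      · rintro _ ⟨x, rfl⟩
        exact ⟨⟨x, hPK x.2⟩, rfl⟩
    rw [Subgroup.relIndex, hst, MulAction.index_stabilizer, horb, Nat.card_coe_set_eq]
  rw [hidx]
  obtain ⟨m, hm⟩ := hP.card_orbit (α := Ω) a
  rw [hm]
  refine dvd_pow_self p fun h0 => ha ?_
  rw [h0, pow_zero, Nat.card_eq_one_iff_unique] at hm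
  haveI := hm.1
  exact congrArg Subtype.val
    (Subsingleton.elim (⟨g • a, hgC⟩ : C) ⟨a, MulAction.mem_orbit_self a⟩)

end Cfsg.Agent.S4170
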