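import Cfsg.Statements.S4172
import Cfsg.Agent.Components.FStar
import Cfsg.Agent.Components.Perm
import Cfsg.Agent.Components.PComponent
import Cfsg.Agent.Transfer.Tate
import Cfsg.Agent.Transfer.Hall
import Cfsg.Agent.PGroup.Frattini
import Cfsg.Agent.Lib.MinimalNormal

set_option autoImplicit false
open Cfsg

namespace Cfsg.Agent.S4172

open Subgroup
open scoped commutatorElement

section
variable {X : Type*} [Group X] [Finite X] {p : ℕ} [Fact p.Prime]

theorem exists_supplement (hX : IsPGroup p X) (hgen : (frattini X).index = p ^ 2)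
    (T : Subgroup X) (hT : ¬ T ≤ frattini X) : ∃ y : X, T ⊔ zpowers y = ⊤ := by
  have hp : p.Prime := Fact.out
  obtain ⟨t, ht, htΦ⟩ := SetLike.not_le_iff_exists.1 hT
  set A := frattini X ⊔ zpowers t with hA
  haveI hΦn : (frattini X).Normal := inferInstance
  haveI hAn : A.Normal := Cfsg.Agent.PGroup.normal_of_commutator_le
    ((Cfsg.Agent.PGroup.commutator_le_frattini hX).trans le_sup_left)
  have hAc : Nat.card A ≤ Nat.card (frattini X) * p :=
    Cfsg.Agent.PGroup.card_sup_zpowers_le hp.pos (Cfsg.Agent.PGroup.pow_mem_frattini hX t)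
  have hXc : Nat.card X = Nat.card (frattini X) * (p * p) := by
    rw [← (frattini X).card_mul_index, hgen, pow_two]
  have hpos : 0 < Nat.card (frattini X) := Nat.card_pos
  have hAtop : A ≠ ⊤ := fun h => by
    rw [h, card_top, hXc, ← mul_assoc] at hAc
    have h2 : Nat.card (frattini X) * p * 1 < Nat.card (frattini X) * p * p :=
      Nat.mul_lt_mul_of_pos_left hp.one_lt (Nat.mul_pos hpos hp.pos)
    rw [mul_one] at h2
    omega
  obtain ⟨y, -, hy⟩ := SetLike.exists_of_lt (lt_top_iff_ne_top.2 hAtop)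
  refine ⟨y, Cfsg.Agent.PGroup.eq_top_of_sup_frattini ?_⟩
  have h1 : Nat.card (frattini X) * p ≤ Nat.card A := by
    have hlt : Nat.card (frattini X) < Nat.card A := by
      by_contra h
      have hle : frattini X ≤ A := le_sup_left
      have heq : frattini X = A := eq_of_le_of_card_ge hle (not_lt.1 h)
      exact htΦ (heq.symm ▸ mem_sup_right (mem_zpowers t))
    obtain ⟨a, ha⟩ := IsPGroup.iff_card.1 (hX.to_subgroup A)
    obtain ⟨b, hb⟩ := IsPGroup.iff_card.1 (hX.to_subgroup (frattini X))
    rw [ha, hb] at hlt ⊢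
    have := (Nat.pow_lt_pow_iff_right hp.one_lt).1 hlt
    rw [← pow_succ]
    exact Nat.pow_le_pow_right hp.pos (by omega)
  have htop : A ⊔ zpowers y = ⊤ := by
    have hlt : A < A ⊔ zpowers y := lt_of_le_of_ne le_sup_left
      (fun h => hy (h ▸ mem_sup_right (mem_zpowers y)))
    refine eq_top_of_le_card _ ?_
    obtain ⟨a, ha⟩ := IsPGroup.iff_card.1 (hX.to_subgroup A)
    obtain ⟨b, hb⟩ := IsPGroup.iff_card.1 (hX.to_subgroup (A ⊔ zpowers y))
    have hcl : Nat.card A < Nat.card ↥(A ⊔ zpowers y) := by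
      by_contra h
      exact hlt.ne (eq_of_le_of_card_ge hlt.le (by omega))
    rw [ha, hb] at hcl
    have := (Nat.pow_lt_pow_iff_right hp.one_lt).1 hcl
    calc Nat.card X = Nat.card (frattini X) * p * p := by rw [hXc, mul_assoc]
      _ ≤ Nat.card A * p := Nat.mul_le_mul_right p h1
      _ ≤ Nat.card ↥(A ⊔ zpowers y) := by
        rw [ha, hb, ← pow_succ]; exact Nat.pow_le_pow_right hp.pos (by omega)
  rw [eq_top_iff, ← htop]
  refine sup_le (sup_le le_sup_right ?_) ?_
  · exact le_sup_of_le_left (le_sup_of_le_left (zpowers_le.2 ht))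
  · exact le_sup_of_le_left le_sup_right

/-- The quotient by such a subgroup is cyclic, so commutators fall into it. -/
theorem commutator_le_of_supplement (T : Subgroup X) [T.Normal] {y : X}
    (hy : T ⊔ zpowers y = ⊤) (a b : X) : ⁅a, b⁆ ∈ T := by
  have hc : ∀ a : X, ∃ i : ℤ, (a : X ⧸ T) = (y : X ⧸ T) ^ i := by
    intro a
    obtain ⟨u, hu, v, hv, rfl⟩ := mem_sup_of_normal_left.1 (hy ▸ mem_top a)
    obtain ⟨i, rfl⟩ := mem_zpowers_iff.1 hv
    refine ⟨i, ?_⟩
    rw [QuotientGroup.mk_mul, (QuotientGroup.eq_one_iff u).2 hu, one_mul, QuotientGroup.mk_zpow]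
  obtain ⟨i, hi⟩ := hc a
  obtain ⟨j, hj⟩ := hc b
  rw [← QuotientGroup.eq_one_iff, commutatorElement_def, QuotientGroup.mk_mul, QuotientGroup.mk_mul,
    QuotientGroup.mk_mul, QuotientGroup.mk_inv, QuotientGroup.mk_inv, hi, hj]
  group

theorem abelian_of_two (hX : IsPGroup p X) (hgen : (frattini X).index = p ^ 2)
    (T₁ T₂ : Subgroup X) [T₁.Normal] [T₂.Normal] (h : T₁ ⊓ T₂ = ⊥)
    (h₁ : ¬ T₁ ≤ frattini X) (h₂ : ¬ T₂ ≤ frattini X) : IsMulCommutative X := by
  obtain ⟨y₁, hy₁⟩ := exists_supplement hX hgen T₁ h₁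
  obtain ⟨y₂, hy₂⟩ := exists_supplement hX hgen T₂ h₂
  refine ⟨⟨fun a b => commutatorElement_eq_one_iff_mul_comm.1 ?_⟩⟩
  rw [← mem_bot, ← h]
  exact ⟨commutator_le_of_supplement T₁ hy₁ a b, commutator_le_of_supplement T₂ hy₂ a b⟩

end

section
variable {G : Type*} [Group G] [Finite G] {p : ℕ} [Fact p.Prime]

theorem map_frattini_equiv {A B : Type*} [Group A] [Group B] (e : A ≃* B) {x : A}
    (hx : x ∈ frattini A) : e x ∈ frattini B := by
  simp only [frattini, Order.radical, mem_iInf]
  intro M hM
  have h : IsCoatom (M.comap e.toMonoidHom) := (OrderIso.isCoatom_iff e.comapSubgroup M).2 hM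
  exact frattini_le_coatom h hx

/-- A subnormal subgroup normalised by `P` and meeting `P` inside `Φ(P)` is a `p`-group. -/
theorem pGroup_of_inf_le_frattini (P : Sylow p G) (hcore : Cfsg.pPrimeCore p G = ⊥)
    (M : Subgroup G) (hM : M.IsSubnormal) (hPM : (P : Subgroup G) ≤ normalizer (M : Set G))
    (h : M ⊓ (P : Subgroup G) ≤ (frattini P).map (P : Subgroup G).subtype) : IsPGroup p M := by
  set K := normalizer (M : Set G) with hK
  haveI : (M.subgroupOf K).Normal :=
    (normal_subgroupOf_iff_le_normalizer le_normalizer).2 le_rfl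
  set P' : Sylow p K := P.subtype hPM with hP'
  obtain ⟨S, C, hC, hcompl⟩ := Cfsg.Agent.Transfer.hasNormalPComplement_of_inf_le_frattini P'
    (M.subgroupOf K) (by
      rintro x ⟨hx1, hx2⟩
      obtain ⟨y, hy, hyx⟩ := h ⟨hx1, hx2⟩
      let e : (P : Subgroup G) ≃* (P' : Subgroup K) :=
        (subgroupOfEquivOfLe hPM).symm.trans (MulEquiv.subgroupCongr (by rw [hP']; rfl))
      exact ⟨e y, map_frattini_equiv e hy, Subtype.ext hyx⟩)
  have hle : M ≤ K := le_normalizer
  haveI := hC
  -- the complement is a subnormal `p'`-subgroup of `G`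
  set e' := subgroupOfEquivOfLe hle with he'
  set C' : Subgroup M := C.map e'.toMonoidHom with hC'
  haveI : C'.Normal := hC.map e'.toMonoidHom e'.surjective
  have hsub : (C'.map M.subtype).IsSubnormal := (Normal.isSubnormal inferInstance : C'.IsSubnormal).trans' hM
  have hcop : Nat.Coprime (Nat.card (C'.map M.subtype)) p := by
    rw [card_map_of_injective M.subtype_injective, hC', card_map_of_injective e'.injective]
    rw [← hcompl.index_eq_card]
    exact (((Fact.out : p.Prime).coprime_iff_not_dvd).2 S.not_dvd_index).symm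
  have hbot : C'.map M.subtype = ⊥ := le_bot_iff.1
    ((Cfsg.Agent.Components.subnormal_le_pPrimeCore hsub hcop).trans hcore.le)
  rw [map_eq_bot_iff_of_injective _ M.subtype_injective, hC',
    map_eq_bot_iff_of_injective _ e'.injective] at hbot
  subst hbot
  have hStop : (S : Subgroup (M.subgroupOf K)) = ⊤ := isComplement'_bot_left.1 hcompl
  have hp' : IsPGroup p (M.subgroupOf K) := by
    have := S.2
    rw [hStop] at this
    exact this.of_equiv topEquiv
  exact hp'.of_equiv e'

theorem component_not_pGroup {K M : Subgroup G} (hK : Cfsg.IsComponent K) (hle : K ≤ M)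
    (hM : IsPGroup p M) : False := by
  haveI : Group.IsNilpotent K := (hM.to_le hle).isNilpotent
  exact Cfsg.Agent.Components.quasisimple_not_solvable hK.2 inferInstance

/-- Product of the conjugates of `z` over cosets of `P` in `G₀`. -/
theorem exists_fixed (G₀ : Subgroup G) (Q : Subgroup G) [hQn : Q.Normal] (hQ : IsMulCommutative Q)
    (P : Subgroup G) {z : G} (hz : z ∈ Q) (hzP : ∀ x ∈ P, x * z = z * x)
    (N : Subgroup G) [N.Normal] (hmod : ∀ g ∈ G₀, g * z * g⁻¹ * z⁻¹ ∈ N) :
    ∃ s ∈ Q, (∀ g ∈ G₀, g * s = s * g) ∧ (z ^ P.relIndex G₀)⁻¹ * s ∈ N := by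
  classical
  haveI := Fintype.ofFinite (G₀ ⧸ P.subgroupOf G₀)
  letI : CommGroup Q := { (inferInstance : Group Q) with mul_comm := hQ.is_comm.comm }
  let f : G₀ ⧸ P.subgroupOf G₀ → Q := Quotient.lift
    (fun g : G₀ => (⟨(g : G) * z * (g : G)⁻¹, hQn.conj_mem z hz g⟩ : Q)) fun g h hgh => by
      have hb : ((g⁻¹ * h : G₀) : G) ∈ P :=
        mem_subgroupOf.1 (QuotientGroup.leftRel_apply.mp hgh)
      refine Subtype.ext ?_
      have hb' := hzP _ hb
      simp only [Subgroup.coe_mul, Subgroup.coe_inv] at hb'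
      show (g : G) * z * (g : G)⁻¹ = (h : G) * z * (h : G)⁻¹
      calc (g : G) * z * (g : G)⁻¹
          = (g : G) * (z * ((g : G)⁻¹ * (h : G))) * (h : G)⁻¹ := by group
        _ = (g : G) * (((g : G)⁻¹ * (h : G)) * z) * (h : G)⁻¹ := by rw [hb']
        _ = (h : G) * z * (h : G)⁻¹ := by group
  refine ⟨((∏ q, f q : Q) : G), SetLike.coe_mem _, fun g hg => ?_, ?_⟩
  · let c : Q →* Q := MonoidHom.mk' (fun u => ⟨g * u * g⁻¹, hQn.conj_mem u u.2 g⟩) fun u v => by
      ext; simp [mul_assoc]
    have h1 : c (∏ q, f q) = ∏ q, f q := by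
      rw [map_prod]
      refine Fintype.prod_equiv (MulAction.toPerm (⟨g, hg⟩ : G₀)) _ _ fun q => ?_
      obtain ⟨h, rfl⟩ := QuotientGroup.mk_surjective q
      refine Subtype.ext ?_
      show g * ((h : G) * z * (h : G)⁻¹) * g⁻¹ = (g * (h : G)) * z * (g * (h : G))⁻¹
      group
    exact mul_inv_eq_iff_eq_mul.1 (congrArg Subtype.val h1)
  · let π : Q →* G ⧸ N := (QuotientGroup.mk' N).comp Q.subtype
    have hf : ∀ q, π (f q) = π ⟨z, hz⟩ := by
      intro q
      obtain ⟨h, rfl⟩ := QuotientGroup.mk_surjective q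
      show ((((h : G) * z * (h : G)⁻¹ : G)) : G ⧸ N) = (z : G ⧸ N)
      rw [QuotientGroup.eq_iff_div_mem, div_eq_mul_inv]
      exact hmod _ h.2
    have hprod : π (∏ q, f q) = π (⟨z, hz⟩ ^ P.relIndex G₀) := by
      have he : ∏ q, f q * (⟨z, hz⟩ : Q)⁻¹ ∈ π.ker := by
        refine Subgroup.prod_mem _ fun q _ => ?_
        rw [MonoidHom.mem_ker, map_mul, map_inv, hf, mul_inv_cancel]
      rw [Finset.prod_mul_distrib, Finset.prod_const, Finset.card_univ, inv_pow,
        MonoidHom.mem_ker, map_mul, map_inv, mul_inv_eq_one] at he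
      rw [he, Subgroup.relIndex, Subgroup.index_eq_card, Nat.card_eq_fintype_card]
    rw [← QuotientGroup.eq]
    exact hprod.symm

end

theorem core {G : Type*} [Group G] [Finite G] (p : ℕ) [Fact p.Prime] (P : Sylow p G)
    (hna : ¬ IsMulCommutative (P : Subgroup G))
    (hgen : (frattini ↥(P : Subgroup G)).index = p ^ 2) (hcore : Cfsg.pPrimeCore p G = ⊥)
    (hfrat : ((frattini ↥(P : Subgroup G)).map (P : Subgroup G).subtype).normalCore = ⊥) :
    ∃ (N : Subgroup G) (_ : N.Normal), Cfsg.generalizedFittingSubgroup G = N ∧ N ≠ ⊥ ∧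
      (∀ K : Subgroup G, K.Normal → K ≠ ⊥ → N ≤ K) ∧
      IsCyclic ↥((P : Subgroup G).map (QuotientGroup.mk' N)) ∧
      (¬ IsMulCommutative N → ∀ K L : Subgroup G, Cfsg.IsComponent K → Cfsg.IsComponent L →
        ∃ x ∈ (P : Subgroup G), L = K.map (MulAut.conj x).toMonoidHom) := by
  classical
  have hp : p.Prime := Fact.out
  have hX : IsPGroup p (P : Subgroup G) := P.2
  haveI hnt : Nontrivial G := by
    rcases subsingleton_or_nontrivial G with h | h
    · exact absurd ⟨⟨fun a b => Subsingleton.elim _ _⟩⟩ hna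
    · exact h
  -- no normal subgroup lies in `Φ(P)` or meets `P` inside it
  have hnotle : ∀ M : Subgroup G, M.Normal → M ≠ ⊥ →
      ¬ M.subgroupOf (P : Subgroup G) ≤ frattini (P : Subgroup G) := by
    intro M hM hne h
    have hle : M ⊓ (P : Subgroup G) ≤ (frattini P).map (P : Subgroup G).subtype := fun x hx =>
      ⟨⟨x, hx.2⟩, h (mem_subgroupOf.2 hx.1), rfl⟩
    have hMp : IsPGroup p M := pGroup_of_inf_le_frattini P hcore M hM.isSubnormal
      (by rw [normalizer_eq_top_iff.2 hM]; exact le_top) hle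
    obtain ⟨Q, hQ⟩ := hMp.exists_le_sylow
    obtain ⟨g, hg⟩ := MulAction.exists_smul_eq G Q P
    have hMP : M ≤ (P : Subgroup G) := by
      intro x hx
      rw [← hg, Sylow.coe_subgroup_smul]
      exact ⟨g⁻¹ * x * g, hQ (by simpa using hM.conj_mem x hx g⁻¹), by simp [mul_assoc]⟩
    haveI := hM
    exact hne (le_bot_iff.1 (hfrat ▸ normal_le_normalCore.2 ((le_inf le_rfl hMP).trans hle)))
  obtain ⟨N, hNn, hNne, hmin⟩ := Cfsg.Agent.MinNormal.exists_minimal_normal (G := G)
  haveI := hNn
  have huniq : ∀ K : Subgroup G, K.Normal → K ≠ ⊥ → N ≤ K := by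
    intro K hK hKne
    haveI := hK
    rcases Cfsg.Agent.MinNormal.le_or_inf_eq_bot N hmin K with h | h
    · exact h
    · exfalso
      refine hna (abelian_of_two hX hgen (N.subgroupOf _) (K.subgroupOf _) ?_ (hnotle N hNn hNne)
        (hnotle K hK hKne))
      rw [eq_bot_iff]
      intro x hx
      have : (x : G) ∈ N ⊓ K := hx
      rw [h, mem_bot] at this
      exact mem_bot.2 (Subtype.ext this)
  obtain ⟨y, hy⟩ := exists_supplement hX hgen (N.subgroupOf (P : Subgroup G)) (hnotle N hNn hNne)
  have hdec : ∀ x ∈ (P : Subgroup G), ∃ n ∈ N, n ∈ (P : Subgroup G) ∧ ∃ i : ℤ, x = n * (y : G) ^ i := by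
    intro x hx
    obtain ⟨u, hu, v, hv, huv⟩ := mem_sup_of_normal_left.1 (hy ▸ mem_top (⟨x, hx⟩ : (P : Subgroup G)))
    obtain ⟨i, rfl⟩ := mem_zpowers_iff.1 hv
    exact ⟨u, hu, u.2, i, by simpa using (congrArg Subtype.val huv).symm⟩
  have hPcomm : ∀ a ∈ (P : Subgroup G), ∀ b ∈ (P : Subgroup G), ⁅a, b⁆ ∈ N := fun a ha b hb => by
    simpa [commutatorElement_def, mem_subgroupOf] using
      commutator_le_of_supplement (N.subgroupOf (P : Subgroup G)) hy ⟨a, ha⟩ ⟨b, hb⟩
  have hcyc : IsCyclic ↥((P : Subgroup G).map (QuotientGroup.mk' N)) := by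
    have h : (P : Subgroup G).map (QuotientGroup.mk' N) = zpowers (QuotientGroup.mk' N y) := by
      refine le_antisymm ?_ (zpowers_le.2 (mem_map_of_mem _ y.2))
      rintro _ ⟨x, hx, rfl⟩
      obtain ⟨n, hn, -, i, rfl⟩ := hdec x hx
      rw [map_mul, map_zpow, show QuotientGroup.mk' N n = 1 from (QuotientGroup.eq_one_iff n).2 hn,
        one_mul]
      exact zpow_mem (mem_zpowers _) i
    rw [h]
    infer_instance
  refine ⟨N, hNn, ?_, hNne, huniq, hcyc, ?_⟩
  · -- identify `F*(G)`
    haveI hEn := Cfsg.Agent.Components.layer_normal (G := G)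
    haveI hFn := Cfsg.Agent.Components.fitting_normal (G := G)
    by_cases hNab : IsMulCommutative N
    · have hNF : N ≤ Cfsg.fittingSubgroup G := le_sSup ⟨hNn, by
        letI : CommGroup N := { (inferInstance : Group N) with mul_comm := hNab.is_comm.comm }
        exact CommGroup.isNilpotent⟩
      have hFp := Cfsg.Agent.Components.fitting_eq_pCore (p := p) hcore
      set Q := Cfsg.pCore p G with hQ
      haveI hQn : Q.Normal := hFp ▸ hFn
      have hQP : Q ≤ (P : Subgroup G) := by
        obtain ⟨S, hS⟩ := (Cfsg.Agent.Cores.pCore_isPGroup (p := p) (G := G)).exists_le_sylow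
        obtain ⟨g, hg⟩ := MulAction.exists_smul_eq G S P
        intro x hx
        rw [← hg, Sylow.coe_subgroup_smul]
        exact ⟨g⁻¹ * x * g, hS (by simpa using hQn.conj_mem x hx g⁻¹), by simp [mul_assoc]⟩
      have hsmall : ∀ M : Subgroup G, M.Normal →
          M ≤ (frattini P).map (P : Subgroup G).subtype → M = ⊥ := fun M hM h => by
        haveI := hM
        exact le_bot_iff.1 (hfrat ▸ normal_le_normalCore.2 h)
      have hQab : ∀ a ∈ Q, ∀ b ∈ Q, a * b = b * a := by
        intro a ha b hb
        have h1 : ⁅Q, Q⁆ = ⊥ := hsmall _ inferInstance (commutator_le.2 fun u hu v hv =>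
          ⟨⁅(⟨u, hQP hu⟩ : (P : Subgroup G)), ⟨v, hQP hv⟩⁆,
            Cfsg.Agent.PGroup.commutatorElement_mem_frattini hX _ _,
            by simp [commutatorElement_def]⟩)
        exact commutatorElement_eq_one_iff_mul_comm.1
          (mem_bot.1 (h1 ▸ commutator_mem_commutator ha hb))
      have hQexp : ∀ a ∈ Q, a ^ p = 1 := by
        intro a ha
        let M : Subgroup G :=
          { carrier := {x | ∃ b ∈ Q, b ^ p = x}
            one_mem' := ⟨1, Q.one_mem, one_pow p⟩
            mul_mem' := by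
              rintro _ _ ⟨b, hb, rfl⟩ ⟨c, hc, rfl⟩
              exact ⟨b * c, Q.mul_mem hb hc, (show Commute b c from hQab b hb c hc).mul_pow p⟩
            inv_mem' := by
              rintro _ ⟨b, hb, rfl⟩
              exact ⟨b⁻¹, Q.inv_mem hb, inv_pow b p⟩ }
        have hM : M = ⊥ := hsmall M
          ⟨by rintro _ ⟨b, hb, rfl⟩ g; exact ⟨g * b * g⁻¹, hQn.conj_mem b hb g, conj_pow⟩⟩
          (by rintro _ ⟨b, hb, rfl⟩
              exact ⟨⟨b, hQP hb⟩ ^ p, Cfsg.Agent.PGroup.pow_mem_frattini hX _, rfl⟩)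
        have : a ^ p ∈ M := ⟨a, ha, rfl⟩
        rwa [hM, mem_bot] at this
      have hE : Cfsg.layer G = ⊥ := by
        by_contra hE
        have hNE : N ≤ Cfsg.layer G := huniq _ hEn hE
        have hcen : ∀ n ∈ N, ∀ e ∈ Cfsg.layer G, e * n = n * e := fun n hn e he =>
          (mem_centralizer_iff.1 ((commutator_eq_bot_iff_le_centralizer.1
            Cfsg.Agent.Components.layer_centralizes_fitting) he) n (hNF hn)).symm
        set E := Cfsg.layer G with hEdef
        have hperf : _root_.commutator E = ⊤ := by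
          apply map_injective E.subtype_injective
          rw [map_subtype_commutator, ← MonoidHom.range_eq_map, range_subtype]
          exact Cfsg.Agent.Components.layer_commutator_self
        set H : Subgroup E := (P : Subgroup G).subgroupOf E with hH
        have hHc : IsMulCommutative H := by
          refine ⟨⟨fun a b => Subtype.ext (Subtype.ext ?_)⟩⟩
          obtain ⟨n, hn, -, i, hi⟩ := hdec ((a : E) : G) a.2
          obtain ⟨n', hn', -, j, hj⟩ := hdec ((b : E) : G) b.2
          have hyi : (y : G) ^ i ∈ E := by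
            have := E.mul_mem (E.inv_mem (hNE hn)) a.1.2
            rw [hi, inv_mul_cancel_left] at this; exact this
          have hyj : (y : G) ^ j ∈ E := by
            have := E.mul_mem (E.inv_mem (hNE hn')) b.1.2
            rw [hj, inv_mul_cancel_left] at this; exact this
          show ((a : E) : G) * ((b : E) : G) = ((b : E) : G) * ((a : E) : G)
          have c1 : Commute n ((y : G) ^ j) := (hcen n hn _ hyj).symm
          have c2 : Commute ((y : G) ^ i) n' := hcen n' hn' _ hyi
          have c3 : Commute n n' := (hcen n hn _ (hNE hn')).symm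
          rw [hi, hj]
          exact ((c3.mul_right c1).mul_left (c2.mul_right (Commute.zpow_zpow (Commute.refl _) i j))).eq
        have hHp : IsPGroup p H := P.2.comap_subtype
        have hHidx : ¬ p ∣ H.index := by
          obtain ⟨S, hHS⟩ := hHp.exists_le_sylow
          obtain ⟨R, hR⟩ := (S.2.map E.subtype).exists_le_sylow
          obtain ⟨g, hg⟩ := MulAction.exists_smul_eq G R P
          let f : ↥(S : Subgroup E) → H := fun x => ⟨⟨g * (x : G) * g⁻¹, hEn.conj_mem _ x.1.2 g⟩, by
            show g * (x : G) * g⁻¹ ∈ (P : Subgroup G)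
            rw [← hg, Sylow.coe_subgroup_smul]
            exact ⟨(x : G), hR (mem_map_of_mem _ x.2), rfl⟩⟩
          have hf : Function.Injective f := fun u v huv => by
            have h1 := congrArg (fun z : H => ((z : E) : G)) huv
            simp only [f] at h1
            exact Subtype.ext (Subtype.ext (mul_left_cancel (mul_right_cancel h1)))
          have hle : Nat.card (S : Subgroup E) ≤ Nat.card H :=
            Nat.card_le_card_of_injective f hf
          rw [eq_of_le_of_card_ge hHS hle]
          exact S.not_dvd_index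
        have hHall : Nat.Coprime (Nat.card H) H.index := by
          obtain ⟨m, hm⟩ := IsPGroup.iff_card.1 hHp
          rw [hm]
          exact Nat.Coprime.pow_left m (hp.coprime_iff_not_dvd.2 hHidx)
        have hbot := Cfsg.Agent.Transfer.abelian_hall_inf_commutator_inf_center H hHc hHall
        apply hNne
        rw [eq_bot_iff]
        intro n hn
        have hnmem : (⟨n, hNE hn⟩ : E) ∈ H ⊓ _root_.commutator E ⊓ center E :=
          ⟨⟨mem_subgroupOf.2 (hQP (hFp ▸ hNF hn)), hperf.symm ▸ mem_top _⟩,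
            mem_center_iff.2 fun e => Subtype.ext (hcen n hn e e.2)⟩
        rw [hbot, mem_bot] at hnmem
        exact mem_bot.2 (congrArg Subtype.val hnmem)
      rw [Cfsg.generalizedFittingSubgroup, hE, bot_sup_eq, hFp]
      refine le_antisymm ?_ (hFp ▸ hNF)
      by_contra hQN
      obtain ⟨w, hw, hwN⟩ := SetLike.not_le_iff_exists.1 hQN
      obtain ⟨n, hn, -, j, rfl⟩ := hdec w (hQP hw)
      set z := (y : G) ^ j with hz
      have hzQ : z ∈ Q := by
        have := Q.mul_mem (Q.inv_mem (hFp ▸ hNF hn)) hw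
        rwa [inv_mul_cancel_left] at this
      have hzN : z ∉ N := fun h => hwN (N.mul_mem hn h)
      have hzP : ∀ x ∈ (P : Subgroup G), x * z = z * x := by
        intro x hx
        obtain ⟨n', hn', -, i, rfl⟩ := hdec x hx
        exact ((show Commute n' z from hQab n' (hFp ▸ hNF hn') z hzQ).mul_left
          (Commute.zpow_zpow (Commute.refl (y : G)) i j)).eq
      let G₀ : Subgroup G := (centralizer (((Q.map (QuotientGroup.mk' N)) : Subgroup (G ⧸ N)) :
        Set (G ⧸ N))).comap (QuotientGroup.mk' N)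
      haveI : (Q.map (QuotientGroup.mk' N)).Normal := hQn.map _ (QuotientGroup.mk'_surjective N)
      haveI hG₀n : G₀.Normal := normal_centralizer.comap _
      have hPG₀ : (P : Subgroup G) ≤ G₀ := by
        intro x hx
        rw [mem_comap, mem_centralizer_iff]
        rintro _ ⟨u, hu, rfl⟩
        apply commutatorElement_eq_one_iff_mul_comm.1
        rw [← map_commutatorElement]
        exact (QuotientGroup.eq_one_iff _).2 (hPcomm u (hQP hu) x hx)
      have hmod : ∀ g ∈ G₀, g * z * g⁻¹ * z⁻¹ ∈ N := by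
        intro g hg
        have h := mem_centralizer_iff.1 (mem_comap.1 hg) _ (mem_map_of_mem _ hzQ)
        rw [← QuotientGroup.eq_one_iff]
        have h' := commutatorElement_eq_one_iff_mul_comm.2 h.symm
        rw [← map_commutatorElement, commutatorElement_def] at h'
        exact h'
      obtain ⟨s, hsQ, hsG, hsz⟩ := exists_fixed G₀ Q ⟨⟨fun a b => Subtype.ext (hQab a a.2 b b.2)⟩⟩
        (P : Subgroup G) hzQ hzP N hmod
      have hm : ¬ p ∣ (P : Subgroup G).relIndex G₀ := fun hd =>
        P.not_dvd_index (hd.trans (Dvd.intro _ (relIndex_mul_index hPG₀)))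
      have hsN : s ∉ N := by
        intro hs
        have h1 : z ^ (P : Subgroup G).relIndex G₀ ∈ N := by
          simpa using N.mul_mem hs (N.inv_mem hsz)
        apply hzN
        obtain ⟨a, b, hab⟩ : ∃ a b : ℤ, 1 = (((P : Subgroup G).relIndex G₀ : ℕ) : ℤ) * a + (p : ℤ) * b :=
          ⟨_, _, by
            rw [← Nat.gcd_eq_gcd_ab, Nat.coprime_iff_gcd_eq_one.1
              ((hp.coprime_iff_not_dvd.2 hm).symm)]
            rfl⟩
        rw [← zpow_one z, hab, zpow_add, zpow_mul, zpow_mul, zpow_natCast, zpow_natCast, hQexp z hzQ,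
          one_zpow, mul_one]
        exact N.zpow_mem h1 a
      let A : Subgroup G := Q ⊓ centralizer (G₀ : Set G)
      haveI hAn : A.Normal := by
        haveI : (centralizer (G₀ : Set G)).Normal := normal_centralizer
        exact inferInstanceAs (Q ⊓ centralizer (G₀ : Set G)).Normal
      have hAne : A ≠ ⊥ := fun h => by
        have : s ∈ A := ⟨hsQ, mem_centralizer_iff.2 fun g hg => hsG g hg⟩
        rw [h, mem_bot] at this
        exact hsN (this ▸ N.one_mem)
      have hNA := huniq A hAn hAne
      apply hna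
      refine ⟨⟨fun a b => Subtype.ext ?_⟩⟩
      obtain ⟨n₁, hn₁, -, i₁, h1⟩ := hdec _ a.2
      obtain ⟨n₂, hn₂, -, i₂, h2⟩ := hdec _ b.2
      show (a : G) * (b : G) = (b : G) * (a : G)
      have hcy : ∀ m ∈ N, ∀ x ∈ (P : Subgroup G), Commute m x := fun m hm x hx =>
        (mem_centralizer_iff.1 (hNA hm).2 x (hPG₀ hx)).symm
      have hyP : ∀ i : ℤ, (y : G) ^ i ∈ (P : Subgroup G) := fun i => zpow_mem y.2 i
      rw [h1, h2]
      have hn₂P : n₂ ∈ (P : Subgroup G) := hQP (hFp ▸ hNF hn₂)
      exact (((hcy n₁ hn₁ _ hn₂P).mul_right (hcy n₁ hn₁ _ (hyP i₂))).mul_left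
        (((hcy n₂ hn₂ _ (hyP i₁)).symm).mul_right (Commute.zpow_zpow (Commute.refl _) i₁ i₂))).eq
    · have hnosolv : ¬ Group.IsSolvable N := fun hs => by
        haveI := hs
        exact hNab (Cfsg.Agent.MinNormal.isMulCommutative N hmin)
      have hF : Cfsg.fittingSubgroup G = ⊥ := by
        by_contra hF
        have hle := huniq _ hFn hF
        have hFp := Cfsg.Agent.Components.fitting_eq_pCore (p := p) hcore
        rw [hFp] at hle
        haveI : Group.IsNilpotent N :=
          ((Cfsg.Agent.Cores.pCore_isPGroup (p := p) (G := G)).to_le hle).isNilpotent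
        exact hnosolv inferInstance
      have hCN : centralizer (N : Set G) = ⊥ := by
        by_contra hC
        have hle := huniq _ normal_centralizer hC
        exact hNab ⟨⟨fun a b => Subtype.ext ((mem_centralizer_iff.1 (hle b.2) a a.2))⟩⟩
      rw [Cfsg.generalizedFittingSubgroup, hF, sup_bot_eq]
      refine le_antisymm ?_ (huniq _ hEn ?_)
      · rw [Cfsg.Agent.Components.layer_le_iff]
        intro K hK
        refine (Cfsg.Agent.Components.component_le_or_commute_normal hK hNn).resolve_right fun h => ?_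
        rw [commutator_eq_bot_iff_le_centralizer, hCN] at h
        exact Cfsg.Agent.Components.component_ne_bot hK (le_bot_iff.1 h)
      · intro hE
        have h := Cfsg.Agent.Components.centralizer_genFitting_le (G := G)
        rw [Cfsg.generalizedFittingSubgroup, hF, hE, sup_bot_eq] at h
        obtain ⟨g, hg⟩ := exists_ne (1 : G)
        exact hg (mem_bot.1 (h (mem_centralizer_iff.2 fun u hu => by
          rw [SetLike.mem_coe, mem_bot] at hu; simp [hu])))
  · intro hNab K L hK hL
    by_contra hne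
    push Not at hne
    set Δ : Set (Subgroup G) :=
      {K' | ∃ x ∈ (P : Subgroup G), K' = K.map (MulAut.conj x).toMonoidHom} with hΔ
    set S₁ : Set (Subgroup G) := {K' | Cfsg.IsComponent K' ∧ K' ∈ Δ} with hS₁
    set S₂ : Set (Subgroup G) := {K' | Cfsg.IsComponent K' ∧ K' ∉ Δ} with hS₂
    have hKΔ : K ∈ Δ := ⟨1, one_mem _, by
      rw [map_one]; exact (Subgroup.map_id K).symm⟩
    have hLΔ : L ∉ Δ := fun ⟨x, hx, he⟩ => hne x hx he
    have hmul : ∀ (a b : G) (K' : Subgroup G), (K'.map (MulAut.conj b).toMonoidHom).map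
        (MulAut.conj a).toMonoidHom = K'.map (MulAut.conj (a * b)).toMonoidHom := by
      intro a b K'
      rw [map_map]; congr 1; ext u; simp [mul_assoc]
    have hstable : ∀ g ∈ (P : Subgroup G), ∀ K' : Subgroup G,
        (K' ∈ Δ ↔ K'.map (MulAut.conj g).toMonoidHom ∈ Δ) := by
      intro g hg K'
      constructor
      · rintro ⟨x, hx, rfl⟩
        exact ⟨g * x, mul_mem hg hx, hmul g x K⟩
      · rintro ⟨x, hx, he⟩
        refine ⟨g⁻¹ * x, mul_mem (inv_mem hg) hx, ?_⟩
        rw [← hmul g⁻¹ x K, ← he, hmul, inv_mul_cancel, map_one]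
        exact (Subgroup.map_id K').symm
    have hnorm : ∀ S : Set (Subgroup G), (∀ g ∈ (P : Subgroup G), ∀ K' ∈ S,
        K'.map (MulAut.conj g).toMonoidHom ∈ S) →
        (P : Subgroup G) ≤ normalizer ((sSup S : Subgroup G) : Set G) := by
      intro S hS g hg
      have hfwd : ∀ g ∈ (P : Subgroup G), (sSup S).map (MulAut.conj g).toMonoidHom ≤ sSup S := by
        intro g hg
        rw [map_le_iff_le_comap, sSup_le_iff]
        intro K' hK'
        rw [← map_le_iff_le_comap]
        exact le_sSup (hS g hg K' hK')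
      rw [mem_normalizer_iff]
      intro u
      refine ⟨fun hu => hfwd g hg ⟨u, hu, rfl⟩, fun hu => ?_⟩
      have := hfwd g⁻¹ (inv_mem hg) ⟨_, hu, rfl⟩
      simpa [mul_assoc] using this
    have hn₁ := hnorm S₁ fun g hg K' hK' =>
      ⟨Cfsg.Agent.Components.component_conj g hK'.1, (hstable g hg K').1 hK'.2⟩
    have hn₂ := hnorm S₂ fun g hg K' hK' =>
      ⟨Cfsg.Agent.Components.component_conj g hK'.1, fun h => hK'.2 ((hstable g hg K').2 h)⟩
    haveI hEn := Cfsg.Agent.Components.layer_normal (G := G)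
    have hsn : ∀ S : Set (Subgroup G), (∀ K' ∈ S, Cfsg.IsComponent K') →
        (sSup S).IsSubnormal := by
      intro S hS
      have hle : sSup S ≤ Cfsg.layer G := sSup_le fun K' hK' => le_sSup (hS K' hK')
      have hN' : Cfsg.layer G ≤ normalizer ((sSup S : Subgroup G) : Set G) := fun g hg =>
        Cfsg.Agent.Components.mem_normalizer_sSup fun K' hK' =>
          Cfsg.Agent.Components.layer_le_normalizer_component (hS K' hK') hg
      exact Subgroup.IsSubnormal.step _ _ hle hEn.isSubnormal
        ((normal_subgroupOf_iff_le_normalizer hle).2 hN')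
    have hcomm : ⁅sSup S₁, sSup S₂⁆ = ⊥ := by
      rw [commutator_eq_bot_iff_le_centralizer, sSup_le_iff]
      intro A hA
      rw [← commutator_eq_bot_iff_le_centralizer, commutator_comm,
        commutator_eq_bot_iff_le_centralizer, sSup_le_iff]
      intro B hB
      rw [← commutator_eq_bot_iff_le_centralizer, commutator_comm]
      exact Cfsg.Agent.Components.component_commute hA.1 hB.1 fun h => hB.2 (h ▸ hA.2)
    have hinf : sSup S₁ ⊓ sSup S₂ = ⊥ := by
      rw [eq_bot_iff]
      intro u hu
      -- `u` centralises every component, and so lies in the centre of the layer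
      have hu' : u ∈ centralizer (Cfsg.layer G : Set G) := by
        have hle : Cfsg.layer G ≤ centralizer ({u} : Set G) := by
          rw [Cfsg.Agent.Components.layer_le_iff]
          intro K' hK' v hv
          rw [mem_centralizer_singleton_iff]
          by_cases h : K' ∈ Δ
          · exact (mem_centralizer_iff.1 (commutator_eq_bot_iff_le_centralizer.1 hcomm
              (le_sSup (show K' ∈ S₁ from ⟨hK', h⟩) hv)) u hu.2).symm
          · exact mem_centralizer_iff.1 (commutator_eq_bot_iff_le_centralizer.1 hcomm hu.1) v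
              (le_sSup (show K' ∈ S₂ from ⟨hK', h⟩) hv)
        exact mem_centralizer_iff.2 fun e he => mem_centralizer_singleton_iff.1 (hle he)
      have huE : u ∈ Cfsg.layer G :=
        (sSup_le fun K' hK' => le_sSup hK'.1 : sSup S₁ ≤ Cfsg.layer G) hu.1
      by_contra hne1
      have hne1' : Cfsg.layer G ⊓ centralizer (Cfsg.layer G : Set G) ≠ ⊥ := fun h => by
        have : u ∈ Cfsg.layer G ⊓ centralizer (Cfsg.layer G : Set G) := ⟨huE, hu'⟩
        rw [h] at this
        exact hne1 this
      haveI : (centralizer (Cfsg.layer G : Set G)).Normal := normal_centralizer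
      have hle := huniq _ inferInstance hne1'
      exact hNab ⟨⟨fun a b => Subtype.ext
        (mem_centralizer_iff.1 (hle b.2).2 a (hle a.2).1)⟩⟩
    have hbad : ∀ S : Set (Subgroup G), (∀ K' ∈ S, Cfsg.IsComponent K') → ∀ K' ∈ S,
        (P : Subgroup G) ≤ normalizer ((sSup S : Subgroup G) : Set G) →
        ¬ (sSup S).subgroupOf (P : Subgroup G) ≤ frattini (P : Subgroup G) := by
      intro S hS K' hK' hn h
      exact component_not_pGroup (hS K' hK') (le_sSup hK') (pGroup_of_inf_le_frattini P hcore _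
        (hsn S hS) hn fun x hx => ⟨⟨x, hx.2⟩, h (mem_subgroupOf.2 hx.1), rfl⟩)
    have n₁ : ((sSup S₁).subgroupOf (P : Subgroup G)).Normal := ⟨fun x hx g =>
      (mem_normalizer_iff.1 (hn₁ g.2) _).1 hx⟩
    have n₂ : ((sSup S₂).subgroupOf (P : Subgroup G)).Normal := ⟨fun x hx g =>
      (mem_normalizer_iff.1 (hn₂ g.2) _).1 hx⟩
    refine hna (abelian_of_two hX hgen ((sSup S₁).subgroupOf _) ((sSup S₂).subgroupOf _) ?_
      (hbad S₁ (fun _ h => h.1) K ⟨hK, hKΔ⟩ hn₁) (hbad S₂ (fun _ h => h.1) L ⟨hL, hLΔ⟩ hn₂))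
    rw [eq_bot_iff]
    intro x hx
    have : (x : G) ∈ sSup S₁ ⊓ sSup S₂ := hx
    rw [hinf, mem_bot] at this
    exact mem_bot.2 (Subtype.ext this)

/-- Let p be a prime and G a finite group with a non-commutative Sylow p-subgroup P whose Frattini subgroup has index p² in P (P is generated by two elements). Suppose G has no nontrivial normal subgroup of order prime to p and the Frattini subgroup of P contains no nontrivial normal subgroup of G. Then the generalized Fitting subgroup F*(G) is the unique minimal normal subgroup of G, the image of P in G/F*(G) is cyclic, and if F*(G) is not commutative then P permutes the components of G transitively by conjugation. -/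
theorem result {G : Type*} [Group G] [Finite G] (p : ℕ) [Fact p.Prime] (P : Sylow p G) (hna : ¬ IsMulCommutative (P : Subgroup G)) (hgen : (frattini ↥(P : Subgroup G)).index = p ^ 2) (hcore : Cfsg.pPrimeCore p G = ⊥) (hfrat : ((frattini ↥(P : Subgroup G)).map (P : Subgroup G).subtype).normalCore = ⊥) [hFn : (Cfsg.generalizedFittingSubgroup G).Normal] :
    (Cfsg.generalizedFittingSubgroup G ≠ ⊥ ∧ ∀ K : Subgroup G, K.Normal → K ≠ ⊥ → Cfsg.generalizedFittingSubgroup G ≤ K) ∧
      IsCyclic ↥((P : Subgroup G).map (QuotientGroup.mk' (Cfsg.generalizedFittingSubgroup G))) ∧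
      (¬ IsMulCommutative (Cfsg.generalizedFittingSubgroup G) → ∀ K L : Subgroup G, Cfsg.IsComponent K → Cfsg.IsComponent L → ∃ x ∈ (P : Subgroup G), L = K.map (MulAut.conj x).toMonoidHom) := by
  obtain ⟨N, hNn, hF, hne, huniq, hcyc, htr⟩ := core p P hna hgen hcore hfrat
  subst hF
  exact ⟨⟨hne, huniq⟩, hcyc, htr⟩

end Cfsg.Agent.S4172
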