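import Cfsg.Statements.S4176
import Cfsg.Agent.H77.OrbitModule

set_option autoImplicit false
open Cfsg

namespace Cfsg.Agent.S4176

/-- Let k be a field of prime characteristic p, H a finite p-soluble group and ρ a k-linear representation of H on V. Let a be a vector that is fixed by some Sylow p-subgroup of H and whose H-orbit spans V. Then the space of H-fixed vectors has dimension at most 1, and every vector b whose H-orbit has size coprime to the size of the orbit of a is fixed by H. -/
theorem result {k V H : Type*} [Field k] (p : ℕ) [Fact p.Prime] [CharP k p] [AddCommGroup V] [Module k V]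
    [Group H] [Finite H] (hsol : Cfsg.IsPSolvable p H) (ρ : Representation k H V) (a : V)
    (hfix : ∃ P : Sylow p H, ∀ x : H, x ∈ (P : Subgroup H) → ρ x a = a)
    (hspan : Submodule.span k {u : V | ∃ h : H, ρ h a = u} = ⊤) :
    Module.finrank k ρ.invariants ≤ 1 ∧
    ∀ b : V, (Nat.card {u : V | ∃ h : H, ρ h a = u}).Coprime (Nat.card {u : V | ∃ h : H, ρ h b = u}) → ∀ h : H, ρ h b = b := by
  classical
  obtain ⟨n, N, h0, hlast, hmono, hnor, hstep⟩ := hsol
  refine Cfsg.Agent.H77.OrbitModule.conclusion fun b => ?_
  have key : ∀ i : Fin (n + 1), Cfsg.Agent.H77.OrbitModule.Good ρ a b (N i) := by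
    intro i
    induction i using Fin.induction with
    | zero => rw [h0]; exact Cfsg.Agent.H77.OrbitModule.good_bot hspan
    | succ i ih =>
      have := hnor i.castSucc
      have := hnor i.succ
      have hle : N i.castSucc ≤ N i.succ := hmono Fin.castSucc_lt_succ.le
      rcases hstep i with ⟨m, hm⟩ | hco
      · refine Cfsg.Agent.H77.OrbitModule.good_of_sup ?_ ih
        set A := Cfsg.Agent.H77.OrbitModule.stab ρ a
        obtain ⟨P, hP⟩ := hfix
        have hPA : ((A.relIndex (N i.succ))).Coprime (p ^ m) := by
          refine Nat.Coprime.pow_right _ ((Fact.out : p.Prime).coprime_iff_not_dvd.2 fun hd => ?_).symm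
          exact P.not_dvd_index (hd.trans ((Cfsg.Agent.ClassSize.relIndex_dvd_index_of_normal_left _ A).trans
            (Subgroup.index_dvd_of_le fun x hx => hP x hx)))
        have h1 : (N i.castSucc ⊔ A ⊓ N i.succ).relIndex (N i.succ) = 1 := by
          refine Nat.eq_one_of_dvd_coprimes hPA ?_ ?_
          · rw [← Subgroup.inf_relIndex_right A]
            exact Subgroup.relIndex_dvd_of_le_left _ le_sup_right
          · rw [← hm]; exact Subgroup.relIndex_dvd_of_le_left _ le_sup_left
        exact (Subgroup.relIndex_eq_one.1 h1).trans (sup_le_sup_left inf_le_left _)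
      · refine Cfsg.Agent.H77.OrbitModule.good_step hle ?_ ih
        rw [ne_eq, CharP.cast_eq_zero_iff k p]
        intro hd
        exact (Fact.out : p.Prime).not_dvd_one (hco ▸ Nat.dvd_gcd hd dvd_rfl)
  exact hlast ▸ key (Fin.last n)

end Cfsg.Agent.S4176
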