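import Cfsg.Statements.S4177
import Cfsg.Agent.H77.OrbitModule

set_option autoImplicit false
open Cfsg

namespace Cfsg.Agent.S4177

/-- Let k be a field whose characteristic does not divide the order of the finite group H (for instance a field of characteristic zero), and ρ a k-linear representation of H on V. Let a be a vector whose H-orbit spans V. Then the space of H-fixed vectors has dimension at most 1, and every vector b whose H-orbit has size coprime to the size of the orbit of a is fixed by H. -/
theorem result {k V H : Type*} [Field k] [AddCommGroup V] [Module k V] [Group H] [Finite H]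
    (hchar : ¬ ringChar k ∣ Nat.card H) (ρ : Representation k H V) (a : V)
    (hspan : Submodule.span k {u : V | ∃ h : H, ρ h a = u} = ⊤) :
    Module.finrank k ρ.invariants ≤ 1 ∧
    ∀ b : V, (Nat.card {u : V | ∃ h : H, ρ h a = u}).Coprime (Nat.card {u : V | ∃ h : H, ρ h b = u}) → ∀ h : H, ρ h b = b := by
  refine Cfsg.Agent.H77.OrbitModule.conclusion fun b => ?_
  refine Cfsg.Agent.H77.OrbitModule.good_step bot_le ?_ (Cfsg.Agent.H77.OrbitModule.good_bot hspan)
  rw [Subgroup.relIndex_top_right, Subgroup.index_bot, ne_eq, CharP.cast_eq_zero_iff k (ringChar k)]
  exact hchar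

end Cfsg.Agent.S4177
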