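import Cfsg.Statements.S4178
import Mathlib

set_option autoImplicit false
open Cfsg

namespace Cfsg.Agent.S4178

/-- Let F be a finite field with q elements, V a non-zero finite-dimensional F-space of dimension d, H a group of invertible linear maps of V, and R the subgroup of H generated by the elements of H that fix some non-zero vector (have eigenvalue 1). Then the index of R in H is at most q^d − 1; and if H leaves invariant some proper non-zero subspace, the index is at most q^(d/2) − 1. -/
theorem result {F V : Type*} [Field F] [Fintype F] [AddCommGroup V] [Module F V] [FiniteDimensional F V] [Nontrivial V]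
    (H : Subgroup (V ≃ₗ[F] V)) :
    (Subgroup.closure {h : ↥H | ∃ v : V, v ≠ 0 ∧ (h : V ≃ₗ[F] V) v = v}).index ≤ Fintype.card F ^ Module.finrank F V - 1 ∧
    ((∃ W : Submodule F V, W ≠ ⊥ ∧ W ≠ ⊤ ∧ ∀ h ∈ H, ∀ w ∈ W, h w ∈ W) →
      ((Subgroup.closure {h : ↥H | ∃ v : V, v ≠ 0 ∧ (h : V ≃ₗ[F] V) v = v}).index : ℝ) ≤ Real.sqrt ((Fintype.card F : ℝ) ^ Module.finrank F V) - 1) := by
  classical
  have : Finite V := Module.finite_of_finite F
  set R : Subgroup ↥H := Subgroup.closure {h : ↥H | ∃ v : V, v ≠ 0 ∧ (h : V ≃ₗ[F] V) v = v} with hR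
  have hcardV : Nat.card V = Fintype.card F ^ Module.finrank F V := by
    rw [Module.natCard_eq_pow_finrank (K := F), Nat.card_eq_fintype_card]
  have hrel : ∀ (W : Submodule F V), (∀ h ∈ H, ∀ w ∈ W, h w ∈ W) → W ≠ ⊤ →
      R.index ≤ Nat.card (V ⧸ W) - 1 := by
    intro W hW hWt
    have : Finite (V ⧸ W) := Finite.of_surjective W.mkQ W.mkQ_surjective
    obtain ⟨v, hv⟩ : ∃ v, v ∉ W := by
      by_contra hc
      push Not at hc
      exact hWt (eq_top_iff.2 fun x _ => hc x)
    have hne : ∀ q : ↥H ⧸ R, (Submodule.Quotient.mk ((q.out : V ≃ₗ[F] V) v) : V ⧸ W) ≠ 0 := by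
      intro q h0
      rw [Submodule.Quotient.mk_eq_zero] at h0
      have h1 := hW _ (q.out⁻¹).2 _ h0
      rw [show ((q.out⁻¹ : ↥H) : V ≃ₗ[F] V) = (q.out : V ≃ₗ[F] V).symm from rfl, LinearEquiv.symm_apply_apply] at h1
      exact hv h1
    have hinj : Function.Injective (fun q : ↥H ⧸ R =>
        (⟨_, hne q⟩ : {x : V ⧸ W // x ≠ 0})) := by
      intro q1 q2 he
      simp only [Subtype.mk.injEq, Submodule.Quotient.eq] at he
      rw [← QuotientGroup.out_eq' q1, ← QuotientGroup.out_eq' q2, QuotientGroup.eq]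
      refine Subgroup.subset_closure ?_
      set f : V ≃ₗ[F] V := ((q1.out⁻¹ * q2.out : ↥H) : V ≃ₗ[F] V) with hf
      have hfv : f v - v ∈ W := by
        have h1 := hW _ (q1.out⁻¹).2 _ (W.neg_mem he)
        rw [neg_sub, map_sub,
          show ((q1.out⁻¹ : ↥H) : V ≃ₗ[F] V) = (q1.out : V ≃ₗ[F] V).symm from rfl,
          LinearEquiv.symm_apply_apply] at h1
        exact h1
      let U : Submodule F V := W ⊔ Submodule.span F {v}
      have hmap : ∀ u ∈ U, f u - u ∈ W := by
        intro u hu
        obtain ⟨w, hw, c, rfl⟩ : ∃ w ∈ W, ∃ c : F, w + c • v = u := by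
          obtain ⟨w, hw, y, hy, rfl⟩ := Submodule.mem_sup.1 hu
          obtain ⟨c, rfl⟩ := Submodule.mem_span_singleton.1 hy
          exact ⟨w, hw, c, rfl⟩
        have e : f (w + c • v) - (w + c • v) = (f w - w) + c • (f v - v) := by
          simp only [map_add, map_smul, smul_sub]; abel
        rw [e]
        exact W.add_mem (W.sub_mem (hW f (q1.out⁻¹ * q2.out : ↥H).2 w hw) hw) (W.smul_mem c hfv)
      by_contra hno
      have hfix : ∀ u : V, f u = u → u = 0 := fun u hu => by
        by_contra hu0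
        exact hno ⟨u, hu0, hu⟩
      have hlt : Nat.card W < Nat.card U := by
        have h1 : W < U := lt_of_le_of_ne le_sup_left fun h =>
          hv (by rw [h]; exact Submodule.mem_sup_right (Submodule.mem_span_singleton_self v))
        exact Set.Finite.card_lt_card (Set.toFinite (U : Set V)) (SetLike.coe_ssubset_coe.2 h1)
      refine absurd (Nat.card_le_card_of_injective
        (fun u : U => (⟨f u - u, hmap u u.2⟩ : W)) ?_) (not_le.2 hlt)
      intro a b hab
      simp only [Subtype.mk.injEq] at hab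
      refine Subtype.ext (sub_eq_zero.1 (hfix _ ?_))
      rw [map_sub, sub_eq_sub_iff_sub_eq_sub]
      exact hab
    have hle : Nat.card (↥H ⧸ R) ≤ Nat.card {x : V ⧸ W // x ≠ 0} :=
      Nat.card_le_card_of_injective _ hinj
    rw [← Subgroup.index_eq_card] at hle
    have : Fintype (V ⧸ W) := Fintype.ofFinite _
    rwa [Nat.card_eq_fintype_card, Fintype.card_subtype_compl, Fintype.card_subtype_eq,
      ← Nat.card_eq_fintype_card] at hle
  refine ⟨?_, ?_⟩
  · have h := hrel ⊥ (fun h _ w hw => by rw [(Submodule.mem_bot F).1 hw, map_zero]; exact Submodule.zero_mem _)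
      bot_ne_top
    rwa [Nat.card_congr (Submodule.quotEquivOfEqBot (⊥ : Submodule F V) rfl).toEquiv, hcardV] at h
  · rintro ⟨W, hWb, hWt, hW⟩
    have : Finite (V ⧸ W) := Finite.of_surjective W.mkQ W.mkQ_surjective
    have h1 := hrel W hW hWt
    obtain ⟨v, hv, hv0⟩ := (Submodule.ne_bot_iff W).1 hWb
    have h2 : R.index ≤ Nat.card W - 1 := by
      have hne : ∀ q : ↥H ⧸ R, (⟨(q.out : V ≃ₗ[F] V) v, hW _ q.out.2 v hv⟩ : W) ≠ 0 := by
        intro q h0
        exact hv0 ((q.out : V ≃ₗ[F] V).map_eq_zero_iff.1 (congrArg Subtype.val h0))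
      have hinj : Function.Injective (fun q : ↥H ⧸ R => (⟨_, hne q⟩ : {x : W // x ≠ 0})) := by
        intro q1 q2 he
        have he' : (q1.out : V ≃ₗ[F] V) v = (q2.out : V ≃ₗ[F] V) v :=
          congrArg (fun x : {x : W // x ≠ 0} => ((x : W) : V)) he
        rw [← QuotientGroup.out_eq' q1, ← QuotientGroup.out_eq' q2, QuotientGroup.eq]
        refine Subgroup.subset_closure ⟨v, hv0, ?_⟩
        change (q1.out : V ≃ₗ[F] V).symm ((q2.out : V ≃ₗ[F] V) v) = v
        rw [← he', LinearEquiv.symm_apply_apply]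
      have hle := Nat.card_le_card_of_injective _ hinj
      rw [← Subgroup.index_eq_card] at hle
      have : Fintype W := Fintype.ofFinite _
      rwa [Nat.card_eq_fintype_card, Fintype.card_subtype_compl, Fintype.card_subtype_eq,
        ← Nat.card_eq_fintype_card] at hle
    have hmul : Nat.card (V ⧸ W) * Nat.card W = Fintype.card F ^ Module.finrank F V := by
      rw [← hcardV, Submodule.card_eq_card_quotient_mul_card W]; ring
    have ha : R.index + 1 ≤ Nat.card (V ⧸ W) := by
      have := Nat.card_pos (α := V ⧸ W); omega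
    have hb : R.index + 1 ≤ Nat.card W := by
      have := Nat.card_pos (α := W); omega
    have hsq : (R.index + 1) ^ 2 ≤ Fintype.card F ^ Module.finrank F V := by
      rw [sq, ← hmul]; exact Nat.mul_le_mul ha hb
    rw [le_sub_iff_add_le, ← Real.sqrt_sq (show (0:ℝ) ≤ (R.index : ℝ) + 1 by positivity)]
    exact Real.sqrt_le_sqrt (by exact_mod_cast hsq)

end Cfsg.Agent.S4178
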