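import Cfsg.Statements.S4184
import Mathlib
import Cfsg.Agent.Lib.ClassSize

set_option autoImplicit false
open Cfsg

namespace Cfsg.Agent.S4184

/-- The class size of an element. -/
noncomputable abbrev idx {X : Type*} [Group X] (g : X) : ℕ :=
  (Subgroup.centralizer ({g} : Set X)).index

theorem idx_ne_zero {X : Type*} [Group X] [Finite X] (g : X) : idx g ≠ 0 :=
  Subgroup.index_ne_zero_of_finite

theorem idx_eq_card_div {X : Type*} [Group X] [Finite X] (g : X) (s : ℕ)
    (hs : ¬ s ∣ Nat.card (Subgroup.centralizer ({g} : Set X))) :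
    (idx g).factorization s = (Nat.card X).factorization s := by
  rw [← Subgroup.card_mul_index (Subgroup.centralizer ({g} : Set X)),
    Nat.factorization_mul Nat.card_pos.ne' (idx_ne_zero g), Finsupp.add_apply,
    Nat.factorization_eq_zero_of_not_dvd hs, zero_add]

theorem idx_lt_card {X : Type*} [Group X] [Finite X] (g : X) (hg : g ≠ 1) :
    idx g < Nat.card X := by
  rw [← Subgroup.card_mul_index (Subgroup.centralizer ({g} : Set X))]
  refine lt_mul_left (Nat.pos_of_ne_zero (idx_ne_zero g)) ?_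
  refine (Subgroup.one_lt_card_iff_ne_bot _).2 fun hb => hg ?_
  exact Subgroup.mem_bot.1 (hb ▸ Subgroup.mem_centralizer_singleton_iff.2 rfl)

section
variable {M : Type*} [Group M] [Finite M] {A : ℕ → Prop}
  (hno : ∀ a b : ℕ, A a → ¬ A b → a.Prime → b.Prime → a ∣ Nat.card M → b ∣ Nat.card M →
    ¬ ∃ x : M, orderOf x = a * b)
include hno

theorem dichotomy (x : M) (hx : x ≠ 1) :
    (∀ s : ℕ, s.Prime → A s → (idx x).factorization s = (Nat.card M).factorization s) ∨
    (∀ s : ℕ, s.Prime → ¬ A s → (idx x).factorization s = (Nat.card M).factorization s) := by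
  obtain ⟨c, hc, hcd⟩ := Nat.exists_prime_and_dvd (orderOf_eq_one_iff.not.2 hx)
  obtain ⟨u, hu, huo⟩ := Cfsg.Agent.Element.exists_orderOf_eq_of_dvd (orderOf_pos x).ne' hcd
  have hcM : c ∣ Nat.card M := hcd.trans (orderOf_dvd_natCard x)
  have key : ∀ s : ℕ, s.Prime → ((A c ∧ ¬ A s) ∨ (¬ A c ∧ A s)) →
      ¬ s ∣ Nat.card (Subgroup.centralizer ({x} : Set M)) := by
    intro s hs hAs hd
    have : Fact s.Prime := ⟨hs⟩
    obtain ⟨v, hv⟩ := exists_prime_orderOf_dvd_card' s hd
    have hne : c ≠ s := by rintro rfl; rcases hAs with h | h <;> simp at h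
    have hcomm : Commute u (v : M) := by
      obtain ⟨k, rfl⟩ := hu
      exact (show Commute (v : M) x from Subgroup.mem_centralizer_singleton_iff.1 v.2).symm.zpow_left k
    have ho : orderOf (u * (v : M)) = c * s := by
      rw [hcomm.orderOf_mul_eq_mul_orderOf_of_coprime] <;> rw [huo, Subgroup.orderOf_coe, hv]
      exact (Nat.coprime_primes hc hs).2 hne
    have hsM : s ∣ Nat.card M := hd.trans (Subgroup.card_subgroup_dvd_card _)
    rcases hAs with ⟨h1, h2⟩ | ⟨h1, h2⟩
    · exact hno c s h1 h2 hc hs hcM hsM ⟨_, ho⟩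
    · exact hno s c h2 h1 hs hc hsM hcM ⟨_, ho.trans (mul_comm c s)⟩
  by_cases hAc : A c
  · exact Or.inr fun s hs hAs => idx_eq_card_div x s (key s hs (Or.inl ⟨hAc, hAs⟩))
  · exact Or.inl fun s hs hAs => idx_eq_card_div x s (key s hs (Or.inr ⟨hAc, hAs⟩))

theorem full_at (b : ℕ) (hb : b.Prime) (hAb : ¬ A b) (hbM : b ∣ Nat.card M) :
    ∃ x : M, x ≠ 1 ∧ ∀ s : ℕ, s.Prime → A s →
      (idx x).factorization s = (Nat.card M).factorization s := by
  have : Fact b.Prime := ⟨hb⟩
  obtain ⟨x, hx⟩ := exists_prime_orderOf_dvd_card' b hbM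
  refine ⟨x, fun h => hb.ne_one (by rw [← hx, h, orderOf_one]), fun s hs hAs => ?_⟩
  refine idx_eq_card_div x s fun hd => ?_
  have : Fact s.Prime := ⟨hs⟩
  obtain ⟨v, hv⟩ := exists_prime_orderOf_dvd_card' s hd
  have hne : s ≠ b := fun h => hAb (h ▸ hAs)
  have hcomm : Commute (v : M) x := Subgroup.mem_centralizer_singleton_iff.1 v.2
  refine hno s b hAs hAb hs hb (hd.trans (Subgroup.card_subgroup_dvd_card _)) hbM
    ⟨(v : M) * x, ?_⟩
  rw [hcomm.orderOf_mul_eq_mul_orderOf_of_coprime] <;> rw [hx, Subgroup.orderOf_coe, hv]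
  exact (Nat.coprime_primes hs hb).2 hne

variable {G : Type*} [Group G] [Finite G]
  (hG : ∀ g : G, g ≠ 1 → ∃ x : M, x ≠ 1 ∧ idx x = idx g)
  (hMG : Nat.card M ∣ Nat.card G)
include hG hMG

theorem not_gt (p : ℕ) (hp : p.Prime) (hAp : A p) (hpM : p ∣ Nat.card M)
    (r : ℕ) (hr : r.Prime) (hAr : ¬ A r) (hrM : r ∣ Nat.card M) :
    (Nat.card G).factorization p ≤ (Nat.card M).factorization p := by
  by_contra hlt
  push Not at hlt
  have : Fact p.Prime := ⟨hp⟩
  have : Fact r.Prime := ⟨hr⟩
  have dichG : ∀ g : G, g ≠ 1 →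
      (∀ s : ℕ, s.Prime → A s → (idx g).factorization s = (Nat.card M).factorization s) ∨
      (∀ s : ℕ, s.Prime → ¬ A s → (idx g).factorization s = (Nat.card M).factorization s) := by
    intro g hg
    obtain ⟨x, hx, he⟩ := hG g hg
    rw [← he]
    exact dichotomy hno x hx
  have notboth : ∀ g : G, g ≠ 1 →
      ¬ ∀ s : ℕ, s.Prime → (Nat.card M).factorization s ≤ (idx g).factorization s := by
    intro g hg hall
    obtain ⟨x, hx, he⟩ := hG g hg
    rw [← he] at hall
    have hd : Nat.card M ∣ idx x := (Nat.factorization_le_iff_dvd Nat.card_pos.ne' (idx_ne_zero x)).1 (by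
      intro s
      by_cases hs : s.Prime
      · exact hall s hs
      · simp [Nat.factorization_eq_zero_of_not_prime _ hs])
    exact absurd (Nat.le_of_dvd (Nat.pos_of_ne_zero (idx_ne_zero x)) hd) (not_le.2 (idx_lt_card x hx))
  have hfp : 0 < (Nat.card M).factorization p := hp.factorization_pos_of_dvd Nat.card_pos.ne' hpM
  have hfr : 0 < (Nat.card M).factorization r := hr.factorization_pos_of_dvd Nat.card_pos.ne' hrM
  have hcentral : ∀ (q : ℕ) [Fact q.Prime] (P : Sylow q G), q ∣ Nat.card G →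
      ∃ z : G, z ∈ (P : Subgroup G) ∧ z ≠ 1 ∧ (P : Subgroup G) ≤ Subgroup.centralizer {z} ∧
        (idx z).factorization q = 0 := by
    intro q _ P hq
    have : Nontrivial (P : Subgroup G) := (Subgroup.nontrivial_iff_ne_bot _).2 (P.ne_bot_of_dvd_card hq)
    have := P.isPGroup'.center_nontrivial
    obtain ⟨⟨z, hz⟩, hz1⟩ := exists_ne (1 : Subgroup.center (P : Subgroup G))
    refine ⟨(z : G), z.2, fun h => hz1 (Subtype.ext (Subtype.ext h)), ?_, ?_⟩
    · intro y hy
      exact Subgroup.mem_centralizer_singleton_iff.2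
        (congrArg Subtype.val (Subgroup.mem_center_iff.1 hz ⟨y, hy⟩))
    · refine Nat.factorization_eq_zero_of_not_dvd fun hd => P.not_dvd_index (hd.trans ?_)
      refine Subgroup.index_dvd_of_le fun y hy => ?_
      exact Subgroup.mem_centralizer_singleton_iff.2
        (congrArg Subtype.val (Subgroup.mem_center_iff.1 hz ⟨y, hy⟩))
  obtain ⟨R⟩ := (inferInstance : Nonempty (Sylow r G))
  obtain ⟨w, hwR, hw1, -, hwr⟩ := hcentral r R (hrM.trans hMG)
  obtain ⟨kw, hkw⟩ := Cfsg.Agent.Element.orderOf_eq_pow_of_mem_isPGroup R.isPGroup' hwR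
  have hwA : ∀ s : ℕ, s.Prime → A s → (idx w).factorization s = (Nat.card M).factorization s :=
    (dichG w hw1).resolve_right fun h => by have := h r hr hAr; omega
  have hCfac : ∀ g : G, (idx g).factorization p = (Nat.card M).factorization p →
      (Nat.card (Subgroup.centralizer ({g} : Set G))).factorization p =
        (Nat.card G).factorization p - (Nat.card M).factorization p := by
    intro g hg
    conv_rhs => rw [← Subgroup.card_mul_index (Subgroup.centralizer ({g} : Set G)),
      Nat.factorization_mul Nat.card_pos.ne' (idx_ne_zero g), Finsupp.add_apply]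
    rw [hg]
    omega
  obtain ⟨U0⟩ := (inferInstance : Nonempty (Sylow p (Subgroup.centralizer ({w} : Set G))))
  set U : Subgroup G := (U0 : Subgroup (Subgroup.centralizer ({w} : Set G))).map
    (Subgroup.centralizer ({w} : Set G)).subtype with hU
  have hUp : IsPGroup p U := U0.isPGroup'.map _
  have hUC : U ≤ Subgroup.centralizer {w} := Subgroup.map_subtype_le _
  have hUcard : Nat.card U = p ^ ((Nat.card G).factorization p - (Nat.card M).factorization p) := by
    rw [hU, Nat.card_congr ((Subgroup.equivMapOfInjective _ _ (Subgroup.subtype_injective _)).symm.toEquiv),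
      U0.card_eq_multiplicity, hCfac w (hwA p hp hAp)]
  have hUA : ∀ u ∈ U, u ≠ 1 → (idx u).factorization p = (Nat.card M).factorization p := by
    intro u hu hu1
    rcases dichG u hu1 with h | h
    · exact h p hp hAp
    exfalso
    obtain ⟨ku, hku⟩ := Cfsg.Agent.Element.orderOf_eq_pow_of_mem_isPGroup hUp hu
    have hcomm : Commute w u := (Subgroup.mem_centralizer_singleton_iff.1 (hUC hu)).symm
    have hne : r ≠ p := fun h => hAr (h ▸ hAp)
    have hcop : (orderOf w).Coprime (orderOf u) := by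
      rw [hkw, hku]; exact ((Nat.coprime_primes hr hp).2 hne).pow _ _
    have hC := Cfsg.Agent.Element.centralizer_mul_of_coprime hcomm hcop
    have hwu : w * u ≠ 1 := fun h1 => hw1 (orderOf_eq_one_iff.1 ((Nat.coprime_self _).1
      (by
        have := hcop
        rwa [show u = w⁻¹ from eq_inv_of_mul_eq_one_right h1, orderOf_inv] at this)))
    have d1 : idx w ∣ idx (w * u) := Subgroup.index_dvd_of_le (hC ▸ inf_le_left)
    have d2 : idx u ∣ idx (w * u) := Subgroup.index_dvd_of_le (hC ▸ inf_le_right)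
    refine notboth _ hwu fun s hs => ?_
    by_cases hAs : A s
    · rw [← hwA s hs hAs]
      exact (Nat.factorization_le_iff_dvd (idx_ne_zero _) (idx_ne_zero _)).2 d1 s
    · rw [← h s hs hAs]
      exact (Nat.factorization_le_iff_dvd (idx_ne_zero _) (idx_ne_zero _)).2 d2 s
  have hUne : U ≠ ⊥ := by
    intro hb
    rw [hb, Subgroup.card_bot] at hUcard
    have := (Nat.pow_eq_one.1 hUcard.symm).resolve_left hp.ne_one
    omega
  obtain ⟨P, hUP⟩ := hUp.exists_le_sylow
  obtain ⟨z, hzP, hz1, hPz, hzp⟩ := hcentral p P (hpM.trans hMG)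
  have : Nontrivial U := (Subgroup.nontrivial_iff_ne_bot _).2 hUne
  have := hUp.center_nontrivial
  obtain ⟨⟨u, hu⟩, hu1⟩ := exists_ne (1 : Subgroup.center U)
  have hu1' : (u : G) ≠ 1 := fun h => hu1 (Subtype.ext (Subtype.ext h))
  have hUu : U ≤ Subgroup.centralizer {(u : G)} := fun y hy =>
    Subgroup.mem_centralizer_singleton_iff.2
      (congrArg Subtype.val (Subgroup.mem_center_iff.1 hu ⟨y, hy⟩))
  have hzu : z ∈ Subgroup.centralizer {(u : G)} :=
    Subgroup.mem_centralizer_singleton_iff.2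
      (Subgroup.mem_centralizer_singleton_iff.1 (hPz (hUP u.2))).symm
  set V : Subgroup G := (P : Subgroup G) ⊓ Subgroup.centralizer {(u : G)} with hV
  have hUV : U ≤ V := le_inf hUP hUu
  have hVp : IsPGroup p V := P.isPGroup'.to_le inf_le_left
  have hVle : Nat.card V ≤ Nat.card U := by
    obtain ⟨k, hk⟩ := IsPGroup.iff_card.1 hVp
    have hd := Subgroup.card_dvd_of_le (inf_le_right : V ≤ Subgroup.centralizer {(u : G)})
    rw [hk, hp.pow_dvd_iff_le_factorization Nat.card_pos.ne', hCfac _ (hUA _ u.2 hu1')] at hd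
    rw [hk, hUcard]
    exact Nat.pow_le_pow_right hp.pos hd
  have hVU : U = V := Subgroup.eq_of_le_of_card_ge hUV hVle
  have hzU : z ∈ U := by rw [hVU]; exact ⟨hzP, hzu⟩
  have := hUA z hzU hz1
  omega

end

theorem exists_not_conj_mem {G : Type*} [Group G] [Finite G] (H : Subgroup G) (hH : H ≠ ⊤) :
    ∃ g : G, ∀ x : G, x⁻¹ * g * x ∉ H := by
  classical
  by_contra hc
  push Not at hc
  have : Fintype G := Fintype.ofFinite G
  have : Fintype (G ⧸ H) := Fintype.ofFinite _
  have hb := MulAction.sum_card_fixedBy_eq_card_orbits_mul_card_group G (G ⧸ H)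
  have hone : Fintype.card (MulAction.orbitRel.Quotient G (G ⧸ H)) = 1 := by
    refine Fintype.card_eq_one_iff.2 ⟨Quotient.mk'' ((1 : G) : G ⧸ H), fun q => ?_⟩
    induction q using Quotient.inductionOn' with
    | h a => exact Quotient.sound' (MulAction.exists_smul_eq G _ _)
  rw [hone, one_mul] at hb
  have hpos : ∀ g : G, 1 ≤ Fintype.card (MulAction.fixedBy (G ⧸ H) g) := by
    intro g
    obtain ⟨x, hx⟩ := hc g
    refine Fintype.card_pos_iff.2 ⟨⟨((x : G) : G ⧸ H), ?_⟩⟩
    change ((g * x : G) : G ⧸ H) = (x : G ⧸ H)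
    rw [QuotientGroup.eq]
    simpa [mul_assoc] using H.inv_mem hx
  have hbig : 1 < Fintype.card (MulAction.fixedBy (G ⧸ H) (1 : G)) := by
    rw [Fintype.card_congr ((Equiv.setCongr (show MulAction.fixedBy (G ⧸ H) (1 : G) = Set.univ by
      ext; simp)).trans (Equiv.Set.univ _)), ← Nat.card_eq_fintype_card]
    exact Subgroup.one_lt_index_of_ne_top hH
  have := Finset.sum_lt_sum (fun g _ => hpos g) ⟨(1 : G), Finset.mem_univ _, hbig⟩
  rw [hb, Finset.sum_const, Finset.card_univ, smul_eq_mul, mul_one] at this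
  exact lt_irrefl _ this

theorem center_ne_bot_of_forall_not_dvd {G : Type*} [Group G] [Finite G] (p : ℕ) [Fact p.Prime]
    (hp : p ∣ Nat.card G) (h : ∀ g : G, ¬ p ∣ idx g) : Subgroup.center G ≠ ⊥ := by
  obtain ⟨P⟩ := (inferInstance : Nonempty (Sylow p G))
  by_cases hC : Subgroup.centralizer ((P : Subgroup G) : Set G) = ⊤
  · intro hb
    apply P.ne_bot_of_dvd_card hp
    rw [eq_bot_iff, ← hb]
    exact fun y hy => Subgroup.mem_center_iff.2 fun g =>
      (Subgroup.mem_centralizer_iff.1 (hC.symm ▸ Subgroup.mem_top g) y hy).symm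
  obtain ⟨g, hg⟩ := exists_not_conj_mem _ hC
  exfalso
  obtain ⟨Q, hQ⟩ := (Cfsg.Agent.ClassSize.coprime_index_centralizer_iff (p := p) g).1
    (((Fact.out : p.Prime).coprime_iff_not_dvd.2 (h g)).symm)
  obtain ⟨x, rfl⟩ := MulAction.exists_smul_eq G P Q
  apply hg x
  refine Subgroup.mem_centralizer_iff.2 fun y hy => ?_
  have hm : x * y * x⁻¹ ∈ ((x • P : Sylow p G) : Subgroup G) := by
    rw [Sylow.coe_subgroup_smul]
    exact ⟨y, hy, rfl⟩
  have := Subgroup.mem_centralizer_singleton_iff.1 (hQ hm)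
  calc y * (x⁻¹ * g * x) = x⁻¹ * (x * y * x⁻¹ * g) * x := by group
    _ = x⁻¹ * (g * (x * y * x⁻¹)) * x := by rw [this]
    _ = x⁻¹ * g * x * y := by group

/-- Let G and M be finite groups with trivial centres and the same set of conjugacy class sizes, and suppose the prime graph of M is disconnected: the prime divisors of #M split into two non-empty parts such that M has no element of order pq with p in one part and q in the other. Then #G = #M. -/
theorem result {G M : Type*}
    [Group G] [Finite G] [Group M] [Finite M] (hZG : Subgroup.center G = ⊥) (hZM : Subgroup.center M = ⊥)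
    (h : Set.range (fun g : G => (Subgroup.centralizer ({g} : Set G)).index) = Set.range (fun g : M => (Subgroup.centralizer ({g} : Set M)).index))
    (hdisc : ∃ A : Set ℕ, (∃ a ∈ A, a.Prime ∧ a ∣ Nat.card M) ∧ (∃ b ∉ A, b.Prime ∧ b ∣ Nat.card M) ∧
      ∀ a ∈ A, ∀ b ∉ A, a.Prime → b.Prime → a ∣ Nat.card M → b ∣ Nat.card M → ¬ ∃ x : M, orderOf x = a * b) :
    Nat.card G = Nat.card M := by
  classical
  obtain ⟨A, ⟨a, haA, ha, haM⟩, ⟨b, hbA, hb, hbM⟩, hno0⟩ := hdisc
  have hno : ∀ a b : ℕ, a ∈ A → ¬ b ∈ A → a.Prime → b.Prime → a ∣ Nat.card M → b ∣ Nat.card M →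
      ¬ ∃ x : M, orderOf x = a * b := fun a b ha hb => hno0 a ha b hb
  have hno' : ∀ a b : ℕ, ¬ a ∈ A → ¬ ¬ b ∈ A → a.Prime → b.Prime → a ∣ Nat.card M → b ∣ Nat.card M →
      ¬ ∃ x : M, orderOf x = a * b := fun a b h1 h2 hap hbp had hbd hx =>
    hno0 b (not_not.1 h2) a h1 hbp hap hbd had (by obtain ⟨x, hx⟩ := hx; exact ⟨x, hx.trans (mul_comm a b)⟩)
  have hG : ∀ g : G, g ≠ 1 → ∃ x : M, x ≠ 1 ∧ idx x = idx g := by
    intro g hg
    obtain ⟨x, hx⟩ : idx g ∈ Set.range (fun g : M => (Subgroup.centralizer ({g} : Set M)).index) :=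
      h ▸ Set.mem_range_self g
    refine ⟨x, fun hx1 => hg ?_, hx⟩
    have hc : g ∈ Subgroup.center G := by
      refine (Cfsg.Agent.ClassSize.index_centralizer_eq_one_iff g).1 (hx.symm.trans ?_)
      exact (Cfsg.Agent.ClassSize.index_centralizer_eq_one_iff x).2 (hx1 ▸ one_mem _)
    rw [hZG] at hc
    exact Subgroup.mem_bot.1 hc
  have hMG : Nat.card M ∣ Nat.card G := by
    refine (Nat.factorization_le_iff_dvd Nat.card_pos.ne' Nat.card_pos.ne').1 fun s => ?_
    by_cases hs : s.Prime
    · obtain ⟨x, -, hx⟩ : ∃ x : M, x ≠ 1 ∧ (idx x).factorization s = (Nat.card M).factorization s := by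
        by_cases hsA : s ∈ A
        · obtain ⟨x, h1, h2⟩ := full_at (A := fun n => n ∈ A) hno b hb hbA hbM
          exact ⟨x, h1, h2 s hs hsA⟩
        · obtain ⟨x, h1, h2⟩ := full_at (A := fun n => ¬ n ∈ A) hno' a ha (not_not.2 haA) haM
          exact ⟨x, h1, h2 s hs hsA⟩
      obtain ⟨g, hg⟩ : idx x ∈ Set.range (fun g : G => (Subgroup.centralizer ({g} : Set G)).index) :=
        h ▸ Set.mem_range_self x
      rw [← hx, ← hg]
      exact (Nat.factorization_le_iff_dvd Subgroup.index_ne_zero_of_finite Nat.card_pos.ne').2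
        (Subgroup.index_dvd_card _) s
    · simp [Nat.factorization_eq_zero_of_not_prime _ hs]
  refine Nat.dvd_antisymm ((Nat.factorization_le_iff_dvd Nat.card_pos.ne' Nat.card_pos.ne').1 fun p => ?_) hMG
  by_cases hp : p.Prime
  · by_cases hpG : p ∣ Nat.card G
    · by_cases hpM : p ∣ Nat.card M
      · by_cases hpA : p ∈ A
        · exact not_gt (A := fun n => n ∈ A) hno hG hMG p hp hpA hpM b hb hbA hbM
        · exact not_gt (A := fun n => ¬ n ∈ A) hno' hG hMG p hp hpA hpM a ha (not_not.2 haA) haM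
      · exfalso
        have : Fact p.Prime := ⟨hp⟩
        refine center_ne_bot_of_forall_not_dvd p hpG (fun g hd => hpM ?_) hZG
        by_cases hg : g = 1
        · subst hg
          rw [idx, (Cfsg.Agent.ClassSize.index_centralizer_eq_one_iff (1 : G)).2 (one_mem _)] at hd
          exact absurd hd hp.not_dvd_one
        obtain ⟨x, -, hx⟩ := hG g hg
        exact (hx ▸ hd).trans (Subgroup.index_dvd_card _)
    · simp [Nat.factorization_eq_zero_of_not_dvd hpG]
  · simp [Nat.factorization_eq_zero_of_not_prime _ hp]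

end Cfsg.Agent.S4184
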