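import Cfsg.Statements.S4186

set_option autoImplicit false
open Cfsg

namespace Cfsg.Agent.S4186

/-- Let T and X be subgroups of a group with T a finite 2-group normalizing X but not centralizing it. Then some element of T inverts some non-identity element of X under conjugation. -/
theorem result {G : Type*} [Group G] (T X : Subgroup G) [Finite ↥T] (hT : IsPGroup 2 ↥T) (hTN : T ≤ Subgroup.normalizer (X : Set G)) (hTC : ¬ T ≤ Subgroup.centralizer (X : Set G)) : ∃ t ∈ T, ∃ x ∈ X, x ≠ 1 ∧ t * x * t⁻¹ = x⁻¹ := by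
  classical
  obtain ⟨t, htT, htC⟩ := SetLike.not_le_iff_exists.1 hTC
  obtain ⟨k, hk⟩ := hT ⟨t, htT⟩
  have hk' : t ^ 2 ^ k = 1 := by simpa using congrArg Subtype.val hk
  have hex : ∃ j, t ^ 2 ^ j ∈ Subgroup.centralizer (X : Set G) := ⟨k, by rw [hk']; exact one_mem _⟩
  have hmem := Nat.find_spec hex
  have hpos : Nat.find hex ≠ 0 := by intro h0; rw [h0] at hmem; simp at hmem; exact htC hmem
  obtain ⟨j, hj⟩ := Nat.exists_eq_succ_of_ne_zero hpos
  have hsC : t ^ 2 ^ j ∉ Subgroup.centralizer (X : Set G) := Nat.find_min hex (by omega)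
  set s := t ^ 2 ^ j with hs
  have hs2 : s * s ∈ Subgroup.centralizer (X : Set G) := by
    rw [hj, pow_succ, pow_mul, ← hs, sq] at hmem
    exact hmem
  have hsT : s ∈ T := pow_mem htT _
  have hne : ∃ x ∈ X, s * x * s⁻¹ ≠ x := by
    by_contra hall
    push Not at hall
    exact hsC (Subgroup.mem_centralizer_iff.2 fun x hx => (mul_inv_eq_iff_eq_mul.1 (hall x hx)).symm)
  obtain ⟨x, hx, hxne⟩ := hne
  have hsx : s * x * s⁻¹ ∈ X := (Subgroup.mem_normalizer_iff.1 (hTN hsT) x).1 hx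
  have hcomm : s * (s * x * s⁻¹) * s⁻¹ = x := by
    have h2 := Subgroup.mem_centralizer_iff.1 hs2 x hx
    calc s * (s * x * s⁻¹) * s⁻¹ = (s * s * x) * (s * s)⁻¹ := by group
      _ = x := by rw [← h2]; group
  refine ⟨s, hsT, x⁻¹ * (s * x * s⁻¹), mul_mem (inv_mem hx) hsx, ?_, ?_⟩
  · intro h; exact hxne ((inv_mul_eq_one.1 h).symm)
  · calc s * (x⁻¹ * (s * x * s⁻¹)) * s⁻¹ = (s * x * s⁻¹)⁻¹ * (s * (s * x * s⁻¹) * s⁻¹) := by group
      _ = (x⁻¹ * (s * x * s⁻¹))⁻¹ := by rw [hcomm]; group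

end Cfsg.Agent.S4186
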