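import Cfsg.Statements.S4188
import Mathlib
import Cfsg.Agent.PGroup.Frattini
import Cfsg.Agent.PGroup.Basic
import Cfsg.Agent.TwoGroups.UniqueInvolution

set_option autoImplicit false
open Cfsg
open scoped commutatorElement

namespace Cfsg.Agent.S4188

section
variable {P V : Type*} [Group P] [Finite P] [CommGroup V] [Finite V]

/-- The image of a subgroup of `V` under the action of `p`. -/
def mv (ρ : P →* MulAut V) (p : P) (W : Subgroup V) : Subgroup V := W.map (ρ p).toMonoidHom

variable (ρ : P →* MulAut V)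

theorem mem_mv {p : P} {W : Subgroup V} {v : V} : v ∈ mv ρ p W ↔ ∃ w ∈ W, ρ p w = v := Iff.rfl

theorem mv_mul (a b : P) (W : Subgroup V) : mv ρ (a * b) W = mv ρ a (mv ρ b W) := by
  rw [mv, mv, mv, Subgroup.map_map, map_mul]; rfl

theorem mv_one (W : Subgroup V) : mv ρ 1 W = W := by
  ext v; simp [mem_mv]

theorem mv_eq_of_le {p : P} {W : Subgroup V} (h : mv ρ p W ≤ W) : mv ρ p W = W :=
  Subgroup.eq_of_le_of_card_ge h (le_of_eq (Subgroup.card_map_of_injective (ρ p).injective).symm)

/-- `W` is invariant under the subgroup `S`. -/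
def Inv (S : Subgroup P) (W : Subgroup V) : Prop := ∀ p ∈ S, ∀ w ∈ W, ρ p w ∈ W

theorem mv_eq_of_inv {S : Subgroup P} {W : Subgroup V} (h : Inv ρ S W) {p : P} (hp : p ∈ S) :
    mv ρ p W = W :=
  mv_eq_of_le ρ (by rintro _ ⟨w, hw, rfl⟩; exact h p hp w hw)

/-- The elements of `P` which fix `W` pointwise. -/
def fixer (W : Subgroup V) : Subgroup P where
  carrier := {p | ∀ w ∈ W, ρ p w = w}
  mul_mem' {a b} ha hb w hw := by rw [map_mul, MulAut.mul_apply, hb w hw, ha w hw]
  one_mem' w hw := by rw [map_one, MulAut.one_apply]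
  inv_mem' {a} ha w hw := by
    conv_lhs => rw [← ha w hw]
    rw [← MulAut.mul_apply, ← map_mul, inv_mul_cancel, map_one, MulAut.one_apply]

theorem mem_fixer {W : Subgroup V} {p : P} : p ∈ fixer ρ W ↔ ∀ w ∈ W, ρ p w = w := Iff.rfl

/-- The restriction to an invariant subgroup. -/
def res (S : Subgroup P) (W : Subgroup V) (h : Inv ρ S W) : S →* MulAut W where
  toFun p :=
    { toFun := fun w => ⟨ρ p w, h p p.2 w w.2⟩
      invFun := fun w => ⟨ρ (p : P)⁻¹ w, h _ (inv_mem p.2) w w.2⟩
      left_inv := fun w => Subtype.ext (by simp [map_inv])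
      right_inv := fun w => Subtype.ext (by simp [map_inv])
      map_mul' := fun a b => Subtype.ext (map_mul _ _ _) }
  map_one' := by ext w; simp
  map_mul' a b := by ext w; simp

theorem coe_res_apply (S : Subgroup P) (W : Subgroup V) (h : Inv ρ S W) (p : S) (w : W) :
    (res ρ S W h p w : V) = ρ p w := rfl

/-- The action on the quotient by an invariant subgroup. -/
def quo (W : Subgroup V) (h : Inv ρ ⊤ W) : P →* MulAut (V ⧸ W) where
  toFun p := QuotientGroup.congr W W (ρ p) (mv_eq_of_inv ρ h (Subgroup.mem_top p))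
  map_one' := by
    ext x; induction x using QuotientGroup.induction_on; simp [QuotientGroup.congr_mk]
  map_mul' a b := by
    ext x; induction x using QuotientGroup.induction_on; simp [QuotientGroup.congr_mk]; rfl

theorem quo_mk (W : Subgroup V) (h : Inv ρ ⊤ W) (p : P) (v : V) :
    quo ρ W h p (v : V ⧸ W) = ((ρ p v : V) : V ⧸ W) := rfl

variable (hodd : Odd (Nat.card V))
include hodd

theorem eq_one_of_pow_two_pow {v : V} {k : ℕ} (h : v ^ 2 ^ k = 1) : v = 1 := by
  rw [← orderOf_eq_one_iff]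
  exact Nat.eq_one_of_dvd_coprimes
    ((Nat.coprime_two_left.2 hodd).pow_left k) (orderOf_dvd_of_pow_eq_one h) (orderOf_dvd_natCard v)

variable (hP : IsPGroup 2 P) (hinj : Function.Injective ρ)
include hP hinj

theorem eq_one_of_series {W : Subgroup V} {x : P} (h1 : ∀ w ∈ W, ρ x w = w)
    (h2 : ∀ v, v⁻¹ * ρ x v ∈ W) : x = 1 := by
  apply hinj
  ext v
  rw [map_one, MulAut.one_apply]
  have hn : ∀ n : ℕ, ρ (x ^ n) v = v * (v⁻¹ * ρ x v) ^ n := by
    intro n
    induction n with
    | zero => simp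
    | succ n ih =>
      rw [pow_succ', map_mul, MulAut.mul_apply, ih, map_mul, map_pow, h1 _ (h2 v),
        pow_succ' (v⁻¹ * ρ x v), ← mul_assoc v, mul_inv_cancel_left]
  obtain ⟨k, hk⟩ := hP x
  have h3 := hn (2 ^ k)
  rw [hk, map_one, MulAut.one_apply, left_eq_mul] at h3
  exact (inv_mul_eq_one.1 (eq_one_of_pow_two_pow hodd h3)).symm

/-- Dichotomy: either a normal subgroup of index two moves an invariant proper subgroup, or there
is a small cyclic self-centralising normal subgroup. -/
theorem dichotomy (hV : 1 < Nat.card V) (hirr : ∀ W : Subgroup V, Inv ρ ⊤ W → W = ⊥ ∨ W = ⊤) :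
    (∃ (H : Subgroup P) (t : P) (W : Subgroup V), H.Normal ∧ H.index = 2 ∧ t ∉ H ∧ Inv ρ H W ∧
      W ≠ ⊥ ∧ W ≠ ⊤) ∨
    (∃ A : Subgroup P, A.Normal ∧ IsCyclic A ∧ Nat.card A < Nat.card V ∧
      A.index ≤ (Nat.card A).totient) := by
  classical
  have : Fact (Nat.Prime 2) := ⟨Nat.prime_two⟩
  have : Nontrivial V := Finite.one_lt_card_iff_nontrivial.1 hV
  by_cases hns : ∃ A : Subgroup P, A.Normal ∧ IsMulCommutative A ∧
      ∃ a ∈ A, a ≠ 1 ∧ ∃ v : V, v ≠ 1 ∧ ρ a v = v
  · left
    obtain ⟨A, hAn, hAc, a, ha, ha1, v, hv1, hav⟩ := hns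
    let F : Subgroup V := MonoidHom.eqLocus (ρ a).toMonoidHom (MonoidHom.id V)
    have hFA : Inv ρ A F := by
      intro b hb w hw
      change ρ a (ρ b w) = ρ b w
      change ρ a w = w at hw
      have hc : a * b = b * a := congrArg Subtype.val (hAc.is_comm.comm ⟨a, ha⟩ ⟨b, hb⟩)
      rw [← MulAut.mul_apply, ← map_mul, hc, map_mul, MulAut.mul_apply, hw]
    have hFne : F ≠ ⊥ := fun h => hv1 (Subgroup.mem_bot.1 (h ▸ (show v ∈ F from hav)))
    obtain ⟨W, -, hWmin⟩ := (Set.toFinite {U : Subgroup V | Inv ρ A U ∧ U ≠ ⊥ ∧ U ≤ F}).exists_le_minimal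
      (a := F) ⟨hFA, hFne, le_rfl⟩
    obtain ⟨hWA, hWne, hWF⟩ := hWmin.1
    have hWsimple : ∀ U : Subgroup V, U ≤ W → Inv ρ A U → U ≠ ⊥ → U = W := fun U hU hUA hUne =>
      le_antisymm hU (hWmin.2 ⟨hUA, hUne, hU.trans hWF⟩ hU)
    let K : Subgroup P := A ⊓ fixer ρ W
    have haK : a ∈ K := ⟨ha, fun w hw => hWF hw⟩
    have hKn : Subgroup.normalizer (K : Set P) ≠ ⊤ := by
      intro htop
      have hKN : K.Normal := Subgroup.normalizer_eq_top_iff.1 htop
      let E : Subgroup V :=
        { carrier := {v | ∀ k ∈ K, ρ k v = v}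
          mul_mem' := fun {x y} hx hy k hk => by rw [map_mul, hx k hk, hy k hk]
          one_mem' := fun k _ => map_one _
          inv_mem' := fun {x} hx k hk => by rw [map_inv, hx k hk] }
      have hE : Inv ρ ⊤ E := by
        intro p _ w hw k hk
        have := hw (p⁻¹ * k * p) (by simpa using hKN.conj_mem k hk p⁻¹)
        calc ρ k (ρ p w) = ρ p (ρ (p⁻¹ * k * p) w) := by
              rw [← MulAut.mul_apply, ← MulAut.mul_apply, ← map_mul, ← map_mul]
              simp [mul_assoc]
          _ = ρ p w := by rw [this]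
      rcases hirr E hE with h | h
      · exact hWne (eq_bot_iff.2 fun w hw => h ▸ (fun k hk => hk.2 w hw : w ∈ E))
      · apply ha1
        apply hinj
        ext u
        have : u ∈ E := h ▸ Subgroup.mem_top u
        rw [map_one, MulAut.one_apply]
        exact this a haK
    obtain ⟨H, hH, hNH⟩ := (eq_top_or_exists_le_coatom (Subgroup.normalizer (K : Set P))).resolve_left hKn
    have hHn := Cfsg.Agent.PGroup.normal_of_isCoatom hP hH
    have hH2 := Cfsg.Agent.PGroup.index_of_isCoatom hP hH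
    obtain ⟨t, ht⟩ : ∃ t, t ∉ H := by
      by_contra hcon
      push Not at hcon
      exact hH.1 (eq_top_iff.2 fun x _ => hcon x)
    let U : Subgroup V := ⨆ h : H, mv ρ (h : P) W
    refine ⟨H, t, U, hHn, hH2, ht, ?_, ?_, ?_⟩
    · intro p hp w hw
      have hle : mv ρ p U ≤ U := by
        rw [mv, Subgroup.map_iSup]
        refine iSup_le fun h => ?_
        change mv ρ p (mv ρ h W) ≤ U
        rw [← mv_mul]
        exact le_iSup (fun h : H => mv ρ (h : P) W) ⟨p * h, H.mul_mem hp h.2⟩
      exact hle ⟨w, hw, rfl⟩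
    · intro hU
      refine hWne (eq_bot_iff.2 ?_)
      rw [← hU]
      exact le_trans (mv_one ρ W).ge (le_iSup (fun h : H => mv ρ (h : P) W) 1)
    · intro hU
      -- averaging over the conjugate of `K` by `t`
      let K' : Subgroup P := K.map (MulAut.conj t).toMonoidHom
      have : Fintype K' := Fintype.ofFinite _
      have hK'A : ∀ k ∈ K', k ∈ A := by
        rintro _ ⟨k, hk, rfl⟩
        exact hAn.conj_mem k hk.1 t
      let e : V →* V := ∏ k : K', (ρ k).toMonoidHom
      have he : ∀ v, e v = ∏ k : K', ρ k v := fun v => by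
        simp [e, MonoidHom.finset_prod_apply]
      have hker : U ≤ e.ker := by
        refine iSup_le fun h => ?_
        intro u hu
        rw [MonoidHom.mem_ker]
        by_contra hne
        have hhA : Inv ρ A (mv ρ (h : P) W) := by
          rintro b hb _ ⟨w, hw, rfl⟩
          refine ⟨ρ ((h : P)⁻¹ * b * h) w, hWA _ (by simpa using hAn.conj_mem b hb (h : P)⁻¹) w hw, ?_⟩
          change ρ h (ρ ((h : P)⁻¹ * b * h) w) = ρ b (ρ h w)
          rw [← MulAut.mul_apply, ← MulAut.mul_apply, ← map_mul, ← map_mul]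
          simp [mul_assoc]
        have hmem : e u ∈ mv ρ (h : P) W := by
          rw [he]
          exact Subgroup.prod_mem _ fun k _ => hhA k (hK'A k k.2) u hu
        have hfix : ∀ k ∈ K', ρ k (e u) = e u := by
          intro k hk
          rw [he, map_prod]
          refine Fintype.prod_equiv (Equiv.mulLeft (⟨k, hk⟩ : K')) _ _ fun l => ?_
          simp
        obtain ⟨w, hw, hwe⟩ := hmem
        change ρ h w = e u at hwe
        let W' : Subgroup V :=
          { carrier := {v | v ∈ W ∧ ∀ k ∈ K', ρ k (ρ (h : P) v) = ρ (h : P) v}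
            mul_mem' := fun {x y} hx hy => ⟨W.mul_mem hx.1 hy.1, fun k hk => by
              rw [map_mul, map_mul, hx.2 k hk, hy.2 k hk]⟩
            one_mem' := ⟨W.one_mem, fun k _ => by simp⟩
            inv_mem' := fun {x} hx => ⟨W.inv_mem hx.1, fun k hk => by
              rw [map_inv, map_inv, hx.2 k hk]⟩ }
        have hW' : W' = W := by
          refine hWsimple W' (fun x hx => hx.1) ?_ ?_
          · intro b hb x hx
            refine ⟨hWA b hb x hx.1, fun k hk => ?_⟩
            have hb' : (h : P) * b * (h : P)⁻¹ ∈ A := hAn.conj_mem b hb h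
            have hc : k * ((h : P) * b * (h : P)⁻¹) = ((h : P) * b * (h : P)⁻¹) * k :=
              congrArg Subtype.val (hAc.is_comm.comm ⟨k, hK'A k hk⟩ ⟨_, hb'⟩)
            have e1 : ρ (h : P) (ρ b x) = ρ ((h : P) * b * (h : P)⁻¹) (ρ h x) := by
              rw [← MulAut.mul_apply, ← MulAut.mul_apply, ← map_mul, ← map_mul]
              simp [mul_assoc]
            rw [e1, ← MulAut.mul_apply, ← map_mul, hc, map_mul, MulAut.mul_apply, hx.2 k hk]
          · intro hb
            have : w ∈ W' := ⟨hw, by rw [hwe]; exact hfix⟩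
            rw [hb, Subgroup.mem_bot] at this
            rw [this, map_one] at hwe
            exact hne hwe.symm
        -- hence `h⁻¹ t` normalises `K`
        have hsub : K.map (MulAut.conj ((h : P)⁻¹ * t)).toMonoidHom ≤ K := by
          rintro _ ⟨k, hk, rfl⟩
          refine ⟨hAn.conj_mem k hk.1 _, fun x hx => ?_⟩
          have := (hW'.ge hx).2 (MulAut.conj t k) ⟨k, hk, rfl⟩
          apply (ρ (h : P)).injective
          refine Eq.trans ?_ this
          change ρ h (ρ ((h : P)⁻¹ * t * k * ((h : P)⁻¹ * t)⁻¹) x) = ρ (t * k * t⁻¹) (ρ h x)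
          rw [← MulAut.mul_apply, ← MulAut.mul_apply, ← map_mul, ← map_mul]
          simp [mul_assoc]
        have heq := Subgroup.eq_of_le_of_card_ge hsub
          (le_of_eq (Subgroup.card_map_of_injective (MulAut.conj ((h : P)⁻¹ * t)).injective).symm)
        have hn : (h : P)⁻¹ * t ∈ Subgroup.normalizer (K : Set P) :=
          Subgroup.mem_normalizer_iff_map_conj_eq.2 heq
        exact ht (by simpa using H.mul_mem h.2 (hNH hn))
      obtain ⟨w, hw, hw1⟩ := (Subgroup.bot_or_exists_ne_one W).resolve_left hWne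
      have hz : e (ρ t w) = 1 := MonoidHom.mem_ker.1 (hker (hU ▸ Subgroup.mem_top _))
      have hall : ∀ k : K', ρ k (ρ t w) = ρ t w := by
        rintro ⟨_, k, hk, rfl⟩
        change ρ (t * k * t⁻¹) (ρ t w) = ρ t w
        rw [← MulAut.mul_apply, ← map_mul, inv_mul_cancel_right, map_mul, MulAut.mul_apply, hk.2 w hw]
      rw [he, Finset.prod_congr rfl (fun k _ => hall k), Finset.prod_const, Finset.card_univ,
        ← Nat.card_eq_fintype_card] at hz
      obtain ⟨j, hj⟩ := IsPGroup.iff_card.1 (hP.to_subgroup K')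
      rw [hj] at hz
      apply hw1
      apply (ρ t).injective
      rw [map_one]
      exact eq_one_of_pow_two_pow hodd hz
  · right
    push Not at hns
    obtain ⟨A, -, hAmax⟩ := (Set.toFinite {B : Subgroup P | B.Normal ∧ IsMulCommutative B}).exists_le_maximal
      (a := ⊥) ⟨inferInstance, ⟨⟨fun a b => Subsingleton.elim _ _⟩⟩⟩
    obtain ⟨hAn, hAc⟩ := hAmax.1
    have hfree := hns A hAn hAc
    -- cyclic
    have hinv : ∀ x ∈ A, orderOf x = 2 → ∀ u : V, ρ x u = u⁻¹ := by
      intro x hx hx2 u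
      have hx1 : x ≠ 1 := fun h => by rw [h, orderOf_one] at hx2; omega
      have hxx : x * x = 1 := by rw [← sq, ← hx2, pow_orderOf_eq_one]
      by_contra hne
      refine hfree x hx hx1 (u * ρ x u) (fun h => hne (eq_inv_of_mul_eq_one_right h)) ?_
      rw [map_mul, ← MulAut.mul_apply, ← map_mul, hxx, map_one, MulAut.one_apply, mul_comm]
    have hcyc : IsCyclic A := by
      refine (Cfsg.Agent.TwoGroups.cyclic_or_quaternion_of_unique_involution (hP.to_subgroup A)
        (fun x y hx hy => ?_)).resolve_right ?_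
      · rw [← Subgroup.orderOf_coe] at hx hy
        apply Subtype.ext
        apply hinj
        ext u
        rw [hinv x x.2 hx u, hinv y y.2 hy u]
      · rintro ⟨n, hn, -, ⟨iso⟩⟩
        have hc : ∀ x y : QuaternionGroup (2 ^ (n - 1)), x * y = y * x := fun x y => by
          apply iso.symm.injective
          rw [map_mul, map_mul]
          exact hAc.is_comm.comm _ _
        have hcomm := hc (QuaternionGroup.a 1) (QuaternionGroup.xa 0)
        rw [QuaternionGroup.a_mul_xa, QuaternionGroup.xa_mul_a, QuaternionGroup.xa.injEq] at hcomm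
        have h2 : ((2 : ℕ) : ZMod (2 * 2 ^ (n - 1))) = 0 := by
          push_cast
          linear_combination -hcomm
        rw [ZMod.natCast_eq_zero_iff] at h2
        have h4 := Nat.le_of_dvd (by omega) h2
        have : 2 ^ 1 ≤ 2 ^ (n - 1) := Nat.pow_le_pow_right (by omega) (by omega)
        omega
    refine ⟨A, hAn, hcyc, ?_, ?_⟩
    · obtain ⟨u, hu⟩ := exists_ne (1 : V)
      have : Fintype V := Fintype.ofFinite _
      have : Fintype A := Fintype.ofFinite _
      rw [Nat.card_eq_fintype_card, Nat.card_eq_fintype_card]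
      refine Fintype.card_lt_of_injective_of_notMem (fun x : A => ρ x u) ?_ (b := 1) ?_
      · intro x y hxy
        by_contra hne
        refine hfree ((x : P)⁻¹ * y) (A.mul_mem (A.inv_mem x.2) y.2)
          (fun h => hne (Subtype.ext (inv_mul_eq_one.1 h))) u hu ?_
        change ρ x u = ρ y u at hxy
        rw [map_mul, MulAut.mul_apply, ← hxy, ← MulAut.mul_apply, ← map_mul, inv_mul_cancel, map_one,
          MulAut.one_apply]
      · rintro ⟨x, hx⟩
        exact hu ((ρ x).injective (hx.trans (map_one _).symm))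
    · have hcent : Subgroup.centralizer (A : Set P) ≤ A := by
        by_contra hnot
        let M : Subgroup (P ⧸ A) := (Subgroup.centralizer (A : Set P)).map (QuotientGroup.mk' A)
        have hMn : M.Normal := Subgroup.Normal.map inferInstance _ (QuotientGroup.mk'_surjective A)
        have hM : M ≠ ⊥ := by
          rw [Ne, Subgroup.map_eq_bot_iff, QuotientGroup.ker_mk']
          exact hnot
        obtain ⟨y, ⟨⟨x, hxc, rfl⟩, hyc⟩, hy1⟩ :=
          (Subgroup.bot_or_exists_ne_one _).resolve_left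
            (Cfsg.Agent.PGroup.inf_center_ne_bot (hP.to_quotient A) M hM)
        have hxA : x ∉ A := fun h => hy1 ((QuotientGroup.eq_one_iff x).2 h)
        let B : Subgroup P := (Subgroup.zpowers (QuotientGroup.mk' A x)).comap (QuotientGroup.mk' A)
        have hBn : B.Normal := by
          have : (Subgroup.zpowers (QuotientGroup.mk' A x)).Normal := ⟨fun m hm g => by
            have h1 : m ∈ Subgroup.center (P ⧸ A) := (Subgroup.zpowers_le.2 hyc) hm
            rw [Subgroup.mem_center_iff.1 h1 g, mul_inv_cancel_right]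
            exact hm⟩
          exact Subgroup.Normal.comap this _
        have hB : ∀ b ∈ B, ∃ i : ℤ, ∃ a ∈ A, b = x ^ i * a := by
          intro b hb
          obtain ⟨i, hi⟩ := hb
          refine ⟨i, (x ^ i)⁻¹ * b, ?_, by group⟩
          simp only [← map_zpow] at hi
          exact QuotientGroup.eq.1 hi
        have hBc : IsMulCommutative B := ⟨⟨fun b b' => by
          obtain ⟨i, c, hc, hbc⟩ := hB b b.2
          obtain ⟨j, d, hd, hbd⟩ := hB b' b'.2
          apply Subtype.ext
          rw [Subgroup.coe_mul, Subgroup.coe_mul, hbc, hbd]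
          have hcd : Commute c d := congrArg Subtype.val (hAc.is_comm.comm ⟨c, hc⟩ ⟨d, hd⟩)
          have hxa : ∀ a ∈ A, Commute x a := fun a ha =>
            (Subgroup.mem_centralizer_iff.1 hxc a ha).symm
          exact Commute.mul_left ((((Commute.refl x).zpow_zpow i j)).mul_right ((hxa d hd).zpow_left i))
            (((hxa c hc).zpow_left j).symm.mul_right hcd)⟩⟩
        have hAB : A ≤ B := fun a ha => by
          rw [Subgroup.mem_comap, (QuotientGroup.eq_one_iff a).2 ha |> fun h => (show QuotientGroup.mk' A a = 1 from h)]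
          exact one_mem _
        exact hxA (hAmax.2 ⟨hBn, hBc⟩ hAB (Subgroup.mem_zpowers _))
      let c : P →* MulAut A := MulAut.conjNormal
      have hkerc : c.ker ≤ A := by
        intro x hx
        apply hcent
        rw [Subgroup.mem_centralizer_iff]
        intro y hy
        have := congrArg (fun f : MulAut A => ((f ⟨y, hy⟩ : A) : P)) (MonoidHom.mem_ker.1 hx)
        simp only [c, MulAut.conjNormal_apply, MulAut.one_apply] at this
        exact (mul_inv_eq_iff_eq_mul.1 this).symm
      refine le_trans (Nat.le_of_dvd Nat.card_pos ((Subgroup.index_dvd_of_le hkerc).trans ?_))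
        (le_of_eq (IsCyclic.card_mulAut (G := A)))
      rw [Subgroup.index_ker]
      exact Subgroup.card_subgroup_dvd_card _

/-- The data of the imprimitive case. -/
theorem split_data {H : Subgroup P} [H.Normal] {t : P} {W : Subgroup V}
    (hirr : ∀ U : Subgroup V, Inv ρ ⊤ U → U = ⊥ ∨ U = ⊤) (hH : H.index = 2) (ht : t ∉ H)
    (hWH : Inv ρ H W) (hW : W ≠ ⊥) (hW' : W ≠ ⊤) :
    Nat.card V = Nat.card W * Nat.card W ∧ W ⊔ mv ρ t W = ⊤ ∧ Inv ρ H (mv ρ t W) := by
  have hpq : ∀ p : P, mv ρ p W = W ∨ mv ρ p W = mv ρ t W := by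
    intro p
    by_cases hp : p ∈ H
    · exact Or.inl (mv_eq_of_inv ρ hWH hp)
    · refine Or.inr ?_
      have hm : t⁻¹ * p ∈ H := (Subgroup.mul_mem_iff_of_index_two hH).2
        (iff_of_false (fun h => ht (inv_mem_iff.1 h)) hp)
      rw [show p = t * (t⁻¹ * p) by group, mv_mul, mv_eq_of_inv ρ hWH hm]
  have hne : mv ρ t W ≠ W := by
    intro he
    refine (hirr W fun p _ w hw => ?_).elim hW hW'
    rcases hpq p with h | h
    · exact h.le ⟨w, hw, rfl⟩
    · exact (h.trans he).le ⟨w, hw, rfl⟩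
  have hperm : ∀ p : P, (mv ρ p W = W ∧ mv ρ p (mv ρ t W) = mv ρ t W) ∨
      (mv ρ p W = mv ρ t W ∧ mv ρ p (mv ρ t W) = W) := by
    intro p
    have hd : mv ρ p W ≠ mv ρ p (mv ρ t W) := fun h =>
      hne (Subgroup.map_injective (ρ p).injective h).symm
    rcases hpq p with h | h <;> rcases hpq (p * t) with h' | h' <;> rw [mv_mul] at h'
    · exact absurd (h.trans h'.symm) hd
    · exact Or.inl ⟨h, h'⟩
    · exact Or.inr ⟨h, h'⟩
    · exact absurd (h.trans h'.symm) hd
  have hsup : W ⊔ mv ρ t W = ⊤ := by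
    refine (hirr _ fun p _ w hw => ?_).resolve_left fun h => hW (eq_bot_iff.2 (h ▸ le_sup_left))
    have : mv ρ p (W ⊔ mv ρ t W) ≤ W ⊔ mv ρ t W := by
      rw [mv, Subgroup.map_sup]
      change mv ρ p W ⊔ mv ρ p (mv ρ t W) ≤ _
      rcases hperm p with ⟨h, h'⟩ | ⟨h, h'⟩ <;> rw [h, h']
      exact le_of_eq (sup_comm _ _)
    exact this ⟨w, hw, rfl⟩
  have hinf : W ⊓ mv ρ t W = ⊥ := by
    refine (hirr _ fun p _ w hw => ?_).resolve_right fun h => hW' (eq_top_iff.2 (h ▸ inf_le_left))
    rcases hperm p with ⟨h, h'⟩ | ⟨h, h'⟩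
    · exact ⟨h.le ⟨w, hw.1, rfl⟩, h'.le ⟨w, hw.2, rfl⟩⟩
    · exact ⟨h'.le ⟨w, hw.2, rfl⟩, h.le ⟨w, hw.1, rfl⟩⟩
  refine ⟨?_, hsup, fun p hp => ?_⟩
  · have hc : W.IsComplement' (mv ρ t W) :=
      Subgroup.isComplement'_of_disjoint_and_mul_eq_univ (disjoint_iff.2 hinf)
        (by rw [← Subgroup.normal_mul, hsup, Subgroup.coe_top])
    conv_lhs => rw [← hc.card_mul]
    rw [mv, Subgroup.card_map_of_injective (f := (ρ t).toMonoidHom) (ρ t).injective]
  · rintro _ ⟨w, hw, rfl⟩
    refine ⟨ρ (t⁻¹ * p * t) w, hWH _ (by simpa using (inferInstance : H.Normal).conj_mem p hp t⁻¹) w hw, ?_⟩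
    change ρ t (ρ (t⁻¹ * p * t) w) = ρ p (ρ t w)
    rw [← MulAut.mul_apply, ← MulAut.mul_apply, ← map_mul, ← map_mul]
    simp [mul_assoc]

end

universe u v

theorem card_bound : ∀ (q : ℕ) (P : Type v) (V : Type v) [Group P] [Finite P] [CommGroup V] [Finite V]
    (ρ : P →* MulAut V), Nat.card V = q → Odd (Nat.card V) → IsPGroup 2 P → Function.Injective ρ →
    1 < q → 2 * Nat.card P < q ^ 2 := by
  intro q
  induction q using Nat.strong_induction_on with
  | _ q IH =>
  intro P V _ _ _ _ ρ hq hodd hP hinj h1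
  have hV : 1 < Nat.card V := hq ▸ h1
  have hWlt : ∀ W : Subgroup V, W ≠ ⊤ → Nat.card W < q := fun W hW => hq ▸ (by
    exact lt_of_le_of_ne (Subgroup.card_le_card_group W) (fun h => hW (Subgroup.eq_top_of_card_eq W h)))
  have hW1 : ∀ W : Subgroup V, W ≠ ⊥ → 1 < Nat.card W := fun W hW => Subgroup.one_lt_card_iff_ne_bot W |>.2 hW
  by_cases hred : ∃ W : Subgroup V, Inv ρ ⊤ W ∧ W ≠ ⊥ ∧ W ≠ ⊤
  · obtain ⟨W, hW, hb, ht⟩ := hred
    let r₁ : P →* MulAut W := (res ρ ⊤ W hW).comp Subgroup.topEquiv.symm.toMonoidHom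
    let r₂ : P →* MulAut (V ⧸ W) := quo ρ W hW
    have hcard := Subgroup.card_eq_card_quotient_mul_card_subgroup W
    have hab : Nat.card (V ⧸ W) * Nat.card W = q := hcard.symm.trans hq
    have ha := hW1 W hb
    have hb' : 1 < Nat.card (V ⧸ W) := by
      by_contra hle
      have : Nat.card (V ⧸ W) = 1 := le_antisymm (not_lt.1 hle) Nat.card_pos
      have := hWlt W ht
      rw [‹Nat.card (V ⧸ W) = 1›, one_mul] at hab
      omega
    have hod := hcard ▸ hodd
    obtain ⟨ho2, ho1⟩ := Nat.odd_mul.1 hod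
    have e1 := IH (Nat.card W) (hWlt W ht) r₁.range W r₁.range.subtype rfl ho1
      (hP.of_surjective r₁.rangeRestrict r₁.rangeRestrict_surjective) Subtype.val_injective ha
    have e2 := IH (Nat.card (V ⧸ W)) (by nlinarith) r₂.range (V ⧸ W) r₂.range.subtype rfl ho2
      (hP.of_surjective r₂.rangeRestrict r₂.rangeRestrict_surjective) Subtype.val_injective hb'
    have hle : Nat.card P ≤ Nat.card r₁.range * Nat.card r₂.range := by
      rw [← Nat.card_prod]
      refine Nat.card_le_card_of_injective (r₁.rangeRestrict.prod r₂.rangeRestrict) ?_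
      refine (injective_iff_map_eq_one _).2 fun x hx => ?_
      have hx1 : r₁ x = 1 := congrArg (fun y : r₁.range × r₂.range => (y.1 : MulAut W)) hx
      have hx2 : r₂ x = 1 := congrArg (fun y : r₁.range × r₂.range => (y.2 : MulAut (V ⧸ W))) hx
      refine eq_one_of_series ρ hodd hP hinj (W := W) (fun w hw => ?_) (fun v => ?_)
      · exact congrArg Subtype.val (DFunLike.congr_fun hx1 (⟨w, hw⟩ : W))
      · exact QuotientGroup.eq.1 (DFunLike.congr_fun hx2 (v : V ⧸ W)).symm
    have : 4 * Nat.card P < q ^ 2 := by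
      rw [← hab, mul_pow]
      nlinarith
    omega
  push Not at hred
  have hirr : ∀ W : Subgroup V, Inv ρ ⊤ W → W = ⊥ ∨ W = ⊤ := fun W hW => by
    by_cases h : W = ⊥
    · exact Or.inl h
    · exact Or.inr (hred W hW h)
  rcases dichotomy ρ hodd hP hinj hV hirr with ⟨H, t, W, hn, hH, ht, hWH, hb, htop⟩ | ⟨A, hAn, -, hA, hi⟩
  · obtain ⟨hc, hsup, hWH'⟩ := split_data ρ hodd hP hinj hirr hH ht hWH hb htop
    let r₁ := res ρ H W hWH
    let r₂ := res ρ H (mv ρ t W) hWH'
    have hcw : Nat.card (mv ρ t W) = Nat.card W :=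
      Subgroup.card_map_of_injective (f := (ρ t).toMonoidHom) (ρ t).injective
    have hw := hW1 W hb
    have ho : Odd (Nat.card W) := (Nat.odd_mul.1 (hc ▸ hodd)).1
    have e1 := IH (Nat.card W) (hWlt W htop) r₁.range W r₁.range.subtype rfl ho
      ((hP.to_subgroup H).of_surjective r₁.rangeRestrict r₁.rangeRestrict_surjective)
      Subtype.val_injective hw
    have e2 := IH (Nat.card W) (hWlt W htop) r₂.range _ r₂.range.subtype hcw (hcw.symm ▸ ho)
      ((hP.to_subgroup H).of_surjective r₂.rangeRestrict r₂.rangeRestrict_surjective)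
      Subtype.val_injective hw
    have hle : Nat.card H ≤ Nat.card r₁.range * Nat.card r₂.range := by
      rw [← Nat.card_prod]
      refine Nat.card_le_card_of_injective (r₁.rangeRestrict.prod r₂.rangeRestrict) ?_
      refine (injective_iff_map_eq_one _).2 fun x hx => ?_
      have hx1 : r₁ x = 1 := congrArg (fun y : r₁.range × r₂.range => (y.1 : MulAut W)) hx
      have hx2 : r₂ x = 1 := congrArg (fun y : r₁.range × r₂.range => (y.2 : MulAut (mv ρ t W))) hx
      apply Subtype.ext
      apply hinj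
      ext v
      have hv : v ∈ W ⊔ mv ρ t W := hsup ▸ Subgroup.mem_top v
      obtain ⟨y, hy, z, hz, rfl⟩ := Subgroup.mem_sup.1 hv
      have ey : ρ (x : P) y = y := congrArg Subtype.val (DFunLike.congr_fun hx1 (⟨y, hy⟩ : W))
      have ez : ρ (x : P) z = z := congrArg Subtype.val (DFunLike.congr_fun hx2 (⟨z, hz⟩ : (mv ρ t W : Subgroup V)))
      simp [ey, ez]
    have hPH : Nat.card P = Nat.card H * 2 := by rw [← H.card_mul_index, hH]
    have : 2 * Nat.card P < q ^ 2 := by
      rw [← hq, hc, mul_pow, hPH]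
      nlinarith
    exact this
  · rw [← A.card_mul_index]
    have ht := Nat.totient_le (Nat.card A)
    rw [hq] at hA
    rcases Nat.eq_zero_or_pos (Nat.card A - 1) with h0 | h0
    · have : Nat.card A = 1 := by have := Nat.card_pos (α := A); omega
      rw [this, Nat.totient_one] at hi
      rw [this]
      nlinarith
    · obtain ⟨k, hk⟩ := IsPGroup.iff_card.1 (hP.to_subgroup A)
      have hk0 : 0 < k := Nat.pos_of_ne_zero fun h => by rw [h, pow_zero] at hk; omega
      rw [hk, Nat.totient_prime_pow Nat.prime_two hk0] at hi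
      have he : 2 * (2 ^ (k - 1) * (2 - 1)) = Nat.card A := by
        rw [hk]; norm_num; rw [← pow_succ']; congr 1; omega
      nlinarith

theorem frattini_bound (P : Type u) (V : Type v) [Group P] [Finite P] [CommGroup V] [Finite V]
    (ρ : P →* MulAut V) (hodd : Odd (Nat.card V)) (hP : IsPGroup 2 P) (hinj : Function.Injective ρ)
    (hV : 1 < Nat.card V) (hirr : ∀ U : Subgroup V, Inv ρ ⊤ U → U = ⊥ ∨ U = ⊤) :
    (frattini P).index < Nat.card V := by
  have : Fact (Nat.Prime 2) := ⟨Nat.prime_two⟩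
  rcases dichotomy ρ hodd hP hinj hV hirr with ⟨H, t, W, hn, hH, ht, hWH, hb, htop⟩ | ⟨A, hAn, hcyc, hA, hi⟩
  · obtain ⟨hc, hsup, hWH'⟩ := split_data ρ hodd hP hinj hirr hH ht hWH hb htop
    let r₁ := res ρ H W hWH
    have hw : 1 < Nat.card W := (Subgroup.one_lt_card_iff_ne_bot W).2 hb
    have e1 := card_bound (Nat.card W) r₁.range W r₁.range.subtype rfl (Nat.odd_mul.1 (hc ▸ hodd)).1
      ((hP.to_subgroup H).of_surjective r₁.rangeRestrict r₁.rangeRestrict_surjective)
      Subtype.val_injective hw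
    -- commutation with `t` embeds the kernel on `W` into the Frattini subgroup
    have hK : Nat.card r₁.ker ≤ Nat.card (frattini P) := by
      refine Nat.card_le_card_of_injective
        (fun k => (⟨⁅((k : H) : P), t⁆,
          Cfsg.Agent.PGroup.commutatorElement_mem_frattini hP _ _⟩ : frattini P)) ?_
      intro k l hkl
      have h := congrArg Subtype.val hkl
      simp only [commutatorElement_def] at h
      apply Subtype.ext
      apply Subtype.ext
      apply hinj
      have hfixW : ∀ k : r₁.ker, ∀ w ∈ W, ρ ((k : H) : P) w = w := fun k w hw' =>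
        congrArg Subtype.val (DFunLike.congr_fun (MonoidHom.mem_ker.1 k.2) (⟨w, hw'⟩ : W))
      have hfixU : ∀ k : r₁.ker, ∀ u ∈ mv ρ t W, ρ (t * ((k : H) : P)⁻¹ * t⁻¹) u = u := by
        rintro k _ ⟨w, hw', rfl⟩
        change ρ (t * ((k : H) : P)⁻¹ * t⁻¹) (ρ t w) = ρ t w
        rw [← MulAut.mul_apply, ← map_mul, inv_mul_cancel_right, map_mul, MulAut.mul_apply]
        exact congrArg _ (hfixW k⁻¹ w hw')
      ext v
      obtain ⟨y, hy, z, hz, rfl⟩ := Subgroup.mem_sup.1 (hsup ▸ Subgroup.mem_top v : v ∈ W ⊔ mv ρ t W)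
      rw [map_mul, map_mul, hfixW k y hy, hfixW l y hy]
      congr 1
      have hh : ((k : H) : P) * (t * ((k : H) : P)⁻¹ * t⁻¹) = ((l : H) : P) * (t * ((l : H) : P)⁻¹ * t⁻¹) := by
        simpa [mul_assoc] using h
      have := congrArg (fun p => ρ p z) hh
      rwa [map_mul, MulAut.mul_apply, hfixU k z hz, map_mul ρ ((l : H) : P), MulAut.mul_apply,
        hfixU l z hz] at this
    have hHc := r₁.ker.card_mul_index
    rw [Subgroup.index_ker] at hHc
    have hPH : Nat.card P = Nat.card H * 2 := by rw [← H.card_mul_index, hH]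
    have hPF := (frattini P).card_mul_index
    rw [hc]
    have hkpos : 0 < Nat.card r₁.ker := Nat.card_pos
    nlinarith [Nat.mul_le_mul_right (frattini P).index hK]
  · let f := QuotientGroup.mk' (frattini P)
    have hM : (A.map f).index ≤ A.index :=
      Nat.le_of_dvd (Nat.pos_of_ne_zero Subgroup.index_ne_zero_of_finite)
        (A.index_map_dvd (QuotientGroup.mk'_surjective _))
    have hF : (frattini P).index = Nat.card (A.map f) * (A.map f).index := by
      rw [Subgroup.card_mul_index, Subgroup.index_eq_card]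
    have h2 : Nat.card (A.map f) ≤ 2 := by
      obtain ⟨g, hg⟩ := IsCyclic.exists_generator (α := A)
      have hsq : (f (g : P)) ^ 2 = 1 := by
        rw [← map_pow]
        exact (QuotientGroup.eq_one_iff _).2 (Cfsg.Agent.PGroup.pow_mem_frattini hP _)
      have hle : A.map f ≤ Subgroup.zpowers (f (g : P)) := by
        rintro _ ⟨a, ha, rfl⟩
        obtain ⟨i, hi'⟩ := hg ⟨a, ha⟩
        exact ⟨i, by simp only at hi'; simp [← map_zpow, ← Subgroup.coe_zpow, hi']⟩
      refine (Subgroup.card_le_of_le hle).trans ?_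
      rw [Nat.card_zpowers]
      exact orderOf_le_of_pow_eq_one (by omega) hsq
    by_cases h1 : Nat.card A = 1
    · have hAb : A = ⊥ := Subgroup.eq_bot_of_card_eq A h1
      rw [h1, Nat.totient_one] at hi
      rw [hF, hAb, Subgroup.map_bot, Subgroup.card_bot]
      rw [hAb, Subgroup.map_bot] at hM
      rw [hAb] at hi
      omega
    · obtain ⟨k, hk⟩ := IsPGroup.iff_card.1 (hP.to_subgroup A)
      have hk0 : 0 < k := Nat.pos_of_ne_zero fun h => h1 (by rw [hk, h, pow_zero])
      rw [hk, Nat.totient_prime_pow Nat.prime_two hk0] at hi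
      have he : 2 * (2 ^ (k - 1) * (2 - 1)) = Nat.card A := by
        rw [hk]; norm_num; rw [← pow_succ']; congr 1; omega
      rw [hF]
      nlinarith

/-- Let G be a finite group that is the semidirect product of a normal abelian subgroup N of odd order by a 2-subgroup P, and suppose N is the unique minimal normal subgroup of G. Then the index of the Frattini subgroup of P in P is at most #N − 1. -/
theorem result {G : Type*} [Group G] [Finite G] (N P : Subgroup G) (hN : N.Normal) (hNab : IsMulCommutative ↥N) (hNodd : Odd (Nat.card ↥N)) (hP : IsPGroup 2 ↥P) (hdisj : N ⊓ P = ⊥) (hprod : N ⊔ P = ⊤) (hmin : N ≠ ⊥ ∧ ∀ M : Subgroup G, M.Normal → M ≠ ⊥ → N ≤ M) : (frattini ↥P).index ≤ Nat.card ↥N - 1 := by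
  classical
  let ρ : P →* MulAut N := (MulAut.conjNormal (H := N)).comp P.subtype
  have hinj : Function.Injective ρ := by
    rw [← MonoidHom.ker_eq_bot_iff]
    by_contra hne
    have hk : ∀ x : P, x ∈ ρ.ker → ∀ n ∈ N, (x : G) * n = n * x := fun x hx n hn => by
      have := congrArg (fun f : MulAut N => ((f ⟨n, hn⟩ : N) : G)) (MonoidHom.mem_ker.1 hx)
      simp only [ρ, MonoidHom.comp_apply, Subgroup.coe_subtype, MulAut.conjNormal_apply,
        MulAut.one_apply] at this
      exact mul_inv_eq_iff_eq_mul.1 this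
    have hnor : (ρ.ker.map P.subtype).Normal := by
      refine ⟨?_⟩
      rintro _ ⟨x, hx, rfl⟩ g
      have hg : g ∈ N ⊔ P := hprod ▸ Subgroup.mem_top g
      obtain ⟨a, ha, p, hp, rfl⟩ := Subgroup.mem_sup_of_normal_left.1 hg
      have hkn : ρ.ker.Normal := ρ.normal_ker
      have hmem : (⟨p, hp⟩ : P) * x * (⟨p, hp⟩ : P)⁻¹ ∈ ρ.ker := hkn.conj_mem x hx _
      refine Subgroup.mem_map.2 ⟨(⟨p, hp⟩ : P) * x * (⟨p, hp⟩ : P)⁻¹, hmem, ?_⟩
      have hh := hk _ hmem a ha
      simp only [Subgroup.coe_mul, Subgroup.coe_inv] at hh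
      simp only [Subgroup.coe_subtype, Subgroup.coe_mul, Subgroup.coe_inv]
      rw [show a * p * (x : G) * (a * p)⁻¹ = a * (p * x * p⁻¹) * a⁻¹ by group, ← hh, mul_inv_cancel_right]
    have hle := hmin.2 _ hnor (fun hb => hne ((Subgroup.map_eq_bot_iff_of_injective _ P.subtype_injective).1 hb))
    apply hmin.1
    rw [eq_bot_iff, ← hdisj]
    exact le_inf le_rfl (hle.trans (Subgroup.map_subtype_le _))
  let : CommGroup N := { (inferInstance : Group N) with mul_comm := hNab.is_comm.comm }
  have hinvnormal : ∀ U : Subgroup N, Inv ρ ⊤ U → (U.map N.subtype).Normal := by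
    intro U hU
    refine ⟨?_⟩
    rintro _ ⟨u, hu, rfl⟩ g
    have hg : g ∈ N ⊔ P := hprod ▸ Subgroup.mem_top g
    obtain ⟨a, ha, p, hp, rfl⟩ := Subgroup.mem_sup_of_normal_left.1 hg
    refine ⟨ρ ⟨p, hp⟩ u, hU _ (Subgroup.mem_top _) u hu, ?_⟩
    have hc : ∀ x : N, a * (x : G) * a⁻¹ = (x : G) := fun x => by
      rw [congrArg Subtype.val (hNab.is_comm.comm ⟨a, ha⟩ x) |> fun h => (show a * (x : G) = x * a from h),
        mul_inv_cancel_right]
    rw [Subgroup.coe_subtype, ← hc (ρ ⟨p, hp⟩ u)]
    simp [ρ, MulAut.conjNormal_apply, mul_assoc]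
  have hirr : ∀ U : Subgroup N, Inv ρ ⊤ U → U = ⊥ ∨ U = ⊤ := by
    intro U hU
    by_cases h : U = ⊥
    · exact Or.inl h
    · refine Or.inr (eq_top_iff.2 fun x _ => ?_)
      have := hmin.2 _ (hinvnormal U hU)
        (fun hb => h ((Subgroup.map_eq_bot_iff_of_injective U N.subtype_injective).1 hb)) x.2
      obtain ⟨y, hy, hyx⟩ := this
      rwa [Subtype.ext hyx] at hy
  have := frattini_bound P N ρ hNodd hP hinj ((Subgroup.one_lt_card_iff_ne_bot N).2 hmin.1) hirr
  omega

end Cfsg.Agent.S4188
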