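import Cfsg.Statements.S4194
import Cfsg.Agent.LocalEven.CentralConjTwo
import Cfsg.Agent.FusionAlperin.SubgroupSystem
-- import your own Cfsg.Agent.* helpers here

set_option autoImplicit false
open Cfsg

namespace Cfsg.Agent.S4194

/-- A finite group G has commutative Sylow 2-subgroups if and only if every 2-element of G (element of order a power of 2) is 2-central, that is, its centralizer contains a Sylow 2-subgroup of G. -/
theorem result {G : Type*} [Group G] [Finite G] (P : Sylow 2 G) :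
    IsMulCommutative (P : Subgroup G) ↔ ∀ x : G, (∃ k : ℕ, orderOf x = 2 ^ k) → (∃ Q : Sylow 2 G, (Q : Subgroup G) ≤ Subgroup.centralizer ({x} : Set G)) := by
  have : Fact (Nat.Prime 2) := ⟨Nat.prime_two⟩
  constructor
  · intro hab x hx
    obtain ⟨k, hk⟩ := hx
    obtain ⟨Q, hQ⟩ := IsPGroup.exists_le_sylow (p := 2) (P := Subgroup.zpowers x)
      (IsPGroup.of_card (n := k) (by rw [Nat.card_zpowers, hk]))
    refine ⟨Q, fun q hq => Subgroup.mem_centralizer_singleton_iff.2 ?_⟩
    have := hab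
    let e := Q.equiv P
    have h : (⟨q, hq⟩ : (Q : Subgroup G)) * ⟨x, hQ (Subgroup.mem_zpowers x)⟩ =
        ⟨x, hQ (Subgroup.mem_zpowers x)⟩ * ⟨q, hq⟩ :=
      e.injective (by rw [map_mul, map_mul]; exact hab.is_comm.comm _ _)
    exact congrArg Subtype.val h
  · intro h
    have : Finite (P : Subgroup G) := inferInstance
    have hsyl : Cfsg.Agent.FusionAlperin.SylIn 2 (P : Subgroup G) ⊤ :=
      ⟨le_top, P.subtype le_top, Sylow.coe_subtype _ _⟩
    refine Cfsg.Agent.LocalEven.CentralTwo.isMulCommutative P.isPGroup'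
      (Cfsg.Agent.FusionAlperin.fusionSystemOfSubgroup_saturated hsyl) ?_
    intro x hx
    obtain ⟨m, hm⟩ := P.isPGroup' ⟨x, hx⟩
    have hx2 : x ^ 2 ^ m = 1 := congrArg Subtype.val hm
    obtain ⟨k, -, hk⟩ := (Nat.dvd_prime_pow Nat.prime_two).1 (orderOf_dvd_of_pow_eq_one hx2)
    obtain ⟨Q, hQ⟩ := h x ⟨k, hk⟩
    have hxQ : x ∈ (Q : Subgroup G) := by
      have hsup : IsPGroup 2 ↥((Q : Subgroup G) ⊔ Subgroup.zpowers x) := by
        refine Q.isPGroup'.to_sup_of_normal_right'
          (IsPGroup.of_card (n := k) (by rw [Nat.card_zpowers, hk])) ?_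
        intro q hq
        rw [Subgroup.mem_normalizer_iff]
        intro y
        have hc := Subgroup.mem_centralizer_singleton_iff.1 (hQ hq)
        constructor
        · intro hy
          obtain ⟨i, rfl⟩ := Subgroup.mem_zpowers_iff.1 hy
          rw [((show Commute q x from hc).zpow_right i).eq, mul_inv_cancel_right]
          exact hy
        · intro hy
          obtain ⟨i, hi⟩ := Subgroup.mem_zpowers_iff.1 hy
          have hy' : y = x ^ i := by
            calc y = q⁻¹ * (q * y * q⁻¹) * q := by group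
              _ = q⁻¹ * (x ^ i * q) := by rw [← hi, mul_assoc]
              _ = x ^ i := by rw [← ((show Commute q x from hc).zpow_right i).eq, inv_mul_cancel_left]
          exact hy' ▸ Subgroup.mem_zpowers_iff.2 ⟨i, rfl⟩
      exact (Q.is_maximal' hsup le_sup_left) ▸
        (le_sup_right : Subgroup.zpowers x ≤ _) (Subgroup.mem_zpowers x)
    obtain ⟨g, hg⟩ := MulAction.exists_smul_eq G P Q
    have hPQ : ∀ y ∈ (P : Subgroup G), g * y * g⁻¹ ∈ (Q : Subgroup G) := by
      intro y hy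
      rw [← hg]
      exact ⟨y, hy, rfl⟩
    have hxz : g⁻¹ * x * g ∈ (P : Subgroup G) := by
      rw [← hg] at hxQ
      obtain ⟨y, hy, hy'⟩ := hxQ
      rw [show x = g * y * g⁻¹ from hy'.symm]
      rw [show g⁻¹ * (g * y * g⁻¹) * g = y by group]
      exact hy
    refine ⟨g⁻¹ * x * g, ⟨hxz, fun s hs => ?_⟩, (conjHom (Subgroup.zpowers x) g⁻¹), ?_, ?_⟩
    · have hc := Subgroup.mem_centralizer_singleton_iff.1 (hQ (hPQ s hs))
      calc s * (g⁻¹ * x * g) = g⁻¹ * ((g * s * g⁻¹) * x) * g := by group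
        _ = g⁻¹ * (x * (g * s * g⁻¹)) * g := by rw [hc]
        _ = g⁻¹ * x * g * s := by group
    · refine ⟨Subgroup.zpowers_le.2 hx, fun u => ?_, g⁻¹, trivial, fun u => rfl⟩
      obtain ⟨i, hi⟩ := Subgroup.mem_zpowers_iff.1 u.2
      show g⁻¹ * (u : G) * g⁻¹⁻¹ ∈ (P : Subgroup G)
      rw [← hi, inv_inv]
      have hz := zpow_mem hxz i
      rwa [show g⁻¹ * x * g = g⁻¹ * x * g⁻¹⁻¹ by rw [inv_inv], conj_zpow, inv_inv] at hz
    · show g⁻¹ * x * g⁻¹⁻¹ = g⁻¹ * x * g
      rw [inv_inv]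

end Cfsg.Agent.S4194
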