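import Cfsg.Statements.S4195
import Cfsg.Agent.Lib.ClassSize

set_option autoImplicit false
open Cfsg

namespace Cfsg.Agent.S4195

/-- Let x be a non-identity element of a finite group G whose centralizer contains a Sylow 2-subgroup of G. If x is conjugate to its inverse, then x has order 2. -/
theorem result {G : Type*} [Group G] [Finite G] (x : G) (hx : x ≠ 1) (P : Sylow 2 G) (hP : (P : Subgroup G) ≤ Subgroup.centralizer ({x} : Set G)) (hreal : IsConj x x⁻¹) : orderOf x = 2 := by
  classical
  by_contra h2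
  have hxx : x⁻¹ ≠ x := by
    intro h
    apply h2
    refine orderOf_eq_prime ?_ hx
    rw [sq]; nth_rewrite 1 [← h]; exact inv_mul_cancel x
  have hodd : ¬ 2 ∣ (Subgroup.centralizer ({x} : Set G)).index := fun h =>
    P.not_dvd_index (h.trans (Subgroup.index_dvd_of_le hP))
  have hcard : Nat.card (ConjClasses.mk x).carrier = (Subgroup.centralizer ({x} : Set G)).index :=
    Cfsg.Agent.ClassSize.natCard_carrier x
  apply hodd
  rw [← hcard]
  have : Fintype (ConjClasses.mk x).carrier := Fintype.ofFinite _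
  rw [Nat.card_eq_fintype_card]
  have hconj : ∀ y : G, y ∈ (ConjClasses.mk x).carrier ↔ IsConj x y := by
    intro y
    rw [ConjClasses.mem_carrier_iff_mk_eq, ConjClasses.mk_eq_mk_iff_isConj]
    exact isConj_comm
  have hinv : ∀ y : (ConjClasses.mk x).carrier, (y : G)⁻¹ ∈ (ConjClasses.mk x).carrier := by
    rintro ⟨y, hy⟩
    rw [hconj] at hy ⊢
    obtain ⟨c, hc⟩ := isConj_iff.1 hy
    exact hreal.trans (isConj_iff.2 ⟨c, by subst hc; group⟩)
  have key : ∀ y : (ConjClasses.mk x).carrier, (y : G)⁻¹ ≠ y := by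
    rintro ⟨y, hy⟩ he
    rw [hconj] at hy
    obtain ⟨c, hc⟩ := isConj_iff.1 hy
    apply hxx
    change y⁻¹ = y at he
    rw [← hc] at he
    simpa [mul_inv_rev, mul_assoc] using he
  have hsum : ∑ _y : (ConjClasses.mk x).carrier, (1 : ZMod 2) = 0 :=
    Finset.sum_involution (fun y _ => ⟨(y : G)⁻¹, hinv y⟩) (fun _ _ => by decide)
      (fun y _ _ he => key y (congrArg Subtype.val he)) (fun _ _ => Finset.mem_univ _)
      (fun y _ => by simp)
  rw [Finset.sum_const, Finset.card_univ, nsmul_eq_mul, mul_one] at hsum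
  exact (ZMod.natCast_eq_zero_iff_even).1 hsum |>.two_dvd

end Cfsg.Agent.S4195
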