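import Cfsg.Statements.S4196
import Cfsg.Agent.S4195
import Cfsg.Agent.Lib.Element

set_option autoImplicit false
open Cfsg

namespace Cfsg.Agent.S4196

/-- A finite group G has elementary abelian Sylow 2-subgroups (commutative with every element squaring to the identity) if and only if every 2-element of G has a Sylow 2-subgroup in its centralizer and is conjugate to its inverse. -/
theorem result {G : Type*} [Group G] [Finite G] (P : Sylow 2 G) :
    (IsMulCommutative (P : Subgroup G) ∧ ∀ x ∈ (P : Subgroup G), x ^ 2 = 1) ↔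
      ∀ x : G, (∃ k : ℕ, orderOf x = 2 ^ k) → (∃ Q : Sylow 2 G, (Q : Subgroup G) ≤ Subgroup.centralizer ({x} : Set G)) ∧ IsConj x x⁻¹ := by
  constructor
  · rintro ⟨hcomm, hexp⟩ x ⟨k, hk⟩
    obtain ⟨Q, hQ⟩ := Cfsg.Agent.Element.exists_sylow_mem (p := 2) hk
    obtain ⟨g, rfl⟩ := MulAction.exists_smul_eq G P Q
    have hQmem : ∀ z ∈ ((g • P : Sylow 2 G) : Subgroup G), ∃ y ∈ (P : Subgroup G), g * y * g⁻¹ = z := by
      intro z hz
      rw [Sylow.coe_subgroup_smul] at hz
      obtain ⟨y, hy, rfl⟩ := hz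
      exact ⟨y, hy, rfl⟩
    obtain ⟨a, ha, hxa⟩ := hQmem x hQ
    refine ⟨⟨g • P, fun z hz => ?_⟩, ?_⟩
    · obtain ⟨b, hb, rfl⟩ := hQmem z hz
      rw [Subgroup.mem_centralizer_singleton_iff, ← hxa]
      have hab : a * b = b * a := congrArg Subtype.val
        (hcomm.is_comm.comm (⟨a, ha⟩ : (P : Subgroup G)) ⟨b, hb⟩)
      calc g * b * g⁻¹ * (g * a * g⁻¹) = g * (b * a) * g⁻¹ := by group
        _ = g * (a * b) * g⁻¹ := by rw [hab]
        _ = g * a * g⁻¹ * (g * b * g⁻¹) := by group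
    · have ha2 := hexp a ha
      have : x⁻¹ = x := by
        rw [← hxa, mul_inv_rev, mul_inv_rev, inv_inv,
          inv_eq_of_mul_eq_one_right (show a * a = 1 by rw [← sq]; exact ha2)]
        group
      rw [this]
  · intro h
    have hsq : ∀ x ∈ (P : Subgroup G), x ^ 2 = 1 := by
      intro x hx
      by_cases h1 : x = 1
      · simp [h1]
      obtain ⟨k, hk⟩ := Cfsg.Agent.Element.orderOf_eq_pow_of_mem_isPGroup P.isPGroup' hx
      obtain ⟨⟨Q, hQ⟩, hreal⟩ := h x ⟨k, hk⟩
      rw [← Cfsg.Agent.S4195.result x h1 Q hQ hreal, pow_orderOf_eq_one]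
    refine ⟨⟨⟨fun a b => ?_⟩⟩, hsq⟩
    have key : ∀ z : (P : Subgroup G), z⁻¹ = z := fun z => by
      apply inv_eq_of_mul_eq_one_right
      apply Subtype.ext
      simpa [sq] using hsq z z.2
    calc a * b = (a * b)⁻¹ := (key _).symm
      _ = b⁻¹ * a⁻¹ := mul_inv_rev a b
      _ = b * a := by rw [key, key]

end Cfsg.Agent.S4196
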