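import Cfsg.Statements.S4200
import Cfsg.Agent.Lib.ClassSize

set_option autoImplicit false
open Cfsg

namespace Cfsg.Agent.S4200

theorem card_comm_eq_sum (X : Type*) [Group X] [Fintype X] :
    Nat.card (ConjClasses X) * Nat.card X =
      ∑ x : X, Nat.card (Subgroup.centralizer ({x} : Set X)) := by
  rw [← card_comm_eq_card_conjClasses_mul_card, ← Nat.card_sigma]
  refine Nat.card_congr ((Equiv.subtypeProdEquivSigmaSubtype (fun a b : X => Commute a b)).trans
    (Equiv.sigmaCongrRight fun x => Equiv.subtypeEquivRight fun y => ?_))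
  rw [Subgroup.mem_centralizer_singleton_iff]
  exact ⟨fun h => h.symm.eq, fun h => Commute.symm h⟩

variable {X : Type*} [Group X] [Finite X] (Y : Subgroup X)

theorem card_centralizer_eq (x : X) :
    Nat.card (Subgroup.centralizer ({x} : Set X)) =
      Nat.card ↥(Y ⊓ Subgroup.centralizer ({x} : Set X)) *
        Y.relIndex (Subgroup.centralizer ({x} : Set X)) := by
  have := Subgroup.card_mul_index (Y.subgroupOf (Subgroup.centralizer ({x} : Set X)))
  rw [← this, ← Subgroup.inf_subgroupOf_right,
    Nat.card_congr (Subgroup.subgroupOfEquivOfLe inf_le_right).toEquiv]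
  rw [Subgroup.inf_subgroupOf_right]
  rfl

theorem card_centralizer_le (x : X) :
    Nat.card (Subgroup.centralizer ({x} : Set X)) ≤
      Y.index * Nat.card ↥(Y ⊓ Subgroup.centralizer ({x} : Set X)) := by
  rw [card_centralizer_eq Y x, mul_comm]
  refine Nat.mul_le_mul_right _ ?_
  calc Y.relIndex (Subgroup.centralizer ({x} : Set X))
      ≤ Y.relIndex ⊤ := Subgroup.relIndex_le_of_le_right le_top (by
        rw [Subgroup.relIndex_top_right]; exact Subgroup.index_ne_zero_of_finite)
    _ = Y.index := Subgroup.relIndex_top_right Y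

theorem sum_card_inf_eq [Fintype X] [Fintype Y] :
    ∑ x : X, Nat.card ↥(Y ⊓ Subgroup.centralizer ({x} : Set X)) =
      ∑ y : Y, Nat.card (Subgroup.centralizer ({(y : X)} : Set X)) := by
  rw [← Nat.card_sigma, ← Nat.card_sigma]
  exact Nat.card_congr
    { toFun := fun a => ⟨⟨a.2.1, a.2.2.1⟩, a.1,
        Subgroup.mem_centralizer_singleton_iff.2 (Subgroup.mem_centralizer_singleton_iff.1 a.2.2.2).symm⟩
      invFun := fun a => ⟨a.2.1, (a.1 : X), a.1.2,
        Subgroup.mem_centralizer_singleton_iff.2 (Subgroup.mem_centralizer_singleton_iff.1 a.2.2).symm⟩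
      left_inv := fun _ => rfl
      right_inv := fun _ => rfl }

theorem exists_lt_of_not_normal (hY : ¬ Y.Normal) :
    ∃ x : X, Nat.card (Subgroup.centralizer ({x} : Set X)) <
      Y.index * Nat.card ↥(Y ⊓ Subgroup.centralizer ({x} : Set X)) := by
  by_contra hc
  push Not at hc
  apply hY
  refine ⟨fun y hy g => ?_⟩
  set C := Subgroup.centralizer ({y} : Set X) with hC
  have h := hc y
  rw [card_centralizer_eq Y y, mul_comm] at h
  have hidx : Y.index ≤ Y.relIndex C := Nat.le_of_mul_le_mul_left h Nat.card_pos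
  let f : ↥C ⧸ Y.subgroupOf C → X ⧸ Y := Quotient.map' (fun c => (c : X)) (by
    intro a b hab
    rw [QuotientGroup.leftRel_apply] at hab ⊢
    simpa [Subgroup.mem_subgroupOf] using hab)
  have hinj : Function.Injective f := by
    intro a b
    induction a using QuotientGroup.induction_on
    induction b using QuotientGroup.induction_on
    intro hab
    rw [QuotientGroup.eq, Subgroup.mem_subgroupOf]
    simpa using QuotientGroup.eq.1 hab
  have hsurj := (hinj.bijective_of_nat_card_le (by exact hidx)).2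
  obtain ⟨q, hq⟩ := hsurj ((g⁻¹ : X) : X ⧸ Y)
  induction q using QuotientGroup.induction_on with
  | _ c =>
  have h1 : (c : X)⁻¹ * g⁻¹ ∈ Y := QuotientGroup.eq.1 hq
  have h2 := Subgroup.mem_centralizer_singleton_iff.1 c.2
  have : g * y * g⁻¹ = ((c : X)⁻¹ * g⁻¹)⁻¹ * y * ((c : X)⁻¹ * g⁻¹) := by
    have h3 : (c : X) * y * (c : X)⁻¹ = y := by rw [h2, mul_inv_cancel_right]
    conv_lhs => rw [← h3]
    group
  rw [this]
  exact Y.mul_mem (Y.mul_mem (Y.inv_mem h1) hy) h1

/-- Let Y be a subgroup of the finite group X, of index m. Then the numbers of conjugacy classes satisfy k(Y) ≤ m·k(X) and k(X) ≤ m·k(Y), and the second inequality is strict unless Y is normal in X. -/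
theorem result {X : Type*} [Group X] [Finite X] (Y : Subgroup X) : Nat.card (ConjClasses Y) ≤ Y.index * Nat.card (ConjClasses X) ∧ Nat.card (ConjClasses X) ≤ Y.index * Nat.card (ConjClasses Y) ∧ (¬ Y.Normal → Nat.card (ConjClasses X) < Y.index * Nat.card (ConjClasses Y)) := by
  classical
  have : Fintype X := Fintype.ofFinite X
  have : Fintype Y := Fintype.ofFinite Y
  have hX : Nat.card X = Nat.card Y * Y.index := Y.card_mul_index.symm
  have hm : 0 < Y.index := Nat.pos_of_ne_zero Subgroup.index_ne_zero_of_finite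
  have hYy : ∀ y : Y, Nat.card ↥(Y ⊓ Subgroup.centralizer ({(y : X)} : Set X)) =
      Nat.card (Subgroup.centralizer ({y} : Set Y)) := fun y =>
    (Cfsg.Agent.ClassSize.card_centralizer_subgroup Y y).symm
  have h1 : Nat.card (ConjClasses Y) * Nat.card Y ≤ Nat.card (ConjClasses X) * Nat.card X := by
    rw [card_comm_eq_sum Y, card_comm_eq_sum X]
    calc ∑ y : Y, Nat.card (Subgroup.centralizer ({y} : Set Y))
        ≤ ∑ y : Y, Nat.card (Subgroup.centralizer ({(y : X)} : Set X)) :=
          Finset.sum_le_sum fun y _ => (hYy y) ▸ Nat.card_le_card_of_injective _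
            (Subgroup.inclusion_injective inf_le_right)
      _ = ∑ x : X, Nat.card ↥(Y ⊓ Subgroup.centralizer ({x} : Set X)) := (sum_card_inf_eq Y).symm
      _ ≤ _ := Finset.sum_le_sum fun x _ =>
            Nat.card_le_card_of_injective _ (Subgroup.inclusion_injective inf_le_right)
  have h2 : Y.index * (∑ x : X, Nat.card ↥(Y ⊓ Subgroup.centralizer ({x} : Set X))) ≤
      Y.index * (Y.index * (Nat.card (ConjClasses Y) * Nat.card Y)) := by
    refine Nat.mul_le_mul_left _ ?_
    rw [sum_card_inf_eq Y, card_comm_eq_sum Y, Finset.mul_sum]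
    exact Finset.sum_le_sum fun y _ => (hYy y) ▸ card_centralizer_le Y _
  refine ⟨?_, ?_, fun hn => ?_⟩
  · rw [hX] at h1
    refine Nat.le_of_mul_le_mul_right ?_ (Nat.card_pos (α := Y))
    linarith
  · refine Nat.le_of_mul_le_mul_right ?_ (Nat.card_pos (α := X))
    rw [card_comm_eq_sum X]
    refine le_trans ((Finset.sum_le_sum fun x _ => card_centralizer_le Y x).trans_eq
      (Finset.mul_sum _ _ _).symm) (h2.trans ?_)
    rw [hX]; exact le_of_eq (by ring)
  · refine Nat.lt_of_mul_lt_mul_right (a := Nat.card X) ?_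
    rw [card_comm_eq_sum X]
    obtain ⟨x0, hx0⟩ := exists_lt_of_not_normal Y hn
    refine lt_of_lt_of_le ((Finset.sum_lt_sum (fun x _ => card_centralizer_le Y x)
      ⟨x0, Finset.mem_univ _, hx0⟩).trans_eq (Finset.mul_sum _ _ _).symm) (h2.trans ?_)
    rw [hX]; exact le_of_eq (by ring)

end Cfsg.Agent.S4200
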