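import Cfsg.Statements.S4221
import Mathlib
import Cfsg.Agent.H73.FourTrans
-- import your own Cfsg.Agent.* helpers here

set_option autoImplicit false
open Cfsg

namespace Cfsg.Agent.S4221
open MulAction
open Cfsg.Agent.H73

variable {α : Type*} [Fintype α] [DecidableEq α]

/-- Four distinct points as an embedding. -/
def quad (a b c d : α) (h1 : a ≠ b) (h2 : a ≠ c) (h3 : a ≠ d) (h4 : b ≠ c) (h5 : b ≠ d) (h6 : c ≠ d) :
    Fin 4 ↪ α :=
  ⟨![a, b, c, d], by
    intro i j h
    fin_cases i <;> fin_cases j <;> simp at h ⊢
    all_goals first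
      | exact h1 h | exact h1 h.symm | exact h2 h | exact h2 h.symm | exact h3 h | exact h3 h.symm
      | exact h4 h | exact h4 h.symm | exact h5 h | exact h5 h.symm | exact h6 h | exact h6 h.symm⟩

theorem descFactorial_dvd (G : Subgroup (Equiv.Perm α)) (hG : IsMultiplyPretransitive G α 4) (x : Fin 4 ↪ α) :
    Nat.card G = (Fintype.card α).descFactorial 4 * Nat.card (stabilizer G x) := by
  have hi : (stabilizer G x).index = Nat.card (Fin 4 ↪ α) := by
    rw [index_stabilizer, ← Set.ncard_univ]
    exact congrArg Set.ncard (Set.eq_univ_of_forall fun y => hG.exists_smul_eq x y)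
  rw [← (stabilizer G x).index_mul_card, hi, Nat.card_eq_fintype_card (α := Fin 4 ↪ α),
    Fintype.card_embedding_eq, Fintype.card_fin]


/-- Let `G` be a `4`-fold transitive permutation group on a finite set of `n` points in which the pointwise stabilizer of some four distinct points has odd order. Then `n = 4` or `n = 5` with `G` the full symmetric group, or `n = 6` or `n = 7` with `G` the alternating group, or `n = 11` and `G` has order `7920`. -/
theorem result {α : Type*} [Fintype α] [DecidableEq α] (G : Subgroup (Equiv.Perm α)) (hG : MulAction.IsMultiplyPretransitive G α 4) (x : Fin 4 ↪ α) (hodd : Odd (Nat.card (MulAction.stabilizer G x))) : ((Fintype.card α = 4 ∨ Fintype.card α = 5) ∧ G = ⊤) ∨ ((Fintype.card α = 6 ∨ Fintype.card α = 7) ∧ G = alternatingGroup α) ∨ (Fintype.card α = 11 ∧ Nat.card G = 7920) := by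
  classical
  have hn4 : 4 ≤ Fintype.card α := by simpa using Fintype.card_le_of_embedding x
  haveI : IsPretransitive G (Fin 4 ↪ α) := hG
  have hcard := descFactorial_dvd G hG x
  set h := Nat.card (stabilizer G x) with hh
  have hdvd : Nat.card G ∣ (Fintype.card α).factorial := by
    have h0 := G.card_subgroup_dvd_card
    rwa [Nat.card_perm, Nat.card_eq_fintype_card (α := α)] at h0
  have hindex : G.index * Nat.card G = (Fintype.card α).factorial := by
    rw [G.index_mul_card, Nat.card_perm, Nat.card_eq_fintype_card]
  rcases (show Fintype.card α = 4 ∨ Fintype.card α = 5 ∨ Fintype.card α = 6 ∨ Fintype.card α = 7 ∨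
    8 ≤ Fintype.card α by omega) with hn | hn | hn | hn | hn
  · refine Or.inl ⟨Or.inl hn, ?_⟩
    haveI : IsMultiplyPretransitive G α 4 := hG
    haveI : IsMultiplyPretransitive G α 3 :=
      isMultiplyPretransitive_of_le (n := 4) (by norm_num) (by simp [ENat.card_eq_coe_fintype_card, hn])
    refine Equiv.Perm.eq_top_of_isMultiplyPretransitive ?_
    rw [Nat.card_eq_fintype_card, hn]
    infer_instance
  · refine Or.inl ⟨Or.inr hn, ?_⟩
    refine Equiv.Perm.eq_top_of_isMultiplyPretransitive ?_
    rw [Nat.card_eq_fintype_card, hn]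
    exact hG
  · refine Or.inr (Or.inl ⟨Or.inl hn, ?_⟩)
    rw [hn, show Nat.factorial 6 = 720 from rfl] at hindex
    rw [hn, show Nat.descFactorial 6 4 = 360 from rfl] at hcard
    rw [hcard] at hindex
    apply Equiv.Perm.eq_alternatingGroup_of_index_eq_two
    obtain ⟨l, hl⟩ := hodd
    change h = 2 * l + 1 at hl
    rcases l with _ | l
    · rw [hl] at hindex; omega
    · exfalso
      have : 1 ≤ G.index := Nat.one_le_iff_ne_zero.2 Subgroup.index_ne_zero_of_finite
      nlinarith
  · refine Or.inr (Or.inl ⟨Or.inr hn, ?_⟩)
    rw [hn, show Nat.factorial 7 = 5040 from rfl] at hindex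
    rw [hn, show Nat.descFactorial 7 4 = 840 from rfl] at hcard
    rw [hcard] at hindex
    apply Equiv.Perm.eq_alternatingGroup_of_index_eq_two
    have h6 : G.index * h = 6 := by nlinarith
    have hdiv : G.index ∣ 6 := Dvd.intro h h6
    have hodd' : ¬ 2 ∣ h := fun hd => by
      obtain ⟨l, hl⟩ := hodd
      obtain ⟨m, hm⟩ := hd
      change h = 2 * l + 1 at hl
      omega
    rcases (show G.index = 1 ∨ G.index = 2 ∨ G.index = 3 ∨ G.index = 6 by
      have := Nat.le_of_dvd (by norm_num) hdiv
      interval_cases G.index <;> omega) with e | e | e | e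
    · exfalso; rw [e] at h6; omega
    · exact e
    · exfalso; rw [e] at h6; omega
    · exfalso
      -- no subgroup of index six in the symmetric group of degree seven
      haveI := alternatingGroup.isSimpleGroup (α := α) (by rw [Nat.card_eq_fintype_card, hn]; norm_num)
      haveI : Nontrivial α := Fintype.one_lt_card_iff_nontrivial.1 (by omega)
      have hK : Nat.card (MulAction.toPermHom (Equiv.Perm α) (Equiv.Perm α ⧸ G)).range ∣ 720 := by
        refine (Subgroup.card_subgroup_dvd_card _).trans ?_
        rw [Nat.card_perm, ← Subgroup.index_eq_card, e]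
        rfl
      rw [← Subgroup.index_ker, ← Subgroup.normalCore_eq_ker] at hK
      set K := G.normalCore with hKdef
      have hall := (inferInstance : IsSimpleGroup (alternatingGroup α)).eq_bot_or_eq_top_of_normal
        (K.subgroupOf (alternatingGroup α)) inferInstance
      rcases hall with hb | ht
      · have hd := (Subgroup.subgroupOf_eq_bot).1 hb
        have hle : Nat.card K ≤ 2 := by
          have hinj : Function.Injective
              ((Equiv.Perm.sign (α := α)).comp K.subtype) := by
            rw [injective_iff_map_eq_one]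
            intro k hk
            exact Subtype.ext (Subgroup.disjoint_def.1 hd k.2 (Equiv.Perm.mem_alternatingGroup.2 hk))
          refine (Nat.card_le_card_of_injective _ hinj).trans ?_
          rw [Nat.card_eq_fintype_card, Fintype.card_units_int]
        have h1 := K.index_mul_card
        rw [Nat.card_perm, Nat.card_eq_fintype_card (α := α), hn, show Nat.factorial 7 = 5040 from rfl] at h1
        have := Nat.le_of_dvd (by norm_num) hK
        nlinarith
      · have hle : alternatingGroup α ≤ G := (Subgroup.subgroupOf_eq_top.1 ht).trans G.normalCore_le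
        have h2 := Subgroup.card_dvd_of_le hle
        have h3 := two_mul_nat_card_alternatingGroup (α := α)
        rw [Nat.card_perm, Nat.card_eq_fintype_card (α := α), hn, show Nat.factorial 7 = 5040 from rfl] at h3
        rw [hcard] at h2
        rw [e] at h6
        have := Nat.le_of_dvd (Nat.mul_pos (by norm_num) Nat.card_pos) h2
        omega
  · have hH : FourTrans.Hyp G := by
      refine ⟨fun a b c d a' b' c' d' h1 h2 h3 h4 h5 h6 h1' h2' h3' h4' h5' h6' => ?_, ?_, hn⟩
      · obtain ⟨g, hg⟩ := exists_smul_eq G (quad a b c d h1 h2 h3 h4 h5 h6) (quad a' b' c' d' h1' h2' h3' h4' h5' h6')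
        exact ⟨g, g.2, DFunLike.congr_fun hg 0, DFunLike.congr_fun hg 1, DFunLike.congr_fun hg 2,
          DFunLike.congr_fun hg 3⟩
      · intro g hg a b c d h1 h2 h3 h4 h5 h6 ga gb gc gd
        obtain ⟨k, hk⟩ := exists_smul_eq G x (quad a b c d h1 h2 h3 h4 h5 h6)
        have hmem : (⟨g, hg⟩ : G) ∈ stabilizer G (quad a b c d h1 h2 h3 h4 h5 h6) := by
          rw [mem_stabilizer_iff]
          ext i
          fin_cases i
          exacts [ga, gb, gc, gd]
        have hc : Nat.card (stabilizer G (quad a b c d h1 h2 h3 h4 h5 h6)) = h :=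
          (Nat.card_congr (stabilizerEquivStabilizer hk.symm).toEquiv).symm
        have hdv := (stabilizer G (quad a b c d h1 h2 h3 h4 h5 h6)).orderOf_dvd_natCard hmem
        rw [hc, Subgroup.orderOf_mk] at hdv
        exact Odd.of_dvd_nat hodd hdv
    obtain ⟨h11, htriv⟩ := FourTrans.eleven hH
    refine Or.inr (Or.inr ⟨h11, ?_⟩)
    have h1 : h = 1 := by
      rw [hh, Subgroup.card_eq_one, Subgroup.eq_bot_iff_forall]
      intro g hg
      rw [mem_stabilizer_iff] at hg
      have hp : ∀ i, (g : Equiv.Perm α) (x i) = x i := fun i => DFunLike.congr_fun hg i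
      exact Subtype.ext (htriv g g.2 (x 0) (x 1) (x 2) (x 3)
        (fun e => absurd (x.injective e) (by decide)) (fun e => absurd (x.injective e) (by decide))
        (fun e => absurd (x.injective e) (by decide)) (fun e => absurd (x.injective e) (by decide))
        (fun e => absurd (x.injective e) (by decide)) (fun e => absurd (x.injective e) (by decide))
        (hp 0) (hp 1) (hp 2) (hp 3))
    rw [hcard, h1, h11]
    rfl

end Cfsg.Agent.S4221
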