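import Cfsg.Statements.S4230
import Cfsg.Agent.Arith.CyclotomicOrder

set_option autoImplicit false
open Cfsg

namespace Cfsg.Agent.S4230

/-- Let p be an odd prime, q a natural number not divisible by p, and e the multiplicative order of q modulo p. For a natural number f, p divides the value at q of the f-th cyclotomic polynomial if and only if f = e·p^j for some j ≥ 0. -/
theorem result (p q f : ℕ) (hp : p.Prime) (hp2 : p ≠ 2) (hpq : ¬ p ∣ q) :
    ((p : ℤ) ∣ (Polynomial.cyclotomic f ℤ).eval (q : ℤ)) ↔ ∃ j : ℕ, f = orderOf (q : ZMod p) * p ^ j := by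
  have : Fact p.Prime := ⟨hp⟩
  rw [Cfsg.Agent.Arith.prime_dvd_cyclotomic_iff]
  exact ⟨fun h => h.2, fun h => ⟨hpq, h⟩⟩

end Cfsg.Agent.S4230
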