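import Cfsg.Statements.S4231
import Mathlib
import Cfsg.Agent.H77.AltSix
import Cfsg.Agent.Alt.Automorphism

set_option autoImplicit false
open Cfsg

namespace Cfsg.Agent.S4231

open Equiv

theorem card_aut_dvd (n : ℕ) (hn : 5 ≤ n) :
    Nat.card (MulAut (alternatingGroup (Fin n))) ∣ 2 * n.factorial := by
  by_cases h6 : n = 6
  · subst h6
    exact Cfsg.Agent.H77.AltSix.card_mulAut_dvd (Fintype.card_fin 6)
  · rw [Cfsg.Agent.Alt.card_mulAut_alternatingGroup (by simpa using (by omega : 4 ≤ n)) (by simpa using h6), Nat.card_fin]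
    exact Dvd.intro_left _ rfl

theorem abelian_sylow {G : Type*} [Group G] [Finite G] (r : ℕ) [Fact r.Prime]
    (hr : ¬ r ^ 3 ∣ Nat.card G) (P : Sylow r G) : IsMulCommutative (P : Subgroup G) := by
  obtain ⟨k, hk⟩ := IsPGroup.iff_card.1 P.isPGroup'
  have hk3 : k < 3 := by
    by_contra hge
    exact hr (((Nat.pow_dvd_pow r (not_lt.1 hge)).trans hk.symm.dvd).trans (Subgroup.card_subgroup_dvd_card _))
  interval_cases k
  · have := (Nat.card_eq_one_iff_unique.1 (by rw [hk, pow_zero] : Nat.card (P : Subgroup G) = 1)).1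
    exact ⟨⟨fun a b => Subsingleton.elim _ _⟩⟩
  · have := isCyclic_of_prime_card (show Nat.card (P : Subgroup G) = r by rw [hk, pow_one])
    exact IsCyclic.isMulCommutative
  · exact ⟨⟨IsPGroup.commutative_of_card_eq_prime_sq hk⟩⟩

theorem not_cube_dvd (r n : ℕ) (hr : r.Prime) (hr2 : r ≠ 2) (hn : n < 3 * r) :
    ¬ r ^ 3 ∣ 2 * n.factorial := by
  intro hd
  have hr3 : 3 ≤ r := by have := hr.two_le; omega
  have : Fact r.Prime := ⟨hr⟩
  have hcop : (r ^ 3).Coprime 2 := ((Nat.coprime_primes hr Nat.prime_two).2 hr2).pow_left _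
  have h1 : r ^ 3 ∣ n.factorial := hcop.dvd_of_dvd_mul_left hd
  have hlog : Nat.log r n < 2 := Nat.log_lt_of_lt_pow' (by omega) (lt_of_lt_of_le hn (by rw [sq]; exact Nat.mul_le_mul_right r hr3))
  rw [hr.pow_dvd_factorial_iff (b := 2) hlog] at h1
  simp at h1
  have h2 : n / r < 3 := Nat.div_lt_iff_lt_mul hr.pos |>.2 hn
  omega

theorem exists_element (n : ℕ) (m : Multiset ℕ) (hs : m.sum ≤ n) (h2 : ∀ x ∈ m, 2 ≤ x)
    (hev : Even (m.sum + Multiset.card m)) :
    ∃ g : alternatingGroup (Fin n), orderOf g = m.lcm := by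
  obtain ⟨g, hg⟩ := (Perm.exists_with_cycleType_iff (Fin n) (m := m)).2 ⟨by simpa using hs, h2⟩
  refine ⟨⟨g, Perm.mem_alternatingGroup.2 ?_⟩, ?_⟩
  · rw [Perm.sign_of_cycleType, hg, hev.neg_one_pow]
  · rw [← Subgroup.orderOf_coe, ← Perm.lcm_cycleType, hg]

/-- Let n ≥ 5 and let G be a group of automorphisms of the alternating group of degree n containing all inner automorphisms. If p ≠ q are primes and G has no element of order pq, then every Sylow p-subgroup of G is abelian or every Sylow q-subgroup of G is abelian. -/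
theorem result (n : ℕ) (hn : 5 ≤ n) (G : Subgroup (MulAut (alternatingGroup (Fin n))))
    (hG : (MulAut.conj : alternatingGroup (Fin n) →* MulAut (alternatingGroup (Fin n))).range ≤ G)
    (p q : ℕ) [Fact p.Prime] [Fact q.Prime] (hpq : p ≠ q) (h : ∀ g : G, orderOf g ≠ p * q) :
    (∀ P : Sylow p G, IsMulCommutative (P : Subgroup G)) ∨ (∀ Q : Sylow q G, IsMulCommutative (Q : Subgroup G)) := by
  classical
  have hinj : Function.Injective (MulAut.conj : alternatingGroup (Fin n) →* MulAut (alternatingGroup (Fin n))) := by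
    have : IsSimpleGroup (alternatingGroup (Fin n)) := alternatingGroup.isSimpleGroup (by simpa using hn)
    rw [← MonoidHom.ker_eq_bot_iff]
    refine ((inferInstance : (MonoidHom.ker (MulAut.conj : alternatingGroup (Fin n) →* _)).Normal).eq_bot_or_eq_top).resolve_right fun ht => ?_
    obtain ⟨g, hg⟩ := exists_element n {3} (by simp; omega) (by simp) (by norm_num)
    obtain ⟨h, hh⟩ := exists_element n {5} (by simp; omega) (by simp) (by norm_num)
    obtain ⟨k, hk⟩ := exists_element n {2, 2} (by simp; omega) (by simp) (by norm_num)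
    have hcomm : ∀ a b : alternatingGroup (Fin n), a * b = b * a := fun a b => by
      have h1 : MulAut.conj a b = b := by
        rw [(MonoidHom.mem_ker (f := (MulAut.conj : alternatingGroup (Fin n) →* _))).1 (ht ▸ Subgroup.mem_top a)]; rfl
      exact mul_inv_eq_iff_eq_mul.1 h1
    have hz : Nat.Prime (Nat.card (alternatingGroup (Fin n))) := by
      let : CommGroup (alternatingGroup (Fin n)) := { (inferInstance : Group _) with mul_comm := hcomm }
      exact IsSimpleGroup.prime_card
    have h3 : 3 ∣ Nat.card (alternatingGroup (Fin n)) := by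
      have := orderOf_dvd_natCard g; rwa [hg, Multiset.lcm_singleton, normalize_eq] at this
    have h5 : 5 ∣ Nat.card (alternatingGroup (Fin n)) := by
      have := orderOf_dvd_natCard h; rwa [hh, Multiset.lcm_singleton, normalize_eq] at this
    have e3 := (Nat.prime_dvd_prime_iff_eq Nat.prime_three hz).1 h3
    have e5 := (Nat.prime_dvd_prime_iff_eq Nat.prime_five hz).1 h5
    omega
  have hGdvd : Nat.card G ∣ 2 * n.factorial :=
    (Subgroup.card_subgroup_dvd_card G).trans (card_aut_dvd n hn)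
  have hord : ∀ m : Multiset ℕ, m.sum ≤ n → (∀ x ∈ m, 2 ≤ x) → Even (m.sum + Multiset.card m) →
      ∃ g : G, orderOf g = m.lcm := by
    intro m h1 h2 h3
    obtain ⟨g, hg⟩ := exists_element n m h1 h2 h3
    refine ⟨⟨MulAut.conj g, hG ⟨g, rfl⟩⟩, ?_⟩
    rw [← Subgroup.orderOf_coe, ← hg]
    exact orderOf_injective _ hinj g
  have main : ∀ (r : ℕ) (_ : Fact r.Prime), r ≠ 2 → n < 3 * r →
      ∀ P : Sylow r G, IsMulCommutative (P : Subgroup G) := fun r hr h2 hlt P =>
    abelian_sylow r (fun hd => not_cube_dvd r n hr.out h2 hlt (hd.trans hGdvd)) P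
  have hp := (Fact.out : p.Prime)
  have hq := (Fact.out : q.Prime)
  have lcmpair : ∀ a b : ℕ, a.Coprime b → ({a, b} : Multiset ℕ).lcm = a * b := fun a b hab => by
    simp [lcm_eq_nat_lcm, hab.lcm_eq_mul]
  have two_case : ∀ s : ℕ, s.Prime → s ≠ 2 → (∀ g : G, orderOf g ≠ 2 * s) → n < 3 * s := by
    intro s hs hs2 hno
    by_contra hge
    push Not at hge
    obtain ⟨j, hj⟩ := hs.odd_of_ne_two hs2
    have hs3 : 3 ≤ s := by have := hs.two_le; omega
    obtain ⟨g, hg⟩ : ∃ g : G, orderOf g = ({s, 2, 2} : Multiset ℕ).lcm := by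
      by_cases hn7 : s + 4 ≤ n
      · exact hord _ (by simp; omega) (by simp; omega) (by simp [Nat.even_iff]; omega)
      · exfalso; omega
    refine hno g (hg.trans ?_)
    have hc : Nat.Coprime s 2 := (Nat.coprime_primes hs Nat.prime_two).2 hs2
    simp [lcm_eq_nat_lcm, hc.lcm_eq_mul, mul_comm]
  by_cases hp2 : p = 2
  · subst hp2
    exact Or.inr (main q inferInstance (Ne.symm hpq) (two_case q hq (Ne.symm hpq) h))
  by_cases hq2 : q = 2
  · subst hq2
    exact Or.inl (main p inferInstance hp2 (two_case p hp hp2 (fun g => mul_comm p 2 ▸ h g)))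
  have hsum : n < p + q := by
    by_contra hge
    push Not at hge
    obtain ⟨i, hi⟩ := hp.odd_of_ne_two hp2
    obtain ⟨j, hj⟩ := hq.odd_of_ne_two hq2
    obtain ⟨g, hg⟩ := hord {p, q} (by simpa using hge) (by simp [hp.two_le, hq.two_le]) (by simp [Nat.even_iff]; omega)
    exact h g (hg.trans (lcmpair p q ((Nat.coprime_primes hp hq).2 hpq)))
  rcases lt_or_ge p q with hlt | hge
  · exact Or.inr (main q inferInstance hq2 (by omega))
  · exact Or.inl (main p inferInstance hp2 (by omega))

end Cfsg.Agent.S4231
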