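import Cfsg.Statements.S4234
import Cfsg.Agent.Linear.Transvection
import Cfsg.Agent.Linear.SmallIso
import Cfsg.Agent.Linear.GLTwo
import Cfsg.Agent.Linear.Orders

set_option autoImplicit false
open Cfsg

namespace Cfsg.Agent.S4234

open scoped MatrixGroups

section
open Subgroup

variable {G : Type*} [Group G] [Finite G] [IsSimpleGroup G]

theorem index_ge (hG : Nat.card G = 1092) {H : Subgroup G} (hH : H ≠ ⊤) : Nat.card H ≤ 84 := by
  have hcore : H.normalCore = ⊥ := by
    refine ((normalCore_normal H).eq_bot_or_eq_top).resolve_right fun h => hH ?_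
    exact top_le_iff.1 (h ▸ normalCore_le H)
  have hinj : Function.Injective (MulAction.toPermHom G (G ⧸ H)) := by
    rw [← MonoidHom.ker_eq_bot_iff, ← normalCore_eq_ker, hcore]
  have hd := card_dvd_of_injective _ hinj
  rw [Nat.card_perm, ← index_eq_card] at hd
  have h13 : 13 ≤ H.index :=
    ((by norm_num : Nat.Prime 13).dvd_factorial).1
      (dvd_trans (by rw [hG]; norm_num) hd)
  have h := H.card_mul_index
  rw [hG] at h
  by_contra hlt
  have : 85 * 13 ≤ Nat.card H * H.index := Nat.mul_le_mul (by omega) h13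
  omega

theorem burnside (hnc : ¬ IsMulCommutative G) {p : ℕ} [Fact p.Prime] (P : Sylow p G)
    (hp : p ∣ Nat.card G) :
    ¬ normalizer ((P : Subgroup G) : Set G) ≤ centralizer ((P : Subgroup G) : Set G) := by
  intro h
  have hc := MonoidHom.ker_transferSylow_isComplement' P h
  rcases (MonoidHom.normal_ker (MonoidHom.transferSylow P h)).eq_bot_or_eq_top with h' | h'
  · rw [h'] at hc
    have htop : (P : Subgroup G) = ⊤ := isComplement'_bot_left.1 hc
    refine hnc ⟨⟨fun a b => ?_⟩⟩
    have ha : a ∈ normalizer ((P : Subgroup G) : Set G) :=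
      le_normalizer (show a ∈ (P : Subgroup G) from htop ▸ mem_top a)
    exact (mem_centralizer_iff.1 (h ha) b (show b ∈ (P : Subgroup G) from htop ▸ mem_top b)).symm
  · rw [h'] at hc
    exact P.ne_bot_of_dvd_card hp (isComplement'_top_left.1 hc)

/-- A Sylow subgroup of prime order inside `L` that is forced normal there. -/
theorem le_normalizer_of_count {p c : ℕ} (hp : p.Prime) (L : Subgroup G) (hL : Nat.card L = p * c)
    (hcp : ¬ p ∣ c) (hnum : ∀ d ∈ c.divisors, d % p = 1 → d = 1) :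
    ∃ Q : Subgroup G, Nat.card Q = p ∧ Q ≤ L ∧ L ≤ normalizer (Q : Set G) := by
  haveI := Fact.mk hp
  obtain ⟨P⟩ : Nonempty (Sylow p L) := inferInstance
  have hPc : Nat.card (P : Subgroup L) = p := by
    rw [P.card_eq_multiplicity, hL, Nat.factorization_mul hp.ne_zero (by rintro rfl; simp at hcp),
      Finsupp.add_apply, hp.factorization_self, Nat.factorization_eq_zero_of_not_dvd hcp, pow_one]
  have hidx : (P : Subgroup L).index = c := by
    have h := (P : Subgroup L).card_mul_index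
    rw [hPc, hL] at h
    exact Nat.eq_of_mul_eq_mul_left hp.pos h
  have hn1 : Nat.card (Sylow p L) = 1 := by
    refine hnum _ (Nat.mem_divisors.2 ⟨hidx ▸ P.card_dvd_index, by rintro rfl; simp at hcp⟩) ?_
    have h := card_sylow_modEq_one p L
    rw [Nat.ModEq, Nat.mod_eq_of_lt hp.one_lt] at h
    exact h
  haveI : (P : Subgroup L).Normal := by
    rw [← normalizer_eq_top_iff, ← index_eq_one, ← hn1, P.card_eq_index_normalizer]; rfl
  refine ⟨(P : Subgroup L).map L.subtype, by
    rw [card_map_of_injective L.subtype_injective, hPc], map_subtype_le _, ?_⟩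
  intro g hg
  rw [mem_normalizer_iff]
  have : ∀ (g : L) (y : G), y ∈ (P : Subgroup L).map L.subtype →
      (g : G) * y * (g : G)⁻¹ ∈ (P : Subgroup L).map L.subtype := by
    rintro g _ ⟨y, hy, rfl⟩
    exact ⟨g * y * g⁻¹, Normal.conj_mem inferInstance y hy g, rfl⟩
  intro y
  refine ⟨this ⟨g, hg⟩ y, fun h => ?_⟩
  have h2 := this ⟨g, hg⟩⁻¹ _ h
  simpa [mul_assoc] using h2

theorem card_normalizer_sylow {p : ℕ} [Fact p.Prime] (P : Sylow p G) :
    Nat.card (Sylow p G) * Nat.card (normalizer ((P : Subgroup G) : Set G)) = Nat.card G := by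
  rw [P.card_eq_index_normalizer]; exact index_mul_card _

theorem normalizer_ne_top {Q : Subgroup G} (h1 : Q ≠ ⊥) (h2 : Q ≠ ⊤) :
    normalizer (Q : Set G) ≠ ⊤ := fun h => by
  rcases (normalizer_eq_top_iff.1 h).eq_bot_or_eq_top with h | h
  · exact h1 h
  · exact h2 h

theorem sylow_of_card (hG : Nat.card G = 1092) {p : ℕ} [Fact p.Prime] {Q : Subgroup G}
    (hQ : Nat.card Q = p ^ (1092 : ℕ).factorization p) :
    ∃ P : Sylow p G, (P : Subgroup G) = Q :=
  ⟨Sylow.ofCard Q (by rw [hG]; exact hQ), Sylow.coe_ofCard _ _⟩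

theorem fac (p a m : ℕ) (hp : p.Prime) (h : 1092 = p ^ a * m) (hm : ¬ p ∣ m) :
    (1092 : ℕ).factorization p = a := by
  rw [h, Nat.factorization_mul (pow_ne_zero _ hp.ne_zero) (by rintro rfl; simp at hm),
    Finsupp.add_apply, hp.factorization_pow, Finsupp.single_eq_same,
    Nat.factorization_eq_zero_of_not_dvd hm, add_zero]

theorem card_sylow_props (hG : Nat.card G = 1092) {p : ℕ} [Fact p.Prime] {Q : Subgroup G}
    (hQ : Nat.card Q = p ^ (1092 : ℕ).factorization p) (hpd : p ∣ 1092) (h13 : Nat.card Q < 1092) :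
    ∃ d, d * Nat.card (normalizer (Q : Set G)) = 1092 ∧ d % p = 1 ∧
      Nat.card (normalizer (Q : Set G)) ≤ 84 ∧ Nat.card Q ∣ Nat.card (normalizer (Q : Set G)) := by
  obtain ⟨P, rfl⟩ := sylow_of_card hG hQ
  refine ⟨_, (card_normalizer_sylow P).trans hG, ?_, index_ge hG (normalizer_ne_top ?_ ?_),
    card_dvd_of_le le_normalizer⟩
  · have h := card_sylow_modEq_one p G
    rw [Nat.ModEq, Nat.mod_eq_of_lt (Fact.out : p.Prime).one_lt] at h
    exact h
  · exact P.ne_bot_of_dvd_card (hG ▸ hpd)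
  · intro h
    rw [h, card_top, hG] at h13
    omega

theorem dvd1092 {d n : ℕ} (h : d * n = 1092) : n ∈ (1092 : ℕ).divisors :=
  Nat.mem_divisors.2 ⟨h ▸ dvd_mul_left n d, by norm_num⟩

theorem norm13 (hG : Nat.card G = 1092) {Q : Subgroup G} (hQ : Nat.card Q = 13) :
    Nat.card (normalizer (Q : Set G)) = 78 := by
  haveI : Fact (Nat.Prime 13) := ⟨by norm_num⟩
  obtain ⟨d, h1, h2, h3, h4⟩ := card_sylow_props hG (p := 13) (Q := Q)
    (by rw [fac 13 1 84 (by norm_num) (by norm_num) (by norm_num), hQ, pow_one]) (by norm_num)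
    (by omega)
  rw [hQ] at h4
  obtain ⟨j, hj⟩ := h4
  rw [hj] at h1 h3 ⊢
  have : j ≤ 6 := by omega
  interval_cases j <;> omega

theorem norm7 (hG : Nat.card G = 1092) {Q : Subgroup G} (hQ : Nat.card Q = 7) :
    Nat.card (normalizer (Q : Set G)) = 14 := by
  haveI : Fact (Nat.Prime 7) := ⟨by norm_num⟩
  obtain ⟨d, h1, h2, h3, h4⟩ := card_sylow_props hG (p := 7) (Q := Q)
    (by rw [fac 7 1 156 (by norm_num) (by norm_num) (by norm_num), hQ, pow_one]) (by norm_num)
    (by omega)
  rw [hQ] at h4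
  obtain ⟨j, hj⟩ := h4
  rw [hj] at h1 h3 ⊢
  have : j ≤ 12 := by omega
  interval_cases j <;> omega

/-- Proper subgroups of order divisible by 13. -/
theorem over13 (hG : Nat.card G = 1092) {L : Subgroup G} (hL : L ≠ ⊤) (hd : 13 ∣ Nat.card L) :
    ∃ Q : Subgroup G, Nat.card Q = 13 ∧ Q ≤ L ∧ L ≤ normalizer (Q : Set G) := by
  obtain ⟨c, hc⟩ := hd
  have h84 := index_ge hG hL
  refine le_normalizer_of_count (by norm_num) L hc (fun h => ?_) (fun e he h1 => ?_)
  · obtain ⟨k, rfl⟩ := h
    have : 0 < Nat.card L := Nat.card_pos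
    omega
  · have := Nat.divisor_le he
    omega

/-- Proper subgroups of order divisible by 7. -/
theorem over7 (hG : Nat.card G = 1092) {L : Subgroup G} (hL : L ≠ ⊤) (hd : 7 ∣ Nat.card L) :
    ∃ Q : Subgroup G, Nat.card Q = 7 ∧ Q ≤ L ∧ L ≤ normalizer (Q : Set G) := by
  obtain ⟨c, hc⟩ := hd
  have h84 := index_ge hG hL
  have hdvd := card_subgroup_dvd_card L
  rw [hG, hc] at hdvd
  have hc156 : c ∣ 156 := Nat.dvd_of_mul_dvd_mul_left (by norm_num) (show 7 * c ∣ 7 * 156 from hdvd)
  refine le_normalizer_of_count (by norm_num) L hc (fun h => ?_) (fun e he h1 => ?_)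
  · exact absurd (h.trans hc156) (by norm_num)
  · have hle := Nat.divisor_le he
    have he' : e ∈ (156 : ℕ).divisors :=
      Nat.mem_divisors.2 ⟨(Nat.dvd_of_mem_divisors he).trans hc156, by norm_num⟩
    have : ∀ x ∈ (156 : ℕ).divisors, x % 7 = 1 → x ≤ 12 → x = 1 := by decide
    exact this e he' h1 (by omega)

theorem dvd14 (hG : Nat.card G = 1092) {L : Subgroup G} (hL : L ≠ ⊤) (hd : 7 ∣ Nat.card L) :
    Nat.card L ∣ 14 := by
  obtain ⟨Q, hQ, -, hle⟩ := over7 hG hL hd
  exact norm7 hG hQ ▸ card_dvd_of_le hle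

theorem dvd78 (hG : Nat.card G = 1092) {L : Subgroup G} (hL : L ≠ ⊤) (hd : 13 ∣ Nat.card L) :
    Nat.card L ∣ 78 := by
  obtain ⟨Q, hQ, -, hle⟩ := over13 hG hL hd
  exact norm13 hG hQ ▸ card_dvd_of_le hle

theorem coatom_of_card (hG : Nat.card G = 1092) {M : Subgroup G}
    (hM : Nat.card M = 78 ∨ Nat.card M = 14 ∨ Nat.card M = 12) : IsCoatom M := by
  refine ⟨fun h => by rw [h, card_top, hG] at hM; omega, fun L hL => ?_⟩
  by_contra hne
  have hd := card_dvd_of_le hL.le
  have hlt : Nat.card M < Nat.card L := by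
    by_contra h
    exact hL.ne (eq_of_le_of_card_ge hL.le (by omega))
  rcases hM with h | h | h
  · have := Nat.le_of_dvd (by norm_num) (dvd78 hG hne (dvd_trans (by rw [h]; norm_num) hd)); omega
  · have := Nat.le_of_dvd (by norm_num) (dvd14 hG hne (dvd_trans (by rw [h]; norm_num) hd)); omega
  · have hd' := card_subgroup_dvd_card L
    rw [hG] at hd'
    have h84 := index_ge hG hne
    rw [h] at hd hlt
    obtain ⟨k, hk⟩ := hd
    rw [hk] at hd' hlt h84
    have : k ≤ 7 := by omega
    interval_cases k <;> try omega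
    · have := Nat.le_of_dvd (by norm_num) (dvd14 hG hne (by rw [hk]; norm_num)); omega

/-- Two normal prime-order subgroups generating `L` centralise each other. -/
theorem le_centralizer_of_two {p q : ℕ} (hp : p.Prime) (hq : q.Prime) (hpq : p ≠ q)
    {P Q L : Subgroup G} (hP : Nat.card P = p) (hQ : Nat.card Q = q) (hPL : P ≤ L) (hQL : Q ≤ L)
    (hL : Nat.card L = p * q) (hnP : L ≤ normalizer (P : Set G))
    (hnQ : L ≤ normalizer (Q : Set G)) : L ≤ centralizer (P : Set G) := by
  have hcop : Nat.Coprime p q := (Nat.coprime_primes hp hq).2 hpq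
  have hdis : P ⊓ Q = ⊥ := inf_eq_bot_of_coprime (by rw [hP, hQ]; exact hcop)
  haveI := Fact.mk hp
  haveI : IsCyclic P := isCyclic_of_prime_card hP
  letI := IsCyclic.commGroup (α := P)
  have hQC : Q ≤ centralizer (P : Set G) := by
    intro y hy
    rw [mem_centralizer_iff]
    intro x hx
    have h1 : x * y * x⁻¹ * y⁻¹ ∈ P ⊓ Q := by
      refine ⟨?_, Q.mul_mem ((mem_normalizer_iff.1 (hnQ (hPL hx)) y).1 hy) (Q.inv_mem hy)⟩
      have := (mem_normalizer_iff.1 (hnP (hQL hy)) x⁻¹).1 (P.inv_mem hx)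
      simpa [mul_assoc] using P.mul_mem hx this
    rw [hdis, mem_bot, mul_inv_eq_one, mul_inv_eq_iff_eq_mul] at h1
    exact h1
  have hPC : P ≤ centralizer (P : Set G) := fun x hx => mem_centralizer_iff.2 fun y hy =>
    congrArg Subtype.val (mul_comm (⟨y, hy⟩ : P) ⟨x, hx⟩)
  have hsup : P ⊔ Q = L := by
    refine eq_of_le_of_card_ge (sup_le hPL hQL) ?_
    rw [hL]
    refine Nat.le_of_dvd Nat.card_pos (hcop.mul_dvd_of_dvd_of_dvd ?_ ?_)
    · exact hP ▸ card_dvd_of_le le_sup_left
    · exact hQ ▸ card_dvd_of_le le_sup_right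
  exact hsup ▸ sup_le hPC hQC

theorem norm3 (hG : Nat.card G = 1092) (hnc : ¬ IsMulCommutative G) {Q : Subgroup G}
    (hQ : Nat.card Q = 3) : Nat.card (normalizer (Q : Set G)) = 12 := by
  haveI : Fact (Nat.Prime 3) := ⟨Nat.prime_three⟩
  have hfac : (1092 : ℕ).factorization 3 = 1 :=
    fac 3 1 364 Nat.prime_three (by norm_num) (by norm_num)
  obtain ⟨d, h1, h2, h3, h4⟩ := card_sylow_props hG (p := 3) (Q := Q)
    (by rw [hfac, hQ, pow_one]) (by norm_num) (by omega)
  have hne : normalizer (Q : Set G) ≠ ⊤ := fun h => by rw [h, card_top, hG] at h3; omega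
  obtain ⟨P, hP⟩ := sylow_of_card hG (p := 3) (Q := Q) (by rw [hfac, hQ, pow_one])
  have hB := burnside hnc P (hG ▸ by norm_num)
  rw [hP] at hB
  by_contra hne12
  have hmem : Nat.card (normalizer (Q : Set G)) ∈ ({3, 21, 39} : Finset ℕ) ∨
      Nat.card (normalizer (Q : Set G)) = 84 := by
    rw [hQ] at h4
    obtain ⟨j, hj⟩ := h4
    rw [hj] at h1 h3 hne12 ⊢
    have : j ≤ 28 := by omega
    simp only [Finset.mem_insert, Finset.mem_singleton]
    interval_cases j <;> omega
  rcases hmem with hmem | h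
  · simp only [Finset.mem_insert, Finset.mem_singleton] at hmem
    apply hB
    haveI : IsCyclic Q := isCyclic_of_prime_card hQ
    rcases hmem with h | h | h
    · have heq : Q = normalizer (Q : Set G) := eq_of_le_of_card_ge le_normalizer (by omega)
      letI := IsCyclic.commGroup (α := Q)
      rw [← heq]
      exact fun x hx => mem_centralizer_iff.2 fun y hy =>
        congrArg Subtype.val (mul_comm (⟨y, hy⟩ : Q) ⟨x, hx⟩)
    · obtain ⟨R, hR, hRL, hLR⟩ := over7 hG hne (by rw [h]; norm_num)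
      exact le_centralizer_of_two Nat.prime_three (by norm_num) (by norm_num) hQ hR le_normalizer
        hRL h le_rfl hLR
    · obtain ⟨R, hR, hRL, hLR⟩ := over13 hG hne (by rw [h]; norm_num)
      exact le_centralizer_of_two Nat.prime_three (by norm_num) (by norm_num) hQ hR le_normalizer
        hRL h le_rfl hLR
  · have := Nat.le_of_dvd (by norm_num) (dvd14 hG hne (by rw [h]; norm_num))
    omega

theorem comm_of_card_four {P : Subgroup G} (hP : Nat.card P = 4) {x y : G} (hx : x ∈ P)
    (hy : y ∈ P) : x * y = y * x := by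
  haveI : Fact (Nat.Prime 2) := ⟨Nat.prime_two⟩
  exact congrArg Subtype.val (IsPGroup.commutative_of_card_eq_prime_sq
    (show Nat.card P = 2 ^ 2 by rw [hP]; rfl) ⟨x, hx⟩ ⟨y, hy⟩)

theorem norm4 (hG : Nat.card G = 1092) (hnc : ¬ IsMulCommutative G) {Q : Subgroup G}
    (hQ : Nat.card Q = 4) : Nat.card (normalizer (Q : Set G)) = 12 ∧
      ¬ normalizer (Q : Set G) ≤ centralizer (Q : Set G) := by
  haveI : Fact (Nat.Prime 2) := ⟨Nat.prime_two⟩
  have hfac : (1092 : ℕ).factorization 2 = 2 :=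
    fac 2 2 273 Nat.prime_two (by norm_num) (by norm_num)
  have hQ' : Nat.card Q = 2 ^ (1092 : ℕ).factorization 2 := by rw [hfac, hQ]; rfl
  obtain ⟨d, h1, h2, h3, h4⟩ := card_sylow_props hG (p := 2) hQ' (by norm_num) (by omega)
  obtain ⟨P, hP⟩ := sylow_of_card hG (p := 2) hQ'
  have hB := burnside hnc P (hG ▸ by norm_num)
  rw [hP] at hB
  refine ⟨?_, hB⟩
  have hne : normalizer (Q : Set G) ≠ ⊤ := fun h => by rw [h, card_top, hG] at h3; omega
  have hdd := card_subgroup_dvd_card (normalizer (Q : Set G))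
  rw [hG] at hdd
  rw [hQ] at h4
  obtain ⟨j, hj⟩ := h4
  have hj21 : j ≤ 21 := by omega
  rw [hj] at hdd ⊢
  interval_cases j <;> try omega
  · exfalso
    apply hB
    have heq : Q = normalizer (Q : Set G) := eq_of_le_of_card_ge le_normalizer (by omega)
    rw [← heq]
    exact fun x hx => mem_centralizer_iff.2 fun y hy => comm_of_card_four hQ hy hx
  · have := Nat.le_of_dvd (by norm_num) (dvd14 hG hne (by rw [hj]; norm_num)); omega
  · have := dvd78 hG hne (by rw [hj]; norm_num); rw [hj] at this; omega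
  · have := Nat.le_of_dvd (by norm_num) (dvd14 hG hne (by rw [hj]; norm_num)); omega

theorem cent_invol (hG : Nat.card G = 1092) (hnc : ¬ IsMulCommutative G) {x : G}
    (hx : orderOf x = 2) : Nat.card (centralizer ({x} : Set G)) = 12 := by
  haveI : Fact (Nat.Prime 2) := ⟨Nat.prime_two⟩
  haveI : Fact (Nat.Prime 3) := ⟨Nat.prime_three⟩
  have hfac : (1092 : ℕ).factorization 2 = 2 :=
    fac 2 2 273 Nat.prime_two (by norm_num) (by norm_num)
  -- every involution lies in a subgroup of order 4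
  have hfour : ∀ z : G, orderOf z = 2 → ∃ R : Sylow 2 G, z ∈ (R : Subgroup G) ∧
      Nat.card (R : Subgroup G) = 4 := by
    intro z hz
    obtain ⟨R, hR⟩ := (IsPGroup.of_card (n := 1)
      (show Nat.card (zpowers z) = 2 ^ 1 by rw [Nat.card_zpowers, hz]; rfl)).exists_le_sylow
    exact ⟨R, hR (mem_zpowers z), by rw [R.card_eq_multiplicity, hG, hfac]; rfl⟩
  -- some involution commutes with an element of order 3
  obtain ⟨Q, hQ⟩ := Sylow.exists_subgroup_card_pow_prime (G := G) 3 (n := 1) (hG ▸ by norm_num)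
  rw [pow_one] at hQ
  have hN := norm3 hG hnc hQ
  obtain ⟨R, hR⟩ := Sylow.exists_subgroup_card_pow_prime (G := normalizer (Q : Set G)) 2 (n := 2)
    (hN ▸ by norm_num)
  obtain ⟨q, hq⟩ := exists_prime_orderOf_dvd_card' (G := Q) 3 (dvd_of_eq hQ.symm)
  haveI : IsCyclic Q := isCyclic_of_prime_card hQ
  haveI := Fintype.ofFinite G
  classical
  haveI : Fintype R := Fintype.ofFinite _
  have hinv : ∀ g : R, ((g : normalizer (Q : Set G)) : G) * q * ((g : normalizer (Q : Set G)) : G)⁻¹
      = q ∨ ((g : normalizer (Q : Set G)) : G) * q * ((g : normalizer (Q : Set G)) : G)⁻¹ = (q : G)⁻¹ := by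
    intro g
    have hmem := (mem_normalizer_iff.1 g.1.2 q).1 q.2
    obtain ⟨i, hi⟩ := (mem_powers_of_prime_card hQ
      (g := q) (g' := ⟨_, hmem⟩) (fun h => by rw [h, orderOf_one] at hq; omega))
    simp only at hi
    rw [show q ^ i = q ^ (i % 3) by rw [← hq, pow_mod_orderOf]] at hi
    have hi' : ((q : G)) ^ (i % 3) =
        ((g : normalizer (Q : Set G)) : G) * q * ((g : normalizer (Q : Set G)) : G)⁻¹ := by
      simpa using congrArg Subtype.val hi
    rw [← hi']
    have : i % 3 < 3 := Nat.mod_lt _ (by norm_num)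
    interval_cases h : i % 3
    · exfalso
      rw [pow_zero] at hi'
      have : (q : G) = 1 := by
        have h' := congrArg (fun t => ((g : normalizer (Q : Set G)) : G)⁻¹ * t *
          ((g : normalizer (Q : Set G)) : G)) hi'
        simpa [mul_assoc] using h'.symm
      rw [OneMemClass.coe_eq_one] at this
      rw [this, orderOf_one] at hq
      omega
    · left; rw [pow_one]
    · right
      apply eq_inv_of_mul_eq_one_left
      rw [← pow_succ, ← SubmonoidClass.coe_pow, show q ^ 3 = 1 by rw [← hq, pow_orderOf_eq_one]]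
      rfl
  obtain ⟨z, hz1, hzc⟩ : ∃ z : R, z ≠ 1 ∧
      ((z : normalizer (Q : Set G)) : G) * q * ((z : normalizer (Q : Set G)) : G)⁻¹ = q := by
    by_contra hne
    push Not at hne
    obtain ⟨g, hg⟩ : ∃ g : R, g ≠ 1 := by
      haveI : Nontrivial R := Finite.one_lt_card_iff_nontrivial.1 (by rw [hR]; norm_num)
      exact exists_ne 1
    obtain ⟨h, hh⟩ : ∃ h : R, h ∉ ({1, g, g⁻¹} : Finset R) := by
      by_contra hall
      push Not at hall
      have := (Finset.card_le_card (s := Finset.univ) fun x _ => hall x).trans Finset.card_le_three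
      rw [Finset.card_univ, ← Nat.card_eq_fintype_card, hR] at this
      norm_num at this
    simp only [Finset.mem_insert, Finset.mem_singleton, not_or] at hh
    have h1 := (hinv g).resolve_left (hne g hg)
    have h2 := (hinv h).resolve_left (hne h hh.1)
    refine hne (g * h) (fun e => hh.2.2 (eq_inv_of_mul_eq_one_right e)) ?_
    simp only [Subgroup.coe_mul, mul_inv_rev]
    have h3 := congrArg (fun t => t⁻¹) h1
    simp only [mul_inv_rev, inv_inv] at h3
    calc ((g : normalizer (Q : Set G)) : G) * ((h : normalizer (Q : Set G)) : G) * q *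
          (((h : normalizer (Q : Set G)) : G)⁻¹ * ((g : normalizer (Q : Set G)) : G)⁻¹)
        = ((g : normalizer (Q : Set G)) : G) * (q : G)⁻¹ * ((g : normalizer (Q : Set G)) : G)⁻¹ := by
          rw [← h2]; group
      _ = q := by rw [mul_assoc]; exact h3
  -- an involution power of `z`
  obtain ⟨k, hk⟩ := IsPGroup.iff_orderOf.1 (IsPGroup.of_card hR) z
  have hk0 : k ≠ 0 := by
    rintro rfl
    rw [pow_zero, orderOf_eq_one_iff] at hk
    exact hz1 hk
  set t : G := ((z : normalizer (Q : Set G)) : G) ^ (2 ^ (k - 1)) with ht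
  have hto : orderOf t = 2 := by
    rw [ht, orderOf_pow, Subgroup.orderOf_coe, Subgroup.orderOf_coe, hk,
      Nat.gcd_eq_right (pow_dvd_pow 2 (Nat.sub_le k 1)), Nat.pow_div (Nat.sub_le k 1) two_pos,
      show k - (k - 1) = 1 by omega, pow_one]
  have htq : (q : G) ∈ centralizer ({t} : Set G) := by
    rw [mem_centralizer_singleton_iff]
    exact (Commute.pow_right (mul_inv_eq_iff_eq_mul.1 hzc).symm _).eq
  have hcent_ne : ∀ y : G, orderOf y = 2 → centralizer ({y} : Set G) ≠ ⊤ := by
    intro y hy h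
    have hc : y ∈ center G := mem_center_iff.2 fun g =>
      mem_centralizer_singleton_iff.1 (h ▸ mem_top g)
    rcases (inferInstance : (center G).Normal).eq_bot_or_eq_top with h0 | h0
    · rw [h0, mem_bot] at hc
      rw [hc, orderOf_one] at hy
      omega
    · exact hnc ⟨⟨fun a b => (mem_center_iff.1 (h0 ▸ mem_top b) a)⟩⟩
  have h4div : ∀ y : G, orderOf y = 2 → 4 ∣ Nat.card (centralizer ({y} : Set G)) := by
    intro y hy
    obtain ⟨R', hyR, hR'⟩ := hfour y hy
    rw [← hR']
    exact card_dvd_of_le fun r hr => mem_centralizer_singleton_iff.2 (comm_of_card_four hR' hr hyR)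
  have ht12 : Nat.card (centralizer ({t} : Set G)) = 12 := by
    have h3 : 3 ∣ Nat.card (centralizer ({t} : Set G)) := by
      have := orderOf_dvd_natCard (⟨(q : G), htq⟩ : centralizer ({t} : Set G))
      rwa [Subgroup.orderOf_mk, Subgroup.orderOf_coe, hq] at this
    have h84 := index_ge hG (hcent_ne t hto)
    obtain ⟨j, hj⟩ := Nat.Coprime.mul_dvd_of_dvd_of_dvd (by norm_num) (h4div t hto) h3
    have hdd := card_subgroup_dvd_card (centralizer ({t} : Set G))
    rw [hG, hj] at hdd
    rw [hj] at h84 ⊢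
    have : 0 < Nat.card (centralizer ({t} : Set G)) := Nat.card_pos
    have hj7 : j ≤ 7 := by omega
    interval_cases j <;> try omega
    · have := Nat.le_of_dvd (by norm_num) (dvd14 hG (hcent_ne t hto) (by rw [hj]; norm_num))
      omega
  -- all involutions are conjugate
  obtain ⟨R1, htR, hR1⟩ := hfour t hto
  obtain ⟨R2, hxR, hR2⟩ := hfour x hx
  obtain ⟨g, hg⟩ := MulAction.exists_smul_eq G R2 R1
  have hx' : g * x * g⁻¹ ∈ (R1 : Subgroup G) := by
    rw [← hg, Sylow.coe_subgroup_smul]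
    exact ⟨x, hxR, rfl⟩
  obtain ⟨hN4, hB⟩ := norm4 hG hnc hR1
  obtain ⟨y, hy⟩ := exists_prime_orderOf_dvd_card'
    (G := normalizer ((R1 : Subgroup G) : Set G)) 3 (hN4 ▸ by norm_num)
  have hy3 : (y : G) ^ 3 = 1 := by
    rw [← hy, ← Subgroup.orderOf_coe, pow_orderOf_eq_one]
  have hyR : ∀ z ∈ (R1 : Subgroup G), (y : G) * z * (y : G)⁻¹ ∈ (R1 : Subgroup G) := fun z hz =>
    (mem_normalizer_iff.1 y.2 z).1 hz
  obtain ⟨z, hz, hzy⟩ : ∃ z ∈ (R1 : Subgroup G), (y : G) * z * (y : G)⁻¹ ≠ z := by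
    by_contra hall
    push Not at hall
    apply hB
    have hle : (R1 : Subgroup G) ⊔ zpowers (y : G) = normalizer ((R1 : Subgroup G) : Set G) := by
      refine eq_of_le_of_card_ge (sup_le le_normalizer (zpowers_le.2 y.2)) ?_
      rw [hN4]
      refine Nat.le_of_dvd Nat.card_pos (Nat.Coprime.mul_dvd_of_dvd_of_dvd
        (by norm_num : Nat.Coprime 4 3) ?_ ?_)
      · exact hR1 ▸ card_dvd_of_le le_sup_left
      · rw [← hy, ← Subgroup.orderOf_coe, ← Nat.card_zpowers]
        exact card_dvd_of_le le_sup_right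
    rw [← hle]
    refine sup_le (fun r hr => mem_centralizer_iff.2 fun s hs => comm_of_card_four hR1 hs hr)
      (zpowers_le.2 (mem_centralizer_iff.2 fun r hr => ?_))
    exact (mul_inv_eq_iff_eq_mul.1 (hall r hr)).symm
  set z1 := (y : G) * z * (y : G)⁻¹ with hz1def
  set z2 := (y : G) * z1 * (y : G)⁻¹ with hz2def
  have hyyy : (y : G) * ((y : G) * (y : G)) = 1 := by
    rw [← hy3, pow_succ, pow_two, mul_assoc]
  have hz3 : (y : G) * z2 * (y : G)⁻¹ = z := by
    rw [hz2def, hz1def]
    calc (y : G) * ((y : G) * ((y : G) * z * (y : G)⁻¹) * (y : G)⁻¹) * (y : G)⁻¹ =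
        ((y : G) * ((y : G) * (y : G))) * z * ((y : G) * ((y : G) * (y : G)))⁻¹ := by group
      _ = z := by rw [hyyy]; simp
  have hne1 : z ≠ 1 := fun h => hzy (by rw [hz1def, h]; simp)
  have hne2 : z2 ≠ z := fun h => by
    rw [h] at hz3
    exact hzy hz3
  have hne3 : z2 ≠ z1 := fun h => hne2 (by
    have : z1 = z := by
      have := congrArg (fun s => (y : G)⁻¹ * s * (y : G)) h
      simpa [hz1def, hz2def, mul_assoc] using this
    exact absurd this hzy)
  haveI : Fintype (R1 : Subgroup G) := Fintype.ofFinite _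
  have hall : ∀ r ∈ (R1 : Subgroup G), r = 1 ∨ r = z ∨ r = z1 ∨ r = z2 := by
    intro r hr
    by_contra hcon
    simp only [not_or] at hcon
    have hz1R := hyR z hz
    have hz2R := hyR z1 hz1R
    have hone : ∀ u : G, u ≠ 1 → (y : G) * u * (y : G)⁻¹ ≠ 1 := fun u hu e => hu (by
      simpa [mul_assoc] using congrArg (fun s => (y : G)⁻¹ * s * (y : G)) e)
    have hz1n : z1 ≠ 1 := hone z hne1
    have hz2n : z2 ≠ 1 := hone z1 hz1n
    have hc : ({1, z, z1, z2, r} : Finset G).card = 5 := by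
      simp [hne1.symm, hz1n.symm, hz2n.symm, Ne.symm hcon.1, Ne.symm hzy, hne2.symm,
        Ne.symm hcon.2.1, hne3.symm, Ne.symm hcon.2.2.1, Ne.symm hcon.2.2.2]
    have hsub : ({1, z, z1, z2, r} : Finset G) ⊆ Finset.univ.map
        ⟨Subtype.val, Subtype.val_injective (p := fun u => u ∈ (R1 : Subgroup G))⟩ := by
      intro u hu
      simp only [Finset.mem_insert, Finset.mem_singleton] at hu
      have hm : u ∈ (R1 : Subgroup G) := by
        rcases hu with rfl | rfl | rfl | rfl | rfl
        exacts [one_mem _, hz, hz1R, hz2R, hr]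
      exact Finset.mem_map.2 ⟨⟨u, hm⟩, Finset.mem_univ _, rfl⟩
    have := Finset.card_le_card hsub
    rw [hc, Finset.card_map, Finset.card_univ] at this
    have hh : Fintype.card (R1 : Subgroup G) = 4 := by rw [← Nat.card_eq_fintype_card, hR1]
    omega
  -- transport
  have hconj : ∀ a b : G, IsConj a b →
      Nat.card (centralizer ({a} : Set G)) = Nat.card (centralizer ({b} : Set G)) := by
    intro a b hab
    obtain ⟨c, hc⟩ := isConj_iff.1 hab
    refine Nat.card_congr ((MulAut.conj c).toEquiv.subtypeEquiv fun u => ?_)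
    rw [← hc, mem_centralizer_singleton_iff, mem_centralizer_singleton_iff]
    exact (commute_map_iff (MulEquiv.injective (MulAut.conj c))).symm
  have hz1c : IsConj z z1 := isConj_iff.2 ⟨(y : G), rfl⟩
  have hz2c : IsConj z z2 := hz1c.trans (isConj_iff.2 ⟨(y : G), rfl⟩)
  have hcases : ∀ r ∈ (R1 : Subgroup G), r ≠ 1 → IsConj z r := by
    intro r hr hr1
    rcases hall r hr with rfl | rfl | rfl | rfl
    exacts [absurd rfl hr1, IsConj.refl _, hz1c, hz2c]
  have ht1 : t ≠ 1 := fun h => by rw [h, orderOf_one] at hto; omega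
  have hx1 : g * x * g⁻¹ ≠ 1 := fun h => by
    rw [conj_eq_one_iff] at h
    rw [h, orderOf_one] at hx
    omega
  rw [hconj x (g * x * g⁻¹) (isConj_iff.2 ⟨g, rfl⟩),
    hconj _ t ((hcases _ hx' hx1).symm.trans (hcases t htR ht1)), ht12]

theorem cent13 (hG : Nat.card G = 1092) (hnc : ¬ IsMulCommutative G) {P : Subgroup G}
    (hP : Nat.card P = 13) : centralizer (P : Set G) = P := by
  haveI : Fact (Nat.Prime 13) := ⟨by norm_num⟩
  haveI : IsCyclic P := isCyclic_of_prime_card hP
  have hPC : P ≤ centralizer (P : Set G) := by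
    letI := IsCyclic.commGroup (α := P)
    exact fun x hx => mem_centralizer_iff.2 fun y hy =>
      congrArg Subtype.val (mul_comm (⟨y, hy⟩ : P) ⟨x, hx⟩)
  have hd78 : Nat.card (centralizer (P : Set G)) ∣ 78 :=
    norm13 hG hP ▸ card_dvd_of_le (centralizer_le_normalizer _)
  have hd13 := card_dvd_of_le hPC
  rw [hP] at hd13
  have key : ∀ (r : ℕ) [Fact r.Prime], r ∣ Nat.card (centralizer (P : Set G)) →
      ∃ x : G, orderOf x = r ∧ P ≤ centralizer ({x} : Set G) := by
    intro r _ hr
    obtain ⟨x, hx⟩ := exists_prime_orderOf_dvd_card' (G := centralizer (P : Set G)) r hr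
    exact ⟨x, by rw [Subgroup.orderOf_coe, hx], fun u hu =>
      mem_centralizer_singleton_iff.2 (mem_centralizer_iff.1 x.2 u hu)⟩
  have h2 : ¬ 2 ∣ Nat.card (centralizer (P : Set G)) := fun hr => by
    haveI : Fact (Nat.Prime 2) := ⟨Nat.prime_two⟩
    obtain ⟨x, hx, hle⟩ := key 2 hr
    have := card_dvd_of_le hle
    rw [cent_invol hG hnc hx, hP] at this
    norm_num at this
  have h3 : ¬ 3 ∣ Nat.card (centralizer (P : Set G)) := fun hr => by
    haveI : Fact (Nat.Prime 3) := ⟨Nat.prime_three⟩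
    obtain ⟨x, hx, hle⟩ := key 3 hr
    have hle' : P ≤ normalizer ((zpowers x : Subgroup G) : Set G) := hle.trans (by
      rw [← centralizer_closure, ← zpowers_eq_closure]
      exact centralizer_le_normalizer _)
    have := card_dvd_of_le hle'
    rw [norm3 hG hnc (by rw [Nat.card_zpowers, hx]), hP] at this
    norm_num at this
  refine (eq_of_le_of_card_ge hPC ?_).symm
  rw [hP]
  obtain ⟨j, hj⟩ := hd13
  rw [hj] at h2 h3 hd78 ⊢
  have : j ≤ 6 := by have := Nat.le_of_dvd (by norm_num) hd78; omega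
  interval_cases j <;> omega

theorem main (hG : Nat.card G = 1092) (hnc : ¬ IsMulCommutative G) (H : Subgroup G)
    (hH : ¬ H.Normal) : IsCoatom (normalizer (H : Set G)) := by
  have h1 : H ≠ ⊥ := fun h => hH (h ▸ inferInstance)
  have h2 : H ≠ ⊤ := fun h => hH (h ▸ inferInstance)
  have hne := normalizer_ne_top h1 h2
  suffices h : ∃ M : Subgroup G, (Nat.card M = 78 ∨ Nat.card M = 14 ∨ Nat.card M = 12) ∧
      M ≤ normalizer (H : Set G) by
    obtain ⟨M, hM, hle⟩ := h
    have hco := coatom_of_card hG hM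
    rcases hle.eq_or_lt with e | e
    · exact e ▸ hco
    · exact absurd (hco.2 _ e) hne
  have hc84 := index_ge hG h2
  have hcd := card_subgroup_dvd_card H
  rw [hG] at hcd
  by_cases h13 : 13 ∣ Nat.card H
  · obtain ⟨P, hP, hPH, hHN⟩ := over13 hG h2 h13
    refine ⟨_, Or.inl (norm13 hG hP), fun g hg => ?_⟩
    haveI : Fact (Nat.Prime 13) := ⟨by norm_num⟩
    haveI : IsCyclic P := isCyclic_of_prime_card hP
    have hcomm : ∀ a ∈ normalizer (P : Set G), ∀ b ∈ H, a * b * a⁻¹ * b⁻¹ ∈ H := by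
      intro a ha b hb
      refine hPH ?_
      rw [← cent13 hG hnc hP, mem_centralizer_iff]
      intro u hu
      obtain ⟨i, hi⟩ := MonoidHom.map_cyclic (MulEquiv.toMonoidHom
        (P.normalizerMonoidHom ⟨a, ha⟩ : MulAut P))
      obtain ⟨j, hj⟩ := MonoidHom.map_cyclic (MulEquiv.toMonoidHom
        (P.normalizerMonoidHom ⟨b, hHN hb⟩ : MulAut P))
      have ea : ∀ v ∈ P, a * v * a⁻¹ = v ^ i := fun v hv => congrArg Subtype.val (hi ⟨v, hv⟩)
      have eb : ∀ v ∈ P, b * v * b⁻¹ = v ^ j := fun v hv => congrArg Subtype.val (hj ⟨v, hv⟩)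
      have e1 : (a * b) * u * (a * b)⁻¹ = (b * a) * u * (b * a)⁻¹ := by
        rw [show (a * b) * u * (a * b)⁻¹ = a * (b * u * b⁻¹) * a⁻¹ by group, eb u hu,
          ea _ (P.zpow_mem hu j), show (b * a) * u * (b * a)⁻¹ = b * (a * u * a⁻¹) * b⁻¹ by group,
          ea u hu, eb _ (P.zpow_mem hu i), ← zpow_mul, ← zpow_mul, mul_comm]
      have e2 : (a * b) * ((b * a)⁻¹ * u * (b * a)) * (a * b)⁻¹ = u := by
        have hmem : (b * a)⁻¹ * u * (b * a) ∈ P := by
          simpa using (mem_normalizer_iff.1 ((normalizer (P : Set G)).inv_mem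
            ((normalizer (P : Set G)).mul_mem (hHN hb) ha)) u).1 hu
        have e1' : (a * b) * ((b * a)⁻¹ * u * (b * a)) * (a * b)⁻¹ =
            (b * a) * ((b * a)⁻¹ * u * (b * a)) * (b * a)⁻¹ := by
          rw [show (a * b) * ((b * a)⁻¹ * u * (b * a)) * (a * b)⁻¹ =
              a * (b * ((b * a)⁻¹ * u * (b * a)) * b⁻¹) * a⁻¹ by group, eb _ hmem,
            ea _ (P.zpow_mem hmem j),
            show (b * a) * ((b * a)⁻¹ * u * (b * a)) * (b * a)⁻¹ =
              b * (a * ((b * a)⁻¹ * u * (b * a)) * a⁻¹) * b⁻¹ by group,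
            ea _ hmem, eb _ (P.zpow_mem hmem i), ← zpow_mul, ← zpow_mul, mul_comm]
        rw [e1']; group
      symm
      calc a * b * a⁻¹ * b⁻¹ * u
          = ((a * b) * ((b * a)⁻¹ * u * (b * a)) * (a * b)⁻¹) * (a * b * a⁻¹ * b⁻¹) := by group
        _ = u * (a * b * a⁻¹ * b⁻¹) := by rw [e2]
    have hfwd : ∀ a ∈ normalizer (P : Set G), ∀ b ∈ H, a * b * a⁻¹ ∈ H := fun a ha b hb => by
      simpa using H.mul_mem (hcomm a ha b hb) hb
    rw [mem_normalizer_iff]
    exact fun b => ⟨hfwd g hg b, fun h => by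
      simpa [mul_assoc] using hfwd g⁻¹ (inv_mem hg) _ h⟩
  by_cases h7 : 7 ∣ Nat.card H
  · obtain ⟨P, hP, hPH, hHN⟩ := over7 hG h2 h7
    have hd := dvd14 hG h2 h7
    have hN := norm7 hG hP
    have hcases : Nat.card H = 7 ∨ Nat.card H = 14 := by
      obtain ⟨j, hj⟩ := h7
      rw [hj] at hd ⊢
      have := Nat.le_of_dvd (by norm_num) hd
      have : 0 < Nat.card H := Nat.card_pos
      omega
    rcases hcases with h | h
    · exact ⟨_, Or.inr (Or.inl hN), le_of_eq (by rw [eq_of_le_of_card_ge hPH (by omega)])⟩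
    · exact ⟨H, Or.inr (Or.inl h), le_normalizer⟩
  have hd12 : Nat.card H ∣ 12 := by
    have hh : Nat.card H ∣ 12 * 7 := by
      have h12 : Nat.card H ∣ 13 * (12 * 7) := hcd
      exact ((Nat.Prime.coprime_iff_not_dvd (by norm_num : Nat.Prime 13)).2 h13).symm.dvd_of_dvd_mul_left h12
    exact ((Nat.Prime.coprime_iff_not_dvd (by norm_num : Nat.Prime 7)).2 h7).symm.dvd_of_dvd_mul_right hh
  have hH1 : Nat.card H ≠ 1 := fun h => h1 (card_eq_one.1 h)
  have hle12 := Nat.le_of_dvd (by norm_num) hd12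
  have hmem : Nat.card H ∈ (12 : ℕ).divisors := Nat.mem_divisors.2 ⟨hd12, by norm_num⟩
  rw [show (12 : ℕ).divisors = {1, 2, 3, 4, 6, 12} by decide] at hmem
  simp only [Finset.mem_insert, Finset.mem_singleton] at hmem
  rcases hmem with h | h | h | h | h | h
  · exact absurd h hH1
  · haveI : Fact (Nat.Prime 2) := ⟨Nat.prime_two⟩
    obtain ⟨x, hx⟩ := exists_prime_orderOf_dvd_card' (G := H) 2 (dvd_of_eq h.symm)
    have hx' : orderOf (x : G) = 2 := by rw [Subgroup.orderOf_coe, hx]
    have hHx : H = zpowers (x : G) := (eq_of_le_of_card_ge (zpowers_le.2 x.2)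
      (by rw [Nat.card_zpowers, hx', h])).symm
    refine ⟨_, Or.inr (Or.inr (cent_invol hG hnc hx')), ?_⟩
    refine le_trans ?_ (le_of_eq (congrArg (fun L : Subgroup G => normalizer (L : Set G)) hHx.symm))
    rw [← centralizer_closure, ← zpowers_eq_closure]
    exact centralizer_le_normalizer _
  · exact ⟨_, Or.inr (Or.inr (norm3 hG hnc h)), le_rfl⟩
  · exact ⟨_, Or.inr (Or.inr (norm4 hG hnc h).1), le_rfl⟩
  · obtain ⟨Q, hQ, hQH, hHN⟩ := le_normalizer_of_count (G := G) Nat.prime_three H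
      (c := 2) (by rw [h]) (by norm_num) (by decide)
    refine ⟨_, Or.inr (Or.inr (norm3 hG hnc hQ)), fun g hg => ?_⟩
    have hidx : (H.subgroupOf (normalizer (Q : Set G))).index = 2 := by
      have hm := (H.subgroupOf (normalizer (Q : Set G))).card_mul_index
      rw [Nat.card_congr (subgroupOfEquivOfLe hHN).toEquiv, h, norm3 hG hnc hQ] at hm
      omega
    haveI := normal_of_index_eq_two hidx
    rw [mem_normalizer_iff]
    have hfwd : ∀ a ∈ normalizer (Q : Set G), ∀ b ∈ H, a * b * a⁻¹ ∈ H := fun a ha b hb =>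
      mem_subgroupOf.1 (Normal.conj_mem inferInstance (⟨b, hHN hb⟩ : normalizer (Q : Set G))
        (mem_subgroupOf.2 hb) ⟨a, ha⟩)
    exact fun b => ⟨hfwd g hg b, fun h => by
      simpa [mul_assoc] using hfwd g⁻¹ (inv_mem hg) _ h⟩
  · exact ⟨H, Or.inr (Or.inr h), le_normalizer⟩

end

section
open Subgroup

/-- Central double covers with a unique involution. -/
theorem lift_cover {K G : Type*} [Group K] [Finite K] [Group G] (φ : K →* G)
    (hφ : Function.Surjective φ) (hZ : φ.ker ≤ center K)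
    (hu : ∀ a b : K, orderOf a = 2 → orderOf b = 2 → a = b)
    (hk : Nat.card φ.ker = 2)
    (hG : ∀ H : Subgroup G, ¬ H.Normal → IsCoatom (normalizer (H : Set G)))
    (H : Subgroup K) (hH : ¬ H.Normal) : IsCoatom (normalizer (H : Set K)) := by
  haveI : Fact (Nat.Prime 2) := ⟨Nat.prime_two⟩
  obtain ⟨z0, hz0⟩ := exists_prime_orderOf_dvd_card' (G := φ.ker) 2 (dvd_of_eq hk.symm)
  have hker : ∀ z ∈ φ.ker, z = 1 ∨ z = (z0 : K) := by
    intro z hz
    by_cases h : z = 1
    · exact Or.inl h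
    refine Or.inr (hu _ _ ?_ (by rw [Subgroup.orderOf_coe, hz0]))
    have hd : orderOf z ∣ 2 := by
      have := orderOf_dvd_natCard (⟨z, hz⟩ : φ.ker)
      rwa [Subgroup.orderOf_mk, hk] at this
    exact ((Nat.dvd_prime Nat.prime_two).1 hd).resolve_left (fun e => h (orderOf_eq_one_iff.1 e))
  have key : normalizer (H : Set K) = (normalizer ((H.map φ : Subgroup G) : Set G)).comap φ := by
    apply le_antisymm
    · intro g hg
      rw [mem_comap, mem_normalizer_iff]
      intro y
      constructor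
      · rintro ⟨h, hh, rfl⟩
        exact ⟨g * h * g⁻¹, (mem_normalizer_iff.1 hg h).1 hh, by simp⟩
      · rintro ⟨h, hh, he⟩
        refine ⟨g⁻¹ * h * g, ?_, ?_⟩
        · simpa using (mem_normalizer_iff.1 (inv_mem hg) h).1 hh
        · rw [map_mul, map_mul, he, map_inv]; group
    · have hfwd : ∀ g : K, φ g ∈ normalizer ((H.map φ : Subgroup G) : Set G) →
          ∀ b ∈ H, g * b * g⁻¹ ∈ H := by
        intro g hg b hb
        obtain ⟨h, hh, he⟩ := (mem_normalizer_iff.1 hg (φ b)).1 (mem_map_of_mem φ hb)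
        have hz : h⁻¹ * (g * b * g⁻¹) ∈ φ.ker := by
          rw [MonoidHom.mem_ker, map_mul, map_inv, he]; simp; group
        rcases hker _ hz with e | e
        · rw [inv_mul_eq_one] at e; exact e ▸ hh
        by_cases hz0H : (z0 : K) ∈ H
        · rw [inv_mul_eq_iff_eq_mul] at e
          exact e ▸ H.mul_mem hh hz0H
        exfalso
        have hodd : ¬ 2 ∣ Nat.card H := fun hd => by
          obtain ⟨u, hu'⟩ := exists_prime_orderOf_dvd_card' (G := H) 2 hd
          exact hz0H (hu (u : K) (z0 : K) (by rw [Subgroup.orderOf_coe, hu'])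
            (by rw [Subgroup.orderOf_coe, hz0]) ▸ u.2)
        have hoh : ∀ v ∈ H, ¬ 2 ∣ orderOf v := fun v hv hd => hodd (hd.trans (by
          have := orderOf_dvd_natCard (⟨v, hv⟩ : H)
          rwa [Subgroup.orderOf_mk] at this))
        -- `g b g⁻¹ = h z₀` has even order
        refine hoh b hb ?_
        have ho : orderOf (g * b * g⁻¹) = orderOf b := by
          rw [← MulAut.conj_apply, MulEquiv.orderOf_eq]
        rw [← ho, (inv_mul_eq_iff_eq_mul.1 e)]
        have hc : Commute h (z0 : K) := mem_center_iff.1 (hZ z0.2) h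
        rw [hc.orderOf_mul_eq_mul_orderOf_of_coprime (by
          rw [Subgroup.orderOf_coe, hz0]
          exact ((Nat.Prime.coprime_iff_not_dvd Nat.prime_two).2 (hoh h hh)).symm),
          Subgroup.orderOf_coe, hz0]
        exact dvd_mul_left 2 _
      intro g hg
      rw [mem_normalizer_iff]
      exact fun b => ⟨hfwd g hg b, fun h => by
        simpa [mul_assoc] using hfwd g⁻¹ (by rw [map_inv]; exact inv_mem hg) _ h⟩
  have hHb : ¬ (H.map φ).Normal := fun h => hH (by
    rw [← normalizer_eq_top_iff, key, normalizer_eq_top_iff.2 h, comap_top])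
  have hco := hG _ hHb
  rw [key]
  refine ⟨fun h => hco.1 ?_, fun L hL => ?_⟩
  · rw [← map_comap_eq_self_of_surjective hφ (normalizer _), h, map_top_of_surjective φ hφ]
  · have hkerL : φ.ker ≤ L := le_trans (fun z hz => by
      rw [mem_comap, MonoidHom.mem_ker.1 hz]; exact one_mem _) hL.le
    have hL' : (L.map φ).comap φ = L := by rw [comap_map_eq, sup_eq_left.2 hkerL]
    have hlt : normalizer ((H.map φ : Subgroup G) : Set G) < L.map φ := by
      rw [← comap_lt_comap_of_surjective hφ, hL']; exact hL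
    rw [← hL', hco.2 _ hlt, comap_top]

/-- Iso invariance. -/
theorem lift_equiv {K G : Type*} [Group K] [Group G] (e : K ≃* G)
    (hG : ∀ H : Subgroup G, ¬ H.Normal → IsCoatom (normalizer (H : Set G)))
    (H : Subgroup K) (hH : ¬ H.Normal) : IsCoatom (normalizer (H : Set K)) := by
  have hHb : ¬ (H.map e.toMonoidHom).Normal := fun h => hH (by
    haveI := h
    rw [← comap_map_eq_self_of_injective (f := e.toMonoidHom) e.injective H]
    exact Normal.comap h e.toMonoidHom)
  have key : normalizer (H : Set K) =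
      (normalizer ((H.map e.toMonoidHom : Subgroup G) : Set G)).comap e.toMonoidHom := by
    ext g
    rw [mem_comap, mem_normalizer_iff, mem_normalizer_iff, e.surjective.forall]
    refine forall_congr' fun y => ?_
    simp only [MulEquiv.coe_toMonoidHom]
    rw [← map_inv, ← map_mul, ← map_mul]
    exact iff_congr (mem_map_iff_mem e.injective).symm (mem_map_iff_mem e.injective).symm
  rw [key]
  exact (OrderIso.isCoatom_iff e.comapSubgroup _).2 (hG _ hHb)

theorem psl13 : ∀ H : Subgroup (Matrix.ProjectiveSpecialLinearGroup (Fin 2) (ZMod 13)),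
    ¬ H.Normal → IsCoatom (normalizer (H : Set (Matrix.ProjectiveSpecialLinearGroup (Fin 2) (ZMod 13)))) := by
  haveI : Fact (Nat.Prime 13) := ⟨by norm_num⟩
  haveI := Cfsg.Agent.Linear.isSimpleGroup_PSL_fin (F := ZMod 13) 2 le_rfl
    (fun _ => by rw [Nat.card_zmod]; norm_num)
  have h2 := Cfsg.Agent.Linear.card_PSL_two_of_odd (F := ZMod 13)
    (by rw [ZMod.card]; decide)
  rw [ZMod.card] at h2
  have hc : Nat.card (Matrix.ProjectiveSpecialLinearGroup (Fin 2) (ZMod 13)) = 1092 := by omega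
  refine main hc fun hcomm => ?_
  letI : CommGroup (Matrix.ProjectiveSpecialLinearGroup (Fin 2) (ZMod 13)) :=
    { (inferInstance : Group (Matrix.ProjectiveSpecialLinearGroup (Fin 2) (ZMod 13))) with
      mul_comm := hcomm.is_comm.comm }
  have := IsSimpleGroup.prime_card (α := Matrix.ProjectiveSpecialLinearGroup (Fin 2) (ZMod 13))
  rw [hc] at this
  norm_num at this

theorem two13 : (2 : ZMod 13) ≠ 0 := by decide

theorem sl13 : ∀ H : Subgroup (Matrix.SpecialLinearGroup (Fin 2) (ZMod 13)),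
    ¬ H.Normal → IsCoatom (normalizer (H : Set (Matrix.SpecialLinearGroup (Fin 2) (ZMod 13)))) := by
  haveI : Fact (Nat.Prime 13) := ⟨by norm_num⟩
  refine lift_cover (QuotientGroup.mk' (center _)) (QuotientGroup.mk'_surjective _)
    (by rw [QuotientGroup.ker_mk']) ?_ ?_ psl13
  · intro a b ha hb
    have two_ne : (2 : ZMod 13) ≠ 0 := two13
    have hv : ∀ g : Matrix.SpecialLinearGroup (Fin 2) (ZMod 13), orderOf g = 2 →
        (g : Matrix (Fin 2) (Fin 2) (ZMod 13)) = -1 := fun g hg =>
      Cfsg.Agent.Linear.eq_neg_one_of_mul_self two_ne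
        (fun h => by rw [h, orderOf_one] at hg; omega)
        ((pow_two g).symm.trans (orderOf_dvd_iff_pow_eq_one.1 hg.dvd))
    exact Subtype.ext ((hv a ha).trans (hv b hb).symm)
  · rw [QuotientGroup.ker_mk']
    have h1 := Cfsg.Agent.Linear.card_center_SL (F := ZMod 13) (ι := Fin 2)
    rw [h1, Fintype.card_fin, ZMod.card]
    decide

theorem product {K S : Type*} [Group K] [CommGroup S] [Finite K] [Finite S]
    (hKS : (Nat.card K).Coprime (Nat.card S))
    (hK : ∀ H : Subgroup K, ¬ H.Normal → IsCoatom (normalizer (H : Set K)))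
    (H : Subgroup (K × S)) (hH : ¬ H.Normal) : IsCoatom (normalizer (H : Set (K × S))) := by
  set φ := MonoidHom.fst K S with hφ
  have hsurj : Function.Surjective φ := fun k => ⟨(k, 1), rfl⟩
  obtain ⟨e, he1, he2⟩ := Nat.chineseRemainder hKS 1 0
  have hpow : ∀ x : K × S, x ^ e = (x.1, 1) := by
    intro x
    refine Prod.ext ?_ ?_
    · rw [Prod.pow_fst]
      conv_rhs => rw [← pow_one x.1]
      exact pow_eq_pow_iff_modEq.2 (he1.of_dvd (orderOf_dvd_natCard x.1))
    · rw [Prod.pow_snd]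
      exact orderOf_dvd_iff_pow_eq_one.1
        ((orderOf_dvd_natCard x.2).trans (Nat.modEq_zero_iff_dvd.1 he2))
  have hfwd : ∀ g : K × S, φ g ∈ normalizer ((H.map φ : Subgroup K) : Set K) →
      ∀ b ∈ H, g * b * g⁻¹ ∈ H := by
    intro g hg b hb
    obtain ⟨h, hh, he⟩ := (mem_normalizer_iff.1 hg (φ b)).1 (mem_map_of_mem φ hb)
    have h1 := H.mul_mem (H.pow_mem hh e) (H.mul_mem (H.inv_mem (H.pow_mem hb e)) hb)
    have heq : g * b * g⁻¹ = h ^ e * ((b ^ e)⁻¹ * b) := by
      rw [hpow, hpow]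
      refine Prod.ext ?_ ?_
      · show g.1 * b.1 * g.1⁻¹ = h.1 * (b.1⁻¹ * b.1)
        rw [inv_mul_cancel, mul_one]
        exact he.symm
      · show g.2 * b.2 * g.2⁻¹ = 1 * (1⁻¹ * b.2)
        rw [mul_inv_cancel_comm, inv_one, one_mul, one_mul]
    rw [heq]
    exact h1
  have key : normalizer (H : Set (K × S)) = (normalizer ((H.map φ : Subgroup K) : Set K)).comap φ := by
    apply le_antisymm
    · intro g hg
      rw [mem_comap, mem_normalizer_iff]
      intro y
      constructor
      · rintro ⟨h, hh, rfl⟩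
        exact ⟨g * h * g⁻¹, (mem_normalizer_iff.1 hg h).1 hh, by simp⟩
      · rintro ⟨h, hh, he⟩
        refine ⟨g⁻¹ * h * g, ?_, ?_⟩
        · simpa using (mem_normalizer_iff.1 (inv_mem hg) h).1 hh
        · rw [map_mul, map_mul, he, map_inv]; group
    · intro g hg
      rw [mem_normalizer_iff]
      exact fun b => ⟨hfwd g hg b, fun h => by
        simpa [mul_assoc] using hfwd g⁻¹ (by rw [map_inv]; exact inv_mem hg) _ h⟩
  have hHb : ¬ (H.map φ).Normal := fun h => hH (by
    rw [← normalizer_eq_top_iff, key, normalizer_eq_top_iff.2 h, comap_top])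
  have hco := hK _ hHb
  rw [key]
  refine ⟨fun h => hco.1 ?_, fun L hL => ?_⟩
  · rw [← map_comap_eq_self_of_surjective hsurj (normalizer _), h, map_top_of_surjective φ hsurj]
  · have hkerL : φ.ker ≤ L := le_trans (fun z hz => by
      rw [mem_comap, MonoidHom.mem_ker.1 hz]; exact one_mem _) hL.le
    have hL' : (L.map φ).comap φ = L := by rw [comap_map_eq, sup_eq_left.2 hkerL]
    have hlt : normalizer ((H.map φ : Subgroup K) : Set K) < L.map φ := by
      rw [← comap_lt_comap_of_surjective hsurj, hL']; exact hL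
    rw [← hL', hco.2 _ hlt, comap_top]

end

/-- Let K be isomorphic to PSL(2, 13) or to SL(2, 13) and let S be a finite abelian group of order coprime to the order of K. Then in the direct product K × S every subgroup that is not normal has a normalizer that is a maximal subgroup. -/
theorem result {K S : Type*} [Group K] [CommGroup S] [Finite K] [Finite S]
    (hK : Nonempty (K ≃* Matrix.ProjectiveSpecialLinearGroup (Fin 2) (ZMod 13)) ∨
      Nonempty (K ≃* Matrix.SpecialLinearGroup (Fin 2) (ZMod 13)))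
    (hKS : (Nat.card K).Coprime (Nat.card S)) (H : Subgroup (K × S)) (hH : ¬ H.Normal) :
    IsCoatom (Subgroup.normalizer (H : Set (K × S))) := by
  refine product hKS ?_ H hH
  rcases hK with ⟨⟨e⟩⟩ | ⟨⟨e⟩⟩
  · exact lift_equiv e psl13
  · exact lift_equiv e sl13

end Cfsg.Agent.S4234
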