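import Cfsg.Statements.S4236
import Mathlib

set_option autoImplicit false
open Cfsg

namespace Cfsg.Agent.S4236

open Subgroup MulAction

section Core

variable {Γ Ω : Type*} [Group Γ] [Finite Γ] [Finite Ω] [MulAction Γ Ω] [FaithfulSMul Γ Ω]

theorem eq_one_of_fix {g : Γ} (h : ∀ x : Ω, g • x = x) : g = 1 :=
  eq_of_smul_eq_smul (α := Ω) fun x => by rw [h, one_smul]

theorem fix_conj (g h : Γ) {x : Ω} (hx : h • x = x) : (g * h * g⁻¹) • (g • x) = g • x := by
  rw [← mul_smul, inv_mul_cancel_right, mul_smul, hx]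

/-- The cycle type of an element of order `17` with one fixed point. -/
theorem centralizer_dvd (hΩ : Nat.card Ω = 35) {σ : Γ} (hσ : σ ^ 17 = 1) {o : Ω}
    (hfix : ∀ x, σ • x = x ↔ x = o) : Nat.card (centralizer ({σ} : Set Γ)) ∣ 578 := by
  classical
  have : Fintype Ω := Fintype.ofFinite Ω
  have hΩ' : Fintype.card Ω = 35 := by rw [← Nat.card_eq_fintype_card, hΩ]
  set f := MulAction.toPermHom Γ Ω with hf
  have hfi : Function.Injective f := MulAction.toPerm_injective
  have hsupp : (f σ).support.card = 34 := by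
    have : (f σ).support = Finset.univ.erase o := by
      ext x
      rw [Equiv.Perm.mem_support, Finset.mem_erase]
      simp [hf, MulAction.toPermHom_apply, hfix]
    rw [this, Finset.card_erase_of_mem (Finset.mem_univ o), Finset.card_univ, hΩ']
  have hall : ∀ n ∈ (f σ).cycleType, n = 17 := by
    intro n hn
    have h1 := (Equiv.Perm.dvd_of_mem_cycleType hn).trans
      (orderOf_dvd_of_pow_eq_one (by rw [← map_pow, hσ, map_one] : (f σ) ^ 17 = 1))
    exact ((Nat.dvd_prime (by norm_num)).1 h1).resolve_left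
      (by have := Equiv.Perm.two_le_of_mem_cycleType hn; omega)
  have hr := Multiset.eq_replicate_card.2 hall
  have hsum := Equiv.Perm.sum_cycleType (f σ)
  rw [hsupp, hr, Multiset.sum_replicate, smul_eq_mul] at hsum
  have hc2 : Multiset.card (f σ).cycleType = 2 := by omega
  rw [hc2] at hr
  refine dvd_trans ?_ (dvd_of_eq (show Nat.card (centralizer {f σ}) = 578 from ?_))
  · have hle : (centralizer ({σ} : Set Γ)).map f ≤ centralizer {f σ} := by
      rintro _ ⟨c, hc, rfl⟩
      rw [mem_centralizer_singleton_iff, ← map_mul, ← map_mul, mem_centralizer_singleton_iff.1 hc]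
    rw [Nat.card_congr (Subgroup.equivMapOfInjective (centralizer ({σ} : Set Γ)) f hfi).toEquiv]
    exact Subgroup.card_dvd_of_le hle
  · rw [Equiv.Perm.nat_card_centralizer, hΩ', hr]
    decide

theorem no_order_three (hΩ : Nat.card Ω = 35) {P : Subgroup Γ} (hP : Nat.card P = 289) {o : Ω}
    (hPfix : ∀ x, (∀ g ∈ P, g • x = x) ↔ x = o)
    {h : Γ} (hh : h ^ 3 = 1) (hn : ∀ g ∈ P, h * g * h⁻¹ ∈ P) (ho : h • o = o)
    (c17 : ∀ (g : Γ) (x : Ω), g ∈ P → g ^ 17 = 1) (hcomm : ∀ g ∈ P, ∀ g' ∈ P, g * g' = g' * g)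
    (horb : ∀ x, x ≠ o → Nat.card (orbit P x) = 17) : h = 1 := by
  classical
  have : Fintype Ω := Fintype.ofFinite Ω
  have hhP : IsPGroup 3 (zpowers h) := by
    refine IsPGroup.of_card_dvd_pow (n := 1) ?_
    rw [Nat.card_zpowers, pow_one]
    exact orderOf_dvd_of_pow_eq_one hh
  -- a fixed point away from `o`
  obtain ⟨a, hao, hha⟩ : ∃ a, a ≠ o ∧ h • a = a := by
    by_contra hcon
    push Not at hcon
    have := Fact.mk Nat.prime_three
    have hm := hhP.card_modEq_card_fixedPoints Ω
    have : Nat.card (fixedPoints (zpowers h) Ω) = 1 := by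
      rw [Nat.card_eq_one_iff_unique]
      exact ⟨⟨fun x y => by
        have hx : ∀ z : fixedPoints (zpowers h) Ω, z.1 = o := fun z => by
          by_contra hz
          exact hcon z.1 hz (z.2 ⟨h, mem_zpowers h⟩)
        exact Subtype.ext ((hx x).trans (hx y).symm)⟩, ⟨⟨o, fun z =>
          (show zpowers h ≤ stabilizer Γ o from zpowers_le.2 ho) z.2⟩⟩⟩
    rw [hΩ, this] at hm
    exact absurd hm (by decide)
  have hA : ∀ x, x ≠ o → Nat.card (stabilizer P x) = 17 := by
    intro x hx
    have := Nat.card_congr (orbitProdStabilizerEquivGroup P x)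
    rw [Nat.card_prod, horb x hx, hP] at this
    omega
  obtain ⟨c, hc⟩ := exists_prime_orderOf_dvd_card' (G := stabilizer P a) (hp := ⟨by norm_num⟩) 17
    (by rw [hA a hao])
  set C : Γ := ((c : P) : Γ) with hC
  have hCP : C ∈ P := (c : P).2
  have hCa : C • a = a := c.2
  have hC1 : C ≠ 1 := fun h1 => by
    rw [← orderOf_coe, ← orderOf_coe, ← hC, h1, orderOf_one] at hc
    omega
  -- `h` centralises `C`
  have hCeq : ∀ g ∈ P, g • a = a → g ∈ zpowers C := by
    intro g hg hga
    have h1 : (⟨⟨g, hg⟩, hga⟩ : stabilizer P a) ∈ zpowers c := by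
      refine mem_zpowers_of_prime_card (hp := ⟨by norm_num⟩) (p := 17) (hA a hao) ?_
      intro h1
      exact hC1 (by rw [hC, h1]; rfl)
    obtain ⟨i, hi⟩ := h1
    exact ⟨i, congrArg (fun z : stabilizer P a => ((z : P) : Γ)) hi⟩
  obtain ⟨i, hi⟩ := hCeq _ (hn C hCP) (by
    have := fix_conj h C hCa
    rwa [hha] at this)
  simp only at hi
  have hC17 : C ^ 17 = 1 := c17 C a hCP
  have hoC : orderOf C = 17 := orderOf_eq_prime (hp := ⟨by norm_num⟩) hC17 hC1
  have hcube : ∀ {g : Γ} {i : ℤ}, g ^ i = h * g * h⁻¹ → h ^ 2 * g * (h ^ 2)⁻¹ = g ^ (i * i) ∧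
      g = g ^ (i * i * i) := by
    intro g i hi
    have e1 : h ^ 2 * g * (h ^ 2)⁻¹ = g ^ (i * i) := by
      rw [pow_two, show h * h * g * (h * h)⁻¹ = h * (h * g * h⁻¹) * h⁻¹ by group, ← hi, ← conj_zpow, ← hi,
        ← zpow_mul]
    refine ⟨e1, ?_⟩
    have e2 : h ^ 3 * g * (h ^ 3)⁻¹ = g ^ (i * i * i) := by
      rw [pow_succ' h 2, show h * h ^ 2 * g * (h * h ^ 2)⁻¹ = h * (h ^ 2 * g * (h ^ 2)⁻¹) * h⁻¹ by group, e1,
        ← conj_zpow, ← hi, ← zpow_mul]
      congr 1
      ring
    rwa [hh, one_mul, inv_one, mul_one] at e2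
  have hunit : ∀ i : ℤ, (i * i * i : ZMod 17) = 1 → (i : ZMod 17) = 1 := by
    intro i
    generalize (i : ZMod 17) = z
    revert z
    decide
  have hcC : h * C * h⁻¹ = C := by
    have e := (hcube hi).2
    nth_rw 1 [← zpow_one C] at e
    rw [zpow_eq_zpow_iff_modEq, hoC, ← ZMod.intCast_eq_intCast_iff] at e
    push_cast at e
    have := hunit i (by rw [e])
    rw [← hi]
    conv_rhs => rw [← zpow_one C]
    rw [zpow_eq_zpow_iff_modEq, hoC, ← ZMod.intCast_eq_intCast_iff, this, Int.cast_one]
  -- an element moving `a`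
  obtain ⟨σ, hσP, hσa⟩ : ∃ σ ∈ P, σ • a ≠ a := by
    by_contra hcon
    push Not at hcon
    exact hao ((hPfix a).1 hcon)
  have hσ17 : σ ^ 17 = 1 := c17 σ a hσP
  have hinjA : ∀ i j : ℤ, σ ^ i • a = σ ^ j • a → (i : ZMod 17) = (j : ZMod 17) := by
    intro i j hij
    have hd : (17 : ℤ) ∣ i - j := by
      by_contra hnd
      apply hσa
      have h0 : σ ^ (i - j) • a = a := by
        rw [sub_eq_neg_add, zpow_add, zpow_neg, mul_smul, hij, inv_smul_smul]
      obtain ⟨u, v, huv⟩ := (Int.prime_iff_natAbs_prime.2 (by norm_num : Nat.Prime ((17 : ℤ).natAbs))).coprime_iff_not_dvd.2 hnd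
      have h1 : σ = (σ ^ (i - j)) ^ v := by
        conv_lhs => rw [← zpow_one σ, ← huv, zpow_add, mul_comm u, zpow_mul, show σ ^ (17 : ℤ) = 1 from by
          exact_mod_cast hσ17, one_zpow, one_mul, mul_comm v, zpow_mul]
      rw [h1]
      exact (show zpowers (σ ^ (i - j)) ≤ stabilizer Γ a from zpowers_le.2 h0) ⟨v, rfl⟩
    rw [← sub_eq_zero, ← Int.cast_sub, ZMod.intCast_zmod_eq_zero_iff_dvd]
    exact hd
  -- the conjugate of `σ` is `σ ^ k` modulo `C`
  have horbA : ∀ x ∈ orbit P a, ∃ k : ℤ, σ ^ k • a = x := by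
    intro x hx
    let f : ZMod 17 → orbit P a := fun z => ⟨σ ^ (z.val : ℤ) • a, ⟨⟨σ ^ (z.val : ℤ), zpow_mem hσP _⟩, rfl⟩⟩
    have hf : Function.Injective f := fun y z hyz => by
      have := hinjA _ _ (congrArg Subtype.val hyz)
      simpa [ZMod.natCast_zmod_val] using this
    have hb := (Nat.bijective_iff_injective_and_card f).2 ⟨hf, by rw [horb a hao, Nat.card_zmod]⟩
    obtain ⟨z, hz⟩ := hb.2 ⟨x, hx⟩
    exact ⟨_, congrArg Subtype.val hz⟩
  obtain ⟨k, hk⟩ := horbA ((h * σ * h⁻¹) • a) ⟨⟨_, hn σ hσP⟩, rfl⟩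
  set τ := h * σ * h⁻¹ with hτ
  have hτC : ∃ j : ℤ, τ = σ ^ k * C ^ j := by
    obtain ⟨j, hj⟩ := hCeq ((σ ^ k)⁻¹ * τ) (mul_mem (inv_mem (zpow_mem hσP k)) (hn σ hσP)) (by
      rw [mul_smul, ← hk, inv_smul_smul])
    exact ⟨j, by rw [show C ^ j = (σ ^ k)⁻¹ * τ from hj, mul_inv_cancel_left]⟩
  obtain ⟨j, hj⟩ := hτC
  -- powers of `h` act on `σ ^ n • a` by multiplication with `k`
  have hmul : ∀ n : ℤ, h • (σ ^ n • a) = σ ^ (k * n) • a := by
    intro n
    have e : h * σ ^ n = τ ^ n * h := by rw [hτ, conj_zpow, inv_mul_cancel_right]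
    rw [← mul_smul, e, mul_smul, hha, hj,
      (Commute.zpow_zpow (hcomm σ hσP C hCP) k j).mul_zpow, mul_smul, ← zpow_mul, ← zpow_mul]
    congr 1
    exact (show zpowers C ≤ stabilizer Γ a from zpowers_le.2 hCa) ⟨j * n, rfl⟩
  have hk1 : (k : ZMod 17) = 1 := by
    apply hunit
    have e : h ^ 3 • (σ ^ (1 : ℤ) • a) = σ ^ (k * (k * k)) • a := by
      rw [pow_three, mul_smul, mul_smul, hmul, hmul, hmul, mul_one]
    rw [hh, one_smul] at e
    have := hinjA _ _ e
    push_cast at this
    rw [mul_assoc]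
    exact this.symm
  have hfixA : ∀ x ∈ orbit P a, h • x = x := by
    intro x hx
    obtain ⟨n, rfl⟩ := horbA x hx
    rw [hmul]
    have : (((k * n) : ℤ) : ZMod 17) = ((n : ℤ) : ZMod 17) := by push_cast; rw [hk1, one_mul]
    rw [ZMod.intCast_eq_intCast_iff] at this
    obtain ⟨t, ht⟩ := this.symm.dvd
    rw [show k * n = n + (17 : ℤ) * t by push_cast at ht; omega, zpow_add, zpow_mul,
      show σ ^ (17 : ℤ) = 1 by exact_mod_cast hσ17, one_zpow, mul_one]
  -- the other orbit
  have hmoved : ∀ x, h • x ≠ x → x ≠ o ∧ x ∉ orbit P a := fun x hx =>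
    ⟨fun h1 => hx (h1 ▸ ho), fun h1 => hx (hfixA x h1)⟩
  by_contra hne
  obtain ⟨b, hb⟩ : ∃ b, h • b ≠ b := by
    by_contra hcon
    push Not at hcon
    exact hne (eq_one_of_fix (Ω := Ω) hcon)
  obtain ⟨hbo, hbA⟩ := hmoved b hb
  have hCb : ∀ x, x ≠ o → x ∉ orbit P a → C • x ≠ x := by
    intro x hxo hxA hCx
    -- then `C` fixes three orbits' worth of points
    have hfixall : ∀ y : Ω, C • y = y := by
      intro y
      by_cases hyo : y = o
      · rw [hyo]; exact ((hPfix o).2 rfl) C hCP
      have hinv : ∀ z : Ω, C • z = z → ∀ w ∈ orbit P z, C • w = w := by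
        rintro z hz _ ⟨⟨g, hg⟩, rfl⟩
        show C • g • z = g • z
        rw [← mul_smul, hcomm C hCP g hg, mul_smul, hz]
      by_cases hyA : y ∈ orbit P a
      · exact hinv a hCa y hyA
      by_cases hyx : y ∈ orbit P x
      · exact hinv x hCx y hyx
      exfalso
      have hdis : ∀ u v : Ω, u ∉ orbit P v → Disjoint (orbit P u) (orbit P v) := fun u v huv => by
        rw [Set.disjoint_left]
        intro z hzu hzv
        exact huv (orbit_eq_iff.2 hzv ▸ orbit_eq_iff.2 hzu ▸ mem_orbit_self u)
      have hcard : ∀ u, u ≠ o → (orbit P u).ncard = 17 := fun u hu => by rw [← Nat.card_coe_set_eq, horb u hu]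
      have hsub : orbit P a ∪ orbit P x ∪ orbit P y ⊆ (Set.univ : Set Ω) := Set.subset_univ _
      have h51 : (orbit P a ∪ orbit P x ∪ orbit P y).ncard = 51 := by
        rw [Set.ncard_union_eq (Set.disjoint_union_left.2 ⟨(hdis y a hyA).symm, (hdis y x hyx).symm⟩)
          (Set.toFinite _) (Set.toFinite _), Set.ncard_union_eq (hdis x a hxA).symm (Set.toFinite _) (Set.toFinite _),
          hcard a hao, hcard x hxo, hcard y hyo]
      have := Set.ncard_le_ncard hsub (Set.toFinite _)
      rw [h51, Set.ncard_univ, hΩ] at this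
      omega
    exact hC1 (eq_one_of_fix (Ω := Ω) hfixall)
  -- `h` permutes the 17 points of the other orbit and commutes with `C`
  have hB : ∀ x, x ≠ o → x ∉ orbit P a → x ∈ orbit P b := by
    intro x hxo hxA
    by_contra hxb
    have hdis : ∀ u v : Ω, u ∉ orbit P v → Disjoint (orbit P u) (orbit P v) := fun u v huv => by
      rw [Set.disjoint_left]
      intro z hzu hzv
      exact huv (orbit_eq_iff.2 hzv ▸ orbit_eq_iff.2 hzu ▸ mem_orbit_self u)
    have hcard : ∀ u, u ≠ o → (orbit P u).ncard = 17 := fun u hu => by rw [← Nat.card_coe_set_eq, horb u hu]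
    have h51 : (orbit P a ∪ orbit P b ∪ orbit P x).ncard = 51 := by
      rw [Set.ncard_union_eq (Set.disjoint_union_left.2 ⟨(hdis x a hxA).symm, (hdis x b hxb).symm⟩)
        (Set.toFinite _) (Set.toFinite _), Set.ncard_union_eq (hdis b a hbA).symm (Set.toFinite _) (Set.toFinite _),
        hcard a hao, hcard x hxo, hcard b hbo]
    have := Set.ncard_le_ncard (Set.subset_univ (orbit P a ∪ orbit P b ∪ orbit P x)) (Set.toFinite _)
    rw [h51, Set.ncard_univ, hΩ] at this
    omega
  have hinvB : ∀ x ∈ orbit P b, h • x ∈ orbit P b := by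
    intro x hx
    refine hB _ (fun h1 => ?_) (fun h1 => ?_)
    · have hxo : x = o := smul_left_cancel h (h1.trans ho.symm)
      obtain ⟨g, hg⟩ := hx
      refine hbo ?_
      rw [← inv_smul_smul g b, show g • b = x from hg, hxo]
      exact (hPfix o).2 rfl _ (g⁻¹).2
    · have : x = h • x := smul_left_cancel h (hfixA _ h1).symm
      exact hbA (orbit_eq_iff.2 (this ▸ h1 : x ∈ orbit P a) ▸ orbit_eq_iff.2 hx ▸ mem_orbit_self b)
  let act : MulAction (zpowers h) (orbit P b) :=
    { smul := fun z x => ⟨(z : Γ) • (x : Ω), by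
        obtain ⟨m, hm⟩ := (mem_powers_iff_mem_zpowers).2 z.2
        simp only at hm
        rw [← hm]
        clear hm
        induction m with
        | zero => simpa using x.2
        | succ m ih => rw [pow_succ', mul_smul]; exact hinvB _ ih⟩
      one_smul := fun x => Subtype.ext (one_smul Γ _)
      mul_smul := fun z w x => Subtype.ext (mul_smul (z : Γ) (w : Γ) _) }
  have := Fact.mk Nat.prime_three
  obtain ⟨b', hb'⟩ := hhP.nonempty_fixed_point_of_prime_not_dvd_card (orbit P b) (by rw [horb b hbo]; decide)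
  have hb'fix : h • (b' : Ω) = b' := congrArg Subtype.val (hb' ⟨h, mem_zpowers h⟩)
  -- `C` is transitive on the orbit
  have hb'o : (b' : Ω) ≠ o := fun h1 => by
    obtain ⟨g, hg⟩ := b'.2
    refine hbo ?_
    rw [← inv_smul_smul g b, show g • b = (b' : Ω) from hg, h1]
    exact (hPfix o).2 rfl _ (g⁻¹).2
  have hb'A : (b' : Ω) ∉ orbit P a := fun h1 =>
    hbA (by rw [← orbit_eq_iff.2 h1, orbit_eq_iff.2 b'.2]; exact mem_orbit_self b)
  have hCb' := hCb _ hb'o hb'A
  let f : Fin 17 → orbit P b := fun m => ⟨C ^ (m : ℕ) • (b' : Ω), by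
    obtain ⟨g, hg⟩ := b'.2
    exact ⟨⟨C, hCP⟩ ^ (m : ℕ) * g, by
      show ((⟨C, hCP⟩ : P) ^ (m : ℕ) * g) • b = _
      rw [mul_smul, show g • b = (b' : Ω) from hg]; rfl⟩⟩
  have hf : Function.Injective f := by
    intro m n hmn
    by_contra hne'
    wlog hlt : m.val < n.val generalizing m n
    · exact this hmn.symm (Ne.symm hne') (lt_of_le_of_ne (not_lt.1 hlt) fun e => hne' (Fin.ext e).symm)
    apply hCb'
    have h1 : C ^ (n.val - m.val) • (b' : Ω) = b' := by
      apply smul_left_cancel (C ^ m.val)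
      rw [← mul_smul, ← pow_add, Nat.add_sub_cancel' hlt.le]
      exact (congrArg Subtype.val hmn).symm
    have hcop : Nat.Coprime (n.val - m.val) (orderOf C) := by
      rw [hoC, Nat.coprime_comm, (by norm_num : Nat.Prime 17).coprime_iff_not_dvd]
      exact fun hd => absurd (Nat.le_of_dvd (by omega) hd) (by have := n.2; omega)
    obtain ⟨l, hl⟩ := exists_pow_eq_self_of_coprime hcop
    rw [← hl]
    exact (show zpowers (C ^ (n.val - m.val)) ≤ stabilizer Γ (b' : Ω) from zpowers_le.2 h1) (pow_mem (mem_zpowers _) l)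
  have hfs := ((Nat.bijective_iff_injective_and_card f).2 ⟨hf, by rw [horb b hbo, Nat.card_fin]⟩).2
  obtain ⟨m, hm⟩ := hfs ⟨b, mem_orbit_self b⟩
  apply hb
  have hm' : C ^ (m : ℕ) • (b' : Ω) = b := congrArg Subtype.val hm
  have hcm : h * C ^ (m : ℕ) = C ^ (m : ℕ) * h := Commute.pow_right (mul_inv_eq_iff_eq_mul.1 hcC) _
  rw [← hm', ← mul_smul, hcm, mul_smul, hb'fix]

theorem core_false [IsPretransitive Γ Ω] (hΩ : Nat.card Ω = 35) (P : Sylow 17 Γ) (o : Ω)
    (hPfix : ∀ x, (∀ g ∈ P, g • x = x) ↔ x = o)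
    (hnorm : stabilizer Γ o ≤ normalizer ((P : Subgroup Γ) : Set Γ)) : False := by
  classical
  have : Fact (Nat.Prime 17) := ⟨by norm_num⟩
  have : Fact (Nat.Prime 2) := ⟨Nat.prime_two⟩
  have : Fintype Ω := Fintype.ofFinite Ω
  set H := stabilizer Γ o with hH
  have hPH : (P : Subgroup Γ) ≤ H := fun g hg => (hPfix o).2 rfl g hg
  have hΓ : Nat.card Γ = 35 * Nat.card H := by
    rw [← H.card_mul_index, MulAction.index_stabilizer_of_transitive, hΩ, mul_comm]
  obtain ⟨e, he⟩ := IsPGroup.iff_card.1 P.2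
  have he2 : e ≤ 2 := by
    let f := MulAction.toPermHom Γ Ω
    have hfi : Function.Injective f := MulAction.toPerm_injective
    have hd : 17 ^ e ∣ Nat.factorial 35 := by
      rw [← he, Nat.card_congr (Subgroup.equivMapOfInjective (P : Subgroup Γ) f hfi).toEquiv]
      refine (Subgroup.card_subgroup_dvd_card _).trans (dvd_of_eq ?_)
      rw [Nat.card_perm, hΩ]
    by_contra hlt
    have h3 : 17 ^ 3 ∣ Nat.factorial 35 := (Nat.pow_dvd_pow 17 (not_le.1 hlt)).trans hd
    revert h3; decide
  have hPne : ∀ x, x ≠ o → ∃ g ∈ P, g • x ≠ x := fun x hx => by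
    by_contra hcon
    push Not at hcon
    exact hx ((hPfix x).1 hcon)
  have horb : ∀ x, x ≠ o → Nat.card (orbit (P : Subgroup Γ) x) = 17 := by
    intro x hx
    obtain ⟨i, hi⟩ := IsPGroup.card_orbit (p := 17) P.2 x
    have hle : Nat.card (orbit (P : Subgroup Γ) x) ≤ 35 := hΩ ▸ Nat.card_le_card_of_injective _ Subtype.val_injective
    rw [hi] at hle ⊢
    rcases i with _ | _ | i
    · exfalso
      obtain ⟨g, hg, hgx⟩ := hPne x hx
      have := (Nat.card_eq_one_iff_unique.1 (hi.trans (pow_zero 17))).1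
      exact hgx (congrArg Subtype.val (Subsingleton.elim
        (⟨g • x, ⟨g, hg⟩, rfl⟩ : orbit (P : Subgroup Γ) x) ⟨x, mem_orbit_self x⟩))
    · norm_num
    · exfalso
      have : 17 ^ 2 ≤ 17 ^ (i + 1 + 1) := Nat.pow_le_pow_right (by norm_num) (by omega)
      omega
  obtain ⟨x₀, hx₀⟩ : ∃ x, x ≠ o := by
    by_contra hcon
    push Not at hcon
    have : Subsingleton Ω := ⟨fun a b => (hcon a).trans (hcon b).symm⟩
    have := Finite.card_le_one_iff_subsingleton.2 this
    omega
  have he1 : 1 ≤ e := by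
    by_contra h0
    obtain rfl : e = 0 := by omega
    obtain ⟨g, hg, hgx⟩ := hPne x₀ hx₀
    have := (Nat.card_eq_one_iff_unique.1 (he.trans (pow_zero 17))).1
    have : (⟨g, hg⟩ : (P : Subgroup Γ)) = 1 := Subsingleton.elim _ _
    exact hgx (by rw [show g = 1 from congrArg Subtype.val this, one_smul])
  have hexp : ∀ g ∈ (P : Subgroup Γ), g ^ 17 = 1 := by
    intro g hg
    refine eq_one_of_fix (Ω := Ω) fun x => ?_
    by_cases hx : x = o
    · subst hx
      exact (H.pow_mem (hPH hg) 17)
    let gP : (P : Subgroup Γ) := ⟨g, hg⟩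
    have hd : Function.minimalPeriod (gP • ·) x ∣ 17 := by
      obtain ⟨i, hi⟩ := IsPGroup.iff_orderOf.1 P.2 gP
      have hdvd : Function.minimalPeriod (gP • ·) x ∣ 17 ^ i := by
        rw [← MulAction.pow_smul_eq_iff_minimalPeriod_dvd, ← hi, pow_orderOf_eq_one, one_smul]
      obtain ⟨l, -, hl⟩ := (Nat.dvd_prime_pow (by norm_num)).1 hdvd
      have hle : Function.minimalPeriod (gP • ·) x ≤ 17 := by
        have : Fintype (orbit (zpowers gP) x) := Fintype.ofFinite _
        rw [MulAction.minimalPeriod_eq_card, ← Nat.card_eq_fintype_card]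
        refine le_trans ?_ (horb x hx).le
        exact Nat.card_le_card_of_injective (fun y => ⟨y.1, by
          obtain ⟨z, hz⟩ := y.2; exact ⟨z, hz⟩⟩) (fun y z h => Subtype.ext (congrArg (fun w : orbit (P : Subgroup Γ) x => (w : Ω)) h))
      rw [hl] at hle ⊢
      rcases l with _ | _ | l
      · norm_num
      · norm_num
      · exfalso
        have : 17 ^ 2 ≤ 17 ^ (l + 1 + 1) := Nat.pow_le_pow_right (by norm_num) (by omega)
        omega
    have := MulAction.pow_smul_eq_iff_minimalPeriod_dvd.2 hd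
    exact this
  have hPn : ∀ g ∈ H, ∀ u ∈ (P : Subgroup Γ), g * u * g⁻¹ ∈ (P : Subgroup Γ) := fun g hg u hu =>
    (mem_normalizer_iff.1 (hnorm hg) u).1 hu
  have hcomm : ∀ g ∈ (P : Subgroup Γ), ∀ g' ∈ (P : Subgroup Γ), g * g' = g' * g := by
    intro g hg g' hg'
    interval_cases e
    · have := isCyclic_of_prime_card (he.trans (pow_one 17))
      exact congrArg Subtype.val ((IsCyclic.commGroup (α := (P : Subgroup Γ))).mul_comm ⟨g, hg⟩ ⟨g', hg'⟩)
    · exact congrArg Subtype.val (IsPGroup.commutative_of_card_eq_prime_sq he ⟨g, hg⟩ ⟨g', hg'⟩)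
  interval_cases e
  · -- Sylow subgroups of order 17
    have hcard : Nat.card (P : Subgroup Γ) = 17 := he.trans (pow_one 17)
    obtain ⟨σ, hσ, hσx⟩ := hPne x₀ hx₀
    have hσ1 : σ ≠ 1 := fun h => hσx (by rw [h, one_smul])
    have hgen : ∀ g ∈ (P : Subgroup Γ), g ∈ zpowers σ := by
      intro g hg
      obtain ⟨i, hi⟩ := mem_zpowers_of_prime_card (p := 17) hcard (g := (⟨σ, hσ⟩ : (P : Subgroup Γ)))
        (g' := ⟨g, hg⟩) (fun h => hσ1 (congrArg Subtype.val h))
      exact ⟨i, congrArg Subtype.val hi⟩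
    have hfix : ∀ x, σ • x = x ↔ x = o := by
      intro x
      refine ⟨fun h => (hPfix x).1 fun g hg => (show zpowers σ ≤ stabilizer Γ x from zpowers_le.2 h) (hgen g hg),
        fun h => (hPfix x).2 h σ hσ⟩
    have hC := centralizer_dvd hΩ (hexp σ hσ) hfix
    -- the conjugation map
    let φ : H →* MulAut (P : Subgroup Γ) :=
      (Subgroup.normalizerMonoidHom (P : Subgroup Γ)).comp (Subgroup.inclusion hnorm)
    have hker : Nat.card φ.ker ∣ 578 := by
      refine Nat.dvd_trans ?_ hC
      refine Subgroup.card_dvd_of_injective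
        (((H.subtype).comp φ.ker.subtype).codRestrict (centralizer ({σ} : Set Γ)) ?_) ?_
      · rintro ⟨g, hg⟩
        have := congrArg (fun f : MulAut (P : Subgroup Γ) => ((f ⟨σ, hσ⟩ : (P : Subgroup Γ)) : Γ)) (MonoidHom.mem_ker.1 hg)
        rw [mem_centralizer_singleton_iff]
        exact mul_inv_eq_iff_eq_mul.1 this
      · intro a b h
        exact Subtype.ext (Subtype.ext (congrArg (fun z : centralizer ({σ} : Set Γ) => (z : Γ)) h))
    have haut : Nat.card (MulAut (P : Subgroup Γ)) = 16 := by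
      have := isCyclic_of_prime_card hcard
      rw [IsCyclic.card_mulAut, hcard, Nat.totient_prime (by norm_num)]
    have hHd : Nat.card H ∣ 578 * 16 := by
      rw [← φ.ker.card_mul_index, Subgroup.index_ker]
      exact Nat.mul_dvd_mul hker (haut ▸ Subgroup.card_subgroup_dvd_card _)
    have h289 : ¬ 289 ∣ Nat.card Γ := by
      intro hd
      have h1 := P.card_eq_multiplicity
      rw [hcard] at h1
      have h2 := (Nat.Prime.pow_dvd_iff_le_factorization (by norm_num : Nat.Prime 17) Nat.card_pos.ne').1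
        (show 17 ^ 2 ∣ Nat.card Γ by simpa using hd)
      have h3 : (Nat.card Γ).factorization 17 = 1 := by
        have h4 : 17 ^ 1 = 17 ^ (Nat.card Γ).factorization 17 := by simpa using h1
        exact (Nat.pow_right_injective (by norm_num) h4).symm
      omega
    obtain ⟨m, hm, hm32⟩ : ∃ m, Nat.card H = 17 * m ∧ m ∣ 32 := by
      obtain ⟨m, hm⟩ := hcard ▸ Subgroup.card_dvd_of_le hPH
      refine ⟨m, hm, ?_⟩
      have h1 : 17 * m ∣ 17 * (17 * 32) := hm ▸ (show (17 : ℕ) * (17 * 32) = 578 * 16 by norm_num) ▸ hHd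
      have h2 := Nat.dvd_of_mul_dvd_mul_left (by norm_num) h1
      refine Nat.Coprime.dvd_of_dvd_mul_left ?_ h2
      rw [Nat.coprime_comm, (by norm_num : Nat.Prime 17).coprime_iff_not_dvd]
      rintro ⟨l, rfl⟩
      exact h289 ⟨35 * l, by rw [hΓ, hm]; ring⟩
    obtain ⟨f, -, rfl⟩ := (Nat.dvd_prime_pow Nat.prime_two).1 (show m ∣ 2 ^ 5 by simpa using hm32)
    -- a Sylow 2-subgroup inside the stabiliser
    obtain ⟨K₀, hK₀⟩ := Sylow.exists_subgroup_card_pow_prime 2 (show 2 ^ f ∣ Nat.card H by rw [hm]; exact dvd_mul_left _ _)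
    set K := K₀.map H.subtype with hK
    have hKH : K ≤ H := Subgroup.map_subtype_le K₀
    have hKc : Nat.card K = 2 ^ f := by
      rw [hK, Subgroup.card_map_of_injective H.subtype_injective, hK₀]
    have hfac : (Nat.card Γ).factorization 2 = f := by
      rw [hΓ, hm, ← mul_assoc, Nat.factorization_mul (by norm_num) (by positivity),
        Finsupp.add_apply, Nat.Prime.factorization_pow Nat.prime_two, Finsupp.single_eq_same,
        Nat.factorization_eq_zero_of_not_dvd (by norm_num : ¬ 2 ∣ 35 * 17), zero_add]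
    let S : Sylow 2 Γ := Sylow.ofCard K (by rw [hKc, hfac])
    have hSK : (S : Subgroup Γ) = K := rfl
    have hNC : normalizer ((S : Subgroup Γ) : Set Γ) ≤ centralizer ((S : Subgroup Γ) : Set Γ) := by
      rw [hSK]
      set ψ := φ.comp (Subgroup.inclusion hKH) with hψ
      have hψc : ∀ x y : K, x * y * x⁻¹ * y⁻¹ ∈ ψ.ker := fun x y => by
        have := isCyclic_of_prime_card hcard
        rw [MonoidHom.mem_ker, map_mul, map_mul, map_mul, map_inv, map_inv]
        have hc := (IsCyclic.mulAutMulEquiv (P : Subgroup Γ)).injective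
        apply hc
        rw [map_mul, map_mul, map_mul, map_inv, map_inv, map_one]
        rw [mul_comm ((IsCyclic.mulAutMulEquiv _) (ψ x)), mul_inv_cancel_right, mul_inv_cancel]
      by_cases hker1 : ψ.ker = ⊥
      · have hcycU : IsCyclic (MulAut (P : Subgroup Γ)) := by
          have := isCyclic_of_prime_card hcard
          have e := IsCyclic.mulAutMulEquiv (P : Subgroup Γ)
          have : IsCyclic (ZMod (Nat.card (P : Subgroup Γ)))ˣ := by
            rw [hcard]; infer_instance
          exact isCyclic_of_injective e.toMonoidHom e.injective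
        have hcyc : IsCyclic K := isCyclic_of_injective ψ ((MonoidHom.ker_eq_bot_iff ψ).1 hker1)
        rcases Nat.eq_zero_or_pos f with hf0 | hf0
        · have hbot : K = ⊥ := Subgroup.eq_bot_of_card_eq _ (by rw [hKc, hf0, pow_zero])
          rw [hbot]
          intro g _
          rw [mem_centralizer_iff]
          intro x hx
          rw [Subgroup.mem_bot.1 hx, one_mul, mul_one]
        · have hmin : (Nat.card Γ).minFac = 2 := by
            rw [Nat.minFac_eq_two_iff, hΓ, hm]
            exact Dvd.dvd.mul_left (Dvd.dvd.mul_left (dvd_pow_self 2 (by omega)) _) _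
          have := IsCyclic.normalizer_le_centralizer (P := S) hmin (hSK ▸ hcyc)
          exact this
      obtain ⟨z, hz, hz1⟩ := (Subgroup.bot_or_exists_ne_one ψ.ker).resolve_left hker1
      have hzσ : (z : Γ) * σ = σ * (z : Γ) := by
        have := congrArg (fun f : MulAut (P : Subgroup Γ) => ((f ⟨σ, hσ⟩ : (P : Subgroup Γ)) : Γ)) (MonoidHom.mem_ker.1 hz)
        exact mul_inv_eq_iff_eq_mul.1 this
      have hkerψ : Nat.card ψ.ker ∣ 2 := by
        have h1 : Nat.card ψ.ker ∣ 2 ^ f := hKc ▸ Subgroup.card_subgroup_dvd_card _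
        have h2 : Nat.card ψ.ker ∣ 578 := by
          refine Nat.dvd_trans ?_ hker
          exact Subgroup.card_dvd_of_injective
            (((Subgroup.inclusion hKH).comp ψ.ker.subtype).codRestrict φ.ker (fun x => x.2))
            (fun a b h => Subtype.ext (Subgroup.inclusion_injective hKH (congrArg Subtype.val h)))
        obtain ⟨l, -, hl⟩ := (Nat.dvd_prime_pow Nat.prime_two).1 h1
        rw [hl] at h2 ⊢
        rcases l with _ | _ | l
        · norm_num
        · norm_num
        · exfalso
          have : 4 ∣ 578 := (dvd_trans (by norm_num) (Nat.pow_dvd_pow 2 (show 2 ≤ l + 1 + 1 by omega))).trans h2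
          omega
      -- the only fixed point of `z` is `o`
      have hzH : (z : Γ) • o = o := hKH z.2
      have hzfix : ∀ x, (z : Γ) • x = x → x = o := by
        intro x hx
        let F : Set Ω := {x | (z : Γ) • x = x}
        have hz2 : IsPGroup 2 (zpowers (z : Γ)) := by
          refine IsPGroup.of_card_dvd_pow (n := f) ?_
          rw [Nat.card_zpowers, ← hKc]
          exact Subgroup.orderOf_coe z ▸ orderOf_dvd_natCard z
        have hm2 := hz2.card_modEq_card_fixedPoints Ω
        have hFz : Nat.card (fixedPoints (zpowers (z : Γ)) Ω) = Nat.card F := by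
          refine Nat.card_congr (Equiv.subtypeEquivRight fun y => ⟨fun hy => hy ⟨z, mem_zpowers _⟩, fun hy w =>
            (show zpowers (z : Γ) ≤ stabilizer Γ y from zpowers_le.2 hy) w.2⟩)
        rw [hΩ, hFz] at hm2
        have hFinv : ∀ g ∈ (P : Subgroup Γ), ∀ y ∈ F, g • y ∈ F := by
          intro g hg y hy
          obtain ⟨i, rfl⟩ := hgen g hg
          show (z : Γ) • σ ^ i • y = σ ^ i • y
          rw [← mul_smul, (Commute.zpow_right hzσ i).eq, mul_smul, show (z : Γ) • y = y from hy]
        let act : MulAction (P : Subgroup Γ) F :=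
          { smul := fun g y => ⟨(g : Γ) • (y : Ω), hFinv g g.2 y y.2⟩
            one_smul := fun y => Subtype.ext (one_smul Γ _)
            mul_smul := fun g g' y => Subtype.ext (mul_smul (g : Γ) (g' : Γ) _) }
        have hm17 := P.2.card_modEq_card_fixedPoints F
        have hone : Nat.card (fixedPoints (P : Subgroup Γ) F) = 1 := by
          rw [Nat.card_eq_one_iff_unique]
          have hy : ∀ y : fixedPoints (P : Subgroup Γ) F, (y.1 : Ω) = o := fun y =>
            (hPfix _).1 fun g hg => congrArg Subtype.val (y.2 ⟨g, hg⟩)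
          exact ⟨⟨fun y w => Subtype.ext (Subtype.ext ((hy y).trans (hy w).symm))⟩,
            ⟨⟨⟨o, hzH⟩, fun g => Subtype.ext (hPH g.2)⟩⟩⟩
        rw [hone] at hm17
        have hle : Nat.card F ≤ 35 := hΩ ▸ Nat.card_le_card_of_injective _ Subtype.val_injective
        have hne35 : Nat.card F ≠ 35 := by
          intro h35
          apply hz1
          apply Subtype.ext
          refine eq_one_of_fix (Ω := Ω) fun y => ?_
          obtain ⟨w, hw⟩ := ((Nat.bijective_iff_injective_and_card (Subtype.val : F → Ω)).2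
            ⟨Subtype.val_injective, h35.trans hΩ.symm⟩).2 y
          rw [← hw]; exact w.2
        have h1 : Nat.card F = 1 := by
          generalize Nat.card F = n at hm2 hm17 hle hne35
          unfold Nat.ModEq at hm2 hm17
          omega
        have := (Nat.card_eq_one_iff_unique.1 h1).1
        exact congrArg Subtype.val (Subsingleton.elim (⟨x, hx⟩ : F) ⟨o, hzH⟩)
      -- `ψ.ker` is central, so `K` is abelian
      have hzker : ∀ x ∈ ψ.ker, x = 1 ∨ x = z := by
        intro x hx
        by_contra hcon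
        push Not at hcon
        have : Fintype ψ.ker := Fintype.ofFinite _
        have h3 : ({1, ⟨x, hx⟩, ⟨z, hz⟩} : Finset ψ.ker).card = 3 := Finset.card_eq_three.2
          ⟨_, _, _, fun h => hcon.1 (congrArg Subtype.val h).symm, fun h => hz1 (congrArg Subtype.val h).symm,
            fun h => hcon.2 (congrArg Subtype.val h), rfl⟩
        have := Finset.card_le_univ ({1, ⟨x, hx⟩, ⟨z, hz⟩} : Finset ψ.ker)
        rw [h3, ← Nat.card_eq_fintype_card] at this
        have := Nat.le_of_dvd (by norm_num) hkerψ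
        omega
      have hnker : ψ.ker.Normal := inferInstance
      have hzc : ∀ x : K, x * z = z * x := by
        intro x
        rcases hzker _ (hnker.conj_mem z hz x) with h1 | h1
        · exact absurd (conj_eq_one_iff.1 h1) hz1
        · exact mul_inv_eq_iff_eq_mul.1 h1
      have hKcomm : ∀ x y : K, x * y = y * x := by
        have hsub : ψ.ker ≤ center K := fun x hx => by
          rcases hzker x hx with rfl | rfl
          · exact one_mem _
          · exact mem_center_iff.2 hzc
        have hcycU : IsCyclic (MulAut (P : Subgroup Γ)) := by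
          have := isCyclic_of_prime_card hcard
          have e := IsCyclic.mulAutMulEquiv (P : Subgroup Γ)
          have : IsCyclic (ZMod (Nat.card (P : Subgroup Γ)))ˣ := by
            rw [hcard]; infer_instance
          exact isCyclic_of_injective e.toMonoidHom e.injective
        exact (commutative_of_cyclic_center_quotient ψ hsub)
      intro g hg
      have hgo : g • o = o := by
        apply hzfix
        have hzg : g⁻¹ * (z : Γ) * g ∈ K := by
          have := (mem_normalizer_iff.1 (inv_mem hg) (z : Γ)).1 z.2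
          simpa using this
        have h1 : (g⁻¹ * (z : Γ) * g) • o = o := hKH hzg
        rwa [mul_assoc, mul_smul, mul_smul, inv_smul_eq_iff] at h1
      -- split `g` along `H = P K`
      have hgH : g ∈ H := hgo
      have hdisj : Disjoint ((P : Subgroup Γ).subgroupOf H) K₀ := Subgroup.disjoint_def.2 fun {x} hx hy => by
        rw [← orderOf_eq_one_iff]
        refine Nat.eq_one_of_dvd_coprimes (show Nat.Coprime 17 (2 ^ f) from Nat.Coprime.pow_right f (by norm_num)) ?_ ?_
        · rw [← hcard, ← Subgroup.orderOf_coe]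
          exact Subgroup.orderOf_dvd_natCard _ hx
        · rw [← hK₀]
          exact Subgroup.orderOf_dvd_natCard _ hy
      have hcomp : ((P : Subgroup Γ).subgroupOf H).IsComplement' K₀ := by
        refine Subgroup.isComplement'_of_card_mul_and_disjoint ?_ hdisj
        rw [Nat.card_congr (Subgroup.subgroupOfEquivOfLe hPH).toEquiv, hcard, hK₀, hm]
      obtain ⟨⟨u, k⟩, huk⟩ := hcomp.2 ⟨g, hgH⟩
      have hu : ((u : H) : Γ) ∈ (P : Subgroup Γ) := u.2
      have hk : ((k : H) : Γ) ∈ K := ⟨k, k.2, rfl⟩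
      have hguk : ((u : H) : Γ) * ((k : H) : Γ) = g := congrArg Subtype.val huk
      rw [mem_centralizer_iff]
      intro x hx
      have hkx : ((k : H) : Γ) * x = x * ((k : H) : Γ) := congrArg Subtype.val (hKcomm ⟨_, hk⟩ ⟨x, hx⟩)
      set u' := ((u : H) : Γ) with hu'
      have hgx : g * x * g⁻¹ ∈ K := (mem_normalizer_iff.1 hg x).1 hx
      have e : g * x * g⁻¹ = u' * x * u'⁻¹ := by
        rw [← hguk, show u' * (k : H) * x * (u' * ((k : H) : Γ))⁻¹ = u' * ((k : H) * x) * ((k : H) : Γ)⁻¹ * u'⁻¹ by group, hkx]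
        group
      have hd : u' * x * u'⁻¹ * x⁻¹ = 1 := by
        rw [← orderOf_eq_one_iff]
        refine Nat.eq_one_of_dvd_coprimes (show Nat.Coprime 17 (2 ^ f) from Nat.Coprime.pow_right f (by norm_num)) ?_ ?_
        · rw [← hcard]
          refine Subgroup.orderOf_dvd_natCard _ ?_
          rw [show u' * x * u'⁻¹ * x⁻¹ = u' * (x * u'⁻¹ * x⁻¹) by group]
          exact mul_mem hu (hPn x (hKH hx) _ (inv_mem hu))
        · rw [← hKc]
          exact Subgroup.orderOf_dvd_natCard _ (mul_mem (e ▸ hgx) (inv_mem hx))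
      rw [← e, mul_inv_eq_one, mul_inv_eq_iff_eq_mul] at hd
      exact hd.symm
    -- the normal 2-complement has order 595
    let M := (MonoidHom.transferSylow S hNC).ker
    have hMc : M.IsComplement' (S : Subgroup Γ) := MonoidHom.ker_transferSylow_isComplement' S hNC
    have hM : Nat.card M = 595 := by
      have h1 : Nat.card M * Nat.card (S : Subgroup Γ) = Nat.card Γ := Subgroup.IsComplement'.card_mul_card hMc
      rw [hSK, hKc, hΓ, hm, ← mul_assoc] at h1
      exact Nat.eq_of_mul_eq_mul_right (by positivity) h1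
    have : Fact (Nat.Prime 5) := ⟨by norm_num⟩
    let R₀ : Sylow 5 M := default
    have hR5 : Nat.card (R₀ : Subgroup M) = 5 := by
      rw [R₀.card_eq_multiplicity, hM, show (595 : ℕ) = 5 ^ 1 * 119 by norm_num,
        Nat.factorization_mul (by norm_num) (by norm_num), Finsupp.add_apply,
        Nat.Prime.factorization_pow (by norm_num : Nat.Prime 5), Finsupp.single_eq_same,
        Nat.factorization_eq_zero_of_not_dvd (by norm_num : ¬ 5 ∣ 119)]
      norm_num
    have hn5 : Nat.card (Sylow 5 M) = 1 := by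
      have h1 := card_sylow_modEq_one 5 M
      have h2 := R₀.card_dvd_index
      have h3 : (R₀ : Subgroup M).index = 119 := by
        have := (R₀ : Subgroup M).card_mul_index
        rw [hR5, hM] at this
        omega
      rw [h3] at h2
      generalize Nat.card (Sylow 5 M) = n at h1 h2
      have hn : n ≤ 119 := Nat.le_of_dvd (by norm_num) h2
      unfold Nat.ModEq at h1
      interval_cases n <;> omega
    have : Subsingleton (Sylow 5 M) := (Nat.card_eq_one_iff_unique.1 hn5).1
    have hchar : (R₀ : Subgroup M).Characteristic := Sylow.characteristic_of_subsingleton R₀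
    set R := (R₀ : Subgroup M).map M.subtype with hR
    have hRn : R.Normal := ConjAct.normal_of_characteristic_of_normal
    have hRc : Nat.card R = 5 := by rw [hR, Subgroup.card_map_of_injective M.subtype_injective, hR5]
    have hRσ : ∀ r ∈ R, σ * r = r * σ := by
      let χ : Γ →* MulAut R := MulAut.conjNormal
      have h1 : χ σ = 1 := by
        rw [← orderOf_eq_one_iff]
        have hd : orderOf (χ σ) ∣ 17 := orderOf_dvd_of_pow_eq_one (by rw [← map_pow, hexp σ hσ, map_one])
        have h5 : orderOf (χ σ) ∣ 4 := by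
          have := orderOf_dvd_natCard (χ σ)
          have hcyc := isCyclic_of_prime_card hRc
          rwa [IsCyclic.card_mulAut, hRc, Nat.totient_prime (by norm_num)] at this
        exact Nat.eq_one_of_dvd_coprimes (by norm_num) hd h5
      intro r hr
      have := congrArg (fun f : MulAut R => ((f ⟨r, hr⟩ : R) : Γ)) h1
      simp only [χ, MulAut.conjNormal_apply, MulAut.one_apply] at this
      exact mul_inv_eq_iff_eq_mul.1 this
    have hRfix : ∀ r ∈ R, ∀ x : Ω, r • x = x := by
      intro r hr x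
      obtain ⟨g, rfl⟩ := exists_smul_eq Γ o x
      have h1 : g⁻¹ * r * g ∈ R := by simpa using hRn.conj_mem r hr g⁻¹
      have h2 : (g⁻¹ * r * g) • o = o := by
        rw [← hfix, ← mul_smul, hRσ _ h1, mul_smul, (hfix o).2 rfl]
      rw [mul_assoc, mul_smul, inv_smul_eq_iff, mul_smul] at h2
      exact h2
    have : R = ⊥ := eq_bot_iff.2 fun r hr => Subgroup.mem_bot.2 (eq_one_of_fix (Ω := Ω) (hRfix r hr))
    rw [this, Subgroup.card_bot] at hRc
    omega
  · -- Sylow subgroups of order 289
    have hcard : Nat.card (P : Subgroup Γ) = 289 := he.trans (by norm_num)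
    have h3 : ¬ 3 ∣ Nat.card H := by
      intro hd
      have : Fact (Nat.Prime 3) := ⟨Nat.prime_three⟩
      obtain ⟨h, hh⟩ := exists_prime_orderOf_dvd_card' (G := H) 3 hd
      have h1 : (h : Γ) = 1 := no_order_three hΩ hcard hPfix
        (by rw [← hh, ← Subgroup.orderOf_coe, pow_orderOf_eq_one]) (hPn h h.2) h.2
        (fun g _ hg => hexp g hg) hcomm horb
      rw [← Subgroup.orderOf_coe, h1, orderOf_one] at hh
      omega
    -- an element fixing eighteen points
    have hst : Nat.card (stabilizer (P : Subgroup Γ) x₀) = 17 := by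
      have := Nat.card_congr (orbitProdStabilizerEquivGroup (P : Subgroup Γ) x₀)
      rw [Nat.card_prod, horb x₀ hx₀, hcard] at this
      omega
    obtain ⟨c₀, hc₀⟩ := exists_prime_orderOf_dvd_card' (G := stabilizer (P : Subgroup Γ) x₀) 17 (by rw [hst])
    set c : Γ := ((c₀ : (P : Subgroup Γ)) : Γ) with hc
    have hcP : c ∈ (P : Subgroup Γ) := (c₀ : (P : Subgroup Γ)).2
    have hc1 : c ≠ 1 := fun h1 => by
      rw [← orderOf_coe, ← orderOf_coe, ← hc, h1, orderOf_one] at hc₀
      omega
    let F : Set Ω := {x | c • x = x}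
    let act : MulAction (P : Subgroup Γ) F :=
      { smul := fun g y => ⟨(g : Γ) • (y : Ω), by
          show c • (g : Γ) • (y : Ω) = (g : Γ) • (y : Ω)
          rw [← mul_smul, hcomm c hcP g g.2, mul_smul, show c • (y : Ω) = y from y.2]⟩
        one_smul := fun y => Subtype.ext (one_smul Γ _)
        mul_smul := fun g g' y => Subtype.ext (mul_smul (g : Γ) (g' : Γ) _) }
    have hcard18 : Nat.card F = 18 := by
      have hm17 := P.2.card_modEq_card_fixedPoints F
      have hone : Nat.card (fixedPoints (P : Subgroup Γ) F) = 1 := by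
        rw [Nat.card_eq_one_iff_unique]
        have hy : ∀ y : fixedPoints (P : Subgroup Γ) F, (y.1 : Ω) = o := fun y =>
          (hPfix _).1 fun g hg => congrArg Subtype.val (y.2 ⟨g, hg⟩)
        exact ⟨⟨fun y w => Subtype.ext (Subtype.ext ((hy y).trans (hy w).symm))⟩,
          ⟨⟨⟨o, hPH hcP⟩, fun g => Subtype.ext (hPH g.2)⟩⟩⟩
      rw [hone] at hm17
      have hle : Nat.card F ≤ 35 := hΩ ▸ Nat.card_le_card_of_injective _ Subtype.val_injective
      have hne35 : Nat.card F ≠ 35 := by
        intro h35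
        refine hc1 (eq_one_of_fix (Ω := Ω) fun y => ?_)
        obtain ⟨w, hw⟩ := ((Nat.bijective_iff_injective_and_card (Subtype.val : F → Ω)).2
          ⟨Subtype.val_injective, h35.trans hΩ.symm⟩).2 y
        rw [← hw]; exact w.2
      have hne1 : Nat.card F ≠ 1 := fun h1 => by
        have := (Nat.card_eq_one_iff_unique.1 h1).1
        exact hx₀ (congrArg Subtype.val (Subsingleton.elim (⟨x₀, c₀.2⟩ : F) ⟨o, hPH hcP⟩))
      generalize Nat.card F = n at hm17 hle hne35 hne1
      unfold Nat.ModEq at hm17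
      omega
    -- the centraliser of `c` is transitive on those points
    set C := centralizer ({c} : Set Γ) with hC
    have hPC : (P : Subgroup Γ) ≤ C := fun g hg => mem_centralizer_singleton_iff.2 (hcomm g hg c hcP)
    have horbC : orbit C o = F := by
      ext y
      constructor
      · rintro ⟨⟨g, hg⟩, rfl⟩
        show c • g • o = g • o
        rw [← mul_smul, ← mem_centralizer_singleton_iff.1 hg, mul_smul, hPH hcP]
      · intro hy
        obtain ⟨g, rfl⟩ := exists_smul_eq Γ o y
        have hd : g⁻¹ * c * g ∈ H := by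
          show (g⁻¹ * c * g) • o = o
          rw [mul_assoc, mul_smul, mul_smul, show c • g • o = g • o from hy, inv_smul_smul]
        -- a `17`-element of the stabiliser lies in `P`
        have hdP : g⁻¹ * c * g ∈ (P : Subgroup Γ) := by
          by_contra hnot
          have hzp : IsPGroup 17 (zpowers (g⁻¹ * c * g)) := by
            refine IsPGroup.of_card_dvd_pow (n := 1) ?_
            rw [Nat.card_zpowers, pow_one]
            refine orderOf_dvd_of_pow_eq_one ?_
            have := @conj_pow Γ _ 17 g⁻¹ c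
            rw [inv_inv] at this
            rw [this, hexp c hcP]
            simp
          have hle : zpowers (g⁻¹ * c * g) ≤ normalizer ((P : Subgroup Γ) : Set Γ) := zpowers_le.2 (hnorm hd)
          have hsup := hzp.to_sup_of_normal_right' P.2 hle
          have := P.is_maximal' hsup le_sup_right
          exact hnot (this ▸ Subgroup.mem_sup_left (mem_zpowers _))
        set P' : Sylow 17 Γ := g • P with hP'
        have hP'C : (P' : Subgroup Γ) ≤ C := by
          rintro _ ⟨u, hu, rfl⟩
          refine mem_centralizer_singleton_iff.2 ?_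
          have := hcomm u hu _ hdP
          show g * u * g⁻¹ * c = c * (g * u * g⁻¹)
          calc g * u * g⁻¹ * c = g * (u * (g⁻¹ * c * g)) * g⁻¹ := by group
            _ = g * ((g⁻¹ * c * g) * u) * g⁻¹ := by rw [this]
            _ = c * (g * u * g⁻¹) := by group
        obtain ⟨n, hn⟩ := exists_smul_eq C (P.subtype hPC) (P'.subtype hP'C)
        refine ⟨n, ?_⟩
        show (n : Γ) • o = g • o
        have key : ∀ u ∈ (P : Subgroup Γ), ((n : Γ)⁻¹ * g * u * g⁻¹ * n) ∈ (P : Subgroup Γ) := by
          intro u hu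
          have hmem : (⟨g * u * g⁻¹, hP'C ⟨u, hu, rfl⟩⟩ : C) ∈ (P'.subtype hP'C : Subgroup C) := ⟨u, hu, rfl⟩
          rw [← hn] at hmem
          obtain ⟨w, hw, hwe⟩ := hmem
          have e : (n : Γ) * (w : Γ) * (n : Γ)⁻¹ = g * u * g⁻¹ := congrArg Subtype.val hwe
          have : (n : Γ)⁻¹ * g * u * g⁻¹ * n = (w : Γ) := by
            rw [show (n : Γ)⁻¹ * g * u * g⁻¹ * n = (n : Γ)⁻¹ * (g * u * g⁻¹) * n by group, ← e]
            group
          rw [this]
          exact hw
        have hgn : g⁻¹ • (n : Γ) • o = o := (hPfix _).1 fun u hu => by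
          have h1 : ((n : Γ)⁻¹ * g * u * g⁻¹ * n) • o = o := hPH (key u hu)
          rw [mul_smul, mul_smul, mul_smul, mul_smul, inv_smul_eq_iff] at h1
          exact smul_left_cancel g (by rw [smul_inv_smul]; exact h1)
        exact (inv_smul_eq_iff.1 hgn)
    have h18 : 18 ∣ Nat.card Γ := by
      have h1 := Nat.card_congr (orbitProdStabilizerEquivGroup C o)
      rw [Nat.card_prod, horbC, hcard18] at h1
      exact ((dvd_mul_right 18 _).trans h1.dvd).trans (Subgroup.card_subgroup_dvd_card C)
    rw [hΓ] at h18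
    exact h3 ((Nat.Coprime.dvd_of_dvd_mul_left (by norm_num) ((show 3 ∣ 18 by norm_num).trans h18)))

end Core

theorem reduce {G : Type*} [Group G] [Finite G] (h35 : Nat.card (Sylow 17 G) = 35) : False := by
  have : Fact (Nat.Prime 17) := ⟨by norm_num⟩
  let f := MulAction.toPermHom G (Sylow 17 G)
  let Γ := f.range
  let P₀ : Sylow 17 G := default
  have hfs : Function.Surjective f.rangeRestrict := f.rangeRestrict_surjective
  let P : Sylow 17 Γ := P₀.mapSurjective hfs
  have : IsPretransitive Γ (Sylow 17 G) := ⟨fun x y => by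
    obtain ⟨g, hg⟩ := exists_smul_eq G x y
    exact ⟨⟨f g, g, rfl⟩, hg⟩⟩
  refine core_false (Γ := Γ) (Ω := Sylow 17 G) h35 P P₀ (fun Q => ⟨fun h => ?_, ?_⟩) ?_
  · have hle : (P₀ : Subgroup G) ≤ Subgroup.normalizer ((Q : Subgroup G) : Set G) := fun g hg => by
      exact Sylow.smul_eq_iff_mem_normalizer.1 (h (f.rangeRestrict g) ⟨g, hg, rfl⟩)
    have hsup := P₀.2.to_sup_of_normal_right' Q.2 hle
    exact (Sylow.ext ((P₀.is_maximal' hsup le_sup_left).symm.trans (Q.is_maximal' hsup le_sup_right))).symm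
  · rintro rfl g ⟨u, hu, rfl⟩
    exact Sylow.smul_eq_iff_mem_normalizer.2 ((P₀ : Subgroup G).le_normalizer hu)
  · intro g hg
    obtain ⟨⟨_, u, rfl⟩, rfl⟩ : ∃ x : Γ, x = g := ⟨g, rfl⟩
    have hu : u ∈ Subgroup.normalizer ((P₀ : Subgroup G) : Set G) := Sylow.smul_eq_iff_mem_normalizer.1 hg
    exact Subgroup.le_normalizer_map f.rangeRestrict ⟨u, hu, rfl⟩

/-- No finite group has exactly 35 Sylow 17-subgroups. -/
theorem result {G : Type*} [Group G] [Finite G] : Nat.card (Sylow 17 G) ≠ 35 := by
  exact fun h => reduce h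

end Cfsg.Agent.S4236
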