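import Cfsg.Statements.S4238
import Mathlib
import Cfsg.Agent.Transfer.Residual
import Cfsg.Agent.Transfer.Frobenius
import Cfsg.Agent.PGroup.Basic
import Cfsg.Agent.Cores.Basic

set_option autoImplicit false
open Cfsg

namespace Cfsg.Agent.S4238

open Subgroup

theorem exists_max_order {K : Type*} [Group K] [Finite K] {p : ℕ} [Fact p.Prime] (hK : IsPGroup p K) :
    ∃ k : K, orderOf k = Monoid.exponent K := by
  obtain ⟨k, hk⟩ := Finite.exists_max (fun x : K => orderOf x)
  refine ⟨k, Nat.dvd_antisymm (Monoid.order_dvd_exponent k) (Monoid.exponent_dvd_of_forall_pow_eq_one fun x => ?_)⟩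
  obtain ⟨i, hi⟩ := IsPGroup.iff_orderOf.1 hK x
  obtain ⟨j, hj⟩ := IsPGroup.iff_orderOf.1 hK k
  apply orderOf_dvd_iff_pow_eq_one.1
  rw [hi, hj]
  refine Nat.pow_dvd_pow p ((Nat.pow_le_pow_iff_right (Fact.out : p.Prime).one_lt).1 ?_)
  rw [← hi, ← hj]; exact hk x

variable {G : Type*} [Group G] [Finite G] {p : ℕ} [Fact p.Prime]

theorem forward (h : Cfsg.HasNormalPComplement p G) (H : Subgroup G) (N : Subgroup H) [N.Normal]
    (hc : Cfsg.pPrimeCore p (H ⧸ N) = ⊥) : ∃ k : H ⧸ N, orderOf k = Monoid.exponent (H ⧸ N) := by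
  obtain ⟨P, M, hMn, hM⟩ := Cfsg.Agent.Transfer.hasNormalPComplement_subgroup H h
  have hp := (Fact.out : p.Prime)
  have hMN : M ≤ N := by
    intro x hx
    have hcop : (Nat.card (M.map (QuotientGroup.mk' N))).Coprime p := by
      refine Nat.Coprime.coprime_dvd_left (Subgroup.card_map_dvd _ _) ?_
      refine (Cfsg.Agent.Cores.coprime_iff_not_dvd_prime hp).2 fun hd => ?_
      rw [← Subgroup.IsComplement'.index_eq_card hM] at hd
      exact P.not_dvd_index hd
    have := Cfsg.Agent.Cores.le_pPrimeCore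
      (Subgroup.Normal.map inferInstance _ (QuotientGroup.mk'_surjective N)) hcop
    rw [hc] at this
    exact (QuotientGroup.eq_one_iff x).1 (Subgroup.mem_bot.1 (this (Subgroup.mem_map_of_mem _ hx)))
  refine exists_max_order (p := p) fun x => ?_
  obtain ⟨y, rfl⟩ := QuotientGroup.mk'_surjective N x
  obtain ⟨⟨⟨m, hm⟩, ⟨z, hz⟩⟩, he⟩ := hM.2 y
  change m * z = y at he
  obtain ⟨i, hi⟩ := P.isPGroup' ⟨z, hz⟩
  refine ⟨i, ?_⟩
  rw [← he, map_mul, show QuotientGroup.mk' N m = 1 from (QuotientGroup.eq_one_iff m).2 (hMN hm), one_mul,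
    ← map_pow, show z ^ p ^ i = 1 from congrArg Subtype.val hi, map_one]

/-- A minimal pair: a prime-order automorphism of an irreducible section. -/
theorem backward (hsec : ∀ (H : Subgroup G) (N : Subgroup H) [N.Normal], Cfsg.pPrimeCore p (H ⧸ N) = ⊥ →
    ∃ k : H ⧸ N, orderOf k = Monoid.exponent (H ⧸ N)) : Cfsg.HasNormalPComplement p G := by
  classical
  have hp := (Fact.out : p.Prime)
  refine Cfsg.Agent.Transfer.hasNormalPComplement_of_coprime_centralize fun Q hQ _ g₀ hg₀ hg₀p => ?_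
  by_contra hcon
  -- choose an element acting with prime order
  obtain ⟨g, hgz, hgmin⟩ := ((zpowers g₀ : Set G).toFinite.toFinset.filter
    (fun x => x ∉ centralizer (Q : Set G))).exists_min_image orderOf
    ⟨g₀, Finset.mem_filter.2 ⟨(Set.Finite.mem_toFinset _).2 (mem_zpowers g₀), hcon⟩⟩
  rw [Finset.mem_filter, Set.Finite.mem_toFinset] at hgz
  obtain ⟨hg0, hgc⟩ := hgz
  have hgQ : g ∈ normalizer (Q : Set G) := (zpowers_le.2 hg₀) hg0
  have hgp : (orderOf g).Coprime p :=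
    hg₀p.coprime_dvd_left (orderOf_dvd_of_mem_zpowers hg0)
  have hg1 : g ≠ 1 := fun h => hgc (h ▸ one_mem _)
  obtain ⟨r, hr, hrg⟩ := Nat.exists_prime_and_dvd (fun h => hg1 (orderOf_eq_one_iff.1 h))
  have hgr : g ^ r ∈ centralizer (Q : Set G) := by
    by_contra hn
    have := hgmin (g ^ r) (Finset.mem_filter.2 ⟨(Set.Finite.mem_toFinset _).2 (pow_mem hg0 r), hn⟩)
    rw [orderOf_pow_of_dvd hr.ne_zero hrg] at this
    exact absurd this (not_le.2 (Nat.div_lt_self (orderOf_pos g) hr.one_lt))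
  -- a minimal subgroup which is normalised and not centralised
  obtain ⟨U, hUQ, hUmin⟩ := (Set.toFinite {U : Subgroup G | U ≤ Q ∧ g ∈ normalizer (U : Set G) ∧
    g ∉ centralizer (U : Set G)}).exists_le_minimal (a := Q) ⟨le_rfl, hgQ, hgc⟩
  obtain ⟨-, hgU, hgUc⟩ := hUmin.1
  have hUp : IsPGroup p U := hQ.to_le hUQ
  have hgrU : g ^ r ∈ centralizer (U : Set G) := Subgroup.centralizer_le hUQ hgr
  set H := U ⊔ zpowers g with hH
  have hzn : zpowers g ≤ normalizer (U : Set G) := zpowers_le.2 hgU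
  have hdec : ∀ x ∈ H, ∃ u ∈ U, ∃ j : ℕ, x = u * g ^ j := by
    intro x hx
    obtain ⟨u, hu, z, hz, rfl⟩ := Set.mem_mul.1
      ((Subgroup.coe_mul_of_right_le_normalizer_left U (zpowers g) hzn).le hx)
    obtain ⟨j, rfl⟩ := (mem_powers_iff_mem_zpowers (x := g)).2 hz
    exact ⟨u, hu, j, rfl⟩
  have hUH : U ≤ H := le_sup_left
  have hgH : g ∈ H := le_sup_right (a := U) (mem_zpowers g)
  set U' := U.subgroupOf H with hU'
  have hU'n : U'.Normal := (normal_subgroupOf_iff_le_normalizer hUH).2 (sup_le U.le_normalizer hzn)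
  have hUne : ¬ U' ≤ (⊥ : Subgroup H) := by
    intro hle
    apply hgUc
    rw [mem_centralizer_iff]
    intro u hu
    have h1 := congrArg Subtype.val (Subgroup.mem_bot.1 (hle (show (⟨u, hUH hu⟩ : H) ∈ U' from hu)))
    change u = (1 : G) at h1
    rw [h1, one_mul, mul_one]
  obtain ⟨N, -, hNmax⟩ := (Set.toFinite {N : Subgroup H | N.Normal ∧ ¬ U' ≤ N}).exists_le_maximal
    (a := ⊥) ⟨inferInstance, hUne⟩
  obtain ⟨hNn, hUN⟩ := hNmax.1
  let π := QuotientGroup.mk' N
  have hπs : Function.Surjective π := QuotientGroup.mk'_surjective N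
  set Ub := U'.map π with hUb
  have hUbn : Ub.Normal := Subgroup.Normal.map hU'n _ hπs
  have hUbp : IsPGroup p Ub := (hUp.comap_subtype).map π
  have huniq : ∀ M : Subgroup (H ⧸ N), M.Normal → M ≠ ⊥ → Ub ≤ M := by
    intro M hM hMb
    by_contra hnot
    have hNM : N ≤ M.comap π := fun x hx => by
      rw [Subgroup.mem_comap, show π x = 1 from (QuotientGroup.eq_one_iff x).2 hx]; exact one_mem _
    have h2 := hNmax.2 ⟨hM.comap π, fun hle => hnot (Subgroup.map_le_iff_le_comap.2 hle)⟩ hNM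
    apply hMb
    rw [eq_bot_iff]
    intro y hy
    obtain ⟨x, rfl⟩ := hπs y
    exact Subgroup.mem_bot.2 ((QuotientGroup.eq_one_iff x).2 (h2 hy))
  have hUb0 : Ub ≠ ⊥ := fun h => hUN (by
    rwa [hUb, Subgroup.map_eq_bot_iff, QuotientGroup.ker_mk'] at h)
  have hUbc : ∀ x ∈ Ub, ∀ y ∈ Ub, Commute x y := by
    have hle : Ub ≤ (center Ub).map Ub.subtype := by
      refine huniq _ inferInstance fun h => ?_
      rw [Subgroup.map_eq_bot_iff_of_injective _ Ub.subtype_injective] at h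
      have : Nontrivial Ub := (Subgroup.nontrivial_iff_ne_bot Ub).2 hUb0
      exact (Subgroup.nontrivial_iff_ne_bot _).1 (IsPGroup.center_nontrivial hUbp) h
    intro x hx y hy
    obtain ⟨z, hz, rfl⟩ := hle hx
    exact (congrArg Subtype.val (Subgroup.mem_center_iff.1 hz ⟨y, hy⟩)).symm
  have hUbe : ∀ x ∈ Ub, x ^ p = 1 := by
    let E : Subgroup (H ⧸ N) :=
      { carrier := {x | x ∈ Ub ∧ x ^ p = 1}
        mul_mem' := fun {a b} ha hb => ⟨mul_mem ha.1 hb.1, by
          rw [(hUbc a ha.1 b hb.1).mul_pow, ha.2, hb.2, one_mul]⟩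
        one_mem' := ⟨one_mem _, one_pow _⟩
        inv_mem' := fun {a} ha => ⟨inv_mem ha.1, by rw [inv_pow, ha.2, inv_one]⟩ }
    have hEn : E.Normal := ⟨fun x hx y => ⟨hUbn.conj_mem x hx.1 y, by rw [conj_pow, hx.2]; simp⟩⟩
    have hE0 : E ≠ ⊥ := by
      obtain ⟨k, hk⟩ := IsPGroup.iff_card.1 hUbp
      have hd : p ∣ Nat.card Ub := by
        rw [hk]
        refine dvd_pow_self p ?_
        rintro rfl
        rw [pow_zero] at hk
        exact hUb0 (Subgroup.eq_bot_of_card_eq _ hk)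
      obtain ⟨x, hx⟩ := exists_prime_orderOf_dvd_card' (G := Ub) p hd
      intro h
      have hxE : (x : H ⧸ N) ∈ E := ⟨x.2, by
        rw [← Subgroup.coe_pow, ← hx, pow_orderOf_eq_one, Subgroup.coe_one]⟩
      rw [h, Subgroup.mem_bot] at hxE
      rw [← Subgroup.orderOf_coe, hxE, orderOf_one] at hx
      exact hp.ne_one hx.symm
    exact fun x hx => (huniq E hEn hE0 hx).2
  set gb := π ⟨g, hgH⟩ with hgb
  have hgbp : (orderOf gb).Coprime p := hgp.coprime_dvd_left ((orderOf_map_dvd π _).trans (by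
    rw [Subgroup.orderOf_mk]))
  have hsurj : ∀ x : H ⧸ N, ∃ u ∈ Ub, ∃ j : ℕ, x = u * gb ^ j := by
    intro x
    obtain ⟨⟨y, hy⟩, rfl⟩ := hπs x
    obtain ⟨u, hu, j, rfl⟩ := hdec y hy
    refine ⟨π ⟨u, hUH hu⟩, Subgroup.mem_map_of_mem π hu, j, ?_⟩
    rw [hgb, ← map_pow, ← map_mul]
    exact congrArg π (Subtype.ext (by simp))
  -- coprime action on the series `N ⊓ U' < U'`
  have hfpf : ∀ u ∈ Ub, Commute gb u → u = 1 := by
    let C : Subgroup (H ⧸ N) :=
      { carrier := {u | u ∈ Ub ∧ Commute gb u}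
        mul_mem' := fun ha hb => ⟨mul_mem ha.1 hb.1, ha.2.mul_right hb.2⟩
        one_mem' := ⟨one_mem _, Commute.one_right _⟩
        inv_mem' := fun ha => ⟨inv_mem ha.1, ha.2.inv_right⟩ }
    have hCn : C.Normal := by
      refine ⟨fun u hu x => ⟨hUbn.conj_mem u hu.1 x, ?_⟩⟩
      obtain ⟨v, hv, j, rfl⟩ := hsurj x
      have e : v * gb ^ j * u * (v * gb ^ j)⁻¹ = u := by
        have h1 : gb ^ j * u = u * gb ^ j := hu.2.pow_left j
        have h2 : v * u = u * v := hUbc v hv u hu.1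
        rw [mul_assoc v, h1, ← mul_assoc, h2, mul_assoc u, mul_inv_cancel_right]
      rw [e]; exact hu.2
    suffices hC : C = ⊥ by
      intro u hu hc
      exact Subgroup.mem_bot.1 (hC ▸ (show u ∈ C from ⟨hu, hc⟩))
    by_contra hC
    have hall : ∀ u ∈ Ub, Commute gb u := fun u hu => (huniq C hCn hC hu).2
    apply hgUc
    rw [mem_centralizer_iff]
    intro u hu
    set M := U ⊓ N.map H.subtype with hM
    have hgM : g ∈ normalizer (M : Set G) := by
      refine Subgroup.mem_normalizer_iff_map_conj_eq.2 (Subgroup.eq_of_le_of_card_ge ?_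
        (le_of_eq (Subgroup.card_map_of_injective (MulAut.conj g).injective).symm))
      rintro _ ⟨x, ⟨hxU, y, hy, rfl⟩, rfl⟩
      exact ⟨(Subgroup.mem_normalizer_iff.1 hgU _).1 hxU,
        ⟨⟨g, hgH⟩ * y * (⟨g, hgH⟩ : H)⁻¹, hNn.conj_mem y hy _, rfl⟩⟩
    have hgMc : g ∈ centralizer (M : Set G) := by
      by_contra hn
      have hUM := hUmin.2 ⟨inf_le_left.trans hUQ, hgM, hn⟩ inf_le_left
      refine hUN fun x hx => ?_
      obtain ⟨y, hy, hyx⟩ := (hUM hx).2
      rwa [← Subtype.ext hyx]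
    set n := u⁻¹ * (g * u * g⁻¹) with hn
    have hnM : n ∈ M := by
      have hnU : n ∈ U := mul_mem (inv_mem hu) ((Subgroup.mem_normalizer_iff.1 hgU u).1 hu)
      refine ⟨hnU, ⟨n, hUH hnU⟩, ?_, rfl⟩
      have hc := hall _ (Subgroup.mem_map_of_mem π (show (⟨u, hUH hu⟩ : H) ∈ U' from hu))
      apply (QuotientGroup.eq_one_iff _).1
      change π ((⟨u, hUH hu⟩ : H)⁻¹ * (⟨g, hgH⟩ * ⟨u, hUH hu⟩ * (⟨g, hgH⟩ : H)⁻¹)) = 1
      rw [map_mul, map_mul, map_mul, map_inv, map_inv, hc.eq, mul_inv_cancel_right, inv_mul_cancel]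
    have hgn : Commute g n := (Subgroup.mem_centralizer_iff.1 hgMc n hnM).symm
    have hpow : ∀ i : ℕ, g ^ i * u * (g ^ i)⁻¹ = u * n ^ i := by
      intro i
      induction i with
      | zero => simp
      | succ i ih =>
        have e : g * n ^ i * g⁻¹ = n ^ i := by rw [(hgn.pow_right i).eq, mul_inv_cancel_right]
        calc g ^ (i + 1) * u * (g ^ (i + 1))⁻¹ = g * (g ^ i * u * (g ^ i)⁻¹) * g⁻¹ := by
              rw [pow_succ']; group
          _ = (g * u * g⁻¹) * (g * n ^ i * g⁻¹) := by rw [ih]; group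
          _ = u * n ^ (i + 1) := by rw [e, show g * u * g⁻¹ = u * n by rw [hn]; group, pow_succ', mul_assoc]
    have hn1 : n ^ orderOf g = 1 := by
      have := hpow (orderOf g)
      rw [pow_orderOf_eq_one] at this
      simpa using this.symm
    obtain ⟨k, hk⟩ := IsPGroup.iff_orderOf.1 hUp ⟨n, hnM.1⟩
    rw [Subgroup.orderOf_mk] at hk
    have : n = 1 := by
      rw [← orderOf_eq_one_iff]
      exact Nat.eq_one_of_dvd_coprimes ((hgp.pow_right k)) (orderOf_dvd_of_pow_eq_one hn1) hk.dvd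
    rw [hn, inv_mul_eq_one, eq_mul_inv_iff_mul_eq] at this
    exact this
  have hgbr : gb ^ r = 1 := by
    by_contra hne
    have hz : zpowers (gb ^ r) ≤ center (H ⧸ N) := by
      rw [zpowers_le, mem_center_iff]
      intro x
      obtain ⟨v, hv, j, rfl⟩ := hsurj x
      obtain ⟨⟨w, hw⟩, hwU, rfl⟩ := hv
      have h1 : Commute (π ⟨w, hw⟩) (gb ^ r) := by
        rw [hgb, ← map_pow]
        refine Commute.map ?_ π
        exact Subtype.ext (Subgroup.mem_centralizer_iff.1 hgrU w hwU)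
      exact (h1.mul_left ((Commute.refl gb).pow_pow j r)).eq
    have hle := huniq (zpowers (gb ^ r)) ⟨fun a ha x => by
      rw [mem_center_iff.1 (hz ha) x, mul_inv_cancel_right]; exact ha⟩ (by rwa [Ne, zpowers_eq_bot])
    obtain ⟨u, hu, hu1⟩ := (Subgroup.bot_or_exists_ne_one Ub).resolve_left hUb0
    refine hu1 (orderOf_eq_one_iff.1 (Nat.eq_one_of_dvd_coprimes hgbp ?_ ?_))
    · exact (orderOf_dvd_of_mem_zpowers (hle hu)).trans (orderOf_pow_dvd r)
    · exact orderOf_dvd_of_pow_eq_one (hUbe u hu)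
  obtain ⟨u₁, hu₁, hu₁1⟩ := (Subgroup.bot_or_exists_ne_one Ub).resolve_left hUb0
  have hgb1 : gb ≠ 1 := fun h => hu₁1 (hfpf u₁ hu₁ (h ▸ Commute.one_left _))
  have hcore : Cfsg.pPrimeCore p (H ⧸ N) = ⊥ := by
    by_contra hne
    have hn : (Cfsg.pPrimeCore p (H ⧸ N)).Normal := inferInstance
    have hle := huniq _ hn hne
    have hcop := Cfsg.Agent.Cores.pPrimeCore_coprime (G := H ⧸ N) (p := p)
    refine hu₁1 (orderOf_eq_one_iff.1 (Nat.eq_one_of_dvd_coprimes hcop ?_ (orderOf_dvd_of_pow_eq_one (hUbe u₁ hu₁))))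
    exact Subgroup.orderOf_dvd_natCard _ (hle hu₁)
  obtain ⟨k, hk⟩ := hsec H N hcore
  have hdr : orderOf gb ∣ orderOf k := hk ▸ Monoid.order_dvd_exponent gb
  have hdp : p ∣ orderOf k := by
    have := Monoid.order_dvd_exponent u₁
    rw [orderOf_eq_prime (hUbe u₁ hu₁) hu₁1] at this
    exact hk ▸ this
  set v := k ^ (orderOf k / p) with hv
  have hvp : orderOf v = p := by
    rw [hv, orderOf_pow_of_dvd (Nat.div_pos (Nat.le_of_dvd (orderOf_pos k) hdp) hp.pos).ne'
      (Nat.div_dvd_of_dvd hdp), Nat.div_div_self hdp (orderOf_pos k).ne']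
  have hvU : v ∈ Ub := by
    obtain ⟨w, hw, j, hj⟩ := hsurj v
    have h1 : (gb ^ j) ^ p ∈ Ub := by
      have h2 : (QuotientGroup.mk' Ub v) ^ p = 1 := by
        rw [← map_pow, ← hvp, pow_orderOf_eq_one, map_one]
      rw [hj, map_mul, show QuotientGroup.mk' Ub w = 1 from (QuotientGroup.eq_one_iff w).2 hw, one_mul, ← map_pow] at h2
      exact (QuotientGroup.eq_one_iff _).1 h2
    have h3 : (gb ^ j) ^ p = 1 := by
      rw [← orderOf_eq_one_iff]
      exact Nat.eq_one_of_dvd_coprimes hgbp ((orderOf_pow_dvd p).trans (orderOf_pow_dvd j))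
        (orderOf_dvd_of_pow_eq_one (hUbe _ h1))
    have h4 : gb ^ j = 1 := by
      rw [← orderOf_eq_one_iff]
      exact Nat.eq_one_of_dvd_coprimes hgbp (orderOf_pow_dvd j) (orderOf_dvd_of_pow_eq_one h3)
    rw [hj, h4, mul_one]; exact hw
  have hv1 : v ≠ 1 := fun h => hp.ne_one (by rw [← hvp, h, orderOf_one])
  obtain ⟨w, hw, j, hkj⟩ := hsurj k
  have hc : Commute (gb ^ j) v := by
    have h1 : Commute k v := (Commute.refl k).pow_right _
    rw [hkj] at h1
    have h2 : Commute w⁻¹ v := hUbc _ (inv_mem hw) v hvU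
    simpa using h2.mul_left h1
  have hrj : r ∣ j := by
    by_contra hn
    apply hv1
    refine hfpf v hvU ?_
    obtain ⟨a, b, hab⟩ := Nat.isCoprime_iff_coprime.2 ((Nat.coprime_comm.1 (hr.coprime_iff_not_dvd.2 hn)))
    have : gb = (gb ^ j) ^ a := by
      conv_lhs => rw [← zpow_one gb, ← hab, zpow_add, mul_comm a, zpow_mul, mul_comm b, zpow_mul,
        zpow_natCast, zpow_natCast, hgbr, one_zpow, mul_one]
    rw [this]; exact hc.zpow_left a
  obtain ⟨c, rfl⟩ := hrj
  rw [pow_mul, hgbr, one_pow, mul_one] at hkj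
  have : orderOf k ∣ p := orderOf_dvd_of_pow_eq_one (hUbe k (hkj ▸ hw))
  exact hgb1 (orderOf_eq_one_iff.1 (Nat.eq_one_of_dvd_coprimes hgbp dvd_rfl (hdr.trans this)))

/-- Let G be a finite group and p a prime. Then G has a normal p-complement if and only if every section K = H/N of G (N a normal subgroup of a subgroup H) whose largest normal subgroup of order prime to p is trivial contains an element whose order equals the exponent of K. -/
theorem result {G : Type*} [Group G] [Finite G] (p : ℕ) [Fact p.Prime] :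
    Cfsg.HasNormalPComplement p G ↔
      ∀ (H : Subgroup G) (N : Subgroup H) [N.Normal], Cfsg.pPrimeCore p (H ⧸ N) = ⊥ →
        ∃ k : H ⧸ N, orderOf k = Monoid.exponent (H ⧸ N) := by
  exact ⟨fun h H N _ hc => forward h H N hc, fun h => backward h⟩

end Cfsg.Agent.S4238
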