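import Cfsg.Statements.S4242
import Mathlib
import Cfsg.Agent.Supersolv.Schmidt
import Cfsg.Agent.Transfer.Frobenius
import Cfsg.Agent.Transfer.Residual

set_option autoImplicit false
open Cfsg

namespace Cfsg.Agent.S4242

theorem nilpotent_sub {G : Type*} [Group G] {H L : Subgroup G} (hle : H ≤ L) (hL : Group.IsNilpotent L) :
    Group.IsNilpotent H := by
  have := hL
  exact Group.nilpotent_of_mulEquiv (Subgroup.subgroupOfEquivOfLe hle)

theorem card_dvd_of_sup {G : Type*} [Group G] [Finite G] (U M : Subgroup G) [U.Normal]
    (h : U ⊔ M = ⊤) : Nat.card G ∣ Nat.card U * Nat.card M := by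
  rw [← U.card_mul_index, ← Subgroup.relIndex_top_right, ← h, sup_comm, Subgroup.relIndex_sup_right]
  exact Nat.mul_dvd_mul_left _ (Subgroup.index_dvd_card _)

theorem nil_of_comm {G : Type*} [Group G] (h : ∀ a b : G, a * b = b * a) : Group.IsNilpotent G := by
  let : CommGroup G := { (inferInstance : Group G) with mul_comm := h }
  exact CommGroup.isNilpotent

/-- Let G be a finite group and p a prime dividing its order. Every maximal subgroup of G of order divisible by p is nilpotent if and only if G is nilpotent, or G is a minimal non-nilpotent group, or G is the internal direct product of a normal subgroup of order p and a normal minimal non-nilpotent subgroup of order prime to p. -/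
theorem result {G : Type*} [Group G] [Finite G] (p : ℕ) (hp : p.Prime) (hpG : p ∣ Nat.card G) :
    (∀ M : Subgroup G, IsCoatom M → p ∣ Nat.card M → Group.IsNilpotent M) ↔
      (Group.IsNilpotent G ∨ Cfsg.IsMinimalNonNilpotent G ∨
        ∃ Z K : Subgroup G, Z.Normal ∧ K.Normal ∧ Z ⊓ K = ⊥ ∧ Z ⊔ K = ⊤ ∧ Nat.card Z = p ∧
          Cfsg.IsMinimalNonNilpotent K ∧ ¬ p ∣ Nat.card K) := by
  classical
  have : Fact p.Prime := ⟨hp⟩
  have : Finite (Subgroup G) := inferInstance
  constructor
  · intro h
    by_cases hnil : Group.IsNilpotent G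
    · exact Or.inl hnil
    refine Or.inr ?_
    by_cases hmnn : Cfsg.IsMinimalNonNilpotent G
    · exact Or.inl hmnn
    refine Or.inr ?_
    obtain ⟨M, hM, hMn⟩ : ∃ M : Subgroup G, IsCoatom M ∧ ¬ Group.IsNilpotent M := by
      by_contra hc
      push Not at hc
      refine hmnn ⟨hnil, fun H hH => ?_⟩
      obtain ⟨L, hL, hle⟩ := (eq_top_or_exists_le_coatom H).resolve_left hH
      exact nilpotent_sub hle (hc L hL)
    have hpM : ¬ p ∣ Nat.card M := fun hd => hMn (h M hM hd)
    have key : ∀ H : Subgroup G, H ≠ ⊤ → p ∣ Nat.card H → Group.IsNilpotent H := fun H hH hd => by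
      obtain ⟨L, hL, hle⟩ := (eq_top_or_exists_le_coatom H).resolve_left hH
      exact nilpotent_sub hle (h L hL (hd.trans (Subgroup.card_dvd_of_le hle)))
    obtain ⟨P⟩ := (inferInstance : Nonempty (Sylow p G))
    have hPne : (P : Subgroup G) ≠ ⊥ := P.ne_bot_of_dvd_card hpG
    have hpP : p ∣ Nat.card (P : Subgroup G) := P.dvd_card_of_dvd_card hpG
    -- a nontrivial normal `p`-subgroup is a Sylow subgroup
    have hnorm : ∀ U : Subgroup G, U.Normal → IsPGroup p U → U ≠ ⊥ → Nat.card U = Nat.card (P : Subgroup G) ∧ U ⊔ M = ⊤ := by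
      intro U hU hUp hUb
      have hnle : ¬ U ≤ M := fun hle => by
        obtain ⟨k, hk⟩ := IsPGroup.iff_card.1 hUp
        rcases k with _ | k
        · exact hUb (Subgroup.card_eq_one.1 (by simpa using hk))
        · exact hpM ((hk ▸ dvd_pow_self p (Nat.succ_ne_zero k)).trans (Subgroup.card_dvd_of_le hle))
      have hsup : U ⊔ M = ⊤ := by
        refine hM.2 _ (lt_of_le_of_ne le_sup_right fun he => hnle ?_)
        rw [he]; exact le_sup_left
      refine ⟨?_, hsup⟩
      obtain ⟨R, hR⟩ := hUp.exists_le_sylow
      have hcP : Nat.card (R : Subgroup G) = Nat.card (P : Subgroup G) := by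
        rw [R.card_eq_multiplicity, P.card_eq_multiplicity]
      refine Nat.le_antisymm (hcP ▸ Subgroup.card_le_of_le hR) ?_
      have hd : Nat.card G ∣ Nat.card U * Nat.card M := card_dvd_of_sup U M hsup
      have hd2 : Nat.card (P : Subgroup G) ∣ Nat.card U * Nat.card M :=
        (Subgroup.card_subgroup_dvd_card _).trans hd
      obtain ⟨k, hk⟩ := IsPGroup.iff_card.1 P.isPGroup'
      refine Nat.le_of_dvd Nat.card_pos ((Nat.Coprime.dvd_mul_right ?_).1 hd2)
      rw [hk]
      exact Nat.Coprime.pow_left _ (hp.coprime_iff_not_dvd.2 hpM)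
    by_cases hPn : (P : Subgroup G).Normal
    · -- the Sylow subgroup is normal
      obtain ⟨-, hsup⟩ := hnorm _ hPn P.isPGroup' hPne
      have hMmin : ∀ X : Subgroup G, X < M →
          (P : Subgroup G) ≤ Subgroup.centralizer (X : Set G) ∧ Group.IsNilpotent X := by
        intro X hX
        have hcard : (Nat.card X).Coprime (Nat.card (P : Subgroup G)) := by
          obtain ⟨k, hk⟩ := IsPGroup.iff_card.1 P.isPGroup'
          rw [hk]
          refine Nat.Coprime.pow_right _ (hp.coprime_iff_not_dvd.2 fun hd => hpM (hd.trans (Subgroup.card_dvd_of_le hX.le))).symm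
        have hne : (P : Subgroup G) ⊔ X ≠ ⊤ := by
          intro ht
          have h1 : Nat.card M ∣ Nat.card (P : Subgroup G) * Nat.card X :=
            (Subgroup.card_subgroup_dvd_card M).trans (card_dvd_of_sup _ _ ht)
          obtain ⟨k, hk⟩ := IsPGroup.iff_card.1 P.isPGroup'
          have h2 : Nat.card M ∣ Nat.card X := by
            refine (Nat.Coprime.dvd_mul_left ?_).1 h1
            rw [hk]
            exact (Nat.Coprime.pow_left _ (hp.coprime_iff_not_dvd.2 hpM)).symm
          have h4 : X = M := Subgroup.eq_of_le_of_card_ge hX.le (Nat.le_of_dvd Nat.card_pos h2)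
          exact hX.ne h4
        have hnilPX := key _ hne (hpP.trans (Subgroup.card_dvd_of_le le_sup_left))
        refine ⟨?_, nilpotent_sub le_sup_right hnilPX⟩
        have hc := Cfsg.Agent.Schmidt.le_centralizer_of_nilpotent hnilPX le_sup_left le_sup_right
          (A := X) (U := (P : Subgroup G))
          (by rw [Subgroup.normalizer_eq_top_iff.2 hPn]; exact le_top) hcard
        exact fun y hy => Subgroup.mem_centralizer_iff.2 fun x hx =>
          ((Subgroup.mem_centralizer_iff.1 (hc hx)) y hy).symm
      have hMmnn : Cfsg.IsMinimalNonNilpotent M := by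
        refine ⟨hMn, fun H hH => ?_⟩
        have hlt : H.map M.subtype < M := lt_of_le_of_ne (Subgroup.map_subtype_le H) fun he => hH (by
          apply Subgroup.map_injective M.subtype_injective
          rw [he, ← MonoidHom.range_eq_map, Subgroup.range_subtype])
        have := (hMmin _ hlt).2
        exact Group.nilpotent_of_mulEquiv (Subgroup.equivMapOfInjective H _ M.subtype_injective).symm
      have hPM : (P : Subgroup G) ≤ Subgroup.centralizer (M : Set G) := by
        intro y hy
        rw [Subgroup.mem_centralizer_iff]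
        intro x hx
        by_cases hz : Subgroup.zpowers x = M
        · exfalso
          refine hMn ?_
          rw [← hz]
          exact nil_of_comm fun a b => (inferInstance : IsMulCommutative (Subgroup.zpowers x)).is_comm.comm a b
        · exact Subgroup.mem_centralizer_iff.1 ((hMmin _ (lt_of_le_of_ne (Subgroup.zpowers_le.2 hx) hz)).1 hy)
            x (Subgroup.mem_zpowers x)
      have hMn' : M.Normal := by
        refine Subgroup.normalizer_eq_top_iff.1 (top_le_iff.1 (hsup ▸ sup_le ?_ Subgroup.le_normalizer))
        intro y hy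
        rw [Subgroup.mem_normalizer_iff]
        intro x
        constructor
        · intro hx
          rwa [← (Subgroup.mem_centralizer_iff.1 (hPM hy)) x hx, mul_inv_cancel_right]
        · intro hx
          have h1 := (Subgroup.mem_centralizer_iff.1 (hPM hy)) _ hx
          have : y * x * y⁻¹ = x := by
            have h2 := congrArg (fun z => y⁻¹ * z) h1
            simpa [mul_assoc] using (mul_left_cancel (congrArg (fun z => z) (show y * (y * x * y⁻¹) = y * x by
              rw [← h1]; group)))
          rwa [this] at hx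
      have hinf : (P : Subgroup G) ⊓ M = ⊥ := by
        refine Subgroup.card_eq_one.1 ?_
        obtain ⟨k, hk⟩ := IsPGroup.iff_card.1 P.isPGroup'
        refine Nat.eq_one_of_dvd_coprimes ?_ (Subgroup.card_dvd_of_le inf_le_left) (Subgroup.card_dvd_of_le inf_le_right)
        rw [hk]
        exact Nat.Coprime.pow_left _ (hp.coprime_iff_not_dvd.2 hpM)
      refine ⟨P, M, hPn, hMn', hinf, hsup, ?_, hMmnn, hpM⟩
      obtain ⟨z, hz⟩ := exists_prime_orderOf_dvd_card' (G := (P : Subgroup G)) p hpP
      have hZM : Subgroup.zpowers (z : G) ⊔ M = ⊤ := by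
        refine hM.2 _ (lt_of_le_of_ne le_sup_right fun he => ?_)
        have h1 : (z : G) ∈ M := by rw [he]; exact Subgroup.mem_sup_left (Subgroup.mem_zpowers _)
        have h2 : (z : G) ∈ (P : Subgroup G) ⊓ M := ⟨z.2, h1⟩
        rw [hinf, Subgroup.mem_bot] at h2
        have : z = 1 := Subtype.ext h2
        rw [this, orderOf_one] at hz
        exact hp.ne_one hz.symm
      refine Nat.le_antisymm ?_ (Nat.le_of_dvd Nat.card_pos hpP)
      have h1 : (P : Subgroup G) ≤ Subgroup.zpowers (z : G) := by
        intro y hy
        have hy' : y ∈ Subgroup.zpowers (z : G) ⊔ M := hZM.symm ▸ Subgroup.mem_top y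
        rw [Subgroup.mem_sup_of_normal_right] at hy'
        obtain ⟨a, ha, b, hb, rfl⟩ := hy'
        have hbP : b ∈ (P : Subgroup G) := by
          have := mul_mem (inv_mem (Subgroup.zpowers_le.2 z.2 ha)) hy
          simpa using this
        have hb1 : b ∈ (P : Subgroup G) ⊓ M := ⟨hbP, hb⟩
        rw [hinf, Subgroup.mem_bot] at hb1
        rw [hb1, mul_one]; exact ha
      calc Nat.card (P : Subgroup G) ≤ Nat.card (Subgroup.zpowers (z : G)) := Subgroup.card_le_of_le h1
        _ = p := by rw [Nat.card_zpowers, Subgroup.orderOf_coe, hz]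
    · exfalso
      have hN : ∀ Q : Subgroup G, IsPGroup p Q → Q ≠ ⊥ → Subgroup.normalizer (Q : Set G) ≠ ⊤ := by
        intro Q hQ hQb ht
        have hQn : Q.Normal := Subgroup.normalizer_eq_top_iff.1 ht
        obtain ⟨hc, -⟩ := hnorm Q hQn hQ hQb
        obtain ⟨R, hR⟩ := hQ.exists_le_sylow
        have : Q = (R : Subgroup G) := Subgroup.eq_of_le_of_card_ge hR
          (le_of_eq (by rw [hc, R.card_eq_multiplicity, P.card_eq_multiplicity]))
        subst this
        have := R.unique_of_normal hQn
        exact hPn (Subsingleton.elim R P ▸ hQn)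
      have hnc : Cfsg.HasNormalPComplement p G := by
        refine Cfsg.Agent.Transfer.hasNormalPComplement_of_coprime_centralize fun Q hQ hQb g hg hgo => ?_
        have hQN : Q ≤ Subgroup.normalizer (Q : Set G) := Subgroup.le_normalizer
        obtain ⟨k, hk⟩ := IsPGroup.iff_card.1 hQ
        have hk0 : k ≠ 0 := fun h0 => hQb (Subgroup.card_eq_one.1 (by rw [hk, h0, pow_zero]))
        have hnl := key _ (hN Q hQ hQb) ((hk ▸ dvd_pow_self p hk0).trans (Subgroup.card_dvd_of_le hQN))
        refine Cfsg.Agent.Schmidt.le_centralizer_of_nilpotent hnl hQN (Subgroup.zpowers_le.2 hg)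
          (A := Subgroup.zpowers g) (U := Q) (Subgroup.zpowers_le.2 hg) ?_ (Subgroup.mem_zpowers g)
        rw [Nat.card_zpowers, hk]
        exact Nat.Coprime.pow_right _ hgo
      have hKc := Cfsg.Agent.Transfer.isComplement'_pResidual hnc P
      set K := Cfsg.pResidual p G with hKdef
      have hKn : K.Normal := inferInstance
      have hKp : ¬ p ∣ Nat.card K := Cfsg.Agent.Transfer.hasNormalPComplement_iff.1 hnc
      have hKM : K = M := by
        have hMK : M ≤ K := by
          intro x hx
          refine Cfsg.Agent.Transfer.mem_pResidual_of_coprime ?_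
          have hxd : orderOf x ∣ Nat.card M := by
            have := orderOf_dvd_natCard (⟨x, hx⟩ : M)
            rwa [← Subgroup.orderOf_coe] at this
          exact ((hp.coprime_iff_not_dvd.2 hpM).symm).coprime_dvd_left hxd
        by_contra hne
        have : K = ⊤ := hM.2 K (lt_of_le_of_ne hMK (Ne.symm hne))
        rw [this, Subgroup.card_top] at hKp
        exact hKp hpG
      have hidx : K.index = Nat.card (P : Subgroup G) := hKc.symm.index_eq_card
      have hPcard : Nat.card (P : Subgroup G) = p := by
        obtain ⟨k, hk⟩ := IsPGroup.iff_card.1 P.isPGroup'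
        obtain ⟨z, hz⟩ := exists_prime_orderOf_dvd_card' (G := (P : Subgroup G)) p hpP
        have hZK : K ⊔ Subgroup.zpowers (z : G) = ⊤ := by
          rw [hKM]
          refine hM.2 _ (lt_of_le_of_ne le_sup_left fun he => ?_)
          have hzM : (z : G) ∈ M := by rw [he]; exact Subgroup.mem_sup_right (Subgroup.mem_zpowers _)
          have := orderOf_dvd_natCard (⟨(z : G), hzM⟩ : M)
          rw [← Subgroup.orderOf_coe, Subgroup.orderOf_coe z, hz] at this
          exact hpM this
        refine Nat.le_antisymm ?_ (Nat.le_of_dvd Nat.card_pos hpP)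
        rw [← hidx, ← Subgroup.relIndex_top_right, ← hZK, sup_comm, Subgroup.relIndex_sup_right]
        refine (Nat.le_of_dvd Nat.card_pos (Subgroup.index_dvd_card _)).trans ?_
        rw [Nat.card_zpowers, Subgroup.orderOf_coe, hz]
      -- each prime contributes a Sylow subgroup to the centralizer
      apply hPn
      have hC : Subgroup.centralizer ((P : Subgroup G) : Set G) = ⊤ := by
        rw [← Subgroup.index_eq_one]
        by_contra hne
        obtain ⟨r, hr, hrd⟩ := Nat.exists_prime_and_dvd hne
        have : Fact r.Prime := ⟨hr⟩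
        by_cases hrp : r = p
        · subst hrp
          refine P.not_dvd_index (hrd.trans (Subgroup.index_dvd_of_le ?_))
          intro x hx
          rw [Subgroup.mem_centralizer_iff]
          intro y hy
          have hcyc : IsCyclic (P : Subgroup G) := isCyclic_of_prime_card hPcard
          exact congrArg Subtype.val (hcyc.isMulCommutative.is_comm.comm (⟨y, hy⟩ : (P : Subgroup G)) ⟨x, hx⟩)
        obtain ⟨R0⟩ := (inferInstance : Nonempty (Sylow r K))
        set R : Subgroup G := (R0 : Subgroup K).map K.subtype with hR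
        have hsup : Subgroup.normalizer (R : Set G) ⊔ K = ⊤ := Sylow.normalizer_sup_eq_top R0
        have hpN : p ∣ Nat.card (Subgroup.normalizer (R : Set G)) := by
          have h1 : K.relIndex (Subgroup.normalizer (R : Set G)) = p := by
            rw [← Subgroup.relIndex_sup_right, hsup, Subgroup.relIndex_top_right, hidx, hPcard]
          exact h1 ▸ Subgroup.index_dvd_card _
        obtain ⟨x, hx⟩ := exists_prime_orderOf_dvd_card' p hpN
        have hxo : orderOf (x : G) = p := by rw [Subgroup.orderOf_coe, hx]
        have hxS : IsPGroup p (Subgroup.zpowers (x : G)) := IsPGroup.of_card (n := 1) (by rw [Nat.card_zpowers, hxo, pow_one])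
        obtain ⟨P', hP'⟩ := hxS.exists_le_sylow
        have hP'eq : Subgroup.zpowers (x : G) = (P' : Subgroup G) := Subgroup.eq_of_le_of_card_ge hP' (by
          rw [Nat.card_zpowers, hxo, P'.card_eq_multiplicity, ← P.card_eq_multiplicity, hPcard])
        have hRcop : (Nat.card (Subgroup.zpowers (x : G))).Coprime (Nat.card R) := by
          rw [Nat.card_zpowers, hxo]
          exact hp.coprime_iff_not_dvd.2 fun hd => hKp (hd.trans (Subgroup.card_dvd_of_le (Subgroup.map_subtype_le _)))
        have hne2 : R ⊔ Subgroup.zpowers (x : G) ≠ ⊤ := by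
          intro ht
          have hxN : Subgroup.zpowers (x : G) ≤ Subgroup.normalizer (R : Set G) := Subgroup.zpowers_le.2 x.2
          have hRn : R.Normal := Subgroup.normalizer_eq_top_iff.1 (top_le_iff.1 (ht ▸ sup_le Subgroup.le_normalizer hxN))
          have hKR : K ≤ R := by
            intro y hy
            have hy' : y ∈ R ⊔ Subgroup.zpowers (x : G) := ht.symm ▸ Subgroup.mem_top y
            rw [Subgroup.mem_sup_of_normal_left] at hy'
            obtain ⟨a, ha, b, hb, rfl⟩ := hy'
            have hbK : b ∈ K := by
              have := mul_mem (inv_mem (Subgroup.map_subtype_le _ ha)) hy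
              simpa using this
            have hb1 : b = 1 := by
              have h1 := orderOf_dvd_natCard (⟨b, hbK⟩ : K)
              have h2 := orderOf_dvd_natCard (⟨b, hb⟩ : Subgroup.zpowers (x : G))
              rw [← Subgroup.orderOf_coe] at h1 h2
              rw [Nat.card_zpowers, hxo] at h2
              exact orderOf_eq_one_iff.1 (((Nat.dvd_prime hp).1 h2).resolve_right fun he => hKp (he ▸ h1))
            rw [hb1, mul_one]; exact ha
          apply hMn
          rw [← hKM]
          have hRnil : Group.IsNilpotent R := (R0.isPGroup'.map _).isNilpotent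
          exact nilpotent_sub hKR hRnil
        have hnl := key _ hne2 (by
          refine dvd_trans ?_ (Subgroup.card_dvd_of_le le_sup_right)
          rw [Nat.card_zpowers, hxo])
        have hc := Cfsg.Agent.Schmidt.le_centralizer_of_nilpotent hnl le_sup_left le_sup_right
          (A := Subgroup.zpowers (x : G)) (U := R) (Subgroup.zpowers_le.2 x.2) hRcop
        obtain ⟨g, hg⟩ := MulAction.exists_smul_eq G P' P
        set R' : Subgroup G := R.map (MulAut.conj g).toMonoidHom with hR'
        have hR'C : R' ≤ Subgroup.centralizer ((P : Subgroup G) : Set G) := by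
          rintro _ ⟨y, hy, rfl⟩
          rw [Subgroup.mem_centralizer_iff]
          intro w hw
          rw [← hg, Sylow.coe_subgroup_smul] at hw
          obtain ⟨v, hv, rfl⟩ := hw
          have hv' : v ∈ Subgroup.zpowers (x : G) := hP'eq ▸ hv
          have hcomm := Subgroup.mem_centralizer_iff.1 (hc hv') y hy
          calc g * v * g⁻¹ * (g * y * g⁻¹) = g * (v * y) * g⁻¹ := by group
            _ = g * (y * v) * g⁻¹ := by rw [hcomm]
            _ = g * y * g⁻¹ * (g * v * g⁻¹) := by group
        have h5 := hrd.trans (Subgroup.index_dvd_of_le hR'C)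
        rw [hR', Subgroup.index_map_of_bijective (MulAut.conj g).bijective, hR, Subgroup.index_map_subtype] at h5
        rcases hr.dvd_mul.1 h5 with h6 | h6
        · exact R0.not_dvd_index h6
        · rw [hidx, hPcard] at h6
          exact hrp ((Nat.prime_dvd_prime_iff_eq hr hp).1 h6)
      have hZ : ∀ x ∈ (P : Subgroup G), ∀ g : G, g * x * g⁻¹ = x := fun x hx g => by
        have := Subgroup.mem_centralizer_iff.1 (hC.symm ▸ Subgroup.mem_top g) x hx
        rw [← this, mul_inv_cancel_right]
      exact ⟨fun x hx g => by rw [hZ x hx g]; exact hx⟩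
  · rintro (hn | ⟨-, hmin⟩ | ⟨Z, K, hZn, hKn, hinf, hsup, hZ, ⟨hKnn, hKmin⟩, hpK⟩) M hM hpM
    · infer_instance
    · exact hmin M hM.1
    have hZM : Z ≤ M := by
      by_contra hnle
      have hT : Z ⊔ M = ⊤ := hM.2 _ (lt_of_le_of_ne le_sup_right fun he => hnle (by rw [he]; exact le_sup_left))
      have h1 : M.index ∣ p := by
        have := card_dvd_of_sup Z M hT
        rw [hZ, ← M.card_mul_index, mul_comm p] at this
        exact (Nat.mul_dvd_mul_iff_left Nat.card_pos).1 this
      have hKidx : K.index ∣ p := by
        rw [← Subgroup.relIndex_top_right, ← hsup, Subgroup.relIndex_sup_right, ← hZ]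
        exact Subgroup.index_dvd_card _
      have hMi : M.index = p := ((Nat.dvd_prime hp).1 h1).resolve_left fun h => hM.1 (Subgroup.index_eq_one.1 h)
      have h2 := M.card_mul_index
      have h3 := K.card_mul_index
      rcases (Nat.dvd_prime hp).1 hKidx with h | h
      · rw [h, mul_one] at h3
        exact hpK (h3 ▸ hpG)
      · rw [hMi] at h2; rw [h, ← h2] at h3
        exact hpK (Nat.eq_of_mul_eq_mul_right hp.pos h3 ▸ hpM)
    have hcZ : IsCyclic Z := by
      have : Fact p.Prime := ⟨hp⟩
      exact isCyclic_of_prime_card hZ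
    have hcomm : ∀ z ∈ Z, ∀ k ∈ K, z * k = k * z := fun z hz k hk =>
      Subgroup.commute_of_normal_of_disjoint Z K hZn hKn (disjoint_iff.2 hinf) z k hz hk
    set K1 := M ⊓ K with hK1
    have hK1n : Group.IsNilpotent K1 := by
      have hne : K1.subgroupOf K ≠ ⊤ := fun ht => by
        rw [Subgroup.subgroupOf_eq_top] at ht
        exact hM.1 (top_le_iff.1 (hsup ▸ sup_le hZM (ht.trans inf_le_left)))
      have := hKmin _ hne
      exact Group.nilpotent_of_mulEquiv (Subgroup.subgroupOfEquivOfLe inf_le_right)
    have : IsMulCommutative Z := hcZ.isMulCommutative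
    let φ : Z × K1 →* M :=
      { toFun := fun x => ⟨(x.1 : G) * x.2, mul_mem (hZM x.1.2) x.2.2.1⟩
        map_one' := Subtype.ext (by simp)
        map_mul' := fun x y => Subtype.ext (by
          simp only [Prod.fst_mul, Prod.snd_mul, Subgroup.coe_mul]
          calc (x.1 : G) * y.1 * (x.2 * y.2) = x.1 * ((y.1 : G) * x.2) * y.2 := by group
            _ = x.1 * ((x.2 : G) * y.1) * y.2 := by rw [hcomm _ y.1.2 _ x.2.2.2]
            _ = x.1 * x.2 * (y.1 * y.2) := by group) }
    have hφ : Function.Surjective φ := by
      rintro ⟨m, hm⟩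
      have hm' : m ∈ Z ⊔ K := hsup.symm ▸ Subgroup.mem_top m
      rw [Subgroup.mem_sup_of_normal_left] at hm'
      obtain ⟨z, hz, k, hk, rfl⟩ := hm'
      have hkM : k ∈ M := by simpa using mul_mem (inv_mem (hZM hz)) hm
      exact ⟨(⟨z, hz⟩, ⟨k, hkM, hk⟩), rfl⟩
    have hZn' : Group.IsNilpotent Z := nil_of_comm this.is_comm.comm
    exact Group.nilpotent_of_surjective φ hφ

end Cfsg.Agent.S4242
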