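import Cfsg.Statements.S4245
import Mathlib
import Cfsg.Agent.Lib.ClassSize
import Cfsg.Agent.S0143

set_option autoImplicit false
open Cfsg

namespace Cfsg.Agent.S4245

universe u

/-- `H` is cyclic-by-(cyclic 2-group). -/
def CycByTwo (H : Type*) [Group H] : Prop :=
  ∃ B : Subgroup H, ∃ _ : B.Normal, IsCyclic B ∧ IsCyclic (H ⧸ B) ∧ IsPGroup 2 (H ⧸ B)

theorem CycByTwo.of_injective {H K : Type*} [Group H] [Group K] (f : H →* K)
    (hf : Function.Injective f) : CycByTwo K → CycByTwo H := by
  rintro ⟨B, hB, hc, hq, h2⟩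
  refine ⟨B.comap f, inferInstance, ?_, ?_, ?_⟩
  · exact isCyclic_of_injective ((f.subgroupComap B))
      (fun a b hab => Subtype.ext (hf (congrArg Subtype.val hab)))
  · exact isCyclic_of_injective (QuotientGroup.map (B.comap f) B f le_rfl)
      ((MonoidHom.ker_eq_bot_iff _).1 (by rw [QuotientGroup.ker_map]; exact QuotientGroup.map_mk'_self _))
  · exact h2.of_injective (QuotientGroup.map (B.comap f) B f le_rfl)
      ((MonoidHom.ker_eq_bot_iff _).1 (by rw [QuotientGroup.ker_map]; exact QuotientGroup.map_mk'_self _))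

theorem CycByTwo.of_surjective {H K : Type*} [Group H] [Group K] (f : H →* K)
    (hf : Function.Surjective f) : CycByTwo H → CycByTwo K := by
  rintro ⟨B, hB, hc, hq, h2⟩
  have hn : (B.map f).Normal := Subgroup.Normal.map hB f hf
  have hs : Function.Surjective (QuotientGroup.map B (B.map f) f (Subgroup.le_comap_map _ _)) := by
    intro q
    obtain ⟨k, rfl⟩ := QuotientGroup.mk_surjective q
    obtain ⟨h, rfl⟩ := hf k
    exact ⟨(h : H ⧸ B), rfl⟩
  exact ⟨B.map f, hn, isCyclic_of_surjective (f.subgroupMap B) (f.subgroupMap_surjective B),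
    isCyclic_of_surjective _ hs, h2.of_surjective _ hs⟩

theorem simple_case {G : Type u} [Group G] [Finite G] [IsSimpleGroup G] (A : Subgroup G)
    (p s : ℕ) (hp : p.Prime) (hA : A.index = p ^ s) (h : CycByTwo A) : Group.IsSolvable G := by
  have hcyc : ∀ {H : Type u} [Group H], IsCyclic H → Group.IsSolvable H := fun {H} _ hH =>
    Group.isSolvable_of_comm hH.isMulCommutative.is_comm.comm
  have hburn : ∀ (g : G) (q k : ℕ), q.Prime → g ≠ 1 →
      (Subgroup.centralizer ({g} : Set G)).index ∣ q ^ k → Group.IsSolvable G := by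
    intro g q k hq hg hd
    obtain ⟨j, -, hj⟩ := (Nat.dvd_prime_pow hq).1 hd
    have : Fact (Nat.card G).Prime := ⟨Cfsg.Agent.S0143.result q j hq g hg hj⟩
    exact hcyc (isCyclic_of_prime_card rfl)
  obtain ⟨B, hB, hBc, hQc, hQ2⟩ := h
  by_cases hAt : A = ⊤
  · have : Group.IsSolvable B := hcyc hBc
    have : Group.IsSolvable (↥A ⧸ B) := hcyc hQc
    have : Group.IsSolvable A := Group.isSolvable_of_ker_le_range B.subtype (QuotientGroup.mk' B) (by simp)
    subst hAt
    exact Group.isSolvable_of_surjective (f := (⊤ : Subgroup G).subtype) fun g => ⟨⟨g, trivial⟩, rfl⟩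
  have hAcent : ∀ a : A, a ∈ Subgroup.center A → a ≠ 1 → Group.IsSolvable G := fun a ha ha1 =>
    hburn (a : G) p s hp (fun h => ha1 (Subtype.ext h)) (hA ▸ Subgroup.index_dvd_of_le fun x hx =>
      Subgroup.mem_centralizer_singleton_iff.2
        (congrArg Subtype.val (Subgroup.mem_center_iff.1 ha ⟨x, hx⟩)))
  obtain ⟨r, hr⟩ := IsPGroup.iff_card.1 hQ2
  rcases hp.eq_two_or_odd with rfl | hodd
  · rcases eq_or_ne B ⊥ with hBb | hBb
    · subst hBb
      have : Fact (Nat.Prime 2) := ⟨hp⟩
      have hG : IsPGroup 2 G := IsPGroup.of_card (n := r + s) (by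
        rw [← Subgroup.card_mul_index A, hA, pow_add, ← hr,
          Nat.card_congr (QuotientGroup.quotientBot (G := ↥A)).toEquiv])
      have := hG.isNilpotent
      infer_instance
    · obtain ⟨b, hb, hb1⟩ := (Subgroup.ne_bot_iff_exists_ne_one.1 hBb) |> fun ⟨b, hb⟩ =>
        (⟨b.1, b.2, fun h => hb (Subtype.ext h)⟩ : ∃ b : A, b ∈ B ∧ b ≠ 1)
      refine hburn (b : G) 2 (r + s) hp (fun h => hb1 (Subtype.ext h)) ?_
      have hle : B.map A.subtype ≤ Subgroup.centralizer ({(b : G)} : Set G) := by
        rintro _ ⟨x, hx, rfl⟩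
        exact Subgroup.mem_centralizer_singleton_iff.2 (congrArg Subtype.val
          (congrArg Subtype.val (hBc.isMulCommutative.is_comm.comm (⟨x, hx⟩ : B) ⟨b, hb⟩)))
      have := Subgroup.index_dvd_of_le hle
      rwa [Subgroup.index_map_subtype, hA, B.index_eq_card, hr, ← pow_add] at this
  · have : Fact (Nat.Prime 2) := ⟨Nat.prime_two⟩
    by_cases hBeven : 2 ∣ Nat.card B
    · obtain ⟨b, hb⟩ := exists_prime_orderOf_dvd_card' 2 hBeven
      have hb1 : b ≠ 1 := by intro h; rw [h, orderOf_one] at hb; norm_num at hb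
      refine hAcent b.1 (Subgroup.mem_center_iff.2 fun x => ?_) (fun h => hb1 (Subtype.ext h))
      have hmem : x * b.1 * x⁻¹ ∈ B := hB.conj_mem b.1 b.2 x
      have hb' : orderOf (⟨_, hmem⟩ : B) = 2 := by
        rw [← Subgroup.orderOf_coe]
        show orderOf (x * b.1 * x⁻¹) = 2
        rw [← MulAut.conj_apply, MulEquiv.orderOf_eq, Subgroup.orderOf_coe, hb]
      have huniq : ∀ c : B, orderOf c = 2 → c = b := by
        intro c hc
        classical
        have : Fintype B := Fintype.ofFinite B
        have := hBc.card_orderOf_eq_totient (α := B) (d := 2) (by rwa [← Nat.card_eq_fintype_card])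
        rw [Nat.totient_two, Finset.card_eq_one] at this
        obtain ⟨d, hd⟩ := this
        have h1 : c ∈ ({d} : Finset B) := hd ▸ by simp [hc]
        have h2 : b ∈ ({d} : Finset B) := hd ▸ by simp [hb]
        rw [Finset.mem_singleton] at h1 h2
        rw [h1, h2]
      have h1 := congrArg Subtype.val (huniq _ hb')
      change x * b.1 * x⁻¹ = b.1 at h1
      exact mul_inv_eq_iff_eq_mul.1 h1
    · obtain ⟨P⟩ := (inferInstance : Nonempty (Sylow 2 A))
      by_cases hr0 : r = 0
      · have hBt : B = ⊤ := Subgroup.index_eq_one.1 (by rw [Subgroup.index_eq_card, hr, hr0, pow_zero])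
        subst hBt
        rcases eq_or_ne A ⊥ with hAb | hAb
        · subst hAb
          have : Fact p.Prime := ⟨hp⟩
          rw [Subgroup.index_bot] at hA
          have := (IsPGroup.of_card hA).isNilpotent
          infer_instance
        obtain ⟨a, ha⟩ := Subgroup.ne_bot_iff_exists_ne_one.1 hAb
        refine hAcent a (Subgroup.mem_center_iff.2 fun x => ?_) ha
        exact congrArg Subtype.val
          (hBc.isMulCommutative.is_comm.comm (⟨x, trivial⟩ : (⊤ : Subgroup A)) ⟨a, trivial⟩)
      · set S : Subgroup G := (P : Subgroup A).map A.subtype with hSdef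
        have hAodd : ¬ 2 ∣ A.index := by
          rw [hA]; intro hd
          have := Nat.prime_two.dvd_of_dvd_pow hd
          omega
        have hSidx : ¬ 2 ∣ S.index := by
          rw [hSdef, Subgroup.index_map_subtype]
          exact fun hd => (Nat.prime_two.dvd_mul.1 hd).elim P.not_dvd_index hAodd
        let T : Sylow 2 G := (P.isPGroup'.map A.subtype).toSylow hSidx
        have hinj : Function.Injective ((QuotientGroup.mk' B).comp (P : Subgroup A).subtype) := by
          refine (MonoidHom.ker_eq_bot_iff _).1 ((Subgroup.eq_bot_iff_forall _).2 fun x hx => ?_)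
          have hxB : (x : A) ∈ B := (QuotientGroup.eq_one_iff _).1 hx
          obtain ⟨k, hk⟩ := Cfsg.Agent.Element.orderOf_eq_pow_of_mem_isPGroup P.isPGroup' x.2
          have hd : orderOf (x : A) ∣ Nat.card B := by
            rw [show orderOf (x : A) = orderOf (⟨x.1, hxB⟩ : B) from Subgroup.orderOf_coe (⟨x.1, hxB⟩ : B)]
            exact orderOf_dvd_natCard _
          rw [hk] at hd
          rcases k with _ | k
          · exact Subtype.ext (orderOf_eq_one_iff.1 (by rw [hk, pow_zero]))
          · exact absurd (Dvd.dvd.trans (dvd_pow_self 2 (Nat.succ_ne_zero k)) hd) hBeven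
        have : IsCyclic (P : Subgroup A) := isCyclic_of_injective _ hinj
        have hTc : IsCyclic (T : Subgroup G) :=
          isCyclic_of_surjective (A.subtype.subgroupMap (P : Subgroup A))
            (A.subtype.subgroupMap_surjective _)
        have h2A : 2 ∣ Nat.card A := by
          rw [← Subgroup.card_mul_index B]
          exact Dvd.dvd.mul_left (by rw [Subgroup.index_eq_card, hr]; exact dvd_pow_self 2 hr0) _
        have h2G : 2 ∣ Nat.card G := h2A.trans (Subgroup.card_subgroup_dvd_card A)
        have hmin : (Nat.card G).minFac = 2 := (Nat.minFac_eq_two_iff _).2 h2G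
        have hc := IsCyclic.normalizer_le_centralizer hmin (P := T) hTc
        have hcomp := MonoidHom.ker_transferSylow_isComplement' T hc
        have hKn : (MonoidHom.transferSylow T hc).ker.Normal := inferInstance
        rcases hKn.eq_bot_or_eq_top with hK | hK
        · have hcard := hcomp.symm.index_eq_card
          rw [hK, Subgroup.index_bot] at hcard
          have hTt : (T : Subgroup G) = ⊤ := Subgroup.eq_top_of_card_eq _ hcard.symm
          have : IsPGroup 2 G := by
            intro g
            obtain ⟨k, hk⟩ := T.isPGroup' ⟨g, hTt ▸ Subgroup.mem_top g⟩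
            exact ⟨k, by simpa using congrArg Subtype.val hk⟩
          have := this.isNilpotent
          infer_instance
        · have hcard := hcomp.symm.index_eq_card
          rw [hK, Subgroup.index_top] at hcard
          exact absurd (Subgroup.card_eq_one.1 hcard.symm) (T.ne_bot_of_dvd_card h2G)

theorem main : ∀ (N : ℕ) (G : Type u) [Group G] [Finite G], Nat.card G ≤ N →
    ∀ (A : Subgroup G) (p s : ℕ), p.Prime → A.index = p ^ s → CycByTwo A → Group.IsSolvable G := by
  intro N
  induction N with
  | zero => intro G _ _ hle; exact absurd hle (not_le.2 Nat.card_pos)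
  | succ N ih =>
    intro G _ _ hle A p s hp hA h
    rcases subsingleton_or_nontrivial G with hs | hnt
    · exact Group.isSolvable_of_comm fun a b => Subsingleton.elim _ _
    by_cases hsimp : IsSimpleGroup G
    · exact simple_case A p s hp hA h
    obtain ⟨K, hK, hKb, hKt⟩ : ∃ K : Subgroup G, K.Normal ∧ K ≠ ⊥ ∧ K ≠ ⊤ := by
      by_contra hc
      refine hsimp ⟨fun K hK => ?_⟩
      by_contra hne
      rw [not_or] at hne
      exact hc ⟨K, hK, hne.1, hne.2⟩
    have hKlt : Nat.card K < Nat.card G := lt_of_le_of_ne (Nat.le_of_dvd Nat.card_pos K.card_subgroup_dvd_card)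
      (fun h => hKt (Subgroup.eq_top_of_card_eq _ h))
    have hQlt : Nat.card (G ⧸ K) < Nat.card G := by
      rw [← Subgroup.card_mul_index K, ← Subgroup.index_eq_card]
      exact lt_mul_left (Nat.pos_of_ne_zero Subgroup.index_ne_zero_of_finite)
        ((Subgroup.one_lt_card_iff_ne_bot K).2 hKb)
    have : Fact p.Prime := ⟨hp⟩
    obtain ⟨s1, -, hs1⟩ : ∃ j ≤ s, (A.subgroupOf K).index = p ^ j := by
      refine (Nat.dvd_prime_pow hp).1 ?_
      rw [← hA]
      exact Cfsg.Agent.ClassSize.relIndex_dvd_index_of_normal_left K A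
    have hsK : Group.IsSolvable K := ih K (by omega) (A.subgroupOf K) p s1 hp hs1
      (h.of_injective ((K.subtype.comp (A.subgroupOf K).subtype).codRestrict A fun x => x.2)
        (fun a b hab => by
          have := congrArg Subtype.val hab
          exact Subtype.ext (Subtype.ext this)))
    obtain ⟨s2, -, hs2⟩ : ∃ j ≤ s, (A.map (QuotientGroup.mk' K)).index = p ^ j := by
      refine (Nat.dvd_prime_pow hp).1 ?_
      rw [← hA]
      exact Subgroup.index_map_dvd A (QuotientGroup.mk'_surjective K)
    have hsQ : Group.IsSolvable (G ⧸ K) := ih (G ⧸ K) (by omega) _ p s2 hp hs2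
      (h.of_surjective ((QuotientGroup.mk' K).subgroupMap A) ((QuotientGroup.mk' K).subgroupMap_surjective A))
    exact Group.isSolvable_of_ker_le_range K.subtype (QuotientGroup.mk' K) (by simp)

/-- Let G be a finite group with a subgroup A of prime-power index. Suppose A has a normal cyclic subgroup B such that A/B is cyclic of order a power of 2. Then G is solvable. -/
theorem result {G : Type*} [Group G] [Finite G] (A : Subgroup G) (p s : ℕ) (hp : p.Prime) (hA : A.index = p ^ s)
    (B : Subgroup A) [B.Normal] (hB : IsCyclic B) (hAB : IsCyclic (A ⧸ B)) (r : ℕ) (hr : Nat.card (A ⧸ B) = 2 ^ r) :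
    Group.IsSolvable G := by
  have : Fact (Nat.Prime 2) := ⟨Nat.prime_two⟩
  exact main (Nat.card G) G le_rfl A p s hp hA ⟨B, inferInstance, hB, hAB, IsPGroup.of_card hr⟩

end Cfsg.Agent.S4245
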