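import Cfsg.Statements.S4249
import Cfsg.Agent.Solvable.Kegel

set_option autoImplicit false
open Cfsg

namespace Cfsg.Agent.S4249

/-- Let G be a finite group and p a prime such that G is not a p-group, and suppose the Hughes subgroup H_p(G), generated by all elements g with g^p ≠ 1, is a proper subgroup. Then H_p(G) is nilpotent and has index p in G. -/
theorem result {G : Type*} [Group G] [Finite G] (p : ℕ) (hp : p.Prime) (hG : ¬ IsPGroup p G)
    (hH : Subgroup.closure {g : G | g ^ p ≠ 1} ≠ ⊤) :
    Group.IsNilpotent (Subgroup.closure {g : G | g ^ p ≠ 1}) ∧ (Subgroup.closure {g : G | g ^ p ≠ 1}).index = p := by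
  set H := Subgroup.closure {g : G | g ^ p ≠ 1} with hHdef
  have hout : ∀ g : G, g ∉ H → g ^ p = 1 := fun g hg => by
    by_contra h
    exact hg (Subgroup.subset_closure h)
  have hsub : ∀ (a : G), a ∈ H → ∀ g : G, g * a * g⁻¹ ∈ H := by
    intro a ha g
    induction ha using Subgroup.closure_induction with
    | mem z hz =>
      refine Subgroup.subset_closure fun h => hz ?_
      rwa [conj_pow, mul_inv_eq_one, mul_eq_left] at h
    | one => simp
    | mul z w _ _ hz hw =>
      rw [show g * (z * w) * g⁻¹ = (g * z * g⁻¹) * (g * w * g⁻¹) by group]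
      exact mul_mem hz hw
    | inv z _ hz =>
      rw [show g * z⁻¹ * g⁻¹ = (g * z * g⁻¹)⁻¹ by group]
      exact inv_mem hz
  have : H.Normal := ⟨fun a ha g => hsub a ha g⟩
  exact ⟨Cfsg.Agent.Solvable.isNilpotent_of_outside hp H hH hout,
    Cfsg.Agent.Solvable.index_eq_of_outside hp H hH hout hG⟩

end Cfsg.Agent.S4249
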