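import Cfsg.Statements.S4250
import Mathlib
import Cfsg.Agent.Fusion.Alperin

set_option autoImplicit false
open Cfsg

namespace Cfsg.Agent.S4250

open scoped commutatorElement

/-- Let P be a Sylow p-subgroup of a finite group G. Call an intersection H = P ∩ Q with a Sylow p-subgroup Q tame when N_P(H) and N_Q(H) are Sylow p-subgroups of N_G(H). Then P ∩ G′ is generated by [P, N_G(P)] together with the commutator subgroups [P ∩ Q, ⟨x⟩] for all tame intersections P ∩ Q and all p-elements x of N_G(P ∩ Q). -/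
theorem result {G : Type*} [Group G] [Finite G] (p : ℕ) [Fact p.Prime] (P : Sylow p G) :
    (P : Subgroup G) ⊓ commutator G =
      ⁅(P : Subgroup G), Subgroup.normalizer ((P : Subgroup G) : Set G)⁆ ⊔
        ⨆ (Q : Sylow p G) (_ : (¬ p ∣ ((P : Subgroup G) ⊓ Subgroup.normalizer (((P : Subgroup G) ⊓ (Q : Subgroup G) : Subgroup G) : Set G)).relIndex (Subgroup.normalizer (((P : Subgroup G) ⊓ (Q : Subgroup G) : Subgroup G) : Set G)) ∧ ¬ p ∣ ((Q : Subgroup G) ⊓ Subgroup.normalizer (((P : Subgroup G) ⊓ (Q : Subgroup G) : Subgroup G) : Set G)).relIndex (Subgroup.normalizer (((P : Subgroup G) ⊓ (Q : Subgroup G) : Subgroup G) : Set G))))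
          (x : G) (_ : x ∈ Subgroup.normalizer (((P : Subgroup G) ⊓ (Q : Subgroup G) : Subgroup G) : Set G) ∧ ∃ k : ℕ, orderOf x = p ^ k),
          ⁅(P : Subgroup G) ⊓ (Q : Subgroup G), Subgroup.zpowers x⁆ := by
  refine le_antisymm ?_ (sup_le (le_inf ?_ ?_) (iSup₂_le fun Q _ => iSup₂_le fun x hx => le_inf ?_ ?_))
  · rw [inf_comm, Subgroup.commutator_inf_eq_focalSubgroup P, Subgroup.focalSubgroup_def, Subgroup.closure_le]
    rintro g ⟨hg, a, ha, u, rfl⟩
    simp only [SetLike.mem_coe]
    set S : Subgroup G := ⁅(P : Subgroup G), Subgroup.normalizer ((P : Subgroup G) : Set G)⁆ ⊔ _ with hS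
    have key : ∀ (D : Subgroup G) (y : G), Cfsg.Agent.Fusion.FusionChain P D y →
        ∀ b ∈ D, b⁻¹ * (y⁻¹ * b * y) ∈ S := by
      intro D y hy
      induction hy with
      | one D => intro b _; simp [one_mem]
      | @step D R x y hR hx hxp hD _ ih =>
        intro b hb
        have hb' : x⁻¹ * b * x ∈ Cfsg.Agent.Fusion.cj x⁻¹ D :=
          Cfsg.Agent.Fusion.mem_cj_inv.2 (by simpa [mul_assoc] using hb)
        have h2 := ih _ hb'
        have h1 : b⁻¹ * (x⁻¹ * b * x) ∈ S := by
          have e : b⁻¹ * (x⁻¹ * b * x) = ⁅b⁻¹, x⁻¹⁆ := by rw [commutatorElement_def]; group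
          rw [e]
          rcases hxp with ⟨k, hk⟩ | rfl
          · obtain ⟨j, -, hj⟩ := (Nat.dvd_prime_pow (Fact.out : p.Prime)).1 (orderOf_dvd_of_pow_eq_one hk)
            refine Subgroup.mem_sup_right ?_
            exact Subgroup.mem_iSup_of_mem R (Subgroup.mem_iSup_of_mem hR (Subgroup.mem_iSup_of_mem x
              (Subgroup.mem_iSup_of_mem ⟨hx, j, hj⟩
                (Subgroup.commutator_mem_commutator (inv_mem (hD hb)) (inv_mem (Subgroup.mem_zpowers x))))))
          · rw [inf_idem] at hx hD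
            exact Subgroup.mem_sup_left
              (Subgroup.commutator_mem_commutator (inv_mem (hD hb)) (inv_mem hx))
        have e : b⁻¹ * ((x * y)⁻¹ * b * (x * y)) =
            (b⁻¹ * (x⁻¹ * b * x)) * ((x⁻¹ * b * x)⁻¹ * (y⁻¹ * (x⁻¹ * b * x) * y)) := by group
        rw [e]; exact mul_mem h1 h2
    have hux : u * a⁻¹ * u⁻¹ ∈ (P : Subgroup G) := by
      have := (P : Subgroup G).mul_mem (inv_mem ha) hg
      simpa [commutatorElement_def, mul_assoc] using this
    have hch := Cfsg.Agent.Fusion.exists_chain P (D := Subgroup.zpowers a⁻¹) (g := u⁻¹)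
      (Subgroup.zpowers_le.2 (inv_mem ha)) (by
        rw [inv_inv]
        rintro _ ⟨z, hz, rfl⟩
        obtain ⟨k, rfl⟩ := hz
        simp only [map_zpow]
        exact zpow_mem hux k)
    have := key _ _ hch a⁻¹ (Subgroup.mem_zpowers _)
    simpa [commutatorElement_def, mul_assoc] using this
  · rw [Subgroup.commutator_le]
    intro a ha n hn
    rw [commutatorElement_def, mul_assoc a n a⁻¹, mul_assoc]
    exact mul_mem ha ((Subgroup.mem_normalizer_iff.1 hn _).1 (inv_mem ha))
  · rw [commutator_def]; exact Subgroup.commutator_mono le_top le_top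
  · refine le_trans ?_ (inf_le_left : (P : Subgroup G) ⊓ (Q : Subgroup G) ≤ _)
    rw [Subgroup.commutator_le]
    intro a ha n hn
    rw [commutatorElement_def, mul_assoc a n a⁻¹, mul_assoc]
    exact mul_mem ha ((Subgroup.mem_normalizer_iff.1 ((Subgroup.zpowers_le.2 hx.1) hn) _).1 (inv_mem ha))
  · rw [commutator_def]; exact Subgroup.commutator_mono le_top le_top

end Cfsg.Agent.S4250
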