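import Cfsg.Statements.S4251
import Mathlib
import Cfsg.Agent.Fusion.Alperin
import Cfsg.Agent.Transfer.Fusion

set_option autoImplicit false
open Cfsg

namespace Cfsg.Agent.S4251

/-- Let P be a Sylow p-subgroup of a finite group G. Call an intersection H = P ∩ Q with a Sylow p-subgroup Q tame when N_P(H) and N_Q(H) are Sylow p-subgroups of N_G(H). If N_G(H)/C_G(H) is a p-group for every nontrivial tame intersection H = P ∩ Q, then G has a normal p-complement. -/
theorem result {G : Type*} [Group G] [Finite G] (p : ℕ) [Fact p.Prime] (P : Sylow p G)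
    (h : ∀ Q : Sylow p G, (P : Subgroup G) ⊓ (Q : Subgroup G) ≠ ⊥ → (¬ p ∣ ((P : Subgroup G) ⊓ Subgroup.normalizer (((P : Subgroup G) ⊓ (Q : Subgroup G) : Subgroup G) : Set G)).relIndex (Subgroup.normalizer (((P : Subgroup G) ⊓ (Q : Subgroup G) : Subgroup G) : Set G)) ∧ ¬ p ∣ ((Q : Subgroup G) ⊓ Subgroup.normalizer (((P : Subgroup G) ⊓ (Q : Subgroup G) : Subgroup G) : Set G)).relIndex (Subgroup.normalizer (((P : Subgroup G) ⊓ (Q : Subgroup G) : Subgroup G) : Set G))) →
      IsPGroup p (Subgroup.normalizer (((P : Subgroup G) ⊓ (Q : Subgroup G) : Subgroup G) : Set G) ⧸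
        (Subgroup.centralizer (((P : Subgroup G) ⊓ (Q : Subgroup G) : Subgroup G) : Set G)).subgroupOf
          (Subgroup.normalizer (((P : Subgroup G) ⊓ (Q : Subgroup G) : Subgroup G) : Set G)))) :
    Cfsg.HasNormalPComplement p G := by
  classical
  apply Cfsg.Agent.Transfer.hasNormalPComplement_of_controlsFusion P
  intro a ha g hga
  have key : ∀ (D : Subgroup G) (y : G), Cfsg.Agent.Fusion.FusionChain P D y →
      ∀ b ∈ D, ∃ t ∈ (P : Subgroup G), t * b * t⁻¹ = y⁻¹ * b * y := by
    intro D y hy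
    induction hy with
    | one D => intro b _; exact ⟨1, one_mem _, by simp⟩
    | @step D R x y hR hx _ hD _ ih =>
      intro b hb
      obtain ⟨t1, ht1, e1⟩ : ∃ t ∈ (P : Subgroup G), t * b * t⁻¹ = x⁻¹ * b * x := by
        by_cases hbot : (P : Subgroup G) ⊓ (R : Subgroup G) = ⊥
        · refine ⟨1, one_mem _, ?_⟩
          have hb1 : b = 1 := Subgroup.mem_bot.1 (hbot ▸ hD hb)
          simp [hb1]
        set I : Subgroup G := (P : Subgroup G) ⊓ (R : Subgroup G)
        set N := Subgroup.normalizer (I : Set G)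
        set C := Subgroup.centralizer (I : Set G)
        have hq : IsPGroup p (N ⧸ C.subgroupOf N) := h R hbot hR
        have : (C.subgroupOf N).Normal := Subgroup.normal_subgroupOf_centralizer_normalizer _
        obtain ⟨k, hk⟩ := IsPGroup.iff_card.1 hq
        set T := ((P : Subgroup G) ⊓ N).subgroupOf N with hT
        set X := C.subgroupOf N ⊔ T with hX
        have h1 : X.index ∣ p ^ k := by
          rw [← hk, ← Subgroup.index_eq_card]
          exact Subgroup.index_dvd_of_le le_sup_left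
        have h2 : X.index ∣ T.index := Subgroup.index_dvd_of_le le_sup_right
        have hXt : X = ⊤ := by
          rw [← Subgroup.index_eq_one]
          refine Nat.eq_one_of_dvd_coprimes ?_ h2 h1
          refine Nat.Coprime.pow_right _ ?_
          rw [Nat.coprime_comm, (Fact.out : p.Prime).coprime_iff_not_dvd]
          exact hR.1
        have hxm : (⟨x⁻¹, inv_mem hx⟩ : N) ∈ X := hXt ▸ Subgroup.mem_top _
        rw [hX, Subgroup.mem_sup_of_normal_left] at hxm
        obtain ⟨c, hc, t, ht, hct⟩ := hxm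
        have e : (c : G) * (t : G) = x⁻¹ := congrArg Subtype.val hct
        refine ⟨(t : G), ht.1, ?_⟩
        have hbc : b * (c : G) = (c : G) * b := Subgroup.mem_centralizer_iff.1 hc b (hD hb)
        have ht' : (t : G) * b * (t : G)⁻¹ ∈ I := (Subgroup.mem_normalizer_iff.1 ht.2 b).1 (hD hb)
        have hbc2 : ((t : G) * b * (t : G)⁻¹) * (c : G) = (c : G) * ((t : G) * b * (t : G)⁻¹) :=
          Subgroup.mem_centralizer_iff.1 hc _ ht'
        calc (t : G) * b * (t : G)⁻¹ = (c : G) * ((t : G) * b * (t : G)⁻¹) * (c : G)⁻¹ := by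
              rw [← hbc2, mul_inv_cancel_right]
          _ = ((c : G) * t) * b * ((c : G) * t)⁻¹ := by group
          _ = x⁻¹ * b * x := by rw [e, inv_inv]
      have hb' : x⁻¹ * b * x ∈ Cfsg.Agent.Fusion.cj x⁻¹ D :=
        Cfsg.Agent.Fusion.mem_cj_inv.2 (by simpa [mul_assoc] using hb)
      obtain ⟨t2, ht2, e2⟩ := ih _ hb'
      refine ⟨t2 * t1, mul_mem ht2 ht1, ?_⟩
      calc t2 * t1 * b * (t2 * t1)⁻¹ = t2 * (t1 * b * t1⁻¹) * t2⁻¹ := by group
        _ = y⁻¹ * (x⁻¹ * b * x) * y := by rw [e1, e2]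
        _ = (x * y)⁻¹ * b * (x * y) := by group
  have hch := Cfsg.Agent.Fusion.exists_chain P (D := Subgroup.zpowers a) (g := g⁻¹)
    (Subgroup.zpowers_le.2 ha) (by
      rw [inv_inv]
      rintro _ ⟨z, hz, rfl⟩
      obtain ⟨k, rfl⟩ := hz
      simp only [map_zpow]
      exact zpow_mem hga k)
  obtain ⟨t, ht, e⟩ := key _ _ hch a (Subgroup.mem_zpowers _)
  exact ⟨t, ht, by rw [e, inv_inv]⟩

end Cfsg.Agent.S4251
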