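import Cfsg.Statements.S4252
import Mathlib

set_option autoImplicit false
open Cfsg

namespace Cfsg.Agent.S4252

open scoped Pointwise

/-- Let a finite group G act on a finite set Ω with more than one point, transitively but not regularly, so that no non-identity element of G fixes two distinct points. Then the stabilizer H of any point is a Frobenius complement in G (nontrivial, proper, meeting its other conjugates trivially), and the Frobenius kernel of G with respect to H (the identity together with the elements lying in no conjugate of H) is exactly the set consisting of the identity and the elements fixing no point. -/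
theorem result {G Ω : Type*} [Group G] [Finite G] [Fintype Ω] [MulAction G Ω] (hΩ : 1 < Fintype.card Ω)
    (htrans : ∀ α β : Ω, ∃ g : G, g • α = β) (hnreg : ∃ g : G, g ≠ 1 ∧ ∃ α : Ω, g • α = α)
    (hfix : ∀ g : G, g ≠ 1 → ∀ α β : Ω, g • α = α → g • β = β → α = β) (α : Ω) :
    Cfsg.IsFrobeniusComplement (MulAction.stabilizer G α) ∧
      Cfsg.frobeniusKernel (MulAction.stabilizer G α) = {g : G | g = 1 ∨ ∀ ω : Ω, g • ω ≠ ω} := by
  set H := MulAction.stabilizer G α
  have hconj : ∀ (g x : G), x ∈ MulAut.conj g • H ↔ x • (g • α) = g • α := by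
    intro g x
    rw [Subgroup.mem_pointwise_smul_iff_inv_smul_mem, MulAction.mem_stabilizer_iff, ← map_inv,
      MulAut.smul_def, MulAut.conj_apply]
    simp [mul_smul, inv_smul_eq_iff]
  refine ⟨⟨?_, ?_, ?_⟩, ?_⟩
  · obtain ⟨g, hg, β, hβ⟩ := hnreg
    obtain ⟨c, rfl⟩ := htrans α β
    intro hb
    have h1 : c⁻¹ * g * c ∈ H := by
      rw [MulAction.mem_stabilizer_iff, mul_smul, mul_smul, hβ, inv_smul_smul]
    rw [hb, Subgroup.mem_bot] at h1
    exact hg (by simpa [mul_assoc, inv_mul_eq_one, eq_comm] using congrArg (fun z => c * z * c⁻¹) h1)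
  · intro ht
    obtain ⟨β, hβ⟩ := Fintype.exists_ne_of_one_lt_card hΩ α
    obtain ⟨g, rfl⟩ := htrans α β
    exact hβ (MulAction.mem_stabilizer_iff.1 (ht ▸ Subgroup.mem_top g : g ∈ H))
  · intro g hg
    rw [eq_bot_iff]
    rintro x ⟨hx1, hx2⟩
    rw [Subgroup.mem_bot]
    by_contra hx
    exact hg (MulAction.mem_stabilizer_iff.2
      (hfix x hx α (g • α) (MulAction.mem_stabilizer_iff.1 hx1) ((hconj g x).1 hx2)).symm)
  · ext x
    simp only [Cfsg.frobeniusKernel, Set.mem_setOf_eq]
    refine or_congr_right ⟨fun h ω hω => ?_, fun h g hg => h _ ((hconj g x).1 hg)⟩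
    obtain ⟨g, rfl⟩ := htrans α ω
    exact h g ((hconj g x).2 hω)

end Cfsg.Agent.S4252
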