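import Cfsg.Statements.S4260

set_option autoImplicit false
open Cfsg

namespace Cfsg.Agent.S4260

/-- Let H be a Hall subgroup of a finite group G (the order of H is coprime to its index) such that x^[G : H] lies in H for every x in G. Then H is normal in G. -/
theorem result {G : Type*} [Group G] [Finite G] (H : Subgroup G) (hHall : (Nat.card H).Coprime H.index)
    (hexp : ∀ x : G, x ^ H.index ∈ H) : H.Normal := by
  have key : ∀ y : G, orderOf y ∣ Nat.card H → y ∈ H := by
    intro y hy
    obtain ⟨z, hz⟩ := exists_pow_eq_self_of_coprime (x := y) (n := H.index)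
      ((hHall.coprime_dvd_left hy).symm)
    rw [← hz]
    exact H.pow_mem (hexp y) z
  refine ⟨fun n hn g => key _ ?_⟩
  rw [show orderOf (g * n * g⁻¹) = orderOf n from (MulAut.conj g).orderOf_eq n]
  exact Subgroup.orderOf_dvd_natCard H hn

end Cfsg.Agent.S4260
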