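import Cfsg.Statements.S4261
import Cfsg.Agent.FGS.SolvableMaximal

set_option autoImplicit false
open Cfsg

namespace Cfsg.Agent.S4261

/-- Let M be a maximal subgroup of a finite solvable group G such that x^[G : M] lies in M for every x in G. Then M is normal in G. -/
theorem result {G : Type*} [Group G] [Finite G] (hG : Group.IsSolvable G) (M : Subgroup G) (hM : IsCoatom M)
    (hexp : ∀ x : G, x ^ M.index ∈ M) : M.Normal := by
  obtain ⟨p, k, hp, hk⟩ := Cfsg.Agent.FGS.isCoatom_index_prime_pow hG hM
  haveI := Fact.mk hp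
  set R : Subgroup G := Subgroup.closure (Set.range fun x : G => x ^ M.index)
  have hR : R ≤ M := by
    rw [Subgroup.closure_le]
    rintro _ ⟨x, rfl⟩
    exact hexp x
  haveI hRn : R.Normal := by
    refine ⟨fun r hr g => ?_⟩
    suffices h : R.map (MulAut.conj g).toMonoidHom ≤ R from h ⟨r, hr, rfl⟩
    rw [MonoidHom.map_closure, Subgroup.closure_le]
    rintro _ ⟨_, ⟨x, rfl⟩, rfl⟩
    exact Subgroup.subset_closure ⟨g * x * g⁻¹, by simp [conj_pow]⟩
  have hQ : IsPGroup p (G ⧸ R) := by
    intro y
    obtain ⟨x, rfl⟩ := QuotientGroup.mk_surjective y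
    refine ⟨k, ?_⟩
    rw [← QuotientGroup.mk_pow, QuotientGroup.eq_one_iff, ← hk]
    exact Subgroup.subset_closure ⟨x, rfl⟩
  haveI : Group.IsNilpotent (G ⧸ R) := hQ.isNilpotent
  set M' := M.map (QuotientGroup.mk' R)
  have hcm : M'.comap (QuotientGroup.mk' R) = M := by
    rw [Subgroup.comap_map_eq, QuotientGroup.ker_mk', sup_eq_left.2 hR]
  have hM' : IsCoatom M' := by
    refine ⟨fun h => hM.1 (by rw [← hcm, h, Subgroup.comap_top]), fun X hX => ?_⟩
    have : M < X.comap (QuotientGroup.mk' R) := by
      rw [← hcm]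
      exact (Subgroup.comap_lt_comap_of_surjective (QuotientGroup.mk'_surjective R)).2 hX
    apply Subgroup.comap_injective (QuotientGroup.mk'_surjective R)
    rw [hM.2 _ this, Subgroup.comap_top]
  haveI := Subgroup.NormalizerCondition.normal_of_coatom M' Group.normalizerCondition_of_isNilpotent hM'
  rw [← hcm]
  infer_instance

end Cfsg.Agent.S4261
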