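import Cfsg.Statements.S4263
import Cfsg.Agent.FGS.Basic

set_option autoImplicit false
open Cfsg

namespace Cfsg.Agent.S4263

/-- Let G be a finite group. An element x lies in the Fitting subgroup F(G) if and only if, for every subgroup H of G, the power x^[G : H] lies in H. -/
theorem result {G : Type*} [Group G] [Finite G] (x : G) :
    x ∈ Cfsg.fittingSubgroup G ↔ ∀ H : Subgroup G, x ^ H.index ∈ H := by
  constructor
  · intro hx H
    haveI := Cfsg.Agent.FGS.fitting_isNilpotent (G := G)
    haveI : (Cfsg.fittingSubgroup G).Normal := Subgroup.sSup_normal _ (fun _ h => h.1)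
    have h := Cfsg.Agent.FGS.pow_index_mem_of_nilpotent (H.subgroupOf (Cfsg.fittingSubgroup G)) ⟨x, hx⟩
    have hdvd : H.relIndex (Cfsg.fittingSubgroup G) ∣ H.index := by
      set F := Cfsg.fittingSubgroup G
      have e1 := Subgroup.card_mul_index (H.subgroupOf (H ⊔ F))
      have e2 := Subgroup.card_mul_index (F.subgroupOf (H ⊔ F))
      have e3 := Subgroup.card_mul_index (H.subgroupOf F)
      have e4 := Subgroup.card_mul_index (F.subgroupOf H)
      rw [Nat.card_congr (Subgroup.subgroupOfEquivOfLe (le_sup_left : H ≤ H ⊔ F)).toEquiv] at e1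
      rw [Nat.card_congr (Subgroup.subgroupOfEquivOfLe (le_sup_right : F ≤ H ⊔ F)).toEquiv] at e2
      have c1 : Nat.card (H.subgroupOf F) = Nat.card ↥(H ⊓ F) := by
        rw [← Subgroup.card_map_of_injective (Subgroup.subtype_injective F), Subgroup.subgroupOf_map_subtype]
      have c2 : Nat.card (F.subgroupOf H) = Nat.card ↥(H ⊓ F) := by
        rw [← Subgroup.card_map_of_injective (Subgroup.subtype_injective H), Subgroup.subgroupOf_map_subtype, inf_comm]
      rw [c1] at e3
      rw [c2] at e4
      change Nat.card H * H.relIndex (H ⊔ F) = _ at e1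
      change Nat.card F * F.relIndex (H ⊔ F) = _ at e2
      change _ * H.relIndex F = _ at e3
      change _ * F.relIndex H = _ at e4
      rw [Subgroup.relIndex_sup_right] at e2
      have key : H.relIndex (H ⊔ F) = H.relIndex F := by
        refine Nat.eq_of_mul_eq_mul_left (Nat.card_pos (α := H)) ?_
        rw [e1, ← e2, ← e3, ← e4]; ring
      rw [← key]
      exact ⟨(H ⊔ F).index, (Subgroup.relIndex_mul_index le_sup_left).symm⟩
    obtain ⟨c, hc⟩ := hdvd
    rw [hc, pow_mul]
    exact H.pow_mem h c
  · intro h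
    haveI : (Cfsg.fittingSubgroup G).Normal := Subgroup.sSup_normal _ (fun _ h => h.1)
    rw [← QuotientGroup.eq_one_iff, ← orderOf_eq_one_iff]
    by_contra hne
    obtain ⟨p, hp, hpm⟩ := Nat.exists_prime_and_dvd hne
    haveI := Fact.mk hp
    set o := orderOf x with ho
    have hmem : x ^ (ordCompl[p] o) ∈ Cfsg.fittingSubgroup G := by
      refine (le_sSup (s := {N : Subgroup G | N.Normal ∧ Group.IsNilpotent N})
        ⟨Cfsg.Agent.Cores.pCore_normal_inst p G,
          (Cfsg.Agent.Cores.pCore_isPGroup : IsPGroup p (Cfsg.pCore p G)).isNilpotent⟩) ?_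
      rw [Cfsg.Agent.Cores.pCore_eq_iInf_sylow, Subgroup.mem_iInf]
      intro P
      set y := x ^ (ordCompl[p] o)
      have hy : y ^ (P : Subgroup G).index ∈ (P : Subgroup G) := by
        change (x ^ _) ^ _ ∈ _
        rw [← pow_mul, mul_comm, pow_mul]
        exact Subgroup.pow_mem _ (h _) _
      have hyp : y ^ (ordProj[p] o) = 1 := by
        change (x ^ _) ^ _ = 1
        rw [← pow_mul, mul_comm, Nat.ordProj_mul_ordCompl_eq_self]
        exact pow_orderOf_eq_one x
      have hcop : (P : Subgroup G).index.Coprime (orderOf y) := by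
        obtain ⟨j, -, hj⟩ := (Nat.dvd_prime_pow hp).1 (orderOf_dvd_of_pow_eq_one hyp)
        rw [hj]
        exact (Nat.Prime.coprime_iff_not_dvd hp).2 P.not_dvd_index |>.symm.pow_right j
      obtain ⟨z, hz⟩ := exists_pow_eq_self_of_coprime hcop
      rw [← hz]
      exact Subgroup.pow_mem _ hy z
    have : orderOf (x : G ⧸ Cfsg.fittingSubgroup G) ∣ ordCompl[p] o := by
      apply orderOf_dvd_of_pow_eq_one
      rw [← QuotientGroup.mk_pow, QuotientGroup.eq_one_iff]
      exact hmem
    exact Nat.not_dvd_ordCompl hp (orderOf_pos x).ne' (hpm.trans this)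

end Cfsg.Agent.S4263
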