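import Cfsg.Statements.S4264
import Cfsg.Agent.PermClasses.Main

set_option autoImplicit false
open Cfsg

namespace Cfsg.Agent.S4264

/-- Let G be a subgroup of the symmetric group of degree d ≥ 1. Then G has at most 5^{d−1} conjugacy classes. -/
theorem result (d : ℕ) (hd : 1 ≤ d) (G : Subgroup (Equiv.Perm (Fin d))) : Nat.card (ConjClasses ↥G) ≤ 5 ^ (d - 1) := by
  exact Cfsg.Agent.PermClasses.card_conjClasses_le hd G

end Cfsg.Agent.S4264
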