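import Cfsg.Statements.S4265
import Cfsg.Agent.SolvBound.Complex

set_option autoImplicit false
open Cfsg

namespace Cfsg.Agent.S4265

/-- Let G be a finite solvable subgroup of GL_r(ℂ), r ≥ 1, with Fitting subgroup F(G) normal in G. Then for every subgroup H of G the quotient H/(H ∩ F(G)) has at most 3^{r−1} conjugacy classes. -/
theorem result (r : ℕ) (hr : 1 ≤ r) (G : Subgroup (GL (Fin r) ℂ)) [Finite ↥G] (hsolv : Group.IsSolvable ↥G) [hF : (Cfsg.fittingSubgroup ↥G).Normal] (H : Subgroup ↥G) : Nat.card (ConjClasses (↥H ⧸ (Cfsg.fittingSubgroup ↥G).subgroupOf H)) ≤ 3 ^ (r - 1) := by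
  let ρ : ↥G →* Module.End ℂ (Fin r → ℂ) :=
    (Matrix.toLinAlgEquiv'.toAlgHom.toRingHom.toMonoidHom).comp
      ((Units.coeHom _).comp G.subtype)
  have hρ : Function.Injective ρ :=
    Matrix.toLinAlgEquiv'.injective.comp (Units.val_injective.comp Subtype.val_injective)
  have hkb := Cfsg.Agent.SolvBound.kb_fitting_complex r ↥G (Fin r → ℂ) ρ hρ hsolv
    (Module.finrank_fin_fun ℂ) hr
  let f : ↥H →* ↥G ⧸ Cfsg.fittingSubgroup ↥G :=
    (QuotientGroup.mk' (Cfsg.fittingSubgroup ↥G)).comp H.subtype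
  have hf : f.ker = (Cfsg.fittingSubgroup ↥G).subgroupOf H := by
    ext x
    exact QuotientGroup.eq_one_iff _
  exact (Cfsg.Agent.SolvBound.kc_congr ((QuotientGroup.quotientMulEquivOfEq hf.symm).trans
    (QuotientGroup.quotientKerEquivRange f))).trans_le (hkb f.range)

end Cfsg.Agent.S4265
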