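import Cfsg.Statements.S4269
import Cfsg.Agent.Known.Pronormal

set_option autoImplicit false
open Cfsg

open Subgroup
open scoped Pointwise commutatorElement
namespace Cfsg.Agent.S4269

/-- Let G be a finite group, V an abelian normal subgroup and H a subgroup with HV = G. Then H is pronormal in G (H and gHg⁻¹ are conjugate inside the subgroup they generate, for every g) if and only if every H-invariant subgroup U of V satisfies U = N_U(H)·[H, U], that is, U is the join of U ∩ N_G(H) and the commutator subgroup [H, U]. -/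
theorem result {G : Type*} [Group G] [Finite G]
    (V : Subgroup G) [V.Normal] (hV : IsMulCommutative ↥V) (H : Subgroup G) (hHV : H ⊔ V = ⊤) :
    Cfsg.IsPronormal H ↔
      ∀ U : Subgroup G, U ≤ V → (∀ h ∈ H, U.map (MulAut.conj h).toMonoidHom = U) →
        U = (U ⊓ Subgroup.normalizer (H : Set G)) ⊔ ⁅H, U⁆ := by
  constructor
  · intro hP U hUV hU
    refine le_antisymm (fun u hu => ?_) (sup_le inf_le_left ?_)
    · obtain ⟨x, hx, hxe⟩ := hP u
      have hUn : H ≤ normalizer (U : Set G) := fun h hh => mem_normalizer_iff_map_conj_eq.mpr (hU h hh)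
      set C := ⁅H, U⁆ with hC
      have hCU : C ≤ U := commutator_le.mpr fun h hh v hv => by
        rw [commutatorElement_def]
        exact U.mul_mem ((mem_normalizer_iff.mp (hUn hh) v).mp hv) (inv_mem hv)
      have hCn : H ≤ normalizer (C : Set G) := fun h hh => mem_normalizer_iff_map_conj_eq.mpr (by
        show C.map (MulAut.conj h).toMonoidHom = C
        rw [hC, map_commutator, Known.map_conj_eq_self_of_mem hh, hU h hh])
      have hle : H ⊔ H.map (MulAut.conj u).toMonoidHom ≤ H ⊔ C := by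
        refine sup_le le_sup_left ?_
        rintro _ ⟨h, hh, rfl⟩
        show u * h * u⁻¹ ∈ H ⊔ C
        have e : u * h * u⁻¹ = (⁅h, u⁆)⁻¹ * h := by rw [commutatorElement_def]; group
        rw [e]
        exact mul_mem (inv_mem ((le_sup_right : C ≤ H ⊔ C) (commutator_mem_commutator hh hu)))
          ((le_sup_left : H ≤ H ⊔ C) hh)
      have hx' : x ∈ (C : Set G) * (H : Set G) := by
        rw [← coe_mul_of_right_le_normalizer_left C H hCn, sup_comm]
        exact hle hx
      obtain ⟨c, hc, h, hh, rfl⟩ := hx'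
      have hconj : H.map (MulAut.conj (c * h)).toMonoidHom = H.map (MulAut.conj c).toMonoidHom := by
        conv_rhs => rw [← Known.map_conj_eq_self_of_mem hh]
        rw [Known.map_conj_mul]
      rw [hconj] at hxe
      have hn : c⁻¹ * u ∈ normalizer (H : Set G) := by
        rw [mem_normalizer_iff_map_conj_eq]
        show H.map (MulAut.conj (c⁻¹ * u)).toMonoidHom = H
        rw [← Known.map_conj_mul, hxe, Known.map_conj_mul, inv_mul_cancel,
          Known.map_conj_eq_self_of_mem H.one_mem]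
      have := mul_mem ((le_sup_right : C ≤ (U ⊓ normalizer (H : Set G)) ⊔ C) hc)
        ((le_sup_left : _ ≤ (U ⊓ normalizer (H : Set G)) ⊔ C) ⟨U.mul_mem (inv_mem (hCU hc)) hu, hn⟩)
      rwa [mul_inv_cancel_left] at this
    · refine commutator_le.mpr fun h hh v hv => ?_
      rw [commutatorElement_def]
      refine U.mul_mem ?_ (inv_mem hv)
      exact (mem_normalizer_iff.mp (mem_normalizer_iff_map_conj_eq.mpr (hU h hh)) v).mp hv
  · intro hall g
    have hg : g ∈ (V : Set G) * (H : Set G) := by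
      rw [← normal_mul, sup_comm, hHV]; trivial
    obtain ⟨v, hv, h₀, hh₀, rfl⟩ := hg
    have hgv : H.map (MulAut.conj (v * h₀)).toMonoidHom = H.map (MulAut.conj v).toMonoidHom := by
      conv_rhs => rw [← Known.map_conj_eq_self_of_mem hh₀]
      rw [Known.map_conj_mul]
    rw [hgv]
    set J := H ⊔ H.map (MulAut.conj v).toMonoidHom with hJ
    set U := closure ((fun h => h * v * h⁻¹) '' (H : Set G)) with hU
    have hUV : U ≤ V := (closure_le _).mpr (by
      rintro _ ⟨h, -, rfl⟩
      exact Subgroup.Normal.conj_mem inferInstance v hv h)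
    have hUinv : ∀ h ∈ H, U.map (MulAut.conj h).toMonoidHom = U := by
      intro h hh
      rw [hU, MonoidHom.map_closure, ← Set.image_comp]
      congr 1
      ext z
      constructor
      · rintro ⟨k, hk, rfl⟩
        exact ⟨h * k, H.mul_mem hh hk, by simp [mul_assoc]⟩
      · rintro ⟨k, hk, rfl⟩
        exact ⟨h⁻¹ * k, H.mul_mem (inv_mem hh) hk, by simp [mul_assoc]⟩
    have hvU : v ∈ U := subset_closure ⟨1, H.one_mem, by simp⟩
    have hcomm : ∀ a ∈ V, ∀ b ∈ V, a * b = b * a := fun a ha b hb =>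
      congrArg Subtype.val (hV.1.1 ⟨a, ha⟩ ⟨b, hb⟩)
    have hHJ : H ≤ J := le_sup_left
    have hCJ : ⁅H, U⁆ ≤ J := by
      refine commutator_le.mpr fun k hk w hw => ?_
      suffices hsuff : ∀ w ∈ U, ∀ k ∈ H, k * w * k⁻¹ * w⁻¹ ∈ J by
        rw [commutatorElement_def]; exact hsuff w hw k hk
      intro w hw
      refine closure_induction ?_ ?_ ?_ ?_ hw
      · rintro _ ⟨h, hh, rfl⟩ k hk
        have h1 : v * (h⁻¹ * k * h)⁻¹ * v⁻¹ ∈ J := (le_sup_right : H.map _ ≤ J)
          ⟨_, inv_mem (H.mul_mem (H.mul_mem (inv_mem hh) hk) hh), rfl⟩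
        have h2 : h * ((h⁻¹ * k * h) * (v * (h⁻¹ * k * h)⁻¹ * v⁻¹)) * h⁻¹ ∈ J :=
          J.mul_mem (J.mul_mem (hHJ hh) (J.mul_mem (hHJ (H.mul_mem (H.mul_mem (inv_mem hh) hk) hh)) h1))
            (inv_mem (hHJ hh))
        convert h2 using 1
        group
      · intro k _; simp
      · intro a b ha hb iha ihb k hk
        have h1 : b⁻¹ ∈ V := inv_mem (hUV hb)
        have h2 : k * a * k⁻¹ * a⁻¹ ∈ V :=
          mul_mem (Subgroup.Normal.conj_mem inferInstance a (hUV ha) k) (inv_mem (hUV ha))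
        have h3 : k * b * k⁻¹ ∈ V := Subgroup.Normal.conj_mem inferInstance b (hUV hb) k
        have e : k * (a * b) * k⁻¹ * (a * b)⁻¹ = (k * a * k⁻¹ * a⁻¹) * (k * b * k⁻¹ * b⁻¹) := by
          calc k * (a * b) * k⁻¹ * (a * b)⁻¹ = (k * a * k⁻¹) * ((k * b * k⁻¹ * b⁻¹) * a⁻¹) := by group
            _ = (k * a * k⁻¹) * (a⁻¹ * (k * b * k⁻¹ * b⁻¹)) := by
                rw [hcomm _ (mul_mem h3 h1) _ (inv_mem (hUV ha))]
            _ = _ := by group
        rw [e]
        exact mul_mem (iha k hk) (ihb k hk)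
      · intro a ha iha k hk
        have e : k * a⁻¹ * k⁻¹ * a⁻¹⁻¹ = a⁻¹ * (k * a * k⁻¹ * a⁻¹)⁻¹ * a := by group
        rw [e]
        have h2 : (k * a * k⁻¹ * a⁻¹)⁻¹ ∈ V :=
          inv_mem (mul_mem (Subgroup.Normal.conj_mem inferInstance a (hUV ha) k) (inv_mem (hUV ha)))
        rw [hcomm _ (inv_mem (hUV ha)) _ h2, inv_mul_cancel_right]
        exact inv_mem (iha k hk)
    have hv' := hall U hUV hUinv
    have hmem : v ∈ ((U ⊓ normalizer (H : Set G)) : Subgroup G) ⊔ ⁅H, U⁆ := hv' ▸ hvU
    have hCU : ⁅H, U⁆ ≤ U := commutator_le.mpr fun h hh w hw => by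
      rw [commutatorElement_def]
      exact U.mul_mem ((mem_normalizer_iff.mp (mem_normalizer_iff_map_conj_eq.mpr (hUinv h hh)) w).mp hw) (inv_mem hw)
    have hCn : U ⊓ normalizer (H : Set G) ≤ normalizer ((⁅H, U⁆ : Subgroup G) : Set G) :=
      fun n hn => centralizer_le_normalizer _ (fun z hz => hcomm z (hUV (hCU hz)) n (hUV hn.1))
    rw [← SetLike.mem_coe, sup_comm, coe_mul_of_right_le_normalizer_left _ _ hCn] at hmem
    obtain ⟨c, hc, n, hn, hcn⟩ := hmem
    refine ⟨c, hCJ hc, ?_⟩
    rw [show v = c * n from hcn.symm, ← Known.map_conj_mul]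
    congr 1
    exact mem_normalizer_iff_map_conj_eq.mp hn.2

end Cfsg.Agent.S4269
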