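import Cfsg.Statements.S4270
import Cfsg.Agent.Known.Pronormal

set_option autoImplicit false
open Cfsg

open Subgroup
open scoped Pointwise
namespace Cfsg.Agent.S4270

universe u

variable {G : Type u} [Group G]

/-- `H` conjugated by `g`. -/
abbrev cj (g : G) (H : Subgroup G) : Subgroup G := H.map (MulAut.conj g).toMonoidHom

theorem cj_cj (a b : G) (H : Subgroup G) : cj a (cj b H) = cj (a * b) H := Known.map_conj_mul H a b

theorem cj_self {H : Subgroup G} {h : G} (hh : h ∈ H) : cj h H = H := Known.map_conj_eq_self_of_mem hh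

theorem cj_one (H : Subgroup G) : cj 1 H = H := cj_self H.one_mem

theorem mem_normalizer_of_cj {H : Subgroup G} {h : G} (e : cj h H = H) : h ∈ normalizer (H : Set G) :=
  mem_normalizer_iff_map_conj_eq.mpr e

theorem cj_of_mem_normalizer {H : Subgroup G} {h : G} (e : h ∈ normalizer (H : Set G)) : cj h H = H :=
  mem_normalizer_iff_map_conj_eq.mp e

theorem cj_le_of_mem {J : Subgroup G} {x : G} (hx : x ∈ J) {H : Subgroup G} (h : H ≤ J) : cj x H ≤ J :=
  (map_mono h).trans (cj_self hx).le

theorem map_cj {Q : Type*} [Group Q] (f : G →* Q) (g : G) (H : Subgroup G) :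
    (cj g H).map f = cj (f g) (H.map f) := by
  show (H.map (MulAut.conj g).toMonoidHom).map f = (H.map f).map (MulAut.conj (f g)).toMonoidHom
  rw [Subgroup.map_map, Subgroup.map_map]
  congr 1
  ext x
  simp

theorem pronormal_map {Q : Type*} [Group Q] (f : G →* Q) (hf : Function.Surjective f) {H : Subgroup G}
    (h : Cfsg.IsPronormal H) : Cfsg.IsPronormal (H.map f) := by
  intro q
  obtain ⟨g, rfl⟩ := hf q
  obtain ⟨x, hx, he⟩ := h g
  refine ⟨f x, ?_, ?_⟩
  · show f x ∈ H.map f ⊔ cj (f g) (H.map f)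
    rw [← map_cj, ← Subgroup.map_sup]
    exact mem_map_of_mem f hx
  · show cj (f g) (H.map f) = cj (f x) (H.map f)
    rw [← map_cj, ← map_cj]
    exact congrArg (Subgroup.map f) he

theorem pronormal_of_map {Q : Type*} [Group Q] (f : G →* Q) {H : Subgroup G} (hker : f.ker ≤ H)
    (h : Cfsg.IsPronormal (H.map f)) : Cfsg.IsPronormal H := by
  intro g
  obtain ⟨q, hq, he⟩ := h (f g)
  have hq' : q ∈ (H ⊔ cj g H).map f := by rw [Subgroup.map_sup, map_cj]; exact hq
  obtain ⟨x, hx, rfl⟩ := hq'
  refine ⟨x, hx, ?_⟩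
  have e : (cj g H).map f = (cj x H).map f := by rw [map_cj, map_cj]; exact he
  have hk : ∀ y : G, f.ker ≤ cj y H := fun y =>
    (le_of_eq (cj_of_mem_normalizer (by rw [normalizer_eq_top_iff.mpr inferInstance]; trivial)).symm).trans (map_mono hker)
  show cj g H = cj x H
  rw [← comap_map_eq_self (hk g), ← comap_map_eq_self (hk x), e]

theorem pronormal_subgroupOf {H N : Subgroup G} (hHN : H ≤ N) (h : Cfsg.IsPronormal H) :
    Cfsg.IsPronormal (H.subgroupOf N) := by
  intro n
  obtain ⟨x, hx, he⟩ := h (n : G)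
  have key : ∀ y : N, (cj y (H.subgroupOf N)).map N.subtype = cj (y : G) H := fun y => by
    rw [map_cj, map_subgroupOf_eq_of_le hHN]; rfl
  have hsup : (H.subgroupOf N ⊔ cj n (H.subgroupOf N)).map N.subtype = H ⊔ cj (n : G) H := by
    rw [Subgroup.map_sup, key, map_subgroupOf_eq_of_le hHN]
  have hx' : x ∈ (H.subgroupOf N ⊔ cj n (H.subgroupOf N)).map N.subtype := hsup.symm ▸ hx
  obtain ⟨y, hy, rfl⟩ := hx'
  refine ⟨y, hy, map_injective N.subtype_injective ?_⟩
  show (cj n (H.subgroupOf N)).map N.subtype = (cj y (H.subgroupOf N)).map N.subtype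
  rw [key, key]; exact he

theorem pronormal_cj {H : Subgroup G} (h : Cfsg.IsPronormal H) (c : G) : Cfsg.IsPronormal (cj c H) :=
  pronormal_map (MulAut.conj c).toMonoidHom (MulAut.conj c).surjective h

/-- Every subgroup containing a Sylow subgroup is pronormal. -/
abbrev EP (p : ℕ) (X : Type u) [Group X] : Prop :=
  ∀ K : Subgroup X, (∃ P : Sylow p X, (P : Subgroup X) ≤ K) → Cfsg.IsPronormal K

theorem frattini {p : ℕ} [Fact p.Prime] [Finite G] {T L : Subgroup G} (hT : IsPGroup p T) (hTL : T ≤ L)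
    (hTmax : ∀ X : Subgroup G, IsPGroup p X → X ≤ L → T ≤ X → X = T)
    {z : G} (hz : cj z L = L) : ∃ l ∈ L, cj z T = cj l T := by
  have hTz : cj z T ≤ L := (map_mono hTL).trans hz.le
  obtain ⟨Q, hQ⟩ := (hT.comap_of_injective L.subtype L.subtype_injective : IsPGroup p (T.subgroupOf L)).exists_le_sylow
  obtain ⟨Q2, hQ2⟩ := ((hT.map _).comap_of_injective L.subtype L.subtype_injective :
    IsPGroup p ((cj z T).subgroupOf L)).exists_le_sylow
  have e : (Q : Subgroup L).map L.subtype = T :=
    hTmax _ (Q.2.map _) (map_subtype_le _) ((map_subgroupOf_eq_of_le hTL).ge.trans (map_mono hQ))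
  have e2 : (Q2 : Subgroup L).map L.subtype = cj z T := by
    refine (eq_of_le_of_card_ge ((map_subgroupOf_eq_of_le hTz).ge.trans (map_mono hQ2)) (le_of_eq ?_)).symm
    rw [card_map_of_injective L.subtype_injective, card_map_of_injective (MulAut.conj z).injective,
      ← e, card_map_of_injective L.subtype_injective, Q2.card_eq_multiplicity, Q.card_eq_multiplicity]
  obtain ⟨l, hl⟩ := MulAction.exists_smul_eq L Q Q2
  refine ⟨l, l.2, ?_⟩
  rw [← e2, ← hl, Sylow.coe_subgroup_smul]
  show (cj l (Q : Subgroup L)).map L.subtype = _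
  rw [map_cj, e]; rfl

theorem main {p : ℕ} [Fact p.Prime] [Finite G] (A : Subgroup G) [A.Normal] (hA : EP p A) (hQ : EP p (G ⧸ A))
    (T : Subgroup G) (hT : ∃ P : Sylow p A, (P : Subgroup A).map A.subtype = T)
    [(T.subgroupOf (normalizer (T : Set G))).Normal] :
    EP p G ↔ (EP p (normalizer (T : Set G) ⧸ T.subgroupOf (normalizer (T : Set G))) ∧
      ∀ K : Subgroup G, (∃ P : Sylow p G, (P : Subgroup G) ≤ K) →
        (normalizer (K : Set G)).map (QuotientGroup.mk' A) =
          normalizer ((K.map (QuotientGroup.mk' A) : Subgroup (G ⧸ A)) : Set (G ⧸ A))) := by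
  obtain ⟨S, hST⟩ := hT
  have hTA : T ≤ A := hST ▸ map_subtype_le _
  have hTp : IsPGroup p T := hST ▸ S.2.map _
  have hTmax : ∀ X : Subgroup G, IsPGroup p X → X ≤ A → T ≤ X → X = T := by
    intro X hX hXA hTX
    have h : X.subgroupOf A = (S : Subgroup A) :=
      S.3 (hX.comap_of_injective A.subtype A.subtype_injective) fun x hx => hTX (hST ▸ ⟨x, hx, rfl⟩)
    rw [← map_subgroupOf_eq_of_le hXA, h, hST]
  obtain ⟨P₀, hP₀⟩ := hTp.exists_le_sylow
  set N := normalizer (T : Set G) with hN
  have hTN : T ≤ N := le_normalizer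
  have hPA : (P₀ : Subgroup G) ⊓ A = T :=
    hTmax _ (P₀.2.to_le inf_le_left) inf_le_right (le_inf hP₀ hTA)
  have hPN : (P₀ : Subgroup G) ≤ N := by
    intro x hx
    refine mem_normalizer_of_cj (eq_of_le_of_card_ge ?_ (le_of_eq ?_))
    · intro y hy
      obtain ⟨t, ht, rfl⟩ := hy
      rw [← hPA]
      exact ⟨(P₀ : Subgroup G).mul_mem ((P₀ : Subgroup G).mul_mem hx (hP₀ ht)) (inv_mem hx),
        Subgroup.Normal.conj_mem inferInstance t (hTA ht) x⟩
    · exact (card_map_of_injective (MulAut.conj x).injective).symm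
  set fA := QuotientGroup.mk' A
  set fT := QuotientGroup.mk' (T.subgroupOf N)
  constructor
  · intro hG
    constructor
    · intro K hK
      obtain ⟨P, hPK⟩ := hK
      obtain ⟨R, rfl⟩ := Sylow.mapSurjective_surjective (QuotientGroup.mk'_surjective (T.subgroupOf N)) p P
      obtain ⟨R', hR'⟩ := (R.2.map N.subtype).exists_le_sylow
      have hcard : Nat.card ((R : Subgroup N).map N.subtype) = Nat.card (R' : Subgroup G) := by
        have h1 : Nat.card ((P₀.subtype hPN) : Subgroup N) = Nat.card (P₀ : Subgroup G) := by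
          rw [Sylow.coe_subtype]; exact Nat.card_congr (subgroupOfEquivOfLe hPN).toEquiv
        rw [card_map_of_injective N.subtype_injective, R.card_eq_multiplicity,
          ← (P₀.subtype hPN).card_eq_multiplicity, h1, R'.card_eq_multiplicity, P₀.card_eq_multiplicity]
      have hR'' : (R : Subgroup N).map N.subtype = (R' : Subgroup G) := eq_of_le_of_card_ge hR' hcard.ge
      have hle : (R' : Subgroup G) ≤ (K.comap fT).map N.subtype := by
        rw [← hR'']
        refine map_mono ?_
        rw [← map_le_iff_le_comap]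
        rwa [Sylow.coe_mapSurjective] at hPK
      have h1 := pronormal_subgroupOf (N := N) (map_subtype_le _) (hG _ ⟨R', hle⟩)
      have h2 : ((K.comap fT).map N.subtype).subgroupOf N = K.comap fT :=
        comap_map_eq_self_of_injective N.subtype_injective _
      rw [h2] at h1
      have h3 := pronormal_map fT (QuotientGroup.mk'_surjective _) h1
      rwa [map_comap_eq_self_of_surjective (QuotientGroup.mk'_surjective _)] at h3
    · intro K hK
      refine le_antisymm (le_normalizer_map fA) fun z hz => ?_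
      obtain ⟨g, rfl⟩ := QuotientGroup.mk'_surjective A z
      obtain ⟨x, hx, he⟩ := hG K hK g
      have e : (cj g K).map fA = K.map fA := (map_cj fA g K).trans (cj_of_mem_normalizer hz)
      have hJ : (K ⊔ cj g K).map fA = K.map fA := by rw [Subgroup.map_sup, e, sup_idem]
      have hxK : fA x ∈ K.map fA := hJ ▸ mem_map_of_mem fA hx
      obtain ⟨k, hk, hkx⟩ := hxK
      refine ⟨k * (x⁻¹ * g), mul_mem (le_normalizer hk) (mem_normalizer_of_cj ?_), ?_⟩
      · rw [← cj_cj, show cj g K = cj x K from he, cj_cj, inv_mul_cancel, cj_one]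
      · rw [map_mul, hkx, ← map_mul, mul_inv_cancel_left]
  · rintro ⟨h1, h2⟩ K₀ ⟨P, hP⟩
    obtain ⟨c, hc⟩ := MulAction.exists_smul_eq G P P₀
    obtain ⟨K, hKdef⟩ : ∃ K : Subgroup G, K = cj c K₀ := ⟨_, rfl⟩
    have hPK : (P₀ : Subgroup G) ≤ K := by
      rw [← hc, Sylow.coe_subgroup_smul, hKdef]; exact map_mono hP
    suffices hpro : Cfsg.IsPronormal K by
      have := pronormal_cj hpro c⁻¹
      rwa [hKdef, cj_cj, inv_mul_cancel, cj_one] at this
    have hTK : T ≤ K := hP₀.trans hPK
    set L := K ⊓ A with hL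
    have hTL : T ≤ L := le_inf hTK hTA
    have hTLmax : ∀ X : Subgroup G, IsPGroup p X → X ≤ L → T ≤ X → X = T :=
      fun X hX hXL => hTmax X hX (hXL.trans inf_le_right)
    have hLK : ∀ k ∈ K, cj k L = L := fun k hk => by
      show (K ⊓ A).map _ = K ⊓ A
      rw [Subgroup.map_inf_eq _ _ _ (MulAut.conj k).injective]
      exact congrArg₂ (· ⊓ ·) (cj_self hk) (cj_of_mem_normalizer (by rw [normalizer_eq_top_iff.mpr inferInstance]; trivial))
    set KT := K ⊓ N with hKT
    have hKsup : K = L ⊔ KT := by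
      refine le_antisymm (fun k hk => ?_) (sup_le inf_le_left inf_le_left)
      obtain ⟨l, hl, he⟩ := frattini hTp hTL hTLmax (hLK k hk)
      have : l⁻¹ * k ∈ KT := ⟨K.mul_mem (K.inv_mem hl.1) hk, mem_normalizer_of_cj (by
        rw [← cj_cj, he, cj_cj, inv_mul_cancel, cj_one])⟩
      have := mul_mem_sup hl this
      rwa [mul_inv_cancel_left] at this
    -- the key case
    have key : ∀ a ∈ N, cj a L = L → ∃ y ∈ K ⊔ cj a K, cj a K = cj y K := by
      intro a haN haL
      have hpro : Cfsg.IsPronormal (KT.subgroupOf N) := by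
        refine pronormal_of_map fT ?_ (h1 _ ⟨(P₀.subtype hPN).mapSurjective (QuotientGroup.mk'_surjective _), ?_⟩)
        · rw [QuotientGroup.ker_mk']; exact fun t ht => ⟨hTK ht, t.2⟩
        · rw [Sylow.coe_mapSurjective, Sylow.coe_subtype]
          exact map_mono fun t ht => ⟨hPK ht, t.2⟩
      obtain ⟨y, hy, hye⟩ := hpro ⟨a, haN⟩
      have keyN : ∀ y : N, (cj y (KT.subgroupOf N)).map N.subtype = cj (y : G) KT := fun y => by
        rw [map_cj, map_subgroupOf_eq_of_le inf_le_right]; rfl
      have hye' : cj a KT = cj (y : G) KT := by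
        rw [← keyN ⟨a, haN⟩, ← keyN y]; exact congrArg (Subgroup.map N.subtype) hye
      have hy' : (y : G) ∈ KT ⊔ cj a KT := by
        have := mem_map_of_mem N.subtype hy
        rwa [Subgroup.map_sup, keyN, map_subgroupOf_eq_of_le inf_le_right] at this
      have hKTL : KT ≤ normalizer (L : Set G) := fun k hk => mem_normalizer_of_cj (hLK k hk.1)
      have hyL : cj (y : G) L = L := by
        refine cj_of_mem_normalizer ((sup_le hKTL ?_) hy')
        exact (map_mono hKTL).trans (cj_self (mem_normalizer_of_cj haL)).le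
      refine ⟨y, (sup_le_sup inf_le_left (map_mono inf_le_left)) hy', ?_⟩
      conv_lhs => rw [hKsup]
      conv_rhs => rw [hKsup]
      show (L ⊔ KT).map _ = (L ⊔ KT).map _
      rw [Subgroup.map_sup, Subgroup.map_sup]
      exact congrArg₂ (· ⊔ ·) (haL.trans hyL.symm) hye'
    have keyA : ∀ a ∈ A, ∃ y ∈ K ⊔ cj a K, cj a K = cj y K := by
      intro a ha
      have hLA : L ≤ A := inf_le_right
      have hLpro : Cfsg.IsPronormal (L.subgroupOf A) := hA _ ⟨S, fun s hs =>
        mem_subgroupOf.mpr (hTL (hST ▸ ⟨s, hs, rfl⟩))⟩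
      obtain ⟨y₁, hy₁, hy₁e⟩ := hLpro ⟨a, ha⟩
      have keyA' : ∀ y : A, (cj y (L.subgroupOf A)).map A.subtype = cj (y : G) L := fun y => by
        rw [map_cj, map_subgroupOf_eq_of_le hLA]; rfl
      have e1 : cj a L = cj (y₁ : G) L := by
        rw [← keyA' ⟨a, ha⟩, ← keyA' y₁]; exact congrArg (Subgroup.map A.subtype) hy₁e
      have hy₁J : (y₁ : G) ∈ K ⊔ cj a K := by
        have := mem_map_of_mem A.subtype hy₁
        rw [Subgroup.map_sup, keyA', map_subgroupOf_eq_of_le hLA] at this
        exact (sup_le_sup inf_le_left (map_mono inf_le_left)) this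
      set b := (y₁ : G)⁻¹ * a with hb
      have hbL : cj b L = L := by rw [hb, ← cj_cj, e1, cj_cj, inv_mul_cancel, cj_one]
      obtain ⟨l, hl, he⟩ := frattini hTp hTL hTLmax hbL
      set m := l⁻¹ * b with hm
      have hmN : m ∈ N := mem_normalizer_of_cj (by rw [hm, ← cj_cj, he, cj_cj, inv_mul_cancel, cj_one])
      have hmL : cj m L = L := by
        rw [hm, ← cj_cj, hbL]; exact hLK _ (inv_mem hl.1)
      obtain ⟨y, hy, hye⟩ := key m hmN hmL
      have ha' : a = (y₁ * l) * m := by rw [hm, hb]; group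
      have hzJ : (y₁ : G) * l ∈ K ⊔ cj a K := mul_mem hy₁J ((le_sup_left : K ≤ K ⊔ _) hl.1)
      have hle : cj m K ≤ K ⊔ cj a K := by
        have e : cj m K = cj ((y₁ : G) * l)⁻¹ (cj a K) := by rw [cj_cj, ha', inv_mul_cancel_left]
        rw [e]
        exact cj_le_of_mem (inv_mem hzJ) le_sup_right
      refine ⟨(y₁ * l) * y, mul_mem hzJ ((sup_le le_sup_left hle) hy), ?_⟩
      conv_lhs => rw [ha']
      rw [← cj_cj ((y₁ : G) * l) m, hye, cj_cj]
    intro g
    obtain ⟨xb, hxb, hxe⟩ := hQ (K.map fA) ⟨P₀.mapSurjective (QuotientGroup.mk'_surjective A),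
      by rw [Sylow.coe_mapSurjective]; exact map_mono hPK⟩ (fA g)
    have hxb' : xb ∈ (K ⊔ cj g K).map fA := by rw [Subgroup.map_sup, map_cj]; exact hxb
    obtain ⟨x, hx, rfl⟩ := hxb'
    have hn : fA (x⁻¹ * g) ∈ normalizer ((K.map fA : Subgroup (G ⧸ A)) : Set (G ⧸ A)) := by
      refine mem_normalizer_of_cj ?_
      rw [map_mul, ← cj_cj]
      show cj (fA x⁻¹) (cj (fA g) (K.map fA)) = _
      rw [show cj (fA g) (K.map fA) = cj (fA x) (K.map fA) from hxe, cj_cj, ← map_mul, inv_mul_cancel, map_one, cj_one]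
    rw [← h2 K ⟨P₀, hPK⟩] at hn
    obtain ⟨n, hnK, hne⟩ := hn
    set a := x⁻¹ * g * n⁻¹ with hadef
    have ha : a ∈ A := by
      rw [← QuotientGroup.eq_one_iff]
      show fA a = 1
      rw [hadef, map_mul, map_inv, hne, mul_inv_cancel]
    obtain ⟨y, hy, hye⟩ := keyA a ha
    have hga : cj g K = cj x (cj a K) := by
      conv_rhs => rw [← cj_of_mem_normalizer hnK]
      rw [cj_cj, cj_cj]
      congr 1
      rw [hadef]; group
    refine ⟨x * y, mul_mem hx ((show K ⊔ cj a K ≤ K ⊔ cj g K from sup_le le_sup_left ?_) hy), ?_⟩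
    · have e : cj a K = cj x⁻¹ (cj g K) := by rw [hga, cj_cj, inv_mul_cancel, cj_one]
      rw [e]
      exact cj_le_of_mem (inv_mem hx) le_sup_right
    · show cj g K = cj (x * y) K
      rw [hga, hye, cj_cj]

/-- Let p be a prime and G a finite group with a normal subgroup A such that, both in A and in G/A, every subgroup containing a Sylow p-subgroup of that group is pronormal in that group. Let T be a Sylow p-subgroup of A. Then every subgroup of G containing a Sylow p-subgroup of G is pronormal in G if and only if (i) every subgroup of N_G(T)/T containing a Sylow p-subgroup of N_G(T)/T is pronormal there, and (ii) for every subgroup H of G containing a Sylow p-subgroup of G, the image of N_G(H) in G/A is the full normalizer of the image of H. (Pronormal: H and gHg⁻¹ are conjugate inside the subgroup they generate, for every g.) -/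
theorem result {G : Type*} [Group G] [Finite G] {p : ℕ} [Fact p.Prime]
    (A : Subgroup G) [A.Normal] (hA : (∀ K : Subgroup ↥A, (∃ P : Sylow p ↥A, (P : Subgroup ↥A) ≤ K) → Cfsg.IsPronormal K)) (hQ : (∀ K : Subgroup (G ⧸ A), (∃ P : Sylow p (G ⧸ A), (P : Subgroup (G ⧸ A)) ≤ K) → Cfsg.IsPronormal K))
    (T : Subgroup G) (hT : ∃ P : Sylow p ↥A, (P : Subgroup ↥A).map A.subtype = T) [(T.subgroupOf (Subgroup.normalizer (T : Set G))).Normal] :
    (∀ K : Subgroup G, (∃ P : Sylow p G, (P : Subgroup G) ≤ K) → Cfsg.IsPronormal K) ↔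
      ((∀ K : Subgroup (↥(Subgroup.normalizer (T : Set G)) ⧸ T.subgroupOf (Subgroup.normalizer (T : Set G))), (∃ P : Sylow p (↥(Subgroup.normalizer (T : Set G)) ⧸ T.subgroupOf (Subgroup.normalizer (T : Set G))), (P : Subgroup (↥(Subgroup.normalizer (T : Set G)) ⧸ T.subgroupOf (Subgroup.normalizer (T : Set G)))) ≤ K) → Cfsg.IsPronormal K) ∧
        ∀ K : Subgroup G, (∃ P : Sylow p G, (P : Subgroup G) ≤ K) →
          (Subgroup.normalizer (K : Set G)).map (QuotientGroup.mk' A) = Subgroup.normalizer ((K.map (QuotientGroup.mk' A) : Subgroup (G ⧸ A)) : Set (G ⧸ A))) := by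
  exact main A hA hQ T hT

end Cfsg.Agent.S4270
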