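import Cfsg.Statements.S4271
import Cfsg.Agent.S4270

set_option autoImplicit false
open Cfsg

open Subgroup
open scoped Pointwise
namespace Cfsg.Agent.S4271

/-- Let p be a prime and G a finite group with a normal subgroup A such that every subgroup of A containing a Sylow p-subgroup of A is pronormal in A, and the Sylow p-subgroups of G/A are self-normalizing. Let T be a Sylow p-subgroup of A. Then every subgroup of G containing a Sylow p-subgroup of G is pronormal in G if and only if every subgroup of N_G(T)/T containing a Sylow p-subgroup of N_G(T)/T is pronormal in N_G(T)/T. (Pronormal: H and gHg⁻¹ are conjugate inside the subgroup they generate, for every g.) -/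
theorem result {G : Type*} [Group G] [Finite G] {p : ℕ} [Fact p.Prime]
    (A : Subgroup G) [A.Normal] (hA : (∀ K : Subgroup ↥A, (∃ P : Sylow p ↥A, (P : Subgroup ↥A) ≤ K) → Cfsg.IsPronormal K))
    (hQ : ∀ P : Sylow p (G ⧸ A), Subgroup.normalizer ((P : Subgroup (G ⧸ A)) : Set (G ⧸ A)) = P)
    (T : Subgroup G) (hT : ∃ P : Sylow p ↥A, (P : Subgroup ↥A).map A.subtype = T) [(T.subgroupOf (Subgroup.normalizer (T : Set G))).Normal] :
    (∀ K : Subgroup G, (∃ P : Sylow p G, (P : Subgroup G) ≤ K) → Cfsg.IsPronormal K) ↔ (∀ K : Subgroup (↥(Subgroup.normalizer (T : Set G)) ⧸ T.subgroupOf (Subgroup.normalizer (T : Set G))), (∃ P : Sylow p (↥(Subgroup.normalizer (T : Set G)) ⧸ T.subgroupOf (Subgroup.normalizer (T : Set G))), (P : Subgroup (↥(Subgroup.normalizer (T : Set G)) ⧸ T.subgroupOf (Subgroup.normalizer (T : Set G)))) ≤ K) → Cfsg.IsPronormal K) := by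
  have hQ' : S4270.EP p (G ⧸ A) := fun K hK => by
    obtain ⟨P, hP⟩ := hK
    exact Known.isPronormal_of_sylow_normalizer_le P K hP ((hQ P).le.trans hP)
  refine (S4270.main A hA hQ' T hT).trans ⟨And.left, fun h => ⟨h, fun K hK => ?_⟩⟩
  obtain ⟨P, hP⟩ := hK
  set f := QuotientGroup.mk' A
  have hf := QuotientGroup.mk'_surjective A
  have hPb : (P.mapSurjective hf : Subgroup (G ⧸ A)) ≤ K.map f := by
    rw [Sylow.coe_mapSurjective]; exact map_mono hP
  refine le_antisymm (le_normalizer_map f) fun z hz => ?_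
  refine map_mono le_normalizer ?_
  set Pb := P.mapSurjective hf with hPbdef
  have hzP : ((z • Pb : Sylow p (G ⧸ A)) : Subgroup (G ⧸ A)) ≤ K.map f := by
    rw [Sylow.coe_subgroup_smul]
    exact (map_mono hPb).trans (mem_normalizer_iff_map_conj_eq.mp hz).le
  obtain ⟨k, hk, hke⟩ := Known.exists_mem_smul_sylow_eq Pb z (K.map f) hPb hzP
  have h1 : k⁻¹ * z ∈ normalizer ((Pb : Subgroup (G ⧸ A)) : Set (G ⧸ A)) :=
    Sylow.smul_eq_iff_mem_normalizer.mp (by rw [mul_smul, ← hke, inv_smul_smul])
  have h2 : k⁻¹ * z ∈ K.map f := hPb ((hQ Pb).le h1)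
  simpa using mul_mem hk h2

end Cfsg.Agent.S4271
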