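import Cfsg.Statements.S4284
import Cfsg.Agent.OneMMN.Main

set_option autoImplicit false
open Cfsg
open Cfsg.Agent.OneMMN

namespace Cfsg.Agent.S4284

/-- Let G be a finite group with no nontrivial abelian direct factor whose conjugacy class sizes are exactly 1, m and m·n with m, n > 1 coprime. Then m is a prime p dividing n − 1; the elements whose class has size 1 or p form an abelian normal subgroup of index p; G has a normal p-complement; and the commutator subgroup of a Sylow p-subgroup of G has order p. -/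
theorem result {G : Type*} [Group G] [Finite G] (hnodf : ∀ A B : Subgroup G, A.Normal → B.Normal → A ⊓ B = ⊥ → A ⊔ B = ⊤ → IsMulCommutative A → A = ⊥) (m n : ℕ) (hm : 1 < m) (hn : 1 < n) (hcop : m.Coprime n) (h : Set.range (fun x : G => (Subgroup.centralizer ({x} : Set G)).index) = ({1, m, m * n} : Set ℕ)) : m.Prime ∧ m ∣ n - 1 ∧ (∃ M : Subgroup G, M.Normal ∧ (M : Set G) = {x : G | (Subgroup.centralizer ({x} : Set G)).index = 1 ∨ (Subgroup.centralizer ({x} : Set G)).index = m} ∧ M.index = m ∧ IsMulCommutative M) ∧ (∃ N : Subgroup G, N.Normal ∧ (Nat.card N).Coprime m ∧ ∃ a : ℕ, N.index = m ^ a) ∧ ∀ P : Sylow m G, Nat.card (commutator (P : Subgroup G)) = m := by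
  have hsz : ∀ x : G, TwoLargest.cls x = 1 ∨ TwoLargest.cls x = m ∨ TwoLargest.cls x = m * n := fun x => by
    have h1 : (Subgroup.centralizer ({x} : Set G)).index ∈ ({1, m, m * n} : Set ℕ) := h ▸ Set.mem_range_self x
    simpa using h1
  obtain ⟨x, hx⟩ : m ∈ Set.range fun x : G => (Subgroup.centralizer ({x} : Set G)).index := by rw [h]; simp
  obtain ⟨y, hy⟩ : m * n ∈ Set.range fun x : G => (Subgroup.centralizer ({x} : Set G)).index := by rw [h]; simp
  have H : Hyp G m n := ⟨hm, hn, hcop, hsz, ⟨x, hx⟩, ⟨y, hy⟩⟩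
  obtain ⟨p, a, hp, -, hma⟩ := H.exists_prime_pow
  haveI := Fact.mk hp
  obtain rfl : m = p := H.eq_prime hma
  obtain ⟨C, S⟩ := exists_struct H
  refine ⟨hp, (Struct.complement H S).2, ⟨C, S.normal, Set.ext fun g => ⟨fun hg => ?_, fun hg => ?_⟩,
    S.index, ⟨⟨fun a b => Subtype.ext (S.comm a a.2 b b.2).eq⟩⟩⟩, (Struct.complement H S).1,
    fun P => Struct.card_commutator H S P⟩
  · exact hp.eq_one_or_self_of_dvd _ (S.index ▸ Subgroup.index_dvd_of_le fun c hc =>
      TwoLargest.mem_cent.2 (S.comm c hc g hg))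
  · by_contra hgC
    have h1 := (Struct.cls_out H S hgC).1
    rcases hg with hg | hg
    · exact hgC (S.center_le (TwoLargest.center_of_cls_eq_one hg))
    · exact H.mn_ne (hg.symm.trans h1)

end Cfsg.Agent.S4284
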