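import Cfsg.Statements.S4310
import Cfsg.Agent.Lib.Hall
import Cfsg.Agent.S4309
import Cfsg.Agent.S0205

set_option autoImplicit false
open Cfsg

namespace Cfsg.Agent.S4310

open Subgroup
open scoped Pointwise

/-- The odd order theorem. -/
theorem odd_solvable {X : Type*} [Group X] [Finite X] (h : Odd (Nat.card X)) : Group.IsSolvable X :=
  Cfsg.Agent.S0205.result h

variable {G : Type*} [Group G] [Finite G] {π : Set ℕ}

/-- Conjugacy of complements of coprime order, with the solvability supplied by the odd order theorem. -/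
theorem conj_complement_coprime (N H₀ H₁ : Subgroup G) [N.Normal]
    (h₀ : IsComplement' N H₀) (h₁ : IsComplement' N H₁) (hcop : (Nat.card N).Coprime N.index) :
    ∃ n ∈ N, MulAut.conj n • H₀ = H₁ := by
  refine SZ.conj_complement N H₀ H₁ h₀ h₁ hcop ?_
  by_cases h2 : 2 ∣ Nat.card N
  · refine Or.inr (odd_solvable (Nat.not_even_iff_odd.1 fun he => ?_))
    rw [← index_eq_card] at he
    exact Nat.prime_two.ne_one (Nat.eq_one_of_dvd_coprimes hcop h2 (even_iff_two_dvd.1 he))
  · exact Or.inl (odd_solvable (Nat.not_even_iff_odd.1 fun he => h2 (even_iff_two_dvd.1 he)))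

/-- The order of a full preimage. -/
theorem card_comap_mul {X Y : Type*} [Group X] [Group Y] [Finite X] {f : X →* Y}
    (hf : Function.Surjective f) {B : Subgroup Y} :
    Nat.card (B.comap f) = Nat.card f.ker * Nat.card B := by
  haveI : Finite Y := Finite.of_surjective f hf
  have h1 := (B.comap f).card_mul_index
  rw [index_comap_of_surjective B hf, ← card_mul_index f.ker, index_ker,
    MonoidHom.range_eq_top.2 hf, card_top, ← B.card_mul_index, ← mul_assoc] at h1
  exact Nat.eq_of_mul_eq_mul_right (Nat.pos_of_ne_zero index_ne_zero_of_finite) h1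

variable {A : Subgroup G} [hAn : A.Normal]

theorem frattini_hall (hA : Cfsg.IsCPiGroup π ↥A) {HA : Subgroup A} (hHA : Cfsg.IsPiHall π HA) :
    normalizer (HA.map A.subtype : Set G) ⊔ A = ⊤ := by
  refine eq_top_iff.2 fun g _ => ?_
  have hle : (MulAut.conj g • HA.map A.subtype : Subgroup G) ≤ A := by
    intro x hx
    rw [SZ.mem_conj_smul] at hx
    have := hAn.conj_mem _ (map_subtype_le _ hx) g
    simpa [mul_assoc] using this
  have hmap := map_subgroupOf_eq_of_le hle
  have hHall : Cfsg.IsPiHall π ((MulAut.conj g • HA.map A.subtype : Subgroup G).subgroupOf A) := by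
    have hc : Nat.card ((MulAut.conj g • HA.map A.subtype : Subgroup G).subgroupOf A) = Nat.card HA := by
      rw [← card_map_of_injective A.subtype_injective, hmap, SZ.card_conj_smul,
        card_map_of_injective A.subtype_injective]
    have hi : ((MulAut.conj g • HA.map A.subtype : Subgroup G).subgroupOf A).index = HA.index := by
      refine Nat.eq_of_mul_eq_mul_left (Nat.card_pos (α := HA)) ?_
      rw [HA.card_mul_index, ← hc, card_mul_index]
    exact ⟨fun p hp hd => hHA.1 p hp (hc ▸ hd), fun p hp hpπ hd => hHA.2 p hp hpπ (hi ▸ hd)⟩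
  obtain ⟨a, ha⟩ := hA.2 _ HA hHall hHA
  have h := congrArg (Subgroup.map A.subtype) ha
  rw [show ∀ B : Subgroup A, B.map (MulAut.conj a).toMonoidHom = MulAut.conj a • B from fun _ => rfl,
    SZ.map_conj_smul, hmap, Subgroup.coe_subtype, SZ.conj_smul_smul] at h
  have hm : (a : G) * g ∈ normalizer (HA.map A.subtype : Set G) :=
    mem_normalizer_iff_map_conj_eq.mpr h.symm
  have := mul_mem (mem_sup_right (inv_mem a.2) : (a : G)⁻¹ ∈ normalizer (HA.map A.subtype : Set G) ⊔ A)
    (mem_sup_left hm)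
  rwa [inv_mul_cancel_left] at this

/-- Hall subgroups over a fixed Hall subgroup of `A` and a fixed Hall subgroup of `G ⧸ A`. -/
theorem fibre (hA : Cfsg.IsCPiGroup π ↥A) {HA : Subgroup A} (hHA : Cfsg.IsPiHall π HA)
    {K : Subgroup (G ⧸ A)} (hK : Cfsg.IsPiHall π K) :
    (∃ H : Subgroup G, Cfsg.IsPiHall π H) ∧
    ∀ H₁ H₂ : Subgroup G, Cfsg.IsPiHall π H₁ → Cfsg.IsPiHall π H₂ →
      H₁.map (QuotientGroup.mk' A) = K → H₂.map (QuotientGroup.mk' A) = K →
      H₁ ⊓ A = HA.map A.subtype → H₂ ⊓ A = HA.map A.subtype →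
      ∃ g : G, MulAut.conj g • H₁ = H₂ := by
  set h := HA.map A.subtype with hh
  set L := normalizer (h : Set G) ⊓ K.comap (QuotientGroup.mk' A) with hL
  have hhA : h ≤ A := map_subtype_le _
  have hAL : A ≤ K.comap (QuotientGroup.mk' A) := fun a ha => by
    rw [mem_comap, show QuotientGroup.mk' A a = 1 from (QuotientGroup.eq_one_iff a).2 ha]
    exact one_mem _
  have hhL : h ≤ L := le_inf le_normalizer (hhA.trans hAL)
  haveI : (h.subgroupOf L).Normal := normal_subgroupOf_of_le_normalizer inf_le_left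
  set π₀ := QuotientGroup.mk' (h.subgroupOf L)
  have hπ₀ : Function.Surjective π₀ := QuotientGroup.mk'_surjective _
  set ψ : L →* G ⧸ A := (QuotientGroup.mk' A).comp L.subtype with hψ
  have hψr : ψ.range = K := by
    refine le_antisymm ?_ fun k hk => ?_
    · rintro _ ⟨x, rfl⟩
      exact x.2.2
    · obtain ⟨g, rfl⟩ := QuotientGroup.mk'_surjective A k
      have hg : g ∈ normalizer (h : Set G) ⊔ A := by rw [frattini_hall hA hHA]; trivial
      obtain ⟨n, hn, a, ha, rfl⟩ := mem_sup_of_normal_right.1 hg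
      have he : QuotientGroup.mk' A (n * a) = QuotientGroup.mk' A n := by
        rw [map_mul, show QuotientGroup.mk' A a = 1 from (QuotientGroup.eq_one_iff a).2 ha, mul_one]
      exact ⟨⟨n, hn, show QuotientGroup.mk' A n ∈ K from he ▸ hk⟩, he.symm⟩
  set W := ψ.ker.map π₀ with hW
  haveI : W.Normal := ψ.normal_ker.map _ hπ₀
  have hkerψ : ψ.ker = A.subgroupOf L := by
    rw [hψ, ← MonoidHom.comap_ker, QuotientGroup.ker_mk']; rfl
  have hhK : h.subgroupOf L ≤ ψ.ker := by
    rw [hkerψ]; exact comap_mono hhA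
  have hWcard : ∀ p : ℕ, p.Prime → p ∈ π → ¬ p ∣ Nat.card W := by
    intro p hp hpπ hd
    refine hHA.2 p hp hpπ (hd.trans ?_)
    have h2 : Nat.card ψ.ker = Nat.card (h.subgroupOf L) * Nat.card W := by
      have h5 := card_comap_mul hπ₀ (B := W)
      rw [hW, comap_map_eq, QuotientGroup.ker_mk', sup_eq_left.2 hhK] at h5
      exact h5
    have h3 : Nat.card (h.subgroupOf L) = Nat.card HA := by
      rw [Nat.card_congr (subgroupOfEquivOfLe hhL).toEquiv, hh, card_map_of_injective A.subtype_injective]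
    have h4 : Nat.card ψ.ker ∣ Nat.card A := by
      rw [hkerψ, ← card_map_of_injective L.subtype_injective, subgroupOf_map_subtype]
      exact card_dvd_of_le inf_le_left
    rw [h2, h3, ← HA.card_mul_index] at h4
    exact Nat.dvd_of_mul_dvd_mul_left Nat.card_pos h4
  have hWidx : W.index = Nat.card K := by
    rw [hW, index_map_eq _ hπ₀ (by rw [QuotientGroup.ker_mk']; exact hhK), index_ker, hψr]
  have hcop : (Nat.card W).Coprime W.index := by
    rw [hWidx]; exact (Hall.PiNum.coprime hK.1 hWcard).symm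
  refine ⟨?_, fun H₁ H₂ hH₁ hH₂ e₁ e₂ f₁ f₂ => ?_⟩
  · obtain ⟨C, hC⟩ := exists_right_complement'_of_coprime hcop
    set H₀ := C.comap π₀ with hH₀
    refine ⟨H₀.map L.subtype, ?_⟩
    have hc : Nat.card (H₀.map L.subtype) = Nat.card HA * Nat.card K := by
      rw [card_map_of_injective L.subtype_injective, hH₀, card_comap_mul hπ₀, QuotientGroup.ker_mk',
        ← hWidx, hC.symm.index_eq_card, Nat.card_congr (subgroupOfEquivOfLe hhL).toEquiv,
        card_map_of_injective A.subtype_injective]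
    refine ⟨hc ▸ Hall.PiNum.mul hHA.1 hK.1, fun p hp hpπ hd => ?_⟩
    have h1 := (H₀.map L.subtype).card_mul_index
    rw [hc, ← A.card_mul_index, ← HA.card_mul_index, show A.index = Nat.card (G ⧸ A) from index_eq_card A,
      ← K.card_mul_index] at h1
    have h2 : (H₀.map L.subtype).index = HA.index * K.index :=
      Nat.eq_of_mul_eq_mul_left (Nat.mul_pos (Nat.card_pos (α := HA)) (Nat.card_pos (α := K)))
        (by rw [h1]; ring)
    rw [h2] at hd
    exact (hp.dvd_mul.1 hd).elim (hHA.2 p hp hpπ) (hK.2 p hp hpπ)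
  · have hle : ∀ H : Subgroup G, H.map (QuotientGroup.mk' A) = K → H ⊓ A = h → H ≤ L := by
      intro H he hf x hx
      refine ⟨?_, show QuotientGroup.mk' A x ∈ K from he ▸ mem_map_of_mem _ hx⟩
      rw [← hf]
      refine mem_normalizer_iff.2 fun y => ?_
      constructor
      · exact fun hy => mem_inf.2 ⟨mul_mem (mul_mem hx (mem_inf.1 hy).1) (inv_mem hx),
          hAn.conj_mem _ (mem_inf.1 hy).2 x⟩
      · intro hy
        refine mem_inf.2 ⟨?_, ?_⟩
        · simpa [mul_assoc] using mul_mem (mul_mem (inv_mem hx) (mem_inf.1 hy).1) hx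
        · simpa [mul_assoc] using hAn.conj_mem _ (mem_inf.1 hy).2 x⁻¹
    have hcompl : ∀ H : Subgroup G, Cfsg.IsPiHall π H → H.map (QuotientGroup.mk' A) = K →
        H ⊓ A = h → IsComplement' W ((H.subgroupOf L).map π₀) := by
      intro H hH he hf
      refine isComplement'_of_disjoint_and_mul_eq_univ ?_ ?_
      · refine disjoint_of_coprime_natCard ((Hall.PiNum.coprime ?_ hWcard).symm)
        refine (Hall.PiNum.of_dvd hH.1 ((card_map_dvd _ _).trans ?_))
        exact dvd_of_eq (Nat.card_congr (subgroupOfEquivOfLe (hle H he hf)).toEquiv)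
      · refine Set.eq_univ_of_forall fun x => ?_
        obtain ⟨x, rfl⟩ := hπ₀ x
        have hxK : ψ x ∈ K := hψr ▸ ⟨x, rfl⟩
        rw [← he] at hxK
        obtain ⟨y, hy, hyx⟩ := hxK
        set y' : L := ⟨y, hle H he hf hy⟩
        refine ⟨π₀ (x * y'⁻¹), mem_map_of_mem _ ?_, π₀ y', mem_map_of_mem _ hy, ?_⟩
        · rw [MonoidHom.mem_ker, map_mul, map_inv, mul_inv_eq_one]
          exact hyx.symm
        · show π₀ (x * y'⁻¹) * π₀ y' = π₀ x
          rw [← map_mul, inv_mul_cancel_right]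
    obtain ⟨n, -, hn⟩ := conj_complement_coprime W _ _ (hcompl H₁ hH₁ e₁ f₁) (hcompl H₂ hH₂ e₂ f₂) hcop
    obtain ⟨n, rfl⟩ := hπ₀ n
    rw [← SZ.map_conj_smul] at hn
    have hsub : ∀ H : Subgroup G, H ⊓ A = h → h.subgroupOf L ≤ H.subgroupOf L := fun H hf =>
      comap_mono (hf ▸ inf_le_left)
    have hkle : h.subgroupOf L ≤ MulAut.conj n • H₁.subgroupOf L := by
      rw [← Normal.conj_smul_eq_self n (h.subgroupOf L)]
      exact pointwise_smul_le_pointwise_smul_iff.2 (hsub H₁ f₁)
    have h := congrArg (Subgroup.comap π₀) hn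
    rw [comap_map_eq, comap_map_eq, QuotientGroup.ker_mk', sup_eq_left.2 hkle,
      sup_eq_left.2 (hsub H₂ f₂)] at h
    have h' := congrArg (Subgroup.map L.subtype) h
    rw [SZ.map_conj_smul, map_subgroupOf_eq_of_le (hle H₁ e₁ f₁),
      map_subgroupOf_eq_of_le (hle H₂ e₂ f₂)] at h'
    exact ⟨n, h'⟩

/-- Let `π` be a set of primes and `A` a normal subgroup of the finite group `G`. Suppose `A` has a Hall `π`-subgroup and all Hall `π`-subgroups of `A` are conjugate in `A`, and likewise for `G/A`. Then `G` has a Hall `π`-subgroup and all Hall `π`-subgroups of `G` are conjugate. (The conjugacy of complements of coprime order that the usual proof uses rests, in general, on the odd order Theorem.) -/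
theorem result {G : Type*} [Group G] [Finite G] (π : Set ℕ) (A : Subgroup G) [A.Normal]
    (hA : Cfsg.IsCPiGroup π ↥A) (hQ : Cfsg.IsCPiGroup π (G ⧸ A)) : Cfsg.IsCPiGroup π G := by
  obtain ⟨K, hK⟩ := hQ.1
  obtain ⟨HA, hHA⟩ := hA.1
  refine ⟨(fibre hA hHA hK).1, fun H₁ H₂ h₁ h₂ => ?_⟩
  obtain ⟨x, hx⟩ := hQ.2 _ _ (S4309.result π H₁ A h₁).2 (S4309.result π H₂ A h₂).2
  obtain ⟨x, rfl⟩ := QuotientGroup.mk'_surjective A x
  set H₁' := MulAut.conj x • H₁ with hH₁'
  have h₁' : Cfsg.IsPiHall π H₁' := Hall.isPiHall_conj h₁ x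
  have he : H₁'.map (QuotientGroup.mk' A) = H₂.map (QuotientGroup.mk' A) := by
    rw [hH₁', SZ.map_conj_smul]; exact hx.symm
  obtain ⟨a, ha⟩ := hA.2 _ _ (S4309.result π H₁' A h₁').1 (S4309.result π H₂ A h₂).1
  set H₁'' := MulAut.conj (a : G) • H₁' with hH₁''
  have h₁'' : Cfsg.IsPiHall π H₁'' := Hall.isPiHall_conj h₁' _
  have hi : H₁'' ⊓ A = H₂ ⊓ A := by
    have h := congrArg (Subgroup.map A.subtype) ha
    rw [show ∀ B : Subgroup A, B.map (MulAut.conj a).toMonoidHom = MulAut.conj a • B from fun _ => rfl,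
      SZ.map_conj_smul, map_subgroupOf_eq_of_le inf_le_right, map_subgroupOf_eq_of_le inf_le_right] at h
    rw [h, hH₁'', smul_inf, SZ.conj_smul_of_normal _ A]
    rfl
  have he' : H₁''.map (QuotientGroup.mk' A) = H₂.map (QuotientGroup.mk' A) := by
    rw [hH₁'', SZ.map_conj_smul, show QuotientGroup.mk' A (a : G) = 1 from
      (QuotientGroup.eq_one_iff _).2 a.2, map_one, one_smul, he]
  obtain ⟨g, hg⟩ := (fibre hA (S4309.result π H₂ A h₂).1 (S4309.result π H₂ A h₂).2).2 H₁'' H₂ h₁'' h₂
    he' rfl (hi.trans (map_subgroupOf_eq_of_le inf_le_right).symm)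
    (map_subgroupOf_eq_of_le inf_le_right).symm
  refine ⟨g * a * x, ?_⟩
  rw [← hg, hH₁'', hH₁', SZ.conj_smul_smul, SZ.conj_smul_smul]
  rfl

end Cfsg.Agent.S4310
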