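import Cfsg.Statements.S4330
import Cfsg.Agent.OrbitCover.ConjClass

set_option autoImplicit false
open Pointwise
open Cfsg

namespace Cfsg.Agent.S4330

/-- Let G be a finite solvable group, p an odd prime and A a p-subgroup of G such that every conjugacy class of G contains an element g for which A is subnormal in the subgroup generated by A and its conjugate by g. Then A is contained in O_p(G). (The hypothesis that p is odd is needed.) -/
theorem result {G : Type*} [Group G] [Finite G]
    (hG : Group.IsSolvable G) (p : ℕ) [Fact p.Prime] (hp : p ≠ 2) (A : Subgroup G) (hA : IsPGroup p A)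
    (h : ∀ c : G, ∃ g : G, IsConj c g ∧ (A.subgroupOf (A ⊔ MulAut.conj g • A)).IsSubnormal) :
    A ≤ Cfsg.pCore p G := by
  refine Cfsg.Agent.OrbitCover.le_pCore_of_conj_isPGroup hp _ G rfl hG A hA fun c => ?_
  obtain ⟨g, hg, hs⟩ := h c
  refine ⟨g, hg, ?_⟩
  have he : MulAut.conj g • A = A.map (MulAut.conj g).toMonoidHom := rfl
  rw [← he]
  set B := MulAut.conj g • A with hB
  have hBp : IsPGroup p B := hA.map _
  set J := A ⊔ B with hJ
  have h1 : A.subgroupOf J ≤ Cfsg.pCore p J :=
    Cfsg.Agent.Cores.le_pCore_of_isSubnormal hs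
      (hA.comap_of_injective _ (Subgroup.subtype_injective J))
  have h2 : (⊤ : Subgroup J).map (QuotientGroup.mk' (Cfsg.pCore p J)) =
      (B.subgroupOf J).map (QuotientGroup.mk' (Cfsg.pCore p J)) := by
    rw [show (⊤ : Subgroup J) = A.subgroupOf J ⊔ B.subgroupOf J from by
      rw [← Subgroup.subgroupOf_sup le_sup_left le_sup_right, Subgroup.subgroupOf_self],
      Subgroup.map_sup, sup_eq_right]
    rw [(Subgroup.map_eq_bot_iff _).2 ((QuotientGroup.ker_mk' (Cfsg.pCore p J)).symm ▸ h1)]
    exact bot_le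
  intro x
  obtain ⟨y, hy, hyx⟩ := h2.le (Subgroup.mem_map_of_mem _ (Subgroup.mem_top x))
  obtain ⟨k, hk⟩ := hBp ⟨(y : G), hy⟩
  have hyk : y ^ p ^ k = 1 := by
    refine Subtype.ext ?_
    have := congrArg Subtype.val hk
    simpa using this
  have hxk : x ^ p ^ k ∈ Cfsg.pCore p J := by
    rw [← QuotientGroup.eq_one_iff, QuotientGroup.mk_pow]
    calc (QuotientGroup.mk' (Cfsg.pCore p J) x) ^ p ^ k
        = (QuotientGroup.mk' (Cfsg.pCore p J) y) ^ p ^ k := by rw [hyx]
      _ = 1 := by rw [← map_pow, hyk, map_one]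
  obtain ⟨l, hl⟩ := Cfsg.Agent.Cores.pCore_isPGroup (p := p) (G := J) ⟨_, hxk⟩
  exact ⟨k + l, by rw [pow_add, pow_mul]; exact congrArg Subtype.val hl⟩

end Cfsg.Agent.S4330
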