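import Cfsg.Statements.S4331
import Cfsg.Agent.Cores.Basic
import Cfsg.Agent.FGSev.Subnormalizer
import Mathlib.GroupTheory.Solvable
import Mathlib.Data.ZMod.Basic
import Mathlib.Tactic.DeriveFintype

set_option autoImplicit false
open Cfsg

namespace Cfsg.Agent.S4331

/-- Elements of the affine group of the plane over three elements with semidihedral linear part. -/
structure Grp where
  x : ZMod 3
  y : ZMod 3
  i : ZMod 8
  s : Bool
  deriving DecidableEq, Fintype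

def rmat (i : ZMod 8) : ZMod 3 × ZMod 3 × ZMod 3 × ZMod 3 :=
  ([(1, 0, 0, 1), (1, 1, 1, 0), (2, 1, 1, 1), (0, 2, 2, 1), (2, 0, 0, 2), (2, 2, 2, 0), (1, 2, 2, 2),
    (0, 1, 1, 2)] : List (ZMod 3 × ZMod 3 × ZMod 3 × ZMod 3)).getD i.val (1, 0, 0, 1)

def tapp (s : Bool) (v : ZMod 3 × ZMod 3) : ZMod 3 × ZMod 3 := if s then (v.1 + 2 * v.2, 2 * v.2) else v

def act (i : ZMod 8) (s : Bool) (v : ZMod 3 × ZMod 3) : ZMod 3 × ZMod 3 :=
  let m := rmat i
  let w := tapp s v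
  (m.1 * w.1 + m.2.1 * w.2, m.2.2.1 * w.1 + m.2.2.2 * w.2)

def tw (s : Bool) (j : ZMod 8) : ZMod 8 := if s then 3 * j else j

instance : Mul Grp where
  mul a b := ⟨a.x + (act a.i a.s (b.x, b.y)).1, a.y + (act a.i a.s (b.x, b.y)).2, a.i + tw a.s b.i, xor a.s b.s⟩

instance : One Grp := ⟨⟨0, 0, 0, false⟩⟩

instance : Inv Grp where
  inv a := ⟨-(act (-(tw a.s a.i)) a.s (a.x, a.y)).1, -(act (-(tw a.s a.i)) a.s (a.x, a.y)).2, -(tw a.s a.i), a.s⟩

theorem mul_def (a b : Grp) : a * b =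
    ⟨a.x + (act a.i a.s (b.x, b.y)).1, a.y + (act a.i a.s (b.x, b.y)).2, a.i + tw a.s b.i, xor a.s b.s⟩ := rfl

theorem act_add : ∀ (i : ZMod 8) (s : Bool) (a b c d : ZMod 3),
    act i s (a + c, b + d) = ((act i s (a, b)).1 + (act i s (c, d)).1, (act i s (a, b)).2 + (act i s (c, d)).2) := by
  decide +kernel

theorem act_mul : ∀ (i : ZMod 8) (s : Bool) (j : ZMod 8) (t : Bool) (a b : ZMod 3),
    act (i + tw s j) (xor s t) (a, b) = act i s (act j t (a, b)) := by
  decide +kernel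

theorem tw_mul : ∀ (s t : Bool) (j k : ZMod 8), tw s (j + tw t k) = tw s j + tw (xor s t) k := by
  decide +kernel

theorem act_one : ∀ (a b : ZMod 3), act 0 false (a, b) = (a, b) := by decide +kernel

theorem tw_inv : ∀ (s : Bool) (i : ZMod 8), -(tw s i) + tw s i = 0 := by intro s i; ring

instance : Group Grp := Group.ofLeftAxioms
  (fun a b c => by
    rw [mul_def a b, mul_def b c, mul_def, mul_def]
    congr 1
    · rw [act_add, act_mul]; exact add_assoc _ _ _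
    · rw [act_add, act_mul]; exact add_assoc _ _ _
    · rw [tw_mul]; exact add_assoc _ _ _
    · exact Bool.xor_assoc _ _ _)
  (fun a => by
    change (1 : Grp) * a = a
    rw [mul_def]
    change (⟨0 + (act 0 false (a.x, a.y)).1, 0 + (act 0 false (a.x, a.y)).2, 0 + tw false a.i, xor false a.s⟩ : Grp) = a
    rw [act_one]; simp [tw])
  (fun a => by
    change a⁻¹ * a = 1
    rw [mul_def]
    change (⟨-(act (-(tw a.s a.i)) a.s (a.x, a.y)).1 + _, -(act (-(tw a.s a.i)) a.s (a.x, a.y)).2 + _,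
      -(tw a.s a.i) + tw a.s a.i, xor a.s a.s⟩ : Grp) = ⟨0, 0, 0, false⟩
    rw [tw_inv, Bool.xor_self]
    congr 1 <;> exact neg_add_cancel _)

def tt : Grp := ⟨0, 0, 0, true⟩

def kGroup : Subgroup Grp where
  carrier := {a | a.x = 0 ∧ a.y = 0}
  one_mem' := ⟨rfl, rfl⟩
  mul_mem' := fun {a b} ha hb => by
    have h0 : ∀ (i : ZMod 8) (s : Bool), act i s (0, 0) = (0, 0) := by decide +kernel
    change (a * b).x = 0 ∧ (a * b).y = 0
    rw [mul_def, hb.1, hb.2, h0, ha.1, ha.2]; simp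
  inv_mem' := fun {a} ha => by
    have h0 : ∀ (i : ZMod 8) (s : Bool), act i s (0, 0) = (0, 0) := by decide +kernel
    change -(act (-(tw a.s a.i)) a.s (a.x, a.y)).1 = 0 ∧ -(act (-(tw a.s a.i)) a.s (a.x, a.y)).2 = 0
    rw [ha.1, ha.2, h0]; simp

theorem kGroup_isPGroup : IsPGroup 2 kGroup := by
  have h : Nat.card kGroup = 2 ^ 4 := by
    rw [Nat.card_congr (Equiv.mk (fun a : kGroup => (a.1.i, a.1.s))
      (fun p => (⟨⟨0, 0, p.1, p.2⟩, rfl, rfl⟩ : kGroup)) (fun a => by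
        obtain ⟨⟨x, y, i, s⟩, hx, hy⟩ := a
        simp only at hx hy
        subst hx hy; rfl) fun p => rfl)]
    simp
  exact IsPGroup.of_card h

theorem covered : ∀ (a b : ZMod 3) (j : ZMod 8) (r : Bool), ∃ (x y : ZMod 3) (i : ZMod 8) (s : Bool),
    ((decide (tt * ((⟨x, y, i, s⟩ : Grp) * ⟨a, b, j, r⟩ * (⟨x, y, i, s⟩ : Grp)⁻¹) =
        (⟨x, y, i, s⟩ : Grp) * ⟨a, b, j, r⟩ * (⟨x, y, i, s⟩ : Grp)⁻¹ * tt)) ||
      decide (((⟨x, y, i, s⟩ : Grp) * ⟨a, b, j, r⟩ * (⟨x, y, i, s⟩ : Grp)⁻¹).x = 0 ∧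
        ((⟨x, y, i, s⟩ : Grp) * ⟨a, b, j, r⟩ * (⟨x, y, i, s⟩ : Grp)⁻¹).y = 0)) = true := by
  decide +kernel

theorem solv : Group.IsSolvable Grp := by
  let f : Grp →* kGroup :=
    MonoidHom.mk' (fun a => ⟨⟨0, 0, a.i, a.s⟩, rfl, rfl⟩) fun a b => Subtype.ext (by
      have h0 : ∀ (i : ZMod 8) (s : Bool), act i s (0, 0) = (0, 0) := by decide +kernel
      change (⟨0, 0, (a * b).i, (a * b).s⟩ : Grp) = (⟨0, 0, a.i, a.s⟩ : Grp) * ⟨0, 0, b.i, b.s⟩
      rw [mul_def, mul_def, h0]; simp)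
  haveI : Group.IsSolvable kGroup := by
    haveI : Fact (Nat.Prime 2) := ⟨Nat.prime_two⟩
    haveI := kGroup_isPGroup.isNilpotent
    infer_instance
  haveI : Group.IsSolvable f.ker := Group.isSolvable_of_comm fun a b => by
    obtain ⟨⟨a1, a2, ai, as⟩, ha⟩ := a
    obtain ⟨⟨b1, b2, bi, bs⟩, hb⟩ := b
    have ha' : (⟨0, 0, ai, as⟩ : Grp) = ⟨0, 0, 0, false⟩ := congrArg Subtype.val ha
    have hb' : (⟨0, 0, bi, bs⟩ : Grp) = ⟨0, 0, 0, false⟩ := congrArg Subtype.val hb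
    simp only [Grp.mk.injEq, true_and] at ha' hb'
    obtain ⟨rfl, rfl⟩ := ha'
    obtain ⟨rfl, rfl⟩ := hb'
    apply Subtype.ext
    change (⟨a1, a2, 0, false⟩ : Grp) * ⟨b1, b2, 0, false⟩ = ⟨b1, b2, 0, false⟩ * ⟨a1, a2, 0, false⟩
    rw [mul_def, mul_def, act_one, act_one]
    simp [add_comm]
  exact Group.isSolvable_of_ker_le_range f.ker.subtype f (by rw [Subgroup.range_subtype])

/-- There is a finite solvable group G with a subgroup A of order 2 such that every conjugacy class of G contains an element g for which A is subnormal in the subgroup generated by A and g, and yet A is not contained in O_2(G). (So the corresponding criteria for odd primes fail at the prime 2, even for solvable groups.) -/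
theorem result :
    ∃ (G : Type) (_ : Group G) (_ : Finite G) (A : Subgroup G), Group.IsSolvable G ∧ Nat.card A = 2 ∧
      (∀ c : G, ∃ g : G, IsConj c g ∧ (A.subgroupOf (A ⊔ Subgroup.zpowers g)).IsSubnormal) ∧
      ¬ A ≤ Cfsg.pCore 2 G := by
  haveI : Fact (Nat.Prime 2) := ⟨Nat.prime_two⟩
  refine ⟨Grp, inferInstance, inferInstance, Subgroup.zpowers tt, ?_, ?_, ?_, ?_⟩
  · exact solv
  · rw [Nat.card_zpowers]
    exact orderOf_eq_prime (by decide) (by decide)
  · intro c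
    obtain ⟨x, y, i, s, h⟩ := covered c.x c.y c.i c.s
    set u : Grp := ⟨x, y, i, s⟩
    refine ⟨u * c * u⁻¹, isConj_iff.2 ⟨u, rfl⟩, ?_⟩
    simp only [Bool.or_eq_true, decide_eq_true_eq] at h
    rcases h with h | h
    · have : ((Subgroup.zpowers tt).subgroupOf (Subgroup.zpowers tt ⊔ Subgroup.zpowers (u * c * u⁻¹))).Normal := by
        rw [Subgroup.normal_subgroupOf_iff_le_normalizer le_sup_left]
        refine sup_le Subgroup.le_normalizer ((Subgroup.zpowers_le).2 (Subgroup.centralizer_le_normalizer _ ?_))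
        intro z hz
        obtain ⟨j, rfl⟩ := Subgroup.mem_zpowers_iff.1 hz
        exact (Commute.zpow_left (show Commute tt (u * c * u⁻¹) from h) j).eq
      exact Subgroup.Normal.isSubnormal this
    · have hpg : IsPGroup 2 (Subgroup.zpowers tt ⊔ Subgroup.zpowers (u * c * u⁻¹) : Subgroup Grp) :=
        kGroup_isPGroup.to_le (sup_le ((Subgroup.zpowers_le).2 (by decide : (0 : ZMod 3) = 0 ∧ (0 : ZMod 3) = 0))
          ((Subgroup.zpowers_le).2 h))
      haveI := hpg.isNilpotent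
      exact Cfsg.Agent.FGSev.isSubnormal_of_isNilpotent _
  · intro hle
    have htt := hle (Subgroup.mem_zpowers tt)
    set u : Grp := ⟨0, 1, 0, false⟩
    have h3 : ⟨1, 2, 0, false⟩ ∈ Cfsg.pCore 2 Grp :=
      (show (⟨1, 2, 0, false⟩ : Grp) = u * tt * u⁻¹ * tt⁻¹ from by decide) ▸
        mul_mem ((Cfsg.Agent.Cores.pCore_normal_inst 2 Grp).conj_mem _ htt u) (inv_mem htt)
    obtain ⟨k, hk⟩ := (Cfsg.Agent.Cores.pCore_isPGroup : IsPGroup 2 (Cfsg.pCore 2 Grp)) ⟨_, h3⟩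
    have hk' : (⟨1, 2, 0, false⟩ : Grp) ^ 2 ^ k = 1 := congrArg Subtype.val hk
    have h := orderOf_dvd_of_pow_eq_one hk'
    haveI : Fact (Nat.Prime 3) := ⟨Nat.prime_three⟩
    rw [orderOf_eq_prime (p := 3) (by decide) (by decide)] at h
    exact absurd (Nat.prime_three.dvd_of_dvd_pow h) (by decide)

end Cfsg.Agent.S4331
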