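import Cfsg.Statements.S4332
import Mathlib.GroupTheory.Perm.Cycle.Type
import Mathlib.GroupTheory.Perm.ClosureSwap
import Cfsg.Agent.Cores.Basic

set_option autoImplicit false
open Pointwise
open Cfsg

namespace Cfsg.Agent.S4332

/-- The three-cycle `a ↦ b ↦ d ↦ a`. -/
def cyc (a b d : Fin 8) : Equiv.Perm (Fin 8) := Equiv.swap a b * Equiv.swap b d

theorem cyc_isThreeCycle {a b d : Fin 8} (hab : a ≠ b) (hbd : b ≠ d) (had : a ≠ d) : (cyc a b d).IsThreeCycle := by
  rw [cyc, Equiv.swap_comm a b]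
  exact Equiv.Perm.isThreeCycle_swap_mul_swap_same (Ne.symm hab) hbd had

theorem conj_cyc (c : Equiv.Perm (Fin 8)) (a b d : Fin 8) : c * cyc a b d * c⁻¹ = cyc (c a) (c b) (c d) := by
  have h : ∀ u v, c * Equiv.swap u v * c⁻¹ = Equiv.swap (c u) (c v) := fun u v => (Equiv.swap_apply_apply c u v).symm
  rw [cyc, cyc, ← h a b, ← h b d]; group

theorem cyc_rot (a b d : Fin 8) (hab : a ≠ b) (hbd : b ≠ d) (had : a ≠ d) : cyc b d a = cyc a b d := by
  revert a b d; decide

theorem cyc_rev (a b d : Fin 8) (hab : a ≠ b) (hbd : b ≠ d) (had : a ≠ d) : cyc b a d = (cyc a b d)⁻¹ := by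
  revert a b d; decide

theorem commute_of_disjoint (c : Equiv.Perm (Fin 8)) {a b d : Fin 8}
    (h : ∀ u ∈ [a, b, d], ∀ v ∈ [a, b, d], c u ≠ v) : Commute (c * cyc a b d * c⁻¹) (cyc a b d) := by
  rw [conj_cyc]
  refine Equiv.Perm.Disjoint.commute fun z => ?_
  by_cases hz : z = a ∨ z = b ∨ z = d
  · left
    simp only [List.mem_cons, List.not_mem_nil, or_false, forall_eq_or_imp, forall_eq] at h
    simp only [cyc, Equiv.Perm.mul_apply]
    have h' : z ≠ c a ∧ z ≠ c b ∧ z ≠ c d := by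
      rcases hz with rfl | rfl | rfl <;> simp_all [ne_comm]
    rw [Equiv.swap_apply_of_ne_of_ne h'.2.1 h'.2.2, Equiv.swap_apply_of_ne_of_ne h'.1 h'.2.1]
  · right
    push Not at hz
    simp only [cyc, Equiv.Perm.mul_apply]
    rw [Equiv.swap_apply_of_ne_of_ne hz.2.1 hz.2.2, Equiv.swap_apply_of_ne_of_ne hz.1 hz.2.1]

theorem exists_notMem (s : Finset (Fin 8)) {m : ℕ} (S : Finset (Fin 8)) (hs : s.card ≤ m) (hS : m < S.card) :
    ∃ x ∈ S, x ∉ s := by
  by_contra h
  push Not at h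
  have := Finset.card_le_card h
  omega

theorem exists_commuting_three_cycle (c : Equiv.Perm (Fin 8)) :
    ∃ τ : Equiv.Perm (Fin 8), τ.IsThreeCycle ∧ Commute (c * τ * c⁻¹) τ := by
  classical
  set S := (Finset.univ : Finset (Fin 8)).filter fun x => c x ≠ x with hS
  have hmem : ∀ x, x ∈ S ↔ c x ≠ x := fun x => by simp [hS]
  by_cases h3 : ∃ a, c a ≠ a ∧ c (c (c a)) = a
  · obtain ⟨a, ha, ha3⟩ := h3
    have h2 : c (c a) ≠ a := fun h => ha (by rw [h] at ha3; exact ha3)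
    have h12 : c a ≠ c (c a) := fun h => ha (c.injective h.symm)
    refine ⟨cyc a (c a) (c (c a)), cyc_isThreeCycle (Ne.symm ha) h12 (Ne.symm h2), ?_⟩
    rw [conj_cyc, ha3, cyc_rot _ _ _ (Ne.symm ha) h12 (Ne.symm h2)]
  push Not at h3
  by_cases h5 : S.card ≤ 5
  · have hfix : 2 < Sᶜ.card := by rw [Finset.card_compl, Fintype.card_fin]; omega
    obtain ⟨a, b, d, ha, hb, hd, hab, had, hbd⟩ := Finset.two_lt_card_iff.1 hfix
    simp only [Finset.mem_compl, hmem, not_not] at ha hb hd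
    exact ⟨cyc a b d, cyc_isThreeCycle hab hbd had, by rw [conj_cyc, ha, hb, hd]⟩
  by_cases hlong : ∃ a, c a ≠ a ∧ c (c a) ≠ a
  · obtain ⟨a, ha, ha2⟩ := hlong
    have ha3 := h3 a ha
    set b := c (c a)
    have hb : c b ≠ b := fun h => ha (c.injective (c.injective h))
    obtain ⟨d, hd, hdn⟩ := exists_notMem {a, c a, c⁻¹ a, b, c b} (m := 5) S Finset.card_le_five (by omega)
    rw [hmem] at hd
    simp only [Finset.mem_insert, Finset.mem_singleton, not_or] at hdn
    obtain ⟨hd1, hd2, hd3, hd4, hd5⟩ := hdn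
    have hab : a ≠ b := Ne.symm ha2
    refine ⟨cyc a b d, cyc_isThreeCycle hab (Ne.symm hd4) (Ne.symm hd1), commute_of_disjoint c ?_⟩
    have e1 : c a ≠ b := fun h => ha (c.injective h.symm)
    have e2 : c d ≠ a := fun h => hd3 (by rw [← h]; exact (c.symm_apply_apply d).symm)
    have e3 : c d ≠ b := fun h => hd2 (c.injective h)
    simp only [List.mem_cons, List.not_mem_nil, or_false, forall_eq_or_imp, forall_eq]
    exact ⟨⟨ha, e1, Ne.symm hd2⟩, ⟨ha3, hb, Ne.symm hd5⟩, e2, e3, hd⟩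
  push Not at hlong
  by_cases h8 : S.card = 8
  · have huniv : S = Finset.univ := Finset.eq_univ_of_card _ (by rw [h8]; rfl)
    have hall : ∀ x, c x ≠ x := fun x => (hmem x).1 (by rw [huniv]; exact Finset.mem_univ x)
    have hinv : ∀ x, c (c x) = x := fun x => hlong x (hall x)
    obtain ⟨b, -, hbn⟩ := exists_notMem {0, c 0} (m := 2) S Finset.card_le_two (by omega)
    obtain ⟨d, -, hdn⟩ := exists_notMem {0, c 0, b, c b} (m := 4) S Finset.card_le_four (by omega)
    simp only [Finset.mem_insert, Finset.mem_singleton, not_or] at hbn hdn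
    refine ⟨cyc 0 b d, cyc_isThreeCycle (Ne.symm hbn.1) (Ne.symm hdn.2.2.1) (Ne.symm hdn.1), commute_of_disjoint c ?_⟩
    simp only [List.mem_cons, List.not_mem_nil, or_false, forall_eq_or_imp, forall_eq]
    refine ⟨⟨hall 0, Ne.symm hbn.2, Ne.symm hdn.2.1⟩, ⟨fun h => hbn.2 ?_, hall b, Ne.symm hdn.2.2.2⟩,
      fun h => hdn.2.1 ?_, fun h => hdn.2.2.2 ?_, hall d⟩
    · rw [← h, hinv]
    · rw [← h, hinv]
    · rw [← h, hinv]
  obtain ⟨f, hf⟩ : ∃ f, c f = f := by
    by_contra h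
    push Not at h
    exact h8 (by rw [show S = Finset.univ from Finset.eq_univ_iff_forall.2 fun x => (hmem x).2 (h x)]; rfl)
  obtain ⟨a, ha, -⟩ := exists_notMem (∅ : Finset (Fin 8)) (m := 0) S (by simp) (by omega)
  rw [hmem] at ha
  have ha2 := hlong a ha
  have hfa : a ≠ f := fun h => ha (by rw [h, hf])
  have hfca : c a ≠ f := fun h => hfa (c.injective (h.trans hf.symm))
  refine ⟨cyc a (c a) f, cyc_isThreeCycle (Ne.symm ha) hfca hfa, ?_⟩
  rw [conj_cyc, ha2, hf, cyc_rev _ _ _ (Ne.symm ha) hfca hfa]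
  exact (Commute.refl _).inv_left

/-- In the symmetric group of degree 8, let A be the subgroup generated by a 3-cycle. Then every conjugacy class contains an element g for which A is subnormal in the subgroup generated by A and its conjugate by g, although O_3 of the symmetric group of degree 8 is trivial. -/
theorem result
    (σ : Equiv.Perm (Fin 8)) (hσ : σ.IsThreeCycle) :
    (∀ c : Equiv.Perm (Fin 8), ∃ g : Equiv.Perm (Fin 8), IsConj c g ∧
      ((Subgroup.zpowers σ).subgroupOf (Subgroup.zpowers σ ⊔ MulAut.conj g • Subgroup.zpowers σ)).IsSubnormal) ∧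
    Cfsg.pCore 3 (Equiv.Perm (Fin 8)) = ⊥ := by
  constructor
  · intro c
    obtain ⟨τ, hτ, hcom⟩ := exists_commuting_three_cycle c
    obtain ⟨k, hk⟩ := isConj_iff.1 (Equiv.Perm.isConj_iff_cycleType_eq.2 (hτ.trans hσ.symm))
    refine ⟨k * c * k⁻¹, isConj_iff.2 ⟨k, rfl⟩, ?_⟩
    have hconj : Commute ((k * c * k⁻¹) * σ * (k * c * k⁻¹)⁻¹) σ := by
      have e : (k * c * k⁻¹) * σ * (k * c * k⁻¹)⁻¹ = k * (c * τ * c⁻¹) * k⁻¹ := by rw [← hk]; group
      rw [e, ← hk]
      exact (Commute.conj_iff k).2 hcom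
    haveI : ((Subgroup.zpowers σ).subgroupOf
        (Subgroup.zpowers σ ⊔ MulAut.conj (k * c * k⁻¹) • Subgroup.zpowers σ)).Normal := by
      rw [Subgroup.normal_subgroupOf_iff_le_normalizer le_sup_left]
      refine sup_le Subgroup.le_normalizer ?_
      rintro _ ⟨y, hy, rfl⟩
      refine Subgroup.centralizer_le_normalizer _ fun z hz => ?_
      obtain ⟨i, rfl⟩ := Subgroup.mem_zpowers_iff.1 hy
      obtain ⟨j, rfl⟩ := Subgroup.mem_zpowers_iff.1 hz
      change σ ^ j * MulAut.conj (k * c * k⁻¹) (σ ^ i) = MulAut.conj (k * c * k⁻¹) (σ ^ i) * σ ^ j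
      rw [map_zpow, MulAut.conj_apply]
      exact ((hconj.zpow_zpow i j).symm).eq
    exact Subgroup.Normal.isSubnormal inferInstance
  · haveI : Fact (Nat.Prime 3) := ⟨Nat.prime_three⟩
    obtain ⟨n, hn⟩ := IsPGroup.iff_card.1 (Cfsg.Agent.Cores.pCore_isPGroup : IsPGroup 3 (Cfsg.pCore 3 (Equiv.Perm (Fin 8))))
    by_contra hne
    obtain ⟨g, hg, hg1⟩ := SetLike.not_le_iff_exists.1 (fun h => hne (le_bot_iff.1 h))
    obtain ⟨x, hx⟩ : ∃ x, g x ≠ x := by
      by_contra h; push Not at h; exact hg1 (Subgroup.mem_bot.2 (Equiv.ext h))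
    have hn0 := Cfsg.Agent.Cores.pCore_normal_inst 3 (Equiv.Perm (Fin 8))
    have horb : MulAction.orbit (Cfsg.pCore 3 (Equiv.Perm (Fin 8))) x = Set.univ := by
      refine Set.eq_univ_iff_forall.2 fun z => ?_
      by_cases hz : z = x
      · subst hz; exact MulAction.mem_orbit_self z
      · refine ⟨⟨_, hn0.conj_mem g hg (Equiv.swap (g x) z)⟩, ?_⟩
        change (Equiv.swap (g x) z * g * (Equiv.swap (g x) z)⁻¹) x = z
        rw [Equiv.swap_inv, Equiv.Perm.mul_apply, Equiv.Perm.mul_apply,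
          Equiv.swap_apply_of_ne_of_ne (Ne.symm hx) (Ne.symm hz), Equiv.swap_apply_left]
    have h := (MulAction.stabilizer (Cfsg.pCore 3 (Equiv.Perm (Fin 8))) x).index_dvd_card
    rw [MulAction.index_stabilizer, horb, Set.ncard_univ, Nat.card_fin, hn] at h
    have h2 : 2 ∣ 3 ^ n := (show 2 ∣ 8 by norm_num).trans h
    exact absurd (Nat.prime_two.dvd_of_dvd_pow h2) (by norm_num)

end Cfsg.Agent.S4332
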