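import Cfsg.Statements.S4334
import Cfsg.Agent.Transfer.Frobenius
import Cfsg.Agent.Lib.Hall
import Cfsg.Agent.Lib.SchurZassenhaus

set_option autoImplicit false
open Cfsg

open Subgroup
open scoped Pointwise
namespace Cfsg.Agent.S4334

universe u

variable {G : Type u} [Group G] [Finite G]

theorem mem_of_coprime_index (N : Subgroup G) [N.Normal] {y : G} (h : (orderOf y).Coprime N.index) : y ∈ N := by
  rw [← QuotientGroup.eq_one_iff, ← orderOf_eq_one_iff]
  refine Nat.eq_one_of_dvd_coprimes h (orderOf_map_dvd (QuotientGroup.mk' N) y) ?_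
  rw [index_eq_card]
  exact orderOf_dvd_natCard _

theorem coprime_of_forall {a b : ℕ} (h : ∀ r : ℕ, r.Prime → r ∣ a → ¬ r ∣ b) : a.Coprime b :=
  Nat.coprime_of_dvd h

/-- In a nilpotent group elements of coprime order (one a prime power) commute. -/
theorem commute_nilpotent {X : Type u} [Group X] [Finite X] (hX : Group.IsNilpotent X) {q : ℕ} [Fact q.Prime]
    {x y : X} {i : ℕ} (hx : orderOf x = q ^ i) (hy : ¬ q ∣ orderOf y) : Commute x y := by
  have hsn : ∀ (r : ℕ) (_ : Fact r.Prime) (R : Sylow r X), (R : Subgroup X).Normal :=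
    ((Group.isNilpotent_of_finite_tfae (G := X)).out 0 3 : Group.IsNilpotent X ↔ _).mp hX
  obtain ⟨P, hP⟩ := (IsPGroup.of_card (n := i) (by rw [Nat.card_zpowers, hx]) : IsPGroup q (zpowers x)).exists_le_sylow
  have hPn : (P : Subgroup X).Normal := hsn q inferInstance P
  have hym : y ∈ centralizer ((P : Subgroup X) : Set X) := by
    refine mem_of_coprime_index _ (coprime_of_forall fun r hr hry hri => ?_)
    have : Fact r.Prime := ⟨hr⟩
    have hrq : r ≠ q := fun e => hy (e ▸ hry)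
    obtain ⟨R⟩ : Nonempty (Sylow r X) := inferInstance
    refine R.not_dvd_index (hri.trans (index_dvd_of_le ?_))
    intro z hz w hw
    exact commute_of_normal_of_disjoint _ _ hPn (hsn r inferInstance R)
      (IsPGroup.disjoint_of_ne q r (Ne.symm hrq) _ _ P.2 R.2) w z hw hz
  exact hym x (hP (mem_zpowers x))

/-- `q`-elements and `q'`-elements of `J` commute. -/
def QDec (q : ℕ) (J : Subgroup G) : Prop :=
  ∀ x ∈ J, ∀ y ∈ J, (∃ i : ℕ, orderOf x = q ^ i) → ¬ q ∣ orderOf y → Commute x y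

theorem qDec_conj {q : ℕ} {J : Subgroup G} (h : QDec q J) (g : G) : QDec q (MulAut.conj g • J) := by
  rintro _ ⟨x, hx, rfl⟩ _ ⟨y, hy, rfl⟩ hi hq
  have e : ∀ z : G, orderOf ((MulAut.conj g).toMonoidHom z) = orderOf z :=
    fun z => orderOf_injective (MulAut.conj g).toMonoidHom (MulAut.conj g).injective z
  refine Commute.map (h x hx y hy ?_ ?_) (MulAut.conj g).toMonoidHom
  · obtain ⟨i, hi⟩ := hi; exact ⟨i, (e x).symm.trans hi⟩
  · exact fun hd => hq (hd.trans (dvd_of_eq (e y).symm))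

theorem isPiHall_conj' {π : Set ℕ} {H : Subgroup G} (hH : Cfsg.IsPiHall π H) (g : G) :
    Cfsg.IsPiHall π (MulAut.conj g • H) := Hall.isPiHall_conj hH g

/-- If `R` is a `q`-subgroup of the Hall subgroup `J`, every `π ∖ q`-element normalising it centralises it. -/
theorem centralize_q {π : Set ℕ} {q : ℕ} [Fact q.Prime] {J : Subgroup G} (hJ : Cfsg.IsPiHall π J)
    (hdec : QDec q J) {R : Subgroup G} (hRJ : R ≤ J) (hR : IsPGroup q R) {y : G}
    (hy : y ∈ normalizer (R : Set G)) (hyo : ∀ r : ℕ, r.Prime → r ∣ orderOf y → r ∈ π ∧ r ≠ q) :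
    y ∈ centralizer (R : Set G) := by
  set N := normalizer (R : Set G)
  set C := centralizer (R : Set G)
  have hCn : (C.subgroupOf N).Normal := ⟨fun c hc n z hz => by
    have h1 : (n : G)⁻¹ * z * n ∈ R := (mem_normalizer_iff''.mp n.2 z).mp hz
    have h2 : ((n : G)⁻¹ * z * n) * (c : G) = (c : G) * ((n : G)⁻¹ * z * n) := hc _ h1
    show z * ((n : G) * c * (n : G)⁻¹) = (n : G) * c * (n : G)⁻¹ * z
    calc z * ((n : G) * c * (n : G)⁻¹) = (n : G) * (((n : G)⁻¹ * z * n) * c) * (n : G)⁻¹ := by group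
      _ = (n : G) * (c * ((n : G)⁻¹ * z * n)) * (n : G)⁻¹ := by rw [h2]
      _ = _ := by group⟩
  have hmem : (⟨y, hy⟩ : N) ∈ C.subgroupOf N := by
    refine mem_of_coprime_index _ (coprime_of_forall fun r hr hry hri => ?_)
    rw [Subgroup.orderOf_mk] at hry
    obtain ⟨hrπ, hrq⟩ := hyo r hr hry
    have : Fact r.Prime := ⟨hr⟩
    obtain ⟨S⟩ : Nonempty (Sylow r J) := inferInstance
    have hSC : (S : Subgroup J).map J.subtype ≤ C := by
      rintro _ ⟨s, hs, rfl⟩ z hz
      obtain ⟨i, hi⟩ := hR ⟨z, hz⟩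
      obtain ⟨j, -, hj⟩ := (Nat.dvd_prime_pow Fact.out).mp
        (orderOf_dvd_of_pow_eq_one (show z ^ q ^ i = 1 from congrArg Subtype.val hi))
      refine hdec z (hRJ hz) s s.2 ⟨j, hj⟩ fun hd => ?_
      obtain ⟨k, hk⟩ := S.2 ⟨s, hs⟩
      obtain ⟨l, -, hl⟩ := (Nat.dvd_prime_pow hr).mp
        (orderOf_dvd_of_pow_eq_one (show (s : G) ^ r ^ k = 1 by simpa using congrArg (fun w : S => ((w : J) : G)) hk))
      change q ∣ orderOf (s : G) at hd
      rw [hl] at hd
      exact hrq ((Nat.prime_dvd_prime_iff_eq Fact.out hr).mp ((Fact.out : q.Prime).dvd_of_dvd_pow hd)).symm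
    have h1 := hri.trans (relIndex_dvd_index_of_le (centralizer_le_normalizer _ : C ≤ N))
    have h2 := h1.trans (index_dvd_of_le hSC)
    rw [index_map_subtype] at h2
    exact (hr.dvd_mul.mp h2).elim S.not_dvd_index (hJ.2 r hr hrπ)
  exact hmem

/-- If `L` is a `q'`-subgroup of `J`, every `q`-element normalising it centralises it. -/
theorem centralize_q' {π : Set ℕ} {q : ℕ} [Fact q.Prime] (hqπ : q ∈ π) {J : Subgroup G} (hJ : Cfsg.IsPiHall π J)
    (hdec : QDec q J) {L : Subgroup G} (hLJ : L ≤ J) (hL : ¬ q ∣ Nat.card L) {y : G}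
    (hy : y ∈ normalizer (L : Set G)) {k : ℕ} (hyo : orderOf y = q ^ k) :
    y ∈ centralizer (L : Set G) ∧ ∃ S : Sylow q G, (S : Subgroup G) ≤ centralizer (L : Set G) ∧
      (S : Subgroup G) ≤ J := by
  set N := normalizer (L : Set G)
  set C := centralizer (L : Set G)
  have hCn : (C.subgroupOf N).Normal := ⟨fun c hc n z hz => by
    have h1 : (n : G)⁻¹ * z * n ∈ L := (mem_normalizer_iff''.mp n.2 z).mp hz
    have h2 : ((n : G)⁻¹ * z * n) * (c : G) = (c : G) * ((n : G)⁻¹ * z * n) := hc _ h1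
    show z * ((n : G) * c * (n : G)⁻¹) = (n : G) * c * (n : G)⁻¹ * z
    calc z * ((n : G) * c * (n : G)⁻¹) = (n : G) * (((n : G)⁻¹ * z * n) * c) * (n : G)⁻¹ := by group
      _ = (n : G) * (c * ((n : G)⁻¹ * z * n)) * (n : G)⁻¹ := by rw [h2]
      _ = _ := by group⟩
  obtain ⟨S0⟩ : Nonempty (Sylow q J) := inferInstance
  obtain ⟨S, hS⟩ := (S0.2.map J.subtype).exists_le_sylow
  have hidx : ¬ q ∣ ((S0 : Subgroup J).map J.subtype).index := by
    rw [index_map_subtype]
    exact fun h => ((Fact.out : q.Prime).dvd_mul.mp h).elim S0.not_dvd_index (hJ.2 q Fact.out hqπ)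
  have hSe : (S : Subgroup G) = (S0 : Subgroup J).map J.subtype := by
    refine (eq_of_le_of_card_ge hS ?_).symm
    obtain ⟨i, hi⟩ := IsPGroup.iff_card.mp S.2
    have hd := card_subgroup_dvd_card (S : Subgroup G)
    rw [← card_mul_index ((S0 : Subgroup J).map J.subtype), hi] at hd
    rw [hi]
    exact Nat.le_of_dvd Nat.card_pos ((Nat.Coprime.dvd_mul_right
      (Nat.Coprime.pow_left i ((Fact.out : q.Prime).coprime_iff_not_dvd.mpr hidx))).mp hd)
  have hSC : (S : Subgroup G) ≤ C := by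
    rw [hSe]
    rintro _ ⟨s, hs, rfl⟩ z hz
    obtain ⟨i, hi⟩ := S0.2 ⟨s, hs⟩
    obtain ⟨j, -, hj⟩ := (Nat.dvd_prime_pow Fact.out).mp
      (orderOf_dvd_of_pow_eq_one (show (s : G) ^ q ^ i = 1 by simpa using congrArg (fun w : S0 => ((w : J) : G)) hi))
    exact (hdec s s.2 z (hLJ hz) ⟨j, hj⟩ (fun hd => hL (hd.trans (L.orderOf_dvd_natCard hz)))).symm
  refine ⟨?_, S, hSC, hSe ▸ map_subtype_le _⟩
  have hmem : (⟨y, hy⟩ : N) ∈ C.subgroupOf N := by
    refine mem_of_coprime_index _ ?_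
    rw [Subgroup.orderOf_mk, hyo]
    refine Nat.Coprime.pow_left k ((Fact.out : q.Prime).coprime_iff_not_dvd.mpr fun h => ?_)
    exact S.not_dvd_index ((h.trans (relIndex_dvd_index_of_le (centralizer_le_normalizer _ : C ≤ N))).trans
      (index_dvd_of_le hSC))
  exact hmem

theorem le_conj_hall {σ τ π : Set ℕ} (hπ : π = σ ∪ τ) (hd : Disjoint σ τ) {H Ht : Subgroup G}
    (hH : Cfsg.IsPiHall π H) (hHt : Ht ≤ H) (htau : Maximal (Cfsg.IsPiSubgroup τ) Ht)
    (hdec : ∀ q : ℕ, q.Prime → q ∈ σ → QDec q H) (hD : Cfsg.IsDPiGroup τ G) :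
    ∀ (n : ℕ) (K : Subgroup G), Nat.card K ≤ n → Cfsg.IsPiSubgroup π K →
      ∃ g : G, K ≤ MulAut.conj g • H := by
  intro n
  induction n using Nat.strong_induction_on with | _ n ih =>
  intro K hn hK
  by_cases hσ : ∃ q, q.Prime ∧ q ∈ σ ∧ q ∣ Nat.card K
  swap
  · push Not at hσ
    have hKτ : Cfsg.IsPiSubgroup τ K := fun p hp hpd => by
      have := hK p hp hpd
      rw [hπ] at this
      exact this.resolve_left (fun h => hσ p hp h hpd)
    obtain ⟨M, hKM, hM⟩ := Finite.exists_le_maximal (p := Cfsg.IsPiSubgroup τ) (a := K) hKτ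
    obtain ⟨g, hg⟩ := hD Ht M htau hM
    refine ⟨g, hKM.trans ?_⟩
    rw [hg]
    exact map_mono hHt
  obtain ⟨q, hq, hqσ, hqK⟩ := hσ
  have : Fact q.Prime := ⟨hq⟩
  have hqπ : q ∈ π := hπ ▸ Or.inl hqσ
  -- a Sylow `q`-subgroup of `G` inside a conjugate of `H`
  obtain ⟨-, S₁, -, hS₁⟩ := centralize_q' (L := (⊥ : Subgroup G)) hqπ hH (hdec q hq hqσ) bot_le
    (by rw [card_bot]; exact hq.not_dvd_one) (y := 1) (one_mem _) (k := 0) (by rw [orderOf_one, pow_zero])
  have hnc : Cfsg.HasNormalPComplement q K := by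
    refine Transfer.hasNormalPComplement_of_coprime_centralize fun R hR _ y hy hyo => ?_
    obtain ⟨S, hS⟩ := (hR.map K.subtype).exists_le_sylow
    obtain ⟨g, hg⟩ := MulAction.exists_smul_eq G S₁ S
    have hRJ : R.map K.subtype ≤ MulAut.conj g • H := by
      refine hS.trans ?_
      rw [← hg, Sylow.coe_subgroup_smul]
      exact map_mono hS₁
    have hyN : (y : G) ∈ normalizer (R.map K.subtype : Set G) := by
      have := le_normalizer_map K.subtype (mem_map_of_mem K.subtype hy)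
      exact this
    have h := centralize_q (isPiHall_conj' hH g) (qDec_conj (hdec q hq hqσ) g) hRJ (hR.map _) hyN
      fun r hr hrd => ⟨hK r hr (hrd.trans (K.orderOf_dvd_natCard y.2)), fun e => ?_⟩
    · intro z hz
      exact Subtype.ext (h z (mem_map_of_mem K.subtype hz))
    · rw [Subgroup.orderOf_coe, e] at hrd
      exact hq.not_dvd_one (hyo ▸ Nat.dvd_gcd hrd dvd_rfl)
  obtain ⟨P, N, hN, hc⟩ := hnc
  set L := N.map K.subtype with hL
  have hqN : ¬ q ∣ Nat.card N := by
    rw [← hc.index_eq_card]; exact P.not_dvd_index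
  have hLlt : Nat.card L < n := by
    rw [hL, card_map_of_injective K.subtype_injective]
    refine lt_of_lt_of_le (lt_of_le_of_ne (Nat.le_of_dvd Nat.card_pos (card_subgroup_dvd_card N)) ?_) hn
    intro e
    exact hqN (e ▸ hqK)
  obtain ⟨g, hg⟩ := ih _ hLlt L le_rfl fun p hp hpd => hK p hp (hpd.trans (card_dvd_of_le (map_subtype_le _)))
  set P' := (P : Subgroup K).map K.subtype with hP'
  have hP'C : P' ≤ centralizer (L : Set G) := by
    rintro _ ⟨x, hx, rfl⟩
    have hxN : (x : G) ∈ normalizer (L : Set G) := by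
      have h : x ∈ normalizer (N : Set K) := by rw [normalizer_eq_top_iff.mpr hN]; trivial
      exact le_normalizer_map K.subtype (mem_map_of_mem K.subtype h)
    obtain ⟨i, hi⟩ := P.2 ⟨x, hx⟩
    obtain ⟨j, -, hj⟩ := (Nat.dvd_prime_pow hq).mp
      (orderOf_dvd_of_pow_eq_one (show x ^ q ^ i = 1 from congrArg Subtype.val hi))
    exact (centralize_q' hqπ (isPiHall_conj' hH g) (qDec_conj (hdec q hq hqσ) g) hg
      (by rw [hL, card_map_of_injective K.subtype_injective]; exact hqN) hxN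
      (k := j) ((Subgroup.orderOf_coe x).trans hj)).1
  obtain ⟨-, S, hSC, hSJ⟩ := centralize_q' (L := L) hqπ (isPiHall_conj' hH g) (qDec_conj (hdec q hq hqσ) g) hg
    (by rw [hL, card_map_of_injective K.subtype_injective]; exact hqN) (y := 1) (one_mem _) (k := 0)
    (by rw [orderOf_one, pow_zero])
  obtain ⟨T, hT⟩ := ((P.2.map K.subtype).comap_of_injective (centralizer (L : Set G)).subtype
    (centralizer (L : Set G)).subtype_injective :
      IsPGroup q (P'.subgroupOf (centralizer (L : Set G)))).exists_le_sylow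
  obtain ⟨c, hc'⟩ := MulAction.exists_smul_eq (centralizer (L : Set G)) T (S.subtype hSC)
  refine ⟨(c : G)⁻¹ * g, ?_⟩
  have hKsup : K = L ⊔ P' := by
    rw [hL, hP', ← Subgroup.map_sup, hc.sup_eq_top, ← MonoidHom.range_eq_map, range_subtype]
  rw [hKsup, sup_le_iff]
  constructor
  · intro l hl
    rw [map_mul, mul_smul, map_inv, Subgroup.mem_inv_pointwise_smul_iff , MulAut.smul_def, MulAut.conj_apply,
      show (c : G) * l * (c : G)⁻¹ = l by rw [← c.2 l hl, mul_inv_cancel_right]]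
    exact hg hl
  · intro x hx
    rw [map_mul, mul_smul, map_inv, Subgroup.mem_inv_pointwise_smul_iff, MulAut.smul_def, MulAut.conj_apply]
    have h1 : (⟨x, hP'C hx⟩ : centralizer (L : Set G)) ∈ (T : Subgroup _) := hT hx
    have h2 : c * ⟨x, hP'C hx⟩ * c⁻¹ ∈ ((c • T : Sylow q _) : Subgroup _) := by
      rw [Sylow.coe_subgroup_smul]; exact ⟨_, h1, rfl⟩
    rw [hc', Sylow.coe_subtype, mem_subgroupOf] at h2
    exact hSJ h2

/-- Let σ and τ be disjoint sets of primes with union π. Suppose a finite group G has a Hall π-subgroup H which is the direct product of a nilpotent σ-subgroup and a τ-subgroup (two elementwise-commuting subgroups generating H), and that the maximal τ-subgroups of G are pairwise conjugate. Then the maximal π-subgroups of G are pairwise conjugate. -/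
theorem result {G : Type*} [Group G] [Finite G]
    (σ τ π : Set ℕ) (hπ : π = σ ∪ τ) (hd : Disjoint σ τ) (H Hs Ht : Subgroup G) (hH : Cfsg.IsPiHall π H)
    (hs : Cfsg.IsPiSubgroup σ Hs) (ht : Cfsg.IsPiSubgroup τ Ht) (hsn : Group.IsNilpotent Hs)
    (hjoin : Hs ⊔ Ht = H) (hcomm : ∀ a ∈ Hs, ∀ b ∈ Ht, a * b = b * a) (hD : Cfsg.IsDPiGroup τ G) :
    Cfsg.IsDPiGroup π G := by
  subst hjoin
  have hcomm' : Hs ≤ centralizer (Ht : Set G) := fun a ha b hb => (hcomm a ha b hb).symm
  have hmem : ∀ x ∈ Hs ⊔ Ht, ∃ a ∈ Hs, ∃ b ∈ Ht, x = a * b := by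
    intro x hx
    have : x ∈ (Hs : Set G) * (Ht : Set G) := by
      rw [← coe_mul_of_left_le_normalizer_right Hs Ht (hcomm'.trans (centralizer_le_normalizer _))]
      exact hx
    obtain ⟨a, ha, b, hb, rfl⟩ := this
    exact ⟨a, ha, b, hb, rfl⟩
  have hco : ∀ a ∈ Hs, ∀ b ∈ Ht, (orderOf a).Coprime (orderOf b) := fun a ha b hb =>
    Nat.coprime_of_dvd fun r hr h1 h2 => Set.disjoint_left.mp hd
      (hs r hr (h1.trans (Hs.orderOf_dvd_natCard ha))) (ht r hr (h2.trans (Ht.orderOf_dvd_natCard hb)))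
  have hord : ∀ a ∈ Hs, ∀ b ∈ Ht, orderOf (a * b) = orderOf a * orderOf b := fun a ha b hb =>
    (show Commute a b from hcomm a ha b hb).orderOf_mul_eq_mul_orderOf_of_coprime (hco a ha b hb)
  have hdec : ∀ q : ℕ, q.Prime → q ∈ σ → QDec q (Hs ⊔ Ht) := by
    intro q hq hqσ x hx y hy hxq hyq
    have : Fact q.Prime := ⟨hq⟩
    obtain ⟨a, ha, b, hb, rfl⟩ := hmem x hx
    obtain ⟨a', ha', b', hb', rfl⟩ := hmem y hy
    obtain ⟨i, hi⟩ := hxq
    rw [hord a ha b hb] at hi
    rw [hord a' ha' b' hb'] at hyq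
    have hb1 : b = 1 := by
      rw [← orderOf_eq_one_iff]
      by_contra hne
      obtain ⟨r, hr, hrd⟩ := Nat.exists_prime_and_dvd hne
      have hrq : r = q := (Nat.prime_dvd_prime_iff_eq hr hq).mp
        (hr.dvd_of_dvd_pow (hi ▸ dvd_mul_of_dvd_right hrd _))
      exact Set.disjoint_left.mp hd hqσ (hrq ▸ ht r hr (hrd.trans (Ht.orderOf_dvd_natCard hb)))
    subst hb1
    rw [orderOf_one, mul_one] at hi
    rw [mul_one]
    refine Commute.mul_right ?_ (hcomm a ha b' hb')
    have h := commute_nilpotent hsn (x := (⟨a, ha⟩ : Hs)) (y := ⟨a', ha'⟩) (i := i)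
      (by rw [Subgroup.orderOf_mk, hi]) (by rw [Subgroup.orderOf_mk]; exact fun h => hyq (dvd_mul_of_dvd_left h _))
    exact congrArg Subtype.val h
  have hmaxπ : ∀ (J : Subgroup G), Cfsg.IsPiHall π J → ∀ M, Cfsg.IsPiSubgroup π M → J ≤ M → M = J := by
    intro J hJ M hM hle
    refine (eq_of_le_of_card_ge hle ?_).symm
    have h1 := J.card_mul_index
    have h2 : (Nat.card M).Coprime J.index := Nat.coprime_of_dvd fun r hr ha hb => hJ.2 r hr (hM r hr ha) hb
    exact Nat.le_of_dvd Nat.card_pos (h2.dvd_of_dvd_mul_right (h1 ▸ card_subgroup_dvd_card M))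
  have htmax : Maximal (Cfsg.IsPiSubgroup τ) Ht := by
    refine ⟨ht, fun M hM hle => ?_⟩
    refine le_of_eq (eq_of_le_of_card_ge hle ?_).symm
    have h1 := Ht.card_mul_index
    have h2 : (Nat.card M).Coprime Ht.index := Nat.coprime_of_dvd fun r hr ha hb => by
      have hrτ := hM r hr ha
      have hle' : Ht ≤ Hs ⊔ Ht := le_sup_right
      rw [← relIndex_mul_index hle'] at hb
      rcases hr.dvd_mul.mp hb with h | h
      · have h' : Ht.relIndex (Hs ⊔ Ht) ∣ Nat.card Hs := by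
          have : (Ht.subgroupOf (Hs ⊔ Ht)).Normal := normal_subgroupOf_of_le_normalizer
            (sup_le (hcomm'.trans (centralizer_le_normalizer _)) le_normalizer)
          refine (dvd_of_eq ?_).trans (card_dvd_of_surjective
            ((QuotientGroup.mk' (Ht.subgroupOf (Hs ⊔ Ht))).comp (inclusion (le_sup_left : Hs ≤ Hs ⊔ Ht))) ?_)
          · rfl
          · intro z
            obtain ⟨⟨x, hx⟩, rfl⟩ := QuotientGroup.mk'_surjective _ z
            obtain ⟨a, ha, b, hb', rfl⟩ := hmem x hx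
            refine ⟨⟨a, ha⟩, QuotientGroup.eq.mpr ?_⟩
            show a⁻¹ * (a * b) ∈ Ht
            rwa [inv_mul_cancel_left]
        exact Set.disjoint_left.mp hd (hs r hr (h.trans h')) hrτ
      · exact hH.2 r hr (hπ ▸ Or.inr hrτ) h
    exact Nat.le_of_dvd Nat.card_pos (h2.dvd_of_dvd_mul_right (h1 ▸ card_subgroup_dvd_card M))
  intro A B hA hB
  obtain ⟨a, ha⟩ := le_conj_hall hπ hd hH le_sup_right htmax hdec hD _ A le_rfl hA.1
  obtain ⟨b, hb⟩ := le_conj_hall hπ hd hH le_sup_right htmax hdec hD _ B le_rfl hB.1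
  have eA : A = MulAut.conj a • (Hs ⊔ Ht) := le_antisymm ha (hA.2 (isPiHall_conj' hH a).1 ha)
  have eB : B = MulAut.conj b • (Hs ⊔ Ht) := le_antisymm hb (hB.2 (isPiHall_conj' hH b).1 hb)
  refine ⟨b * a⁻¹, ?_⟩
  show B = MulAut.conj (b * a⁻¹) • A
  rw [eA, eB, SZ.conj_smul_smul, inv_mul_cancel_right]

end Cfsg.Agent.S4334
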