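import Cfsg.Statements.S4337
import Cfsg.Agent.FGS.Transpositions

set_option autoImplicit false
open Cfsg

namespace Cfsg.Agent.S4337

/-- In a finite symmetric group, any three transpositions generate a solvable subgroup. -/
theorem result (n : ℕ) (a b c : Equiv.Perm (Fin n))
    (ha : a.IsSwap) (hb : b.IsSwap) (hc : c.IsSwap) :
    Group.IsSolvable (Subgroup.closure ({a, b, c} : Set (Equiv.Perm (Fin n)))) := by
  classical
  obtain ⟨q, hq, hc⟩ := Cfsg.Agent.FGS.Transp.exists_small_fibres ({a, b, c} : Finset (Equiv.Perm (Fin n)))
    (by intro g hg; simp only [Finset.mem_insert, Finset.mem_singleton] at hg; rcases hg with rfl | rfl | rfl <;> assumption)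
  rw [Finset.coe_insert, Finset.coe_insert, Finset.coe_singleton] at hq
  exact Cfsg.Agent.FGS.Transp.isSolvable_of_small hq (fun d => (hc d).trans (Nat.succ_le_succ Finset.card_le_three))

end Cfsg.Agent.S4337
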