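import Cfsg.Statements.S4339
import Cfsg.Agent.SylowNum.PSolv
-- import your own Cfsg.Agent.* helpers here

set_option autoImplicit false
open Cfsg

namespace Cfsg.Agent.S4339

/-- Let G be a finite group and p a prime such that it is not the case that p > 3 with p + 1 a power of 2. If the number of Sylow p-subgroups of G is less than p², then G is p-solvable if and only if that number is a power of a prime (possibly 1). -/
theorem result {G : Type*} [Group G] [Finite G]
    (p : ℕ) [Fact p.Prime] (hp : ¬ (3 < p ∧ ∃ k : ℕ, p + 1 = 2 ^ k)) (hn : Nat.card (Sylow p G) < p ^ 2) :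
    Cfsg.IsPSolvable p G ↔ ∃ q k : ℕ, q.Prime ∧ Nat.card (Sylow p G) = q ^ k := by
  refine ⟨fun h => Cfsg.Agent.SylowPSolv.prime_power_of_isPSolvable _ G rfl h hn, fun h => ?_⟩
  exact Cfsg.Agent.SylowPSolv.isPSolvable_of_prime_power hp _ G rfl hn h

end Cfsg.Agent.S4339
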