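import Cfsg.Statements.S4341
import Cfsg.Agent.SylowNum.Product

set_option autoImplicit false
open Cfsg

namespace Cfsg.Agent.S4341

/-- Let K be a normal subgroup of a finite group G, p a prime and P a Sylow p-subgroup of G; let N be the normalizer of P ∩ K inside the subgroup PK. Then the number of Sylow p-subgroups of G equals the product of the numbers of Sylow p-subgroups of G/K, of K, and of N/(P ∩ K). (The normality of P ∩ K in N, which always holds, is assumed as a hypothesis so that the quotient can be formed.) -/
theorem result {G : Type*} [Group G] [Finite G]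
    (p : ℕ) [Fact p.Prime] (K : Subgroup G) [K.Normal] (P : Sylow p G) (N : Subgroup G)
    (hN : N = ((P : Subgroup G) ⊔ K) ⊓ Subgroup.normalizer (((P : Subgroup G) ⊓ K : Subgroup G) : Set G))
    [hn : (((P : Subgroup G) ⊓ K).subgroupOf N).Normal] :
    Nat.card (Sylow p G) =
      Nat.card (Sylow p (G ⧸ K)) * Nat.card (Sylow p K) * Nat.card (Sylow p (N ⧸ ((P : Subgroup G) ⊓ K).subgroupOf N)) := by
  subst hN
  rw [Cfsg.Agent.SylowNum.card_sylow_eq_mul_sup K P, Cfsg.Agent.SylowNum.card_sylow_sup_eq_mul K P,
    Cfsg.Agent.SylowNum.card_sylow_quotient_of_isPGroup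
      (((P : Subgroup G) ⊓ K).subgroupOf (((P : Subgroup G) ⊔ K) ⊓
        Subgroup.normalizer (((P : Subgroup G) ⊓ K : Subgroup G) : Set G)))
      ((P.isPGroup'.to_le inf_le_left).comap_of_injective _ (Subgroup.subtype_injective _)),
    mul_assoc]

end Cfsg.Agent.S4341
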