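import Cfsg.Statements.S4342
import Cfsg.Agent.Lib.Element

set_option autoImplicit false
open Cfsg

namespace Cfsg.Agent.S4342

/-- Let H be a normal subgroup of a finite group G and p a prime not dividing the index of H. Then the number of Sylow p-subgroups of H/Z(H) equals the number of Sylow p-subgroups of G. -/
theorem result {G : Type*} [Group G] [Finite G]
    (p : ℕ) [Fact p.Prime] (H : Subgroup G) [H.Normal] (hp : ¬ p ∣ H.index) :
    Nat.card (Sylow p (H ⧸ Subgroup.center H)) = Nat.card (Sylow p G) := by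
  have hH : ∀ P : Sylow p G, (P : Subgroup G) ≤ H := by
    intro P x hx
    obtain ⟨k, hk⟩ := Cfsg.Agent.Element.orderOf_eq_pow_of_mem_isPGroup P.isPGroup' hx
    rw [← QuotientGroup.eq_one_iff, ← orderOf_eq_one_iff]
    apply Nat.eq_one_of_dvd_coprimes (((Fact.out : p.Prime).coprime_iff_not_dvd.2 hp).pow_left k)
    · rw [← hk]; exact orderOf_map_dvd (QuotientGroup.mk' H) x
    · exact orderOf_dvd_natCard _
  have e1 : Nat.card (Sylow p G) = Nat.card (Sylow p H) := by
    apply Nat.card_eq_of_bijective (fun P : Sylow p G => P.subtype (hH P))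
    refine ⟨fun P Q h => Sylow.subtype_injective h, fun Q => ?_⟩
    obtain ⟨P, hP⟩ := Sylow.exists_comap_subtype_eq Q
    exact ⟨P, Sylow.ext hP⟩
  rw [e1]
  symm
  apply Nat.card_eq_of_bijective (Sylow.mapSurjective (QuotientGroup.mk'_surjective (Subgroup.center H)) (p := p))
  refine ⟨fun P Q h => ?_, Sylow.mapSurjective_surjective _ p⟩
  have h' := congrArg (Subgroup.comap (QuotientGroup.mk' (Subgroup.center H))) (congrArg Sylow.toSubgroup h)
  simp only [Sylow.coe_mapSurjective, Subgroup.comap_map_eq, QuotientGroup.ker_mk'] at h'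
  have hQn : (Q : Subgroup H) ≤ Subgroup.normalizer ((P : Subgroup H) : Set H) := by
    calc (Q : Subgroup H) ≤ (Q : Subgroup H) ⊔ Subgroup.center H := le_sup_left
      _ = (P : Subgroup H) ⊔ Subgroup.center H := h'.symm
      _ ≤ _ := sup_le Subgroup.le_normalizer (Subgroup.center_le_normalizer _)
  have h2 : (Q : Subgroup H) ⊓ Subgroup.normalizer (P : Set H) = Q := inf_eq_left.2 hQn
  rw [Q.isPGroup'.inf_normalizer_sylow] at h2
  exact Sylow.ext (Q.is_maximal' P.isPGroup' (inf_eq_left.1 h2))

end Cfsg.Agent.S4342
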