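import Cfsg.Statements.S4343
import Cfsg.Agent.SmallGroups.Basic

set_option autoImplicit false
open Cfsg

namespace Cfsg.Agent.S4343

/-- Let S be a finite non-abelian simple group and p a prime dividing its order. If S has fewer than p² Sylow p-subgroups, then its Sylow p-subgroups have order p. -/
theorem result {S : Type*} [Group S] [Finite S]
    [IsSimpleGroup S] (hS : ¬ IsMulCommutative S) (p : ℕ) [Fact p.Prime] (hp : p ∣ Nat.card S)
    (hn : Nat.card (Sylow p S) < p ^ 2) (P : Sylow p S) : Nat.card P = p := by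
  have hmem : ∀ (R : Sylow p S) (g y : S), y ∈ g • R ↔ g⁻¹ * y * g ∈ R := by
    intro R g y
    show y ∈ ((g • R : Sylow p S) : Subgroup S) ↔ _
    rw [Sylow.coe_subgroup_smul, Subgroup.mem_pointwise_smul_iff_inv_smul_mem, ← map_inv,
      MulAut.smul_def, MulAut.conj_apply, inv_inv]
    rfl
  -- a subgroup inside all Sylow subgroups is trivial
  have htriv : ∀ x : S, (∀ R : Sylow p S, x ∈ R) → x = 1 := by
    intro x hx
    set I : Subgroup S := ⨅ R : Sylow p S, (R : Subgroup S) with hI
    have hn' : I.Normal := ⟨fun y hy g => by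
      rw [hI, Subgroup.mem_iInf] at hy ⊢
      intro R
      have := (hmem R g⁻¹ y).1 (hy (g⁻¹ • R))
      show g * y * g⁻¹ ∈ R
      simpa using this⟩
    rcases Cfsg.Agent.SmallGroups.one_lt_card_sylow hS hp, hn'.eq_bot_or_eq_top with ⟨h1, h | h⟩
    · have hxI : x ∈ I := by rw [hI, Subgroup.mem_iInf]; exact hx
      exact Subgroup.mem_bot.1 (h ▸ hxI)
    · exfalso
      have hall : ∀ R : Sylow p S, (R : Subgroup S) = ⊤ := fun R =>
        top_le_iff.1 (h ▸ (iInf_le (fun R : Sylow p S => (R : Subgroup S)) R))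
      rw [Finite.one_lt_card_iff_nontrivial] at h1
      obtain ⟨R₁, R₂, hne⟩ := exists_pair_ne (Sylow p S)
      exact hne (Sylow.ext ((hall R₁).trans (hall R₂).symm))
  -- any two Sylow subgroups meet in index `p`
  have hidx : ∀ A B : Sylow p S, A ≠ B → (B : Subgroup S).relIndex A = p := by
    intro A B hAB
    have h1 := A.isPGroup'.card_orbit B
    obtain ⟨k, hk⟩ := h1
    have h2 : (MulAction.stabilizer (↥(A : Subgroup S)) B).index = p ^ k := by
      rw [MulAction.index_stabilizer, ← hk]; rfl
    have h3 : MulAction.stabilizer (↥(A : Subgroup S)) B = (B : Subgroup S).subgroupOf A := by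
      ext a
      rw [MulAction.mem_stabilizer_iff, Subgroup.mem_subgroupOf, Subgroup.smul_def,
        Sylow.smul_eq_iff_mem_normalizer]
      constructor
      · intro ha
        have : (a : S) ∈ (A : Subgroup S) ⊓ Subgroup.normalizer (B : Set S) := ⟨a.2, ha⟩
        rw [A.isPGroup'.inf_normalizer_sylow] at this
        exact this.2
      · exact fun ha => Subgroup.le_normalizer ha
    rw [h3] at h2
    change (B : Subgroup S).relIndex A = p ^ k at h2
    have hk0 : k ≠ 0 := by
      rintro rfl
      rw [pow_zero, Subgroup.relIndex_eq_one] at h2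
      exact hAB (Sylow.ext (A.is_maximal' B.isPGroup' h2).symm)
    have hk2 : p ^ k < p ^ 2 := by
      refine lt_of_le_of_lt ?_ hn
      rw [← hk]
      exact Nat.card_le_card_of_injective _ Subtype.val_injective
    have := (Nat.pow_lt_pow_iff_right (Fact.out : p.Prime).one_lt).1 hk2
    rw [h2, show k = 1 by omega, pow_one]
  have hcard : ∀ A B : Sylow p S, A ≠ B →
      Nat.card ↥((A : Subgroup S) ⊓ B) * p = Nat.card A := by
    intro A B hAB
    have h := ((B : Subgroup S).subgroupOf A).card_mul_index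
    rw [show ((B : Subgroup S).subgroupOf A).index = p from hidx A B hAB,
      ← Nat.card_congr (Subgroup.subgroupOfEquivOfLe (inf_le_left : (A : Subgroup S) ⊓ B ≤ A)).toEquiv] at *
    rwa [Subgroup.inf_subgroupOf_left]
  -- Sylow subgroups are commutative
  have hcomm : ∀ A : Sylow p S, ∀ x ∈ (A : Subgroup S), ∀ y ∈ (A : Subgroup S), x * y = y * x := by
    intro A x hx y hy
    have hc : x * y * x⁻¹ * y⁻¹ = 1 := by
      refine htriv _ fun B => ?_
      by_cases hAB : A = B
      · subst hAB
        exact mul_mem (mul_mem (mul_mem hx hy) (inv_mem hx)) (inv_mem hy)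
      set K := (B : Subgroup S).subgroupOf (A : Subgroup S) with hK
      have hKi : K.index = p := hidx A B hAB
      have hKn : K.Normal := by
        obtain ⟨k, hk⟩ := A.isPGroup'.exists_card_eq
        have hk0 : k ≠ 0 := by
          rintro rfl
          have := K.index_dvd_card
          rw [hKi, hk, pow_zero, Nat.dvd_one] at this
          exact (Fact.out : p.Prime).ne_one this
        refine Subgroup.normal_of_index_eq_minFac_card ?_
        rw [hKi, hk, Nat.pow_minFac hk0, (Fact.out : p.Prime).minFac_eq]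
      have hq : Nat.card (↥(A : Subgroup S) ⧸ K) = p := hKi
      have := isCyclic_of_prime_card hq
      have hc' := (IsCyclic.commGroup (α := ↥(A : Subgroup S) ⧸ K)).mul_comm
        ((⟨x, hx⟩ : ↥(A : Subgroup S))) ((⟨y, hy⟩ : ↥(A : Subgroup S)))
      have : (⟨x, hx⟩ * ⟨y, hy⟩ * ⟨x, hx⟩⁻¹ * ⟨y, hy⟩⁻¹ : ↥(A : Subgroup S)) ∈ K := by
        rw [← QuotientGroup.eq_one_iff]
        simp only [QuotientGroup.mk_mul, QuotientGroup.mk_inv]
        rw [hc']; group
      exact this
    calc x * y = (x * y * x⁻¹ * y⁻¹) * (y * x) := by group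
      _ = y * x := by rw [hc, one_mul]
  -- Brodkey
  obtain ⟨Q, hQ⟩ : ∃ Q, Q ≠ P := by
    have := Cfsg.Agent.SmallGroups.one_lt_card_sylow hS hp
    rw [Finite.one_lt_card_iff_nontrivial] at this
    exact exists_ne P
  set D := (P : Subgroup S) ⊓ Q with hD
  have hDbot : D = ⊥ := by
    refine (Subgroup.eq_bot_iff_forall _).2 fun d hd => htriv d fun R => ?_
    set C := Subgroup.centralizer (D : Set S) with hC
    have hPC : (P : Subgroup S) ≤ C := fun x hx => Subgroup.mem_centralizer_iff.2
      fun z hz => hcomm P z hz.1 x hx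
    have hQC : (Q : Subgroup S) ≤ C := fun x hx => Subgroup.mem_centralizer_iff.2
      fun z hz => hcomm Q z hz.2 x hx
    obtain ⟨T, hT⟩ := IsPGroup.exists_le_sylow
      (R.isPGroup'.comap_of_injective C.subtype C.subtype_injective)
    obtain ⟨c, hc⟩ := MulAction.exists_smul_eq C (P.subtype hPC) T
    have hcD : ∀ z ∈ D, (c : S)⁻¹ * z * c = z := fun z hz => by
      rw [mul_assoc, Subgroup.mem_centralizer_iff.1 c.2 z hz, inv_mul_cancel_left]
    have hRC : ∀ y ∈ (R : Subgroup S), y ∈ C → y ∈ (c : S) • P := by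
      intro y hyR hyC
      have : (⟨y, hyC⟩ : C) ∈ (T : Subgroup C) := hT hyR
      rw [← hc, Sylow.smul_subtype, Sylow.coe_subtype, Subgroup.mem_subgroupOf] at this
      exact this
    set Q' := (c : S) • Q with hQ'
    have hle : (R : Subgroup S) ⊓ Q' ≤ D := by
      rintro y ⟨hyR, hyQ⟩
      have hyQ' := (hmem Q c y).1 hyQ
      have hyC : y ∈ C := by
        have := C.mul_mem (C.mul_mem c.2 (hQC hyQ')) (C.inv_mem c.2)
        simpa [mul_assoc] using this
      have hyP := (hmem P c y).1 (hRC y hyR hyC)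
      have hz : (c : S)⁻¹ * y * c ∈ D := ⟨hyP, hyQ'⟩
      have := Subgroup.mem_centralizer_iff.1 c.2 _ hz
      have e : y = (c : S)⁻¹ * y * c := by
        calc y = (c : S) * ((c : S)⁻¹ * y * c) * (c : S)⁻¹ := by group
          _ = (c : S)⁻¹ * y * c * c * (c : S)⁻¹ := by rw [this]
          _ = (c : S)⁻¹ * y * c := by group
      rw [e]; exact hz
    by_cases hRQ : R = Q'
    · rw [hRQ]
      show d ∈ Q'
      rw [hQ', hmem, hcD d hd]
      exact hd.2
    · have h1 := hcard R Q' hRQ
      have h2 := hcard P Q (Ne.symm hQ)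
      rw [P.card_eq_multiplicity] at h2
      rw [R.card_eq_multiplicity] at h1
      have : (R : Subgroup S) ⊓ Q' = D := by
        apply Subgroup.eq_of_le_of_card_ge hle
        have := Nat.eq_of_mul_eq_mul_right (Fact.out : p.Prime).pos (h1.trans h2.symm)
        exact this.ge
      exact (this.ge hd).1
  have := hcard P Q (Ne.symm hQ)
  rw [← hD, hDbot, Subgroup.card_bot, one_mul] at this
  exact this.symm

end Cfsg.Agent.S4343
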