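import Cfsg.Statements.S4344
import Cfsg.Agent.SmallGroups.Basic
import Cfsg.Agent.OddLocal.Basic

set_option autoImplicit false
open Cfsg

namespace Cfsg.Agent.S4344

open scoped Pointwise

/-- Let S be a finite non-abelian simple group, M a maximal subgroup of S and C a cyclic normal subgroup of M. If a Sylow p-subgroup P of S (for a prime p dividing the order of S) is contained in C, then the number of Sylow p-subgroups of S equals the index of M. -/
theorem result {S : Type*} [Group S] [Finite S]
    [IsSimpleGroup S] (hS : ¬ IsMulCommutative S) (p : ℕ) [Fact p.Prime] (hp : p ∣ Nat.card S)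
    (M : Subgroup S) (hM : IsCoatom M) (C : Subgroup S) (hCM : C ≤ M) (hCn : (C.subgroupOf M).Normal)
    (hC : IsCyclic C) (P : Sylow p S) (hP : (P : Subgroup S) ≤ C) :
    Nat.card (Sylow p S) = M.index := by
  rw [Cfsg.Agent.SmallGroups.card_sylow_eq_index P]
  have hne : Subgroup.normalizer ((P : Subgroup S) : Set S) ≠ ⊤ := by
    intro h
    have hn : (P : Subgroup S).Normal := Subgroup.normalizer_eq_top_iff.1 h
    have h1 := Cfsg.Agent.SmallGroups.one_lt_card_sylow hS hp
    have := P.unique_of_normal hn
    rw [Finite.one_lt_card_iff_nontrivial] at h1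
    exact not_nontrivial (Sylow p S) h1
  have hle : M ≤ Subgroup.normalizer ((P : Subgroup S) : Set S) := by
    intro m hm
    refine Sylow.smul_eq_iff_mem_normalizer.1 ?_
    apply Sylow.ext
    rw [Sylow.coe_subgroup_smul]
    -- both are subgroups of the cyclic group `C` of the same order
    have hmC : MulAut.conj m • (P : Subgroup S) ≤ C := by
      intro y hy
      rw [Subgroup.mem_pointwise_smul_iff_inv_smul_mem, ← map_inv, MulAut.smul_def, MulAut.conj_apply,
        inv_inv] at hy
      have := hCn.conj_mem ⟨_, hCM (hP hy)⟩ (Subgroup.mem_subgroupOf.2 (hP hy)) ⟨m, hm⟩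
      rw [Subgroup.mem_subgroupOf] at this
      simpa [mul_assoc] using this
    exact Cfsg.Agent.OddLocal.eq_of_le_cyclic_of_card_eq hmC hP
      (Nat.card_congr (Subgroup.equivSMul _ _).toEquiv.symm)
  rcases hM.le_iff.1 hle with h | h
  · exact absurd h hne
  · rw [h]

end Cfsg.Agent.S4344
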