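import Cfsg.Statements.S4346
import Cfsg.Agent.SylowNum.Structure
import Cfsg.Agent.Coprime.Action

set_option autoImplicit false
open Cfsg

namespace Cfsg.Agent.S4346

universe u

open Cfsg.Agent.SylowNum Pointwise in
theorem aux (n : ℕ) : ∀ (G : Type u) [Group G] [Finite G], Nat.card G = n →
    Nat.card (Sylow 3 G) ≠ 22 := by
  induction n using Nat.strong_induction_on with
  | _ n ih =>
  intro G _ _ hn h22
  have : Fact (Nat.Prime 3) := ⟨by norm_num⟩
  obtain ⟨P⟩ : Nonempty (Sylow 3 G) := inferInstance
  by_cases hex : ∃ N : Subgroup G, N.Normal ∧ N ≠ ⊥ ∧ N ≠ ⊤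
  · obtain ⟨N, hN, hNbot, hNtop⟩ := hex
    have hlt : ∀ K : Subgroup G, K ≠ ⊤ → Nat.card K < n := fun K hK => by
      rw [← hn]
      exact lt_of_le_of_ne (Subgroup.card_le_card_group K) fun h => hK (Subgroup.card_eq_iff_eq_top K |>.1 h)
    have hltq : ∀ K : Subgroup G, [K.Normal] → K ≠ ⊥ → Nat.card (G ⧸ K) < n := by
      intro K _ hK
      rw [← hn, Subgroup.card_eq_card_quotient_mul_card_subgroup K]
      exact lt_mul_of_one_lt_right Nat.card_pos (Subgroup.one_lt_card_iff_ne_bot _ |>.2 hK)
    have hfac : ∀ x : ℕ, x ∣ 22 → x % 3 = 1 → x = 1 ∨ x = 22 := by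
      intro x hx hx3
      have h : x ∈ Nat.divisors 22 := Nat.mem_divisors.2 ⟨hx, by norm_num⟩
      rw [show Nat.divisors 22 = {1, 2, 11, 22} by decide] at h
      simp only [Finset.mem_insert, Finset.mem_singleton] at h
      omega
    have h1 := card_sylow_eq_mul_sup N P
    rw [card_sylow_sup_eq_mul N P, h22] at h1
    set L := (P : Subgroup G) ⊔ N with hL
    set A := (P : Subgroup G) ⊓ N with hA
    set W := L ⊓ Subgroup.normalizer (A : Set G) with hW
    have hq : Nat.card (Sylow 3 (G ⧸ N)) = 1 :=
      (hfac _ ⟨_, h1⟩ (card_sylow_modEq_one 3 (G ⧸ N))).resolve_right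
        (ih _ (hltq N hNbot) _ rfl)
    rw [hq, one_mul] at h1
    have hK : Nat.card (Sylow 3 N) = 1 :=
      (hfac _ ⟨_, h1⟩ (card_sylow_modEq_one 3 N)).resolve_right (ih _ (hlt N hNtop) _ rfl)
    rw [hK, one_mul] at h1
    have hWtop : W = ⊤ := by
      by_contra hne
      exact ih _ (hlt W hne) _ rfl h1.symm
    have hLtop : L = ⊤ := top_le_iff.1 (hWtop ▸ inf_le_left)
    have hAn : A.Normal := Subgroup.normalizer_eq_top_iff.1 (top_le_iff.1 (hWtop ▸ inf_le_right))
    have hAbot : A = ⊥ := by
      by_contra hne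
      refine ih _ (hltq A hne) _ rfl ?_
      rw [card_sylow_quotient_of_isPGroup A (P.isPGroup'.to_le inf_le_left), h22]
    have h3N : ¬ 3 ∣ Nat.card N := by
      have := Cfsg.Agent.LAE62.not_dvd_relIndex_sylow_inf_normal P N
      rwa [← hA, hAbot, Subgroup.relIndex_bot_left] at this
    set NP := Subgroup.normalizer ((P : Subgroup G) : Set G) with hNP
    have h22' : NP.relIndex N = 22 := by
      rw [relIndex_eq_of_factor (le_top : N ≤ ⊤) (fun j _ => ?_), Subgroup.relIndex_top_right,
        ← h22, P.card_eq_index_normalizer]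
      · rfl
      obtain ⟨k, hk, q, hq, rfl⟩ := Subgroup.mem_sup_of_normal_left.1
        (show j ∈ N ⊔ (P : Subgroup G) by rw [sup_comm, ← hL, hLtop]; exact Subgroup.mem_top _)
      exact ⟨k, hk, by rw [inv_mul_cancel_left]; exact Subgroup.le_normalizer hq⟩
    set C := N ⊓ NP with hC
    have hcent : (P : Subgroup G) ≤ Subgroup.centralizer (C : Set G) := by
      intro x hx
      rw [Subgroup.mem_centralizer_iff]
      intro c hc
      have hmem : c * x * c⁻¹ * x⁻¹ ∈ A := by
        refine ⟨Subgroup.mul_mem _ ((Subgroup.mem_normalizer_iff.1 hc.2 x).1 hx) (Subgroup.inv_mem _ hx), ?_⟩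
        show c * x * c⁻¹ * x⁻¹ ∈ N
        rw [mul_assoc c, mul_assoc c]
        exact mul_mem hc.1 (Subgroup.Normal.conj_mem hN _ (inv_mem hc.1) x)
      rw [hAbot, Subgroup.mem_bot, mul_inv_eq_one, mul_inv_eq_iff_eq_mul] at hmem
      exact hmem
    have : Fact (Nat.Prime 11) := ⟨by norm_num⟩
    obtain ⟨S⟩ : Nonempty (Sylow 11 C) := inferInstance
    set U := (S : Subgroup C).map C.subtype with hU
    have hUC : U ≤ C := Subgroup.map_subtype_le _
    have hPU : (P : Subgroup G) ≤ Subgroup.normalizer (U : Set G) :=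
      (hcent.trans (Subgroup.centralizer_le hUC)).trans (Subgroup.centralizer_le_normalizer _)
    have hcop : (Nat.card (P : Subgroup G)).Coprime (Nat.card N) := by
      obtain ⟨k, hk⟩ := P.isPGroup'.exists_card_eq
      rw [hk]
      exact Nat.Coprime.pow_left _ ((Nat.Prime.coprime_iff_not_dvd (by norm_num)).2 h3N)
    have hsol : Group.IsSolvable (P : Subgroup G) := by
      haveI := P.isPGroup'.isNilpotent
      infer_instance
    obtain ⟨V, hUV, hPV⟩ := Cfsg.Agent.Coprime.exists_invariant_sylow_ge (p := 11)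
      (A := (P : Subgroup G)) (K := N) (U := U)
      (le_top.trans (Subgroup.normalizer_eq_top_iff.2 hN).ge) hcop (Or.inl hsol)
      (hUC.trans inf_le_left) hPU (S.2.map _)
    set Vm := (V : Subgroup N).map N.subtype with hVm
    -- orders
    have hN22 : Nat.card N = 22 * Nat.card C := by
      have hi := Subgroup.index_mul_card (NP.subgroupOf N)
      rw [show (NP.subgroupOf N).index = 22 from h22'] at hi
      rw [← hi, hC, inf_comm, ← Subgroup.inf_subgroupOf_right,
        Nat.card_congr (Subgroup.subgroupOfEquivOfLe inf_le_right).toEquiv]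
    have hVc : Nat.card Vm = 11 * Nat.card U := by
      rw [hVm, hU, Nat.card_congr (Subgroup.equivMapOfInjective _ _ N.subtype_injective).symm.toEquiv,
        Nat.card_congr (Subgroup.equivMapOfInjective _ _ C.subtype_injective).symm.toEquiv,
        S.card_eq_multiplicity, V.card_eq_multiplicity, hN22,
        Nat.factorization_mul (by norm_num) Nat.card_pos.ne']
      simp only [Finsupp.coe_add, Pi.add_apply, pow_add]
      congr 1
      rw [show (22 : ℕ).factorization 11 = 1 by
        rw [show (22 : ℕ) = 2 * 11 by norm_num, Nat.factorization_mul (by norm_num) (by norm_num),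
          Finsupp.coe_add, Pi.add_apply, Nat.Prime.factorization_self (by norm_num),
          Nat.factorization_eq_zero_of_not_dvd (by norm_num)]]
      rfl
    have hint : Nat.card ↥(Vm ⊓ NP) = Nat.card U := by
      refine le_antisymm ?_ (Subgroup.card_le_of_le (le_inf hUV (hUC.trans inf_le_right)))
      obtain ⟨j, hj⟩ := ((V.2.map N.subtype).to_le (inf_le_left : Vm ⊓ NP ≤ Vm)).exists_card_eq
      rw [hj, hU, Nat.card_congr (Subgroup.equivMapOfInjective _ _ C.subtype_injective).symm.toEquiv,
        S.card_eq_multiplicity]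
      refine Nat.pow_le_pow_right (by norm_num) ?_
      rw [← Nat.Prime.pow_dvd_iff_le_factorization (by norm_num) Nat.card_pos.ne', ← hj]
      exact Subgroup.card_dvd_of_le (le_inf (inf_le_left.trans (Subgroup.map_subtype_le _)) inf_le_right)
    have h11 : NP.relIndex Vm = 11 := by
      have hi := Subgroup.index_mul_card (NP.subgroupOf Vm)
      rw [← Subgroup.inf_subgroupOf_right, Nat.card_congr (Subgroup.subgroupOfEquivOfLe
        (inf_le_right : NP ⊓ Vm ≤ Vm)).toEquiv, inf_comm, hint, hVc] at hi
      have := Nat.eq_of_mul_eq_mul_right Nat.card_pos hi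
      rw [← Subgroup.inf_relIndex_right, inf_comm]
      exact this
    have hM := card_sylow_eq_relIndex (L := Vm ⊔ (P : Subgroup G)) P le_sup_right
    rw [← hNP, ← relIndex_eq_of_factor (le_sup_left : Vm ≤ Vm ⊔ (P : Subgroup G)) (fun j hj => ?_),
      h11] at hM
    · have := card_sylow_modEq_one 3 ↥(Vm ⊔ (P : Subgroup G))
      rw [hM] at this
      exact absurd this (by decide)
    · obtain ⟨v, hv, q, hq, rfl⟩ : j ∈ (Vm : Set G) * ((P : Subgroup G) : Set G) := by
        rw [← Subgroup.coe_mul_of_right_le_normalizer_left _ _ hPV]; exact hj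
      exact ⟨v, hv, by rw [inv_mul_cancel_left]; exact Subgroup.le_normalizer hq⟩
  · push Not at hex
    have hnt : Nontrivial G := by
      by_contra h
      rw [not_nontrivial_iff_subsingleton] at h
      have : Subsingleton (Sylow 3 G) := ⟨fun a b => Sylow.ext (Subsingleton.elim _ _)⟩
      rw [Nat.card_of_subsingleton P] at h22
      norm_num at h22
    have : IsSimpleGroup G := ⟨fun N hN => (eq_or_ne N ⊥).imp id (hex N hN)⟩
    refine no_simple_twentytwo (fun hc => ?_) h22
    haveI : (P : Subgroup G).Normal := ⟨fun x hx g => by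
      rw [hc.is_comm.comm g x, mul_inv_cancel_right]; exact hx⟩
    have : Subsingleton (Sylow 3 G) := ⟨fun a b => by
      have := Sylow.unique_of_normal P inferInstance
      exact Subsingleton.elim a b⟩
    rw [Nat.card_of_subsingleton P] at h22
    norm_num at h22

/-- No finite group has exactly 22 Sylow 3-subgroups. -/
theorem result {G : Type*} [Group G] [Finite G] : Nat.card (Sylow 3 G) ≠ 22 := by
  exact aux _ G rfl

end Cfsg.Agent.S4346
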