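import Cfsg.Statements.S4354
import Cfsg.Agent.Lib.Element

set_option autoImplicit false
open Cfsg

namespace Cfsg.Agent.S4354


theorem exists_conj_mem_center {G : Type*} [Group G] [Finite G] {p : ℕ} [Fact p.Prime]
    (P : Sylow p G) {x : G} (hx : ∃ k : ℕ, orderOf x = p ^ k)
    (hidx : ¬ p ∣ (Subgroup.centralizer ({x} : Set G)).index) :
    ∃ g : G, g * x * g⁻¹ ∈ (P : Subgroup G) ∧
      ∀ y ∈ (P : Subgroup G), g * x * g⁻¹ * y = y * (g * x * g⁻¹) := by
  obtain ⟨k, hk⟩ := hx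
  set C := Subgroup.centralizer ({x} : Set G) with hC
  obtain ⟨R₀⟩ : Nonempty (Sylow p C) := inferInstance
  obtain ⟨R, hR⟩ := IsPGroup.exists_le_sylow (R₀.isPGroup'.map C.subtype)
  have hRC : (R : Subgroup G) = (R₀ : Subgroup C).map C.subtype := by
    symm
    refine Subgroup.eq_of_le_of_card_ge hR ?_
    rw [Subgroup.card_map_of_injective C.subtype_injective, R.card_eq_multiplicity,
      R₀.card_eq_multiplicity]
    apply le_of_eq
    rw [← C.card_mul_index, Nat.factorization_mul Nat.card_pos.ne' C.index_ne_zero_of_finite]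
    simp [Nat.factorization_eq_zero_of_not_dvd hidx]
  have hcomm : ∀ y ∈ (R : Subgroup G), x * y = y * x := by
    intro y hy
    rw [hRC, Subgroup.mem_map] at hy
    obtain ⟨⟨z, hz⟩, -, rfl⟩ := hy
    exact (Subgroup.mem_centralizer_iff.1 hz x rfl)
  have hxR : x ∈ (R : Subgroup G) := by
    have h1 : IsPGroup p (Subgroup.zpowers x) :=
      IsPGroup.of_card (n := k) (by rw [Nat.card_zpowers, hk])
    have hx' : x ∈ Subgroup.centralizer ((R : Subgroup G) : Set G) :=
      Subgroup.mem_centralizer_iff.2 fun y hy => (hcomm y hy).symm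
    have hle : Subgroup.zpowers x ≤ Subgroup.normalizer ((R : Subgroup G) : Set G) :=
      Subgroup.zpowers_le.2 (Subgroup.centralizer_le_normalizer _ hx')
    have h2 : IsPGroup p (Subgroup.zpowers x ⊔ R : Subgroup G) :=
      h1.to_sup_of_normal_right' R.isPGroup' hle
    have := R.is_maximal' h2 le_sup_right
    exact this ▸ (le_sup_left : _ ≤ Subgroup.zpowers x ⊔ R) (Subgroup.mem_zpowers x)
  obtain ⟨g, hg⟩ := MulAction.exists_smul_eq G R P
  refine ⟨g, ?_, ?_⟩
  · rw [← hg, Sylow.coe_subgroup_smul]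
    exact Subgroup.smul_mem_pointwise_smul _ (MulAut.conj g) _ hxR
  · intro y hy
    rw [← hg, Sylow.coe_subgroup_smul, Subgroup.mem_pointwise_smul_iff_inv_smul_mem,
      ← map_inv, MulAut.smul_def, MulAut.conj_apply] at hy
    have := hcomm _ hy
    calc g * x * g⁻¹ * y = g * (x * (g⁻¹ * y * g⁻¹⁻¹)) * g⁻¹ := by group
      _ = g * ((g⁻¹ * y * g⁻¹⁻¹) * x) * g⁻¹ := by rw [this]
      _ = y * (g * x * g⁻¹) := by group


/-- Let G be a finite group and p a prime such that the Sylow p-subgroups of G are non-abelian while every element of p-power order has conjugacy class size prime to p, and suppose no nontrivial proper normal subgroup N of G has this property and no quotient G/N by such an N has it. Then G is simple. -/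
theorem result {G : Type*} [Group G] [Finite G]
    (p : ℕ) [Fact p.Prime] (h : ((∃ P : Sylow p G, ¬ IsMulCommutative P) ∧ ∀ x : G, (∃ k : ℕ, orderOf x = p ^ k) → ¬ p ∣ (Subgroup.centralizer ({x} : Set G)).index))
    (hmin : ∀ (N : Subgroup G) [N.Normal], N ≠ ⊥ → N ≠ ⊤ →
      ¬ ((∃ P : Sylow p N, ¬ IsMulCommutative P) ∧ ∀ x : N, (∃ k : ℕ, orderOf x = p ^ k) → ¬ p ∣ (Subgroup.centralizer ({x} : Set N)).index) ∧
      ¬ ((∃ P : Sylow p (G ⧸ N), ¬ IsMulCommutative P) ∧ ∀ x : (G ⧸ N), (∃ k : ℕ, orderOf x = p ^ k) → ¬ p ∣ (Subgroup.centralizer ({x} : Set (G ⧸ N))).index)) :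
    IsSimpleGroup G := by
  obtain ⟨⟨P, hP⟩, hcl⟩ := h
  have hnt : Nontrivial G := by
    by_contra hn
    rw [not_nontrivial_iff_subsingleton] at hn
    exact hP ⟨⟨fun a b => Subsingleton.elim _ _⟩⟩
  refine ⟨fun N hN => ?_⟩
  by_contra hc
  rw [not_or] at hc
  have := hN
  obtain ⟨hA, hB⟩ := hmin N hc.1 hc.2
  have hNab : ∀ Q : Sylow p N, IsMulCommutative Q := by
    by_contra hQ
    push Not at hQ
    refine hA ⟨hQ, fun x hx hd => hcl x.1 (by simpa [Subgroup.orderOf_coe] using hx) (hd.trans ?_)⟩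
    have h1 : Subgroup.centralizer ({x} : Set N) =
        (Subgroup.centralizer ({(x : G)} : Set G)).subgroupOf N := by
      ext y
      simp [Subgroup.mem_subgroupOf, Subgroup.mem_centralizer_singleton_iff, Subtype.ext_iff]
    rw [h1]
    obtain ⟨t, ht⟩ := Subgroup.relIndex_dvd_index_of_normal N
      (Subgroup.centralizer ({(x : G)} : Set G))
    refine ⟨t, ?_⟩
    set C := Subgroup.centralizer ({(x : G)} : Set G) with hC
    show C.index = C.relIndex N * t
    have e1 := Subgroup.relIndex_mul_index (inf_le_right : C ⊓ N ≤ N)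
    have e2 := Subgroup.relIndex_mul_index (inf_le_left : C ⊓ N ≤ C)
    rw [Subgroup.inf_relIndex_right] at e1
    rw [Subgroup.inf_relIndex_left] at e2
    have h0 : N.relIndex C ≠ 0 := fun h => Subgroup.index_ne_zero_of_finite (H := C ⊓ N)
      (by rw [← e2, h, zero_mul])
    apply Nat.eq_of_mul_eq_mul_left (Nat.pos_of_ne_zero h0)
    rw [e2, ← e1, ht]; ring
  have hQab : ∀ Q : Sylow p (G ⧸ N), IsMulCommutative Q := by
    by_contra hQ
    push Not at hQ
    refine hB ⟨hQ, fun y hy hd => ?_⟩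
    obtain ⟨k, hk⟩ := hy
    obtain ⟨x, rfl, hx⟩ := Cfsg.Agent.Element.exists_pElement_preimage (Fact.out : p.Prime)
      (QuotientGroup.mk' N) (QuotientGroup.mk'_surjective N) hk
    refine hcl x hx (hd.trans ?_)
    refine (Subgroup.index_dvd_of_le ?_).trans
      (Subgroup.index_map_dvd (Subgroup.centralizer ({x} : Set G)) (QuotientGroup.mk'_surjective N))
    rintro - ⟨z, hz, rfl⟩
    rw [SetLike.mem_coe, Subgroup.mem_centralizer_singleton_iff] at hz
    rw [Subgroup.mem_centralizer_singleton_iff, ← map_mul, ← map_mul, hz]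
  set f := QuotientGroup.mk' N with hf
  -- P = Z(P) (P ∩ N)
  have key : ∀ x ∈ (P : Subgroup G), ∃ c ∈ (P : Subgroup G),
      (∀ y ∈ (P : Subgroup G), c * y = y * c) ∧ c⁻¹ * x ∈ N := by
    intro x hx
    obtain ⟨g, hg1, hg2⟩ := exists_conj_mem_center P
      (Cfsg.Agent.Element.orderOf_eq_pow_of_mem_isPGroup P.isPGroup' hx)
      (hcl x (Cfsg.Agent.Element.orderOf_eq_pow_of_mem_isPGroup P.isPGroup' hx))
    set P' := P.mapSurjective (QuotientGroup.mk'_surjective N) with hP'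
    have hP'c : (P' : Subgroup (G ⧸ N)) = (P : Subgroup G).map f := Sylow.coe_mapSurjective _ _
    have := hQab P'
    have hxm : f x ∈ (P' : Subgroup (G ⧸ N)) := hP'c ▸ Subgroup.mem_map_of_mem _ hx
    have hcm : f (g * x * g⁻¹) ∈ (P' : Subgroup (G ⧸ N)) := hP'c ▸ Subgroup.mem_map_of_mem _ hg1
    have hconj : (f g)⁻¹ * f (g * x * g⁻¹) * f g = f x := by
      rw [← map_inv, ← map_mul, ← map_mul]; congr 1; group
    obtain ⟨n, hn, hn'⟩ := P'.conj_eq_normalizer_conj_of_mem (f (g * x * g⁻¹)) (f g) hcm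
      (by rw [hconj]; exact hxm)
    rw [hconj] at hn'
    obtain ⟨n₀, rfl⟩ := QuotientGroup.mk'_surjective N n
    have hPH : ((n₀ • P : Sylow p G) : Subgroup G) ≤ (P : Subgroup G) ⊔ N := by
      intro y hy
      rw [Sylow.coe_subgroup_smul, Subgroup.mem_pointwise_smul_iff_inv_smul_mem,
        ← map_inv, MulAut.smul_def, MulAut.conj_apply, inv_inv] at hy
      have h1 : f (n₀⁻¹ * y * n₀) ∈ (P' : Subgroup (G ⧸ N)) :=
        hP'c ▸ Subgroup.mem_map_of_mem _ hy
      have h2 := (Subgroup.mem_normalizer_iff.1 hn _).1 h1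
      rw [← map_inv, ← map_mul, ← map_mul, hP'c,
        show n₀ * (n₀⁻¹ * y * n₀) * n₀⁻¹ = y by group] at h2
      have : Subgroup.comap f ((P : Subgroup G).map f) = (P : Subgroup G) ⊔ N := by
        rw [Subgroup.comap_map_eq, hf, QuotientGroup.ker_mk']
      rw [← this]; exact h2
    obtain ⟨⟨u, huH⟩, hu⟩ := MulAction.exists_smul_eq ↥((P : Subgroup G) ⊔ N)
      ((n₀ • P).subtype hPH) (P.subtype (le_sup_left : _ ≤ (P : Subgroup G) ⊔ N))
    rw [Sylow.smul_subtype] at hu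
    have hu' : u • (n₀ • P) = P := Sylow.subtype_injective hu
    obtain ⟨q, hq, m, hm, rfl⟩ := Subgroup.mem_sup_of_normal_right.1 huH
    have hnorm : (m * n₀) • P = P := by
      have e1 : q⁻¹ • P = P :=
        Sylow.smul_eq_iff_mem_normalizer.2 (Subgroup.le_normalizer (inv_mem hq))
      calc (m * n₀) • P = q⁻¹ • ((q * m) • (n₀ • P)) := by
            rw [smul_smul, smul_smul]; congr 1; group
        _ = P := by rw [hu', e1]
    have hnn := Sylow.smul_eq_iff_mem_normalizer.1 hnorm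
    set w := m * n₀ with hw
    have hfw : f w = f n₀ := by
      rw [hw, map_mul, hf, QuotientGroup.mk'_apply, (QuotientGroup.eq_one_iff m).2 hm, one_mul]
    have hin := Subgroup.mem_normalizer_iff.1 (inv_mem hnn)
    refine ⟨w⁻¹ * (g * x * g⁻¹) * w⁻¹⁻¹, (hin _).1 hg1, fun y hy => ?_, ?_⟩
    · have hy' := (Subgroup.mem_normalizer_iff.1 hnn y).1 hy
      calc _ = w⁻¹ * (g * x * g⁻¹ * (w * y * w⁻¹)) * w := by group
        _ = w⁻¹ * ((w * y * w⁻¹) * (g * x * g⁻¹)) * w := by rw [hg2 _ hy']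
        _ = _ := by group
    · rw [← QuotientGroup.eq_one_iff, ← QuotientGroup.mk'_apply, ← hf, map_mul, map_inv,
        inv_mul_eq_one, map_mul, map_mul, inv_inv, map_inv, hfw]
      exact hn'.symm
  obtain ⟨Q, hQ⟩ := IsPGroup.exists_le_sylow
    (P.isPGroup'.comap_of_injective N.subtype N.subtype_injective)
  have := hNab Q
  apply hP
  refine ⟨⟨fun a b => ?_⟩⟩
  obtain ⟨c, hc1, hc2, hc3⟩ := key a a.2
  obtain ⟨d, hd1, hd2, hd3⟩ := key b b.2
  have h1 : (⟨_, hc3⟩ : N) ∈ (Q : Subgroup N) := hQ (mul_mem (inv_mem hc1) a.2)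
  have h2 : (⟨_, hd3⟩ : N) ∈ (Q : Subgroup N) := hQ (mul_mem (inv_mem hd1) b.2)
  have hab' : c⁻¹ * (a : G) * (d⁻¹ * b) = d⁻¹ * b * (c⁻¹ * a) :=
    congrArg (fun z : Q => ((z : N) : G)) (mul_comm' (⟨_, h1⟩ : Q) ⟨_, h2⟩)
  apply Subtype.ext
  have e1 := hc2 _ (mul_mem (inv_mem hd1) b.2)
  have e2 := hd2 _ (mul_mem (inv_mem hc1) a.2)
  have e3 := hc2 _ hd1
  show (a : G) * b = b * a
  calc (a : G) * b = c * ((c⁻¹ * a) * d) * (d⁻¹ * b) := by group
    _ = c * (d * (c⁻¹ * a)) * (d⁻¹ * b) := by rw [e2]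
    _ = (c * d) * ((c⁻¹ * a) * (d⁻¹ * b)) := by group
    _ = (d * c) * ((d⁻¹ * b) * (c⁻¹ * a)) := by rw [e3, hab']
    _ = d * (c * (d⁻¹ * b)) * (c⁻¹ * a) := by group
    _ = d * ((d⁻¹ * b) * c) * (c⁻¹ * a) := by rw [e1]
    _ = (b : G) * a := by group

end Cfsg.Agent.S4354
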