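import Cfsg.Statements.S4359
import Cfsg.Agent.FGS79.Glauberman

set_option autoImplicit false
open Pointwise
open Cfsg

namespace Cfsg.Agent.S4359

/-- Let P be a subgroup of a finite group G and g an element such that P ∩ g⁻¹Pg is a normal subgroup of prime index p in g⁻¹Pg. Let n ≥ 1 and let K be the subgroup generated by P and its conjugates g⁻ⁱPgⁱ for i ≤ n. Suppose that g normalizes no non-identity normal subgroup of P and that P meets the center of K trivially. Then the order of P is pᵗ for some t with 1 ≤ t ≤ 3n and t ≠ 3n - 1. -/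
theorem result {G : Type*} [Group G] [Finite G]
    (P : Subgroup G) (g : G) (p : ℕ) (hp : p.Prime)
    (hN : ((P ⊓ MulAut.conj g⁻¹ • P).subgroupOf (MulAut.conj g⁻¹ • P)).Normal)
    (hidx : (P ⊓ MulAut.conj g⁻¹ • P).relIndex (MulAut.conj g⁻¹ • P) = p)
    (n : ℕ) (hn : 1 ≤ n) (K : Subgroup G) (hK : K = ⨆ i ∈ Finset.range (n + 1), MulAut.conj (g ^ i)⁻¹ • P)
    (h1 : ∀ Q : Subgroup G, Q ≤ P → (Q.subgroupOf P).Normal → MulAut.conj g • Q = Q → Q = ⊥)
    (h2 : P ⊓ (Subgroup.center K).map K.subtype = ⊥) :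
    ∃ t : ℕ, Nat.card P = p ^ t ∧ 1 ≤ t ∧ t ≤ 3 * n ∧ t ≠ 3 * n - 1 := by
  obtain ⟨x, t, ht, W, hP⟩ := FGS79.exists_window hp P (MulAut.conj g⁻¹) hN hidx (fun Q hQP hQn hQσ =>
    h1 Q hQP hQn (by
      conv_lhs => rw [← show MulAut.conj g⁻¹ • Q = Q from hQσ, smul_smul, ← map_mul]
      rw [mul_inv_cancel, map_one, one_smul]))
  have hpow : ∀ (i : ℕ), MulAut.conj (g ^ i)⁻¹ • P = FGS79.win x i (t + i) := by
    intro i
    rw [← inv_pow, map_pow, ← hP]
    show (FGS79.win x 0 t).map ((MulAut.conj g⁻¹) ^ i : MulAut G).toMonoidHom = _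
    rw [← zpow_natCast, FGS79.map_win_zpow x W.shift]
    simp
  have hKle : K ≤ FGS79.win x 0 (t + n) := by
    rw [hK]
    refine iSup₂_le fun i hi => ?_
    rw [Finset.mem_range] at hi
    rw [hpow]
    exact FGS79.win_mono x (by omega) (by omega)
  have hKge : ∀ j : ℤ, 0 ≤ j → j < t + n → x j ∈ K := by
    intro j hj hj'
    obtain ⟨i, hi, hi'⟩ : ∃ i : ℕ, i ≤ n ∧ (i : ℤ) ≤ j ∧ j < t + i :=
      ⟨j.toNat - (t - 1), by omega, by omega⟩
    have h : MulAut.conj (g ^ i)⁻¹ • P ≤ K := by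
      rw [hK]
      exact le_iSup₂_of_le i (by simp; omega) le_rfl
    rw [hpow] at h
    exact h (FGS79.mem_win x hi'.1 hi'.2)
  have hcent : ∀ z ∈ FGS79.win x 0 t, (∀ i : ℤ, 0 ≤ i → i < t + n → Commute z (x i)) → z = 1 := by
    intro z hz hzc
    rw [← Subgroup.mem_bot, ← h2]
    have hzK : z ∈ K := by
      refine FGS79.win_le x (fun i h3 h4 => hKge i h3 (by omega)) hz
    refine ⟨hP ▸ hz, ⟨z, hzK⟩, Subgroup.mem_center_iff.2 fun w => Subtype.ext ?_, rfl⟩
    exact (FGS79.commute_win x hzc (hKle w.2)).symm.eq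
  refine ⟨t, by rw [← hP, W.card 0 t (by omega) (by omega)]; simp, ht, ?_⟩
  rcases W.exists_dist with h | ⟨k, hk, hkt, hc, hnc⟩
  · have := W.le_of_abelian hn hcent h
    omega
  · have h3 := W.two_mul_k_le hk hkt hc hn hcent
    have h4 := W.two_mul_le hk hkt hc hnc
    omega

end Cfsg.Agent.S4359
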