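import Cfsg.Statements.S4364
import Cfsg.Agent.FGS75.Kazarin
import Cfsg.Agent.Cores.Basic
import Cfsg.Agent.Cores.Fitting

set_option autoImplicit false
open Cfsg

namespace Cfsg.Agent.S4364

/-- An element with a class of `p`-power size centralizes `O_q` for every prime `q ≠ p`. -/
theorem pCore_le_centralizer_of_index_pow {G : Type*} [Group G] [Finite G] {p q : ℕ}
    (hp : p.Prime) [hq : Fact q.Prime] (hqp : q ≠ p) {x : G} {a : ℕ}
    (hidx : (Subgroup.centralizer ({x} : Set G)).index = p ^ a) :
    Cfsg.pCore q G ≤ Subgroup.centralizer ({x} : Set G) := by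
  set C := Subgroup.centralizer ({x} : Set G) with hC
  obtain ⟨Q⟩ : Nonempty (Sylow q C) := inferInstance
  have hcard : Nat.card ((Q : Subgroup C).map C.subtype) = q ^ (Nat.card G).factorization q := by
    rw [Nat.card_congr ((Q : Subgroup C).equivMapOfInjective C.subtype
      C.subtype_injective).symm.toEquiv, Q.card_eq_multiplicity, ← C.card_mul_index, hidx,
      Nat.factorization_mul Nat.card_pos.ne' (pow_ne_zero _ hp.ne_zero), Finsupp.add_apply,
      hp.factorization_pow, Finsupp.single_eq_of_ne hqp, add_zero]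
  exact (Cores.pCore_le_sylow (Sylow.ofCard _ hcard)).trans (Subgroup.map_subtype_le _)

/-- With trivial `p`-core, the conjugates of an element of `p`-power class size commute. -/
theorem commute_conj_of_pCore_eq_bot {G : Type*} [Group G] [Finite G] {p : ℕ} (hp : p.Prime)
    (hO : Cfsg.pCore p G = ⊥) {x : G} {a : ℕ}
    (hidx : (Subgroup.centralizer ({x} : Set G)).index = p ^ a) (g h : G) :
    Commute (g * x * g⁻¹) (h * x * h⁻¹) := by
  set L := Subgroup.normalClosure ({x} : Set G) with hLdef
  have hsol : Group.IsSolvable L := FGS75.kazarin _ le_rfl x hp hidx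
  have hxF : Cfsg.fittingSubgroup G ≤ Subgroup.centralizer ({x} : Set G) := by
    rw [Cores.fittingSubgroup_eq_iSup_pCore]
    refine iSup_le fun q => ?_
    have : Fact (q : ℕ).Prime := ⟨q.2⟩
    by_cases hqp : (q : ℕ) = p
    · rw [hqp, hO]; exact bot_le
    · exact pCore_le_centralizer_of_index_pow hp hqp hidx
  have hLF : L ≤ Subgroup.centralizer (Cfsg.fittingSubgroup G : Set G) := by
    refine Subgroup.normalClosure_le_normal ?_
    rintro y rfl
    exact Subgroup.mem_centralizer_iff.mpr fun f hf =>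
      Subgroup.mem_centralizer_singleton_iff.mp (hxF hf)
  have hcent : ∀ u : L, ∀ f ∈ Cfsg.fittingSubgroup L, f * u = u * f := by
    intro u f hf
    have hfG : (f : G) ∈ Cfsg.fittingSubgroup G :=
      Cores.map_subtype_fittingSubgroup_le ⟨f, hf, rfl⟩
    exact Subtype.ext (Subgroup.mem_centralizer_iff.mp (hLF u.2) f hfG)
  have hmem : ∀ k : G, k * x * k⁻¹ ∈ L := fun k =>
    Subgroup.normalClosure_normal.conj_mem x (Subgroup.subset_normalClosure (Set.mem_singleton x)) k
  have hF : (⟨g * x * g⁻¹, hmem g⟩ : L) ∈ Cfsg.fittingSubgroup L :=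
    Cores.centralizer_fittingSubgroup_le (Subgroup.mem_centralizer_iff.mpr fun f hf => hcent _ f hf)
  exact congrArg Subtype.val (hcent ⟨h * x * h⁻¹, hmem h⟩ _ hF)

/-- Let G be a finite group, p a prime and x an element whose conjugacy class has p-power size. Then for any two conjugates y and z of x, the commutator y z y⁻¹ z⁻¹ lies in O_p(G), the largest normal p-subgroup of G. -/
theorem result {G : Type*} [Group G] [Finite G] (p : ℕ) [Fact p.Prime]
    (x : G) (hx : ∃ a : ℕ, (Subgroup.centralizer ({x} : Set G)).index = p ^ a) (g h : G) :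
    (g * x * g⁻¹) * (h * x * h⁻¹) * (g * x * g⁻¹)⁻¹ * (h * x * h⁻¹)⁻¹ ∈ Cfsg.pCore p G := by
  obtain ⟨a, ha⟩ := hx
  have hp : p.Prime := Fact.out
  set π := QuotientGroup.mk' (Cfsg.pCore p G) with hπ
  obtain ⟨b, -, hb⟩ := ((Nat.dvd_prime_pow hp (m := a)).mp
    (show (Subgroup.centralizer ({π x} : Set (G ⧸ Cfsg.pCore p G))).index ∣ p ^ a by
      rw [← ha]
      refine (Subgroup.index_dvd_of_le (H := (Subgroup.centralizer ({x} : Set G)).map π) ?_).trans
        (Subgroup.index_map_dvd _ (QuotientGroup.mk'_surjective _))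
      rintro _ ⟨c, hc, rfl⟩
      rw [Subgroup.mem_centralizer_singleton_iff, ← map_mul, ← map_mul]
      exact congrArg π (Subgroup.mem_centralizer_singleton_iff.mp hc)))
  have hc := commute_conj_of_pCore_eq_bot hp Cores.pCore_quotient_pCore_eq_bot hb (π g) (π h)
  rw [← QuotientGroup.eq_one_iff, ← QuotientGroup.mk'_apply, ← hπ]
  simp only [map_mul, map_inv]
  rw [hc.eq]
  group

end Cfsg.Agent.S4364
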