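import Cfsg.Statements.S4365


set_option autoImplicit false
open Cfsg

namespace Cfsg.Agent.S4365

open scoped IsMulCommutative

open Finset in
theorem pow_mul_conj {Q : Type*} [Group Q] (A : Subgroup Q) [A.Normal] [IsMulCommutative A]
    (a : A) (w : Q) (n : ℕ) :
    ((a : Q) * w) ^ n = ((∏ i ∈ range n, MulAut.conjNormal (w ^ i) a : A) : Q) * w ^ n := by
  induction n with
  | zero => simp
  | succ n ih =>
    rw [pow_succ, ih, prod_range_succ, Subgroup.coe_mul, MulAut.conjNormal_apply, pow_succ]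
    group

theorem prod_zmod {p : ℕ} [NeZero p] {M : Type*} [CommMonoid M] (f : ℕ → M) :
    ∏ i : ZMod p, f i.val = ∏ i ∈ Finset.range p, f i := by
  refine Finset.prod_nbij (fun i : ZMod p => i.val) (fun i _ => Finset.mem_range.2 i.val_lt)
    (fun i _ j _ h => ZMod.val_injective p h) (fun j hj => ?_) (fun _ _ => rfl)
  exact ⟨(j : ZMod p), Finset.mem_univ _, ZMod.val_natCast_of_lt (Finset.mem_range.1 hj)⟩

/-- An abelian normal subgroup of index at least `p²` outside of which all elements have order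
dividing `p` has exponent dividing `p`. -/
theorem pow_eq_one_of_forall {Q : Type*} [Group Q] [Finite Q] {p : ℕ} [hp : Fact p.Prime]
    (hQ : IsPGroup p Q) (A : Subgroup Q) [A.Normal] [IsMulCommutative A]
    (h : ∀ w, w ∉ A → w ^ p = 1) (h1 : A.index ≠ 1) (h2 : A.index ≠ p) (a : A) : a ^ p = 1 := by
  have hR : IsPGroup p (Q ⧸ A) := hQ.to_quotient A
  have : Nontrivial (Q ⧸ A) :=
    Finite.one_lt_card_iff_nontrivial.1 (lt_of_le_of_ne Nat.card_pos (fun e => h1 e.symm))
  obtain ⟨⟨X, hXc⟩, hX1⟩ := (nontrivial_iff_exists_ne (1 : Subgroup.center (Q ⧸ A))).1 hR.center_nontrivial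
  have hX : X ≠ 1 := fun e => hX1 (Subtype.ext e)
  have hord : ∀ r : Q ⧸ A, r ^ p = 1 := by
    intro r
    induction r using QuotientGroup.induction_on with | _ w => ?_
    by_cases hw : w ∈ A
    · rw [(QuotientGroup.eq_one_iff w).2 hw, one_pow]
    · rw [← QuotientGroup.mk_pow, h w hw, QuotientGroup.mk_one]
  obtain ⟨Y, hY⟩ : ∃ Y, Y ∉ Subgroup.zpowers X := by
    by_contra hh
    push Not at hh
    apply h2
    rw [Subgroup.index, ← Subgroup.card_top, ← (Subgroup.eq_top_iff' _).2 hh, Nat.card_zpowers,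
      orderOf_eq_prime (hord X) hX]
  have hXY : ∀ j : ℕ, X * Y ^ j ≠ 1 := by
    intro j e
    have hmem : X ∈ Subgroup.zpowers Y := by
      rw [eq_inv_of_mul_eq_one_left e]
      exact inv_mem (Subgroup.pow_mem _ (Subgroup.mem_zpowers Y) _)
    have hY1 : Y ≠ 1 := fun e' => hY (e' ▸ one_mem _)
    have : Subgroup.zpowers X = Subgroup.zpowers Y := by
      refine Subgroup.eq_of_le_of_card_ge (Subgroup.zpowers_le.2 hmem) ?_
      rw [Nat.card_zpowers, Nat.card_zpowers, orderOf_eq_prime (hord X) hX,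
        orderOf_eq_prime (hord Y) hY1]
    exact hY (this ▸ Subgroup.mem_zpowers Y)
  let ψ : Q ⧸ A →* MulAut A := QuotientGroup.lift A MulAut.conjNormal (by
    intro b hb
    rw [MonoidHom.mem_ker]
    refine MulEquiv.ext fun c => Subtype.ext ?_
    rw [MulAut.conjNormal_apply, MulAut.one_apply, mul_inv_eq_iff_eq_mul]
    exact congrArg Subtype.val (mul_comm (⟨b, hb⟩ : A) c))
  have hnorm : ∀ r : Q ⧸ A, r ≠ 1 → ∏ i : ZMod p, ψ (r ^ i.val) a = 1 := by
    intro r
    induction r using QuotientGroup.induction_on with | _ w => ?_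
    intro hw
    have hwA : w ∉ A := fun hh => hw ((QuotientGroup.eq_one_iff w).2 hh)
    rw [prod_zmod (p := p) fun i => ψ ((w : Q ⧸ A) ^ i) a]
    have h' := pow_mul_conj A a w p
    rw [h _ (fun hh => hwA ((A.mul_mem_cancel_left a.2).1 hh)), h w hwA, mul_one] at h'
    rw [← OneMemClass.coe_eq_one, h']
    rfl
  have hcm : ∀ j : ZMod p, ∀ i : ZMod p,
      (X * Y ^ j.val) ^ i.val = X ^ i.val * Y ^ (i * j).val := by
    intro j i
    rw [Commute.mul_pow ((Subgroup.mem_center_iff.1 hXc (Y ^ j.val)).symm), ← pow_mul, mul_comm,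
      ZMod.val_mul, ← pow_eq_pow_mod _ (hord Y)]
  have htot : ∏ i : ZMod p, ∏ j : ZMod p, ψ (X ^ i.val * Y ^ (i * j).val) a = 1 := by
    rw [Finset.prod_comm]
    refine Finset.prod_eq_one fun j _ => ?_
    rw [← hnorm _ (hXY j.val)]
    exact Finset.prod_congr rfl fun i _ => by rw [hcm]
  rw [Finset.prod_eq_single (0 : ZMod p) (fun i _ hi => ?_)
    (fun hh => absurd (Finset.mem_univ _) hh)] at htot
  · simpa [ZMod.val_zero, Finset.prod_const, Finset.card_univ, ZMod.card] using htot
  · refine (Equiv.prod_comp (Equiv.mulLeft₀ i hi) (fun k : ZMod p => ψ (X ^ i.val * Y ^ k.val) a)).trans ?_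
    simp only [map_mul, MulAut.mul_apply, ← map_prod]
    rw [hnorm Y (fun e' => hY (e' ▸ one_mem _)), map_one]

variable {P : Type*} [Group P] [Finite P] {p : ℕ}

theorem centralizer_eq_of_le {n : ℕ}
    (hn : ∀ x : P, x ∉ Subgroup.center P → (Subgroup.centralizer ({x} : Set P)).index = n)
    {x y : P} (hx : x ∉ Subgroup.center P) (hy : y ∉ Subgroup.center P)
    (h : Subgroup.centralizer ({x} : Set P) ≤ Subgroup.centralizer ({y} : Set P)) :
    Subgroup.centralizer ({x} : Set P) = Subgroup.centralizer ({y} : Set P) := by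
  refine Subgroup.eq_of_le_of_card_ge h (le_of_eq ?_)
  have h1 := (Subgroup.centralizer ({x} : Set P)).index_mul_card
  rw [← (Subgroup.centralizer ({y} : Set P)).index_mul_card, hn x hx, hn y hy] at h1
  exact (Nat.eq_of_mul_eq_mul_left (Nat.pos_of_ne_zero (hn x hx ▸ Subgroup.index_ne_zero_of_finite)) h1).symm

theorem centralizer_le_pow (x : P) (k : ℕ) :
    Subgroup.centralizer ({x} : Set P) ≤ Subgroup.centralizer ({x ^ k} : Set P) := by
  intro w hw
  rw [Subgroup.mem_centralizer_singleton_iff] at hw ⊢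
  exact (Commute.pow_right hw k).eq

/-- Let P be a finite p-group whose conjugacy class sizes are exactly 1 and pᵃ for some a ≥ 1. Then every element of P has its p-th power in the center of P (P/Z(P) has exponent p). -/
theorem result {P : Type*} [Group P] [Finite P] (p : ℕ) [Fact p.Prime]
    (hP : IsPGroup p P) (a : ℕ) (ha : 1 ≤ a)
    (hcs : {k : ℕ | ∃ x : P, (Subgroup.centralizer ({x} : Set P)).index = k} = {1, p ^ a}) (x : P) :
    x ^ p ∈ Subgroup.center P := by
  classical
  set Z := Subgroup.center P with hZ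
  let Cx : P → Subgroup P := fun x => Subgroup.centralizer ({x} : Set P)
  have hmem : ∀ {u v : P}, u ∈ Cx v ↔ Commute u v := Subgroup.mem_centralizer_singleton_iff
  have hn : ∀ x : P, x ∉ Z → (Cx x).index = p ^ a := by
    intro x hx
    have : (Cx x).index ∈ ({1, p ^ a} : Set ℕ) := hcs ▸ ⟨x, rfl⟩
    refine this.resolve_left fun h1 => hx (Subgroup.mem_center_iff.2 fun g => ?_)
    exact hmem.1 ((Subgroup.index_eq_one.1 h1).symm ▸ Subgroup.mem_top g)
  have heq : ∀ {x y : P}, x ∉ Z → y ∉ Z → Cx x ≤ Cx y → Cx x = Cx y :=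
    fun hx hy h => centralizer_eq_of_le hn hx hy h
  have hlow : ∀ {x : P}, x ^ p ∉ Z → x ∉ Z ∧ Cx x = Cx (x ^ p) := by
    intro x hx
    have hx1 : x ∉ Z := fun h => hx (Subgroup.pow_mem _ h p)
    exact ⟨hx1, heq hx1 hx (centralizer_le_pow x p)⟩
  -- a power of order `p` modulo the centre
  have hpow : ∀ x : P, x ^ p ∉ Z → ∃ k : ℕ, x ^ k ∉ Z ∧ (x ^ k) ^ p ∈ Z ∧ Cx x = Cx (x ^ k) := by
    intro x hx
    have hex : ∃ k, x ^ p ^ k ∈ Z := by
      obtain ⟨k, hk⟩ := hP x
      exact ⟨k, hk ▸ one_mem _⟩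
    have h0 : Nat.find hex ≠ 0 := by
      intro h0
      have := Nat.find_spec hex
      rw [h0, pow_zero, pow_one] at this
      exact (hlow hx).1 this
    obtain ⟨m, hm⟩ := Nat.exists_eq_add_one_of_ne_zero h0
    refine ⟨p ^ m, Nat.find_min hex (by omega), ?_, ?_⟩
    · rw [← pow_mul, ← pow_succ, ← hm]
      exact Nat.find_spec hex
    · exact heq (hlow hx).1 (Nat.find_min hex (by omega)) (centralizer_le_pow x _)
  -- centralisers of elements with non-central `p`-th power are abelian
  have hab : ∀ x : P, x ^ p ∉ Z → ∀ y ∈ Cx x, Cx x ≤ Cx y := by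
    intro x hx
    have base : ∀ y ∈ Cx x, y ^ p ∈ Z → Cx x ≤ Cx y := by
      intro y hy hyp
      have hcomm : Commute y x := hmem.1 hy
      have hnot : (y * x) ^ p ∉ Z := fun h => hx (by
        rw [hcomm.mul_pow] at h
        exact (Z.mul_mem_cancel_left hyp).1 h)
      have h1 : Cx (x ^ p) ≤ Cx ((y * x) ^ p) := by
        intro w hw
        rw [hcomm.mul_pow]
        exact hmem.2 (Commute.mul_right (Subgroup.mem_center_iff.1 hyp w) (hmem.1 hw))
      have h2 : Cx x = Cx (y * x) := ((hlow hx).2.trans (heq hx hnot h1)).trans (hlow hnot).2.symm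
      intro w hw
      have h3 : Commute w (y * x) := hmem.1 (h2 ▸ hw)
      have := h3.mul_right (hmem.1 hw).inv_right
      rwa [mul_inv_cancel_right, ← hmem] at this
    intro y hy
    by_cases hyp : y ^ p ∈ Z
    · exact base y hy hyp
    · obtain ⟨k, -, hk2, hk3⟩ := hpow y hyp
      rw [hk3]
      exact base _ (hmem.2 (Commute.pow_left (hmem.1 hy) k)) hk2
  have habc : ∀ x : P, x ^ p ∉ Z → ∀ y ∈ Cx x, ∀ w ∈ Cx x, Commute y w :=
    fun x hx y hy w hw => hmem.1 (hab x hx w hw hy)
  -- distinct such centralisers meet in the centre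
  have hint : ∀ x y : P, x ^ p ∉ Z → y ^ p ∉ Z → Cx x ≠ Cx y → ∀ w ∈ Cx x, w ∈ Cx y → w ∈ Z := by
    intro x y hx hy hne w hw hw'
    by_contra hwZ
    exact hne ((heq (hlow hx).1 hwZ (hab x hx w hw)).trans (heq (hlow hy).1 hwZ (hab y hy w hw')).symm)
  -- two of them cannot normalise each other unless equal
  have hnn : ∀ x y : P, x ^ p ∉ Z → y ^ p ∉ Z → (∀ w ∈ Cx y, ∀ v ∈ Cx x, w * v * w⁻¹ ∈ Cx x) →
      (∀ v ∈ Cx x, ∀ w ∈ Cx y, v * w * v⁻¹ ∈ Cx y) → Cx x = Cx y := by
    intro x y hx hy h1 h2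
    by_contra hne
    obtain ⟨k, hk1, hk2, hk3⟩ := hpow x hx
    have hxx : x ^ k ∈ Cx x := hmem.2 ((Commute.refl x).pow_left k)
    have hyy : y ∈ Cx y := hmem.2 (Commute.refl y)
    set u := x ^ k with hu
    set z := u * y * u⁻¹ * y⁻¹ with hz
    have hzZ : z ∈ Z := by
      refine hint x y hx hy hne _ ?_ ?_
      · rw [hz, mul_assoc u, mul_assoc u]
        exact mul_mem hxx (h1 y hyy _ (inv_mem hxx))
      · exact mul_mem (h2 u hxx y hyy) (inv_mem hyy)
    have hzc : ∀ g, Commute z g := fun g => (Subgroup.mem_center_iff.1 hzZ g).symm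
    have huy : u * y * u⁻¹ = z * y := by rw [hz, inv_mul_cancel_right]
    have hyu : y⁻¹ * u * y = z * u := by
      calc y⁻¹ * u * y = y⁻¹ * (u * y * u⁻¹) * u := by group
        _ = y⁻¹ * (z * y) * u := by rw [huy]
        _ = z * (y⁻¹ * y * u) := by
          rw [← mul_assoc y⁻¹, ← (hzc y⁻¹).eq]; group
        _ = z * u := by group
    have hzp : z ^ p = 1 := by
      have h3 : (y⁻¹ * u * y) ^ p = u ^ p := by
        calc (y⁻¹ * u * y) ^ p = y⁻¹ * u ^ p * y := by
              have h5 := conj_pow (a := y⁻¹) (b := u) (i := p)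
              rwa [inv_inv] at h5
          _ = u ^ p := by rw [mul_assoc, ← Subgroup.mem_center_iff.1 hk2 y, inv_mul_cancel_left]
      rw [hyu, (hzc u).mul_pow] at h3
      exact mul_eq_right.1 h3
    have huyp : Commute u (y ^ p) := by
      have : u * y ^ p * u⁻¹ = y ^ p := by rw [← conj_pow, huy, (hzc y).mul_pow, hzp, one_mul]
      exact mul_inv_eq_iff_eq_mul.1 this
    have h4 : y ^ p ∈ Cx u := hmem.2 huyp.symm
    rw [← hk3] at h4
    exact hy (hint x y hx hy hne _ h4 (hmem.2 ((Commute.refl y).pow_left p)))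
  by_contra hxp
  set A := Cx x with hA
  -- `A` is normal
  have hconjC : ∀ g y v : P, v ∈ Cx (g * y * g⁻¹) ↔ g⁻¹ * v * g ∈ Cx y := by
    intro g y v
    rw [hmem, hmem, Commute, SemiconjBy, Commute, SemiconjBy]
    constructor
    · intro h
      calc g⁻¹ * v * g * y = g⁻¹ * (v * (g * y * g⁻¹)) * g := by group
        _ = g⁻¹ * (g * y * g⁻¹ * v) * g := by rw [h]
        _ = _ := by group
    · intro h
      calc v * (g * y * g⁻¹) = g * (g⁻¹ * v * g * y) * g⁻¹ := by group
        _ = g * (y * (g⁻¹ * v * g)) * g⁻¹ := by rw [h]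
        _ = _ := by group
  have hnormal : ∀ y : P, y ^ p ∉ Z → (Cx y).Normal := by
    intro y hy
    haveI := hP.isNilpotent
    set N := Subgroup.normalizer ((Cx y : Subgroup P) : Set P) with hN
    have hself : Subgroup.normalizer (N : Set P) = N := by
      refine le_antisymm (fun g hg => ?_) Subgroup.le_normalizer
      rw [Subgroup.mem_normalizer_iff]
      have hy' : (g * y * g⁻¹) ^ p ∉ Z := by
        rw [conj_pow]
        intro h
        have := Subgroup.Normal.conj_mem (inferInstance : Z.Normal) _ h g⁻¹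
        apply hy
        simpa [mul_assoc] using this
      have hleN : ∀ w ∈ Cx (g * y * g⁻¹), w ∈ N := by
        intro w hw
        have := (Subgroup.mem_normalizer_iff.1 hg _).1
          (Subgroup.le_normalizer ((hconjC g y w).1 hw) : g⁻¹ * w * g ∈ N)
        simpa [mul_assoc] using this
      have he := hnn y (g * y * g⁻¹) hy hy'
        (fun w hw v hv => (Subgroup.mem_normalizer_iff.1 (hleN w hw) v).1 hv)
        (fun v hv w hw => by
          rw [hconjC] at hw ⊢
          have hv' : g⁻¹ * v * g ∈ N := (Subgroup.mem_normalizer_iff.1 hg _).2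
            (by simpa [mul_assoc] using (Subgroup.le_normalizer hv : v ∈ N))
          have := (Subgroup.mem_normalizer_iff.1 hv' _).1 hw
          simpa [mul_assoc] using this)
      intro v
      conv_rhs => rw [he]
      rw [hconjC]
      simp [mul_assoc]
    exact Subgroup.normalizer_eq_top_iff.1
      (normalizerCondition_iff_only_full_group_self_normalizing.1
        (Group.normalizerCondition_of_isNilpotent (G := P)) _ hself)
  have hAn : A.Normal := hnormal x hxp
  have hout : ∀ w : P, w ∉ A → w ^ p ∈ Z := by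
    intro w hw
    by_contra hwp
    have := hnormal w hwp
    exact hw ((hnn x w hxp hwp (fun v _ u hu => hAn.conj_mem u hu v)
      (fun v _ u hu => this.conj_mem u hu v)).symm ▸ hmem.2 (Commute.refl w) : w ∈ Cx x)
  have hAi : A.index = p ^ a := hn x (hlow hxp).1
  have hAZ : Z ≤ A := fun w hw => hmem.2 (Subgroup.mem_center_iff.1 hw x).symm
  by_cases hidx : A.index = p
  · -- index `p`: the centre has index `p` in `A`
    obtain ⟨w, hw⟩ : ∃ w, w ∉ A := by
      by_contra hh
      push Not at hh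
      rw [(Subgroup.eq_top_iff' A).2 hh, Subgroup.index_top] at hidx
      exact (Fact.out : p.Prime).ne_one hidx.symm
    have hwZ : w ∉ Z := fun h => hw (hAZ h)
    have hmeet : A ⊓ Cx w ≤ Z := by
      rintro v ⟨hv, hv'⟩
      by_contra hvZ
      apply hw
      show w ∈ Cx x
      rw [heq (hlow hxp).1 hvZ (hab x hxp v hv)]
      exact hmem.2 (hmem.1 hv').symm
    have h1 : Nat.card (Cx w) ≤ Nat.card Z * p := by
      have hi := Subgroup.index_mul_card (A.subgroupOf (Cx w))
      rw [← Subgroup.inf_subgroupOf_right, Nat.card_congr (Subgroup.subgroupOfEquivOfLe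
        (inf_le_right : A ⊓ Cx w ≤ Cx w)).toEquiv] at hi
      rw [← hi, mul_comm]
      refine Nat.mul_le_mul (Subgroup.card_le_of_le hmeet) ?_
      rw [Subgroup.inf_subgroupOf_right]
      refine Nat.le_of_dvd (Fact.out : p.Prime).pos ?_
      exact hidx ▸ (A.relIndex_dvd_index_of_normal (Cx w))
    have h2 : Nat.card (Cx w) = Nat.card A := by
      have ha1 := (Cx w).index_mul_card
      rw [← A.index_mul_card, hn w hwZ, hAi] at ha1
      exact Nat.eq_of_mul_eq_mul_left (pow_pos (Fact.out : p.Prime).pos a) ha1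
    have h3 : Z.relIndex A ≤ p := by
      have hi := Subgroup.index_mul_card (Z.subgroupOf A)
      rw [Nat.card_congr (Subgroup.subgroupOfEquivOfLe hAZ).toEquiv, ← h2] at hi
      exact Nat.le_of_mul_le_mul_right (hi.le.trans (h1.trans_eq (mul_comm _ _))) Nat.card_pos
    have hxA : x ∈ A := hmem.2 (Commute.refl x)
    have h4 : orderOf ((⟨x, hxA⟩ : A) : A ⧸ Z.subgroupOf A) ≤ p :=
      (orderOf_le_card).trans h3
    obtain ⟨j, hj⟩ := (hP.to_subgroup A).to_quotient (Z.subgroupOf A) ((⟨x, hxA⟩ : A) : A ⧸ Z.subgroupOf A)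
    obtain ⟨i, -, hi⟩ := (Nat.dvd_prime_pow Fact.out).1 (orderOf_dvd_of_pow_eq_one hj)
    rw [hi] at h4
    have hi1 : i ≤ 1 := (Nat.pow_le_pow_iff_right (Fact.out : p.Prime).one_lt).1 (h4.trans_eq (pow_one p).symm)
    have hd : orderOf ((⟨x, hxA⟩ : A) : A ⧸ Z.subgroupOf A) ∣ p := by
      rw [hi]; exact (pow_dvd_pow p hi1).trans (pow_one p).dvd
    have h5 := orderOf_dvd_iff_pow_eq_one.1 hd
    rw [← QuotientGroup.mk_pow, QuotientGroup.eq_one_iff, Subgroup.mem_subgroupOf] at h5
    exact hxp h5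
  · -- index at least `p²`
    set π := QuotientGroup.mk' Z with hπ
    haveI : (A.map π).Normal := hAn.map π (QuotientGroup.mk'_surjective Z)
    haveI : IsMulCommutative (A.map π) := ⟨⟨fun u v => by
      obtain ⟨_, u, hu, rfl⟩ := u
      obtain ⟨_, v, hv, rfl⟩ := v
      exact Subtype.ext ((habc x hxp u hu v hv).map π)⟩⟩
    have hcm : (A.map π).comap π = A := by
      rw [Subgroup.comap_map_eq, QuotientGroup.ker_mk', sup_eq_left.2 hAZ]
    have hi : (A.map π).index = A.index := by
      conv_rhs => rw [← hcm]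
      rw [Subgroup.index_comap_of_surjective _ (QuotientGroup.mk'_surjective Z)]
    have h := pow_eq_one_of_forall (hP.to_quotient Z) (A.map π) ?_
      (hi ▸ hAi ▸ (Nat.one_lt_pow (by omega) (Fact.out : p.Prime).one_lt).ne')
      (hi ▸ hidx) ⟨π x, x, hmem.2 (Commute.refl x), rfl⟩
    · apply hxp
      have h' := congrArg Subtype.val h
      rw [SubgroupClass.coe_pow, OneMemClass.coe_one, ← map_pow] at h'
      exact (QuotientGroup.eq_one_iff _).1 h'
    · intro r hr
      obtain ⟨w, rfl⟩ := QuotientGroup.mk'_surjective Z r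
      rw [← map_pow]
      exact (QuotientGroup.eq_one_iff _).2 (hout w fun h => hr ⟨w, h, rfl⟩)

end Cfsg.Agent.S4365
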