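import Cfsg.Statements.S4370
import Cfsg.Agent.S0016
import Cfsg.Agent.S0218
import Cfsg.Agent.Char.Nilpotent

set_option autoImplicit false
open Cfsg

namespace Cfsg.Agent.S4370

universe u

/-- A nilpotent group with commutative Sylow subgroups is commutative. -/
theorem comm_of_sylow {G : Type u} [Group G] [Finite G] [Group.IsNilpotent G]
    (h : ∀ (p : ℕ) [Fact p.Prime] (P : Sylow p G), ∀ a b : (P : Subgroup G), a * b = b * a)
    (a b : G) : a * b = b * a := by
  have hn : ∀ {q : ℕ} [Fact q.Prime] (P : Sylow q G), (P : Subgroup G).Normal := fun P =>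
    inferInstance
  let e := Sylow.directProductOfNormal (G := G) hn
  apply e.symm.injective
  rw [map_mul, map_mul]
  refine funext fun q => funext fun P => ?_
  haveI : Fact q.1.Prime := ⟨Nat.prime_of_mem_primeFactors q.2⟩
  exact h q.1 P _ _

/-- The centre of a quaternion group has exponent two. -/
theorem sq_eq_one_of_central {m : ℕ} (hm : 2 ≤ m) (g : QuaternionGroup m)
    (hg : ∀ h, g * h = h * g) : g * g = 1 := by
  rcases g with i | i
  · have e := hg (QuaternionGroup.xa 0)
    simp only [QuaternionGroup.a_mul_xa, QuaternionGroup.xa_mul_a, QuaternionGroup.xa.injEq] at e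
    rw [QuaternionGroup.a_mul_a, QuaternionGroup.one_def]
    congr 1
    linear_combination -e
  · exfalso
    have e := hg (QuaternionGroup.a 1)
    simp only [QuaternionGroup.a_mul_xa, QuaternionGroup.xa_mul_a, QuaternionGroup.xa.injEq] at e
    have h2 : ((2 : ℕ) : ZMod (2 * m)) = 0 := by push_cast; linear_combination e
    rw [ZMod.natCast_eq_zero_iff] at h2
    have := Nat.le_of_dvd two_pos h2
    omega

/-- The non-commutative part: a `p`-group with cyclic centralizers of non-central elements. -/
theorem quaternion_of_cyclic_centralizers {P : Type u} [Group P] [Finite P] {p : ℕ} [Fact p.Prime]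
    (hP : IsPGroup p P) (hna : ∃ a b : P, a * b ≠ b * a)
    (hc : ∀ x : P, x ∉ Subgroup.center P → IsCyclic (Subgroup.centralizer ({x} : Set P))) :
    p = 2 ∧ ∃ k : ℕ, 1 ≤ k ∧ Nonempty (P ≃* QuaternionGroup (2 ^ k)) := by
  obtain ⟨a, b, hab⟩ := hna
  have ha : a ∉ Subgroup.center P := fun h => hab (Subgroup.mem_center_iff.1 h b).symm
  haveI : Nontrivial P := ⟨⟨a, 1, fun e => ha (e ▸ one_mem _)⟩⟩
  haveI := hP.center_nontrivial
  obtain ⟨k, hk⟩ := (hP.to_subgroup (Subgroup.center P)).exists_card_eq
  obtain ⟨⟨z, hz⟩, hzo⟩ := exists_prime_orderOf_dvd_card' (G := Subgroup.center P) p (by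
    have h1 : 1 < Nat.card (Subgroup.center P) := Finite.one_lt_card
    rw [hk] at h1 ⊢
    rcases k with _ | k
    · simp at h1
    · exact dvd_pow_self p (Nat.succ_ne_zero k))
  rw [Subgroup.orderOf_mk] at hzo
  have uniq : ∀ x : P, IsCyclic (Subgroup.centralizer ({x} : Set P)) →
      ∀ H K : Subgroup P, H ≤ Subgroup.centralizer ({x} : Set P) →
        K ≤ Subgroup.centralizer ({x} : Set P) → Nat.card H = p → Nat.card K = p → H = K := by
    intro x hx H K hH hK h1 h2
    set C := Subgroup.centralizer ({x} : Set P)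
    have key : ∀ L M : Subgroup C, Nat.card L = p → Nat.card M = p → L = M := by
      intro L M hL hM
      letI := hx.commGroup
      obtain ⟨g, hg⟩ := IsCyclic.exists_generator (α := (powMonoidHom p : C →* C).ker)
      have hcardK : Nat.card (powMonoidHom p : C →* C).ker ≤ p := by
        rw [← orderOf_eq_card_of_forall_mem_zpowers hg]
        exact orderOf_le_of_pow_eq_one (Fact.out : p.Prime).pos (Subtype.ext g.2)
      have hle : ∀ N : Subgroup C, Nat.card N = p → N = (powMonoidHom p : C →* C).ker := fun N hN =>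
        Subgroup.eq_of_le_of_card_ge (fun y hy => congrArg Subtype.val (show (⟨y, hy⟩ : N) ^ p = 1 by
          rw [← hN]; exact pow_card_eq_one')) (hcardK.trans hN.ge)
      exact (hle L hL).trans (hle M hM).symm
    have := key (H.subgroupOf C) (K.subgroupOf C)
      (by rw [Nat.card_congr (Subgroup.subgroupOfEquivOfLe hH).toEquiv, h1])
      (by rw [Nat.card_congr (Subgroup.subgroupOfEquivOfLe hK).toEquiv, h2])
    rw [Subgroup.subgroupOf_inj, inf_of_le_left hH, inf_of_le_left hK] at this
    exact this
  have hcen : ∀ e : P, orderOf e = p → e ∈ Subgroup.center P := by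
    intro e he
    by_contra hne
    have h := uniq e (hc e hne) (Subgroup.zpowers e) (Subgroup.zpowers z)
      (Subgroup.zpowers_le.2 (Subgroup.mem_centralizer_singleton_iff.2 rfl))
      (Subgroup.zpowers_le.2 (Subgroup.mem_centralizer_singleton_iff.2
        (Subgroup.mem_center_iff.1 hz e).symm))
      (by rw [Nat.card_zpowers, he]) (by rw [Nat.card_zpowers, hzo])
    exact hne (Subgroup.zpowers_le.2 hz (h ▸ Subgroup.mem_zpowers e))
  have hsub : ∀ H : Subgroup P, Nat.card H = p → H ≤ Subgroup.centralizer ({a} : Set P) := by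
    intro H hH y hy
    rcases eq_or_ne y 1 with rfl | hy1
    · exact one_mem _
    · refine Subgroup.mem_centralizer_singleton_iff.2 (Subgroup.mem_center_iff.1 (hcen y ?_) a).symm
      refine orderOf_eq_prime ?_ hy1
      have := pow_card_eq_one' (x := (⟨y, hy⟩ : H))
      rw [hH] at this
      exact congrArg Subtype.val this
  rcases Cfsg.Agent.S0016.result p hP
    (fun H K h1 h2 => uniq a (hc a ha) H K (hsub H h1) (hsub K h2) h1 h2) with h | ⟨hp, n, ⟨e⟩⟩
  · haveI := h
    exact absurd (IsMulCommutative.is_comm.comm a b) hab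
  · refine ⟨hp, n, ?_, ⟨e⟩⟩
    by_contra hn
    haveI : Fact (Nat.Prime 2) := ⟨Nat.prime_two⟩
    have hcard : Nat.card P = 2 ^ 2 := by
      rw [Nat.card_congr e.toEquiv, Nat.card_eq_fintype_card, QuaternionGroup.card,
        show n = 0 by omega]
      norm_num
    exact hab (IsPGroup.commutative_of_card_eq_prime_sq hcard a b)

/-- Let G be a finite non-abelian nilpotent group. Then the centralizer of every non-central element of G is cyclic if and only if G is isomorphic to the direct product of a generalized quaternion group and a cyclic group of odd order. -/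
theorem result {G : Type*} [Group G] [Finite G] (hG : Group.IsNilpotent G)
    (hna : ¬ IsMulCommutative G) :
    (∀ x : G, x ∉ Subgroup.center G → IsCyclic (Subgroup.centralizer ({x} : Set G))) ↔
      ∃ (k m : ℕ), 1 ≤ k ∧ Odd m ∧ Nonempty (G ≃* QuaternionGroup (2 ^ k) × Multiplicative (ZMod m)) := by
  classical
  haveI := hG
  haveI : Fact (Nat.Prime 2) := ⟨Nat.prime_two⟩
  constructor
  · intro hc
    obtain ⟨p, hp, A₀, hA₀⟩ : ∃ (p : ℕ) (_ : Fact p.Prime) (P : Sylow p G),
        ∃ a b : (P : Subgroup G), a * b ≠ b * a := by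
      by_contra hall
      push Not at hall
      exact hna ⟨⟨comm_of_sylow fun p hp P a b => hall p hp P a b⟩⟩
    have key : ∀ P : Sylow p G, (∃ a b : (P : Subgroup G), a * b ≠ b * a) →
        p = 2 ∧ ∃ k : ℕ, 1 ≤ k ∧ Nonempty ((P : Subgroup G) ≃* QuaternionGroup (2 ^ k)) := by
      intro P hP
      refine quaternion_of_cyclic_centralizers P.isPGroup' hP fun x hx => ?_
      haveI := hc (x : G) fun h => hx (Subgroup.mem_center_iff.2 fun y =>
        Subtype.ext (Subgroup.mem_center_iff.1 h (y : G)))
      exact isCyclic_of_injective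
        (((P : Subgroup G).subtype.comp (Subgroup.centralizer ({x} : Set (P : Subgroup G))).subtype).codRestrict
          (Subgroup.centralizer ({(x : G)} : Set G)) fun y => Subgroup.mem_centralizer_singleton_iff.2
            (congrArg Subtype.val (Subgroup.mem_centralizer_singleton_iff.1 y.2)))
        fun y z e => Subtype.ext (Subtype.ext (congrArg Subtype.val e :))
    obtain ⟨rfl, -⟩ := key A₀ hA₀
    obtain ⟨A, B, hB, hcard⟩ := Cfsg.Agent.Char.exists_pRegular_subgroup (E := G) 2
    have hAn : ∃ a b : (A : Subgroup G), a * b ≠ b * a := by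
      obtain ⟨a, b, hab⟩ := hA₀
      refine ⟨(Sylow.equiv A₀ A) a, (Sylow.equiv A₀ A) b, fun e => hab ?_⟩
      exact (Sylow.equiv A₀ A).injective (by rw [map_mul, map_mul, e])
    obtain ⟨-, k, hk, ⟨e⟩⟩ := key A hAn
    have hcomm : ∀ (a : (A : Subgroup G)) (b : B), Commute (a : G) (b : G) := by
      intro a b
      refine Cfsg.Agent.Char.nilpotent_commute_of_coprime ?_
      obtain ⟨i, hi⟩ := IsPGroup.iff_orderOf.1 A.isPGroup' a
      rw [Subgroup.orderOf_coe, hi]
      exact Nat.Coprime.pow_left i (Nat.prime_two.coprime_iff_not_dvd.2 ((hB b).1 b.2))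
    let f := MonoidHom.noncommCoprod (A : Subgroup G).subtype B.subtype hcomm
    have hf : Function.Injective f := by
      rw [← MonoidHom.ker_eq_bot_iff, Subgroup.eq_bot_iff_forall]
      rintro ⟨a, b⟩ hab
      have hab' : (a : G) * b = 1 := hab
      have hbA : (b : G) ∈ (A : Subgroup G) := by
        rw [eq_inv_of_mul_eq_one_right hab']; exact inv_mem a.2
      obtain ⟨i, hi⟩ := IsPGroup.iff_orderOf.1 A.isPGroup' ⟨b, hbA⟩
      rw [Subgroup.orderOf_mk] at hi
      have hi0 : i = 0 := by
        by_contra h0
        exact (hB b).1 b.2 (hi ▸ dvd_pow_self 2 h0)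
      rw [hi0, pow_zero, orderOf_eq_one_iff] at hi
      rw [hi, mul_one] at hab'
      exact Prod.ext (Subtype.ext hab') (Subtype.ext hi)
    have hbij : Function.Bijective f := hf.bijective_of_nat_card_le (by rw [Nat.card_prod, hcard])
    obtain ⟨a, b, hab⟩ := hAn
    haveI := hc (a : G) fun h => hab (Subtype.ext (Subgroup.mem_center_iff.1 h (b : G)).symm)
    haveI : IsCyclic B := isCyclic_of_injective
      (B.subtype.codRestrict (Subgroup.centralizer ({(a : G)} : Set G)) fun y =>
        Subgroup.mem_centralizer_singleton_iff.2 (hcomm a y).symm.eq)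
      fun y z e => Subtype.ext (congrArg Subtype.val e :)
    refine ⟨k, Nat.card B, hk, ?_, ⟨(MulEquiv.ofBijective f hbij).symm.trans (MulEquiv.prodCongr e
      (mulEquivOfCyclicCardEq (by rw [Nat.card_congr Multiplicative.toAdd, Nat.card_zmod])))⟩⟩
    rw [← Nat.not_even_iff_odd, even_iff_two_dvd]
    intro h2
    obtain ⟨y, hy⟩ := exists_prime_orderOf_dvd_card' (G := B) 2 h2
    exact (hB y).1 y.2 (by rw [Subgroup.orderOf_coe, hy])
  · rintro ⟨k, m, hk, hm, ⟨e⟩⟩ x hx
    haveI : NeZero m := ⟨by rintro rfl; exact (by simpa using hm : False)⟩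
    obtain ⟨k', rfl⟩ : ∃ k', k = k' + 1 := ⟨k - 1, by omega⟩
    set q := (e x).1 with hq
    have hqz : q ∉ Subgroup.center (QuaternionGroup (2 ^ (k' + 1))) := fun h => hx (by
      rw [Subgroup.mem_center_iff]
      intro g
      apply e.injective
      rw [map_mul, map_mul]
      exact Prod.ext (Subgroup.mem_center_iff.1 h _) (mul_comm _ _))
    have huniq := (Nat.card_eq_one_iff_unique.1 (Cfsg.Agent.S0218.result k')).1
    set C := Subgroup.centralizer ({q} : Set (QuaternionGroup (2 ^ (k' + 1)))) with hC
    have hp2 : IsPGroup 2 (QuaternionGroup (2 ^ (k' + 1))) := IsPGroup.of_card (n := k' + 3) (by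
      rw [Nat.card_eq_fintype_card, QuaternionGroup.card]; ring)
    haveI hCc : IsCyclic C := by
      rcases Cfsg.Agent.TwoGroups.cyclic_or_quaternion_of_unique_involution (hp2.to_subgroup C)
        (fun y z hy hz => Subtype.ext (congrArg Subtype.val (huniq.elim ⟨(y : _), by
          rw [Subgroup.orderOf_coe, hy]⟩ ⟨(z : _), by rw [Subgroup.orderOf_coe, hz]⟩) :))
        with h | ⟨n, hn, -, ⟨d⟩⟩
      · exact h
      · exfalso
        let qC : C := ⟨q, Subgroup.mem_centralizer_singleton_iff.2 rfl⟩
        have hcen : ∀ y : QuaternionGroup (2 ^ (n - 1)), d qC * y = y * d qC := fun y => by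
          obtain ⟨c, rfl⟩ := d.surjective y
          rw [← map_mul, ← map_mul]
          exact congrArg d (Subtype.ext (Subgroup.mem_centralizer_singleton_iff.1 c.2).symm)
        have h1 := sq_eq_one_of_central
          (le_trans (by norm_num) (Nat.pow_le_pow_right two_pos (show 1 ≤ n - 1 by omega))) _ hcen
        rw [← map_mul, map_eq_one_iff _ d.injective] at h1
        have hq2 : q * q = 1 := congrArg Subtype.val h1
        have hq1 : q ≠ 1 := fun h => hqz (h ▸ one_mem _)
        apply hqz
        rw [Subgroup.mem_center_iff]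
        intro g
        have ho : orderOf q = 2 := orderOf_eq_prime (by rw [pow_two]; exact hq2) hq1
        have := congrArg Subtype.val (huniq.elim
          ⟨g * q * g⁻¹, by rw [← MulAut.conj_apply, ← MulEquiv.coe_toMonoidHom,
            orderOf_injective _ (MulAut.conj g).injective, ho]⟩ ⟨q, ho⟩)
        exact mul_inv_eq_iff_eq_mul.1 this
    haveI : IsCyclic (C × Multiplicative (ZMod m)) := by
      rw [Group.isCyclic_prod_iff]
      refine ⟨hCc, inferInstance, ?_⟩
      rw [Nat.card_congr Multiplicative.toAdd, Nat.card_zmod]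
      obtain ⟨j, hj⟩ := (hp2.to_subgroup C).exists_card_eq
      rw [hj]
      exact Nat.Coprime.pow_left j (Nat.coprime_two_left.2 hm)
    have hmem : ∀ y : Subgroup.centralizer ({x} : Set G), (e (y : G)).1 ∈ C := fun y => by
      rw [hC, Subgroup.mem_centralizer_singleton_iff, hq, ← Prod.fst_mul, ← Prod.fst_mul, ← map_mul,
        ← map_mul, Subgroup.mem_centralizer_singleton_iff.1 y.2]
    exact isCyclic_of_injective
      (MonoidHom.mk' (fun y : Subgroup.centralizer ({x} : Set G) =>
        ((⟨(e (y : G)).1, hmem y⟩ : C), (e (y : G)).2)) (fun y z => by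
          refine Prod.ext (Subtype.ext ?_) ?_ <;> simp [map_mul]))
      fun y z h => by
        simp only [MonoidHom.mk'_apply, Prod.mk.injEq, Subtype.mk.injEq] at h
        exact Subtype.ext (e.injective (Prod.ext h.1 h.2))

end Cfsg.Agent.S4370
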