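import Cfsg.Statements.S4372
import Cfsg.Agent.BaseTwo.Coprime

set_option autoImplicit false
open Cfsg

namespace Cfsg.Agent.S4372

/-- Let the finite solvable group A act faithfully by automorphisms on the finite group K with the orders of A and K coprime. Then there are two elements x, y of K such that only the identity of A fixes both. -/
theorem result {A K : Type*} [Group A] [Finite A] [Group K] [Finite K]
    [MulDistribMulAction A K] [FaithfulSMul A K] (hA : Group.IsSolvable A) (hcop : (Nat.card A).Coprime (Nat.card K)) :
    ∃ x y : K, ∀ a : A, a • x = x → a • y = y → a = 1 := by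
  classical
  let φ : A →* MulAut K := MulDistribMulAction.toMulAut A K
  let X := K ⋊[φ] A
  haveI : Finite X := Finite.of_equiv _ SemidirectProduct.equivProd.symm
  let i : K →* X := SemidirectProduct.inl
  let j : A →* X := SemidirectProduct.inr
  have hi : Function.Injective i := SemidirectProduct.inl_injective
  have hj : Function.Injective j := SemidirectProduct.inr_injective
  have hconj : ∀ (a : A) (g : K), j a * i g * (j a)⁻¹ = i (a • g) := by
    intro a g
    rw [← map_inv, ← SemidirectProduct.inl_aut]
    rfl
  have hn : (i.range).Normal := by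
    rw [show i.range = (SemidirectProduct.rightHom : X →* A).ker from
      SemidirectProduct.range_inl_eq_ker_rightHom]
    infer_instance
  have hcK : Nat.card i.range = Nat.card K :=
    (Nat.card_congr (MonoidHom.ofInjective hi).toEquiv).symm
  have hcA : Nat.card j.range = Nat.card A :=
    (Nat.card_congr (MonoidHom.ofInjective hj).toEquiv).symm
  haveI := hA
  obtain ⟨x, ⟨x0, rfl⟩, y, ⟨y0, rfl⟩, h⟩ := Cfsg.Agent.BaseTwo.exists_pair_coprime i.range _ j.range
    rfl (fun g _ => by rw [Subgroup.normalizer_eq_top i.range]; trivial)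
    (by rwa [hcK, hcA]) (Group.isSolvable_of_surjective j.rangeRestrict_surjective) (by
      refine (Subgroup.eq_bot_iff_forall _).mpr fun g ⟨⟨a, ha⟩, hc⟩ => ?_
      subst ha
      rw [show a = 1 from FaithfulSMul.eq_of_smul_eq_smul fun k : K => ?_, map_one]
      rw [one_smul]
      refine hi ?_
      rw [← hconj, ← Subgroup.mem_centralizer_iff.mp hc (i k) ⟨k, rfl⟩, mul_inv_cancel_right])
  refine ⟨x0, y0, fun a hx hy => hj ?_⟩
  rw [map_one]
  refine h (j a) ⟨a, rfl⟩ ?_ ?_
  · rw [← mul_inv_eq_iff_eq_mul, hconj, hx]
  · rw [← mul_inv_eq_iff_eq_mul, hconj, hy]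

end Cfsg.Agent.S4372
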