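import Cfsg.Statements.S4374
import Cfsg.Agent.BaseSize.Main

set_option autoImplicit false
open Cfsg

namespace Cfsg.Agent.S4374

/-- Let the finite solvable group A act faithfully on the finite additive group V by group automorphisms, completely reducibly (every A-invariant subgroup has an A-invariant complement). Then there are v₁, v₂, v₃ ∈ V such that only the identity of A fixes all three. -/
theorem result {A V : Type*} [Group A] [Finite A]
    [AddCommGroup V] [Finite V] [DistribMulAction A V] [FaithfulSMul A V] (hA : Group.IsSolvable A)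
    (hcr : (∀ U : AddSubgroup V, (∀ a : A, ∀ v ∈ U, a • v ∈ U) → ∃ W : AddSubgroup V, (∀ a : A, ∀ w ∈ W, a • w ∈ W) ∧ U ⊓ W = ⊥ ∧ U ⊔ W = ⊤)) :
    ∃ v₁ v₂ v₃ : V, ∀ a : A, a • v₁ = v₁ → a • v₂ = v₂ → a • v₃ = v₃ → a = 1 := by
  classical
  let ε : Shrink.{0} V ≃+ V := Shrink.addEquiv
  have hsm : ∀ (a : A) x, ε (a • x) = a • ε x := fun a x => by
    first
      | exact equivShrink_symm_smul a x
      | exact (Equiv.symm_apply_apply _ _)
      | simp [ε]
  haveI : FaithfulSMul A (Shrink.{0} V) := ⟨fun {a b} h => eq_of_smul_eq_smul fun v : V => by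
    have := congrArg ε (h (ε.symm v))
    rwa [hsm, hsm, AddEquiv.apply_symm_apply] at this⟩
  obtain ⟨x, y, z, h⟩ := BaseSize.exists_base (A := A) (V := Shrink.{0} V) hA (by
    intro U hU
    obtain ⟨W, hW, h1, h2⟩ := hcr (U.map ε.toAddMonoidHom) (by
      rintro a _ ⟨u, hu, rfl⟩
      exact ⟨a • u, hU a u hu, hsm a u⟩)
    have hcm : (U.map ε.toAddMonoidHom).comap ε.toAddMonoidHom = U :=
      AddSubgroup.comap_map_eq_self_of_injective ε.injective U
    refine ⟨W.comap ε.toAddMonoidHom, fun a w hw => ?_, ?_, ?_⟩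
    · show ε (a • w) ∈ W
      rw [hsm]; exact hW a _ hw
    · refine (AddSubgroup.eq_bot_iff_forall _).mpr fun v hv => ?_
      refine ε.map_eq_zero_iff.mp ((AddSubgroup.eq_bot_iff_forall _).mp h1 (ε v) ⟨?_, hv.2⟩)
      exact ⟨v, hv.1, rfl⟩
    · refine (AddSubgroup.eq_top_iff' _).mpr fun v => ?_
      obtain ⟨u', hu', w, hw, e'⟩ := AddSubgroup.mem_sup.mp (h2 ▸ AddSubgroup.mem_top (ε v) :)
      obtain ⟨u, hu, rfl⟩ := hu'
      refine AddSubgroup.mem_sup.mpr ⟨u, hu, ε.symm w, ?_, ?_⟩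
      · show ε (ε.symm w) ∈ W
        rwa [AddEquiv.apply_symm_apply]
      · apply ε.injective
        rw [map_add, AddEquiv.apply_symm_apply]
        exact e')
  exact ⟨ε x, ε y, ε z, fun a h1 h2 h3 => h a (ε.injective (by rw [hsm, h1]))
    (ε.injective (by rw [hsm, h2])) (ε.injective (by rw [hsm, h3]))⟩

end Cfsg.Agent.S4374
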