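import Cfsg.Statements.S4377


set_option autoImplicit false
open Cfsg

namespace Cfsg.Agent.S4377

theorem sum_divisors_eq (K : Type*) [Group K] [Finite K] (n : ℕ) (hn : 0 < n) :
    n.divisors.sum (fun d => Nat.card {g : K // orderOf g = d}) = Nat.card {g : K // g ^ n = 1} := by
  classical
  have := Fintype.ofFinite K
  simp only [Nat.card_eq_fintype_card, Fintype.card_subtype]
  exact sum_card_orderOf_eq_card_pow_eq_one hn.ne'

theorem card_eq_sum (K : Type*) [Group K] [Finite K] (N : ℕ) (hN : Nat.card K < N) :
    Nat.card K = ∑ d ∈ Finset.range N, Nat.card {g : K // orderOf g = d} := by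
  classical
  have := Fintype.ofFinite K
  simp only [Nat.card_eq_fintype_card, Fintype.card_subtype]
  rw [← Finset.card_univ]
  apply Finset.card_eq_sum_card_fiberwise
  intro x _
  have h1 := orderOf_le_card_univ (x := x)
  rw [← Nat.card_eq_fintype_card] at h1
  simp only [Finset.coe_range, Set.mem_Iio]
  omega

/-- Two finite groups have the same number of elements of each order if and only if, for every n, they have the same number of elements g with gⁿ = 1. -/
theorem result {G H : Type*} [Group G] [Finite G] [Group H] [Finite H] :
    (∀ n : ℕ, Nat.card {g : G // orderOf g = n} = Nat.card {h : H // orderOf h = n}) ↔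
      ∀ n : ℕ, Nat.card {g : G // g ^ n = 1} = Nat.card {h : H // h ^ n = 1} := by
  classical
  have := Fintype.ofFinite G
  have := Fintype.ofFinite H
  constructor
  · intro h n
    rcases Nat.eq_zero_or_pos n with rfl | hn
    · have e : Nat.card G = Nat.card H := by
        exact (card_eq_sum G (Nat.card G + Nat.card H + 1) (by omega)).trans
          ((Finset.sum_congr rfl fun d _ => h d).trans
            (card_eq_sum H (Nat.card G + Nat.card H + 1) (by omega)).symm)
      simpa [Nat.card_congr (Equiv.subtypeUnivEquiv fun _ => rfl)] using e
    · rw [← sum_divisors_eq G n hn, ← sum_divisors_eq H n hn]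
      exact Finset.sum_congr rfl fun d _ => h d
  · intro h n
    induction n using Nat.strong_induction_on with
    | _ n ih =>
      rcases Nat.eq_zero_or_pos n with rfl | hn
      · simp only [(orderOf_pos _).ne']
        simp
      · have e := h n
        rw [← sum_divisors_eq G n hn, ← sum_divisors_eq H n hn, ← Nat.cons_self_properDivisors hn.ne',
          Finset.sum_cons, Finset.sum_cons,
          Finset.sum_congr rfl (fun d hd => ih d (Nat.mem_properDivisors.1 hd).2)] at e
        omega

end Cfsg.Agent.S4377
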