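import Cfsg.Statements.S4376
import Cfsg.Agent.OrderType.Small
import Cfsg.Agent.S4377

set_option autoImplicit false
open Cfsg

namespace Cfsg.Agent.S4376

open Cfsg.Agent.OrderType

/-- There are finite groups G and H having the same number of elements of each order (the same order type) with G solvable and H not solvable. -/
theorem result :
    ∃ (G : Type) (_ : Group G) (_ : Finite G) (H : Type) (_ : Group H) (_ : Finite H),
      Group.IsSolvable G ∧ ¬ Group.IsSolvable H ∧ ∀ n : ℕ, Nat.card {g : G // orderOf g = n} = Nat.card {h : H // orderOf h = n} := by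
  have : Group.IsSolvable G_agl := solv_agl
  have : Group.IsSolvable (Fin 3 → G_agl) := isSolvable_fun 3
  have : Group.IsSolvable G_sym4 := solv_sym4
  have : Group.IsSolvable (Fin 3 → G_sym4) := isSolvable_fun 3
  have : Group.IsSolvable G_meta784 := solv_meta784
  have : Group.IsSolvable (Fin 3 → G_meta784) := isSolvable_fun 3
  have : Group.IsSolvable G_cyc4 := solv_cyc4
  have : Group.IsSolvable (Fin 6 → G_cyc4) := isSolvable_fun 6
  have : Group.IsSolvable G_cyc7 := solv_cyc7
  have : Group.IsSolvable (Fin 1 → G_cyc7) := isSolvable_fun 1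
  have : Group.IsSolvable G_meta42 := solv_meta42
  have : Group.IsSolvable (Fin 6 → G_meta42) := isSolvable_fun 6
  have : Group.IsSolvable G_meta196 := solv_meta196
  have : Group.IsSolvable (Fin 2 → G_meta196) := isSolvable_fun 2
  have : Group.IsSolvable G_meta588 := solv_meta588
  have : Group.IsSolvable (Fin 1 → G_meta588) := isSolvable_fun 1
  have : Group.IsSolvable G_dih42 := solv_dih42
  have : Group.IsSolvable (Fin 3 → G_dih42) := isSolvable_fun 3
  have : Group.IsSolvable G_sym3 := solv_sym3
  have : Group.IsSolvable (Fin 3 → G_sym3) := isSolvable_fun 3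
  have : Group.IsSolvable G_meta504b := solv_meta504b
  have : Group.IsSolvable (Fin 3 → G_meta504b) := isSolvable_fun 3
  have : Finite (Fin 3 → G_agl) := inferInstance
  have : Finite (Fin 3 → G_sym4) := inferInstance
  have : Finite (Fin 3 → G_meta784) := inferInstance
  have : Finite (Fin 6 → G_cyc4) := inferInstance
  have : Finite (Fin 1 → G_cyc7) := inferInstance
  have : Finite (Fin 6 → G_meta42) := inferInstance
  have : Finite (Fin 2 → G_meta196) := inferInstance
  have : Finite (Fin 1 → G_meta588) := inferInstance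
  have : Finite (Fin 3 → G_dih42) := inferInstance
  have : Finite (Fin 3 → G_sym3) := inferInstance
  have : Finite (Fin 3 → G_meta504b) := inferInstance
  have : Finite (Fin 3 → M3ˣ) := inferInstance
  have : Finite (Fin 9 → G_cyc2) := inferInstance
  have : Finite (Fin 3 → G_alt4) := inferInstance
  have : Finite (Fin 3 → G_dih8) := inferInstance
  have : Finite (Fin 9 → G_meta28) := inferInstance
  have : Finite (Fin 3 → G_meta294) := inferInstance
  have : Finite (Fin 4 → G_meta21) := inferInstance
  have : Finite (Fin 3 → G_meta504a) := inferInstance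
  have : Finite (Fin 3 → G_meta252) := inferInstance
  refine ⟨((Fin 3 → G_agl) × ((Fin 3 → G_sym4) × ((Fin 3 → G_meta784) × ((Fin 6 → G_cyc4) × ((Fin 1 → G_cyc7) × ((Fin 6 → G_meta42) × ((Fin 2 → G_meta196) × ((Fin 1 → G_meta588) × ((Fin 3 → G_dih42) × ((Fin 3 → G_sym3) × (Fin 3 → G_meta504b))))))))))), inferInstance, inferInstance, ((Fin 3 → M3ˣ) × ((Fin 9 → G_cyc2) × ((Fin 3 → G_alt4) × ((Fin 3 → G_dih8) × ((Fin 9 → G_meta28) × ((Fin 3 → G_meta294) × ((Fin 4 → G_meta21) × ((Fin 3 → G_meta504a) × (Fin 3 → G_meta252))))))))), inferInstance, inferInstance, inferInstance,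
    fun h => M3.not_isSolvable ?_, ?_⟩
  · have := h
    exact Group.isSolvable_of_surjective
      (f := (Pi.evalMonoidHom (fun _ : Fin 3 => M3ˣ) 0).comp (MonoidHom.fst (Fin 3 → M3ˣ) (((Fin 9 → G_cyc2) × ((Fin 3 → G_alt4) × ((Fin 3 → G_dih8) × ((Fin 9 → G_meta28) × ((Fin 3 → G_meta294) × ((Fin 4 → G_meta21) × ((Fin 3 → G_meta504a) × (Fin 3 → G_meta252)))))))))))
      (fun x => ⟨((fun _ => x), (1 : ((Fin 9 → G_cyc2) × ((Fin 3 → G_alt4) × ((Fin 3 → G_dih8) × ((Fin 9 → G_meta28) × ((Fin 3 → G_meta294) × ((Fin 4 → G_meta21) × ((Fin 3 → G_meta504a) × (Fin 3 → G_meta252)))))))))), rfl⟩)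
  · apply Cfsg.Agent.S4377.result.2
    intro n
    rw [((counts_agl.pi 3).prod ((counts_sym4.pi 3).prod ((counts_meta784.pi 3).prod ((counts_cyc4.pi 6).prod ((counts_cyc7.pi 1).prod ((counts_meta42.pi 6).prod ((counts_meta196.pi 2).prod ((counts_meta588.pi 1).prod ((counts_dih42.pi 3).prod ((counts_sym3.pi 3).prod (counts_meta504b.pi 3))))))))))).card_pow (by decide) n, ((M3.hasCounts.pi 3).prod ((counts_cyc2.pi 9).prod ((counts_alt4.pi 3).prod ((counts_dih8.pi 3).prod ((counts_meta28.pi 9).prod ((counts_meta294.pi 3).prod ((counts_meta21.pi 4).prod ((counts_meta504a.pi 3).prod (counts_meta252.pi 3))))))))).card_pow (by decide) n]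
    have hd : Nat.gcd n 84 ∈ Nat.divisors 84 := Nat.mem_divisors.2 ⟨Nat.gcd_dvd_right n 84, by decide⟩
    revert hd
    generalize Nat.gcd n 84 = d
    revert d
    decide +kernel

end Cfsg.Agent.S4376
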