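import Cfsg.Statements.S4378
import Cfsg.Agent.PSolv.MaxIndexLength

set_option autoImplicit false
open Cfsg

namespace Cfsg.Agent.S4378

/-- Let G be a finite solvable group in which every maximal subgroup either has a normal 2-complement or has prime index. Then G has a chain of normal subgroups 1 ≤ A ≤ B ≤ C ≤ G in which A and C/B have odd order and B/A and G/C are 2-groups (so the 2-length of G is at most 2). -/
theorem result {G : Type*} [Group G] [Finite G]
    (hG : Group.IsSolvable G)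
    (hmax : ∀ M : Subgroup G, IsCoatom M → (∃ K : Subgroup ↥M, K.Normal ∧ ¬ 2 ∣ Nat.card K ∧ ∃ k : ℕ, K.index = 2 ^ k) ∨ (M.index).Prime) :
    ∃ A B C : Subgroup G, A.Normal ∧ B.Normal ∧ C.Normal ∧ A ≤ B ∧ B ≤ C ∧ Odd (Nat.card A) ∧
      (∃ k : ℕ, A.relIndex B = 2 ^ k) ∧ Odd (B.relIndex C) ∧ ∃ k : ℕ, C.index = 2 ^ k := by
  haveI : Fact (Nat.Prime 2) := ⟨Nat.prime_two⟩
  have h4 := (Cfsg.Agent.PSolv.MaxIndex.useries_eq_top
    (Cfsg.Agent.PSolv.isPSolvable_of_isSolvable hG) hmax).2 rfl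
  refine ⟨Cfsg.Agent.PSolv.useries 2 G 1, Cfsg.Agent.PSolv.useries 2 G 2,
    Cfsg.Agent.PSolv.useries 2 G 3, upperPSeries_normal 2 G 1, upperPSeries_normal 2 G 2,
    upperPSeries_normal 2 G 3, Cfsg.Agent.PSolv.useries_le_succ 1,
    Cfsg.Agent.PSolv.useries_le_succ 2, ?_, Cfsg.Agent.PSolv.useries_relIndex_odd (n := 1)
      (by decide), ?_, ?_⟩
  · have h := Cfsg.Agent.PSolv.useries_relIndex_even (p := 2) (G := G) (n := 0) (by decide)
    rw [Cfsg.Agent.PSolv.useries_zero, Subgroup.relIndex_bot_left] at h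
    exact Nat.coprime_two_right.1 h
  · exact Nat.coprime_two_right.1
      (Cfsg.Agent.PSolv.useries_relIndex_even (p := 2) (G := G) (n := 2) (by decide))
  · obtain ⟨m, hm⟩ := Cfsg.Agent.PSolv.useries_relIndex_odd (p := 2) (G := G) (n := 3) (by decide)
    rw [h4, Subgroup.relIndex_top_right] at hm
    exact ⟨m, hm⟩

end Cfsg.Agent.S4378
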