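import Cfsg.Statements.S4379
import Cfsg.Agent.PSolv.MaxIndexLength

set_option autoImplicit false
open Cfsg

namespace Cfsg.Agent.S4379

/-- Let p be an odd prime and G a finite p-solvable group in which every maximal subgroup either has a normal p-complement or has prime index. Then G has a chain of normal subgroups 1 ≤ A ≤ B ≤ C ≤ D ≤ G in which A, C/B and G/D have order prime to p and B/A and D/C are p-groups (so the p-length of G is at most 2). -/
theorem result {G : Type*} [Group G] [Finite G]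
    (p : ℕ) [Fact p.Prime] (hp : p ≠ 2) (hG : Cfsg.IsPSolvable p G)
    (hmax : ∀ M : Subgroup G, IsCoatom M → (∃ K : Subgroup ↥M, K.Normal ∧ ¬ p ∣ Nat.card K ∧ ∃ k : ℕ, K.index = p ^ k) ∨ (M.index).Prime) :
    ∃ A B C D : Subgroup G, A.Normal ∧ B.Normal ∧ C.Normal ∧ D.Normal ∧ A ≤ B ∧ B ≤ C ∧ C ≤ D ∧ ¬ p ∣ Nat.card A ∧
      (∃ k : ℕ, A.relIndex B = p ^ k) ∧ ¬ p ∣ B.relIndex C ∧ (∃ k : ℕ, C.relIndex D = p ^ k) ∧ ¬ p ∣ D.index := by
  have h5 := (Cfsg.Agent.PSolv.MaxIndex.useries_eq_top hG hmax).1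
  have hev : ∀ n : ℕ, Even n → ¬ p ∣ (Cfsg.Agent.PSolv.useries p G n).relIndex
      (Cfsg.Agent.PSolv.useries p G (n + 1)) := fun n hn =>
    (Fact.out : p.Prime).coprime_iff_not_dvd.1
      (Cfsg.Agent.PSolv.useries_relIndex_even (p := p) (G := G) hn).symm
  refine ⟨Cfsg.Agent.PSolv.useries p G 1, Cfsg.Agent.PSolv.useries p G 2,
    Cfsg.Agent.PSolv.useries p G 3, Cfsg.Agent.PSolv.useries p G 4, upperPSeries_normal p G 1,
    upperPSeries_normal p G 2, upperPSeries_normal p G 3, upperPSeries_normal p G 4,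
    Cfsg.Agent.PSolv.useries_le_succ 1, Cfsg.Agent.PSolv.useries_le_succ 2,
    Cfsg.Agent.PSolv.useries_le_succ 3, ?_, Cfsg.Agent.PSolv.useries_relIndex_odd (n := 1)
      (by decide), hev 2 (by decide), Cfsg.Agent.PSolv.useries_relIndex_odd (n := 3)
      (by decide), ?_⟩
  · have h := hev 0 (by decide)
    rwa [Cfsg.Agent.PSolv.useries_zero, Subgroup.relIndex_bot_left] at h
  · have h := hev 4 (by decide)
    rwa [h5, Subgroup.relIndex_top_right] at h

end Cfsg.Agent.S4379
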