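import Cfsg.Statements.S4381
import Cfsg.Agent.CoprimeAct.Basic
import Cfsg.Agent.PGroup.Frattini

set_option autoImplicit false
open Pointwise
open Cfsg

namespace Cfsg.Agent.S4381

open Pointwise

/-- Let the finite group A act by automorphisms on the finite group G with the orders of A and G coprime, and assume that A or G is solvable. Call a proper A-invariant subgroup of G maximal A-invariant when no A-invariant subgroup lies strictly between it and G. Then all maximal A-invariant subgroups of G are conjugate under elements of the fixed-point subgroup C_G(A) if and only if G is a p-group for some prime p and A leaves invariant no subgroup strictly between the Frattini subgroup of G and G. In that case, if G is nontrivial, the Frattini subgroup is the only maximal A-invariant subgroup (a trivial G has none). -/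
theorem result {A G : Type*} [Group A] [Finite A]
    [Group G] [Finite G] [MulDistribMulAction A G] (hcop : (Nat.card A).Coprime (Nat.card G)) (hsol : Group.IsSolvable A ∨ Group.IsSolvable G) :
    ((∀ M N : Subgroup G, (M ≠ ⊤ ∧ (∀ a : A, ∀ x ∈ M, a • x ∈ M) ∧ ∀ L : Subgroup G, M < L → (∀ a : A, ∀ x ∈ L, a • x ∈ L) → L = ⊤) → (N ≠ ⊤ ∧ (∀ a : A, ∀ x ∈ N, a • x ∈ N) ∧ ∀ L : Subgroup G, N < L → (∀ a : A, ∀ x ∈ L, a • x ∈ L) → L = ⊤) →
        ∃ c : G, (∀ a : A, a • c = c) ∧ N = MulAut.conj c • M) ↔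
      ((∃ p : ℕ, p.Prime ∧ IsPGroup p G) ∧ ∀ L : Subgroup G, frattini G < L → (∀ a : A, ∀ x ∈ L, a • x ∈ L) → L = ⊤)) ∧
    (((∃ p : ℕ, p.Prime ∧ IsPGroup p G) ∧ ∀ L : Subgroup G, frattini G < L → (∀ a : A, ∀ x ∈ L, a • x ∈ L) → L = ⊤) →
      ∀ M : Subgroup G, (M ≠ ⊤ ∧ (∀ a : A, ∀ x ∈ M, a • x ∈ M) ∧ ∀ L : Subgroup G, M < L → (∀ a : A, ∀ x ∈ L, a • x ∈ L) → L = ⊤) ↔ (M = frattini G ∧ M ≠ ⊤)) := by
  classical
  set Φ := frattini G with hΦdef
  haveI : Φ.Normal := inferInstance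
  have hinvΦ : ∀ a : A, ∀ x ∈ Φ, a • x ∈ Φ := fun a x hx => by
    have h := Subgroup.characteristic_iff_map_eq.1 (frattini_characteristic (G := G))
      (MulDistribMulAction.toMulEquiv G a)
    rw [hΦdef, ← h]
    exact ⟨x, hx, rfl⟩
  let Inv : Subgroup G → Prop := fun L => ∀ a : A, ∀ x ∈ L, a • x ∈ L
  have hsupinv : ∀ M N : Subgroup G, Inv M → Inv N → Inv (M ⊔ N) := by
    intro M N hM hN a
    have h : M ⊔ N ≤ (M ⊔ N).comap (MulDistribMulAction.toMonoidHom G a) :=
      sup_le (fun x hx => Subgroup.mem_sup_left (hM a x hx)) (fun x hx => Subgroup.mem_sup_right (hN a x hx))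
    exact fun x hx => h hx
  have hexmax : ∀ L : Subgroup G, L ≠ ⊤ → Inv L → ∃ M, L ≤ M ∧
      (M ≠ ⊤ ∧ (∀ a : A, ∀ x ∈ M, a • x ∈ M) ∧ ∀ L' : Subgroup G, M < L' → (∀ a : A, ∀ x ∈ L', a • x ∈ L') → L' = ⊤) := by
    intro L hL hLi
    obtain ⟨M, hLM, hM⟩ := Finite.exists_le_maximal (a := L) (p := fun K : Subgroup G => K ≠ ⊤ ∧ Inv K) ⟨hL, hLi⟩
    refine ⟨M, hLM, hM.1.1, hM.1.2, fun L' hlt hL' => ?_⟩
    by_contra hne
    exact hlt.not_ge (hM.2 ⟨hne, hL'⟩ hlt.le)
  have hΦle : ∀ M : Subgroup G, (M ≠ ⊤ ∧ (∀ a : A, ∀ x ∈ M, a • x ∈ M) ∧ ∀ L' : Subgroup G, M < L' → (∀ a : A, ∀ x ∈ L', a • x ∈ L') → L' = ⊤) → Φ ≤ M := by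
    rintro M ⟨hne, hMi, hMm⟩
    by_contra hle
    refine hne (frattini_nongenerating (hMm _ ?_ (hsupinv M Φ hMi hinvΦ)))
    exact lt_of_le_of_ne le_sup_left fun h => hle (h ▸ le_sup_right)
  have huniq : ((∃ p : ℕ, p.Prime ∧ IsPGroup p G) ∧ ∀ L : Subgroup G, frattini G < L → (∀ a : A, ∀ x ∈ L, a • x ∈ L) → L = ⊤) →
      ∀ M : Subgroup G, (M ≠ ⊤ ∧ (∀ a : A, ∀ x ∈ M, a • x ∈ M) ∧ ∀ L : Subgroup G, M < L → (∀ a : A, ∀ x ∈ L, a • x ∈ L) → L = ⊤) → M = frattini G := by
    intro h M hM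
    by_contra hne
    exact hM.1 (h.2 M (lt_of_le_of_ne (hΦle M hM) (Ne.symm hne)) hM.2.1)
  refine ⟨⟨fun hconj => ?_, fun h M N hM hN => ?_⟩, fun h M => ⟨fun hM => ⟨huniq h M hM, hM.1⟩, ?_⟩⟩
  rotate_left
  · refine ⟨1, fun a => smul_one a, ?_⟩
    rw [huniq h M hM, huniq h N hN, map_one, one_smul]
  · rintro ⟨rfl, hne⟩
    exact ⟨hne, hinvΦ, h.2⟩
  · have hcard : ∀ M N : Subgroup G, (∃ c : G, (∀ a : A, a • c = c) ∧ N = MulAut.conj c • M) →
        Nat.card N = Nat.card M := by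
      rintro M _ ⟨c, -, rfl⟩
      exact (Nat.card_congr (Subgroup.equivSMul _ M).toEquiv).symm
    have hpg : ∃ p : ℕ, p.Prime ∧ IsPGroup p G := by
      by_contra hno
      rcases subsingleton_or_nontrivial G with hss | hnt
      · exact hno ⟨2, Nat.prime_two, fun g => ⟨0, Subsingleton.elim _ _⟩⟩
      obtain ⟨M₀, -, hM₀⟩ := hexmax ⊥ bot_ne_top (fun a x hx => by
        rw [Subgroup.mem_bot] at hx ⊢; rw [hx, smul_one])
      refine hM₀.1 (Subgroup.eq_top_of_card_eq _ (Nat.dvd_antisymm (Subgroup.card_subgroup_dvd_card M₀) ?_))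
      rw [← Nat.factorization_prime_le_iff_dvd Nat.card_pos.ne' Nat.card_pos.ne']
      intro q hq
      haveI := Fact.mk hq
      obtain ⟨Q, hQ⟩ := Cfsg.Agent.CoprimeAct.exists_invariant_sylow_smul hcop hsol q
      obtain ⟨M, hQM, hM⟩ := hexmax (Q : Subgroup G) (fun h => hno ⟨q, hq, by
        have h1 : IsPGroup q (⊤ : Subgroup G) := h ▸ Q.isPGroup'
        exact h1.of_equiv Subgroup.topEquiv⟩) hQ
      rw [hcard M M₀ (hconj M M₀ hM hM₀)]
      refine (Nat.Prime.pow_dvd_iff_le_factorization hq Nat.card_pos.ne').1 ?_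
      rw [← Q.card_eq_multiplicity]
      exact Subgroup.card_dvd_of_le hQM
    refine ⟨hpg, fun L hL hLi => ?_⟩
    by_contra hne
    obtain ⟨p, hp, hG⟩ := hpg
    haveI := Fact.mk hp
    obtain ⟨M, hLM, hM⟩ := hexmax L hne hLi
    have hMn : ∀ N : Subgroup G, Φ ≤ N → N.Normal := fun N hN => ⟨fun x hx g => by
      have h1 : g * x * g⁻¹ * x⁻¹ ∈ Φ := Cfsg.Agent.PGroup.commutatorElement_mem_frattini hG g x
      have := mul_mem (hN h1) hx
      rwa [inv_mul_cancel_right] at this⟩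
    -- the quotient by the Frattini subgroup
    letI : CommGroup (G ⧸ Φ) := { (inferInstance : Group (G ⧸ Φ)) with
      mul_comm := fun u v => by
        obtain ⟨u, rfl⟩ := QuotientGroup.mk'_surjective Φ u
        obtain ⟨v, rfl⟩ := QuotientGroup.mk'_surjective Φ v
        rw [← map_mul, ← map_mul]
        refine QuotientGroup.eq.2 ?_
        have h1 := Cfsg.Agent.PGroup.commutatorElement_mem_frattini hG v⁻¹ u⁻¹
        rw [commutatorElement_def, inv_inv, inv_inv] at h1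
        rwa [mul_inv_rev, ← mul_assoc] }
    have hpA : ¬ p ∣ Nat.card A := by
      intro hdvd
      haveI : Nontrivial G := ⟨⟨1, by
        obtain ⟨g, -, hg⟩ := SetLike.exists_of_lt hL
        exact ⟨g, fun h => hg (h ▸ one_mem _)⟩⟩⟩
      obtain ⟨k, hk⟩ := hG.exists_card_eq
      have h2 : p ∣ Nat.card G := by
        rw [hk]
        refine dvd_pow_self p fun h0 => ?_
        rw [h0, pow_zero] at hk
        exact absurd hk (Finite.one_lt_card).ne'
      exact hp.one_lt.ne' (Nat.eq_one_of_dvd_coprimes hcop hdvd h2)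
    let act : A → (G ⧸ Φ) →* (G ⧸ Φ) := fun a =>
      QuotientGroup.map Φ Φ (MulDistribMulAction.toMonoidHom G a) (fun x hx => hinvΦ a x hx)
    obtain ⟨K, hKi, hK1, hK2⟩ := Cfsg.Agent.CoprimeAct.exists_invariant_complement (A := A) p
      (V := G ⧸ Φ) (fun v => by
        obtain ⟨u, rfl⟩ := QuotientGroup.mk'_surjective Φ v
        rw [← map_pow]
        exact (QuotientGroup.eq_one_iff _).2 (Cfsg.Agent.PGroup.pow_mem_frattini hG u))
      hpA act
      (fun v => by
        obtain ⟨u, rfl⟩ := QuotientGroup.mk'_surjective Φ v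
        exact congrArg (QuotientGroup.mk' Φ) (one_smul A u))
      (fun a b v => by
        obtain ⟨u, rfl⟩ := QuotientGroup.mk'_surjective Φ v
        exact congrArg (QuotientGroup.mk' Φ) (mul_smul a b u))
      (M.map (QuotientGroup.mk' Φ)) (by
        rintro a _ ⟨u, hu, rfl⟩
        exact ⟨a • u, hM.2.1 a u hu, rfl⟩)
    set K' := K.comap (QuotientGroup.mk' Φ) with hK'
    have hΦM := hΦle M hM
    have hcm : (M.map (QuotientGroup.mk' Φ)).comap (QuotientGroup.mk' Φ) = M := by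
      rw [Subgroup.comap_map_eq, QuotientGroup.ker_mk', sup_eq_left.2 hΦM]
    by_cases hKtop : K' = ⊤
    · have hK : K = ⊤ := by
        rw [← Subgroup.map_comap_eq_self_of_surjective (QuotientGroup.mk'_surjective Φ) K, ← hK', hKtop,
          Subgroup.map_top_of_surjective _ (QuotientGroup.mk'_surjective Φ)]
      rw [hK, inf_top_eq] at hK1
      rw [hK1, MonoidHom.comap_bot, QuotientGroup.ker_mk'] at hcm
      exact (lt_of_lt_of_le hL hLM).ne hcm
    obtain ⟨M', hKM', hM'⟩ := hexmax K' hKtop (fun a x hx => hKi a _ hx)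
    obtain ⟨c, -, hc⟩ := hconj M M' hM hM'
    haveI := hMn M hΦM
    rw [Subgroup.Normal.conj_smul_eq_self] at hc
    subst hc
    have htop : M'.map (QuotientGroup.mk' Φ) = ⊤ := by
      rw [eq_top_iff, ← hK2]
      refine sup_le le_rfl ?_
      rw [← Subgroup.map_comap_eq_self_of_surjective (QuotientGroup.mk'_surjective Φ) K]
      exact Subgroup.map_mono hKM'
    rw [htop, Subgroup.comap_top] at hcm
    exact hM.1 hcm.symm

end Cfsg.Agent.S4381
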