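import Cfsg.Statements.S4385
import Cfsg.Agent.PushDihedral.IdentifyFour
import Cfsg.Agent.Cores.Basic

set_option autoImplicit false
open Pointwise
open Cfsg

namespace Cfsg.Agent.S4385

open Subgroup PushDihedral

theorem dihedral_gen {n : ℕ} (hn : Odd n) (S : Subgroup (DihedralGroup n)) {i : ZMod n}
    (h1 : DihedralGroup.sr i ∈ S) {j : ZMod n} (hj : IsUnit (j - i)) (h2 : DihedralGroup.sr j ∈ S) :
    S = ⊤ := by
  have : NeZero n := ⟨hn.pos.ne'⟩
  have h3 : DihedralGroup.r (j - i) ∈ S := by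
    rw [← DihedralGroup.sr_mul_sr]; exact mul_mem h1 h2
  have hall : ∀ a : ZMod n, DihedralGroup.r a ∈ S := by
    intro a
    obtain ⟨u, hu⟩ := hj
    have := pow_mem h3 (a * (↑u⁻¹ : ZMod n)).val
    rwa [DihedralGroup.r_pow, ← hu, ZMod.natCast_val, ZMod.cast_id, mul_comm a, ← mul_assoc,
      Units.mul_inv, one_mul] at this
  rw [eq_top_iff]
  rintro (a | a) -
  · exact hall a
  · have := mul_mem h1 (hall (a - i))
    rwa [DihedralGroup.sr_mul_r, add_sub_cancel] at this

/-- Let H be a subgroup of a finite group G whose largest normal 2-subgroup O_2(H) is nontrivial and such that H/O_2(H) is a dihedral group of order at least 4. Let P be a Sylow 2-subgroup of H and S a Sylow 2-subgroup of G containing P. Suppose y ∈ S lies outside P, normalizes P, has y² in the product of P with the centralizer of P in G, and normalizes no non-identity normal subgroup of H contained in P. Then P has order 4, 8 or 16, and H modulo its largest normal subgroup of odd order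 is isomorphic to the four-group, to the symmetric group of degree 4, or to the direct product of the symmetric group of degree 4 with a group of order 2. -/
theorem result {G : Type*} [Group G] [Finite G]
    (H : Subgroup G) (hO : Cfsg.pCore 2 ↥H ≠ ⊥) (n : ℕ) (hn : 2 ≤ n) (hdih : Nonempty (↥H ⧸ Cfsg.pCore 2 ↥H ≃* DihedralGroup n))
    (P : Subgroup G) (hPH : P ≤ H) (hP : IsPGroup 2 P) (hPsyl : ¬ 2 ∣ P.relIndex H)
    (S : Sylow 2 G) (hPS : P ≤ (S : Subgroup G)) (y : G) (hyS : y ∈ (S : Subgroup G)) (hyP : y ∉ P)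
    (hy2 : y ^ 2 ∈ P ⊔ Subgroup.centralizer (P : Set G)) (hyN : MulAut.conj y • P = P)
    (hyQ : ∀ Q : Subgroup G, Q ≤ P → (Q.subgroupOf H).Normal → MulAut.conj y • Q = Q → Q = ⊥) :
    (Nat.card P = 4 ∨ Nat.card P = 8 ∨ Nat.card P = 16) ∧
    (Nonempty (↥H ⧸ Cfsg.oddCore ↥H ≃* Multiplicative (ZMod 2) × Multiplicative (ZMod 2)) ∨
     Nonempty (↥H ⧸ Cfsg.oddCore ↥H ≃* Equiv.Perm (Fin 4)) ∨
     Nonempty (↥H ⧸ Cfsg.oddCore ↥H ≃* Equiv.Perm (Fin 4) × Multiplicative (ZMod 2))) := by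
  classical
  haveI : Fact (Nat.Prime 2) := ⟨Nat.prime_two⟩
  obtain ⟨e⟩ := hdih
  haveI : NeZero n := ⟨by omega⟩
  set Qc := Cfsg.pCore 2 ↥H with hQc
  have hQcp : IsPGroup 2 Qc := Cores.pCore_isPGroup
  let π : H →* DihedralGroup n := e.toMonoidHom.comp (QuotientGroup.mk' Qc)
  have hπs : Function.Surjective π := e.surjective.comp (QuotientGroup.mk'_surjective Qc)
  have hπk : ∀ g, π g = 1 ↔ g ∈ Qc := fun g => by
    show e (QuotientGroup.mk' Qc g) = 1 ↔ _
    rw [MulEquiv.map_eq_one_iff, QuotientGroup.mk'_apply, QuotientGroup.eq_one_iff]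
  have hnodd : Odd n := by
    by_contra hc
    obtain ⟨m, hm⟩ := Nat.not_odd_iff_even.1 hc
    let T : Subgroup H := (zpowers (DihedralGroup.r (m : ZMod n))).comap π
    have hr2 : DihedralGroup.r (m : ZMod n) ^ 2 = 1 := by
      rw [DihedralGroup.r_pow, DihedralGroup.one_def]
      congr 1
      rw [← Nat.cast_mul, mul_two, ← hm, ZMod.natCast_self]
    have hneg : -(m : ZMod n) = m :=
      neg_eq_of_add_eq_zero_left (by rw [← Nat.cast_add, ← hm, ZMod.natCast_self])
    have hcen : ∀ g, g * DihedralGroup.r (m : ZMod n) = DihedralGroup.r (m : ZMod n) * g := by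
      rintro (a | a)
      · rw [DihedralGroup.r_mul_r, DihedralGroup.r_mul_r, add_comm]
      · rw [DihedralGroup.sr_mul_r, DihedralGroup.r_mul_sr, sub_eq_add_neg, hneg]
    have hzn : (zpowers (DihedralGroup.r (m : ZMod n))).Normal := ⟨fun x hx g => by
      obtain ⟨k, rfl⟩ := mem_zpowers_iff.1 hx
      have hc' : Commute g (DihedralGroup.r (m : ZMod n)) := hcen g
      rw [(hc'.zpow_right k).eq, mul_inv_cancel_right]
      exact ⟨k, rfl⟩⟩
    have hTn : T.Normal := hzn.comap π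
    have hTp : IsPGroup 2 T := by
      refine isPGroup_iff_pow_pow_eq_one.2 fun t => ?_
      have h2 : π ((t : H) ^ 2) = 1 := by
        obtain ⟨k, hk⟩ := mem_zpowers_iff.1 (show π t ∈ zpowers _ from t.2)
        rw [map_pow, ← hk, ← zpow_natCast, ← zpow_mul, mul_comm, zpow_mul, zpow_natCast, hr2, one_zpow]
      obtain ⟨k, hk⟩ := hQcp.exists_pow_pow_eq_one ⟨_, (hπk _).1 h2⟩
      refine ⟨k + 1, Subtype.ext ?_⟩
      have h3 : ((t : H) ^ 2) ^ 2 ^ k = 1 := congrArg Subtype.val hk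
      show (t : H) ^ 2 ^ (k + 1) = 1
      rw [pow_succ', pow_mul, h3]
    obtain ⟨t, ht⟩ := hπs (DihedralGroup.r (m : ZMod n))
    have hTQ : T ≤ Qc := le_sSup ⟨hTn, hTp⟩
    have h1 := (hπk t).2 (hTQ (show π t ∈ zpowers _ from ht ▸ mem_zpowers _))
    rw [ht, DihedralGroup.one_def] at h1
    have h2 : n ∣ m := (ZMod.natCast_eq_zero_iff _ _).1 (DihedralGroup.r.inj h1)
    have := Nat.le_of_dvd (by omega) h2
    omega
  -- the Sylow subgroup
  let PH : Subgroup H := P.subgroupOf H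
  have hPHp : IsPGroup 2 PH := hP.of_equiv (subgroupOfEquivOfLe hPH).symm
  let SP : Sylow 2 H := hPHp.toSylow hPsyl
  have hQP : Qc ≤ PH := Cores.pCore_le_sylow SP
  obtain ⟨a₀, ha₀⟩ : ∃ a, a ∈ PH ∧ a ∉ Qc := by
    by_contra hc
    push Not at hc
    have hle : PH = Qc := le_antisymm hc hQP
    apply hPsyl
    show 2 ∣ PH.index
    rw [hle, index_eq_card, Nat.card_congr e.toEquiv, DihedralGroup.nat_card]
    exact dvd_mul_right 2 n
  have hinv : ∀ a ∈ PH, a ∉ Qc → ∃ i, π a = DihedralGroup.sr i := by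
    intro a ha ha'
    rcases hπa : π a with i | i
    · exfalso
      apply ha'
      rw [← hπk, hπa]
      obtain ⟨k, hk⟩ := hPHp.exists_pow_pow_eq_one ⟨a, ha⟩
      have h1 : DihedralGroup.r i ^ 2 ^ k = 1 := by
        rw [← hπa, ← map_pow, show a ^ 2 ^ k = 1 from congrArg Subtype.val hk, map_one]
      have h2 : DihedralGroup.r i ^ n = 1 := by
        rw [DihedralGroup.r_pow, ZMod.natCast_self, mul_zero, DihedralGroup.one_def]
      rw [← orderOf_eq_one_iff]
      exact Nat.eq_one_of_dvd_coprimes ((Nat.coprime_two_left.2 hnodd).pow_left k)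
        (orderOf_dvd_of_pow_eq_one h1) (orderOf_dvd_of_pow_eq_one h2)
    · exact ⟨i, rfl⟩
  obtain ⟨i, hi⟩ := hinv a₀ ha₀.1 ha₀.2
  -- two reflections cannot differ
  have huniq : ∀ a ∈ PH, a ∉ Qc → π a = DihedralGroup.sr i := by
    intro a ha ha'
    obtain ⟨j, hj⟩ := hinv a ha ha'
    by_cases hmem : a₀ * a ∈ Qc
    · have h := (hπk _).2 hmem
      rw [map_mul, hi, hj, DihedralGroup.sr_mul_sr, DihedralGroup.one_def] at h
      rw [hj, sub_eq_zero.1 (DihedralGroup.r.inj h)]
    · obtain ⟨l, hl⟩ := hinv _ (mul_mem ha₀.1 ha) hmem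
      rw [map_mul, hi, hj, DihedralGroup.sr_mul_sr] at hl
      exact absurd hl (by simp)
  have hpre : ∀ g : H, π g = DihedralGroup.sr i → g ∈ PH := by
    intro g hg
    have : a₀⁻¹ * g ∈ Qc := by rw [← hπk, map_mul, map_inv, hi, hg, inv_mul_cancel]
    simpa using mul_mem ha₀.1 (hQP this)
  -- the rotation
  set j : ZMod n := (((n + 1) / 2 : ℕ) : ZMod n) with hjdef
  have hj2 : j + j = 1 := by
    rw [hjdef, ← Nat.cast_add]
    obtain ⟨m, hm⟩ := hnodd
    have : (n + 1) / 2 + (n + 1) / 2 = n + 1 := by omega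
    rw [this, Nat.cast_add, ZMod.natCast_self, Nat.cast_one, zero_add]
  obtain ⟨h, hh⟩ := hπs (DihedralGroup.r j)
  let Q : Subgroup G := Qc.map H.subtype
  have hQmem : ∀ g : H, (g : G) ∈ Q ↔ g ∈ Qc := fun g => by
    constructor
    · rintro ⟨g', hg', e'⟩; rwa [← Subtype.ext e']
    · intro hg; exact ⟨g, hg, rfl⟩
  have hQle : Q ≤ P := by
    rintro _ ⟨g, hg, rfl⟩
    exact hQP hg
  have hQn : H ≤ normalizer (Q : Set G) := by
    intro g hg
    rw [mem_normalizer_iff]
    intro x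
    constructor
    · rintro ⟨x', hx', rfl⟩
      exact (hQmem ⟨g * (x' : G) * g⁻¹, mul_mem (mul_mem hg x'.2) (inv_mem hg)⟩).2
        ((inferInstance : Qc.Normal).conj_mem x' hx' ⟨g, hg⟩)
    · intro hx
      have hxH : x ∈ H := by
        have h1 : g * x * g⁻¹ ∈ H := hPH (hQle hx)
        have := mul_mem (mul_mem (inv_mem hg) h1) hg
        simpa [mul_assoc] using this
      have h2 := (inferInstance : Qc.Normal).conj_mem _ ((hQmem _).1
        (show ((⟨g * x * g⁻¹, hPH (hQle hx)⟩ : H) : G) ∈ Q from hx)) (⟨g, hg⟩⁻¹)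
      refine (hQmem ⟨x, hxH⟩).2 ?_
      convert h2 using 1
      ext
      simp [mul_assoc]
  -- generation
  have hgen : ∀ X : Subgroup G, Q ≤ X → ∀ (g g' : H), (g : G) ∈ X → (g' : G) ∈ X →
      ∀ a b : ZMod n, π g = DihedralGroup.sr a → π g' = DihedralGroup.sr b → IsUnit (b - a) →
      H ≤ X := by
    intro X hQX g g' hg hg' a b hga hgb hu
    have htop : (X.subgroupOf H).map π = ⊤ :=
      dihedral_gen hnodd _ ⟨g, hg, hga⟩ hu ⟨g', hg', hgb⟩
    intro w hw
    obtain ⟨w', hw', he⟩ : π ⟨w, hw⟩ ∈ (X.subgroupOf H).map π := htop ▸ mem_top _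
    have h1 : w'⁻¹ * ⟨w, hw⟩ ∈ Qc := by rw [← hπk, map_mul, map_inv, he, inv_mul_cancel]
    have h2 := mul_mem (mem_subgroupOf.1 hw') (hQX ((hQmem _).2 h1))
    simpa using h2
  have hconj : π (h * a₀ * h⁻¹) = DihedralGroup.sr (i - 1) := by
    rw [map_mul, map_mul, map_inv, hh, hi, DihedralGroup.inv_r, DihedralGroup.r_mul_sr,
      DihedralGroup.sr_mul_r, show i - j + -j = i - (j + j) by ring, hj2]
  have hQcj : ∀ (k : G), k ∈ H → ∀ X : Subgroup G, cj k P ≤ X → Q ≤ X := fun k hk X hX => by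
    rw [← cj_eq_self (hQn hk)]; exact (cj_mono k hQle).trans hX
  let d : Cfg G :=
    { H := H
      Q := Q
      P := P
      y := y
      h := h
      hmem := h.2
      QP := hQle
      PH := hPH
      Qn := hQn
      pgroup := hP
      two := fun a ha ha' b hb hb' => by
        rw [show a * b = ((⟨a, hPH ha⟩ * ⟨b, hPH hb⟩ : H) : G) from rfl, hQmem, ← hπk, map_mul,
          huniq _ ha (fun h => ha' ((hQmem ⟨a, hPH ha⟩).2 h)),
          huniq _ hb (fun h => hb' ((hQmem ⟨b, hPH hb⟩).2 h)),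
          DihedralGroup.sr_mul_sr, sub_self]
        rfl
      exists_out := ⟨a₀, ha₀.1, fun h => ha₀.2 ((hQmem a₀).1 h)⟩
      gen := fun X hPX hhX => hgen X (hQle.trans hPX) a₀ (h * a₀ * h⁻¹) (hPX ha₀.1)
        (hhX (conj_mem_cj.2 ha₀.1)) i (i - 1) hi hconj
        (by rw [show i - 1 - i = (-1 : ZMod n) by ring]; exact isUnit_one.neg)
      gen2 := fun u hu hu' X h1 h2 => by
        refine hgen X (hQcj _ h.2 X h1) (h * a₀ * h⁻¹)
          (⟨u, hPH hu⟩ * h * a₀ * (⟨u, hPH hu⟩ * h)⁻¹) (h1 (conj_mem_cj.2 ha₀.1))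
          (h2 (by
            push_cast
            exact conj_mem_cj.2 ha₀.1)) (i - 1) (i + 1) hconj ?_
          (by
            rw [show i + 1 - (i - 1) = (2 : ZMod n) by ring]
            exact IsUnit.of_mul_eq_one j (by rw [two_mul, hj2]))
        rw [show ⟨u, hPH hu⟩ * h * a₀ * (⟨u, hPH hu⟩ * h)⁻¹ =
          ⟨u, hPH hu⟩ * (h * a₀ * h⁻¹) * ⟨u, hPH hu⟩⁻¹ by group, map_mul, map_mul, map_inv, hconj,
          huniq _ hu (fun h => hu' ((hQmem ⟨u, hPH hu⟩).2 h)), DihedralGroup.inv_sr,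
          DihedralGroup.sr_mul_sr, DihedralGroup.r_mul_sr]
        congr 1
        ring
      yP := hyN
      y2 := by
        have hn' : P ≤ normalizer (centralizer (P : Set G) : Set G) := by
          intro p hp
          refine mem_normalizer_of_cj (le_antisymm ?_ fun c hc => mem_cj.2 ?_)
          · rintro _ ⟨c, hc, rfl⟩ q hq
            show q * (p * c * p⁻¹) = p * c * p⁻¹ * q
            have := hc (p⁻¹ * q * p) (mul_mem (mul_mem (inv_mem hp) hq) hp)
            calc q * (p * c * p⁻¹) = p * ((p⁻¹ * q * p) * c) * p⁻¹ := by group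
              _ = _ := by rw [this]; group
          · intro q hq
            have := hc (p * q * p⁻¹) (mul_mem (mul_mem hp hq) (inv_mem hp))
            calc q * (p⁻¹ * c * p) = p⁻¹ * ((p * q * p⁻¹) * c) * p := by group
              _ = _ := by rw [this]; group
        obtain ⟨p, hp, c, hc, he⟩ := Coprime.exists_mul_of_mem_sup hn' hy2
        exact ⟨p, hp, c, hc, by rw [← pow_two, he]⟩
      noCore := fun W hW hn' hy' => hyQ W hW (normal_subgroupOf_of_le_normalizer hn')
        (eq_of_le_of_card_ge hy' (card_map_of_injective (MulAut.conj y).injective).ge)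
      Qne := fun hb => hO ((map_eq_bot_iff_of_injective _ H.subtype_injective).1 hb) }
  by_cases hN : d.NoCentral
  · have hm : ∃ m : ℕ, Odd m ∧ ∀ g ∈ d.H, (∀ v ∈ d.V, g * v = v * g) → g ^ m ∈ d.Q := by
      refine ⟨n, hnodd, fun g hg hc => ?_⟩
      rcases hπg : π ⟨g, hg⟩ with a | a
      · refine (hQmem (⟨g, hg⟩ ^ n)).2 ((hπk _).1 ?_)
        rw [map_pow, hπg, DihedralGroup.r_pow, ZMod.natCast_self, mul_zero, DihedralGroup.one_def]
      · exfalso
        obtain ⟨k, hk⟩ := hπs (DihedralGroup.r (j * (a - i)))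
        have hk' : π (k * ⟨g, hg⟩ * k⁻¹) = DihedralGroup.sr i := by
          rw [map_mul, map_mul, map_inv, hk, hπg, DihedralGroup.inv_r, DihedralGroup.r_mul_sr,
            DihedralGroup.sr_mul_r,
            show a - j * (a - i) + -(j * (a - i)) = a - (j + j) * (a - i) by ring, hj2, one_mul,
            sub_sub_cancel]
        have hout : (k : G) * g * (k : G)⁻¹ ∉ d.Q := fun h' => by
          have h1 := (hπk _).2 ((hQmem (k * ⟨g, hg⟩ * k⁻¹)).1 h')
          rw [hk', DihedralGroup.one_def] at h1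
          cases h1
        obtain ⟨v, hv, hne⟩ := Cfg.not_centralizes hN (a := (k : G) * g * (k : G)⁻¹) (hpre _ hk') hout
        apply hne
        have hv' := hc _ ((mem_normalizer_iff''.1 (d.HnV k.2) v).1 hv)
        calc v * ((k : G) * g * (k : G)⁻¹) = k * (((k : G)⁻¹ * v * k) * g) * (k : G)⁻¹ := by group
          _ = _ := by rw [← hv']; group
    obtain ⟨hc, hiso⟩ := Cfg.identify_four hN hm
    exact ⟨Or.inr hc, Or.inr hiso⟩
  · obtain ⟨hc, hiso⟩ := Cfg.identify_small hN hPsyl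
    exact ⟨Or.inl hc, Or.inl hiso⟩

end Cfsg.Agent.S4385
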