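import Cfsg.Statements.S4387
import Cfsg.Agent.Perm.Basic

set_option autoImplicit false
open Pointwise
open Cfsg

namespace Cfsg.Agent.S4387

/-- Let G be a non-trivial finite group in which any two maximal subgroups are conjugate. Then G is cyclic of prime-power order. -/
theorem result {G : Type*} [Group G] [Finite G] [Nontrivial G]
    (h : ∀ M N : Subgroup G, IsCoatom M → IsCoatom N → ∃ g : G, N = MulAut.conj g • M) :
    IsCyclic G ∧ IsPrimePow (Nat.card G) := by
  have hproper : ∀ H : Subgroup G, H ≠ ⊤ → ∃ M, IsCoatom M ∧ H ≤ M := by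
    intro H hH
    rcases eq_top_or_exists_le_coatom H with h | h
    · exact absurd h hH
    · exact h
  obtain ⟨M, hM, -⟩ := hproper ⊥ bot_ne_top
  have hcyc : ∃ x : G, Subgroup.zpowers x = ⊤ := by
    by_contra hne
    push Not at hne
    -- every element lies in a conjugate of `M`, impossible
    have hcov : ∀ x : G, ∃ g : G, x ∈ MulAut.conj g • M := by
      intro x
      obtain ⟨N, hN, hxN⟩ := hproper _ (hne x)
      obtain ⟨g, rfl⟩ := h M N hM hN
      exact ⟨g, hxN (Subgroup.mem_zpowers x)⟩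
    have hnt : Nontrivial (G ⧸ M) := by
      rw [← Finite.one_lt_card_iff_nontrivial]
      show 1 < M.index
      exact lt_of_le_of_ne (Nat.one_le_iff_ne_zero.2 M.index_ne_zero_of_finite)
        (fun h => hM.1 (Subgroup.index_eq_one.1 h.symm))
    obtain ⟨x, hx⟩ := Cfsg.Agent.PermLib.exists_forall_smul_ne (G := G) (α := G ⧸ M)
    obtain ⟨g, hg⟩ := hcov x
    apply hx (g : G ⧸ M)
    rw [Subgroup.mem_pointwise_smul_iff_inv_smul_mem, ← map_inv, MulAut.smul_def, MulAut.conj_apply,
      inv_inv] at hg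
    rw [MulAction.Quotient.smul_coe, QuotientGroup.eq, smul_eq_mul]
    have e : (x * g)⁻¹ * g = (g⁻¹ * x * g)⁻¹ := by group
    rw [e]; exact inv_mem hg
  obtain ⟨x, hx⟩ := hcyc
  have hc : IsCyclic G := ⟨x, fun y => (hx ▸ Subgroup.mem_top y : y ∈ Subgroup.zpowers x)⟩
  refine ⟨hc, ?_⟩
  let _ : CommGroup G := IsCyclic.commGroup
  have huniq : ∀ N : Subgroup G, IsCoatom N → N = M := by
    intro N hN
    obtain ⟨g, hg⟩ := h M N hM hN
    have : M.Normal := M.normal_of_isMulCommutative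
    rw [hg]
    exact Subgroup.Normal.conj_smul_eq_self g M
  have hcard : 1 < Nat.card G := Finite.one_lt_card
  obtain ⟨q, hq, hqd⟩ := Nat.exists_prime_and_dvd hcard.ne'
  by_contra hnp
  obtain ⟨r, hr, hrd, hrq⟩ : ∃ r, r.Prime ∧ r ∣ Nat.card G ∧ r ≠ q := by
    by_contra hno
    push Not at hno
    exact hnp ((isPrimePow_iff_unique_prime_dvd).2 ⟨q, ⟨hq, hqd⟩, fun r hr => hno r hr.1 hr.2⟩)
  have hq' : Fact q.Prime := ⟨hq⟩
  have hr' : Fact r.Prime := ⟨hr⟩
  obtain ⟨a, ha⟩ := exists_prime_orderOf_dvd_card' r hrd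
  obtain ⟨Qs⟩ : Nonempty (Sylow q G) := inferInstance
  obtain ⟨Rs⟩ : Nonempty (Sylow r G) := inferInstance
  -- all Sylow subgroups lie in `M`
  have hle : ∀ (s : ℕ) [Fact s.Prime] (S : Sylow s G), (S : Subgroup G) ≤ M := by
    intro s _ S
    by_cases hS : (S : Subgroup G) = ⊤
    · exfalso
      have hp : IsPGroup s G := fun y => by
        obtain ⟨k, hk⟩ := S.isPGroup' ⟨y, hS ▸ Subgroup.mem_top y⟩
        exact ⟨k, by simpa using congrArg Subtype.val hk⟩
      obtain ⟨k, hk⟩ := hp.exists_card_eq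
      have e1 := (Nat.prime_dvd_prime_iff_eq hq Fact.out).1 (hq.dvd_of_dvd_pow (hk ▸ hqd))
      have e2 := (Nat.prime_dvd_prime_iff_eq hr Fact.out).1 (hr.dvd_of_dvd_pow (hk ▸ hrd))
      exact hrq (e2.trans e1.symm)
    · obtain ⟨N, hN, hSN⟩ := hproper _ hS
      exact huniq N hN ▸ hSN
  have hdvd : Nat.card G ∣ Nat.card M := by
    rw [← Nat.factorization_le_iff_dvd Nat.card_pos.ne' Nat.card_pos.ne']
    intro s
    by_cases hs : s.Prime
    · have : Fact s.Prime := ⟨hs⟩
      obtain ⟨S⟩ : Nonempty (Sylow s G) := inferInstance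
      have := Subgroup.card_dvd_of_le (hle s S)
      rw [S.card_eq_multiplicity] at this
      exact (hs.pow_dvd_iff_le_factorization Nat.card_pos.ne').1 this
    · simp [Nat.factorization_eq_zero_of_not_prime _ hs]
  exact hM.1 (Subgroup.eq_top_of_card_eq M
    (Nat.dvd_antisymm (Subgroup.card_subgroup_dvd_card M) hdvd))

end Cfsg.Agent.S4387
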