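import Cfsg.Statements.S4396
import Cfsg.Agent.FrobModule.Main
import Cfsg.Agent.Lib.FrobeniusGroup

set_option autoImplicit false
open Cfsg
open scoped Pointwise commutatorElement

namespace Cfsg.Agent.S4396

/-- Let the finite group A act faithfully and linearly on a finite-dimensional vector space V over a field k, and suppose A is a Frobenius group with nilpotent kernel F (every Frobenius kernel is nilpotent) and complement H such that F fixes no nonzero vector. Then V is free as a module for H: there is a subspace W with V the direct sum of the translates hW, h ∈ H. (No assumption on the characteristic of k.) -/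
theorem result {k V A : Type*} [Field k] [AddCommGroup V] [Module k V] [FiniteDimensional k V] [Group A] [Finite A] [DecidableEq A]
    (ρ : Representation k A V) (hρ : Function.Injective ρ)
    (Fk Hc : Subgroup A) [Fk.Normal] (hHc : Cfsg.IsFrobeniusComplement Hc) (hker : Cfsg.frobeniusKernel Hc = (Fk : Set A)) (hnil : Group.IsNilpotent ↥Fk)
    (hCF : ∀ v : V, (∀ f ∈ Fk, ρ f v = v) → v = 0) :
    ∃ W : Submodule k V, DirectSum.IsInternal (fun h : ↥Hc => W.map (ρ (h : A))) := by
  classical
  have hd : Disjoint Fk Hc := by
    rw [Subgroup.disjoint_def]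
    intro x hx hxH
    have h1 : x ∈ Cfsg.frobeniusKernel Hc := by rw [hker]; exact hx
    rcases h1 with h | h
    · exact h
    · exact absurd (by simpa using hxH) (h 1)
  have hfpf : ∀ h ∈ Hc, ∀ x ∈ Fk, h ≠ 1 → h * x * h⁻¹ = x → x = 1 := fun h hh x hx h1 e => by
    have hc : x ∈ Subgroup.centralizer {h} := by
      rw [Subgroup.mem_centralizer_singleton_iff]
      first
        | exact mul_inv_eq_iff_eq_mul.1 e
        | exact (mul_inv_eq_iff_eq_mul.1 e).symm
    have h2 : x ∈ Fk ⊓ Subgroup.centralizer {h} := ⟨hx, hc⟩
    rwa [Cfsg.Agent.Frobenius.fpf_of_disjoint hHc hd hh h1, Subgroup.mem_bot] at h2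
  obtain ⟨W, hW, hWd⟩ := FrobModule.exists_free (H := Hc) hnil hfpf _ ρ le_rfl hCF
  refine ⟨W, ?_⟩
  convert FrobModule.isInternal_of_hSpan ρ Hc W hW hWd

end Cfsg.Agent.S4396
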