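import Cfsg.Statements.S4398
import Cfsg.Agent.TwoGroups.SectionalTwo
import Cfsg.Agent.TwoGroups.Shapes

set_option autoImplicit false
open Cfsg

namespace Cfsg.Agent.S4398

/-- Let S be a finite 2-group of sectional 2-rank at most 2 that contains a subgroup isomorphic to the dihedral group of order 8 or to the quaternion group of order 8. Then S is dihedral of order at least 8, semidihedral of order at least 16 (order 2^(k+4) with an element a of order 2^(k+3) and an involution b with b a b⁻¹ = a^(2^(k+2)−1)), or generalized quaternion of order at least 8. -/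
theorem result {S : Type*} [Group S] [Finite S] (h2 : IsPGroup 2 S) (hr : Cfsg.SectionalPRankLE 2 2 S)
    (hsub : ∃ H : Subgroup S, Nonempty (↥H ≃* DihedralGroup 4) ∨ Nonempty (↥H ≃* QuaternionGroup 2)) :
    ((∃ k : ℕ, Nonempty (S ≃* DihedralGroup (2 ^ (k + 2)))) ∨
      (∃ k : ℕ, Nat.card S = 2 ^ (k + 4) ∧ ∃ a b : S, orderOf a = 2 ^ (k + 3) ∧ orderOf b = 2 ∧ b * a * b⁻¹ = a ^ (2 ^ (k + 2) - 1)) ∨
      (∃ k : ℕ, Nonempty (S ≃* QuaternionGroup (2 ^ (k + 1))))) := by
  obtain ⟨H, hH⟩ := hsub
  obtain ⟨h8, x, y, hxy⟩ : Nat.card H = 8 ∧ ∃ x y : H, x * y ≠ y * x := by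
    rcases hH with ⟨⟨e⟩⟩ | ⟨⟨e⟩⟩
    · refine ⟨by rw [Nat.card_congr e.toEquiv, Nat.card_eq_fintype_card, DihedralGroup.card],
        e.symm (DihedralGroup.r 1), e.symm (DihedralGroup.sr 0), fun h => ?_⟩
      rw [← map_mul, ← map_mul] at h
      exact absurd (e.symm.injective h) (by decide)
    · refine ⟨by rw [Nat.card_congr e.toEquiv, Nat.card_eq_fintype_card, QuaternionGroup.card],
        e.symm (QuaternionGroup.a 1), e.symm (QuaternionGroup.xa 0), fun h => ?_⟩
      rw [← map_mul, ← map_mul] at h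
      exact absurd (e.symm.injective h) (by decide)
  have h4 := Cfsg.Agent.TwoGroups.index_commutator_of_sectional h2 hr h8
    ⟨x, x.2, y, y.2, fun h => hxy (Subtype.ext h)⟩
  rcases Cfsg.Agent.TwoGroups.maxClassShape_of_index_commutator_eq_four h2 h4 with h | h
  · exfalso
    have h1 := Subgroup.card_subgroup_dvd_card H
    rw [h8, h] at h1
    norm_num at h1
  · exact h

end Cfsg.Agent.S4398
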