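import Cfsg.Statements.S4400
import Cfsg.Agent.TwoGroups.SectionalFour

set_option autoImplicit false
open Cfsg

namespace Cfsg.Agent.S4400

/-- Let S be a finite 2-group of sectional 2-rank at most 4, and let P and Q be normal non-abelian subgroups of S whose centres have order 2 and are different. Then P and Q commute elementwise and intersect trivially, and PQ contains its own centralizer in S. -/
theorem result {S : Type*} [Group S] [Finite S] (h2 : IsPGroup 2 S) (hr : Cfsg.SectionalPRankLE 2 4 S)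
    (P Q : Subgroup S) [P.Normal] [Q.Normal] (hP : ¬ IsMulCommutative ↥P) (hQ : ¬ IsMulCommutative ↥Q)
    (hZP : Nat.card ↥(Subgroup.center ↥P) = 2) (hZQ : Nat.card ↥(Subgroup.center ↥Q) = 2)
    (hne : (Subgroup.center ↥P).map P.subtype ≠ (Subgroup.center ↥Q).map Q.subtype) :
    ⁅P, Q⁆ = ⊥ ∧ P ⊓ Q = ⊥ ∧ Subgroup.centralizer ((P ⊔ Q : Subgroup S) : Set S) ≤ P ⊔ Q := by
  obtain ⟨z, hz, hzc⟩ := Cfsg.Agent.TwoGroups.CenterTwo.of_card hP hZP
  obtain ⟨w, hw, hwc⟩ := Cfsg.Agent.TwoGroups.CenterTwo.of_card hQ hZQ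
  have hzw : z ≠ w := fun e => hne (Subgroup.ext fun x => by rw [hzc, hwc, e])
  obtain ⟨h1, h2', h3⟩ := Cfsg.Agent.TwoGroups.pair_main h2 hr hz hw hzw
  refine ⟨?_, h2', fun y hy => h3 y (fun p hp => (Subgroup.mem_centralizer_iff.1 hy p (Subgroup.mem_sup_left hp)).symm)
    (fun q hq => (Subgroup.mem_centralizer_iff.1 hy q (Subgroup.mem_sup_right hq)).symm)⟩
  rw [Subgroup.commutator_eq_bot_iff_le_centralizer]
  exact fun p hp => Subgroup.mem_centralizer_iff.2 fun q hq => (h1 p hp q hq).symm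

end Cfsg.Agent.S4400
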