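import Cfsg.Statements.S4402
import Cfsg.Agent.TwoGroups.WreathEightMain

set_option autoImplicit false
open Cfsg

namespace Cfsg.Agent.S4402

/-- Let S be a finite 2-group of sectional 2-rank at most 4 and P a proper subgroup isomorphic to the wreath product of the dihedral group of order 8 by a group of order 2 (equivalently, to a Sylow 2-subgroup of the symmetric group of degree 8; order 128). Then Z(S) = Z(P) has order 2, P has index 2 in its normalizer N_S(P), N_S(P)/Z(S) is again isomorphic to that wreath product, and every elementary abelian subgroup V of order 16 that is normal in P satisfies N_S(V) = P. -/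
theorem result {S : Type*} [Group S] [Finite S] (h2 : IsPGroup 2 S) (hr : Cfsg.SectionalPRankLE 2 4 S)
    (P : Subgroup S) (hPlt : P ≠ ⊤) (hP : ∃ T : Sylow 2 (Equiv.Perm (Fin 8)), Nonempty (↥P ≃* ↥(T : Subgroup (Equiv.Perm (Fin 8))))) :
    Subgroup.center S = (Subgroup.center ↥P).map P.subtype ∧ Nat.card ↥(Subgroup.center S) = 2 ∧
    P.relIndex (Subgroup.normalizer (P : Set S)) = 2 ∧
    (∃ (_ : ((Subgroup.center S).subgroupOf (Subgroup.normalizer (P : Set S))).Normal) (T : Sylow 2 (Equiv.Perm (Fin 8))),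
      Nonempty (↥(Subgroup.normalizer (P : Set S)) ⧸ (Subgroup.center S).subgroupOf (Subgroup.normalizer (P : Set S)) ≃*
        ↥(T : Subgroup (Equiv.Perm (Fin 8))))) ∧
    ∀ V : Subgroup S, V ≤ P → (∀ g ∈ P, ∀ v ∈ V, g * v * g⁻¹ ∈ V) → Cfsg.IsElementaryAbelian 2 V → Nat.card ↥V = 16 →
      Subgroup.normalizer (V : Set S) = P := by
  obtain ⟨d⟩ := Cfsg.Agent.TwoGroups.W8.exists_data hP
  have hz : d.z ∈ P := d.mem _
  have hne : d.z ≠ 1 := fun e =>
    absurd (d.finj (e.trans d.fone.symm)).1 (by decide +kernel)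
  have hcen : Subgroup.center S = (Subgroup.center ↥P).map P.subtype := by
    ext x
    rw [d.center_eq h2 hr]
    constructor
    · rintro (rfl | rfl)
      · exact one_mem _
      · exact ⟨⟨d.z, hz⟩, Subgroup.mem_center_iff.2 fun y => Subtype.ext (d.z_comm y.2).symm, rfl⟩
    · rintro ⟨w, hw, rfl⟩
      exact d.central_P w.2 fun y hy =>
        (congrArg Subtype.val (Subgroup.mem_center_iff.1 hw ⟨y, hy⟩)).symm
  refine ⟨hcen, ?_, ?_, ?_, ?_⟩
  · rw [Nat.card_eq_two_iff' (1 : Subgroup.center S)]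
    refine ⟨⟨d.z, (d.center_eq h2 hr _).2 (Or.inr rfl)⟩, fun e => hne (congrArg Subtype.val e), ?_⟩
    intro w hw
    rcases (d.center_eq h2 hr _).1 w.2 with e | e
    · exact absurd (Subtype.ext e) hw
    · exact Subtype.ext e
  · obtain ⟨_, -, -, h⟩ := d.relIndex_two h2 hr hPlt
    exact h
  · obtain ⟨T, -⟩ := hP
    haveI hn : ((Subgroup.center S).subgroupOf (Subgroup.normalizer (P : Set S))).Normal :=
      inferInstance
    exact ⟨hn, T, d.quotient_iso h2 hr hPlt T⟩
  · intro V hle hn hV hcard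
    refine d.normalizer_V h2 hr (d.classify hle hn (fun v hv => ?_) (fun a ha b hb => ?_) hcard)
    · rw [← pow_two]
      exact hV.2 v hv
    · exact congrArg Subtype.val (hV.1.is_comm.comm ⟨a, ha⟩ ⟨b, hb⟩)

end Cfsg.Agent.S4402
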