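import Cfsg.Statements.S4403
import Cfsg.Agent.FGS4.CyclicSylowStructure
import Cfsg.Agent.Classif.KProper
import Cfsg.Agent.Cores.Basic

set_option autoImplicit false
open Cfsg

namespace Cfsg.Agent.S4403

/-- Let K be a finite group, p a prime dividing its order with O_{p'}(K) = 1 (no nontrivial normal subgroup of order prime to p), and P a cyclic Sylow p-subgroup of K. Then either P is normal and self-centralizing in K with K/P cyclic of order dividing p − 1 (so K is the semidirect product of P by a group of automorphisms of P of order dividing p − 1), or the generalized Fitting subgroup F*(K) is a non-abelian simple group and p does not divide the index of F*(K) in K. -/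
theorem result {K : Type*} [Group K] [Finite K] (p : ℕ) [Fact p.Prime] (hp : p ∣ Nat.card K) (hO : Cfsg.pPrimeCore p K = ⊥)
    (P : Sylow p K) (hP : IsCyclic ↥(P : Subgroup K)) :
    ((P : Subgroup K).Normal ∧ Subgroup.centralizer ((P : Subgroup K) : Set K) = (P : Subgroup K) ∧
      (∀ (_ : (P : Subgroup K).Normal), IsCyclic (K ⧸ (P : Subgroup K))) ∧ (P : Subgroup K).index ∣ p - 1) ∨
    (IsSimpleGroup ↥(Cfsg.generalizedFittingSubgroup K) ∧ ¬ IsMulCommutative ↥(Cfsg.generalizedFittingSubgroup K) ∧
      ¬ p ∣ (Cfsg.generalizedFittingSubgroup K).index) := by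
  have hpp : p.Prime := Fact.out
  haveI := Cfsg.Agent.Components.genFitting_normal (G := K)
  have hfit : Cfsg.fittingSubgroup K = Cfsg.pCore p K := Cfsg.Agent.Components.fitting_eq_pCore hO
  obtain ⟨⟨x₀, hx₀⟩, hgen⟩ := IsCyclic.exists_generator (α := (P : Subgroup K))
  haveI := hP
  letI : CommGroup (P : Subgroup K) := IsCyclic.commGroup
  by_cases hlay : Cfsg.layer K = ⊥
  · left
    have hF : Cfsg.generalizedFittingSubgroup K = Cfsg.pCore p K := by
      rw [Cfsg.generalizedFittingSubgroup, hlay, bot_sup_eq, hfit]
    have hC : Subgroup.centralizer (Cfsg.pCore p K : Set K) ≤ Cfsg.pCore p K := by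
      rw [← hF]; exact Cfsg.Agent.Components.centralizer_genFitting_le
    have hRP : Cfsg.pCore p K ≤ (P : Subgroup K) := Cfsg.Agent.Cores.pCore_le_sylow P
    have hPC : (P : Subgroup K) ≤ Subgroup.centralizer (Cfsg.pCore p K : Set K) := fun u hu =>
      Subgroup.mem_centralizer_iff.2 fun v hv =>
        congrArg Subtype.val (mul_comm (⟨v, hRP hv⟩ : (P : Subgroup K)) ⟨u, hu⟩)
    have hPR : (P : Subgroup K) = Cfsg.pCore p K := le_antisymm (hPC.trans hC) hRP
    have hPn : (P : Subgroup K).Normal := by rw [hPR]; infer_instance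
    have hCP : Subgroup.centralizer ((P : Subgroup K) : Set K) = (P : Subgroup K) := by
      refine le_antisymm ?_ fun u hu => Subgroup.mem_centralizer_iff.2 fun v hv =>
        congrArg Subtype.val (mul_comm (⟨v, hv⟩ : (P : Subgroup K)) ⟨u, hu⟩)
      rw [hPR]; exact hC
    let φ : K →* MulAut (P : Subgroup K) := MulAut.conjNormal
    have hker : φ.ker = (P : Subgroup K) := by
      conv_rhs => rw [← hCP]
      ext g
      rw [MonoidHom.mem_ker, Subgroup.mem_centralizer_iff]
      constructor
      · intro h v hv
        have h' := congrArg Subtype.val (DFunLike.congr_fun h ⟨v, hv⟩)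
        rw [MulAut.one_apply, MulAut.conjNormal_apply] at h'
        exact (mul_inv_eq_iff_eq_mul.1 h').symm
      · intro h
        refine MulEquiv.ext fun v => Subtype.ext ?_
        rw [MulAut.one_apply, MulAut.conjNormal_apply, ← h v v.2, mul_inv_cancel_right]
    have hidx : (P : Subgroup K).index = Nat.card φ.range :=
      (congrArg Subgroup.index hker).symm.trans (Subgroup.index_ker φ)
    obtain ⟨m, hm⟩ := IsPGroup.iff_card.1 P.2
    have hm1 : 1 ≤ m := by
      rcases Nat.eq_zero_or_pos m with rfl | h
      · have := P.dvd_card_of_dvd_card hp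
        rw [hm, pow_zero, Nat.dvd_one] at this
        exact absurd this hpp.ne_one
      · exact h
    have hdvd : (P : Subgroup K).index ∣ p - 1 := by
      have h1 : Nat.card φ.range ∣ p ^ (m - 1) * (p - 1) := by
        have h2 := φ.range.card_subgroup_dvd_card
        rwa [IsCyclic.card_mulAut, hm, Nat.totient_prime_pow hpp hm1] at h2
      rw [hidx]
      refine Nat.Coprime.dvd_of_dvd_mul_left ?_ h1
      rw [← hidx]
      exact (Nat.Coprime.pow_right _ ((hpp.coprime_iff_not_dvd.2 P.not_dvd_index).symm))
    refine ⟨hPn, hCP, fun _ => ?_, hdvd⟩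
    rcases eq_or_ne p 2 with rfl | hp2
    · have h1 : Nat.card (K ⧸ (P : Subgroup K)) = 1 := by
        rw [← Subgroup.index_eq_card]; exact Nat.dvd_one.1 hdvd
      haveI : Subsingleton (K ⧸ (P : Subgroup K)) := (Nat.card_eq_one_iff_unique.1 h1).1
      infer_instance
    · let ψ : MulAut (P : Subgroup K) ≃* (ZMod (Nat.card (P : Subgroup K)))ˣ :=
        IsCyclic.mulAutMulEquiv (P : Subgroup K)
      haveI : IsCyclic (MulAut (P : Subgroup K)) := by
        haveI : IsCyclic (ZMod (Nat.card (P : Subgroup K)))ˣ := by
          rw [hm]; exact ZMod.isCyclic_units_of_prime_pow p hpp hp2 m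
        exact isCyclic_of_surjective ψ.symm ψ.symm.surjective
      let e : K ⧸ (P : Subgroup K) ≃* φ.range :=
        (QuotientGroup.quotientMulEquivOfEq hker.symm).trans (QuotientGroup.quotientKerEquivRange φ)
      exact isCyclic_of_surjective e.symm e.symm.surjective
  · right
    obtain ⟨L, hL⟩ : ∃ L : Subgroup K, Cfsg.IsComponent L := by
      by_contra hno
      exact hlay (Cfsg.Agent.Components.layer_eq_bot_iff.2 fun L hL => hno ⟨L, hL⟩)
    -- components have trivial centre
    have hperf : ∀ M : Subgroup K, Cfsg.IsComponent M → commutator M = ⊤ := fun M hM =>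
      hM.2.1.commutator_eq_top
    have hnpc : ∀ M : Subgroup K, Cfsg.IsComponent M → ¬ Cfsg.HasNormalPComplement p M := fun M hM =>
      Cfsg.Agent.FGS4.not_hasNormalPComplement_of_perfect (hperf M hM)
        (Cfsg.Agent.Components.component_card_dvd_of_pPrimeCore_eq_bot hO hM)
    have hcentre : ∀ M : Subgroup K, Cfsg.IsComponent M → Subgroup.center M = ⊥ := by
      intro M hM
      by_contra hne
      obtain ⟨z, hz, hz1⟩ := (Subgroup.bot_or_exists_ne_one _).resolve_left hne
      obtain ⟨T⟩ : Nonempty (Sylow p M) := inferInstance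
      obtain ⟨T', hT'⟩ := T.2.map M.subtype |>.exists_le_sylow
      haveI := Cfsg.Agent.FGS4.isCyclic_sylow P hP T'
      have hTc : IsCyclic (T : Subgroup M) :=
        isCyclic_of_injective (f := ({
          toFun := fun u => ⟨((u : M) : K), hT' ⟨_, u.2, rfl⟩⟩
          map_one' := rfl
          map_mul' := fun _ _ => rfl } : (T : Subgroup M) →* (T' : Subgroup K)))
          fun u v h => Subtype.ext (Subtype.ext (congrArg (fun w : (T' : Subgroup K) => (w : K)) h))
      have hzT : z ∈ (T : Subgroup M) := by
        have hzp := Cfsg.Agent.Classif.center_isPGroup_of_pPrimeCore_eq_bot hO hM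
        exact (IsPGroup.le_sylow_of_normal hzp T) hz
      exact hnpc M hM (Cfsg.Agent.FGSev.hasNormalPComplement_of_cyclic_sylow_central T hTc hzT hz1 hz)
    -- an element of order `p` in a component
    have helt : ∀ M : Subgroup K, Cfsg.IsComponent M → ∃ y ∈ M, orderOf y = p := fun M hM => by
      obtain ⟨y, hy⟩ := exists_prime_orderOf_dvd_card' (G := M) p
        (Cfsg.Agent.Components.component_card_dvd_of_pPrimeCore_eq_bot hO hM)
      exact ⟨y, y.2, by rw [Subgroup.orderOf_coe, hy]⟩
    -- nothing of order `p` centralises a component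
    have hkey : ∀ M : Subgroup K, Cfsg.IsComponent M → ∀ x : K, x ^ p = 1 →
        x ∈ Subgroup.centralizer (M : Set K) → x = 1 := by
      intro M hM x hx hxC
      obtain ⟨y, hyM, hy⟩ := helt M hM
      have hc : Commute x y := (Subgroup.mem_centralizer_iff.1 hxC y hyM).symm
      have hxM : x ∈ M := Subgroup.zpowers_le.2 hyM
        (Cfsg.Agent.FGS4.mem_zpowers_of_commute P hP hx hy hc)
      have : (⟨x, hxM⟩ : M) ∈ Subgroup.center M := Subgroup.mem_center_iff.2 fun v =>
        Subtype.ext (Subgroup.mem_centralizer_iff.1 hxC v v.2)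
      rw [hcentre M hM, Subgroup.mem_bot] at this
      exact congrArg Subtype.val this
    have huniq : ∀ M : Subgroup K, Cfsg.IsComponent M → M = L := by
      intro M hM
      by_contra hne
      obtain ⟨y, hyM, hy⟩ := helt M hM
      have hC : M ≤ Subgroup.centralizer (L : Set K) :=
        Subgroup.commutator_eq_bot_iff_le_centralizer.1 (Cfsg.Agent.Components.component_commute hM hL hne)
      have := hkey L hL y (by rw [← hy]; exact pow_orderOf_eq_one y) (hC hyM)
      rw [this, orderOf_one] at hy
      exact hpp.one_lt.ne hy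
    have hlayL : Cfsg.layer K = L := le_antisymm
      (Cfsg.Agent.Components.layer_le_iff.2 fun M hM => (huniq M hM).le)
      (Cfsg.Agent.Components.component_le_layer hL)
    have hcore : Cfsg.pCore p K = ⊥ := by
      by_contra hne
      haveI : Nontrivial ↥(Cfsg.pCore p K) := (Subgroup.nontrivial_iff_ne_bot _).2 hne
      obtain ⟨k, hk⟩ := IsPGroup.iff_card.1 (Cfsg.Agent.Cores.pCore_isPGroup (p := p) (G := K))
      have hk0 : k ≠ 0 := by
        rintro rfl
        exact hne (Subgroup.eq_bot_of_card_eq _ (by rw [hk, pow_zero]))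
      obtain ⟨x, hx⟩ := exists_prime_orderOf_dvd_card' (G := ↥(Cfsg.pCore p K)) p
        (by rw [hk]; exact dvd_pow_self p hk0)
      have hxC : (x : K) ∈ Subgroup.centralizer (L : Set K) := by
        have h0 : ⁅Cfsg.fittingSubgroup K, L⁆ = ⊥ := by
          rw [Subgroup.commutator_comm]
          exact Cfsg.Agent.Components.component_centralizes_fitting hL
        exact Subgroup.commutator_eq_bot_iff_le_centralizer.1 h0 (by rw [hfit]; exact x.2)
      have hxp : (x : K) ^ orderOf (x : K) = 1 := pow_orderOf_eq_one _
      rw [Subgroup.orderOf_coe, hx] at hxp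
      have hx1 := hkey L hL x hxp hxC
      rw [← Subgroup.orderOf_coe, hx1, orderOf_one] at hx
      exact hpp.one_lt.ne hx
    have hF : Cfsg.generalizedFittingSubgroup K = L := by
      rw [Cfsg.generalizedFittingSubgroup, hlayL, hfit, hcore, sup_bot_eq]
    rw [hF]
    haveI : L.Normal := by rw [← hlayL]; exact Cfsg.Agent.Components.layer_normal
    haveI := Cfsg.Agent.Components.quasisimple_nontrivial hL.2
    refine ⟨⟨fun N hN => ?_⟩, fun hc => ?_, Cfsg.Agent.FGS4.not_dvd_index P hP L (hnpc L hL)⟩
    · rcases Cfsg.Agent.Components.quasisimple_normal hL.2 hN with h | h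
      · exact Or.inr h
      · rw [hcentre L hL, le_bot_iff] at h
        exact Or.inl h
    · apply Cfsg.Agent.Components.quasisimple_center_ne_top hL.2
      exact eq_top_iff.2 fun u _ => Subgroup.mem_center_iff.2 fun v => mul_comm' v u

end Cfsg.Agent.S4403
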