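import Cfsg.Statements.S4404
import Cfsg.Agent.Reflect.Final

set_option autoImplicit false
open Cfsg
open scoped Pointwise commutatorElement

namespace Cfsg.Agent.S4404

/-- Let S be a finite solvable group and M a normal elementary abelian 2-subgroup of S. Suppose S contains an elementary abelian subgroup of order p³ for some odd prime p, and a cyclic 3-subgroup Q such that the cubes of the elements of Q centralize M and the commutator subgroup [Q, M] has order 4 (a four-group inside M). Then S contains an elementary abelian subgroup F of order r³, for some odd prime r, whose centralizer of [Q, M] in F — the subgroup C_F([Q, M]) — is not cyclic. -/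
theorem result {S : Type*} [Group S] [Finite S]
    [Group.IsSolvable S] (M : Subgroup S) [M.Normal] (hM : Cfsg.IsElementaryAbelian 2 M)
    (p : ℕ) (hp : p.Prime) (hp2 : p ≠ 2) (E : Subgroup S) (hE : Cfsg.IsElementaryAbelian p E) (hE3 : Nat.card ↥E = p ^ 3)
    (Q : Subgroup S) (hQc : IsCyclic ↥Q) (hQ3 : IsPGroup 3 ↥Q)
    (hQ1 : ∀ x ∈ Q, x ^ 3 ∈ Subgroup.centralizer (M : Set S)) (hQM : Nat.card ↥⁅Q, M⁆ = 4) :
    ∃ (r : ℕ) (F : Subgroup S), r.Prime ∧ r ≠ 2 ∧ Cfsg.IsElementaryAbelian r F ∧ Nat.card ↥F = r ^ 3 ∧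
      ¬ IsCyclic ↥(F ⊓ Subgroup.centralizer ((⁅Q, M⁆ : Subgroup S) : Set S)) := by
  exact Reflect.exists_noncyclic_centralizer M hM p hp hp2 E hE hE3 Q hQc hQ3 hQ1 hQM

end Cfsg.Agent.S4404
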