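import Cfsg.Statements.S4405
import Cfsg.Agent.PSolv.Cores
import Cfsg.Agent.PGroup.Extraspecial

set_option autoImplicit false
open Cfsg
open scoped commutatorElement
set_option linter.style.haveILetI false

namespace Cfsg.Agent.S4405

/-- An involution inverting an element of order five acting fixed-point-freely on an elementary
abelian group of order 16 has exactly its commutators as fixed points, four of them. -/
theorem fixed_le_four {K : Type*} [Group K] [Finite K] (Q : Subgroup K) [Q.Normal]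
    (hab : ∀ x ∈ Q, ∀ y ∈ Q, x * y = y * x) (h2 : ∀ x ∈ Q, x ^ 2 = 1) (h16 : Nat.card Q = 16)
    {t a h : K} (ht : t * t = 1) (hh : h ∈ Q) (hta : t * a * t = a⁻¹ * h)
    (hfix : ∀ q ∈ Q, a ^ 2 * q = q * a ^ 2 → q = 1) :
    Nat.card ↥(Q ⊓ Subgroup.centralizer ({t} : Set K)) ≤ 4 ∧
      (Nat.card ↥(Q ⊓ Subgroup.centralizer ({t} : Set K)) = 4 →
        ∀ w ∈ Q ⊓ Subgroup.centralizer ({t} : Set K), ∃ q ∈ Q, q⁻¹ * (t * q * t) = w) := by
  set W := Q ⊓ Subgroup.centralizer ({t} : Set K) with hWdef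
  have hti : t⁻¹ = t := inv_eq_of_mul_eq_one_right ht
  have hconj : ∀ g : K, ∀ q ∈ Q, g * q * g⁻¹ ∈ Q := fun g q hq =>
    (inferInstance : Q.Normal).conj_mem q hq g
  have htQ : ∀ q ∈ Q, t * q * t ∈ Q := fun q hq => by
    have := hconj t q hq
    rwa [hti] at this
  have hinv : ∀ q ∈ Q, q⁻¹ = q := fun q hq =>
    inv_eq_of_mul_eq_one_right (by rw [← sq, h2 q hq])
  have hWt : ∀ w ∈ W, t * w * t = w := fun w hw => by
    have h1 : w * t = t * w := Subgroup.mem_centralizer_singleton_iff.mp hw.2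
    rw [← h1, mul_assoc, ht, mul_one]
  have hconjt : ∀ x y : K, t * (x * y) * t = (t * x * t) * (t * y * t) := fun x y => by
    rw [show (t * x * t) * (t * y * t) = t * x * (t * t) * y * t by group, ht]
    group
  have hsmall : Nat.card W * Nat.card W ≤ 16 := by
    rw [← h16, ← Nat.card_prod]
    refine Nat.card_le_card_of_injective
      (fun r : W × W => (⟨(r.1 : K) * (a * r.2 * a⁻¹), mul_mem r.1.2.1 (hconj a _ r.2.2.1)⟩ : Q))
      ?_
    rintro ⟨x, y⟩ ⟨x', y'⟩ he
    simp only [Subtype.mk.injEq] at he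
    have hmem : a * ((y : K) * (y' : K)⁻¹) * a⁻¹ ∈ W := by
      have h1 : a * ((y : K) * (y' : K)⁻¹) * a⁻¹ = (x : K)⁻¹ * x' := by
        have h0 : (a * y * a⁻¹ : K) = (x : K)⁻¹ * (x' * (a * y' * a⁻¹)) :=
          eq_inv_mul_iff_mul_eq.mpr he
        calc a * ((y : K) * (y' : K)⁻¹) * a⁻¹ = (a * y * a⁻¹) * (a * y' * a⁻¹)⁻¹ := by group
          _ = (x : K)⁻¹ * x' := by rw [h0]; group
      rw [h1]
      exact mul_mem (inv_mem x.2) x'.2
    have hd : ((y : K) * (y' : K)⁻¹) ∈ W := mul_mem y.2 (inv_mem y'.2)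
    set d := (y : K) * (y' : K)⁻¹ with hdd
    have e1 : t * (a * d * a⁻¹) * t = a * d * a⁻¹ := hWt _ hmem
    have e2 : t * (a * d * a⁻¹) * t = a⁻¹ * d * a := by
      have hai : t * a⁻¹ * t = h⁻¹ * a := by
        have := congrArg (fun u => u⁻¹) hta
        simpa [mul_inv_rev, hti, mul_assoc] using this
      rw [hconjt, hconjt, hta, hai, hWt d hd]
      rw [show a⁻¹ * h * d * (h⁻¹ * a) = a⁻¹ * (h * d) * h⁻¹ * a by group, hab h hh d hd.1]
      group
    have e3 : a ^ 2 * d = d * a ^ 2 := by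
      have e4 := e2.symm.trans e1
      calc a ^ 2 * d = a * (a * d * a⁻¹) * a := by rw [sq]; group
        _ = a * (a⁻¹ * d * a) * a := by rw [e4]
        _ = d * a ^ 2 := by rw [sq]; group
    have hd1 : d = 1 := hfix d hd.1 e3
    have hy : y = y' := Subtype.ext (mul_inv_eq_one.mp hd1)
    subst hy
    have hx : x = x' := Subtype.ext (mul_right_cancel he)
    rw [hx]
  refine ⟨by nlinarith, fun h4 => ?_⟩
  let δ : Q →* Q :=
    { toFun := fun q => ⟨(q : K)⁻¹ * (t * q * t), mul_mem (inv_mem q.2) (htQ _ q.2)⟩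
      map_one' := Subtype.ext (by simp [ht])
      map_mul' := fun x y => Subtype.ext (by
        show ((x : K) * y)⁻¹ * (t * (x * y) * t) =
          (x : K)⁻¹ * (t * x * t) * ((y : K)⁻¹ * (t * y * t))
        rw [hconjt, mul_inv_rev,
          show (y : K)⁻¹ * (x : K)⁻¹ * (t * x * t * (t * y * t)) =
            (y : K)⁻¹ * ((x : K)⁻¹ * (t * x * t)) * (t * y * t) by group,
          hab _ (inv_mem y.2) _ (mul_mem (inv_mem x.2) (htQ _ x.2))]
        group) }
  have hker : δ.ker = W.subgroupOf Q := by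
    ext q
    rw [MonoidHom.mem_ker, Subgroup.mem_subgroupOf]
    constructor
    · intro hq
      have h1 : (q : K)⁻¹ * (t * q * t) = 1 := congrArg Subtype.val hq
      rw [inv_mul_eq_one] at h1
      refine ⟨q.2, Subgroup.mem_centralizer_singleton_iff.mpr ?_⟩
      calc (q : K) * t = t * q * t * t := by rw [← h1]
        _ = t * q := by rw [mul_assoc _ t t, ht, mul_one]
    · intro hq
      exact Subtype.ext (show (q : K)⁻¹ * (t * q * t) = 1 by rw [hWt _ hq, inv_mul_cancel])
  have hr : Nat.card δ.range = 4 := by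
    have h1 := Subgroup.card_mul_index (MonoidHom.ker δ)
    rw [Subgroup.index_ker, hker, Nat.card_congr (Subgroup.subgroupOfEquivOfLe
      (inf_le_left : W ≤ Q)).toEquiv, h4, h16] at h1
    omega
  have hrW : δ.range.map Q.subtype = W := by
    refine Subgroup.eq_of_le_of_card_ge ?_ ?_
    · rintro - ⟨-, ⟨q, rfl⟩, rfl⟩
      refine ⟨(δ q).2, Subgroup.mem_centralizer_singleton_iff.mpr ?_⟩
      show (q : K)⁻¹ * (t * q * t) * t = t * ((q : K)⁻¹ * (t * q * t))
      have h1 : t * ((q : K)⁻¹ * (t * q * t)) * t = (q : K)⁻¹ * (t * q * t) := by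
        rw [hconjt, show t * (t * (q : K) * t) * t = (t * t) * q * (t * t) by group, ht, one_mul,
          mul_one, hab _ (htQ _ (inv_mem q.2)) _ q.2]
        rw [hinv _ q.2]
      calc (q : K)⁻¹ * (t * q * t) * t = t * ((q : K)⁻¹ * (t * q * t)) * t * t := by rw [h1]
        _ = t * ((q : K)⁻¹ * (t * q * t)) := by rw [mul_assoc _ t t, ht, mul_one]
    · rw [Subgroup.card_map_of_injective Q.subtype_injective, hr, h4]
  intro w hw
  rw [← hrW] at hw
  obtain ⟨-, ⟨q, rfl⟩, rfl⟩ := hw
  exact ⟨q, q.2, rfl⟩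

/-- Let G be a finite group of order 320 = 64·5 whose largest normal 2-subgroup H = O₂(G) equals the Fitting subgroup F(G) and is extraspecial of order 32 containing no elementary abelian subgroup of order 8 (so H is the central product of a quaternion group and a dihedral group of order 8). If T is an involution of G outside H whose centralizer in H contains an elementary abelian subgroup of order 4, then C_H(T) itself is elementary abelian of order 4. -/
theorem result {G : Type*} [Group G] [Finite G]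
    (hG : Nat.card G = 320) (hHF : Cfsg.pCore 2 G = Cfsg.fittingSubgroup G)
    (hex : Cfsg.IsExtraspecial 2 ↥(Cfsg.pCore 2 G)) (h32 : Nat.card ↥(Cfsg.pCore 2 G) = 32)
    (hminus : ∀ A : Subgroup G, A ≤ Cfsg.pCore 2 G → Cfsg.IsElementaryAbelian 2 A → Nat.card ↥A ≤ 4)
    (T : G) (hT : orderOf T = 2) (hTH : T ∉ Cfsg.pCore 2 G)
    (V : Subgroup G) (hV : V ≤ Cfsg.pCore 2 G ⊓ Subgroup.centralizer ({T} : Set G)) (hV4 : Nat.card ↥V = 4) (hVe : Cfsg.IsElementaryAbelian 2 V) :
    Nat.card ↥(Cfsg.pCore 2 G ⊓ Subgroup.centralizer ({T} : Set G)) = 4 ∧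
      Cfsg.IsElementaryAbelian 2 (Cfsg.pCore 2 G ⊓ Subgroup.centralizer ({T} : Set G)) := by

  classical
  haveI : Fact (Nat.Prime 2) := ⟨Nat.prime_two⟩
  haveI : Fact (Nat.Prime 5) := ⟨by norm_num⟩
  set H := Cfsg.pCore 2 G with hHdef
  haveI hHn : H.Normal := by
    rw [hHdef]; exact Subgroup.sSup_normal _ fun N hN => hN.1
  have hHp : IsPGroup 2 H := PSolv.isPGroup_pCore 2 G
  set Z := (Subgroup.center H).map H.subtype with hZdef
  haveI hZn : Z.Normal := by
    constructor
    rintro _ ⟨z, hz, rfl⟩ g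
    exact ⟨⟨g * z * g⁻¹, hHn.conj_mem z z.2 g⟩,
      Subgroup.mem_center_iff.mpr fun x => Subtype.ext (by
        have hx : g⁻¹ * (x : G) * g ∈ H := by
          have := hHn.conj_mem x x.2 g⁻¹
          rwa [inv_inv] at this
        have h1 : g⁻¹ * (x : G) * g * z = z * (g⁻¹ * x * g) :=
          congrArg Subtype.val (Subgroup.mem_center_iff.mp hz ⟨_, hx⟩)
        show (x : G) * (g * z * g⁻¹) = g * z * g⁻¹ * x
        calc (x : G) * (g * z * g⁻¹) = g * (g⁻¹ * x * g * z) * g⁻¹ := by group
          _ = g * z * g⁻¹ * x := by rw [h1]; group), rfl⟩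
  have hZH : Z ≤ H := Subgroup.map_subtype_le _
  have hZ2 : Nat.card Z = 2 := by
    rw [hZdef, Subgroup.card_map_of_injective H.subtype_injective, hex.2]
  have hZsq : ∀ c ∈ Z, c * c = 1 := fun c hc => by
    have := congrArg Subtype.val (pow_card_eq_one' (x := (⟨c, hc⟩ : Z)))
    rw [hZ2] at this
    simpa [sq] using this
  have hZc : ∀ c ∈ Z, ∀ g : G, g * c = c * g := fun c hc g => by
    by_cases hc1 : c = 1
    · simp [hc1]
    have hg : g * c * g⁻¹ ∈ Z := hZn.conj_mem c hc g
    have : g * c * g⁻¹ = c := by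
      have hgen : Subgroup.zpowers c = Z := Subgroup.eq_of_le_of_card_ge
        (Subgroup.zpowers_le.mpr hc) (by
          rw [hZ2, Nat.card_zpowers, orderOf_eq_prime (p := 2) (by rw [sq, hZsq c hc]) hc1])
      rw [← hgen, Subgroup.mem_zpowers_iff] at hg
      obtain ⟨k, hk⟩ := hg
      rcases Int.even_or_odd' k with ⟨m, rfl | rfl⟩
      · rw [zpow_mul, zpow_two, hZsq c hc, one_zpow] at hk
        exact absurd (by simpa using hk.symm) hc1
      · rw [zpow_add, zpow_mul, zpow_two, hZsq c hc, one_zpow, one_mul, zpow_one] at hk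
        exact hk.symm
    exact mul_inv_eq_iff_eq_mul.mp this
  set π := QuotientGroup.mk' Z with hπdef
  have hπ : ∀ g : G, π g = 1 ↔ g ∈ Z := fun g => QuotientGroup.eq_one_iff g
  set Q := H.map π with hQdef
  haveI hQn : Q.Normal := Subgroup.Normal.map hHn _ (QuotientGroup.mk'_surjective Z)
  have h16 : Nat.card Q = 16 := by
    have h1 := Subgroup.card_mul_index (MonoidHom.ker (π.comp H.subtype))
    rw [Subgroup.index_ker, MonoidHom.range_comp, Subgroup.range_subtype, ← hQdef,
      ← MonoidHom.comap_ker, hπdef, QuotientGroup.ker_mk', ← Subgroup.subgroupOf,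
      Nat.card_congr (Subgroup.subgroupOfEquivOfLe hZH).toEquiv, hZ2, h32] at h1
    omega
  have hab : ∀ x ∈ Q, ∀ y ∈ Q, x * y = y * x := by
    rintro - ⟨x, hx, rfl⟩ - ⟨y, hy, rfl⟩
    have h1 : ⁅x, y⁆ ∈ Z := ⟨⁅⟨x, hx⟩, ⟨y, hy⟩⁆,
      PGroup.special_commutatorElement_mem hex.1 _ _, rfl⟩
    rw [← commutatorElement_eq_one_iff_mul_comm, ← map_commutatorElement, hπ]
    exact h1
  have hQ2 : ∀ x ∈ Q, x ^ 2 = 1 := by
    rintro - ⟨x, hx, rfl⟩
    rw [← map_pow, hπ]
    exact ⟨⟨x, hx⟩ ^ 2, PGroup.special_pow_mem_center hex.1 _, rfl⟩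
  obtain ⟨f, hf⟩ := exists_prime_orderOf_dvd_card' (G := G) 5 (by rw [hG]; norm_num)
  have hfH : f ∉ H := by
    intro h
    have h1 : orderOf f ∣ Nat.card H := by
      rw [← Subgroup.orderOf_mk f h]; exact orderOf_dvd_natCard _
    rw [hf, h32] at h1
    norm_num at h1
  have hT2 : T * T = 1 := by rw [← sq, ← hT, pow_orderOf_eq_one]
  have hGH : Nat.card (G ⧸ H) = 10 := by
    have := Subgroup.card_eq_card_quotient_mul_card_subgroup H
    rw [hG, h32] at this
    omega
  set ρ := QuotientGroup.mk' H with hρdef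
  have hρ : ∀ g : G, ρ g = 1 ↔ g ∈ H := fun g => QuotientGroup.eq_one_iff g
  have hof : orderOf (ρ f) = 5 :=
    orderOf_eq_prime (by rw [← map_pow, ← hf, pow_orderOf_eq_one, map_one])
      (fun h => hfH ((hρ f).mp h))
  haveI hPn : (Subgroup.zpowers (ρ f)).Normal := Subgroup.normal_of_index_eq_two (by
    have := (Subgroup.zpowers (ρ f)).card_mul_index
    rw [Nat.card_zpowers, hof, hGH] at this
    omega)
  obtain ⟨k, hk⟩ := Subgroup.mem_zpowers_iff.mp
    (hPn.conj_mem _ (Subgroup.mem_zpowers (ρ f)) (ρ T))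
  have hTi : (ρ T)⁻¹ = ρ T :=
    inv_eq_of_mul_eq_one_right (by rw [← map_mul, hT2, map_one])
  have hkk : (ρ f) ^ (k * k) = ρ f := by
    have h1 : ρ T * (ρ f) ^ k * (ρ T)⁻¹ = (ρ T * ρ f * (ρ T)⁻¹) ^ k := (conj_zpow).symm
    rw [← hk, ← zpow_mul] at h1
    rw [← h1, hk]
    rw [hTi, ← mul_assoc, ← mul_assoc, ← map_mul, hT2, map_one, one_mul, mul_assoc, ← map_mul,
      hT2, map_one, mul_one]
  have hk5 : (5 : ℤ) ∣ k - 1 ∨ (5 : ℤ) ∣ k + 1 := by
    have h1 : ((5 : ℕ) : ℤ) ∣ k * k - 1 := by
      rw [← hof, orderOf_dvd_iff_zpow_eq_one, zpow_sub, hkk, zpow_one, mul_inv_cancel]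
    rw [show k * k - 1 = (k - 1) * (k + 1) by ring] at h1
    exact (Int.prime_iff_natAbs_prime.mpr (by norm_num)).dvd_or_dvd h1
  have hinv : ρ T * ρ f * ρ T = (ρ f)⁻¹ := by
    conv_lhs => rw [show ρ T * ρ f * ρ T = ρ T * ρ f * (ρ T)⁻¹ by rw [hTi]]
    rw [← hk]
    rcases hk5 with h5 | h5
    · exfalso
      have h5' : ((5 : ℕ) : ℤ) ∣ k - 1 := h5
      rw [← hof, orderOf_dvd_iff_zpow_eq_one, zpow_sub, zpow_one, mul_inv_eq_one] at h5'
      rw [h5'] at hk
      have hcomm : ρ f * ρ T = ρ T * ρ f := by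
        rw [eq_mul_inv_iff_mul_eq] at hk
        exact hk
      have hTn : ρ T ≠ 1 := fun h => hTH ((hρ T).mp h)
      have hcen : Subgroup.centralizer ({ρ T} : Set (G ⧸ H)) = ⊤ := by
        have hle : Subgroup.zpowers (ρ f) ≤ Subgroup.centralizer ({ρ T} : Set (G ⧸ H)) :=
          Subgroup.zpowers_le.mpr (Subgroup.mem_centralizer_singleton_iff.mpr hcomm)
        have hd := Subgroup.index_dvd_of_le hle
        have hi : (Subgroup.zpowers (ρ f)).index = 2 := by
          have := (Subgroup.zpowers (ρ f)).card_mul_index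
          rw [Nat.card_zpowers, hof, hGH] at this
          omega
        rw [hi] at hd
        rcases (Nat.dvd_prime Nat.prime_two).mp hd with h | h
        · exact Subgroup.index_eq_one.mp h
        · exfalso
          have heq : Subgroup.zpowers (ρ f) = Subgroup.centralizer ({ρ T} : Set (G ⧸ H)) := by
            refine Subgroup.eq_of_le_of_card_ge hle ?_
            have := (Subgroup.zpowers (ρ f)).card_mul_index
            have := (Subgroup.centralizer ({ρ T} : Set (G ⧸ H))).card_mul_index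
            rw [h] at this
            rw [hi] at *
            omega
          have hTmem : ρ T ∈ Subgroup.zpowers (ρ f) := by
            rw [heq]; exact Subgroup.mem_centralizer_singleton_iff.mpr rfl
          have h5 : orderOf (ρ T) ∣ 5 := by
            rw [← hof]; exact orderOf_dvd_of_mem_zpowers hTmem
          have h2 : orderOf (ρ T) ∣ 2 :=
            orderOf_dvd_of_pow_eq_one (by rw [sq, ← map_mul, hT2, map_one])
          exact hTn (orderOf_eq_one_iff.mp (Nat.eq_one_of_dvd_coprimes (by norm_num) h2 h5))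
      haveI hTnorm : (Subgroup.zpowers (ρ T)).Normal := ⟨fun x hx g => by
        obtain ⟨j, rfl⟩ := Subgroup.mem_zpowers_iff.mp hx
        have hg : Commute g (ρ T) :=
          Subgroup.mem_centralizer_singleton_iff.mp (hcen ▸ Subgroup.mem_top g)
        rw [(hg.zpow_right j).eq, mul_inv_cancel_right]
        exact zpow_mem (Subgroup.mem_zpowers _) _⟩
      have hK : IsPGroup 2 ((Subgroup.zpowers (ρ T)).comap ρ) := by
        refine IsPGroup.of_card (n := 6) ?_
        have h1 := Subgroup.card_mul_index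
          (MonoidHom.ker (ρ.comp ((Subgroup.zpowers (ρ T)).comap ρ).subtype))
        have hle : H ≤ (Subgroup.zpowers (ρ T)).comap ρ := fun x hx => by
          rw [Subgroup.mem_comap, (hρ x).mpr hx]; exact one_mem _
        rw [Subgroup.index_ker, MonoidHom.range_comp, Subgroup.range_subtype,
          Subgroup.map_comap_eq_self_of_surjective (QuotientGroup.mk'_surjective H),
          ← MonoidHom.comap_ker, hρdef, QuotientGroup.ker_mk', ← Subgroup.subgroupOf,
          Nat.card_congr (Subgroup.subgroupOfEquivOfLe hle).toEquiv, h32, Nat.card_zpowers,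
          ← hρdef, orderOf_eq_prime (p := 2) (by rw [sq, ← map_mul, hT2, map_one]) hTn] at h1
        rw [← h1]; norm_num
      exact hTH (PSolv.le_pCore (hTnorm.comap ρ) hK (Subgroup.mem_zpowers (ρ T)))
    · have h5' : ((5 : ℕ) : ℤ) ∣ k + 1 := h5
      rw [← hof, orderOf_dvd_iff_zpow_eq_one, zpow_add, zpow_one] at h5'
      exact eq_inv_of_mul_eq_one_left h5'
  have hnofix : ∀ g : G, orderOf g = 5 → ∀ q ∈ Q, π g * q = q * π g → q = 1 := by
    intro g hg
    set F := Q ⊓ Subgroup.centralizer ({π g} : Set (G ⧸ Z)) with hFdef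
    suffices hF : Nat.card F = 1 by
      intro q hq hc
      have h1 : q ∈ F := ⟨hq, Subgroup.mem_centralizer_singleton_iff.mpr hc.symm⟩
      rw [Subgroup.card_eq_one.mp hF] at h1
      exact h1
    let act : MulAction (Subgroup.zpowers g) Q :=
      MulAction.compHom Q ((MulAut.conjNormal (H := Q)).comp (π.comp (Subgroup.zpowers g).subtype))
    have hP : IsPGroup 5 (Subgroup.zpowers g) :=
      IsPGroup.of_card (n := 1) (by rw [Nat.card_zpowers, hg, pow_one])
    have hmod := hP.card_modEq_card_fixedPoints Q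
    have hfix : Nat.card (MulAction.fixedPoints (Subgroup.zpowers g) Q) = Nat.card F := by
      refine Nat.card_congr
        { toFun := fun q => ⟨q.1.1, q.1.2, Subgroup.mem_centralizer_singleton_iff.mpr (by
            have h1 : π g * (q.1 : G ⧸ Z) * (π g)⁻¹ = q.1 :=
              congrArg Subtype.val (q.2 ⟨g, Subgroup.mem_zpowers g⟩)
            exact (mul_inv_eq_iff_eq_mul.mp h1).symm)⟩
          invFun := fun q => ⟨⟨q.1, q.2.1⟩, fun m => Subtype.ext (by
            obtain ⟨j, hj⟩ := Subgroup.mem_zpowers_iff.mp m.2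
            have h1 : Commute (π g) (q : G ⧸ Z) :=
              (Subgroup.mem_centralizer_singleton_iff.mp q.2.2).symm
            show π (m : G) * (q : G ⧸ Z) * (π (m : G))⁻¹ = q
            rw [← hj, map_zpow, (h1.zpow_left j).eq, mul_inv_cancel_right])⟩
          left_inv := fun _ => rfl
          right_inv := fun _ => rfl }
    rw [h16, hfix] at hmod
    have hd : Nat.card F ∣ 2 ^ 4 := by
      have := Subgroup.card_dvd_of_le (inf_le_left : F ≤ Q)
      rw [h16] at this
      exact this
    obtain ⟨e, he, heq⟩ := (Nat.dvd_prime_pow Nat.prime_two).mp hd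
    rw [heq] at hmod ⊢
    unfold Nat.ModEq at hmod
    interval_cases e
    · rfl
    · norm_num at hmod
    · norm_num at hmod
    · norm_num at hmod
    exfalso
    have hFQ : F = Q := Subgroup.eq_of_le_of_card_ge inf_le_left (by rw [h16, heq]; norm_num)
    have hcen : ∀ x ∈ H, g * x = x * g := by
      intro x hx
      have h1 : π x ∈ F := hFQ ▸ ⟨x, hx, rfl⟩
      have h2 : x⁻¹ * (g * x * g⁻¹) ∈ Z := by
        rw [← hπ, map_mul, map_mul, map_mul, map_inv, map_inv,
          ← (Subgroup.mem_centralizer_singleton_iff.mp h1.2), mul_inv_cancel_right, inv_mul_cancel]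
      set c := x⁻¹ * (g * x * g⁻¹) with hc
      have hgx : g * x * g⁻¹ = x * c := by rw [hc]; group
      have hpow : ∀ j : ℕ, g ^ j * x * (g ^ j)⁻¹ = x * c ^ j := by
        intro j
        induction j with
        | zero => simp
        | succ j ih =>
          calc g ^ (j + 1) * x * (g ^ (j + 1))⁻¹ = g * (g ^ j * x * (g ^ j)⁻¹) * g⁻¹ := by
                rw [pow_succ']; group
            _ = g * x * (c ^ j * g⁻¹) := by rw [ih]; group
            _ = g * x * (g⁻¹ * c ^ j) := by rw [hZc _ (pow_mem h2 j) g⁻¹]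
            _ = x * c ^ (j + 1) := by rw [← mul_assoc, hgx, mul_assoc, ← pow_succ']
      have h5 := hpow 5
      have hg5 : g ^ 5 = 1 := by rw [← hg, pow_orderOf_eq_one]
      rw [hg5, one_mul, inv_one, mul_one] at h5
      have hc5 : c ^ 5 = 1 := by
        have := h5.symm
        rwa [mul_eq_left] at this
      have hc1 : c = 1 := by
        rw [show c ^ 5 = (c * c) * (c * c) * c by simp only [pow_succ, pow_zero, one_mul, mul_assoc], hZsq c h2, one_mul, one_mul] at hc5
        exact hc5
      rw [hc1, mul_one] at hgx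
      exact mul_inv_eq_iff_eq_mul.mp hgx
    have hgH : g ∉ H := by
      intro h
      have h1 : orderOf g ∣ Nat.card H := by
        rw [← Subgroup.orderOf_mk g h]; exact orderOf_dvd_natCard _
      rw [hg, h32] at h1
      norm_num at h1
    set M := Subgroup.centralizer (H : Set G) with hMdef
    have hM20 : Nat.card M ≤ 20 := by
      have h1 := Subgroup.card_mul_index (MonoidHom.ker (ρ.comp M.subtype))
      rw [Subgroup.index_ker] at h1
      have hle : Nat.card (ρ.comp M.subtype).range ≤ 10 := hGH ▸ Subgroup.card_le_card_group _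
      have hk2 : Nat.card (ρ.comp M.subtype).ker ≤ 2 := by
        rw [← hZ2]
        refine Nat.card_le_card_of_injective (fun x => (⟨((x : M) : G), ?_⟩ : Z)) ?_
        · have hxH : ((x : M) : G) ∈ H := (hρ _).mp x.2
          exact ⟨⟨_, hxH⟩, Subgroup.mem_center_iff.mpr fun y => Subtype.ext
            (Subgroup.mem_centralizer_iff.mp x.1.2 y y.2), rfl⟩
        · intro a b hab
          have h' : (((a : M) : G)) = ((b : M) : G) := congrArg (fun u : Z => (u : G)) hab
          exact Subtype.ext (Subtype.ext h')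
      calc Nat.card M = _ := h1.symm
        _ ≤ 2 * 10 := Nat.mul_le_mul hk2 hle
    have hgM : g ∈ M := Subgroup.mem_centralizer_iff.mpr fun x hx => (hcen x hx).symm
    haveI hPnorm : (Subgroup.zpowers g).Normal := by
      refine ⟨fun x hx y => ?_⟩
      have hg' : orderOf (y * g * y⁻¹) = 5 := by
        rw [← MulAut.conj_apply, MulEquiv.orderOf_eq]; exact hg
      have hg'M : y * g * y⁻¹ ∈ M := by
        refine Subgroup.mem_centralizer_iff.mpr fun h hh => ?_
        have hh' : y⁻¹ * h * y ∈ H := by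
          have := hHn.conj_mem h hh y⁻¹
          rwa [inv_inv] at this
        calc h * (y * g * y⁻¹) = y * ((y⁻¹ * h * y) * g) * y⁻¹ := by group
          _ = y * g * y⁻¹ * h := by rw [← hcen _ hh']; group
      have hmem : y * g * y⁻¹ ∈ Subgroup.zpowers g := by
        by_contra hn
        have hdis : Subgroup.zpowers g ⊓ Subgroup.zpowers (y * g * y⁻¹) = ⊥ := by
          have hd := Subgroup.card_dvd_of_le
            (inf_le_right : Subgroup.zpowers g ⊓ Subgroup.zpowers (y * g * y⁻¹) ≤ _)
          rw [Nat.card_zpowers (y * g * y⁻¹), hg'] at hd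
          rcases (Nat.dvd_prime (by norm_num)).mp hd with h | h
          · exact Subgroup.card_eq_one.mp h
          · refine absurd ?_ hn
            have := Subgroup.eq_of_le_of_card_ge
              (inf_le_right : Subgroup.zpowers g ⊓ Subgroup.zpowers (y * g * y⁻¹) ≤ _)
              (by rw [h, Nat.card_zpowers, hg'])
            exact (this.ge (Subgroup.mem_zpowers _)).1
        have h25 : Nat.card (Subgroup.zpowers g × Subgroup.zpowers (y * g * y⁻¹)) ≤ Nat.card M := by
          refine Nat.card_le_card_of_injective (fun r => (⟨(r.1 : G) * r.2,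
            mul_mem (Subgroup.zpowers_le.mpr hgM r.1.2)
              (Subgroup.zpowers_le.mpr hg'M r.2.2)⟩ : M)) ?_
          intro a b hab
          exact Subgroup.mul_injective_of_disjoint (disjoint_iff.mpr hdis)
            (congrArg Subtype.val hab)
        rw [Nat.card_prod, Nat.card_zpowers, Nat.card_zpowers, hg, hg'] at h25
        omega
      obtain ⟨j, rfl⟩ := Subgroup.mem_zpowers_iff.mp hx
      rw [← conj_zpow]
      exact zpow_mem hmem _
    haveI : IsCyclic (Subgroup.zpowers g) := Subgroup.isCyclic_zpowers g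
    have hnil : Group.IsNilpotent (Subgroup.zpowers g) := by
      letI : CommGroup (Subgroup.zpowers g) := IsCyclic.commGroup
      infer_instance
    have hmemF : g ∈ Cfsg.fittingSubgroup G :=
      le_sSup (show Subgroup.zpowers g ∈ {N : Subgroup G | N.Normal ∧ Group.IsNilpotent N} from
        ⟨hPnorm, hnil⟩) (Subgroup.mem_zpowers g)
    rw [← hHF] at hmemF
    exact hgH hmemF
  have hf2 : orderOf (f ^ 2) = 5 := by
    rw [orderOf_pow' f two_ne_zero, hf]; norm_num
  obtain ⟨h₀, hh₀, hTf⟩ : ∃ h₀ ∈ H, T * f * T = f⁻¹ * h₀ := by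
    refine ⟨f * (T * f * T), (hρ _).mp ?_, by group⟩
    rw [map_mul, map_mul, map_mul, hinv, mul_inv_cancel]
  have key := fixed_le_four Q hab hQ2 h16 (t := π T) (a := π f) (h := π h₀)
    (by rw [← map_mul, hT2, map_one]) ⟨h₀, hh₀, rfl⟩
    (by rw [← map_mul, ← map_mul, hTf, map_mul, map_inv])
    (fun q hq hc => hnofix _ hf2 q hq (by rwa [map_pow]))
  set C := H ⊓ Subgroup.centralizer ({T} : Set G) with hCdef
  set W := Q ⊓ Subgroup.centralizer ({π T} : Set (G ⧸ Z)) with hWdef
  have hCW : C.map π ≤ W := by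
    rintro - ⟨c, hc, rfl⟩
    refine ⟨⟨c, hc.1, rfl⟩, Subgroup.mem_centralizer_singleton_iff.mpr ?_⟩
    rw [← map_mul, ← map_mul, Subgroup.mem_centralizer_singleton_iff.mp hc.2]
  have hZC : Z ≤ C := le_inf hZH fun c hc =>
    Subgroup.mem_centralizer_singleton_iff.mpr (hZc c hc T).symm
  have hCcard : Nat.card C = 2 * Nat.card (C.map π) := by
    have h1 := Subgroup.card_mul_index (MonoidHom.ker (π.comp C.subtype))
    rw [Subgroup.index_ker, MonoidHom.range_comp, Subgroup.range_subtype,
      ← MonoidHom.comap_ker, hπdef, QuotientGroup.ker_mk', ← Subgroup.subgroupOf,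
      Nat.card_congr (Subgroup.subgroupOfEquivOfLe hZC).toEquiv, hZ2, ← hπdef] at h1
    exact h1.symm
  have hVC : V ≤ C := hV
  have h4 : 4 ≤ Nat.card C := hV4 ▸ Subgroup.card_le_of_le hVC
  have hmap4 : Nat.card (C.map π) ≤ 4 := (Subgroup.card_le_of_le hCW).trans key.1
  suffices hC4 : Nat.card C = 4 by
    refine ⟨hC4, ?_⟩
    rw [← Subgroup.eq_of_le_of_card_ge hVC (by rw [hV4, hC4])]
    exact hVe
  by_contra hne
  have hC8 : Nat.card (C.map π) = 4 := by
    have h2 : Nat.card C ∣ 2 ^ 5 := by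
      have := Subgroup.card_dvd_of_le (inf_le_left : C ≤ H)
      rw [h32] at this
      exact this
    obtain ⟨e, he, heq⟩ := (Nat.dvd_prime_pow Nat.prime_two).mp h2
    rw [heq] at hCcard h4 hne
    interval_cases e <;> omega
  have hW4 : Nat.card W = 4 :=
    le_antisymm key.1 (hC8 ▸ Subgroup.card_le_of_le hCW)
  have hsq : ∀ c ∈ C, c * c = 1 := by
    intro c hc
    obtain ⟨-, ⟨x, hx, rfl⟩, hxc⟩ := key.2 hW4 (π c) (hCW ⟨c, hc, rfl⟩)
    rw [← map_inv, ← map_mul, ← map_mul, ← map_mul] at hxc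
    set w := x⁻¹ * (T * x * T) with hw
    have hwc : w⁻¹ * c ∈ Z := by
      rw [← hπ, map_mul, map_inv, hxc, inv_mul_cancel]
    have hwC : w ∈ C := by
      have h1 : w = c * (w⁻¹ * c)⁻¹ := by group
      rw [h1]
      exact mul_mem hc (inv_mem (hZC hwc))
    have hTw : T * w * T = w⁻¹ := by
      have hTi' : T⁻¹ = T := inv_eq_of_mul_eq_one_right hT2
      rw [hw, mul_inv_rev, mul_inv_rev, mul_inv_rev, inv_inv, hTi',
        show T * (x⁻¹ * (T * x * T)) * T = T * x⁻¹ * T * x * (T * T) by group, hT2, mul_one]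
      group
    have hww : w * w = 1 := by
      have h1 : w * T = T * w := Subgroup.mem_centralizer_singleton_iff.mp hwC.2
      rw [← h1, mul_assoc, hT2, mul_one] at hTw
      exact mul_eq_one_iff_eq_inv.mpr hTw
    have hc' : c = w * (w⁻¹ * c) := by group
    generalize w⁻¹ * c = u at hwc hc'
    calc c * c = w * (u * w) * u := by rw [hc']; group
      _ = w * (w * u) * u := by rw [hZc _ hwc w]
      _ = (w * w) * (u * u) := by group
      _ = 1 := by rw [hww, hZsq _ hwc, mul_one]
  have hCe : Cfsg.IsElementaryAbelian 2 C := by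
    refine ⟨⟨⟨fun a b => Subtype.ext ?_⟩⟩, fun a ha => by rw [sq, hsq a ha]⟩
    show (a : G) * b = b * a
    have ha := inv_eq_of_mul_eq_one_right (hsq _ a.2)
    have hb := inv_eq_of_mul_eq_one_right (hsq _ b.2)
    have hab := inv_eq_of_mul_eq_one_right (hsq _ (mul_mem a.2 b.2))
    rw [← hab, mul_inv_rev, ha, hb]
  have := hminus C inf_le_left hCe
  omega


end Cfsg.Agent.S4405
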