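import Cfsg.Statements.S4406
import Cfsg.Agent.SmallGroups.Basic

set_option autoImplicit false
open Cfsg

namespace Cfsg.Agent.S4406

abbrev A4 := ↥(alternatingGroup (Fin 4))

theorem sq_of_pow_four : ∀ u : A4, u ^ 4 = 1 → u ^ 2 = 1 := by decide +kernel

theorem card_sq : Fintype.card {u : A4 // u ^ 2 = 1} = 4 := by decide +kernel

theorem orbit_facts : ∀ a v : A4, a ^ 3 = 1 → a ≠ 1 → v ^ 2 = 1 → v ≠ 1 →
    a * v * a⁻¹ ≠ v ∧ a * (a * v * a⁻¹) * a⁻¹ = v * (a * v * a⁻¹) := by decide +kernel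

set_option synthInstance.maxSize 2000 in
set_option synthInstance.maxHeartbeats 200000 in
theorem swap_facts : ∀ b : A4, b ^ 3 = 1 → b ≠ 1 → ∀ w : A4, w ^ 2 = 1 → w ≠ 1 →
    ∀ w' : A4, w' ^ 2 = 1 → w' ≠ 1 → w ≠ w' → b * w * b⁻¹ = w' ∨ b⁻¹ * w * b = w' := by decide +kernel

set_option synthInstance.maxSize 2000 in
set_option synthInstance.maxHeartbeats 200000 in
theorem span_facts : ∀ v : A4, v ^ 2 = 1 → v ≠ 1 → ∀ w : A4, w ^ 2 = 1 → w ≠ 1 → v ≠ w →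
    ∀ u : A4, u ^ 2 = 1 → u = 1 ∨ u = v ∨ u = w ∨ u = v * w := by decide +kernel

/-- In the direct product P = A₄ × A₄, let X be the Sylow 2-subgroup, X₁ and X₂ its intersections with the two direct factors, Q a Sylow 3-subgroup and Q₁, Q₂ its intersections with the two factors. Then every subgroup B of X of order 4 either meets X₁ or X₂ nontrivially, or is normalized by one of the two subgroups of Q of order 3 other than Q₁ and Q₂. -/
theorem result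
    (X : Sylow 2 (↥(alternatingGroup (Fin 4)) × ↥(alternatingGroup (Fin 4))))
    (Q : Sylow 3 (↥(alternatingGroup (Fin 4)) × ↥(alternatingGroup (Fin 4))))
    (B : Subgroup (↥(alternatingGroup (Fin 4)) × ↥(alternatingGroup (Fin 4)))) (hBX : B ≤ (X : Subgroup _)) (hB4 : Nat.card ↥B = 4) :
    B ⊓ ((X : Subgroup _) ⊓ Subgroup.prod ⊤ ⊥) ≠ ⊥ ∨ B ⊓ ((X : Subgroup _) ⊓ Subgroup.prod ⊥ ⊤) ≠ ⊥ ∨
      ∃ R : Subgroup (↥(alternatingGroup (Fin 4)) × ↥(alternatingGroup (Fin 4))), R ≤ (Q : Subgroup _) ∧ Nat.card ↥R = 3 ∧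
        R ≠ (Q : Subgroup _) ⊓ Subgroup.prod ⊤ ⊥ ∧ R ≠ (Q : Subgroup _) ⊓ Subgroup.prod ⊥ ⊤ ∧ R ≤ Subgroup.normalizer (B : Set _) := by
  classical
  by_contra hcon
  push Not at hcon
  obtain ⟨h1, h2, h3⟩ := hcon
  haveI : Fact (Nat.Prime 3) := ⟨Nat.prime_three⟩
  have hA : Nat.card A4 = 12 := by
    rw [Nat.card_eq_fintype_card]; decide +kernel
  -- the Sylow 3-subgroup is a product of two groups of order 3
  have hQ : Nat.card (Q : Subgroup (A4 × A4)) = 9 := by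
    rw [Cfsg.Agent.SmallGroups.card_sylow_subgroup (a := 2) (m := 16)
      (by rw [Nat.card_prod, hA]; norm_num) (by norm_num) Q]
    norm_num
  have hQ3 : ∀ q : A4 × A4, q ∈ (Q : Subgroup _) → q.1 ^ 3 = 1 ∧ q.2 ^ 3 = 1 := by
    intro q hq
    have h9 : q ^ 9 = 1 := by
      have := congrArg Subtype.val (pow_card_eq_one' (x := (⟨q, hq⟩ : (Q : Subgroup _))))
      rwa [hQ] at this
    have h12 : ∀ u : A4, u ^ 12 = 1 := fun u => by rw [← hA]; exact pow_card_eq_one'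
    have key : ∀ u : A4, u ^ 9 = 1 → u ^ 3 = 1 := fun u hu => by
      rw [← orderOf_dvd_iff_pow_eq_one] at hu ⊢
      have := Nat.dvd_gcd hu (orderOf_dvd_of_pow_eq_one (h12 u))
      norm_num at this
      exact this
    exact ⟨key _ (congrArg Prod.fst h9), key _ (congrArg Prod.snd h9)⟩
  obtain ⟨a, b, haQ, hbQ, ha, hb⟩ : ∃ a b : A4, (a, (1 : A4)) ∈ (Q : Subgroup (A4 × A4)) ∧
      ((1 : A4), b) ∈ (Q : Subgroup (A4 × A4)) ∧ a ≠ 1 ∧ b ≠ 1 := by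
    set P1 := (Q : Subgroup (A4 × A4)).map (MonoidHom.fst A4 A4)
    set P2 := (Q : Subgroup (A4 × A4)).map (MonoidHom.snd A4 A4)
    have hle : (Q : Subgroup (A4 × A4)) ≤ P1.prod P2 := fun q hq => ⟨⟨q, hq, rfl⟩, ⟨q, hq, rfl⟩⟩
    have hP : IsPGroup 3 ↥(P1.prod P2) := fun q => by
      obtain ⟨⟨u, hu, hu1⟩, ⟨v, hv, hv1⟩⟩ := q.2
      refine ⟨1, Subtype.ext (Prod.ext ?_ ?_)⟩
      · show (q : A4 × A4).1 ^ 3 ^ 1 = 1
        rw [← hu1]; simpa using (hQ3 u hu).1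
      · show (q : A4 × A4).2 ^ 3 ^ 1 = 1
        rw [← hv1]; simpa using (hQ3 v hv).2
    have heq : P1.prod P2 = (Q : Subgroup (A4 × A4)) := Q.is_maximal' hP hle
    have hc : Nat.card P1 * Nat.card P2 = 9 := by
      rw [← hQ, ← heq, ← Nat.card_prod]
      exact (Nat.card_congr (Subgroup.prodEquiv P1 P2).toEquiv).symm
    have hne : ∀ P : Subgroup A4, (∀ u ∈ P, u ^ 3 = 1) → ∀ k, Nat.card P * k = 9 → k ∣ 12 →
        ∃ u ∈ P, u ≠ 1 := by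
      intro P _ k hk hk12
      refine (Subgroup.ne_bot_iff_exists_ne_one.1 fun hbot => ?_).imp' Subtype.val
        fun u hu => ⟨u.2, fun h => hu (Subtype.ext h)⟩
      rw [hbot, Subgroup.card_bot, one_mul] at hk
      norm_num [hk] at hk12
    obtain ⟨a, haP, ha⟩ := hne P1 (fun u ⟨q, hq, hqu⟩ => hqu ▸ (hQ3 q hq).1) _ hc
      (hA ▸ P2.card_subgroup_dvd_card)
    obtain ⟨b, hbP, hb⟩ := hne P2 (fun u ⟨q, hq, hqu⟩ => hqu ▸ (hQ3 q hq).2) _
      (by rw [mul_comm]; exact hc) (hA ▸ P1.card_subgroup_dvd_card)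
    exact ⟨a, b, heq ▸ ⟨haP, P2.one_mem⟩, heq ▸ ⟨P1.one_mem, hbP⟩, ha, hb⟩
  have ha3 : a ^ 3 = 1 := (hQ3 _ haQ).1
  have hb3 : b ^ 3 = 1 := (hQ3 _ hbQ).2
  -- `B` is a graph
  have hB2 : ∀ x ∈ B, x.1 ^ 2 = 1 ∧ x.2 ^ 2 = 1 := by
    intro x hx
    have h4 : x ^ 4 = 1 := by
      have := congrArg Subtype.val (pow_card_eq_one' (x := (⟨x, hx⟩ : B)))
      rwa [hB4] at this
    exact ⟨sq_of_pow_four _ (congrArg Prod.fst h4), sq_of_pow_four _ (congrArg Prod.snd h4)⟩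
  have hfst : ∀ x ∈ B, x.1 = 1 → x = 1 := fun x hx h => by
    rw [← Subgroup.mem_bot, ← h2]
    exact ⟨hx, hBX hx, Subgroup.mem_bot.2 h, Subgroup.mem_top _⟩
  have hsnd : ∀ x ∈ B, x.2 = 1 → x = 1 := fun x hx h => by
    rw [← Subgroup.mem_bot, ← h1]
    exact ⟨hx, hBX hx, Subgroup.mem_top _, Subgroup.mem_bot.2 h⟩
  have hinj1 : ∀ x ∈ B, ∀ y ∈ B, x.1 = y.1 → x = y := fun x hx y hy h =>
    mul_inv_eq_one.1 (hfst _ (B.mul_mem hx (B.inv_mem hy)) (by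
      show x.1 * y.1⁻¹ = 1
      rw [h, mul_inv_cancel]))
  have hinj2 : ∀ x ∈ B, ∀ y ∈ B, x.2 = y.2 → x = y := fun x hx y hy h =>
    mul_inv_eq_one.1 (hsnd _ (B.mul_mem hx (B.inv_mem hy)) (by
      show x.2 * y.2⁻¹ = 1
      rw [h, mul_inv_cancel]))
  have hsurj : ∀ v : A4, v ^ 2 = 1 → ∃ w, (v, w) ∈ B := by
    intro v hv
    let f : B → {u : A4 // u ^ 2 = 1} := fun x => ⟨(x : A4 × A4).1, (hB2 x x.2).1⟩
    have hf : Function.Bijective f := by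
      rw [Fintype.bijective_iff_injective_and_card]
      refine ⟨fun x y h => Subtype.ext (hinj1 _ x.2 _ y.2 (congrArg Subtype.val h)), ?_⟩
      rw [card_sq, ← Nat.card_eq_fintype_card, hB4]
    obtain ⟨x, hx⟩ := hf.2 ⟨v, hv⟩
    have hxv : (x : A4 × A4).1 = v := congrArg Subtype.val hx
    refine ⟨(x : A4 × A4).2, ?_⟩
    rw [← hxv]
    exact x.2
  obtain ⟨v, hv, hv1⟩ : ∃ v : A4, v ^ 2 = 1 ∧ v ≠ 1 := by decide +kernel
  obtain ⟨hvne, hvorb⟩ := orbit_facts a v ha3 ha hv hv1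
  have hv' : (a * v * a⁻¹) ^ 2 = 1 := by rw [conj_pow, hv]; group
  have hv'1 : a * v * a⁻¹ ≠ 1 := fun h => hv1 (conj_eq_one_iff.1 h)
  obtain ⟨w, hw⟩ := hsurj v hv
  obtain ⟨w', hw'⟩ := hsurj _ hv'
  have hw1 : w ≠ 1 := fun h => hv1 (congrArg Prod.fst (hsnd _ hw h))
  have hw'1 : w' ≠ 1 := fun h => hv'1 (congrArg Prod.fst (hsnd _ hw' h))
  have hww' : w ≠ w' := fun h => hvne (congrArg Prod.fst (hinj2 _ hw _ hw' h)).symm
  obtain ⟨c, hcQ, hc1, hc3, hc⟩ : ∃ c : A4, ((1 : A4), c) ∈ (Q : Subgroup (A4 × A4)) ∧ c ≠ 1 ∧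
      c ^ 3 = 1 ∧ c * w * c⁻¹ = w' := by
    rcases swap_facts b hb3 hb w (hB2 _ hw).2 hw1 w' (hB2 _ hw').2 hw'1 hww' with h | h
    · exact ⟨b, hbQ, hb, hb3, h⟩
    · refine ⟨b⁻¹, ?_, by simpa using hb, by rw [inv_pow, hb3, inv_one], by simpa using h⟩
      have := Subgroup.inv_mem (Q : Subgroup (A4 × A4)) hbQ
      rwa [Prod.inv_mk, inv_one] at this
  obtain ⟨-, hworb⟩ := orbit_facts c w hc3 hc1 (hB2 _ hw).2 hw1
  rw [hc] at hworb
  have hac : (a, c) ∈ (Q : Subgroup (A4 × A4)) := by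
    have := Subgroup.mul_mem _ haQ hcQ
    rwa [Prod.mk_mul_mk, mul_one, one_mul] at this
  have e1 : (a, c) * (v, w) * (a, c)⁻¹ = (a * v * a⁻¹, w') := Prod.ext rfl hc
  have e2 : (a, c) * (a * v * a⁻¹, w') * (a, c)⁻¹ = (v, w) * (a * v * a⁻¹, w') := Prod.ext hvorb hworb
  have hnorm : (a, c) ∈ Subgroup.normalizer (B : Set (A4 × A4)) := by
    have hstep : ∀ x ∈ B, (a, c) * x * (a, c)⁻¹ ∈ B := by
      intro x hx
      rcases span_facts v hv hv1 (a * v * a⁻¹) hv' hv'1 hvne.symm x.1 (hB2 x hx).1 with h | h | h | h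
      · rw [hfst x hx h, mul_one, mul_inv_cancel]; exact B.one_mem
      · rw [hinj1 x hx _ hw h, e1]; exact hw'
      · rw [hinj1 x hx _ hw' h, e2]; exact B.mul_mem hw hw'
      · rw [hinj1 x hx _ (B.mul_mem hw hw') h, ← conj_mul, e1, e2]
        exact B.mul_mem hw' (B.mul_mem hw hw')
    rw [Subgroup.mem_normalizer_iff_map_conj_eq]
    refine Subgroup.eq_of_le_of_card_ge ?_
      (Subgroup.card_map_of_injective (MulAut.conj (a, c)).injective).ge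
    rintro _ ⟨x, hx, rfl⟩
    exact hstep x hx
  refine h3 (Subgroup.zpowers (a, c)) (Subgroup.zpowers_le.2 hac) ?_ ?_ ?_
    (Subgroup.zpowers_le.2 hnorm)
  · rw [Nat.card_zpowers]
    refine orderOf_eq_prime (Prod.ext ?_ ?_) fun h => ha (congrArg Prod.fst h)
    · exact ha3
    · exact hc3
  · intro h
    exact hc1 (Subgroup.mem_bot.1 ((h ▸ Subgroup.mem_zpowers (a, c) :
      (a, c) ∈ (Q : Subgroup (A4 × A4)) ⊓ Subgroup.prod ⊤ ⊥).2.2))
  · intro h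
    exact ha (Subgroup.mem_bot.1 ((h ▸ Subgroup.mem_zpowers (a, c) :
      (a, c) ∈ (Q : Subgroup (A4 × A4)) ⊓ Subgroup.prod ⊥ ⊤).2.1))

end Cfsg.Agent.S4406
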