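import Cfsg.Statements.S4408
import Cfsg.Agent.Signalizer.ThompsonDihedral

set_option autoImplicit false
open Cfsg

namespace Cfsg.Agent.S4408

/-- Let S be a finite solvable group whose Fitting subgroup F(S) has odd order, and let I be an elementary abelian 2-subgroup of S of order 2ⁿ with n ≥ 1. Then F(S) contains subgroups A₁, …, Aₙ of prime order, each normalized by I, pairwise commuting and generating a subgroup A of order |A₁|⋯|Aₙ| (their internal direct product), such that no non-identity element of I centralizes A. -/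
theorem result {S : Type*} [Group S] [Finite S]
    [Group.IsSolvable S] (hF : Odd (Nat.card ↥(Cfsg.fittingSubgroup S)))
    (I : Subgroup S) (hI : Cfsg.IsElementaryAbelian 2 I) (n : ℕ) (hn : 1 ≤ n) (hIn : Nat.card ↥I = 2 ^ n) :
    ∃ f : Fin n → Subgroup S, (∀ i, (Nat.card ↥(f i)).Prime) ∧ (∀ i, f i ≤ Cfsg.fittingSubgroup S) ∧
      (∀ i, I ≤ Subgroup.normalizer ((f i) : Set S)) ∧ (∀ i j, i ≠ j → ∀ a ∈ f i, ∀ b ∈ f j, a * b = b * a) ∧
      Nat.card ↥(⨆ i, f i) = ∏ i, Nat.card ↥(f i) ∧ I ⊓ Subgroup.centralizer ((⨆ i, f i : Subgroup S) : Set S) = ⊥ := by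
  classical
  haveI : Fact (Nat.Prime 2) := ⟨Nat.prime_two⟩
  set F := Cfsg.fittingSubgroup S with hFdef
  have hodd : ¬ 2 ∣ Nat.card F := fun h => Nat.not_even_iff_odd.2 hF (even_iff_two_dvd.2 h)
  have hIF : I ≤ Subgroup.normalizer (F : Set S) := by
    rw [Subgroup.normalizer_eq_top F]
    exact le_top
  have hfaith : I ⊓ Subgroup.centralizer (F : Set S) = ⊥ := by
    rw [← le_bot_iff]
    intro x hx
    have hxF : x ∈ F := Cfsg.Agent.Cores.centralizer_fittingSubgroup_le hx.2
    rw [Subgroup.mem_bot, ← orderOf_eq_one_iff]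
    have h2 : orderOf x ∣ 2 := orderOf_dvd_of_pow_eq_one (hI.2 x hx.1)
    have hF' : orderOf x ∣ Nat.card F := by
      rw [← Subgroup.orderOf_mk x hxF]; exact orderOf_dvd_natCard _
    rcases (Nat.dvd_prime Nat.prime_two).1 h2 with h | h
    · exact h
    · exact absurd (h ▸ hF') hodd
  obtain ⟨M, hMF, hIM, hMc, hMf⟩ := Cfsg.Agent.Signalizer.ThompsonDihedral.exists_abelian
    (L := F) inferInstance hodd hI hIF hfaith
  have hMF' : Nat.card M ∣ Nat.card F := Subgroup.card_dvd_of_le hMF
  obtain ⟨ι, hι, a, l, hal, hij, hll, hcard, hgen⟩ :=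
    Cfsg.Agent.Signalizer.ThompsonDihedral.exists_dual (fun h => hodd (h.trans hMF')) hI hIM hMc hMf
  have hd : Fintype.card ι = n := Nat.pow_right_injective (le_refl 2) (hcard.trans hIn)
  let e : Fin n ≃ ι := (Fintype.equivFinOfCardEq hd).symm
  -- replace the eigenvectors by elements of prime order
  have hpr : ∀ i, ∃ (k r : ℕ), r.Prime ∧ r ≠ 2 ∧ orderOf (l i ^ k) = r := fun i => by
    obtain ⟨r, hr, hrd⟩ := Nat.exists_prime_and_dvd fun h => (hal i).2.2.2.1 (orderOf_eq_one_iff.1 h)
    refine ⟨orderOf (l i) / r, r, hr, fun h => hodd ?_, orderOf_pow_orderOf_div (orderOf_pos _).ne' hrd⟩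
    rw [← h]
    exact hrd.trans ((Subgroup.orderOf_mk (l i) (hal i).2.2.1 ▸ orderOf_dvd_natCard _ :
      orderOf (l i) ∣ Nat.card M).trans hMF')
  choose k r hr hr2 hord using hpr
  set m : Fin n → S := fun i => l (e i) ^ k (e i) with hm
  have hinv : ∀ i, a (e i) * m i * (a (e i))⁻¹ = (m i)⁻¹ := fun i => by
    rw [hm, ← conj_pow, (hal (e i)).2.2.2.2, inv_pow]
  have hfix : ∀ i j, i ≠ j → a (e i) * m j * (a (e i))⁻¹ = m j := fun i j h => by
    rw [hm, ← conj_pow, hij _ _ (fun h' => h (e.injective h'))]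
  have hcomm : ∀ i j, Commute (m i) (m j) := fun i j => (hll _ _).pow_pow _ _
  have hm1 : ∀ i, m i ≠ 1 := fun i h => (hr (e i)).one_lt.ne' (by rw [← hord (e i), show l (e i) ^ k (e i) = 1 from h, orderOf_one])
  have hodd2 : ∀ i, ∀ x ∈ Subgroup.zpowers (m i), x ^ 2 = 1 → x = 1 := fun i x hx h => by
    rw [← orderOf_eq_one_iff]
    have h1 : orderOf x ∣ r (e i) := by
      rw [← hord (e i)]; exact orderOf_dvd_of_mem_zpowers hx
    exact Nat.dvd_one.1 (((Nat.coprime_primes (hr (e i)) Nat.prime_two).2 (hr2 (e i))).gcd_eq_one ▸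
      Nat.dvd_gcd h1 (orderOf_dvd_of_pow_eq_one h))
  have hagen : ∀ i, a i ∈ I := fun i => (hal i).1
  refine ⟨fun i => Subgroup.zpowers (m i), fun i => ?_, fun i => ?_, fun i => ?_, fun i j _ x hx y hy => ?_, ?_, ?_⟩
  · rw [Nat.card_zpowers, show orderOf (m i) = r (e i) from hord (e i)]
    exact hr (e i)
  · exact Subgroup.zpowers_le.2 (hMF (pow_mem (hal (e i)).2.2.1 _))
  · rw [← hgen, Subgroup.closure_le]
    rintro _ ⟨j, rfl⟩
    obtain ⟨j, rfl⟩ := e.surjective j
    rw [SetLike.mem_coe, Subgroup.mem_normalizer_iff_map_conj_eq, MonoidHom.map_zpowers]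
    show Subgroup.zpowers (a (e j) * m i * (a (e j))⁻¹) = _
    by_cases h : j = i
    · rw [h, hinv, Subgroup.zpowers_inv]
    · rw [hfix j i h]
  · obtain ⟨u, rfl⟩ := Subgroup.mem_zpowers_iff.1 hx
    obtain ⟨v, rfl⟩ := Subgroup.mem_zpowers_iff.1 hy
    exact ((hcomm i j).zpow_zpow u v).eq
  · have hcomm' : Pairwise fun i j : Fin n => ∀ x y : S, x ∈ Subgroup.zpowers (m i) →
        y ∈ Subgroup.zpowers (m j) → Commute x y := by
      intro i j _ x y hx hy
      obtain ⟨u, rfl⟩ := Subgroup.mem_zpowers_iff.1 hx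
      obtain ⟨v, rfl⟩ := Subgroup.mem_zpowers_iff.1 hy
      exact (hcomm i j).zpow_zpow u v
    have hind : iSupIndep fun i => Subgroup.zpowers (m i) := by
      intro i
      rw [disjoint_iff_inf_le]
      intro x hx
      have hxi := hx.1
      have hxc : x ∈ Subgroup.centralizer {a (e i)} := by
        refine (iSup₂_le (fun j hj => Subgroup.zpowers_le.2 ?_) :
          (⨆ (j) (_ : j ≠ i), Subgroup.zpowers (m j)) ≤ Subgroup.centralizer {a (e i)}) hx.2
        rw [Subgroup.mem_centralizer_singleton_iff]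
        exact (mul_inv_eq_iff_eq_mul.1 (hfix i j (Ne.symm hj))).symm
      rw [Subgroup.mem_centralizer_singleton_iff] at hxc
      obtain ⟨u, rfl⟩ := Subgroup.mem_zpowers_iff.1 hxi
      refine hodd2 i _ hxi ?_
      have h1 : a (e i) * m i ^ u * (a (e i))⁻¹ = (m i ^ u)⁻¹ := by
        rw [← conj_zpow, hinv, inv_zpow]
      rw [← hxc, mul_inv_cancel_right] at h1
      rw [pow_two]
      exact mul_eq_one_iff_eq_inv.2 h1
    rw [← Subgroup.noncommPiCoprod_range (hcomm := hcomm'),
      ← Nat.card_congr (MonoidHom.ofInjective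
        (Subgroup.injective_noncommPiCoprod_of_iSupIndep hind)).toEquiv, Nat.card_pi]
  · rw [← le_bot_iff]
    intro b hb
    have hcommI : Pairwise fun i j : ι => ∀ x y : S, x ∈ Subgroup.zpowers (a i) →
        y ∈ Subgroup.zpowers (a j) → Commute x y := by
      intro i j _ x y hx hy
      haveI := hI.1
      exact congrArg Subtype.val (mul_comm' (⟨x, Subgroup.zpowers_le.2 (hagen i) hx⟩ : I)
        ⟨y, Subgroup.zpowers_le.2 (hagen j) hy⟩)
    have hbr : b ∈ (Subgroup.noncommPiCoprod hcommI).range := by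
      rw [Subgroup.noncommPiCoprod_range]
      have : I ≤ ⨆ i, Subgroup.zpowers (a i) := by
        conv_lhs => rw [← hgen]
        rw [Subgroup.closure_le]
        rintro _ ⟨i, rfl⟩
        exact Subgroup.mem_iSup_of_mem i (Subgroup.mem_zpowers _)
      exact this hb.1
    obtain ⟨x, rfl⟩ := hbr
    suffices hx1 : x = 1 by rw [hx1, map_one, Subgroup.mem_bot]
    funext i₀
    obtain ⟨i, rfl⟩ := e.surjective i₀
    by_contra hne
    -- the other components centralise `m i`
    have hrest : Subgroup.noncommPiCoprod hcommI (x * (Pi.mulSingle (e i) (x (e i)))⁻¹) ∈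
        Subgroup.centralizer {m i} := by
      refine Subgroup.pi_mem_of_mulSingle_mem
        (H := (Subgroup.centralizer {m i}).comap (Subgroup.noncommPiCoprod hcommI)) _ fun j => ?_
      rw [Subgroup.mem_comap, Subgroup.noncommPiCoprod_mulSingle]
      by_cases hji : j = e i
      · subst hji
        simp
      · obtain ⟨j, rfl⟩ := e.surjective j
        have h1 : Subgroup.zpowers (a (e j)) ≤ Subgroup.centralizer {m i} := by
          rw [Subgroup.zpowers_le, Subgroup.mem_centralizer_singleton_iff]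
          exact mul_inv_eq_iff_eq_mul.1 (hfix j i fun h => hji (congrArg e h))
        exact h1 (SetLike.coe_mem _)
    have hbm : Subgroup.noncommPiCoprod hcommI x ∈ Subgroup.centralizer {m i} := by
      rw [Subgroup.mem_centralizer_singleton_iff]
      exact (Subgroup.mem_centralizer_iff.1 hb.2 _
        (Subgroup.mem_iSup_of_mem i (Subgroup.mem_zpowers _))).symm
    rw [map_mul, map_inv, Subgroup.noncommPiCoprod_mulSingle,
      Subgroup.mul_mem_cancel_left _ hbm, Subgroup.inv_mem_iff,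
      Subgroup.mem_centralizer_singleton_iff] at hrest
    have hxa : ((x (e i) : Subgroup.zpowers (a (e i))) : S) = a (e i) := by
      obtain ⟨u, hu⟩ := Subgroup.mem_zpowers_iff.1 (x (e i)).2
      rcases Int.even_or_odd u with ⟨v, hv⟩ | ⟨v, hv⟩
      · exact absurd (Subtype.ext (by
          rw [← hu, hv, ← two_mul, zpow_mul, zpow_ofNat, hI.2 _ (hagen _), one_zpow]; rfl)) hne
      · rw [← hu, hv, zpow_add, zpow_mul, zpow_ofNat, hI.2 _ (hagen _), one_zpow, one_mul, zpow_one]
    rw [hxa] at hrest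
    have h1 := hinv i
    rw [hrest, mul_inv_cancel_right] at h1
    exact hm1 i (hodd2 i _ (Subgroup.mem_zpowers _) (by rw [pow_two]; exact mul_eq_one_iff_eq_inv.2 h1))

end Cfsg.Agent.S4408
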