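import Cfsg.Statements.S4409
import Cfsg.Agent.TwoSmall.Classify

set_option autoImplicit false
open Cfsg
open scoped Pointwise commutatorElement

namespace Cfsg.Agent.S4409

/-- Let S be a finite solvable group with O_{2'}(S) = 1 that contains a non-cyclic abelian subgroup of order 8, while no proper subgroup of S of 2-power index contains one. Then a Sylow 2-subgroup X of S is normal in S, and one of the following holds: X is abelian; X is extraspecial of order at least 32; X has a generalized quaternion subgroup X₀ of index 2 with X = X₀·C_X(X₀); or X is special with centre of order 4. -/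
theorem result {S : Type*} [Group S] [Finite S]
    [Group.IsSolvable S] (hO : Cfsg.pPrimeCore 2 S = ⊥)
    (h8 : ∃ A : Subgroup S, IsMulCommutative ↥A ∧ ¬ IsCyclic ↥A ∧ Nat.card ↥A = 8)
    (hmin : ∀ R : Subgroup S, R ≠ ⊤ → (∃ k : ℕ, R.index = 2 ^ k) →
      ¬ ∃ A : Subgroup S, A ≤ R ∧ IsMulCommutative ↥A ∧ ¬ IsCyclic ↥A ∧ Nat.card ↥A = 8)
    (X : Sylow 2 S) :
    (X : Subgroup S).Normal ∧
      (IsMulCommutative ↥X ∨
        (Cfsg.IsExtraspecial 2 ↥X ∧ 32 ≤ Nat.card ↥X) ∨
        (∃ (X₀ : Subgroup S) (k : ℕ), X₀ ≤ (X : Subgroup S) ∧ X₀.relIndex (X : Subgroup S) = 2 ∧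
          Nonempty (↥X₀ ≃* QuaternionGroup (2 ^ (k + 1))) ∧ X₀ ⊔ ((X : Subgroup S) ⊓ Subgroup.centralizer (X₀ : Set S)) = (X : Subgroup S)) ∨
        (Cfsg.IsSpecial 2 ↥X ∧ Nat.card ↥(Subgroup.center ↥X) = 4)) := by
  exact TwoSmall.classify hO h8 hmin X

end Cfsg.Agent.S4409
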