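import Cfsg.Statements.S4410
import Cfsg.Agent.Cores.Fitting
import Mathlib

set_option autoImplicit false
open Cfsg

namespace Cfsg.Agent.S4410

set_option linter.unusedSectionVars false
set_option linter.style.haveILetI false

private theorem fact_two : Fact (Nat.Prime 2) := ⟨Nat.prime_two⟩

attribute [local instance] fact_two

variable {V : Type*} [AddCommGroup V] [Module (ZMod 2) V]

theorem add_self_two (v : V) : v + v = 0 := by
  rw [← two_smul (ZMod 2) v, show (2 : ZMod 2) = 0 from rfl, zero_smul]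

/-- The displacement space of a linear automorphism. -/
def disp (g : V ≃ₗ[ZMod 2] V) : Submodule (ZMod 2) V :=
  LinearMap.range ((g : V →ₗ[ZMod 2] V) - LinearMap.id)

theorem mem_disp (g : V ≃ₗ[ZMod 2] V) (v : V) : g v - v ∈ disp g := ⟨v, rfl⟩

theorem disp_le {g : V ≃ₗ[ZMod 2] V} {U : Submodule (ZMod 2) V} (h : ∀ v, g v - v ∈ U) :
    disp g ≤ U := by
  rintro _ ⟨v, rfl⟩
  exact h v

/-- Automorphisms moving vectors only within `U`. -/
def smallGrp (U : Submodule (ZMod 2) V) : Subgroup (V ≃ₗ[ZMod 2] V) where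
  carrier := {g | ∀ v, g v - v ∈ U}
  one_mem' := fun v => by simp
  mul_mem' := fun {f g} hf hg v => by
    rw [show (f * g) v = f (g v) from rfl, ← sub_add_sub_cancel (f (g v)) (g v) v]
    exact U.add_mem (hf _) (hg _)
  inv_mem' := fun {g} hg v => by
    have h := U.neg_mem (hg (g⁻¹ v))
    rwa [show g (g⁻¹ v) = v from g.apply_symm_apply v, neg_sub] at h

/-- An automorphism of odd order trivial on `U` and moving only within `U` is trivial. -/
theorem eq_one_of_trivial {U : Submodule (ZMod 2) V} {g : V ≃ₗ[ZMod 2] V}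
    (hg : g ∈ smallGrp U) (hU : ∀ u ∈ U, g u = u) (hodd : Odd (orderOf g)) : g = 1 := by
  have h2 : g ^ 2 = 1 := by
    refine LinearEquiv.ext fun v => ?_
    rw [pow_two, show (g * g) v = g (g v) from rfl]
    have h := hU _ (hg v)
    rw [map_sub, sub_eq_iff_eq_add] at h
    rw [h]
    show g v - v + g v = v
    rw [sub_add_eq_add_sub, add_self_two, zero_sub, neg_eq_iff_add_eq_zero, add_self_two]
  rcases (Nat.dvd_prime Nat.prime_two).1 (orderOf_dvd_of_pow_eq_one h2) with h | h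
  · exact orderOf_eq_one_iff.1 h
  · rw [h] at hodd; exact absurd hodd (by decide)

variable [Finite V]

theorem card_dvd_small (U : Submodule (ZMod 2) V) (Y : Subgroup (V ≃ₗ[ZMod 2] V))
    (hY : Y ≤ smallGrp U) (hodd : Odd (Nat.card Y)) (hU : Module.finrank (ZMod 2) U ≤ 3) :
    Nat.card Y ∣ 21 ∧ (Module.finrank (ZMod 2) U ≤ 2 → Nat.card Y ∣ 3) := by
  have hinv : ∀ (y : Y) (u : U), (y : V ≃ₗ[ZMod 2] V) u ∈ U := fun y u => by
    simpa using U.add_mem (hY y.2 (u : V)) u.2
  let φ : Y →* (U ≃ₗ[ZMod 2] U) :=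
    { toFun := fun y =>
        { toFun := fun u => ⟨(y : V ≃ₗ[ZMod 2] V) u, hinv y u⟩
          map_add' := fun a b => Subtype.ext (map_add _ (a : V) b)
          map_smul' := fun c a => Subtype.ext (map_smul (y : V ≃ₗ[ZMod 2] V) c (a : V))
          invFun := fun u => ⟨((y⁻¹ : Y) : V ≃ₗ[ZMod 2] V) u, hinv y⁻¹ u⟩
          left_inv := fun u => Subtype.ext ((y : V ≃ₗ[ZMod 2] V).symm_apply_apply u)
          right_inv := fun u => Subtype.ext ((y : V ≃ₗ[ZMod 2] V).apply_symm_apply u) }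
      map_one' := LinearEquiv.ext fun u => rfl
      map_mul' := fun a b => LinearEquiv.ext fun u => rfl }
  have hinj : Function.Injective φ := by
    refine (injective_iff_map_eq_one φ).2 fun y hy => Subtype.ext ?_
    refine eq_one_of_trivial (hY y.2) (fun u hu => ?_) ?_
    · exact congrArg (fun e : U ≃ₗ[ZMod 2] U => ((e ⟨u, hu⟩ : U) : V)) hy
    · exact hodd.of_dvd_nat (Subgroup.orderOf_dvd_natCard Y y.2)
  have hd := Subgroup.card_dvd_of_injective φ hinj
  let e : (U ≃ₗ[ZMod 2] U) ≃* GL (Fin (Module.finrank (ZMod 2) U)) (ZMod 2) :=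
    (LinearMap.GeneralLinearGroup.generalLinearEquiv (ZMod 2) U).symm.trans
      (Units.mapEquiv (LinearMap.toMatrixAlgEquiv (Module.finBasis (ZMod 2) U)).toMulEquiv)
  rw [Nat.card_congr e.toEquiv, Matrix.card_GL_field, ZMod.card] at hd
  have key : ∀ m k : ℕ, Nat.card Y ∣ 2 ^ k * m → Nat.card Y ∣ m := fun m k h =>
    ((Nat.coprime_two_right.2 hodd).pow_right k).dvd_of_dvd_mul_left h
  rcases hn : Module.finrank (ZMod 2) U with _ | _ | _ | _ | k
  all_goals rw [hn] at hd
  · simp at hd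
    simp [hd]
  · simp at hd
    simp [hd]
  · have h3 : Nat.card Y ∣ 3 := key 3 1 (by simpa [Fin.prod_univ_succ] using hd)
    exact ⟨h3.trans (by norm_num), fun _ => h3⟩
  · refine ⟨key 21 3 (by simpa [Fin.prod_univ_succ] using hd), fun h => ?_⟩
    omega
  · omega

/-- An element of order three inverted by `t` with one dimensional displacement space `D`
displaces over `D`. -/
theorem disp_le_of_inverted {t x : V ≃ₗ[ZMod 2] V} (ht : Module.finrank (ZMod 2) (disp t) ≤ 1)
    (hx3 : x ^ 3 = 1) (hx1 : x ≠ 1) (hinv : t * x * t⁻¹ = x⁻¹) : disp t ≤ disp x := by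
  by_contra hle
  have hbot : disp t ⊓ disp x = ⊥ := by
    rw [← Submodule.finrank_eq_zero (R := ZMod 2)]
    have h1 : disp t ⊓ disp x < disp t :=
      lt_of_le_of_ne inf_le_left fun h => hle (h.ge.trans inf_le_right)
    have h2 := Submodule.finrank_lt_finrank_of_lt h1
    omega
  have hxs : x ∈ smallGrp (disp x) := mem_disp x
  have htx : ∀ v, t (x v) = x⁻¹ (t v) := fun v => by
    rw [← hinv]
    show t (x v) = t (x (t⁻¹ (t v)))
    rw [show t⁻¹ (t v) = v from t.symm_apply_apply v]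
  have htD : ∀ u ∈ disp x, t u = u := by
    rintro u ⟨v, rfl⟩
    have h1 : t (x v - v) ∈ disp x := by
      rw [map_sub, htx]
      exact (smallGrp (disp x)).inv_mem hxs _
    have h2 : t (x v - v) - (x v - v) ∈ disp t ⊓ disp x :=
      ⟨mem_disp t _, (disp x).sub_mem h1 (mem_disp x v)⟩
    rw [hbot, Submodule.mem_bot, sub_eq_zero] at h2
    exact h2
  refine hx1 (eq_one_of_trivial hxs (fun u hu => ?_) ?_)
  · have hxu : x u ∈ disp x := by simpa using (disp x).add_mem (hxs u) hu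
    have h := htD _ hxu
    rw [htx, htD u hu] at h
    have h2 : x (x u) = u := by
      conv_lhs => rw [← h]
      rw [show x (x⁻¹ u) = u from x.apply_symm_apply u]
    have h3 : x (x (x u)) = u := LinearEquiv.congr_fun hx3 u
    rwa [h2] at h3
  · rw [orderOf_eq_prime hx3 hx1]; decide

/-- Conjugation transports the displacement space. -/
theorem finrank_disp_conj (f g : V ≃ₗ[ZMod 2] V) :
    Module.finrank (ZMod 2) (disp (f * g * f⁻¹)) ≤ Module.finrank (ZMod 2) (disp g) := by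
  refine le_trans (Submodule.finrank_mono (t := (disp g).map (f : V →ₗ[ZMod 2] V)) ?_)
    (Submodule.finrank_map_le _ _)
  refine disp_le fun v => ⟨g (f⁻¹ v) - f⁻¹ v, mem_disp g _, ?_⟩
  show f (g (f⁻¹ v) - f⁻¹ v) = f (g (f⁻¹ v)) - v
  rw [map_sub, show f (f⁻¹ v) = v from f.apply_symm_apply v]


/-- Let V be a finite-dimensional vector space over the field with two elements and S a solvable group of linear automorphisms of V with O₂(S) = 1. If P ∈ S has order 4 and (P − 1)³ = 0 on V, then the image of (P − 1)² has at least 4 elements; equivalently, in the decomposition of V into indecomposable modules for the cyclic group generated by P, at least two summands have dimension 3. -/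
theorem result
    {V : Type*} [AddCommGroup V] [Module (ZMod 2) V] [Finite V]
    (S : Subgroup (V ≃ₗ[ZMod 2] V)) (hS : Group.IsSolvable ↥S) (hO2 : Cfsg.pCore 2 ↥S = ⊥)
    (P : V ≃ₗ[ZMod 2] V) (hPS : P ∈ S) (hP4 : orderOf P = 4)
    (hcub : ((P : V →ₗ[ZMod 2] V) - LinearMap.id) ^ 3 = 0) :
    4 ≤ Nat.card ↥(LinearMap.range (((P : V →ₗ[ZMod 2] V) - LinearMap.id) ^ 2)) := by
  classical
  haveI : Fact (Nat.Prime 2) := ⟨Nat.prime_two⟩
  haveI : Fact (Nat.Prime 3) := ⟨Nat.prime_three⟩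
  haveI : Finite (V ≃ₗ[ZMod 2] V) :=
    Finite.of_injective (fun g => (g : V → V)) DFunLike.coe_injective
  set t : V ≃ₗ[ZMod 2] V := P ^ 2 with ht
  have ht1 : t ≠ 1 := fun h => by
    have := Nat.le_of_dvd (by norm_num) (orderOf_dvd_of_pow_eq_one h); omega
  have htt : t * t = 1 := by rw [ht, ← pow_add, show 2 + 2 = orderOf P from hP4.symm, pow_orderOf_eq_one]
  have hti : t⁻¹ = t := inv_eq_of_mul_eq_one_right htt
  have hr : LinearMap.range (((P : V →ₗ[ZMod 2] V) - LinearMap.id) ^ 2) = disp t := by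
    refine congrArg LinearMap.range (LinearMap.ext fun v => ?_)
    rw [pow_two]
    show P (P v - v) - (P v - v) = t v - v
    rw [ht, pow_two, map_sub, show (P * P) v = P (P v) from rfl]
    have h0 : (P v - v) + (P v - v) = 0 := add_self_two _
    calc P (P v) - P v - (P v - v) = P (P v) - v - ((P v - v) + (P v - v)) := by abel
      _ = P (P v) - v := by rw [h0, sub_zero]
  rw [hr, Module.natCard_eq_pow_finrank (K := ZMod 2), Nat.card_zmod]
  by_contra hlt
  have hrk : Module.finrank (ZMod 2) (disp t) ≤ 1 := by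
    by_contra h
    exact hlt (Nat.pow_le_pow_right (n := 2) two_pos (show 2 ≤ _ by omega))
  haveI : Group.IsSolvable ↥S := hS
  set F := Cfsg.fittingSubgroup ↥S with hF
  haveI : Group.IsNilpotent F := Cores.fittingSubgroup_isNilpotent
  have hFodd : Odd (Nat.card F) := by
    rw [Nat.odd_iff]
    by_contra h
    have hd : 2 ∣ Nat.card F := by omega
    obtain ⟨Q⟩ : Nonempty (Sylow 2 F) := inferInstance
    haveI : (Q : Subgroup F).Characteristic := Q.characteristic_of_normal inferInstance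
    have hle : (Q : Subgroup F).map F.subtype ≤ Cfsg.pCore 2 ↥S :=
      Cores.le_pCore inferInstance (Q.isPGroup'.map F.subtype)
    rw [hO2, le_bot_iff, Subgroup.map_eq_bot_iff_of_injective _ F.subtype_injective] at hle
    exact Q.ne_bot_of_dvd_card hd hle
  set t' : ↥S := (⟨P, hPS⟩ : ↥S) ^ 2 with ht'
  have ht'c : (t' : V ≃ₗ[ZMod 2] V) = t := rfl
  have hcop : t' ∉ Subgroup.centralizer (F : Set ↥S) := fun h => by
    have hF' : t' ∈ F := Cores.centralizer_fittingSubgroup_le h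
    have h2 : orderOf t' = 2 := orderOf_eq_prime
      (Subtype.ext (by rw [pow_two]; exact htt)) (fun h => ht1 (congrArg Subtype.val h))
    have hd := Subgroup.orderOf_dvd_natCard F hF'
    rw [h2] at hd
    rw [Nat.odd_iff] at hFodd
    omega
  obtain ⟨f, hf, hne⟩ : ∃ f ∈ F, t' * f ≠ f * t' := by
    by_contra hc
    push Not at hc
    exact hcop (Subgroup.mem_centralizer_iff.2 fun f hf => (hc f hf).symm)
  set x' : ↥S := f⁻¹ * (t' * f * t'⁻¹) with hx'
  have hx'F : x' ∈ F := mul_mem (inv_mem hf)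
    ((inferInstance : F.Normal).conj_mem f hf t')
  set x : V ≃ₗ[ZMod 2] V := (x' : V ≃ₗ[ZMod 2] V) with hxdef
  set fc : V ≃ₗ[ZMod 2] V := (f : V ≃ₗ[ZMod 2] V) with hfc
  have hxe : x = fc⁻¹ * (t * fc * t⁻¹) := rfl
  have hx1 : x ≠ 1 := fun h => hne (by
    have h' : x' = 1 := Subtype.ext h
    rw [hx', inv_mul_eq_one, eq_mul_inv_iff_mul_eq] at h'
    exact h'.symm)
  have hxinv : t * x * t⁻¹ = x⁻¹ := by
    rw [hxe, hti]
    simp only [mul_assoc, mul_inv_rev, inv_inv, hti, htt, mul_one]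
  have hoddx : ∀ z : ↥S, z ∈ F → Odd (orderOf (z : V ≃ₗ[ZMod 2] V)) := fun z hz => by
    rw [Subgroup.orderOf_coe]
    exact hFodd.of_dvd_nat (Subgroup.orderOf_dvd_natCard F hz)
  have hxs : ∀ v, x v - v ∈ disp (fc⁻¹ * t * fc⁻¹⁻¹) ⊔ disp t := fun v => by
    have hxe' : x = (fc⁻¹ * t * fc⁻¹⁻¹) * t := by rw [hxe, hti]; group
    rw [hxe', show ((fc⁻¹ * t * fc⁻¹⁻¹) * t) v = (fc⁻¹ * t * fc⁻¹⁻¹) (t v) from rfl,
      ← sub_add_sub_cancel _ (t v) v]
    exact Submodule.add_mem_sup (mem_disp _ _) (mem_disp _ _)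
  have hrx : Module.finrank (ZMod 2) (disp x) ≤ 2 := by
    refine (Submodule.finrank_mono (disp_le hxs)).trans ?_
    have h := Submodule.finrank_sup_add_finrank_inf_eq (disp (fc⁻¹ * t * fc⁻¹⁻¹)) (disp t)
    have h' := finrank_disp_conj fc⁻¹ t
    omega
  have hxU : Subgroup.zpowers x ≤ smallGrp (disp x) := Subgroup.zpowers_le.2 (mem_disp x)
  have hcard3 : Nat.card (Subgroup.zpowers x) ∣ 3 :=
    (card_dvd_small (disp x) _ hxU (by rw [Nat.card_zpowers]; exact hoddx x' hx'F)
      (by omega)).2 hrx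
  rw [Nat.card_zpowers] at hcard3
  have hx3 : x ^ 3 = 1 := orderOf_dvd_iff_pow_eq_one.1 hcard3
  set y : V ≃ₗ[ZMod 2] V := P * x * P⁻¹ with hy
  have htP : P * t = t * P := by rw [ht]; exact Commute.self_pow P 2
  have hy3 : y ^ 3 = 1 := by rw [hy, conj_pow, hx3, mul_one, mul_inv_cancel]
  have hy1 : y ≠ 1 := fun h => hx1 (by
    rw [hy, mul_inv_eq_one, mul_eq_left] at h; exact h)
  have hyinv : t * y * t⁻¹ = y⁻¹ := by
    have h1 : t * P = P * t := htP.symm
    calc t * y * t⁻¹ = (t * P) * x * (P⁻¹ * t⁻¹) := by rw [hy]; group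
      _ = (P * t) * x * (t⁻¹ * P⁻¹) := by
        rw [← mul_inv_rev, h1, ← mul_inv_rev]
      _ = P * (t * x * t⁻¹) * P⁻¹ := by group
      _ = y⁻¹ := by rw [hxinv, hy]; group
  have hry : Module.finrank (ZMod 2) (disp y) ≤ 2 := (finrank_disp_conj P x).trans hrx
  set U := disp x ⊔ disp y with hU
  have hrU : Module.finrank (ZMod 2) U ≤ 3 := by
    have h := Submodule.finrank_sup_add_finrank_inf_eq (disp x) (disp y)
    have h1 : 1 ≤ Module.finrank (ZMod 2) (disp t) := Nat.one_le_iff_ne_zero.2 fun h0 => ht1 (by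
      rw [Submodule.finrank_eq_zero] at h0
      refine LinearEquiv.ext fun v => ?_
      have := mem_disp t v
      rwa [h0, Submodule.mem_bot, sub_eq_zero] at this)
    have h2 := Submodule.finrank_mono (le_inf (disp_le_of_inverted hrk hx3 hx1 hxinv)
      (disp_le_of_inverted hrk hy3 hy1 hyinv))
    rw [hU]
    omega
  set y' : ↥S := (⟨P, hPS⟩ : ↥S) * x' * (⟨P, hPS⟩ : ↥S)⁻¹ with hy'
  have hy'F : y' ∈ F := (inferInstance : F.Normal).conj_mem x' hx'F _
  obtain ⟨Q⟩ : Nonempty (Sylow 3 F) := inferInstance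
  haveI : Subsingleton (Sylow 3 F) := Sylow.unique_of_normal Q inferInstance |>.instSubsingleton
  have hQ : ∀ z : F, z ^ 3 = 1 → z ∈ (Q : Subgroup F) := fun z hz => by
    have hp : IsPGroup 3 (Subgroup.zpowers z) := by
      rintro ⟨w, hw⟩
      obtain ⟨i, rfl⟩ := Subgroup.mem_zpowers_iff.1 hw
      refine ⟨1, Subtype.ext ?_⟩
      rw [pow_one]
      show (z ^ i) ^ 3 = 1
      rw [← zpow_natCast, ← zpow_mul, mul_comm, zpow_mul, zpow_natCast, hz, one_zpow]
    obtain ⟨Q', hQ'⟩ := hp.exists_le_sylow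
    rw [Subsingleton.elim Q' Q] at hQ'
    exact hQ' (Subgroup.mem_zpowers z)
  let ι : F →* (V ≃ₗ[ZMod 2] V) := S.subtype.comp F.subtype
  set Y := (Q : Subgroup F).map ι ⊓ smallGrp U with hYdef
  have hxY : x ∈ Y := by
    refine ⟨⟨⟨x', hx'F⟩, hQ _ (Subtype.ext (Subtype.ext hx3)), rfl⟩, fun v => ?_⟩
    exact Submodule.mem_sup_left (mem_disp x v)
  have hyY : y ∈ Y := by
    refine ⟨⟨⟨y', hy'F⟩, hQ _ (Subtype.ext (Subtype.ext hy3)), rfl⟩, fun v => ?_⟩
    exact Submodule.mem_sup_right (mem_disp y v)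
  have hYp : IsPGroup 3 Y := (Q.isPGroup'.map ι).to_le inf_le_left
  obtain ⟨k, hk⟩ := hYp.exists_card_eq
  have hYd := (card_dvd_small U Y inf_le_right (hk ▸ Odd.pow (by decide)) hrU).1
  have hox : orderOf x = 3 := orderOf_eq_prime hx3 hx1
  have hk1 : k ≤ 1 := by
    by_contra h
    have h9 : 3 ^ 2 ∣ 21 := (pow_dvd_pow 3 (by omega : 2 ≤ k)).trans (hk ▸ hYd)
    norm_num at h9
  have hle : Subgroup.zpowers x = Y := Subgroup.eq_of_le_of_card_ge (Subgroup.zpowers_le.2 hxY)
    (by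
      rw [Nat.card_zpowers, hox, hk]
      calc 3 ^ k ≤ 3 ^ 1 := Nat.pow_le_pow_right (by norm_num) hk1
        _ = 3 := pow_one 3)
  rw [← hle, Subgroup.mem_zpowers_iff] at hyY
  obtain ⟨i, hi⟩ := hyY
  have hfix : P * y * P⁻¹ = x := by
    have h1 : P * y * P⁻¹ = y ^ i := by
      conv_lhs => rw [← hi]
      rw [← conj_zpow, ← hy]
    have h2 : x ^ (i * i) = x := by
      rcases Int.emod_two_eq_zero_or_one i with _ | _
      all_goals
        have hi3 : i % 3 ≠ 0 := fun h0 => hy1 (by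
          rw [← hi, ← zpow_mod_orderOf, hox, show ((3 : ℕ) : ℤ) = 3 from rfl, h0, zpow_zero])
        rw [← zpow_mod_orderOf, hox, show ((3 : ℕ) : ℤ) = 3 from rfl, Int.mul_emod]
        rcases (show i % 3 = 1 ∨ i % 3 = 2 by omega) with h0 | h0 <;> rw [h0] <;> simp
    rw [h1, ← hi, ← zpow_mul, h2]
  have htx : t * x * t⁻¹ = x := by
    conv_rhs => rw [← hfix]
    rw [ht, hy, pow_two]; group
  rw [hxinv] at htx
  have hx2 : x ^ 2 = 1 := by rw [pow_two]; nth_rewrite 1 [← htx]; exact inv_mul_cancel x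
  refine hx1 ?_
  calc x = x ^ 3 := by rw [pow_succ, hx2, one_mul]
    _ = 1 := hx3

end Cfsg.Agent.S4410
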