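import Cfsg.Statements.S4412
import Cfsg.Agent.AutEight.Main

set_option autoImplicit false
open Cfsg
open scoped Pointwise commutatorElement

namespace Cfsg.Agent.S4412

/-- Let p be an odd prime, P a finite p-group and I an elementary abelian subgroup of order 8 of Aut(P). Call T ∈ I, T ≠ 1, broad when its fixed-point subgroup C_P(T) is not cyclic. Suppose I has a proper subgroup I₀ containing no broad element such that the product of any two broad elements lies in I₀. Then P is abelian of rank exactly 3 (generated by three elements but not by two), there are exactly three broad elements and they generate I, and I₀ is exactly the set of products of two broad elements. -/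
theorem result
    {P : Type*} [Group P] [Finite P] (p : ℕ) (hp : p.Prime) (hp2 : p ≠ 2) (hP : IsPGroup p P)
    (I : Subgroup (MulAut P)) (hI : Cfsg.IsElementaryAbelian 2 I) (hI8 : Nat.card ↥I = 8)
    (I₀ : Subgroup (MulAut P)) (hI₀ : I₀ < I)
    (hdisj : ∀ T ∈ I₀, T ≠ 1 → ∃ g : P, ∀ x : P, (T x = x ↔ x ∈ Subgroup.zpowers g))
    (hprod : ∀ T ∈ I, ∀ T' ∈ I, T ≠ 1 → T' ≠ 1 → (¬ ∃ g : P, ∀ x : P, (T x = x ↔ x ∈ Subgroup.zpowers g)) →
      (¬ ∃ g : P, ∀ x : P, (T' x = x ↔ x ∈ Subgroup.zpowers g)) → T * T' ∈ I₀) :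
    IsMulCommutative P ∧ (∃ a b c : P, Subgroup.closure {a, b, c} = ⊤) ∧ (¬ ∃ a b : P, Subgroup.closure {a, b} = ⊤) ∧
      Nat.card {T : MulAut P // T ∈ I ∧ T ≠ 1 ∧ ¬ ∃ g : P, ∀ x : P, (T x = x ↔ x ∈ Subgroup.zpowers g)} = 3 ∧
      Subgroup.closure {T : MulAut P | T ∈ I ∧ T ≠ 1 ∧ ¬ ∃ g : P, ∀ x : P, (T x = x ↔ x ∈ Subgroup.zpowers g)} = I ∧
      (I₀ : Set (MulAut P)) = {S : MulAut P | ∃ T T' : MulAut P, T ∈ I ∧ T' ∈ I ∧ T ≠ 1 ∧ T' ≠ 1 ∧
        (¬ ∃ g : P, ∀ x : P, (T x = x ↔ x ∈ Subgroup.zpowers g)) ∧ (¬ ∃ g : P, ∀ x : P, (T' x = x ↔ x ∈ Subgroup.zpowers g)) ∧ S = T * T'} := by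
  haveI := Fact.mk hp
  exact AutEight.main hP hp2 I
    (fun T hT T' hT' => congrArg Subtype.val (hI.1.is_comm.comm (⟨T, hT⟩ : I) ⟨T', hT'⟩))
    (fun T hT => by rw [← sq]; exact hI.2 T hT) hI8 I₀ hI₀ hdisj hprod

end Cfsg.Agent.S4412
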