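import Cfsg.Statements.S4413
import Cfsg.Agent.PGroup.InvolutionCount

set_option autoImplicit false
open Cfsg
open scoped commutatorElement
set_option linter.style.haveILetI false

namespace Cfsg.Agent.S4413

variable {P : Type*} [Group P] [Finite P]

/-- Data of an extraspecial group of order 32 of minus type. -/
structure Minus (P : Type*) [Group P] : Prop where
  ext : Cfsg.IsExtraspecial 2 P
  card : Nat.card P = 32
  small : ∀ A : Subgroup P, Cfsg.IsElementaryAbelian 2 A → Nat.card A ≤ 4

theorem exists_gen (hP : Minus P) : ∃ z : P, z ≠ 1 ∧ z * z = 1 ∧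
    ∀ c : P, c ∈ Subgroup.center P ↔ c = 1 ∨ c = z := by
  haveI : Fact (Nat.Prime 2) := ⟨Nat.prime_two⟩
  obtain ⟨z, hz, hzo⟩ := Transfer.exists_orderOf_center hP.ext
  have hz1 : z ≠ 1 := fun h => by rw [h, orderOf_one] at hzo; omega
  have hzz : z * z = 1 := by rw [← sq, ← hzo, pow_orderOf_eq_one]
  refine ⟨z, hz1, hzz, fun c => ⟨fun hc => ?_, ?_⟩⟩
  · rw [PGroup.extraspecial_center_eq_zpowers hP.ext hz hz1] at hc
    obtain ⟨k, rfl⟩ := Subgroup.mem_zpowers_iff.mp hc
    rcases Int.even_or_odd' k with ⟨m, rfl | rfl⟩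
    · left; rw [zpow_mul, zpow_two, hzz, one_zpow]
    · right; rw [zpow_add_one, zpow_mul, zpow_two, hzz, one_zpow, one_mul]
  · rintro (rfl | rfl)
    · exact one_mem _
    · exact hz

theorem sq_center (hP : Minus P) {c : P} (hc : c ∈ Subgroup.center P) : c * c = 1 := by
  obtain ⟨z, -, hzz, hZ⟩ := exists_gen hP
  rcases (hZ c).mp hc with rfl | rfl
  · exact mul_one 1
  · exact hzz

theorem mul_center_sq (hP : Minus P) {c : P} (hc : c ∈ Subgroup.center P) (g : P) :
    (g * c) ^ 2 = g ^ 2 := by
  rw [sq, sq, show g * c * (g * c) = g * (c * g) * c by group,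
    ← Subgroup.mem_center_iff.mp hc g, show g * (g * c) * c = g * g * (c * c) by group,
    sq_center hP hc, mul_one]

/-- Commuting non-central involutions lie in one coset of the centre. -/
theorem same_coset (hP : Minus P) {a b : P} (ha : a * a = 1) (hb : b * b = 1)
    (hab : a * b = b * a) (ha' : a ∉ Subgroup.center P) (hb' : b ∉ Subgroup.center P) :
    a⁻¹ * b ∈ Subgroup.center P := by
  haveI : Fact (Nat.Prime 2) := ⟨Nat.prime_two⟩
  obtain ⟨z, hz1, hzz, hZ⟩ := exists_gen hP
  have hzc : ∀ g : P, g * z = z * g := Subgroup.mem_center_iff.mp ((hZ z).mpr (Or.inr rfl))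
  by_contra hcon
  rw [inv_eq_of_mul_eq_one_right ha] at hcon
  set A := Subgroup.closure ({z, a, b} : Set P) with hA
  have hcomm : ∀ x ∈ ({z, a, b} : Set P), ∀ y ∈ ({z, a, b} : Set P), x * y = y * x := by
    rintro x (rfl | rfl | rfl) y (rfl | rfl | rfl) <;>
      first | rfl | exact (hzc _).symm | exact hzc _ | exact hab | exact hab.symm
  haveI hAc : IsMulCommutative A := Subgroup.isMulCommutative_closure hcomm
  have hAe : Cfsg.IsElementaryAbelian 2 A := by
    refine ⟨hAc, fun g hg => ?_⟩
    induction hg using Subgroup.closure_induction with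
    | mem x hx => rcases hx with rfl | rfl | rfl <;> simp [sq, hzz, ha, hb]
    | one => simp
    | mul x y hx hy ihx ihy =>
      have hc : Commute x y := congrArg Subtype.val (hAc.is_comm.comm ⟨x, hx⟩ ⟨y, hy⟩)
      rw [hc.mul_pow, ihx, ihy, one_mul]
    | inv x hx ihx => rw [inv_pow, ihx, inv_one]
  have hmem : ∀ x ∈ ({z, a, b} : Set P), x ∈ A := fun x hx => Subgroup.subset_closure hx
  have haA : a ∈ A := hmem a (Or.inr (Or.inl rfl))
  have hbA : b ∈ A := hmem b (Or.inr (Or.inr rfl))
  have hzA : z ∈ A := hmem z (Or.inl rfl)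
  have n1 : ∀ x : P, x ∉ Subgroup.center P → x ≠ 1 ∧ x ≠ z := fun x hx =>
    ⟨fun h => hx ((hZ x).mpr (Or.inl h)), fun h => hx ((hZ x).mpr (Or.inr h))⟩
  obtain ⟨a1, a2⟩ := n1 a ha'
  obtain ⟨b1, b2⟩ := n1 b hb'
  obtain ⟨c1, c2⟩ := n1 (a * b) hcon
  have d1 : a ≠ b := fun h => c1 (by rw [← h, ha])
  have d2 : a * b ≠ a := fun h => b1 (mul_eq_left.mp h)
  have d3 : a * b ≠ b := fun h => a1 (mul_eq_right.mp h)
  let f : Fin 5 → A := ![1, ⟨z, hzA⟩, ⟨a, haA⟩, ⟨b, hbA⟩, ⟨a * b, mul_mem haA hbA⟩]
  have hf : Function.Injective f := by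
    intro i j h
    have h' := congrArg Subtype.val h
    fin_cases i <;> fin_cases j <;> simp [f] at h' <;>
      first
        | rfl
        | exact absurd h' hz1 | exact absurd h'.symm hz1
        | exact absurd h' a1 | exact absurd h'.symm a1
        | exact absurd h' a2 | exact absurd h'.symm a2
        | exact absurd h' b1 | exact absurd h'.symm b1
        | exact absurd h' b2 | exact absurd h'.symm b2
        | exact absurd h' c1 | exact absurd h'.symm c1
        | exact absurd h' c2 | exact absurd h'.symm c2
        | exact absurd h' d1 | exact absurd h'.symm d1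
        | exact absurd h' d2 | exact absurd h'.symm d2
        | exact absurd h' d3 | exact absurd h'.symm d3
  have h5 := Nat.card_le_card_of_injective f hf
  have h4 := hP.small A hAe
  rw [Nat.card_fin] at h5
  omega

theorem invCount_twelve (hP : Minus P) : Nat.card {g : P // g ^ 2 = 1} = 12 := by
  haveI : Fact (Nat.Prime 2) := ⟨Nat.prime_two⟩
  obtain ⟨m, -, hm, -, hn⟩ := PGroup.invCount_eq _ P hP.ext rfl
  rw [hP.card] at hm
  have hm2 : 2 * m + 1 = 5 := Nat.pow_right_injective (le_refl 2) (show (2 : ℕ) ^ (2 * m + 1) = 2 ^ 5 by rw [← hm])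
  have hnot : ¬ PGroup.IsPlusTwo P := by
    rintro ⟨A, hA, hA'⟩
    have h4 := Nat.pow_le_pow_left (hP.small A hA) 2
    rw [hP.card] at hA'
    omega
  have := hn hnot
  rw [show m = 2 by omega] at this
  exact this

theorem closure_involutions (hP : Minus P) : Subgroup.closure {g : P | g ^ 2 = 1} = ⊤ := by
  classical
  haveI : Fact (Nat.Prime 2) := ⟨Nat.prime_two⟩
  obtain ⟨z, hz1, hzz, hZ⟩ := exists_gen hP
  set M := Subgroup.closure {g : P | g ^ 2 = 1} with hM
  have hIM : ∀ g : P, g ^ 2 = 1 → g ∈ M := fun g hg => Subgroup.subset_closure hg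
  by_contra hne
  have h12 : 12 ≤ Nat.card M := by
    rw [← invCount_twelve hP]
    exact Nat.card_le_card_of_injective (fun g => (⟨g.1, hIM _ g.2⟩ : M))
      fun a b h => Subtype.ext (congrArg Subtype.val h :)
  have h16 : Nat.card M = 16 := by
    have hd : Nat.card M ∣ 2 ^ 5 := by
      have := Subgroup.card_subgroup_dvd_card M
      rw [hP.card] at this
      exact this
    obtain ⟨e, he, heq⟩ := (Nat.dvd_prime_pow Nat.prime_two).mp hd
    have hne' : Nat.card M ≠ 32 := fun h => hne (Subgroup.eq_top_of_card_eq M (by rw [h, hP.card]))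
    rw [heq] at h12 hne' ⊢
    interval_cases e <;> omega
  obtain ⟨u, hu, hu'⟩ : ∃ u : P, u ^ 2 = 1 ∧ u ∉ Subgroup.center P := by
    by_contra hcon
    simp only [not_exists, not_and, not_not] at hcon
    have h : Nat.card {g : P // g ^ 2 = 1} ≤ Nat.card (Subgroup.center P) :=
      Nat.card_le_card_of_injective (fun g => (⟨g.1, hcon _ g.2⟩ : Subgroup.center P))
        fun a b h => Subtype.ext (congrArg Subtype.val h :)
    rw [invCount_twelve hP, hP.ext.2] at h
    omega
  set C := M ⊓ Subgroup.centralizer ({u} : Set P) with hC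
  have hidx : C.relIndex M ≤ 2 := by
    rw [hC, Subgroup.inf_relIndex_left]
    refine le_trans ?_ (PGroup.extraspecial_index_centralizer_le hP.ext u)
    rw [← Subgroup.relIndex_top_right (Subgroup.centralizer ({u} : Set P))]
    exact Subgroup.relIndex_le_of_le_right le_top
      (by rw [Subgroup.relIndex_top_right]; exact Subgroup.index_ne_zero_of_finite)
  have hmul : Nat.card C * C.relIndex M = 16 := by
    rw [← h16, ← Subgroup.relIndex_bot_left, ← Subgroup.relIndex_bot_left,
      Subgroup.relIndex_mul_relIndex _ _ _ bot_le inf_le_left]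
  -- the twelve solutions: at most four commute with `u`, the other eight fill `M \ C`
  let I₁ := {g : P // g ^ 2 = 1 ∧ Commute g u}
  let I₂ := {g : P // g ^ 2 = 1 ∧ ¬ Commute g u}
  have hsum : Nat.card I₁ + Nat.card I₂ = 12 := by
    rw [← invCount_twelve hP, ← Nat.card_congr ((Equiv.subtypeSubtypeEquivSubtypeInter
      (fun g : P => g ^ 2 = 1) (fun g => Commute g u))),
      ← Nat.card_congr ((Equiv.subtypeSubtypeEquivSubtypeInter
      (fun g : P => g ^ 2 = 1) (fun g => ¬ Commute g u))), ← Nat.card_sum,
      Nat.card_congr (Equiv.sumCompl fun g : {g : P // g ^ 2 = 1} => Commute (g : P) u)]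
  have hI₁ : Nat.card I₁ ≤ 4 := by
    have hcl : ∀ g : I₁, g.1 ∈ Subgroup.center P ∨ u⁻¹ * g.1 ∈ Subgroup.center P := fun g => by
      by_cases hg : g.1 ∈ Subgroup.center P
      · exact Or.inl hg
      · exact Or.inr (same_coset hP (by rw [← sq]; exact hu) (by rw [← sq]; exact g.2.1)
          g.2.2.symm.eq hu' hg)
    let f : I₁ → Subgroup.center P ⊕ Subgroup.center P := fun g =>
      if hg : g.1 ∈ Subgroup.center P then Sum.inl ⟨g.1, hg⟩
      else Sum.inr ⟨u⁻¹ * g.1, (hcl g).resolve_left hg⟩
    have hf : Function.Injective f := by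
      intro a b h
      simp only [f] at h
      split_ifs at h with h1 h2 h2 <;>
        simp only [Sum.inl.injEq, Sum.inr.injEq, Subtype.mk.injEq, mul_right_inj] at h <;>
        exact Subtype.ext h
    have := Nat.card_le_card_of_injective f hf
    rwa [Nat.card_sum, hP.ext.2] at this
  let out : I₂ → {g : M // (g : P) ∉ C} := fun g =>
    ⟨⟨g.1, hIM _ g.2.1⟩, fun h => g.2.2 (Subgroup.mem_centralizer_singleton_iff.mp h.2)⟩
  have hout : Function.Injective out := fun a b h =>
    Subtype.ext (congrArg (fun x : {g : M // (g : P) ∉ C} => ((x.1 : M) : P)) h :)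
  have hcompl : Nat.card {g : M // (g : P) ∉ C} + Nat.card C = 16 := by
    rw [← h16, ← Nat.card_congr (Subgroup.subgroupOfEquivOfLe (inf_le_left : C ≤ M)).toEquiv,
      add_comm, ← Nat.card_sum]
    exact Nat.card_congr (Equiv.sumCompl fun g : M => (g : P) ∈ C)
  have h8 : 8 ≤ Nat.card C := by
    rcases Nat.lt_or_ge (Nat.card C) 8 with h | h
    · exfalso
      have : Nat.card C * C.relIndex M ≤ 7 * 2 := Nat.mul_le_mul (by omega) hidx
      omega
    · exact h
  have hle := Nat.card_le_card_of_injective out hout
  have hsurj : Function.Surjective out :=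
    ((Nat.bijective_iff_injective_and_card out).mpr ⟨hout, by omega⟩).surjective
  have hne2 : 0 < Nat.card I₂ := by omega
  obtain ⟨h, hh, hhu⟩ := (Nat.card_pos_iff.mp hne2).1
  have huM : u ∈ M := hIM u hu
  have hmem : (⟨h * u, mul_mem (hIM _ hh) huM⟩ : M).1 ∉ C := fun hc => hhu (by
    have h1 : Commute (h * u) u := Subgroup.mem_centralizer_singleton_iff.mp hc.2
    have := h1.mul_left (Commute.refl u).inv_left
    rwa [mul_inv_cancel_right] at this)
  obtain ⟨g₀, hg'⟩ := hsurj ⟨_, hmem⟩
  have hgu : g₀.1 = h * u :=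
    congrArg (fun x : {g : M // (g : P) ∉ C} => ((x.1 : M) : P)) hg'
  have hg := g₀.2.1
  rw [hgu] at hg
  refine hhu ?_
  rw [sq] at hh hu hg
  have e1 := inv_eq_of_mul_eq_one_right hg
  rw [mul_inv_rev, inv_eq_of_mul_eq_one_right hh, inv_eq_of_mul_eq_one_right hu] at e1
  exact e1.symm

/-- The singular points of `P / Z(P)`. -/
abbrev Pt (P : Type*) [Group P] :=
  {v : P ⧸ Subgroup.center P // v ≠ 1 ∧ ∃ g : P, (g : P ⧸ Subgroup.center P) = v ∧ g ^ 2 = 1}

theorem card_pt (hP : Minus P) : Nat.card (Pt P) = 5 := by
  classical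
  let T : Set (P ⧸ Subgroup.center P) := {v | ∃ g : P, (g : P ⧸ Subgroup.center P) = v ∧ g ^ 2 = 1}
  have h1 : Nat.card (QuotientGroup.mk ⁻¹' T : Set P) = 12 := by
    rw [← invCount_twelve hP]
    refine Nat.card_congr (Equiv.subtypeEquivRight fun x => ⟨?_, fun hx => ⟨x, rfl, hx⟩⟩)
    rintro ⟨g, hg, hg2⟩
    rw [← mul_inv_cancel_left g x, mul_center_sq hP (QuotientGroup.eq.mp hg), hg2]
  rw [Nat.card_congr (QuotientGroup.preimageMkEquivSubgroupProdSet _ T), Nat.card_prod,
    hP.ext.2] at h1
  have h2 : Nat.card T = Nat.card (Pt P) + 1 := by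
    rw [← Nat.card_congr (Equiv.sumCompl fun v : T => (v : P ⧸ Subgroup.center P) ≠ 1),
      Nat.card_sum]
    congr 1
    · exact Nat.card_congr ((Equiv.subtypeSubtypeEquivSubtypeInter (· ∈ T) (· ≠ 1)).trans
        (Equiv.subtypeEquivRight fun v => and_comm))
    · rw [Nat.card_eq_one_iff_exists]
      refine ⟨⟨⟨1, 1, rfl, one_pow 2⟩, by simp⟩, fun v => Subtype.ext (Subtype.ext ?_)⟩
      exact not_not.mp v.2
  omega

theorem center_map (φ : MulAut P) : (Subgroup.center P).map φ.toMonoidHom = Subgroup.center P :=
  Subgroup.characteristic_iff_map_eq.mp inferInstance φ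

/-- The action of automorphisms on `P / Z(P)`. -/
noncomputable def bar : MulAut P →* MulAut (P ⧸ Subgroup.center P) where
  toFun φ := QuotientGroup.congr _ _ φ (center_map φ)
  map_one' := MulEquiv.ext fun v => Quotient.inductionOn' v fun _ => rfl
  map_mul' _ _ := MulEquiv.ext fun v => Quotient.inductionOn' v fun _ => rfl

theorem bar_mk (φ : MulAut P) (g : P) : bar φ (g : P ⧸ Subgroup.center P) = (φ g : P) := rfl

theorem bar_pt (φ : MulAut P) (v : Pt P) :
    bar φ v.1 ≠ 1 ∧ ∃ g : P, (g : P ⧸ Subgroup.center P) = bar φ v.1 ∧ g ^ 2 = 1 := by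
  obtain ⟨hv, g, hg, hg2⟩ := v.2
  exact ⟨fun h => hv ((bar φ).injective (h.trans (map_one _).symm)), φ g,
    by rw [← bar_mk, hg], by rw [← map_pow, hg2, map_one]⟩

/-- The action of automorphisms on the five singular points. -/
noncomputable def perm : MulAut P →* Equiv.Perm (Pt P) where
  toFun φ :=
    { toFun := fun v => ⟨bar φ v.1, bar_pt φ v⟩
      invFun := fun v => ⟨bar φ⁻¹ v.1, bar_pt φ⁻¹ v⟩
      left_inv := fun v => Subtype.ext (by
        show bar φ⁻¹ (bar φ v.1) = v.1
        rw [map_inv]; exact (bar φ).symm_apply_apply _)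
      right_inv := fun v => Subtype.ext (by
        show bar φ (bar φ⁻¹ v.1) = v.1
        rw [map_inv]; exact (bar φ).apply_symm_apply _) }
  map_one' := Equiv.ext fun v => Subtype.ext (by show bar 1 v.1 = v.1; rw [map_one]; rfl)
  map_mul' a b := Equiv.ext fun v => Subtype.ext (by
    show bar (a * b) v.1 = bar a (bar b v.1); rw [map_mul]; rfl)

theorem ker_perm (hP : Minus P) : (perm (P := P)).ker = (MulAut.conj : P →* MulAut P).range := by
  haveI : Fact (Nat.Prime 2) := ⟨Nat.prime_two⟩
  refine le_antisymm (fun φ hφ => ?_) ?_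
  · have hfix : ∀ g : P, g⁻¹ * φ g ∈ Subgroup.center P := by
      have hinv : ∀ g ∈ {g : P | g ^ 2 = 1}, (φ g : P ⧸ Subgroup.center P) = g := by
        intro g hg
        by_cases hv : (g : P ⧸ Subgroup.center P) = 1
        · rw [← bar_mk, hv, map_one]
        · exact congrArg Subtype.val
            (congrArg (fun e : Equiv.Perm (Pt P) => e ⟨g, hv, g, rfl, hg⟩) (MonoidHom.mem_ker.mp hφ) :)
      have heq : (QuotientGroup.mk' (Subgroup.center P)).comp φ.toMonoidHom =
          QuotientGroup.mk' (Subgroup.center P) :=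
        MonoidHom.eq_of_eqOn_dense (closure_involutions hP) hinv
      intro g
      exact QuotientGroup.eq.mp (DFunLike.congr_fun heq g).symm
    obtain ⟨g, rfl⟩ := PGroup.extraspecial_exists_conj hP.ext φ hfix
    exact ⟨g, rfl⟩
  · rintro - ⟨a, rfl⟩
    refine MonoidHom.mem_ker.mpr (Equiv.ext fun v => Subtype.ext ?_)
    obtain ⟨-, g, hg, -⟩ := v.2
    show bar (MulAut.conj a) v.1 = v.1
    rw [← hg, bar_mk, MulAut.conj_apply]
    refine (QuotientGroup.eq.mpr ?_).symm
    have := PGroup.special_commutatorElement_mem hP.ext.1 g⁻¹ a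
    rwa [commutatorElement_def, inv_inv, show g⁻¹ * a * g * a⁻¹ = g⁻¹ * (a * g * a⁻¹) by group]
      at this

open Classical in
theorem exists_swap (hP : Minus P) (v w : Pt P) (hvw : v ≠ w) :
    ∃ φ : MulAut P, perm φ = Equiv.swap v w := by
  classical
  haveI : Fact (Nat.Prime 2) := ⟨Nat.prime_two⟩
  obtain ⟨z, hz1, hzz, hZ⟩ := exists_gen hP
  have hzc : ∀ g : P, g * z = z * g := Subgroup.mem_center_iff.mp ((hZ z).mpr (Or.inr rfl))
  have hnc : ∀ (v : Pt P) (g : P), (g : P ⧸ Subgroup.center P) = v.1 → g ∉ Subgroup.center P :=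
    fun v g hg h => v.2.1 (hg ▸ (QuotientGroup.eq_one_iff g).mpr h)
  have hcomm : ∀ g h : P, g * h = h * g ∨ g * h = h * g * z := by
    intro g h
    rcases (hZ _).mp (PGroup.special_commutatorElement_mem hP.ext.1 g h) with hc | hc
    · exact Or.inl (commutatorElement_eq_one_iff_mul_comm.mp hc)
    · right
      rw [hzc]
      calc g * h = ⁅g, h⁆ * (h * g) := by group
        _ = z * (h * g) := by rw [hc]
  have hanti : ∀ (s t : Pt P) (g h : P), s ≠ t → (g : P ⧸ Subgroup.center P) = s.1 → g * g = 1 →
      (h : P ⧸ Subgroup.center P) = t.1 → h * h = 1 → g * h = h * g * z := by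
    intro s t g h hst hg hg2 hh hh2
    refine (hcomm g h).resolve_left fun hc => hst (Subtype.ext ?_)
    rw [← hg, ← hh]
    exact QuotientGroup.eq.mpr (same_coset hP hg2 hh2 hc (hnc s g hg) (hnc t h hh))
  obtain ⟨-, a, ha, ha2⟩ := v.2
  obtain ⟨-, b, hb, hb2⟩ := w.2
  rw [sq] at ha2 hb2
  obtain ⟨r, hr⟩ : ∃ r, r = a * b := ⟨_, rfl⟩
  have hba : b * a = a * b * z := hanti w v b a hvw.symm hb hb2 ha ha2
  have hab : a * b = b * a * z := hanti v w a b hvw ha ha2 hb hb2
  have hr2 : r * r = z := by
    calc r * r = a * (b * a) * b := by rw [hr]; group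
      _ = a * a * b * (z * b) := by rw [hba]; group
      _ = a * a * b * (b * z) := by rw [hzc b]
      _ = (a * a) * (b * b) * z := by group
      _ = z := by rw [ha2, hb2, one_mul, one_mul]
  let φ : P →* P :=
    { toFun := fun g => if g * r = r * g then g else g * r
      map_one' := by simp
      map_mul' := fun g h => by
        by_cases hg : g * r = r * g <;> by_cases hh : h * r = r * h
        · have : g * h * r = r * (g * h) := by rw [mul_assoc, hh, ← mul_assoc, hg, mul_assoc]
          simp only [hg, hh, this, if_true]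
        · have : ¬ g * h * r = r * (g * h) := fun e => hh (by
            rw [mul_assoc g, ← mul_assoc r, ← hg, mul_assoc g] at e
            exact mul_left_cancel e)
          show (if g * h * r = r * (g * h) then g * h else g * h * r) =
            (if g * r = r * g then g else g * r) * (if h * r = r * h then h else h * r)
          rw [if_pos hg, if_neg hh, if_neg this, mul_assoc]
        · have : ¬ g * h * r = r * (g * h) := fun e => hg (by
            rw [mul_assoc g, hh, ← mul_assoc, ← mul_assoc] at e
            exact mul_right_cancel e)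
          simp only [hg, hh, this, if_true, if_false]
          rw [mul_assoc g h, hh, ← mul_assoc]
        · have hg' := (hcomm g r).resolve_left hg
          have hh' := (hcomm r h).resolve_left fun e => hh e.symm
          have hh'' := (hcomm h r).resolve_left hh
          have : g * h * r = r * (g * h) := by
            calc g * h * r = g * (r * h * z) := by rw [mul_assoc, hh'']
              _ = g * r * h * z := by group
              _ = r * g * z * h * z := by rw [hg']
              _ = r * g * (z * h) * z := by group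
              _ = r * g * (h * z) * z := by rw [← hzc h]
              _ = r * (g * h) * (z * z) := by group
              _ = r * (g * h) := by rw [hzz, mul_one]
          simp only [hg, hh, this, if_true, if_false]
          symm
          calc g * r * (h * r) = g * (r * h) * r := by group
            _ = g * h * (r * z) * r := by rw [hh']; group
            _ = g * h * (r * (z * r)) := by group
            _ = g * h * (r * (r * z)) := by rw [hzc r]
            _ = g * h * ((r * r) * z) := by group
            _ = g * h := by rw [hr2, hzz, mul_one] }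
  have hinj : Function.Injective φ := by
    rw [injective_iff_map_eq_one]
    intro g hg
    by_cases h : g * r = r * g
    · simpa [φ, h] using hg
    · have : g * r = 1 := by simpa [φ, h] using hg
      exact absurd (by rw [eq_inv_of_mul_eq_one_left this, inv_mul_cancel, mul_inv_cancel]) h
  refine ⟨MulEquiv.ofBijective φ (Finite.injective_iff_bijective.mp hinj), ?_⟩
  refine Equiv.ext fun t => Subtype.ext ?_
  obtain ⟨-, c, hc, hc2⟩ := t.2
  rw [sq] at hc2
  show bar _ t.1 = _
  rw [← hc, bar_mk]
  show ((φ c : P) : P ⧸ Subgroup.center P) = _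
  by_cases htv : t = v
  · subst htv
    rw [Equiv.swap_apply_left]
    have hne : ¬ c * r = r * c := fun e => hnc w b hb (by
      rw [hr, ← mul_assoc, mul_assoc a b c] at e
      exact absurd e (by
        intro e
        have h1 : b * c = c * b * z := hanti w t b c hvw.symm hb hb2 hc hc2
        have h2 : a * c = c * a := by
          rcases hcomm a c with h | h
          · exact h
          · exfalso
            have h3 : (a : P ⧸ Subgroup.center P) = c := ha.trans hc.symm
            rw [QuotientGroup.eq] at h3
            have h4 := Subgroup.mem_center_iff.mp h3 a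
            have h5 : a * c = c * a := by
              calc a * c = a * (a * (a⁻¹ * c)) := by group
                _ = a * (a⁻¹ * c) * a := by conv_lhs => rw [h4]; rw [← mul_assoc]
                _ = c * a := by group
            rw [h5] at h
            exact hz1 (mul_eq_left.mp h.symm)
        rw [h1, ← mul_assoc, ← mul_assoc, h2] at e
        exact hz1 (mul_eq_left.mp e.symm)))
    show (((if c * r = r * c then c else c * r : P)) : P ⧸ Subgroup.center P) = _
    rw [if_neg hne, hr, QuotientGroup.mk_mul, QuotientGroup.mk_mul, hc, ← ha, ← mul_assoc,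
      ← QuotientGroup.mk_mul, ha2, QuotientGroup.mk_one, one_mul, hb]
  · by_cases htw : t = w
    · subst htw
      rw [Equiv.swap_apply_right]
      have hne : ¬ c * r = r * c := fun e => hz1 (by
        have h1 : a * c = c * a * z := hanti v t a c hvw ha ha2 hc hc2
        have h2 : b * c = c * b := by
          rcases hcomm b c with h | h
          · exact h
          · exfalso
            have h3 : (b : P ⧸ Subgroup.center P) = c := hb.trans hc.symm
            rw [QuotientGroup.eq] at h3
            have h4 := Subgroup.mem_center_iff.mp h3 b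
            have h5 : b * c = c * b := by
              calc b * c = b * (b * (b⁻¹ * c)) := by group
                _ = b * (b⁻¹ * c) * b := by conv_lhs => rw [h4]; rw [← mul_assoc]
                _ = c * b := by group
            rw [h5] at h
            exact hz1 (mul_eq_left.mp h.symm)
        rw [hr, ← mul_assoc, mul_assoc a b c, h2, ← mul_assoc, h1, mul_assoc (c * a) z b,
          ← hzc b, ← mul_assoc] at e
        exact mul_eq_left.mp e.symm)
      show (((if c * r = r * c then c else c * r : P)) : P ⧸ Subgroup.center P) = _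
      rw [if_neg hne, hr, hab, QuotientGroup.mk_mul, QuotientGroup.mk_mul, QuotientGroup.mk_mul,
        hc, ← hb, (QuotientGroup.eq_one_iff z).mpr ((hZ z).mpr (Or.inr rfl)), mul_one, ← mul_assoc,
        ← QuotientGroup.mk_mul, hb2, QuotientGroup.mk_one, one_mul, ha]
    · rw [Equiv.swap_apply_of_ne_of_ne htv htw]
      have e : c * r = r * c := by
        have h1 := hanti t v c a htv hc hc2 ha ha2
        have h2 := hanti t w c b htw hc hc2 hb hb2
        calc c * r = (c * a) * b := by rw [hr]; group
          _ = a * c * (z * b) := by rw [h1]; group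
          _ = a * c * (b * z) := by rw [hzc b]
          _ = a * (c * b) * z := by group
          _ = a * b * c * (z * z) := by rw [h2]; group
          _ = r * c := by rw [hzz, mul_one, hr]
      show (((if c * r = r * c then c else c * r : P)) : P ⧸ Subgroup.center P) = _
      rw [if_pos e, hc]

theorem perm_surjective (hP : Minus P) : Function.Surjective (perm (P := P)) := by
  classical
  rw [← MonoidHom.range_eq_top, eq_top_iff, ← Equiv.Perm.closure_isSwap, Subgroup.closure_le]
  rintro σ ⟨v, w, hvw, rfl⟩
  exact exists_swap hP v w hvw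

/-- Let P be an extraspecial 2-group of order 32 with no elementary abelian subgroup of order 8 (the central product of a dihedral and a quaternion group of order 8). Then the inner automorphism group of P has order 16 and the outer automorphism group Aut(P)/Inn(P) is isomorphic to the symmetric group of degree 5; in particular Aut(P) has order 1920. -/
theorem result {P : Type*} [Group P] [Finite P]
    (hex : Cfsg.IsExtraspecial 2 P) (h32 : Nat.card P = 32)
    (hminus : ∀ A : Subgroup P, Cfsg.IsElementaryAbelian 2 A → Nat.card ↥A ≤ 4)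
    [(MulAut.conj : P →* MulAut P).range.Normal] :
    Nat.card ↥(MulAut.conj : P →* MulAut P).range = 16 ∧ Nat.card (MulAut P) = 1920 ∧
      Nonempty ((MulAut P ⧸ (MulAut.conj : P →* MulAut P).range) ≃* Equiv.Perm (Fin 5)) := by

  haveI : Fact (Nat.Prime 2) := ⟨Nat.prime_two⟩
  have hP : Minus P := ⟨hex, h32, hminus⟩
  have h16 : Nat.card (MulAut.conj : P →* MulAut P).range = 16 := by
    have hk : (MulAut.conj : P →* MulAut P).ker = Subgroup.center P := by
      ext g
      rw [MonoidHom.mem_ker, Subgroup.mem_center_iff, MulEquiv.ext_iff]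
      refine forall_congr' fun h => ?_
      rw [MulAut.conj_apply, MulAut.one_apply, mul_inv_eq_iff_eq_mul, eq_comm]
    have h1 := Subgroup.card_mul_index (MonoidHom.ker (MulAut.conj : P →* MulAut P))
    rw [Subgroup.index_ker, hk, hex.2, h32] at h1
    omega
  let e : (MulAut P ⧸ (MulAut.conj : P →* MulAut P).range) ≃* Equiv.Perm (Fin 5) :=
    ((QuotientGroup.quotientMulEquivOfEq (ker_perm hP).symm).trans
      (QuotientGroup.quotientKerEquivOfSurjective perm (perm_surjective hP))).trans
      (Equiv.permCongrHom (Finite.equivFinOfCardEq (card_pt hP)))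
  refine ⟨h16, ?_, ⟨e⟩⟩
  rw [Subgroup.card_eq_card_quotient_mul_card_subgroup (MulAut.conj : P →* MulAut P).range,
    Nat.card_congr e.toEquiv, h16, Nat.card_eq_fintype_card, Fintype.card_perm, Fintype.card_fin]
  rfl


end Cfsg.Agent.S4413
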