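import Cfsg.Statements.S4414
import Cfsg.Agent.SmallModule.FixedPointsTwo

set_option autoImplicit false
open Cfsg
open scoped Pointwise commutatorElement

namespace Cfsg.Agent.S4414

/-- Let S be a finite solvable group whose order is divisible only by the primes 2, p, q (p, q distinct odd primes), with a Sylow system S₂, S_p, S_q (pairwise permutable Sylow subgroups) such that: S_p is a minimal normal subgroup of S of order p or p²; S_q has order q and [S_p, S_q] = S_p; and O₂(S) = 1. Let E be an irreducible module for S over the field with two elements on which S_p acts faithfully, and E₀ the subspace of fixed points of S₂. Then either E₀ has at least 8 elements, or E₀ has exactly 4 elements and S_q does not leave E₀ invariant. -/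
theorem result {S : Type*} [Group S] [Finite S]
    [Group.IsSolvable S] (p q : ℕ) (hp : p.Prime) (hq : q.Prime) (hp2 : p ≠ 2) (hq2 : q ≠ 2) (hpq : p ≠ q)
    (hπ : ∀ r : ℕ, r.Prime → r ∣ Nat.card S → r = 2 ∨ r = p ∨ r = q)
    (S₂ : Sylow 2 S) (Sp : Sylow p S) (Sq : Sylow q S)
    (h2q : Nat.card ↥((S₂ : Subgroup S) ⊔ (Sq : Subgroup S)) = Nat.card ↥S₂ * Nat.card ↥Sq)
    (h2p : Nat.card ↥((S₂ : Subgroup S) ⊔ (Sp : Subgroup S)) = Nat.card ↥S₂ * Nat.card ↥Sp)
    (hpq' : Nat.card ↥((Sp : Subgroup S) ⊔ (Sq : Subgroup S)) = Nat.card ↥Sp * Nat.card ↥Sq)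
    (hSpN : (Sp : Subgroup S).Normal) (hSpmin : ∀ N : Subgroup S, N.Normal → N ≤ (Sp : Subgroup S) → N = ⊥ ∨ N = (Sp : Subgroup S))
    (hSpcard : Nat.card ↥Sp = p ∨ Nat.card ↥Sp = p ^ 2)
    (hSq : Nat.card ↥Sq = q) (hcomm : ⁅(Sp : Subgroup S), (Sq : Subgroup S)⁆ = (Sp : Subgroup S))
    (hO2 : Cfsg.pCore 2 S = ⊥)
    {E : Type*} [AddCommGroup E] [Module (ZMod 2) E] [Finite E] (ρ : Representation (ZMod 2) S E) (hE : Nontrivial E)
    (hirr : ∀ N : Submodule (ZMod 2) E, (∀ s : S, ∀ m ∈ N, ρ s m ∈ N) → N = ⊥ ∨ N = ⊤)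
    (hfaith : ∀ x ∈ (Sp : Subgroup S), ρ x = 1 → x = 1) :
    8 ≤ Nat.card {v : E // ∀ s ∈ (S₂ : Subgroup S), ρ s v = v} ∨
      (Nat.card {v : E // ∀ s ∈ (S₂ : Subgroup S), ρ s v = v} = 4 ∧
        ∃ x ∈ (Sq : Subgroup S), ∃ v : E, (∀ s ∈ (S₂ : Subgroup S), ρ s v = v) ∧ ¬ ∀ s ∈ (S₂ : Subgroup S), ρ s (ρ x v) = ρ x v) := by
  have hcommS := hcomm
  replace hSq : Nat.card ↥(Sq : Subgroup S) = q := hSq
  replace hSpcard : Nat.card ↥(Sp : Subgroup S) = p ∨ Nat.card ↥(Sp : Subgroup S) = p ^ 2 := hSpcard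
  classical
  haveI := hSpN
  haveI := Fact.mk hp
  haveI := Fact.mk hq
  haveI : Fact (Nat.Prime 2) := ⟨Nat.prime_two⟩
  have hcomm : ∀ a ∈ (Sp : Subgroup S), ∀ b ∈ (Sp : Subgroup S), a * b = b * a := by
    intro a ha b hb
    rcases hSpcard with h | h
    · haveI := isCyclic_of_prime_card h
      letI : CommGroup ↥(Sp : Subgroup S) := IsCyclic.commGroup
      exact congrArg Subtype.val (mul_comm (⟨a, ha⟩ : ↥(Sp : Subgroup S)) ⟨b, hb⟩)
    · exact congrArg Subtype.val (IsPGroup.commutative_of_card_eq_prime_sq h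
        (⟨a, ha⟩ : ↥(Sp : Subgroup S)) ⟨b, hb⟩)
  have hodd : ¬ 2 ∣ Nat.card ↥(Sp : Subgroup S) := by
    intro h
    have : 2 ∣ p := by
      rcases hSpcard with e | e <;> rw [e] at h
      · exact h
      · exact Nat.prime_two.dvd_of_dvd_pow h
    exact hp2 ((Nat.prime_dvd_prime_iff_eq Nat.prime_two hp).1 this).symm
  have hne : ∃ x ∈ (Sp : Subgroup S), x ≠ 1 := by
    by_contra hall
    push Not at hall
    have h1 : (Sp : Subgroup S) = ⊥ := (Subgroup.eq_bot_iff_forall _).2 hall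
    rw [h1, Subgroup.card_bot] at hSpcard
    rcases hSpcard with e | e
    · exact hp.ne_one e.symm
    · have := Nat.one_lt_pow two_ne_zero hp.one_lt; omega
  have hfix : ∀ v : E, (∀ x ∈ (Sp : Subgroup S), ρ x v = v) → v = 0 := by
    intro v hv
    let W : Submodule (ZMod 2) E :=
      { carrier := {v | ∀ x ∈ (Sp : Subgroup S), ρ x v = v}
        add_mem' := fun {a b} ha hb x hx => by rw [map_add, ha x hx, hb x hx]
        zero_mem' := fun x _ => map_zero _
        smul_mem' := fun c {a} ha x hx => by rw [map_smul, ha x hx] }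
    rcases hirr W (fun s m hm x hx => by
      rw [← Module.End.mul_apply, ← map_mul, show x * s = s * (s⁻¹ * x * s⁻¹⁻¹) by group, map_mul,
        Module.End.mul_apply, hm _ (hSpN.conj_mem x hx s⁻¹)]) with h | h
    · exact (Submodule.mem_bot (ZMod 2)).1 (h ▸ (hv : v ∈ W))
    · obtain ⟨x, hx, hx1⟩ := hne
      exact absurd (hfaith x hx (LinearMap.ext fun w => (h ▸ Submodule.mem_top : w ∈ W) x hx)) hx1
  haveI : IsCyclic ↥(Sq : Subgroup S) := isCyclic_of_prime_card hSq
  obtain ⟨⟨h, hh⟩, hgenh⟩ := IsCyclic.exists_generator (α := ↥(Sq : Subgroup S))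
  have hhq : h ^ q = 1 := by
    have := pow_card_eq_one' (G := ↥(Sq : Subgroup S)) (x := ⟨h, hh⟩)
    rw [hSq] at this
    exact congrArg Subtype.val this
  rcases SmallModule.fixed_points_two ρ (Sp : Subgroup S) hcomm hodd hfix (S₂ : Subgroup S) S₂.2
    h q hq hq2 hhq (fun M hMP hM => by
      refine le_antisymm hMP ?_
      have hpow : ∀ n : ℕ, ∀ x ∈ (Sp : Subgroup S), h ^ n * x * (h ^ n)⁻¹ * x⁻¹ ∈ M := by
        intro n
        induction n with
        | zero => intro x _; simp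
        | succ n ih =>
          intro x hx
          have h1 := M.mul_mem (hM _ (hSpN.conj_mem x hx (h ^ n))) (ih x hx)
          rw [show ∀ a y z : S, a * y⁻¹ * (y * z) = a * z from fun a y z => by group] at h1
          convert h1 using 1
          rw [pow_succ']; group
      conv_lhs => rw [← hcommS]
      rw [Subgroup.commutator_le]
      intro x hx g hg
      obtain ⟨n, hn⟩ := mem_powers_iff_mem_zpowers.2 (hgenh ⟨g, hg⟩)
      have hg' : h ^ n = g := congrArg Subtype.val hn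
      rw [← hg', commutatorElement_def,
        show x * h ^ n * x⁻¹ * (h ^ n)⁻¹ = (h ^ n * x * (h ^ n)⁻¹ * x⁻¹)⁻¹ by group]
      exact M.inv_mem (hpow n x hx)) with h8 | ⟨h4, v, hv, hv'⟩
  · exact Or.inl h8
  · exact Or.inr ⟨h4, h, hh, v, hv, hv'⟩

end Cfsg.Agent.S4414
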