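import Cfsg.Statements.S4415
import Cfsg.Agent.ThreeBlock.Main

set_option autoImplicit false
open Cfsg
open scoped Pointwise commutatorElement

namespace Cfsg.Agent.S4415

/-- Let S be a finite solvable group acting faithfully on a finite-dimensional space E over the field with three elements, with O₃(S) = 1. Let B ≤ S have order 3 and suppose: E = E₀ ⊕ E₁ with B fixing E₁ pointwise, E₀ B-invariant of order 27 and indecomposable under B (a generator of B has a single Jordan block on E₀); B normalizes but does not centralize some subgroup Q of S that is elementary abelian of order 4; and B is the centre of a Sylow 3-subgroup of S. Put R = [O_{3'}(S), B]. Then R is elementary abelian of order 4 or extraspecial of order 32 containing an elementary abelian subgroup of order 8 (a central product of two quaternion groups), and E is the direct sum of a subspace fixed pointwise by R and an RB-invariant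 subspace on which the subgroup RB acts faithfully and irreducibly. -/
theorem result {S : Type*} [Group S] [Finite S]
    [Group.IsSolvable S] {E : Type*} [AddCommGroup E] [Module (ZMod 3) E] [Finite E] (ρ : Representation (ZMod 3) S E)
    (hfaith : Function.Injective ρ) (hO3 : Cfsg.pCore 3 S = ⊥)
    (B : Subgroup S) (hB : Nat.card ↥B = 3) (b : S) (hb : Subgroup.zpowers b = B)
    (E₀ E₁ : Submodule (ZMod 3) E) (hE01 : E₀ ⊓ E₁ = ⊥) (hE01' : E₀ ⊔ E₁ = ⊤)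
    (hE1 : ∀ v ∈ E₁, ρ b v = v) (hE0inv : ∀ v ∈ E₀, ρ b v ∈ E₀) (hE0 : Nat.card ↥E₀ = 27)
    (hind : ∃ v ∈ E₀, ρ b (ρ b v - v) - (ρ b v - v) ≠ 0)
    (Q : Subgroup S) (hQ : Cfsg.IsElementaryAbelian 2 Q) (hQ4 : Nat.card ↥Q = 4)
    (hBQ : B ≤ Subgroup.normalizer (Q : Set S)) (hBQ' : ¬ B ≤ Subgroup.centralizer (Q : Set S))
    (P : Sylow 3 S) (hBZ : (Subgroup.center ↥(P : Subgroup S)).map (P : Subgroup S).subtype = B) :
    ((Cfsg.IsElementaryAbelian 2 ⁅Cfsg.pPrimeCore 3 S, B⁆ ∧ Nat.card ↥⁅Cfsg.pPrimeCore 3 S, B⁆ = 4) ∨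
      (Cfsg.IsExtraspecial 2 ↥⁅Cfsg.pPrimeCore 3 S, B⁆ ∧ Nat.card ↥⁅Cfsg.pPrimeCore 3 S, B⁆ = 32 ∧
        ∃ A : Subgroup S, A ≤ ⁅Cfsg.pPrimeCore 3 S, B⁆ ∧ Cfsg.IsElementaryAbelian 2 A ∧ Nat.card ↥A = 8)) ∧
    ∃ F₀ F₁ : Submodule (ZMod 3) E, F₀ ⊓ F₁ = ⊥ ∧ F₀ ⊔ F₁ = ⊤ ∧
      (∀ r ∈ ⁅Cfsg.pPrimeCore 3 S, B⁆, ∀ v ∈ F₁, ρ r v = v) ∧ (∀ r ∈ ⁅Cfsg.pPrimeCore 3 S, B⁆ ⊔ B, ∀ v ∈ F₀, ρ r v ∈ F₀) ∧
      (∀ r ∈ ⁅Cfsg.pPrimeCore 3 S, B⁆ ⊔ B, (∀ v ∈ F₀, ρ r v = v) → r = 1) ∧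
      (∀ N : Submodule (ZMod 3) E, N ≤ F₀ → (∀ r ∈ ⁅Cfsg.pPrimeCore 3 S, B⁆ ⊔ B, ∀ v ∈ N, ρ r v ∈ N) → N = ⊥ ∨ N = F₀) := by
  have hb3 : b ^ 3 = 1 := by
    have := pow_card_eq_one' (x := (⟨b, hb ▸ Subgroup.mem_zpowers b⟩ : B))
    rw [hB] at this
    exact congrArg Subtype.val this
  have h := ThreeBlock.reduction (ρ := ρ) hfaith B hB hb
    (ThreeBlock.rank_le_two hb3 E₀ E₁ hE01' hE1 hE0inv hE0) hQ hQ4 hBQ hBQ' P hBZ
  refine ⟨h.classify, ThreeBlock.moving ρ _, ThreeBlock.fixed ρ _, h.inf_eq, h.sup_eq,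
    fun r hr v hv => ThreeBlock.fixed_apply hr hv, ?_, ?_, ?_⟩
  · intro r hr v hv
    exact h.moving_inv (by rw [hb]; exact hr) hv
  · intro r hr htriv
    exact h.faithful (by rw [hb]; exact hr) htriv
  · intro N hN hinv
    exact h.irreducible hN (by rw [hb]; exact hinv)

end Cfsg.Agent.S4415
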