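import Cfsg.Statements.S4420
import Cfsg.Agent.PGroup.Frattini

set_option autoImplicit false
open Cfsg

namespace Cfsg.Agent.S4420

/-- Structure of groups in which every element outside some proper subgroup has square 1. Let H be a finite group with a proper subgroup A such that every element outside A has square 1. Then H has an abelian normal subgroup B of index 2 such that every element outside B is an involution inverting every element of B; and if H is not an elementary abelian 2-group, B is the only abelian normal subgroup of index 2 with this property. -/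
theorem result {H : Type*} [Group H] [Finite H] (A : Subgroup H) (hA : A ≠ ⊤) (hD : ∀ x : H, x ∉ A → x ^ 2 = 1) :
    ∃ B : Subgroup H, B.Normal ∧ IsMulCommutative ↥B ∧ B.index = 2 ∧
      (∀ x : H, x ∉ B → x ^ 2 = 1 ∧ ∀ b ∈ B, x * b * x⁻¹ = b⁻¹) ∧
      (¬ (IsMulCommutative H ∧ ∀ x : H, x ^ 2 = 1) →
        ∀ B' : Subgroup H, B'.Normal → IsMulCommutative ↥B' → B'.index = 2 →
          (∀ x : H, x ∉ B' → x ^ 2 = 1 ∧ ∀ b ∈ B', x * b * x⁻¹ = b⁻¹) → B' = B) := by
  have hinv : ∀ x : H, x ∉ A → ∀ a ∈ A, x * a * x⁻¹ = a⁻¹ := by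
    intro x hx a ha
    have h1 : (x * a) ^ 2 = 1 := hD _ fun h => hx ((A.mul_mem_cancel_right ha).1 h)
    have h2 : x ^ 2 = 1 := hD _ hx
    rw [pow_two] at h1 h2
    rw [inv_eq_of_mul_eq_one_right h2]
    exact eq_inv_of_mul_eq_one_left (by rw [← h1]; group)
  obtain ⟨x, -, hx⟩ := SetLike.exists_of_lt (lt_top_iff_ne_top.2 hA)
  have hAc : IsMulCommutative ↥A := by
    refine ⟨⟨fun a b => Subtype.ext ?_⟩⟩
    have h := hinv x hx _ (A.mul_mem a.2 b.2)
    rw [show x * ((a : H) * b) * x⁻¹ = (x * a * x⁻¹) * (x * b * x⁻¹) by group,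
      hinv x hx _ a.2, hinv x hx _ b.2] at h
    have := congrArg (fun t => t⁻¹) h
    simpa using this.symm
  by_cases hex : ∀ z : H, z ^ 2 = 1
  · have hc : ∀ a b : H, a * b = b * a := fun a b => by
      have hi : ∀ z : H, z⁻¹ = z := fun z => inv_eq_of_mul_eq_one_right (by rw [← pow_two]; exact hex z)
      calc a * b = (a * b)⁻¹ := (hi _).symm
        _ = b * a := by rw [mul_inv_rev, hi, hi]
    haveI : Fact (Nat.Prime 2) := ⟨Nat.prime_two⟩
    have h2 : IsPGroup 2 H := fun z => ⟨1, by simpa using hex z⟩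
    obtain ⟨B, hB, -⟩ := (eq_top_or_exists_le_coatom A).resolve_left hA
    refine ⟨B, ⟨fun b hb g => ?_⟩, ⟨⟨fun a b => Subtype.ext (hc _ _)⟩⟩,
      Cfsg.Agent.PGroup.index_of_isCoatom h2 hB, fun z _ => ⟨hex z, fun b _ => ?_⟩,
      fun h => absurd ⟨⟨⟨hc⟩⟩, hex⟩ h⟩
    · rwa [hc g b, mul_inv_cancel_right]
    · rw [hc z b, mul_inv_cancel_right, ← mul_eq_one_iff_eq_inv, ← pow_two]
      exact hex b
  · have hidx : A.index = 2 := by
      rw [Subgroup.index_eq_two_iff]
      refine ⟨x, fun b => ?_⟩
      by_cases hb : b ∈ A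
      · exact Or.inr ⟨hb, fun h => hx ((A.mul_mem_cancel_left hb).1 h)⟩
      · refine Or.inl ⟨?_, hb⟩
        by_contra hbx
        refine hex fun z => ?_
        by_cases hz : z ∈ A
        · have h := hinv _ hbx z hz
          rw [show b * x * z * (b * x)⁻¹ = b * (x * z * x⁻¹) * b⁻¹ by group, hinv x hx z hz,
            hinv b hb _ (A.inv_mem hz), inv_inv] at h
          rw [pow_two]
          exact mul_eq_one_iff_eq_inv.2 h
        · exact hD z hz
    refine ⟨A, Subgroup.normal_of_index_eq_two hidx, hAc, hidx,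
      fun z hz => ⟨hD z hz, hinv z hz⟩, fun _ B' hBn hBc hBi hB' => ?_⟩
    by_contra hne
    refine hex fun z => ?_
    by_cases hz : z ∈ A
    · by_cases hzB : z ∈ B'
      · obtain ⟨y, hyB, hyA⟩ : ∃ y, y ∈ B' ∧ y ∉ A := by
          refine SetLike.not_le_iff_exists.1 fun hle => hne ?_
          have e1 := Subgroup.card_mul_index A
          have e2 := Subgroup.card_mul_index B'
          rw [hidx] at e1
          rw [hBi] at e2
          exact Subgroup.eq_of_le_of_card_ge hle (by omega)
        haveI := hBc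
        have h := hinv y hyA z hz
        rw [show y * z = z * y from congrArg Subtype.val (mul_comm' (⟨y, hyB⟩ : B') ⟨z, hzB⟩),
          mul_inv_cancel_right] at h
        rw [pow_two]
        exact mul_eq_one_iff_eq_inv.2 h
      · exact (hB' z hzB).1
    · exact hD z hz

end Cfsg.Agent.S4420
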