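import Cfsg.Statements.S4483
import Cfsg.Agent.BlockVal.Principal

set_option autoImplicit false
open Cfsg

namespace Cfsg.Agent.S4483

/-- Let G be a finite group of order 2^n·g₀ with g₀ odd, and M a maximal ideal of the algebraic integers containing 2. Every real-valued irreducible character of G of odd degree lies in the principal 2-block; consequently G has at most 2^(2n) real-valued irreducible characters of odd degree. -/
theorem result {G : Type*} [Group G] [Finite G] (M : Ideal Cfsg.AlgInt) (hM : Cfsg.IsPModular 2 M) : (∀ χ : Cfsg.IrrCharacter G, (∀ g : G, ((χ : G → ℂ) g).im = 0) → Odd (Cfsg.charDegree (χ : G → ℂ)) → χ ∈ Cfsg.principalBlock M G) ∧ Nat.card {χ : Cfsg.IrrCharacter G // (∀ g : G, ((χ : G → ℂ) g).im = 0) ∧ Odd (Cfsg.charDegree (χ : G → ℂ))} ≤ 2 ^ (2 * (Nat.card G).factorization 2) := by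
  classical
  haveI := Fintype.ofFinite G
  haveI : M.IsPrime := hM.2.1.isPrime
  haveI : Fact (Nat.Prime 2) := ⟨Nat.prime_two⟩
  have hmain : ∀ χ : Cfsg.IrrCharacter G, (∀ g : G, ((χ : G → ℂ) g).im = 0) →
      Odd (Cfsg.charDegree (χ : G → ℂ)) → χ ∈ Cfsg.principalBlock M G := by
    intro χ hreal hodd
    refine BlockVal.mem_principalBlock_of_odd hM χ hodd fun x hx => ?_
    have e : Cfsg.centralChar (χ : G → ℂ) x⁻¹ = Cfsg.centralChar (χ : G → ℂ) x := by
      have hc : Subgroup.centralizer ({x⁻¹} : Set G) = Subgroup.centralizer ({x} : Set G) := by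
        ext y
        simp only [Subgroup.mem_centralizer_singleton_iff]
        exact ⟨fun h => (Commute.inv_right_iff.mp (show Commute y x⁻¹ from h)),
          fun h => (Commute.inv_right_iff.mpr (show Commute y x from h))⟩
      rw [Cfsg.centralChar, Cfsg.centralChar, hc, Char.irr_inv χ.2,
        Complex.conj_eq_iff_im.mpr (hreal x)]
    rw [e, sub_self]
    exact Block.memLocalIdeal_zero
  refine ⟨hmain, ?_⟩
  set B := Cfsg.principalBlock M G with hBdef
  have hB : Cfsg.IsPBlock M B := ⟨Char.trivialIrr G, rfl⟩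
  let f : {χ : Cfsg.IrrCharacter G // (∀ g : G, ((χ : G → ℂ) g).im = 0) ∧
      Odd (Cfsg.charDegree (χ : G → ℂ))} → B := fun c => ⟨c.1, hmain c.1 c.2.1 c.2.2⟩
  have hf : Function.Injective f := fun x y h => by
    apply Subtype.ext
    exact congrArg (fun z : B => z.1) h
  refine (Nat.card_le_card_of_injective f hf).trans ?_
  have h4 := BlockVal.four_card_le hM hB
  have hd : Cfsg.blockDefect 2 B ≤ (Nat.card G).factorization 2 := Nat.sub_le _ _
  have h5 : 2 ^ (2 * Cfsg.blockDefect 2 B) ≤ 2 ^ (2 * (Nat.card G).factorization 2) :=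
    Nat.pow_le_pow_right (by norm_num) (by omega)
  have h6 : 0 < 2 ^ (2 * (Nat.card G).factorization 2) := by positivity
  omega

end Cfsg.Agent.S4483
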