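import Cfsg.Statements.S4517
import Cfsg.Agent.BlockVal.Principal

set_option autoImplicit false
open Cfsg

namespace Cfsg.Agent.S4517

/-- Let G be a finite group, M a maximal ideal of the algebraic integers containing 2, and k a natural number coprime to the order of G with g ^ k = g⁻¹ for every element g of odd order (so that g ↦ g ^ k induces a field automorphism of the character values inverting the roots of unity of odd order). If B is a 2-block of full defect (its defect equals the exponent of 2 in the order of G) that is stable under χ ↦ χ ∘ (· ^ k), then B is the principal 2-block. -/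
theorem result {G : Type*} [Group G] [Finite G] (M : Ideal Cfsg.AlgInt) (hM : Cfsg.IsPModular 2 M) (k : ℕ) (hk : Nat.Coprime k (Nat.card G)) (hk₂ : ∀ g : G, Odd (orderOf g) → g ^ k = g⁻¹) (B : Set (Cfsg.IrrCharacter G)) (hB : Cfsg.IsPBlock M B) (hdef : Cfsg.blockDefect 2 B = (Nat.card G).factorization 2) (hstab : ∀ χ ∈ B, ∃ ψ ∈ B, ∀ g : G, (ψ : G → ℂ) g = (χ : G → ℂ) (g ^ k)) : B = Cfsg.principalBlock M G := by
  classical
  haveI := Fintype.ofFinite G
  haveI : M.IsPrime := hM.2.1.isPrime
  haveI : Fact (Nat.Prime 2) := ⟨Nat.prime_two⟩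
  obtain ⟨χ, hχ, h0⟩ := BlockVal.exists_height_zero (p := 2) (Block.pBlock_nonempty hB)
  have hd := BlockVal.blockDefect_eq hχ h0
  have hodd : Odd (Cfsg.charDegree (χ : G → ℂ)) := by
    rw [← Nat.not_even_iff_odd, even_iff_two_dvd]
    intro h
    have h1 := Nat.Prime.factorization_pos_of_dvd Nat.prime_two
      (BlockVal.irr_one_eq_charDegree χ).2 h
    have h2 := BlockVal.factorization_degree_le 2 χ
    omega
  obtain ⟨ψ, hψ, hψv⟩ := hstab χ hχ
  refine Block.pBlock_eq_of_mem hB ⟨Char.trivialIrr G, rfl⟩ hχ ?_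
  refine BlockVal.mem_principalBlock_of_odd hM χ hodd fun x hx => ?_
  have e : Cfsg.centralChar (ψ : G → ℂ) x = Cfsg.centralChar (χ : G → ℂ) x⁻¹ := by
    have hc : Subgroup.centralizer ({x⁻¹} : Set G) = Subgroup.centralizer ({x} : Set G) := by
      ext y
      simp only [Subgroup.mem_centralizer_singleton_iff]
      exact ⟨fun h => (Commute.inv_right_iff.mp (show Commute y x⁻¹ from h)),
        fun h => (Commute.inv_right_iff.mpr (show Commute y x from h))⟩
    have hxo : Odd (orderOf x) := by rwa [← Nat.not_even_iff_odd, even_iff_two_dvd]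
    rw [Cfsg.centralChar, Cfsg.centralChar, hc, hψv, hψv, hk₂ x hxo, one_pow]
  rw [← e]
  exact Block.pBlock_sameBlock hB hχ hψ x

end Cfsg.Agent.S4517
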