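import Cfsg.Statements.S4520
import Cfsg.Agent.BlockVal.FixedPrincipal

set_option autoImplicit false
open Cfsg

namespace Cfsg.Agent.S4520

/-- Let N be a normal subgroup of odd index in the finite group G, M a maximal ideal of the algebraic integers containing 2, and k coprime to the order of G with k ^ (2 ^ e) ≡ 1 modulo the order of G for some e and g ^ k = g⁻¹ for every element g of odd order. Let θ be an irreducible character of N and χ an irreducible character of G over θ, both unchanged by composing with g ↦ g ^ k. Then χ lies in the principal 2-block of G if and only if θ lies in the principal 2-block of N. -/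
theorem result {G : Type*} [Group G] [Fintype G] (M : Ideal Cfsg.AlgInt) (hM : Cfsg.IsPModular 2 M) (N : Subgroup G) [N.Normal] [Fintype N] (hidx : Odd N.index) (k e : ℕ) (hk : Nat.Coprime k (Nat.card G)) (hke : k ^ (2 ^ e) ≡ 1 [MOD Nat.card G]) (hk₂ : ∀ g : G, Odd (orderOf g) → g ^ k = g⁻¹) (θ : Cfsg.IrrCharacter N) (hθ : ∀ n : N, (θ : N → ℂ) (n ^ k) = (θ : N → ℂ) n) (χ : Cfsg.IrrCharacter G) (hχ : ∀ g : G, (χ : G → ℂ) (g ^ k) = (χ : G → ℂ) g) (hover : Cfsg.classInner (fun n : N => (χ : G → ℂ) n) (θ : N → ℂ) ≠ 0) : χ ∈ Cfsg.principalBlock M G ↔ θ ∈ Cfsg.principalBlock M N := by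
  exact Cfsg.Agent.FixedOver.principal_iff hM N hidx hk hke hk₂ θ hθ χ hχ hover

end Cfsg.Agent.S4520
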