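import Cfsg.Statements.S4540
import Cfsg.Agent.BlkChar.TwoMajor
-- import your own Cfsg.Agent.* helpers here

set_option autoImplicit false
open Cfsg

namespace Cfsg.Agent.S4540

/-- Let B be a 2-block of the finite group G (relative to a maximal ideal M of the algebraic integers containing 2) of defect d with defect group D. Let z be an element of D commuting with every element of D, and let b be a block of the centralizer C of z with defect group D that induces B (a major subsection (z, b)). If b has 2-regular rank at most three, then 3·k(B) ≤ 3·k₀(B) + 2·Σ 2 ^ h(χ), where k(B) is the number of members of B, k₀(B) the number of members of height zero, and the sum runs over the members χ of B of positive height h(χ); this bound is at most 3·2 ^ d, so in particular B contains at most 2 ^ d irreducible characters. -/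
theorem result {G : Type*} [Group G] [Finite G] (M : Ideal Cfsg.AlgInt) (hM : Cfsg.IsPModular 2 M) (B : Set (Cfsg.IrrCharacter G)) (hB : Cfsg.IsPBlock M B) (D : Subgroup G) (hD : Cfsg.IsDefectGroup 2 M B D) (z : G) (hzD : z ∈ D) (hzc : ∀ d ∈ D, d * z = z * d) (b : Set (Cfsg.IrrCharacter ↥(Subgroup.centralizer ({z} : Set G)))) (hb : Cfsg.IsInducedBlock M (Subgroup.centralizer ({z} : Set G)) b B) (hbD : Cfsg.IsDefectGroup 2 M b (D.subgroupOf (Subgroup.centralizer ({z} : Set G)))) (hl : Cfsg.blockRank 2 b ≤ 3) : 3 * Nat.card B ≤ 3 * Nat.card {χ : Cfsg.IrrCharacter G // χ ∈ B ∧ Cfsg.blockHeight 2 B (χ : G → ℂ) = 0} + 2 * (∑ᶠ χ ∈ {χ : Cfsg.IrrCharacter G | χ ∈ B ∧ 1 ≤ Cfsg.blockHeight 2 B (χ : G → ℂ)}, 2 ^ Cfsg.blockHeight 2 B (χ : G → ℂ)) ∧ 3 * Nat.card {χ : Cfsg.IrrCharacter G // χ ∈ B ∧ Cfsg.blockHeight 2 B (χ : G → ℂ) = 0} + 2 * (∑ᶠ χ ∈ {χ : Cfsg.IrrCharacter G | χ ∈ B ∧ 1 ≤ Cfsg.blockHeight 2 B (χ : G → ℂ)}, 2 ^ Cfsg.blockHeight 2 B (χ : G → ℂ)) ≤ 3 * 2 ^ Cfsg.blockDefect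 2 B := by
  classical
  letI := Fintype.ofFinite G
  letI := Fintype.ofFinite (Subgroup.centralizer ({z} : Set G))
  haveI : Fact (Nat.Prime 2) := ⟨Nat.prime_two⟩
  obtain ⟨i, hi⟩ := IsPGroup.iff_orderOf.1 (Block.isDefectGroup_isPGroup hD) ⟨z, hzD⟩
  rw [Subgroup.orderOf_mk] at hi
  have hDC : D ≤ Subgroup.centralizer ({z} : Set G) := fun x hx =>
    Subgroup.mem_centralizer_singleton_iff.2 (hzc x hx)
  have hd := BlkChar.Contrib.blockDefect_eq_of_major hM hB hD hb.1 hDC hbD
  exact BlkChar.TwoBound.major_bound hM (BlkChar.Contrib.isSection_of_orderOf hi) hb hd (Or.inl hl)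

end Cfsg.Agent.S4540
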