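import Cfsg.Statements.S4550
import Cfsg.Agent.BlkChar.RegCriterion
import Cfsg.Agent.BlkChar.PModular
import Cfsg.Agent.OddChar.Twist
import Cfsg.Agent.Lib.Element

set_option autoImplicit false
open Cfsg

namespace Cfsg.Agent.S4550

open Cfsg Cfsg.Agent.Block Cfsg.Agent.BlkChar

theorem three_pow_two_pow (j : ℕ) : 3 ^ 2 ^ j ≡ 1 [MOD 2 ^ (j + 1)] := by
  induction j with
  | zero => decide
  | succ j ih =>
    obtain ⟨q, hq⟩ := (Nat.modEq_iff_dvd' (Nat.one_le_pow _ _ (by norm_num))).1 ih.symm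
    have hq' : 3 ^ 2 ^ j = 2 ^ (j + 1) * q + 1 := by
      have := Nat.one_le_pow (2 ^ j) 3 (by norm_num)
      omega
    rw [pow_succ 2 j, pow_mul, hq']
    refine (Nat.modEq_iff_dvd' (Nat.one_le_pow _ _ (by omega))).2 ⟨2 ^ j * q ^ 2 + q, ?_⟩ |>.symm
    rw [pow_succ 2 (j + 1)]
    refine Nat.sub_eq_of_eq_add ?_
    ring

theorem dvd_of_eq_of_dvd {a b : ℕ} (h : a = b) (h2 : 2 ∣ b) : 2 ∣ a := h ▸ h2

theorem main {G : Type*} [Group G] [Finite G] {M : Ideal AlgInt} (hM : IsPModular 2 M)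
    (hev : Even (Nat.card G)) (k : ℕ)
    (hk₁ : ∀ g : G, (∃ j : ℕ, orderOf g = 2 ^ j) → g ^ k = g ^ 3)
    (hk₂ : ∀ g : G, Odd (orderOf g) → g ^ k = g) :
    Even (Nat.card {χ : IrrCharacter G // χ ∈ principalBlock M G ∧
      Odd (charDegree (χ : G → ℂ)) ∧ ∀ g : G, (χ : G → ℂ) (g ^ k) = (χ : G → ℂ) g}) := by
  classical
  letI := Fintype.ofFinite G
  haveI : Fact (Nat.Prime 2) := ⟨Nat.prime_two⟩
  haveI : M.IsPrime := isPrime_of_isPModular hM
  have hodd : ∀ g : G, ¬ 2 ∣ orderOf g → g ^ k = g := fun g hg =>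
    hk₂ g (Nat.odd_iff.2 (Nat.two_dvd_ne_zero.1 hg))
  have hkcop : k.Coprime (Nat.card G) := by
    refine Nat.coprime_of_dvd fun q hq hqk hqG => ?_
    haveI := Fact.mk hq
    obtain ⟨g, hg⟩ := exists_prime_orderOf_dvd_card' q hqG
    have hgk : g ^ k = 1 := orderOf_dvd_iff_pow_eq_one.1 (hg ▸ hqk)
    have hg1 : g ≠ 1 := fun h => hq.ne_one (by rw [← hg, h, orderOf_one])
    rcases eq_or_ne q 2 with rfl | hq2
    · rw [hk₁ g ⟨1, by rw [hg, pow_one]⟩] at hgk
      have h3 := hg ▸ orderOf_dvd_of_pow_eq_one hgk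
      omega
    · rw [hk₂ g (hg ▸ hq.odd_of_ne_two hq2)] at hgk
      exact hg1 hgk
  set a := (Nat.card G).factorization 2 with ha
  have hperiod : ∀ g : G, g ^ (k ^ 2 ^ a) = g := by
    intro g
    have hiter : ∀ (j : ℕ) (w : G), (∀ i : ℕ, (w ^ i) ^ k = (w ^ i) ^ 3) → w ^ (k ^ j) = w ^ (3 ^ j) := by
      intro j w hw
      induction j with
      | zero => simp
      | succ j ih => rw [pow_succ, pow_mul, ih, hw, ← pow_mul, ← pow_succ]
    set u := Element.pPart 2 g
    set v := Element.pComplPart 2 g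
    obtain ⟨j, hju⟩ : ∃ j, orderOf u = 2 ^ j := ⟨_, Element.orderOf_pPart_eq_pow Nat.prime_two g⟩
    have hu : u ^ (k ^ 2 ^ a) = u := by
      rw [hiter]
      · conv_rhs => rw [← pow_one u]
        rw [pow_eq_pow_iff_modEq, hju]
        refine (three_pow_two_pow a).of_dvd ?_
        refine pow_dvd_pow 2 (le_trans ?_ (Nat.le_succ a))
        refine (Nat.Prime.pow_dvd_iff_le_factorization Nat.prime_two Nat.card_pos.ne').1 ?_
        rw [← hju]; exact orderOf_dvd_natCard u
      · intro i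
        exact hk₁ _ ((Nat.dvd_prime_pow Nat.prime_two).1 (hju ▸ orderOf_pow_dvd i) |>.imp fun _ h => h.2)
    have hv : ∀ j : ℕ, v ^ (k ^ j) = v := fun j => by
      induction j with
      | zero => simp
      | succ j ih => rw [pow_succ, pow_mul, ih, hodd v (fun h => by
          have hc := Element.coprime_orderOf_pComplPart Nat.prime_two g
          exact absurd (Nat.eq_one_of_dvd_coprimes hc h dvd_rfl) (by norm_num))]
    conv_lhs => rw [← Element.pPart_mul_pComplPart 2 g]
    rw [(Element.commute_pPart_pComplPart 2 g).mul_pow, hu, hv, Element.pPart_mul_pComplPart]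
  let S := {χ : IrrCharacter G // χ ∈ principalBlock M G ∧ Odd (charDegree (χ : G → ℂ))}
  let σ : S → S := fun χ => ⟨⟨fun g => (χ.1 : G → ℂ) (g ^ k), OddChar.irr_twist χ.1.2 hkcop⟩, by
    refine ⟨?_, by simpa [charDegree] using χ.2.2⟩
    rw [mem_principalBlock_iff_regTotal hM]
    have : regTotal 2 (fun g => (χ.1 : G → ℂ) (g ^ k)) = regTotal 2 (χ.1 : G → ℂ) := by
      rw [regTotal_eq, regTotal_eq]
      exact Finset.sum_congr rfl fun x hx => by rw [hodd x (Finset.mem_filter.1 hx).2]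
    show ¬ MemLocalIdeal M (regTotal 2 (fun g => (χ.1 : G → ℂ) (g ^ k)) / (χ.1 : G → ℂ) ((1 : G) ^ k))
    rw [this, one_pow]
    exact (mem_principalBlock_iff_regTotal hM χ.1).1 χ.2.1⟩
  have hσv : ∀ (j : ℕ) (χ : S) (g : G), ((σ^[j] χ).1 : G → ℂ) g = (χ.1 : G → ℂ) (g ^ (k ^ j)) := by
    intro j
    induction j with
    | zero => intro χ g; simp
    | succ j ih =>
      intro χ g
      rw [Function.iterate_succ_apply', pow_succ', pow_mul]
      exact ih χ (g ^ k)
  have hσp : ∀ χ : S, σ^[2 ^ a] χ = χ := fun χ =>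
    Subtype.ext (Subtype.ext (funext fun g => by rw [hσv, hperiod]))
  let e : Equiv.Perm S :=
    ⟨σ, σ^[2 ^ a - 1], fun χ => by
      have h1 : σ^[2 ^ a - 1 + 1] χ = σ^[2 ^ a - 1] (σ χ) := Function.iterate_succ_apply _ _ _
      rw [← h1, Nat.sub_add_cancel Nat.one_le_two_pow, hσp],
      fun χ => by
      have h1 : σ^[2 ^ a - 1 + 1] χ = σ (σ^[2 ^ a - 1] χ) := Function.iterate_succ_apply' _ _ _
      rw [← h1, Nat.sub_add_cancel Nat.one_le_two_pow, hσp]⟩
  have hP : IsPGroup 2 (Subgroup.zpowers e) := by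
    have he : e ^ 2 ^ a = 1 := Equiv.ext fun χ => by
      rw [Equiv.Perm.coe_pow]; exact hσp χ
    obtain ⟨i, -, hi⟩ := (Nat.dvd_prime_pow Nat.prime_two).1 (orderOf_dvd_of_pow_eq_one he)
    exact IsPGroup.of_card (n := i) (by rw [Nat.card_zpowers, hi])
  have hfix : Nat.card {χ : IrrCharacter G // χ ∈ principalBlock M G ∧
      Odd (charDegree (χ : G → ℂ)) ∧ ∀ g : G, (χ : G → ℂ) (g ^ k) = (χ : G → ℂ) g} =
      Nat.card (MulAction.fixedPoints (Subgroup.zpowers e) S) := by
    refine Nat.card_congr ⟨fun χ => ⟨⟨χ.1, χ.2.1, χ.2.2.1⟩, fun u => ?_⟩,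
      fun χ => ⟨χ.1.1, χ.1.2.1, χ.1.2.2, fun g => ?_⟩, fun χ => rfl, fun χ => rfl⟩
    · obtain ⟨i, hi⟩ := Subgroup.mem_zpowers_iff.1 u.2
      show (u : Equiv.Perm S) _ = _
      rw [← hi]
      exact Equiv.Perm.zpow_apply_eq_self_of_apply_eq_self
        (Subtype.ext (Subtype.ext (funext χ.2.2.2))) i
    · have h := χ.2 ⟨e, Subgroup.mem_zpowers e⟩
      exact congrFun (congrArg (fun t : S => (t.1 : G → ℂ)) h) g
  rw [hfix, Nat.even_iff]
  have hmod : Nat.card S ≡ Nat.card (MulAction.fixedPoints (Subgroup.zpowers e) S) [MOD 2] :=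
    hP.card_modEq_card_fixedPoints S
  rw [← show Nat.card S % 2 = Nat.card (MulAction.fixedPoints (Subgroup.zpowers e) S) % 2 from hmod,
    ← Nat.even_iff, even_iff_two_dvd]
  -- the number of odd degree characters in the principal block is even
  obtain ⟨t, ht⟩ := exists_prime_orderOf_dvd_card' 2 hev.two_dvd
  have hB := isPBlock_blockOf (M := M) (Char.trivialIrr G)
  have hw := Brauer.weakOrth_of_integral hM (principalBlock M G) (blockCoeff_memLocalRing hB)
    (x := (1 : G)) (y := t) (by simp) (by rw [ht])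
  rw [finsum_mem_eq_toFinset_sum] at hw
  haveI := charP_resF (M := M) hM
  have hterm : ∀ χ : IrrCharacter G, redC M ((χ : G → ℂ) 1 * (starRingEnd ℂ) ((χ : G → ℂ) t)) =
      if Odd (charDegree (χ : G → ℂ)) then (1 : ResF M) else 0 := by
    intro χ
    have hc := Char.isCharacter_of_irr χ.2
    rw [← Char.irr_inv χ.2, redC_mul (char_memLocalRing χ.2 _) (char_memLocalRing χ.2 _)]
    have h1 := redC_char_mul_eq hM hc (Commute.one_right t⁻¹) (k := 1)
      (by rw [orderOf_inv, ht, pow_one]) (y := 1) (by simp)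
    rw [mul_one] at h1
    rw [h1, isCharacter_one_eq_charDegree hc, redC_natCast, ← Nat.cast_mul]
    split_ifs with h
    · rw [← Nat.cast_one, CharP.natCast_eq_natCast (ResF M) 2]
      exact Nat.odd_iff.1 (h.mul h)
    · rw [CharP.cast_eq_zero_iff (ResF M) 2]
      exact (Nat.not_odd_iff_even.1 h).two_dvd.mul_right _
  have h0 := congrArg (redC M) hw
  rw [redC_zero, redC_sum _ _ (fun χ _ => memLocalRing_of_isIntegral
    ((Char.isCharacter_isIntegral (Char.isCharacter_of_irr χ.2) _).mul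
      (Char.irr_inv χ.2 t ▸ Char.isCharacter_isIntegral (Char.isCharacter_of_irr χ.2) _)))] at h0
  simp only [hterm, Finset.sum_boole] at h0
  rw [CharP.cast_eq_zero_iff (ResF M) 2] at h0
  rw [show Nat.card S = _ from Nat.card_eq_fintype_card, Fintype.card_subtype]
  refine dvd_of_eq_of_dvd ?_ h0
  congr 1
  ext χ
  simp

/-- Let G be a finite group of even order and M a maximal ideal of the algebraic integers containing 2. Let k be a natural number with g ^ k = g ^ 3 for every 2-element g and g ^ k = g for every element g of odd order (such k exist); an irreducible character χ is unchanged by g ↦ g ^ k exactly when it is fixed by the field automorphism that cubes the 2-power roots of unity and fixes the roots of unity of odd order. Then the number of members χ of the principal 2-block of odd degree with χ (g ^ k) = χ g for all g is even. -/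
theorem result {G : Type*} [Group G] [Finite G] (M : Ideal Cfsg.AlgInt) (hM : Cfsg.IsPModular 2 M) (hev : Even (Nat.card G)) (k : ℕ) (hk₁ : ∀ g : G, (∃ j : ℕ, orderOf g = 2 ^ j) → g ^ k = g ^ 3) (hk₂ : ∀ g : G, Odd (orderOf g) → g ^ k = g) : Even (Nat.card {χ : Cfsg.IrrCharacter G // χ ∈ Cfsg.principalBlock M G ∧ Odd (Cfsg.charDegree (χ : G → ℂ)) ∧ ∀ g : G, (χ : G → ℂ) (g ^ k) = (χ : G → ℂ) g}) := by
  exact main hM hev k hk₁ hk₂

end Cfsg.Agent.S4550
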