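import Cfsg.Statements.S4551
import Cfsg.Agent.Brauer.PrincipalRestriction

set_option autoImplicit false
open Cfsg

namespace Cfsg.Agent.S4551

/-- Let N be a normal subgroup of the finite group G of index prime to p, P a Sylow p-subgroup of G with G = N·C_G(P), and M a maximal ideal of the algebraic integers containing p. Then restriction to N is a bijection from the principal p-block of G onto the principal p-block of N: every member of the principal block of G restricts to a member of the principal block of N, and every member of the principal block of N is the restriction of exactly one member of the principal block of G. -/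
theorem result {G : Type*} [Group G] [Finite G] (p : ℕ) [Fact p.Prime] (M : Ideal Cfsg.AlgInt) (hM : Cfsg.IsPModular p M) (N : Subgroup G) [N.Normal] (hidx : ¬ p ∣ N.index) (P : Sylow p G) (hsup : N ⊔ Subgroup.centralizer ((P : Subgroup G) : Set G) = ⊤) : (∀ χ ∈ Cfsg.principalBlock M G, ∃ θ ∈ Cfsg.principalBlock M ↥N, ∀ n : N, (χ : G → ℂ) n = (θ : N → ℂ) n) ∧ ∀ θ ∈ Cfsg.principalBlock M ↥N, ∃! χ : Cfsg.IrrCharacter G, χ ∈ Cfsg.principalBlock M G ∧ ∀ n : N, (χ : G → ℂ) n = (θ : N → ℂ) n := by
  classical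
  haveI := Fintype.ofFinite G
  haveI := Fintype.ofFinite N
  have hcov : Cfsg.Agent.Brauer.PrincipalRes.Cover p N := by
    refine ⟨hidx, fun g => ?_⟩
    have hg : g ∈ N ⊔ Subgroup.centralizer ((P : Subgroup G) : Set G) := hsup ▸ Subgroup.mem_top g
    obtain ⟨n, hn, c, hc, rfl⟩ := Subgroup.mem_sup_of_normal_left.1 hg
    refine ⟨n⁻¹, inv_mem hn, fun hd => P.not_dvd_index (hd.trans ?_)⟩
    rw [inv_mul_cancel_left]
    refine Subgroup.index_dvd_of_le fun x hx => ?_
    rw [Subgroup.mem_centralizer_singleton_iff]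
    exact Subgroup.mem_centralizer_iff.1 hc x hx
  obtain ⟨h1, h2⟩ := Cfsg.Agent.Brauer.PrincipalRes.bijection hM N hcov
  refine ⟨fun χ hχ => ?_, fun θ hθ => ?_⟩
  · obtain ⟨θ, hθ, h⟩ := h1 χ hχ
    exact ⟨θ, hθ, congrFun h⟩
  · obtain ⟨χ, ⟨hχ, h⟩, huniq⟩ := h2 θ hθ
    exact ⟨χ, ⟨hχ, congrFun h⟩, fun χ' hχ' => huniq χ' ⟨hχ'.1, funext hχ'.2⟩⟩

end Cfsg.Agent.S4551
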