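import Cfsg.Statements.S4639
import Cfsg.Agent.BrauerPairs.FreeAbelian.Count
import Cfsg.Agent.BrauerPairs.CyclicDefect.OneGen
-- import your own Cfsg.Agent.* helpers here

set_option autoImplicit false
open Cfsg

namespace Cfsg.Agent.S4639

/-- Let B be a block of the finite group G relative to a maximal ideal M of the algebraic integers containing the prime p, with a nontrivial commutative defect group P. Let c be a block of C_G(P) inducing B, T the stabilizer of c in N_G(P) and e the index of C_G(P) in T. Suppose that T/C_G(P) is commutative (all commutators of elements of T lie in C_G(P)) and acts freely on the non-identity elements of P (an element of T fixing a non-identity element of P under conjugation lies in C_G(P)). Then B has at most e + (#P − 1)/e irreducible characters and p-regular rank at most e; equality holds in the first bound exactly when it holds in the second; and both equalities hold when e ≤ 3. -/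
theorem result {G : Type*} [Group G] [Finite G] (p : ℕ) [Fact p.Prime] (M : Ideal Cfsg.AlgInt) (hM : Cfsg.IsPModular p M) (B : Set (Cfsg.IrrCharacter G)) (hB : Cfsg.IsPBlock M B) (P : Subgroup G) (hPD : Cfsg.IsDefectGroup p M B P) (hP1 : P ≠ ⊥) (hPab : ∀ x ∈ P, ∀ y ∈ P, x * y = y * x) (c : Set (Cfsg.IrrCharacter (Subgroup.centralizer (P : Set G)))) (hc : Cfsg.IsInducedBlock M (Subgroup.centralizer (P : Set G)) c B) (T : Subgroup G) (hT : ∀ g : G, g ∈ T ↔ (g ∈ Subgroup.normalizer (P : Set G) ∧ Cfsg.StabilizesBlock (Subgroup.centralizer (P : Set G)) c g)) (e : ℕ) (he : (Subgroup.centralizer (P : Set G)).relIndex T = e) (hEab : ∀ g ∈ T, ∀ h ∈ T, g * h * g⁻¹ * h⁻¹ ∈ Subgroup.centralizer (P : Set G)) (hfree : ∀ g ∈ T, ∀ x ∈ P, x ≠ 1 → g * x * g⁻¹ = x → g ∈ Subgroup.centralizer (P : Set G)) : Nat.card B ≤ e + (Nat.card P - 1) / e ∧ Cfsg.blockRank p B ≤ e ∧ (Nat.card B = e + (Nat.card P - 1) / e ↔ Cfsg.blockRank p B = e) ∧ (e ≤ 3 → Nat.card B = e + (Nat.card P - 1) / e ∧ Cfsg.blockRank p B = e) := by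
  classical
  haveI : M.IsPrime := Cfsg.Agent.Block.isPrime_of_isPModular hM
  haveI := Cfsg.Agent.Block.charP_resF hM
  haveI := Fintype.ofFinite G
  have hPp : IsPGroup p P := Cfsg.Agent.Block.isDefectGroup_isPGroup hPD
  obtain rfl := Cfsg.Agent.BrauerPairs.eq_stab (f := ⟨c, hc.1⟩) hT
  let K : Cfsg.Agent.BrauerPairs.FreeAbelian.FreeData p M G :=
    { B := ⟨B, hB⟩
      P := P
      c := ⟨c, hc.1⟩
      isPModular := hM
      isMax := Cfsg.Agent.BrauerPairs.isMaximalBrauerPair_of_isInducedBlock hM hB hPD hPp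
        ⟨c, hc.1⟩ hc
      comm := hPab
      free := hfree }
  obtain ⟨m, hm0, hm, hkle, hk, hex⟩ := K.exists_counts hP1
  have hE : Nat.card K.E = e := K.card_E.trans he
  rw [hE] at hm hkle hex
  have hm' : m * e + 1 = Nat.card P := hm
  have hk' : Nat.card B = blockRank p B + m := hk
  have hkle' : Nat.card B ≤ m + e := hkle
  have he0 : 0 < e := hE ▸ Nat.card_pos
  have hdiv : (Nat.card P - 1) / e = m := by
    rw [← hm', Nat.add_sub_cancel, Nat.mul_div_cancel m he0]
  rw [hdiv]
  refine ⟨by omega, by omega, by omega, fun he3 => ?_⟩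
  rcases hex he3 with h | ⟨h3, hme, hke⟩
  · have h' : Nat.card B = m + e := h
    omega
  · exfalso
    have hke' : Nat.card B = e + 2 := hke
    obtain ⟨N, hN⟩ := IsPGroup.iff_card.1 hPp
    have hval : Nat.card P = 7 ∨ Nat.card P = 10 ∨ Nat.card P = 13 ∨ (m = e + 1 → False) := by
      interval_cases e <;> interval_cases m <;> omega
    have hpp : IsPrimePow (Nat.card P) :=
      (isPrimePow_nat_iff _).2 ⟨p, N, Fact.out, Nat.pos_of_ne_zero (fun h0 => by
        rw [h0, pow_zero] at hN
        nlinarith), hN.symm⟩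
    have hprime : (Nat.card P).Prime ∧ blockRank p B = 1 := by
      have h10 : Nat.card P ≠ 10 := fun h10 => by
        rw [h10] at hpp
        obtain ⟨r, k, hr, hk0, hrk⟩ := (isPrimePow_nat_iff _).1 hpp
        have h2 : 2 ∣ r := Nat.prime_two.dvd_of_dvd_pow (hrk ▸ ⟨5, rfl⟩ : 2 ∣ r ^ k)
        have h5 : 5 ∣ r := (by norm_num : Nat.Prime 5).dvd_of_dvd_pow (hrk ▸ ⟨2, rfl⟩ : 5 ∣ r ^ k)
        have h25 := (Nat.prime_dvd_prime_iff_eq Nat.prime_two hr).1 h2
        rw [← h25] at h5
        norm_num at h5
      interval_cases e <;> interval_cases m <;>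
        first
        | omega
        | exact ⟨by rw [← hm']; norm_num, by omega⟩
    haveI : Fact (Nat.card P).Prime := ⟨hprime.1⟩
    have hcyc : IsCyclic P := isCyclic_of_prime_card rfl
    have := Cfsg.Agent.BrauerPairs.CyclicDefect.card_ge hM hB hPD hcyc hprime.2
    nlinarith

end Cfsg.Agent.S4639
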