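import Cfsg.Statements.S4552
import Cfsg.Agent.BlockCover.HomocyclicBlock
import Cfsg.Agent.S4639

set_option autoImplicit false
open Cfsg

namespace Cfsg.Agent.S4552

/-- Let B be a 2-block of the finite group G (relative to a maximal ideal M of the algebraic integers containing 2) whose defect group D is the direct product of two cyclic groups of the same order 2 ^ m, m ≥ 2. Then either B has 2-regular rank one and exactly 4 ^ m irreducible characters, or B has 2-regular rank three and exactly (4 ^ m + 8) / 3 irreducible characters. -/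
theorem result {G : Type*} [Group G] [Finite G] (M : Ideal Cfsg.AlgInt) (hM : Cfsg.IsPModular 2 M) (B : Set (Cfsg.IrrCharacter G)) (hB : Cfsg.IsPBlock M B) (D : Subgroup G) (hD : Cfsg.IsDefectGroup 2 M B D) (m : ℕ) (hm : 2 ≤ m) (hiso : Nonempty (D ≃* Multiplicative (ZMod (2 ^ m) × ZMod (2 ^ m)))) : (Cfsg.blockRank 2 B = 1 ∧ Nat.card B = 4 ^ m) ∨ (Cfsg.blockRank 2 B = 3 ∧ 3 * Nat.card B = 4 ^ m + 8) := by
  classical
  letI := Fintype.ofFinite G
  haveI : Fact (Nat.Prime 2) := ⟨Nat.prime_two⟩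
  haveI : M.IsPrime := hM.2.1.isPrime
  haveI := Agent.Block.charP_resF hM
  obtain ⟨ψ⟩ := hiso
  have hab : ∀ x ∈ D, ∀ y ∈ D, x * y = y * x := fun x hx y hy =>
    congrArg Subtype.val (ψ.injective (by rw [map_mul, map_mul, mul_comm]) :
      (⟨x, hx⟩ * ⟨y, hy⟩ : D) = ⟨y, hy⟩ * ⟨x, hx⟩)
  have hcard : Nat.card D = 4 ^ m := by
    rw [Nat.card_congr (ψ.toEquiv.trans Multiplicative.toAdd), Nat.card_prod, Nat.card_zmod,
      ← mul_pow]
    norm_num
  have hDp : IsPGroup 2 D :=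
    IsPGroup.of_card (n := 2 * m) (by rw [hcard, pow_mul]; norm_num)
  have hD1 : D ≠ ⊥ := fun h => by
    rw [h, Subgroup.card_bot] at hcard
    have : 4 ≤ 4 ^ m := Nat.le_self_pow (by omega) 4
    omega
  have hDC : D ≤ Subgroup.centralizer (D : Set G) := fun x hx =>
    Subgroup.mem_centralizer_iff.2 fun y hy => hab y hy x hx
  haveI := Fintype.ofFinite (Subgroup.centralizer (D : Set G))
  obtain ⟨c, hc⟩ := Block.exists_isInducedBlock_of_subConj hM (P := D) hDC le_rfl
    (Subgroup.centralizer_le_normalizer _) hB hD ⟨1, by rintro _ ⟨y, hy, rfl⟩; simpa using hy⟩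
  let cB : BrauerPairs.Blk M (Subgroup.centralizer (D : Set G)) := ⟨c, hc.1⟩
  set T := BrauerPairs.stab (⟨D, cB⟩ : BrauerPairs.PairIdx M G) with hT
  have hmax : Cfsg.IsMaximalBrauerPair 2 M B D cB.1 :=
    BrauerPairs.isMaximalBrauerPair_of_isInducedBlock hM hB hD hDp cB hc
  have hodd : Odd ((Subgroup.centralizer (D : Set G)).relIndex T) :=
    Nat.odd_iff.2 (Nat.two_dvd_ne_zero.1 (BrauerPairs.not_dvd_relIndex_stab hmax hab))
  obtain ⟨h3, hEab, hfree⟩ := BlockCover.homocyclic_two_action D (by omega : 1 ≤ m) ψ T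
    (BrauerPairs.stab_le_normalizer _) hodd
  obtain ⟨-, -, -, heq⟩ := Cfsg.Agent.S4639.result 2 M hM B hB D hD hD1 hab c hc T
    (fun g => BrauerPairs.mem_stab_iff_stabilizesBlock cB g) _ rfl hEab hfree
  obtain ⟨hk, hl⟩ := heq (Nat.le_of_dvd (by norm_num) h3)
  rcases (Nat.dvd_prime Nat.prime_three).1 h3 with h | h <;> rw [h] at hk hl
  · left
    refine ⟨hl, ?_⟩
    rw [hk, hcard, Nat.div_one]
    have : 1 ≤ 4 ^ m := Nat.one_le_pow _ _ (by norm_num)
    omega
  · right
    refine ⟨hl, ?_⟩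
    have h31 : 3 ∣ 4 ^ m - 1 := by simpa using Nat.sub_dvd_pow_sub_pow 4 1 m
    rw [hk, hcard, mul_add, Nat.mul_div_cancel' h31]
    have : 1 ≤ 4 ^ m := Nat.one_le_pow _ _ (by norm_num)
    omega

end Cfsg.Agent.S4552
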