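import Cfsg.Statements.S4553
import Cfsg.Agent.BlkChar.ResidualChars
import Cfsg.Agent.Lib.Element

set_option autoImplicit false
open Cfsg

namespace Cfsg.Agent.S4553

open Cfsg Cfsg.Agent.Char Cfsg.Agent.Block Cfsg.Agent.BlkChar
open scoped ComplexConjugate

variable {G : Type*} [Group G] [Finite G] {p : ℕ} [hp : Fact p.Prime]

theorem card_kernelPow (hcyc : IsCyclic (G ⧸ pResidual p G)) (hnt : pResidual p G ≠ ⊤) :
    Nat.card {f : G →* ℂˣ // (∀ n : pResidual p G, f n = 1) ∧ f ^ p = 1} = p := by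
  classical
  obtain ⟨g0, hg0⟩ := hcyc.exists_generator
  obtain ⟨e, he⟩ := Transfer.exists_index_pResidual_eq_pow (p := p) (G := G)
  have he0 : e ≠ 0 := fun h0 => hnt (Subgroup.index_eq_one.1 (by rw [he, h0, pow_zero]))
  have hord : orderOf g0 = p ^ e := by
    rw [orderOf_eq_card_of_forall_mem_zpowers hg0, ← Subgroup.index_eq_card, he]
  obtain ⟨g, hg⟩ := QuotientGroup.mk_surjective g0
  haveI : NeZero p := ⟨hp.out.ne_zero⟩
  refine (Nat.card_eq_of_bijective
    (fun f => (⟨f.1 g, by rw [mem_rootsOfUnity]; simpa using DFunLike.congr_fun f.2.2 g⟩ :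
      rootsOfUnity p ℂ)) ⟨?_, ?_⟩).trans (Complex.card_rootsOfUnity p)
  · intro a b hab
    refine Subtype.ext (MonoidHom.ext fun x => ?_)
    obtain ⟨i, hi⟩ := Subgroup.mem_zpowers_iff.1 (hg0 (x : G ⧸ pResidual p G))
    rw [← hg, ← QuotientGroup.mk_zpow, QuotientGroup.eq] at hi
    have hx : x = g ^ i * ((g ^ i)⁻¹ * x) := by group
    have hab' : a.1 g = b.1 g := congrArg Subtype.val hab
    have ha := a.2.1 ⟨_, hi⟩
    have hb := b.2.1 ⟨_, hi⟩
    rw [hx, map_mul a.1, map_mul b.1, map_zpow a.1, map_zpow b.1, hab', ha, hb]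
  · intro u
    have hu : (u : ℂˣ) ^ p = 1 := u.2
    have hdvd : orderOf (u : ℂˣ) ∣ orderOf g0 :=
      (orderOf_dvd_of_pow_eq_one hu).trans (hord ▸ dvd_pow_self p he0)
    refine ⟨⟨(monoidHomOfForallMemZpowers hg0 hdvd).comp (QuotientGroup.mk' _), fun n => ?_,
      MonoidHom.ext fun x => ?_⟩, Subtype.ext ?_⟩
    · rw [MonoidHom.comp_apply, QuotientGroup.mk'_apply, (QuotientGroup.eq_one_iff (n : G)).2 n.2,
        map_one]
    · rw [MonoidHom.pow_apply, MonoidHom.comp_apply, MonoidHom.one_apply]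
      obtain ⟨i, hi⟩ := Subgroup.mem_zpowers_iff.1 (hg0 (QuotientGroup.mk' (pResidual p G) x))
      rw [← hi, map_zpow, monoidHomOfForallMemZpowers_apply_gen, ← zpow_natCast, zpow_comm,
        zpow_natCast, hu, one_zpow]
    · show monoidHomOfForallMemZpowers hg0 hdvd (QuotientGroup.mk' _ g) = _
      rw [QuotientGroup.mk'_apply, hg, monoidHomOfForallMemZpowers_apply_gen]

theorem pow_twist_linear {f : G →* ℂˣ} (hf : ∀ n : pResidual p G, f n = 1) {k : ℕ}
    (hk₁ : ∀ g : G, (∃ j : ℕ, orderOf g = p ^ j) → g ^ k = g ^ (1 + p)) (g : G) :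
    f (g ^ k) = f g ^ (1 + p) := by
  conv_lhs => rw [← Element.pPart_mul_pComplPart p g]
  conv_rhs => rw [← Element.pPart_mul_pComplPart p g]
  have h1 : f (Element.pComplPart p g) = 1 :=
    hf ⟨_, Transfer.mem_pResidual_of_coprime (Element.coprime_orderOf_pComplPart hp.out g)⟩
  rw [(Element.commute_pPart_pComplPart p g).mul_pow, map_mul, map_mul, map_pow f (Element.pComplPart p g), h1,
    one_pow, mul_one, mul_one, hk₁ _ ⟨_, Element.orderOf_pPart_eq_pow hp.out g⟩, map_pow]

theorem main {M : Ideal AlgInt} (hM : IsPModular p M) (P : Sylow p G)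
    (hcyc : IsCyclic (G ⧸ pResidual p G)) (hnt : pResidual p G ≠ ⊤) (k : ℕ)
    (hk₁ : ∀ g : G, (∃ j : ℕ, orderOf g = p ^ j) → g ^ k = g ^ (1 + p))
    (hk₂ : ∀ g : G, Nat.Coprime (orderOf g) p → g ^ k = g) :
    Nat.card {χ : IrrCharacter G // χ ∈ principalBlock M G ∧ ¬ p ∣ charDegree (χ : G → ℂ) ∧
      ∀ g : G, (χ : G → ℂ) (g ^ k) = (χ : G → ℂ) g} =
    p * Nat.card {θ : IrrCharacter ↥(pResidual p G) // θ ∈ principalBlock M ↥(pResidual p G) ∧
      ¬ p ∣ charDegree (θ : ↥(pResidual p G) → ℂ) ∧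
      (∀ x ∈ (P : Subgroup G), ∀ n : ↥(pResidual p G), (θ : ↥(pResidual p G) → ℂ)
        ⟨x * n * x⁻¹, (inferInstance : (pResidual p G).Normal).conj_mem n n.2 x⟩ =
        (θ : ↥(pResidual p G) → ℂ) n) ∧
      ∀ n : ↥(pResidual p G), (θ : ↥(pResidual p G) → ℂ) (n ^ k) = (θ : ↥(pResidual p G) → ℂ) n} := by
  classical
  set N := pResidual p G with hN
  have hreg : ∀ x : G, ¬ p ∣ orderOf x → x ∈ N := fun x hx =>
    Transfer.mem_pResidual_of_coprime (Nat.coprime_comm.1 (hp.out.coprime_iff_not_dvd.2 hx))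
  obtain ⟨e, he⟩ := Transfer.exists_index_pResidual_eq_pow (p := p) (G := G)
  have hidx : N.index = p ^ e := he
  have hcomm : ∀ a b : G ⧸ N, a * b = b * a := fun a b => (hcyc.commutative).is_comm.comm a b
  -- invariance under `P` gives invariance under `G`
  have hGinv : ∀ θ : IrrCharacter N,
      (∀ x ∈ (P : Subgroup G), ∀ n : N, (θ : N → ℂ) (MulAut.conjNormal x n) = (θ : N → ℂ) n) →
      ∀ (g : G) (n : N), (θ : N → ℂ) (MulAut.conjNormal g n) = (θ : N → ℂ) n := by
    intro θ hθ g n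
    obtain ⟨a, ha, x, hx, rfl⟩ : ∃ a ∈ N, ∃ x ∈ (P : Subgroup G), a * x = g :=
      Subgroup.mem_sup_of_normal_left.mp (by
        rw [hN, Transfer.pResidual_sup_sylow P]; exact Subgroup.mem_top g)
    rw [← hθ x hx n, ← irr_isClassFunction θ.2 (MulAut.conjNormal x n) ⟨a, ha⟩]
    refine congrArg (θ : N → ℂ) (Subtype.ext ?_)
    simp [mul_assoc]
  -- degrees and blocks along an extension
  have htransfer : ∀ (χ : IrrCharacter G) (θ : IrrCharacter N),
      (∀ n : N, (χ : G → ℂ) n = (θ : N → ℂ) n) →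
      charDegree (χ : G → ℂ) = charDegree (θ : N → ℂ) ∧
      (χ ∈ principalBlock M G ↔ θ ∈ principalBlock M N) := by
    intro χ θ h
    have h1 : (χ : G → ℂ) 1 = (θ : N → ℂ) 1 := by simpa using h 1
    refine ⟨by simp only [charDegree, h1], ?_⟩
    rw [mem_principalBlock_iff_regTotal hM, mem_principalBlock_iff_regTotal hM, h1,
      regTotal_restrict p N hreg]
    simp only [h]
  -- canonical extensions
  let B := {θ : IrrCharacter ↥N // θ ∈ principalBlock M ↥N ∧ ¬ p ∣ charDegree (θ : ↥N → ℂ) ∧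
      (∀ x ∈ (P : Subgroup G), ∀ n : ↥N, (θ : ↥N → ℂ)
        ⟨x * n * x⁻¹, (inferInstance : N.Normal).conj_mem n n.2 x⟩ = (θ : ↥N → ℂ) n) ∧
      ∀ n : ↥N, (θ : ↥N → ℂ) (n ^ k) = (θ : ↥N → ℂ) n}
  have hext : ∀ θ : B, ∃ η : IrrCharacter G, (∀ n : N, (η : G → ℂ) n = (θ.1 : N → ℂ) n) ∧
      ¬ p ∣ orderOf (detChar (η : G → ℂ)) := fun θ => by
    refine exists_extension_pResidual θ.1 (hGinv θ.1 fun x hx n => ?_) θ.2.2.1
    rw [← θ.2.2.2.1 x hx n]
    refine congrArg (θ.1 : N → ℂ) (Subtype.ext ?_)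
    simp
  choose η hη hdet using hext
  have hηfix : ∀ (θ : B) (g : G), (η θ : G → ℂ) (g ^ k) = (η θ : G → ℂ) g := by
    intro θ
    have hkcop : k.Coprime (Nat.card G) := by
      refine Nat.coprime_of_dvd fun q hq hqk hqG => ?_
      haveI := Fact.mk hq
      obtain ⟨g, hg⟩ := exists_prime_orderOf_dvd_card' q hqG
      have hgk : g ^ k = 1 := orderOf_dvd_iff_pow_eq_one.1 (hg ▸ hqk)
      have hg1 : g ≠ 1 := fun h => hq.ne_one (by rw [← hg, h, orderOf_one])
      rcases eq_or_ne q p with rfl | hqp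
      · rw [hk₁ g ⟨1, by rw [hg, pow_one]⟩, pow_add, pow_one, ← hg, pow_orderOf_eq_one, mul_one] at hgk
        exact hg1 hgk
      · rw [hk₂ g (hg ▸ (Nat.coprime_primes hq hp.out).2 hqp)] at hgk
        exact hg1 hgk
    have hch := isCharacter_of_irr (OddChar.irr_twist (η θ).2 hkcop)
    have heq : (fun g => (η θ : G → ℂ) (g ^ k)) = (η θ : G → ℂ) := by
      refine CharExt.char_eq_of_restrict_eq_of_det_eq N _ θ.1.2 (charDegree (θ.1 : N → ℂ))
        (isCharacter_one_eq_charDegree (isCharacter_of_irr θ.1.2))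
        (hidx ▸ Nat.Coprime.pow_left e (hp.out.coprime_iff_not_dvd.2 θ.2.2.1))
        _ _ hch (isCharacter_of_irr (η θ).2) (fun n => ?_) (hη θ) (funext fun g => ?_)
      · show (η θ : G → ℂ) ((n : G) ^ k) = _
        rw [← Subgroup.coe_pow, hη, θ.2.2.2.2]
      · rw [detChar_twist (isCharacter_of_irr (η θ).2) hch]
        have hl := CharExt.detChar_isLin (η θ : G → ℂ)
        have hm : ¬ p ∣ orderOf hl.toHom := hl.orderOf_eq ▸ hdet θ
        have hu : hl.toHom (Element.pPart p g) = 1 := by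
          rw [← orderOf_eq_one_iff]
          refine Nat.eq_one_of_dvd_coprimes
            ((hp.out.coprime_iff_not_dvd.2 hm).pow_left ((orderOf g).factorization p))
            (Element.orderOf_pPart_eq_pow hp.out g ▸ orderOf_map_dvd hl.toHom _) ?_
          exact orderOf_dvd_of_pow_eq_one (DFunLike.congr_fun (pow_orderOf_eq_one hl.toHom) _)
        rw [← hl.toHom_apply g, ← Element.pPart_mul_pComplPart p g, map_mul, hu, one_mul,
          ← Units.val_pow_eq_pow_val, ← map_pow,
          hk₂ _ (Element.coprime_orderOf_pComplPart hp.out g)]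
    exact congrFun heq
  let K := {f : G →* ℂˣ // (∀ n : N, f n = 1) ∧ f ^ p = 1}
  have hK : Nat.card K = p := card_kernelPow hcyc hnt
  let Φ : K × B → {χ : IrrCharacter G // χ ∈ principalBlock M G ∧ ¬ p ∣ charDegree (χ : G → ℂ) ∧
      ∀ g : G, (χ : G → ℂ) (g ^ k) = (χ : G → ℂ) g} := fun x =>
    ⟨⟨fun g => (x.1.1 g : ℂ) * (η x.2 : G → ℂ) g, isIrrCharacter_mul_monoidHom (η x.2).2 x.1.1⟩, by
      have hr : ∀ n : N, (x.1.1 n : ℂ) * (η x.2 : G → ℂ) n = (x.2.1 : N → ℂ) n := fun n => by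
        rw [x.1.2.1, Units.val_one, one_mul, hη]
      obtain ⟨h1, h2⟩ := htransfer
        ⟨fun g => (x.1.1 g : ℂ) * (η x.2 : G → ℂ) g, isIrrCharacter_mul_monoidHom (η x.2).2 x.1.1⟩ x.2.1 hr
      refine ⟨h2.2 x.2.2.1, h1 ▸ x.2.2.2.1, fun g => ?_⟩
      show (x.1.1 (g ^ k) : ℂ) * (η x.2 : G → ℂ) (g ^ k) = (x.1.1 g : ℂ) * (η x.2 : G → ℂ) g
      have hfp : x.1.1 g ^ p = 1 := DFunLike.congr_fun x.1.2.2 g
      rw [hηfix, pow_twist_linear x.1.2.1 hk₁, pow_add, hfp, pow_one, mul_one]⟩
  have hΦ : Function.Bijective Φ := by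
    constructor
    · rintro ⟨f, θ⟩ ⟨f', θ'⟩ h
      have h' : ∀ g, (f.1 g : ℂ) * (η θ : G → ℂ) g = (f'.1 g : ℂ) * (η θ' : G → ℂ) g := fun g =>
        congrFun (congrArg (fun t => ((t.1 : IrrCharacter G) : G → ℂ)) h) g
      have hθ : θ = θ' := by
        refine Subtype.ext (Subtype.ext (funext fun n => ?_))
        have h1 := h' n
        rwa [f.2.1, f'.2.1, Units.val_one, one_mul, one_mul, hη, hη] at h1
      subst hθ
      -- determinants separate the twists
      refine Prod.ext (Subtype.ext (MonoidHom.ext fun g => Units.ext ?_)) rfl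
      obtain ⟨m, ρ, hρ, hρc⟩ := (η θ).2
      have hd1 : (η θ : G → ℂ) 1 = (charDegree (θ.1 : N → ℂ) : ℂ) := by
        rw [← Subgroup.coe_one N, hη, isCharacter_one_eq_charDegree (isCharacter_of_irr θ.1.2)]
      have hfin : Module.finrank ℂ (Fin m → ℂ) = charDegree (θ.1 : N → ℂ) := by
        rw [← hρc, ρ.char_one] at hd1
        exact_mod_cast hd1
      have hdetf : ∀ φ : G →* ℂˣ, detChar (fun g => (φ g : ℂ) * (η θ : G → ℂ) g) g =
          (φ g : ℂ) ^ charDegree (θ.1 : N → ℂ) * LinearMap.det (ρ g) := fun φ => by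
        let τ : Representation ℂ G (Fin m → ℂ) :=
          { toFun := fun g => (φ g : ℂ) • ρ g
            map_one' := by simp
            map_mul' := fun a b => by simp [smul_smul, mul_comm] }
        rw [CharExt.detChar_eq τ (by ext x; simp [τ, Representation.character, ← hρc]) g]
        show LinearMap.det ((φ g : ℂ) • ρ g) = _
        rw [LinearMap.det_smul, hfin]
      have h2 : (f.1 g : ℂ) ^ charDegree (θ.1 : N → ℂ) = (f'.1 g : ℂ) ^ charDegree (θ.1 : N → ℂ) := by
        have h3 := congrFun (congrArg detChar (funext h')) g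
        rw [hdetf, hdetf] at h3
        refine mul_right_cancel₀ ?_ h3
        intro h0
        have h4 := congrArg LinearMap.det (ρ.map_mul g g⁻¹ : _)
        rw [mul_inv_cancel, map_one, map_one, map_mul, h0, zero_mul] at h4
        exact one_ne_zero h4
      have hfp : ∀ φ : K, (φ.1 g : ℂ) ^ p = 1 := fun φ => by
        have := congrArg Units.val (DFunLike.congr_fun φ.2.2 g)
        simpa using this
      have hb := Nat.Coprime.gcd_eq_one (hp.out.coprime_iff_not_dvd.2 θ.2.2.1)
      have e1 : ((f.1 g : ℂ) * (f'.1 g : ℂ)⁻¹) ^ p = 1 := by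
        rw [mul_pow, inv_pow, hfp, hfp, inv_one, mul_one]
      have e2 : ((f.1 g : ℂ) * (f'.1 g : ℂ)⁻¹) ^ charDegree (θ.1 : N → ℂ) = 1 := by
        rw [mul_pow, inv_pow, h2, mul_inv_cancel₀ (pow_ne_zero _ (Units.ne_zero _))]
      have e3 := Nat.dvd_gcd (orderOf_dvd_of_pow_eq_one e1) (orderOf_dvd_of_pow_eq_one e2)
      rw [hb, Nat.dvd_one, orderOf_eq_one_iff] at e3
      field_simp at e3
      exact e3
    · rintro ⟨χ, hχB, hχd, hχk⟩
      letI := Fintype.ofFinite N
      obtain ⟨θ, hθd, hover, hθinv⟩ := exists_invariant_constituent (P : Subgroup G) P.2 N χ hχd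
      obtain ⟨ψ, hψ, -⟩ := exists_extension_pResidual θ (hGinv θ hθinv) hθd
      obtain ⟨f, hfN, hf⟩ := exists_twist_of_over N hcomm χ ψ (by simp only [hψ]; exact θ.2)
        (by simp only [hψ]; exact hover)
      have hres : ∀ n : N, (χ : G → ℂ) n = (θ : N → ℂ) n := fun n => by
        rw [hf, hfN, Units.val_one, one_mul, hψ]
      have hθk : ∀ n : N, (θ : N → ℂ) (n ^ k) = (θ : N → ℂ) n := fun n => by
        rw [← hres, ← hres, Subgroup.coe_pow, hχk]
      let θB : B := ⟨θ, ((htransfer χ θ hres).2).1 hχB, hθd, fun x hx n => by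
        rw [← hθinv x hx n]
        refine congrArg (θ : N → ℂ) (Subtype.ext ?_)
        simp, hθk⟩
      obtain ⟨f', hf'N, hf'⟩ := exists_twist_of_over N hcomm χ (η θB) (by simp only [hη θB]; exact θ.2)
        (by simp only [hη θB]; exact hover)
      -- the twist has exponent `p`
      obtain ⟨m, ρ, hρ, hρc⟩ := (η θB).2
      have hd1 : (η θB : G → ℂ) 1 = (charDegree (θ : N → ℂ) : ℂ) := by
        rw [← Subgroup.coe_one N, hη, isCharacter_one_eq_charDegree (isCharacter_of_irr θ.2)]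
      have hfin : Module.finrank ℂ (Fin m → ℂ) = charDegree (θ : N → ℂ) := by
        rw [← hρc, ρ.char_one] at hd1
        exact_mod_cast hd1
      have hfp : f' ^ p = 1 := by
        ext g
        have hk' : ∀ x : G, ((f' x ^ p : ℂˣ) : ℂ) * (η θB : G → ℂ) x = (η θB : G → ℂ) x := by
          intro x
          have h1 := hχk x
          rw [hf', hf', hηfix, pow_twist_linear hf'N hk₁, pow_add, pow_one, Units.val_mul,
            mul_assoc] at h1
          exact mul_left_cancel₀ (Units.ne_zero _) h1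
        let τ : Representation ℂ G (Fin m → ℂ) :=
          { toFun := fun g => ((f' g ^ p : ℂˣ) : ℂ) • ρ g
            map_one' := by simp
            map_mul' := fun a b => by simp [smul_smul, mul_pow, mul_comm] }
        have hτ : τ.character = ρ.character := by
          ext x
          have := hk' x
          rw [← hρc] at this
          rw [← this]
          simp [τ, Representation.character]
        have h2 := CharExt.det_eq_of_character_eq τ ρ hτ g
        have h2' : LinearMap.det (((f' g ^ p : ℂˣ) : ℂ) • ρ g) = LinearMap.det (ρ g) := h2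
        rw [LinearMap.det_smul, hfin] at h2'
        have hne : LinearMap.det (ρ g) ≠ 0 := by
          intro h0
          have h4 := congrArg LinearMap.det (ρ.map_mul g g⁻¹ : _)
          rw [mul_inv_cancel, map_one, map_one, map_mul, h0, zero_mul] at h4
          exact one_ne_zero h4
        have e2 : (f' g ^ p) ^ charDegree (θ : N → ℂ) = 1 :=
          Units.ext (by simpa using (mul_eq_right₀ hne).1 h2')
        have e1 : (f' g ^ p) ^ p ^ e = 1 := by
          rw [← pow_mul, ← map_pow]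
          refine hf'N ⟨_, ?_⟩
          rw [mul_comm, pow_mul, ← hidx]
          exact N.pow_mem (N.pow_index_mem g) _
        have e3 := Nat.dvd_gcd (orderOf_dvd_of_pow_eq_one e1) (orderOf_dvd_of_pow_eq_one e2)
        rw [(Nat.Coprime.pow_left e (hp.out.coprime_iff_not_dvd.2 hθd)).gcd_eq_one, Nat.dvd_one,
          orderOf_eq_one_iff] at e3
        rw [MonoidHom.pow_apply, e3]
        rfl
      exact ⟨(⟨f', hf'N, hfp⟩, θB), Subtype.ext (Subtype.ext (funext fun g => (hf' g).symm))⟩
  rw [← Nat.card_eq_of_bijective Φ hΦ, Nat.card_prod, hK]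

/-- Let G be a finite group, p a prime, P a Sylow p-subgroup, N the p-residual of G (the subgroup generated by the elements of order prime to p, the smallest normal subgroup with G/N a p-group), and M a maximal ideal of the algebraic integers containing p; suppose G/N is cyclic and nontrivial. Let k be a natural number with g ^ k = g ^ (1 + p) for every p-element g and g ^ k = g for every element g of order prime to p (so that χ (g ^ k) is the image of χ g under the field automorphism that raises p-power roots of unity to the power 1 + p and fixes the roots of unity of order prime to p). Then the number of members χ of the principal block of G of degree prime to p with χ (g ^ k) = χ g for all g equals p times the number of members θ of the principal block of N of degree prime to p that are invariant under conjugation by P and satisfy θ (n ^ k) = θ n for all n. -/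
theorem result {G : Type*} [Group G] [Finite G] (p : ℕ) [Fact p.Prime] (M : Ideal Cfsg.AlgInt) (hM : Cfsg.IsPModular p M) (P : Sylow p G) (N : Subgroup G) [hN : N.Normal] (hNres : N = Cfsg.pResidual p G) (hcyc : IsCyclic (G ⧸ N)) (hnt : N ≠ ⊤) (k : ℕ) (hk₁ : ∀ g : G, (∃ j : ℕ, orderOf g = p ^ j) → g ^ k = g ^ (1 + p)) (hk₂ : ∀ g : G, Nat.Coprime (orderOf g) p → g ^ k = g) : Nat.card {χ : Cfsg.IrrCharacter G // χ ∈ Cfsg.principalBlock M G ∧ ¬ p ∣ Cfsg.charDegree (χ : G → ℂ) ∧ ∀ g : G, (χ : G → ℂ) (g ^ k) = (χ : G → ℂ) g} = p * Nat.card {θ : Cfsg.IrrCharacter ↥N // θ ∈ Cfsg.principalBlock M ↥N ∧ ¬ p ∣ Cfsg.charDegree (θ : ↥N → ℂ) ∧ (∀ x ∈ (P : Subgroup G), ∀ n : ↥N, (θ : ↥N → ℂ) ⟨x * n * x⁻¹, hN.conj_mem n n.2 x⟩ = (θ : ↥N → ℂ) n) ∧ ∀ n : ↥N, (θ : ↥N → ℂ) (n ^ k) = (θ : ↥N → ℂ) n} := by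
  subst hNres
  exact main hM P hcyc hnt k hk₁ hk₂

end Cfsg.Agent.S4553
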