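import Cfsg.Statements.S4558
import Cfsg.Agent.Char.Basic
import Mathlib.RingTheory.Polynomial.Cyclotomic.Roots
import Mathlib.RingTheory.Polynomial.Cyclotomic.Eval

set_option autoImplicit false
open Cfsg

namespace Cfsg.Agent.S4558

open Polynomial in
theorem dvd_card_of_sum_roots_eq_zero {p : ℕ} (hp : p.Prime) (j : ℕ) {ι : Type*} [Fintype ι]
    (ε : ι → ℂ) (hε : ∀ i, ε i ^ p ^ j = 1) (h : ∑ i, ε i = 0) : p ∣ Fintype.card ι := by
  haveI := Fact.mk hp
  cases j with
  | zero =>
    simp only [pow_zero, pow_one] at hε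
    simp only [hε, Finset.sum_const, Finset.card_univ, nsmul_eq_mul, mul_one, Nat.cast_eq_zero] at h
    simp [h]
  | succ j =>
    have hN : (p ^ (j + 1)) ≠ 0 := pow_ne_zero _ hp.ne_zero
    haveI : NeZero (p ^ (j + 1)) := ⟨hN⟩
    have hζ := Complex.isPrimitiveRoot_exp (p ^ (j + 1)) hN
    choose a _ ha using fun i => hζ.eq_pow_of_pow_eq_one (hε i)
    set f : ℤ[X] := ∑ i, X ^ a i with hf
    have hroot : aeval (Complex.exp (2 * Real.pi * Complex.I / (p ^ (j + 1) : ℕ))) f = 0 := by
      simp only [hf, map_sum, map_pow, aeval_X, ha, h]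
    have hdvd : cyclotomic (p ^ (j + 1)) ℤ ∣ f := by
      rw [cyclotomic_eq_minpoly hζ (Nat.pos_of_ne_zero hN)]
      exact minpoly.isIntegrallyClosed_dvd (hζ.isIntegral (Nat.pos_of_ne_zero hN)) hroot
    have h2 := eval_dvd (x := (1 : ℤ)) hdvd
    rw [eval_one_cyclotomic_prime_pow, hf] at h2
    simp only [eval_finsetSum, eval_pow, eval_X, one_pow, Finset.sum_const, Finset.card_univ,
      nsmul_eq_mul, mul_one] at h2
    exact Int.natCast_dvd_natCast.1 h2


/-- Let χ be a character of the finite group G and g an element of p-power order for the prime p. If χ g = 0, then p divides the degree of χ. -/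
theorem result {G : Type*} [Group G] [Finite G] (p : ℕ) [Fact p.Prime] (χ : G → ℂ) (hχ : Cfsg.IsCharacter G χ) (g : G) (hg : ∃ j : ℕ, orderOf g = p ^ j) (h0 : χ g = 0) : p ∣ Cfsg.charDegree χ := by
  obtain ⟨n, ρ, rfl⟩ := hχ
  obtain ⟨j, hj⟩ := hg
  have hp : p.Prime := Fact.out
  obtain ⟨ε, hε, hpow⟩ := Cfsg.Agent.Char.exists_character_eq_sum_roots ρ g
  have hsum : ∑ i, ε i = 0 := by
    have := hpow 1
    simp only [pow_one] at this
    rw [← this, h0]
  have hdeg : Cfsg.charDegree ρ.character = Fintype.card (Fin (Module.finrank ℂ (Fin n → ℂ))) := by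
    simp [Cfsg.charDegree]
  rw [hdeg]
  exact dvd_card_of_sum_roots_eq_zero hp j ε (fun i => hj ▸ hε i) hsum

end Cfsg.Agent.S4558
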