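import Cfsg.Statements.S4560
import Cfsg.Agent.BlkChar.TwoSetChar
import Mathlib.GroupTheory.Perm.Cycle.PossibleTypes
import Mathlib.GroupTheory.SpecificGroups.Alternating

set_option autoImplicit false
open Cfsg

namespace Cfsg.Agent.S4560

open Cfsg.Agent.Char
open Cfsg.Agent.BlkChar.TwoSet
open scoped Classical Pointwise

variable {n : ℕ}

local notation "Sn" => Equiv.Perm (Fin n)
local notation "An" => alternatingGroup (Fin n)

theorem four_trans_perm (hn : 7 ≤ n) : MulAction.IsMultiplyPretransitive Sn (Fin n) 4 :=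
  Equiv.Perm.isMultiplyPretransitive (Fin n) 4

theorem four_trans_alt (hn : 7 ≤ n) : MulAction.IsMultiplyPretransitive An (Fin n) 4 := by
  haveI := alternatingGroup.isMultiplyPretransitive (Fin n)
  exact MulAction.isMultiplyPretransitive_of_le
    (show 4 ≤ Nat.card (Fin n) - 2 by rw [Nat.card_fin]; omega) (Nat.sub_le _ _)

/-- Sign fixing. -/
theorem irr_of_pos {G : Type*} [Group G] [Finite G] {f : G → ℂ}
    (h : IsIrrCharacter G f ∨ IsIrrCharacter G (fun g => -f g)) {k : ℕ} (hk : f 1 = k) :
    IsIrrCharacter G f := by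
  rcases h with h | h
  · exact h
  · obtain ⟨m, hm, he⟩ := irr_one_pos h
    exfalso
    simp only [hk] at he
    have : ((k + m : ℕ) : ℂ) = 0 := by
      push_cast
      first
        | linear_combination he
        | linear_combination -he
    have : k + m = 0 := by exact_mod_cast this
    omega

theorem permChar_X (g : Sn) :
    permChar (Fin n) g = ((Finset.univ.filter fun a => g a = a).card : ℂ) := by
  rw [permChar, Nat.card_eq_fintype_card]
  exact congrArg Nat.cast (Fintype.card_of_subtype _ (fun a => by simp [MulAction.mem_fixedBy]))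

theorem permChar_Q (g : Sn) :
    permChar (Q (Fin n)) g = (((Finset.univ.filter fun a => g a = a).card.descFactorial 2 : ℕ) : ℂ) := by
  rw [permChar]
  congr 1
  have e : MulAction.fixedBy (Q (Fin n)) g ≃ (Fin 2 ↪ {a : Fin n // g a = a}) :=
    { toFun := fun p => ⟨fun i => ⟨p.1 i, by
          have := DFunLike.congr_fun p.2 i
          simpa [Function.Embedding.smul_apply] using this⟩,
        fun i j h => p.1.injective (congrArg Subtype.val h)⟩
      invFun := fun q => ⟨q.trans (Function.Embedding.subtype _), by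
          ext i
          have := (q i).2
          simp [Function.Embedding.smul_apply, this]⟩
      left_inv := fun p => by ext; rfl
      right_inv := fun q => by ext; rfl }
  rw [Nat.card_congr e, Nat.card_eq_fintype_card, Fintype.card_embedding_eq, Fintype.card_fin]
  congr 1
  exact Fintype.card_of_subtype _ (fun a => by simp)

theorem permChar_R (g : Sn) (h2 : ∀ a, g (g a) = a → g a = a) :
    permChar (R (Fin n)) g = (((Finset.univ.filter fun a => g a = a).card.choose 2 : ℕ) : ℂ) := by
  rw [permChar]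
  congr 1
  rw [← Finset.card_powersetCard, ← Fintype.card_coe, ← Nat.card_eq_fintype_card]
  refine Nat.card_congr
    { toFun := fun s => ⟨s.1.1, ?_⟩
      invFun := fun t => ⟨⟨t.1, (Finset.mem_powersetCard.1 t.2).2⟩, ?_⟩
      left_inv := fun s => rfl
      right_inv := fun t => rfl }
  · rw [Finset.mem_powersetCard]
    refine ⟨fun a ha => ?_, s.1.2⟩
    have hs : g • (s.1.1 : Finset (Fin n)) = s.1.1 := by
      rw [← Set.powersetCard.coe_smul]; exact congrArg Subtype.val s.2
    simp only [Finset.mem_filter, Finset.mem_univ, true_and]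
    by_contra hne
    have h1 : g a ∈ (s.1.1 : Finset (Fin n)) := hs ▸ Finset.smul_mem_smul_finset ha
    have h3 : g (g a) ∈ (s.1.1 : Finset (Fin n)) := hs ▸ Finset.smul_mem_smul_finset h1
    obtain ⟨c, hc, hsc⟩ := other s.1 ha
    rw [hsc, Finset.mem_insert, Finset.mem_singleton] at h1 h3
    rcases h3 with h3 | h3
    · exact hne (h2 a h3)
    · exact hne (g.injective (h3.trans (h1.resolve_left hne).symm))
  · refine Subtype.ext ?_
    rw [Set.powersetCard.coe_smul]
    show g • t.1 = t.1
    have hsub := (Finset.mem_powersetCard.1 t.2).1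
    refine (Finset.smul_finset_def).trans ?_
    conv_rhs => rw [← Finset.image_id (s := t.1)]
    exact Finset.image_congr fun a ha => (Finset.mem_filter.1 (hsub ha)).2

theorem no_two (g : Sn) (h : 2 ∉ g.cycleType) (a : Fin n) (ha : g (g a) = a) : g a = a := by
  by_contra hne
  have hc : (g.cycleOf a).IsCycle := (Equiv.Perm.isCycle_cycleOf_iff g).2 hne
  have hmem : g.cycleOf a ∈ g.cycleFactorsFinset :=
    Equiv.Perm.cycleOf_mem_cycleFactorsFinset_iff.2 (Equiv.Perm.mem_support.2 hne)
  have hlen : (g.cycleOf a).support.card ∈ g.cycleType := by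
    rw [Equiv.Perm.cycleType_def]
    exact Multiset.mem_map.2 ⟨_, hmem, rfl⟩
  have h1 : g.cycleOf a a ≠ a := by rwa [Equiv.Perm.cycleOf_apply_self]
  have h2 : ((g.cycleOf a) ^ 2) a = a := by
    rw [Equiv.Perm.cycleOf_pow_apply_self]
    simpa [pow_two] using ha
  have h3 := (hc.pow_eq_one_iff' h1).2 h2
  have h4 : (g.cycleOf a).support.card ∣ 2 := hc.orderOf ▸ orderOf_dvd_of_pow_eq_one h3
  have h5 := hc.two_le_card_support
  have h6 := Nat.le_of_dvd (by norm_num) h4
  exact h (by rwa [show 2 = (g.cycleOf a).support.card by omega])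

/-- An even permutation with a given cycle type. -/
theorem exists_elt {m : Multiset ℕ} (hsum : m.sum ≤ n) (h2 : ∀ a ∈ m, 2 ≤ a)
    (hev : Even (m.sum + m.card)) :
    ∃ x : An, orderOf x = m.lcm ∧
      (Finset.univ.filter fun a => (x : Sn) a = a).card = n - m.sum ∧
      (2 ∉ m → ∀ a, (x : Sn) ((x : Sn) a) = a → (x : Sn) a = a) := by
  obtain ⟨g, hg⟩ := (Equiv.Perm.exists_with_cycleType_iff (Fin n)).2
    ⟨by rwa [Fintype.card_fin], h2⟩
  have hA : g ∈ An := by
    rw [Equiv.Perm.mem_alternatingGroup, Equiv.Perm.sign_of_cycleType, hg]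
    exact hev.neg_one_pow
  refine ⟨⟨g, hA⟩, ?_, ?_, fun h => no_two g (hg ▸ h)⟩
  · rw [← Subgroup.orderOf_coe, ← Equiv.Perm.lcm_cycleType, hg]
  · rw [← hg, Equiv.Perm.sum_cycleType]
    have : (Finset.univ.filter fun a => g a = a) = g.supportᶜ := by ext; simp
    rw [this, Finset.card_compl, Fintype.card_fin]

/-- Irreducible on both groups, equal on the smaller. -/
def Good (f : Sn → ℂ) : Prop :=
  IsIrrCharacter Sn f ∧ IsIrrCharacter An (fun x : An => f (x : Sn))

theorem good_std (hn : 7 ≤ n) : Good (n := n) (fun g => permChar (Fin n) g - 1) := by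
  have hX : 4 ≤ Nat.card (Fin n) := by rw [Nat.card_fin]; omega
  refine ⟨?_, ?_⟩
  · haveI := four_trans_perm hn
    haveI : MulAction.IsPretransitive Sn (Fin n) :=
      haveI := MulAction.isMultiplyPretransitive_of_le (G := Sn) (α := Fin n) (show 2 ≤ 4 by omega) hX
      MulAction.isPretransitive_of_is_two_pretransitive
    exact (isIrrCharacter_permChar_sub_one_iff (Fin n) (by omega)).2
      (MulAction.isMultiplyPretransitive_of_le (show 2 ≤ 4 by omega) hX)
  · haveI := four_trans_alt hn
    haveI : MulAction.IsPretransitive An (Fin n) :=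
      haveI := MulAction.isMultiplyPretransitive_of_le (G := An) (α := Fin n) (show 2 ≤ 4 by omega) hX
      MulAction.isPretransitive_of_is_two_pretransitive
    have h := (isIrrCharacter_permChar_sub_one_iff (G := An) (Fin n) (by omega)).2
      (MulAction.isMultiplyPretransitive_of_le (show 2 ≤ 4 by omega) hX)
    exact h

theorem good_phi (hn : 7 ≤ n) :
    Good (n := n) (fun g => permChar (R (Fin n)) g - permChar (Fin n) g) := by
  have hX : 4 ≤ Nat.card (Fin n) := by rw [Nat.card_fin]; omega
  have hval : permChar (R (Fin n)) (1 : Sn) - permChar (Fin n) (1 : Sn) =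
      ((n.choose 2 - n : ℕ) : ℂ) := by
    rw [permChar_R 1 (fun a _ => rfl), permChar_X]
    simp only [Equiv.Perm.coe_one, id_eq, Finset.filter_true, Finset.card_univ, Fintype.card_fin]
    rw [Nat.cast_sub]
    rw [Nat.choose_two_right, Nat.le_div_iff_mul_le two_pos]
    exact Nat.mul_le_mul_left n (by omega)
  refine ⟨irr_of_pos (by simpa using isIrr_phi (four_trans_perm hn) hX) hval, ?_⟩
  exact irr_of_pos (f := fun x : An => permChar (R (Fin n)) (x : Sn) - permChar (Fin n) (x : Sn))
    (by
      rcases isIrr_phi (four_trans_alt hn) hX with h | h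
      · exact Or.inl h
      · refine Or.inr ?_
        convert h using 1
        funext x; simp; rfl) hval

theorem good_psi (hn : 7 ≤ n) :
    Good (n := n) (fun g => permChar (Q (Fin n)) g - permChar (R (Fin n)) g -
      permChar (Fin n) g + 1) := by
  have hX : 4 ≤ Nat.card (Fin n) := by rw [Nat.card_fin]; omega
  have hval : permChar (Q (Fin n)) (1 : Sn) - permChar (R (Fin n)) (1 : Sn) -
      permChar (Fin n) (1 : Sn) + 1 = ((n.choose 2 - n + 1 : ℕ) : ℂ) := by
    rw [permChar_R 1 (fun a _ => rfl), permChar_X, permChar_Q]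
    simp only [Equiv.Perm.coe_one, id_eq, Finset.filter_true, Finset.card_univ, Fintype.card_fin]
    rw [Nat.descFactorial_eq_factorial_mul_choose, Nat.cast_add, Nat.cast_sub]
    · push_cast [Nat.factorial]; ring
    rw [Nat.choose_two_right, Nat.le_div_iff_mul_le two_pos]
    exact Nat.mul_le_mul_left n (by omega)
  refine ⟨irr_of_pos (isIrr_psi (four_trans_perm hn) hX) hval, ?_⟩
  exact irr_of_pos (f := fun x : An => permChar (Q (Fin n)) (x : Sn) -
    permChar (R (Fin n)) (x : Sn) - permChar (Fin n) (x : Sn) + 1)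
    (isIrr_psi (four_trans_alt hn) hX) hval

theorem vanish_good (hn : 7 ≤ n) {m : Multiset ℕ} (hsum : m.sum ≤ n) (h2 : ∀ a ∈ m, 2 ≤ a)
    (hev : Even (m.sum + m.card)) (hcase : n - m.sum = 1 ∨ (2 ∉ m ∧ n - m.sum = 0) ∨
      (2 ∉ m ∧ n - m.sum = 2)) :
    ∃ χ : Cfsg.IrrCharacter An, (∃ x : An, orderOf x = m.lcm ∧ (χ : An → ℂ) x = 0) ∧
      ∃ ψ : Cfsg.IrrCharacter Sn, ∀ x : An, (ψ : Sn → ℂ) x = (χ : An → ℂ) x := by
  obtain ⟨x, ho, hfix, htwo⟩ := exists_elt hsum h2 hev
  suffices h : ∃ f : Sn → ℂ, Good f ∧ f x = 0 by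
    obtain ⟨f, ⟨hS, hA⟩, hx⟩ := h
    exact ⟨⟨_, hA⟩, ⟨x, ho, hx⟩, ⟨f, hS⟩, fun _ => rfl⟩
  rcases hcase with h | ⟨hm, h⟩ | ⟨hm, h⟩
  · exact ⟨_, good_std hn, by rw [permChar_X, hfix, h]; simp⟩
  · exact ⟨_, good_phi hn, by rw [permChar_R _ (htwo hm), permChar_X, hfix, h]; simp⟩
  · refine ⟨_, good_psi hn, ?_⟩
    rw [permChar_R _ (htwo hm), permChar_X, permChar_Q, hfix, h]
    norm_num [Nat.descFactorial]

theorem exists_two_type (hn : 7 ≤ n) : ∃ m : Multiset ℕ, m.sum ≤ n ∧ (∀ a ∈ m, 2 ≤ a) ∧
    Even (m.sum + m.card) ∧ (n - m.sum = 1 ∨ (2 ∉ m ∧ n - m.sum = 0) ∨ (2 ∉ m ∧ n - m.sum = 2)) ∧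
    ∀ a ∈ m, a ∣ 8 := by
  rcases Nat.even_or_odd n with he | ho
  · obtain ⟨m, hm, hmf⟩ : ∃ m, 2 ≤ m ∧ (4 * m = n ∨ 4 * m + 2 = n) :=
      ⟨n / 4, by have := Nat.even_iff.1 he; omega, by have := Nat.even_iff.1 he; omega⟩
    rcases Nat.even_or_odd m with hme | hmo
    · refine ⟨Multiset.replicate m 4, ?_, ?_, ?_, ?_, ?_⟩
      · simp; omega
      · intro a ha; rw [Multiset.eq_of_mem_replicate ha]; norm_num
      · simp [Nat.even_add, hme]
      · right
        have h2 : 2 ∉ Multiset.replicate m 4 := fun h => by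
          have := Multiset.eq_of_mem_replicate h; omega
        simp only [Multiset.sum_replicate, smul_eq_mul]
        rcases hmf with h | h
        · exact Or.inl ⟨h2, by omega⟩
        · exact Or.inr ⟨h2, by omega⟩
      · intro a ha; rw [Multiset.eq_of_mem_replicate ha]; norm_num
    · obtain ⟨k, rfl⟩ : ∃ k, m = k + 2 := ⟨m - 2, by omega⟩
      refine ⟨8 ::ₘ Multiset.replicate k 4, ?_, ?_, ?_, ?_, ?_⟩
      · simp; omega
      · intro a ha
        rcases Multiset.mem_cons.1 ha with rfl | ha
        · norm_num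
        · rw [Multiset.eq_of_mem_replicate ha]; norm_num
      · obtain ⟨j, hj⟩ := hmo
        rw [Nat.even_iff]
        simp
        omega
      · right
        have h2 : 2 ∉ 8 ::ₘ Multiset.replicate k 4 := fun h => by
          rcases Multiset.mem_cons.1 h with h | h
          · omega
          · have := Multiset.eq_of_mem_replicate h; omega
        simp only [Multiset.sum_cons, Multiset.sum_replicate, smul_eq_mul]
        rcases hmf with h | h
        · exact Or.inl ⟨h2, by omega⟩
        · exact Or.inr ⟨h2, by omega⟩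
      · intro a ha
        rcases Multiset.mem_cons.1 ha with rfl | ha
        · norm_num
        · rw [Multiset.eq_of_mem_replicate ha]; norm_num
  · obtain ⟨m, rfl⟩ := ho
    rcases Nat.even_or_odd m with hme | hmo
    · refine ⟨Multiset.replicate m 2, ?_, ?_, ?_, Or.inl ?_, ?_⟩
      · simp; omega
      · intro a ha; rw [Multiset.eq_of_mem_replicate ha]
      · simp [Nat.even_add, hme]
      · simp; omega
      · intro a ha; rw [Multiset.eq_of_mem_replicate ha]; norm_num
    · obtain ⟨k, rfl⟩ : ∃ k, m = k + 2 := ⟨m - 2, by omega⟩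
      refine ⟨4 ::ₘ Multiset.replicate k 2, ?_, ?_, ?_, Or.inl ?_, ?_⟩
      · simp; omega
      · intro a ha
        rcases Multiset.mem_cons.1 ha with rfl | ha
        · norm_num
        · rw [Multiset.eq_of_mem_replicate ha]
      · obtain ⟨j, hj⟩ := hmo
        rw [Nat.even_iff]
        simp
        omega
      · simp; omega
      · intro a ha
        rcases Multiset.mem_cons.1 ha with rfl | ha
        · norm_num
        · rw [Multiset.eq_of_mem_replicate ha]; norm_num

/-- For n ≥ 7 the alternating group on n letters has an irreducible character that vanishes at some 2-element and is the restriction of an irreducible character of the symmetric group, and an irreducible character that vanishes at some element of order 3 and is the restriction of an irreducible character of the symmetric group. -/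
theorem result (n : ℕ) (hn : 7 ≤ n) : (∃ χ : Cfsg.IrrCharacter (alternatingGroup (Fin n)), (∃ x : alternatingGroup (Fin n), (∃ j : ℕ, orderOf x = 2 ^ j) ∧ (χ : alternatingGroup (Fin n) → ℂ) x = 0) ∧ ∃ ψ : Cfsg.IrrCharacter (Equiv.Perm (Fin n)), ∀ x : alternatingGroup (Fin n), (ψ : Equiv.Perm (Fin n) → ℂ) x = (χ : alternatingGroup (Fin n) → ℂ) x) ∧ (∃ χ : Cfsg.IrrCharacter (alternatingGroup (Fin n)), (∃ y : alternatingGroup (Fin n), orderOf y = 3 ∧ (χ : alternatingGroup (Fin n) → ℂ) y = 0) ∧ ∃ ψ : Cfsg.IrrCharacter (Equiv.Perm (Fin n)), ∀ x : alternatingGroup (Fin n), (ψ : Equiv.Perm (Fin n) → ℂ) x = (χ : alternatingGroup (Fin n) → ℂ) x) := by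
  refine ⟨?_, ?_⟩
  · obtain ⟨m, h1, h2, h3, h4, h8⟩ := exists_two_type hn
    obtain ⟨χ, ⟨x, ho, hx⟩, hψ⟩ := vanish_good hn h1 h2 h3 h4
    refine ⟨χ, ⟨x, ?_, hx⟩, hψ⟩
    obtain ⟨j, -, hj⟩ := (Nat.dvd_prime_pow Nat.prime_two).1
      (show m.lcm ∣ 2 ^ 3 from Multiset.lcm_dvd.2 h8)
    exact ⟨j, ho.trans hj⟩
  · obtain ⟨χ, ⟨x, ho, hx⟩, hψ⟩ := vanish_good hn (m := Multiset.replicate (n / 3) 3)
      (by simp; omega) (fun a ha => by rw [Multiset.eq_of_mem_replicate ha]; norm_num)
      (by simp only [Multiset.sum_replicate, Multiset.card_replicate, smul_eq_mul]; exact ⟨2 * (n / 3), by ring⟩)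
      (by
        have h2 : 2 ∉ Multiset.replicate (n / 3) 3 := fun h => by
          have := Multiset.eq_of_mem_replicate h; omega
        simp only [Multiset.sum_replicate, smul_eq_mul]
        rcases (show n % 3 = 0 ∨ n % 3 = 1 ∨ n % 3 = 2 by omega) with h | h | h
        · exact Or.inr (Or.inl ⟨h2, by omega⟩)
        · exact Or.inl (by omega)
        · exact Or.inr (Or.inr ⟨h2, by omega⟩))
    refine ⟨χ, ⟨x, ?_, hx⟩, hψ⟩
    rw [ho]
    exact Nat.dvd_antisymm
      (Multiset.lcm_dvd.2 fun a ha => by rw [Multiset.eq_of_mem_replicate ha])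
      (Multiset.dvd_lcm (Multiset.mem_replicate.2 ⟨by omega, rfl⟩))

end Cfsg.Agent.S4560
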