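import Cfsg.Statements.S4561
import Cfsg.Agent.CentralEmbed.Ramified

set_option autoImplicit false
universe u
open Cfsg

namespace Cfsg.Agent.S4561

open Cfsg.Agent.CentralEmbed

/-- For every finite solvable group G there is a finite group H with a faithful irreducible character χ whose degree squared equals the index of the centre Z(H) (so χ is fully ramified over the centre), such that G is isomorphic to a subgroup of H/Z(H), the primes dividing the orders of H, of Z(H) and of G are the same, and the order of Z(H) is squarefree. -/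
theorem result {G : Type u} [Group G] [Finite G] (hsolv : Group.IsSolvable G) : ∃ (H : Type u) (_ : Group H) (_ : Finite H) (χ : Cfsg.IrrCharacter H), (∀ h : H, (χ : H → ℂ) h = (χ : H → ℂ) 1 → h = 1) ∧ (Cfsg.charDegree (χ : H → ℂ)) ^ 2 = (Subgroup.center H).index ∧ (∃ f : G →* H ⧸ Subgroup.center H, Function.Injective f) ∧ (∀ p : ℕ, p.Prime → ((p ∣ Nat.card H ↔ p ∣ Nat.card G) ∧ (p ∣ Nat.card (Subgroup.center H) ↔ p ∣ Nat.card G))) ∧ Squarefree (Nat.card (Subgroup.center H)) := by
  classical
  obtain ⟨N, hN, hsq, hdiv⟩ : ∃ N : ℕ, N ≠ 0 ∧ Squarefree N ∧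
      ∀ p : ℕ, p.Prime → (p ∣ N ↔ p ∣ Nat.card G) := by
    refine ⟨∏ p ∈ (Nat.card G).primeFactors, p, ?_, ?_, fun p hp => ?_⟩
    · exact Finset.prod_ne_zero_iff.2 fun p hp => (Nat.prime_of_mem_primeFactors hp).ne_zero
    · rw [Nat.squarefree_iff_prime_squarefree]
      intro p hp hpd
      have hmem : p ∈ (Nat.card G).primeFactors := by
        obtain ⟨r, hr, hpr⟩ := (Prime.dvd_finset_prod_iff hp.prime _).1 (dvd_trans (dvd_mul_right p p) hpd)
        rwa [(Nat.prime_dvd_prime_iff_eq hp (Nat.prime_of_mem_primeFactors hr)).1 hpr]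
      rw [← Finset.mul_prod_erase _ _ hmem] at hpd
      have h2 := Nat.dvd_of_mul_dvd_mul_left hp.pos hpd
      obtain ⟨r, hr, hpr⟩ := (Prime.dvd_finset_prod_iff hp.prime _).1 h2
      rw [Finset.mem_erase] at hr
      exact hr.1 ((Nat.prime_dvd_prime_iff_eq hp (Nat.prime_of_mem_primeFactors hr.2)).1 hpr).symm
    · constructor
      · intro h
        obtain ⟨r, hr, hpr⟩ := (Prime.dvd_finset_prod_iff hp.prime _).1 h
        rw [(Nat.prime_dvd_prime_iff_eq hp (Nat.prime_of_mem_primeFactors hr)).1 hpr]
        exact Nat.dvd_of_mem_primeFactors hr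
      · intro h
        exact Finset.dvd_prod_of_mem _ (Nat.mem_primeFactors.2 ⟨hp, h, Nat.card_pos.ne'⟩)
  haveI : NeZero N := ⟨hN⟩
  obtain ⟨E, _, _, F, ι, hF, hι, hE⟩ := exists_orthFun hN (Nat.card G) G rfl hsolv
    (fun p hp h => (hdiv p hp).2 h)
  haveI := finite_scaled hF
  haveI hfin : Finite (Grp hF) := Finite.of_equiv _ SemidirectProduct.equivProd.symm
  letI : Fintype (Grp hF) := Fintype.ofFinite _
  have hEC : (Nat.card E : ℂ) ≠ 0 := Nat.cast_ne_zero.2 Nat.card_pos.ne'
  have h1 : chi hF (1 : Grp hF) = (Nat.card E : ℂ) := by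
    rw [chi_center hF (Subgroup.one_mem _)]; simp
  have hcardH : Nat.card (Grp hF) = N * Nat.card E * Nat.card E := by
    rw [SemidirectProduct.card, card_scaled hF]
  have hidx : (Subgroup.center (Grp hF)).index = Nat.card E ^ 2 := by
    have := (Subgroup.center (Grp hF)).card_mul_index
    rw [card_center hF, hcardH, mul_assoc] at this
    rw [Nat.eq_of_mul_eq_mul_left (Nat.pos_of_ne_zero hN) this, sq]
  refine ⟨Grp hF, inferInstance, hfin, ⟨chi hF, chi_isIrr hF⟩, ?_, ?_, ?_, ?_, ?_⟩
  · intro g hg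
    simp only at hg
    rw [h1] at hg
    by_cases hc : g ∈ Subgroup.center (Grp hF)
    · rw [chi_center hF hc, mul_right_eq_self₀, or_iff_left hEC, Units.val_eq_one] at hg
      obtain ⟨hr, hconst⟩ := (mem_center_iff hF g).1 hc
      exact SemidirectProduct.ext (Subtype.ext (funext fun x => by simp [hconst x, hg]))
        (by simp [hr])
    · rw [chi_not_center hF hc] at hg
      exact absurd hg.symm hEC
  · rw [hidx]
    congr 1
    simp [charDegree, h1]
  · refine ⟨(QuotientGroup.mk' _).comp ((SemidirectProduct.inr).comp ι), ?_⟩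
    rw [injective_iff_map_eq_one]
    intro g hg
    simp only [MonoidHom.comp_apply, QuotientGroup.mk'_apply, QuotientGroup.eq_one_iff] at hg
    have := ((mem_center_iff hF _).1 hg).1
    simp only [SemidirectProduct.right_inr] at this
    exact hι (this.trans (map_one ι).symm)
  · intro p hp
    rw [card_center hF, hcardH]
    refine ⟨⟨fun h => ?_, fun h => ?_⟩, hdiv p hp⟩
    · rcases hp.dvd_mul.1 h with h | h
      · rcases hp.dvd_mul.1 h with h | h
        · exact (hdiv p hp).1 h
        · exact hE p hp h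
      · exact hE p hp h
    · exact dvd_mul_of_dvd_left (dvd_mul_of_dvd_left ((hdiv p hp).2 h) _) _
  · rw [card_center hF]
    exact hsq

end Cfsg.Agent.S4561
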