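import Cfsg.Statements.S4563
import Cfsg.Agent.S0006
import Cfsg.Agent.BlkChar.RamifiedOver
-- import your own Cfsg.Agent.* helpers here

set_option autoImplicit false
set_option linter.style.haveILetI false
open Cfsg

namespace Cfsg.Agent.S4563

open Cfsg.Agent.Char Cfsg.Agent.BlkChar.RamifiedOver
open scoped ComplexConjugate Classical

universe v

variable {H : Type v} [Group H] [Fintype H]

/-- The Sylow data of a pair of normal subgroups. -/
theorem exists_pq (Z K : Subgroup H) [Z.Normal] [K.Normal] (hZK : Z ≤ K) (p : ℕ) [hp : Fact p.Prime] :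
    ∃ P Q : Subgroup H, Z ≤ Q ∧ Q ≤ P ∧ Q ≤ K ∧ P ≤ Subgroup.normalizer (Q : Set H) ∧
      Subgroup.normalizer (Q : Set H) ⊔ K = ⊤ ∧
      Nat.card P = Nat.card Z * p ^ Z.index.factorization p ∧
      Nat.card Q = Nat.card Z * p ^ (Z.index.factorization p - K.index.factorization p) := by
  let π := QuotientGroup.mk' Z
  have hπ : Function.Surjective π := QuotientGroup.mk'_surjective Z
  have hcard : ∀ A : Subgroup (H ⧸ Z), Nat.card (A.comap π) = Nat.card Z * Nat.card A := by
    intro A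
    have h1 := Subgroup.card_mul_index (A.comap π)
    rw [Subgroup.index_comap_of_surjective _ hπ, ← Z.card_mul_index, Subgroup.index_eq_card Z,
      ← A.card_mul_index, ← mul_assoc] at h1
    exact Nat.eq_of_mul_eq_mul_right (Nat.pos_of_ne_zero Subgroup.index_ne_zero_of_finite) h1
  set Kb := K.map π with hKb
  haveI : Kb.Normal := Subgroup.Normal.map inferInstance π hπ
  have hker : π.ker ≤ K := by rw [QuotientGroup.ker_mk']; exact hZK
  have hKc : Kb.comap π = K := Subgroup.comap_map_eq_self hker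
  obtain ⟨Qb⟩ := (Sylow.nonempty : Nonempty (Sylow p Kb))
  set Qb' : Subgroup (H ⧸ Z) := (Qb : Subgroup Kb).map Kb.subtype with hQb'
  have hKi : Kb.index = K.index := by
    rw [← Subgroup.index_comap_of_surjective Kb hπ, hKc]
  have hZi : Nat.card (H ⧸ Z) = Z.index := (Subgroup.index_eq_card Z).symm
  have hQc : Nat.card Qb' = p ^ (Z.index.factorization p - K.index.factorization p) := by
    rw [hQb', Subgroup.card_map_of_injective Kb.subtype_injective, Qb.card_eq_multiplicity,
      ← hKi, ← hZi, ← Kb.card_mul_index, Nat.factorization_mul Nat.card_pos.ne'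
        Subgroup.index_ne_zero_of_finite, Finsupp.add_apply, Nat.add_sub_cancel]
  have hfr := Sylow.normalizer_sup_eq_top Qb
  have hQp : IsPGroup p Qb' := IsPGroup.of_card hQc
  set N := Subgroup.normalizer (Qb' : Set (H ⧸ Z)) with hN
  obtain ⟨Pb⟩ := (Sylow.nonempty : Nonempty (Sylow p N))
  set Pb' : Subgroup (H ⧸ Z) := (Pb : Subgroup N).map N.subtype with hPb'
  have hQP : Qb' ≤ Pb' := by
    haveI : (Qb'.comap N.subtype).Normal := Subgroup.normal_in_normalizer
    have h1 : Qb'.subgroupOf N ≤ (Pb : Subgroup N) :=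
      IsPGroup.le_sylow_of_normal (hQp.comap_of_injective _ N.subtype_injective) Pb
    have h2 := Subgroup.map_mono (f := N.subtype) h1
    rwa [Subgroup.subgroupOf_map_subtype, inf_eq_left.2 Subgroup.le_normalizer] at h2
  have hPN : Pb' ≤ N := Subgroup.map_subtype_le _
  have hPc : Nat.card Pb' = p ^ Z.index.factorization p := by
    rw [hPb', Subgroup.card_map_of_injective N.subtype_injective, Pb.card_eq_multiplicity,
      ← hZi]
    have hsum : Nat.card N * (Kb.subgroupOf N).index ∣ Nat.card N * Kb.index :=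
      mul_dvd_mul_left _ (Subgroup.relIndex_dvd_index_of_normal Kb N)
    congr 1
    refine le_antisymm ((Nat.factorization_le_iff_dvd Nat.card_pos.ne' Nat.card_pos.ne').2
      (Subgroup.card_subgroup_dvd_card N) p) ?_
    have h1 : Nat.card (H ⧸ Z) ∣ Nat.card N * Nat.card Kb := by
      have htop : N ⊔ Kb = ⊤ := hfr
      have := Subgroup.card_mul_index Kb
      have h2 : Kb.index = Kb.relIndex N := by
        rw [← Subgroup.relIndex_top_right, ← htop, Subgroup.relIndex_sup_right]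
      rw [← this, h2, mul_comm]
      exact mul_dvd_mul_right (Subgroup.relIndex_dvd_card Kb N) _
    have h3 : Nat.card N ∣ Nat.card (H ⧸ Z) := Subgroup.card_subgroup_dvd_card N
    have h4 : (Nat.card Kb).factorization p + Kb.index.factorization p =
        (Nat.card (H ⧸ Z)).factorization p := by
      rw [← Finsupp.add_apply, ← Nat.factorization_mul Nat.card_pos.ne'
        Subgroup.index_ne_zero_of_finite, Subgroup.card_mul_index]
    -- the index of `Kb ⊓ N` in `N` is the index of `Kb`, and `Qb'` lies in the intersection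
    have h5 : Nat.card (Kb.subgroupOf N) * Kb.index = Nat.card N := by
      have h2 : Kb.index = Kb.relIndex N := by
        have htop : N ⊔ Kb = ⊤ := hfr
        rw [← Subgroup.relIndex_top_right, ← htop, Subgroup.relIndex_sup_right]
      rw [h2]
      exact Subgroup.card_mul_index (Kb.subgroupOf N)
    have h6 : Nat.card Qb' ∣ Nat.card (Kb.subgroupOf N) := by
      rw [← Nat.card_congr (Subgroup.subgroupOfEquivOfLe (show Qb' ≤ N from
        Subgroup.le_normalizer)).toEquiv]
      exact Subgroup.card_dvd_of_le (fun x hx => Subgroup.map_subtype_le (Qb : Subgroup Kb) hx)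
    have h7 := (Nat.factorization_le_iff_dvd Nat.card_pos.ne' Nat.card_pos.ne').2 h6 p
    rw [hQc, hp.out.factorization_pow, Finsupp.single_eq_same] at h7
    have h8 : (Nat.card N).factorization p =
        (Nat.card (Kb.subgroupOf N)).factorization p + Kb.index.factorization p := by
      rw [← h5, Nat.factorization_mul Nat.card_pos.ne' Subgroup.index_ne_zero_of_finite,
        Finsupp.add_apply]
    rw [hZi, hKi] at *
    omega
  refine ⟨Pb'.comap π, Qb'.comap π, ?_, Subgroup.comap_mono hQP, ?_, ?_, ?_, ?_, ?_⟩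
  · intro z hz
    rw [Subgroup.mem_comap, show π z = 1 from (QuotientGroup.eq_one_iff z).2 hz]
    exact one_mem _
  · rw [← hKc]
    exact Subgroup.comap_mono (Subgroup.map_subtype_le _)
  · rw [← Subgroup.comap_normalizer_eq_of_surjective _ hπ]
    exact Subgroup.comap_mono hPN
  · rw [← Subgroup.comap_normalizer_eq_of_surjective _ hπ, ← hKc,
      Subgroup.comap_sup_eq π _ _ hπ]
    exact hfr ▸ Subgroup.comap_top π
  · rw [hcard, hPc]
  · rw [hcard, hQc]

theorem complement_exists (Z K : Subgroup H) [Z.Normal] [K.Normal] (hZK : Z ≤ K)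
    (θ : Cfsg.IrrCharacter Z) {e : ℕ} (he : e ^ 2 = Z.index) {χ : H → ℂ}
    (hχ : Cfsg.IsIrrCharacter H χ) (hres : ∀ z : Z, χ z = (e : ℂ) * (θ : Z → ℂ) z)
    {φ : K → ℂ} (hφ : Cfsg.IsCharacter K φ) (hind : Cfsg.indFun K φ = χ) (p : ℕ) [hp : Fact p.Prime] :
    ∃ T : Subgroup (H ⧸ K), T.index = p ^ (Nat.card (H ⧸ K)).factorization p := by
  obtain ⟨P, Q, hZQ, hQP, hQK, hPN, hNK, hPc, hQc⟩ := exists_pq Z K hZK p
  have hZP : Z ≤ P := hZQ.trans hQP
  have hχ' : Cfsg.IsCharacter H χ := isCharacter_of_irr hχ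
  have hoff : ∀ h : H, h ∉ Z → χ h = 0 := fun h hh =>
    Cfsg.Agent.BlkChar.fullyRamified_vanish hχ θ.2 he hres hh
  have he0 : e ≠ 0 := by
    rintro rfl
    exact (Subgroup.index_ne_zero_of_finite (H := Z)) (by rw [← he]; simp)
  have hinv : ∀ (x : H) (z : Z), CharInd.conjChar Z x (θ : Z → ℂ) z = (θ : Z → ℂ) z := by
    intro x z
    have h1 := irr_isClassFunction hχ (z : H) x
    have h2 := hres ⟨x * z * x⁻¹, Subgroup.Normal.conj_mem inferInstance _ z.2 x⟩
    rw [CharInd.conjChar_apply]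
    rw [show χ (x * z * x⁻¹) = (e : ℂ) * (θ : Z → ℂ) z from h1.trans (hres z)] at h2
    exact (mul_left_cancel₀ (Nat.cast_ne_zero.2 he0) h2).symm
  set c := e.factorization p with hc
  have hZfac : Z.index.factorization p = 2 * c := by
    rw [← he, Nat.factorization_pow]; simp [hc]
  rw [hZfac] at hPc hQc
  set a := K.index.factorization p with ha
  -- upper group
  have hP : ∀ ξ : Cfsg.IrrCharacter P, mz θ hZP ξ ≠ 0 → p ^ c ≤ mz θ hZP ξ := by
    intro ξ hξ
    have h := card_dvd hZP hχ' hres hoff ξ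
    rw [hPc, mul_left_comm, Nat.mul_dvd_mul_iff_left Nat.card_pos,
      hp.out.pow_dvd_iff_le_factorization (Nat.mul_ne_zero he0 hξ),
      Nat.factorization_mul he0 hξ, Finsupp.add_apply] at h
    have h1 : c ≤ (mz θ hZP ξ).factorization p := by rw [← hc] at h; omega
    exact Nat.le_of_dvd (Nat.pos_of_ne_zero hξ)
      ((hp.out.pow_dvd_iff_le_factorization hξ).2 h1)
  have hsumP : ∑ ξ : Cfsg.IrrCharacter P, mz θ hZP ξ ^ 2 = p ^ (2 * c) :=
    Nat.eq_of_mul_eq_mul_left Nat.card_pos ((sum_sq hinv hZP).trans hPc)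
  obtain ⟨ξ, hξ⟩ : ∃ ξ : Cfsg.IrrCharacter P, mz θ hZP ξ ≠ 0 := by
    by_contra h
    push Not at h
    simp [h] at hsumP
    exact absurd hsumP.symm (pow_ne_zero _ hp.out.ne_zero)
  have huniq : ∀ ξ' : Cfsg.IrrCharacter P, mz θ hZP ξ' ≠ 0 → ξ' = ξ := by
    intro ξ' hξ'
    by_contra hne
    have h := Finset.add_le_sum (f := fun ξ : Cfsg.IrrCharacter P => mz θ hZP ξ ^ 2)
      (fun i _ => Nat.zero_le _) (Finset.mem_univ ξ') (Finset.mem_univ ξ) hne
    rw [hsumP, pow_mul', ← Nat.pow_mul] at h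
    have h1 := Nat.pow_le_pow_left (hP ξ hξ) 2
    have h2 := Nat.pow_le_pow_left (hP ξ' hξ') 2
    rw [← pow_mul] at h1 h2
    have h3 : 0 < p ^ (c * 2) := pow_pos hp.out.pos _
    omega
  -- the set of characters of `Q` over `θ`
  set Ω : Finset (Cfsg.IrrCharacter Q) := Finset.univ.filter (fun ψ => mz θ hZQ ψ ≠ 0) with hΩ
  have hsumQ : ∑ ψ : Cfsg.IrrCharacter Q, mz θ hZQ ψ ^ 2 = p ^ (2 * c - a) :=
    Nat.eq_of_mul_eq_mul_left Nat.card_pos ((sum_sq hinv hZQ).trans hQc)
  have hconj : ∀ ψ₀ ∈ Ω, ∀ ψ₁ ∈ Ω, ∃ x ∈ P, ∀ q : Q, ∀ hq : x * q * x⁻¹ ∈ Q,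
      (ψ₁ : Q → ℂ) q = (ψ₀ : Q → ℂ) ⟨x * q * x⁻¹, hq⟩ := by
    intro ψ₀ h₀ ψ₁ h₁
    haveI : (Q.subgroupOf P).Normal :=
      Subgroup.normal_subgroupOf_iff_le_normalizer hQP |>.2 hPN
    let ε : Q.subgroupOf P ≃* Q := Subgroup.subgroupOfEquivOfLe hQP
    let L : Cfsg.IrrCharacter Q → (Q.subgroupOf P → ℂ) := fun ψ q => (ψ : Q → ℂ) (ε q)
    have hL : ∀ ψ, Cfsg.IsIrrCharacter (Q.subgroupOf P) (L ψ) := fun ψ =>
      CharInd.irr_comp_surjective ε.toMonoidHom ε.surjective ψ.2
    have hne : ∀ ψ ∈ Ω, Cfsg.classInner (fun q : Q.subgroupOf P => (ξ : P → ℂ) q) (L ψ) ≠ 0 := by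
      intro ψ hψ
      rw [Cfsg.classInner]
      refine mul_ne_zero (inv_ne_zero card_ne_zero_complex) ?_
      have h : ∑ q : Q.subgroupOf P, (ξ : P → ℂ) q * conj (L ψ q) =
          ∑ q : Q, (fun q : Q => (ξ : P → ℂ) (Subgroup.inclusion hQP q)) q *
            conj ((ψ : Q → ℂ) q) :=
        Fintype.sum_equiv ε.toEquiv _ _ fun q => rfl
      rw [h, sum_mul_conj_eq (θ := θ) hZQ (c := (mz θ hZP ξ : ℂ))
        (fun z => res_eq hinv hZP hξ z)
        (fun s hs => vanish hinv hZP hξ huniq (s := Subgroup.inclusion hQP s) hs)]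
      exact mul_ne_zero (Nat.cast_ne_zero.2 hξ) (mul_ne_zero card_ne_zero_complex
        (Nat.cast_ne_zero.2 (Finset.mem_filter.1 hψ).2))
    have hcl := CharInd.clifford (Q.subgroupOf P) ξ.2 (hL ψ₀) (hne ψ₀ h₀)
    have h1 := hne ψ₁ h₁
    rw [hcl, classInner_smul_left, classInner_sum_left] at h1
    obtain ⟨η, hη, hη'⟩ := Finset.exists_ne_zero_of_sum_ne_zero (right_ne_zero_of_mul h1)
    obtain ⟨x, rfl⟩ := (CharInd.mem_conjClass _).1 hη
    have heq : CharInd.conjChar (Q.subgroupOf P) x (L ψ₀) = L ψ₁ := by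
      by_contra hne'
      exact hη' (classInner_irr_ne (CharInd.conjChar_irr _ x (hL ψ₀)) (hL ψ₁) hne')
    refine ⟨x, x.2, fun q hq => ?_⟩
    have h2 := congrFun heq (ε.symm q)
    rw [CharInd.conjChar_apply] at h2
    simp only [L, MulEquiv.apply_symm_apply] at h2
    rw [← h2]
    congr 1
  have hΩm : ∀ ψ₀ ∈ Ω, ∀ ψ₁ ∈ Ω, mz θ hZQ ψ₀ = mz θ hZQ ψ₁ := by
    intro ψ₀ h₀ ψ₁ h₁
    obtain ⟨x, -, hx⟩ := hconj ψ₀ h₀ ψ₁ h₁
    obtain ⟨t, ht0, ht⟩ := irr_one_pos θ.2
    have e₀ := res_eq hinv hZQ (Finset.mem_filter.1 h₀).2 1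
    have e₁ := res_eq hinv hZQ (Finset.mem_filter.1 h₁).2 1
    rw [map_one] at e₀ e₁
    have hx1 := hx 1 (by simp)
    have e2 : (⟨x * ((1 : Q) : H) * x⁻¹, (by simp)⟩ : Q) = 1 := Subtype.ext (by simp)
    rw [e2, e₀, e₁, ht] at hx1
    exact_mod_cast (mul_right_cancel₀ (Nat.cast_ne_zero.2 ht0.ne') hx1).symm
  -- a constituent of `φ`
  obtain ⟨t, ht0, ht⟩ := irr_one_pos θ.2
  have hφQ : Cfsg.IsCharacter Q (fun q : Q => φ (Subgroup.inclusion hQK q)) :=
    CharInd.isCharacter_comp _ hφ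
  obtain ⟨b, hb, hb'⟩ := isCharacter_exists_coeff hφQ
  have hbΩ : ∀ ψ : Cfsg.IrrCharacter Q, b ψ ≠ 0 → ψ ∈ Ω := by
    intro ψ hψ
    rw [hΩ, Finset.mem_filter]
    refine ⟨Finset.mem_univ _, fun h0 => hψ ?_⟩
    have hz : ∑ q : Q, χ q * conj ((ψ : Q → ℂ) q) = 0 := by
      rw [sum_mul_conj_eq (θ := θ) hZQ (g := fun q : Q => χ q) (fun z => hres z)
        (fun q hq => hoff q hq), h0]
      simp
    let f : H → Q →* K := fun x =>
      (MulAut.conjNormal x : MulAut K).toMonoidHom.comp (Subgroup.inclusion hQK)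
    choose w hw using fun x : H =>
      isCharacter_classInner_nat (CharInd.isCharacter_comp (f x) hφ) ψ
    have hsum : ((∑ x : H, w x : ℕ) : ℂ) = 0 := by
      rw [Nat.cast_sum]
      simp only [← hw, Cfsg.classInner]
      rw [← Finset.mul_sum, Finset.sum_comm]
      have hq : ∀ q : Q, ∑ x : H, φ (f x q) * conj ((ψ : Q → ℂ) q) =
          (Nat.card K : ℂ) * (χ q * conj ((ψ : Q → ℂ) q)) := by
        intro q
        rw [← Finset.sum_mul, ← mul_assoc]
        congr 1
        rw [← hind]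
        show _ = (Nat.card K : ℂ) * Cfsg.indFun K φ ((Subgroup.inclusion hQK q : K) : H)
        rw [CharInd.indFun_normal_mem, mul_inv_cancel_left₀ card_ne_zero_complex]
        exact Finset.sum_congr rfl fun x _ => congrArg φ (Subtype.ext rfl)
      simp only [hq, ← Finset.mul_sum, hz, mul_zero]
    have h1 : w 1 = 0 := Finset.sum_eq_zero_iff.1 (by exact_mod_cast hsum) 1 (Finset.mem_univ _)
    have h2 := hw 1
    rw [h1, show (fun q : Q => φ (f 1 q)) = fun q : Q => φ (Subgroup.inclusion hQK q) from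
      funext fun q => congrArg φ (by simp [f]), hb' ψ] at h2
    exact_mod_cast h2
  have hdeg : K.index * φ 1 = (e : ℂ) * t := by
    rw [← CharInd.indFun_one_apply, hind, ← ht]
    exact hres 1
  obtain ⟨ψ₀, hψ₀⟩ : ∃ ψ, b ψ ≠ 0 := by
    by_contra h
    push Not at h
    have h1 := congrFun hb 1
    simp [h] at h1
    rw [h1, mul_zero] at hdeg
    exact mul_ne_zero (Nat.cast_ne_zero.2 he0) (Nat.cast_ne_zero.2 ht0.ne') hdeg.symm
  have h0Ω := hbΩ ψ₀ hψ₀
  set f := mz θ hZQ ψ₀ with hf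
  have hf0 : f ≠ 0 := (Finset.mem_filter.1 h0Ω).2
  have hdiv : K.index * f ∣ e := by
    have h1 := congrFun hb 1
    simp only [map_one, Finset.sum_apply, nsmul_eq_mul, Pi.mul_apply, Pi.natCast_apply] at h1
    have hv : ∀ ψ : Cfsg.IrrCharacter Q, (b ψ : ℂ) * (ψ : Q → ℂ) 1 = (b ψ : ℂ) * (f * t) := by
      intro ψ
      by_cases hψ : b ψ = 0
      · simp [hψ]
      · have := res_eq hinv hZQ (Finset.mem_filter.1 (hbΩ ψ hψ)).2 1
        rw [map_one, ht] at this
        rw [this, hΩm ψ (hbΩ ψ hψ) ψ₀ h0Ω, hf]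
    simp only [hv, ← Finset.sum_mul] at h1
    rw [h1] at hdeg
    refine ⟨∑ ψ, b ψ, ?_⟩
    have h2 : (e : ℂ) * t = ((K.index * f * ∑ ψ, b ψ : ℕ) : ℂ) * t := by
      rw [← hdeg]; push_cast; ring
    exact_mod_cast mul_right_cancel₀ (Nat.cast_ne_zero.2 ht0.ne') h2
  have hcard : Ω.card * f ^ 2 = p ^ (2 * c - a) := by
    rw [← hsumQ, ← Finset.sum_filter_add_sum_filter_not Finset.univ (fun ψ => mz θ hZQ ψ ≠ 0),
      ← hΩ, Finset.sum_congr rfl (fun ψ hψ => by rw [hΩm ψ hψ ψ₀ h0Ω] :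
        ∀ ψ ∈ Ω, mz θ hZQ ψ ^ 2 = f ^ 2), Finset.sum_const, smul_eq_mul,
      Finset.sum_eq_zero (s := Finset.univ.filter _) (fun ψ hψ => by
        simp only [Finset.mem_filter, not_not] at hψ; simp [hψ.2]), add_zero]
  have hΩcard : Ω.card = p ^ a := by
    obtain ⟨k, hk, hk'⟩ := (Nat.dvd_prime_pow hp.out).1 (Dvd.intro_left (Ω.card * f) (by
      rw [← hcard]; ring : Ω.card * f * f = p ^ (2 * c - a)))
    obtain ⟨l, hl, hl'⟩ := (Nat.dvd_prime_pow hp.out).1 (Dvd.intro (f ^ 2) hcard)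
    rw [hl', hk', ← pow_mul, ← pow_add] at hcard
    have h2 := Nat.pow_right_injective hp.out.two_le hcard
    have h3 := (Nat.factorization_le_iff_dvd (Nat.mul_ne_zero Subgroup.index_ne_zero_of_finite hf0)
      he0).2 hdiv p
    rw [Nat.factorization_mul Subgroup.index_ne_zero_of_finite hf0, Finsupp.add_apply, ← ha,
      ← hc, hk', hp.out.factorization_pow, Finsupp.single_eq_same] at h3
    have h4 := card_dvd hZQ hχ' hres hoff ψ₀
    rw [hQc, mul_left_comm, Nat.mul_dvd_mul_iff_left Nat.card_pos,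
      hp.out.pow_dvd_iff_le_factorization (Nat.mul_ne_zero he0 hf0),
      Nat.factorization_mul he0 hf0, Finsupp.add_apply, ← hc, hk',
      hp.out.factorization_pow, Finsupp.single_eq_same] at h4
    rw [hl']
    congr 1
    omega
  -- the action of the normalizer
  set N := Subgroup.normalizer (Q : Set H) with hN
  have hmem : ∀ (x : N) (q : Q), (x : H)⁻¹ * q * x ∈ Q := fun x q =>
    (Subgroup.mem_normalizer_iff''.1 x.2 _).1 q.2
  letI : MulAction N (Q → ℂ) :=
    { smul := fun x g q => g ⟨_, hmem x q⟩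
      one_smul := fun g => funext fun q => congrArg g (Subtype.ext (by simp))
      mul_smul := fun x y g => funext fun q => congrArg g (Subtype.ext (by simp [mul_assoc])) }
  have hsmul : ∀ (x : N) (g : Q → ℂ) (q : Q), (x • g) q = g ⟨_, hmem x q⟩ := fun _ _ _ => rfl
  have horb : MulAction.orbit N ((ψ₀ : Cfsg.IrrCharacter Q) : Q → ℂ) =
      ↑(Ω.image (fun ψ : Cfsg.IrrCharacter Q => (ψ : Q → ℂ))) := by
    ext g
    rw [MulAction.mem_orbit_iff, Finset.coe_image, Set.mem_image]
    constructor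
    · rintro ⟨x, rfl⟩
      let γ : Q →* Q := MonoidHom.mk' (fun q => ⟨_, hmem x q⟩)
        (fun q r => Subtype.ext (by simp [mul_assoc]))
      have hγ : Function.Surjective γ := fun q => by
        refine ⟨⟨(x : H) * q * (x : H)⁻¹, (Subgroup.mem_normalizer_iff.1 x.2 _).1 q.2⟩,
          Subtype.ext ?_⟩
        simp [γ, mul_assoc]
      refine ⟨⟨_, CharInd.irr_comp_surjective γ hγ ψ₀.2⟩, ?_, rfl⟩
      rw [Finset.mem_coe, hΩ, Finset.mem_filter]
      refine ⟨Finset.mem_univ _, ?_⟩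
      have h := mz_spec θ hZQ ⟨_, CharInd.irr_comp_surjective γ hγ ψ₀.2⟩
      intro h0
      rw [h0] at h
      have h' : Cfsg.classInner (fun z : Z => (f : ℂ) * (θ : Z → ℂ) z) (θ : Z → ℂ) = 0 := by
        rw [← Nat.cast_zero, ← h]
        congr 1
        funext z
        show _ = (ψ₀ : Q → ℂ) (γ (Subgroup.inclusion hZQ z))
        rw [hf, ← hinv ((x : H)⁻¹) z, CharInd.conjChar_apply, ← res_eq hinv hZQ hf0]
        refine congrArg _ (Subtype.ext ?_)
        simp [γ]
      rw [show (fun z : Z => (f : ℂ) * (θ : Z → ℂ) z) = (f : ℂ) • (θ : Z → ℂ) from rfl,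
        classInner_smul_left, classInner_irr_self θ.2, mul_one] at h'
      exact hf0 (by exact_mod_cast h')
    · rintro ⟨ψ, hψ, rfl⟩
      obtain ⟨x, hxP, hx⟩ := hconj ψ₀ h0Ω ψ hψ
      refine ⟨⟨x⁻¹, inv_mem (hPN hxP)⟩, funext fun q => ?_⟩
      rw [hsmul]
      refine (congrArg _ (Subtype.ext ?_)).trans (hx q ((Subgroup.mem_normalizer_iff.1 (hPN hxP) _).1 q.2)).symm
      simp
  set T := MulAction.stabilizer N ((ψ₀ : Cfsg.IrrCharacter Q) : Q → ℂ) with hT
  have hTi : T.index = p ^ a := by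
    rw [hT, MulAction.index_stabilizer, horb, Set.ncard_coe_finset,
      Finset.card_image_of_injective _ Subtype.val_injective, hΩcard]
  have hQT : Q.subgroupOf N ≤ T := by
    intro x hx
    rw [hT, MulAction.mem_stabilizer_iff]
    funext q
    rw [hsmul]
    refine Eq.trans ?_ (irr_isClassFunction ψ₀.2 q ⟨(x : H)⁻¹, inv_mem hx⟩)
    refine congrArg _ (Subtype.ext ?_)
    simp
  set M := K.subgroupOf N with hM
  have hQM : Q.subgroupOf N ≤ M := fun x hx => hQK hx
  have hrel : T.relIndex M = 1 := by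
    have h1 : T.relIndex M ∣ p ^ a := by
      rw [← hTi]
      have e1 : T.relIndex M * M.index = M.relIndex T * T.index := by
        rw [← Subgroup.inf_relIndex_right T M, ← Subgroup.inf_relIndex_left T M,
          Subgroup.relIndex_mul_index inf_le_right, Subgroup.relIndex_mul_index inf_le_left]
      obtain ⟨j, hj⟩ := Subgroup.relIndex_dvd_index_of_normal M T
      rw [hj, mul_left_comm] at e1
      exact Dvd.intro j (Nat.eq_of_mul_eq_mul_left
        (Nat.pos_of_ne_zero Subgroup.index_ne_zero_of_finite) e1)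
    have h2 : T.relIndex M ∣ (Q.subgroupOf N).relIndex M := Subgroup.relIndex_dvd_of_le_left M hQT
    have h3 : (Q.subgroupOf N).relIndex M ∣ Q.relIndex K := by
      rw [hM]
      have e : (Q.subgroupOf N).relIndex (K.subgroupOf N) = Q.relIndex (K ⊓ N) := by
        rw [← Subgroup.relIndex_map_map_of_injective _ _ N.subtype_injective,
          Subgroup.subgroupOf_map_subtype, Subgroup.subgroupOf_map_subtype,
          inf_eq_left.2 (show Q ≤ N from Subgroup.le_normalizer)]
      rw [e]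
      exact Dvd.intro _ (Subgroup.relIndex_mul_relIndex Q (K ⊓ N) K
        (le_inf hQK Subgroup.le_normalizer) inf_le_left)
    obtain ⟨k, -, hk⟩ := (Nat.dvd_prime_pow hp.out).1 h1
    rcases k with _ | k
    · simpa using hk
    exfalso
    have hpd : p ∣ Q.relIndex K := ((dvd_pow_self p k.succ_ne_zero).trans (hk ▸ dvd_rfl)).trans
      (h2.trans h3)
    have h4 : Nat.card Q * Q.relIndex K = Nat.card K := by
      rw [Subgroup.relIndex, ← Subgroup.card_mul_index (Q.subgroupOf K),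
        Nat.card_congr (Subgroup.subgroupOfEquivOfLe hQK).toEquiv]
    have h5 : Nat.card Z * Z.index = Nat.card K * K.index := by
      rw [Subgroup.card_mul_index, Subgroup.card_mul_index]
    rw [← h4, hQc, mul_assoc, mul_assoc, Nat.mul_left_cancel_iff Nat.card_pos] at h5
    have hne : Q.relIndex K ≠ 0 := Subgroup.index_ne_zero_of_finite
    have h6 := congrArg (fun n => n.factorization p) h5
    simp only [Nat.factorization_mul (pow_ne_zero _ hp.out.ne_zero)
        (Nat.mul_ne_zero hne Subgroup.index_ne_zero_of_finite),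
      Nat.factorization_mul hne Subgroup.index_ne_zero_of_finite, Finsupp.add_apply,
      hp.out.factorization_pow, Finsupp.single_eq_same, hZfac, ← ha] at h6
    have h7 := hp.out.factorization_pos_of_dvd hne hpd
    omega
  let π : N →* H ⧸ K := (QuotientGroup.mk' K).comp N.subtype
  have hπ : Function.Surjective π := by
    rw [← MonoidHom.range_eq_top, show π.range = N.map (QuotientGroup.mk' K) by
      rw [MonoidHom.range_comp, Subgroup.range_subtype]]
    rw [← Subgroup.map_top_of_surjective (QuotientGroup.mk' K) (QuotientGroup.mk'_surjective K),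
      ← hNK, Subgroup.map_sup, QuotientGroup.map_mk'_self, sup_bot_eq]
  have hker : π.ker ≤ T := fun x hx => Subgroup.relIndex_eq_one.1 hrel
    ((QuotientGroup.eq_one_iff _).1 hx : (x : H) ∈ K)
  refine ⟨T.map π, ?_⟩
  rw [Subgroup.index_map_eq _ hπ hker, hTi, ← Subgroup.index_eq_card]


/-- Let χ be an irreducible character of the finite group H that is fully ramified over the normal subgroup Z: the restriction of χ to Z is e times an irreducible character of Z with e ^ 2 equal to the index of Z. If K is a proper normal subgroup of H containing Z and χ is induced from a character of K, then H/K is solvable; in particular, if K is solvable then so is H. -/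
theorem result {H : Type*} [Group H] [Fintype H] (Z : Subgroup H) [Z.Normal] (χ : Cfsg.IrrCharacter H) (hfr : ∃ (θ : Cfsg.IrrCharacter ↥Z) (e : ℕ), e ^ 2 = Z.index ∧ ∀ z : ↥Z, (χ : H → ℂ) z = (e : ℂ) * (θ : ↥Z → ℂ) z) (K : Subgroup H) [K.Normal] [Fintype K] (hZK : Z ≤ K) (hK : K ≠ ⊤) (φ : ↥K → ℂ) (hφ : Cfsg.IsCharacter ↥K φ) (hind : Cfsg.indFun K φ = (χ : H → ℂ)) : Group.IsSolvable (H ⧸ K) ∧ (Group.IsSolvable ↥K → Group.IsSolvable H) := by
  obtain ⟨θ, e, he, hres⟩ := hfr
  have hq : Group.IsSolvable (H ⧸ K) := Cfsg.Agent.S0006.result fun p hp => by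
    haveI : Fact p.Prime := ⟨hp⟩
    exact complement_exists Z K hZK θ he χ.2 hres hφ hind p
  refine ⟨hq, fun hs => ?_⟩
  haveI := hq
  haveI := hs
  exact Group.isSolvable_of_ker_le_range K.subtype (QuotientGroup.mk' K)
    (by rw [QuotientGroup.ker_mk', Subgroup.range_subtype])

end Cfsg.Agent.S4563
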