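import Cfsg.Statements.S4565
import Cfsg.Agent.BlkChar.FullyRamified
import Cfsg.Agent.BlocksChar.ClassProd

set_option autoImplicit false
open Cfsg

namespace Cfsg.Agent.S4565

/-- Let χ be an irreducible character of the finite group H that is fully ramified over the normal subgroup Z: the restriction of χ to Z is e times an irreducible character of Z with e ^ 2 equal to the index of Z. If Z ≠ H, then H/Z has no cyclic subgroup that is its own centralizer. -/
theorem result {H : Type*} [Group H] [Finite H] (Z : Subgroup H) [Z.Normal] (χ : Cfsg.IrrCharacter H) (hfr : ∃ (θ : Cfsg.IrrCharacter ↥Z) (e : ℕ), e ^ 2 = Z.index ∧ ∀ z : ↥Z, (χ : H → ℂ) z = (e : ℂ) * (θ : ↥Z → ℂ) z) (hZ : Z ≠ ⊤) (C : Subgroup (H ⧸ Z)) (hC : IsCyclic C) : Subgroup.centralizer (C : Set (H ⧸ Z)) ≠ C := by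
  classical
  intro hcen
  letI := Fintype.ofFinite H
  obtain ⟨θ, e, he, hres⟩ := hfr
  obtain ⟨q₀, hq₀⟩ := hC.exists_generator
  have hzero : ∀ c : H, (c : H ⧸ Z) = q₀ →
      ∑ z : Z, (χ : H → ℂ) (c⁻¹ * ((z : H) * c * (z : H)⁻¹)) = 0 := by
    intro c hc
    have hgen : ∀ q ∈ C, ∃ i : ℤ, (c : H ⧸ Z) ^ i = q := fun q hq => by
      obtain ⟨i, hi⟩ := Subgroup.mem_zpowers_iff.1 (hq₀ ⟨q, hq⟩)
      exact ⟨i, by rw [hc, ← Subgroup.coe_zpow, hi]⟩
    have hcC : (c : H ⧸ Z) ∈ C := hc ▸ q₀.2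
    have hcZ : c ∉ Z := by
      intro hcZ
      rw [← QuotientGroup.eq_one_iff] at hcZ
      apply hZ
      have hCbot : C = ⊥ := (Subgroup.eq_bot_iff_forall _).2 fun q hq => by
        obtain ⟨i, rfl⟩ := hgen q hq
        rw [hcZ, one_zpow]
      refine eq_top_iff.2 fun x _ => (QuotientGroup.eq_one_iff x).1 ?_
      have hx : (x : H ⧸ Z) ∈ C := by
        rw [← hcen, hCbot, Subgroup.mem_centralizer_iff]
        intro q hq
        simp [Subgroup.mem_bot.1 hq]
      rw [hCbot] at hx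
      exact hx
    have hcl := Cfsg.Agent.Char.irr_isClassFunction χ.2
    set F : H → ℂ := fun g => (χ : H → ℂ) (c⁻¹ * (g * c * g⁻¹)) with hF
    have h0 : ∑ g : H, F g = 0 := by
      rw [hF, Cfsg.Agent.BlocksChar.sum_conj_mul χ.2,
        Cfsg.Agent.BlkChar.fullyRamified_vanish χ.2 θ.2 he hres hcZ]
      simp
    have hFpow : ∀ (i : ℤ) (g : H), F (c ^ i * g) = F g := fun i g => by
      simp only [hF]
      conv_rhs => rw [← hcl _ (c ^ i)]
      congr 1
      group
    have hout : ∀ g : H, (g : H ⧸ Z) ∉ C → F g = 0 := fun g hg => by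
      refine Cfsg.Agent.BlkChar.fullyRamified_vanish χ.2 θ.2 he hres fun hmem => hg ?_
      rw [← hcen, Subgroup.mem_centralizer_iff]
      intro q hq
      obtain ⟨i, rfl⟩ := hgen q hq
      rw [← QuotientGroup.eq_one_iff, QuotientGroup.mk_mul, QuotientGroup.mk_inv,
        inv_mul_eq_one, QuotientGroup.mk_mul, QuotientGroup.mk_mul, QuotientGroup.mk_inv,
        eq_mul_inv_iff_mul_eq] at hmem
      exact (Commute.zpow_left hmem i).eq
    have hfib : ∀ q : H ⧸ Z, ∑ g ∈ Finset.univ.filter (fun g : H => (g : H ⧸ Z) = q), F g =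
        if q ∈ C then ∑ z : Z, F z else 0 := by
      intro q
      by_cases hq : q ∈ C
      · rw [if_pos hq]
        obtain ⟨i, rfl⟩ := hgen q hq
        refine (Finset.sum_bij (fun (z : Z) _ => c ^ i * (z : H)) ?_ ?_ ?_ ?_).symm
        · intro z _
          simp [(QuotientGroup.eq_one_iff (z : H)).2 z.2]
        · intro a _ b _ hab
          exact Subtype.ext (mul_left_cancel hab)
        · intro g hg
          simp only [Finset.mem_filter, Finset.mem_univ, true_and] at hg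
          refine ⟨⟨(c ^ i)⁻¹ * g, ?_⟩, Finset.mem_univ _, by simp⟩
          rw [← QuotientGroup.eq_one_iff]
          simp [hg]
        · intro z _
          exact (hFpow i z).symm
      · rw [if_neg hq]
        refine Finset.sum_eq_zero fun g hg => hout g ?_
        simp only [Finset.mem_filter, Finset.mem_univ, true_and] at hg
        rwa [hg]
    letI := Fintype.ofFinite (H ⧸ Z)
    rw [← Finset.sum_fiberwise Finset.univ (fun g : H => (g : H ⧸ Z)), Finset.sum_congr rfl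
      (fun q _ => hfib q), ← Finset.sum_filter, Finset.sum_const, smul_eq_zero] at h0
    have hne : (Finset.univ.filter (· ∈ C)).card ≠ 0 :=
      Finset.card_ne_zero_of_mem (a := (c : H ⧸ Z)) (by simp [hcC])
    have hsum := h0.resolve_left hne
    exact hsum
  have he0 : (e : ℂ) ≠ 0 := by
    intro h1
    rw [Nat.cast_eq_zero.1 h1] at he
    exact Subgroup.index_ne_zero_of_finite (H := Z) (by simpa using he.symm)
  obtain ⟨c, hc⟩ := QuotientGroup.mk_surjective (q₀ : H ⧸ Z)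
  have hcl := Cfsg.Agent.Char.irr_isClassFunction χ.2
  have hzc : ∀ z : Z, c⁻¹ * (z : H) * c ∈ Z := fun z => by
    simpa using Subgroup.Normal.conj_mem (inferInstance : Z.Normal) _ z.2 c⁻¹
  have hinv : ∀ z : Z, (θ : Z → ℂ) ⟨c⁻¹ * (z : H) * c, hzc z⟩ = (θ : Z → ℂ) z := fun z => by
    have h1 := hres ⟨c⁻¹ * (z : H) * c, hzc z⟩
    have h2 := hres z
    have h3 := hcl (z : H) c⁻¹
    rw [inv_inv] at h3
    exact mul_left_cancel₀ he0 (h1.symm.trans (h3.trans h2))
  have htot : ∑ z : Z, ∑ w : Z, (χ : H → ℂ) ((c * (w : H))⁻¹ * ((z : H) * (c * w) * (z : H)⁻¹)) = 0 := by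
    rw [Finset.sum_comm]
    refine Finset.sum_eq_zero fun w _ => hzero _ ?_
    rw [QuotientGroup.mk_mul, (QuotientGroup.eq_one_iff (w : H)).2 w.2, mul_one, hc]
  have hin : ∀ z : Z, ∑ w : Z, (χ : H → ℂ) ((c * (w : H))⁻¹ * ((z : H) * (c * w) * (z : H)⁻¹)) =
      (e : ℂ) * ((Nat.card Z : ℂ) / (θ : Z → ℂ) 1) *
        ((θ : Z → ℂ) z * (starRingEnd ℂ) ((θ : Z → ℂ) z)) := by
    intro z
    have h1 := Cfsg.Agent.BlocksChar.sum_conj_mul θ.2 z⁻¹ (⟨c⁻¹ * (z : H) * c, hzc z⟩ : Z)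
    rw [hinv, Cfsg.Agent.Char.irr_inv θ.2] at h1
    calc _ = ∑ w : Z, (e : ℂ) * (θ : Z → ℂ) (z⁻¹ * (w⁻¹ * ⟨c⁻¹ * (z : H) * c, hzc z⟩ * w⁻¹⁻¹)) := by
          refine Finset.sum_congr rfl fun w _ => ?_
          rw [← hres, Cfsg.Agent.Char.isClassFunction_mul_comm hcl]
          conv_lhs => rw [← hcl _ ((z : H)⁻¹ * w⁻¹ * c⁻¹)]
          congr 1
          push_cast
          group
      _ = _ := by
          rw [← Finset.mul_sum,
            Fintype.sum_equiv (Equiv.inv Z)
              (fun w : Z => (θ : Z → ℂ) (z⁻¹ * (w⁻¹ * ⟨c⁻¹ * (z : H) * c, hzc z⟩ * w⁻¹⁻¹)))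
              (fun g : Z => (θ : Z → ℂ) (z⁻¹ * (g * ⟨c⁻¹ * (z : H) * c, hzc z⟩ * g⁻¹))) (fun w => rfl),
            h1]
          ring
  rw [Finset.sum_congr rfl (fun z _ => hin z), ← Finset.mul_sum, mul_eq_zero] at htot
  have h2 := Cfsg.Agent.Char.classInner_irr_self θ.2
  simp only [Cfsg.classInner] at h2
  rcases htot with h | h
  · rcases mul_eq_zero.1 h with h | h
    · exact he0 h
    · rcases div_eq_zero_iff.1 h with h | h
      · exact Nat.card_pos.ne' (Nat.cast_eq_zero.1 h)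
      · exact Cfsg.Agent.Char.irr_one_ne_zero θ.2 h
  · rw [h, mul_zero] at h2
    exact zero_ne_one h2

end Cfsg.Agent.S4565
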