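import Cfsg.Statements.S4566
import Cfsg.Agent.BlkChar.Scalar

set_option autoImplicit false
open Cfsg

namespace Cfsg.Agent.S4566

/-- Let N be a central subgroup of the finite group G, ψ a faithful irreducible (hence degree-one) character of N, and χ an irreducible character of G whose restriction to N contains ψ. If g ∈ G and some x ∈ G has commutator x⁻¹ g⁻¹ x g in N but different from 1, then χ g = 0. -/
theorem result {G : Type*} [Group G] [Fintype G] (N : Subgroup G) [Fintype N] (hN : N ≤ Subgroup.center G) (ψ : Cfsg.IrrCharacter ↥N) (hfaith : ∀ n : ↥N, (ψ : ↥N → ℂ) n = (ψ : ↥N → ℂ) 1 → n = 1) (χ : Cfsg.IrrCharacter G) (hover : Cfsg.classInner (fun n : ↥N => (χ : G → ℂ) n) (ψ : ↥N → ℂ) ≠ 0) (g x : G) (hcomm : x⁻¹ * g⁻¹ * x * g ∈ N) (hne : x⁻¹ * g⁻¹ * x * g ≠ 1) : (χ : G → ℂ) g = 0 := by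
  classical
  set n : G := x⁻¹ * g⁻¹ * x * g with hn
  obtain ⟨c, hc1, hc⟩ := Cfsg.Agent.BlkChar.irr_mul_center χ.2 (hN hcomm)
  have hg : (χ : G → ℂ) g = c * (χ : G → ℂ) g := by
    have h1 := hc (x⁻¹ * g * x)
    have h2 : x⁻¹ * g * x * n = g := by rw [hn]; group
    have h5 := Cfsg.Agent.Char.irr_isClassFunction χ.2 g x⁻¹
    rw [inv_inv] at h5
    rwa [h2, h5] at h1
  by_contra hne0
  have hc' : c = 1 := (mul_eq_right₀ hne0).1 hg.symm
  apply hover
  set n0 : N := ⟨n, hcomm⟩ with hn0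
  have hn0c : n0 ∈ Subgroup.center N := Subgroup.mem_center_iff.2 fun m =>
    Subtype.ext (Subgroup.mem_center_iff.1 (hN hcomm) m)
  obtain ⟨d, hd1, hd⟩ := Cfsg.Agent.BlkChar.irr_mul_center ψ.2 hn0c
  have hd' : d ≠ 1 := fun h => hne (congrArg Subtype.val (hfaith n0 (by rw [hd1, h, one_mul])))
  set S := ∑ m : N, (χ : G → ℂ) m * (starRingEnd ℂ) ((ψ : N → ℂ) m) with hS
  have hS' : S = (starRingEnd ℂ) d * S := by
    conv_lhs => rw [hS, ← Equiv.sum_comp (Equiv.mulRight n0)]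
    rw [hS, Finset.mul_sum]
    refine Finset.sum_congr rfl fun m _ => ?_
    rw [Equiv.coe_mulRight, hd, Subgroup.coe_mul, hn0, hc, hc', one_mul, map_mul]
    ring
  have hS0 : S = 0 := by
    by_contra h0
    have h6 := congrArg (starRingEnd ℂ) ((mul_eq_right₀ h0).1 hS'.symm)
    rw [Complex.conj_conj, map_one] at h6
    exact hd' h6
  simp only [Cfsg.classInner]
  rw [← hS, hS0, mul_zero]

end Cfsg.Agent.S4566
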