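import Cfsg.Statements.S4567
import Cfsg.Agent.BlkChar.Scalar
import Cfsg.Agent.Char.Orthogonality
import Cfsg.Agent.Char.Linear

set_option autoImplicit false
open Cfsg

namespace Cfsg.Agent.S4567

open Cfsg Cfsg.Agent.Char
open scoped ComplexConjugate

set_option maxHeartbeats 600000

theorem exists_delta {G : Type*} [Group G] [Fintype G] (N : Subgroup G) [Fintype N]
    (hN' : ∀ (g : G) (z : N), g * (z : G) = z * g) (l : N →* ℂˣ) (r : G)
    (hr : ∀ x : G, x⁻¹ * r⁻¹ * x * r ∈ N → x * r = r * x) :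
    ∃ f : G → ℂ, IsClassFunction G f ∧ (∀ (g : G) (z : N), f (g * z) = (l z : ℂ) * f g) ∧
      f r = 1 ∧ ∀ g, f g ≠ 0 → ∃ (x : G) (z : N), x * r * x⁻¹ * z = g := by
  classical
  let F : G → G → ℂ := fun g x => ∑ z : N, if x * r * x⁻¹ * z = g then (l z : ℂ) else 0
  have hFy : ∀ g y x : G, F (y * g * y⁻¹) x = F g (y⁻¹ * x) := by
    intro g y x
    refine Finset.sum_congr rfl fun z _ => ?_
    have e : x * r * x⁻¹ * z = y * g * y⁻¹ ↔ (y⁻¹ * x) * r * (y⁻¹ * x)⁻¹ * z = g := by
      have e' : (y⁻¹ * x) * r * (y⁻¹ * x)⁻¹ * z = y⁻¹ * (x * r * x⁻¹) * ((y : G) * z) := by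
        group
      rw [e', hN' y z]
      constructor
      · intro h
        calc y⁻¹ * (x * r * x⁻¹) * ((z : G) * y) = y⁻¹ * (x * r * x⁻¹ * z) * y := by group
          _ = g := by rw [h]; group
      · intro h
        rw [← h]; group
    exact if_congr e rfl rfl
  have hFz : ∀ (g x : G) (w : N), F (g * w) x = (l w : ℂ) * F g x := by
    intro g x w
    show (∑ z : N, _) = _ * ∑ z : N, _
    rw [Finset.mul_sum]
    refine (Fintype.sum_equiv (Equiv.mulRight w) _ _ fun z => ?_).symm
    have e : x * r * x⁻¹ * z = g ↔ x * r * x⁻¹ * ((z * w : N) : G) = g * w := by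
      rw [Subgroup.coe_mul, ← mul_assoc]
      exact (mul_left_inj (w : G)).symm
    simp only [Equiv.coe_mulRight]
    by_cases h : x * r * x⁻¹ * z = g
    · refine Eq.trans ?_ (if_pos (e.1 h)).symm
      rw [if_pos h, map_mul, Units.val_mul]; ring
    · refine Eq.trans ?_ (if_neg (fun h' => h (e.2 h'))).symm
      rw [if_neg h]; ring
  have hin : ∀ x : G, F r x = if x ∈ Subgroup.centralizer ({r} : Set G) then 1 else 0 := by
    intro x
    show (∑ z : N, _) = _
    by_cases hx : x ∈ Subgroup.centralizer ({r} : Set G)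
    · rw [if_pos hx]
      have hx' := Subgroup.mem_centralizer_singleton_iff.1 hx
      rw [Finset.sum_eq_single 1]
      · simp [hx']
      · intro z _ hz
        rw [if_neg]
        intro h
        apply hz
        rw [hx', mul_inv_cancel_right] at h
        exact Subtype.ext (mul_eq_left.1 h)
      · simp
    · rw [if_neg hx]
      refine Finset.sum_eq_zero fun z _ => if_neg fun h => hx ?_
      rw [Subgroup.mem_centralizer_singleton_iff]
      refine hr x ?_
      have e : r * x * (z : G)⁻¹ = x * r := by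
        calc r * x * (z : G)⁻¹ = (x * r * x⁻¹ * z) * x * (z : G)⁻¹ := by rw [h]
          _ = x * r * x⁻¹ * ((z : G) * x) * (z : G)⁻¹ := by group
          _ = _ := by rw [← hN' x z]; group
      have e2 : x⁻¹ * r⁻¹ * x * r = (z : G)⁻¹ := by
        calc x⁻¹ * r⁻¹ * x * r = x⁻¹ * r⁻¹ * (x * r) := by group
          _ = _ := by rw [← e]; group
      rw [e2]
      exact N.inv_mem z.2
  refine ⟨fun g => (Nat.card (Subgroup.centralizer ({r} : Set G)) : ℂ)⁻¹ * ∑ x : G, F g x,
    fun g y => ?_, fun g w => ?_, ?_, fun g hg => ?_⟩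
  · show _ * _ = _ * _
    simp only [hFy]
    congr 1
    exact Fintype.sum_equiv (Equiv.mulLeft y⁻¹) _ _ fun x => rfl
  · show _ * _ = _ * (_ * _)
    simp only [hFz, ← Finset.mul_sum]
    ring
  · show _ * _ = _
    simp only [hin, Finset.sum_boole]
    have hcnt : (Finset.univ.filter (fun x => x ∈ Subgroup.centralizer ({r} : Set G))).card =
        Nat.card (Subgroup.centralizer ({r} : Set G)) := by
      rw [Nat.card_eq_fintype_card, Fintype.card_subtype]
    rw [hcnt, inv_mul_cancel₀ (Nat.cast_ne_zero.2 Nat.card_pos.ne')]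
  · obtain ⟨x, -, hx⟩ := Finset.exists_ne_zero_of_sum_ne_zero (right_ne_zero_of_mul hg)
    obtain ⟨z, -, hz⟩ := Finset.exists_ne_zero_of_sum_ne_zero hx
    exact ⟨x, z, by by_contra h; exact hz (if_neg h)⟩

theorem card_eq {G : Type*} [Group G] [Fintype G] (N : Subgroup G) [N.Normal] [Fintype N]
    (hN : N ≤ Subgroup.center G) (l : N →* ℂˣ) (hfaith : ∀ n : N, l n = 1 → n = 1)
    (ψ : IrrCharacter ↥N) (hl : ∀ n, (ψ : N → ℂ) n = (l n : ℂ)) :
    Nat.card {χ : IrrCharacter G // classInner (fun n : ↥N => (χ : G → ℂ) n) (ψ : ↥N → ℂ) ≠ 0} =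
    Nat.card {C : ConjClasses (G ⧸ N) // ∃ g : G, ConjClasses.mk (g : G ⧸ N) = C ∧
      ∀ x : G, x⁻¹ * g⁻¹ * x * g ∈ N → x * g = g * x} := by
  classical
  have hN' : ∀ (g : G) (z : N), g * (z : G) = z * g := fun g z =>
    Subgroup.mem_center_iff.1 (hN z.2) g
  have hlz : ∀ z : N, (l z : ℂ) * conj (l z : ℂ) = 1 := fun z => by
    have hn : ‖(l z : ℂ)‖ = 1 := Complex.norm_eq_one_of_pow_eq_one (n := orderOf z)
      (by rw [← Units.val_pow_eq_pow_val, ← map_pow, pow_orderOf_eq_one, map_one, Units.val_one])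
      (orderOf_pos z).ne'
    rw [Complex.mul_conj', hn]; simp
  -- the scalar of a character lying over `l`
  have hover : ∀ χ : IrrCharacter G, classInner (fun n : ↥N => (χ : G → ℂ) n) (ψ : ↥N → ℂ) ≠ 0 →
      ∀ (g : G) (z : N), (χ : G → ℂ) (g * z) = (l z : ℂ) * (χ : G → ℂ) g := by
    intro χ hχ g z
    obtain ⟨c, -, hc⟩ := Cfsg.Agent.BlkChar.irr_mul_center χ.2 (hN z.2)
    suffices c = (l z : ℂ) by rw [hc, this]
    set S := ∑ n : N, (χ : G → ℂ) n * conj ((ψ : N → ℂ) n) with hS
    have hS' : S = c * conj (l z : ℂ) * S := by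
      conv_lhs => rw [hS, ← Equiv.sum_comp (Equiv.mulRight z)]
      rw [hS, Finset.mul_sum]
      refine Finset.sum_congr rfl fun n _ => ?_
      rw [Equiv.coe_mulRight, Subgroup.coe_mul, hc, hl, hl, map_mul, Units.val_mul, map_mul]
      ring
    have hS0 : S ≠ 0 := fun h => hχ (by rw [classInner, ← hS, h, mul_zero])
    have h1 := (mul_eq_right₀ hS0).1 hS'.symm
    linear_combination (l z : ℂ) * h1 - c * hlz z
  -- the class functions transforming by `l`
  have hcoef : ∀ f : G → ℂ, (∀ (g : G) (z : N), f (g * z) = (l z : ℂ) * f g) →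
      ∀ χ : IrrCharacter G, classInner f (χ : G → ℂ) ≠ 0 →
        classInner (fun n : ↥N => (χ : G → ℂ) n) (ψ : ↥N → ℂ) ≠ 0 := by
    intro f hf χ hne h0
    apply hne
    set S := ∑ g : G, f g * conj ((χ : G → ℂ) g) with hS
    have hS' : ∀ z : N, (Classical.choose (Cfsg.Agent.BlkChar.irr_mul_center χ.2 (hN z.2))) =
        (l z : ℂ) ∨ S = 0 := by
      intro z
      set c := Classical.choose (Cfsg.Agent.BlkChar.irr_mul_center χ.2 (hN z.2))
      have hc := (Classical.choose_spec (Cfsg.Agent.BlkChar.irr_mul_center χ.2 (hN z.2))).2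
      have h1 : S = (l z : ℂ) * conj c * S := by
        conv_lhs => rw [hS, ← Equiv.sum_comp (Equiv.mulRight (z : G))]
        rw [hS, Finset.mul_sum]
        refine Finset.sum_congr rfl fun g _ => ?_
        rw [Equiv.coe_mulRight, hf, hc, map_mul]
        ring
      by_cases hS0 : S = 0
      · exact Or.inr hS0
      · left
        have h2 := congrArg conj ((mul_eq_right₀ hS0).1 h1.symm)
        rw [map_mul, Complex.conj_conj, map_one] at h2
        linear_combination (l z : ℂ) * h2 - c * hlz z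
    by_contra hS0
    have hS0' : S ≠ 0 := fun h => hS0 (by rw [classInner, ← hS, h, mul_zero])
    have hall : ∀ z : N, (χ : G → ℂ) z = (l z : ℂ) * (χ : G → ℂ) 1 := fun z => by
      have := (Classical.choose_spec (Cfsg.Agent.BlkChar.irr_mul_center χ.2 (hN z.2))).1
      rw [(hS' z).resolve_right hS0'] at this
      exact this
    rw [classInner] at h0
    have : ∑ n : N, (χ : G → ℂ) n * conj ((ψ : N → ℂ) n) = (Nat.card N : ℂ) * (χ : G → ℂ) 1 := by
      simp only [hl, hall, mul_right_comm _ ((χ : G → ℂ) 1), hlz, one_mul, Finset.sum_const,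
        Finset.card_univ, nsmul_eq_mul, Nat.card_eq_fintype_card]
    rw [this, inv_mul_cancel_left₀ card_ne_zero_complex] at h0
    exact irr_one_ne_zero χ.2 h0
  -- representatives
  let r : ConjClasses (G ⧸ N) → G := fun C => C.out.out
  have hr : ∀ C, ConjClasses.mk ((r C : G) : G ⧸ N) = C := fun C => by
    show ConjClasses.mk ((C.out.out : G) : G ⧸ N) = C
    refine (congrArg ConjClasses.mk (QuotientGroup.out_eq' _)).trans ?_
    exact Quotient.out_eq C
  let Sp : G → Prop := fun g => ∀ x : G, x⁻¹ * g⁻¹ * x * g ∈ N → x * g = g * x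
  -- every element is, up to conjugation, a representative times an element of `N`
  have hrep : ∀ g : G, ∃ (x : G) (z : N), g = x * r (ConjClasses.mk (g : G ⧸ N)) * x⁻¹ * z := by
    intro g
    obtain ⟨q, hq⟩ := isConj_iff.1 (ConjClasses.mk_eq_mk_iff_isConj.1 (hr (ConjClasses.mk (g : G ⧸ N))))
    obtain ⟨x, rfl⟩ := QuotientGroup.mk_surjective q
    rw [← QuotientGroup.mk_mul, ← QuotientGroup.mk_inv, ← QuotientGroup.mk_mul, QuotientGroup.eq] at hq
    exact ⟨x, ⟨_, hq⟩, by simp [mul_assoc]⟩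
  have hSp_conj : ∀ (g x : G) (z : N), Sp g → Sp (x * g * x⁻¹ * z) := by
    intro g x z hg y hy
    have e1 : (x⁻¹ * y * x)⁻¹ * g⁻¹ * (x⁻¹ * y * x) * g = x⁻¹ * (y⁻¹ * (x * g⁻¹ * x⁻¹) * y * (x * g * x⁻¹)) * x := by
      group
    have e2 : y⁻¹ * (x * g * x⁻¹ * z)⁻¹ * y * (x * g * x⁻¹ * z) = y⁻¹ * (x * g⁻¹ * x⁻¹) * y * (x * g * x⁻¹) := by
      rw [hN' (x * g * x⁻¹) z, mul_inv_rev]
      have hc := hN' y ⟨(z : G)⁻¹, N.inv_mem z.2⟩
      simp only at hc
      calc y⁻¹ * ((x * g * x⁻¹)⁻¹ * (z : G)⁻¹) * y * ((z : G) * (x * g * x⁻¹))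
          = y⁻¹ * (x * g * x⁻¹)⁻¹ * ((z : G)⁻¹ * y) * (z : G) * (x * g * x⁻¹) := by group
        _ = _ := by rw [← hc]; group
    have h := hg (x⁻¹ * y * x) (by
      rw [e1]
      have := Subgroup.Normal.conj_mem (inferInstance : N.Normal) _ (e2 ▸ hy) x⁻¹
      simpa using this)
    calc y * (x * g * x⁻¹ * z) = x * ((x⁻¹ * y * x) * g) * x⁻¹ * z := by group
      _ = (x * g * x⁻¹) * (y * z) := by rw [h]; group
      _ = _ := by rw [hN' y z]; group
  have hSpec : ∀ C : ConjClasses (G ⧸ N), (∃ g : G, ConjClasses.mk (g : G ⧸ N) = C ∧ Sp g) ↔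
      Sp (r C) := by
    intro C
    constructor
    · rintro ⟨g, rfl, hg⟩
      obtain ⟨x, z, hz⟩ := hrep g
      have h := hSp_conj g x⁻¹ ⟨x⁻¹ * (z : G)⁻¹ * x, by
        simpa using Subgroup.Normal.conj_mem (inferInstance : N.Normal) _ (N.inv_mem z.2) x⁻¹⟩ hg
      have e : x⁻¹ * g * x⁻¹⁻¹ * (x⁻¹ * (z : G)⁻¹ * x) = r (ConjClasses.mk (g : G ⧸ N)) := by
        conv_lhs => rw [hz]
        group
      exact e ▸ h
    · exact fun h => ⟨r C, hr C, h⟩
  rw [Nat.card_congr (Equiv.subtypeEquivRight hSpec)]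
  let Φ : ({χ : IrrCharacter G // classInner (fun n : ↥N => (χ : G → ℂ) n) (ψ : ↥N → ℂ) ≠ 0} → ℂ)
      →ₗ[ℂ] ({C : ConjClasses (G ⧸ N) // Sp (r C)} → ℂ) :=
    { toFun := fun c C => ∑ χ, c χ * (χ.1 : G → ℂ) (r C.1)
      map_add' := fun a b => funext fun C => by simp [add_mul, Finset.sum_add_distrib]
      map_smul' := fun a b => funext fun C => by simp [Finset.mul_sum, mul_assoc] }
  have hinj : Function.Injective Φ := by
    rw [← LinearMap.ker_eq_bot, Submodule.eq_bot_iff]
    intro c hc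
    set f : G → ℂ := ∑ χ, c χ • (χ.1 : G → ℂ) with hf
    have hfv : ∀ g, f g = ∑ χ, c χ * (χ.1 : G → ℂ) g := fun g => by simp [hf]
    have hft : ∀ (g : G) (z : N), f (g * z) = (l z : ℂ) * f g := fun g z => by
      simp only [hfv, Finset.mul_sum]
      exact Finset.sum_congr rfl fun χ _ => by rw [hover χ.1 χ.2]; ring
    have hfc : ∀ g x : G, f (x * g * x⁻¹) = f g := fun g x => by
      simp only [hfv]
      exact Finset.sum_congr rfl fun χ _ => by rw [irr_isClassFunction χ.1.2 g x]
    have hrz : ∀ C, f (r C) = 0 := by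
      intro C
      by_cases hC : Sp (r C)
      · rw [hfv]; exact congrFun hc ⟨C, hC⟩
      · simp only [Sp, not_forall] at hC
        obtain ⟨x, hx, hne⟩ := hC
        have h1 := hft (x⁻¹ * r C * x) ⟨_, hx⟩
        rw [show x⁻¹ * r C * x * (x⁻¹ * (r C)⁻¹ * x * r C) = r C by group] at h1
        have h2 := hfc (r C) x⁻¹
        rw [inv_inv] at h2
        rw [h2] at h1
        by_contra h0
        have h3 : l (⟨_, hx⟩ : N) = 1 := Units.ext ((mul_eq_right₀ h0).1 h1.symm)
        have h4 : x⁻¹ * (r C)⁻¹ * x * r C = 1 := congrArg Subtype.val (hfaith _ h3)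
        apply hne
        calc x * r C = (r C) * x * (x⁻¹ * (r C)⁻¹ * x * r C) := by group
          _ = _ := by rw [h4, mul_one]
    have hf0 : ∀ g, f g = 0 := fun g => by
      obtain ⟨x, z, hz⟩ := hrep g
      rw [hz, hft, hfc, hrz, mul_zero]
    funext χ
    have h1 : classInner f (χ.1 : G → ℂ) = c χ := by
      simp [hf, classInner_sum_left, classInner_smul_left, classInner_irrCharacter,
        Subtype.coe_injective.eq_iff, Finset.sum_ite_eq']
    rw [← h1]
    simp [classInner, hf0]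
  have hsurj : Function.Surjective Φ := by
    intro v
    choose δ hδc hδt hδ1 hδ0 using fun C : {C : ConjClasses (G ⧸ N) // Sp (r C)} =>
      exists_delta N hN' l (r C.1) C.2
    set f : G → ℂ := ∑ C, v C • δ C with hf
    have hfv : ∀ g, f g = ∑ C, v C * δ C g := fun g => by simp [hf]
    have hfc : IsClassFunction G f := fun g y => by
      simp only [hfv]
      exact Finset.sum_congr rfl fun C _ => by rw [hδc C g y]
    have hft : ∀ (g : G) (z : N), f (g * z) = (l z : ℂ) * f g := fun g w => by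
      simp only [hfv, Finset.mul_sum]
      exact Finset.sum_congr rfl fun C _ => by rw [hδt]; ring
    refine ⟨fun χ => classInner f (χ.1 : G → ℂ), funext fun D => ?_⟩
    have hD : f (r D.1) = v D := by
      rw [hfv, Finset.sum_eq_single D]
      · rw [hδ1, mul_one]
      · intro C _ hC
        by_contra h
        obtain ⟨x, z, hxz⟩ := hδ0 C _ (right_ne_zero_of_mul h)
        refine hC (Subtype.ext ?_)
        rw [← hr C.1, ← hr D.1, ← hxz, ConjClasses.mk_eq_mk_iff_isConj, isConj_iff]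
        exact ⟨(x : G ⧸ N), by simp [(QuotientGroup.eq_one_iff (z : G)).2 z.2]⟩
      · simp
    have hexp := congrFun (eq_sum_classInner_smul hfc) (r D.1)
    rw [hD, Finset.sum_apply] at hexp
    simp only [Pi.smul_apply, smul_eq_mul] at hexp
    refine Eq.trans ?_ hexp.symm
    simp only [Φ, LinearMap.coe_mk, AddHom.coe_mk]
    rw [← Finset.sum_subtype (Finset.univ.filter fun χ : IrrCharacter G =>
      classInner (fun n : ↥N => (χ : G → ℂ) n) (ψ : ↥N → ℂ) ≠ 0) (fun χ => by simp)
      (fun χ => classInner f (χ : G → ℂ) * (χ : G → ℂ) (r D.1))]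
    refine Finset.sum_subset (Finset.subset_univ _) fun χ _ hχ => ?_
    by_cases h : classInner f (χ : G → ℂ) = 0
    · rw [h, zero_mul]
    · exact absurd (Finset.mem_filter.2 ⟨Finset.mem_univ χ, (hcoef f hft χ h :)⟩) hχ
  have := LinearEquiv.finrank_eq (LinearEquiv.ofBijective Φ ⟨hinj, hsurj⟩)
  rw [Module.finrank_fintype_fun_eq_card, Module.finrank_fintype_fun_eq_card] at this
  rwa [Nat.card_eq_fintype_card, Nat.card_eq_fintype_card]


/-- Let N be a central subgroup of the finite group G and ψ a faithful irreducible (hence degree-one) character of N. Call a coset g N special when every x ∈ G whose commutator x⁻¹ g⁻¹ x g lies in N actually commutes with g (this depends only on the coset). Then the number of irreducible characters of G whose restriction to N contains ψ equals the number of conjugacy classes of G/N consisting of special cosets. -/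
theorem result {G : Type*} [Group G] [Fintype G] (N : Subgroup G) [N.Normal] [Fintype N] (hN : N ≤ Subgroup.center G) (ψ : Cfsg.IrrCharacter ↥N) (hfaith : ∀ n : ↥N, (ψ : ↥N → ℂ) n = (ψ : ↥N → ℂ) 1 → n = 1) : Nat.card {χ : Cfsg.IrrCharacter G // Cfsg.classInner (fun n : ↥N => (χ : G → ℂ) n) (ψ : ↥N → ℂ) ≠ 0} = Nat.card {C : ConjClasses (G ⧸ N) // ∃ g : G, ConjClasses.mk (g : G ⧸ N) = C ∧ ∀ x : G, x⁻¹ * g⁻¹ * x * g ∈ N → x * g = g * x} := by
  classical
  have hcomm : ∀ a b : N, a * b = b * a := fun a b =>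
    Subtype.ext (Subgroup.mem_center_iff.1 (hN b.2) a)
  obtain ⟨l, hl⟩ := Cfsg.Agent.Char.irr_exists_monoidHom_of_comm hcomm ψ.2
  have hfaith' : ∀ n : N, l n = 1 → n = 1 := fun n hn =>
    hfaith n (by rw [hl, hl, hn, map_one])
  exact card_eq N hN l hfaith' ψ hl

end Cfsg.Agent.S4567
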