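import Cfsg.Statements.S4571
import Cfsg.Agent.BlkChar.RegCriterion
import Cfsg.Agent.Brauer.RegOrth
import Cfsg.Agent.Char.Orthogonality
import Cfsg.Agent.Char.Kernel
import Cfsg.Agent.Lib.Element
import Cfsg.Agent.Block.Idempotent

set_option autoImplicit false
set_option linter.style.haveILetI false
open Cfsg

namespace Cfsg.Agent.S4571

open Cfsg Cfsg.Agent.Char Cfsg.Agent.Block Cfsg.Agent.BlkChar
open Cfsg.Agent.Brauer (regSum)
open scoped ComplexConjugate

variable {G : Type*} [Group G] [Finite G] {p : ℕ} [hp : Fact p.Prime]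
  (Q : Subgroup G) [Q.Normal] (hQ : IsPGroup p Q)
  (hsup : Q ⊔ Subgroup.centralizer (Q : Set G) = ⊤)

include hQ hsup in
/-- A regular element centralises `Q`. -/
theorem commute_of_regular {x : G} (hx : ¬ p ∣ orderOf x) {q : G} (hq : q ∈ Q) : q * x = x * q := by
  obtain ⟨a, ha, c, hc, hac⟩ : ∃ a ∈ Q, ∃ c ∈ Subgroup.centralizer (Q : Set G), a * c = x :=
    Subgroup.mem_sup_of_normal_left.mp (by rw [hsup]; exact Subgroup.mem_top x)
  have hcomm : Commute a c := Subgroup.mem_centralizer_iff.1 hc a ha
  obtain ⟨i, hi⟩ := IsPGroup.iff_orderOf.1 hQ ⟨a, ha⟩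
  rw [Subgroup.orderOf_mk] at hi
  have hxa : Commute x a := by rw [← hac]; exact (Commute.refl a).mul_left hcomm.symm
  have hcop : (orderOf x).Coprime (p ^ i) :=
    Nat.Coprime.pow_right i (Nat.coprime_comm.1 (hp.out.coprime_iff_not_dvd.2 hx))
  -- `x ^ p ^ i` is `c ^ p ^ i`, and generates the group of `x`
  have h1 : x ^ p ^ i ∈ Subgroup.centralizer (Q : Set G) := by
    rw [← hac, hcomm.mul_pow, orderOf_dvd_iff_pow_eq_one.1 (hi.symm ▸ dvd_rfl), one_mul]
    exact Subgroup.pow_mem _ hc _
  obtain ⟨m, hm⟩ := exists_pow_eq_self_of_coprime hcop.symm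
  have h2 : x ∈ Subgroup.centralizer (Q : Set G) := hm ▸ Subgroup.pow_mem _ h1 m
  exact Subgroup.mem_centralizer_iff.1 h2 q hq

include hQ in
/-- Regular elements of the quotient lift. -/
theorem exists_regular_lift {y : G ⧸ Q} (hy : ¬ p ∣ orderOf y) :
    ∃ x : G, ¬ p ∣ orderOf x ∧ (x : G ⧸ Q) = y := by
  obtain ⟨g, rfl⟩ := QuotientGroup.mk_surjective y
  refine ⟨Element.pComplPart p g, hp.out.coprime_iff_not_dvd.1
    (Nat.coprime_comm.1 (Element.coprime_orderOf_pComplPart hp.out g)), ?_⟩
  have h1 := congrArg (QuotientGroup.mk' Q) (Element.pPart_mul_pComplPart p g)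
  rw [map_mul] at h1
  have h2 : QuotientGroup.mk' Q (Element.pPart p g) = 1 := by
    rw [(Element.map_pPart hp.out _ _).1]
    exact (Element.pPart_eq_one hp.out (Nat.coprime_comm.1 (hp.out.coprime_iff_not_dvd.2 hy))).1
  rw [h2, one_mul] at h1
  exact h1

include hQ hsup in
/-- The regular lift is unique. -/
theorem regular_lift_unique {x x' : G} (hx : ¬ p ∣ orderOf x) (hx' : ¬ p ∣ orderOf x')
    (h : (x : G ⧸ Q) = (x' : G ⧸ Q)) : x = x' := by
  have hz : x⁻¹ * x' ∈ Q := QuotientGroup.eq.1 h
  obtain ⟨i, hi⟩ := IsPGroup.iff_orderOf.1 hQ ⟨x⁻¹ * x', hz⟩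
  rw [Subgroup.orderOf_mk] at hi
  have hc : Commute (x⁻¹ * x') x := commute_of_regular Q hQ hsup hx hz
  have hc' : Commute x⁻¹ x' := by
    have : Commute x' x := by
      have h1 := (Commute.refl x).mul_left hc
      rwa [mul_inv_cancel_left] at h1
    exact this.symm.inv_left
  have h1 : orderOf (x⁻¹ * x') ∣ Nat.lcm (orderOf x⁻¹) (orderOf x') := hc'.orderOf_mul_dvd_lcm
  rw [orderOf_inv, hi] at h1
  rcases i with _ | i
  · exact inv_mul_eq_one.1 (orderOf_eq_one_iff.1 (by rw [hi, pow_zero]))
  · exfalso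
    have h2 : p ∣ orderOf x * orderOf x' :=
      ((dvd_pow_self p i.succ_ne_zero).trans h1).trans (Nat.lcm_dvd_mul _ _)
    exact hp.out.not_dvd_mul hx hx' h2

include hQ hsup in
theorem regTotal_inflate (f : G ⧸ Q → ℂ) : regTotal p (fun g : G => f g) = regTotal p f := by
  classical
  letI := Fintype.ofFinite G
  letI := Fintype.ofFinite (G ⧸ Q)
  rw [regTotal_eq, regTotal_eq]
  refine Finset.sum_bij (fun x _ => (x : G ⧸ Q)) ?_ ?_ ?_ ?_
  · intro x hx
    simp only [Finset.mem_filter, Finset.mem_univ, true_and] at hx ⊢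
    exact fun hd => hx (hd.trans (orderOf_map_dvd (QuotientGroup.mk' Q) x))
  · intro x hx x' hx' h
    exact regular_lift_unique Q hQ hsup (by simpa using hx) (by simpa using hx') h
  · intro y hy
    obtain ⟨x, hx, hxy⟩ := exists_regular_lift Q hQ (y := y) (by simpa using hy)
    exact ⟨x, by simpa using hx, hxy⟩
  · intro x _; rfl

/-- The inflated character. -/
noncomputable def infl (ψ : IrrCharacter (G ⧸ Q)) : IrrCharacter G :=
  ⟨(ψ : G ⧸ Q → ℂ) ∘ QuotientGroup.mk' Q,
    isIrrCharacter_comp ψ.2 _ (QuotientGroup.mk'_surjective Q)⟩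

include hQ hsup in
theorem infl_mem_iff {M : Ideal AlgInt} (hM : IsPModular p M) (ψ : IrrCharacter (G ⧸ Q)) :
    infl Q ψ ∈ principalBlock M G ↔ ψ ∈ principalBlock M (G ⧸ Q) := by
  rw [mem_principalBlock_iff_regTotal hM, mem_principalBlock_iff_regTotal hM]
  have h : ((infl Q ψ : IrrCharacter G) : G → ℂ) = fun g : G => (ψ : G ⧸ Q → ℂ) g := rfl
  rw [h, regTotal_inflate Q hQ hsup]
  simp

include hQ hsup in
theorem main {M : Ideal AlgInt} (hM : IsPModular p M) :
    blockRank p (principalBlock M G) = blockRank p (principalBlock M (G ⧸ Q)) := by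
  classical
  letI := Fintype.ofFinite G
  letI := Fintype.ofFinite (G ⧸ Q)
  haveI : M.IsPrime := isPrime_of_isPModular hM
  let Lft : (G ⧸ Q → ℂ) →ₗ[ℂ] (G → ℂ) :=
    { toFun := fun f g => if p ∣ orderOf g then 0 else f g
      map_add' := fun a b => by funext g; simp only [Pi.add_apply]; split_ifs <;> simp
      map_smul' := fun c a => by funext g; simp only [Pi.smul_apply, RingHom.id_apply, smul_eq_mul]; split_ifs <;> simp }
  set B := principalBlock M G
  set B' := principalBlock M (G ⧸ Q)
  set W := Submodule.span ℂ ((fun χ : IrrCharacter G => pRegularPart p (χ : G → ℂ)) '' B) with hW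
  set W' := Submodule.span ℂ
    ((fun χ : IrrCharacter (G ⧸ Q) => pRegularPart p (χ : G ⧸ Q → ℂ)) '' B') with hW'
  have hreg : ∀ g : G, ¬ p ∣ orderOf g → ¬ p ∣ orderOf (g : G ⧸ Q) := fun g hg hd =>
    hg (hd.trans (orderOf_map_dvd (QuotientGroup.mk' Q) g))
  have hLft : ∀ ψ : IrrCharacter (G ⧸ Q),
      Lft (pRegularPart p (ψ : G ⧸ Q → ℂ)) = pRegularPart p ((infl Q ψ : IrrCharacter G) : G → ℂ) := by
    intro ψ
    funext g
    show (if p ∣ orderOf g then 0 else pRegularPart p (ψ : G ⧸ Q → ℂ) g) = _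
    by_cases hg : p ∣ orderOf g
    · simp [pRegularPart, IsPRegular, hg]
    · simp [pRegularPart, IsPRegular, hg, hreg g hg, infl]
  have hmap : W'.map Lft = W := by
    refine le_antisymm ?_ ?_
    · rw [hW', Submodule.map_span, Submodule.span_le]
      rintro _ ⟨_, ⟨ψ, hψ, rfl⟩, rfl⟩
      refine Submodule.subset_span ⟨infl Q ψ, (infl_mem_iff Q hQ hsup hM ψ).2 hψ, (hLft ψ).symm⟩
    · rw [hW, Submodule.span_le]
      rintro _ ⟨χ, hχ, rfl⟩
      -- a class function on the quotient agreeing with `χ` on the regular elements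
      let f : G ⧸ Q → ℂ := fun y =>
        if h : p ∣ orderOf y then 0 else (χ : G → ℂ) (exists_regular_lift Q hQ h).choose
      have hf : ∀ g : G, ¬ p ∣ orderOf g → f g = (χ : G → ℂ) g := by
        intro g hg
        simp only [f, dif_neg (hreg g hg)]
        obtain ⟨h1, h2⟩ := (exists_regular_lift Q hQ (hreg g hg)).choose_spec
        exact congrArg (χ : G → ℂ) (regular_lift_unique Q hQ hsup h1 hg h2)
      have hfc : IsClassFunction (G ⧸ Q) f := by
        intro y z
        obtain ⟨c, rfl⟩ := QuotientGroup.mk_surjective z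
        have ho : orderOf ((c : G ⧸ Q) * y * (c : G ⧸ Q)⁻¹) = orderOf y :=
          MulEquiv.orderOf_eq (MulAut.conj (c : G ⧸ Q)) y
        by_cases hy : p ∣ orderOf y
        · simp [f, hy, ho]
        · obtain ⟨x, hx, rfl⟩ := exists_regular_lift Q hQ hy
          rw [← QuotientGroup.mk_inv, ← QuotientGroup.mk_mul, ← QuotientGroup.mk_mul,
            hf x hx, hf _ (by rwa [← MulAut.conj_apply, MulEquiv.orderOf_eq]),
            irr_isClassFunction χ.2 x c]
      let a : IrrCharacter (G ⧸ Q) → ℂ := fun ψ => classInner f (ψ : G ⧸ Q → ℂ)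
      let h₀ : G → ℂ := fun g =>
        ∑ ψ ∈ Finset.univ.filter (· ∈ B'), a ψ * pRegularPart p ((infl Q ψ : IrrCharacter G) : G → ℂ) g
      let h₁ : G → ℂ := fun g =>
        ∑ ψ ∈ Finset.univ.filter (· ∉ B'), a ψ * pRegularPart p ((infl Q ψ : IrrCharacter G) : G → ℂ) g
      have hdec : ∀ g, pRegularPart p (χ : G → ℂ) g = h₀ g + h₁ g := by
        intro g
        simp only [h₀, h₁]
        rw [Finset.sum_filter_add_sum_filter_not]
        by_cases hg : p ∣ orderOf g
        · simp [pRegularPart, IsPRegular, hg]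
        · simp only [pRegularPart, IsPRegular, hg, not_false_eq_true, if_true]
          rw [← hf g hg]
          conv_lhs => rw [eq_sum_classInner_smul hfc]
          simp [a, infl]
      have hzero : ∀ g, ¬ p ∣ orderOf g → (χ : G → ℂ) g - h₀ g = 0 := by
        let d : G → ℂ := fun g => (χ : G → ℂ) g - h₀ g
        have horth : regSum p d d = 0 := by
          have e : ∀ g, ¬ p ∣ orderOf g → d g = h₁ g := by
            intro g hg
            have := hdec g
            simp only [pRegularPart, IsPRegular, hg, not_false_eq_true, if_true] at this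
            simp [d, this]
          have o1 : ∀ ψ, ψ ∉ B' → regSum p (χ : G → ℂ)
              ((infl Q ψ : IrrCharacter G) : G → ℂ) = 0 := fun ψ hψ =>
            Brauer.regSum_eq_zero_of_integral hM B
              (blockCoeff_memLocalRing (show IsPBlock M B from ⟨Char.trivialIrr G, rfl⟩)) hχ
              (mt (infl_mem_iff Q hQ hsup hM ψ).1 hψ)
          have o2 : ∀ φ, φ ∈ B' → ∀ ψ, ψ ∉ B' → regSum p ((infl Q φ : IrrCharacter G) : G → ℂ)
              ((infl Q ψ : IrrCharacter G) : G → ℂ) = 0 := fun φ hφ ψ hψ =>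
            Brauer.regSum_eq_zero_of_integral hM B
              (blockCoeff_memLocalRing (show IsPBlock M B from ⟨Char.trivialIrr G, rfl⟩))
              ((infl_mem_iff Q hQ hsup hM φ).2 hφ) (mt (infl_mem_iff Q hQ hsup hM ψ).1 hψ)
          have e2 : regSum p d d = regSum p d h₁ := by
            refine Finset.sum_congr rfl fun g hg => ?_
            rw [e g (Finset.mem_filter.1 hg).2]
          rw [e2]
          have e3 : regSum p d h₁ = ∑ ψ ∈ Finset.univ.filter (· ∉ B'),
              conj (a ψ) * (regSum p (χ : G → ℂ) ((infl Q ψ : IrrCharacter G) : G → ℂ) -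
              ∑ φ ∈ Finset.univ.filter (· ∈ B'), a φ *
                regSum p ((infl Q φ : IrrCharacter G) : G → ℂ) ((infl Q ψ : IrrCharacter G) : G → ℂ)) := by
            simp only [regSum, d, h₀, h₁, map_sum, map_mul, Finset.mul_sum]
            rw [Finset.sum_comm]
            refine Finset.sum_congr rfl fun ψ _ => ?_
            rw [Finset.sum_comm, ← Finset.sum_sub_distrib, Finset.mul_sum]
            refine Finset.sum_congr rfl fun g hg => ?_
            have hg' : ¬ p ∣ orderOf g := (Finset.mem_filter.1 hg).2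
            simp only [pRegularPart, IsPRegular, hg', not_false_eq_true, if_true]
            rw [sub_mul, Finset.sum_mul, mul_sub, Finset.mul_sum]
            congr 1
            · ring
            · refine Finset.sum_congr rfl fun φ _ => ?_
              ring
          rw [e3]
          refine Finset.sum_eq_zero fun ψ hψ => ?_
          have hψ' : ψ ∉ B' := (Finset.mem_filter.1 hψ).2
          rw [o1 ψ hψ', Finset.sum_eq_zero fun φ hφ => by
            rw [o2 φ (Finset.mem_filter.1 hφ).2 ψ hψ', mul_zero]]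
          simp
        intro g hg
        have h2 : ((∑ x ∈ Finset.univ.filter (fun x : G => ¬ p ∣ orderOf x),
            Complex.normSq (d x) : ℝ) : ℂ) = 0 := by
          rw [Complex.ofReal_sum, ← horth]
          exact Finset.sum_congr rfl fun x _ => (Complex.mul_conj (d x)).symm
        have h3 : ∑ x ∈ Finset.univ.filter (fun x : G => ¬ p ∣ orderOf x),
            Complex.normSq (d x) = 0 := by exact_mod_cast h2
        have h4 := (Finset.sum_eq_zero_iff_of_nonneg fun x _ =>
          Complex.normSq_nonneg (d x)).1 h3 g (Finset.mem_filter.2 ⟨Finset.mem_univ g, hg⟩)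
        exact Complex.normSq_eq_zero.1 h4
      have hχeq : pRegularPart p (χ : G → ℂ) = Lft (∑ ψ ∈ Finset.univ.filter (· ∈ B'),
          a ψ • pRegularPart p (ψ : G ⧸ Q → ℂ)) := by
        rw [map_sum]
        funext g
        rw [Finset.sum_apply]
        simp only [map_smul, hLft, Pi.smul_apply, smul_eq_mul]
        by_cases hg : p ∣ orderOf g
        · simp [pRegularPart, IsPRegular, hg]
        · have := sub_eq_zero.1 (hzero g hg)
          simp only [pRegularPart, IsPRegular, hg, not_false_eq_true, if_true] at this ⊢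
          simpa [h₀, pRegularPart, IsPRegular, hg] using this
      rw [SetLike.mem_coe]
      show pRegularPart p (χ : G → ℂ) ∈ W'.map Lft
      rw [hχeq]
      exact Submodule.mem_map_of_mem (Submodule.sum_mem _ fun ψ hψ => Submodule.smul_mem _ _
        (Submodule.subset_span ⟨ψ, (Finset.mem_filter.1 hψ).2, rfl⟩))
  have hsupp : ∀ f ∈ W', ∀ y : G ⧸ Q, p ∣ orderOf y → f y = 0 := by
    intro f hf
    refine Submodule.span_induction ?_ ?_ ?_ ?_ hf
    · rintro _ ⟨ψ, -, rfl⟩ y hy; simp [pRegularPart, IsPRegular, hy]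
    · intro y _; rfl
    · intro u v _ _ hu hv y hy; simp [hu y hy, hv y hy]
    · intro c u _ hu y hy; simp [hu y hy]
  have hinj : Function.Injective (Lft.domRestrict W') := by
    rw [← LinearMap.ker_eq_bot, LinearMap.ker_eq_bot']
    rintro ⟨f, hf⟩ h0
    refine Subtype.ext (funext fun y => ?_)
    by_cases hy : p ∣ orderOf y
    · exact hsupp f hf y hy
    · obtain ⟨x, hx, rfl⟩ := exists_regular_lift Q hQ hy
      have := congrFun h0 x
      simpa [LinearMap.domRestrict_apply, Lft, hx] using this
  show Module.finrank ℂ W = Module.finrank ℂ W'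
  rw [← hmap, ← LinearMap.range_domRestrict]
  exact LinearMap.finrank_range_of_inj hinj

/-- Let Q be a normal p-subgroup of the finite group G with G = Q·C_G(Q), and M a maximal ideal of the algebraic integers containing p. Then the principal p-blocks of G and of G/Q have the same p-regular rank (the same number of irreducible Brauer characters). -/
theorem result {G : Type*} [Group G] [Finite G] (p : ℕ) [Fact p.Prime] (M : Ideal Cfsg.AlgInt) (hM : Cfsg.IsPModular p M) (Q : Subgroup G) [Q.Normal] (hQ : IsPGroup p Q) (hsup : Q ⊔ Subgroup.centralizer (Q : Set G) = ⊤) : Cfsg.blockRank p (Cfsg.principalBlock M G) = Cfsg.blockRank p (Cfsg.principalBlock M (G ⧸ Q)) :=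
  main Q hQ hsup hM

end Cfsg.Agent.S4571
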