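import Cfsg.Statements.S4574
import Cfsg.Agent.BlkChar.GalAvg
import Cfsg.Agent.Char.Kernel
import Cfsg.Agent.BlkChar.PPrimeConstituent

set_option autoImplicit false
open Cfsg

namespace Cfsg.Agent.S4574

open Cfsg Cfsg.Agent.Char

theorem weight_sum {G : Type*} [Fintype G] [DecidableEq G] (d : ℕ) (hd : 0 < d) (v : G → ℝ) :
    ∑ g, (if v g = (d : ℝ) then ((d : ℝ) ^ 2) else if v g = 0 then 0 else 1) =
      ((d : ℝ) ^ 2 - 1) * (Finset.univ.filter (fun g => v g = (d : ℝ))).card + Fintype.card G -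
        (Finset.univ.filter (fun g => v g = 0)).card := by
  have hd0 : (d : ℝ) ≠ 0 := Nat.cast_ne_zero.2 hd.ne'
  have : ∀ g, (if v g = (d : ℝ) then ((d : ℝ) ^ 2) else if v g = 0 then 0 else 1) =
      ((d : ℝ) ^ 2 - 1) * (if v g = (d : ℝ) then 1 else 0) + 1 - (if v g = 0 then 1 else 0) := by
    intro g
    by_cases h1 : v g = (d : ℝ)
    · simp [h1, hd0]
    · by_cases h2 : v g = 0
      · simp [h1, h2, Ne.symm hd0]
      · simp [h1, h2]
  simp only [this, Finset.sum_add_distrib, Finset.sum_sub_distrib, ← Finset.mul_sum,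
    Finset.sum_boole, Finset.sum_const, Finset.card_univ, nsmul_eq_mul, mul_one]

open Module in
theorem main {G : Type*} [Group G] [Fintype G] [DecidableEq G] {V : Type*} [AddCommGroup V]
    [Module ℂ V] [FiniteDimensional ℂ V] (ρ : Representation ℂ G V) (hρ : ρ.IsIrreducible) :
    (finrank ℂ V ^ 2 - 1) *
        (Finset.univ.filter (fun g : G => ‖ρ.character g‖ = (finrank ℂ V : ℝ))).card ≤
      (Finset.univ.filter (fun g : G => ρ.character g = 0)).card ∧
    ((∀ g : G, ‖ρ.character g‖ = 0 ∨ ‖ρ.character g‖ = 1 ∨ ‖ρ.character g‖ = (finrank ℂ V : ℝ)) →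
      (finrank ℂ V ^ 2 - 1) *
        (Finset.univ.filter (fun g : G => ‖ρ.character g‖ = (finrank ℂ V : ℝ))).card =
      (Finset.univ.filter (fun g : G => ρ.character g = 0)).card) := by
  haveI := hρ
  haveI := nontrivial_of_isIrreducible ρ
  set χ := ρ.character
  set d := finrank ℂ V
  have hd : 0 < d := finrank_pos
  have hz : Finset.univ.filter (fun g : G => χ g = 0) =
      Finset.univ.filter (fun g : G => ‖χ g‖ = 0) := Finset.filter_congr fun g _ => norm_eq_zero.symm
  rw [hz]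
  set S := (Finset.univ.filter (fun g : G => ‖χ g‖ = (d : ℝ))).card
  set Z := (Finset.univ.filter (fun g : G => ‖χ g‖ = 0)).card
  have hsum : ∑ g : G, ‖χ g‖ ^ 2 = (Fintype.card G : ℝ) := by
    have h := classInner_irr_self (isIrrCharacter_character ρ)
    simp only [classInner] at h
    rw [inv_mul_eq_iff_eq_mul₀ card_ne_zero_complex, mul_one, Nat.card_eq_fintype_card] at h
    have h' : ((∑ g : G, ‖χ g‖ ^ 2 : ℝ) : ℂ) = ((Fintype.card G : ℝ) : ℂ) := by
      push_cast
      rw [← h]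
      exact Finset.sum_congr rfl fun g _ => (Complex.mul_conj' _).symm
    exact_mod_cast h'
  set w : G → ℝ := fun g => if ‖χ g‖ = (d : ℝ) then (d : ℝ) ^ 2 else if ‖χ g‖ = 0 then 0 else 1
  have hw : ∑ g, w g = ((d : ℝ) ^ 2 - 1) * S + Fintype.card G - Z := weight_sum d hd _
  have hcast : (((d ^ 2 - 1) * S : ℕ) : ℝ) = ((d : ℝ) ^ 2 - 1) * S := by
    rw [Nat.cast_mul, Nat.cast_sub (Nat.one_le_pow _ _ hd)]
    simp
  haveI : NeZero (Nat.card G) := ⟨Nat.card_pos.ne'⟩
  have hge : ∑ g, w g ≤ ∑ g : G, ‖χ g‖ ^ 2 := by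
    have hpt : ∀ g : G, (Fintype.card (ZMod (Nat.card G))ˣ : ℝ) * w g ≤
        ∑ a : (ZMod (Nat.card G))ˣ, ‖χ (g ^ (a : ZMod (Nat.card G)).val)‖ ^ 2 := by
      intro g
      by_cases h1 : ‖χ g‖ = (d : ℝ)
      · have hscal : ∀ k : ℕ, ‖χ (g ^ k)‖ = (d : ℝ) := by
          intro k
          obtain ⟨ω, hω⟩ := (norm_character_eq_iff ρ g).1 h1
          exact (norm_character_eq_iff ρ (g ^ k)).2 ⟨ω ^ k, by
            rw [map_pow, hω, ← Module.End.one_eq_id, smul_pow, one_pow]⟩
        simp [w, h1, hscal, Finset.sum_const, nsmul_eq_mul]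
      · by_cases h2 : ‖χ g‖ = 0
        · have : (0 : ℝ) ≠ (d : ℝ) := h2 ▸ h1
          simp only [w, h2, if_neg this, if_true, mul_zero]
          exact Finset.sum_nonneg fun a _ => by positivity
        · simp only [w, h1, h2, if_false, mul_one]
          refine Cfsg.Agent.GalAvg.card_le_sum_norm_sq
            (Cfsg.Agent.GalAvg.character_pow_mem ρ g pow_card_eq_one') ⟨1, ?_⟩
          obtain ⟨n, hn⟩ : ∃ n, ((1 : (ZMod (Nat.card G))ˣ) : ZMod (Nat.card G)).val = n := ⟨_, rfl⟩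
          show χ (g ^ ((1 : (ZMod (Nat.card G))ˣ) : ZMod (Nat.card G)).val) ≠ 0
          rw [hn]
          rcases eq_or_ne (Nat.card G) 1 with hG | hG
          · haveI : Subsingleton G := (Nat.card_eq_one_iff_unique.1 hG).1
            rw [Subsingleton.elim (g ^ n) g]
            exact fun h => h2 (by rw [h, norm_zero])
          · haveI : Fact (1 < Nat.card G) := ⟨lt_of_le_of_ne Nat.card_pos (Ne.symm hG)⟩
            rw [Units.val_one, ZMod.val_one] at hn
            rw [← hn, pow_one]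
            exact fun h => h2 (by rw [h, norm_zero])
    have htot : (Fintype.card (ZMod (Nat.card G))ˣ : ℝ) * ∑ g : G, ‖χ g‖ ^ 2 =
        ∑ g : G, ∑ a : (ZMod (Nat.card G))ˣ, ‖χ (g ^ (a : ZMod (Nat.card G)).val)‖ ^ 2 := by
      rw [Finset.sum_comm]
      have : ∀ a : (ZMod (Nat.card G))ˣ, ∑ g : G, ‖χ (g ^ (a : ZMod (Nat.card G)).val)‖ ^ 2 =
          ∑ g : G, ‖χ g‖ ^ 2 := fun a =>
        Fintype.sum_equiv (Cfsg.Agent.GalAvg.powUnit a) _ _ fun g => by simp
      simp [this, Finset.sum_const, nsmul_eq_mul]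
    refine le_of_mul_le_mul_left ?_ (Nat.cast_pos.2 (Fintype.card_pos (α := (ZMod (Nat.card G))ˣ)))
    rw [htot, Finset.mul_sum]
    exact Finset.sum_le_sum fun g _ => hpt g
  constructor
  · have : (((d ^ 2 - 1) * S : ℕ) : ℝ) ≤ (Z : ℝ) := by
      rw [hcast]
      linarith
    exact_mod_cast this
  · intro h3
    have heq : ∑ g, w g = ∑ g : G, ‖χ g‖ ^ 2 := Finset.sum_congr rfl fun g _ => by
      by_cases h1 : ‖χ g‖ = (d : ℝ)
      · simp [w, h1]
      · rcases h3 g with h | h | h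
        · simp [w, h, h ▸ h1, norm_eq_zero.1 h]
        · have hne : χ g ≠ 0 := fun h0 => by simp [h0] at h
          simp [w, h, h ▸ h1, hne]
        · exact absurd h h1
    have : (((d ^ 2 - 1) * S : ℕ) : ℝ) = (Z : ℝ) := by
      rw [hcast]
      linarith
    exact_mod_cast this


/-- Let χ be an irreducible character of the finite group G, of degree d, and let Z(χ) be the set of elements g with |χ g| = d (the centre of χ). Then χ vanishes on at least (d ^ 2 - 1) · |Z(χ)| elements of G, with equality when every value |χ g| is 0, 1 or d. -/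
theorem result {G : Type*} [Group G] [Fintype G] [DecidableEq G] (χ : G → ℂ) (hχ : Cfsg.IsIrrCharacter G χ) : (Cfsg.charDegree χ ^ 2 - 1) * (Finset.univ.filter (fun g : G => ‖χ g‖ = (Cfsg.charDegree χ : ℝ))).card ≤ (Finset.univ.filter (fun g : G => χ g = 0)).card ∧ ((∀ g : G, ‖χ g‖ = 0 ∨ ‖χ g‖ = 1 ∨ ‖χ g‖ = (Cfsg.charDegree χ : ℝ)) → (Cfsg.charDegree χ ^ 2 - 1) * (Finset.univ.filter (fun g : G => ‖χ g‖ = (Cfsg.charDegree χ : ℝ))).card = (Finset.univ.filter (fun g : G => χ g = 0)).card) := by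
  obtain ⟨m, ρ, hρ, rfl⟩ := hχ
  have hd : Cfsg.charDegree ρ.character = Module.finrank ℂ (Fin m → ℂ) := by
    simp [Cfsg.charDegree, Representation.char_one]
  rw [hd]
  exact main ρ hρ

end Cfsg.Agent.S4574
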