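import Cfsg.Statements.S4580
import Cfsg.Agent.BlkChar.Twist
import Cfsg.Agent.BlkChar.PrincipalTwo

set_option autoImplicit false
open Cfsg

namespace Cfsg.Agent.S4580

/-- Let N be a normal subgroup of the finite group G, M a maximal ideal of the algebraic integers containing 2, and θ a real-valued irreducible character of N of odd degree that extends to G (some irreducible character of G restricts to θ). Then θ has an extension to G lying in the principal 2-block of G. -/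
theorem result {G : Type*} [Group G] [Finite G] (N : Subgroup G) [N.Normal] (M : Ideal Cfsg.AlgInt) (hM : Cfsg.IsPModular 2 M) (θ : Cfsg.IrrCharacter N) (hreal : ∀ n : N, ((θ : N → ℂ) n).im = 0) (hodd : Odd (Cfsg.charDegree (θ : N → ℂ))) (hext : ∃ η : Cfsg.IrrCharacter G, ∀ n : N, (η : G → ℂ) n = (θ : N → ℂ) n) :
    ∃ η : Cfsg.IrrCharacter G, (∀ n : N, (η : G → ℂ) n = (θ : N → ℂ) n) ∧ η ∈ Cfsg.principalBlock M G := by
  obtain ⟨η, hη⟩ := hext
  have hch := Cfsg.Agent.Char.isCharacter_of_irr η.2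
  obtain ⟨μ, hμN, hμ⟩ := Cfsg.Agent.BlkChar.exists_linear_twist N θ.2
    (Cfsg.Agent.Char.isCharacter_conjFun hch) hch
    (fun n => by rw [hη]; exact Complex.conj_eq_iff_im.2 (hreal n)) hη
  set m := Nat.card G / 2 ^ (Nat.card G).factorization 2 with hm
  have hmodd : m % 2 = 1 :=
    Nat.two_dvd_ne_zero.1 (Nat.not_dvd_ordCompl Nat.prime_two Nat.card_pos.ne')
  have hcop : ∀ x : G, Odd (orderOf x) → x ^ m = 1 := by
    intro x hx
    rw [← orderOf_dvd_iff_pow_eq_one]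
    have h1 := orderOf_dvd_natCard x
    rw [← Nat.ordProj_mul_ordCompl_eq_self (Nat.card G) 2, ← hm] at h1
    refine (Nat.Coprime.pow_right _ ?_).dvd_of_dvd_mul_left h1
    exact (Nat.coprime_comm.1 (Nat.prime_two.coprime_iff_not_dvd.2
      (Nat.two_dvd_ne_zero.2 (Nat.odd_iff.1 hx))))
  let lam : G →* ℂˣ := μ ^ ((m + 1) / 2)
  let η' : Cfsg.IrrCharacter G :=
    ⟨fun g => (lam g : ℂ) * (η : G → ℂ) g, Cfsg.Agent.Char.isIrrCharacter_mul_monoidHom η.2 lam⟩
  have hη' : ∀ n : N, (η' : G → ℂ) n = (θ : N → ℂ) n := fun n => by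
    show ((μ ^ ((m + 1) / 2) : G →* ℂˣ) (n : G) : ℂ) * (η : G → ℂ) n = _
    rw [MonoidHom.pow_apply, hμN, one_pow, Units.val_one, one_mul, hη]
  refine ⟨η', hη', Cfsg.Agent.BlkChar.mem_principalBlock_two_of_real hM η' ?_ fun x hx => ?_⟩
  · have : Cfsg.charDegree (η' : G → ℂ) = Cfsg.charDegree (θ : N → ℂ) := by
      have h1 := hη' 1
      rw [Subgroup.coe_one] at h1
      simp only [Cfsg.charDegree, h1]
    rw [this]; exact hodd
  · rw [Cfsg.Agent.Char.irr_inv η'.2]
    show (starRingEnd ℂ) (((μ ^ ((m + 1) / 2) : G →* ℂˣ) x : ℂ) * (η : G → ℂ) x) =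
      ((μ ^ ((m + 1) / 2) : G →* ℂˣ) x : ℂ) * (η : G → ℂ) x
    have hu : (μ x : ℂ) ^ m = 1 := by
      rw [← Units.val_pow_eq_pow_val, ← map_pow, hcop x hx, map_one, Units.val_one]
    have hn : ‖(μ x : ℂ)‖ = 1 := Complex.norm_eq_one_of_pow_eq_one hu (by omega)
    rw [MonoidHom.pow_apply, Units.val_pow_eq_pow_val, map_mul, map_pow, hμ,
      ← Complex.inv_eq_conj hn, inv_pow, ← mul_assoc]
    congr 1
    rw [inv_mul_eq_iff_eq_mul₀ (pow_ne_zero _ (Units.ne_zero _)), ← pow_add,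
      show (m + 1) / 2 + (m + 1) / 2 = m + 1 by omega, pow_succ, hu, one_mul]

end Cfsg.Agent.S4580
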