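import Cfsg.Statements.S4582
import Cfsg.Agent.BlkChar.ResidualChars
import Cfsg.Agent.CharInd.Clifford
import Cfsg.Agent.Lib.ClassSize
import Mathlib.GroupTheory.FiniteAbelian.Duality

set_option autoImplicit false
set_option linter.style.haveILetI false
open Cfsg

namespace Cfsg.Agent.S4582

open Cfsg Cfsg.Agent.Char
open scoped ComplexConjugate

theorem sum_eq_sum_fixed {α : Type*} [Fintype α] [DecidableEq α] (σ : α → α) (hσ : ∀ a, σ (σ a) = a)
    (f : α → ZMod 2) (hf : ∀ a, f (σ a) = f a) :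
    ∑ a, f a = ∑ a with σ a = a, f a := by
  rw [← Finset.sum_filter_add_sum_filter_not Finset.univ (fun a => σ a = a), add_eq_left]
  refine Finset.sum_involution (fun a _ => σ a) (fun a _ => ?_) (fun a ha _ => ?_) (fun a ha => ?_)
    (fun a _ => hσ a)
  · rw [hf]
    exact CharTwo.add_self_eq_zero _
  · exact (Finset.mem_filter.1 ha).2
  · simp only [Finset.mem_filter, Finset.mem_univ, true_and] at ha ⊢
    rw [hσ]
    exact fun h => ha h.symm

/-- The complex conjugate of an irreducible character. -/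
noncomputable def conjIrr {H : Type*} [Group H] [Finite H] (χ : IrrCharacter H) : IrrCharacter H :=
  ⟨fun g => (χ : H → ℂ) (g ^ (Nat.card H - 1)), OddChar.irr_twist χ.2 (by
    have h : 0 < Nat.card H := Nat.card_pos
    rw [Nat.coprime_comm]
    exact (Nat.coprime_self_sub_right h).2 (Nat.coprime_one_right _))⟩

theorem conjIrr_apply {H : Type*} [Group H] [Finite H] (χ : IrrCharacter H) (g : H) :
    (conjIrr χ : H → ℂ) g = conj ((χ : H → ℂ) g) := by
  show (χ : H → ℂ) (g ^ (Nat.card H - 1)) = _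
  rw [← irr_inv χ.2]
  refine congrArg (χ : H → ℂ) (eq_inv_of_mul_eq_one_left ?_)
  rw [← pow_succ, Nat.sub_add_cancel (Nat.card_pos (α := H)), pow_card_eq_one']

theorem charDegree_conjIrr {H : Type*} [Group H] [Finite H] (χ : IrrCharacter H) :
    charDegree (conjIrr χ : H → ℂ) = charDegree (χ : H → ℂ) := by
  simp only [charDegree, conjIrr, one_pow]

variable {G : Type*} [Group G] [Finite G]

/-- The key step: a real extension of `lam` on `Q` exists on `P`. -/
theorem exists_real_linear (N : Subgroup G) [N.Normal] (S : Subgroup G) (hS2 : IsPGroup 2 S)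
    (hSi : ¬ 2 ∣ S.index)
    (hodd : Odd (Nat.card (Abelianization N))) (lam : S →* ℂˣ)
    (hlam : ∀ x : S, (x : G) ∈ N → lam x * lam x = 1) :
    ∃ ψ : S →* ℂˣ, (∀ x, ψ x * ψ x = 1) ∧ ∀ x : S, (x : G) ∈ N → ψ x = lam x := by
  classical
  set Qn := S.subgroupOf N with hQn
  letI := Fintype.ofFinite N
  letI := Fintype.ofFinite Qn
  have hidx : ¬ 2 ∣ Qn.index := fun h =>
    hSi (h.trans (ClassSize.relIndex_dvd_index_of_normal_left N S))
  let μ : Qn →* ℂˣ :=
    { toFun := fun q => lam ⟨((q : N) : G), q.2⟩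
      map_one' := map_one lam
      map_mul' := fun a b => map_mul lam (⟨((a : N) : G), a.2⟩ : S) ⟨((b : N) : G), b.2⟩ }
  have hμr : ∀ q, conj (μ q : ℂ) = μ q := by
    intro q
    have h1 : (μ q : ℂ) * μ q = 1 := by
      rw [← Units.val_mul]
      exact congrArg Units.val (hlam ⟨((q : N) : G), q.2⟩ (q : N).2)
    rcases mul_self_eq_one_iff.1 h1 with h | h <;> simp [h]
  set I := indFun Qn (fun q => (μ q : ℂ)) with hI
  have hIc : IsCharacter N I :=
    CharInd.isCharacter_indFun Qn (isCharacter_of_irr (isIrrCharacter_monoidHom μ))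
  obtain ⟨s, hs⟩ := isCharacter_eq_multiset_sum hIc
  have hcount : ∀ θ : IrrCharacter N,
      (s.count θ : ℂ) = classInner (fun q : Qn => (μ q : ℂ)) (fun q : Qn => (θ : N → ℂ) q) := by
    intro θ
    rw [← BlkChar.classInner_multiset_sum s θ, ← hs, hI,
      CharInd.classInner_indFun_left Qn _ (irr_isClassFunction θ.2)]
  let f : IrrCharacter N → ZMod 2 :=
    fun θ => (s.count θ : ZMod 2) * (charDegree (θ : N → ℂ) : ZMod 2)
  have hsum : ∑ θ, f θ = 1 := by
    have h1 : ∑ θ, s.count θ * charDegree (θ : N → ℂ) = Qn.index := by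
      have h2 : ((∑ θ, s.count θ * charDegree (θ : N → ℂ) : ℕ) : ℂ) = (Qn.index : ℂ) := by
        push_cast
        have h3 := congrFun hs (1 : N)
        rw [hI, CharInd.indFun_one_apply, map_one, Units.val_one, mul_one,
          Finset.sum_multiset_map_count, Finset.sum_apply] at h3
        rw [h3]
        refine (Finset.sum_subset (Finset.subset_univ s.toFinset) ?_).symm.trans ?_
        · intro θ _ hθ
          rw [Multiset.count_eq_zero.2 (fun h => hθ (Multiset.mem_toFinset.2 h))]
          simp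
        · refine Finset.sum_congr rfl fun θ _ => ?_
          rw [Pi.smul_apply, nsmul_eq_mul,
            ← BlkChar.isCharacter_one_eq_charDegree (isCharacter_of_irr θ.2)]
      exact_mod_cast h2
    have h2 := congrArg (Nat.cast (R := ZMod 2)) h1
    push_cast at h2
    rw [show ∑ θ, f θ = (Qn.index : ZMod 2) from h2]
    exact (ZMod.natCast_eq_one_iff_odd).2 (Nat.two_dvd_ne_zero.1 hidx |> Nat.odd_iff.2)
  have hσ : ∀ θ : IrrCharacter N, conjIrr (conjIrr θ) = θ := fun θ =>
    Subtype.ext (funext fun g => by rw [conjIrr_apply, conjIrr_apply, Complex.conj_conj])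
  have hfσ : ∀ θ, f (conjIrr θ) = f θ := by
    intro θ
    have h1 : s.count (conjIrr θ) = s.count θ := by
      have h2 : (s.count (conjIrr θ) : ℂ) = (s.count θ : ℂ) := by
        rw [hcount]
        have h3 : conj ((s.count θ : ℕ) : ℂ) = (s.count θ : ℂ) := Complex.conj_natCast _
        rw [← h3, hcount]
        simp only [classInner, map_mul, map_sum, map_inv₀, map_natCast, conjIrr_apply,
          Complex.conj_conj]
        congr 1
        refine Finset.sum_congr rfl fun q _ => ?_
        rw [hμr]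
      exact_mod_cast h2
    simp only [f, h1, charDegree_conjIrr]
  rw [sum_eq_sum_fixed conjIrr hσ f hfσ] at hsum
  -- the action of `P` on real characters
  let R := {θ : IrrCharacter N // conjIrr θ = θ}
  have hcj : ∀ (x : S) (θ : R),
      conjIrr (⟨(θ.1 : N → ℂ) ∘ (MulAut.conjNormal (x : G)⁻¹ : MulAut N),
        isIrrCharacter_comp_mulEquiv θ.1.2 (MulAut.conjNormal (x : G)⁻¹ : MulAut N)⟩) =
      ⟨(θ.1 : N → ℂ) ∘ (MulAut.conjNormal (x : G)⁻¹ : MulAut N),
        isIrrCharacter_comp_mulEquiv θ.1.2 (MulAut.conjNormal (x : G)⁻¹ : MulAut N)⟩ := by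
    intro x θ
    refine Subtype.ext (funext fun g => ?_)
    rw [conjIrr_apply]
    show conj ((θ.1 : N → ℂ) _) = (θ.1 : N → ℂ) _
    rw [← conjIrr_apply, θ.2]
  letI act : MulAction S R :=
    { smul := fun x θ => ⟨_, hcj x θ⟩
      one_smul := fun θ => Subtype.ext (Subtype.ext (funext fun n => by
        show (θ.1 : N → ℂ) (MulAut.conjNormal ((1 : S) : G)⁻¹ n) = _
        simp))
      mul_smul := fun x y θ => Subtype.ext (Subtype.ext (funext fun n => by
        show (θ.1 : N → ℂ) (MulAut.conjNormal ((x * y : S) : G)⁻¹ n)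
          = (θ.1 : N → ℂ) (MulAut.conjNormal (y : G)⁻¹ (MulAut.conjNormal (x : G)⁻¹ n))
        simp)) }
  have hinv : ∀ (x : S) (θ : R), f (x • θ).1 = f θ.1 := by
    intro x θ
    have hval : ∀ n, (((x • θ).1 : IrrCharacter N) : N → ℂ) n =
        (θ.1 : N → ℂ) (MulAut.conjNormal (x : G)⁻¹ n) := fun n => rfl
    have h1 : charDegree (((x • θ).1 : IrrCharacter N) : N → ℂ) = charDegree (θ.1 : N → ℂ) := by
      simp only [charDegree, hval, map_one]
    have h2 : s.count (x • θ).1 = s.count θ.1 := by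
      have h3 : (s.count (x • θ).1 : ℂ) = (s.count θ.1 : ℂ) := by
        rw [hcount, hcount]
        simp only [classInner, hval]
        congr 1
        let e : Qn ≃ Qn :=
          { toFun := fun q => ⟨MulAut.conjNormal (x : G)⁻¹ (q : N), by
              show ((MulAut.conjNormal (x : G)⁻¹ (q : N) : N) : G) ∈ S
              rw [MulAut.conjNormal_apply]
              exact S.mul_mem (S.mul_mem (S.inv_mem x.2) q.2) (S.inv_mem (S.inv_mem x.2))⟩
            invFun := fun q => ⟨MulAut.conjNormal (x : G) (q : N), by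
              show ((MulAut.conjNormal (x : G) (q : N) : N) : G) ∈ S
              rw [MulAut.conjNormal_apply]
              exact S.mul_mem (S.mul_mem x.2 q.2) (S.inv_mem x.2)⟩
            left_inv := fun q => by ext; simp [mul_assoc]
            right_inv := fun q => by ext; simp [mul_assoc] }
        refine Fintype.sum_equiv e _ _ fun q => ?_
        have hμe : μ (e q) = μ q := by
          let a : S := ⟨((q : N) : G), q.2⟩
          have h4 : (⟨(((e q : Qn) : N) : G), (e q).2⟩ : S) = x⁻¹ * a * x := by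
            ext; simp [e, a]
          show lam ⟨_, _⟩ = lam a
          rw [h4, map_mul, map_mul, map_inv, mul_comm, mul_inv_cancel_left]
        rw [hμe]
        rfl
      exact_mod_cast h3
    simp only [f, h1, h2]
  have hsumR : ∑ θ : R, f θ.1 = 1 := by
    rw [← hsum]
    exact (Finset.sum_subtype _ (fun θ => by simp) f).symm
  rw [Block.sum_eq_sum_fixedPoints (R := ZMod 2) hS2 (fun θ : R => f θ.1) hinv] at hsumR
  obtain ⟨⟨θ, hθr⟩, hθP, hfθ⟩ := Finset.exists_ne_zero_of_sum_ne_zero (hsumR ▸ one_ne_zero)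
  have hθP' : ∀ (x : S) (n : N), (θ : N → ℂ) (MulAut.conjNormal (x : G) n) = (θ : N → ℂ) n := by
    intro x n
    have h1 := (Finset.mem_filter.1 hθP).2 x⁻¹
    have h2 := congrFun (congrArg (fun t => ((t.1 : IrrCharacter N) : N → ℂ)) h1) n
    refine Eq.trans ?_ h2
    show (θ : N → ℂ) _ = (θ : N → ℂ) (MulAut.conjNormal (((x⁻¹ : S) : G))⁻¹ n)
    simp
  have hθdeg : ¬ 2 ∣ charDegree (θ : N → ℂ) := fun h =>
    hfθ (by simp [f, (ZMod.natCast_eq_zero_iff _ 2).2 h])
  have hθm : (s.count θ : ZMod 2) ≠ 0 := left_ne_zero_of_mul hfθ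
  have hreal : ∀ n, conj ((θ : N → ℂ) n) = (θ : N → ℂ) n := fun n => by
    rw [← conjIrr_apply, hθr]
  -- the determinant of `θ` is trivial
  have hdetθ : ∀ n, detChar (θ : N → ℂ) n = 1 := by
    intro n
    have hl := CharExt.detChar_isLin (θ : N → ℂ)
    have hsq : hl.toHom n * hl.toHom n = 1 := by
      have h1 := BlkChar.detChar_twist (isCharacter_of_irr θ.2)
        (isCharacter_of_irr (conjIrr θ).2) n
      have h1' : detChar (θ : N → ℂ) n = detChar (θ : N → ℂ) n ^ (Nat.card N - 1) := by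
        refine Eq.trans ?_ h1
        rw [show (fun g : N => (θ : N → ℂ) (g ^ (Nat.card N - 1))) = (θ : N → ℂ) from
          congrArg Subtype.val hθr]
      have hcard : hl.toHom n ^ Nat.card N = 1 := by
        rw [← map_pow, pow_card_eq_one', map_one]
      have h2 : hl.toHom n = hl.toHom n ^ (Nat.card N - 1) := Units.ext (by
        rw [Units.val_pow_eq_pow_val, hl.toHom_apply]
        exact h1')
      nth_rw 1 [h2]
      rw [← pow_succ, Nat.sub_add_cancel (Nat.card_pos (α := N)), hcard]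
    have hab : hl.toHom n ^ Nat.card (Abelianization N) = 1 := by
      have h3 : hl.toHom n = Abelianization.lift hl.toHom (Abelianization.of n) := by simp
      rw [h3, ← map_pow, pow_card_eq_one', map_one]
    have h4 : orderOf (hl.toHom n) ∣ Nat.gcd 2 (Nat.card (Abelianization N)) :=
      Nat.dvd_gcd (orderOf_dvd_of_pow_eq_one (by rw [pow_two]; exact hsq))
        (orderOf_dvd_of_pow_eq_one hab)
    rw [(Nat.coprime_two_left.2 hodd).gcd_eq_one, Nat.dvd_one, orderOf_eq_one_iff] at h4
    rw [← hl.toHom_apply, h4, Units.val_one]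
  -- extend to `N S`
  set H := N ⊔ S with hH
  letI := Fintype.ofFinite H
  set NH := N.subgroupOf H with hNH
  let e : NH ≃* N := Subgroup.subgroupOfEquivOfLe le_sup_left
  let θ' : NH → ℂ := fun n => (θ : N → ℂ) (e n)
  have hθ' : IsIrrCharacter NH θ' := isIrrCharacter_comp_mulEquiv θ.2 e
  obtain ⟨d, hd⟩ : ∃ d, d = charDegree (θ : N → ℂ) := ⟨_, rfl⟩
  have hd1 : θ' 1 = (d : ℂ) := by
    rw [hd, ← BlkChar.isCharacter_one_eq_charDegree (isCharacter_of_irr θ.2)]
    exact congrArg (θ : N → ℂ) (map_one e)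
  have hcop : Nat.Coprime NH.index d := by
    obtain ⟨i, hi⟩ := IsPGroup.iff_card.1 hS2
    have h1 : NH.index ∣ 2 ^ i := by
      show N.relIndex H ∣ _
      rw [hH, sup_comm, Subgroup.relIndex_sup_right, ← hi]
      exact Subgroup.relIndex_dvd_card N _
    exact Nat.Coprime.coprime_dvd_left h1 (Nat.Coprime.pow_left i
      (Nat.coprime_two_left.2 (Nat.odd_iff.2 (Nat.two_dvd_ne_zero.1 (hd ▸ hθdeg)))))
  have hinvH : ∀ (g : H) (n : NH), θ' (CharExt.cj NH g n) = θ' n := by
    intro g n
    obtain ⟨a, ha, x, hx, hax⟩ : ∃ a ∈ N, ∃ x ∈ S, a * x = (g : G) :=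
      Subgroup.mem_sup_of_normal_left.mp g.2
    show (θ : N → ℂ) (e (CharExt.cj NH g n)) = (θ : N → ℂ) (e n)
    rw [← hθP' ⟨x, hx⟩ (e n), ← irr_isClassFunction θ.2 (MulAut.conjNormal x (e n)) ⟨a, ha⟩]
    refine congrArg (θ : N → ℂ) (Subtype.ext ?_)
    show ((g * (n : H) * g⁻¹ : H) : G) = a * (x * ((n : H) : G) * x⁻¹) * a⁻¹
    rw [Subgroup.coe_mul, Subgroup.coe_mul, Subgroup.coe_inv, ← hax]
    group
  have hdet' : ∀ n, detChar θ' n = 1 := by
    intro n
    obtain ⟨m, ρ, hρ⟩ := isCharacter_of_irr θ.2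
    rw [CharExt.detChar_eq (ρ.comp e.toMonoidHom) (funext fun k => congrFun hρ (e k)) n]
    show LinearMap.det (ρ (e n)) = 1
    rw [← CharExt.detChar_eq ρ hρ, hdetθ]
  obtain ⟨χ, hχ, hres, hdetχ⟩ := CharExt.exists_char_extension NH θ' hθ' hinvH d hd1 hcop
    (CharExt.homVal (1 : H →* ℂˣ)) (CharExt.homVal_isLin _) (fun n => by
      rw [hdet']; rfl)
  have hχreal : ∀ g, conj (χ g) = χ g := by
    intro g
    have h1 := CharExt.char_eq_of_restrict_eq_of_det_eq NH θ' hθ' d hd1 hcop
      ((conjIrr ⟨χ, hχ⟩ : IrrCharacter H) : H → ℂ) χ (isCharacter_of_irr (conjIrr ⟨χ, hχ⟩).2)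
      (isCharacter_of_irr hχ) (fun n => by
        rw [conjIrr_apply]
        show conj (χ n) = _
        rw [hres]
        exact hreal _) hres (funext fun g => by
          have h2 := BlkChar.detChar_twist (isCharacter_of_irr hχ)
            (isCharacter_of_irr (conjIrr ⟨χ, hχ⟩).2) g
          refine h2.trans ?_
          rw [hdetχ]
          simp [CharExt.homVal])
    rw [← conjIrr_apply ⟨χ, hχ⟩, h1]
  -- restrict to `S`
  letI := Fintype.ofFinite S
  have hSH : S ≤ H := le_sup_right
  have hχS : IsCharacter S (fun x : S => χ (Subgroup.inclusion hSH x)) :=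
    CharInd.isCharacter_comp (Subgroup.inclusion hSH) (isCharacter_of_irr hχ)
  obtain ⟨t, ht⟩ := isCharacter_eq_multiset_sum hχS
  set Qs := N.subgroupOf S with hQs
  letI := Fintype.ofFinite Qs
  let μ' : Qs →* ℂˣ := lam.comp Qs.subtype
  have hsplit : classInner (fun q : Qs => χ (Subgroup.inclusion hSH q)) (fun q => (μ' q : ℂ)) =
      (s.count θ : ℂ) := by
    have hr : ∀ q : Qn, conj ((θ : N → ℂ) q) = (θ : N → ℂ) q := fun q => hreal q
    rw [hcount]
    simp only [classInner]
    let e' : Qs ≃ Qn :=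
      { toFun := fun q => ⟨⟨((q : S) : G), q.2⟩, (q : S).2⟩
        invFun := fun q => ⟨⟨((q : N) : G), q.2⟩, (q : N).2⟩
        left_inv := fun q => rfl
        right_inv := fun q => rfl }
    rw [Nat.card_congr e']
    congr 1
    refine Fintype.sum_equiv e' _ _ fun q => ?_
    have h1 : χ (Subgroup.inclusion hSH (q : S)) = (θ : N → ℂ) ⟨((q : S) : G), q.2⟩ :=
      hres ⟨Subgroup.inclusion hSH (q : S), q.2⟩
    rw [h1]
    show _ = (μ (e' q) : ℂ) * conj ((θ : N → ℂ) (e' q : N))
    rw [hr, mul_comm ((μ (e' q) : ℂ))]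
    congr 1
    exact (hμr (e' q))
  choose b hb using fun ψ : IrrCharacter S => isCharacter_classInner_nat
    (isCharacter_restrict (isCharacter_of_irr ψ.2) Qs)
    (⟨fun q : Qs => (μ' q : ℂ), isIrrCharacter_monoidHom μ'⟩ : IrrCharacter Qs)
  let g : IrrCharacter S → ZMod 2 := fun ψ => (t.count ψ : ZMod 2) * (b ψ : ZMod 2)
  have hgsum : ∑ ψ, g ψ = 1 := by
    have h1 : ((∑ ψ, t.count ψ * b ψ : ℕ) : ℂ) = (s.count θ : ℂ) := by
      rw [← hsplit]
      have h2 : (fun q : Qs => χ (Subgroup.inclusion hSH q)) =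
          ∑ ψ : IrrCharacter S, (t.count ψ : ℂ) • (fun q : Qs => (ψ : S → ℂ) q) := by
        funext q
        have h3 := congrFun ht (q : S)
        rw [Finset.sum_multiset_map_count, Finset.sum_apply] at h3
        refine h3.trans ?_
        rw [Finset.sum_apply]
        refine (Finset.sum_subset (Finset.subset_univ t.toFinset) ?_).trans ?_
        · intro ψ _ hψ
          rw [Multiset.count_eq_zero.2 (fun h => hψ (Multiset.mem_toFinset.2 h))]
          simp
        · refine Finset.sum_congr rfl fun ψ _ => ?_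
          simp
      rw [h2, classInner_sum_left]
      push_cast
      refine Finset.sum_congr rfl fun ψ _ => ?_
      rw [classInner_smul_left]
      exact congrArg _ (hb ψ).symm
    have h3 : ∑ ψ, t.count ψ * b ψ = s.count θ := by exact_mod_cast h1
    have h4 := congrArg (Nat.cast (R := ZMod 2)) h3
    push_cast at h4
    rw [show ∑ ψ, g ψ = (s.count θ : ZMod 2) from h4]
    revert hθm
    generalize (s.count θ : ZMod 2) = z
    revert z
    decide
  have hσS : ∀ ψ : IrrCharacter S, conjIrr (conjIrr ψ) = ψ := fun ψ =>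
    Subtype.ext (funext fun g => by rw [conjIrr_apply, conjIrr_apply, Complex.conj_conj])
  have hgσ : ∀ ψ, g (conjIrr ψ) = g ψ := by
    intro ψ
    have h1 : t.count (conjIrr ψ) = t.count ψ := by
      have e1 := BlkChar.classInner_multiset_sum t (conjIrr ψ)
      have e2 := BlkChar.classInner_multiset_sum t ψ
      rw [← ht] at e1 e2
      have e3 : classInner (fun x : S => χ (Subgroup.inclusion hSH x)) (conjIrr ψ : S → ℂ) =
          conj (classInner (fun x : S => χ (Subgroup.inclusion hSH x)) (ψ : S → ℂ)) := by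
        simp only [classInner, map_mul, map_sum, map_inv₀, map_natCast, conjIrr_apply,
          Complex.conj_conj, hχreal]
      rw [e3, e2, Complex.conj_natCast] at e1
      exact_mod_cast e1.symm
    have h2 : b (conjIrr ψ) = b ψ := by
      have e1 := hb (conjIrr ψ)
      have e2 := congrArg conj (hb ψ)
      rw [Complex.conj_natCast] at e2
      have e3 : ∀ q : Qs, conj (μ' q : ℂ) = μ' q := fun q => by
        exact hμr ⟨⟨((q : S) : G), q.2⟩, (q : S).2⟩
      simp only [classInner, map_mul, map_sum, map_inv₀, map_natCast, Complex.conj_conj, e3,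
        conjIrr_apply] at e1 e2
      rw [e2] at e1
      exact_mod_cast e1.symm
    simp only [g, h1, h2]
  rw [sum_eq_sum_fixed conjIrr hσS g hgσ] at hgsum
  obtain ⟨ψ, hψr, hgψ⟩ := Finset.exists_ne_zero_of_sum_ne_zero (hgsum ▸ one_ne_zero)
  have hψreal : ∀ x, conj ((ψ : S → ℂ) x) = (ψ : S → ℂ) x := fun x => by
    rw [← conjIrr_apply, (Finset.mem_filter.1 hψr).2]
  have hbodd : ¬ 2 ∣ b ψ := fun h => hgψ (by simp [g, (ZMod.natCast_eq_zero_iff _ 2).2 h])
  haveI : Qs.Normal := Subgroup.normal_subgroupOf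
  -- `ψ` restricts to `Qs` as `b ψ` times `μ'`
  have hcl := CharInd.clifford Qs ψ.2 (isIrrCharacter_monoidHom μ') (by
    rw [hb ψ]
    exact Nat.cast_ne_zero.2 fun h => hbodd (by rw [h]; exact dvd_zero 2))
  have hconj : CharInd.conjClass Qs (fun q => (μ' q : ℂ)) = {fun q => (μ' q : ℂ)} := by
    ext φ
    rw [CharInd.mem_conjClass, Finset.mem_singleton]
    constructor
    · rintro ⟨x, rfl⟩
      funext q
      show ((lam (x * (q : S) * x⁻¹)) : ℂ) = _
      rw [map_mul, map_mul, map_inv, mul_comm (lam x), mul_inv_cancel_right]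
      rfl
    · rintro rfl
      exact ⟨1, (CharInd.conjChar_one _ _).symm⟩
  rw [hconj, Finset.sum_singleton, hb ψ] at hcl
  have hdeg : charDegree (ψ : S → ℂ) = b ψ := by
    have h1 := congrFun hcl 1
    simp only [OneMemClass.coe_one, Pi.smul_apply, map_one, Units.val_one, smul_eq_mul, mul_one,
      BlkChar.isCharacter_one_eq_charDegree (isCharacter_of_irr ψ.2)] at h1
    exact_mod_cast h1
  have hdeg1 : charDegree (ψ : S → ℂ) = 1 := by
    obtain ⟨i, hi⟩ := IsPGroup.iff_card.1 hS2
    have h1 := BlkChar.irr_charDegree_dvd_card ψ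
    rw [hi] at h1
    obtain ⟨j, -, hj⟩ := (Nat.dvd_prime_pow Nat.prime_two).1 h1
    rcases j with _ | j
    · simpa using hj
    · exact absurd (by rw [← hdeg, hj]; exact dvd_pow_self 2 j.succ_ne_zero) hbodd
  have hl : CharExt.IsLin (ψ : S → ℂ) := CharExt.isLin_of_isCharacter (isCharacter_of_irr ψ.2) (by
    rw [BlkChar.isCharacter_one_eq_charDegree (isCharacter_of_irr ψ.2), hdeg1, Nat.cast_one])
  refine ⟨hl.toHom, fun x => Units.ext ?_, fun x hx => Units.ext ?_⟩
  · rw [Units.val_mul, hl.toHom_apply, Units.val_one]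
    have h1 : (ψ : S → ℂ) x * (ψ : S → ℂ) x⁻¹ = 1 := by
      rw [← hl.2, mul_inv_cancel, hl.1]
    rwa [irr_inv ψ.2, hψreal] at h1
  · rw [hl.toHom_apply]
    have h1 := congrFun hcl ⟨x, hx⟩
    rw [← hdeg, hdeg1] at h1
    simpa [μ'] using h1

theorem result {G : Type*} [Group G] [Finite G] (N : Subgroup G) [N.Normal] (P : Sylow 2 G)
    (hP : ∀ x ∈ (P : Subgroup G), x ^ 2 ∈ ((P : Subgroup G) ⊓ N) ⊔ ⁅(P : Subgroup G), (P : Subgroup G)⁆)
    (hQ : ∀ x ∈ (P : Subgroup G) ⊓ N, x ^ 2 ∈ ⁅(P : Subgroup G) ⊓ N, (P : Subgroup G) ⊓ N⁆)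
    (hodd : Odd (Nat.card (Abelianization N))) :
    ∀ x ∈ (P : Subgroup G), x ^ 2 ∈ ⁅(P : Subgroup G), (P : Subgroup G)⁆ := by
  classical
  set S := (P : Subgroup G) with hS
  have hker : ∀ (f : S →* ℂˣ), ⁅S, S⁆ ≤ f.ker.map S.subtype := by
    intro f
    rw [← Subgroup.map_subtype_commutator]
    refine Subgroup.map_mono ?_
    exact Abelianization.commutator_subset_ker f
  intro x hx
  by_contra hne
  set y : S := ⟨x, hx⟩ ^ 2 with hy
  have hy' : (Abelianization.of y : Abelianization S) ≠ 1 := by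
    intro h1
    apply hne
    rw [← MonoidHom.mem_ker, Abelianization.ker_of] at h1
    rw [← Subgroup.map_subtype_commutator]
    exact ⟨y, h1, rfl⟩
  haveI : Finite (Abelianization S) := Finite.of_surjective Abelianization.of QuotientGroup.mk_surjective
  obtain ⟨φ, hφ⟩ := CommGroup.exists_apply_ne_one_of_hasEnoughRootsOfUnity (Abelianization S) ℂ hy'
  set lam : S →* ℂˣ := φ.comp Abelianization.of with hlam
  have hQlam : ∀ z : S, (z : G) ∈ N → lam z * lam z = 1 := by
    intro z hz
    have h1 : (z : G) ^ 2 ∈ ⁅S, S⁆ :=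
      Subgroup.commutator_mono inf_le_left inf_le_left (hQ z ⟨z.2, hz⟩)
    obtain ⟨w, hw, hwz⟩ := hker lam h1
    rw [← map_mul, ← pow_two, show z ^ 2 = w from Subtype.ext (by simpa using hwz.symm)]
    exact hw
  obtain ⟨ψ, hψ2, hψN⟩ := exists_real_linear N S P.2 P.not_dvd_index hodd lam hQlam
  let ν : S →* ℂˣ := lam * ψ⁻¹
  have hν : ∀ z : S, ν (z ^ 2) = 1 := by
    intro z
    have hle : (S ⊓ N) ⊔ ⁅S, S⁆ ≤ ν.ker.map S.subtype := by
      refine sup_le ?_ (hker ν)
      intro w hw
      refine ⟨⟨w, hw.1⟩, ?_, rfl⟩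
      show lam ⟨w, hw.1⟩ * (ψ ⟨w, hw.1⟩)⁻¹ = 1
      rw [hψN ⟨w, hw.1⟩ hw.2, mul_inv_cancel]
    obtain ⟨w, hw, hwz⟩ := hle (hP z z.2)
    rw [show z ^ 2 = w from Subtype.ext (by simpa using hwz.symm)]
    exact hw
  apply hφ
  show lam y = 1
  have h1 : lam y = ν y * ψ y := by simp [ν]
  rw [h1, hy, hν, one_mul, pow_two, map_mul, hψ2]

end Cfsg.Agent.S4582
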