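import Cfsg.Statements.S4583
import Cfsg.Agent.BlkChar.RegCriterion
import Cfsg.Agent.CharInd.Induced
import Cfsg.Agent.CharInd.Basic

set_option autoImplicit false
open Cfsg

namespace Cfsg.Agent.S4583

open Cfsg Cfsg.Agent.Char Cfsg.Agent.Block Cfsg.Agent.BlkChar
open scoped ComplexConjugate

theorem main {G : Type*} [Group G] [Fintype G] (N : Subgroup G) [N.Normal] [Fintype N] {p : ℕ}
    [hp : Fact p.Prime] {M : Ideal AlgInt} (hM : IsPModular p M) (P : Sylow p G)
    (θ : IrrCharacter N) (hθ : θ ∈ principalBlock M N) (hdeg : ¬ p ∣ charDegree (θ : N → ℂ))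
    {H : Subgroup G} (hH : H = N ⊔ (P : Subgroup G)) (hNH : N ≤ H) (η : IrrCharacter H)
    (hη : ∀ n : N, (η : H → ℂ) (Subgroup.inclusion hNH n) = (θ : N → ℂ) n) :
    ∃ χ : IrrCharacter G, χ ∈ principalBlock M G ∧ ¬ p ∣ charDegree (χ : G → ℂ) ∧
      classInner (fun n : N => (χ : G → ℂ) n) (θ : N → ℂ) ≠ 0 := by
  classical
  haveI : M.IsPrime := isPrime_of_isPModular hM
  letI := Fintype.ofFinite H
  have hHi : ¬ p ∣ H.index := fun h => P.not_dvd_index (h.trans (Subgroup.index_dvd_of_le (hH ▸ le_sup_right)))
  set Φ := indFun H (η : H → ℂ) with hΦdef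
  have hΦ : IsCharacter G Φ := CharInd.isCharacter_indFun H (isCharacter_of_irr η.2)
  obtain ⟨e, he⟩ := IsPGroup.iff_card.1 P.2
  have hregN : ∀ x : H, ¬ p ∣ orderOf x → (x : G) ∈ N := by
    intro x hx
    have hidx : (N.subgroupOf H).index ∣ p ^ e := by
      show N.relIndex H ∣ _
      rw [hH, sup_comm, Subgroup.relIndex_sup_right, ← he]
      exact Subgroup.relIndex_dvd_card N _
    obtain ⟨i, -, hi⟩ := (Nat.dvd_prime_pow hp.out).1 hidx
    have h1 : orderOf (x : H ⧸ N.subgroupOf H) ∣ p ^ i :=
      hi ▸ Subgroup.index_eq_card (N.subgroupOf H) ▸ orderOf_dvd_natCard _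
    have h2 : orderOf (x : H ⧸ N.subgroupOf H) ∣ orderOf x := orderOf_map_dvd (QuotientGroup.mk' _) x
    have h3 := Nat.eq_one_of_dvd_coprimes ((hp.out.coprime_iff_not_dvd.2 hx).pow_left i) h1 h2
    rw [orderOf_eq_one_iff, QuotientGroup.eq_one_iff] at h3
    exact h3
  -- the total of the induced character over the regular elements
  have htot : regTotal p Φ = (H.index : ℂ) * regTotal p (θ : N → ℂ) := by
    have h1 : regTotal p (η : H → ℂ) = regTotal p (θ : N → ℂ) := by
      rw [regTotal_eq, regTotal_eq]
      refine Finset.sum_bij' (fun x hx => (⟨(x : G), hregN x (by simpa using hx)⟩ : N))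
        (fun n _ => Subgroup.inclusion hNH n) ?_ ?_ ?_ ?_ ?_
      · intro x hx
        simp only [Finset.mem_filter, Finset.mem_univ, true_and] at hx ⊢
        rwa [← Subgroup.orderOf_coe, Subgroup.orderOf_coe x]
      · intro n hn
        simp only [Finset.mem_filter, Finset.mem_univ, true_and] at hn ⊢
        rwa [← Subgroup.orderOf_coe, Subgroup.coe_inclusion, Subgroup.orderOf_coe n]
      · intro x hx; rfl
      · intro n hn; rfl
      · intro x hx
        exact (congrArg (η : H → ℂ) (Subtype.ext rfl)).trans (hη ⟨x, hregN x (by simpa using hx)⟩)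
    set f : G → ℂ := fun g => if p ∣ orderOf g then 0 else 1 with hf
    have hfc : IsClassFunction G f := fun g x => by
      have : orderOf (x * g * x⁻¹) = orderOf g := MulEquiv.orderOf_eq (MulAut.conj x) g
      simp only [hf, this]
    have h2 := CharInd.classInner_indFun_left H (η : H → ℂ) hfc
    have hl : classInner Φ f = (Nat.card G : ℂ)⁻¹ * regTotal p Φ := by
      rw [classInner, regTotal_eq, Finset.sum_filter]
      congr 1
      refine Finset.sum_congr rfl fun g _ => ?_
      simp only [hf]
      split_ifs <;> simp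
    have hr : classInner (η : H → ℂ) (fun h : H => f h) = (Nat.card H : ℂ)⁻¹ * regTotal p (η : H → ℂ) := by
      rw [classInner, regTotal_eq, Finset.sum_filter]
      congr 1
      refine Finset.sum_congr rfl fun g _ => ?_
      simp only [hf, Subgroup.orderOf_coe]
      split_ifs <;> simp
    rw [hl, hr, h1, inv_mul_eq_iff_eq_mul₀ card_ne_zero_complex, ← mul_assoc] at h2
    rw [h2]
    congr 1
    rw [← div_eq_mul_inv, div_eq_iff card_ne_zero_complex, ← Nat.cast_mul, mul_comm, H.card_mul_index]
  have hd : (θ : N → ℂ) 1 = (charDegree (θ : N → ℂ) : ℂ) :=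
    isCharacter_one_eq_charDegree (isCharacter_of_irr θ.2)
  have hne : ¬ MemLocalIdeal M (regTotal p Φ) := by
    intro h
    apply (mem_principalBlock_iff_regTotal hM θ).1 hθ
    rw [htot] at h
    have hu : MemLocalRing M ((H.index * charDegree (θ : N → ℂ) : ℕ) : ℂ)⁻¹ :=
      memLocalRing_natCast_inv hM (hp.out.not_dvd_mul hHi hdeg)
    have h' := memLocalIdeal_mul_right h hu
    have hH0 : (H.index : ℂ) ≠ 0 := Nat.cast_ne_zero.2 Subgroup.index_ne_zero_of_finite
    rw [hd]
    convert h' using 1
    push_cast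
    field_simp
  -- decompose
  by_contra hc
  push Not at hc
  apply hne
  obtain ⟨s, hs⟩ := isCharacter_eq_multiset_sum hΦ
  have hover : ∀ χ ∈ s, classInner (fun n : N => (χ : G → ℂ) n) (θ : N → ℂ) ≠ 0 := by
    intro χ hχ
    have h1 := Char.classInner_multiset_sum s χ
    rw [← hs, hΦdef, CharInd.classInner_indFun_left H _ (irr_isClassFunction χ.2),
      ← CharInd.classInner_swap] at h1
    obtain ⟨t, ht⟩ := isCharacter_eq_multiset_sum (isCharacter_restrict (isCharacter_of_irr χ.2) H)
    rw [ht, Char.classInner_multiset_sum, Complex.conj_natCast] at h1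
    have hη1 : η ∈ t := by
      rw [← Multiset.count_pos]
      have h2 : t.count η = s.count χ := by exact_mod_cast h1
      rw [h2]
      exact Multiset.count_pos.2 hχ
    -- the restriction to `N` of the constituents
    obtain ⟨t', rfl⟩ := Multiset.exists_cons_of_mem hη1
    rw [Multiset.map_cons, Multiset.sum_cons] at ht
    obtain ⟨u, hu⟩ := isCharacter_eq_multiset_sum (isCharacter_comp (isCharacter_multiset_sum t')
      (Subgroup.inclusion hNH))
    have hres : (fun n : N => (χ : G → ℂ) n) = (((θ ::ₘ u).map Subtype.val).sum) := by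
      rw [Multiset.map_cons, Multiset.sum_cons, ← hu]
      funext n
      have h3 := congrFun ht (Subgroup.inclusion hNH n)
      rw [Pi.add_apply, hη] at h3
      simpa using h3
    rw [hres, Char.classInner_multiset_sum, Nat.cast_ne_zero, Multiset.count_cons_self]
    omega
  have hgood : ∀ χ ∈ s, MemLocalIdeal M (regTotal p (χ : G → ℂ)) := by
    intro χ hχ
    have hch := isCharacter_of_irr χ.2
    have h1 := isCharacter_one_eq_charDegree hch
    have hne0 : (χ : G → ℂ) 1 ≠ 0 := irr_one_ne_zero χ.2
    have hloc : MemLocalRing M (regTotal p (χ : G → ℂ) / (χ : G → ℂ) 1) := by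
      have h5 := Brauer.regSum_div_memLocalRing hM (isCharacter_const_one (G := G)) χ
      rw [regTotal_eq]
      simpa [Brauer.regSum] using h5
    have e : regTotal p (χ : G → ℂ) =
        (regTotal p (χ : G → ℂ) / (χ : G → ℂ) 1) * (charDegree (χ : G → ℂ) : ℂ) := by
      rw [← h1, div_mul_cancel₀ _ hne0]
    rw [e]
    by_cases hB : χ ∈ principalBlock M G
    · have hpd : p ∣ charDegree (χ : G → ℂ) := by
        by_contra hpd
        exact hover χ hχ (hc χ hB hpd)
      exact memLocalIdeal_mul_left hloc ((memLocalIdeal_natCast_iff hM _).2 hpd)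
    · rw [mem_principalBlock_iff_regTotal hM, not_not] at hB
      exact memLocalIdeal_mul_right hB (memLocalRing_natCast _)
  rw [hs]
  clear hs hover
  induction s using Multiset.induction_on with
  | empty =>
    rw [regTotal_eq]
    simpa using memLocalIdeal_zero
  | cons a s ih =>
    rw [regTotal_eq]
    simp only [Multiset.map_cons, Multiset.sum_cons, Pi.add_apply, Finset.sum_add_distrib]
    refine memLocalIdeal_add ?_ ?_
    · rw [← regTotal_eq]; exact hgood a (Multiset.mem_cons_self a s)
    · rw [← regTotal_eq]; exact ih fun χ h => hgood χ (Multiset.mem_cons_of_mem h)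

/-- Let N be a normal subgroup of the finite group G, p a prime, M a maximal ideal of the algebraic integers containing p, and P a Sylow p-subgroup of G. Let θ be an irreducible character of N of degree prime to p lying in the principal p-block of N, and suppose θ extends to the subgroup NP (some irreducible character of NP restricts to θ). Then some irreducible character χ of G of degree prime to p in the principal p-block of G lies over θ (θ is a constituent of the restriction of χ to N). -/
theorem result {G : Type*} [Group G] [Finite G] (N : Subgroup G) [N.Normal] (p : ℕ) [Fact p.Prime] (M : Ideal Cfsg.AlgInt) (hM : Cfsg.IsPModular p M) (P : Sylow p G)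
    (θ : Cfsg.IrrCharacter N) (hθ : θ ∈ Cfsg.principalBlock M N) (hdeg : ¬ p ∣ Cfsg.charDegree (θ : N → ℂ))
    (hext : ∃ η : Cfsg.IrrCharacter ↥(N ⊔ (P : Subgroup G)), ∀ n : N, (η : ↥(N ⊔ (P : Subgroup G)) → ℂ) (Subgroup.inclusion le_sup_left n) = (θ : N → ℂ) n) :
    ∃ χ : Cfsg.IrrCharacter G, χ ∈ Cfsg.principalBlock M G ∧ ¬ p ∣ Cfsg.charDegree (χ : G → ℂ) ∧
      haveI := Fintype.ofFinite N; Cfsg.classInner (fun n : N => (χ : G → ℂ) n) (θ : N → ℂ) ≠ 0 := by
  classical
  letI := Fintype.ofFinite G
  letI := Fintype.ofFinite N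
  obtain ⟨η, hη⟩ := hext
  exact main N hM P θ hθ hdeg rfl le_sup_left η hη

end Cfsg.Agent.S4583
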