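import Cfsg.Statements.S4585
import Cfsg.Agent.BlkChar.OrderP4
import Cfsg.Agent.PGroup.Frattini
import Cfsg.Agent.Lib.ClassSize

set_option autoImplicit false
open Cfsg

namespace Cfsg.Agent.S4585

theorem class_le_two_iff {Q : Type*} [Group Q] [Group.IsNilpotent Q] :
    Group.nilpotencyClass Q ≤ 2 ↔ commutator Q ≤ Subgroup.center Q := by
  rw [← upperCentralSeries_eq_top_iff_nilpotencyClass_le, _root_.commutator_def,
    Subgroup.commutator_le, eq_top_iff]
  simp only [SetLike.le_def, Subgroup.mem_top, forall_true_left, mem_upperCentralSeries_succ_iff,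
    Subgroup.upperCentralSeries_one]

theorem class_le_two_of_card_le_cube {Q : Type*} [Group Q] [Finite Q] [Group.IsNilpotent Q]
    {p m : ℕ} [Fact p.Prime] (hm : Nat.card Q = p ^ m) (hm3 : m ≤ 3) :
    Group.nilpotencyClass Q ≤ 2 := by
  have hp : p.Prime := Fact.out
  rcases subsingleton_or_nontrivial Q with hs | hn
  · rw [Group.nilpotencyClass_zero_iff_subsingleton.2 hs]; omega
  have hQ : IsPGroup p Q := IsPGroup.of_card hm
  rw [Group.nilpotencyClass_eq_quotient_center_plus_one]
  suffices h : IsMulCommutative (Q ⧸ Subgroup.center Q) by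
    have := Group.IsNilpotent.nilpotencyClass_le_one_iff.2 h
    omega
  obtain ⟨j, hj⟩ := IsPGroup.iff_card.1 (hQ.to_quotient (Subgroup.center Q))
  have h := Subgroup.card_eq_card_quotient_mul_card_subgroup (Subgroup.center Q)
  rw [hm, hj] at h
  have hj2 : j ≤ 2 := by
    have hz : 1 < Nat.card (Subgroup.center Q) :=
      Finite.one_lt_card_iff_nontrivial.2 hQ.center_nontrivial
    by_contra hlt
    have h1 : p ^ m ≤ p ^ j := Nat.pow_le_pow_right hp.pos (by omega)
    nlinarith [pow_pos hp.pos j]
  interval_cases j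
  · haveI : Subsingleton (Q ⧸ Subgroup.center Q) :=
      (Nat.card_eq_one_iff_unique.1 (by rw [hj, pow_zero])).1
    exact ⟨⟨fun a b => Subsingleton.elim _ _⟩⟩
  · exact absurd (show (Subgroup.center Q).index = p by
      rw [Subgroup.index_eq_card, hj, pow_one]) Cfsg.Agent.BlkChar.index_center_ne_prime
  · exact ⟨⟨IsPGroup.commutative_of_card_eq_prime_sq hj⟩⟩

theorem le_center_of_card_le {Q : Type*} [Group Q] [Finite Q] {p : ℕ} [Fact p.Prime]
    (hQ : IsPGroup p Q) (H : Subgroup Q) [H.Normal] (h : Nat.card H ≤ p) :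
    H ≤ Subgroup.center Q := by
  intro x hx
  by_cases hx1 : x = 1
  · rw [hx1]; exact one_mem _
  rw [Subgroup.mem_center_iff]
  obtain ⟨k, hk⟩ := hQ.index (Subgroup.centralizer {x})
  have hlt : (Subgroup.centralizer {x}).index < p := by
    rw [← Cfsg.Agent.ClassSize.ncard_conjugatesOf]
    refine lt_of_lt_of_le ?_ h
    rw [show Nat.card H = (H : Set Q).ncard from Nat.card_coe_set_eq _]
    refine Set.ncard_lt_ncard ?_ (Set.toFinite _)
    refine ⟨fun y hy => ?_, fun hsub => ?_⟩
    · obtain ⟨c, rfl⟩ := isConj_iff.1 hy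
      exact Subgroup.Normal.conj_mem inferInstance x hx c
    · exact hx1 (isConj_one_left.1 (hsub (one_mem H)))
  have hk0 : k = 0 := by
    by_contra hne
    rw [hk] at hlt
    exact absurd (Nat.le_self_pow hne p) (by omega)
  rw [hk0, pow_zero, Subgroup.index_eq_one] at hk
  exact fun g => Subgroup.mem_centralizer_singleton_iff.1 (hk.ge (Subgroup.mem_top g))


/-- Let p be a prime and P a group of order p^4. Then P' has index p^2 in P if and only if P has maximal nilpotency class, that is, nilpotency class exactly 3. -/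
theorem result {P : Type*} [Group P] [Finite P] (p : ℕ) [Fact p.Prime] (hP : Nat.card P = p ^ 4) :
    (commutator P).index = p ^ 2 ↔ Group.nilpotencyClass P = 3 := by
  have hp : p.Prime := Fact.out
  have hPG : IsPGroup p P := IsPGroup.of_card hP
  haveI := hPG.isNilpotent
  haveI : Nontrivial P := Finite.one_lt_card_iff_nontrivial.1
    (hP ▸ Nat.one_lt_pow (by norm_num) hp.one_lt)
  have h2 : Group.nilpotencyClass P ≤ 2 ↔ commutator P ≤ Subgroup.center P := class_le_two_iff
  have h3 : Group.nilpotencyClass P ≤ 3 := by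
    rw [Group.nilpotencyClass_eq_quotient_center_plus_one]
    have hQ : IsPGroup p (P ⧸ Subgroup.center P) := hPG.to_quotient _
    obtain ⟨m, hm⟩ := IsPGroup.iff_card.1 hQ
    have hm3 : m ≤ 3 := by
      have h := Subgroup.card_eq_card_quotient_mul_card_subgroup (Subgroup.center P)
      rw [hm, hP] at h
      have hz : 1 < Nat.card (Subgroup.center P) :=
        Finite.one_lt_card_iff_nontrivial.2 hPG.center_nontrivial
      by_contra hlt
      have h4 : p ^ 4 * Nat.card (Subgroup.center P) ≤ p ^ m * Nat.card (Subgroup.center P) :=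
        Nat.mul_le_mul_right _ (Nat.pow_le_pow_right hp.pos (by omega))
      rw [← h] at h4
      nlinarith [pow_pos hp.pos 4]
    have := class_le_two_of_card_le_cube (p := p) hm hm3
    omega
  constructor
  · intro h
    by_contra hne
    have hle : commutator P ≤ Subgroup.center P := h2.1 (by omega)
    have hc : Nat.card (commutator P) = p ^ 2 := by
      have h1 := Subgroup.card_mul_index (commutator P)
      rw [h, hP] at h1
      exact Nat.eq_of_mul_eq_mul_right (pow_pos hp.pos 2) (by rw [h1]; ring)
    have hnt := Cfsg.Agent.BlkChar.center_ne_top_of_card_commutator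
      (Nat.one_lt_pow (by norm_num) hp.one_lt) hc
    have hd : (Subgroup.center P).index ∣ p ^ 2 := h ▸ Subgroup.index_dvd_of_le hle
    obtain ⟨i, hi, hi'⟩ := (Nat.dvd_prime_pow hp).1 hd
    have h0 : i ≠ 0 := fun h0 => hnt (Subgroup.index_eq_one.1 (by rw [hi', h0, pow_zero]))
    have h1 : i ≠ 1 := fun h1 => Cfsg.Agent.BlkChar.index_center_ne_prime (p := p)
      (by rw [hi', h1, pow_one])
    rw [show i = 2 by omega] at hi'
    rw [Cfsg.Agent.BlkChar.card_commutator_eq_of_index_center hP hi'] at hc
    nlinarith [hp.two_le]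
  · intro h
    have hnle : ¬ commutator P ≤ Subgroup.center P := fun hle => by
      have := h2.2 hle
      omega
    obtain ⟨i, hi4, hi⟩ := (Nat.dvd_prime_pow hp).1
      (hP ▸ Subgroup.index_dvd_card (commutator P) : (commutator P).index ∣ p ^ 4)
    have hci := Subgroup.card_mul_index (commutator P)
    rw [hi, hP] at hci
    have hcard : Nat.card (commutator P) = p ^ (4 - i) :=
      Nat.eq_of_mul_eq_mul_right (pow_pos hp.pos i) (by
        rw [hci, ← pow_add]; congr 1; omega)
    have hi2 : i ≤ 2 := by
      by_contra hlt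
      exact hnle (le_center_of_card_le hPG (commutator P) (by
        rw [hcard]
        exact (Nat.pow_le_pow_right hp.pos (show 4 - i ≤ 1 by omega)).trans (pow_one p).le))
    have hi1 : 1 < i := by
      by_contra hlt
      have hF : (frattini P).index ≤ p := by
        refine le_trans (Nat.le_of_dvd (Nat.pos_of_ne_zero Subgroup.index_ne_zero_of_finite)
          (Subgroup.index_dvd_of_le (Cfsg.Agent.PGroup.commutator_le_frattini hPG))) ?_
        rw [hi]
        exact (Nat.pow_le_pow_right hp.pos (show i ≤ 1 by omega)).trans (pow_one p).le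
      haveI := Cfsg.Agent.PGroup.isCyclic_of_index_frattini_le hPG hF
      apply hnle
      intro c _
      rw [Subgroup.mem_center_iff]
      exact fun g => (IsCyclic.commutative (α := P)).is_comm.comm g c
    rw [hi, show i = 2 by omega]

end Cfsg.Agent.S4585
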