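import Cfsg.Statements.S4586
import Cfsg.Agent.BlkChar.OrderP4
import Cfsg.Agent.PGroup.Frattini

set_option autoImplicit false
open Cfsg

namespace Cfsg.Agent.S4586

/-- Let p be a prime, P a finite p-group and N a normal subgroup of P of index p. For x ∈ P write c(x) for the number of elements n of N whose commutator x n x⁻¹ n⁻¹ lies in the derived subgroup N' (so c(x)/#N' is the order of the centralizer of x acting on N/N'). Then [P : P'] = p² if and only if c(x) = p·#N' for every x ∈ P outside N, and also if and only if c(x) = p·#N' for some x ∈ P outside N. -/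
theorem result {P : Type*} [Group P] [Finite P] (p : ℕ) [Fact p.Prime] (hP : IsPGroup p P) (N : Subgroup P) [N.Normal] (hN : N.index = p) :
    ((commutator P).index = p ^ 2 ↔ ∀ x : P, x ∉ N →
        Nat.card {n : N // x * n * x⁻¹ * (n : P)⁻¹ ∈ (commutator N).map N.subtype} = p * Nat.card (commutator N)) ∧
    ((commutator P).index = p ^ 2 ↔ ∃ x : P, x ∉ N ∧
        Nat.card {n : N // x * n * x⁻¹ * (n : P)⁻¹ ∈ (commutator N).map N.subtype} = p * Nat.card (commutator N)) := by
  have hp : p.Prime := Fact.out
  obtain ⟨x₀, hx₀, -⟩ := Cfsg.Agent.BlkChar.exists_not_mem_of_index hN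
  have hNP := Subgroup.card_mul_index N
  have hci := Subgroup.card_mul_index (commutator P)
  rw [hN] at hNP
  have key : ∀ x : P, x ∉ N → ((commutator P).index = p ^ 2 ↔
      Nat.card {n : N // x * n * x⁻¹ * (n : P)⁻¹ ∈ (commutator N).map N.subtype} =
        p * Nat.card (commutator N)) := by
    intro x hx
    have h := Cfsg.Agent.BlkChar.card_fixMod_mul_card_commutator N x
      (Cfsg.Agent.BlkChar.sup_zpowers_eq_top_of_index hN hx)
    have hpos : 0 < Nat.card (commutator P) := Nat.card_pos
    have hpos' : 0 < Nat.card (commutator N) := Nat.card_pos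
    constructor
    · intro hi
      rw [hi] at hci
      have hN' : Nat.card N = Nat.card (commutator P) * p :=
        Nat.eq_of_mul_eq_mul_right hp.pos (by rw [hNP, ← hci]; ring)
      rw [hN'] at h
      exact Nat.eq_of_mul_eq_mul_right hpos (by rw [h]; ring)
    · intro hc
      rw [hc] at h
      have hN' : Nat.card N = p * Nat.card (commutator P) :=
        Nat.eq_of_mul_eq_mul_right hpos' (by rw [← h]; ring)
      rw [hN', ← hci] at hNP
      exact (Nat.eq_of_mul_eq_mul_left hpos (by rw [← hNP]; ring)).symm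
  exact ⟨⟨fun hi x hx => (key x hx).1 hi, fun h => (key x₀ hx₀).2 (h x₀ hx₀)⟩,
    ⟨fun hi => ⟨x₀, hx₀, (key x₀ hx₀).1 hi⟩, fun ⟨x, hx, h⟩ => (key x hx).2 h⟩⟩

end Cfsg.Agent.S4586
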