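import Cfsg.Statements.S4587
import Cfsg.Agent.PGroup.Frattini
import Cfsg.Agent.FGSev.MaxClass
import Cfsg.Agent.S0662
import Cfsg.Agent.Transfer.Tate
import Cfsg.Agent.RecogA.Socle
import Cfsg.Agent.Lib.MinimalNormal
import Cfsg.Agent.Cores.Basic

set_option autoImplicit false
open Cfsg

namespace Cfsg.Agent.S4587

open scoped commutatorElement
set_option linter.style.haveILetI false

section PGroup

variable {P : Type*} [Group P] {p : ℕ}

/-- A quotient generated by a commutative part and one element centralizing it is commutative. -/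
theorem commutator_le_of (R Q : Subgroup P) [R.Normal] {y : P}
    (htop : Q ⊔ Subgroup.zpowers y = ⊤) (hy : ∀ q ∈ Q, ⁅y, q⁆ ∈ R)
    (hQ : ∀ q ∈ Q, ∀ r ∈ Q, ⁅q, r⁆ ∈ R) : commutator P ≤ R := by
  let φ := QuotientGroup.mk' R
  have hc : ∀ a b : P, ⁅a, b⁆ ∈ R → φ a * φ b = φ b * φ a := fun a b h => by
    rw [← commutatorElement_eq_one_iff_mul_comm, ← map_commutatorElement]
    exact (QuotientGroup.eq_one_iff _).2 h
  have hall : ∀ b : P, (∀ q ∈ Q, φ q * φ b = φ b * φ q) → φ y * φ b = φ b * φ y →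
      ∀ a : P, φ a * φ b = φ b * φ a := by
    intro b h1 h2 a
    have : ⊤ ≤ (Subgroup.centralizer ({φ b} : Set (P ⧸ R))).comap φ := by
      rw [← htop]
      refine sup_le (fun q hq => ?_) ((Subgroup.zpowers_le).2 ?_)
      · exact Subgroup.mem_centralizer_singleton_iff.2 (h1 q hq)
      · exact Subgroup.mem_centralizer_singleton_iff.2 h2
    exact Subgroup.mem_centralizer_singleton_iff.1 (this (Subgroup.mem_top a))
  have hQall : ∀ q ∈ Q, ∀ a : P, φ a * φ q = φ q * φ a := fun q hq =>
    hall q (fun r hr => hc r q (hQ r hr q hq)) (hc y q (hy q hq))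
  have hyall : ∀ a : P, φ a * φ y = φ y * φ a :=
    hall y (fun r hr => (hQall r hr y).symm) rfl
  rw [_root_.commutator_def, Subgroup.commutator_le]
  intro a _ b _
  rw [← QuotientGroup.eq_one_iff (N := R)]
  show φ ⁅a, b⁆ = 1
  rw [map_commutatorElement, commutatorElement_eq_one_iff_mul_comm]
  exact hall b (fun q hq => (hQall q hq b).symm) (hyall b).symm a

variable [Finite P] [hp : Fact p.Prime]

theorem sup_zpowers_eq_top {Q : Subgroup P} (hQ : Q.index = p) {y : P} (hy : y ∉ Q) :
    Q ⊔ Subgroup.zpowers y = ⊤ := by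
  rcases (Nat.dvd_prime hp.out).1
      (hQ ▸ Subgroup.index_dvd_of_le (le_sup_left : Q ≤ Q ⊔ Subgroup.zpowers y)) with h | h
  · exact Subgroup.index_eq_one.1 h
  · have hlt : Q < Q ⊔ Subgroup.zpowers y := lt_of_le_of_ne le_sup_left fun e =>
      hy (e.ge (Subgroup.mem_sup_right (Subgroup.mem_zpowers y)))
    have := Subgroup.index_strictAnti hlt
    omega

/-- An abelian subgroup of index `p` gives centralizers of order `p ^ 2`. -/
theorem card_centralizer_of_abelian (Q : Subgroup P) [hQn : Q.Normal]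
    (hab : ∀ q ∈ Q, ∀ r ∈ Q, q * r = r * q) (hQ : Q.index = p)
    (h2 : (commutator P).index = p ^ 2) {y : P} (hy : y ∉ Q) :
    Nat.card (Subgroup.centralizer ({y} : Set P)) = p ^ 2 := by
  have htop := sup_zpowers_eq_top hQ hy
  have hmem : ∀ q : Q, ⁅y, (q : P)⁆ ∈ Q := fun q => by
    rw [commutatorElement_def]
    exact mul_mem (hQn.conj_mem _ q.2 y) (inv_mem q.2)
  let f : Q →* Q := MonoidHom.mk' (fun q => ⟨⁅y, (q : P)⁆, hmem q⟩) (fun q r => Subtype.ext (by
    have h1 : (q : P)⁻¹ * ⁅y, (r : P)⁆ = ⁅y, (r : P)⁆ * (q : P)⁻¹ :=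
      hab _ (inv_mem q.2) _ (hmem r)
    show ⁅y, (q : P) * (r : P)⁆ = ⁅y, (q : P)⁆ * ⁅y, (r : P)⁆
    calc ⁅y, (q : P) * (r : P)⁆ = y * (q : P) * y⁻¹ * (⁅y, (r : P)⁆ * (q : P)⁻¹) := by
          simp only [commutatorElement_def]; group
      _ = _ := by
          rw [← h1]; simp only [commutatorElement_def]; group))
  set R := f.range.map Q.subtype with hR
  have hRQ : R ≤ Q := Subgroup.map_subtype_le _
  haveI hRn : R.Normal := by
    rw [← Subgroup.normalizer_eq_top_iff]
    apply top_unique
    rw [← htop]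
    refine sup_le (fun q hq => ?_) ((Subgroup.zpowers_le).2 ?_)
    · rw [Subgroup.mem_normalizer_iff]
      intro r
      constructor
      · intro hr
        rw [hab q hq r (hRQ hr), mul_inv_cancel_right]
        exact hr
      · intro hr
        have hrQ : r ∈ Q := by
          have := mul_mem (mul_mem (inv_mem hq) (hRQ hr)) hq
          simpa [mul_assoc] using this
        rwa [hab q hq r hrQ, mul_inv_cancel_right] at hr
    · rw [Subgroup.mem_normalizer_iff_map_conj_eq]
      refine Subgroup.eq_of_le_of_card_ge ?_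
        (Nat.card_congr (Subgroup.equivMapOfInjective R _ (MulEquiv.injective _)).toEquiv).le
      rintro _ ⟨_, ⟨_, ⟨q, rfl⟩, rfl⟩, rfl⟩
      refine ⟨f ⟨y * q * y⁻¹, hQn.conj_mem _ q.2 y⟩, ⟨_, rfl⟩, ?_⟩
      simp [f, commutatorElement_def, mul_assoc]
  have hcomm : commutator P = R := by
    refine le_antisymm (commutator_le_of R Q htop (fun q hq => ⟨f ⟨q, hq⟩, ⟨_, rfl⟩, rfl⟩)
      fun q hq r hr => ?_) ?_
    · rw [commutatorElement_eq_one_iff_mul_comm.2 (hab q hq r hr)]
      exact one_mem _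
    · rintro _ ⟨_, ⟨q, rfl⟩, rfl⟩
      exact Subgroup.commutator_mem_commutator (Subgroup.mem_top y) (Subgroup.mem_top (q : P))
  have hcR : Nat.card (commutator P) = Nat.card f.range := by
    rw [hcomm, hR, Subgroup.card_map_of_injective Q.subtype_injective]
  have hker : Nat.card f.ker = p := by
    have e1 := Subgroup.card_mul_index f.ker
    rw [Subgroup.index_ker] at e1
    have e2 := Subgroup.card_mul_index Q
    have e3 := Subgroup.card_mul_index (commutator P)
    rw [hQ, ← e1] at e2
    rw [h2, hcR, ← e2] at e3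
    have hpos : 0 < Nat.card f.range := Nat.card_pos
    refine Nat.eq_of_mul_eq_mul_right (Nat.mul_pos hpos hp.out.pos) ?_
    calc Nat.card f.ker * (Nat.card f.range * p) = Nat.card f.ker * Nat.card f.range * p := by ring
      _ = Nat.card f.range * p ^ 2 := e3.symm
      _ = p * (Nat.card f.range * p) := by ring
  set C := Subgroup.centralizer ({y} : Set P) with hC
  have hkC : f.ker = C.subgroupOf Q := by
    ext q
    rw [MonoidHom.mem_ker, Subgroup.mem_subgroupOf, hC, Subgroup.mem_centralizer_singleton_iff]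
    show (⟨⁅y, (q : P)⁆, hmem q⟩ : Q) = 1 ↔ _
    rw [Subtype.ext_iff]
    exact commutatorElement_eq_one_iff_mul_comm.trans eq_comm
  have hsup : C ⊔ Q = ⊤ := top_unique (htop.ge.trans (sup_le le_sup_right
    ((Subgroup.zpowers_le).2 (Subgroup.mem_sup_left
      (Subgroup.mem_centralizer_singleton_iff.2 rfl)))))
  have hidx : (Q.subgroupOf C).index = p := by
    show Q.relIndex C = p
    rw [← Subgroup.relIndex_sup_right, hsup, Subgroup.relIndex_top_right, hQ]
  have := Subgroup.card_mul_index (Q.subgroupOf C)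
  rw [hidx] at this
  rw [← this, pow_two]
  congr 1
  rw [← hker, hkC]
  exact Nat.card_congr
    { toFun := fun z => ⟨⟨z.1.1, z.2⟩, z.1.2⟩
      invFun := fun z => ⟨⟨z.1.1, z.2⟩, z.1.2⟩
      left_inv := fun _ => rfl
      right_inv := fun _ => rfl }

theorem commutator_eq_bot_of_cyclic [IsCyclic P] : commutator P = ⊥ := by
  letI := IsCyclic.commGroup (α := P)
  rw [eq_bot_iff, _root_.commutator_def, Subgroup.commutator_le]
  intro a _ b _
  rw [Subgroup.mem_bot, commutatorElement_eq_one_iff_mul_comm, mul_comm]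

/-- Where a normal subgroup outside the Frattini subgroup lies. -/
theorem dichotomy (hP : IsPGroup p P) (h2 : (commutator P).index = p ^ 2)
    (hne : commutator P ≠ ⊥) (Q : Subgroup P) [Q.Normal] (hQ : ¬ Q ≤ frattini P) :
    Q = ⊤ ∨ (Q.index = p ∧ commutator P ≤ Q) := by
  have hF : (frattini P).index = p ^ 2 := by
    obtain ⟨i, hi, hi'⟩ := (Nat.dvd_prime_pow hp.out).1
      (h2 ▸ Subgroup.index_dvd_of_le (PGroup.commutator_le_frattini hP))
    rw [hi']
    congr 1
    by_contra hlt
    haveI := PGroup.isCyclic_of_index_frattini_le hP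
      (hi' ▸ (Nat.pow_le_pow_right hp.out.pos (show i ≤ 1 by omega)).trans (pow_one p).le)
    exact hne commutator_eq_bot_of_cyclic
  have hFeq : commutator P = frattini P :=
    Subgroup.eq_of_le_of_card_ge (PGroup.commutator_le_frattini hP) (le_of_eq (by
      have e1 := Subgroup.card_mul_index (commutator P)
      have e2 := Subgroup.card_mul_index (frattini P)
      rw [h2, ← e2, hF] at e1
      exact (Nat.eq_of_mul_eq_mul_right (pow_pos hp.out.pos 2) e1).symm))
  obtain ⟨i, hi, hi'⟩ := (Nat.dvd_prime_pow hp.out).1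
    (hF ▸ Subgroup.index_dvd_of_le (le_sup_right : frattini P ≤ Q ⊔ frattini P))
  interval_cases i
  · exact Or.inl (frattini_nongenerating (Subgroup.index_eq_one.1 (by rw [hi', pow_zero])))
  · rw [pow_one] at hi'
    obtain ⟨y, hy⟩ : ∃ y, y ∉ Q ⊔ frattini P := by
      by_contra h
      push Not at h
      rw [show Q ⊔ frattini P = ⊤ from top_unique fun y _ => h y, Subgroup.index_top] at hi'
      exact hp.out.one_lt.ne hi'
    have htop : Q ⊔ Subgroup.zpowers y = ⊤ := frattini_nongenerating (by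
      rw [← sup_zpowers_eq_top hi' hy, sup_right_comm])
    have hle : commutator P ≤ Q := by
      refine commutator_le_of Q Q htop (fun q hq => ?_)
        fun q hq r hr => Subgroup.commutator_le_self Q (Subgroup.commutator_mem_commutator hq hr)
      rw [commutatorElement_def]
      exact mul_mem (Subgroup.Normal.conj_mem inferInstance q hq y) (inv_mem hq)
    refine Or.inr ⟨?_, hle⟩
    rwa [sup_eq_left.2 (hFeq ▸ hle)] at hi'
  · exact absurd (le_of_eq (Subgroup.eq_of_le_of_card_ge le_sup_right (le_of_eq (by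
      have e1 := Subgroup.card_mul_index (Q ⊔ frattini P)
      have e2 := Subgroup.card_mul_index (frattini P)
      rw [hi', ← e2, hF] at e1
      exact Nat.eq_of_mul_eq_mul_right (pow_pos hp.out.pos 2) e1))).symm)
      (fun h => hQ (le_sup_left.trans h))

theorem index_commutator_of_small (hP : IsPGroup p P) (hbig : p ^ 2 ∣ Nat.card P) (x : P)
    (hx : Nat.card (Subgroup.centralizer ({x} : Set P)) ≤ p ^ 2) :
    (commutator P).index = p ^ 2 := by
  obtain ⟨n, hn⟩ := IsPGroup.iff_card.1 hP
  have hn2 : 2 ≤ n := by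
    rw [hn] at hbig
    exact (Nat.pow_dvd_pow_iff_le_right hp.out.one_lt).1 hbig
  haveI := hP.isNilpotent
  have hcl := FGSev.nilpotencyClass_of_small_centralizer n P hn hn2 x hx
  obtain ⟨r, hrn, hr⟩ := (Nat.dvd_prime_pow hp.out).1 (hn ▸ Subgroup.index_dvd_card (commutator P))
  rw [hr]
  congr 1
  rcases eq_or_lt_of_le hn2 with h | h
  · have hb : commutator P = ⊥ := by
      letI := IsPGroup.commGroupOfCardEqPrimeSq (hn.trans (by rw [← h]))
      rw [eq_bot_iff, _root_.commutator_def, Subgroup.commutator_le]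
      intro a _ b _
      rw [Subgroup.mem_bot, commutatorElement_eq_one_iff_mul_comm, mul_comm]
    rw [hb, Subgroup.index_bot, hn] at hr
    exact ((Nat.pow_right_injective hp.out.two_le hr).symm.trans h.symm)
  · have hne : commutator P ≠ ⊥ := by
      intro hb
      have : Group.nilpotencyClass P ≤ 1 := by
        rw [Group.IsNilpotent.nilpotencyClass_le_one_iff]
        exact ⟨⟨fun a b => commutatorElement_eq_one_iff_mul_comm.1 (Subgroup.mem_bot.1
          (hb ▸ Subgroup.commutator_mem_commutator (Subgroup.mem_top a) (Subgroup.mem_top b)))⟩⟩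
      omega
    have hr2 : 2 ≤ r := by
      by_contra hlt
      haveI := PGroup.isCyclic_of_index_frattini_le hP
        ((Nat.le_of_dvd (Nat.pos_of_ne_zero Subgroup.index_ne_zero_of_finite)
          (Subgroup.index_dvd_of_le (PGroup.commutator_le_frattini hP))).trans
          (hr ▸ (Nat.pow_le_pow_right hp.out.pos (show r ≤ 1 by omega)).trans (pow_one p).le))
      exact hne commutator_eq_bot_of_cyclic
    have h1 := (S0662.result n hn hcl (by omega)).1
    have h2 := h1 (commutator P) r hr2 hr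
    by_contra hr'
    set L : ℕ → Subgroup P := (⊤ : Subgroup P).lowerCentralSeries with hL
    have hL1 : L 1 = commutator P := by simp [hL, _root_.commutator_def]
    have hanti : Antitone L := Subgroup.lowerCentralSeries_antitone _
    have h3 : L 2 = L 1 :=
      le_antisymm (hanti (by omega)) (by rw [hL1, h2]; exact hanti (by omega))
    have h4 : ∀ k, L (k + 1) = L 1 := by
      intro k
      induction k with
      | zero => rfl
      | succ k ih =>
        show ⁅L (k + 1), (⊤ : Subgroup P)⁆ = L 1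
        rw [ih]
        exact h3
    have h5 : L (n - 1) = ⊥ :=
      Subgroup.lowerCentralSeries_eq_bot_iff_nilpotencyClass_le.2 hcl.le
    rw [show n - 1 = (n - 2) + 1 by omega, h4, hL1] at h5
    exact hne h5

end PGroup

section Main

variable {G : Type*} [Group G] [Finite G] {p : ℕ} [hp : Fact p.Prime]

theorem relIndex_commutator (P : Subgroup G) : (⁅P, P⁆).relIndex P = (commutator P).index := by
  show ((⁅P, P⁆).subgroupOf P).index = _
  congr 1
  have h : (commutator P).map P.subtype = ⁅P, P⁆ := by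
    rw [_root_.commutator_def, Subgroup.map_commutator, ← MonoidHom.range_eq_map,
      Subgroup.range_subtype]
  rw [← h, Subgroup.subgroupOf, Subgroup.comap_map_eq_self_of_injective P.subtype_injective]

/-- A conjugate in `P` of a `p`-element whose centraliser is seen by a Sylow subgroup. -/
theorem exists_conj_mem (P : Sylow p G) {x : G} (hx : ∃ k : ℕ, orderOf x = p ^ k) :
    ∃ (g : G) (hmem : g * x * g⁻¹ ∈ (P : Subgroup G)),
      p ^ (Nat.card (Subgroup.centralizer ({x} : Set G))).factorization p ∣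
        Nat.card (Subgroup.centralizer ({(⟨_, hmem⟩ : (P : Subgroup G))} : Set (P : Subgroup G))) := by
  set C := Subgroup.centralizer ({x} : Set G) with hC
  obtain ⟨S⟩ := (Sylow.nonempty : Nonempty (Sylow p C))
  have hxC : x ∈ C := Subgroup.mem_centralizer_singleton_iff.2 rfl
  haveI : (Subgroup.zpowers (⟨x, hxC⟩ : C)).Normal := ⟨by
    intro z hz a
    obtain ⟨i, rfl⟩ := Subgroup.mem_zpowers_iff.1 hz
    have hcm : Commute a (⟨x, hxC⟩ : C) :=
      Subtype.ext (Subgroup.mem_centralizer_singleton_iff.1 a.2)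
    rw [(hcm.zpow_right i).eq, mul_inv_cancel_right]
    exact hz⟩
  have hxS : (⟨x, hxC⟩ : C) ∈ (S : Subgroup C) := by
    obtain ⟨k, hk⟩ := hx
    exact IsPGroup.le_sylow_of_normal
      (IsPGroup.of_card (n := k) (by rw [Nat.card_zpowers, Subgroup.orderOf_mk, hk])) S
      (Subgroup.mem_zpowers _)
  obtain ⟨Q, hQ⟩ := (S.2.map C.subtype).exists_le_sylow
  obtain ⟨g, hg⟩ := MulAction.exists_smul_eq G Q P
  have hconj : ∀ z ∈ (Q : Subgroup G), g * z * g⁻¹ ∈ (P : Subgroup G) := by
    intro z hz
    rw [← hg, Sylow.coe_subgroup_smul]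
    exact Subgroup.smul_mem_pointwise_smul z (MulAut.conj g) _ hz
  refine ⟨g, hconj x (hQ ⟨_, hxS, rfl⟩), ?_⟩
  rw [← S.card_eq_multiplicity]
  have hmap : ∀ z : (S : Subgroup C), g * ((z : C) : G) * g⁻¹ ∈ (P : Subgroup G) :=
    fun z => hconj _ (hQ ⟨_, z.2, rfl⟩)
  let φ : (S : Subgroup C) →* (P : Subgroup G) :=
    MonoidHom.mk' (fun z => ⟨_, hmap z⟩) fun a b => Subtype.ext (by simp [mul_assoc])
  have hinj : Function.Injective φ := fun a b h => by
    have := congrArg Subtype.val h
    simp only [φ, MonoidHom.mk'_apply, mul_left_inj, mul_right_inj] at this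
    exact Subtype.ext (Subtype.ext this)
  rw [Nat.card_congr (MonoidHom.ofInjective hinj).toEquiv]
  refine Subgroup.card_dvd_of_le ?_
  rintro _ ⟨z, rfl⟩
  refine Subgroup.mem_centralizer_singleton_iff.2 (Subtype.ext ?_)
  have hz : ((z : C) : G) * x = x * ((z : C) : G) :=
    Subgroup.mem_centralizer_singleton_iff.1 (z : C).2
  show g * ((z : C) : G) * g⁻¹ * (g * x * g⁻¹) = g * x * g⁻¹ * (g * ((z : C) : G) * g⁻¹)
  calc _ = g * (((z : C) : G) * x) * g⁻¹ := by group
    _ = g * (x * ((z : C) : G)) * g⁻¹ := by rw [hz]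
    _ = _ := by group

/-- Success once there is an abelian normal piece of index `p` in `P`. -/
theorem exists_of_piece (P : Sylow p G) (M : Subgroup G) [M.Normal]
    (h2 : (commutator (P : Subgroup G)).index = p ^ 2)
    (hidx : (M.subgroupOf (P : Subgroup G)).index = p)
    (hab : ∀ q ∈ M.subgroupOf (P : Subgroup G), ∀ r ∈ M.subgroupOf (P : Subgroup G), q * r = r * q) :
    ∃ x : G, (∃ k : ℕ, orderOf x = p ^ k) ∧
      (Nat.card (Subgroup.centralizer ({x} : Set G))).factorization p = 2 := by
  obtain ⟨y, hy⟩ : ∃ y, y ∉ M.subgroupOf (P : Subgroup G) := by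
    by_contra h
    push Not at h
    have e : M.subgroupOf (P : Subgroup G) = ⊤ := top_unique fun y _ => h y
    rw [e, Subgroup.index_top] at hidx
    exact hp.out.one_lt.ne hidx
  have hk : ∃ k : ℕ, orderOf (y : G) = p ^ k := by
    obtain ⟨k, hk⟩ := IsPGroup.iff_orderOf.1 P.2 y
    exact ⟨k, by rw [Subgroup.orderOf_coe, hk]⟩
  refine ⟨y, hk, le_antisymm ?_ ?_⟩
  · obtain ⟨g, hmem, hd⟩ := exists_conj_mem P hk
    rw [card_centralizer_of_abelian (M.subgroupOf (P : Subgroup G)) hab hidx h2 (by
      intro h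
      refine hy (Subgroup.mem_subgroupOf.2 ?_)
      have := Subgroup.Normal.conj_mem (inferInstanceAs M.Normal) _ (Subgroup.mem_subgroupOf.1 h) g⁻¹
      simpa [mul_assoc] using this)] at hd
    exact (Nat.pow_dvd_pow_iff_le_right hp.out.one_lt).1 hd
  · refine (hp.out.pow_dvd_iff_le_factorization Nat.card_pos.ne').1 ?_
    rw [← card_centralizer_of_abelian (M.subgroupOf (P : Subgroup G)) hab hidx h2 hy,
      ← Subgroup.card_map_of_injective (P : Subgroup G).subtype_injective]
    refine Subgroup.card_dvd_of_le ?_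
    rintro _ ⟨z, hz, rfl⟩
    exact Subgroup.mem_centralizer_singleton_iff.2
      (congrArg Subtype.val (Subgroup.mem_centralizer_singleton_iff.1 hz))

theorem not_isPGroup_of_simple {T : Type*} [Group T] [Finite T] [IsSimpleGroup T]
    (hna : ¬ IsMulCommutative T) : ¬ IsPGroup p T := by
  intro h
  haveI := h.center_nontrivial
  rcases (inferInstance : (Subgroup.center T).Normal).eq_bot_or_eq_top with e | e
  · exact (Subgroup.nontrivial_iff_ne_bot _).1 ‹_› e
  · exact hna ⟨⟨fun a b => Subgroup.mem_center_iff.1 (e ▸ Subgroup.mem_top b) a⟩⟩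

theorem no_complement {R : Type*} [Group R] [Finite R] (T : Subgroup R) [IsSimpleGroup T]
    (hna : ¬ IsMulCommutative T) (hpT : p ∣ Nat.card T) : ¬ Cfsg.HasNormalPComplement p R := by
  rintro ⟨S, N, hN, hc⟩
  haveI := hN
  rcases (inferInstance : (N.subgroupOf T).Normal).eq_bot_or_eq_top with e | e
  · refine not_isPGroup_of_simple hna (p := p) ?_
    have hq : IsPGroup p (R ⧸ N) := IsPGroup.of_card (n := (Nat.card R).factorization p) (by
      rw [← Subgroup.index_eq_card, hc.symm.index_eq_card, S.card_eq_multiplicity])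
    refine hq.of_injective ((QuotientGroup.mk' N).comp T.subtype) ?_
    rw [← MonoidHom.ker_eq_bot_iff, ← MonoidHom.comap_ker, QuotientGroup.ker_mk']
    exact e
  · have hle : T ≤ N := Subgroup.subgroupOf_eq_top.1 e
    have h1 := hpT.trans (Subgroup.card_dvd_of_le hle)
    rw [← hc.index_eq_card] at h1
    exact S.not_dvd_index h1

/-- Tate for a subgroup normalized by `P`. -/
theorem not_le_frattini (P : Sylow p G) (R T : Subgroup G)
    (hPR : (P : Subgroup G) ≤ Subgroup.normalizer (R : Set G)) (hTR : T ≤ R) [IsSimpleGroup T]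
    (hna : ¬ IsMulCommutative T) (hpT : p ∣ Nat.card T) :
    ¬ R.subgroupOf (P : Subgroup G) ≤ frattini (P : Subgroup G) := by
  intro hle
  set K := Subgroup.normalizer (R : Set G) with hK
  have hRK : R ≤ K := Subgroup.le_normalizer
  haveI : (R.subgroupOf K).Normal := Subgroup.normal_in_normalizer
  have hc := Transfer.hasNormalPComplement_of_inf_le_frattini (P.subtype hPR) (R.subgroupOf K) (by
    rintro z ⟨hzR, hzP⟩
    refine ⟨⟨z, hzP⟩, ?_, rfl⟩
    let e : (P : Subgroup G) ≃* ((P.subtype hPR : Sylow p K) : Subgroup K) :=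
      (Subgroup.subgroupOfEquivOfLe hPR).symm
    show (⟨z, hzP⟩ : ((P.subtype hPR : Sylow p K) : Subgroup K)) ∈
      Order.radical (Subgroup ((P.subtype hPR : Sylow p K) : Subgroup K))
    rw [← (MulEquiv.mapSubgroup e).map_radical, MulEquiv.coe_mapSubgroup]
    exact ⟨⟨(z : G), hzP⟩, hle (Subgroup.mem_subgroupOf.2 hzR), rfl⟩)
  let e : ((T.subgroupOf K).subgroupOf (R.subgroupOf K)) ≃* T :=
    (Subgroup.subgroupOfEquivOfLe (fun a ha => hTR ha : T.subgroupOf K ≤ R.subgroupOf K)).trans
      (Subgroup.subgroupOfEquivOfLe (hTR.trans hRK))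
  haveI : IsSimpleGroup ((T.subgroupOf K).subgroupOf (R.subgroupOf K)) := e.isSimpleGroup
  refine no_complement ((T.subgroupOf K).subgroupOf (R.subgroupOf K)) (fun h => hna ?_)
    (by rwa [Nat.card_congr e.toEquiv]) hc
  exact ⟨⟨fun a b => e.symm.injective (by rw [map_mul, map_mul]; exact h.is_comm.comm _ _)⟩⟩

open RecogA in
/-- The orbit argument for a unique nonabelian minimal normal subgroup that is not simple. -/
theorem unique_case (P : Sylow p G) (M T : Subgroup G) [M.Normal]
    (h2 : (commutator (P : Subgroup G)).index = p ^ 2) (hne : commutator (P : Subgroup G) ≠ ⊥)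
    (hCM : Subgroup.centralizer (M : Set G) = ⊥)
    (hTM : T ≤ M) (hTn : M ≤ Subgroup.normalizer (T : Set G)) [hTs : IsSimpleGroup T]
    (hTna : ¬ IsMulCommutative T) (hpT : p ∣ Nat.card T)
    (hdisj : ∀ g : G, cjg g T ≠ T → T ⊓ cjg g T = ⊥ ∧ ∀ a ∈ T, ∀ b ∈ cjg g T, Commute a b)
    (hsup : (⨆ g : G, cjg g T) = M) (hTne : T ≠ M) :
    ∃ x : G, (∃ k : ℕ, orderOf x = p ^ k) ∧
      (Nat.card (Subgroup.centralizer ({x} : Set G))).factorization p = 2 := by
  classical
  have hcc : ∀ a b : G, cjg a (cjg b T) = cjg (a * b) T := fun a b => by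
    ext z; simp [mem_cjg, mul_assoc]
  have hone : cjg 1 T = T := by ext z; simp [mem_cjg]
  have hcomm : ∀ g h : G, cjg g T ≠ cjg h T →
      ∀ a ∈ cjg g T, ∀ b ∈ cjg h T, Commute a b := by
    intro g h hgh a ha b hb
    have hne' : cjg (g⁻¹ * h) T ≠ T := fun e => hgh (by
      have := congrArg (cjg g) e
      rw [hcc, mul_inv_cancel_left] at this
      exact this.symm)
    have hb' : g⁻¹ * b * g ∈ cjg (g⁻¹ * h) T := by
      rw [mem_cjg] at hb ⊢; simpa [mul_assoc] using hb
    have := (hdisj _ hne').2 _ (mem_cjg.1 ha) _ hb'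
    have h' := congrArg (fun z => g * z * g⁻¹) this.eq
    simpa [Commute, SemiconjBy, mul_assoc] using h'
  have hinner : ∀ m ∈ M, cjg m T = T := fun m hm => by
    ext z
    rw [mem_cjg]
    have := Subgroup.mem_normalizer_iff.1 (hTn (inv_mem hm)) z
    simpa using this.symm
  set Pg := (P : Subgroup G) with hPg
  -- the orbit of a conjugate
  let R : G → Subgroup G := fun g => ⨆ u : Pg, cjg ((u : G) * g) T
  have hRM : ∀ g, R g ≤ M := fun g => iSup_le fun u => hsup ▸ le_iSup (fun h => cjg h T) _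
  have hRmem : ∀ g, cjg g T ≤ R g := fun g =>
    le_iSup_of_le (1 : Pg) (by rw [OneMemClass.coe_one, one_mul])
  have hRP : ∀ g, Pg ≤ Subgroup.normalizer (R g : Set G) := by
    intro g v hv
    rw [Subgroup.mem_normalizer_iff_map_conj_eq]
    refine Subgroup.eq_of_le_of_card_ge ?_
      (Nat.card_congr (Subgroup.equivMapOfInjective (R g) _ (MulEquiv.injective _)).toEquiv).le
    rw [Subgroup.map_iSup]
    refine iSup_le fun u => le_iSup_of_le (⟨v, hv⟩ * u : Pg) (le_of_eq ?_)
    show cjg v (cjg ((u : G) * g) T) = _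
    rw [hcc, Subgroup.coe_mul, mul_assoc]
  have hTi : ∀ g, Nat.card (cjg g T) = Nat.card T := fun g =>
    Subgroup.card_map_of_injective (MulEquiv.injective _)
  -- a single orbit
  have horb : ∀ g : G, ∃ u : Pg, cjg g T = cjg (u : G) T := by
    by_contra hno
    push Not at hno
    obtain ⟨g, hg⟩ := hno
    have hdif : ∀ u w : Pg, cjg ((u : G) * 1) T ≠ cjg ((w : G) * g) T := by
      intro u w e
      apply hg (w⁻¹ * u)
      have := congrArg (cjg (w : G)⁻¹) e
      rw [hcc, hcc, inv_mul_cancel_left, mul_one] at this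
      rw [Subgroup.coe_mul, Subgroup.coe_inv]
      exact this.symm
    have hRR : R 1 ⊓ R g = ⊥ := by
      refine eq_bot_iff.2 fun z hz => ?_
      rw [← hCM]
      intro m hm
      have : M ≤ Subgroup.centralizer ({z} : Set G) := by
        conv_lhs => rw [← hsup]
        refine iSup_le fun h => ?_
        by_cases hh : ∃ u : Pg, cjg h T = cjg ((u : G) * 1) T
        · obtain ⟨u, hu⟩ := hh
          have hz' : R g ≤ Subgroup.centralizer (cjg h T : Set G) := iSup_le fun w b hb a ha =>
            hcomm h ((w : G) * g) (by rw [hu]; exact hdif u w) a ha b hb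
          exact fun a ha => Subgroup.mem_centralizer_singleton_iff.2 (hz' hz.2 a ha)
        · push Not at hh
          have hz' : R 1 ≤ Subgroup.centralizer (cjg h T : Set G) := iSup_le fun w b hb a ha =>
            hcomm h ((w : G) * 1) (hh w) a ha b hb
          exact fun a ha => Subgroup.mem_centralizer_singleton_iff.2 (hz' hz.1 a ha)
      exact Subgroup.mem_centralizer_singleton_iff.1 (this hm)
    have key : ∀ a, (R a).subgroupOf Pg = ⊤ ∨
        (((R a).subgroupOf Pg).index = p ∧ commutator Pg ≤ (R a).subgroupOf Pg) := by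
      intro a
      haveI : ((R a).subgroupOf Pg).Normal := ⟨fun z hz v =>
        (Subgroup.mem_normalizer_iff.1 (hRP a v.2) (z : G)).1 hz⟩
      have e : T ≃* cjg a T := Subgroup.equivMapOfInjective T _ (MulEquiv.injective _)
      haveI : IsSimpleGroup (cjg a T) := e.symm.isSimpleGroup
      refine dichotomy P.2 h2 hne _ (not_le_frattini P (R a) (cjg a T) (hRP a) (hRmem a)
        (fun h => hTna ?_) (by rw [hTi]; exact hpT))
      exact ⟨⟨fun x y => e.injective
        (by rw [map_mul, map_mul]; exact h.is_comm.comm _ _)⟩⟩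
    have hbot : (R 1).subgroupOf Pg ⊓ (R g).subgroupOf Pg = ⊥ := by
      rw [← Subgroup.bot_subgroupOf Pg, ← hRR]; rfl
    refine hne (eq_bot_iff.2 ?_)
    rw [← hbot]
    refine le_inf ?_ ?_
    · rcases key 1 with h | h
      · rw [h]; exact le_top
      · exact h.2
    · rcases key g with h | h
      · rw [h]; exact le_top
      · exact h.2
  set Q := M.subgroupOf Pg with hQdef
  have hQfix : ∀ q : Pg, q ∈ Q → cjg (q : G) T = T := fun q hq => hinner _ hq
  have hQtop : Q ≠ ⊤ := by
    intro h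
    refine hTne (le_antisymm hTM ?_)
    rw [← hsup]
    refine iSup_le fun g => ?_
    obtain ⟨u, hu⟩ := horb g
    rw [hu, hQfix u (h ▸ Subgroup.mem_top u)]
  have hQF : ¬ Q ≤ frattini Pg := not_le_frattini P M T
    (by rw [Subgroup.normalizer_eq_top_iff.2 inferInstance]; exact le_top) hTM hTna hpT
  obtain hQ' | ⟨hidx, -⟩ := dichotomy P.2 h2 hne Q hQF
  · exact absurd hQ' hQtop
  refine exists_of_piece P M h2 hidx ?_
  obtain ⟨y, hy⟩ : ∃ y, y ∉ Q := by
    by_contra h
    push Not at h
    exact hQtop (top_unique fun y _ => h y)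
  have htop := sup_zpowers_eq_top hidx hy
  have hyp : y ^ p ∈ Q := hidx ▸ Q.pow_index_mem y
  let St : Subgroup G :=
    { carrier := {g | cjg g T = T}
      one_mem' := hone
      mul_mem' := fun {a b} ha hb => by
        show cjg (a * b) T = T
        rw [← hcc, show cjg b T = T from hb, show cjg a T = T from ha]
      inv_mem' := fun {a} ha => by
        show cjg a⁻¹ T = T
        conv_lhs => rw [← show cjg a T = T from ha]
        rw [hcc, inv_mul_cancel, hone] }
  have hmove : ∀ i : ℕ, 0 < i → i < p → cjg ((y : G) ^ i) T ≠ T := by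
    intro i hi0 hip hfix
    refine hTne (le_antisymm hTM ?_)
    have hy1 : (y : G) ∈ St := by
      have hc : Nat.Coprime i p := (Nat.coprime_comm.1 ((hp.out.coprime_iff_not_dvd).2
        (Nat.not_dvd_of_pos_of_lt hi0 hip)))
      obtain ⟨a, b, hab⟩ := Nat.isCoprime_iff_coprime.2 hc
      have h4 : (y : G) ^ p ∈ St := by
        have := hQfix _ hyp
        rwa [SubgroupClass.coe_pow] at this
      rw [← zpow_one (y : G), ← hab, zpow_add, mul_comm a, zpow_mul, mul_comm b, zpow_mul,
        zpow_natCast, zpow_natCast]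
      exact mul_mem (zpow_mem (show (y : G) ^ i ∈ St from hfix) a) (zpow_mem h4 b)
    have hall : ⊤ ≤ St.subgroupOf Pg := by
      rw [← htop]
      exact sup_le (fun q hq => hQfix q hq) (Subgroup.zpowers_le.2 hy1)
    rw [← hsup]
    refine iSup_le fun g => ?_
    obtain ⟨u, hu⟩ := horb g
    rw [hu, show cjg (u : G) T = T from hall (Subgroup.mem_top u)]
  -- the projection on the factor `T`
  haveI hTnorm : (T.subgroupOf M).Normal :=
    Subgroup.normal_subgroupOf_iff_le_normalizer hTM |>.2 hTn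
  set C := Subgroup.centralizer ((T.subgroupOf M : Subgroup M) : Set M) with hCdef
  haveI : C.Normal := Subgroup.normal_centralizer
  let f : M →* M ⧸ C := QuotientGroup.mk' C
  have hfT : Function.Injective (fun t : T => f ⟨t, hTM t.2⟩) := by
    intro a b hab
    have h1 : (⟨(a : G), hTM a.2⟩ : M)⁻¹ * ⟨b, hTM b.2⟩ ∈ C := QuotientGroup.eq.1 hab
    have h3 : a⁻¹ * b ∈ Subgroup.center T := Subgroup.mem_center_iff.2 fun t => by
      apply Subtype.ext
      exact congrArg (fun z : M => (z : G)) (h1 ⟨t, hTM t.2⟩ (Subgroup.mem_subgroupOf.2 t.2))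
    rcases (inferInstance : (Subgroup.center T).Normal).eq_bot_or_eq_top with e | e
    · rw [e, Subgroup.mem_bot, inv_mul_eq_one] at h3
      exact h3
    · exact absurd ⟨⟨fun u v => Subgroup.mem_center_iff.1 (e ▸ Subgroup.mem_top v) u⟩⟩ hTna
  have hfC : ∀ (g : G) (m : M), cjg g T ≠ T → (m : G) ∈ cjg g T → f m = 1 := by
    intro g m hg hm
    refine (QuotientGroup.eq_one_iff m).2 fun t ht => ?_
    exact Subtype.ext ((hdisj g hg).2 _ (Subgroup.mem_subgroupOf.1 ht) _ hm).eq
  have hftop : ∀ z : M ⧸ C, ∃ t : T, f ⟨t, hTM t.2⟩ = z := by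
    have hcl : ∀ g : G, ∀ m : M, (m : G) ∈ cjg g T → f m ∈ (T.subgroupOf M).map f := by
      intro g m hm
      by_cases hg : cjg g T = T
      · exact ⟨m, Subgroup.mem_subgroupOf.2 (hg ▸ hm), rfl⟩
      · rw [hfC g m hg hm]; exact one_mem _
    have hle : M ≤ (((T.subgroupOf M).map f).comap f).map M.subtype := by
      conv_lhs => rw [← hsup]
      refine iSup_le fun g m hm => ?_
      exact ⟨⟨m, hsup ▸ le_iSup (fun h => cjg h T) g hm⟩, hcl g _ hm, rfl⟩
    intro z
    obtain ⟨m, rfl⟩ := QuotientGroup.mk'_surjective C z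
    obtain ⟨m', hm', hmm⟩ := hle m.2
    obtain rfl : m' = m := Subtype.ext hmm
    obtain ⟨t, ht, hte⟩ := hm'
    exact ⟨⟨t, Subgroup.mem_subgroupOf.1 ht⟩, hte⟩
  let ι : Q →* M := MonoidHom.mk' (fun q => ⟨((q : Pg) : G), q.2⟩) fun a b => rfl
  set H := (f.comp ι).range with hH
  have hHp : IsPGroup p H :=
    ((P.2.to_subgroup Q).of_surjective (f.comp ι).rangeRestrict (f.comp ι).rangeRestrict_surjective)
  -- `P ∩ T` maps onto `H`
  have hQ1 : ∀ h ∈ H, ∃ t : Q, ((t : Pg) : G) ∈ T ∧ f (ι t) = h := by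
    let φ : (T.subgroupOf Pg) →* H := MonoidHom.mk'
      (fun t => ⟨f (ι ⟨(t : Pg), Subgroup.mem_subgroupOf.2 (hTM t.2)⟩),
        ⟨⟨(t : Pg), Subgroup.mem_subgroupOf.2 (hTM t.2)⟩, rfl⟩⟩)
      fun a b => Subtype.ext (by
        show f _ = f _ * f _
        rw [← map_mul, ← map_mul]; rfl)
    have hφ : Function.Injective φ := by
      intro a b hab
      have := hfT (a₁ := ⟨((a : Pg) : G), a.2⟩) (a₂ := ⟨((b : Pg) : G), b.2⟩)
        (congrArg Subtype.val hab)
      exact Subtype.ext (Subtype.ext (congrArg (fun z : T => (z : G)) this))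
    have hcard : Nat.card H ≤ Nat.card (T.subgroupOf Pg) := by
      obtain ⟨k, hk⟩ := IsPGroup.iff_card.1 hHp
      obtain ⟨S⟩ := (Sylow.nonempty : Nonempty (Sylow p T))
      have hd : p ^ k ∣ Nat.card T := by
        have e : T ≃ M ⧸ C := Equiv.ofBijective _ ⟨hfT, hftop⟩
        rw [Nat.card_congr e, ← hk]
        exact Subgroup.card_subgroup_dvd_card H
      have hk' : Nat.card H ≤ Nat.card (S : Subgroup T) := by
        rw [hk, S.card_eq_multiplicity]
        exact Nat.pow_le_pow_right hp.out.pos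
          ((hp.out.pow_dvd_iff_le_factorization Nat.card_pos.ne').1 hd)
      obtain ⟨Q0, hQ0⟩ := (S.2.map T.subtype).exists_le_sylow
      obtain ⟨g, hg⟩ := MulAction.exists_smul_eq G Q0 P
      obtain ⟨u, hu⟩ := horb g
      have hmem : ∀ s : (S : Subgroup T),
          (u : G)⁻¹ * (g * ((s : T) : G) * g⁻¹) * (u : G) ∈ (T ⊓ Pg : Subgroup G) := by
        intro s
        have h1 : g * ((s : T) : G) * g⁻¹ ∈ Pg := by
          rw [hPg, ← hg, Sylow.coe_subgroup_smul]
          exact Subgroup.smul_mem_pointwise_smul _ (MulAut.conj g) _ (hQ0 ⟨_, s.2, rfl⟩)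
        have h2 : g * ((s : T) : G) * g⁻¹ ∈ cjg g T := mem_cjg.2 (by simpa [mul_assoc] using (s : T).2)
        rw [hu, mem_cjg] at h2
        exact Subgroup.mem_inf.2 ⟨h2, Pg.mul_mem (Pg.mul_mem (Pg.inv_mem u.2) h1) u.2⟩
      refine hk'.trans (Nat.card_le_card_of_injective
        (fun s => (⟨⟨_, (hmem s).2⟩, (hmem s).1⟩ : T.subgroupOf Pg)) ?_)
      intro a b hab
      have := congrArg (fun z : T.subgroupOf Pg => ((z : Pg) : G)) hab
      simp only [mul_left_inj, mul_right_inj] at this
      exact Subtype.ext (Subtype.ext this)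
    have hbij := Nat.bijective_iff_injective_and_card φ |>.2
      ⟨hφ, le_antisymm (Nat.card_le_card_of_injective φ hφ) hcard⟩
    intro h hh
    obtain ⟨t, ht⟩ := hbij.2 ⟨h, hh⟩
    exact ⟨⟨(t : Pg), Subgroup.mem_subgroupOf.2 (hTM t.2)⟩, t.2, congrArg Subtype.val ht⟩
  -- the sum over the cycle
  have hconjQ : ∀ (i : ℕ) (q : Q), y ^ i * (q : Pg) * (y ^ i)⁻¹ ∈ Q := fun i q =>
    Subgroup.Normal.conj_mem inferInstance _ q.2 _
  let π : Q →* Abelianization H := Abelianization.of.comp (f.comp ι).rangeRestrict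
  let cq : ℕ → Q → Q := fun i q => ⟨_, hconjQ i q⟩
  let ψ : Q →* Abelianization H := MonoidHom.mk' (fun q => ∏ i ∈ Finset.range p, π (cq i q))
    fun a b => by
      rw [← Finset.prod_mul_distrib]
      refine Finset.prod_congr rfl fun i _ => ?_
      rw [← map_mul]
      congr 1
      refine Subtype.ext ?_
      simp [cq, mul_assoc]
  have hψy : ∀ q : Q, ψ (cq 1 q) = ψ q := by
    intro q
    show ∏ i ∈ Finset.range p, π (cq i (cq 1 q)) = ∏ i ∈ Finset.range p, π (cq i q)
    have e : ∀ i, cq i (cq 1 q) = cq (i + 1) q := fun i =>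
      Subtype.ext (by simp [cq, pow_succ, mul_assoc])
    simp only [e]
    have e0 : π (cq p q) = π (cq 0 q) := by
      have : cq p q = ⟨y ^ p, hyp⟩ * cq 0 q * (⟨y ^ p, hyp⟩ : Q)⁻¹ :=
        Subtype.ext (by simp [cq])
      rw [this, map_mul, map_mul, map_inv, mul_right_comm, mul_inv_cancel, one_mul]
    have h3 := Finset.prod_range_succ' (fun i => π (cq i q)) p
    rw [Finset.prod_range_succ, e0] at h3
    exact (mul_right_cancel h3).symm
  have hψT : ∀ t : Q, ((t : Pg) : G) ∈ T → ψ t = π t := by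
    intro t ht
    show ∏ i ∈ Finset.range p, π (cq i t) = π t
    rw [Finset.prod_eq_single 0]
    · congr 1; exact Subtype.ext (by simp [cq])
    · intro i hi hi0
      have h1 : f (ι (cq i t)) = 1 :=
        hfC ((y : G) ^ i) _ (hmove i (Nat.pos_of_ne_zero hi0) (Finset.mem_range.1 hi))
          (mem_cjg.2 (by
            show ((y : G) ^ i)⁻¹ * ((cq i t : Pg) : G) * (y : G) ^ i ∈ T
            simp [cq, mul_assoc]; exact ht))
      show Abelianization.of ((f.comp ι).rangeRestrict (cq i t)) = 1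
      rw [show (f.comp ι).rangeRestrict (cq i t) = 1 from Subtype.ext h1, map_one]
    · intro h; exact absurd (Finset.mem_range.2 hp.out.pos) h
  have hψs : Function.Surjective ψ := by
    intro a
    obtain ⟨h, rfl⟩ := QuotientGroup.mk_surjective a
    obtain ⟨t, ht, hth⟩ := hQ1 h h.2
    refine ⟨t, (hψT t ht).trans ?_⟩
    show Abelianization.of ((f.comp ι).rangeRestrict t) = _
    rw [show (f.comp ι).rangeRestrict t = h from Subtype.ext hth]
    rfl
  set K := ψ.ker.map Q.subtype with hK
  haveI : K.Normal := by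
    rw [← Subgroup.normalizer_eq_top_iff]
    apply top_unique
    rw [← htop]
    refine sup_le (fun q hq => ?_) ((Subgroup.zpowers_le).2 ?_)
    · rw [Subgroup.mem_normalizer_iff_map_conj_eq]
      refine Subgroup.eq_of_le_of_card_ge ?_
        (Nat.card_congr (Subgroup.equivMapOfInjective K _ (MulEquiv.injective _)).toEquiv).le
      rintro _ ⟨_, ⟨k, hk, rfl⟩, rfl⟩
      refine ⟨(⟨q, hq⟩ : Q) * k * (⟨q, hq⟩ : Q)⁻¹,
        Subgroup.Normal.conj_mem inferInstance k hk _, ?_⟩
      simp
    · rw [Subgroup.mem_normalizer_iff_map_conj_eq]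
      refine Subgroup.eq_of_le_of_card_ge ?_
        (Nat.card_congr (Subgroup.equivMapOfInjective K _ (MulEquiv.injective _)).toEquiv).le
      rintro _ ⟨_, ⟨k, hk, rfl⟩, rfl⟩
      refine ⟨cq 1 k, MonoidHom.mem_ker.2 ((hψy k).trans hk), ?_⟩
      simp [cq]
  have hle : commutator Pg ≤ K := by
    refine commutator_le_of K Q htop (fun q hq => ?_) fun q hq r hr => ?_
    · refine ⟨cq 1 ⟨q, hq⟩ * (⟨q, hq⟩ : Q)⁻¹, MonoidHom.mem_ker.2 (by
        rw [map_mul, map_inv, hψy, mul_inv_cancel]), ?_⟩
      simp [cq, commutatorElement_def]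
    · exact ⟨⁅(⟨q, hq⟩ : Q), ⟨r, hr⟩⁆, MonoidHom.mem_ker.2 (by
        rw [map_commutatorElement, commutatorElement_eq_one_iff_mul_comm, mul_comm]), rfl⟩
  have hAb : Nat.card (Abelianization H) ≤ p := by
    have e1 : ψ.ker.index = Nat.card (Abelianization H) := by
      rw [Subgroup.index_ker, MonoidHom.range_eq_top.2 hψs, Subgroup.card_top]
    have e2 : K.index = ψ.ker.index * Q.index := by
      rw [hK, Subgroup.index_map_subtype]
    have e3 := Subgroup.index_dvd_of_le hle
    rw [h2, e2, e1, hidx, pow_two] at e3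
    exact Nat.le_of_dvd hp.out.pos (Nat.dvd_of_mul_dvd_mul_right hp.out.pos e3)
  have hHab : ∀ a b : H, a * b = b * a := by
    have hF : (frattini H).index ≤ p := by
      refine le_trans (Nat.le_of_dvd (Nat.pos_of_ne_zero Subgroup.index_ne_zero_of_finite)
        (Subgroup.index_dvd_of_le (PGroup.commutator_le_frattini hHp))) ?_
      rw [Subgroup.index_eq_card]
      exact hAb
    haveI := PGroup.isCyclic_of_index_frattini_le hHp hF
    exact fun a b => IsMulCommutative.is_comm.comm a b
  intro q hq r hr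
  rw [← commutatorElement_eq_one_iff_mul_comm]
  refine Subtype.ext ?_
  rw [OneMemClass.coe_one, ← Subgroup.mem_bot, ← hCM]
  have hc : ⁅q, r⁆ ∈ Q := mul_mem (mul_mem (mul_mem hq hr) (inv_mem hq)) (inv_mem hr)
  have key : M ≤ Subgroup.centralizer ({((⁅q, r⁆ : Pg) : G)} : Set G) := by
    conv_lhs => rw [← hsup]
    refine iSup_le fun g => ?_
    obtain ⟨u, hu⟩ := horb g
    intro m hm
    rw [hu, mem_cjg] at hm
    have hq' : (u⁻¹ : Pg) * q * u ∈ Q := by
      simpa using Subgroup.Normal.conj_mem inferInstance q hq u⁻¹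
    have hr' : (u⁻¹ : Pg) * r * u ∈ Q := by
      simpa using Subgroup.Normal.conj_mem inferInstance r hr u⁻¹
    have h0 : (f.comp ι).rangeRestrict ⁅(⟨_, hq'⟩ : Q), ⟨_, hr'⟩⁆ = 1 := by
      rw [map_commutatorElement, commutatorElement_eq_one_iff_mul_comm]
      exact hHab _ _
    have h1 := (QuotientGroup.eq_one_iff _).1 (congrArg Subtype.val h0 :
      f (ι ⁅(⟨_, hq'⟩ : Q), ⟨_, hr'⟩⁆) = 1)
    have h4 := congrArg (fun z : M => (u : G) * (z : G) * (u : G)⁻¹)
      (h1 ⟨_, hTM hm⟩ (Subgroup.mem_subgroupOf.2 hm))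
    refine Subgroup.mem_centralizer_singleton_iff.2 ?_
    simpa [ι, commutatorElement_def, mul_assoc] using h4
  intro m hm
  exact Subgroup.mem_centralizer_singleton_iff.1 (key hm)

theorem forward (P : Sylow p G) (hbig : p ^ 2 ∣ Nat.card G) (hcore : Cfsg.pPrimeCore p G = ⊥)
    (hcore' : (⁅(P : Subgroup G), (P : Subgroup G)⁆).normalCore = ⊥)
    (hnas : ¬ ∃ S : Subgroup G, S.Normal ∧ IsSimpleGroup S ∧ ¬ IsMulCommutative S ∧
      Subgroup.centralizer (S : Set G) = ⊥)
    (h2 : (commutator (P : Subgroup G)).index = p ^ 2) :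
    ∃ x : G, (∃ k : ℕ, orderOf x = p ^ k) ∧
      (Nat.card (Subgroup.centralizer ({x} : Set G))).factorization p = 2 := by
  by_cases hne : commutator (P : Subgroup G) = ⊥
  · refine ⟨1, ⟨0, by simp⟩, ?_⟩
    have htop : Subgroup.centralizer ({1} : Set G) = ⊤ := eq_top_iff.mpr fun x _ => by
      simp [Subgroup.mem_centralizer_singleton_iff]
    rw [htop, Subgroup.card_top]
    rw [hne, Subgroup.index_bot, P.card_eq_multiplicity] at h2
    exact Nat.pow_right_injective hp.out.two_le h2
  haveI : Nontrivial G := Finite.one_lt_card_iff_nontrivial.1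
    (lt_of_lt_of_le (Nat.one_lt_pow (by norm_num) hp.out.one_lt) (Nat.le_of_dvd Nat.card_pos hbig))
  have hnonorm : ∀ M : Subgroup G, M.Normal → M ≠ ⊥ → ¬ M ≤ ⁅(P : Subgroup G), (P : Subgroup G)⁆ :=
    fun M hM hM1 h => hM1 (eq_bot_iff.2 (hcore' ▸ Subgroup.normal_le_normalCore.2 h))
  by_cases hab : ∃ M : Subgroup G, M.Normal ∧ M ≠ ⊥ ∧ IsMulCommutative M ∧
      ∀ L : Subgroup G, L.Normal → L ≤ M → L = ⊥ ∨ L = M
  · obtain ⟨M, hMn, hM1, hMc, hmin⟩ := hab
    haveI := hMn
    haveI : Group.IsSolvable M := by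
      haveI := hMc
      exact isSolvable_of_comm fun a b => IsMulCommutative.is_comm.comm a b
    obtain ⟨-, q, hq, -, hMq⟩ := MinNormal.elementary_abelian M hM1 hmin
    haveI := Fact.mk hq
    obtain ⟨k, hk⟩ := IsPGroup.iff_card.1 hMq
    have hqp : q = p := by
      by_contra hqp
      refine hM1 (eq_bot_iff.2 (hcore ▸ Cores.le_pPrimeCore hMn ?_))
      rw [hk]
      exact Nat.Coprime.pow_left k ((Nat.coprime_primes hq hp.out).2 hqp)
    subst hqp
    have hMP : M ≤ (P : Subgroup G) := hMq.le_sylow_of_normal P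
    have habQ : ∀ a ∈ M.subgroupOf (P : Subgroup G), ∀ b ∈ M.subgroupOf (P : Subgroup G),
        a * b = b * a := fun a ha b hb => Subtype.ext (by
          have := congrArg Subtype.val (hMc.is_comm.comm (⟨_, ha⟩ : M) ⟨_, hb⟩)
          exact this)
    have hQF : ¬ M.subgroupOf (P : Subgroup G) ≤ frattini (P : Subgroup G) := by
      intro h
      refine hnonorm M hMn hM1 fun m hm => ?_
      have hFc : frattini (P : Subgroup G) ≤ commutator (P : Subgroup G) := by
        refine le_of_eq (Subgroup.eq_of_le_of_card_ge (PGroup.commutator_le_frattini P.2) ?_).symm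
        have e1 := Subgroup.card_mul_index (commutator (P : Subgroup G))
        have e2 := Subgroup.card_mul_index (frattini (P : Subgroup G))
        rw [h2] at e1
        obtain ⟨i, hi, hi'⟩ := (Nat.dvd_prime_pow hp.out).1
          (h2 ▸ Subgroup.index_dvd_of_le (PGroup.commutator_le_frattini P.2))
        have : i = 2 := by
          by_contra hlt
          haveI := PGroup.isCyclic_of_index_frattini_le P.2
            (hi' ▸ (Nat.pow_le_pow_right hp.out.pos (show i ≤ 1 by omega)).trans (pow_one q).le)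
          exact hne commutator_eq_bot_of_cyclic
        rw [hi', this, ← e1] at e2
        exact (Nat.eq_of_mul_eq_mul_right (pow_pos hp.out.pos 2) e2).le
      have hm' := Subgroup.mem_map_of_mem (P : Subgroup G).subtype
        (hFc (h (show (⟨m, hMP hm⟩ : (P : Subgroup G)) ∈ M.subgroupOf _ from hm)))
      rwa [_root_.commutator_def, Subgroup.map_commutator, ← MonoidHom.range_eq_map,
        Subgroup.range_subtype] at hm'
    rcases dichotomy P.2 h2 hne _ hQF with h | ⟨h, -⟩
    · refine absurd ?_ hne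
      rw [eq_bot_iff, _root_.commutator_def, Subgroup.commutator_le]
      intro a _ b _
      rw [Subgroup.mem_bot, commutatorElement_eq_one_iff_mul_comm]
      exact habQ a (h ▸ Subgroup.mem_top a) b (h ▸ Subgroup.mem_top b)
    · exact exists_of_piece P M h2 h habQ
  · push Not at hab
    obtain ⟨M, hMn, hM1, hmin⟩ := MinNormal.exists_minimal_normal (G := G)
    have hnab : ∀ M' : Subgroup G, M'.Normal → M' ≠ ⊥ →
        (∀ L : Subgroup G, L.Normal → L ≤ M' → L = ⊥ ∨ L = M') → ¬ IsMulCommutative M' :=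
      fun M' h1 h2 h3 hc => by
        obtain ⟨L, hL1, hL2, hL3, hL4⟩ := hab M' h1 h2 hc
        rcases h3 L hL1 hL2 with e | e
        · exact hL3 e
        · exact hL4 e
    have fact : ∀ M' : Subgroup G, M'.Normal → M' ≠ ⊥ →
        (∀ L : Subgroup G, L.Normal → L ≤ M' → L = ⊥ ∨ L = M') →
        ∃ T : Subgroup G, T ≤ M' ∧ M' ≤ Subgroup.normalizer (T : Set G) ∧ IsSimpleGroup T ∧
          ¬ IsMulCommutative T ∧
          (∀ g : G, RecogA.cjg g T ≠ T → T ⊓ RecogA.cjg g T = ⊥ ∧
            ∀ a ∈ T, ∀ b ∈ RecogA.cjg g T, Commute a b) ∧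
          (⨆ g : G, RecogA.cjg g T) = M' ∧ p ∣ Nat.card T := by
      intro M' h1 h2' h3
      haveI := h1
      obtain ⟨T, a1, a2, a3, a4, a5, a6⟩ := RecogA.exists_simple_factor M' h2'
        (fun L hL hLM hL1 => (h3 L hL hLM).resolve_left hL1) (hnab M' h1 h2' h3)
      refine ⟨T, a1, a2, a3, a4, a5, a6, ?_⟩
      by_contra hpT
      refine h2' (eq_bot_iff.2 ?_)
      have hcj : ∀ g, RecogA.cjg g T ≤ (Cfsg.pPrimeCore p M').map M'.subtype := by
        intro g
        have hle : RecogA.cjg g T ≤ M' := a6 ▸ le_iSup (fun h => RecogA.cjg h T) g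
        haveI : ((RecogA.cjg g T).subgroupOf M').Normal := by
          rw [Subgroup.normal_subgroupOf_iff hle]
          intro x m hx hm
          rw [RecogA.mem_cjg] at hx ⊢
          have hm' : g⁻¹ * m * g ∈ M' := by simpa using h1.conj_mem m hm g⁻¹
          have := (Subgroup.mem_normalizer_iff.1 (a2 hm') _).1 hx
          simpa [mul_assoc] using this
        intro z hz
        refine ⟨⟨z, hle hz⟩, Cores.le_pPrimeCore_of_not_dvd ‹_› ?_ (Subgroup.mem_subgroupOf.2 hz), rfl⟩
        rw [Nat.card_congr (Subgroup.subgroupOfEquivOfLe hle).toEquiv,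
          Subgroup.card_map_of_injective (MulEquiv.injective _)]
        exact hpT
      rw [← hcore]
      calc M' = ⨆ g : G, RecogA.cjg g T := a6.symm
        _ ≤ _ := iSup_le fun g => (hcj g).trans Cores.map_subtype_pPrimeCore_le
    by_cases huniq : ∀ M' : Subgroup G, M'.Normal → M' ≠ ⊥ →
        (∀ L : Subgroup G, L.Normal → L ≤ M' → L = ⊥ ∨ L = M') → M' = M
    · obtain ⟨T, a1, a2, a3, a4, a5, a6, a7⟩ := fact M hMn hM1 hmin
      haveI := hMn
      have hCM : Subgroup.centralizer (M : Set G) = ⊥ := by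
        by_contra h
        obtain ⟨M', b1, b2, b3, b4⟩ :=
          MinNormal.exists_minimal_normal_le (Subgroup.centralizer (M : Set G)) h
        rw [huniq M' b1 b2 b4] at b3
        exact hnab M hMn hM1 hmin ⟨⟨fun a b => Subtype.ext ((b3 a.2 (b : G) b.2).symm)⟩⟩
      haveI := a3
      exact unique_case P M T h2 hne hCM a1 a2 a4 a7 a5 a6
        fun e => hnas ⟨M, hMn, e ▸ a3, hnab M hMn hM1 hmin, hCM⟩
    · push Not at huniq
      obtain ⟨M', b1, b2, b3, b4⟩ := huniq
      have key : ∀ L : Subgroup G, L.Normal → L ≠ ⊥ →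
          (∀ K : Subgroup G, K.Normal → K ≤ L → K = ⊥ ∨ K = L) →
          commutator (P : Subgroup G) ≤ L.subgroupOf (P : Subgroup G) := by
        intro L hL hL1 hL2
        obtain ⟨T, a1, -, a3, a4, -, -, a7⟩ := fact L hL hL1 hL2
        haveI := hL
        haveI := a3
        rcases dichotomy P.2 h2 hne (L.subgroupOf (P : Subgroup G))
          (not_le_frattini P L T (by rw [Subgroup.normalizer_eq_top_iff.2 hL]; exact le_top)
            a1 a4 a7) with h | h
        · rw [h]; exact le_top
        · exact h.2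
      refine absurd (eq_bot_iff.2 ?_) hne
      have hd : M ⊓ M' = ⊥ := by
        rcases hmin (M ⊓ M') (by haveI := hMn; haveI := b1; infer_instance) inf_le_left with e | e
        · exact e
        · have hle : M ≤ M' := inf_eq_left.1 e
          rcases b3 M hMn hle with e' | e'
          · exact absurd e' hM1
          · exact absurd e'.symm b4
      intro z hz
      have h3 : (z : G) ∈ M ⊓ M' := ⟨key M hMn hM1 hmin hz, key M' b1 b2 b3 hz⟩
      rw [hd, Subgroup.mem_bot] at h3
      exact Subgroup.mem_bot.2 (Subtype.ext h3)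

end Main

/-- Let G be a finite group, p a prime and P a Sylow p-subgroup of order at least p². Assume that G has no nontrivial normal subgroup of order prime to p, that the derived subgroup P' of P contains no nontrivial normal subgroup of G, and that G is not almost simple (there is no non-abelian simple normal subgroup of G with trivial centralizer). Then [P : P'] = p² if and only if some p-element x of G has centralizer whose order has p-part exactly p². -/
theorem result {G : Type*} [Group G] [Finite G] (p : ℕ) [Fact p.Prime] (P : Sylow p G) (hbig : p ^ 2 ∣ Nat.card G) (hcore : Cfsg.pPrimeCore p G = ⊥)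
    (hcore' : (⁅(P : Subgroup G), (P : Subgroup G)⁆).normalCore = ⊥) (hnas : ¬ ∃ S : Subgroup G, S.Normal ∧ IsSimpleGroup S ∧ ¬ IsMulCommutative S ∧ Subgroup.centralizer (S : Set G) = ⊥) :
    (⁅(P : Subgroup G), (P : Subgroup G)⁆).relIndex (P : Subgroup G) = p ^ 2 ↔
      ∃ x : G, (∃ k : ℕ, orderOf x = p ^ k) ∧ (Nat.card (Subgroup.centralizer ({x} : Set G))).factorization p = 2 := by
  have hp : p.Prime := Fact.out
  rw [relIndex_commutator]
  constructor
  · exact forward P hbig hcore hcore' hnas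
  · rintro ⟨x, hx, hx2⟩
    obtain ⟨g, hmem, hd⟩ := exists_conj_mem P hx
    refine index_commutator_of_small P.2 ?_ ⟨_, hmem⟩ ?_
    · rw [P.card_eq_multiplicity]
      exact pow_dvd_pow p ((hp.pow_dvd_iff_le_factorization Nat.card_pos.ne').1 hbig)
    · obtain ⟨j, hj⟩ := IsPGroup.iff_card.1
        (P.2.to_subgroup (Subgroup.centralizer ({(⟨_, hmem⟩ : (P : Subgroup G))} : Set (P : Subgroup G))))
      rw [hj]
      refine Nat.pow_le_pow_right hp.pos ?_
      have hdvd : p ^ j ∣ Nat.card (Subgroup.centralizer ({x} : Set G)) := by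
        rw [← hj]
        let e : (P : Subgroup G) →* G := (MulAut.conj g⁻¹).toMonoidHom.comp (P : Subgroup G).subtype
        rw [← Subgroup.card_map_of_injective (f := e)
          (fun a b h => Subtype.ext ((MulAut.conj g⁻¹).injective h))]
        refine Subgroup.card_dvd_of_le ?_
        rintro _ ⟨z, hz, rfl⟩
        have hz' := congrArg Subtype.val (Subgroup.mem_centralizer_singleton_iff.1 hz)
        refine Subgroup.mem_centralizer_singleton_iff.2 ?_
        show g⁻¹ * (z : G) * g⁻¹⁻¹ * x = x * (g⁻¹ * (z : G) * g⁻¹⁻¹)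
        calc _ = g⁻¹ * ((z : G) * (g * x * g⁻¹)) * g := by group
          _ = g⁻¹ * ((g * x * g⁻¹) * (z : G)) * g := by
              rw [show (z : G) * (g * x * g⁻¹) = (g * x * g⁻¹) * (z : G) from hz']
          _ = _ := by group
      have := (hp.pow_dvd_iff_le_factorization Nat.card_pos.ne').1 hdvd
      omega

end Cfsg.Agent.S4587
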