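import Cfsg.Statements.S4588
import Cfsg.Agent.BlkChar.ContribBounds
import Cfsg.Agent.BlkChar.OrderPForm
import Cfsg.Agent.BlkChar.RegCriterion
import Cfsg.Agent.BlockVal.HeightZero
import Cfsg.Agent.S0919
import Cfsg.Agent.S0936
import Cfsg.Agent.S4646

set_option autoImplicit false
set_option linter.style.haveILetI false
open Cfsg

namespace Cfsg.Agent.S4588

open Cfsg.Agent.BlkChar
open Cfsg.Agent.BlkChar.Contrib
open Cfsg.Agent.BlkChar.Cyclo
open Cfsg.Agent.BlkChar.OrderPForm
open Cfsg.Agent.Block (isPrime_of_isPModular)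
open Cfsg.Agent.Brauer (regSum)
open scoped ComplexConjugate Classical

universe v

theorem bil_add_left {ι : Type*} (X : Finset ι) (p m : ℤ) (s a b c : ι → ℤ) :
    bil X p m s (a + b) c = bil X p m s a c + bil X p m s b c := by
  simp only [bil, Pi.add_apply, add_mul, mul_add, Finset.sum_add_distrib]
  ring

theorem bil_comm {ι : Type*} (X : Finset ι) (p m : ℤ) (s a b : ι → ℤ) :
    bil X p m s a b = bil X p m s b a := by
  simp only [bil, mul_comm (a _) (b _)]
  ring

theorem bil_smul_left {ι : Type*} (X : Finset ι) (p m c : ℤ) (s a b : ι → ℤ) :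
    bil X p m s (fun χ => c * a χ) b = c * bil X p m s a b := by
  simp only [bil, mul_sub, Finset.mul_sum, Finset.sum_mul]
  congr 1
  · exact Finset.sum_congr rfl fun χ _ => by ring
  · exact Finset.sum_congr rfl fun χ _ => Finset.sum_congr rfl fun χ' _ => by ring

theorem bil_sum_left {ι κ : Type*} (X : Finset ι) (p m : ℤ) (s b : ι → ℤ) (S : Finset κ)
    (a : κ → ι → ℤ) :
    bil X p m s (∑ k ∈ S, a k) b = ∑ k ∈ S, bil X p m s (a k) b := by
  induction S using Finset.induction_on with
  | empty => simp [bil]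
  | insert k S hk ih => rw [Finset.sum_insert hk, Finset.sum_insert hk, bil_add_left, ih]

theorem bil_sum_both {ι κ : Type*} (X : Finset ι) (p m : ℤ) (s : ι → ℤ) (S T : Finset κ)
    (a : κ → ι → ℤ) :
    bil X p m s (∑ k ∈ S, a k) (∑ l ∈ T, a l) = ∑ k ∈ S, ∑ l ∈ T, bil X p m s (a k) (a l) := by
  rw [bil_sum_left]
  refine Finset.sum_congr rfl fun k _ => ?_
  rw [bil_comm, bil_sum_left]
  exact Finset.sum_congr rfl fun l _ => bil_comm ..

/-- Differences of a family of vectors: either all vanish or the total is large. -/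
theorem sum_diff_cases {ι κ : Type*} [Fintype κ] (X : Finset ι) {p m : ℤ} {s : ι → ℤ}
    (hm : 1 ≤ m) (hs : ∀ χ ∈ X, s χ = 1 ∨ s χ = -1) (hp : (X.card : ℤ) * m + 1 = p)
    (g : κ → ι → ℤ) :
    (∑ i, ∑ j, bil X p m s (g i - g j) (g i - g j)) = 0 ∨
      2 * ((Fintype.card κ : ℤ) - 1) * X.card ≤
        ∑ i, ∑ j, bil X p m s (g i - g j) (g i - g j) := by
  set D : κ → κ → ℤ := fun i j => bil X p m s (g i - g j) (g i - g j) with hD
  have hlow : ∀ i j, (∃ χ ∈ X, g i χ ≠ g j χ) → (X.card : ℤ) ≤ D i j := fun i j ⟨χ, hχ, h⟩ =>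
    le_bil_self X hm hs hp ⟨χ, hχ, sub_ne_zero.2 h⟩
  have hzero : ∀ i j, (∀ χ ∈ X, g i χ = g j χ) → D i j = 0 := by
    intro i j h
    simp only [hD, bil, Pi.sub_apply]
    rw [Finset.sum_eq_zero fun χ hχ => by rw [h χ hχ, sub_self, zero_mul],
      Finset.sum_eq_zero fun χ hχ => by rw [h χ hχ, sub_self, mul_zero]]
    ring
  have hnn : ∀ i j, 0 ≤ D i j := fun i j => by
    by_cases h : ∀ χ ∈ X, g i χ = g j χ
    · rw [hzero i j h]
    · push Not at h
      exact le_trans (by positivity) (hlow i j h)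
  by_cases hall : ∀ i j, ∀ χ ∈ X, g i χ = g j χ
  · exact Or.inl (Finset.sum_eq_zero fun i _ => Finset.sum_eq_zero fun j _ => hzero i j (hall i j))
  push Not at hall
  obtain ⟨i0, i1, χ, hχ, hne⟩ := hall
  refine Or.inr ?_
  have h01 : i0 ≠ i1 := fun h => hne (by rw [h])
  have hrow : ∀ i, (X.card : ℤ) ≤ D i i0 + D i i1 ∧ (X.card : ℤ) ≤ D i0 i + D i1 i := by
    intro i
    by_cases h : g i χ = g i0 χ
    · have h1 : g i χ ≠ g i1 χ := by rw [h]; exact hne
      exact ⟨le_add_of_nonneg_of_le (hnn _ _) (hlow _ _ ⟨χ, hχ, h1⟩),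
        le_add_of_nonneg_of_le (hnn _ _) (hlow _ _ ⟨χ, hχ, h1.symm⟩)⟩
    · exact ⟨le_add_of_le_of_nonneg (hlow _ _ ⟨χ, hχ, h⟩) (hnn _ _),
        le_add_of_le_of_nonneg (hlow _ _ ⟨χ, hχ, Ne.symm h⟩) (hnn _ _)⟩
  set S : Finset κ := Finset.univ \ {i0, i1} with hS
  have hcard : (S.card : ℤ) + 2 = Fintype.card κ := by
    have h := Finset.card_sdiff_add_card_eq_card (Finset.subset_univ ({i0, i1} : Finset κ))
    rw [Finset.card_pair h01, Finset.card_univ] at h
    exact_mod_cast h
  have hsplit : ∑ i, ∑ j, D i j = ∑ i ∈ S, ∑ j, D i j + (∑ j, D i0 j + ∑ j, D i1 j) := by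
    rw [← Finset.sum_sdiff (Finset.subset_univ ({i0, i1} : Finset κ)), Finset.sum_pair h01]
  have h1 : (S.card : ℤ) * X.card ≤ ∑ i ∈ S, ∑ j, D i j := by
    rw [← nsmul_eq_mul, ← Finset.sum_const]
    refine Finset.sum_le_sum fun i _ => (hrow i).1.trans ?_
    rw [← Finset.sum_pair h01 (f := fun j => D i j)]
    exact Finset.sum_le_univ_sum_of_nonneg (hnn i)
  have h2 : (Fintype.card κ : ℤ) * X.card ≤ ∑ j, D i0 j + ∑ j, D i1 j := by
    rw [← Finset.sum_add_distrib, ← nsmul_eq_mul, ← Finset.card_univ, ← Finset.sum_const]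
    exact Finset.sum_le_sum fun i _ => (hrow i).2
  show 2 * ((Fintype.card κ : ℤ) - 1) * X.card ≤ ∑ i, ∑ j, D i j
  rw [hsplit]
  nlinarith

theorem sum_diff_eq {ι κ : Type*} [Fintype κ] (X : Finset ι) (p m : ℤ) (s : ι → ℤ)
    (g : κ → ι → ℤ) :
    ∑ i, ∑ j, bil X p m s (g i - g j) (g i - g j) =
      2 * ((Fintype.card κ : ℤ) * ∑ i, bil X p m s (g i) (g i) -
        bil X p m s (∑ i, g i) (∑ i, g i)) := by
  have h : ∀ i j, bil X p m s (g i - g j) (g i - g j) =
      bil X p m s (g i) (g i) + bil X p m s (g j) (g j) - 2 * bil X p m s (g i) (g j) := by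
    intro i j
    have e1 : g i = (g i - g j) + g j := by simp
    have h1 := bil_add_left X p m s (g i - g j) (g j) (g i - g j)
    have h2 := bil_add_left X p m s (g i - g j) (g j) (g j)
    rw [← e1] at h1 h2
    have h3 := bil_add_left X p m s (g i - g j) (g j) (g i)
    rw [← e1] at h3
    rw [bil_comm X p m s (g i) (g i - g j)] at h1
    rw [bil_comm X p m s (g j) (g i - g j), bil_comm X p m s (g i) (g j)] at *
    linarith [bil_comm X p m s (g i - g j) (g i)]
  simp only [h, Finset.sum_sub_distrib, Finset.sum_add_distrib, ← Finset.mul_sum,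
    Finset.sum_const, Finset.card_univ, nsmul_eq_mul, bil_sum_both]
  ring

variable {G : Type v} [Group G] [Fintype G] {p : ℕ} [hp : Fact p.Prime] {M : Ideal AlgInt}

theorem blockHeight_principal (hM : IsPModular p M) (χ : IrrCharacter G) :
    blockHeight p (principalBlock M G) (χ : G → ℂ) = (charDegree (χ : G → ℂ)).factorization p := by
  haveI : M.IsPrime := isPrime_of_isPModular hM
  have h0 : sInf ((fun ψ : IrrCharacter G => (charDegree (ψ : G → ℂ)).factorization p) ''
      principalBlock M G) = 0 := by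
    refine Nat.sInf_eq_zero.2 (Or.inl ⟨Char.trivialIrr G, Cfsg.Agent.Block.mem_blockOf_self (Char.trivialIrr G), ?_⟩)
    have : charDegree ((Char.trivialIrr G : IrrCharacter G) : G → ℂ) = 1 := by
      simp [charDegree, Char.trivialIrr]
    simp [this]
  rw [blockHeight, h0, Nat.sub_zero]

theorem blockDefect_principal (hM : IsPModular p M) :
    blockDefect p (principalBlock M G) = (Nat.card G).factorization p := by
  haveI : M.IsPrime := isPrime_of_isPModular hM
  have h0 : sInf ((fun ψ : IrrCharacter G => (charDegree (ψ : G → ℂ)).factorization p) ''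
      principalBlock M G) = 0 := by
    refine Nat.sInf_eq_zero.2 (Or.inl ⟨Char.trivialIrr G, Cfsg.Agent.Block.mem_blockOf_self (Char.trivialIrr G), ?_⟩)
    have : charDegree ((Char.trivialIrr G : IrrCharacter G) : G → ℂ) = 1 := by
      simp [charDegree, Char.trivialIrr]
    simp [this]
  rw [blockDefect, h0, Nat.sub_zero]

theorem card_eq_heightZero (hM : IsPModular p M) :
    Nat.card {χ : IrrCharacter G // χ ∈ principalBlock M G ∧ ¬ p ∣ charDegree (χ : G → ℂ)} =
      (heightZero p (principalBlock M G)).card := by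
  rw [← card_heightZero]
  refine Nat.card_congr (Equiv.subtypeEquivRight fun χ => and_congr_right fun _ => ?_)
  rw [blockHeight_principal hM, Nat.factorization_eq_zero_iff]
  simp [hp.out, (BlockVal.irr_one_eq_charDegree χ).2]

theorem isInduced_centralizer (hM : IsPModular p M) {u : G} {i : ℕ} (hu : orderOf u = p ^ i) :
    IsInducedBlock M (Subgroup.centralizer ({u} : Set G))
      (principalBlock M (Subgroup.centralizer ({u} : Set G))) (principalBlock M G) := by
  haveI : M.IsPrime := isPrime_of_isPModular hM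
  set C := Subgroup.centralizer ({u} : Set G)
  refine (S0936.result p M hM C _ ?_).2 rfl
  refine S0919.result p M hM (Subgroup.zpowers u) C
    (IsPGroup.of_card (n := i) (by rw [Nat.card_zpowers, hu])) ?_ ?_ ?_ _
    (BrauerPairs.isPBlock_principalBlock _)
  · exact Subgroup.zpowers_le.2 (Subgroup.mem_centralizer_singleton_iff.2 rfl)
  · exact Subgroup.centralizer_le (by simpa using Subgroup.mem_zpowers u)
  · intro c hc
    rw [Subgroup.mem_normalizer_iff]
    intro z
    have hcu : Commute c u := Subgroup.mem_centralizer_singleton_iff.1 hc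
    constructor
    · intro hz
      obtain ⟨n, rfl⟩ := Subgroup.mem_zpowers_iff.1 hz
      rw [(hcu.zpow_right n).eq, mul_inv_cancel_right]
      exact hz
    · intro hz
      obtain ⟨n, hn⟩ := Subgroup.mem_zpowers_iff.1 hz
      refine Subgroup.mem_zpowers_iff.2 ⟨n, ?_⟩
      have : z = c⁻¹ * u ^ n * c := by rw [hn]; group
      rw [this, mul_assoc, ← (hcu.zpow_right n).eq, inv_mul_cancel_left]

/-- A section with block of rank one. -/
theorem bound_rank_one (hM : IsPModular p M) {u : G} {i : ℕ} (hu : orderOf u = p ^ i)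
    (hl : blockRank p (principalBlock M (Subgroup.centralizer ({u} : Set G))) = 1) :
    (heightZero p (principalBlock M G)).card ≤
      p ^ (Nat.card (Subgroup.centralizer ({u} : Set G))).factorization p := by
  haveI : M.IsPrime := isPrime_of_isPModular hM
  set C := Subgroup.centralizer ({u} : Set G) with hC
  haveI := Fintype.ofFinite C
  have hS := isSection_of_orderOf (p := p) hu
  have hind := isInduced_centralizer hM hu
  set B := principalBlock M G
  set H0 := heightZero p B
  set U : ℝ := ((unitSet (p ^ (i + 1))).card : ℝ) with hU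
  have hUpos : 0 < U := Nat.cast_pos.2 (unitSet_card_pos _)
  set q := blockDefect p (principalBlock M C) with hq
  have h1 : ∑ _χ ∈ H0, (H0.card : ℝ) * U ≤
      ∑ χ ∈ H0, (p : ℝ) ^ q * diagSum hS (principalBlock M C) χ :=
    Finset.sum_le_sum fun χ hχ => card_mul_le_diagSum hS hM hind hχ
  rw [Finset.sum_const, nsmul_eq_mul, ← Finset.mul_sum] at h1
  have h2 := sum_diagSum_le hS hM hind.1 H0
  rw [hl, Nat.cast_one, mul_one] at h2
  have h3 : ((H0.card : ℝ)) ^ 2 * U ≤ ((p : ℝ) ^ q) ^ 2 * U := by
    have := h1.trans (mul_le_mul_of_nonneg_left h2 (by positivity))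
    nlinarith
  have h4 := le_of_mul_le_mul_right h3 hUpos
  have h5 : (H0.card : ℝ) ≤ (p : ℝ) ^ q := le_of_pow_le_pow_left₀ two_ne_zero (by positivity) h4
  rw [hq, blockDefect_principal hM] at h5
  exact_mod_cast h5

/-- A central subgroup of order `p` in a group with Sylow subgroup of order `p ^ 2`, not cyclic,
splits off. -/
theorem exists_split {C : Type v} [Group C] [Finite C] {u : C} (hcent : u ∈ Subgroup.center C)
    (ho : orderOf u = p) (h2 : (Nat.card C).factorization p = 2) (Q : Sylow p C)
    (hnc : ¬ IsCyclic (Q : Subgroup C)) :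
    ∃ N : Subgroup C, N.index = p ∧ (Nat.card N).factorization p = 1 ∧
      (∀ y : C, ¬ p ∣ orderOf y → y ∈ N) ∧
      Function.Bijective (fun z : Fin p × N => u ^ (z.1 : ℕ) * (z.2 : C)) := by
  have hu1 : u ≠ 1 := fun h => hp.out.ne_one (by rw [← ho, h, orderOf_one])
  have hQ : Nat.card (Q : Subgroup C) = p ^ 2 := by rw [Q.card_eq_multiplicity, h2]
  haveI : (Subgroup.zpowers u).Normal := ⟨fun z hz g => by
    obtain ⟨n, rfl⟩ := Subgroup.mem_zpowers_iff.1 hz
    rw [Subgroup.mem_center_iff.1 (Subgroup.zpow_mem _ hcent n) g, mul_inv_cancel_right]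
    exact hz⟩
  have huQ : u ∈ (Q : Subgroup C) :=
    IsPGroup.le_sylow_of_normal
      (IsPGroup.of_card (n := 1) (by rw [Nat.card_zpowers, pow_one, ho])) Q
      (Subgroup.mem_zpowers u)
  set uQ : (Q : Subgroup C) := ⟨u, huQ⟩ with huQdef
  have houQ : orderOf uQ = p := by rw [huQdef, Subgroup.orderOf_mk, ho]
  obtain ⟨w, hw⟩ : ∃ w : (Q : Subgroup C), w ∉ Subgroup.zpowers uQ := by
    by_contra h
    push Not at h
    exact hnc ⟨uQ, h⟩
  have how : orderOf w = p := by
    obtain ⟨j, hj, hj'⟩ := (Nat.dvd_prime_pow hp.out).1 (hQ ▸ orderOf_dvd_natCard w)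
    interval_cases j
    · exact absurd (orderOf_eq_one_iff.1 (by simpa using hj')) fun h1 => hw (by rw [h1]; exact one_mem _)
    · rw [hj', pow_one]
    · exact absurd (isCyclic_of_orderOf_eq_card w (by rw [hj', hQ])) hnc
  set R := Subgroup.zpowers w with hR
  have hRi : R.index = p := by
    have h := Subgroup.card_mul_index R
    rw [hR, Nat.card_zpowers, how, hQ, pow_two] at h
    exact Nat.eq_of_mul_eq_mul_left hp.out.pos h
  have huR : uQ ∉ R := by
    intro hmem
    refine hw ?_
    have : Subgroup.zpowers uQ = R := Subgroup.eq_of_le_of_card_ge (Subgroup.zpowers_le.2 hmem)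
      (by rw [hR, Nat.card_zpowers, Nat.card_zpowers, how, houQ])
    rw [this]
    exact Subgroup.mem_zpowers w
  haveI : R.Normal := ⟨fun z hz g => by
    letI := IsPGroup.commGroupOfCardEqPrimeSq hQ
    rwa [mul_comm g z, mul_inv_cancel_right]⟩
  have hQR : Nat.card ((Q : Subgroup C) ⧸ R) = p := by rw [← Subgroup.index_eq_card, hRi]
  haveI := isCyclic_of_prime_card hQR
  letI : CommGroup ((Q : Subgroup C) ⧸ R) := IsCyclic.commGroup
  let lam : (Q : Subgroup C) →* (Q : Subgroup C) ⧸ R := QuotientGroup.mk' R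
  let φ : C →* (Q : Subgroup C) ⧸ R := MonoidHom.transfer lam
  have key : ∀ (k : ℕ) (g₀ : C), g₀⁻¹ * u ^ k * g₀ ∈ (Q : Subgroup C) →
      g₀⁻¹ * u ^ k * g₀ = u ^ k := fun k g₀ _ => by
    rw [mul_assoc, ← Subgroup.mem_center_iff.1 (Subgroup.pow_mem _ hcent k) g₀, inv_mul_cancel_left]
  have hφu : φ u ≠ 1 := by
    show MonoidHom.transfer lam u ≠ 1
    rw [MonoidHom.transfer_eq_pow lam u key]
    intro h
    have h' : (lam uQ) ^ (Q : Subgroup C).index = 1 := by
      rw [← map_pow, ← h]
      congr 1
    have hne : lam uQ ≠ 1 := fun h1 => huR ((QuotientGroup.eq_one_iff _).1 h1)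
    have hord : orderOf (lam uQ) = p :=
      ((hp.out.eq_one_or_self_of_dvd _ ((orderOf_dvd_natCard _).trans (dvd_of_eq hQR)))).resolve_left
        fun h1 => hne (orderOf_eq_one_iff.1 h1)
    have h3 := orderOf_dvd_of_pow_eq_one h'
    rw [hord] at h3
    exact Q.not_dvd_index h3
  set N := φ.ker with hN
  have hoφ : orderOf (φ u) = p :=
    ((hp.out.eq_one_or_self_of_dvd _ ((orderOf_dvd_natCard _).trans (dvd_of_eq hQR)))).resolve_left
      fun h1 => hφu (orderOf_eq_one_iff.1 h1)
  have hidx : N.index = p := by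
    rw [hN, Subgroup.index_ker]
    refine le_antisymm ((Nat.card_le_card_of_injective _ Subtype.val_injective).trans hQR.le) ?_
    calc p = Nat.card (Subgroup.zpowers (φ u)) := by rw [Nat.card_zpowers, hoφ]
      _ ≤ _ := Nat.le_of_dvd Nat.card_pos
          (Subgroup.card_dvd_of_le (Subgroup.zpowers_le.2 (MonoidHom.mem_range.2 ⟨u, rfl⟩)))
  have hcard := Subgroup.card_mul_index N
  rw [hidx] at hcard
  refine ⟨N, hidx, ?_, ?_, ?_⟩
  · have := congrArg (fun n => n.factorization p) hcard
    simp only [Nat.factorization_mul Nat.card_pos.ne' hp.out.ne_zero, Finsupp.add_apply,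
      hp.out.factorization_self, h2] at this
    omega
  · intro y hy
    rw [hN, MonoidHom.mem_ker, ← orderOf_eq_one_iff]
    refine ((hp.out.eq_one_or_self_of_dvd _ ((orderOf_dvd_natCard _).trans (dvd_of_eq hQR)))).resolve_right
      fun h => hy ?_
    have := orderOf_map_dvd φ y
    rwa [h] at this
  · rw [Nat.bijective_iff_injective_and_card]
    refine ⟨fun a b hab => ?_, by rw [Nat.card_prod, Nat.card_fin, mul_comm, hcard]⟩
    simp only at hab
    have h := congrArg φ hab
    rw [map_mul, map_mul, map_pow, map_pow, MonoidHom.mem_ker.1 a.2.2, MonoidHom.mem_ker.1 b.2.2,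
      mul_one, mul_one] at h
    have h1 : (a.1 : ℕ) = b.1 :=
      pow_injOn_Iio_orderOf (by rw [hoφ]; exact a.1.2) (by rw [hoφ]; exact b.1.2) h
    rw [h1, mul_right_inj] at hab
    exact Prod.ext (Fin.ext h1) (Subtype.ext hab)

/-- A section of order `p` with elementary Sylow subgroup of order `p ^ 2`. -/
theorem bound_elementary (hM : IsPModular p M) {u : G} (hu : orderOf u = p)
    (h2 : (Nat.card (Subgroup.centralizer ({u} : Set G))).factorization p = 2)
    (hnc : ∀ Q : Sylow p (Subgroup.centralizer ({u} : Set G)),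
      ¬ IsCyclic (Q : Subgroup (Subgroup.centralizer ({u} : Set G)))) :
    (heightZero p (principalBlock M G)).card ≤ p ^ 2 := by
  haveI : M.IsPrime := isPrime_of_isPModular hM
  set C := Subgroup.centralizer ({u} : Set G) with hC
  haveI := Fintype.ofFinite C
  set b := principalBlock M C with hbdef
  have hind : IsInducedBlock M C b (principalBlock M G) :=
    isInduced_centralizer hM (i := 1) (by rw [pow_one, hu])
  have hS : IsSection p 1 u C := ⟨fun g => Subgroup.mem_centralizer_singleton_iff,
    by rw [pow_one, ← hu, pow_orderOf_eq_one]⟩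
  obtain ⟨Q0⟩ := (Sylow.nonempty : Nonempty (Sylow p C))
  set uC : C := ⟨u, hS.mem⟩ with huC
  obtain ⟨N, hNi, hN1, hreg, hbij⟩ := exists_split (p := p) hS.mem_center
    (by rw [Subgroup.orderOf_mk, hu]) h2 Q0 (hnc Q0)
  haveI := Fintype.ofFinite N
  -- restriction to the complement
  have hirr : ∀ η : IrrCharacter C, IsIrrCharacter N (fun n : N => (η : C → ℂ) n) := by
    intro η
    rw [Char.isIrrCharacter_iff_classInner]
    refine ⟨Char.isCharacter_restrict (Char.isCharacter_of_irr η.2) N, ?_⟩
    have h := Char.classInner_irr_self η.2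
    rw [classInner] at h ⊢
    rw [← Fintype.sum_bijective _ hbij _ _ (fun _ => rfl), Fintype.sum_prod_type] at h
    have hz : ∀ (j : Fin p) (n : N), (η : C → ℂ) (uC ^ (j : ℕ) * (n : C)) *
        conj ((η : C → ℂ) (uC ^ (j : ℕ) * (n : C))) = (η : C → ℂ) n * conj ((η : C → ℂ) n) := by
      intro j n
      rw [huC, idx_spec hS, map_mul (starRingEnd ℂ), conj_stdAddChar, mul_mul_mul_comm,
        ← AddChar.map_add_eq_mul,
        add_neg_cancel, AddChar.map_zero_eq_one, one_mul]
    rw [Finset.sum_congr rfl (fun j _ => Finset.sum_congr rfl fun n _ => hz j n), Finset.sum_const,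
      Finset.card_univ, Fintype.card_fin, nsmul_eq_mul] at h
    have hc : (Nat.card C : ℂ) = (Nat.card N : ℂ) * p := by
      rw [← hNi]; exact_mod_cast (Subgroup.card_mul_index N).symm
    rw [hc] at h
    have hpz : (p : ℂ) ≠ 0 := Nat.cast_ne_zero.2 hp.out.ne_zero
    have hNz : (Nat.card N : ℂ) ≠ 0 := Nat.cast_ne_zero.2 Nat.card_pos.ne'
    rw [← h]
    field_simp
  let res : IrrCharacter C → IrrCharacter N := fun η => ⟨_, hirr η⟩
  have hresB : ∀ η ∈ b, res η ∈ principalBlock M N := by
    intro η hη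
    rw [hbdef, mem_principalBlock_iff_regTotal hM, regTotal_restrict p N hreg] at hη
    rw [mem_principalBlock_iff_regTotal hM]
    exact hη
  obtain ⟨P⟩ := (Sylow.nonempty : Nonempty (Sylow p N))
  have hP : Nat.card P = p := by rw [P.card_eq_multiplicity, hN1, pow_one]
  obtain ⟨X, s, m, v, hm, hs, hpe, hv, hgram⟩ := exists_form hM P hP
  let w : IrrCharacter C → IrrCharacter N → ℤ := fun η => v (res η)
  have hdef : blockDefect p b = 2 := by rw [hbdef, blockDefect_principal hM, h2]
  have hq : ∀ η ∈ b, ∀ η' ∈ b, qInt p b η η' = bil X p m s (w η) (w η') := by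
    intro η hη η' hη'
    apply Int.cast_injective (α := ℂ)
    show (qInt p b η η' : ℂ) = _
    rw [qInt_spec hη, ← hgram _ (hresB η hη) _ (hresB η' hη'), hdef]
    have hc : (Nat.card C : ℂ) = (Nat.card N : ℂ) * p := by
      rw [← hNi]; exact_mod_cast (Subgroup.card_mul_index N).symm
    have hr : regSum p (η : C → ℂ) (η' : C → ℂ) =
        regSum p (res η : N → ℂ) (res η' : N → ℂ) := by
      have := regTotal_restrict p N hreg (fun x => (η : C → ℂ) x * conj ((η' : C → ℂ) x))
      rw [regTotal_eq, regTotal_eq] at this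
      exact this
    rw [hr, hc]
    have hpz : (p : ℂ) ≠ 0 := Nat.cast_ne_zero.2 hp.out.ne_zero
    push_cast
    field_simp
  -- the rank
  have hrank : blockRank p b ≤ X.card := by
    let F : X → C → ℂ := fun χ y => if h : ¬ p ∣ orderOf y then
      ((χ : IrrCharacter N) : N → ℂ) ⟨y, hreg y h⟩ else 0
    have hsub : Submodule.span ℂ ((fun η : IrrCharacter C => pRegularPart p (η : C → ℂ)) '' b) ≤
        Submodule.span ℂ (Set.range F) := by
      refine Submodule.span_le.2 ?_
      rintro _ ⟨η, hη, rfl⟩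
      have he : pRegularPart p (η : C → ℂ) = ∑ χ : X, ((w η χ : ℤ) : ℂ) • F χ := by
        funext y
        simp only [Finset.sum_apply, Pi.smul_apply, smul_eq_mul, F]
        by_cases hy : p ∣ orderOf y
        · simp [pRegularPart, IsPRegular, hy]
        · simp only [pRegularPart, IsPRegular, hy, not_false_eq_true, if_true, ↓reduceIte, dite_true]
          rw [Finset.sum_coe_sort X (fun χ => (w η χ : ℂ) * (χ : N → ℂ) ⟨y, hreg y hy⟩)]
          exact hv (res η) (hresB η hη) ⟨y, hreg y hy⟩ (by rwa [Subgroup.orderOf_mk])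
      rw [show (fun η : IrrCharacter C => pRegularPart p (η : C → ℂ)) η = pRegularPart p (η : C → ℂ)
        from rfl, he]
      exact Submodule.sum_mem _ fun χ _ => Submodule.smul_mem _ _
        (Submodule.subset_span ⟨χ, rfl⟩)
    refine (Submodule.finrank_mono hsub).trans ((finrank_range_le_card F).trans ?_)
    rw [Fintype.card_coe]
  -- the Galois mean
  set U := unitSet (p ^ 1) with hU
  have hUc : (U.card : ℤ) = (p : ℤ) - 1 := by
    have h := card_units_finset (p := p) (e := 0)
    have e : U.card + 1 = p := by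
      have e1 : U = Finset.univ.filter (fun j : ZMod (p ^ (0 + 1)) => IsUnit j) := by
        ext j; simp [hU, mem_unitSet]
      rw [e1]; simpa using h
    omega
  have hdiag : ∀ χ : IrrCharacter G, χ ∈ heightZero p (principalBlock M G) →
      (U.card : ℝ) * X.card ≤ diagSum hS b χ := by
    intro χ hχ
    let g : ZMod (p ^ 1) → IrrCharacter N → ℤ := fun i =>
      ∑ η ∈ (Finset.univ.filter (· ∈ b)).filter (fun η => idx hS η = i),
        fun τ => (mult C χ η : ℤ) * w η τ
    set a := coefA hS b χ χ with ha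
    have hterm : ∀ ξ ∈ Finset.univ.filter (· ∈ b), ∀ η ∈ Finset.univ.filter (· ∈ b),
        (mult C χ ξ : ℤ) * (mult C χ η : ℤ) * qInt p b ξ η =
          bil X p m s (fun τ => (mult C χ ξ : ℤ) * w ξ τ) (fun τ => (mult C χ η : ℤ) * w η τ) := by
      intro ξ hξ η hη
      rw [bil_smul_left, bil_comm, bil_smul_left, bil_comm,
        hq ξ (Finset.mem_filter.1 hξ).2 η (Finset.mem_filter.1 hη).2]
      ring
    have hsumG : ∑ i, g i = ∑ η ∈ Finset.univ.filter (· ∈ b),
        (fun τ => (mult C χ η : ℤ) * w η τ) := by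
      simp only [g]
      exact Finset.sum_fiberwise _ _ _
    have hA : ∑ d, a d = bil X p m s (∑ i, g i) (∑ i, g i) := by
      rw [ha, sum_coefA, hsumG, bil_sum_both]
      exact Finset.sum_congr rfl fun ξ hξ => Finset.sum_congr rfl fun η hη => hterm ξ hξ η hη
    have h0 : a 0 = ∑ i, bil X p m s (g i) (g i) := by
      rw [ha]
      simp only [coefA, g, bil_sum_both]
      rw [← Finset.sum_fiberwise (Finset.univ.filter (· ∈ b)) (idx hS)]
      refine Finset.sum_congr rfl fun i _ => Finset.sum_congr rfl fun ξ hξ => ?_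
      rw [← Finset.sum_filter]
      refine Finset.sum_congr ?_ fun η hη => ?_
      · ext η
        simp only [Finset.mem_filter, sub_eq_zero, (Finset.mem_filter.1 hξ).2]
        exact and_congr_right fun _ => ⟨fun h => h.symm, fun h => h.symm⟩
      · exact hterm ξ (Finset.mem_filter.1 hξ).1 η (Finset.mem_filter.1 hη).1
    have hsum : ∑ j ∈ U, cev a j = (((p : ℤ) * a 0 - ∑ d, a d : ℤ) : ℂ) := by
      simp only [cev]
      rw [Finset.sum_comm]
      simp only [← Finset.mul_sum]
      have hd : ∀ d : ZMod (p ^ 1), ∑ j ∈ U, ZMod.stdAddChar (j * d) =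
          (if d = 0 then (p : ℂ) else 0) - 1 := by
        intro d
        have h := sum_units_stdAddChar (p := p) (e := 0) d
        have e1 : U = Finset.univ.filter (fun j : ZMod (p ^ (0 + 1)) => IsUnit j) := by
          ext j; simp [hU, mem_unitSet]
        rw [e1]
        refine h.trans ?_
        have hp0 : (p : ZMod (p ^ (0 + 1))) = 0 := by
          have := ZMod.natCast_self (p ^ (0 + 1))
          simpa using this
        rw [hp0, zero_mul, if_pos rfl, pow_zero, Nat.cast_one]
        simp
      simp only [hd, mul_sub, mul_ite, mul_zero, mul_one, Finset.sum_sub_distrib,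
        Finset.sum_ite_eq', Finset.mem_univ, if_true]
      push_cast
      ring
    have hds : diagSum hS b χ = (((p : ℤ) * a 0 - ∑ d, a d : ℤ) : ℝ) := by
      rw [diagSum, ← Complex.re_sum, ← hU]
      simp only [cM_eq_cev, ← ha, hsum]
      simp
    have hcardK : (Fintype.card (ZMod (p ^ 1)) : ℤ) = (p : ℤ) := by rw [ZMod.card, pow_one]
    have heq := sum_diff_eq X (p : ℤ) m s g
    rw [hcardK, ← h0, ← hA] at heq
    rcases sum_diff_cases X hm hs hpe g with hz | hbig
    · exfalso
      have hd0 : diagSum hS b χ = 0 := by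
        rw [hds]
        exact_mod_cast (show (p : ℤ) * a 0 - ∑ d, a d = 0 by linarith)
      have h := card_mul_le_diagSum hS hM hind hχ
      rw [hd0, mul_zero] at h
      have : (0 : ℝ) < ((heightZero p (principalBlock M G)).card : ℝ) *
          ((unitSet (p ^ 1)).card : ℝ) := mul_pos
        (Nat.cast_pos.2 (Finset.card_pos.2 ⟨χ, hχ⟩)) (Nat.cast_pos.2 (unitSet_card_pos _))
      linarith
    · rw [hcardK] at hbig
      rw [hds]
      have : (U.card : ℤ) * X.card ≤ (p : ℤ) * a 0 - ∑ d, a d := by
        rw [hUc]; linarith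
      exact_mod_cast this
  have hl := sum_diagSum_le hS hM hind.1 (heightZero p (principalBlock M G))
  have h1 : ((heightZero p (principalBlock M G)).card : ℝ) * ((U.card : ℝ) * X.card) ≤
      (U.card : ℝ) * (p : ℝ) ^ blockDefect p b * (blockRank p b : ℝ) := by
    refine le_trans ?_ hl
    rw [← nsmul_eq_mul, ← Finset.sum_const]
    exact Finset.sum_le_sum hdiag
  rw [hdef] at h1
  have hUpos : (0 : ℝ) < (U.card : ℝ) := Nat.cast_pos.2 (unitSet_card_pos _)
  have hXpos : (0 : ℝ) < (X.card : ℝ) := by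
    refine Nat.cast_pos.2 (Nat.pos_of_ne_zero fun h => ?_)
    rw [h] at hpe
    simp at hpe
    have := hp.out.two_le
    omega
  have h3 : ((heightZero p (principalBlock M G)).card : ℝ) * ((U.card : ℝ) * X.card) ≤
      (p : ℝ) ^ 2 * ((U.card : ℝ) * X.card) := by
    refine h1.trans ?_
    have : (blockRank p b : ℝ) ≤ X.card := by exact_mod_cast hrank
    nlinarith [mul_nonneg hUpos.le (pow_nonneg (Nat.cast_nonneg p : (0 : ℝ) ≤ p) 2)]
  exact_mod_cast le_of_mul_le_mul_right h3 (mul_pos hUpos hXpos)

theorem main (hM : IsPModular p M) {x : G} (hxp : ∃ k : ℕ, orderOf x = p ^ k)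
    (hx : (Nat.card (Subgroup.centralizer ({x} : Set G))).factorization p ≤ 2) :
    (heightZero p (principalBlock M G)).card ≤ p ^ 2 := by
  haveI : M.IsPrime := isPrime_of_isPModular hM
  set C := Subgroup.centralizer ({x} : Set G) with hC
  obtain ⟨Q⟩ := (Sylow.nonempty : Nonempty (Sylow p C))
  have hxC : x ∈ C := Subgroup.mem_centralizer_singleton_iff.2 rfl
  haveI : (Subgroup.zpowers (⟨x, hxC⟩ : C)).Normal := ⟨by
    intro z hz a
    obtain ⟨i, rfl⟩ := Subgroup.mem_zpowers_iff.1 hz
    have hcm : Commute a (⟨x, hxC⟩ : C) :=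
      Subtype.ext (Subgroup.mem_centralizer_singleton_iff.1 a.2)
    rw [(hcm.zpow_right i).eq, mul_inv_cancel_right]
    exact hz⟩
  obtain ⟨k, hk⟩ := hxp
  have hxQ : (⟨x, hxC⟩ : C) ∈ (Q : Subgroup C) := IsPGroup.le_sylow_of_normal
    (IsPGroup.of_card (n := k) (by rw [Nat.card_zpowers, Subgroup.orderOf_mk, hk])) Q
    (Subgroup.mem_zpowers _)
  have hQ := Q.card_eq_multiplicity
  by_cases hcyc : IsCyclic (Q : Subgroup C)
  · obtain ⟨y, hy⟩ := hcyc.exists_generator
    set u : G := ((y : C) : G) with hu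
    have hou : orderOf u = p ^ (Nat.card C).factorization p := by
      rw [hu, Subgroup.orderOf_coe, Subgroup.orderOf_coe, orderOf_eq_card_of_forall_mem_zpowers hy,
        hQ]
    obtain ⟨n, hn⟩ := Subgroup.mem_zpowers_iff.1 (hy ⟨⟨x, hxC⟩, hxQ⟩)
    have hxn : x = u ^ n := by
      have := congrArg (fun z : (Q : Subgroup C) => ((z : C) : G)) hn.symm
      simpa using this
    set D := Subgroup.centralizer ({u} : Set G) with hD
    have hDC : D ≤ C := by
      intro g hg
      rw [hC, Subgroup.mem_centralizer_singleton_iff, hxn]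
      have hgu : Commute g u := Subgroup.mem_centralizer_singleton_iff.1 hg
      exact (hgu.zpow_right n).eq
    have hfac : (Nat.card D).factorization p ≤ (Nat.card C).factorization p :=
      (Nat.factorization_le_iff_dvd Nat.card_pos.ne' Nat.card_pos.ne').2
        (Subgroup.card_dvd_of_le hDC) p
    have huD : u ∈ D := Subgroup.mem_centralizer_singleton_iff.2 rfl
    obtain ⟨R⟩ := (Sylow.nonempty : Nonempty (Sylow p D))
    haveI : (Subgroup.zpowers (⟨u, huD⟩ : D)).Normal := ⟨by
      intro z hz a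
      obtain ⟨i, rfl⟩ := Subgroup.mem_zpowers_iff.1 hz
      have hcm : Commute a (⟨u, huD⟩ : D) :=
        Subtype.ext (Subgroup.mem_centralizer_singleton_iff.1 a.2)
      rw [(hcm.zpow_right i).eq, mul_inv_cancel_right]
      exact hz⟩
    have hoD : orderOf (⟨u, huD⟩ : D) = p ^ (Nat.card C).factorization p := by
      rw [Subgroup.orderOf_mk, hou]
    have hle : Subgroup.zpowers (⟨u, huD⟩ : D) ≤ (R : Subgroup D) :=
      IsPGroup.le_sylow_of_normal (IsPGroup.of_card (by rw [Nat.card_zpowers, hoD])) R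
    have heq : Subgroup.zpowers (⟨u, huD⟩ : D) = (R : Subgroup D) :=
      Subgroup.eq_of_le_of_card_ge hle (by
        rw [R.card_eq_multiplicity, Nat.card_zpowers, hoD]
        exact Nat.pow_le_pow_right hp.out.pos hfac)
    have hNC : Subgroup.normalizer ((R : Subgroup D) : Set D) ≤
        Subgroup.centralizer ((R : Subgroup D) : Set D) := by
      intro a _ z hz
      rw [SetLike.mem_coe, ← heq] at hz
      obtain ⟨i, rfl⟩ := Subgroup.mem_zpowers_iff.1 hz
      have hcm : Commute a (⟨u, huD⟩ : D) :=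
        Subtype.ext (Subgroup.mem_centralizer_singleton_iff.1 a.2)
      exact (hcm.zpow_right i).eq.symm
    have hl := S4646.rank_one_of_hasNormalPComplement (G := D) hM
      ⟨R, _, inferInstance, MonoidHom.ker_transferSylow_isComplement' R hNC⟩
    exact (bound_rank_one hM hou hl).trans (Nat.pow_le_pow_right hp.out.pos (hfac.trans hx))
  · have hc2 : (Nat.card C).factorization p = 2 := by
      by_contra hne
      apply hcyc
      rcases (show (Nat.card C).factorization p = 0 ∨ (Nat.card C).factorization p = 1 by omega) with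
        h | h
      · rw [h, pow_zero] at hQ
        haveI := (Nat.card_eq_one_iff_unique.1 hQ).1
        infer_instance
      · rw [h, pow_one] at hQ
        exact isCyclic_of_prime_card hQ
    rw [hc2] at hQ
    obtain ⟨y, hy⟩ : ∃ y : (Q : Subgroup C), y ≠ 1 ∧ (x ≠ 1 → ((y : C) : G) = x) := by
      by_cases hx1 : x = 1
      · haveI : Nontrivial (Q : Subgroup C) := Finite.one_lt_card_iff_nontrivial.1
          (by rw [hQ]; exact Nat.one_lt_pow (by norm_num) hp.out.one_lt)
        obtain ⟨y, hy⟩ := exists_ne (1 : (Q : Subgroup C))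
        exact ⟨y, hy, fun h => absurd hx1 h⟩
      · exact ⟨⟨⟨x, hxC⟩, hxQ⟩, fun h => hx1 (congrArg (fun z : (Q : Subgroup C) => ((z : C) : G)) h),
          fun _ => rfl⟩
    have hoy : orderOf y = p := by
      obtain ⟨j, hj, hj'⟩ := (Nat.dvd_prime_pow hp.out).1 (hQ ▸ orderOf_dvd_natCard y)
      interval_cases j
      · exact absurd (orderOf_eq_one_iff.1 (by simpa using hj')) hy.1
      · rw [hj', pow_one]
      · exact absurd (isCyclic_of_orderOf_eq_card y (by rw [hj', hQ])) hcyc
    set u : G := ((y : C) : G) with hu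
    have hou : orderOf u = p := by rw [hu, Subgroup.orderOf_coe, Subgroup.orderOf_coe, hoy]
    set D := Subgroup.centralizer ({u} : Set G) with hD
    have hDC : D ≤ C := by
      by_cases hx1 : x = 1
      · intro g _
        rw [hC, Subgroup.mem_centralizer_singleton_iff, hx1, mul_one, one_mul]
      · rw [hD, hy.2 hx1]
    have hQD : ∀ z : (Q : Subgroup C), ((z : C) : G) ∈ D := fun z => by
      letI := IsPGroup.commGroupOfCardEqPrimeSq hQ
      rw [hD, Subgroup.mem_centralizer_singleton_iff]
      exact congrArg (fun t : (Q : Subgroup C) => ((t : C) : G)) (mul_comm z y)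
    let ι : (Q : Subgroup C) →* D := MonoidHom.mk' (fun z => ⟨_, hQD z⟩) fun a b => rfl
    have hι : Function.Injective ι := fun a b h => by
      have := congrArg (fun t : D => (t : G)) h
      exact Subtype.ext (Subtype.ext this)
    have hge : 2 ≤ (Nat.card D).factorization p :=
      (hp.out.pow_dvd_iff_le_factorization Nat.card_pos.ne').1
        (hQ ▸ Subgroup.card_dvd_of_injective ι hι)
    have hle : (Nat.card D).factorization p ≤ (Nat.card C).factorization p :=
      (Nat.factorization_le_iff_dvd Nat.card_pos.ne' Nat.card_pos.ne').2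
        (Subgroup.card_dvd_of_le hDC) p
    refine bound_elementary hM hou (le_antisymm (hle.trans hc2.le) hge) fun R hR => hcyc ?_
    have hp2 : IsPGroup p ι.range :=
      IsPGroup.of_surjective Q.isPGroup' ι.rangeRestrict ι.rangeRestrict_surjective
    obtain ⟨R', hR'⟩ := hp2.exists_le_sylow
    haveI := hR
    haveI : IsCyclic (R' : Subgroup D) := isCyclic_of_surjective (R.equiv R').toMonoidHom
      (R.equiv R').surjective
    haveI : IsCyclic ι.range := isCyclic_of_injective (Subgroup.inclusion hR')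
      (Subgroup.inclusion_injective hR')
    exact isCyclic_of_surjective (MonoidHom.ofInjective hι).symm.toMonoidHom
      (MonoidHom.ofInjective hι).symm.surjective

/-- Let G be a finite group, p a prime and M a maximal ideal of the algebraic integers containing p. If some p-element x of G (possibly x = 1) has centralizer whose order has p-part at most p², then the principal p-block of G contains at most p² irreducible characters of degree prime to p. -/
theorem result {G : Type*} [Group G] [Finite G] (p : ℕ) [Fact p.Prime] (M : Ideal Cfsg.AlgInt) (hM : Cfsg.IsPModular p M)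
    (hx : ∃ x : G, (∃ k : ℕ, orderOf x = p ^ k) ∧ (Nat.card (Subgroup.centralizer ({x} : Set G))).factorization p ≤ 2) :
    Nat.card {χ : Cfsg.IrrCharacter G // χ ∈ Cfsg.principalBlock M G ∧ ¬ p ∣ Cfsg.charDegree (χ : G → ℂ)} ≤ p ^ 2 := by
  letI := Fintype.ofFinite G
  obtain ⟨x, hxp, hx⟩ := hx
  rw [card_eq_heightZero hM]
  exact main hM hxp hx

end Cfsg.Agent.S4588
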