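import Cfsg.Statements.S4591
import Cfsg.Agent.BlkChar.PPrimeConstituent
import Cfsg.Agent.BlkChar.PModular
import Cfsg.Agent.Transfer.Tate
import Cfsg.Agent.Lib.ClassSize
import Cfsg.Agent.PGroup.Frattini

set_option autoImplicit false
open Cfsg

namespace Cfsg.Agent.S4591

open Cfsg Cfsg.Agent.Char Cfsg.Agent.BlkChar
open scoped commutatorElement

theorem kernel_le {G : Type*} [Group G] [Finite G] {p : ℕ} [Fact p.Prime] (P : Sylow p G)
    (N : Subgroup G)
    (hmax : ∀ L : Subgroup G, L.Normal →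
      L ⊓ Subgroup.centralizer ((P : Subgroup G) : Set G) = ⊥ → L ≤ N)
    (K : Subgroup G) [K.Normal]
    (hK : ∀ g : G, g ∈ K ↔ ∀ χ : IrrCharacter G, ¬ p ∣ charDegree (χ : G → ℂ) →
      (χ : G → ℂ) g = (χ : G → ℂ) 1) :
    K ≤ N ⊔ ⁅(P : Subgroup G), (P : Subgroup G)⁆ := by
  have hKP : K ⊓ (P : Subgroup G) ≤ ⁅(P : Subgroup G), (P : Subgroup G)⁆ := by
    rintro y ⟨hyK, hyP⟩
    rw [← Subgroup.map_subtype_commutator]
    by_contra hy
    have hy' : (⟨y, hyP⟩ : (P : Subgroup G)) ∉ commutator (P : Subgroup G) :=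
      fun h => hy ⟨_, h, rfl⟩
    rw [mem_normal_iff_forall_irr (commutator (P : Subgroup G))] at hy'
    push Not at hy'
    obtain ⟨ψ, hψ, hψy⟩ := hy'
    obtain ⟨φ, hφ, hφg⟩ := irr_exists_descend ψ.2 _ hψ
    haveI : IsMulCommutative ((P : Subgroup G) ⧸ commutator (P : Subgroup G)) :=
      Subgroup.Normal.quotient_commutative_iff_commutator_le.2 le_rfl
    obtain ⟨f, hf⟩ := irr_exists_monoidHom_of_comm (fun a b => mul_comm' a b) hφ
    obtain ⟨χ, hχ, hne⟩ := exists_pPrime_not_kernel (P : Subgroup G) P.not_dvd_index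
      (f.comp (QuotientGroup.mk' _)) (g := ⟨y, hyP⟩) (by
        intro h1
        apply hψy
        rw [hφg, hφg, QuotientGroup.mk_one, hf, hf, map_one]
        rw [show (f (QuotientGroup.mk (⟨y, hyP⟩ : (P : Subgroup G)))) = 1 from h1])
    exact hne ((hK y).1 hyK χ hχ)
  have hfr : K ⊓ (P : Subgroup G) ≤ (frattini P).map (P : Subgroup G).subtype := by
    refine hKP.trans ?_
    rw [← Subgroup.map_subtype_commutator]
    exact Subgroup.map_mono (Cfsg.Agent.PGroup.commutator_le_frattini P.2)
  obtain ⟨S, X, hXn, hX⟩ := Cfsg.Agent.Transfer.hasNormalPComplement_of_inf_le_frattini P K hfr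
  obtain ⟨a, ha⟩ := IsPGroup.iff_card.1 S.2
  have hXi : X.index = p ^ a := by rw [hX.symm.index_eq_card, ha]
  have hXc : ¬ p ∣ Nat.card X := by
    rw [← hX.index_eq_card]
    exact S.not_dvd_index
  have hXiff : ∀ x : K, x ∈ X ↔ ¬ p ∣ orderOf x := by
    intro x
    constructor
    · exact fun hx h => hXc (h.trans (Subgroup.orderOf_mk x hx ▸
        (orderOf_dvd_natCard (⟨x, hx⟩ : X))))
    · intro hx
      haveI := hXn
      rw [← QuotientGroup.eq_one_iff, ← orderOf_eq_one_iff]
      have h1 : orderOf (x : K ⧸ X) ∣ p ^ a := hXi ▸ Subgroup.index_eq_card X ▸ orderOf_dvd_natCard _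
      have h2 : orderOf (x : K ⧸ X) ∣ orderOf x := orderOf_map_dvd (QuotientGroup.mk' X) x
      exact Nat.eq_one_of_dvd_coprimes
        (((Fact.out : p.Prime).coprime_iff_not_dvd.2 hx).pow_left a) h1 h2
  have hXG : (X.map K.subtype).Normal := by
    constructor
    rintro _ ⟨x, hx, rfl⟩ g
    refine ⟨⟨g * x * g⁻¹, Subgroup.Normal.conj_mem inferInstance _ x.2 g⟩, ?_, rfl⟩
    rw [SetLike.mem_coe, hXiff, ← Subgroup.orderOf_coe]
    rw [show ((⟨g * x * g⁻¹, _⟩ : K) : G) = MulAut.conj g (x : G) from rfl,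
      MulEquiv.orderOf_eq, Subgroup.orderOf_coe, ← hXiff]
    exact hx
  have hXN : X.map K.subtype ≤ N := by
    refine hmax _ hXG ((Subgroup.eq_bot_iff_forall _).2 ?_)
    rintro c ⟨⟨x, hx, rfl⟩, hcP⟩
    by_contra hx1
    set c : G := K.subtype x with hc
    have hco : ¬ p ∣ orderOf c := by
      rw [hc, Subgroup.coe_subtype, Subgroup.orderOf_coe]
      exact (hXiff x).1 hx
    have hcnP : c ∉ (P : Subgroup G) := fun h => by
      obtain ⟨k, hk⟩ := IsPGroup.iff_orderOf.1 P.2 ⟨c, h⟩
      rw [← Subgroup.orderOf_coe] at hk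
      rcases Nat.eq_zero_or_pos k with h0 | h0
      · rw [h0, pow_zero, orderOf_eq_one_iff] at hk
        exact hx1 hk
      · exact hco (hk ▸ dvd_pow_self p h0.ne')
    set H : Subgroup G := (P : Subgroup G) ⊔ Subgroup.zpowers c with hH
    have hPH : (P : Subgroup G) ≤ H := le_sup_left
    haveI hPn : ((P : Subgroup G).subgroupOf H).Normal := by
      rw [Subgroup.normal_subgroupOf_iff_le_normalizer hPH, hH, sup_le_iff, Subgroup.zpowers_le]
      exact ⟨Subgroup.le_normalizer, Subgroup.centralizer_le_normalizer _ hcP⟩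
    set cH : H := ⟨c, (le_sup_right : Subgroup.zpowers c ≤ H) (Subgroup.mem_zpowers c)⟩ with hcH
    have hcH' : cH ∉ (P : Subgroup G).subgroupOf H := hcnP
    rw [mem_normal_iff_forall_irr] at hcH'
    push Not at hcH'
    obtain ⟨ψ, hψ, hψc⟩ := hcH'
    obtain ⟨φ, hφ, hφg⟩ := irr_exists_descend ψ.2 _ hψ
    have hcyc : ∀ y : H ⧸ (P : Subgroup G).subgroupOf H,
        y ∈ Subgroup.zpowers (cH : H ⧸ (P : Subgroup G).subgroupOf H) := by
      intro y
      obtain ⟨⟨y, hy⟩, rfl⟩ := QuotientGroup.mk_surjective y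
      have hle : H ≤ ((Subgroup.zpowers (cH : H ⧸ (P : Subgroup G).subgroupOf H)).comap
          (QuotientGroup.mk' _)).map H.subtype := by
        refine sup_le (fun z hz => ⟨⟨z, hPH hz⟩, ?_, rfl⟩)
          (Subgroup.zpowers_le.2 ⟨cH, Subgroup.mem_zpowers _, rfl⟩)
        show ((⟨z, hPH hz⟩ : H) : H ⧸ (P : Subgroup G).subgroupOf H) ∈
          Subgroup.zpowers (cH : H ⧸ (P : Subgroup G).subgroupOf H)
        rw [(QuotientGroup.eq_one_iff (⟨z, hPH hz⟩ : H)).2 hz]
        exact one_mem _
      obtain ⟨z, hz, hzy⟩ := hle hy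
      obtain rfl : z = ⟨y, hy⟩ := Subtype.ext hzy
      exact hz
    obtain ⟨f, hf⟩ := irr_exists_monoidHom_of_comm (fun a b => by
      obtain ⟨i, rfl⟩ := hcyc a
      obtain ⟨j, rfl⟩ := hcyc b
      rw [← zpow_add, ← zpow_add, add_comm]) hφ
    obtain ⟨χ, hχ, hne⟩ := exists_pPrime_not_kernel H
      (fun h => P.not_dvd_index (h.trans (Subgroup.index_dvd_of_le hPH)))
      (f.comp (QuotientGroup.mk' _)) (g := cH) (by
        intro h1
        apply hψc
        rw [hφg, hφg, QuotientGroup.mk_one, hf, hf, map_one]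
        rw [show (f (QuotientGroup.mk cH)) = 1 from h1])
    exact hne ((hK c).1 x.2 χ hχ)
  have htop : X ⊔ ((K ⊓ (P : Subgroup G)).subgroupOf K) = ⊤ := by
    rw [← Subgroup.index_eq_one]
    refine Nat.eq_one_of_dvd_coprimes (((Fact.out : p.Prime).coprime_iff_not_dvd.2
      P.not_dvd_index).pow_left a) (hXi ▸ Subgroup.index_dvd_of_le le_sup_left) ?_
    refine (Subgroup.index_dvd_of_le le_sup_right).trans ?_
    rw [inf_comm, Subgroup.inf_subgroupOf_right]
    exact Cfsg.Agent.ClassSize.relIndex_dvd_index_of_normal_left K (P : Subgroup G)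
  calc K = (⊤ : Subgroup K).map K.subtype := by rw [← MonoidHom.range_eq_map, Subgroup.range_subtype]
    _ = X.map K.subtype ⊔ ((K ⊓ (P : Subgroup G)).subgroupOf K).map K.subtype := by
      rw [← htop, Subgroup.map_sup]
    _ ≤ N ⊔ ⁅(P : Subgroup G), (P : Subgroup G)⁆ :=
      sup_le_sup hXN ((Subgroup.map_subgroupOf_eq_of_le inf_le_left).le.trans hKP)

theorem core_le {G : Type*} [Group G] [Finite G] {p : ℕ} [Fact p.Prime] (P : Sylow p G)
    (N : Subgroup G) [N.Normal]
    (hN : N ⊓ Subgroup.centralizer ((P : Subgroup G) : Set G) = ⊥)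
    (χ : IrrCharacter G) (hχ : ¬ p ∣ charDegree (χ : G → ℂ)) :
    ∀ g ∈ (N ⊔ ⁅(P : Subgroup G), (P : Subgroup G)⁆).normalCore,
      (χ : G → ℂ) g = (χ : G → ℂ) 1 := by
  classical
  letI := Fintype.ofFinite G
  obtain ⟨n, ρ, hirr, hρ⟩ := χ.2
  haveI := hirr
  have hone : ∀ m ∈ N, ρ m = 1 := by
    refine rep_eq_one_of_fixed ρ N (∑ m : N, ρ m) ?_ fun l hl => ?_
    · intro h0
      have htr : ∑ m : N, (χ : G → ℂ) m = 0 := by
        rw [← hρ]
        simp only [Representation.character, ← map_sum, h0, map_zero]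
      obtain ⟨M, hM⟩ := exists_isPModular p Fact.out
      haveI := Cfsg.Agent.Block.isPrime_of_isPModular hM
      let _ : MulAction (P : Subgroup G) N :=
        MulAction.compHom N ((MulAut.conjNormal : G →* MulAut N).comp (P : Subgroup G).subtype)
      have hcl := irr_isClassFunction χ.2
      have h := memLocalIdeal_sum_sub_fixedPoints hM P.2 (fun m : N => (χ : G → ℂ) m)
        (fun m => Cfsg.Agent.Block.memLocalRing_of_isIntegral
          (isCharacter_isIntegral (isCharacter_of_irr χ.2) _))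
        (fun u m => by
          show (χ : G → ℂ) (MulAut.conjNormal (u : G) m : N) = _
          rw [MulAut.conjNormal_apply]
          exact hcl _ _)
      have hfix : (Finset.univ.filter
          (· ∈ MulAction.fixedPoints (P : Subgroup G) N)) = {(1 : N)} := by
        refine Finset.eq_singleton_iff_unique_mem.2 ⟨?_, ?_⟩
        · simp only [Finset.mem_filter, Finset.mem_univ, true_and]
          exact fun u => map_one (MulAut.conjNormal (u : G) : MulAut N)
        · intro m hm
          simp only [Finset.mem_filter, Finset.mem_univ, true_and] at hm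
          have hmem : (m : G) ∈ N ⊓ Subgroup.centralizer ((P : Subgroup G) : Set G) := by
            refine ⟨m.2, Subgroup.mem_centralizer_iff.2 fun u hu => ?_⟩
            have := congrArg Subtype.val (hm ⟨u, hu⟩)
            rw [show ((⟨u, hu⟩ : (P : Subgroup G)) • m) = MulAut.conjNormal u m from rfl,
              MulAut.conjNormal_apply] at this
            exact mul_inv_eq_iff_eq_mul.1 this
          rw [hN, Subgroup.mem_bot] at hmem
          exact Subtype.ext hmem
      rw [htr, hfix, Finset.sum_singleton, zero_sub, OneMemClass.coe_one,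
        isCharacter_one_eq_charDegree (isCharacter_of_irr χ.2)] at h
      have h2 := Cfsg.Agent.Block.memLocalIdeal_neg h
      rw [neg_neg, Cfsg.Agent.Block.memLocalIdeal_natCast_iff hM] at h2
      exact hχ h2
    · rw [Finset.mul_sum]
      refine Fintype.sum_equiv (Equiv.mulLeft ⟨l, hl⟩) _ _ fun m => ?_
      simp
  -- a linear constituent on `P`
  have hχP := isCharacter_restrict (isCharacter_of_irr χ.2) (P : Subgroup G)
  obtain ⟨ψ, hψd, hψ⟩ := exists_constituent_not_dvd (p := p) hχP (show ¬ p ∣ _ from hχ)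
  have hψ1 : (ψ : ↥(P : Subgroup G) → ℂ) 1 = 1 := by
    rw [isCharacter_one_eq_charDegree (isCharacter_of_irr ψ.2)]
    obtain ⟨k, hk⟩ := IsPGroup.iff_card.1 P.2
    obtain ⟨j, -, hj⟩ := (Nat.dvd_prime_pow Fact.out).1 (hk ▸ irr_charDegree_dvd_card ψ)
    rcases Nat.eq_zero_or_pos j with h0 | h0
    · simp [hj, h0]
    · exact absurd (hj ▸ dvd_pow_self p h0.ne') hψd
  obtain ⟨f, hf⟩ := exists_monoidHom_of_degree_one (isCharacter_of_irr ψ.2) hψ1
  set E : Module.End ℂ (Fin n → ℂ) :=
    ∑ x : (P : Subgroup G), (starRingEnd ℂ) (f x : ℂ) • ρ x with hE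
  have hE0 : E ≠ 0 := by
    intro h0
    apply hψ
    have h1 := congrArg (LinearMap.trace ℂ (Fin n → ℂ)) h0
    rw [hE, map_sum, map_zero] at h1
    simp only [map_smul, smul_eq_mul] at h1
    rw [classInner, mul_eq_zero]
    right
    rw [← h1]
    refine Finset.sum_congr rfl fun x _ => ?_
    rw [hf, ← hρ, Representation.character]
    ring
  have hfE : ∀ y : (P : Subgroup G), ρ y * E = (f y : ℂ) • E := by
    intro y
    rw [hE, Finset.mul_sum, Finset.smul_sum]
    refine Fintype.sum_equiv (Equiv.mulLeft y) _ _ fun x => ?_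
    have hunit : (f y : ℂ) * (starRingEnd ℂ) (f y : ℂ) = 1 := by
      have hn : ‖(f y : ℂ)‖ = 1 := Complex.norm_eq_one_of_pow_eq_one (n := orderOf y)
        (by rw [← Units.val_pow_eq_pow_val, ← map_pow, pow_orderOf_eq_one, map_one, Units.val_one])
        (orderOf_pos y).ne'
      rw [Complex.mul_conj', hn]; simp
    simp only [Equiv.coe_mulLeft, Subgroup.coe_mul, map_mul, Units.val_mul, mul_smul_comm,
      smul_smul]
    rw [← mul_assoc, hunit, one_mul]
  let St : Subgroup G :=
    { carrier := {g | ρ g * E = E}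
      one_mem' := by simp
      mul_mem' := fun {a b} ha hb => by
        show ρ (a * b) * E = E
        rw [map_mul, mul_assoc, hb, ha]
      inv_mem' := fun {a} ha => by
        show ρ a⁻¹ * E = E
        conv_lhs => rw [← ha]
        rw [← mul_assoc, ← map_mul, inv_mul_cancel, map_one, one_mul] }
  have hle : N ⊔ ⁅(P : Subgroup G), (P : Subgroup G)⁆ ≤ St := by
    refine sup_le (fun m hm => ?_) (Subgroup.commutator_le.2 fun a ha b hb => ?_)
    · show ρ m * E = E
      rw [hone m hm, one_mul]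
    · show ρ ⁅a, b⁆ * E = E
      have h1 : f (⁅(⟨a, ha⟩ : (P : Subgroup G)), ⟨b, hb⟩⁆) = 1 := by
        rw [map_commutatorElement, commutatorElement_eq_one_iff_mul_comm, mul_comm]
      have h2 := hfE ⁅(⟨a, ha⟩ : (P : Subgroup G)), ⟨b, hb⟩⁆
      rw [h1, Units.val_one, one_smul] at h2
      exact h2
  intro g hg
  have := rep_eq_one_of_fixed ρ _ E hE0
    (fun l hl => hle (Subgroup.normalCore_le _ hl)) g hg
  rw [← hρ]
  simp [Representation.character, this]


/-- Let G be a finite group, p a prime and P a Sylow p-subgroup, and let N be the largest normal subgroup of G in which P has trivial centralizer (N is normal with C_N(P) = 1 and contains every normal subgroup with that property). Then the intersection of the kernels of the irreducible characters of G of degree prime to p is the normal core in G of the subgroup N·P' (P' the derived subgroup of P). In particular, when G has no nontrivial normal subgroup of order prime to p, that intersection is the normal core of P'. -/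
theorem result {G : Type*} [Group G] [Finite G] (p : ℕ) [Fact p.Prime] (P : Sylow p G) (N : Subgroup G) [N.Normal]
    (hN : N ⊓ Subgroup.centralizer ((P : Subgroup G) : Set G) = ⊥)
    (hmax : ∀ L : Subgroup G, L.Normal → L ⊓ Subgroup.centralizer ((P : Subgroup G) : Set G) = ⊥ → L ≤ N) :
    {g : G | ∀ χ : Cfsg.IrrCharacter G, ¬ p ∣ Cfsg.charDegree (χ : G → ℂ) → (χ : G → ℂ) g = (χ : G → ℂ) 1} =
      ((N ⊔ ⁅(P : Subgroup G), (P : Subgroup G)⁆).normalCore : Set G) := by
  classical
  refine Set.Subset.antisymm ?_ ?_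
  · -- the intersection of the kernels is normal, hence it suffices to bound it by `N ⊔ P'`
    let K : Subgroup G := ⨅ χ : {χ : Cfsg.IrrCharacter G // ¬ p ∣ Cfsg.charDegree (χ : G → ℂ)},
      (Cfsg.Agent.Char.isCharacter_exists_kernel
        (Cfsg.Agent.Char.isCharacter_of_irr χ.1.2)).choose
    have hK : ∀ g : G, g ∈ K ↔ ∀ χ : Cfsg.IrrCharacter G, ¬ p ∣ Cfsg.charDegree (χ : G → ℂ) →
        (χ : G → ℂ) g = (χ : G → ℂ) 1 := by
      intro g
      simp only [K, Subgroup.mem_iInf]
      exact ⟨fun h χ hχ => ((Cfsg.Agent.Char.isCharacter_exists_kernel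
          (Cfsg.Agent.Char.isCharacter_of_irr χ.2)).choose_spec.2 g).1 (h ⟨χ, hχ⟩),
        fun h χ => ((Cfsg.Agent.Char.isCharacter_exists_kernel
          (Cfsg.Agent.Char.isCharacter_of_irr χ.1.2)).choose_spec.2 g).2 (h χ.1 χ.2)⟩
    haveI : K.Normal := Subgroup.normal_iInf_normal fun χ =>
      (Cfsg.Agent.Char.isCharacter_exists_kernel
        (Cfsg.Agent.Char.isCharacter_of_irr χ.1.2)).choose_spec.1
    intro g hg
    exact (Subgroup.normal_le_normalCore.2 (kernel_le P N hmax K hK)) ((hK g).2 hg)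
  · intro g hg χ hχ
    exact core_le P N hN χ hχ g hg

end Cfsg.Agent.S4591
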