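import Cfsg.Statements.S4601
import Cfsg.Agent.PSolv.Basic
import Cfsg.Agent.Cores.Basic
import Cfsg.Agent.Coprime.Action
import Cfsg.Agent.Lib.ClassSize

set_option autoImplicit false
set_option linter.style.haveILetI false
open Cfsg

namespace Cfsg.Agent.S4601

open Pointwise

variable {p q : ℕ} [hp : Fact p.Prime] [hq : Fact q.Prime]

/-- `Q` acts coprimely on the normal `K` and every element of `Q` fixes a Sylow `p`-subgroup:
some Sylow `p`-subgroup of `K` is centralised by `Q`. -/
theorem exists_centralized_sylow {G : Type*} [Group G] [Finite G] (K : Subgroup G) [K.Normal]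
    (hK : ¬ q ∣ Nat.card K) (Q : Subgroup G) (hQ : IsPGroup q Q)
    (h : ∀ y ∈ Q, ¬ p ∣ (Subgroup.centralizer ({y} : Set G)).index) :
    ∃ R : Sylow p K, (R : Subgroup K).map K.subtype ≤ Subgroup.centralizer (Q : Set G) := by
  classical
  have hnK : ∀ A : Subgroup G, A ≤ Subgroup.normalizer (K : Set G) := fun A => by
    rw [Subgroup.normalizer_eq_top]; exact le_top
  have hcop : ∀ A : Subgroup G, A ≤ Q → (Nat.card A).Coprime (Nat.card K) := by
    intro A hA
    obtain ⟨e, he⟩ := IsPGroup.iff_card.1 (hQ.to_le hA)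
    rw [he]
    exact Nat.Coprime.pow_left e (hq.out.coprime_iff_not_dvd.2 hK)
  haveI := hQ.isNilpotent
  obtain ⟨R, hR⟩ := Coprime.exists_invariant_sylow p (hnK Q) (hcop Q le_rfl) (Or.inl inferInstance)
  refine ⟨R, fun r hr => ?_⟩
  rw [Subgroup.mem_centralizer_iff]
  intro y hy
  set C := (Subgroup.centralizer ({y} : Set G)).subgroupOf K with hC
  have hCi : ¬ p ∣ C.index := fun hd =>
    h y hy (hd.trans (ClassSize.relIndex_dvd_index_of_normal_left K _))
  obtain ⟨S⟩ : Nonempty (Sylow p C) := inferInstance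
  have hSi : ¬ p ∣ ((S : Subgroup C).map C.subtype).index := by
    rw [Subgroup.index_map_subtype]
    exact hp.out.not_dvd_mul S.not_dvd_index hCi
  let R' : Sylow p K := (S.2.map C.subtype).toSylow hSi
  have hR' : (R' : Subgroup K).map K.subtype ≤ Subgroup.centralizer ({y} : Set G) := by
    rintro _ ⟨a, ha, rfl⟩
    obtain ⟨b, -, rfl⟩ := ha
    exact b.2
  set A := Subgroup.zpowers y with hA
  have hAQ : A ≤ Q := Subgroup.zpowers_le.2 hy
  have hAR' : A ≤ Subgroup.normalizer ((R' : Subgroup K).map K.subtype : Set G) := by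
    rw [hA, Subgroup.zpowers_le]
    refine Subgroup.mem_normalizer_iff.2 fun a => ⟨fun ha => ?_, fun ha => ?_⟩
    · have h1 := Subgroup.mem_centralizer_iff.1 (hR' ha) y rfl
      rwa [h1, mul_inv_cancel_right]
    · have h1 := Subgroup.mem_centralizer_iff.1 (hR' ha) y rfl
      have h2 : a = y * a * y⁻¹ := by
        rw [mul_assoc] at h1
        have h3 := congrArg (fun t => y⁻¹ * t) h1
        simp [mul_assoc] at h3
        simpa [mul_assoc] using h3.symm
      rwa [← h2] at ha
  obtain ⟨c, hc, hcR⟩ := Coprime.exists_centralizer_conj_sylow (hnK A) (hcop A hAQ)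
    (Or.inl inferInstance) R' R hAR' (hAQ.trans hR)
  rw [← hcR] at hr
  obtain ⟨a, ha, rfl⟩ := hr
  have h1 : y * a = a * y := Subgroup.mem_centralizer_iff.1 (hR' ha) y rfl
  have h2 : y * c = c * y := Subgroup.mem_centralizer_iff.1 hc.2 y (Subgroup.mem_zpowers y)
  show y * (c * a * c⁻¹) = c * a * c⁻¹ * y
  have h3 : y * c⁻¹ = c⁻¹ * y := by
    rw [eq_inv_mul_iff_mul_eq, ← mul_assoc, ← h2, mul_assoc, mul_inv_cancel, mul_one]
  calc y * (c * a * c⁻¹) = (y * c) * a * c⁻¹ := by group
    _ = c * (y * a) * c⁻¹ := by rw [h2]; group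
    _ = c * a * (y * c⁻¹) := by rw [h1]; group
    _ = c * a * c⁻¹ * y := by rw [h3]; group

universe u

/-- One step: an invariant Sylow subgroup of the quotient lifts. -/
theorem step {G : Type u} [Group G] [Finite G] (hpq : p ≠ q) (K : Subgroup G) [K.Normal]
    (hK : ¬ p ∣ Nat.card K ∨ ¬ q ∣ Nat.card K)
    (h : ∀ y : G, (∃ k : ℕ, orderOf y = q ^ k) → ¬ p ∣ (Subgroup.centralizer ({y} : Set G)).index)
    (hbar : ∃ (P : Sylow p (G ⧸ K)) (Q : Sylow q (G ⧸ K)),
      (P : Subgroup (G ⧸ K)) ≤ Subgroup.normalizer ((Q : Subgroup (G ⧸ K)) : Set (G ⧸ K))) :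
    ∃ (P : Sylow p G) (Q : Sylow q G),
      (P : Subgroup G) ≤ Subgroup.normalizer ((Q : Subgroup G) : Set G) := by
  classical
  obtain ⟨P', Q', hPQ⟩ := hbar
  set f := QuotientGroup.mk' K with hf
  have hsurj : Function.Surjective f := QuotientGroup.mk'_surjective K
  set L := (Q' : Subgroup (G ⧸ K)).comap f with hL
  set M := (Subgroup.normalizer ((Q' : Subgroup (G ⧸ K)) : Set (G ⧸ K))).comap f with hM
  have hKL : K ≤ L := fun x hx => by
    rw [hL, Subgroup.mem_comap, hf, QuotientGroup.mk'_apply, (QuotientGroup.eq_one_iff x).2 hx]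
    exact Subgroup.one_mem _
  have hMi : ¬ p ∣ M.index := by
    rw [hM, Subgroup.index_comap_of_surjective _ hsurj]
    exact fun hd => P'.not_dvd_index (hd.trans (Subgroup.index_dvd_of_le hPQ))
  have hLi : ¬ q ∣ L.index := by
    rw [hL, Subgroup.index_comap_of_surjective _ hsurj]
    exact Q'.not_dvd_index
  have hML : M ≤ Subgroup.normalizer (L : Set G) := by
    intro m hm
    refine Subgroup.mem_normalizer_iff.2 fun a => ?_
    simp only [hL, Subgroup.mem_comap, map_mul, map_inv]
    exact Subgroup.mem_normalizer_iff.1 hm (f a)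
  have hLM : L ≤ M := Subgroup.comap_mono Subgroup.le_normalizer
  obtain ⟨S⟩ : Nonempty (Sylow p M) := inferInstance
  have hSi : ¬ p ∣ ((S : Subgroup M).map M.subtype).index := by
    rw [Subgroup.index_map_subtype]
    exact hp.out.not_dvd_mul S.not_dvd_index hMi
  set P := (S.2.map M.subtype).toSylow hSi with hP
  have hPM : (P : Subgroup G) ≤ M := by
    rintro _ ⟨a, -, rfl⟩; exact a.2
  obtain ⟨j, hj⟩ := IsPGroup.iff_card.1 Q'.2
  have hLcard : Nat.card L = Nat.card K * q ^ j := by
    rw [hL, ← hj, PSolv.card_comap_mk]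
  by_cases hKp : p ∣ Nat.card K
  swap
  · obtain ⟨e, he⟩ := IsPGroup.iff_card.1 P.2
    have hcop : (Nat.card (P : Subgroup G)).Coprime (Nat.card L) := by
      rw [he, hLcard]
      refine Nat.Coprime.pow_left e (hp.out.coprime_iff_not_dvd.2 (hp.out.not_dvd_mul hKp ?_))
      exact fun hd => hpq ((Nat.prime_dvd_prime_iff_eq hp.out hq.out).1 (hp.out.dvd_of_dvd_pow hd))
    haveI := P.2.isNilpotent
    obtain ⟨Q, hQ⟩ := Coprime.exists_invariant_sylow q (hPM.trans hML) hcop (Or.inl inferInstance)
    have hidx : ¬ q ∣ ((Q : Subgroup L).map L.subtype).index := by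
      rw [Subgroup.index_map_subtype]
      exact hq.out.not_dvd_mul Q.not_dvd_index hLi
    exact ⟨P, (Q.2.map L.subtype).toSylow hidx, hQ⟩
  · have hKq : ¬ q ∣ Nat.card K := hK.resolve_left (not_not.2 hKp)
    obtain ⟨S0⟩ : Nonempty (Sylow q L) := inferInstance
    have hQi : ¬ q ∣ ((S0 : Subgroup L).map L.subtype).index := by
      rw [Subgroup.index_map_subtype]
      exact hq.out.not_dvd_mul S0.not_dvd_index hLi
    set Q := (S0.2.map L.subtype).toSylow hQi with hQdef
    have hQL : (Q : Subgroup G) ≤ L := by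
      rintro _ ⟨a, -, rfl⟩; exact a.2
    obtain ⟨R, hR⟩ := exists_centralized_sylow (p := p) K hKq (Q : Subgroup G) Q.2
      (fun y hy => h y (by
        obtain ⟨k, hk⟩ := IsPGroup.iff_orderOf.1 Q.2 ⟨y, hy⟩
        exact ⟨k, by rw [← hk, Subgroup.orderOf_mk]⟩))
    -- Frattini inside `M`
    set L0 := L.subgroupOf M with hL0
    haveI : L0.Normal := Subgroup.normal_subgroupOf_of_le_normalizer hML
    set H := (Subgroup.normalizer ((Q : Subgroup G) : Set G)).subgroupOf M with hH
    let QL : Sylow q L0 := (Q.subtype (hQL.trans hLM)).subtype (N := L0) (fun x hx => hQL hx)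
    have hsup : H ⊔ L0 = ⊤ := by
      have hfr := Sylow.normalizer_sup_eq_top QL
      refine top_le_iff.1 (hfr.ge.trans (sup_le_sup_right ?_ _))
      intro m hm
      rw [hH, Subgroup.mem_subgroupOf, Subgroup.mem_normalizer_iff]
      intro a
      have hcoe : ∀ b : M, b ∈ (QL : Subgroup L0).map L0.subtype ↔ (b : G) ∈ (Q : Subgroup G) :=
        fun b => ⟨by rintro ⟨c, hc, rfl⟩; exact hc, fun hb => ⟨⟨b, hQL hb⟩, hb, rfl⟩⟩
      constructor
      · intro ha
        have h1 := (Subgroup.mem_normalizer_iff.1 hm ⟨a, hLM (hQL ha)⟩).1 ((hcoe _).2 ha)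
        exact (hcoe _).1 h1
      · intro ha
        have h1 := (Subgroup.mem_normalizer_iff.1 ((Subgroup.normalizer _).inv_mem hm)
          ⟨(m : G) * a * (m : G)⁻¹, hLM (hQL ha)⟩).1 ((hcoe _).2 ha)
        have h2 := (hcoe _).1 h1
        simpa [mul_assoc] using h2
    -- the index of the normaliser of `Q` in `M` is prime to `p`
    have hHi : ¬ p ∣ H.index := by
      intro hd
      set W := H ⊓ L0 with hW
      have e1 : L0.relIndex H = L0.index := by
        rw [← Subgroup.relIndex_sup_right H L0, hsup, Subgroup.relIndex_top_right]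
      have e2 : Nat.card W * L0.index = Nat.card H := by
        rw [← e1, ← Subgroup.inf_relIndex_left, ← hW, mul_comm, Subgroup.relIndex,
          ← Nat.card_congr (Subgroup.subgroupOfEquivOfLe (inf_le_left : W ≤ H)).toEquiv,
          Subgroup.index_mul_card]
      have e3 : H.index * Nat.card W = Nat.card L0 := by
        refine Nat.eq_of_mul_eq_mul_right (Nat.pos_of_ne_zero L0.index_ne_zero_of_finite) ?_
        rw [mul_assoc, e2, H.index_mul_card, L0.card_mul_index]
      have hRW : (R : Subgroup K).map K.subtype ≤ W.map M.subtype := by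
        intro r hr
        have hrK : r ∈ K := by obtain ⟨a, -, rfl⟩ := hr; exact a.2
        refine ⟨⟨r, hLM (hKL hrK)⟩, ⟨?_, hKL hrK⟩, rfl⟩
        refine (Subgroup.mem_subgroupOf).2 (Subgroup.mem_normalizer_iff.2 fun a => ?_)
        have hc := Subgroup.mem_centralizer_iff.1 (hR hr)
        constructor
        · intro ha
          show r * a * r⁻¹ ∈ _
          rwa [← hc a ha, mul_inv_cancel_right]
        · intro ha
          have h1 := hc _ ha
          have h2 : r * a * r⁻¹ = a := by
            have h3 : r * a = r * (r * a * r⁻¹) := by rw [← h1]; group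
            exact (mul_left_cancel h3).symm
          rwa [h2] at ha
      have hRc : Nat.card ((R : Subgroup K).map K.subtype) = p ^ (Nat.card K).factorization p := by
        rw [Subgroup.card_map_of_injective K.subtype_injective, R.card_eq_multiplicity]
      have hdvd : p ^ ((Nat.card K).factorization p + 1) ∣ Nat.card K * q ^ j := by
        rw [← hLcard, ← Nat.card_congr (Subgroup.subgroupOfEquivOfLe hLM).toEquiv, ← hL0, ← e3,
          pow_succ', ← hRc]
        refine Nat.mul_dvd_mul hd ((Subgroup.card_dvd_of_le hRW).trans ?_)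
        rw [Subgroup.card_map_of_injective M.subtype_injective]
      have hd2 := (Nat.Coprime.dvd_mul_right (Nat.Coprime.pow _ j
        ((Nat.coprime_primes hp.out hq.out).2 hpq))).1 hdvd
      exact Nat.pow_succ_factorization_not_dvd Nat.card_pos.ne' hp.out hd2
    have hNi : ¬ p ∣ (H.map M.subtype).index := by
      rw [Subgroup.index_map_subtype]
      exact hp.out.not_dvd_mul hHi hMi
    obtain ⟨T⟩ : Nonempty (Sylow p ↥(H.map M.subtype)) := inferInstance
    have hTi : ¬ p ∣ ((T : Subgroup ↥(H.map M.subtype)).map (H.map M.subtype).subtype).index := by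
      rw [Subgroup.index_map_subtype]
      exact hp.out.not_dvd_mul T.not_dvd_index hNi
    refine ⟨(T.2.map _).toSylow hTi, Q, ?_⟩
    rintro _ ⟨⟨t, ⟨m, hm, rfl⟩⟩, -, rfl⟩
    exact hm

theorem aux (n : ℕ) : ∀ (G : Type u) [Group G] [Finite G], Nat.card G ≤ n →
    (IsPSolvable p G ∨ IsPSolvable q G) →
    (∀ y : G, (∃ k : ℕ, orderOf y = q ^ k) → ¬ p ∣ (Subgroup.centralizer ({y} : Set G)).index) →
    p ≠ q →
    ∃ (P : Sylow p G) (Q : Sylow q G),
      (P : Subgroup G) ≤ Subgroup.normalizer ((Q : Subgroup G) : Set G) := by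
  induction n with
  | zero =>
    intro G _ _ hn
    have : 0 < Nat.card G := Nat.card_pos
    omega
  | succ n ih =>
    intro G _ _ hn hs h hpq
    rcases subsingleton_or_nontrivial G with hG | hG
    · obtain ⟨P⟩ : Nonempty (Sylow p G) := inferInstance
      obtain ⟨Q⟩ : Nonempty (Sylow q G) := inferInstance
      exact ⟨P, Q, fun x _ => by rw [Subsingleton.elim x 1]; exact Subgroup.one_mem _⟩
    obtain ⟨K, hKn, hK0, hKc⟩ : ∃ K : Subgroup G, K.Normal ∧ K ≠ ⊥ ∧
        (¬ p ∣ Nat.card K ∨ ¬ q ∣ Nat.card K) := by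
      have hdisj : ∀ (r s : ℕ) [Fact r.Prime] [Fact s.Prime], r ≠ s →
          ¬ s ∣ Nat.card (pCore r G) := by
        intro r s _ _ hrs hd
        obtain ⟨i, hi⟩ := IsPGroup.iff_card.1 (Cores.pCore_isPGroup (p := r) (G := G))
        rw [hi] at hd
        exact hrs ((Nat.prime_dvd_prime_iff_eq Fact.out Fact.out).1
          ((Fact.out : s.Prime).dvd_of_dvd_pow hd)).symm
      rcases hs with hs | hs
      · rcases PSolv.pCore_ne_bot_or_pPrimeCore_ne_bot hs with h1 | h1
        · exact ⟨_, inferInstance, h1, Or.inr (hdisj p q hpq)⟩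
        · exact ⟨_, inferInstance, h1, Or.inl Cores.not_dvd_card_pPrimeCore⟩
      · rcases PSolv.pCore_ne_bot_or_pPrimeCore_ne_bot hs with h1 | h1
        · exact ⟨_, inferInstance, h1, Or.inl (hdisj q p hpq.symm)⟩
        · exact ⟨_, inferInstance, h1, Or.inr Cores.not_dvd_card_pPrimeCore⟩
    refine step hpq K hKc h (ih (G ⧸ K) ?_ ?_ ?_ hpq)
    · have h1 := Subgroup.card_eq_card_quotient_mul_card_subgroup K
      have h2 : 1 < Nat.card K := Subgroup.one_lt_card_iff_ne_bot K |>.2 hK0
      have h3 : 0 < Nat.card (G ⧸ K) := Nat.card_pos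
      nlinarith
    · exact hs.imp (fun h => PSolv.isPSolvable_quotient h K)
        (fun h => PSolv.isPSolvable_quotient h K)
    · intro y hy
      obtain ⟨k, hk⟩ := hy
      obtain ⟨T, hT⟩ := IsPGroup.exists_le_sylow
        (IsPGroup.of_card (n := k) (by rw [Nat.card_zpowers, hk]) :
          IsPGroup q (Subgroup.zpowers y))
      obtain ⟨T', rfl⟩ := Sylow.mapSurjective_surjective (QuotientGroup.mk'_surjective K) q T
      obtain ⟨x, hx, rfl⟩ := hT (Subgroup.mem_zpowers y)
      obtain ⟨i, hi⟩ := IsPGroup.iff_orderOf.1 T'.2 ⟨x, hx⟩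
      rw [Subgroup.orderOf_mk] at hi
      exact fun hd => h x ⟨i, hi⟩ (hd.trans
        (ClassSize.index_centralizer_map_dvd _ (QuotientGroup.mk'_surjective K) x))

/-- Let p and q be primes and G a finite group that is p-solvable or q-solvable, in which no q-element has conjugacy class size divisible by p. Then some Sylow p-subgroup of G normalizes some Sylow q-subgroup of G. -/
theorem result {G : Type*} [Group G] [Finite G] (p q : ℕ) [Fact p.Prime] [Fact q.Prime] (hsolv : Cfsg.IsPSolvable p G ∨ Cfsg.IsPSolvable q G)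
    (h : ∀ y : G, (∃ k : ℕ, orderOf y = q ^ k) → ¬ p ∣ (Subgroup.centralizer ({y} : Set G)).index) :
    ∃ (P : Sylow p G) (Q : Sylow q G), (P : Subgroup G) ≤ Subgroup.normalizer ((Q : Subgroup G) : Set G) := by
  rcases eq_or_ne p q with hpq | hpq
  · subst hpq
    obtain ⟨P⟩ : Nonempty (Sylow p G) := inferInstance
    exact ⟨P, P, Subgroup.le_normalizer⟩
  · exact aux (Nat.card G) G le_rfl hsolv h hpq

end Cfsg.Agent.S4601
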