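import Cfsg.Statements.S4602
import Cfsg.Agent.PSolv.HallHigman
import Cfsg.Agent.Cores.Basic
import Cfsg.Agent.Coprime.Action

set_option autoImplicit false
open Cfsg

namespace Cfsg.Agent.S4602

/-- Let G be a finite p-solvable group and q a prime different from p. Some Sylow p-subgroup of G normalizes some Sylow q-subgroup of G if and only if q does not divide the order of G/O_{p'}(G), the quotient by the largest normal subgroup of order prime to p. -/
theorem result {G : Type*} [Group G] [Finite G] (p q : ℕ) [Fact p.Prime] [Fact q.Prime] (hpq : p ≠ q) (hsolv : Cfsg.IsPSolvable p G) :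
    (∃ (P : Sylow p G) (Q : Sylow q G), (P : Subgroup G) ≤ Subgroup.normalizer ((Q : Subgroup G) : Set G)) ↔ ¬ q ∣ (Cfsg.pPrimeCore p G).index := by
  classical
  set K := Cfsg.pPrimeCore p G with hK
  constructor
  · rintro ⟨P, Q, hPQ⟩ hq
    set f := QuotientGroup.mk' K with hf
    have hsurj : Function.Surjective f := QuotientGroup.mk'_surjective K
    set R := Cfsg.pCore p (G ⧸ K) with hR
    have hO : Cfsg.pPrimeCore p (G ⧸ K) = ⊥ := Cores.pPrimeCore_quotient_pPrimeCore_eq_bot
    have hC := PSolv.centralizer_pCore_le (PSolv.isPSolvable_quotient hsolv K) hO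
    have hRP : R ≤ (P : Subgroup G).map f := Cores.pCore_le_sylow (P.mapSurjective hsurj)
    have hcop : R ⊓ (Q : Subgroup G).map f = ⊥ := by
      refine disjoint_iff.1 (IsPGroup.disjoint_of_ne p q hpq _ _ ?_ (Q.2.map f))
      exact Cores.pCore_isPGroup
    have hQC : (Q : Subgroup G).map f ≤ Subgroup.centralizer (R : Set (G ⧸ K)) := by
      intro y hy
      rw [Subgroup.mem_centralizer_iff]
      intro r hr
      have h1 : r * y * r⁻¹ * y⁻¹ ∈ R := by
        have h2 := R.mul_mem hr ((inferInstance : R.Normal).conj_mem _ (R.inv_mem hr) y)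
        simpa [mul_assoc] using h2
      have h2 : r * y * r⁻¹ * y⁻¹ ∈ (Q : Subgroup G).map f := by
        obtain ⟨a, ha, rfl⟩ := hRP hr
        obtain ⟨b, hb, rfl⟩ := hy
        refine ⟨a * b * a⁻¹ * b⁻¹, Subgroup.mul_mem _ ?_ (Subgroup.inv_mem _ hb), by simp⟩
        exact (Subgroup.mem_normalizer_iff.1 (hPQ ha) b).1 hb
      have h3 : r * y * r⁻¹ * y⁻¹ ∈ (⊥ : Subgroup (G ⧸ K)) := hcop ▸ ⟨h1, h2⟩
      rw [Subgroup.mem_bot, mul_inv_eq_one, mul_inv_eq_iff_eq_mul] at h3
      exact h3
    have hQK : (Q : Subgroup G) ≤ K := by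
      intro x hx
      have h1 : f x ∈ (⊥ : Subgroup (G ⧸ K)) :=
        hcop ▸ ⟨hC (hQC ⟨x, hx, rfl⟩), ⟨x, hx, rfl⟩⟩
      exact (QuotientGroup.eq_one_iff x).1 h1
    exact Q.not_dvd_index (hq.trans (Subgroup.index_dvd_of_le hQK))
  · intro hq
    obtain ⟨P⟩ : Nonempty (Sylow p G) := inferInstance
    have hAK : (P : Subgroup G) ≤ Subgroup.normalizer (K : Set G) := by
      rw [Subgroup.normalizer_eq_top]; exact le_top
    obtain ⟨e, he⟩ := IsPGroup.iff_card.1 P.2
    have hcop : (Nat.card (P : Subgroup G)).Coprime (Nat.card K) := by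
      rw [he]
      exact Nat.Coprime.pow_left e ((Fact.out : p.Prime).coprime_iff_not_dvd.2
        Cores.not_dvd_card_pPrimeCore)
    haveI := P.2.isNilpotent
    obtain ⟨Q, hQ⟩ := Coprime.exists_invariant_sylow q hAK hcop (Or.inl inferInstance)
    have hidx : ¬ q ∣ ((Q : Subgroup K).map K.subtype).index := by
      rw [Subgroup.index_map_subtype]
      exact (Fact.out : q.Prime).not_dvd_mul Q.not_dvd_index hq
    exact ⟨P, (Q.2.map K.subtype).toSylow hidx, hQ⟩

end Cfsg.Agent.S4602
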