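import Cfsg.Statements.S4604
import Cfsg.Agent.Char.Orthogonality
import Cfsg.Agent.Char.Basic
import Cfsg.Agent.Char.Integrality
import Mathlib.GroupTheory.Sylow
import Mathlib.Algebra.CharP.Lemmas
import Mathlib.LinearAlgebra.Trace
import Mathlib.LinearAlgebra.PID
import Mathlib.FieldTheory.Finite.Basic
import Mathlib.RingTheory.IntegralClosure.IntegrallyClosed
import Mathlib.RingTheory.UniqueFactorizationDomain.GCDMonoid

set_option autoImplicit false
set_option linter.style.haveILetI false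
open Cfsg

namespace Cfsg.Agent.S4604

open Cfsg Cfsg.Agent.Char
open scoped ComplexConjugate

/-- The average of a character over `s P`, `P` commuting with `s`, is an algebraic integer. -/
theorem isIntegral_average {G : Type*} [Group G] [Finite G] {χ : G → ℂ} (hχ : IsCharacter G χ)
    (P : Subgroup G) [Fintype P] (s : G) (hs : ∀ u ∈ P, s * u = u * s) :
    IsIntegral ℤ ((Nat.card P : ℂ)⁻¹ * ∑ u : P, χ (s * u)) := by
  classical
  obtain ⟨n, ρ, rfl⟩ := hχ
  set E : Module.End ℂ (Fin n → ℂ) := (Nat.card P : ℂ)⁻¹ • ∑ u : P, ρ u with hE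
  have hP0 : (Nat.card P : ℂ) ≠ 0 := Nat.cast_ne_zero.2 Nat.card_pos.ne'
  have hfix : ∀ v : P, ρ v * E = E := by
    intro v
    rw [hE, mul_smul_comm, Finset.mul_sum]
    congr 1
    refine Fintype.sum_equiv (Equiv.mulLeft v) _ _ fun u => ?_
    rw [← map_mul]; rfl
  let W : Submodule ℂ (Fin n → ℂ) := ⨅ v : P, LinearMap.ker (ρ (v : G) - 1)
  have hW : ∀ w, w ∈ W ↔ ∀ v : P, ρ (v : G) w = w := by
    intro w
    simp [W, Submodule.mem_iInf, sub_eq_zero]
  let C := Subgroup.zpowers s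
  have hC : ∀ c : C, ∀ u : P, (c : G) * u = u * c := by
    intro c u
    obtain ⟨i, hi⟩ := Subgroup.mem_zpowers_iff.1 c.2
    rw [← hi]
    exact (Commute.zpow_left (hs u u.2) i).eq
  have hmem : ∀ c : C, ∀ w ∈ W, ρ (c : G) w ∈ W := by
    intro c w hw
    rw [hW] at hw ⊢
    intro v
    rw [← Module.End.mul_apply, ← map_mul, ← hC c v, map_mul, Module.End.mul_apply, hw v]
  let σ : Representation ℂ C W :=
    { toFun := fun c => (ρ (c : G)).restrict (hmem c)
      map_one' := LinearMap.ext fun w => Subtype.ext (by simp [LinearMap.restrict_apply])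
      map_mul' := fun a b => LinearMap.ext fun w => Subtype.ext (by simp [LinearMap.restrict_apply, map_mul]) }
  have hsE : ∀ v, (ρ s * E) v ∈ W := by
    intro v
    rw [hW]
    intro u
    rw [← Module.End.mul_apply, ← mul_assoc, ← map_mul, ← hs u u.2, map_mul, mul_assoc, hfix u]
  have key : (Nat.card P : ℂ)⁻¹ * ∑ u : P, ρ.character (s * u) =
      σ.character ⟨s, Subgroup.mem_zpowers s⟩ := by
    have h1 : (Nat.card P : ℂ)⁻¹ * ∑ u : P, ρ.character (s * u) =
        LinearMap.trace ℂ _ (ρ s * E) := by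
      rw [hE, mul_smul_comm, map_smul, smul_eq_mul]
      congr 1
      simp only [Representation.character, map_mul, Finset.mul_sum, map_sum]
    rw [h1, ← LinearMap.trace_restrict_eq_of_forall_mem W (ρ s * E) hsE]
    show _ = LinearMap.trace ℂ W (σ ⟨s, Subgroup.mem_zpowers s⟩)
    congr 1
    ext w : 2
    show (ρ s * E) (w : Fin n → ℂ) = ρ s (w : Fin n → ℂ)
    rw [Module.End.mul_apply]
    congr 1
    rw [hE, LinearMap.smul_apply, LinearMap.sum_apply,
      Finset.sum_congr rfl (g := fun _ => (w : Fin n → ℂ)) (fun u _ => (hW _).1 w.2 u),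
      Finset.sum_const, Finset.card_univ, ← Nat.card_eq_fintype_card,
      ← Nat.cast_smul_eq_nsmul ℂ, smul_smul, inv_mul_cancel₀ hP0, one_smul]
  rw [key]
  exact isCharacter_isIntegral (isCharacter_character σ) _

theorem exists_sum_pow {ι : Type*} (s : Finset ι) (f : ι → AlgInt) (p : ℕ) [hp : Fact p.Prime]
    (a : ℕ) : ∃ r : AlgInt, (∑ i ∈ s, f i) ^ p ^ a = (∑ i ∈ s, f i ^ p ^ a) + (p : AlgInt) * r := by
  classical
  induction s using Finset.induction_on with
  | empty =>
    refine ⟨0, ?_⟩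
    simp [zero_pow (pow_ne_zero a hp.out.ne_zero)]
  | @insert i s hi ih =>
    obtain ⟨r, hr⟩ := ih
    obtain ⟨r', hr'⟩ := exists_add_pow_prime_pow_eq hp.out (f i) (∑ j ∈ s, f j) a
    refine ⟨r + f i * (∑ j ∈ s, f j) * r', ?_⟩
    rw [Finset.sum_insert hi, Finset.sum_insert hi, hr', hr]
    ring

variable {G : Type*} [Group G] [Finite G] {p : ℕ} [hp : Fact p.Prime]

/-- `χ(x)^q ≡ χ(x^q)` modulo `p`, `q` a power of `p`. -/
theorem pow_congr (χ : IrrCharacter G) (x : G) (a : ℕ) :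
    ∃ γ : AlgInt, (χ : G → ℂ) x ^ p ^ a = (χ : G → ℂ) (x ^ p ^ a) + (p : ℂ) * γ := by
  obtain ⟨n, ρ, -, hρ⟩ := χ.2
  obtain ⟨ε, hε, hsum⟩ := exists_character_eq_sum_roots ρ x
  have hint : ∀ i, IsIntegral ℤ (ε i) := fun i =>
    IsIntegral.of_pow (orderOf_pos x) (by rw [hε i]; exact isIntegral_one)
  obtain ⟨r, hr⟩ := exists_sum_pow (p := p) Finset.univ (fun i => (⟨ε i, hint i⟩ : AlgInt)) a
  refine ⟨r, ?_⟩
  have h1 := hsum 1
  simp only [pow_one] at h1
  rw [← hρ, h1, hsum]
  simpa using congrArg Subtype.val hr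

/-- `p`-regular elements with congruent character values are conjugate. -/
theorem isConj_of_congr {s t : G} (ht : ¬ p ∣ orderOf t) (hs : ¬ p ∣ orderOf s)
    (h : ∀ χ : IrrCharacter G, ∃ γ : AlgInt, (χ : G → ℂ) s - (χ : G → ℂ) t = (p : ℂ) * γ) :
    IsConj s t := by
  classical
  letI := Fintype.ofFinite G
  by_contra hne
  set C := Subgroup.centralizer ({s} : Set G) with hC
  obtain ⟨S⟩ : Nonempty (Sylow p C) := inferInstance
  set P := (S : Subgroup C).map C.subtype with hP
  letI := Fintype.ofFinite P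
  have hsP : ∀ u ∈ P, s * u = u * s := by
    rintro _ ⟨u, -, rfl⟩
    exact Subgroup.mem_centralizer_iff.1 u.2 s rfl
  have hPp : IsPGroup p P := S.2.map _
  have hreg : ∀ u : P, ¬ p ∣ orderOf (s * (u : G)) → (u : G) = 1 := by
    intro u hu
    obtain ⟨i, hi⟩ := IsPGroup.iff_orderOf.1 hPp u
    rw [← Subgroup.orderOf_coe] at hi
    have hc : Commute s (u : G) := hsP u u.2
    have hcop : (orderOf s).Coprime (orderOf (u : G)) := by
      rw [hi]
      exact Nat.Coprime.pow_right i (Nat.coprime_comm.1 (hp.out.coprime_iff_not_dvd.2 hs))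
    have h1 := hc.orderOf_mul_eq_mul_orderOf_of_coprime hcop
    rw [← orderOf_eq_one_iff, hi]
    rcases i with _ | i
    · rfl
    · exfalso
      apply hu
      rw [h1, hi, pow_succ]
      exact dvd_mul_of_dvd_right (dvd_mul_left _ _) _
  let a : IrrCharacter G → ℂ := fun χ => conj ((Nat.card P : ℂ)⁻¹ * ∑ u : P, (χ : G → ℂ) (s * u))
  have ha : ∀ χ, IsIntegral ℤ (a χ) := fun χ => by
    have h1 := isIntegral_average (isCharacter_of_irr χ.2) P s hsP
    exact h1.map ((starRingEnd ℂ).toIntAlgHom)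
  have hval : ∀ g : G, ¬ p ∣ orderOf g → ∑ χ : IrrCharacter G, a χ * (χ : G → ℂ) g =
      if IsConj g s then (Nat.card (Subgroup.centralizer ({g} : Set G)) : ℂ) / Nat.card P else 0 := by
    intro g hg
    have h1 : ∑ χ : IrrCharacter G, a χ * (χ : G → ℂ) g = (Nat.card P : ℂ)⁻¹ *
        ∑ u : P, ∑ χ : IrrCharacter G, (χ : G → ℂ) g * conj ((χ : G → ℂ) (s * u)) := by
      rw [Finset.sum_comm, Finset.mul_sum]
      refine Finset.sum_congr rfl fun χ _ => ?_
      simp only [a, map_mul, map_inv₀, map_natCast, map_sum, Finset.mul_sum, Finset.sum_mul]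
      refine Finset.sum_congr rfl fun u _ => ?_
      ring
    rw [h1, Finset.sum_eq_single_of_mem (1 : P) (Finset.mem_univ _)]
    · rw [OneMemClass.coe_one, mul_one, sum_irr_mul_conj]
      split_ifs
      · rw [div_eq_mul_inv]; ring
      · rw [mul_zero]
    · intro u _ hu
      rw [sum_irr_mul_conj, if_neg]
      intro hc
      refine hu (Subtype.ext (hreg u ?_))
      obtain ⟨c, hc'⟩ := isConj_iff.1 hc
      rwa [← hc', ← MulAut.conj_apply, MulEquiv.orderOf_eq]
  choose γ hγ using h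
  have hdiff : (Nat.card C : ℂ) / Nat.card P = (p : ℂ) * ∑ χ : IrrCharacter G, a χ * (γ χ : ℂ) := by
    have h1 := hval s hs
    have h2 := hval t ht
    rw [if_pos (IsConj.refl s)] at h1
    rw [if_neg (fun hc => hne hc.symm)] at h2
    rw [← h1, ← sub_zero (∑ χ : IrrCharacter G, a χ * (χ : G → ℂ) s), ← h2,
      ← Finset.sum_sub_distrib, Finset.mul_sum]
    refine Finset.sum_congr rfl fun χ _ => ?_
    rw [← mul_sub, hγ χ]
    ring
  have hPc : Nat.card P = Nat.card S := Subgroup.card_map_of_injective C.subtype_injective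
  have hidx : (Nat.card C : ℂ) / Nat.card P = ((S : Subgroup C).index : ℂ) := by
    rw [div_eq_iff (Nat.cast_ne_zero.2 Nat.card_pos.ne'), hPc, ← Nat.cast_mul,
      (S : Subgroup C).index_mul_card]
  rw [hidx] at hdiff
  have hint : IsIntegral ℤ ((((S : Subgroup C).index : ℚ) / (p : ℚ) : ℚ) : ℂ) := by
    have e : ((((S : Subgroup C).index : ℚ) / (p : ℚ) : ℚ) : ℂ) =
        ∑ χ : IrrCharacter G, a χ * (γ χ : ℂ) := by
      push_cast
      rw [hdiff, mul_div_cancel_left₀ _ (Nat.cast_ne_zero.2 hp.out.ne_zero)]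
    rw [e]
    exact IsIntegral.sum _ fun χ _ => (ha χ).mul (γ χ).2
  obtain ⟨z, hz⟩ := exists_int_of_isIntegral_rat hint
  apply S.not_dvd_index
  rw [← Int.natCast_dvd_natCast]
  refine ⟨z, ?_⟩
  have hp0 : (p : ℚ) ≠ 0 := Nat.cast_ne_zero.2 hp.out.ne_zero
  rw [div_eq_iff hp0] at hz
  have : (((S : Subgroup C).index : ℤ) : ℚ) = (((p : ℤ) * z : ℤ) : ℚ) := by
    push_cast; rw [hz]; ring
  exact_mod_cast this

/-- Let G be a finite group, p a prime and p^a the p-part of the order of G. Let x, y ∈ G and let x′, y′ be their p-regular parts: x′ has order prime to p, commutes with x·x′⁻¹, and x·x′⁻¹ has p-power order (likewise for y). Then x′ and y′ are conjugate in G if and only if for every irreducible character χ of G the algebraic integer χ(x)^(p^a) − χ(y)^(p^a) is p times an algebraic integer. -/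
theorem result {G : Type*} [Group G] [Finite G] (p : ℕ) [Fact p.Prime] (x y x' y' : G)
    (hx : (∃ k : ℕ, orderOf (x * x'⁻¹) = p ^ k) ∧ Commute (x * x'⁻¹) x' ∧ ¬ p ∣ orderOf x')
    (hy : (∃ k : ℕ, orderOf (y * y'⁻¹) = p ^ k) ∧ Commute (y * y'⁻¹) y' ∧ ¬ p ∣ orderOf y') :
    IsConj x' y' ↔ ∀ χ : Cfsg.IrrCharacter G, ∃ γ : Cfsg.AlgInt,
      (χ : G → ℂ) x ^ (p ^ (Nat.card G).factorization p) - (χ : G → ℂ) y ^ (p ^ (Nat.card G).factorization p) = (p : ℂ) * (γ : ℂ) := by
  have hp : p.Prime := Fact.out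
  set q := p ^ (Nat.card G).factorization p with hq
  have hpow : ∀ z z' : G, (∃ k : ℕ, orderOf (z * z'⁻¹) = p ^ k) → Commute (z * z'⁻¹) z' →
      z ^ q = z' ^ q := by
    rintro z z' ⟨k, hk⟩ hc
    have hd : orderOf (z * z'⁻¹) ∣ q := by
      rw [hk, hq]
      refine pow_dvd_pow p ?_
      rw [← hp.pow_dvd_iff_le_factorization Nat.card_pos.ne', ← hk]
      exact orderOf_dvd_natCard _
    conv_lhs => rw [show z = (z * z'⁻¹) * z' by group]
    rw [hc.mul_pow, orderOf_dvd_iff_pow_eq_one.1 hd, one_mul]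
  have hxq := hpow x x' hx.1 hx.2.1
  have hyq := hpow y y' hy.1 hy.2.1
  constructor
  · intro hc χ
    obtain ⟨γ₁, h₁⟩ := pow_congr (p := p) χ x ((Nat.card G).factorization p)
    obtain ⟨γ₂, h₂⟩ := pow_congr (p := p) χ y ((Nat.card G).factorization p)
    refine ⟨γ₁ - γ₂, ?_⟩
    have he : (χ : G → ℂ) (x ^ q) = (χ : G → ℂ) (y ^ q) := by
      rw [hxq, hyq]
      obtain ⟨c, hc'⟩ := isConj_iff.1 hc
      refine isClassFunction_eq_of_isConj (irr_isClassFunction χ.2) (isConj_iff.2 ⟨c, ?_⟩)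
      rw [← hc', conj_pow]
    rw [hq, h₁, h₂, ← hq, he]
    push_cast
    ring
  · intro h
    have hreg : ∀ z : G, ¬ p ∣ orderOf z → ¬ p ∣ orderOf (z ^ q) := fun z hz hd =>
      hz (hd.trans (orderOf_pow_dvd _))
    have hconj : IsConj (x' ^ q) (y' ^ q) := by
      refine isConj_of_congr (p := p) (hreg _ hy.2.2) (hreg _ hx.2.2) fun χ => ?_
      obtain ⟨γ, hγ⟩ := h χ
      obtain ⟨γ₁, h₁⟩ := pow_congr (p := p) χ x ((Nat.card G).factorization p)
      obtain ⟨γ₂, h₂⟩ := pow_congr (p := p) χ y ((Nat.card G).factorization p)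
      refine ⟨γ - γ₁ + γ₂, ?_⟩
      rw [h₁, h₂, ← hq, hxq, hyq] at hγ
      push_cast
      linear_combination hγ
    -- undo the power
    set m := orderOf x' * orderOf y' with hm
    have hcop : q.Coprime m := Nat.Coprime.pow_left _
      (hp.coprime_iff_not_dvd.2 (hp.not_dvd_mul hx.2.2 hy.2.2))
    have h1 : q ^ m.totient ≡ 1 [MOD m] := Nat.ModEq.pow_totient hcop
    have hback : ∀ z : G, orderOf z ∣ m → (z ^ q) ^ q ^ (m.totient - 1) = z := by
      intro z hz
      rw [← pow_mul, ← pow_succ', Nat.sub_add_cancel (Nat.totient_pos.2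
        (Nat.mul_pos (orderOf_pos _) (orderOf_pos _)))]
      conv_rhs => rw [← pow_one z]
      exact pow_eq_pow_iff_modEq.2 (h1.of_dvd hz)
    obtain ⟨c, hc⟩ := isConj_iff.1 hconj
    refine isConj_iff.2 ⟨c, ?_⟩
    have h2 := congrArg (fun g => g ^ q ^ (m.totient - 1)) hc
    simp only [conj_pow] at h2
    rwa [hback x' (dvd_mul_right _ _), hback y' (dvd_mul_left _ _)] at h2

end Cfsg.Agent.S4604
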