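import Cfsg.Statements.S4607
import Cfsg.Agent.BlkChar.BlockAlgebra
import Cfsg.Agent.BlockVal.Principal
import Cfsg.Agent.BlockVal.SquareSum
import Cfsg.Agent.Block.DefectZero

set_option autoImplicit false
set_option linter.style.haveILetI false
open Cfsg

namespace Cfsg.Agent.S4607

open Cfsg.Agent.BlockVal
open Cfsg.Agent.Block (pBlock_nonempty pBlock_eq defect_zero_iff_blockOf_eq_singleton)
open scoped Classical

universe u

variable {G : Type u} [Group G] [Fintype G] {p : ℕ} {M : Ideal AlgInt}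

theorem one_lt_card_of_defect_pos (hM : IsPModular p M) {B : Set (IrrCharacter G)}
    (hB : IsPBlock M B) (hd : blockDefect p B ≠ 0) : 1 < Nat.card B := by
  haveI : M.IsPrime := hM.2.1.isPrime
  obtain ⟨χ, hχ, h0⟩ := exists_height_zero (p := p) (pBlock_nonempty hB)
  by_contra hle
  have hsing : B = {χ} := by
    refine Set.eq_singleton_iff_unique_mem.2 ⟨hχ, fun ψ hψ => ?_⟩
    have : Subsingleton B := by
      rw [← Finite.card_le_one_iff_subsingleton]; omega
    exact congrArg Subtype.val (Subsingleton.elim (⟨ψ, hψ⟩ : B) ⟨χ, hχ⟩)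
  have h' := (defect_zero_iff_blockOf_eq_singleton hM χ).2 (by rw [← (pBlock_eq hB) hχ, hsing])
  obtain ⟨h1, hpos, hdvd⟩ := Cfsg.Agent.Block.irr_one_eq_charDegree χ.2
  obtain ⟨m, hm⟩ := hdvd
  rw [hm, Nat.mul_div_cancel_left _ hpos] at h'
  have hm0 : m ≠ 0 := by rintro rfl; simp at h'
  apply hd
  rw [blockDefect_eq hχ h0, hm, Nat.factorization_mul hpos.ne' hm0, Finsupp.add_apply,
    Nat.factorization_eq_zero_of_not_dvd h']
  omega

/-- The arithmetic of two coprime degrees. -/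
theorem pair_arith {p A d1 d2 n : ℕ} (hp : p.Prime) (h1 : 0 < d1) (h2 : 0 < d2)
    (hn : d1 ^ 2 + d2 ^ 2 = 2 * n ^ 2) {z : ℤ}
    (hz : z * ((d1 : ℤ) ^ 2 + (d2 : ℤ) ^ 2) = (p : ℤ) ^ A * d1 * d2) : p = 2 ∧ d1 = d2 := by
  obtain ⟨g, a, b, hg, hab, rfl, rfl⟩ := Nat.exists_coprime' (Nat.gcd_pos_of_pos_left d2 h1)
  have ha : 0 < a := Nat.pos_of_ne_zero (by rintro rfl; simp at h1)
  have hb : 0 < b := Nat.pos_of_ne_zero (by rintro rfl; simp at h2)
  have hg0 : (g : ℤ) ≠ 0 := by exact_mod_cast hg.ne'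
  have hz' : z * ((a : ℤ) ^ 2 + (b : ℤ) ^ 2) = (p : ℤ) ^ A * a * b := by
    push_cast at hz
    have : (g : ℤ) ^ 2 * (z * ((a : ℤ) ^ 2 + (b : ℤ) ^ 2) - (p : ℤ) ^ A * a * b) = 0 := by
      linear_combination hz
    have := (mul_eq_zero.1 this).resolve_left (pow_ne_zero 2 hg0)
    linarith
  have hdvd : ((a ^ 2 + b ^ 2 : ℕ) : ℤ) ∣ ((p ^ A * a * b : ℕ) : ℤ) := by
    refine ⟨z, ?_⟩
    push_cast
    linarith
  rw [Int.natCast_dvd_natCast] at hdvd
  have hca : Nat.Coprime (a ^ 2 + b ^ 2) a := by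
    rw [pow_two a, Nat.coprime_mul_right_add_left]
    exact Nat.Coprime.pow_left 2 hab.symm
  have hcb : Nat.Coprime (a ^ 2 + b ^ 2) b := by
    rw [pow_two b, Nat.coprime_add_mul_right_left]
    exact Nat.Coprime.pow_left 2 hab
  obtain ⟨t, -, ht⟩ := (Nat.dvd_prime_pow hp).1 (hca.dvd_of_dvd_mul_right (hcb.dvd_of_dvd_mul_right hdvd))
  have hab2 : 2 ≤ a ^ 2 + b ^ 2 := by nlinarith
  have ht0 : t ≠ 0 := by rintro rfl; rw [pow_zero] at ht; omega
  have hn' : g ^ 2 * p ^ t = 2 * n ^ 2 := by rw [← ht, ← hn]; ring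
  have hp2 : p = 2 := by
    by_contra hne
    have hn0 : n ≠ 0 := by
      rintro rfl
      have := Nat.mul_pos (pow_pos hg 2) (pow_pos hp.pos t)
      omega
    have h := congrArg (fun x => x.factorization 2) hn'
    simp only [Nat.factorization_mul (pow_ne_zero _ hg.ne') (pow_ne_zero _ hp.ne_zero),
      Nat.factorization_mul two_ne_zero (pow_ne_zero _ hn0), Nat.factorization_pow,
      Finsupp.add_apply, Finsupp.smul_apply, smul_eq_mul, Nat.prime_two.factorization_self,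
      hp.factorization] at h
    rw [Finsupp.single_eq_of_ne (Ne.symm hne)] at h
    omega
  subst hp2
  refine ⟨rfl, ?_⟩
  have hev : 2 ∣ a ^ 2 + b ^ 2 := ht ▸ dvd_pow_self 2 ht0
  have hodd : Odd a ∧ Odd b := by
    rw [Nat.odd_iff, Nat.odd_iff]
    have h2 : (a ^ 2 + b ^ 2) % 2 = 0 := Nat.mod_eq_zero_of_dvd hev
    have hnot : ¬ (2 ∣ a ∧ 2 ∣ b) := fun h => by
      have := Nat.dvd_gcd h.1 h.2
      rw [hab] at this; omega
    rw [Nat.add_mod, Nat.pow_mod, Nat.pow_mod b] at h2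
    rcases Nat.mod_two_eq_zero_or_one a with e1 | e1 <;>
      rcases Nat.mod_two_eq_zero_or_one b with e2 | e2 <;> simp [e1, e2] at h2 hnot ⊢ <;> omega
  obtain ⟨⟨i, rfl⟩, ⟨j, rfl⟩⟩ := hodd
  have ht1 : t = 1 := by
    by_contra hne
    obtain ⟨s, rfl⟩ : ∃ s, t = s + 2 := ⟨t - 2, by omega⟩
    have : 4 ∣ (2 * i + 1) ^ 2 + (2 * j + 1) ^ 2 := by rw [ht, pow_add]; exact Dvd.intro_left _ rfl
    have e : (2 * i + 1) ^ 2 + (2 * j + 1) ^ 2 = 4 * (i * i + i + j * j + j) + 2 := by ring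
    omega
  subst ht1
  have : i = 0 ∧ j = 0 := by constructor <;> nlinarith
  rw [this.1, this.2]

theorem defect_eq_one_of_two (hM : IsPModular p M) {B : Set (IrrCharacter G)}
    (hB : IsPBlock M B) (h2 : Nat.card B = 2) : p = 2 ∧ blockDefect p B = 1 := by
  haveI : M.IsPrime := hM.2.1.isPrime
  haveI : Fact p.Prime := ⟨hM.1⟩
  obtain ⟨χ, hχ, h0⟩ := exists_height_zero (p := p) (pBlock_nonempty hB)
  obtain ⟨ψ, hψB, hne⟩ : ∃ ψ ∈ B, ψ ≠ χ :=
    Set.exists_ne_of_one_lt_ncard (by rw [← Nat.card_coe_set_eq, h2]; omega) χ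
  have hBeq : B = {χ, ψ} := by
    refine (Set.eq_of_subset_of_ncard_le (Set.insert_subset hχ (Set.singleton_subset_iff.2 hψB))
      ?_ (Set.toFinite _)).symm
    rw [Set.ncard_pair (Ne.symm hne), ← Nat.card_coe_set_eq, h2]
  have hnm : χ ∉ ({ψ} : Finset (IrrCharacter G)) := by simp [Ne.symm hne]
  -- products
  set q : ℕ := (Nat.card G).factorization p with hq
  have hprod : ∀ α ∈ B, ∀ β ∈ B,
      cReg p (α : G → ℂ) (χ : G → ℂ) * cReg p (χ : G → ℂ) (β : G → ℂ) +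
        cReg p (α : G → ℂ) (ψ : G → ℂ) * cReg p (ψ : G → ℂ) (β : G → ℂ) =
      ((p ^ q : ℕ) : ℂ) * cReg p (α : G → ℂ) (β : G → ℂ) := by
    intro α hα β hβ
    have h := Brauer.sum_regSum_mul_regSum hM B (Block.blockCoeff_memLocalRing hB) α β
    rw [if_pos hβ] at h
    rw [show (Finset.univ.filter (fun x => x ∈ B)) = ({χ, ψ} : Finset (IrrCharacter G)) by
      ext x; simp [hBeq],
      Finset.sum_insert hnm, Finset.sum_singleton] at h
    simp only [cReg]
    have hG : (Nat.card G : ℂ) ≠ 0 := Nat.cast_ne_zero.mpr Nat.card_pos.ne'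
    field_simp
    linear_combination ((p ^ q : ℕ) : ℂ) * h
  have hdeg : ∀ α ∈ B, cReg p (α : G → ℂ) (χ : G → ℂ) * (charDegree (χ : G → ℂ) : ℂ) +
      cReg p (α : G → ℂ) (ψ : G → ℂ) * (charDegree (ψ : G → ℂ) : ℂ) =
      ((p ^ q : ℕ) : ℂ) * (charDegree (α : G → ℂ) : ℂ) := by
    intro α hα
    have h := sum_cReg_mul_degree hM α
    rw [← Finset.sum_subset (Finset.subset_univ ({χ, ψ} : Finset (IrrCharacter G))),
      Finset.sum_insert hnm, Finset.sum_singleton] at h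
    · rwa [← (irr_one_eq_charDegree χ).1, ← (irr_one_eq_charDegree ψ).1,
        ← (irr_one_eq_charDegree α).1]
    · intro x _ hx
      have : x ∉ B := by rw [hBeq]; simpa using hx
      rw [cReg_eq_zero_of_notMem hM hB hα this, zero_mul]
  obtain ⟨c11, e11, hd11, -⟩ := cReg_int (p := p) χ χ
  obtain ⟨c12, e12, -, -⟩ := cReg_int (p := p) χ ψ
  obtain ⟨c22, e22, -, -⟩ := cReg_int (p := p) ψ ψ
  have e21 : cReg p (ψ : G → ℂ) (χ : G → ℂ) = c12 := by rw [cReg_comm, e12]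
  have hc12 : c12 ≠ 0 := fun h =>
    not_dvd_succ_of_height_zero hM hB hχ h0 hψB e12 (h ▸ dvd_zero _)
  have hn11 := not_dvd_succ_of_height_zero hM hB hχ h0 hχ e11
  obtain ⟨hd1e, hd1⟩ := irr_one_eq_charDegree χ
  obtain ⟨hd2e, hd2⟩ := irr_one_eq_charDegree ψ
  set d1 := charDegree (χ : G → ℂ) with hd1d
  set d2 := charDegree (ψ : G → ℂ) with hd2d
  have E1 : c11 * c11 + c12 * c12 = (p : ℤ) ^ q * c11 := by
    have h := hprod χ hχ χ hχ; rw [e11, e12, e21] at h; exact_mod_cast h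
  have E3 : c11 * d1 + c12 * d2 = (p : ℤ) ^ q * d1 := by
    have h := hdeg χ hχ; rw [e11, e12] at h; exact_mod_cast h
  have E4 : c12 * d1 + c22 * d2 = (p : ℤ) ^ q * d2 := by
    have h := hdeg ψ hψB; rw [e21, e22] at h; exact_mod_cast h
  have E2 : c11 * c12 + c12 * c22 = (p : ℤ) ^ q * c12 := by
    have h := hprod χ hχ ψ hψB; rw [e11, e12, e22] at h; exact_mod_cast h
  have E2' : c11 + c22 = (p : ℤ) ^ q :=
    mul_left_cancel₀ hc12 (by linear_combination E2)
  have hkey : c12 * ((d1 : ℤ) ^ 2 + (d2 : ℤ) ^ 2) = (p : ℤ) ^ q * d1 * d2 := by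
    linear_combination (d1 : ℤ) * E4 + (d2 : ℤ) * E3 - (d1 : ℤ) * (d2 : ℤ) * E2'
  obtain ⟨n, hn⟩ := BlkChar.BlockAlg.sum_sq_eq_two_mul_sq hM hB h2
  rw [show (Finset.univ.filter (fun x => x ∈ B)) = ({χ, ψ} : Finset (IrrCharacter G)) by
      ext x; simp [hBeq],
    Finset.sum_insert hnm, Finset.sum_singleton, hd1e, hd2e] at hn
  have hn' : d1 ^ 2 + d2 ^ 2 = 2 * n ^ 2 := by exact_mod_cast hn
  obtain ⟨hp2, hd12⟩ := pair_arith hM.1 (Nat.pos_of_ne_zero hd1) (Nat.pos_of_ne_zero hd2) hn' hkey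
  refine ⟨hp2, ?_⟩
  subst hp2
  have hd1z : (d1 : ℤ) ≠ 0 := by exact_mod_cast hd1
  have e3 : c11 + c12 = (2 : ℤ) ^ q := by
    rw [← hd12] at E3
    exact mul_right_cancel₀ hd1z (by push_cast at E3 ⊢; linear_combination E3)
  have e12' : 2 * c12 = (2 : ℤ) ^ q := by
    rw [← hd12] at hkey
    refine mul_left_cancel₀ (pow_ne_zero 2 hd1z) ?_
    push_cast at hkey ⊢
    linear_combination hkey
  have e11' : 2 * c11 = (2 : ℤ) ^ q := by linarith
  rw [blockDefect_eq hχ h0, ← hd1d, ← hq]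
  have hq1 : 1 ≤ q := by
    by_contra hlt
    rw [show q = 0 by omega] at e11'
    omega
  obtain ⟨r, hr⟩ : ∃ r, q = r + 1 := ⟨q - 1, by omega⟩
  have hc : c11 = (2 : ℤ) ^ r := by rw [hr, pow_succ'] at e11'; linarith
  push_cast at hd11 hn11
  rw [hc] at hd11 hn11
  have h3 : d1.factorization 2 ≤ r := by
    by_contra hlt
    have : (2 : ℤ) ^ (r + 1) ∣ 2 ^ r := (pow_dvd_pow _ (by omega)).trans hd11
    have := Int.le_of_dvd (by positivity) this
    rw [pow_succ] at this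
    have : (0 : ℤ) < 2 ^ r := by positivity
    omega
  have h4 : r ≤ d1.factorization 2 := by
    by_contra hlt
    exact hn11 (pow_dvd_pow _ (by omega))
  omega

/-- Let G be a finite group, p a prime, M a maximal ideal of the algebraic integers containing p, and B a p-block of G with defect group D. Then B contains exactly two irreducible characters if and only if D has order 2. -/
theorem result {G : Type*} [Group G] [Finite G] (p : ℕ) [Fact p.Prime] (M : Ideal Cfsg.AlgInt) (hM : Cfsg.IsPModular p M) (B : Set (Cfsg.IrrCharacter G)) (hB : Cfsg.IsPBlock M B) (D : Subgroup G) (hD : Cfsg.IsDefectGroup p M B D) : Nat.card B = 2 ↔ Nat.card D = 2 := by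
  haveI := Fintype.ofFinite G
  rw [card_defectGroup hM hB hD]
  constructor
  · intro h2
    obtain ⟨rfl, hd⟩ := defect_eq_one_of_two hM hB h2
    rw [hd, pow_one]
  · intro h
    have hd : blockDefect p B ≠ 0 := fun h0 => by rw [h0] at h; simp at h
    have hp2 : p = 2 := (Nat.prime_dvd_prime_iff_eq hM.1 Nat.prime_two).1
      (h ▸ dvd_pow_self p hd)
    subst hp2
    have hd1 : blockDefect 2 B = 1 :=
      Nat.pow_right_injective (le_refl 2) (h.trans (pow_one 2).symm)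
    have h4 := four_card_le hM hB
    rw [hd1] at h4
    have := one_lt_card_of_defect_pos hM hB hd
    rw [show 2 ^ (2 * 1) = 4 from rfl] at h4
    omega

end Cfsg.Agent.S4607
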