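import Cfsg.Statements.S4609
import Cfsg.Agent.ThreeChar.Main
import Cfsg.Agent.S4733

set_option autoImplicit false
open Cfsg

namespace Cfsg.Agent.S4609

/-- Let G be a finite group, p a prime, M a maximal ideal of the algebraic integers containing p, and B a p-block of G with defect group D containing exactly three irreducible characters. Suppose the number of height-zero characters of B equals the number of height-zero characters of its Brauer correspondent b, the block of N_G(D) with defect group D inducing B (as the Alperin–McKay conjecture predicts). Then D has order 3. -/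
theorem result {G : Type*} [Group G] [Finite G] (p : ℕ) [Fact p.Prime] (M : Ideal Cfsg.AlgInt) (hM : Cfsg.IsPModular p M) (B : Set (Cfsg.IrrCharacter G)) (hB : Cfsg.IsPBlock M B) (D : Subgroup G) (hD : Cfsg.IsDefectGroup p M B D) (hk : Nat.card B = 3)
    (b : Set (Cfsg.IrrCharacter (Subgroup.normalizer (D : Set G)))) (hbB : Cfsg.IsInducedBlock M (Subgroup.normalizer (D : Set G)) b B)
    (hbD : Cfsg.IsDefectGroup p M b (D.subgroupOf (Subgroup.normalizer (D : Set G))))
    (hAM : Nat.card {χ : Cfsg.IrrCharacter G // χ ∈ B ∧ Cfsg.blockHeight p B (χ : G → ℂ) = 0} =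
           Nat.card {ψ : Cfsg.IrrCharacter (Subgroup.normalizer (D : Set G)) // ψ ∈ b ∧ Cfsg.blockHeight p b (ψ : Subgroup.normalizer (D : Set G) → ℂ) = 0}) :
    Nat.card D = 3 := by
  haveI := Fintype.ofFinite G
  haveI : M.IsPrime := hM.2.1.isPrime
  have hD1 : D ≠ ⊥ := fun h => by
    have hc := Cfsg.Agent.Block.card_isDefectGroup hM hB hD
    rw [h, Subgroup.card_bot] at hc
    have hd : Cfsg.blockDefect p B = 0 := by
      by_contra hne
      exact (one_lt_pow₀ (Fact.out : p.Prime).one_lt hne).ne hc
    have := ((Cfsg.Agent.S4733.result p M hM B hB).2.1.1 hd).1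
    omega
  set N := Subgroup.normalizer (D : Set G)
  letI := Fintype.ofFinite N
  haveI : (D.subgroupOf N).Normal := Subgroup.normal_in_normalizer
  have hDN : D ≤ N := Subgroup.le_normalizer
  have hne : D.subgroupOf N ≠ ⊥ := fun h => hD1 (by
    rw [← Subgroup.map_subgroupOf_eq_of_le hDN, h, Subgroup.map_bot])
  have hle : Nat.card {χ : Cfsg.IrrCharacter G //
      χ ∈ B ∧ Cfsg.blockHeight p B (χ : G → ℂ) = 0} ≤ 3 := by
    rw [← hk]
    exact Nat.card_le_card_of_injective (fun χ => (⟨χ.1, χ.2.1⟩ : B))
      fun a b h => Subtype.ext (congrArg Subtype.val h :)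
  rw [hAM] at hle
  rcases Cfsg.Agent.ThreeChar.card_defect_of_height_zero_le hM hbB.1 (D.subgroupOf N) hbD hne hle
    with h | h
  · exfalso
    rw [Nat.card_congr (Subgroup.subgroupOfEquivOfLe hDN).toEquiv] at h
    have := (Cfsg.Agent.S4607.result p M hM B hB D hD).2 h
    omega
  · rwa [Nat.card_congr (Subgroup.subgroupOfEquivOfLe hDN).toEquiv] at h

end Cfsg.Agent.S4609
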