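import Cfsg.Statements.S4611
import Cfsg.Agent.BlkChar.PSolvBlock
import Cfsg.Agent.Char.Kernel

set_option autoImplicit false
open Cfsg

namespace Cfsg.Agent.S4611

/-- Let G be a finite solvable group and π a nonempty set of primes, each dividing the order of G; fix for each p in π a maximal ideal M p of the algebraic integers containing p. Then the only irreducible character lying in the principal p-block for every p in π is the principal character if and only if G is generated by the subgroups O_{p'}(G), p in π (the largest normal subgroups of order prime to p). -/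
theorem result {G : Type*} [Group G] [Finite G] [Group.IsSolvable G] (π : Set ℕ) (hπ : ∀ p ∈ π, p.Prime ∧ p ∣ Nat.card G) (hne : π.Nonempty) (M : ℕ → Ideal Cfsg.AlgInt) (hM : ∀ p ∈ π, Cfsg.IsPModular p (M p)) :
    (∀ χ : Cfsg.IrrCharacter G, (∀ p ∈ π, χ ∈ Cfsg.principalBlock (M p) G) → (χ : G → ℂ) = fun _ => 1) ↔
      ⨆ p ∈ π, Cfsg.pPrimeCore p G = ⊤ := by
  classical
  letI := Fintype.ofFinite G
  have hB : ∀ p ∈ π, ∀ χ : Cfsg.IrrCharacter G, χ ∈ Cfsg.principalBlock (M p) G ↔
      ∀ n ∈ Cfsg.pPrimeCore p G, (χ : G → ℂ) n = (χ : G → ℂ) 1 := fun p hp χ => by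
    haveI : Fact p.Prime := ⟨(hπ p hp).1⟩
    exact BlkChar.mem_principalBlock_iff_of_isPSolvable (hM p hp)
      (PSolv.isPSolvable_of_isSolvable ‹_›) χ
  set K := ⨆ p ∈ π, Cfsg.pPrimeCore p G with hK
  haveI hKn : K.Normal := by
    refine ⟨fun n hn g => ?_⟩
    have hle : K.map (MulAut.conj g).toMonoidHom ≤ K := by
      rw [hK]
      simp only [Subgroup.map_iSup]
      refine iSup₂_mono fun p hp => ?_
      rintro _ ⟨x, hx, rfl⟩
      exact (inferInstance : (Cfsg.pPrimeCore p G).Normal).conj_mem x hx g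
    exact hle ⟨n, hn, rfl⟩
  constructor
  · intro h
    rw [eq_top_iff]
    intro g _
    rw [Char.mem_normal_iff_forall_irr K g]
    intro χ hχ
    have h1 := h χ fun p hp => (hB p hp χ).2 fun n hn =>
      hχ n (le_iSup₂ (f := fun q (_ : q ∈ π) => Cfsg.pPrimeCore q G) p hp hn)
    rw [h1]
  · intro h χ hχ
    obtain ⟨Kχ, -, hKχ⟩ := Char.isCharacter_exists_kernel (Char.isCharacter_of_irr χ.2)
    have hle : K ≤ Kχ := iSup₂_le fun p hp n hn => (hKχ n).2 ((hB p hp χ).1 (hχ p hp) n hn)
    rw [h, top_le_iff] at hle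
    have hc : ∀ g, (χ : G → ℂ) g = (χ : G → ℂ) 1 := fun g => (hKχ g).1 (hle ▸ Subgroup.mem_top g)
    by_contra hne
    have h0 := Char.irr_sum_eq_zero χ.2 hne
    rw [Finset.sum_congr rfl (g := fun _ => (χ : G → ℂ) 1) (fun g _ => hc g), Finset.sum_const,
      nsmul_eq_mul, mul_eq_zero] at h0
    rcases h0 with h0 | h0
    · exact Nat.cast_ne_zero.2 (Finset.card_ne_zero.2 ⟨1, Finset.mem_univ _⟩) h0
    · exact Char.irr_one_ne_zero χ.2 h0

end Cfsg.Agent.S4611
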