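import Cfsg.Statements.S4613
import Cfsg.Agent.Opp34.PolarFamilies
import Cfsg.Agent.Opp34.Linear
import Cfsg.Agent.Opp34.Twisted
import Cfsg.Agent.Opp34.Suzuki
-- import your own Cfsg.Agent.* helpers here

set_option autoImplicit false
open Cfsg

namespace Cfsg.Agent.S4613

/-- Let G be a finite simple group of Lie type in characteristic p and α an automorphism of G of order prime to p that fixes some Sylow p-subgroup of G elementwise. Then α is the identity. -/
theorem result {G : Type*} [Group G] [Finite G] [IsSimpleGroup G] (p : ℕ) [Fact p.Prime] (hG : Cfsg.IsLieTypeChar p G) (α : MulAut G) (hα : ¬ p ∣ orderOf α) (U : Sylow p G) (hfix : ∀ x ∈ (U : Subgroup G), α x = x) : α = 1 := by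
  refine (?_ : Cfsg.Agent.Opp34.AutCrit p G).eq_one α hα U hfix
  rcases hG with h | h | h | h | h | h | h | h | ⟨rfl, h⟩ | ⟨rfl, h⟩ | ⟨rfl, h⟩
  · exact (Cfsg.Agent.Opp34.pslChar_crit h).1
  · exact (Cfsg.Agent.Opp34.classical_polar_crit (Or.inl h)).1
  · exact (Cfsg.Agent.Opp34.classical_polar_crit (Or.inr (Or.inl h))).1
  · exact (Cfsg.Agent.Opp34.classical_polar_crit (Or.inr (Or.inr (Or.inl h)))).1
  · exact (Cfsg.Agent.Opp34.classical_polar_crit (Or.inr (Or.inr (Or.inr (Or.inl h))))).1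
  · exact (Cfsg.Agent.Opp34.classical_polar_crit (Or.inr (Or.inr (Or.inr (Or.inr h))))).1
  · exact (Cfsg.Agent.Opp34.exceptional_crit h).1
  · exact (Cfsg.Agent.Opp34.twistedE6D4_crit h).1
  · exact (Cfsg.Agent.Opp34.suzuki_crit h).1
  · exact (Cfsg.Agent.Opp34.reeF4_crit h).1
  · exact (Cfsg.Agent.Opp34.reeG2_crit h).1

end Cfsg.Agent.S4613
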