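import Cfsg.Statements.S4620
import Cfsg.Agent.Cores.Basic
import Cfsg.Agent.Cores.Fitting
import Cfsg.Agent.S0721
-- import your own Cfsg.Agent.* helpers here

set_option autoImplicit false
open scoped Pointwise
open Cfsg

namespace Cfsg.Agent.S4620

universe u

variable {H : Type u} [Group H] [Finite H] {p : ℕ} [Fact p.Prime]

/-- In a trivial-intersection situation an element moving a nontrivial element of `P` into `P`
normalizes `P`. -/
def TIOn (P : Subgroup H) : Prop :=
  ∀ g u : H, u ∈ P → u ≠ 1 → g * u * g⁻¹ ∈ P → g ∈ Subgroup.normalizer (P : Set H)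

omit [Finite H] in
theorem tiOn_conj {P : Subgroup H} (h : TIOn P) (x : H) :
    TIOn (P.map (MulAut.conj x).toMonoidHom) := by
  intro g u hu hu1 hgu
  rw [Subgroup.mem_map_equiv, MulAut.conj_symm_apply] at hu hgu
  have h1 := h (x⁻¹ * g * x) _ hu (fun h => hu1 (by
      have := congrArg (fun z => x * z * x⁻¹) h
      simpa [mul_assoc] using this))
    (by convert hgu using 1; group)
  rw [Subgroup.mem_normalizer_iff] at h1 ⊢
  intro v
  simp only [Subgroup.mem_map_equiv, MulAut.conj_symm_apply]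
  rw [h1]
  constructor <;> intro hv <;> convert hv using 1 <;> group

/-- No subnormal subgroup of order divisible by `p` normalizes a Sylow `p`-subgroup. -/
theorem not_le_normalizer (hOp : Cfsg.pCore p H = ⊥) (P : Sylow p H) {X : Subgroup H}
    (hX : X.IsSubnormal) (hp : p ∣ Nat.card X) :
    ¬ X ≤ Subgroup.normalizer ((P : Subgroup H) : Set H) := by
  intro hle
  obtain ⟨⟨b, hbX⟩, hb⟩ := exists_prime_orderOf_dvd_card' p hp
  rw [← Subgroup.orderOf_coe] at hb
  change orderOf b = p at hb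
  haveI hn : ((P : Subgroup H).subgroupOf X).Normal := ⟨fun v hv y => by
    rw [Subgroup.mem_subgroupOf] at hv ⊢
    exact ((Subgroup.mem_normalizer_iff.1 (hle y.2)) _).1 hv⟩
  have hbp : IsPGroup p (Subgroup.zpowers b) := IsPGroup.of_card (n := 1) (by
    rw [Nat.card_zpowers, hb, pow_one])
  have hbP : b ∈ (P : Subgroup H) := by
    have : b ∈ Subgroup.zpowers b ⊓ Subgroup.normalizer ((P : Subgroup H) : Set H) :=
      ⟨Subgroup.mem_zpowers b, hle hbX⟩
    exact ((le_of_eq (IsPGroup.inf_normalizer_sylow hbp P)) this).2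
  have hY : ((P : Subgroup H) ⊓ X).IsSubnormal := by
    refine Subgroup.IsSubnormal.trans inf_le_right ?_ hX
    rw [Subgroup.inf_subgroupOf_right]
    exact hn.isSubnormal
  have hbot : (P : Subgroup H) ⊓ X ≤ ⊥ :=
    hOp ▸ Cfsg.Agent.Cores.le_pCore_of_isSubnormal hY (P.isPGroup'.to_le inf_le_left)
  have : b = 1 := Subgroup.mem_bot.1 (hbot ⟨hbP, hbX⟩)
  rw [this, orderOf_one] at hb
  exact (Fact.out : p.Prime).one_lt.ne hb

theorem dvd_of_normal (hOp' : Cfsg.pPrimeCore p H = ⊥) {N : Subgroup H} (hN : N.Normal)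
    (hN1 : N ≠ ⊥) : p ∣ Nat.card N := by
  by_contra h
  exact hN1 (le_bot_iff.1 (hOp' ▸ Cfsg.Agent.Cores.le_pPrimeCore_of_not_dvd hN h))

/-- A normal subgroup meets every Sylow subgroup nontrivially. -/
theorem exists_mem (hOp' : Cfsg.pPrimeCore p H = ⊥) (P : Sylow p H) {N : Subgroup H}
    (hN : N.Normal) (hN1 : N ≠ ⊥) : ∃ u ∈ N, u ≠ 1 ∧ u ∈ (P : Subgroup H) := by
  obtain ⟨⟨b, hbN⟩, hb⟩ := exists_prime_orderOf_dvd_card' p (dvd_of_normal hOp' hN hN1)
  rw [← Subgroup.orderOf_coe] at hb
  change orderOf b = p at hb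
  have hbp : IsPGroup p (Subgroup.zpowers b) := IsPGroup.of_card (n := 1) (by
    rw [Nat.card_zpowers, hb, pow_one])
  obtain ⟨S, hS⟩ := hbp.exists_le_sylow
  obtain ⟨h, hh⟩ := MulAction.exists_smul_eq H S P
  refine ⟨h * b * h⁻¹, hN.conj_mem b hbN h, fun h1 => ?_, ?_⟩
  · rw [mul_inv_eq_one, mul_eq_left] at h1
    rw [h1, orderOf_one] at hb
    exact (Fact.out : p.Prime).one_lt.ne hb
  · rw [← hh, Sylow.coe_subgroup_smul]
    exact Subgroup.smul_mem_pointwise_smul b (MulAut.conj h) _ (hS (Subgroup.mem_zpowers b))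

/-- Let H be a finite group with no nontrivial normal p-subgroup and no nontrivial normal subgroup of order prime to p, whose Sylow p-subgroup P is nontrivial and a trivial-intersection set (P meets its conjugates by elements outside N_H(P) trivially). Then H has a unique minimal normal subgroup N; N is non-abelian simple with trivial centralizer in H (so H embeds in Aut(N)), and a Sylow p-subgroup of N is again a nontrivial trivial-intersection set in N. -/
theorem result {H : Type*} [Group H] [Finite H] (p : ℕ) [Fact p.Prime] (hOp : Cfsg.pCore p H = ⊥) (hOp' : Cfsg.pPrimeCore p H = ⊥) (P : Sylow p H) (hP1 : (P : Subgroup H) ≠ ⊥)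
    (hTI : ∀ g : H, g ∉ Subgroup.normalizer ((P : Subgroup H) : Set H) → (P : Subgroup H) ⊓ (MulAut.conj g • (P : Subgroup H)) = ⊥) :
    ∃ N : Subgroup H, N.Normal ∧ N ≠ ⊥ ∧ (∀ K : Subgroup H, K.Normal → K ≠ ⊥ → N ≤ K) ∧
      IsSimpleGroup N ∧ ¬ IsMulCommutative N ∧ Subgroup.centralizer (N : Set H) = ⊥ ∧
      ∀ Q : Sylow p N, (Q : Subgroup N) ≠ ⊥ ∧
        ∀ n : N, n ∉ Subgroup.normalizer ((Q : Subgroup N) : Set N) → (Q : Subgroup N) ⊓ (MulAut.conj n • (Q : Subgroup N)) = ⊥ := by
  classical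
  have hp : p.Prime := Fact.out
  have hTI' : TIOn (P : Subgroup H) := by
    intro g u hu hu1 hgu
    by_contra hg
    have hmem : g * u * g⁻¹ ∈ (P : Subgroup H) ⊓ (MulAut.conj g • (P : Subgroup H)) :=
      ⟨hgu, Subgroup.smul_mem_pointwise_smul u (MulAut.conj g) _ hu⟩
    rw [hTI g hg, Subgroup.mem_bot, mul_inv_eq_one, mul_eq_left] at hmem
    exact hu1 hmem
  have hTIall : ∀ S : Sylow p H, TIOn (S : Subgroup H) := fun S => by
    obtain ⟨h, rfl⟩ := MulAction.exists_smul_eq H P S
    rw [Sylow.coe_subgroup_smul]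
    exact tiOn_conj hTI' h
  have hcomm : ∀ u : H, u ∈ (P : Subgroup H) → u ≠ 1 → ∀ x : H, x * u = u * x →
      x ∈ Subgroup.normalizer ((P : Subgroup H) : Set H) := fun u hu hu1 x hx =>
    hTI' x u hu hu1 (by rw [hx, mul_inv_cancel_right]; exact hu)
  -- a minimal normal subgroup
  have hH : ∃ n, ∃ N : Subgroup H, N.Normal ∧ N ≠ ⊥ ∧ Nat.card N = n :=
    ⟨_, ⊤, inferInstance, fun h => hP1 (le_bot_iff.1 (h ▸ le_top)), rfl⟩
  obtain ⟨N, hN, hN1, hNcard⟩ := Nat.find_spec hH
  have hmin : ∀ M : Subgroup H, M.Normal → M ≤ N → M = ⊥ ∨ M = N := by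
    intro M hM hMN
    by_contra hc
    rw [not_or] at hc
    have h1 := Nat.find_min' hH ⟨M, hM, hc.1, rfl⟩
    rw [← hNcard] at h1
    exact hc.2 (Subgroup.eq_of_le_of_card_ge hMN h1)
  have hNsub : N.IsSubnormal := Subgroup.Normal.isSubnormal hN
  have hpN : p ∣ Nat.card N := dvd_of_normal hOp' hN hN1
  obtain ⟨a, haN, ha1, haP⟩ := exists_mem hOp' P hN hN1
  have hnc : ¬ ∀ x ∈ N, x * a = a * x := fun h =>
    not_le_normalizer hOp P hNsub hpN fun x hx => hcomm a haP ha1 x (h x hx)
  have huniq : ∀ K : Subgroup H, K.Normal → K ≠ ⊥ → N ≤ K := by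
    intro K hK hK1
    haveI := hN
    haveI := hK
    rcases hmin (N ⊓ K) inferInstance inf_le_left with h | h
    · exfalso
      refine not_le_normalizer hOp P (Subgroup.Normal.isSubnormal hK) (dvd_of_normal hOp' hK hK1)
        fun x hx => hcomm a haP ha1 x ?_
      exact (Subgroup.commute_of_normal_of_disjoint N K hN hK (disjoint_iff.2 h) a x haN hx).symm
    · exact inf_eq_left.1 h
  have hnab : ¬ IsMulCommutative N := fun h => hnc fun x hx =>
    congrArg Subtype.val (h.is_comm.comm ⟨x, hx⟩ ⟨a, haN⟩)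
  have hsimple : IsSimpleGroup N := by
    obtain ⟨T, iT, m, hT, hm, ⟨e⟩⟩ := Cfsg.Agent.S0721.result N hN1 hmin
    obtain _ | _ | m := m
    · exact absurd hm (lt_irrefl 0)
    · let e1 : N ≃* T := e.trans
        { toFun := fun f => f 0, invFun := fun t _ => t,
          left_inv := fun f => funext fun (i : Fin 1) => by rw [Fin.fin_one_eq_zero i],
          right_inv := fun t => rfl, map_mul' := fun f g => rfl }
      exact e1.isSimpleGroup_congr.2 hT
    exfalso
    haveI : Finite (Fin (m + 1 + 1) → T) := Finite.of_equiv N e.toEquiv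
    haveI : Finite T := Finite.of_surjective (fun f : Fin (m + 1 + 1) → T => f 0)
      fun t => ⟨fun _ => t, rfl⟩
    have hpT : p ∣ Nat.card T := by
      rw [Nat.card_congr e.toEquiv, Nat.card_fun, Nat.card_fin] at hpN
      exact hp.dvd_of_dvd_pow hpN
    obtain ⟨t, ht⟩ := exists_prime_orderOf_dvd_card' p hpT
    set a₀ : H := ((e.symm (Pi.mulSingle 0 t)) : H) with ha₀
    have ho : orderOf a₀ = p := by
      rw [ha₀, Subgroup.orderOf_coe, MulEquiv.orderOf_eq,
        show Pi.mulSingle 0 t = MonoidHom.mulSingle (fun _ : Fin (m + 1 + 1) => T) 0 t from rfl,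
        orderOf_injective _ (Pi.mulSingle_injective (M := fun _ : Fin (m + 1 + 1) => T) 0) t, ht]
    have hzp : IsPGroup p (Subgroup.zpowers a₀) := IsPGroup.of_card (n := 1) (by
      rw [Nat.card_zpowers, ho, pow_one])
    obtain ⟨S, hS⟩ := hzp.exists_le_sylow
    let f : T →* H := N.subtype.comp (e.symm.toMonoidHom.comp
      (MonoidHom.mulSingle (fun _ : Fin (m + 1 + 1) => T) 1))
    have hf : Function.Injective f :=
      N.subtype_injective.comp (e.symm.injective.comp (Pi.mulSingle_injective (M := fun _ : Fin (m + 1 + 1) => T) 1))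
    haveI hK : ((MonoidHom.mulSingle (fun _ : Fin (m + 1 + 1) => T) 1).range).Normal := ⟨by
      rintro _ ⟨s, rfl⟩ y
      refine ⟨y 1 * s * (y 1)⁻¹, funext fun i => ?_⟩
      by_cases hi : i = 1
      · subst hi; simp
      · simp [hi]⟩
    have hXs : f.range.IsSubnormal := by
      have h1 : f.range = ((MonoidHom.mulSingle (fun _ : Fin (m + 1 + 1) => T) 1).range.map
          e.symm.toMonoidHom).map N.subtype := by
        simp only [f, MonoidHom.range_comp]
      rw [h1]
      refine Subgroup.IsSubnormal.trans (Subgroup.map_subtype_le _) ?_ hNsub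
      rw [← Subgroup.comap_subtype, Subgroup.comap_map_eq_self_of_injective N.subtype_injective]
      exact (Subgroup.Normal.map hK _ e.symm.surjective).isSubnormal
    refine not_le_normalizer hOp S hXs ?_ ?_
    · rwa [← Nat.card_congr (MonoidHom.ofInjective hf).toEquiv]
    · rintro _ ⟨s, rfl⟩
      refine hTIall S (f s) a₀ (hS (Subgroup.mem_zpowers _)) (fun h => ?_) ?_
      · rw [h, orderOf_one] at ho
        exact hp.one_lt.ne ho
      · have hc : Commute (f s) a₀ := by
          have h1 : Commute (Pi.mulSingle 1 s : Fin (m + 1 + 1) → T) (Pi.mulSingle 0 t) :=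
            Pi.mulSingle_commute (f := fun _ : Fin (m + 1 + 1) => T) (by simp) s t
          exact congrArg Subtype.val (h1.map e.symm.toMonoidHom).eq
        rw [hc.eq, mul_inv_cancel_right]
        exact hS (Subgroup.mem_zpowers _)
  refine ⟨N, hN, hN1, huniq, hsimple, hnab, ?_, fun Q => ⟨?_, ?_⟩⟩
  · haveI := hN
    by_contra hc
    refine hnc fun x hx => ?_
    exact (Subgroup.mem_centralizer_iff.1 (huniq _ inferInstance hc hx) a haN).symm
  · intro h
    have := Q.dvd_card_of_dvd_card hpN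
    rw [h, Subgroup.card_bot] at this
    exact hp.not_dvd_one this
  · intro n hn
    rw [Subgroup.eq_bot_iff_forall]
    rintro u ⟨huQ, hu'⟩
    obtain ⟨v, hv, rfl⟩ := hu'
    by_contra hu1
    apply hn
    obtain ⟨S, hS⟩ := (Q.isPGroup'.map N.subtype).exists_le_sylow
    have hcoe : ((MulAut.conj n) v : N) = n * v * n⁻¹ := rfl
    have hnS := hTIall S (n : H) (v : H) (hS ⟨v, hv, rfl⟩) (fun h => hu1 (by
        rw [show v = 1 from Subtype.ext h]; simp))
      (by
        have := hS ⟨_, huQ, rfl⟩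
        simpa using this)
    have hQeq : ∀ w : N, w ∈ (Q : Subgroup N) ↔ (w : H) ∈ (S : Subgroup H) := by
      have h2 : (Q : Subgroup N) = (S : Subgroup H).subgroupOf N :=
        (Q.3 (S.isPGroup'.comap_subtype) (fun w hw => hS ⟨w, hw, rfl⟩)).symm
      intro w; rw [h2, Subgroup.mem_subgroupOf]
    rw [Subgroup.mem_normalizer_iff]
    intro w
    rw [hQeq, hQeq]
    simpa using (Subgroup.mem_normalizer_iff.1 hnS) (w : H)

end Cfsg.Agent.S4620
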