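import Cfsg.Statements.S4623
import Cfsg.Agent.SylowPerm.Generation

set_option autoImplicit false
open Cfsg

namespace Cfsg.Agent.S4623

/-- For every prime p and every n, a Sylow p-subgroup P of the symmetric group on n letters has P/P' elementary abelian (the p-th power of every element of P lies in the derived subgroup of P), and the same holds for a Sylow p-subgroup of the alternating group on n letters. -/
theorem result (p : ℕ) [Fact p.Prime] (n : ℕ) (P : Sylow p (Equiv.Perm (Fin n))) (Q : Sylow p (alternatingGroup (Fin n))) :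
    (∀ x : (P : Subgroup (Equiv.Perm (Fin n))), x ^ p ∈ commutator (P : Subgroup (Equiv.Perm (Fin n)))) ∧
    (∀ x : (Q : Subgroup (alternatingGroup (Fin n))), x ^ p ∈ commutator (Q : Subgroup (alternatingGroup (Fin n)))) := by
  classical
  refine ⟨SylowPerm.pow_mem_commutator (SylowPerm.sylow_gen p n P).1, ?_⟩
  obtain ⟨P', hP'⟩ := (Q.2.map (alternatingGroup (Fin n)).subtype).exists_le_sylow
  have hle : (Q : Subgroup (alternatingGroup (Fin n))) ≤
      (P' : Subgroup (Equiv.Perm (Fin n))).comap (alternatingGroup (Fin n)).subtype :=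
    Subgroup.map_le_iff_le_comap.1 hP'
  have hcp : IsPGroup p ((P' : Subgroup (Equiv.Perm (Fin n))).comap
      (alternatingGroup (Fin n)).subtype) :=
    P'.2.comap_of_injective _ (Subgroup.subtype_injective _)
  have heq := Q.3 hcp hle
  have hmap : (Q : Subgroup (alternatingGroup (Fin n))).map (alternatingGroup (Fin n)).subtype =
      (P' : Subgroup (Equiv.Perm (Fin n))) ⊓ alternatingGroup (Fin n) := by
    rw [← heq, Subgroup.map_comap_eq, Subgroup.range_subtype, inf_comm]
  have hgen : SylowPerm.GenOrd p (Q : Subgroup (alternatingGroup (Fin n))) := by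
    intro x hx
    have h1 := (SylowPerm.sylow_gen p n P').2 (hmap ▸ Subgroup.mem_map_of_mem _ hx)
    have hsub : {y : Equiv.Perm (Fin n) | y ∈ (P' : Subgroup (Equiv.Perm (Fin n))) ⊓
        alternatingGroup (Fin n) ∧ y ^ p = 1} ⊆ (alternatingGroup (Fin n)).subtype ''
        {y | y ∈ (Q : Subgroup (alternatingGroup (Fin n))) ∧ y ^ p = 1} := by
      rintro y ⟨hy, hy'⟩
      rw [← hmap] at hy
      obtain ⟨z, hz, rfl⟩ := hy
      exact ⟨z, ⟨hz, Subtype.ext hy'⟩, rfl⟩
    have h2 := Subgroup.closure_mono hsub h1
    rw [← MonoidHom.map_closure] at h2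
    obtain ⟨z, hz, hzx⟩ := h2
    exact Subgroup.subtype_injective _ hzx ▸ hz
  exact SylowPerm.pow_mem_commutator hgen

end Cfsg.Agent.S4623
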