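import Cfsg.Statements.S4625
import Cfsg.Agent.LieTwoSq.Classical
import Cfsg.Agent.LieTwoSq.Orth
import Cfsg.Agent.LieTwoSq.Exceptional

set_option autoImplicit false
open Cfsg

namespace Cfsg.Agent.S4625

/-- Let G be a finite simple group of Lie type in characteristic 2, not counting the Tits group ²F₄(2)′. Then a Sylow 2-subgroup P of G has P/P' elementary abelian: the square of every element of P lies in the derived subgroup of P. -/
theorem result {G : Type*} [Group G] [Finite G] [IsSimpleGroup G] (hG : Cfsg.IsLieTypeChar 2 G) (P : Sylow 2 G) :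
    ∀ x : (P : Subgroup G), x ^ 2 ∈ commutator (P : Subgroup G) := by
  suffices h : Cfsg.Agent.LieTwoSq.Good G from h P
  rcases hG with h | h | h | h | h | h | h | h | ⟨-, h⟩ | ⟨-, h⟩ | ⟨h, -⟩
  · exact LieTwoSq.good_psl h
  · exact LieTwoSq.good_psp h
  · exact LieTwoSq.good_psu h
  · obtain ⟨F, _, _, _, m, -, hodd, -⟩ := h
    obtain ⟨n, -, hn⟩ := FiniteField.card F 2
    rw [hn, Nat.odd_pow_iff n.pos.ne'] at hodd
    exact absurd hodd (by decide)
  · exact LieTwoSq.good_plus h
  · exact LieTwoSq.good_minus h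
  · exact LieTwoSq.good_exceptional (Or.inl h)
  · exact LieTwoSq.good_exceptional (Or.inr (Or.inl h))
  · exact LieTwoSq.good_exceptional (Or.inr (Or.inr (Or.inl h)))
  · exact LieTwoSq.good_exceptional (Or.inr (Or.inr (Or.inr h)))
  · exact absurd h (by decide)

end Cfsg.Agent.S4625
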