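import Cfsg.Statements.S4632
import Cfsg.Agent.G2Syl.Main
import Cfsg.Agent.OmegaSylow.Main

set_option autoImplicit false
open Cfsg

namespace Cfsg.Agent.S4632

/-- Let F be a finite field of odd order and G₂(F) the automorphism group of the split octonion algebra over F (realized on F⁸ with the Zorn vector-matrix multiplication). A Sylow 2-subgroup P of G₂(F) has P/P' elementary abelian: the square of every element of P lies in the derived subgroup of P. -/
theorem result {F : Type*} [Field F] [Fintype F] (hF : Odd (Fintype.card F)) (P : Sylow 2 (Cfsg.Lie.G2 F)) : ∀ x : (P : Subgroup (Cfsg.Lie.G2 F)), x ^ 2 ∈ commutator (P : Subgroup (Cfsg.Lie.G2 F)) := by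
  intro x
  have h2 : (2 : F) ≠ 0 := Classical.two_ne_zero_of_odd (by rwa [Nat.card_eq_fintype_card])
  obtain ⟨φ⟩ := G2Syl.nonempty_equiv_G2 (F := F) h2
  obtain ⟨S, hS⟩ := G2Syl.exists_gen_sylow (F := F) h2
  exact OmegaSylow.pow_mem_of_equiv φ hS P x

end Cfsg.Agent.S4632
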