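import Cfsg.Statements.S4741
import Cfsg.Agent.BlocksChar.PElementSum
import Cfsg.Agent.BlocksChar.DefectZero
import Cfsg.Agent.Block.FirstMain
import Mathlib.LinearAlgebra.Dimension.Finite

set_option autoImplicit false
set_option linter.style.haveILetI false
set_option linter.unusedSectionVars false
open Cfsg

namespace Cfsg.Agent.S4741

open scoped ComplexConjugate
open Cfsg.Agent

universe u

/-- Columns of a matrix with a right inverse contain a basis. -/
theorem exists_minor {K ι : Type*} [Field K] [Fintype ι] {r : ℕ} (A : Matrix (Fin r) ι K)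
    (C : Matrix ι (Fin r) K) (u : Fin r → K) (hu : ∀ i, u i ≠ 0)
    (h : A * C = Matrix.diagonal u) :
    ∃ f : Fin r → ι, Function.Injective f ∧ (A.submatrix id f).det ≠ 0 := by
  classical
  have hspan : ⊤ ≤ Submodule.span K (Set.range fun B => A.col B) := by
    intro w _
    have hw : w = A.mulVec (C.mulVec fun j => w j / u j) := by
      rw [Matrix.mulVec_mulVec, h]
      funext i
      rw [Matrix.mulVec_diagonal, mul_div_cancel₀ _ (hu i)]
    rw [hw, Matrix.mulVec_eq_sum]
    refine Submodule.sum_mem _ fun B _ => ?_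
    have : (MulOpposite.op ((C.mulVec fun j => w j / u j) B) • A.transpose B) =
        ((C.mulVec fun j => w j / u j) B) • A.col B := by
      funext i
      simp [Matrix.col, mul_comm]
    rw [this]
    exact Submodule.smul_mem _ _ (Submodule.subset_span ⟨B, rfl⟩)
  obtain ⟨b, hb, hbspan, hbli⟩ := exists_linearIndependent K (Set.range fun B => A.col B)
  haveI : Finite b := Set.finite_coe_iff.2 (LinearIndependent.setFinite hbli)
  haveI : Fintype b := Fintype.ofFinite b
  have hbasis : ⊤ ≤ Submodule.span K (Set.range (Subtype.val : b → (Fin r → K))) := by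
    rw [Subtype.range_val, hbspan]; exact hspan
  have hcard : Fintype.card b = r := by
    rw [← Module.finrank_eq_card_basis (Module.Basis.mk hbli hbasis), Module.finrank_fin_fun]
  choose f hf using fun k : Fin r => hb ((Fintype.equivFinOfCardEq hcard).symm k).2
  refine ⟨f, fun k l hkl => ?_, ?_⟩
  · exact (Fintype.equivFinOfCardEq hcard).symm.injective (Subtype.ext (by rw [← hf k, ← hf l, hkl]))
  · have hli : LinearIndependent K (A.submatrix id f).col := by
      have e : (A.submatrix id f).col =
          (Subtype.val : b → (Fin r → K)) ∘ (Fintype.equivFinOfCardEq hcard).symm := by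
        funext k; exact hf k
      rw [e]
      exact hbli.comp _ (Equiv.injective _)
    exact ((Matrix.isUnit_iff_isUnit_det _).1
      (Matrix.linearIndependent_cols_iff_isUnit.1 hli)).ne_zero

variable {G : Type u} [Group G] [Fintype G] {p : ℕ} [Fact p.Prime] {M : Ideal AlgInt} [M.IsPrime]

/-- The second orthogonality relation over the separated classes. -/
theorem sum_separated (x y : G) (hsep : ∀ g h : G, IsConj x g → IsConj y h → ∀ k : ℕ, 0 < k →
      orderOf (g * h⁻¹) ≠ p ^ k) [Decidable (IsConj x y)] :
    ∑ χ : IrrCharacter G, centralChar (χ : G → ℂ) x * centralChar (χ : G → ℂ) y⁻¹ *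
        ((χ : G → ℂ) 1 * BlocksChar.pElementMean p (χ : G → ℂ)) =
      if IsConj x y then ((p ^ (Nat.card G).factorization p : ℕ) : ℂ)⁻¹ *
        ((Nat.card G : ℂ) * ((Subgroup.centralizer ({y} : Set G)).index : ℂ)) else 0 := by
  classical
  have hp : p.Prime := Fact.out
  set pa : ℂ := ((p ^ (Nat.card G).factorization p : ℕ) : ℂ) with hpa
  have hcy : (Subgroup.centralizer ({y⁻¹} : Set G)) = Subgroup.centralizer ({y} : Set G) := by
    ext a
    simp only [Subgroup.mem_centralizer_singleton_iff]
    exact Commute.inv_right_iff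
  set X : ℂ := ((Subgroup.centralizer ({x} : Set G)).index : ℂ)
  set Y : ℂ := ((Subgroup.centralizer ({y} : Set G)).index : ℂ)
  have hterm : ∀ χ : IrrCharacter G, centralChar (χ : G → ℂ) x * centralChar (χ : G → ℂ) y⁻¹ *
      ((χ : G → ℂ) 1 * BlocksChar.pElementMean p (χ : G → ℂ)) =
      ∑ w : G, if orderOf w ∣ p ^ (Nat.card G).factorization p then
        X * Y * pa⁻¹ *
          ((χ : G → ℂ) x * (χ : G → ℂ) y⁻¹ * (χ : G → ℂ) w⁻¹ / (χ : G → ℂ) 1) else 0 := by
    intro χ
    rw [BlocksChar.pElementMean, ← hpa, Finset.mul_sum, Finset.mul_sum, Finset.mul_sum]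
    refine Finset.sum_congr rfl fun w _ => ?_
    have h1 := Char.irr_one_ne_zero χ.2
    split_ifs
    · simp only [centralChar, hcy, X, Y]; field_simp
    · simp
  simp only [hterm]
  rw [Finset.sum_comm, Finset.sum_eq_single (1 : G)]
  · simp only [show orderOf (1 : G) ∣ p ^ (Nat.card G).factorization p by simp, if_true]
    rw [← Finset.mul_sum]
    have h := Char.sum_irr_mul_conj x y
    rw [Finset.sum_congr rfl fun (χ : IrrCharacter G) _ => show (χ : G → ℂ) x * (χ : G → ℂ) y⁻¹ * (χ : G → ℂ) 1⁻¹ /
        (χ : G → ℂ) 1 = (χ : G → ℂ) x * conj ((χ : G → ℂ) y) by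
      rw [inv_one, mul_div_assoc, div_self (Char.irr_one_ne_zero χ.2), mul_one, Char.irr_inv χ.2], h]
    split_ifs with hc
    · have e : X * (Nat.card (Subgroup.centralizer ({x} : Set G)) : ℂ) = (Nat.card G : ℂ) := by
        simp only [X]
        rw [← Nat.cast_mul, Subgroup.index_mul_card]
      linear_combination (Y * pa⁻¹) * e
    · simp
  · intro w _ hw
    split_ifs with ho
    · rw [← Finset.mul_sum, BlocksChar.sum_irr_pair_eq_zero x y⁻¹ w, mul_zero]
      intro a b hab
      obtain ⟨k, -, hk⟩ := (Nat.dvd_prime_pow hp).1 ho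
      refine hsep (a * x * a⁻¹) (b * y * b⁻¹) (isConj_iff.2 ⟨a, rfl⟩) (isConj_iff.2 ⟨b, rfl⟩) k
        (Nat.pos_of_ne_zero fun h0 => hw (orderOf_eq_one_iff.1 (by rw [hk, h0, pow_zero]))) ?_
      rw [← hk, ← hab]
      congr 1; group
    · simp
  · simp

/-- The `p`-exponent of the class with defect group `D`. -/
theorem index_factorization {x : G} {D : Subgroup G} (hD : Block.IsClassDefectGroup p x D) :
    (Subgroup.centralizer ({x} : Set G)).index.factorization p =
      (Nat.card G).factorization p - (Nat.card D).factorization p := by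
  have := Block.factorization_card_eq_of_classDefect hD
  omega

theorem sInf_eq_of_defectGroup (hM : IsPModular p M) {B : Set (IrrCharacter G)}
    (hB : IsPBlock M B) {D : Subgroup G} (hD : IsDefectGroup p M B D) :
    sInf ((fun χ : IrrCharacter G => (charDegree (χ : G → ℂ)).factorization p) '' B) =
      (Nat.card G).factorization p - (Nat.card D).factorization p := by
  obtain ⟨g, hg, hgD⟩ := Block.isDefectGroup_iff.1 hD
  rw [Block.sInf_degree_eq hM hB hg, index_factorization hgD]

variable (M) in
/-- The summand of the orthogonality relation, scaled to be locally integral. -/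
noncomputable def term (p : ℕ) (e : ℕ) (x y : G) (χ : IrrCharacter G) : ℂ :=
  centralChar (χ : G → ℂ) x * centralChar (χ : G → ℂ) y⁻¹ *
    ((charDegree (χ : G → ℂ) : ℂ) / ((p ^ e : ℕ) : ℂ) * BlocksChar.pElementMean p (χ : G → ℂ))

theorem memLocalRing_pElementMean (hM : IsPModular p M) (χ : IrrCharacter G) :
    MemLocalRing M (BlocksChar.pElementMean p (χ : G → ℂ)) := by
  obtain ⟨k, hk⟩ := BlocksChar.exists_int_pElementMean (G := G) hM.1 χ
  rw [hk]
  exact intCast_mem (Block.localRing M) k

theorem term_of_low (hM : IsPModular p M) {D : Subgroup G} {x y : G}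
    (hx : Block.IsClassDefectGroup p x D) (hy : Block.IsClassDefectGroup p y D)
    (χ : IrrCharacter G) :
    MemLocalRing M (term p ((Nat.card G).factorization p - (Nat.card D).factorization p) x y χ) ∧
      (¬ IsDefectGroup p M (blockOf M (χ : G → ℂ)) D →
        MemLocalIdeal M
          (term p ((Nat.card G).factorization p - (Nat.card D).factorization p) x y χ)) := by
  classical
  set e := (Nat.card G).factorization p - (Nat.card D).factorization p with he
  have hp : p.Prime := Fact.out
  have hd0 : charDegree (χ : G → ℂ) ≠ 0 := by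
    exact (BlocksChar.charDegree_pos χ).ne'
  have hpe : p ^ e ≠ 0 := pow_ne_zero _ hp.ne_zero
  have hcx := Block.centralChar_memLocalRing (M := M) χ.2 x
  have hcy := Block.centralChar_memLocalRing (M := M) χ.2 y⁻¹
  have hJ := memLocalRing_pElementMean hM χ
  by_cases hω : MemLocalIdeal M (centralChar (χ : G → ℂ) x)
  · have hfac : term p e x y χ = centralChar (χ : G → ℂ) x *
        ((((Subgroup.centralizer ({y⁻¹} : Set G)).index : ℂ) / ((p ^ e : ℕ) : ℂ)) *
          (χ : G → ℂ) y⁻¹ * BlocksChar.pElementMean p (χ : G → ℂ)) := by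
      simp only [term, centralChar]
      rw [← BlocksChar.charDegree_eq]
      have : (χ : G → ℂ) 1 ≠ 0 := Char.irr_one_ne_zero χ.2
      rw [BlocksChar.charDegree_eq]
      field_simp
    have hy' : (Subgroup.centralizer ({y⁻¹} : Set G)) = Subgroup.centralizer ({y} : Set G) := by
      ext a
      simp only [Subgroup.mem_centralizer_singleton_iff]
      exact Commute.inv_right_iff
    have hmem : MemLocalIdeal M (term p e x y χ) := by
      rw [hfac]
      refine Block.memLocalIdeal_mul_right hω ((Block.localRing M).mul_mem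
        ((Block.localRing M).mul_mem ?_ (Block.char_memLocalRing χ.2 _)) hJ)
      rw [hy']
      refine (Block.memLocalRing_natCast_div_iff hM Subgroup.index_ne_zero_of_finite hpe).2 ?_
      rw [Nat.Prime.factorization_pow hp, Finsupp.single_eq_same, index_factorization hy]
    exact ⟨Block.memLocalRing_of_memLocalIdeal hmem, fun _ => hmem⟩
  · have hB : IsPBlock M (blockOf M (χ : G → ℂ)) := ⟨χ, rfl⟩
    have hχB : χ ∈ blockOf M (χ : G → ℂ) := Block.mem_blockOf_self χ
    obtain ⟨DB, hDB⟩ := Block.exists_isDefectGroup (p := p) hB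
    have hsub := Block.subConj_of_centralChar_unit hM hB hDB hχB hx hω
    have hinf := sInf_eq_of_defectGroup hM hB hDB
    have hle : (Nat.card G).factorization p - (Nat.card DB).factorization p ≤
        (charDegree (χ : G → ℂ)).factorization p :=
      hinf ▸ Nat.sInf_le (Set.mem_image_of_mem _ hχB)
    have hdle : (Nat.card DB).factorization p ≤ (Nat.card D).factorization p :=
      (Nat.factorization_le_iff_dvd Nat.card_pos.ne' Nat.card_pos.ne').2 hsub.card_dvd p
    have hge : e ≤ (charDegree (χ : G → ℂ)).factorization p := by omega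
    have hquot : MemLocalRing M ((charDegree (χ : G → ℂ) : ℂ) / ((p ^ e : ℕ) : ℂ)) :=
      (Block.memLocalRing_natCast_div_iff hM hd0 hpe).2
        (by rw [Nat.Prime.factorization_pow hp, Finsupp.single_eq_same]; exact hge)
    refine ⟨(Block.localRing M).mul_mem ((Block.localRing M).mul_mem hcx hcy)
      ((Block.localRing M).mul_mem hquot hJ), fun hno => ?_⟩
    refine Block.memLocalIdeal_mul_left ((Block.localRing M).mul_mem hcx hcy)
      (Block.memLocalIdeal_mul_right ?_ hJ)
    refine Block.memLocalIdeal_natCast_div hM hd0 hpe ?_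
    rw [Nat.Prime.factorization_pow hp, Finsupp.single_eq_same]
    by_contra hlt
    apply hno
    obtain ⟨a, ha⟩ := IsPGroup.iff_card.1 hx.isPGroup
    obtain ⟨b, hb⟩ := IsPGroup.iff_card.1 (Block.isDefectGroup_isPGroup hDB)
    have hda : (Nat.card D).factorization p = a := by
      rw [ha, Nat.Prime.factorization_pow hp, Finsupp.single_eq_same]
    have hdb : (Nat.card DB).factorization p = b := by
      rw [hb, Nat.Prime.factorization_pow hp, Finsupp.single_eq_same]
    have hDle : (Nat.card D).factorization p ≤ (Nat.card G).factorization p :=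
      (Nat.factorization_le_iff_dvd Nat.card_pos.ne' Nat.card_pos.ne').2
        (Subgroup.card_subgroup_dvd_card D) p
    have hab : a = b := by omega
    obtain ⟨g, hg⟩ := hsub
    have heq : DB.map (MulAut.conj g).toMonoidHom = D := by
      refine Subgroup.eq_of_le_of_card_ge hg ?_
      rw [Subgroup.card_map_of_injective (f := (MulAut.conj g).toMonoidHom)
        (MulAut.conj g).injective, ha, hb, hab]
    exact heq ▸ Block.isDefectGroup_conj hDB g

/-- Let p be a prime, M a maximal ideal of the algebraic integers containing p, and D a subgroup of the finite group G. Let x₁, …, x_r be pairwise non-conjugate elements of G such that D is a Sylow p-subgroup of the centralizer of each xᵢ, and such that for any conjugates g of some xᵢ and h of some xⱼ the element g h⁻¹ is never a non-identity p-element. Then there are r distinct p-blocks B₁, …, B_r of G, each having D as a defect group, such that for every choice of characters χᵢ ∈ Bᵢ of height zero the determinant of the r × r matrix (χᵢ(xⱼ)) does not lie in the local ideal at M. -/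
theorem result {G : Type*} [Group G] [Finite G] (p : ℕ) [Fact p.Prime] (M : Ideal Cfsg.AlgInt) (hM : Cfsg.IsPModular p M) (D : Subgroup G) {r : ℕ} (x : Fin r → G) (hx : ∀ i j : Fin r, IsConj (x i) (x j) → i = j) (hD : ∀ i : Fin r, ∃ S : Sylow p ↥(Subgroup.centralizer ({x i} : Set G)), (S : Subgroup ↥(Subgroup.centralizer ({x i} : Set G))).map (Subgroup.centralizer ({x i} : Set G)).subtype = D) (hsep : ∀ i j : Fin r, ∀ g h : G, IsConj (x i) g → IsConj (x j) h → ∀ k : ℕ, 0 < k → orderOf (g * h⁻¹) ≠ p ^ k) : ∃ B : Fin r → Set (Cfsg.IrrCharacter G), Function.Injective B ∧ (∀ i : Fin r, Cfsg.IsPBlock M (B i) ∧ Cfsg.IsDefectGroup p M (B i) D) ∧ ∀ χ : Fin r → Cfsg.IrrCharacter G, (∀ i : Fin r, χ i ∈ B i ∧ Cfsg.blockHeight p (B i) (χ i : G → ℂ) = 0) → ¬ Cfsg.MemLocalIdeal M (Matrix.det (Matrix.of fun i j : Fin r => (χ i : G → ℂ) (x j))) := by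
  classical
  letI := Fintype.ofFinite G
  haveI : M.IsPrime := hM.2.1.isPrime
  haveI : Finite (IrrCharacter G) := CharInd.finite_irrCharacter
  letI := Fintype.ofFinite (IrrCharacter G)
  have hp : p.Prime := Fact.out
  set e := (Nat.card G).factorization p - (Nat.card D).factorization p with he
  let Ix := {B : Set (IrrCharacter G) // IsPBlock M B ∧ IsDefectGroup p M B D}
  letI : Fintype Ix := Fintype.ofFinite Ix
  let ξ : Ix → IrrCharacter G := fun B => (Block.pBlock_nonempty B.2.1).choose
  have hξ : ∀ B : Ix, ξ B ∈ B.1 := fun B => (Block.pBlock_nonempty B.2.1).choose_spec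
  let A : Matrix (Fin r) Ix (Block.ResF M) :=
    Matrix.of fun i B => Block.redC M (centralChar (ξ B : G → ℂ) (x i))
  let coef : Fin r → IrrCharacter G → ℂ := fun j χ => centralChar (χ : G → ℂ) (x j)⁻¹ *
    ((charDegree (χ : G → ℂ) : ℂ) / ((p ^ e : ℕ) : ℂ) * BlocksChar.pElementMean p (χ : G → ℂ))
  let C : Matrix Ix (Fin r) (Block.ResF M) :=
    Matrix.of fun B j => ∑ χ ∈ B.1.toFinset, Block.redC M (coef j χ)
  let u : Fin r → ℂ := fun i => ((Nat.card G : ℂ) / ((p ^ (Nat.card G).factorization p : ℕ) : ℂ)) *
    (((Subgroup.centralizer ({x i} : Set G)).index : ℂ) / ((p ^ e : ℕ) : ℂ))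
  have hDi : ∀ i, Block.IsClassDefectGroup p (x i) D := hD
  have hu : ∀ i, ¬ MemLocalIdeal M (u i) ∧ MemLocalRing M (u i) := by
    intro i
    have h1 : ((Subgroup.centralizer ({x i} : Set G)).index).factorization p = e :=
      index_factorization (hDi i)
    have h2 : (p ^ e).factorization p = e := by simp [hp]
    have h3 : (p ^ (Nat.card G).factorization p).factorization p = (Nat.card G).factorization p := by
      simp [hp]
    have hm1 := (Block.memLocalRing_natCast_div_iff hM Nat.card_pos.ne'
      (pow_ne_zero ((Nat.card G).factorization p) hp.ne_zero) (m := Nat.card G)).2 h3.le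
    have hm2 := (Block.memLocalRing_natCast_div_iff hM
      (m := (Subgroup.centralizer ({x i} : Set G)).index) Subgroup.index_ne_zero_of_finite
      (pow_ne_zero e hp.ne_zero)).2 (by rw [h1, h2])
    refine ⟨fun hmem => ?_, (Block.localRing M).mul_mem hm1 hm2⟩
    rcases mul_eq_zero.1 (show Block.redC M _ * Block.redC M _ = 0 by
      rw [← Block.redC_mul hm1 hm2, Block.redC_eq_zero_iff ((Block.localRing M).mul_mem hm1 hm2)]
      exact hmem) with h0 | h0
    · exact Block.not_memLocalIdeal_natCast_div hM Nat.card_pos.ne' (pow_ne_zero _ hp.ne_zero)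
        h3.ge ((Block.redC_eq_zero_iff hm1).1 h0)
    · exact Block.not_memLocalIdeal_natCast_div hM Subgroup.index_ne_zero_of_finite
        (pow_ne_zero _ hp.ne_zero) (by rw [h1, h2]) ((Block.redC_eq_zero_iff hm2).1 h0)
  have hAC : A * C = Matrix.diagonal fun i => Block.redC M (u i) := by
    ext i j
    have hsum : ∑ χ : IrrCharacter G, term p e (x i) (x j) χ = if i = j then u i else 0 := by
      have h := sum_separated (x i) (x j) (hsep i j)
      have h' := congrArg (fun z : ℂ => z / ((p ^ e : ℕ) : ℂ)) h
      rw [Finset.sum_div] at h'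
      refine Eq.trans (Finset.sum_congr rfl fun χ _ => ?_) (h'.trans ?_)
      · simp only [term, BlocksChar.charDegree_eq]
        ring
      · by_cases hij : i = j
        · subst hij
          rw [if_pos (IsConj.refl _), if_pos rfl]
          simp only [u]
          ring
        · rw [if_neg fun hc => hij (hx i j hc), if_neg hij, zero_div]
    have hterm := fun χ => term_of_low hM (hDi i) (hDi j) χ
    have h1 := congrArg (Block.redC M) hsum
    rw [Block.redC_sum _ _ fun χ _ => (hterm χ).1] at h1
    rw [Matrix.mul_apply, Matrix.diagonal_apply]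
    have h2 : (∑ χ : IrrCharacter G, Block.redC M (term p e (x i) (x j) χ)) =
        ∑ B : Ix, A i B * C B j := by
      have hcy : ∀ χ : IrrCharacter G, ∀ B : Ix, χ ∈ B.1 →
          Block.redC M (term p e (x i) (x j) χ) = A i B * Block.redC M (coef j χ) := by
        intro χ B hχ
        have hcoef : MemLocalRing M (coef j χ) := by
          refine (Block.localRing M).mul_mem (Block.centralChar_memLocalRing χ.2 _)
            ((Block.localRing M).mul_mem ((Block.memLocalRing_natCast_div_iff hM
              (BlocksChar.charDegree_pos χ).ne' (pow_ne_zero _ hp.ne_zero)).2 ?_)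
              (memLocalRing_pElementMean hM χ))
          rw [Nat.Prime.factorization_pow hp, Finsupp.single_eq_same, he,
            ← sInf_eq_of_defectGroup hM B.2.1 B.2.2]
          exact Nat.sInf_le (Set.mem_image_of_mem _ hχ)
        have hA : A i B = Block.redC M (centralChar (χ : G → ℂ) (x i)) := by
          simp only [A, Matrix.of_apply]
          exact (Block.redC_eq_iff (Block.centralChar_memLocalRing (ξ B).2 _)
            (Block.centralChar_memLocalRing χ.2 _)).2
              (Block.pBlock_sameBlock B.2.1 (hξ B) hχ (x i))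
        rw [hA, ← Block.redC_mul (Block.centralChar_memLocalRing χ.2 _) hcoef]
        congr 1
        simp only [term, coef]
        ring
      have h3 : ∀ B : Ix, A i B * C B j =
          ∑ χ ∈ B.1.toFinset, Block.redC M (term p e (x i) (x j) χ) := fun B => by
        simp only [C, Matrix.of_apply, Finset.mul_sum]
        exact Finset.sum_congr rfl fun χ hχ => (hcy χ B (Set.mem_toFinset.1 hχ)).symm
      simp only [h3]
      rw [← Finset.sum_biUnion]
      · refine (Finset.sum_subset (Finset.subset_univ _) fun χ _ hχ => ?_).symm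
        refine (Block.redC_eq_zero_iff (hterm χ).1).2 ((hterm χ).2 fun hd => hχ ?_)
        exact Finset.mem_biUnion.2 ⟨⟨_, ⟨χ, rfl⟩, hd⟩, Finset.mem_univ _,
          Set.mem_toFinset.2 (Block.mem_blockOf_self χ)⟩
      · intro B _ B' _ hne
        rw [Function.onFun, Finset.disjoint_left]
        intro χ hχ hχ'
        exact hne (Subtype.ext (Block.pBlock_eq_of_mem B.2.1 B'.2.1 (Set.mem_toFinset.1 hχ)
          (Set.mem_toFinset.1 hχ')))
    rw [← h2, h1]
    split_ifs with hij
    · rw [hij]
    · exact Block.redC_zero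
  obtain ⟨f, hf, hdet⟩ := exists_minor A C _ (fun i h0 =>
    (hu i).1 ((Block.redC_eq_zero_iff (hu i).2).1 h0)) hAC
  refine ⟨fun i => (f i).1, fun a b hab => hf (Subtype.ext hab), fun i => (f i).2,
    fun χ hχ hmem => ?_⟩
  set s : Fin r → ℂ := fun i => (charDegree (χ i : G → ℂ) : ℂ) / ((p ^ e : ℕ) : ℂ) with hs
  set t : Fin r → ℂ := fun j => ((p ^ e : ℕ) : ℂ) /
    ((Subgroup.centralizer ({x j} : Set G)).index : ℂ) with ht
  set W : Matrix (Fin r) (Fin r) ℂ := Matrix.of fun i j => centralChar (χ i : G → ℂ) (x j) with hW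
  have hmat : (Matrix.of fun i j : Fin r => (χ i : G → ℂ) (x j)) =
      Matrix.diagonal s * W * Matrix.diagonal t := by
    ext i j
    rw [Matrix.mul_diagonal, Matrix.diagonal_mul, hW, Matrix.of_apply, Matrix.of_apply, hs, ht]
    simp only [centralChar, BlocksChar.charDegree_eq]
    have h1 : (χ i : G → ℂ) 1 ≠ 0 := Char.irr_one_ne_zero (χ i).2
    have h2 : ((p ^ e : ℕ) : ℂ) ≠ 0 := Nat.cast_ne_zero.2 (pow_ne_zero _ hp.ne_zero)
    have h3 : ((Subgroup.centralizer ({x j} : Set G)).index : ℂ) ≠ 0 :=
      Nat.cast_ne_zero.2 Subgroup.index_ne_zero_of_finite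
    field_simp
  have hWm : ∀ i j, MemLocalRing M (W i j) := fun i j =>
    Block.centralChar_memLocalRing (χ i).2 _
  have hh : ∀ i, (charDegree (χ i : G → ℂ)).factorization p = e := by
    intro i
    have h0 := (hχ i).2
    rw [blockHeight, sInf_eq_of_defectGroup hM (f i).2.1 (f i).2.2] at h0
    have h1 := Nat.sInf_le (Set.mem_image_of_mem
      (fun ψ : IrrCharacter G => (charDegree (ψ : G → ℂ)).factorization p) (hχ i).1)
    rw [sInf_eq_of_defectGroup hM (f i).2.1 (f i).2.2] at h1
    omega
  have hsm : ∀ i, MemLocalRing M (s i) ∧ ¬ MemLocalIdeal M (s i) := fun i =>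
    ⟨(Block.memLocalRing_natCast_div_iff hM (BlocksChar.charDegree_pos _).ne'
      (pow_ne_zero _ hp.ne_zero)).2 (by simp [hp, hh i]),
    Block.not_memLocalIdeal_natCast_div hM (BlocksChar.charDegree_pos _).ne'
      (pow_ne_zero _ hp.ne_zero) (by simp [hp, hh i])⟩
  have htm : ∀ j, MemLocalRing M (t j) ∧ ¬ MemLocalIdeal M (t j) := fun j =>
    ⟨(Block.memLocalRing_natCast_div_iff hM (pow_ne_zero _ hp.ne_zero)
      Subgroup.index_ne_zero_of_finite).2 (by simp [hp, he, index_factorization (hDi j)]),
    Block.not_memLocalIdeal_natCast_div hM (pow_ne_zero _ hp.ne_zero)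
      Subgroup.index_ne_zero_of_finite (by simp [hp, he, index_factorization (hDi j)])⟩
  let W' : Matrix (Fin r) (Fin r) (Block.localRing M) := Matrix.of fun i j => ⟨W i j, hWm i j⟩
  have hWdet : ((W'.det : Block.localRing M) : ℂ) = W.det := by
    rw [← Subring.coe_subtype, RingHom.map_det]
    rfl
  have hWred : Block.red M W'.det ≠ 0 := by
    rw [RingHom.map_det]
    have e1 : (Block.red M).mapMatrix W' = (A.submatrix id f).transpose := by
      ext i j
      simp only [RingHom.mapMatrix_apply, Matrix.map_apply, Matrix.transpose_apply,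
        Matrix.submatrix_apply, id_eq, A, W', Matrix.of_apply]
      rw [← Block.redC_of_mem (hWm i j)]
      exact (Block.redC_eq_iff (hWm i j) (Block.centralChar_memLocalRing (ξ (f i)).2 _)).2
        (Block.pBlock_sameBlock (f i).2.1 (hχ i).1 (hξ (f i)) (x j))
    rw [e1, Matrix.det_transpose]
    exact hdet
  rw [hmat, Matrix.det_mul, Matrix.det_mul, Matrix.det_diagonal, Matrix.det_diagonal] at hmem
  have hP : MemLocalRing M (∏ i, s i) ∧ Block.redC M (∏ i, s i) ≠ 0 := by
    have hps : ∀ S : Finset (Fin r), MemLocalRing M (∏ i ∈ S, s i) ∧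
        Block.redC M (∏ i ∈ S, s i) ≠ 0 := by
      intro S
      induction S using Finset.induction_on with
      | empty => simp [Block.redC_one, (Block.localRing M).one_mem]
                 exact (Block.localRing M).one_mem
      | insert a S ha ih =>
        rw [Finset.prod_insert ha]
        refine ⟨(Block.localRing M).mul_mem (hsm a).1 ih.1, ?_⟩
        rw [Block.redC_mul (hsm a).1 ih.1]
        exact mul_ne_zero (fun h0 => (hsm a).2 ((Block.redC_eq_zero_iff (hsm a).1).1 h0)) ih.2
    exact hps Finset.univ
  have hQ : MemLocalRing M (∏ i, t i) ∧ Block.redC M (∏ i, t i) ≠ 0 := by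
    have hps : ∀ S : Finset (Fin r), MemLocalRing M (∏ i ∈ S, t i) ∧
        Block.redC M (∏ i ∈ S, t i) ≠ 0 := by
      intro S
      induction S using Finset.induction_on with
      | empty => simp [Block.redC_one, (Block.localRing M).one_mem]
                 exact (Block.localRing M).one_mem
      | insert a S ha ih =>
        rw [Finset.prod_insert ha]
        refine ⟨(Block.localRing M).mul_mem (htm a).1 ih.1, ?_⟩
        rw [Block.redC_mul (htm a).1 ih.1]
        exact mul_ne_zero (fun h0 => (htm a).2 ((Block.redC_eq_zero_iff (htm a).1).1 h0)) ih.2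
    exact hps Finset.univ
  have hdm : MemLocalRing M W.det := hWdet ▸ W'.det.2
  have := (Block.redC_eq_zero_iff ((Block.localRing M).mul_mem
    ((Block.localRing M).mul_mem hP.1 hdm) hQ.1)).2 hmem
  rw [Block.redC_mul ((Block.localRing M).mul_mem hP.1 hdm) hQ.1,
    Block.redC_mul hP.1 hdm] at this
  refine mul_ne_zero (mul_ne_zero hP.2 ?_) hQ.2 this
  rw [← hWdet, Block.redC_coe]
  exact hWred

end Cfsg.Agent.S4741
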