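import Cfsg.Statements.S4742
import Cfsg.Agent.BlocksChar.DefectZero
-- import your own Cfsg.Agent.* helpers here

set_option autoImplicit false
open Cfsg

namespace Cfsg.Agent.S4742

/-- Let p ≠ q be primes dividing the order of the finite group G, and suppose the centralizer of every non-identity p-element of G has order prime to q. Then either G has an irreducible character of p-defect zero, or for every non-identity q-element z of G there are conjugates g, h of z such that g h⁻¹ is a non-identity p-element. -/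
theorem result {G : Type*} [Group G] [Finite G] (p q : ℕ) [Fact p.Prime] [Fact q.Prime] (hppq : p ≠ q) (hpG : p ∣ Nat.card G) (hqG : q ∣ Nat.card G) (hC : ∀ g : G, g ≠ 1 → (∃ k : ℕ, orderOf g = p ^ k) → ¬ q ∣ Nat.card ↥(Subgroup.centralizer ({g} : Set G))) : (∃ χ : Cfsg.IrrCharacter G, (Cfsg.charDegree (χ : G → ℂ)).factorization p = (Nat.card G).factorization p) ∨ ∀ z : G, z ≠ 1 → (∃ k : ℕ, orderOf z = q ^ k) → ∃ g h : G, IsConj z g ∧ IsConj z h ∧ g * h⁻¹ ≠ 1 ∧ ∃ k : ℕ, orderOf (g * h⁻¹) = p ^ k := by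
  rw [or_iff_not_imp_right]
  intro h
  push Not at h
  obtain ⟨z, hz1, ⟨k, hk⟩, hz⟩ := h
  refine Cfsg.Agent.BlocksChar.exists_defectZero (p := p) z ?_ fun u v j hne hj => ?_
  · intro hp
    obtain ⟨⟨g, hg⟩, hgo⟩ := exists_prime_orderOf_dvd_card' p hp
    rw [Subgroup.orderOf_mk] at hgo
    refine hC g (fun he => ?_) ⟨1, by rw [hgo, pow_one]⟩ ?_
    · rw [he, orderOf_one] at hgo
      exact (Fact.out : p.Prime).ne_one hgo.symm
    · have hz' : z ∈ Subgroup.centralizer ({g} : Set G) :=
        Subgroup.mem_centralizer_singleton_iff.mpr (Subgroup.mem_centralizer_singleton_iff.mp hg).symm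
      refine dvd_trans ?_ ((Subgroup.orderOf_mk z hz') ▸ orderOf_dvd_natCard
        (⟨z, hz'⟩ : Subgroup.centralizer ({g} : Set G)))
      rw [hk]
      refine dvd_pow_self q fun h0 => hz1 ?_
      rw [h0, pow_zero, orderOf_eq_one_iff] at hk
      exact hk
  · have e : v * z⁻¹ * v⁻¹ = (v * z * v⁻¹)⁻¹ := by group
    rw [e] at hne hj
    exact hz (u * z * u⁻¹) (v * z * v⁻¹) (isConj_iff.mpr ⟨u, rfl⟩) (isConj_iff.mpr ⟨v, rfl⟩) hne j hj

end Cfsg.Agent.S4742
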