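import Cfsg.Statements.S4743
import Cfsg.Agent.BlockCover.PQDefectZero

set_option linter.style.haveILetI false

set_option autoImplicit false
open Cfsg

namespace Cfsg.Agent.S4743

/-- Let p ≠ q be primes dividing the order of the finite group G, suppose the centralizer of every non-identity p-element has order prime to q, and suppose G is p-solvable or q-solvable. Then G has an irreducible character of p-defect zero or an irreducible character of q-defect zero. -/
theorem result {G : Type*} [Group G] [Finite G] (p q : ℕ) [Fact p.Prime] [Fact q.Prime] (hppq : p ≠ q) (hpG : p ∣ Nat.card G) (hqG : q ∣ Nat.card G) (hC : ∀ g : G, g ≠ 1 → (∃ k : ℕ, orderOf g = p ^ k) → ¬ q ∣ Nat.card ↥(Subgroup.centralizer ({g} : Set G))) (hsolv : Cfsg.IsPSolvable p G ∨ Cfsg.IsPSolvable q G) : (∃ χ : Cfsg.IrrCharacter G, (Cfsg.charDegree (χ : G → ℂ)).factorization p = (Nat.card G).factorization p) ∨ (∃ χ : Cfsg.IrrCharacter G, (Cfsg.charDegree (χ : G → ℂ)).factorization q = (Nat.card G).factorization q) := by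
  have hp := (Fact.out : p.Prime)
  have hq := (Fact.out : q.Prime)
  have hno : ∀ g : G, orderOf g ≠ p * q := by
    intro g hg
    have hx : orderOf (g ^ q) = p := by
      rw [orderOf_pow_of_dvd hq.ne_zero (by rw [hg]; exact dvd_mul_left q p), hg,
        Nat.mul_div_cancel _ hq.pos]
    refine hC (g ^ q) (fun h => hp.ne_one (by rw [← hx, h, orderOf_one])) ⟨1, by rw [hx, pow_one]⟩ ?_
    have hmem : g ∈ Subgroup.centralizer ({g ^ q} : Set G) :=
      Subgroup.mem_centralizer_singleton_iff.mpr ((Commute.refl g).pow_right q).eq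
    exact (hg ▸ dvd_mul_left q p : q ∣ orderOf g).trans (Subgroup.orderOf_dvd_natCard _ hmem)
  rcases hsolv with h | h
  · exact BlockCover.exists_defect_zero_of_pSolvable hppq hpG hqG hno h
  · exact (BlockCover.exists_defect_zero_of_pSolvable (Ne.symm hppq) hqG hpG
      (fun g => by rw [mul_comm]; exact hno g) h).symm

end Cfsg.Agent.S4743
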