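import Cfsg.Statements.S4744
import Cfsg.Agent.BlocksChar.Inverted
-- import your own Cfsg.Agent.* helpers here

set_option autoImplicit false
open Cfsg

namespace Cfsg.Agent.S4744

/-- Let p be an odd prime and G a finite group of even order divisible by p in which the centralizer of every non-identity p-element has odd order. Then either G has an irreducible character of p-defect zero, or the normalizer of every Sylow p-subgroup P of G has even order and P is abelian. -/
theorem result {G : Type*} [Group G] [Finite G] (p : ℕ) [Fact p.Prime] (hp2 : p ≠ 2) (hpG : p ∣ Nat.card G) (h2G : 2 ∣ Nat.card G) (hC : ∀ g : G, g ≠ 1 → (∃ k : ℕ, orderOf g = p ^ k) → Odd (Nat.card ↥(Subgroup.centralizer ({g} : Set G)))) : (∃ χ : Cfsg.IrrCharacter G, (Cfsg.charDegree (χ : G → ℂ)).factorization p = (Nat.card G).factorization p) ∨ ∀ P : Sylow p G, Even (Nat.card ↥(Subgroup.normalizer ((P : Subgroup G) : Set G))) ∧ IsMulCommutative ↥(P : Subgroup G) := by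
  rw [or_iff_not_imp_left]
  intro hno P
  have h2p := Cfsg.Agent.BlocksChar.no_twop_of_centralizers_odd hC
  haveI : Fact (Nat.Prime 2) := ⟨Nat.prime_two⟩
  obtain ⟨s, hs⟩ := exists_prime_orderOf_dvd_card' 2 h2G
  obtain ⟨Q, hQ⟩ := Cfsg.Agent.BlocksChar.exists_inverted_sylow hp2 h2p hno hs
  obtain ⟨g, rfl⟩ := MulAction.exists_smul_eq G Q P
  have hinv : ∀ z ∈ ((g • Q : Sylow p G) : Subgroup G), g * s * g⁻¹ * z * (g * s * g⁻¹)⁻¹ = z⁻¹ := by
    intro z hz
    rw [Sylow.coe_subgroup_smul, Subgroup.mem_smul_pointwise_iff_exists] at hz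
    obtain ⟨w, hw, rfl⟩ := hz
    simp only [MulAut.smul_def, MulAut.conj_apply]
    calc g * s * g⁻¹ * (g * w * g⁻¹) * (g * s * g⁻¹)⁻¹ = g * (s * w * s⁻¹) * g⁻¹ := by group
      _ = g * w⁻¹ * g⁻¹ := by rw [hQ w hw]
      _ = _ := by group
  have hso : orderOf (g * s * g⁻¹) = 2 := by
    rw [← hs, ← MulAut.conj_apply]
    exact orderOf_injective (MulAut.conj g).toMonoidHom (MulAut.conj g).injective s
  refine ⟨?_, Cfsg.Agent.BlocksChar.comm_of_inverted hinv⟩
  have hmem : g * s * g⁻¹ ∈ Subgroup.normalizer (((g • Q : Sylow p G) : Subgroup G) : Set G) := by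
    rw [Subgroup.mem_normalizer_iff]
    intro z
    refine ⟨fun hz => by rw [hinv z hz]; exact Subgroup.inv_mem _ hz, fun hz => ?_⟩
    have hss : (g * s * g⁻¹) * (g * s * g⁻¹) = 1 := by
      rw [← pow_two, ← hso]; exact pow_orderOf_eq_one _
    have h1 := hinv _ hz
    have hsi := inv_eq_of_mul_eq_one_right hss
    have h2 : (g * s * g⁻¹) * ((g * s * g⁻¹) * z * (g * s * g⁻¹)⁻¹) * (g * s * g⁻¹)⁻¹ = z := by
      rw [hsi]
      calc (g * s * g⁻¹) * ((g * s * g⁻¹) * z * (g * s * g⁻¹)) * (g * s * g⁻¹)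
          = ((g * s * g⁻¹) * (g * s * g⁻¹)) * z * ((g * s * g⁻¹) * (g * s * g⁻¹)) := by
            simp only [mul_assoc]
        _ = z := by rw [hss, one_mul, mul_one]
    rw [h2] at h1
    rw [h1]
    exact Subgroup.inv_mem _ hz
  rw [even_iff_two_dvd, ← hso]
  exact Subgroup.orderOf_dvd_natCard _ hmem

end Cfsg.Agent.S4744
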