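import Cfsg.Statements.S4746
import Cfsg.Agent.S0840
import Cfsg.Agent.Block.Degrees
import Cfsg.Agent.BlkChar.PModular
import Cfsg.Agent.BlocksChar.ClassProd
import Cfsg.Agent.BlocksChar.Inverted
import Cfsg.Agent.CharInd.GenChar

set_option autoImplicit false
open Cfsg
open scoped ComplexConjugate
open Cfsg.Agent

namespace Cfsg.Agent.S4746


universe u

variable {G : Type u} [Group G] [Finite G]

/-- Some involution has a conjugacy class of odd size. -/
theorem exists_odd_class (h2G : 2 ∣ Nat.card G) :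
    ∃ s : G, orderOf s = 2 ∧ ¬ 2 ∣ (Subgroup.centralizer ({s} : Set G)).index := by
  haveI : Fact (Nat.Prime 2) := ⟨Nat.prime_two⟩
  obtain ⟨S⟩ := (inferInstance : Nonempty (Sylow 2 G))
  haveI : Nontrivial (S : Subgroup G) := by
    rw [← Finite.one_lt_card_iff_nontrivial]
    exact Nat.le_of_dvd Nat.card_pos (S.dvd_card_of_dvd_card h2G)
  haveI := S.isPGroup'.center_nontrivial
  have h2Z : 2 ∣ Nat.card (Subgroup.center (S : Subgroup G)) := by
    obtain ⟨n, hn⟩ := IsPGroup.iff_card.1 (S.isPGroup'.to_subgroup (Subgroup.center _))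
    rcases Nat.eq_zero_or_pos n with h0 | h0
    · have h1 : 1 < Nat.card (Subgroup.center (S : Subgroup G)) := Finite.one_lt_card
      rw [hn, h0, pow_zero] at h1
      exact absurd h1 (lt_irrefl 1)
    · exact hn ▸ dvd_pow_self 2 h0.ne'
  obtain ⟨z, hz⟩ := exists_prime_orderOf_dvd_card' 2 h2Z
  refine ⟨((z : (S : Subgroup G)) : G), ?_, fun hd => S.not_dvd_index
    (hd.trans (Subgroup.index_dvd_of_le fun g hg => ?_))⟩
  · rw [Subgroup.orderOf_coe, Subgroup.orderOf_coe, hz]
  · rw [Subgroup.mem_centralizer_singleton_iff]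
    exact congrArg Subtype.val (Subgroup.mem_center_iff.1 z.2 ⟨g, hg⟩)

/-- A real element with centraliser of odd order forces a character of even degree. -/
theorem exists_even_degree (h2G : 2 ∣ Nat.card G) {x : G} (hx : IsConj x x⁻¹)
    (hC : Odd (Nat.card (Subgroup.centralizer ({x} : Set G)))) :
    ∃ χ : IrrCharacter G, Even (charDegree (χ : G → ℂ)) := by
  classical
  by_contra hcon
  push Not at hcon
  have hodd : ∀ χ : IrrCharacter G, ¬ 2 ∣ charDegree (χ : G → ℂ) := fun χ h =>
    hcon χ (even_iff_two_dvd.2 h) |>.elim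
  letI := Fintype.ofFinite G
  haveI : Fact (Nat.Prime 2) := ⟨Nat.prime_two⟩
  obtain ⟨M, hM⟩ := BlkChar.exists_isPModular 2 Nat.prime_two
  haveI : M.IsPrime := hM.2.1.isPrime
  haveI := Block.charP_resF (M := M) hM
  haveI : Finite (IrrCharacter G) := CharInd.finite_irrCharacter
  letI := Fintype.ofFinite (IrrCharacter G)
  obtain ⟨s, hs, hsK⟩ := exists_odd_class h2G
  have hone : ∀ χ : IrrCharacter G, Block.redC M ((χ : G → ℂ) 1) = 1 := fun χ => by
    rw [← BlocksChar.charDegree_eq, Block.redC_natCast]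
    have : charDegree (χ : G → ℂ) ≡ 1 [MOD 2] := by
      have := hodd χ
      unfold Nat.ModEq
      omega
    simpa using (CharP.natCast_eq_natCast (Block.ResF M) 2).2 this
  have hinv : ∀ χ : IrrCharacter G, MemLocalRing M ((χ : G → ℂ) 1)⁻¹ := fun χ => by
    rw [← BlocksChar.charDegree_eq]
    exact Block.memLocalRing_natCast_inv hM (hodd χ)
  have hval : ∀ χ : IrrCharacter G, Block.redC M ((χ : G → ℂ) s) = 1 := fun χ => by
    obtain ⟨n, ρ, -, hρ⟩ := χ.2
    obtain ⟨ε, hε, hpow⟩ := Char.exists_character_eq_sum_roots ρ s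
    have h1 := hpow 1
    simp only [pow_one] at h1
    have hε' : ∀ i, ε i = 1 ∨ ε i = -1 := fun i => by
      have := hε i
      rw [hs, sq] at this
      exact mul_self_eq_one_iff.1 this
    have hmem : ∀ i, MemLocalRing M (ε i) := fun i => by
      rcases hε' i with h | h <;> rw [h]
      exacts [(Block.localRing M).one_mem, (Block.localRing M).neg_mem (Block.localRing M).one_mem]
    have hred : ∀ i, Block.redC M (ε i) = 1 := fun i => by
      rcases hε' i with h | h <;> rw [h]
      · exact Block.redC_one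
      · rw [← Block.redC_one (M := M), Block.redC_eq_iff
          ((Block.localRing M).neg_mem (Block.localRing M).one_mem) (Block.localRing M).one_mem]
        have h2 : MemLocalIdeal M ((2 : ℕ) : ℂ) := (Block.memLocalIdeal_natCast_iff hM 2).2 dvd_rfl
        rw [show (-1 : ℂ) - 1 = -1 * ((2 : ℕ) : ℂ) by norm_num]
        exact Block.memLocalIdeal_mul_left
          ((Block.localRing M).neg_mem (Block.localRing M).one_mem) h2
    have hn := hone χ
    rw [← hρ, Representation.char_one, Block.redC_natCast] at hn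
    rw [← hρ, h1, Block.redC_sum _ _ fun i _ => hmem i, Finset.sum_congr rfl fun i _ => hred i,
      Finset.sum_const, nsmul_eq_mul, mul_one]
    simpa using hn
  set T : IrrCharacter G → ℂ := fun χ =>
    (χ : G → ℂ) s * (χ : G → ℂ) s * (χ : G → ℂ) x * ((χ : G → ℂ) 1)⁻¹ with hT
  have hTmem : ∀ χ, MemLocalRing M (T χ) := fun χ =>
    (Block.localRing M).mul_mem ((Block.localRing M).mul_mem ((Block.localRing M).mul_mem
      (Block.char_memLocalRing χ.2 _) (Block.char_memLocalRing χ.2 _))
      (Block.char_memLocalRing χ.2 _)) (hinv χ)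
  have hTred : ∀ χ, Block.redC M (T χ) = Block.redC M ((χ : G → ℂ) x) := fun χ => by
    have h1 : T χ * (χ : G → ℂ) 1 = (χ : G → ℂ) s * ((χ : G → ℂ) s * (χ : G → ℂ) x) := by
      simp only [hT]
      rw [mul_assoc, inv_mul_cancel₀ (Char.irr_one_ne_zero χ.2), mul_one, mul_assoc]
    have h2 := congrArg (Block.redC M) h1
    rwa [Block.redC_mul (hTmem χ) (Block.char_memLocalRing χ.2 _), hone, mul_one,
      Block.redC_mul (Block.char_memLocalRing χ.2 _) ((Block.localRing M).mul_mem
        (Block.char_memLocalRing χ.2 _) (Block.char_memLocalRing χ.2 _)),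
      Block.redC_mul (Block.char_memLocalRing χ.2 _) (Block.char_memLocalRing χ.2 _), hval,
      one_mul, one_mul] at h2
  -- the sum of the column of `x` vanishes modulo `M`
  have hzero : ∑ χ : IrrCharacter G, Block.redC M ((χ : G → ℂ) x) = 0 := by
    have hN := S0840.result s s x⁻¹
    rw [finsum_eq_sum_of_fintype] at hN
    have hsum : ∀ χ : IrrCharacter G, (χ : G → ℂ) s * (χ : G → ℂ) s * conj ((χ : G → ℂ) x⁻¹) /
        (χ : G → ℂ) 1 = T χ := fun χ => by
      rw [← Char.irr_inv χ.2, inv_inv, div_eq_mul_inv]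
    simp only [hsum] at hN
    have hA : Nat.card {u : G // IsConj s u} = (Subgroup.centralizer ({s} : Set G)).index := by
      rw [← Char.card_isConj_eq_index, Nat.card_eq_fintype_card, Fintype.card_subtype]
      congr!
    rw [hA] at hN
    set A := (Subgroup.centralizer ({s} : Set G)).index with hAdef
    set N := Nat.card {p : G × G // IsConj s p.1 ∧ IsConj s p.2 ∧ p.1 * p.2 = x⁻¹}
    have hA0 : (A : ℂ) ≠ 0 := Nat.cast_ne_zero.2 Subgroup.index_ne_zero_of_finite
    have hG0 : (Nat.card G : ℂ) ≠ 0 := Nat.cast_ne_zero.2 Nat.card_pos.ne'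
    have h1 : ∑ χ : IrrCharacter G, T χ = ((Nat.card G * N : ℕ) : ℂ) * ((A : ℂ)⁻¹ * (A : ℂ)⁻¹) := by
      push_cast
      rw [hN]
      field_simp
    have h2 := congrArg (Block.redC M) h1
    have hAi := Block.memLocalRing_natCast_inv (M := M) hM hsK
    rw [Block.redC_sum _ _ fun χ _ => hTmem χ,
      Block.redC_mul (Block.memLocalRing_natCast _) ((Block.localRing M).mul_mem hAi hAi),
      Block.redC_natCast, (CharP.cast_eq_zero_iff (Block.ResF M) 2 _).2 (h2G.mul_right N),
      zero_mul] at h2
    simpa only [hTred] using h2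
  -- but its square is the order of the centraliser
  have hsq : ∑ χ : IrrCharacter G, Block.redC M ((χ : G → ℂ) x) ^ 2 = 1 := by
    have h := Char.sum_irr_mul_conj x x
    rw [if_pos (IsConj.refl x)] at h
    have hr : ∀ χ : IrrCharacter G, conj ((χ : G → ℂ) x) = (χ : G → ℂ) x := fun χ => by
      rw [← Char.irr_inv χ.2]
      exact (Char.isClassFunction_eq_of_isConj (Char.irr_isClassFunction χ.2) hx).symm
    simp only [hr] at h
    have h2 := congrArg (Block.redC M) h
    rw [Block.redC_sum _ _ fun χ _ => (Block.localRing M).mul_mem (Block.char_memLocalRing χ.2 _)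
      (Block.char_memLocalRing χ.2 _), Block.redC_natCast] at h2
    have hc : Nat.card (Subgroup.centralizer ({x} : Set G)) ≡ 1 [MOD 2] := by
      have := Nat.odd_iff.1 hC
      unfold Nat.ModEq
      omega
    rw [(CharP.natCast_eq_natCast (Block.ResF M) 2).2 hc, Nat.cast_one] at h2
    rw [← h2]
    exact Finset.sum_congr rfl fun χ _ => by
      rw [sq, Block.redC_mul (Block.char_memLocalRing χ.2 _) (Block.char_memLocalRing χ.2 _)]
  rw [← sum_pow_char 2, hzero] at hsq
  simp at hsq

/-- Let p be an odd prime and G a finite group of even order divisible by p in which the centralizer of every non-identity p-element has odd order. Then G has an irreducible character of p-defect zero or an irreducible character of even degree. -/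
theorem result {G : Type*} [Group G] [Finite G] (p : ℕ) [Fact p.Prime] (hp2 : p ≠ 2) (hpG : p ∣ Nat.card G) (h2G : 2 ∣ Nat.card G) (hC : ∀ g : G, g ≠ 1 → (∃ k : ℕ, orderOf g = p ^ k) → Odd (Nat.card ↥(Subgroup.centralizer ({g} : Set G)))) : (∃ χ : Cfsg.IrrCharacter G, (Cfsg.charDegree (χ : G → ℂ)).factorization p = (Nat.card G).factorization p) ∨ ∃ χ : Cfsg.IrrCharacter G, Even (Cfsg.charDegree (χ : G → ℂ)) := by
  rw [or_iff_not_imp_left]
  intro hno
  haveI : Fact (Nat.Prime 2) := ⟨Nat.prime_two⟩
  obtain ⟨s, hs⟩ := exists_prime_orderOf_dvd_card' 2 h2G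
  obtain ⟨P, hP⟩ := BlocksChar.exists_inverted_sylow hp2
    (BlocksChar.no_twop_of_centralizers_odd hC) hno hs
  obtain ⟨y, hy⟩ := exists_prime_orderOf_dvd_card' p (P.dvd_card_of_dvd_card hpG)
  have hy' : orderOf (y : G) = p := by rw [Subgroup.orderOf_coe, hy]
  refine exists_even_degree h2G (x := (y : G)) (isConj_iff.2 ⟨s, hP _ y.2⟩) (hC _ ?_ ⟨1, ?_⟩)
  · intro h
    rw [h, orderOf_one] at hy'
    exact (Fact.out : p.Prime).ne_one hy'.symm
  · rw [hy', pow_one]

end Cfsg.Agent.S4746
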