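import Cfsg.Statements.S4748
import Cfsg.Agent.BlocksChar.SmallDegree
import Cfsg.Agent.PSolv.Basic
import Cfsg.Agent.PSolv.Cores
-- import your own Cfsg.Agent.* helpers here

set_option autoImplicit false
open scoped Pointwise
open Cfsg

namespace Cfsg.Agent.S4748

/-- Let G be a finite p-solvable group whose Sylow p-subgroup P meets each conjugate g P g⁻¹ with g outside N_G(P) trivially, and let χ be a faithful character of G (χ g = χ 1 only for g = 1) whose degree d satisfies d² ≤ |P|. Then P is normal in G. -/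
theorem result {G : Type*} [Group G] [Finite G] (p : ℕ) [Fact p.Prime] (hsolv : Cfsg.IsPSolvable p G) (P : Sylow p G) (hTI : ∀ g : G, g ∉ Subgroup.normalizer ((P : Subgroup G) : Set G) → (P : Subgroup G) ⊓ (MulAut.conj g • (P : Subgroup G)) = ⊥) (χ : G → ℂ) (hχ : Cfsg.IsCharacter G χ) (hfaith : ∀ g : G, χ g = χ 1 → g = 1) (hdeg : Cfsg.charDegree χ ^ 2 ≤ Nat.card ↥(P : Subgroup G)) : (P : Subgroup G).Normal := by
  classical
  set N := Cfsg.pPrimeCore p G with hNdef
  haveI hNn : N.Normal := by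
    haveI := Cfsg.Agent.PSolv.pPrimeCore_characteristic p G
    infer_instance
  have hNcop : (Nat.card N).Coprime p := Cfsg.Agent.PSolv.coprime_card_pPrimeCore p G
  have hPcard : ∃ k, Nat.card (P : Subgroup G) = p ^ k := ⟨_, P.card_eq_multiplicity⟩
  obtain ⟨kP, hkP⟩ := hPcard
  have hcop : (Nat.card N).Coprime (Nat.card (P : Subgroup G)) := by
    rw [hkP]; exact hNcop.pow_right _
  have hdisj : ∀ z ∈ N, z ∈ (P : Subgroup G) → z = 1 := by
    intro z hzN hzP
    refine orderOf_eq_one_iff.mp (Nat.eq_one_of_dvd_coprimes hcop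
      (Subgroup.orderOf_dvd_natCard _ hzN) (Subgroup.orderOf_dvd_natCard _ hzP))
  -- the trivial intersection condition gives equal fixed points
  have hfix : ∀ y ∈ (P : Subgroup G), y ≠ 1 → ∀ n ∈ N, y * n * y⁻¹ = n →
      ∀ x ∈ (P : Subgroup G), x * n * x⁻¹ = n := by
    intro y hy hy1 n hn hyn x hx
    have hnN : n ∈ Subgroup.normalizer ((P : Subgroup G) : Set G) := by
      by_contra h
      have h2 : y ∈ (P : Subgroup G) ⊓ (MulAut.conj n • (P : Subgroup G)) := by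
        refine ⟨hy, ?_⟩
        refine (Subgroup.mem_smul_pointwise_iff_exists _ _ _).mpr ⟨y, hy, ?_⟩
        rw [MulAut.smul_def, MulAut.conj_apply]
        rw [mul_inv_eq_iff_eq_mul] at hyn ⊢
        exact hyn.symm
      rw [hTI n h, Subgroup.mem_bot] at h2
      exact hy1 h2
    have h3 : n * x⁻¹ * n⁻¹ ∈ (P : Subgroup G) :=
      (Subgroup.mem_normalizer_iff.mp hnN x⁻¹).mp (Subgroup.inv_mem _ hx)
    have h4 : x * n * x⁻¹ * n⁻¹ ∈ (P : Subgroup G) := by
      simpa [mul_assoc] using Subgroup.mul_mem _ hx h3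
    exact mul_inv_eq_one.mp (hdisj _ (N.mul_mem (hNn.conj_mem n hn x) (N.inv_mem hn)) h4)
  obtain ⟨d, ρ, hρ⟩ := hχ
  have hd : Cfsg.charDegree χ = d := by simp [Cfsg.charDegree, ← hρ]
  rw [hd] at hdeg
  have hρinj : ∀ g, ρ g = 1 → g = 1 := fun g hg => hfaith g (by
    rw [← hρ]
    show LinearMap.trace ℂ _ (ρ g) = LinearMap.trace ℂ _ (ρ 1)
    rw [map_one ρ, hg])
  have hcent : ∀ x ∈ (P : Subgroup G), ∀ n ∈ N, x * n = n * x := by
    intro x hx n hn
    have h := Cfsg.Agent.BlocksChar.map_conj_eq_of_small_degree (P : Subgroup G) N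
      (fun x _ n hn => hNn.conj_mem n hn x) hcop hfix ρ hdeg x hx n hn
    have h2 : ρ (x * n * x⁻¹ * n⁻¹) = 1 := by
      rw [map_mul, h, ← map_mul, mul_inv_cancel, map_one]
    have h3 := mul_inv_eq_one.mp (hρinj _ h2)
    rwa [mul_inv_eq_iff_eq_mul] at h3
  -- a nontrivial normal `p`-subgroup inside `P`
  by_cases hP1 : (P : Subgroup G) = ⊥
  · rw [hP1]; infer_instance
  haveI : Nontrivial (G ⧸ N) := by
    obtain ⟨x, hx, hx1⟩ := (Subgroup.bot_or_exists_ne_one (P : Subgroup G)).resolve_left hP1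
    refine nontrivial_of_ne (x : G ⧸ N) 1 fun h => hx1 ?_
    exact hdisj x ((QuotientGroup.eq_one_iff x).mp h) hx
  set Q := Cfsg.pCore p (G ⧸ N) with hQ
  have hQne : Q ≠ ⊥ := (Cfsg.Agent.PSolv.pCore_ne_bot_or_pPrimeCore_ne_bot
    (Cfsg.Agent.PSolv.isPSolvable_quotient hsolv N)).resolve_right
    (not_not.mpr (Cfsg.Agent.PSolv.pPrimeCore_quotient_eq_bot p G))
  set π := QuotientGroup.mk' N with hπ
  let PQ : Sylow p (G ⧸ N) := P.mapSurjective (QuotientGroup.mk'_surjective N)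
  haveI hQn : Q.Normal := by
    haveI := Cfsg.Agent.PSolv.pCore_characteristic p (G ⧸ N)
    infer_instance
  set R : Subgroup G := (P : Subgroup G) ⊓ Q.comap π with hR
  have hlift : ∀ l, π l ∈ Q → ∃ x ∈ R, ∃ n ∈ N, l = x * n := by
    intro l hl
    have h1 : π l ∈ (PQ : Subgroup (G ⧸ N)) := (Cfsg.Agent.PSolv.isPGroup_pCore p _).le_sylow_of_normal PQ hl
    obtain ⟨x, hx, hxl⟩ := h1
    refine ⟨x, ⟨hx, ?_⟩, x⁻¹ * l, ?_, by group⟩
    · show π x ∈ Q
      rw [hxl]; exact hl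
    · rw [← QuotientGroup.eq]
      exact hxl
  have hRn : R.Normal := by
    constructor
    intro r hr g
    have hl : π (g * r * g⁻¹) ∈ Q := by
      rw [map_mul, map_mul, map_inv]
      exact hQn.conj_mem _ hr.2 _
    obtain ⟨x, hx, n, hn, he⟩ := hlift _ hl
    obtain ⟨k, hk⟩ := IsPGroup.iff_orderOf.mp P.isPGroup' ⟨r, hr.1⟩
    obtain ⟨j, hj⟩ := IsPGroup.iff_orderOf.mp P.isPGroup' ⟨x, hx.1⟩
    rw [Subgroup.orderOf_mk] at hk hj
    have hxn : Commute x n := hcent x hx.1 n hn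
    have h1 : (x * n) ^ p ^ (k + j) = 1 := by
      rw [← he, conj_pow, pow_add, pow_mul, ← hk, pow_orderOf_eq_one, one_pow, mul_one, mul_inv_cancel]
    rw [hxn.mul_pow, pow_add, mul_comm (p ^ k), pow_mul, ← hj, pow_orderOf_eq_one, one_pow, one_mul,
      hj, ← pow_add] at h1
    have hn1 : n = 1 := orderOf_eq_one_iff.mp (Nat.eq_one_of_dvd_coprimes (hNcop.pow_right (j + k))
      (Subgroup.orderOf_dvd_natCard _ hn) (orderOf_dvd_iff_pow_eq_one.mpr h1))
    rw [he, hn1, mul_one]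
    exact hx
  have hR1 : R ≠ ⊥ := by
    intro hb
    refine hQne ((Subgroup.eq_bot_iff_forall Q).mpr fun q hq => ?_)
    obtain ⟨l, rfl⟩ := QuotientGroup.mk'_surjective N q
    obtain ⟨x, hx, n, hn, he⟩ := hlift l hq
    rw [hb, Subgroup.mem_bot] at hx
    rw [he, hx, one_mul]
    exact (QuotientGroup.eq_one_iff n).mpr hn
  constructor
  intro y hy g
  by_contra hg
  have hgN : g ∉ Subgroup.normalizer ((P : Subgroup G) : Set G) := fun h =>
    hg ((Subgroup.mem_normalizer_iff.mp h y).mp hy)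
  refine hR1 (le_bot_iff.mp (hTI g hgN ▸ fun r hr => ⟨hr.1, ?_⟩))
  refine (Subgroup.mem_smul_pointwise_iff_exists _ _ _).mpr ⟨g⁻¹ * r * g, (show g⁻¹ * r * g ∈ R from by simpa using hRn.conj_mem r hr g⁻¹).1, ?_⟩
  rw [MulAut.smul_def, MulAut.conj_apply]
  group

end Cfsg.Agent.S4748
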