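import Cfsg.Statements.S4750
import Cfsg.Agent.Char8TI.SmallDegree
import Cfsg.Agent.Char.Basic

set_option autoImplicit false
open scoped Pointwise
open Cfsg

namespace Cfsg.Agent.S4750

/-- Let P be a Sylow p-subgroup of the finite group G that meets each conjugate g P g⁻¹ with g outside N_G(P) trivially, χ a character of G with χ(1)² ≤ |P|, and H a subgroup of G containing N_G(P). Then the inner product of χ with itself over G equals the inner product over H of the restriction of χ to H. -/
theorem result {G : Type*} [Group G] [Fintype G] [DecidableEq G] (p : ℕ) [Fact p.Prime] (P : Sylow p G) (hTI : ∀ g : G, g ∉ Subgroup.normalizer ((P : Subgroup G) : Set G) → (P : Subgroup G) ⊓ (MulAut.conj g • (P : Subgroup G)) = ⊥) (χ : G → ℂ) (hχ : Cfsg.IsCharacter G χ) (hdeg : Cfsg.charDegree χ ^ 2 ≤ Nat.card ↥(P : Subgroup G)) (H : Subgroup G) [Fintype ↥H] (hH : Subgroup.normalizer ((P : Subgroup G) : Set G) ≤ H) : Cfsg.classInner χ χ = Cfsg.classInner (fun h : ↥H => χ h) (fun h : ↥H => χ h) := by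
  obtain ⟨n, ρ, rfl⟩ := hχ
  have hn : Cfsg.charDegree ρ.character = n := by
    rw [Cfsg.charDegree, Representation.char_one, Complex.natCast_re, Nat.floor_natCast,
      Module.finrank_fin_fun]
  rw [hn] at hdeg
  let σ := Representation.linHom ρ ρ
  have key : ∀ (X : Type _) [Group X] [Fintype X] (f : X →* G),
      Cfsg.classInner (fun x => ρ.character (f x)) (fun x => ρ.character (f x)) =
        (Module.finrank ℂ (Representation.invariants (σ.comp f)) : ℂ) := by
    intro X _ _ f
    haveI : Invertible (Nat.card X : ℂ) :=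
      invertibleOfNonzero (Nat.cast_ne_zero.2 Nat.card_pos.ne')
    rw [← Representation.card_inv_mul_sum_char_eq_finrank, Cfsg.classInner]
    congr 1
    refine Finset.sum_congr rfl fun x _ => ?_
    show _ = σ.character (f x)
    rw [Representation.char_linHom, Cfsg.Agent.Char.character_inv, mul_comm]
  have hG := key G (MonoidHom.id G)
  have hH' := key H H.subtype
  refine hG.trans (Eq.trans ?_ hH'.symm)
  have hdim : Module.finrank ℂ ((Fin n → ℂ) →ₗ[ℂ] (Fin n → ℂ)) ≤ Nat.card (P : Subgroup G) := by
    rw [Module.finrank_linearMap, Module.finrank_fin_fun, ← sq]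
    exact hdeg
  have heq : Representation.invariants (σ.comp (MonoidHom.id G)) =
      Representation.invariants (σ.comp H.subtype) := by
    refine le_antisymm (fun v hv h => hv (h : G)) fun v hv => ?_
    by_cases hv0 : v = 0
    · rw [hv0]; exact Submodule.zero_mem _
    refine Cfsg.Agent.Char8TI.invariants_eq σ P hTI hdim ?_ v fun g hg => hv ⟨g, hH hg⟩
    intro hbot
    have h1 : (LinearMap.id : (Fin n → ℂ) →ₗ[ℂ] (Fin n → ℂ)) ∈ σ.invariants := fun g => by
      show (ρ g).comp (LinearMap.id.comp (ρ g⁻¹)) = LinearMap.id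
      rw [LinearMap.id_comp, ← Module.End.mul_eq_comp, ← map_mul, mul_inv_cancel, map_one]
      rfl
    rw [hbot, Submodule.mem_bot] at h1
    exact hv0 (LinearMap.ext fun x => by
      rw [← LinearMap.id_apply (R := ℂ) (v x), h1]
      rfl)
  rw [heq]

end Cfsg.Agent.S4750
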