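import Cfsg.Statements.S4754
import Cfsg.Agent.BlocksChar.ClassProd
-- import your own Cfsg.Agent.* helpers here

set_option autoImplicit false
open Cfsg

namespace Cfsg.Agent.S4754

/-- For elements x, y of a finite group G, the conjugacy class of x y equals the set of all products of a conjugate of x with a conjugate of y if and only if χ(1) χ(a x a⁻¹ b y b⁻¹) = χ(x) χ(y) for all a, b ∈ G and every irreducible character χ. -/
theorem result {G : Type*} [Group G] [Finite G] (x y : G) : (∀ z : G, IsConj (x * y) z ↔ ∃ a b : G, z = a * x * a⁻¹ * (b * y * b⁻¹)) ↔ ∀ (a b : G) (χ : Cfsg.IrrCharacter G), (χ : G → ℂ) 1 * (χ : G → ℂ) (a * x * a⁻¹ * (b * y * b⁻¹)) = (χ : G → ℂ) x * (χ : G → ℂ) y := by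
  classical
  letI := Fintype.ofFinite G
  constructor
  · intro h a b χ
    have hall : ∀ a b : G, (χ : G → ℂ) (a * x * a⁻¹ * (b * y * b⁻¹)) = (χ : G → ℂ) (x * y) :=
      fun a b => (Cfsg.Agent.Char.isClassFunction_eq_of_isConj
        (Cfsg.Agent.Char.irr_isClassFunction χ.2) ((h _).mpr ⟨a, b, rfl⟩)).symm
    have hsum := Cfsg.Agent.BlocksChar.sum_conj_mul χ.2 x y
    have hl : ∑ g : G, (χ : G → ℂ) (x * (g * y * g⁻¹))
        = (Nat.card G : ℂ) * (χ : G → ℂ) (x * y) := by
      have e : ∀ g : G, (χ : G → ℂ) (x * (g * y * g⁻¹)) = (χ : G → ℂ) (x * y) := fun g => by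
        simpa using hall 1 g
      simp only [e, Finset.sum_const, Finset.card_univ, nsmul_eq_mul, Nat.card_eq_fintype_card]
    rw [hl] at hsum
    rw [hall a b]
    have h1 := Cfsg.Agent.Char.irr_one_ne_zero χ.2
    have hG := Cfsg.Agent.Char.card_ne_zero_complex (G := G)
    field_simp at hsum
    linear_combination hsum
  · intro h z
    constructor
    · intro hz
      obtain ⟨c, rfl⟩ := isConj_iff.mp hz
      exact ⟨c, c, by group⟩
    · rintro ⟨a, b, rfl⟩
      refine Cfsg.Agent.BlocksChar.isConj_of_forall_irr_eq fun χ => ?_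
      refine mul_left_cancel₀ (Cfsg.Agent.Char.irr_one_ne_zero χ.2) ?_
      have h1 := h 1 1 χ
      simp only [one_mul, inv_one, mul_one] at h1
      rw [h1, h a b χ]

end Cfsg.Agent.S4754
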