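import Cfsg.Statements.S4755
import Cfsg.Agent.BlocksChar.ClassProd
-- import your own Cfsg.Agent.* helpers here

set_option autoImplicit false
open Cfsg
open scoped commutatorElement

namespace Cfsg.Agent.S4755

/-- Let x, y be non-identity elements of the finite group G such that χ(x' y') = χ(x') χ(y') for all conjugates x' of x, y' of y and every irreducible character χ. Then the conjugacy class of x y is the set of all products of a conjugate of x with a conjugate of y; every irreducible character of degree greater than 1 vanishes at x y; and the conjugacy class of x y is the coset of the commutator subgroup containing x y. -/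
theorem result {G : Type*} [Group G] [Finite G] (x y : G) (hx : x ≠ 1) (hy : y ≠ 1) (h : ∀ (a b : G) (χ : Cfsg.IrrCharacter G), (χ : G → ℂ) (a * x * a⁻¹ * (b * y * b⁻¹)) = (χ : G → ℂ) (a * x * a⁻¹) * (χ : G → ℂ) (b * y * b⁻¹)) : (∀ z : G, IsConj (x * y) z ↔ ∃ a b : G, z = a * x * a⁻¹ * (b * y * b⁻¹)) ∧ (∀ χ : Cfsg.IrrCharacter G, (χ : G → ℂ) 1 ≠ 1 → (χ : G → ℂ) (x * y) = 0) ∧ (∀ z : G, IsConj (x * y) z ↔ (x * y)⁻¹ * z ∈ commutator G) := by
  classical
  letI := Fintype.ofFinite G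
  have hcl := fun χ : Cfsg.IrrCharacter G => Cfsg.Agent.Char.irr_isClassFunction χ.2
  have hm : ∀ (a b : G) (χ : Cfsg.IrrCharacter G),
      (χ : G → ℂ) (a * x * a⁻¹ * (b * y * b⁻¹)) = (χ : G → ℂ) x * (χ : G → ℂ) y := fun a b χ => by
    rw [h a b χ, hcl χ x a, hcl χ y b]
  have hxy : ∀ χ : Cfsg.IrrCharacter G, (χ : G → ℂ) (x * y) = (χ : G → ℂ) x * (χ : G → ℂ) y :=
    fun χ => by simpa using hm 1 1 χ
  have hconj : ∀ z : G, IsConj (x * y) z ↔ ∃ a b : G, z = a * x * a⁻¹ * (b * y * b⁻¹) := by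
    intro z
    constructor
    · intro hz
      obtain ⟨c, rfl⟩ := isConj_iff.mp hz
      exact ⟨c, c, by group⟩
    · rintro ⟨a, b, rfl⟩
      exact Cfsg.Agent.BlocksChar.isConj_of_forall_irr_eq fun χ => by rw [hxy, hm]
  have hzero : ∀ χ : Cfsg.IrrCharacter G, (χ : G → ℂ) 1 ≠ 1 → (χ : G → ℂ) (x * y) = 0 := by
    intro χ hne
    rw [hxy]
    have hsum := Cfsg.Agent.BlocksChar.sum_conj_mul χ.2 x y
    have hl : ∑ g : G, (χ : G → ℂ) (x * (g * y * g⁻¹))
        = (Nat.card G : ℂ) * ((χ : G → ℂ) x * (χ : G → ℂ) y) := by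
      have e : ∀ g : G, (χ : G → ℂ) (x * (g * y * g⁻¹)) = (χ : G → ℂ) x * (χ : G → ℂ) y :=
        fun g => by simpa using hm 1 g χ
      simp only [e, Finset.sum_const, Finset.card_univ, nsmul_eq_mul, Nat.card_eq_fintype_card]
    rw [hl] at hsum
    have h1 := Cfsg.Agent.Char.irr_one_ne_zero χ.2
    have hG := Cfsg.Agent.Char.card_ne_zero_complex (G := G)
    field_simp at hsum
    have : ((χ : G → ℂ) x * (χ : G → ℂ) y) * ((χ : G → ℂ) 1 - 1) = 0 := by linear_combination hsum
    exact (mul_eq_zero.mp this).resolve_right (sub_ne_zero.mpr hne)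
  refine ⟨hconj, hzero, fun z => ?_⟩
  constructor
  · intro hz
    obtain ⟨c, rfl⟩ := isConj_iff.mp hz
    have : (x * y)⁻¹ * (c * (x * y) * c⁻¹) = ⁅(x * y)⁻¹, c⁆ := by
      simp [commutatorElement_def, mul_assoc]
    rw [this]
    exact Subgroup.commutator_mem_commutator (Subgroup.mem_top _) (Subgroup.mem_top _)
  · intro hz
    by_contra hne
    have h1 := Cfsg.Agent.Char.sum_irr_mul_conj (x * y) z
    have h2 := Cfsg.Agent.Char.sum_irr_mul_conj (x * y) (x * y)
    rw [if_neg hne] at h1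
    rw [if_pos (IsConj.refl _)] at h2
    refine Nat.card_pos.ne' (Nat.cast_eq_zero.mp (h2.symm.trans (Eq.trans ?_ h1)))
    refine Finset.sum_congr rfl fun χ _ => ?_
    by_cases hdeg : (χ : G → ℂ) 1 = 1
    · have hl := Cfsg.Agent.BlocksChar.linear_mul (Cfsg.Agent.Char.isCharacter_of_irr χ.2) hdeg
        (x * y) ((x * y)⁻¹ * z)
      rw [Cfsg.Agent.BlocksChar.linear_eq_one_of_mem_commutator
        (Cfsg.Agent.Char.isCharacter_of_irr χ.2) hdeg hz, mul_one, mul_inv_cancel_left] at hl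
      rw [hl]
    · rw [hzero χ hdeg]
      simp

end Cfsg.Agent.S4755
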