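import Cfsg.Statements.S4756
import Cfsg.Agent.Char9.MultiplicativePairs

set_option autoImplicit false
open Cfsg

namespace Cfsg.Agent.S4756

/-- For a finite group G the following are equivalent. (1) χ(x y) = χ(x) χ(y) for every irreducible character χ and all non-identity elements x, y of prime power orders for two different primes. (2) G is a p-group for some prime p, or G is abelian, or for some prime p: G = A P with P a normal Sylow p-subgroup and A a nontrivial cyclic subgroup of order prime to p such that, with C = C_P(A) and D = [A, P], one has P = C D, C abelian, D normal in G, C ∩ D = 1, and A acts fixed-point-freely on D (no non-identity element of A centralizes a non-identity element of D). -/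
theorem result {G : Type*} [Group G] [Finite G] : (∀ (x y : G) (χ : Cfsg.IrrCharacter G), x ≠ 1 → y ≠ 1 → (∃ p q a b : ℕ, p.Prime ∧ q.Prime ∧ p ≠ q ∧ orderOf x = p ^ a ∧ orderOf y = q ^ b) → (χ : G → ℂ) (x * y) = (χ : G → ℂ) x * (χ : G → ℂ) y) ↔ ((∃ p : ℕ, p.Prime ∧ IsPGroup p G) ∨ IsMulCommutative G ∨ ∃ (p : ℕ) (_ : Fact p.Prime) (P : Sylow p G) (A : Subgroup G), (P : Subgroup G).Normal ∧ IsCyclic ↥A ∧ A ≠ ⊥ ∧ (Nat.card ↥A).Coprime p ∧ A ⊔ (P : Subgroup G) = ⊤ ∧ IsMulCommutative ↥((P : Subgroup G) ⊓ Subgroup.centralizer (A : Set G)) ∧ (⁅A, (P : Subgroup G)⁆).Normal ∧ ((P : Subgroup G) ⊓ Subgroup.centralizer (A : Set G)) ⊔ ⁅A, (P : Subgroup G)⁆ = (P : Subgroup G) ∧ ((P : Subgroup G) ⊓ Subgroup.centralizer (A : Set G)) ⊓ ⁅A, (P : Subgroup G)⁆ = ⊥ ∧ ∀ a ∈ A, a ≠ 1 → ∀ d ∈ ⁅A, (P : Subgroup G)⁆, a * d = d * a → d = 1) := by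
  haveI : Fintype G := Fintype.ofFinite G
  constructor
  · intro h
    by_cases h1 : ∃ p : ℕ, p.Prime ∧ IsPGroup p G
    · exact Or.inl h1
    by_cases h2 : IsMulCommutative G
    · exact Or.inr (Or.inl h2)
    exact Or.inr (Or.inr (Cfsg.Agent.Char9.MulPairs.structured_of_mult h h1 h2))
  · rintro (⟨p, hp, hG⟩ | hab | hs)
    · intro x y χ hx hy ⟨r, s, i, j, hr, hs, hne, hxo, hyo⟩
      haveI := Fact.mk hp
      have key : ∀ (z : G) (r i : ℕ), z ≠ 1 → r.Prime → orderOf z = r ^ i → r = p := by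
        intro z r i hz hr hzo
        obtain ⟨n, hn⟩ := (IsPGroup.iff_orderOf.1 hG) z
        have hn0 : n ≠ 0 := fun e => hz (orderOf_eq_one_iff.1 (by rw [hn, e, pow_zero]))
        have hd : p ∣ r ^ i := hzo ▸ hn ▸ dvd_pow_self p hn0
        exact ((Nat.prime_dvd_prime_iff_eq hp hr).1 (hp.dvd_of_dvd_pow hd)).symm
      exact absurd ((key x r i hx hr hxo).trans (key y s j hy hs hyo).symm) hne
    · intro x y χ _ _ _
      obtain ⟨f, hf⟩ := Char.irr_exists_monoidHom_of_comm (fun a b : G => hab.is_comm.comm a b) χ.2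
      rw [hf, hf, hf, map_mul, Units.val_mul]
    · exact Cfsg.Agent.Char9.MulPairs.mult_of_structured hs

end Cfsg.Agent.S4756
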