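import Cfsg.Statements.S4757
import Cfsg.Agent.Char.Linear
import Cfsg.Agent.Char.Orthogonality
import Cfsg.Agent.Cores.Pi

set_option autoImplicit false
open Cfsg

namespace Cfsg.Agent.S4757

/-- Let u ≠ 1 be an element of the finite group G and c a complex number such that every non-principal irreducible character χ satisfies χ(1) − χ(u) = c or χ(u) = 0. Then the following are equivalent: (a) u has order 2, G is generated by u together with O(G), the largest normal subgroup of G of odd order, and the centralizer of u is {1, u}; (b) G is not perfect; (c) c = 2. -/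
theorem result {G : Type*} [Group G] [Finite G] (u : G) (hu : u ≠ 1) (c : ℂ) (hyp : ∀ χ : Cfsg.IrrCharacter G, (χ : G → ℂ) ≠ (fun _ => (1 : ℂ)) → ((χ : G → ℂ) 1 - (χ : G → ℂ) u = c ∨ (χ : G → ℂ) u = 0)) : ((orderOf u = 2 ∧ Subgroup.zpowers u ⊔ Cfsg.oddCore G = ⊤ ∧ Subgroup.centralizer ({u} : Set G) = Subgroup.zpowers u) ↔ commutator G ≠ ⊤) ∧ (commutator G ≠ ⊤ ↔ c = 2) := by
  classical
  haveI := Fintype.ofFinite G
  have hdeg : ∀ χ : Cfsg.IrrCharacter G, ∃ n : ℕ, 0 < n ∧ (χ : G → ℂ) 1 = n :=
    fun χ => Cfsg.Agent.Char.irr_one_pos χ.2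
  -- imperfect gives a non-trivial linear character
  have hlin : commutator G ≠ ⊤ → ∃ f : G →* ℂˣ, f ≠ 1 := by
    intro hne
    by_contra h
    push_neg at h
    apply hne
    rw [← Subgroup.index_eq_one, ← Cfsg.Agent.Char.card_monoidHom_complex]
    haveI : Subsingleton (G →* ℂˣ) := ⟨fun a b => (h a).trans (h b).symm⟩
    exact Nat.card_of_subsingleton (1 : G →* ℂˣ)
  have hval : ∀ f : G →* ℂˣ, f ≠ 1 → 1 - (f u : ℂ) = c := by
    intro f hf
    have hne : (fun g => (f g : ℂ)) ≠ (fun _ : G => (1 : ℂ)) := fun h =>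
      hf (MonoidHom.ext fun g => Units.ext (congrFun h g))
    rcases hyp ⟨_, Cfsg.Agent.Char.isIrrCharacter_monoidHom f⟩ hne with h | h
    · simpa using h
    · exact absurd h (f u).ne_zero
  let one : Cfsg.IrrCharacter G :=
    ⟨_, Cfsg.Agent.Char.isIrrCharacter_monoidHom (1 : G →* ℂˣ)⟩
  have hone : (one : G → ℂ) = fun _ => (1 : ℂ) := funext fun g => by simp [one]
  have horth : ∀ x : G, ∑ χ : Cfsg.IrrCharacter G, (χ : G → ℂ) u * (starRingEnd ℂ) ((χ : G → ℂ) x) =
      if IsConj u x then (Nat.card (Subgroup.centralizer ({u} : Set G)) : ℂ) else 0 :=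
    fun x => by convert Cfsg.Agent.Char.sum_irr_mul_conj u x
  have hnc : ¬ IsConj u 1 := fun h => hu (isConj_one_left.1 h)
  -- (b) implies (c)
  have hbc : commutator G ≠ ⊤ → c = 2 := by
    intro hne
    obtain ⟨f, hf⟩ := hlin hne
    have h1 := hval f hf
    have h2 := hval f⁻¹ (fun h => hf (MonoidHom.ext fun x => inv_eq_one.1 (DFunLike.congr_fun h x)))
    have h3 : (f u : ℂ) * ((f⁻¹ u : ℂˣ) : ℂ) = 1 := by simp
    have h4 : ((f⁻¹ u : ℂˣ) : ℂ) = (f u : ℂ) := by linear_combination h1 - h2
    rw [h4] at h3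
    rcases mul_self_eq_one_iff.1 h3 with h | h
    · exfalso
      have hc0 : c = 0 := by rw [← h1, h, sub_self]
      -- every value is the degree or zero
      have hterm : ∀ χ : Cfsg.IrrCharacter G, ∃ a : ℝ, 0 ≤ a ∧
          (χ : G → ℂ) u * (starRingEnd ℂ) ((χ : G → ℂ) 1) = a := by
        intro χ
        obtain ⟨n, -, hn⟩ := hdeg χ
        by_cases hχ : (χ : G → ℂ) = fun _ => (1 : ℂ)
        · exact ⟨1, zero_le_one, by simp [hχ]⟩
        · rcases hyp χ hχ with e | e
          · rw [hc0, sub_eq_zero] at e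
            exact ⟨(n : ℝ) ^ 2, sq_nonneg _, by rw [← e, hn, map_natCast]; push_cast; ring⟩
          · exact ⟨0, le_rfl, by simp [e]⟩
      choose a ha0 ha using hterm
      have h0 := horth 1
      rw [if_neg hnc] at h0
      simp only [ha] at h0
      have h0' : ∑ χ, a χ = 0 := by exact_mod_cast h0
      have h5 := (Finset.sum_eq_zero_iff_of_nonneg fun χ _ => ha0 χ).1 h0' one (Finset.mem_univ _)
      have h6 := ha one
      rw [h5, hone] at h6
      simp at h6
    · rw [← h1, h]; norm_num
  -- the structure when the constant is two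
  have hc : c = 2 → commutator G ≠ ⊤ ∧ Nat.card (Subgroup.centralizer ({u} : Set G)) = 2 ∧
      ∃ f : G →* ℂˣ, f ≠ 1 ∧ (f u : ℂ) = -1 ∧ ∀ g, (f g : ℂ) = 1 ∨ (f g : ℂ) = -1 := by
    intro hc2
    have hneg : ∀ f : G →* ℂˣ, f ≠ 1 → (f u : ℂ) = -1 := fun f hf => by
      linear_combination -(hval f hf) - hc2
    -- the non-linear terms
    have hterm : ∀ χ : Cfsg.IrrCharacter G, (χ : G → ℂ) 1 ≠ 1 → ∃ a : ℝ, 0 ≤ a ∧
          (χ : G → ℂ) u * (starRingEnd ℂ) ((χ : G → ℂ) 1) = a ∧
          (a = 0 → (χ : G → ℂ) u = 0) := by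
      intro χ h1
      obtain ⟨n, hn0, hn⟩ := hdeg χ
      have hn2 : 2 ≤ n := by
        by_contra h
        exact h1 (by rw [hn, show n = 1 by omega, Nat.cast_one])
      have hne : (χ : G → ℂ) ≠ fun _ => (1 : ℂ) := fun h => h1 (congrFun h 1)
      rcases hyp χ hne with e | e
      · have hr : (0 : ℝ) ≤ (n : ℝ) - 2 := sub_nonneg.2 (by exact_mod_cast hn2)
        have hu' : (χ : G → ℂ) u = (n : ℂ) - 2 := by
          rw [hc2, hn] at e; linear_combination -e
        refine ⟨((n : ℝ) - 2) * n, mul_nonneg hr (Nat.cast_nonneg n), ?_, fun h => ?_⟩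
        · rw [hu', hn, map_natCast]; push_cast; rfl
        · have : (n : ℝ) - 2 = 0 := (mul_eq_zero.1 h).resolve_right (by positivity)
          have e2 : (n : ℕ) = 2 := by
            have : (n : ℝ) = ((2 : ℕ) : ℝ) := by push_cast; linarith
            exact_mod_cast this
          rw [hu', e2]; norm_num
      · exact ⟨0, le_rfl, by simp [e], fun _ => e⟩
    -- there is exactly one non-trivial linear character
    haveI := Cfsg.Agent.Char.monoidHom_complex_finite (G := G)
    haveI := Fintype.ofFinite (G →* ℂˣ)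
    have hsplit : ∀ F : (G → ℂ) → ℂ, ∑ χ : Cfsg.IrrCharacter G, F χ =
        (∑ f : G →* ℂˣ, F (fun g => (f g : ℂ))) +
          ∑ χ ∈ Finset.univ.filter (fun χ : Cfsg.IrrCharacter G => (χ : G → ℂ) 1 ≠ 1), F χ := by
      intro F
      rw [← Finset.sum_filter_add_sum_filter_not Finset.univ
        (fun χ : Cfsg.IrrCharacter G => (χ : G → ℂ) 1 = 1)]
      congr 1
      refine (Finset.sum_nbij (fun f : G →* ℂˣ => (⟨_, Cfsg.Agent.Char.isIrrCharacter_monoidHom f⟩ :
        Cfsg.IrrCharacter G)) ?_ ?_ ?_ (fun f _ => rfl)).symm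
      · intro f _; simp
      · intro f _ g _ h
        exact Cfsg.Agent.Char.monoidHom_coe_injective (congrArg Subtype.val h)
      · intro χ hχ
        simp only [Finset.coe_filter, Finset.mem_univ, true_and, Set.mem_setOf_eq] at hχ
        obtain ⟨f, hf⟩ := Cfsg.Agent.Char.exists_monoidHom_of_degree_one
          (Cfsg.Agent.Char.isCharacter_of_irr χ.2) hχ
        exact ⟨f, Finset.mem_coe.2 (Finset.mem_univ f), Subtype.ext (funext fun g => (hf g).symm)⟩
    have hex : ∃ f : G →* ℂˣ, f ≠ 1 := by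
      by_contra h
      push_neg at h
      have h0 := horth 1
      rw [if_neg hnc, hsplit (fun φ => φ u * (starRingEnd ℂ) (φ 1)),
        Fintype.sum_eq_single (1 : G →* ℂˣ) (fun f hf => absurd (h f) hf)] at h0
      simp only [MonoidHom.one_apply, Units.val_one, map_one, mul_one] at h0
      have h7 := congrArg Complex.re h0
      rw [Complex.add_re, Complex.one_re, Complex.re_sum, Complex.zero_re] at h7
      have h8 : (0 : ℝ) ≤ ∑ χ ∈ Finset.univ.filter (fun χ : Cfsg.IrrCharacter G => (χ : G → ℂ) 1 ≠ 1),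
          ((χ : G → ℂ) u * (starRingEnd ℂ) ((χ : G → ℂ) 1)).re :=
        Finset.sum_nonneg fun χ hχ => by
          obtain ⟨a, ha0, ha, -⟩ := hterm χ (Finset.mem_filter.1 hχ).2
          rw [ha, Complex.ofReal_re]; exact ha0
      linarith
    obtain ⟨f, hf⟩ := hex
    have hfu := hneg f hf
    have huniq : ∀ g : G →* ℂˣ, g = 1 ∨ g = f := by
      intro g
      by_contra h
      push_neg at h
      have h1 := hneg g h.1
      have h2 := hneg (g * f⁻¹) (fun e => h.2 (mul_inv_eq_one.1 e))
      rw [MonoidHom.mul_apply, MonoidHom.inv_apply, Units.val_mul, Units.val_inv_eq_inv_val,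
        h1, hfu] at h2
      norm_num at h2
    refine ⟨?_, ?_, f, hf, hfu, fun g => ?_⟩
    · intro htop
      refine hf (MonoidHom.ext fun g => Units.ext ?_)
      have hg : g ∈ f.ker := Abelianization.commutator_subset_ker f (htop ▸ Subgroup.mem_top g)
      rw [MonoidHom.mem_ker] at hg
      rw [hg]; rfl
    · have hpair : (Finset.univ : Finset (G →* ℂˣ)) = {1, f} :=
        Finset.ext fun g => by simp [huniq g]
      have h0 := horth 1
      rw [if_neg hnc, hsplit (fun φ => φ u * (starRingEnd ℂ) (φ 1)), hpair,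
        Finset.sum_pair (Ne.symm hf)] at h0
      simp only [MonoidHom.one_apply, map_one, Units.val_one, mul_one, hfu, add_neg_cancel,
        zero_add] at h0
      have h7 := congrArg Complex.re h0
      rw [Complex.re_sum, Complex.zero_re] at h7
      have h8 := (Finset.sum_eq_zero_iff_of_nonneg fun χ hχ => by
        obtain ⟨a, ha0, ha, -⟩ := hterm χ (Finset.mem_filter.1 hχ).2
        rw [ha, Complex.ofReal_re]; exact ha0).1 h7
      have hu2 := horth u
      rw [if_pos (IsConj.refl u), hsplit (fun φ => φ u * (starRingEnd ℂ) (φ u)), hpair,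
        Finset.sum_pair (Ne.symm hf), Finset.sum_eq_zero (fun χ hχ => by
          obtain ⟨a, ha0, ha, hz⟩ := hterm χ (Finset.mem_filter.1 hχ).2
          have := h8 χ hχ
          rw [ha, Complex.ofReal_re] at this
          rw [hz this, zero_mul])] at hu2
      simp only [MonoidHom.one_apply, Units.val_one, map_one, mul_one, hfu, map_neg, neg_mul,
        neg_neg, add_zero] at hu2
      have h9 : (((2 : ℕ)) : ℂ) = (Nat.card (Subgroup.centralizer ({u} : Set G)) : ℂ) := by
        rw [← hu2]; norm_num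
      exact_mod_cast h9.symm
    · rcases huniq f⁻¹ with h | h
      · exact absurd (MonoidHom.ext fun x => inv_eq_one.1 (DFunLike.congr_fun h x)) hf
      · have hh : ((f g : ℂˣ) : ℂ) * (f g : ℂ) = 1 := by
          nth_rewrite 1 [← h]
          simp
        exact mul_self_eq_one_iff.1 hh
  -- (a) implies (b)
  have hab : (orderOf u = 2 ∧ Subgroup.zpowers u ⊔ Cfsg.oddCore G = ⊤ ∧
      Subgroup.centralizer ({u} : Set G) = Subgroup.zpowers u) → commutator G ≠ ⊤ := by
    rintro ⟨ho, hgen, -⟩ hperf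
    have hne : Cfsg.oddCore G ≠ ⊤ := by
      intro h
      have h1 : Odd (Nat.card (Cfsg.oddCore G)) := Cfsg.Agent.Cores.odd_card_oddCore
      rw [h, Subgroup.card_top] at h1
      exact Nat.not_even_iff_odd.2 h1 (even_iff_two_dvd.2 (ho ▸ orderOf_dvd_natCard u))
    apply hne
    rw [eq_top_iff, ← hperf, commutator_def, Subgroup.commutator_le]
    intro a _ b _
    rw [← QuotientGroup.eq_one_iff, ← QuotientGroup.mk'_apply, map_commutatorElement,
      commutatorElement_eq_one_iff_mul_comm]
    have hz : ∀ x : G ⧸ Cfsg.oddCore G, x ∈ Subgroup.zpowers (u : G ⧸ Cfsg.oddCore G) := by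
      intro x
      have h1 : Subgroup.map (QuotientGroup.mk' (Cfsg.oddCore G)) ⊤ = ⊤ :=
        Subgroup.map_top_of_surjective _ (QuotientGroup.mk'_surjective _)
      rw [← hgen, Subgroup.map_sup, QuotientGroup.map_mk'_self, sup_bot_eq,
        MonoidHom.map_zpowers] at h1
      rw [← QuotientGroup.mk'_apply, h1]
      exact Subgroup.mem_top x
    obtain ⟨i, hi⟩ := Subgroup.mem_zpowers_iff.1 (hz (QuotientGroup.mk' _ a))
    obtain ⟨j, hj⟩ := Subgroup.mem_zpowers_iff.1 (hz (QuotientGroup.mk' _ b))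
    rw [← hi, ← hj]
    exact zpow_mul_comm _ i j
  -- (c) implies (a)
  have hca : c = 2 → (orderOf u = 2 ∧ Subgroup.zpowers u ⊔ Cfsg.oddCore G = ⊤ ∧
      Subgroup.centralizer ({u} : Set G) = Subgroup.zpowers u) := by
    intro hc2
    obtain ⟨-, hcard, f, hf, hfu, hpm⟩ := hc hc2
    have hle : Subgroup.zpowers u ≤ Subgroup.centralizer ({u} : Set G) :=
      Subgroup.zpowers_le.2 (Subgroup.mem_centralizer_singleton_iff.2 rfl)
    have hdvd := Subgroup.card_dvd_of_le hle
    rw [hcard, Nat.card_zpowers] at hdvd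
    have ho : orderOf u = 2 :=
      ((Nat.dvd_prime Nat.prime_two).1 hdvd).resolve_left (fun h => hu (orderOf_eq_one_iff.1 h))
    have heq : Subgroup.centralizer ({u} : Set G) = Subgroup.zpowers u :=
      (Subgroup.eq_of_le_of_card_ge hle (by rw [hcard, Nat.card_zpowers, ho])).symm
    refine ⟨ho, ?_, heq⟩
    -- the Sylow 2-subgroup containing `u` has order two
    haveI : Fact (Nat.Prime 2) := ⟨Nat.prime_two⟩
    obtain ⟨S, hS⟩ := (IsPGroup.of_card (p := 2) (n := 1) (G := Subgroup.zpowers u)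
      (by rw [Nat.card_zpowers, ho, pow_one])).exists_le_sylow
    have huS : u ∈ (S : Subgroup G) := hS (Subgroup.mem_zpowers u)
    haveI : Nontrivial (S : Subgroup G) :=
      ⟨⟨⟨u, huS⟩, 1, fun h => hu (congrArg Subtype.val h)⟩⟩
    haveI := S.2.center_nontrivial
    obtain ⟨⟨z, hzc⟩, hz1⟩ := exists_ne (1 : Subgroup.center (S : Subgroup G))
    have hzu : (z : G) = u := by
      have hzC : (z : G) ∈ Subgroup.centralizer ({u} : Set G) :=
        Subgroup.mem_centralizer_singleton_iff.2
          (congrArg Subtype.val (Subgroup.mem_center_iff.1 hzc ⟨u, huS⟩)).symm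
      rw [heq] at hzC
      obtain ⟨i, hi⟩ := Subgroup.mem_zpowers_iff.1 hzC
      rcases Int.emod_two_eq_zero_or_one i with h | h
      · exfalso
        refine hz1 (Subtype.ext (Subtype.ext ?_))
        show (z : G) = 1
        rw [← hi, ← zpow_mod_orderOf, ho]
        norm_num [h]
      · rw [← hi, ← zpow_mod_orderOf, ho]
        norm_num [h]
    have hSC : (S : Subgroup G) = Subgroup.zpowers u := by
      refine le_antisymm (fun s hs => ?_) hS
      rw [← heq, Subgroup.mem_centralizer_singleton_iff, ← hzu]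
      exact congrArg Subtype.val (Subgroup.mem_center_iff.1 hzc ⟨s, hs⟩)
    have hker : Odd (Nat.card f.ker) := by
      rw [← Nat.not_even_iff_odd, even_iff_two_dvd]
      intro h2
      obtain ⟨v, hv⟩ := exists_prime_orderOf_dvd_card' 2 h2
      have hv' : orderOf (v : G) = 2 := by rw [Subgroup.orderOf_coe]; exact hv
      obtain ⟨T, hT⟩ := (IsPGroup.of_card (p := 2) (n := 1) (G := Subgroup.zpowers (v : G))
        (by rw [Nat.card_zpowers, hv', pow_one])).exists_le_sylow
      obtain ⟨g, hg⟩ := MulAction.exists_smul_eq G S T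
      have hvT := hT (Subgroup.mem_zpowers (v : G))
      rw [← hg, Sylow.coe_subgroup_smul, hSC] at hvT
      obtain ⟨w, hw, hwv⟩ := hvT
      obtain ⟨i, hi⟩ := Subgroup.mem_zpowers_iff.1 hw
      have hfv : f (v : G) = 1 := v.2
      have hw' : g * w * g⁻¹ = (v : G) := hwv
      rw [← hw', map_mul, map_mul, map_inv, mul_comm (f g), mul_assoc, mul_inv_cancel,
        mul_one] at hfv
      rcases Int.emod_two_eq_zero_or_one i with h | h
      · have : w = 1 := by rw [← hi, ← zpow_mod_orderOf, ho]; norm_num [h]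
        rw [this, mul_one, mul_inv_cancel] at hw'
        rw [← hw', orderOf_one] at hv'
        norm_num at hv'
      · have : w = u := by rw [← hi, ← zpow_mod_orderOf, ho]; norm_num [h]
        rw [this] at hfv
        rw [hfv] at hfu
        norm_num at hfu
    rw [eq_top_iff]
    intro g _
    have hO : f.ker ≤ Cfsg.oddCore G := Cfsg.Agent.Cores.le_oddCore inferInstance hker
    rcases hpm g with h | h
    · exact Subgroup.mem_sup_right (hO (Units.ext h))
    · have hm : u * g ∈ f.ker := by
        refine Units.ext ?_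
        rw [map_mul, Units.val_mul, hfu, h]
        norm_num
      rw [show g = u⁻¹ * (u * g) by group]
      exact mul_mem (Subgroup.mem_sup_left (inv_mem (Subgroup.mem_zpowers u)))
        (Subgroup.mem_sup_right (hO hm))
  exact ⟨⟨hab, fun h => hca (hbc h)⟩, ⟨hbc, fun h => (hc h).1⟩⟩

end Cfsg.Agent.S4757
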