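import Cfsg.Statements.S4759
import Cfsg.Agent.Char8Extra.Main
import Cfsg.Agent.Char9.UniqueSingular
import Cfsg.Agent.CharDeep.ExtraspecialChar
import Cfsg.Agent.LargeExtra.Basic
import Cfsg.Agent.BlocksChar.Codegree
import Cfsg.Agent.S0888

set_option autoImplicit false
open Cfsg

namespace Cfsg.Agent.S4759

open Subgroup Char8Extra
open scoped commutatorElement ComplexConjugate

/-- Let G be a finite group that is the semidirect product of a normal extraspecial 2-subgroup E and a complement H acting faithfully on E (no non-identity element of H centralizes E), and suppose H has a normal subgroup K of odd order with [E, K] = E. Then every faithful irreducible character θ of E (there is exactly one) extends to G: some irreducible character of G restricts to θ on E. -/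
theorem result {G : Type*} [Group G] [Finite G] (E H : Subgroup G) [E.Normal] (hE : Cfsg.IsExtraspecial 2 ↥E) (hEH : E ⊓ H = ⊥) (hEHtop : E ⊔ H = ⊤) (hfaith : ∀ h ∈ H, (∀ e ∈ E, h * e = e * h) → h = 1) (K : Subgroup G) (hKH : K ≤ H) (hKn : ∀ h ∈ H, ∀ k ∈ K, h * k * h⁻¹ ∈ K) (hKodd : Odd (Nat.card ↥K)) (hEK : ⁅E, K⁆ = E) (θ : Cfsg.IrrCharacter ↥E) (hθ : ∀ e : ↥E, (θ : ↥E → ℂ) e = (θ : ↥E → ℂ) 1 → e = 1) : ∃ χ : Cfsg.IrrCharacter G, ∀ e : ↥E, (χ : G → ℂ) e = (θ : ↥E → ℂ) e := by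
  classical
  haveI := Fintype.ofFinite G
  haveI := Fintype.ofFinite E
  haveI : Fact (Nat.Prime 2) := ⟨Nat.prime_two⟩
  obtain ⟨z, hz⟩ := LargeExtra.exists_centralInvolution hE
  let zE : E := ⟨z, hz.mem⟩
  have hzc : zE ∈ Subgroup.center E :=
    Subgroup.mem_center_iff.2 fun x => Subtype.ext (hz.comm x x.2)
  obtain ⟨d, hd0, hd⟩ := Char.irr_one_pos θ.2
  -- the central involution acts by the scalar -1
  have hθz : (θ : E → ℂ) zE = -(d : ℂ) := by
    have h := BlocksChar.sum_conj_mul θ.2 zE⁻¹ zE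
    have hg : ∀ g : E, g * zE * g⁻¹ = zE := fun g => by
      rw [Subgroup.mem_center_iff.1 hzc g, mul_inv_cancel_right]
    simp only [hg, inv_mul_cancel, Finset.sum_const, Finset.card_univ, nsmul_eq_mul,
      ← Nat.card_eq_fintype_card] at h
    rw [eq_div_iff (Char.irr_one_ne_zero θ.2)] at h
    have h0 : (Nat.card E : ℂ) ≠ 0 := Nat.cast_ne_zero.2 Nat.card_pos.ne'
    have hinv : zE⁻¹ = zE := Subtype.ext hz.inv_eq
    rw [hinv] at h
    have h2 : (θ : E → ℂ) zE * (θ : E → ℂ) zE = (d : ℂ) * d := by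
      rw [← hd]; exact mul_left_cancel₀ h0 (by linear_combination -h)
    rcases mul_self_eq_mul_self_iff.1 h2 with h3 | h3
    · exact absurd (congrArg Subtype.val (hθ zE (h3.trans hd.symm))) hz.ne_one
    · exact h3
  have hθmul : ∀ x : E, (θ : E → ℂ) (zE * x) = -(θ : E → ℂ) x := by
    obtain ⟨ω, hω, hmul⟩ := Char.isCharacter_mul_of_norm_eq (g := zE)
      (Char.isCharacter_of_irr θ.2) (by rw [hθz, hd]; simp)
    intro x
    rw [(hmul x).1]
    rw [hθz, hd] at hω
    rw [show ω = -1 from mul_right_cancel₀ (b := (d : ℂ)) (Nat.cast_ne_zero.2 hd0.ne')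
      (by rw [← hω]; ring), neg_one_mul]
  have hθ0 : ∀ x : E, x ∉ Subgroup.center E → (θ : E → ℂ) x = 0 := fun x hx =>
    CharDeep.extraspecial_eq_zero hE (Char.isCharacter_isClassFunction (Char.isCharacter_of_irr θ.2))
      (fun y => if y = 1 then 1 else -1) (fun y hy w => by
        rcases hz.eq_of_mem hy with e | e
        · obtain rfl : y = 1 := Subtype.ext e
          simp
        · obtain rfl : y = zE := Subtype.ext e
          rw [hθmul, if_neg fun h => hz.ne_one (congrArg Subtype.val h), neg_one_mul])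
      hzc (by rw [if_neg fun h => hz.ne_one (congrArg Subtype.val h)]; norm_num) hx
  -- the data
  set C := Subgroup.zpowers z with hC
  let lam : G → ℂ := fun x => if x = 1 then 1 else -1
  have hlamz : lam z = -1 := if_neg hz.ne_one
  let f₀ : G → ℂ := fun x => if hx : x ∈ E then (θ : E → ℂ) ⟨x, hx⟩ else 0
  have hf₀E : ∀ e : E, f₀ e = (θ : E → ℂ) e := fun e => dif_pos e.2
  have hf₀ : IsCharOn E f₀ := by
    unfold IsCharOn
    rw [funext hf₀E]
    exact Char.isCharacter_of_irr θ.2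
  have hf₀1 : f₀ 1 = d := (hf₀E 1).trans hd
  have hf₀C : ∀ x ∈ C, f₀ x = d * lam x := by
    intro x hx
    rcases hz.mem_zpowers_iff.1 hx with rfl | rfl
    · rw [hf₀1, show lam (1 : G) = 1 from if_pos rfl, mul_one]
    · rw [hf₀E zE, hθz, hlamz]; ring
  have hfix : ∀ g : G, ∀ x ∈ C, g * x * g⁻¹ = x := by
    intro g x hx
    rcases hz.mem_zpowers_iff.1 hx with rfl | rfl
    · group
    rcases hz.of_central _ ((inferInstance : E.Normal).conj_mem x hz.mem g) (fun q hq => by
      have h := hz.comm _ ((inferInstance : E.Normal).conj_mem q hq g⁻¹)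
      calc q * (g * x * g⁻¹) = g * (g⁻¹ * q * g⁻¹⁻¹ * x) * g⁻¹ := by group
        _ = g * (x * (g⁻¹ * q * g⁻¹⁻¹)) * g⁻¹ := by rw [h]
        _ = g * x * g⁻¹ * q := by group) with e | e
    · exact absurd (conj_eq_one_iff.1 e) hz.ne_one
    · exact e
  have hCE : C ≤ E := Subgroup.zpowers_le.2 hz.mem
  have hcomm : ∀ a ∈ E, ∀ b ∈ E, ⁅a, b⁆ ∈ C := fun a ha b hb =>
    hz.mem_zpowers_iff.2 (hz.comm_mem ha hb)
  have hlam1 : ∀ x ∈ C, lam x = 1 → x = 1 := fun x _ h => by
    by_contra hx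
    simp only [lam, if_neg hx] at h
    norm_num at h
  have mkS : ∀ T : Subgroup G, T ≤ H → IsPGroup 2 T → Setting E C K T lam := by
    intro T hTH hT
    have hpairmul : ∀ a ∈ E, ∀ b ∈ E, ∀ w ∈ E, ⁅a, b * w⁆ = ⁅a, b⁆ * ⁅a, w⁆ := by
      intro a ha b hb w hw
      rw [show ⁅a, b * w⁆ = ⁅a, b⁆ * (b * ⁅a, w⁆ * b⁻¹) by simp only [commutatorElement_def]; group,
        hfix b _ (hcomm a ha w hw)]
    refine ⟨hCE, fun a ha b hb => ?_, fun x hx => ?_, fun g _ x hx => by rw [hfix g x hx],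
      fun e he => ?_, hcomm, fun e he h => ?_, fun g _ e he => (inferInstance : E.Normal).conj_mem e he g,
      fun g _ x hx => by rw [hfix g x hx]; exact hx, fun t ht k hk => hKn t (hTH ht) k hk,
      fun e he h => ?_, eq_bot_iff.2 (hEH ▸ inf_le_inf_left E hTH), hT, hKodd⟩
    · rcases hz.mem_zpowers_iff.1 ha with rfl | rfl <;>
        rcases hz.mem_zpowers_iff.1 hb with rfl | rfl <;>
          simp [lam, hz.ne_one, hz.sq]
    · rcases hz.mem_zpowers_iff.1 hx with rfl | rfl <;> simp [lam, hz.ne_one]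
    · rw [hC, ← hz.center_eq]
      exact ⟨(⟨e, he⟩ : E) ^ 2, PGroup.special_pow_mem_center hE.1 _, by simp [pow_two]⟩
    · rcases hz.of_central e he (fun q hq => (commutatorElement_eq_one_iff_mul_comm.1
        (hlam1 _ (hcomm e he q hq) (h q hq))).symm) with rfl | rfl
      · exact one_mem _
      · exact Subgroup.mem_zpowers _
    · suffices hcen : ⁅E, K⁆ ≤ Subgroup.centralizer ({e} : Set G) by
        rw [hEK] at hcen
        rcases hz.of_central e he (fun q hq =>
          Subgroup.mem_centralizer_singleton_iff.1 (hcen hq)) with rfl | rfl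
        · exact one_mem _
        · exact Subgroup.mem_zpowers _
      rw [Subgroup.commutator_le]
      intro b hb k hk
      rw [Subgroup.mem_centralizer_singleton_iff, eq_comm, ← commutatorElement_eq_one_iff_mul_comm]
      have hkb : k * b⁻¹ * k⁻¹ ∈ E := (inferInstance : E.Normal).conj_mem _ (inv_mem hb) k
      have he' : k⁻¹ * e * k⁻¹⁻¹ ∈ E := (inferInstance : E.Normal).conj_mem _ he k⁻¹
      have hkey : ⁅e, k * b⁻¹ * k⁻¹⁆ = ⁅e, b⁻¹⁆ := by
        have h1 : k * ⁅k⁻¹ * e * k⁻¹⁻¹, b⁻¹⁆ * k⁻¹ = ⁅e, k * b⁻¹ * k⁻¹⁆ := by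
          simp only [commutatorElement_def]; group
        have hcC : ⁅k⁻¹, e⁆ ∈ C := h k⁻¹ (inv_mem hk)
        rw [← h1, hfix k _ (hcomm _ he' _ (inv_mem hb)),
          show ⁅k⁻¹ * e * k⁻¹⁻¹, b⁻¹⁆ = ⁅⁅k⁻¹, e⁆ * e, b⁻¹⁆ by
            simp only [commutatorElement_def]; group,
          show ⁅⁅k⁻¹, e⁆ * e, b⁻¹⁆ = ⁅k⁻¹, e⁆ * ⁅e, b⁻¹⁆ * ⁅k⁻¹, e⁆⁻¹ * ⁅⁅k⁻¹, e⁆, b⁻¹⁆ by
            simp only [commutatorElement_def]; group]
        have hcomm1 : ⁅⁅k⁻¹, e⁆, b⁻¹⁆ = 1 := by
          rw [commutatorElement_eq_one_iff_mul_comm]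
          have := hfix b⁻¹ _ hcC
          exact (mul_inv_eq_iff_eq_mul.1 this).symm
        rw [hcomm1, mul_one, hfix _ _ (hcomm e he _ (inv_mem hb))]
      rw [show ⁅e, ⁅b, k⁆⁆ = ⁅e, b * (k * b⁻¹ * k⁻¹)⁆ by simp only [commutatorElement_def]; group,
        hpairmul e he b hb _ hkb, hkey, ← hpairmul e he b hb _ (inv_mem hb), mul_inv_cancel,
        commutatorElement_one_right]
  have S₀ := mkS ⊥ bot_le IsPGroup.of_bot
  -- invariance
  have hinv : ∀ (g : G) (e : E), (θ : E → ℂ) ⟨g * e * g⁻¹,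
      (inferInstance : E.Normal).conj_mem (e : G) e.2 g⟩ = (θ : E → ℂ) e := by
    intro g e
    by_cases hx : (e : G) ∈ C
    · exact congrArg (θ : E → ℂ) (Subtype.ext (hfix g _ hx))
    · have hoff : ∀ y : E, (y : G) ∉ C → (θ : E → ℂ) y = 0 := fun y hy => hθ0 y fun hy' =>
        hy (hz.mem_zpowers_iff.2 (hz.eq_of_mem hy'))
      rw [hoff e hx, hoff _ fun h => hx ?_]
      have h2 := hfix g⁻¹ _ h
      rw [show g⁻¹ * (g * (e : G) * g⁻¹) * g⁻¹⁻¹ = e by group] at h2
      rw [h2]; exact h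
  -- the degree
  have hcard : d * d * Nat.card C = Nat.card E := by
    obtain ⟨d₁, f₁, hf₁, hf₁1, -, hcard₁, hf₁C⟩ := S₀.exists_char
    have hi₁ := S₀.irr_on_E hf₁ hf₁1 hcard₁ hf₁C
    by_cases heq : ∀ e : E, f₁ e = (θ : E → ℂ) e
    · have h1 := heq 1
      rw [hd, OneMemClass.coe_one, hf₁1] at h1
      rw [← Nat.cast_inj.1 h1]; exact hcard₁
    exfalso
    have h0 := Char.classInner_irr_ne hi₁ θ.2 fun h => heq fun e => congrFun h e
    have hd₁0 : d₁ ≠ 0 := fun h => by
      rw [h, zero_mul, zero_mul] at hcard₁; exact Nat.card_pos.ne hcard₁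
    rw [Cfsg.classInner, mul_eq_zero] at h0
    have hterm : ∀ e : E, f₁ e * conj ((θ : E → ℂ) e) =
        if (e : G) ∈ C then ((d₁ * d : ℕ) : ℂ) else 0 := by
      intro e
      rw [← hf₀E]
      split_ifs with he
      · rw [hf₁C _ he, hf₀C _ he]
        rcases S₀.lam_val _ he with h | h <;> rw [h] <;> simp
      · rw [S₀.value_eq_zero hf₁ hf₁1 hf₁C e.2 he]; simp
    have h1 := h0.resolve_left (inv_ne_zero Char.card_ne_zero_complex)
    rw [Finset.sum_congr rfl fun e _ => hterm e, ← Finset.sum_filter, Finset.sum_const,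
      nsmul_eq_mul, mul_eq_zero, Nat.cast_eq_zero, Nat.cast_eq_zero] at h1
    rcases h1 with h1 | h1
    · rw [Finset.card_eq_zero] at h1
      exact absurd (Finset.mem_filter.2 ⟨Finset.mem_univ (1 : E), one_mem C⟩)
        (by rw [h1]; exact Finset.notMem_empty _)
    · exact (Nat.mul_ne_zero hd₁0 hd0.ne') h1
  have hEidx : E.index = Nat.card H := by
    rw [← Subgroup.relIndex_top_right, ← hEHtop, Subgroup.relIndex_sup_left,
      ← Subgroup.inf_relIndex_right, hEH, Subgroup.relIndex_bot_left]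
  have hsup : ∀ (p : ℕ) (_ : Fact p.Prime) (Q : Sylow p H),
      E.relIndex (E ⊔ (Q : Subgroup H).map H.subtype) = Nat.card Q ∧
        (E ⊔ (Q : Subgroup H).map H.subtype).index = (Q : Subgroup H).index := by
    intro p _ Q
    have hr : E.relIndex (E ⊔ (Q : Subgroup H).map H.subtype) = Nat.card Q := by
      rw [Subgroup.relIndex_sup_left, ← Subgroup.inf_relIndex_right,
        show E ⊓ (Q : Subgroup H).map H.subtype = ⊥ from
          eq_bot_iff.2 (hEH ▸ inf_le_inf_left E (map_subtype_le _)), Subgroup.relIndex_bot_left,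
        Subgroup.card_map_of_injective H.subtype_injective]
    refine ⟨hr, ?_⟩
    have h1 := Subgroup.relIndex_mul_index (le_sup_left : E ≤ E ⊔ (Q : Subgroup H).map H.subtype)
    rw [hr, hEidx, ← (Q : Subgroup H).card_mul_index] at h1
    exact Nat.eq_of_mul_eq_mul_left Nat.card_pos h1
  obtain ⟨χ, hχ, hres⟩ := S0888.result E (θ : E → ℂ) θ.2 hinv (fun p hp => by
    haveI : Fact p.Prime := ⟨hp⟩
    obtain ⟨Q⟩ : Nonempty (Sylow p H) := inferInstance
    obtain ⟨hr, hi⟩ := hsup p inferInstance Q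
    obtain ⟨k, hk⟩ := IsPGroup.iff_card.1 Q.isPGroup'
    set P := E ⊔ (Q : Subgroup H).map H.subtype
    have hcop : P.index.Coprime p := by
      rw [hi]
      exact (hp.coprime_iff_not_dvd.2 Q.not_dvd_index).symm
    by_cases hp2 : p = 2
    · subst hp2
      have S := mkS ((Q : Subgroup H).map H.subtype) (map_subtype_le _) (Q.isPGroup'.map _)
      obtain ⟨d', f, hf, hf1, hd', hcard', hfC⟩ := S.good
      have hdd : d' = d :=
        Nat.mul_self_inj.1 (Nat.eq_of_mul_eq_mul_right Nat.card_pos (hcard'.trans hcard.symm))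
      subst hdd
      refine ⟨P, le_sup_left, fun x => f x, hcop, ⟨k, hr.trans hk⟩,
        S.irr_sup hf hf1 hcard' hfC, fun n => ?_⟩
      rw [← hf₀E]
      by_cases hn : (n : G) ∈ C
      · show f n = _
        rw [hfC _ hn, hf₀C _ hn]
      · show f n = _
        rw [S.value_eq_zero (hf.mono le_sup_left) hf1 hfC n.2 hn,
          S.value_eq_zero hf₀ hf₀1 hf₀C n.2 hn]
    · haveI : Fintype P := Fintype.ofFinite P
      have hle : E ≤ P := le_sup_left
      obtain ⟨m, hm⟩ := IsPGroup.iff_card.1 hE.1.1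
      have hNcard : (Nat.card (E.subgroupOf P)).Coprime p := by
        rw [Nat.card_congr (subgroupOfEquivOfLe hle).toEquiv, hm]
        exact Nat.Coprime.pow_left m ((Nat.coprime_primes Nat.prime_two hp).2 (Ne.symm hp2))
      obtain ⟨η, hη, hηres⟩ := Char9.exists_extension (p := p) (E.subgroupOf P) hNcard
        (k := k) (hr.trans hk) (θ := fun n => (θ : E → ℂ) ⟨((n : P) : G), n.2⟩)
        (Char.isIrrCharacter_comp θ.2 (subgroupOfEquivOfLe hle).toMonoidHom
          (subgroupOfEquivOfLe hle).surjective)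
        (fun g => (CharInd.mem_conjStab _).2 (funext fun n =>
          hinv g ⟨((n : P) : G), n.2⟩))
      refine ⟨P, hle, η, hcop, ⟨k, hr.trans hk⟩, hη, fun n => ?_⟩
      exact hηres ⟨⟨n, hle n.2⟩, n.2⟩)
  exact ⟨⟨χ, hχ⟩, hres⟩

end Cfsg.Agent.S4759
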