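import Cfsg.Statements.S4762
import Cfsg.Agent.BlocksChar.Codegree
import Cfsg.Agent.Char.Linear
import Cfsg.Agent.Char.Product
import Cfsg.Agent.Char.Nilpotent
import Cfsg.Agent.CharInd.Clifford
import Cfsg.Agent.CharInd.GenChar
import Cfsg.Agent.PGroup.Extraspecial
import Cfsg.Agent.PGroup.Frattini

set_option autoImplicit false
open Cfsg
open scoped ComplexConjugate

namespace Cfsg.Agent.S4762

universe u

theorem central_ne_zero {G : Type u} [Group G] [Fintype G] (χ : IrrCharacter G) {z : G}
    (hz : z ∈ Subgroup.center G) :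
    (χ : G → ℂ) z⁻¹ * (χ : G → ℂ) z = (χ : G → ℂ) 1 ^ 2 := by
  have h := BlocksChar.sum_conj_mul χ.2 z⁻¹ z
  have hg : ∀ g : G, g * z * g⁻¹ = z := fun g => by
    rw [Subgroup.mem_center_iff.1 hz g, mul_inv_cancel_right]
  simp only [hg, inv_mul_cancel, Finset.sum_const, Finset.card_univ, nsmul_eq_mul,
    ← Nat.card_eq_fintype_card] at h
  rw [eq_div_iff (Char.irr_one_ne_zero χ.2)] at h
  have h0 : (Nat.card G : ℂ) ≠ 0 := Nat.cast_ne_zero.2 Nat.card_pos.ne'
  exact mul_left_cancel₀ h0 (by linear_combination -h)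

/-- A nilpotent group with exactly one `p`-singular character is a `p`-group. -/
theorem isPGroup_of_one {G : Type u} [Group G] [Finite G] [Group.IsNilpotent G] (p : ℕ)
    [Fact p.Prime] (h1 : Nat.card {χ : IrrCharacter G // p ∣ charDegree (χ : G → ℂ)} = 1) :
    IsPGroup p G := by
  classical
  have hp : p.Prime := Fact.out
  haveI hs := (Nat.card_eq_one_iff_unique.1 h1).1
  obtain ⟨⟨χ, hχp⟩⟩ := (Nat.card_eq_one_iff_unique.1 h1).2
  obtain ⟨A, B, hB, hcard⟩ := Char.exists_pRegular_subgroup (E := G) p
  obtain ⟨a, hA⟩ := IsPGroup.iff_card.1 A.isPGroup'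
  suffices hB1 : Nat.card B = 1 by
    rw [hB1, mul_one, hA] at hcard
    exact IsPGroup.of_card hcard.symm
  by_contra hB1
  have hcopB : ∀ a : (A : Subgroup G), ∀ b : B, Commute (a : G) (b : G) := fun a b => by
    obtain ⟨i, hi⟩ := IsPGroup.iff_orderOf.1 A.isPGroup' a
    refine Char.nilpotent_commute_of_coprime ?_
    rw [Subgroup.orderOf_coe, hi]
    exact Nat.Coprime.pow_left i (hp.coprime_iff_not_dvd.2 ((hB _).1 b.2))
  let f : ↥(A : Subgroup G) × B →* G :=
    { toFun := fun x => (x.1 : G) * (x.2 : G)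
      map_one' := by simp
      map_mul' := fun x y => by
        simp only [Prod.fst_mul, Prod.snd_mul, Subgroup.coe_mul]
        calc (x.1 : G) * y.1 * ((x.2 : G) * y.2) = x.1 * ((y.1 : G) * x.2) * y.2 := by group
          _ = x.1 * ((x.2 : G) * y.1) * y.2 := by rw [(hcopB y.1 x.2).eq]
          _ = _ := by group }
  have hinj : Function.Injective f := by
    rw [injective_iff_map_eq_one]
    rintro ⟨x, y⟩ h
    have hxy : (x : G) = (y : G)⁻¹ := eq_inv_of_mul_eq_one_left h
    obtain ⟨i, hi⟩ := IsPGroup.iff_orderOf.1 A.isPGroup' x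
    have hy := (hB _).1 y.2
    rw [← orderOf_inv, ← hxy, Subgroup.orderOf_coe, hi] at hy
    have hx1 : x = 1 := orderOf_eq_one_iff.1 (by
      rcases Nat.eq_zero_or_pos i with h0 | h0
      · rw [hi, h0, pow_zero]
      · exact absurd (dvd_pow_self p h0.ne') hy)
    subst hx1
    exact Prod.ext rfl (Subtype.ext (inv_eq_one.1 hxy.symm))
  have hbij : Function.Bijective f :=
    (Nat.bijective_iff_injective_and_card f).2 ⟨hinj, by rw [Nat.card_prod, hcard]⟩
  let e := MulEquiv.ofBijective f hbij
  obtain ⟨α, β, hαβ⟩ := Char.exists_irr_prodMul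
    (CharInd.irr_comp_surjective f hbij.2 χ.2)
  have hval : ∀ x : ↥(A : Subgroup G) × B,
      (χ : G → ℂ) (f x) = (α : ↥(A : Subgroup G) → ℂ) x.1 * (β : B → ℂ) x.2 :=
    fun x => congrFun hαβ x
  have hdeg : charDegree (χ : G → ℂ) =
      charDegree (α : ↥(A : Subgroup G) → ℂ) * charDegree (β : B → ℂ) := by
    have h := hval 1
    rw [map_one, Prod.fst_one, Prod.snd_one, ← BlocksChar.charDegree_eq,
      ← BlocksChar.charDegree_eq, ← BlocksChar.charDegree_eq] at h
    exact_mod_cast h
  have hαp : p ∣ charDegree (α : ↥(A : Subgroup G) → ℂ) := by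
    rw [hdeg] at hχp
    refine (hp.dvd_mul.1 hχp).resolve_right fun h => ?_
    obtain ⟨b, hb⟩ := exists_prime_orderOf_dvd_card' p (h.trans (BlocksChar.degree_dvd_card β))
    exact (hB _).1 b.2 (by rw [Subgroup.orderOf_coe, hb])
  -- every irreducible character of the `p'`-part gives a `p`-singular character
  let Φ : IrrCharacter B → {χ : IrrCharacter G // p ∣ charDegree (χ : G → ℂ)} := fun γ =>
    ⟨⟨fun g => (α : ↥(A : Subgroup G) → ℂ) (e.symm g).1 * (γ : B → ℂ) (e.symm g).2,
      CharInd.irr_comp_surjective e.symm.toMonoidHom e.symm.surjective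
        (Char.isIrrCharacter_prodMul α.2 γ.2)⟩, by
      have h : ((α : ↥(A : Subgroup G) → ℂ) (e.symm 1).1 * (γ : B → ℂ) (e.symm 1).2) =
          ((charDegree (α : ↥(A : Subgroup G) → ℂ) * charDegree (γ : B → ℂ) : ℕ) : ℂ) := by
        rw [map_one, Prod.fst_one, Prod.snd_one, Nat.cast_mul, BlocksChar.charDegree_eq,
          BlocksChar.charDegree_eq]
      change p ∣ ⌊((α : ↥(A : Subgroup G) → ℂ) (e.symm 1).1 * (γ : B → ℂ) (e.symm 1).2).re⌋₊
      rw [h, Complex.natCast_re, Nat.floor_natCast]
      exact dvd_mul_of_dvd_left hαp _⟩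
  have hΦ : Function.Injective Φ := by
    intro γ γ' h
    refine Subtype.ext (funext fun b => ?_)
    have h' := congrFun (congrArg (fun z => ((z.1 : IrrCharacter G) : G → ℂ)) h) (e (1, b))
    simp only [Φ, MulEquiv.symm_apply_apply] at h'
    exact mul_left_cancel₀ (Char.irr_one_ne_zero α.2) h'
  haveI : Finite (IrrCharacter B) := CharInd.finite_irrCharacter
  letI := Fintype.ofFinite (IrrCharacter B)
  haveI : Subsingleton (IrrCharacter B) := hΦ.subsingleton
  letI := Fintype.ofFinite B
  have hsum := BlocksChar.sum_charDegree_sq (G := B)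
  rw [Fintype.sum_subsingleton _ (Char.trivialIrr B)] at hsum
  exact hB1 (by rw [← hsum]; simp [Char.trivialIrr, charDegree])

/-- Let p be a prime and G a finite nilpotent group. Then G has exactly one irreducible complex character of degree divisible by p if and only if p = 2 and G is an extraspecial 2-group. -/
theorem result {G : Type*} [Group G] [Finite G] [Group.IsNilpotent G] (p : ℕ) [Fact p.Prime] : Nat.card {χ : Cfsg.IrrCharacter G // p ∣ Cfsg.charDegree (χ : G → ℂ)} = 1 ↔ (p = 2 ∧ Cfsg.IsExtraspecial 2 G) := by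
  classical
  letI := Fintype.ofFinite G
  haveI : Finite (IrrCharacter G) := CharInd.finite_irrCharacter
  letI := Fintype.ofFinite (IrrCharacter G)
  have hp : p.Prime := Fact.out
  have hlin : (Finset.univ.filter fun χ : IrrCharacter G => charDegree (χ : G → ℂ) = 1).card =
      (commutator G).index := by
    rw [← Char.card_linear_irr, Nat.card_eq_fintype_card, Fintype.card_subtype]
    refine congrArg Finset.card (Finset.filter_congr fun χ _ => ?_)
    rw [← BlocksChar.charDegree_eq]
    exact_mod_cast Iff.rfl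
  have hsplit : ∀ (hpG : IsPGroup p G), (commutator G).index +
      ∑ χ ∈ Finset.univ.filter (fun χ : IrrCharacter G => p ∣ charDegree (χ : G → ℂ)),
        charDegree (χ : G → ℂ) ^ 2 = Nat.card G := by
    intro hpG
    obtain ⟨n, hn⟩ := IsPGroup.iff_card.1 hpG
    rw [← BlocksChar.sum_charDegree_sq (G := G), ← hlin,
      ← Finset.sum_filter_add_sum_filter_not Finset.univ
        (fun χ : IrrCharacter G => charDegree (χ : G → ℂ) = 1)]
    congr 1
    · rw [Finset.card_eq_sum_ones]
      exact Finset.sum_congr rfl fun χ hχ => by rw [(Finset.mem_filter.1 hχ).2, one_pow]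
    · refine Finset.sum_congr (Finset.filter_congr fun χ _ => ?_) fun _ _ => rfl
      obtain ⟨j, -, hj⟩ := (Nat.dvd_prime_pow hp).1 (hn ▸ BlocksChar.degree_dvd_card χ)
      rw [hj]
      rcases Nat.eq_zero_or_pos j with h0 | h0
      · simp [h0, hp.one_lt.ne']
      · simp [hp.ne_one, h0.ne', dvd_pow_self p h0.ne']
  constructor
  · intro h1
    have hpG := isPGroup_of_one p h1
    haveI hs := (Nat.card_eq_one_iff_unique.1 h1).1
    obtain ⟨⟨χ, hχp⟩⟩ := (Nat.card_eq_one_iff_unique.1 h1).2
    have hsingle : Finset.univ.filter (fun χ : IrrCharacter G => p ∣ charDegree (χ : G → ℂ)) =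
        {χ} := by
      ext ψ
      simp only [Finset.mem_filter, Finset.mem_univ, true_and, Finset.mem_singleton]
      exact ⟨fun h => congrArg Subtype.val (Subsingleton.elim
        (⟨ψ, h⟩ : {χ : IrrCharacter G // p ∣ charDegree (χ : G → ℂ)}) ⟨χ, hχp⟩),
        fun h => h ▸ hχp⟩
    have hsq := hsplit hpG
    rw [hsingle, Finset.sum_singleton] at hsq
    obtain ⟨c, hc⟩ := IsPGroup.iff_card.1 hpG
    obtain ⟨b, -, hb⟩ := (Nat.dvd_prime_pow hp).1 (hc ▸ (commutator G).index_dvd_card)
    obtain ⟨a, -, ha⟩ := (Nat.dvd_prime_pow hp).1 (hc ▸ BlocksChar.degree_dvd_card χ)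
    rw [hb, ha, hc, ← pow_mul] at hsq
    have key : ∀ i j k : ℕ, i ≤ j → p ^ i + p ^ j = p ^ k → p = 2 ∧ i = j ∧ k = i + 1 := by
      intro i j k hij h
      obtain ⟨d, rfl⟩ := Nat.exists_eq_add_of_le hij
      have hik : i ≤ k := by
        rw [← Nat.pow_le_pow_iff_right hp.one_lt]; omega
      obtain ⟨e, rfl⟩ := Nat.exists_eq_add_of_le hik
      rw [pow_add, pow_add, ← mul_one_add] at h
      have h' := Nat.eq_of_mul_eq_mul_left (pow_pos hp.pos i) h
      have he : e ≠ 0 := by
        intro he
        rw [he, pow_zero] at h'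
        have := pow_pos hp.pos d
        omega
      have hd : d = 0 := by
        by_contra hd
        have h1 : p ∣ 1 + p ^ d := h' ▸ dvd_pow_self p he
        exact hp.ne_one (Nat.dvd_one.1 ((Nat.dvd_add_left (dvd_pow_self p hd)).1 h1))
      rw [hd, pow_zero] at h'
      have hp2 : p = 2 := by
        have h3 : p ∣ 2 := by
          have h4 := dvd_pow_self p he
          rw [← h'] at h4
          exact h4
        exact le_antisymm (Nat.le_of_dvd two_pos h3) hp.two_le
      subst hp2
      have he1 : (2 : ℕ) ^ e = 2 ^ 1 := by rw [← h']; rfl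
      exact ⟨rfl, hd ▸ rfl, by rw [Nat.pow_right_injective le_rfl he1]⟩
    obtain ⟨hp2, hba, hcb⟩ : p = 2 ∧ b = a * 2 ∧ c = b + 1 := by
      rcases le_total b (a * 2) with h | h
      · exact key _ _ _ h hsq
      · obtain ⟨h1, h2, h3⟩ := key _ _ _ h (by rw [add_comm]; exact hsq)
        exact ⟨h1, h2.symm, by omega⟩
    subst hp2
    have hcomm : Nat.card (commutator G) = 2 := by
      have h2 := Subgroup.card_mul_index (commutator G)
      rw [hb, hc, hcb, pow_succ'] at h2
      exact Nat.eq_of_mul_eq_mul_right (pow_pos two_pos b) h2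
    have hle : commutator G ≤ Subgroup.center G := by
      intro w hw
      rw [Subgroup.mem_center_iff]
      intro g
      by_cases hw1 : w = 1
      · simp [hw1]
      have hmem : g * w * g⁻¹ ∈ commutator G := (inferInstance : (commutator G).Normal).conj_mem w hw g
      obtain ⟨s, t, hst, huniv⟩ := Nat.card_eq_two_iff.1 hcomm
      have hall : ∀ u : commutator G, u = 1 ∨ u = ⟨w, hw⟩ := fun u => by
        have hu : u ∈ ({s, t} : Set (commutator G)) := huniv ▸ Set.mem_univ u
        have h1 : (1 : commutator G) ∈ ({s, t} : Set (commutator G)) := huniv ▸ Set.mem_univ _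
        have hw' : (⟨w, hw⟩ : commutator G) ∈ ({s, t} : Set (commutator G)) := huniv ▸ Set.mem_univ _
        have hne : (⟨w, hw⟩ : commutator G) ≠ 1 := fun h => hw1 (congrArg Subtype.val h)
        simp only [Set.mem_insert_iff, Set.mem_singleton_iff] at hu h1 hw'
        grind
      rcases hall ⟨_, hmem⟩ with h | h
      · exfalso
        have h' : g * w * g⁻¹ = 1 := congrArg Subtype.val h
        exact hw1 (conj_eq_one_iff.1 h')
      · exact mul_inv_eq_iff_eq_mul.1 (congrArg Subtype.val h)
    have hZ : Subgroup.center G = commutator G := by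
      refine le_antisymm (fun z hz => ?_) hle
      by_contra hzc
      have hne : (Abelianization.of z) ≠ 1 := fun h =>
        hzc (by rwa [← MonoidHom.mem_ker, Abelianization.ker_of] at h)
      obtain ⟨φ, hφ⟩ := CommGroup.exists_apply_ne_one_of_hasEnoughRootsOfUnity
        (Abelianization G) ℂ hne
      let lam : G →* ℂˣ := φ.comp Abelianization.of
      have hχ' := Char.isIrrCharacter_mul_monoidHom χ.2 lam
      have heq : (⟨_, hχ'⟩ : IrrCharacter G) = χ := by
        have h : (⟨_, hχ'⟩ : IrrCharacter G) ∈ Finset.univ.filter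
            (fun χ : IrrCharacter G => 2 ∣ charDegree (χ : G → ℂ)) := by
          refine Finset.mem_filter.2 ⟨Finset.mem_univ _, ?_⟩
          simpa [charDegree] using hχp
        rw [hsingle, Finset.mem_singleton] at h
        exact h
      have h0 : (χ : G → ℂ) z = 0 := by
        have h := congrFun (congrArg Subtype.val heq) z
        simp only at h
        by_contra hne0
        refine hφ (Units.ext ?_)
        exact (mul_eq_right₀ hne0).1 h
      have h := central_ne_zero χ hz
      rw [h0, mul_zero] at h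
      exact Char.irr_one_ne_zero χ.2 (pow_eq_zero_iff two_ne_zero |>.1 h.symm)
    refine ⟨rfl, ⟨hpG, ?_, hZ.symm⟩, by rw [hZ, hcomm]⟩
    refine le_antisymm ?_ ?_
    · rw [PGroup.frattini_eq_closure_sq hpG, Subgroup.closure_le]
      rintro _ ⟨x, rfl⟩
      have hc : ∀ y : G, x * x * y = y * (x * x) := by
        intro y
        have hw : x * y * x⁻¹ * y⁻¹ ∈ commutator G :=
          Subgroup.commutator_mem_commutator (Subgroup.mem_top x) (Subgroup.mem_top y)
        set w := x * y * x⁻¹ * y⁻¹ with hwdef
        have hwc := Subgroup.mem_center_iff.1 (hle hw)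
        have hww : w * w = 1 := by
          have h := pow_card_eq_one' (x := (⟨w, hw⟩ : commutator G))
          rw [hcomm, pow_two] at h
          exact congrArg Subtype.val h
        have h1 : x * y = w * (y * x) := by rw [hwdef]; group
        clear_value w
        calc x * x * y = x * (x * y) := mul_assoc _ _ _
          _ = x * w * (y * x) := by rw [h1, mul_assoc]
          _ = w * x * (y * x) := by rw [hwc x]
          _ = w * (x * y) * x := by simp only [mul_assoc]
          _ = (w * w) * (y * (x * x)) := by rw [h1]; simp only [mul_assoc]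
          _ = y * (x * x) := by rw [hww, one_mul]
      exact Subgroup.mem_center_iff.2 fun y => by simpa [pow_two] using (hc y).symm
    · rw [hZ, PGroup.frattini_eq_sup hpG]
      exact le_sup_left
  · rintro ⟨rfl, hE⟩
    obtain ⟨n, hn1, hn⟩ := PGroup.extraspecial_exists_card hE
    have hZ := hE.1.2.2
    have hidx : (commutator G).index = 2 ^ (2 * n) := by
      have h := Subgroup.card_mul_index (commutator G)
      rw [hZ, hE.2, hn, pow_succ'] at h
      rw [hZ]
      exact Nat.eq_of_mul_eq_mul_left two_pos h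
    have hcent : ∀ g : G, g ∉ Subgroup.center G →
        Nat.card (Subgroup.centralizer ({g} : Set G)) = 2 ^ (2 * n) := by
      intro g hg
      have h1 := PGroup.extraspecial_index_centralizer_le hE g
      have h2 : (Subgroup.centralizer ({g} : Set G)).index ≠ 1 := fun h => hg (by
        rw [Subgroup.index_eq_one] at h
        exact Subgroup.mem_center_iff.2 fun y =>
          (Subgroup.mem_centralizer_singleton_iff.1 (h ▸ Subgroup.mem_top y)))
      have h3 : (Subgroup.centralizer ({g} : Set G)).index ≠ 0 := Subgroup.index_ne_zero_of_finite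
      have h4 := Subgroup.card_mul_index (Subgroup.centralizer ({g} : Set G))
      rw [hn, show (Subgroup.centralizer ({g} : Set G)).index = 2 by omega, pow_succ] at h4
      exact Nat.eq_of_mul_eq_mul_right two_pos h4
    have hvan : ∀ χ : IrrCharacter G, charDegree (χ : G → ℂ) ≠ 1 →
        ∀ g : G, g ∉ Subgroup.center G → (χ : G → ℂ) g = 0 := by
      intro χ hχ g hg
      have h := Char.sum_irr_mul_conj g g
      rw [if_pos (IsConj.refl g), hcent g hg,
        ← Finset.sum_filter_add_sum_filter_not Finset.univ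
          (fun χ : IrrCharacter G => charDegree (χ : G → ℂ) = 1)] at h
      have hone : ∀ ψ ∈ Finset.univ.filter (fun χ : IrrCharacter G => charDegree (χ : G → ℂ) = 1),
          (ψ : G → ℂ) g * conj ((ψ : G → ℂ) g) = 1 := by
        intro ψ hψ
        have h1 : (ψ : G → ℂ) 1 = 1 := by
          rw [← BlocksChar.charDegree_eq, (Finset.mem_filter.1 hψ).2, Nat.cast_one]
        obtain ⟨f, hf⟩ := Char.exists_monoidHom_of_degree_one (Char.isCharacter_of_irr ψ.2) h1
        rw [← Char.irr_inv ψ.2, hf, hf, ← Units.val_mul, ← map_mul, mul_inv_cancel, map_one,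
          Units.val_one]
      rw [Finset.sum_congr rfl hone, Finset.sum_const, nsmul_eq_mul, mul_one, hlin, hidx,
        add_eq_left] at h
      have h' : ∑ ψ ∈ Finset.univ.filter (fun χ : IrrCharacter G => ¬ charDegree (χ : G → ℂ) = 1),
          Complex.normSq ((ψ : G → ℂ) g) = 0 := by
        simp only [Complex.mul_conj] at h
        exact_mod_cast h
      exact Complex.normSq_eq_zero.1 ((Finset.sum_eq_zero_iff_of_nonneg
        fun ψ _ => Complex.normSq_nonneg _).1 h' χ (Finset.mem_filter.2 ⟨Finset.mem_univ _, hχ⟩))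
    have hd : ∀ χ : IrrCharacter G, 2 ∣ charDegree (χ : G → ℂ) →
        charDegree (χ : G → ℂ) ^ 2 = 2 ^ (2 * n) := by
      intro χ hχ
      have hne : charDegree (χ : G → ℂ) ≠ 1 := fun h => by rw [h] at hχ; omega
      have h := BlocksChar.sum_mul_inv χ.2 (1 : G)
      rw [mul_div_assoc, div_self (Char.irr_one_ne_zero χ.2), mul_one,
        ← Finset.sum_subset (Finset.subset_univ (Finset.univ.filter (· ∈ Subgroup.center G)))
          (fun a _ ha => by
            rw [one_mul, hvan χ hne a (by simpa using ha), mul_zero]),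
        Finset.sum_congr rfl (g := fun _ => (χ : G → ℂ) 1 ^ 2) (fun a ha => by
          rw [one_mul]; exact central_ne_zero χ (Finset.mem_filter.1 ha).2),
        Finset.sum_const, nsmul_eq_mul, ← Fintype.card_subtype, ← Nat.card_eq_fintype_card, hE.2,
        hn, ← BlocksChar.charDegree_eq] at h
      have h' : 2 * charDegree (χ : G → ℂ) ^ 2 = 2 ^ (2 * n + 1) := by exact_mod_cast h
      rw [pow_succ' 2 (2 * n)] at h'
      exact Nat.eq_of_mul_eq_mul_left two_pos h'
    have hsum := hsplit hE.1.1
    rw [hidx, hn, Finset.sum_congr rfl (fun χ hχ => hd χ (Finset.mem_filter.1 hχ).2),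
      Finset.sum_const, smul_eq_mul, pow_succ', two_mul (2 ^ (2 * n)), add_right_inj] at hsum
    rw [Nat.card_eq_fintype_card, Fintype.card_subtype]
    exact Nat.eq_of_mul_eq_mul_right (pow_pos two_pos (2 * n)) (hsum.trans (one_mul _).symm)

end Cfsg.Agent.S4762
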