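import Cfsg.Statements.S4763
import Cfsg.Agent.Char9.UniqueSingular

set_option autoImplicit false
open Cfsg

namespace Cfsg.Agent.S4763

/-- Let p be a prime and G a finite group that is not nilpotent and has a normal p-complement (a normal subgroup of order prime to p and index a power of p). If G has exactly one irreducible complex character of degree divisible by p, then G has exactly one conjugacy class whose size is divisible by p. -/
theorem result {G : Type*} [Group G] [Finite G] (p : ℕ) [Fact p.Prime] (hnil : ¬ Group.IsNilpotent G) (N : Subgroup G) [N.Normal] (hN : (Nat.card N).Coprime p) (hidx : ∃ k : ℕ, N.index = p ^ k) (hone : Nat.card {χ : Cfsg.IrrCharacter G // p ∣ Cfsg.charDegree (χ : G → ℂ)} = 1) : Nat.card {C : ConjClasses G // p ∣ Nat.card C.carrier} = 1 := by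
  haveI : Fintype G := Fintype.ofFinite G
  obtain ⟨k, hk⟩ := hidx
  exact Cfsg.Agent.Char9.unique_class N hN hk hone hnil

end Cfsg.Agent.S4763
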