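import Cfsg.Statements.S4765
import Cfsg.Agent.Char9.SLTwoSteinberg
import Cfsg.Agent.Char.Virtual

set_option autoImplicit false
set_option linter.unusedSectionVars false
set_option linter.style.haveILetI false
open Cfsg

namespace Cfsg.Agent.S4765

open Matrix Module Cfsg.Agent.Char9.SLTwo
open scoped MatrixGroups Classical

universe u

variable {F : Type u} [Field F] [Fintype F]

local notation "L2" => Matrix.ProjectiveSpecialLinearGroup (Fin 2) F
local notation "pr" => (Linear.Classes.proj : SL(2, F) →* L2)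

theorem pr_dg_neg_one : pr (dg (-1)) = 1 := by
  refine Linear.Classes.proj_eq_one_iff.2 fun h => h (-1) ?_
  ext i j; fin_cases i <;> fin_cases j <;> simp

/-- The upper triangular matrices. -/
def upper : Subgroup SL(2, F) where
  carrier := {g | g 1 0 = 0}
  one_mem' := by simp
  mul_mem' := fun {a b} ha hb => by
    simp only [Set.mem_ofPred_eq] at ha hb ⊢
    simp [Matrix.mul_apply, Fin.sum_univ_two, ha, hb]
  inv_mem' := fun {a} ha => by
    simp only [Set.mem_ofPred_eq] at ha ⊢
    simp [Matrix.SpecialLinearGroup.coe_inv, Matrix.adjugate_fin_two, ha]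

theorem mem_upper {g : SL(2, F)} : g ∈ upper ↔ g 1 0 = 0 := Iff.rfl

variable [Fintype (Matrix.ProjectiveSpecialLinearGroup (Fin 2) F)]

theorem card_le : Nat.card L2 ≤ (Fintype.card F + 1) * Nat.card (upper.map pr) := by
  let f : Option F × (upper.map pr : Subgroup L2) → L2 :=
    fun a => a.1.elim (a.2 : L2) fun x => pr (up x * wy) * (a.2 : L2)
  have hf : Function.Surjective f := by
    intro y
    obtain ⟨g, rfl⟩ := Linear.Classes.proj_surjective y
    by_cases h : g 1 0 = 0
    · exact ⟨(none, ⟨_, g, h, rfl⟩), rfl⟩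
    · refine ⟨(some (g 0 0 / g 1 0),
        ⟨_, dg (Units.mk0 _ h) * up (g 1 1 / g 1 0), ?_, rfl⟩), ?_⟩
      · show _ = _
        simp [Matrix.mul_apply, Fin.sum_univ_two]
      · show pr (up (g 0 0 / g 1 0) * wy) * pr _ = pr g
        rw [← map_mul]
        conv_rhs => rw [bruhat g h]
        simp only [mul_assoc]
  refine (Nat.card_le_card_of_surjective f hf).trans (le_of_eq ?_)
  rw [Nat.card_prod, Nat.card_eq_fintype_card, Fintype.card_option]

/-- A degree divisible by `p` forces the Steinberg character. -/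
theorem eq_steinberg {p : ℕ} (hp : p.Prime) [CharP F p] (χ : Cfsg.IrrCharacter L2)
    (hd : p ∣ Cfsg.charDegree (χ : L2 → ℂ)) :
    Cfsg.charDegree (χ : L2 → ℂ) = Fintype.card F ∧
      ∀ g : SL(2, F), (χ : L2 → ℂ) (pr g) = steinberg g := by
  obtain ⟨n, ρ, hρ, hc⟩ := χ.2
  have hn : Cfsg.charDegree (χ : L2 → ℂ) = finrank ℂ (Fin n → ℂ) := by
    rw [Cfsg.charDegree, ← hc, Representation.char_one, Complex.natCast_re, Nat.floor_natCast]
  rw [hn] at hd ⊢
  have hcen : (ρ.comp pr : Representation ℂ SL(2, F) (Fin n → ℂ)) (dg (-1)) = 1 := by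
    rw [MonoidHom.comp_apply, pr_dg_neg_one, map_one]
  haveI : Nontrivial (AddChar F ℂ) :=
    Fintype.one_lt_card_iff_nontrivial.1 (by rw [AddChar.card_eq]; exact Fintype.one_lt_card)
  obtain ⟨ψ, hψ⟩ := exists_ne (1 : AddChar F ℂ)
  obtain ⟨h1, h2⟩ := steinberg_of_dvd (ρ.comp pr : Representation ℂ SL(2, F) (Fin n → ℂ)) ψ
    (AddChar.IsPrimitive.of_ne_one hψ) hcen
    ((Char.isIrreducible_comp_iff ρ pr Linear.Classes.proj_surjective).2 hρ) hp hd
  exact ⟨h1, fun g => by rw [← hc]; exact h2 g⟩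

/-- There is a character of degree `q`. -/
theorem exists_degree_card :
    ∃ χ : Cfsg.IrrCharacter L2, Cfsg.charDegree (χ : L2 → ℂ) = Fintype.card F := by
  set B := (upper.map pr : Subgroup L2) with hB
  set m : Cfsg.IrrCharacter L2 → ℕ := fun χ =>
    finrank ℂ (Representation.invariants (χ.2.choose_spec.choose.comp B.subtype))
  have hdeg : ∀ χ : Cfsg.IrrCharacter L2, (χ : L2 → ℂ) 1 = (χ.2.choose : ℂ) := fun χ => by
    conv_lhs => rw [← χ.2.choose_spec.choose_spec.2]
    rw [Representation.char_one, Module.finrank_fin_fun]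
  have hsum : ∀ χ : Cfsg.IrrCharacter L2,
      ∑ b : B, (χ : L2 → ℂ) b = (Nat.card B : ℂ) * (m χ : ℂ) := by
    intro χ
    haveI : Invertible (Nat.card B : ℂ) :=
      invertibleOfNonzero (Nat.cast_ne_zero.2 Nat.card_pos.ne')
    have h := Representation.card_inv_mul_sum_char_eq_finrank
      (χ.2.choose_spec.choose.comp B.subtype :
        Representation ℂ B (Fin χ.2.choose → ℂ))
    rw [← h, ← mul_assoc, mul_inv_cancel₀ (Nat.cast_ne_zero.2 Nat.card_pos.ne'), one_mul]
    refine Finset.sum_congr rfl fun b _ => ?_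
    conv_lhs => rw [← χ.2.choose_spec.choose_spec.2]
    rfl
  have htot : Nat.card L2 = ∑ χ : Cfsg.IrrCharacter L2, χ.2.choose * (Nat.card B * m χ) := by
    have h1 : ∀ χ : Cfsg.IrrCharacter L2,
        (χ : L2 → ℂ) 1 * ((Nat.card B : ℂ) * (m χ : ℂ)) =
          ∑ b : B, (χ : L2 → ℂ) 1 * (χ : L2 → ℂ) b := fun χ => by
      rw [← hsum χ, Finset.mul_sum]
    have h2 : ∑ χ : Cfsg.IrrCharacter L2, (χ : L2 → ℂ) 1 * ((Nat.card B : ℂ) * (m χ : ℂ)) =
        (Nat.card L2 : ℂ) := by
      rw [Finset.sum_congr rfl fun χ _ => h1 χ, Finset.sum_comm, Finset.sum_eq_single 1]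
      · rw [Char.sum_irr_degree_mul, if_pos (OneMemClass.coe_one B)]
      · intro b _ hb
        rw [Char.sum_irr_degree_mul, if_neg fun e => hb (Subtype.ext (e.trans (OneMemClass.coe_one B).symm))]
      · simp
    simp only [hdeg] at h2
    exact_mod_cast h2.symm
  obtain ⟨one, hone⟩ : ∃ χ : Cfsg.IrrCharacter L2, (χ : L2 → ℂ) = fun _ => 1 :=
    ⟨⟨fun _ => 1, Char.isIrrCharacter_const_one⟩, rfl⟩
  have hone1 : one.2.choose * (Nat.card B * m one) = Nat.card B := by
    have h1 : (one.2.choose : ℂ) = 1 := by rw [← hdeg one, hone]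
    have h2 := hsum one
    rw [hone, Finset.sum_const, Finset.card_univ, ← Nat.card_eq_fintype_card, nsmul_one] at h2
    have h3 : m one = 1 := by
      have : (Nat.card B : ℂ) * (m one : ℂ) = (Nat.card B : ℂ) * 1 := by rw [mul_one]; exact h2.symm
      exact_mod_cast mul_left_cancel₀ (Nat.cast_ne_zero.2 Nat.card_pos.ne') this
    rw [Nat.cast_eq_one.1 h1, h3, one_mul, mul_one]
  have hBne : Nat.card B < Nat.card L2 := by
    refine lt_of_le_of_ne (Subgroup.card_le_card_group B) fun e => ?_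
    have hw : pr wy ∈ B := Subgroup.eq_top_of_card_eq B e ▸ Subgroup.mem_top _
    obtain ⟨g, hg, hgw⟩ := hw
    rcases Linear.Classes.proj_eq_one_iff (g := g⁻¹ * wy) |>.1 (by
      rw [map_mul, map_inv, hgw, inv_mul_cancel]) |> not_forall.1 with ⟨c, hc⟩
    simp only [ne_eq, not_not] at hc
    have h1 := congrFun (congrFun hc 1) 0
    simp [Matrix.SpecialLinearGroup.coe_inv, Matrix.adjugate_fin_two, Matrix.mul_apply,
      Fin.sum_univ_two, mem_upper.1 hg] at h1
    have := det_eq g
    rw [mem_upper.1 hg, h1] at this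
    simp at this
  obtain ⟨χ, hne, hmχ⟩ : ∃ χ, χ ≠ one ∧ m χ ≠ 0 := by
    by_contra hall
    simp only [not_exists, not_and, not_not] at hall
    refine hBne.ne' ?_
    rw [htot, Finset.sum_eq_single one (fun χ _ h => by rw [hall χ h, mul_zero, mul_zero])
      (fun h => absurd (Finset.mem_univ _) h), hone1]
  have hle : χ.2.choose ≤ Fintype.card F := by
    have h1 : one.2.choose * (Nat.card B * m one) + χ.2.choose * (Nat.card B * m χ) ≤
        Nat.card L2 := by
      rw [htot, ← Finset.sum_pair (f := fun χ : Cfsg.IrrCharacter L2 =>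
        χ.2.choose * (Nat.card B * m χ)) hne.symm]
      exact Finset.sum_le_sum_of_subset (Finset.subset_univ _)
    have h2 := h1.trans (card_le (F := F))
    rw [hone1, ← hB] at h2
    have h3 : χ.2.choose * Nat.card B ≤ χ.2.choose * (Nat.card B * m χ) :=
      Nat.mul_le_mul_left _ (Nat.le_mul_of_pos_right _ (Nat.pos_of_ne_zero hmχ))
    refine Nat.le_of_mul_le_mul_right ?_ (Nat.card_pos (α := B))
    rw [add_mul, one_mul] at h2
    omega
  refine ⟨χ, ?_⟩
  set ρ := χ.2.choose_spec.choose with hρdef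
  have hρirr := χ.2.choose_spec.choose_spec.1
  have hρc := χ.2.choose_spec.choose_spec.2
  obtain ⟨⟨v, hv⟩, hv0⟩ :=
    (Module.finrank_pos_iff_exists_ne_zero.1 (Nat.pos_of_ne_zero hmχ))
  have hfix : ∀ g ∈ (upper : Subgroup SL(2, F)), ρ (pr g) v = v := fun g hg =>
    hv ⟨pr g, g, hg, rfl⟩
  have hne1 : ∃ g, (ρ.comp pr : Representation ℂ SL(2, F) (Fin χ.2.choose → ℂ)) g ≠ 1 := by
    by_contra hall
    simp only [not_exists, ne_eq, not_not] at hall
    refine hne (Subtype.ext ?_)
    have hconst : (χ : L2 → ℂ) = fun _ => (χ.2.choose : ℂ) := by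
      funext y
      obtain ⟨g, rfl⟩ := Linear.Classes.proj_surjective y
      conv_lhs => rw [← hρc]
      show LinearMap.trace ℂ _ ((ρ.comp pr) g) = _
      rw [hall g, LinearMap.trace_one, Module.finrank_fin_fun]
    have h1 := Char.classInner_irr_self χ.2
    rw [hconst] at h1
    simp [Cfsg.classInner, Nat.card_eq_fintype_card] at h1
    have hk : χ.2.choose = 1 :=
      Nat.eq_one_of_mul_eq_one_right (by exact_mod_cast h1 : χ.2.choose * χ.2.choose = 1)
    rw [hconst, hone, hk, Nat.cast_one]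
  have h := finrank_eq_card (ρ.comp pr : Representation ℂ SL(2, F) (Fin χ.2.choose → ℂ))
    (by rw [MonoidHom.comp_apply, pr_dg_neg_one, map_one])
    ((Char.isIrreducible_comp_iff ρ pr Linear.Classes.proj_surjective).2 hρirr) v
    (fun e => hv0 (Subtype.ext e))
    (fun x => hfix (up x) (by show _ = _; simp))
    (fun t => hfix (dg t) (by show _ = _; simp)) hne1
    (by rw [Module.finrank_fin_fun]; exact hle)
  rw [Module.finrank_fin_fun] at h
  rw [Cfsg.charDegree, hdeg, Complex.natCast_re, Nat.floor_natCast, h]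


/-- Let F be a finite field of characteristic p with at least 4 elements. Then PSL(2,F) has exactly one irreducible complex character of degree divisible by p, and its degree is the order of F. -/
theorem result (p : ℕ) [Fact p.Prime] (F : Type*) [Field F] [Fintype F] [CharP F p] (hF : 4 ≤ Fintype.card F) : Nat.card {χ : Cfsg.IrrCharacter (Matrix.ProjectiveSpecialLinearGroup (Fin 2) F) // p ∣ Cfsg.charDegree (χ : Matrix.ProjectiveSpecialLinearGroup (Fin 2) F → ℂ)} = 1 ∧ ∀ χ : Cfsg.IrrCharacter (Matrix.ProjectiveSpecialLinearGroup (Fin 2) F), p ∣ Cfsg.charDegree (χ : Matrix.ProjectiveSpecialLinearGroup (Fin 2) F → ℂ) → Cfsg.charDegree (χ : Matrix.ProjectiveSpecialLinearGroup (Fin 2) F → ℂ) = Fintype.card F := by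
  classical
  haveI : Fintype (Matrix.ProjectiveSpecialLinearGroup (Fin 2) F) := Fintype.ofFinite _
  have hp : p.Prime := Fact.out
  obtain ⟨n, -, hq⟩ := FiniteField.card F p
  obtain ⟨χ₀, h₀⟩ := exists_degree_card (F := F)
  have hdvd : p ∣ Cfsg.charDegree (χ₀ : Matrix.ProjectiveSpecialLinearGroup (Fin 2) F → ℂ) := by
    rw [h₀, hq]; exact dvd_pow_self p n.pos.ne'
  refine ⟨?_, fun χ hχ => (eq_steinberg hp χ hχ).1⟩
  rw [Nat.card_eq_one_iff_unique]
  refine ⟨⟨fun a b => Subtype.ext (Subtype.ext (funext fun y => ?_))⟩, ⟨⟨χ₀, hdvd⟩⟩⟩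
  obtain ⟨g, rfl⟩ := Linear.Classes.proj_surjective y
  rw [(eq_steinberg hp a.1 a.2).2 g, (eq_steinberg hp b.1 b.2).2 g]

end Cfsg.Agent.S4765
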