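import Cfsg.Statements.S4775
import Cfsg.Agent.SzChar.Degrees

set_option autoImplicit false
open Cfsg

namespace Cfsg.Agent.S4775

/-- Let F be a finite field with q = 2^(2m+1) ≥ 8 elements and let S be isomorphic to the Suzuki group over F. Then the vertices of the character degree graph of S are 2 and the primes dividing (q − 1)(q² + 1); the primes dividing (q − 1)(q² + 1) are pairwise adjacent, and 2 is adjacent exactly to the primes dividing q − 1. -/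
theorem result (F : Type*) [Field F] [Fintype F] (m : ℕ) (hm : 1 ≤ m) (q : ℕ) (hq : Fintype.card F = q) (hqm : q = 2 ^ (2 * m + 1)) {S : Type*} [Group S] [Finite S] (hS : Nonempty (S ≃* ↥(Cfsg.Lie.Sz F (2 ^ (m + 1))))) : Cfsg.degreePrimes S = {r : ℕ | r.Prime ∧ (r = 2 ∨ r ∣ (q - 1) * (q ^ 2 + 1))} ∧ ∀ r s : ℕ, (Cfsg.degreeGraph S).Adj r s ↔ (r ≠ s ∧ r.Prime ∧ s.Prime ∧ ((r ∣ (q - 1) * (q ^ 2 + 1) ∧ s ∣ (q - 1) * (q ^ 2 + 1)) ∨ (r = 2 ∧ s ∣ q - 1) ∨ (s = 2 ∧ r ∣ q - 1))) := by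
  subst hqm
  haveI : Cfsg.Agent.Suzuki.SuzukiField F m := ⟨hm, hq⟩
  obtain ⟨e₀⟩ := hS
  let e : S ≃* ↥(Cfsg.Sz F m) := e₀.trans (Cfsg.Agent.Suzuki.szEquivLie F m).symm
  have hcong : charDegrees S = charDegrees ↥(Cfsg.Sz F m) := by
    ext d
    constructor
    · rintro ⟨χ, rfl⟩
      exact ⟨⟨_, Cfsg.Agent.Char.isIrrCharacter_comp_mulEquiv χ.2 e.symm⟩, by
        simp [charDegree]⟩
    · rintro ⟨χ, rfl⟩
      exact ⟨⟨_, Cfsg.Agent.Char.isIrrCharacter_comp_mulEquiv χ.2 e⟩, by simp [charDegree]⟩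
  have hdeg : charDegrees S = {1, (2 ^ (2 * m + 1)) ^ 2, (2 ^ (2 * m + 1)) ^ 2 + 1,
      (2 ^ (2 * m + 1) - 1) * (2 ^ (2 * m + 1) - 2 ^ (m + 1) + 1),
      (2 ^ (2 * m + 1) - 1) * (2 ^ (2 * m + 1) + 2 ^ (m + 1) + 1),
      (2 ^ (2 * m + 1) - 1) * 2 ^ m} := by
    rw [hcong, Cfsg.Agent.SzChar.charDegrees_eq, Cfsg.Agent.SzChar.degreeList, hq]
  set q := 2 ^ (2 * m + 1) with hqdef
  set A := q + 2 ^ (m + 1) + 1
  set B := q - 2 ^ (m + 1) + 1
  have hrq : 2 ^ (m + 1) ≤ q := Nat.pow_le_pow_right (by norm_num) (by omega)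
  have h2q : 2 ∣ q := dvd_pow_self 2 (by omega)
  have hq1 : 1 ≤ q := Nat.one_le_two_pow
  have hAB : A * B = q ^ 2 + 1 := by
    have hr2 : (2 ^ (m + 1)) ^ 2 = 2 * q := by rw [← pow_mul, hqdef, ← pow_succ']; ring_nf
    obtain ⟨d, hd⟩ := Nat.exists_eq_add_of_le hrq
    simp only [A, B]
    rw [hd, Nat.add_sub_cancel_left]
    rw [hd] at hr2
    nlinarith
  have hAd : A ∣ q ^ 2 + 1 := ⟨B, hAB.symm⟩
  have hBd : B ∣ q ^ 2 + 1 := ⟨A, by rw [← hAB, mul_comm]⟩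
  have h2m : 2 ∣ 2 ^ m := dvd_pow_self 2 (by omega)
  have hodd : ∀ r : ℕ, r.Prime → r ∣ (q - 1) * (q ^ 2 + 1) → r ≠ 2 := by
    rintro r hr h rfl
    rcases hr.dvd_mul.1 h with h | h
    · omega
    · rw [Nat.dvd_add_right (dvd_pow h2q two_ne_zero)] at h
      omega
  have htwo : ∀ r : ℕ, r.Prime → ∀ k, r ∣ 2 ^ k → r = 2 := fun r hr k h =>
    (Nat.prime_dvd_prime_iff_eq hr Nat.prime_two).1 (hr.dvd_of_dvd_pow h)
  have hmem : ∀ d, d ∈ charDegrees S ↔ d = 1 ∨ d = q ^ 2 ∨ d = q ^ 2 + 1 ∨ d = (q - 1) * B ∨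
      d = (q - 1) * A ∨ d = (q - 1) * 2 ^ m := fun d => by
    rw [hdeg]; rfl
  have hpr : ∀ r : ℕ, r.Prime → ∀ d ∈ charDegrees S, r ∣ d →
      r = 2 ∨ r ∣ (q - 1) * (q ^ 2 + 1) := by
    intro r hr d hd hrd
    rcases (hmem d).1 hd with rfl | rfl | rfl | rfl | rfl | rfl
    · exact absurd (Nat.dvd_one.1 hrd) hr.ne_one
    · exact Or.inl (htwo r hr _ (hr.dvd_of_dvd_pow hrd))
    · exact Or.inr (dvd_mul_of_dvd_right hrd _)
    · exact Or.inr (hrd.trans (Nat.mul_dvd_mul_left _ hBd))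
    · exact Or.inr (hrd.trans (Nat.mul_dvd_mul_left _ hAd))
    · rcases hr.dvd_mul.1 hrd with h | h
      · exact Or.inr (dvd_mul_of_dvd_left h _)
      · exact Or.inl (htwo r hr _ h)
  refine ⟨?_, fun r s => ?_⟩
  · ext r
    constructor
    · rintro ⟨hr, d, hd, hrd⟩
      exact ⟨hr, hpr r hr d hd hrd⟩
    · rintro ⟨hr, rfl | h⟩
      · exact ⟨hr, (q - 1) * 2 ^ m, (hmem _).2 (by tauto), dvd_mul_of_dvd_right h2m _⟩
      · rcases hr.dvd_mul.1 h with h | h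
        · exact ⟨hr, (q - 1) * 2 ^ m, (hmem _).2 (by tauto), dvd_mul_of_dvd_left h _⟩
        · exact ⟨hr, q ^ 2 + 1, (hmem _).2 (by tauto), h⟩
  · constructor
    · rintro ⟨hrs, hr, hs, d, hd, hdvd⟩
      have hrd := dvd_of_mul_right_dvd hdvd
      have hsd := dvd_of_mul_left_dvd hdvd
      refine ⟨hrs, hr, hs, ?_⟩
      rcases hpr r hr d hd hrd with hr2 | hr'
      · subst hr2
        rcases hpr s hs d hd hsd with hs2 | hs'
        · exact absurd hs2.symm hrs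
        · refine Or.inr (Or.inl ⟨rfl, ?_⟩)
          rcases (hmem d).1 hd with rfl | rfl | rfl | rfl | rfl | rfl
          · exact absurd (Nat.dvd_one.1 hsd) hs.ne_one
          · exact absurd (htwo s hs _ (hs.dvd_of_dvd_pow hsd)).symm hrs
          · exact absurd rfl (hodd 2 hr (dvd_mul_of_dvd_right hrd _))
          · exact absurd rfl (hodd 2 hr (hrd.trans (Nat.mul_dvd_mul_left _ hBd)))
          · exact absurd rfl (hodd 2 hr (hrd.trans (Nat.mul_dvd_mul_left _ hAd)))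
          · exact (hs.dvd_mul.1 hsd).resolve_right fun h => hrs (htwo s hs _ h).symm
      · rcases hpr s hs d hd hsd with hs2 | hs'
        · subst hs2
          refine Or.inr (Or.inr ⟨rfl, ?_⟩)
          rcases (hmem d).1 hd with rfl | rfl | rfl | rfl | rfl | rfl
          · exact absurd (Nat.dvd_one.1 hrd) hr.ne_one
          · exact absurd (htwo r hr _ (hr.dvd_of_dvd_pow hrd)) hrs
          · exact absurd rfl (hodd 2 hs (dvd_mul_of_dvd_right hsd _))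
          · exact absurd rfl (hodd 2 hs (hsd.trans (Nat.mul_dvd_mul_left _ hBd)))
          · exact absurd rfl (hodd 2 hs (hsd.trans (Nat.mul_dvd_mul_left _ hAd)))
          · exact (hr.dvd_mul.1 hrd).resolve_right fun h => hrs (htwo r hr _ h)
        · exact Or.inl ⟨hr', hs'⟩
    · rintro ⟨hrs, hr, hs, h⟩
      have hco : r.Coprime s := (Nat.coprime_primes hr hs).2 hrs
      have mk : ∀ d, d ∈ charDegrees S → r ∣ d → s ∣ d → (degreeGraph S).Adj r s :=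
        fun d hd h1 h2 => ⟨hrs, hr, hs, d, hd, hco.mul_dvd_of_dvd_of_dvd h1 h2⟩
      rcases h with ⟨h1, h2⟩ | ⟨rfl, h2⟩ | ⟨rfl, h1⟩
      · rw [← hAB] at h1 h2
        simp only [hr.dvd_mul] at h1
        simp only [hs.dvd_mul] at h2
        rcases h1 with h1 | h1 | h1 <;> rcases h2 with h2 | h2 | h2
        · exact mk _ ((hmem ((q - 1) * A)).2 (by tauto)) (dvd_mul_of_dvd_left h1 _) (dvd_mul_of_dvd_left h2 _)
        · exact mk _ ((hmem ((q - 1) * A)).2 (by tauto)) (dvd_mul_of_dvd_left h1 _) (dvd_mul_of_dvd_right h2 _)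
        · exact mk _ ((hmem ((q - 1) * B)).2 (by tauto)) (dvd_mul_of_dvd_left h1 _) (dvd_mul_of_dvd_right h2 _)
        · exact mk _ ((hmem ((q - 1) * A)).2 (by tauto)) (dvd_mul_of_dvd_right h1 _) (dvd_mul_of_dvd_left h2 _)
        · exact mk _ ((hmem (q ^ 2 + 1)).2 (by tauto)) (h1.trans hAd) (h2.trans hAd)
        · exact mk _ ((hmem (q ^ 2 + 1)).2 (by tauto)) (h1.trans hAd) (h2.trans hBd)
        · exact mk _ ((hmem ((q - 1) * B)).2 (by tauto)) (dvd_mul_of_dvd_right h1 _) (dvd_mul_of_dvd_left h2 _)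
        · exact mk _ ((hmem (q ^ 2 + 1)).2 (by tauto)) (h1.trans hBd) (h2.trans hAd)
        · exact mk _ ((hmem (q ^ 2 + 1)).2 (by tauto)) (h1.trans hBd) (h2.trans hBd)
      · exact mk _ ((hmem ((q - 1) * 2 ^ m)).2 (by tauto)) (dvd_mul_of_dvd_right h2m _) (dvd_mul_of_dvd_left h2 _)
      · exact mk _ ((hmem ((q - 1) * 2 ^ m)).2 (by tauto)) (dvd_mul_of_dvd_left h1 _) (dvd_mul_of_dvd_right h2m _)

end Cfsg.Agent.S4775
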