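import Cfsg.Statements.S4784
import Cfsg.Agent.Char.FrobeniusSchur
import Cfsg.Agent.Char.Real
import Cfsg.Agent.CharInd.Induced
import Cfsg.Agent.CharInd.GenChar

set_option autoImplicit false
open Cfsg
open scoped ComplexConjugate

namespace Cfsg.Agent.S4784

/-- A constituent of the permutation character is inflated from the quotient by the core. -/
theorem exists_descend {G : Type*} [Group G] [Fintype G] (H N : Subgroup G) [N.Normal]
    (hNH : N ≤ H) (χ : IrrCharacter G)
    (hne : classInner (indFun H (fun _ : H => (1 : ℂ))) (χ : G → ℂ) ≠ 0) :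
    ∃ ψ : IrrCharacter (G ⧸ N), ∀ g : G, (χ : G → ℂ) g = (ψ : G ⧸ N → ℂ) g := by
  classical
  letI := Fintype.ofFinite H
  rw [CharInd.classInner_indFun_left H _ (Char.irr_isClassFunction χ.2)] at hne
  obtain ⟨χf, n, ρ, hρ, hch⟩ := χ
  subst hch
  haveI := hρ
  set S : ℂ := ∑ h : H, ρ.character (h : G) with hS
  have hS0 : S ≠ 0 := by
    intro h0
    apply hne
    have h1 := congrArg conj h0
    rw [map_sum, map_zero] at h1
    simp only [classInner, one_mul, h1, mul_zero]
  set f : G → ℂ := fun g => if g ∈ N then 1 else 0 with hf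
  have hfc : IsClassFunction G f := fun g h => by
    simp only [f]
    refine if_congr ⟨fun k => ?_, fun k => ?_⟩ rfl rfl
    · simpa [mul_assoc] using (inferInstance : N.Normal).conj_mem _ k h⁻¹
    · exact (inferInstance : N.Normal).conj_mem _ k h
  have hT := Char.sum_smul_eq_smul_id ρ hfc
  set s := (∑ g : G, f g * ρ.character g) / (Module.finrank ℂ (Fin n → ℂ) : ℂ)
  have hkey : ∀ g : G, ∑ m : G, f m * ρ.character (g * m) = s * ρ.character g := by
    intro g
    have h1 := congrArg (fun T => LinearMap.trace ℂ _ (ρ g * T)) hT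
    simpa [Representation.character, Finset.mul_sum, map_sum, map_mul,
      ← Module.End.one_eq_id] using h1
  have hs : s = (Nat.card N : ℂ) := by
    refine mul_right_cancel₀ hS0 ?_
    have h1 : ∑ h : H, ∑ m : G, f m * ρ.character ((h : G) * m) = (Nat.card N : ℂ) * S := by
      rw [Finset.sum_comm]
      have h2 : ∀ m : G, ∑ h : H, f m * ρ.character ((h : G) * m) = f m * S := by
        intro m
        by_cases hm : m ∈ N
        · rw [← Finset.mul_sum]
          exact congrArg _ (Fintype.sum_equiv (Equiv.mulRight (⟨m, hNH hm⟩ : H)) _ _ fun _ => rfl)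
        · simp [f, hm]
      rw [Finset.sum_congr rfl fun m _ => h2 m, ← Finset.sum_mul]
      congr 1
      simp [f, Finset.sum_ite, Nat.card_eq_fintype_card, Fintype.card_subtype]
    rw [← h1, hS, Finset.mul_sum]
    exact Finset.sum_congr rfl fun h _ => (hkey h).symm
  have hker : N ≤ MonoidHom.ker (ρ : G →* Module.End ℂ (Fin n → ℂ)) := by
    intro m hm
    have h1 : ρ m * (∑ g : G, f g • ρ g) = ∑ g : G, f g • ρ g := by
      rw [Finset.mul_sum]
      refine Fintype.sum_equiv (Equiv.mulLeft m) _ _ fun g => ?_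
      simp only [Equiv.coe_mulLeft, mul_smul_comm, map_mul]
      congr 1
      simp only [f]
      exact if_congr ⟨fun k => N.mul_mem hm k,
        fun k => by simpa using N.mul_mem (N.inv_mem hm) k⟩ rfl rfl
    rw [hT, ← Module.End.one_eq_id, mul_smul_comm, mul_one] at h1
    exact MonoidHom.mem_ker.2
      (smul_right_injective _ (by rw [hs]; exact_mod_cast Nat.card_pos.ne') h1)
  let σ : Representation ℂ (G ⧸ N) (Fin n → ℂ) :=
    QuotientGroup.lift N (ρ : G →* Module.End ℂ (Fin n → ℂ)) hker
  have hσ : σ.comp (QuotientGroup.mk' N) = ρ := MonoidHom.ext fun g => rfl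
  have hirr : σ.IsIrreducible :=
    (Char.isIrreducible_comp_iff σ (QuotientGroup.mk' N) (QuotientGroup.mk'_surjective N)).1
      (by rw [hσ]; exact hρ)
  exact ⟨⟨σ.character, n, σ, hirr, rfl⟩, fun g => rfl⟩

/-- Let H be a subgroup of the finite group G and consider the permutation character of G on the cosets of H (the function induced from the principal character of H). Then exactly one irreducible constituent of it is real-valued with Frobenius–Schur indicator +1 (namely the principal character) if and only if the normal core of H has odd index in G. -/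
theorem result {G : Type*} [Group G] [Fintype G] (H : Subgroup G) : Nat.card {χ : Cfsg.IrrCharacter G // Cfsg.classInner (Cfsg.indFun H (fun _ : H => (1 : ℂ))) (χ : G → ℂ) ≠ 0 ∧ (∀ g : G, (starRingEnd ℂ) ((χ : G → ℂ) g) = (χ : G → ℂ) g) ∧ (Nat.card G : ℂ)⁻¹ * ∑ g : G, (χ : G → ℂ) (g * g) = 1} = 1 ↔ Odd H.normalCore.index := by
  classical
  letI := Fintype.ofFinite H
  haveI : Finite (IrrCharacter G) := CharInd.finite_irrCharacter
  letI := Fintype.ofFinite (IrrCharacter G)
  set π := indFun H (fun _ : H => (1 : ℂ)) with hπ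
  set triv := Char.trivialIrr G with htriv
  have hm1 : classInner π (triv : G → ℂ) = 1 := by
    rw [hπ, CharInd.classInner_indFun_left H _ (Char.irr_isClassFunction triv.2)]
    simp [htriv, Char.trivialIrr, classInner, ← Nat.card_eq_fintype_card]
  have hν1 : (Nat.card G : ℂ)⁻¹ * ∑ g : G, (triv : G → ℂ) (g * g) = 1 := by
    simp [htriv, Char.trivialIrr, ← Nat.card_eq_fintype_card]
  have htmem : classInner π (triv : G → ℂ) ≠ 0 ∧
      (∀ g : G, conj ((triv : G → ℂ) g) = (triv : G → ℂ) g) ∧
      (Nat.card G : ℂ)⁻¹ * ∑ g : G, (triv : G → ℂ) (g * g) = 1 :=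
    ⟨by rw [hm1]; exact one_ne_zero, fun g => by simp [htriv, Char.trivialIrr], hν1⟩
  constructor
  · intro h1
    haveI := (Nat.card_eq_one_iff_unique.1 h1).1
    obtain ⟨c, hc⟩ := CharInd.isCharacter_coef
      (CharInd.isCharacter_indFun H (Char.isCharacter_const_one (G := H)))
    have hcm : ∀ χ : IrrCharacter G, classInner π (χ : G → ℂ) = (c χ : ℂ) := fun χ => by
      rw [hπ, hc]; exact CharInd.classInner_irrSum (fun ξ => (c ξ : ℂ)) χ
    set ν : IrrCharacter G → ℂ := fun χ => (Nat.card G : ℂ)⁻¹ * ∑ g : G, (χ : G → ℂ) (g * g)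
      with hν
    have hsum : (Nat.card G : ℂ)⁻¹ * ∑ g : G, π (g * g) = ∑ χ, (c χ : ℂ) * ν χ := by
      simp only [hν, hπ, hc, Finset.sum_apply, Pi.smul_apply, smul_eq_mul, Finset.mul_sum]
      rw [Finset.sum_comm]
      exact Finset.sum_congr rfl fun χ _ => Finset.sum_congr rfl fun g _ => by ring
    have hcount : (Nat.card G : ℂ)⁻¹ * ∑ g : G, π (g * g) =
        (Nat.card H : ℂ)⁻¹ * ((Finset.univ.filter fun g : G => g * g ∈ H).card : ℂ) := by
      have key : ∀ x : G, ∑ g : G, extendByZero H (fun _ : H => (1 : ℂ)) (x⁻¹ * (g * g) * x) =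
          ((Finset.univ.filter fun g : G => g * g ∈ H).card : ℂ) := by
        intro x
        rw [Finset.sum_congr rfl (g := fun g => extendByZero H (fun _ : H => (1 : ℂ))
          ((x⁻¹ * g * x) * (x⁻¹ * g * x))) fun g _ => by congr 1; group,
          CharInd.sum_conj_eq (fun g => extendByZero H (fun _ : H => (1 : ℂ)) (g * g)) x,
          Finset.sum_congr rfl (g := fun g : G => if g * g ∈ H then (1 : ℂ) else 0) fun g _ => ?_]
        · simp [Finset.sum_ite]
        · by_cases hg : g * g ∈ H
          · rw [if_pos hg, CharInd.extendByZero_mem H _ hg]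
          · rw [if_neg hg, CharInd.extendByZero_notMem H _ hg]
      simp only [hπ, indFun]
      rw [← Finset.mul_sum, Finset.sum_comm, Finset.sum_congr rfl fun x _ => key x,
        Finset.sum_const, Finset.card_univ, nsmul_eq_mul, ← Nat.card_eq_fintype_card]
      field_simp [CharInd.natCard_ne_zero]
    have hle : (∑ χ, (c χ : ℂ) * ν χ).re ≤ 1 := by
      rw [← Finset.add_sum_erase _ _ (Finset.mem_univ triv), Complex.add_re, Complex.re_sum]
      have ht : (c triv : ℂ) * ν triv = 1 := by rw [← hcm, hm1, hν, one_mul]; exact hν1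
      rw [ht, Complex.one_re]
      refine add_le_of_nonpos_right (Finset.sum_nonpos fun χ hχ => ?_)
      obtain ⟨h3, h0iff⟩ := Char.frobeniusSchur_trichotomy χ.2
      rcases h3 with h | h | h
      · rw [hν]; simp only; rw [h]; simp
      · rcases Nat.eq_zero_or_pos (c χ) with hc0 | hc0
        · simp [hc0]
        exfalso
        have hreal : ∀ g : G, conj ((χ : G → ℂ) g) = (χ : G → ℂ) g := fun g =>
          Complex.conj_eq_iff_im.2 (by
            by_contra hne
            have := h0iff.2 ⟨g, hne⟩
            rw [h] at this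
            exact one_ne_zero this)
        exact (Finset.mem_erase.1 hχ).1 (congrArg Subtype.val (Subsingleton.elim
          (⟨χ, by rw [hcm]; exact_mod_cast hc0.ne', hreal, h⟩ :
            {χ : IrrCharacter G // classInner π (χ : G → ℂ) ≠ 0 ∧
              (∀ g : G, conj ((χ : G → ℂ) g) = (χ : G → ℂ) g) ∧
              (Nat.card G : ℂ)⁻¹ * ∑ g : G, (χ : G → ℂ) (g * g) = 1}) ⟨triv, htmem⟩))
      · rw [hν]; simp only; rw [h]; simp
    rw [← hsum, hcount] at hle
    have hle' : (Finset.univ.filter fun g : G => g * g ∈ H).card ≤ Nat.card H := by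
      have e : (Nat.card H : ℂ)⁻¹ * ((Finset.univ.filter fun g : G => g * g ∈ H).card : ℂ) =
          (((Nat.card H : ℝ)⁻¹ * ((Finset.univ.filter fun g : G => g * g ∈ H).card : ℝ) : ℝ) : ℂ) := by
        push_cast; rfl
      rw [e, Complex.ofReal_re,
        inv_mul_le_iff₀ (by exact_mod_cast (Nat.card_pos (α := H))), mul_one] at hle
      exact_mod_cast hle
    have hH : Finset.univ.filter (fun g : G => g ∈ H) = Finset.univ.filter fun g : G => g * g ∈ H :=
      Finset.eq_of_subset_of_card_le
        (fun g hg => by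
          simp only [Finset.mem_filter, Finset.mem_univ, true_and] at hg ⊢
          exact H.mul_mem hg hg)
        (le_of_le_of_eq hle' (by rw [Nat.card_eq_fintype_card, Fintype.card_subtype]))
    by_contra hodd
    rw [Nat.not_odd_iff_even, even_iff_two_dvd, Subgroup.index] at hodd
    haveI : Fact (Nat.Prime 2) := ⟨Nat.prime_two⟩
    obtain ⟨q, hq⟩ := exists_prime_orderOf_dvd_card' 2 hodd
    obtain ⟨g, rfl⟩ := QuotientGroup.mk_surjective q
    have hgg : g * g ∈ H.normalCore := by
      rw [← QuotientGroup.eq_one_iff, QuotientGroup.mk_mul, ← sq, ← hq, pow_orderOf_eq_one]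
    have hg : g ∈ H.normalCore := fun b => by
      have : b * g * b⁻¹ * (b * g * b⁻¹) ∈ H := by
        rw [show b * g * b⁻¹ * (b * g * b⁻¹) = b * (g * g) * b⁻¹ by group]
        exact hgg b
      have h4 : b * g * b⁻¹ ∈ Finset.univ.filter (fun g : G => g ∈ H) := by
        rw [hH]; simpa using this
      simpa using h4
    rw [(QuotientGroup.eq_one_iff g).2 hg, orderOf_one] at hq
    exact absurd hq (by norm_num)
  · intro hodd
    rw [Nat.card_eq_one_iff_unique]
    refine ⟨⟨fun a b => ?_⟩, ⟨⟨triv, htmem⟩⟩⟩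
    suffices h : ∀ χ : IrrCharacter G, classInner π (χ : G → ℂ) ≠ 0 →
        (∀ g : G, conj ((χ : G → ℂ) g) = (χ : G → ℂ) g) → χ = triv from
      Subtype.ext ((h a.1 a.2.1 a.2.2.1).trans (h b.1 b.2.1 b.2.2.1).symm)
    intro χ hne hreal
    obtain ⟨ψ, hψ⟩ := exists_descend H H.normalCore H.normalCore_le χ hne
    have hr : ψ = Char.trivialIrr (G ⧸ H.normalCore) := Char.real_irr_eq_trivial hodd ψ fun q => by
      obtain ⟨g, rfl⟩ := QuotientGroup.mk_surjective q
      rw [← hψ]
      exact Complex.conj_eq_iff_im.1 (hreal g)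
    refine Subtype.ext (funext fun g => ?_)
    rw [hψ, hr]
    rfl

end Cfsg.Agent.S4784
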