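import Cfsg.Statements.S4796
import Cfsg.Agent.BlocksChar.Codegree
-- import your own Cfsg.Agent.* helpers here

set_option autoImplicit false
open Cfsg

namespace Cfsg.Agent.S4796

/-- Let G be a finite group with a faithful irreducible complex character χ whose codegree #G / χ(1) is a prime p (for a faithful character the kernel is trivial, so the codegree is #G / χ(1)). Then either G is cyclic of order p, or G is a Frobenius group whose Frobenius kernel has order p: some proper non-trivial subgroup H satisfies H ∩ gHg⁻¹ = 1 for every element g outside H, and the set of elements lying in no conjugate of H, together with the identity, has exactly p elements. -/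
theorem result {G : Type*} [Group G] [Finite G] (χ : Cfsg.IrrCharacter G) (hfaith : ∀ g : G, (χ : G → ℂ) g = (χ : G → ℂ) 1 → g = 1) (p : ℕ) (hp : p.Prime) (hcod : Nat.card G = p * Cfsg.charDegree (χ : G → ℂ)) : (IsCyclic G ∧ Nat.card G = p) ∨ ∃ H : Subgroup G, Cfsg.IsFrobeniusComplement H ∧ Nat.card ↥(Cfsg.frobeniusKernel H) = p := by
  classical
  rcases Cfsg.Agent.BlocksChar.prime_codegree_structure hp χ hfaith hcod with
    h | ⟨hne, hlt, P, hPn, hPc, hPC⟩
  · exact Or.inl ⟨haveI : Fact p.Prime := ⟨hp⟩; isCyclic_of_prime_card h, h⟩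
  haveI := hPn
  have hidx : P.index = Cfsg.charDegree (χ : G → ℂ) := by
    have := P.card_mul_index
    rw [hPc, hcod] at this
    exact Nat.eq_of_mul_eq_mul_left hp.pos this
  have hcop : (Nat.card P).Coprime P.index := by
    rw [hPc, hidx]
    exact (Nat.Prime.coprime_iff_not_dvd hp).mpr fun h =>
      absurd (Nat.le_of_dvd (Cfsg.Agent.BlocksChar.charDegree_pos χ) h) (not_le.mpr hlt)
  obtain ⟨H, hH⟩ := Subgroup.exists_right_complement'_of_coprime hcop
  refine Or.inr ⟨H, ⟨?_, ?_, ?_⟩, ?_⟩
  · intro h
    have := hH.card_mul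
    rw [h, Subgroup.card_bot, mul_one, hPc] at this
    exact hne this.symm
  · intro h
    have := hH.card_mul
    rw [h, Subgroup.card_top, hPc] at this
    nlinarith [hp.two_le, Nat.card_pos (α := G)]
  · intro g hg
    rw [Subgroup.eq_bot_iff_forall]
    intro x hx
    obtain ⟨hxH, hxg⟩ := hx
    obtain ⟨y, hy, rfl⟩ := Subgroup.mem_smul_pointwise_iff_exists _ _ _ |>.mp hxg
    obtain ⟨⟨u, h⟩, hug⟩ := (hH.existsUnique g).exists
    have hu1 : (u : G) ≠ 1 := fun he => hg (by rw [← hug]; simp [he])
    simp only [MulAut.smul_def, MulAut.conj_apply] at hxH ⊢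
    set y' := (h : G) * y * (h : G)⁻¹ with hy'
    have hy'H : y' ∈ H := H.mul_mem (H.mul_mem h.2 hy) (H.inv_mem h.2)
    have e : g * y * g⁻¹ = (u : G) * y' * (u : G)⁻¹ := by rw [← hug, hy']; group
    rw [e] at hxH ⊢
    have hc : (u : G) * y' * (u : G)⁻¹ * y'⁻¹ ∈ P ⊓ H := by
      refine ⟨?_, H.mul_mem hxH (H.inv_mem hy'H)⟩
      rw [show (u : G) * y' * (u : G)⁻¹ * y'⁻¹ = u * (y' * (u : G)⁻¹ * y'⁻¹) by group]
      exact P.mul_mem u.2 (hPn.conj_mem _ (P.inv_mem u.2) _)
    rw [hH.disjoint.eq_bot, Subgroup.mem_bot, mul_inv_eq_one] at hc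
    rw [hc]
    have hzc : y' ∈ Subgroup.centralizer (P : Set G) := by
      haveI : Fact p.Prime := ⟨hp⟩
      have hgen : Subgroup.zpowers (u : G) = P := by
        refine Subgroup.eq_of_le_of_card_ge (Subgroup.zpowers_le.mpr u.2) ?_
        rw [Nat.card_zpowers, hPc]
        have : orderOf (u : G) ∣ p := hPc ▸ Subgroup.orderOf_dvd_natCard P u.2
        rcases hp.eq_one_or_self_of_dvd _ this with h1 | h1
        · exact absurd (orderOf_eq_one_iff.mp h1) hu1
        · omega
      rw [← hgen, Subgroup.zpowers_eq_closure, Subgroup.centralizer_closure]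
      rw [Subgroup.mem_centralizer_singleton_iff]
      calc y' * (u : G) = (u : G) * y' * (u : G)⁻¹ * u := by rw [hc]
        _ = (u : G) * y' := by group
    rw [hPC] at hzc
    exact Subgroup.disjoint_def.mp hH.disjoint hzc hy'H
  · have hker : Cfsg.frobeniusKernel H = (P : Set G) := by
      haveI : Fintype G := Fintype.ofFinite G
      ext x
      constructor
      · intro hx
        by_contra hxP
        rcases hx with rfl | hx
        · exact hxP P.one_mem
        obtain ⟨⟨u, h⟩, hux⟩ := (hH.existsUnique x).exists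
        have hh1 : (h : G) ≠ 1 := fun he => hxP (by rw [← hux]; simp [he])
        -- the conjugates of `h` under `P` fill the coset `P * h`
        have hinj : Function.Injective fun w : P => (⟨(w : G) * h * (w : G)⁻¹ * (h : G)⁻¹, by
            rw [show (w : G) * h * (w : G)⁻¹ * (h : G)⁻¹ = w * (h * (w : G)⁻¹ * (h : G)⁻¹) by group]
            exact P.mul_mem w.2 (hPn.conj_mem _ (P.inv_mem w.2) _)⟩ : P) := by
          intro w₁ w₂ he
          have he' : (w₁ : G) * h * (w₁ : G)⁻¹ = (w₂ : G) * h * (w₂ : G)⁻¹ :=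
            mul_right_cancel (congrArg Subtype.val he)
          by_contra hne'
          have hw : ((w₂ : G)⁻¹ * w₁) * h = h * ((w₂ : G)⁻¹ * w₁) := by
            calc ((w₂ : G)⁻¹ * w₁) * h = (w₂ : G)⁻¹ * ((w₁ : G) * h * (w₁ : G)⁻¹) * w₁ := by group
              _ = (w₂ : G)⁻¹ * ((w₂ : G) * h * (w₂ : G)⁻¹) * w₁ := by rw [he']
              _ = _ := by group
          haveI : Fact p.Prime := ⟨hp⟩
          have hwP : (w₂ : G)⁻¹ * w₁ ∈ P := P.mul_mem (P.inv_mem w₂.2) w₁.2
          have hgen : Subgroup.zpowers ((w₂ : G)⁻¹ * w₁) = P := by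
            refine Subgroup.eq_of_le_of_card_ge (Subgroup.zpowers_le.mpr hwP) ?_
            rw [Nat.card_zpowers, hPc]
            have : orderOf ((w₂ : G)⁻¹ * w₁) ∣ p := hPc ▸ Subgroup.orderOf_dvd_natCard P hwP
            rcases hp.eq_one_or_self_of_dvd _ this with h1 | h1
            · exact absurd (Subtype.ext (inv_mul_eq_one.mp (orderOf_eq_one_iff.mp h1)).symm) hne'
            · omega
          have hhc : (h : G) ∈ Subgroup.centralizer (P : Set G) := by
            rw [← hgen, Subgroup.zpowers_eq_closure, Subgroup.centralizer_closure,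
              Subgroup.mem_centralizer_singleton_iff]
            exact hw.symm
          rw [hPC] at hhc
          exact hh1 (Subgroup.disjoint_def.mp hH.disjoint hhc h.2)
        obtain ⟨w, hw⟩ := (Finite.injective_iff_surjective.mp hinj) u
        refine hx (w : G) ?_
        have hw' : (w : G) * h * (w : G)⁻¹ * (h : G)⁻¹ = u := congrArg Subtype.val hw
        rw [Subgroup.mem_smul_pointwise_iff_exists]
        refine ⟨h, h.2, ?_⟩
        rw [MulAut.smul_def, MulAut.conj_apply, ← hux, ← hw']
        group
      · intro hx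
        by_cases h1 : x = 1
        · exact Or.inl h1
        refine Or.inr fun g hg => h1 ?_
        obtain ⟨y, hy, rfl⟩ := Subgroup.mem_smul_pointwise_iff_exists _ _ _ |>.mp hg
        simp only [MulAut.smul_def, MulAut.conj_apply] at hx ⊢
        have hyP : y ∈ P := by
          have := hPn.conj_mem _ hx g⁻¹
          rwa [show g⁻¹ * (g * y * g⁻¹) * g⁻¹⁻¹ = y by group] at this
        rw [Subgroup.disjoint_def.mp hH.disjoint hyP hy]
        group
    rw [show Nat.card ↥(Cfsg.frobeniusKernel H) = Nat.card (P : Set G) by rw [hker]]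
    exact hPc

end Cfsg.Agent.S4796
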