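import Cfsg.Statements.S4797
import Cfsg.Agent.BlocksChar.Codegree
-- import your own Cfsg.Agent.* helpers here

set_option autoImplicit false
open Cfsg
open scoped commutatorElement

namespace Cfsg.Agent.S4797

/-- The codegree of an irreducible complex character χ of a finite group G is [G : ker χ] / χ(1), where ker χ is the set of elements at which χ takes the value χ(1). A non-trivial finite group is perfect if and only if no irreducible complex character of it has prime codegree. -/
theorem result {G : Type*} [Group G] [Finite G] [Nontrivial G] : commutator G = ⊤ ↔ ∀ χ : Cfsg.IrrCharacter G, ¬ ((Nat.card G / (Nat.card {g : G // (χ : G → ℂ) g = (χ : G → ℂ) 1} * Cfsg.charDegree (χ : G → ℂ)))).Prime := by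
  classical
  constructor
  · intro hperf χ hp
    set p := Nat.card G / (Nat.card {g : G // (χ : G → ℂ) g = (χ : G → ℂ) 1}
      * Cfsg.charDegree (χ : G → ℂ)) with hpdef
    obtain ⟨K, hK, ψ, -, hf, hd, hcard⟩ := Cfsg.Agent.BlocksChar.codegree_eq χ
    haveI := hK
    rw [← hpdef, ← hd] at hcard
    have hperf' : commutator (G ⧸ K) = ⊤ := by
      rw [commutator_def] at hperf ⊢
      have := Subgroup.map_commutator (⊤ : Subgroup G) ⊤ (QuotientGroup.mk' K)
      rw [hperf, Subgroup.map_top_of_surjective _ (QuotientGroup.mk'_surjective K)] at this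
      exact this.symm
    haveI : Fact p.Prime := ⟨hp⟩
    rcases Cfsg.Agent.BlocksChar.prime_codegree_structure hp ψ hf hcard.symm with
      h | ⟨hne, -, P, hPn, hPc, hPC⟩
    · haveI : IsCyclic (G ⧸ K) := isCyclic_of_prime_card h
      have hb : commutator (G ⧸ K) = ⊥ := by
        rw [commutator_def, Subgroup.commutator_eq_bot_iff_le_centralizer]
        intro a _ b _
        exact IsCyclic.commutative.is_comm.comm b a
      rw [hb] at hperf'
      haveI := (Subgroup.subsingleton_iff).mp (subsingleton_of_bot_eq_top hperf')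
      rw [Nat.card_of_subsingleton (1 : G ⧸ K)] at h
      exact hp.one_lt.ne h
    · haveI := hPn
      haveI : IsCyclic P := isCyclic_of_prime_card hPc
      let f : G ⧸ K →* MulAut P := MulAut.conjNormal
      letI : CommGroup (MulAut P) :=
        { (inferInstance : Group (MulAut P)) with
          mul_comm := fun a b => (IsCyclic.mulAutMulEquiv P).injective
            (by rw [map_mul, map_mul, mul_comm]) }
      have hle : (⊤ : Subgroup (G ⧸ K)) ≤ f.ker := hperf' ▸ Abelianization.commutator_subset_ker f
      have hcent : (⊤ : Subgroup (G ⧸ K)) ≤ Subgroup.centralizer (P : Set (G ⧸ K)) := by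
        intro g hg x hx
        have h1 := DFunLike.congr_fun (MonoidHom.mem_ker.mp (hle hg)) ⟨x, hx⟩
        have h2 : g * x * g⁻¹ = x := congrArg Subtype.val h1
        rw [mul_inv_eq_iff_eq_mul] at h2
        exact h2.symm
      rw [hPC, top_le_iff] at hcent
      rw [hcent, Subgroup.card_top] at hPc
      exact hne hPc
  · intro h
    by_contra hne
    haveI : (commutator G).Normal := inferInstance
    have hnt : 1 < Nat.card (G ⧸ commutator G) := by
      rw [← Subgroup.index]
      exact lt_of_le_of_ne (Nat.one_le_iff_ne_zero.mpr Subgroup.index_ne_zero_of_finite)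
        fun he => hne (Subgroup.index_eq_one.mp he.symm)
    obtain ⟨q, hq, hqd⟩ := Nat.exists_prime_and_dvd hnt.ne'
    haveI : Fact q.Prime := ⟨hq⟩
    obtain ⟨M, hM, hle, hMi⟩ : ∃ M : Subgroup G, M.Normal ∧ commutator G ≤ M ∧ M.index.Prime := by
      obtain ⟨M, hM1, hM2⟩ := (Finite.to_isCoatomic (α := Subgroup G)).eq_top_or_exists_le_coatom
        (commutator G) |>.resolve_left hne
      haveI hMn : M.Normal := ⟨fun n hn g => by
        have h1 : ⁅g, n⁆ ∈ M :=
          hM2 (Subgroup.commutator_mem_commutator (Subgroup.mem_top g) (Subgroup.mem_top n))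
        have h2 := M.mul_mem h1 hn
        rwa [commutatorElement_def, inv_mul_cancel_right] at h2⟩
      haveI : Nontrivial (G ⧸ M) := by
        obtain ⟨g, hg⟩ := not_forall.mp (fun h => hM1.1 ((Subgroup.eq_top_iff' M).mpr h))
        exact nontrivial_of_ne (g : G ⧸ M) 1 fun h => hg ((QuotientGroup.eq_one_iff g).mp h)
      haveI : IsSimpleGroup (G ⧸ M) := ⟨fun H _ => by
        have hle : M ≤ H.comap (QuotientGroup.mk' M) := fun x hx => by
          rw [Subgroup.mem_comap, QuotientGroup.mk'_apply, (QuotientGroup.eq_one_iff x).mpr hx]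
          exact H.one_mem
        rw [← Subgroup.map_comap_eq_self_of_surjective (QuotientGroup.mk'_surjective M) H]
        rcases hle.eq_or_lt with he | hlt
        · left; rw [← he, QuotientGroup.map_mk'_self]
        · right; rw [hM1.2 _ hlt, Subgroup.map_top_of_surjective _ (QuotientGroup.mk'_surjective M)]⟩
      letI : CommGroup (G ⧸ M) :=
        { (inferInstance : Group (G ⧸ M)) with
          mul_comm := fun a b => by
            obtain ⟨x, rfl⟩ := QuotientGroup.mk_surjective a
            obtain ⟨y, rfl⟩ := QuotientGroup.mk_surjective b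
            rw [← QuotientGroup.mk_mul, ← QuotientGroup.mk_mul, QuotientGroup.eq]
            refine hM2 ?_
            have : (x * y)⁻¹ * (y * x) = ⁅y⁻¹, x⁻¹⁆ := by
              simp [commutatorElement_def, mul_assoc]
            rw [this]
            exact Subgroup.commutator_mem_commutator (Subgroup.mem_top _) (Subgroup.mem_top _) }
      exact ⟨M, hMn, hM2, IsSimpleGroup.prime_card⟩
    haveI := hM
    have hnt' : ∃ a : G ⧸ M, a ≠ 1 := by
      haveI : Nontrivial (G ⧸ M) := Finite.one_lt_card_iff_nontrivial.mp hMi.one_lt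
      exact exists_ne 1
    obtain ⟨a, ha⟩ := hnt'
    obtain ⟨ψ, hψ⟩ := Cfsg.Agent.Char.exists_irr_ne_degree ha
    have hψ1 : Cfsg.charDegree (ψ : G ⧸ M → ℂ) = 1 := by
      have hcomm : ∀ u v : G ⧸ M, u * v = v * u := by
        haveI : Fact (Nat.card (G ⧸ M)).Prime := ⟨hMi⟩
        haveI : IsCyclic (G ⧸ M) := isCyclic_of_prime_card rfl
        exact IsCyclic.commutative.is_comm.comm
      simp [Cfsg.charDegree, Cfsg.Agent.BlocksChar.irr_one_of_comm hcomm ψ]
    refine h ⟨_, Cfsg.Agent.Char.isIrrCharacter_comp ψ.2 (QuotientGroup.mk' M)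
      (QuotientGroup.mk'_surjective M)⟩ ?_
    have hker : ∀ g : G, (ψ : G ⧸ M → ℂ) g = (ψ : G ⧸ M → ℂ) 1 ↔ g ∈ M := by
      intro g
      constructor
      · intro hg
        obtain ⟨L, hL, hLmem⟩ := Cfsg.Agent.Char.isCharacter_exists_kernel
          (Cfsg.Agent.Char.isCharacter_of_irr ψ.2)
        by_contra hgM
        haveI : Fact (Nat.card (G ⧸ M)).Prime := ⟨hMi⟩
        rcases L.eq_bot_or_eq_top_of_prime_card (hp := by exact ⟨hMi⟩) with hb | ht
        · have : (g : G ⧸ M) ∈ L := (hLmem _).mpr hg
          rw [hb, Subgroup.mem_bot, QuotientGroup.eq_one_iff] at this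
          exact hgM this
        · exact hψ ((hLmem a).mp (ht ▸ Subgroup.mem_top a))
      · intro hg
        rw [(QuotientGroup.eq_one_iff g).mpr hg]
    have hc : Cfsg.charDegree ((ψ : G ⧸ M → ℂ) ∘ QuotientGroup.mk' M) = 1 := by
      rw [← hψ1]; rfl
    have hk : Nat.card {g : G // ((ψ : G ⧸ M → ℂ) ∘ QuotientGroup.mk' M) g
        = ((ψ : G ⧸ M → ℂ) ∘ QuotientGroup.mk' M) 1} = Nat.card M :=
      Nat.card_congr (Equiv.subtypeEquivRight fun g => hker g)
    show (Nat.card G / (_ * _)).Prime
    rw [hk, hc, mul_one, ← Subgroup.card_mul_index M, Nat.mul_div_cancel_left _ Nat.card_pos]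
    exact hMi

end Cfsg.Agent.S4797
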