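import Cfsg.Statements.S4798
import Cfsg.Agent.BlocksChar.Degree
import Cfsg.Agent.CharInd.Induced
import Cfsg.Agent.CharInd.GenChar
import Cfsg.Agent.CharInd.Clifford

set_option autoImplicit false
open Cfsg

namespace Cfsg.Agent.S4798

/-- Let p be a prime and χ a faithful irreducible complex character of the finite group G (χ(g) = χ(1) only for g = 1), so that its codegree is #G / χ(1). Then #G / χ(1) is a power of p if and only if χ is induced from a character of a Sylow p-subgroup of G. -/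
theorem result {G : Type*} [Group G] [Fintype G] (p : ℕ) [Fact p.Prime] (χ : Cfsg.IrrCharacter G) (hfaith : ∀ g : G, (χ : G → ℂ) g = (χ : G → ℂ) 1 → g = 1) : (∃ k : ℕ, Nat.card G = p ^ k * Cfsg.charDegree (χ : G → ℂ)) ↔ ∃ (P : Sylow p G) (θ : ↥(P : Subgroup G) → ℂ), Cfsg.IsCharacter ↥(P : Subgroup G) θ ∧ (χ : G → ℂ) = Cfsg.indFun (P : Subgroup G) θ := by
  classical
  have hp : p.Prime := Fact.out
  have hd0 := BlocksChar.charDegree_pos χ
  have hdvd := BlocksChar.degree_dvd_card χ
  constructor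
  · rintro ⟨k, hk⟩
    obtain ⟨P⟩ := (inferInstance : Nonempty (Sylow p G))
    letI := Fintype.ofFinite (P : Subgroup G)
    haveI : Finite (IrrCharacter (P : Subgroup G)) := CharInd.finite_irrCharacter
    letI := Fintype.ofFinite (IrrCharacter (P : Subgroup G))
    haveI : Finite (IrrCharacter G) := CharInd.finite_irrCharacter
    letI := Fintype.ofFinite (IrrCharacter G)
    set i := (P : Subgroup G).index with hi
    obtain ⟨a, hPc⟩ := IsPGroup.iff_card.1 P.isPGroup'
    have hGc : Nat.card G = p ^ a * i := by rw [← hPc, Subgroup.card_mul_index]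
    have hpi : ¬ p ∣ i := P.not_dvd_index
    have hka : k ≤ a := by
      have h1 : p ^ k ∣ p ^ a * i := hGc ▸ hk ▸ dvd_mul_right _ _
      exact (Nat.pow_dvd_pow_iff_le_right hp.one_lt).1
        ((Nat.Coprime.pow_left k ((hp.coprime_iff_not_dvd).2 hpi)).dvd_of_dvd_mul_right h1)
    have hd : charDegree (χ : G → ℂ) = i * p ^ (a - k) := by
      have h1 : p ^ k * charDegree (χ : G → ℂ) = p ^ k * (i * p ^ (a - k)) := by
        rw [← hk, hGc, mul_left_comm, ← pow_add, show k + (a - k) = a by omega, mul_comm]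
      exact Nat.eq_of_mul_eq_mul_left (pow_pos hp.pos k) h1
    set m := a - k
    obtain ⟨c, hc⟩ := CharInd.isCharacter_coef
      (CharInd.isCharacter_res (P : Subgroup G) (Char.isCharacter_of_irr χ.2))
    have hsum : charDegree (χ : G → ℂ) = ∑ ξ, c ξ * charDegree (ξ : ↥(P : Subgroup G) → ℂ) := by
      have h1 := congrFun hc 1
      simp only [OneMemClass.coe_one, Finset.sum_apply, Pi.smul_apply, smul_eq_mul,
        ← BlocksChar.charDegree_eq] at h1
      exact_mod_cast h1
    obtain ⟨θ, hcθ, hθm⟩ : ∃ θ : IrrCharacter (P : Subgroup G), c θ ≠ 0 ∧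
        charDegree (θ : ↥(P : Subgroup G) → ℂ) ≤ p ^ m := by
      by_contra hcon
      push Not at hcon
      refine hpi ((Nat.mul_dvd_mul_iff_right (pow_pos hp.pos m)).1 ?_)
      rw [← hd, hsum, mul_comm, ← pow_succ]
      refine Finset.dvd_sum fun ξ _ => ?_
      rcases eq_or_ne (c ξ) 0 with h0 | h0
      · rw [h0, zero_mul]; exact dvd_zero _
      obtain ⟨j, -, hj⟩ := (Nat.dvd_prime_pow hp).1 (hPc ▸ BlocksChar.degree_dvd_card ξ)
      have h2 := hcon ξ h0
      rw [hj, Nat.pow_lt_pow_iff_right hp.one_lt] at h2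
      rw [hj]
      exact dvd_mul_of_dvd_right (pow_dvd_pow p h2) _
    refine ⟨P, θ, Char.isCharacter_of_irr θ.2, ?_⟩
    obtain ⟨n, hn⟩ := CharInd.isCharacter_coef
      (CharInd.isCharacter_indFun (P : Subgroup G) (Char.isCharacter_of_irr θ.2))
    have hnχ : n χ ≠ 0 := by
      intro h0
      have h1 := CharInd.classInner_indFun_right (P : Subgroup G) (θ : ↥(P : Subgroup G) → ℂ)
        (Char.irr_isClassFunction χ.2)
      have h2 := congrArg (starRingEnd ℂ)
        (CharInd.classInner_irrSum (fun ξ : IrrCharacter G => (n ξ : ℂ)) χ)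
      rw [← hn, CharInd.classInner_swap, h1, hc,
        CharInd.classInner_irrSum (fun ξ : IrrCharacter (P : Subgroup G) => (c ξ : ℂ)) θ] at h2
      simp [h0] at h2
      exact hcθ h2
    have hdeg : ∑ ξ, n ξ * charDegree (ξ : G → ℂ) =
        i * charDegree (θ : ↥(P : Subgroup G) → ℂ) := by
      have h1 := congrFun hn 1
      simp only [Finset.sum_apply, Pi.smul_apply, smul_eq_mul, CharInd.indFun_one_apply,
        ← BlocksChar.charDegree_eq] at h1
      exact_mod_cast h1.symm
    have hle : ∑ ξ, n ξ * charDegree (ξ : G → ℂ) ≤ charDegree (χ : G → ℂ) := by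
      rw [hdeg, hd]; exact Nat.mul_le_mul_left _ hθm
    rw [← Finset.add_sum_erase _ _ (Finset.mem_univ χ)] at hle
    have hge : charDegree (χ : G → ℂ) ≤ n χ * charDegree (χ : G → ℂ) :=
      Nat.le_mul_of_pos_left _ (Nat.pos_of_ne_zero hnχ)
    have hn1 : n χ = 1 := by
      refine le_antisymm (Nat.le_of_mul_le_mul_right ?_ hd0) (Nat.pos_of_ne_zero hnχ)
      rw [one_mul]; omega
    have hz : ∀ ξ ≠ χ, n ξ = 0 := by
      intro ξ hξ
      have h0 : ∑ η ∈ Finset.univ.erase χ, n η * charDegree (η : G → ℂ) = 0 := by omega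
      rcases mul_eq_zero.1 (Finset.sum_eq_zero_iff.1 h0 ξ
        (Finset.mem_erase.2 ⟨hξ, Finset.mem_univ _⟩)) with h | h
      · exact h
      · exact absurd h (BlocksChar.charDegree_pos ξ).ne'
    rw [hn, Finset.sum_eq_single χ (fun ξ _ hξ => by simp [hz ξ hξ])
      (fun h => absurd (Finset.mem_univ _) h), hn1, Nat.cast_one, one_smul]
  · rintro ⟨P, θ, ⟨d, ρ, rfl⟩, hχ⟩
    have h1 := congrFun hχ 1
    rw [CharInd.indFun_one_apply, Representation.char_one, ← BlocksChar.charDegree_eq] at h1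
    simp only [Module.finrank_fintype_fun_eq_card, Fintype.card_fin] at h1
    have h2 : charDegree (χ : G → ℂ) = (P : Subgroup G).index * d := by exact_mod_cast h1
    obtain ⟨c, hc⟩ := hdvd
    obtain ⟨a, hPc⟩ := IsPGroup.iff_card.1 P.isPGroup'
    have h3 : p ^ a * (P : Subgroup G).index = d * c * (P : Subgroup G).index := by
      rw [← hPc, Subgroup.card_mul_index, hc, h2]; ring
    have h4 := Nat.eq_of_mul_eq_mul_right (Nat.pos_of_ne_zero Subgroup.index_ne_zero_of_finite) h3
    obtain ⟨k, -, hk⟩ := (Nat.dvd_prime_pow hp).1 ⟨d, h4.trans (mul_comm d c)⟩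
    exact ⟨k, by rw [hc, hk, mul_comm]⟩

end Cfsg.Agent.S4798
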