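import Cfsg.Statements.S4801
import Cfsg.Agent.BlocksChar.Codegree
-- import your own Cfsg.Agent.* helpers here

set_option autoImplicit false
open Cfsg

namespace Cfsg.Agent.S4801

/-- The codegree of an irreducible complex character χ of a finite group G is [G : ker χ] / χ(1), where ker χ is the set of elements at which χ takes the value χ(1). Let S be a finite simple group and G a finite group such that every codegree of an irreducible character of S is a codegree of an irreducible character of G. Then the order of S divides the order of G. -/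
theorem result {S : Type*} [Group S] [Finite S] (hS : IsSimpleGroup S) {G : Type*} [Group G] [Finite G] (hsub : ∀ χ : Cfsg.IrrCharacter S, ∃ ψ : Cfsg.IrrCharacter G, (Nat.card S / (Nat.card {g : S // (χ : S → ℂ) g = (χ : S → ℂ) 1} * Cfsg.charDegree (χ : S → ℂ))) = (Nat.card G / (Nat.card {g : G // (ψ : G → ℂ) g = (ψ : G → ℂ) 1} * Cfsg.charDegree (ψ : G → ℂ)))) : Nat.card S ∣ Nat.card G := by
  classical
  rw [Nat.dvd_iff_prime_pow_dvd_dvd]
  intro q k hq hqk
  rcases Nat.eq_zero_or_pos k with rfl | hk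
  · simp
  have hqS : q ∣ Nat.card S := (dvd_pow_self q hk.ne').trans hqk
  have hex : ∃ χ : Cfsg.IrrCharacter S, (χ : S → ℂ) ≠ (fun _ => 1) ∧
      ¬ q ∣ Cfsg.charDegree (χ : S → ℂ) := by
    by_contra hc
    push Not at hc
    have h1 : q ∣ ∑ χ ∈ Finset.univ.erase (Cfsg.Agent.Char.trivialIrr S),
        Cfsg.charDegree (χ : S → ℂ) ^ 2 := Finset.dvd_sum fun χ hχ =>
      (hc χ fun he => (Finset.mem_erase.mp hχ).1 (Subtype.ext he)).trans (dvd_pow_self _ two_ne_zero)
    have h2 := Finset.add_sum_erase Finset.univ (fun χ : Cfsg.IrrCharacter S =>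
      Cfsg.charDegree (χ : S → ℂ) ^ 2) (Finset.mem_univ (Cfsg.Agent.Char.trivialIrr S))
    rw [Cfsg.Agent.BlocksChar.sum_charDegree_sq] at h2
    rw [← h2, Nat.dvd_add_left h1] at hqS
    simp [Cfsg.charDegree, Cfsg.Agent.Char.trivialIrr] at hqS
    exact hq.one_lt.ne' hqS
  obtain ⟨χ, hne, hnd⟩ := hex
  obtain ⟨ψ, hψ⟩ := hsub χ
  refine dvd_trans ?_ (Cfsg.Agent.BlocksChar.codegree_dvd_card ψ)
  rw [← hψ]
  obtain ⟨K, hK, -, hmem, -, -, hc⟩ := Cfsg.Agent.BlocksChar.codegree_eq χ
  have hKbot : K = ⊥ := (hK.eq_bot_or_eq_top).resolve_right fun ht => hne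
    (Cfsg.Agent.BlocksChar.eq_one_of_kernel_eq_top χ.2 fun g =>
      (hmem g).mp (ht ▸ Subgroup.mem_top g))
  rw [← Subgroup.index, hKbot, Subgroup.index_bot] at hc
  refine (Nat.Coprime.pow_left k ((Nat.Prime.coprime_iff_not_dvd hq).mpr hnd)).dvd_of_dvd_mul_right ?_
  rw [hc]
  exact hqk

end Cfsg.Agent.S4801
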