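import Cfsg.Statements.S4802
import Cfsg.Agent.BlocksChar.ClassProd
-- import your own Cfsg.Agent.* helpers here

set_option autoImplicit false
open Cfsg

namespace Cfsg.Agent.S4802

/-- Let N < M be normal subgroups of the finite group G and g ∈ M ∖ N. Then the conjugacy class of g is exactly M ∖ N if and only if every irreducible complex character of G whose kernel contains N takes the same value at all elements of M ∖ N, and every irreducible complex character of G whose kernel does not contain N vanishes at g. -/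
theorem result {G : Type*} [Group G] [Finite G] (N M : Subgroup G) [N.Normal] [M.Normal] (hNM : N < M) (g : G) (hgM : g ∈ M) (hgN : g ∉ N) : {h : G | IsConj g h} = (M : Set G) \ (N : Set G) ↔ ((∀ χ : Cfsg.IrrCharacter G, (∀ x ∈ N, (χ : G → ℂ) x = (χ : G → ℂ) 1) → ∀ x ∈ M, x ∉ N → ∀ y ∈ M, y ∉ N → (χ : G → ℂ) x = (χ : G → ℂ) y) ∧ (∀ χ : Cfsg.IrrCharacter G, (∃ x ∈ N, (χ : G → ℂ) x ≠ (χ : G → ℂ) 1) → (χ : G → ℂ) g = 0)) := by
  classical
  letI := Fintype.ofFinite G
  have hcl := fun χ : Cfsg.IrrCharacter G => Cfsg.Agent.Char.irr_isClassFunction χ.2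
  have hmem : ∀ h : G, IsConj g h → h ∈ M ∧ h ∉ N := by
    intro h hh
    obtain ⟨c, rfl⟩ := isConj_iff.mp hh
    refine ⟨Subgroup.Normal.conj_mem ‹M.Normal› g hgM c, fun hc => hgN ?_⟩
    have := Subgroup.Normal.conj_mem ‹N.Normal› _ hc c⁻¹
    simpa [mul_assoc] using this
  constructor
  · intro heq
    have hconj : ∀ h ∈ M, h ∉ N → IsConj g h := fun h hM' hN' => by
      have : h ∈ (M : Set G) \ (N : Set G) := ⟨hM', hN'⟩
      rwa [← heq] at this
    refine ⟨fun χ _ x hxM hxN y hyM hyN => Cfsg.Agent.Char.isClassFunction_eq_of_isConj (hcl χ)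
      ((hconj x hxM hxN).symm.trans (hconj y hyM hyN)), fun χ hχ => ?_⟩
    obtain ⟨n, hn, hne⟩ := hχ
    have hs := Cfsg.Agent.BlocksChar.sum_conj_mul χ.2 g n
    have e : ∀ c : G, (χ : G → ℂ) (g * (c * n * c⁻¹)) = (χ : G → ℂ) g := fun c => by
      have hc : c * n * c⁻¹ ∈ N := Subgroup.Normal.conj_mem ‹N.Normal› n hn c
      refine (Cfsg.Agent.Char.isClassFunction_eq_of_isConj (hcl χ) (hconj _
        (M.mul_mem hgM (hNM.le hc)) fun h => hgN ?_)).symm
      have := N.mul_mem h (N.inv_mem hc)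
      rwa [mul_inv_cancel_right] at this
    simp only [e, Finset.sum_const, Finset.card_univ, nsmul_eq_mul, ← Nat.card_eq_fintype_card]
      at hs
    have h1 := Cfsg.Agent.Char.irr_one_ne_zero χ.2
    have hG := Cfsg.Agent.Char.card_ne_zero_complex (G := G)
    field_simp at hs
    have : (χ : G → ℂ) g * ((χ : G → ℂ) n - (χ : G → ℂ) 1) = 0 := by linear_combination -hs
    exact (mul_eq_zero.mp this).resolve_right (sub_ne_zero.mpr hne)
  · rintro ⟨h1, h2⟩
    ext h
    refine ⟨fun hh => hmem h hh, fun hh => ?_⟩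
    show IsConj g h
    by_contra hne
    have o1 := Cfsg.Agent.Char.sum_irr_mul_conj g h
    have o2 := Cfsg.Agent.Char.sum_irr_mul_conj g g
    rw [if_neg hne] at o1
    rw [if_pos (IsConj.refl _)] at o2
    refine Nat.card_pos.ne' (Nat.cast_eq_zero.mp (o2.symm.trans (Eq.trans ?_ o1)))
    refine Finset.sum_congr rfl fun χ _ => ?_
    by_cases hk : ∀ x ∈ N, (χ : G → ℂ) x = (χ : G → ℂ) 1
    · rw [h1 χ hk g hgM hgN h hh.1 hh.2]
    · push Not at hk
      simp [h2 χ hk]

end Cfsg.Agent.S4802
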