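import Cfsg.Statements.S4807
import Cfsg.Agent.RelMcKay.Main
-- import your own Cfsg.Agent.* helpers here

set_option autoImplicit false
open Cfsg

namespace Cfsg.Agent.S4807

/-- Let p be a prime and G a finite p-solvable group, L a normal subgroup of G, S a Sylow p-subgroup of G and P the subgroup generated by L and S (so P/L is a Sylow p-subgroup of G/L), and let ν be an irreducible complex character of L that is invariant under conjugation by every element of P. Let N be the normalizer of P in G (it contains L). Then the number of irreducible characters of G of degree prime to p lying over ν (restriction to L not orthogonal to ν) equals the number of irreducible characters of N of degree prime to p lying over ν. -/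
theorem result {G : Type*} [Group G] [Finite G] (p : ℕ) [Fact p.Prime] (hG : Cfsg.IsPSolvable p G) (L : Subgroup G) [L.Normal] (S : Sylow p G) (P : Subgroup G) (hP : P = L ⊔ (S : Subgroup G)) (hLN : L ≤ (Subgroup.normalizer ((P : Subgroup G) : Set G))) (ν : Cfsg.IrrCharacter ↥L) (hν : ∀ x ∈ P, Cfsg.IsConjCharOf L x (ν : ↥L → ℂ) (ν : ↥L → ℂ)) : Nat.card {χ : Cfsg.IrrCharacter G // ¬ p ∣ Cfsg.charDegree (χ : G → ℂ) ∧ (∑ᶠ l : ↥L, (χ : G → ℂ) (l : G) * (starRingEnd ℂ) ((ν : ↥L → ℂ) l)) ≠ 0} = Nat.card {ψ : Cfsg.IrrCharacter ↥(Subgroup.normalizer ((P : Subgroup G) : Set G)) // ¬ p ∣ Cfsg.charDegree (ψ : ↥(Subgroup.normalizer ((P : Subgroup G) : Set G)) → ℂ) ∧ (∑ᶠ l : ↥L, (ψ : ↥(Subgroup.normalizer ((P : Subgroup G) : Set G)) → ℂ) (Subgroup.inclusion hLN l) * (starRingEnd ℂ) ((ν : ↥L → ℂ) l)) ≠ 0} := by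
  subst hP
  have key : ∀ {Γ : Type _} [Group Γ] [Finite Γ] (f : L →* Γ) (χ : Cfsg.IrrCharacter Γ),
      (∑ᶠ l : ↥L, (χ : Γ → ℂ) (f l) * (starRingEnd ℂ) ((ν : ↥L → ℂ) l)) ≠ 0 ↔
        Cfsg.Agent.GlauberCorr.homMult f χ ν ≠ 0 := by
    intro Γ _ _ f χ
    letI := Fintype.ofFinite L
    rw [finsum_eq_sum_of_fintype, Cfsg.Agent.Char.sum_mul_conj_eq_card_mul_classInner
        (fun l : L => (χ : Γ → ℂ) (f l)) (ν : L → ℂ),
      Cfsg.Agent.GlauberCorr.classInner_comp_eq_homMult, mul_ne_zero_iff, Nat.cast_ne_zero,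
      Nat.cast_ne_zero]
    exact and_iff_right Nat.card_pos.ne'
  have h1 := Cfsg.Agent.RelMcKay.rel_count hG L S ν
    (fun s hs => hν s (Subgroup.mem_sup_right hs)) hLN
  refine ((Nat.card_congr (Equiv.subtypeEquivRight fun χ => and_congr_right fun _ =>
    key L.subtype χ)).trans h1).trans ?_
  exact (Nat.card_congr (Equiv.subtypeEquivRight fun χ => and_congr_right fun _ =>
    key (Subgroup.inclusion hLN) χ)).symm

end Cfsg.Agent.S4807
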