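import Cfsg.Statements.S4808
import Cfsg.Agent.BlocksChar.Codegree
-- import your own Cfsg.Agent.* helpers here

set_option autoImplicit false
open Cfsg

namespace Cfsg.Agent.S4808

/-- The codegree of an irreducible complex character χ of a finite group G is [G : ker χ] / χ(1), where ker χ is the set of elements at which χ takes the value χ(1). A prime divides the order of G if and only if it divides the codegree of some irreducible complex character of G. -/
theorem result {G : Type*} [Group G] [Finite G] (p : ℕ) (hp : p.Prime) : p ∣ Nat.card G ↔ ∃ χ : Cfsg.IrrCharacter G, p ∣ (Nat.card G / (Nat.card {g : G // (χ : G → ℂ) g = (χ : G → ℂ) 1} * Cfsg.charDegree (χ : G → ℂ))) := by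
  classical
  constructor
  · intro hpG
    haveI : Fact p.Prime := ⟨hp⟩
    by_contra hno
    push Not at hno
    -- every irreducible character of every quotient with order divisible by `p` has degree
    -- divisible by the full `p`-part of the order of the quotient by its kernel
    have key : ∀ χ : Cfsg.IrrCharacter G, ∀ K : Subgroup G, K.Normal →
        (∀ g : G, g ∈ K ↔ (χ : G → ℂ) g = (χ : G → ℂ) 1) → p ∣ K.index →
        p ∣ Cfsg.charDegree (χ : G → ℂ) := by
      intro χ K hK hmem hp'
      obtain ⟨L, hL, -, hmemL, -, -, hc⟩ := Cfsg.Agent.BlocksChar.codegree_eq χ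
      have hLK : L = K := by ext g; rw [hmem, hmemL]
      subst hLK
      rw [← Subgroup.index] at hc
      rw [← hc] at hp'
      exact (hp.dvd_mul.mp hp').resolve_left (hno χ)
    obtain ⟨M, ⟨hM, hMp⟩, hmax⟩ : ∃ M : Subgroup G, (M.Normal ∧ p ∣ M.index) ∧
        ∀ L : Subgroup G, L.Normal → p ∣ L.index → M ≤ L → L = M := by
      obtain ⟨M, hMax⟩ := (Set.toFinite {M : Subgroup G | M.Normal ∧ p ∣ M.index}).exists_maximal
        ⟨⊥, inferInstance, by rwa [Subgroup.index_bot]⟩
      exact ⟨M, hMax.1, fun L h1 h2 h3 => le_antisymm (hMax.2 ⟨h1, h2⟩ h3) h3⟩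
    haveI := hM
    letI := Fintype.ofFinite (G ⧸ M)
    haveI : Nontrivial (G ⧸ M) := Finite.one_lt_card_iff_nontrivial.mp
      (lt_of_lt_of_le hp.one_lt (Nat.le_of_dvd Nat.card_pos hMp))
    -- a minimal normal subgroup of the quotient
    obtain ⟨R, ⟨hR, hRne⟩, hminimal'⟩ := (Set.toFinite {R : Subgroup (G ⧸ M) | R.Normal ∧ R ≠ ⊥}).exists_minimal
      ⟨⊤, inferInstance, top_ne_bot⟩
    haveI := hR
    have hminimal : ∀ R' : Subgroup (G ⧸ M), R'.Normal → R' ≠ ⊥ → R' ≤ R → R' = R :=
      fun R' h1 h2 h3 => le_antisymm h3 (hminimal' ⟨h1, h2⟩ h3)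
    have hMp' : p ∣ Nat.card (G ⧸ M) := hMp
    have hRp : ¬ p ∣ R.index := by
      intro h
      refine hRne ?_
      have h2 : R.comap (QuotientGroup.mk' M) = M := hmax _ (hR.comap _)
        (by rwa [Subgroup.index_comap_of_surjective _ (QuotientGroup.mk'_surjective M)])
        (fun x hx => by
          rw [Subgroup.mem_comap, QuotientGroup.mk'_apply, (QuotientGroup.eq_one_iff x).mpr hx]
          exact R.one_mem)
      rw [← Subgroup.map_comap_eq_self_of_surjective (QuotientGroup.mk'_surjective M) R, h2]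
      simp
    have hsplit := Cfsg.Agent.BlocksChar.sum_charDegree_sq (G := G ⧸ M)
    rw [← Finset.sum_filter_add_sum_filter_not Finset.univ
      (fun χ : Cfsg.IrrCharacter (G ⧸ M) => ∀ n ∈ R, (χ : G ⧸ M → ℂ) n = (χ : G ⧸ M → ℂ) 1)]
      at hsplit
    have h1 : ∑ χ ∈ Finset.univ.filter (fun χ : Cfsg.IrrCharacter (G ⧸ M) =>
        ∀ n ∈ R, (χ : G ⧸ M → ℂ) n = (χ : G ⧸ M → ℂ) 1), Cfsg.charDegree (χ : G ⧸ M → ℂ) ^ 2
        = R.index := by
      rw [Subgroup.index, ← Cfsg.Agent.BlocksChar.sum_charDegree_sq (G := (G ⧸ M) ⧸ R),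
        Finset.sum_subtype (p := fun χ : Cfsg.IrrCharacter (G ⧸ M) =>
          ∀ n ∈ R, (χ : G ⧸ M → ℂ) n = (χ : G ⧸ M → ℂ) 1) _ (fun x => by simp)]
      exact (Fintype.sum_equiv (Cfsg.Agent.Char.irrEquivQuotient R) _ _ fun ψ => rfl).symm
    have h2 : p ∣ ∑ χ ∈ Finset.univ.filter (fun χ : Cfsg.IrrCharacter (G ⧸ M) =>
        ¬ ∀ n ∈ R, (χ : G ⧸ M → ℂ) n = (χ : G ⧸ M → ℂ) 1),
          Cfsg.charDegree (χ : G ⧸ M → ℂ) ^ 2 := by
      refine Finset.dvd_sum fun ψ hψ => Dvd.dvd.trans ?_ (dvd_pow_self _ two_ne_zero)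
      have hψR := (Finset.mem_filter.mp hψ).2
      let χ : Cfsg.IrrCharacter G := ⟨_, Cfsg.Agent.Char.isIrrCharacter_comp ψ.2
        (QuotientGroup.mk' M) (QuotientGroup.mk'_surjective M)⟩
      obtain ⟨L, hL, hLmem⟩ := Cfsg.Agent.Char.isCharacter_exists_kernel
        (Cfsg.Agent.Char.isCharacter_of_irr χ.2)
      have hML : M ≤ L := fun x hx => by
        rw [hLmem]
        show (ψ : G ⧸ M → ℂ) _ = (ψ : G ⧸ M → ℂ) _
        rw [QuotientGroup.mk'_apply, (QuotientGroup.eq_one_iff x).mpr hx, map_one]
      by_cases hLp : p ∣ L.index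
      · exact key χ L hL hLmem hLp
      · -- then the minimality of `R` puts it in the kernel
        exfalso
        refine hψR ?_
        have hLM : (L.map (QuotientGroup.mk' M)).Normal := hL.map _ (QuotientGroup.mk'_surjective M)
        have hinf : R ⊓ L.map (QuotientGroup.mk' M) = R := by
          by_contra hne
          have hidx2 : ¬ p ∣ (L.map (QuotientGroup.mk' M)).index := by
            rw [Subgroup.index_map_eq L (QuotientGroup.mk'_surjective M) (by simpa using hML)]
            exact hLp
          exact hne (hminimal _ inferInstance (by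
            intro hb
            have h3 := Subgroup.card_dvd_of_injective
              ((QuotientGroup.mk' (L.map (QuotientGroup.mk' M))).comp R.subtype) (by
                rw [injective_iff_map_eq_one]
                intro r hr
                have : (r : G ⧸ M) ∈ R ⊓ L.map (QuotientGroup.mk' M) :=
                  ⟨r.2, (QuotientGroup.eq_one_iff _).mp hr⟩
                rw [hb, Subgroup.mem_bot] at this
                exact Subtype.ext this)
            rw [← Subgroup.index] at h3
            refine hidx2 (dvd_trans ?_ h3)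
            rw [← Subgroup.card_mul_index R] at hMp'
            exact (hp.dvd_mul.mp hMp').resolve_right hRp) inf_le_left)
        intro n hn
        rw [← hinf] at hn
        obtain ⟨x, hx, rfl⟩ := hn.2
        exact (hLmem x).mp hx
    rw [h1] at hsplit
    have h3 : p ∣ R.index := by
      have h4 : p ∣ Nat.card (G ⧸ M) := hMp
      rw [← hsplit] at h4
      exact (Nat.dvd_add_left h2).mp h4
    exact hRp h3
  · rintro ⟨χ, hχ⟩
    exact hχ.trans (Cfsg.Agent.BlocksChar.codegree_dvd_card χ)

end Cfsg.Agent.S4808
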