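import Cfsg.Statements.S4813
import Cfsg.Agent.CharDeg.PrimeDegreesSolvable
import Cfsg.Agent.CharGraph.Dichotomy

set_option autoImplicit false
open Cfsg

namespace Cfsg.Agent.S4813

/-- If every irreducible complex character of the finite group G of degree greater than one has prime degree, then G has at most three distinct irreducible character degrees. -/
theorem result {G : Type*} [Group G] [Finite G] (hprime : ∀ d ∈ Cfsg.charDegrees G, d = 1 ∨ d.Prime) : Nat.card ↥(Cfsg.charDegrees G) ≤ 3 := by
  classical
  have hfin : ∀ s : Finset ℕ, Cfsg.charDegrees G ⊆ ↑s → Nat.card ↥(Cfsg.charDegrees G) ≤ s.card :=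
    fun s hs => (Nat.card_mono s.finite_toSet hs).trans (le_of_eq (by simp))
  by_cases hna : commutator G = ⊥
  · refine (hfin {1} ?_).trans (by simp)
    rintro d ⟨χ, rfl⟩
    have hc : ∀ a b : G, a * b = b * a := fun a b => Subgroup.mem_center_iff.1
      ((commutator_eq_bot_iff_center_eq_top _).1 hna ▸ Subgroup.mem_top b) a
    simp [Agent.CharDeg.deg_eq_one_of_comm hc χ]
  haveI : Group.IsSolvable G :=
    Agent.CharDeg.isSolvable_of_prime_degrees (Nat.card G) G rfl fun χ hχ =>
      (hprime _ ⟨χ, rfl⟩).resolve_left hχ
  rcases Agent.CharGraph.degree_dichotomy G hna with ⟨p, j, hp, hj, hpj, hd⟩ | ⟨q, f, hq, hf, hfd, hd⟩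
  · have hj1 : j = 1 := by
      rcases hprime _ hpj with h | h
      · exact absurd h (Nat.one_lt_pow hj.ne' hp.one_lt).ne'
      · exact Nat.Prime.eq_one_of_pow h
    subst hj1
    rw [pow_one] at hd
    refine (hfin {1, p} ?_).trans (Finset.card_le_two.trans (by norm_num))
    intro d hdc
    rcases hprime d hdc with h | h
    · simp [h]
    rcases hd d hdc with h' | h'
    · simp [(Nat.prime_dvd_prime_iff_eq hp h).1 h']
    · exfalso
      rcases hprime _ h' with h'' | h''
      · exact hp.ne_one (Nat.eq_one_of_mul_eq_one_right h'')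
      · exact Nat.not_prime_mul hp.ne_one h.ne_one h''
  · have hfp : f.Prime := (hprime f hfd).resolve_left hf.ne'
    refine (hfin {1, q, f} ?_).trans Finset.card_le_three
    intro d hdc
    rcases hprime d hdc with h | h
    · simp [h]
    rcases hd d hdc with h' | ⟨e, hfe, hde, -⟩
    · simp [(Nat.prime_dvd_prime_iff_eq hq h).1 h']
    · rcases hprime _ hfe with h'' | h''
      · rw [h''] at hde
        exact absurd (Nat.dvd_one.1 hde) h.ne_one
      · have he : e = 1 := by
          by_contra he
          exact Nat.not_prime_mul hfp.ne_one he h''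
        rw [he, mul_one] at hde
        simp [(Nat.prime_dvd_prime_iff_eq h hfp).1 hde]

end Cfsg.Agent.S4813
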