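import Cfsg.Statements.S4814
import Cfsg.Agent.BlocksChar.ClassProd
-- import your own Cfsg.Agent.* helpers here

set_option autoImplicit false
open Cfsg

namespace Cfsg.Agent.S4814

/-- Let G be a finite group such that the sum, over the irreducible complex characters χ of G, of 1/χ(1)² is less than 2. Then every element of G is a product of two commutators. -/
theorem result {G : Type*} [Group G] [Finite G]
    (h : ∑ᶠ χ : Cfsg.IrrCharacter G, 1 / ‖(χ : G → ℂ) 1‖ ^ 2 < (2 : ℝ)) (g : G) :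
    ∃ a b c d : G, (a * b * a⁻¹ * b⁻¹) * (c * d * c⁻¹ * d⁻¹) = g := by
  classical
  letI := Fintype.ofFinite G
  by_contra hne
  push Not at hne
  set d : Cfsg.IrrCharacter G → ℕ := fun χ => Cfsg.charDegree (χ : G → ℂ) with hd
  have hd1 : ∀ χ : Cfsg.IrrCharacter G, (χ : G → ℂ) 1 = (d χ : ℂ) := fun χ =>
    (Cfsg.Agent.BlocksChar.charDegree_eq χ).symm
  have hdpos : ∀ χ : Cfsg.IrrCharacter G, (0 : ℝ) < d χ := fun χ => by
    exact_mod_cast Cfsg.Agent.BlocksChar.charDegree_pos χ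
  rw [finsum_eq_sum_of_fintype] at h
  simp only [hd1, Complex.norm_natCast] at h
  have hS : ∑ χ : Cfsg.IrrCharacter G, (χ : G → ℂ) g⁻¹ / (χ : G → ℂ) 1 ^ 3 = 0 := by
    have h0 : ∑ a : G, ∑ b : G, ∑ c : G, ∑ e : G, ∑ χ : Cfsg.IrrCharacter G,
        (χ : G → ℂ) 1 * (χ : G → ℂ) (a * b * a⁻¹ * b⁻¹ * (c * e * c⁻¹ * e⁻¹ * g⁻¹)) = 0 := by
      refine Finset.sum_eq_zero fun a _ => Finset.sum_eq_zero fun b _ => Finset.sum_eq_zero
        fun c _ => Finset.sum_eq_zero fun e _ => ?_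
      rw [Cfsg.Agent.Char.sum_irr_degree_mul, if_neg]
      intro he
      rw [← mul_assoc, mul_inv_eq_one] at he
      exact hne a b c e he
    have h2 : ∀ χ : Cfsg.IrrCharacter G, ∑ a : G, ∑ b : G, ∑ c : G, ∑ e : G,
        (χ : G → ℂ) 1 * (χ : G → ℂ) (a * b * a⁻¹ * b⁻¹ * (c * e * c⁻¹ * e⁻¹ * g⁻¹))
        = (Nat.card G : ℂ) ^ 4 * ((χ : G → ℂ) g⁻¹ / (χ : G → ℂ) 1 ^ 3) := by
      intro χ
      have hA : ∀ a b : G, ∑ c : G, ∑ e : G,
          (χ : G → ℂ) (a * b * a⁻¹ * b⁻¹ * (c * e * c⁻¹ * e⁻¹ * g⁻¹))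
          = (Nat.card G : ℂ) ^ 2 * (χ : G → ℂ) (g⁻¹ * (a * b * a⁻¹ * b⁻¹))
            / (χ : G → ℂ) 1 ^ 2 := fun a b => by
        rw [← Cfsg.Agent.BlocksChar.sum_commutator_mul χ.2]
        refine Finset.sum_congr rfl fun c _ => Finset.sum_congr rfl fun e _ => ?_
        rw [Cfsg.Agent.Char.isClassFunction_mul_comm (Cfsg.Agent.Char.irr_isClassFunction χ.2)]
        congr 1; group
      simp only [← Finset.mul_sum, hA]
      simp only [← Finset.sum_div, ← Finset.mul_sum]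
      have hB : ∑ a : G, ∑ b : G, (χ : G → ℂ) (g⁻¹ * (a * b * a⁻¹ * b⁻¹))
          = (Nat.card G : ℂ) ^ 2 * (χ : G → ℂ) g⁻¹ / (χ : G → ℂ) 1 ^ 2 := by
        rw [← Cfsg.Agent.BlocksChar.sum_commutator_mul χ.2]
        exact Finset.sum_congr rfl fun a _ => Finset.sum_congr rfl fun b _ =>
          Cfsg.Agent.Char.isClassFunction_mul_comm (Cfsg.Agent.Char.irr_isClassFunction χ.2) _ _
      rw [hB]
      have := Cfsg.Agent.Char.irr_one_ne_zero χ.2
      field_simp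
    have h3 : ∑ χ : Cfsg.IrrCharacter G, ∑ a : G, ∑ b : G, ∑ c : G, ∑ e : G,
        (χ : G → ℂ) 1 * (χ : G → ℂ) (a * b * a⁻¹ * b⁻¹ * (c * e * c⁻¹ * e⁻¹ * g⁻¹)) = 0 := by
      rw [Finset.sum_comm]
      refine Eq.trans (Finset.sum_congr rfl fun a _ => ?_) h0
      rw [Finset.sum_comm]
      refine Finset.sum_congr rfl fun b _ => ?_
      rw [Finset.sum_comm]
      refine Finset.sum_congr rfl fun c _ => ?_
      rw [Finset.sum_comm]
    rw [Finset.sum_congr rfl fun χ _ => h2 χ, ← Finset.mul_sum] at h3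
    exact (mul_eq_zero.mp h3).resolve_left (pow_ne_zero _ Cfsg.Agent.Char.card_ne_zero_complex)
  have hone : ∃ χ₀ : Cfsg.IrrCharacter G, (χ₀ : G → ℂ) = fun _ => 1 := by
    exact ⟨⟨_, Cfsg.Agent.BlocksChar.isIrr_one⟩, rfl⟩
  obtain ⟨χ₀, hχ₀⟩ := hone
  have hd0 : d χ₀ = 1 := by simp [hd, Cfsg.charDegree, hχ₀]
  have hlow : ∀ χ ∈ Finset.univ.erase χ₀,
      -(1 / (d χ : ℝ) ^ 2) ≤ ((χ : G → ℂ) g⁻¹ / (χ : G → ℂ) 1 ^ 3).re := by
    intro χ _
    have hn : ‖(χ : G → ℂ) g⁻¹‖ ≤ (d χ : ℝ) := by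
      simpa [hd1] using Cfsg.Agent.Char.isCharacter_norm_le
        (Cfsg.Agent.Char.isCharacter_of_irr χ.2) g⁻¹
    refine le_trans (neg_le_neg ?_) (abs_le.mp (Complex.abs_re_le_norm _)).1
    rw [norm_div, norm_pow, hd1, Complex.norm_natCast, div_le_div_iff₀ (pow_pos (hdpos χ) 3) (pow_pos (hdpos χ) 2)]
    have := hdpos χ
    nlinarith [mul_le_mul_of_nonneg_right hn (sq_nonneg (d χ : ℝ))]
  have hre := congrArg Complex.re hS
  rw [Complex.re_sum, ← Finset.add_sum_erase _ _ (Finset.mem_univ χ₀), Complex.zero_re, hχ₀] at hre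
  rw [← Finset.add_sum_erase _ _ (Finset.mem_univ χ₀), hd0] at h
  have := Finset.sum_le_sum hlow
  rw [Finset.sum_neg_distrib] at this
  simp at hre h this
  linarith

end Cfsg.Agent.S4814
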