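import Cfsg.Statements.S4838
import Cfsg.Agent.Gagola.Char
import Cfsg.Agent.Gagola.Structure
-- import your own Cfsg.Agent.* helpers here

set_option autoImplicit false
open Cfsg

namespace Cfsg.Agent.S4838

/-- Let G be a finite group of order greater than 2 with an irreducible character χ nonzero on exactly two conjugacy classes, N the normal p-subgroup of elements where χ is nonzero, and P a Sylow p-subgroup of G. Then (a) for every x outside N the centralizer of x in G has the same order as the centralizer of xN in G/N; (b) the centre of P lies in N, and equals N exactly when P is normal in G; (c) N, viewed inside P, is a term of the upper central series of P. -/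
theorem result {G : Type*} [Group G] [Finite G] (hG : 2 < Nat.card G) (χ : Cfsg.IrrCharacter G) (hχ : Nat.card {C : ConjClasses G // ∃ g ∈ C.carrier, (χ : G → ℂ) g ≠ 0} = 2) (p : ℕ) [Fact p.Prime] (N : Subgroup G) [N.Normal] (hN : ∀ g : G, g ∈ N ↔ (χ : G → ℂ) g ≠ 0) (hNp : IsPGroup p N) (hN1 : N ≠ ⊥) (P : Sylow p G) :
    (∀ x : G, x ∉ N → Nat.card (Subgroup.centralizer ({x} : Set G)) = Nat.card (Subgroup.centralizer ({(x : G ⧸ N)} : Set (G ⧸ N)))) ∧
      ((Subgroup.center ↥(P : Subgroup G)).map (P : Subgroup G).subtype ≤ N ∧
        ((Subgroup.center ↥(P : Subgroup G)).map (P : Subgroup G).subtype = N ↔ (P : Subgroup G).Normal)) ∧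
      (∃ i : ℕ, Subgroup.upperCentralSeries ↥(P : Subgroup G) i = N.subgroupOf (P : Subgroup G)) := by
  obtain ⟨-, hc⟩ := Agent.Gagola.config_of_support hG χ hχ p N hN hNp
  exact ⟨fun x hx => hc.card_centralizer_quotient hx, ⟨hc.center_le P, hc.center_eq_iff P⟩,
    hc.exists_upperCentralSeries_eq P⟩

end Cfsg.Agent.S4838
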