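import Cfsg.Statements.S4840
import Cfsg.Agent.Gagola.Solvable
-- import your own Cfsg.Agent.* helpers here

set_option autoImplicit false
open Cfsg

namespace Cfsg.Agent.S4840

/-- Let G be a finite solvable group of order greater than 2 with an irreducible character nonzero on exactly two conjugacy classes. Then there is exactly one prime p with O_p(G) ≠ 1, and the quotient G/O_p(G) has a normal p-complement and commutative Sylow p-subgroups. -/
theorem result {G : Type*} [Group G] [Finite G] [hs : Group.IsSolvable G] (hG : 2 < Nat.card G) (χ : Cfsg.IrrCharacter G) (hχ : Nat.card {C : ConjClasses G // ∃ g ∈ C.carrier, (χ : G → ℂ) g ≠ 0} = 2) :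
    ∃ p : ℕ, p.Prime ∧ (∀ q : ℕ, q.Prime → (Cfsg.pCore q G ≠ ⊥ ↔ q = p)) ∧
      Cfsg.HasNormalPComplement p (G ⧸ Cfsg.pCore p G) ∧ ∀ Q : Sylow p (G ⧸ Cfsg.pCore p G), IsMulCommutative (Q : Subgroup (G ⧸ Cfsg.pCore p G)) := by
  exact Agent.Gagola.solvable_top hG χ hχ

end Cfsg.Agent.S4840
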