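import Cfsg.Statements.S4848
import Cfsg.Agent.VanishPPower.Basic
import Cfsg.Agent.S4456
import Cfsg.Agent.S0191
import Cfsg.Agent.CharInd.Frobenius

set_option autoImplicit false
open Cfsg

namespace Cfsg.Agent.S4848

/-- Let p be a prime and G a finite non-commutative group in which every vanishing element (an element at which some irreducible character is zero) has order a positive power of p. Then either G is a p-group, or the centre of G equals O_p(G) and G/Z(G) is a Frobenius group with a Frobenius complement of p-power order. -/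
theorem result {G : Type*} [Group G] [Finite G] (hna : ¬ IsMulCommutative G) (p : ℕ) [Fact p.Prime] (hvan : ∀ g : G, (∃ χ : Cfsg.IrrCharacter G, (χ : G → ℂ) g = 0) → ∃ m : ℕ, 1 ≤ m ∧ orderOf g = p ^ m) :
    IsPGroup p G ∨ (Subgroup.center G = Cfsg.pCore p G ∧ ∃ H : Subgroup (G ⧸ Subgroup.center G), Cfsg.IsFrobeniusComplement H ∧ IsPGroup p H) := by
  classical
  letI := Fintype.ofFinite G
  have hp : p.Prime := Fact.out
  have hnz : ∀ g : G, (∀ m : ℕ, orderOf g ≠ p ^ m) →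
      ∀ χ : Cfsg.IrrCharacter G, (χ : G → ℂ) g ≠ 0 := by
    intro g hg χ h0
    obtain ⟨m, -, hm⟩ := hvan g ⟨χ, h0⟩
    exact hg m hm
  -- a zero of every non-linear character
  have hzero : ∀ χ : Cfsg.IrrCharacter G, (χ : G → ℂ) 1 ≠ 1 → ∃ g : G, (χ : G → ℂ) g = 0 := by
    intro χ hχ
    obtain ⟨n, ρ, hρ, he⟩ := χ.2
    haveI := hρ
    have h1 : (χ : G → ℂ) 1 = (Module.finrank ℂ (Fin n → ℂ) : ℂ) := by rw [← he, ρ.char_one]
    have hne0 : Module.finrank ℂ (Fin n → ℂ) ≠ 0 := fun h =>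
      Cfsg.Agent.Char.irr_one_ne_zero χ.2 (by rw [h1, h, Nat.cast_zero])
    have hne1 : Module.finrank ℂ (Fin n → ℂ) ≠ 1 := fun h => hχ (by rw [h1, h, Nat.cast_one])
    obtain ⟨g, hg⟩ := Cfsg.Agent.S0191.result ρ (by omega)
    exact ⟨g, by rw [← he]; exact hg⟩
  have hdeg : ∀ χ : Cfsg.IrrCharacter G, Cfsg.charDegree (χ : G → ℂ) ≠ 1 →
      p ∣ Cfsg.charDegree (χ : G → ℂ) := by
    intro χ hχ
    have hc := Cfsg.Agent.Char.isCharacter_of_irr χ.2
    obtain ⟨g, hg⟩ := hzero χ fun h => hχ ((Cfsg.Agent.SeenOnce.charDegree_eq_one_iff hc).2 h)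
    obtain ⟨m, -, hm⟩ := hvan g ⟨χ, hg⟩
    obtain ⟨d, hd⟩ := Cfsg.Agent.Char.isCharacter_one_nat hc
    rw [Cfsg.Agent.SeenOnce.charDegree_eq hd]
    exact Cfsg.Agent.SeenOnce.dvd_degree_of_vanish hc hm hg hd
  obtain ⟨N, hNn, hcop, k, hk⟩ := Cfsg.Agent.S4456.result p hp hdeg
  haveI := hNn
  obtain ⟨P⟩ : Nonempty (Sylow p G) := inferInstance
  obtain ⟨π, hker, hπ⟩ := Cfsg.Agent.VanishPPower.exists_retraction N hcop hk P
  have hπn : ∀ a ∈ N, π a = 1 := fun a ha => by rwa [← hker, MonoidHom.mem_ker] at ha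
  by_cases hN1 : N = ⊥
  · left
    refine IsPGroup.of_card (n := k) ?_
    rw [← hk, hN1, Subgroup.index_bot]
  right
  obtain ⟨n₀, hn₀, hn₀1⟩ := N.bot_or_exists_ne_one.resolve_left hN1
  -- splitting of an element
  have hsplit : ∀ g : G, g * ((π g : (P : Subgroup G)) : G)⁻¹ ∈ N := fun g => by
    rw [← hker, MonoidHom.mem_ker, map_mul, map_inv, hπ, mul_inv_cancel]
  have hPN : ∀ a : G, a ∈ N → a ∈ (P : Subgroup G) → a = 1 := fun a ha haP => by
    have h1 := hπ ⟨a, haP⟩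
    rw [hπn a ha] at h1
    exact (congrArg Subtype.val h1).symm
  have key : ∀ (x : (P : Subgroup G)) (n : G), n ∈ N → n ≠ 1 → Commute n (x : G) →
      x ∈ Subgroup.center (P : Subgroup G) ∧ ∀ a ∈ N, Commute a (x : G) :=
    Cfsg.Agent.VanishPPower.centralizes_of_commute N hcop P π hker hπ hnz
  -- the centraliser of `N` in `P` is central
  have hQZ : ∀ x : (P : Subgroup G), (∀ a ∈ N, Commute a (x : G)) →
      (x : G) ∈ Subgroup.center G := by
    intro x hx
    obtain ⟨hxc, -⟩ := key x n₀ hn₀ hn₀1 (hx n₀ hn₀)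
    rw [Subgroup.mem_center_iff]
    intro g
    have h1 : (π g : (P : Subgroup G)) * x = x * π g := Subgroup.mem_center_iff.1 hxc _
    have h1' : Commute ((π g : (P : Subgroup G)) : G) (x : G) := congrArg Subtype.val h1
    have h2 := (hx _ (hsplit g)).mul_left h1'
    rwa [inv_mul_cancel_right] at h2
  -- `P` does not centralise `N`
  obtain ⟨x₀, hx₀⟩ : ∃ x : (P : Subgroup G), ¬ ∀ a ∈ N, Commute a (x : G) := by
    by_contra hall
    simp only [not_exists, not_not] at hall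
    have hPc : ∀ y : (P : Subgroup G), (y : G) ∈ Subgroup.center G := fun y => hQZ y (hall y)
    -- the retraction onto `N`
    let σ : G →* N :=
      { toFun := fun g => ⟨g * ((π g : (P : Subgroup G)) : G)⁻¹, hsplit g⟩
        map_one' := Subtype.ext (by simp)
        map_mul' := fun a b => Subtype.ext (by
          simp only [map_mul, Subgroup.coe_mul, mul_inv_rev]
          have hc := Subgroup.mem_center_iff.1 ((Subgroup.center G).inv_mem (hPc (π a)))
          rw [mul_assoc a b, ← mul_assoc b, hc (b * ((π b : (P : Subgroup G)) : G)⁻¹), ← mul_assoc a]) }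
    have hσs : Function.Surjective σ := fun a => ⟨(a : G), Subtype.ext (by
      show (a : G) * ((π (a : G) : (P : Subgroup G)) : G)⁻¹ = a
      rw [hπn _ a.2, OneMemClass.coe_one, inv_one, mul_one])⟩
    have hlin : ∀ θ : Cfsg.IrrCharacter N, (θ : N → ℂ) 1 = 1 := by
      intro θ
      by_contra hne
      let χ : Cfsg.IrrCharacter G :=
        ⟨fun g => (θ : N → ℂ) (σ g), Cfsg.Agent.CharInd.irr_comp_surjective σ hσs θ.2⟩
      obtain ⟨g, hg⟩ := hzero χ (by show (θ : N → ℂ) (σ 1) ≠ 1; rwa [map_one])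
      have hg2 : (χ : G → ℂ) ((σ g : N) : G) = 0 := by
        show (θ : N → ℂ) (σ ((σ g : N) : G)) = 0
        rw [show σ ((σ g : N) : G) = σ g from Subtype.ext (by
          show ((σ g : N) : G) * ((π ((σ g : N) : G) : (P : Subgroup G)) : G)⁻¹ = (σ g : N)
          rw [hπn _ (σ g).2, OneMemClass.coe_one, inv_one, mul_one])]
        exact hg
      obtain ⟨m, -, hm⟩ := hvan _ ⟨χ, hg2⟩
      have h1 : ((σ g : N) : G) = 1 := orderOf_eq_one_iff.1
        (Nat.eq_one_of_dvd_coprimes (hcop.pow_right m) (Subgroup.orderOf_dvd_natCard _ (σ g).2)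
          (dvd_of_eq hm))
      rw [h1] at hg2
      exact Cfsg.Agent.Char.irr_one_ne_zero χ.2 hg2
    have hNab : ∀ a ∈ N, ∀ b ∈ N, a * b = b * a := by
      intro a ha b hb
      have hc : (⟨a, ha⟩ : N) * ⟨b, hb⟩ * (⟨a, ha⟩ : N)⁻¹ * (⟨b, hb⟩ : N)⁻¹ = 1 :=
        Cfsg.Agent.CharInd.eq_one_of_forall_irr fun χ hχ =>
          (Cfsg.Agent.Char.linear_eq_one_of_mem_commutator
            (Cfsg.Agent.Char.isCharacter_of_irr hχ) (hlin ⟨χ, hχ⟩)
            (Subgroup.commutator_mem_commutator (Subgroup.mem_top _) (Subgroup.mem_top _))).trans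
            (hlin ⟨χ, hχ⟩).symm
      have hc' : a * b * a⁻¹ * b⁻¹ = 1 := congrArg Subtype.val hc
      rwa [mul_inv_eq_one, mul_inv_eq_iff_eq_mul] at hc'
    refine hna ⟨⟨fun a b => ?_⟩⟩
    have ha := Subgroup.mem_center_iff.1 (hPc (π a))
    have hb := Subgroup.mem_center_iff.1 (hPc (π b))
    have hab : Commute (a * ((π a : (P : Subgroup G)) : G)⁻¹) (b * ((π b : (P : Subgroup G)) : G)⁻¹) :=
      hNab _ (hsplit a) _ (hsplit b)
    have h4 : Commute (a * ((π a : (P : Subgroup G)) : G)⁻¹)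
        ((π b : (P : Subgroup G)) : G) := hb _
    have h5 : Commute ((π a : (P : Subgroup G)) : G)
        (b * ((π b : (P : Subgroup G)) : G)⁻¹ * ((π b : (P : Subgroup G)) : G)) := (ha _).symm
    have h3 := (hab.mul_right h4).mul_left h5
    rwa [inv_mul_cancel_right, inv_mul_cancel_right] at h3
  -- the centre
  have hZP : ∀ z ∈ Subgroup.center G, z ∈ (P : Subgroup G) := by
    intro z hz
    set n := z * ((π z : (P : Subgroup G)) : G)⁻¹ with hn
    by_contra hzP
    have hn1 : n ≠ 1 := fun h => hzP (by rw [hn, mul_inv_eq_one] at h; rw [h]; exact (π z).2)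
    have hzx : (π z : (P : Subgroup G)) * x₀ = x₀ * π z := by
      rw [show x₀ = π (x₀ : G) from (hπ x₀).symm, ← map_mul, ← map_mul,
        ← Subgroup.mem_center_iff.1 hz (x₀ : G)]
    have hzx' : Commute ((π z : (P : Subgroup G)) : G) (x₀ : G) := congrArg Subtype.val hzx
    have hzc : Commute z (x₀ : G) := (Subgroup.mem_center_iff.1 hz (x₀ : G)).symm
    exact hx₀ (key x₀ n (hsplit z) hn1 (hzc.mul_left hzx'.inv_left)).2
  have hZp : IsPGroup p (Subgroup.center G) := P.isPGroup'.to_le hZP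
  have hZeq : Subgroup.center G = Cfsg.pCore p G := by
    refine le_antisymm (le_sSup ⟨inferInstance, hZp⟩) (sSup_le ?_)
    rintro M ⟨hMn, hMp⟩ m hm
    obtain ⟨R, hR⟩ := hMp.exists_le_sylow
    obtain ⟨g, hg⟩ := MulAction.exists_smul_eq G R P
    have hMP : ∀ y ∈ M, y ∈ (P : Subgroup G) := fun y hy => by
      rw [← hg]
      exact ⟨g⁻¹ * y * g, hR (by simpa using hMn.conj_mem y hy g⁻¹), by simp [mul_assoc]⟩
    refine hQZ ⟨m, hMP m hm⟩ fun a ha => ?_
    have h1 : a * m * a⁻¹ * m⁻¹ ∈ M := M.mul_mem (hMn.conj_mem m hm a) (M.inv_mem hm)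
    have h2 : a * m * a⁻¹ * m⁻¹ ∈ N := by
      rw [mul_assoc, mul_assoc, ← mul_assoc m]
      exact N.mul_mem ha (hNn.conj_mem a⁻¹ (N.inv_mem ha) m)
    have h3 := hPN _ h2 (hMP _ h1)
    rwa [mul_inv_eq_one, mul_inv_eq_iff_eq_mul] at h3
  refine ⟨hZeq, (P : Subgroup G).map (QuotientGroup.mk' (Subgroup.center G)), ⟨?_, ?_, ?_⟩,
    P.isPGroup'.map _⟩
  · intro hbot
    have h1 : QuotientGroup.mk' (Subgroup.center G) (x₀ : G) ∈
        (P : Subgroup G).map (QuotientGroup.mk' (Subgroup.center G)) := ⟨_, x₀.2, rfl⟩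
    rw [hbot, Subgroup.mem_bot] at h1
    exact hx₀ fun a _ => Subgroup.mem_center_iff.1 ((QuotientGroup.eq_one_iff _).1 h1) a
  · intro htop
    obtain ⟨y, hy, hy'⟩ := htop.symm ▸ Subgroup.mem_top (QuotientGroup.mk' (Subgroup.center G) n₀)
    have h1 : y⁻¹ * n₀ ∈ Subgroup.center G := QuotientGroup.eq.1 hy'
    refine hn₀1 (hPN n₀ hn₀ ?_)
    have h2 := mul_mem hy (hZP _ h1)
    rwa [mul_inv_cancel_left] at h2
  · intro q hq
    obtain ⟨g, rfl⟩ := QuotientGroup.mk'_surjective _ q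
    set y : G := ((π g : (P : Subgroup G)) : G) with hy
    set n : G := g * y⁻¹ with hn
    have hn1 : n ≠ 1 := fun h => hq ⟨y, (π g).2, by
      rw [hn, mul_inv_eq_one] at h
      rw [h]⟩
    rw [Subgroup.eq_bot_iff_forall]
    rintro h ⟨⟨x, hx, rfl⟩, ⟨_, ⟨x', hx', rfl⟩, hconj⟩⟩
    replace hconj : QuotientGroup.mk' (Subgroup.center G) (g * x' * g⁻¹) =
        QuotientGroup.mk' (Subgroup.center G) x := by
      rw [map_mul, map_mul, map_inv]
      exact hconj
    have h1 : (g * x' * g⁻¹)⁻¹ * x ∈ Subgroup.center G := QuotientGroup.eq.1 hconj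
    have hP1 : g * x' * g⁻¹ ∈ (P : Subgroup G) := by
      have h2 := mul_mem hx (inv_mem (hZP _ h1))
      rwa [mul_inv_rev, inv_inv, mul_inv_cancel_left] at h2
    set x'' : (P : Subgroup G) := π g * ⟨x', hx'⟩ * (π g)⁻¹
    have h3 : (x'' : G) = g * x' * g⁻¹ := by
      have h4 := hπ ⟨_, hP1⟩
      simp only [map_mul, map_inv, hπ ⟨x', hx'⟩] at h4
      exact congrArg Subtype.val h4
    have h5 : Commute n (x'' : G) := by
      have h6 : n * (x'' : G) * n⁻¹ = x'' := by
        conv_rhs => rw [h3]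
        simp [x'', n, y, mul_assoc]
      exact mul_inv_eq_iff_eq_mul.1 h6
    have h7 := hQZ x'' (key x'' n (hsplit g) hn1 h5).2
    rw [← hconj]
    exact (QuotientGroup.eq_one_iff _).2 (h3 ▸ h7)

end Cfsg.Agent.S4848
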