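import Cfsg.Statements.S4850
import Cfsg.Agent.VanishOrd.Orders
import Cfsg.Agent.FGSev.Subnormalizer

set_option autoImplicit false
open Cfsg

namespace Cfsg.Agent.S4850

/-- Let p be a prime and G a finite solvable group whose vanishing elements (elements at which some irreducible character is zero) of order divisible by p all have the same order, with at least one such element. Let P be a Sylow p-subgroup of G. Then the derived subgroup of P is subnormal in G and the image of P in G/O_p(G) is cyclic. -/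
theorem result {G : Type*} [Group G] [Finite G] [hs : Group.IsSolvable G] (p : ℕ) [Fact p.Prime] (b : ℕ) (hvo : {n : ℕ | p ∣ n ∧ ∃ (g : G) (χ : Cfsg.IrrCharacter G), orderOf g = n ∧ (χ : G → ℂ) g = 0} = {b}) (P : Sylow p G) :
    ((commutator ↥(P : Subgroup G)).map (P : Subgroup G).subtype).IsSubnormal ∧ IsCyclic ↥((P : Subgroup G).map (QuotientGroup.mk' (Cfsg.pCore p G))) := by
  classical
  have hp : p.Prime := Fact.out
  have hord : ∀ g : G, p ∣ orderOf g → Cfsg.Agent.VanishOrd.Van g → orderOf g = b := by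
    rintro g hg ⟨χ, hχ⟩
    have h : orderOf g ∈ ({b} : Set ℕ) := hvo ▸ ⟨hg, g, χ, rfl, hχ⟩
    exact h
  have hv : Cfsg.Agent.VanishOrd.VHyp p G := by
    constructor
    · rintro ⟨x, hx1, ⟨k, hk⟩, hx⟩ g hg hpg
      have hk0 : k ≠ 0 := fun e => hx1 (orderOf_eq_one_iff.mp (by rw [hk, e, pow_zero]))
      exact ⟨k, by rw [hord g hpg hg, ← hord x (hk ▸ dvd_pow_self p hk0) hx, hk]⟩
    · rintro x ⟨k, hk⟩ hx hne hvx
      have hk0 : k ≠ 0 := fun e => hne (by
        rw [orderOf_eq_one_iff.mp (show orderOf x = 1 by rw [hk, e, pow_zero]), one_pow])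
      have h1 : orderOf (x ^ p) = p ^ (k - 1) := by
        rw [orderOf_pow' x hp.ne_zero, hk, Nat.gcd_eq_right (dvd_pow_self p hk0)]
        obtain ⟨j, rfl⟩ : ∃ j, k = j + 1 := ⟨k - 1, by omega⟩
        rw [pow_succ, Nat.mul_div_cancel _ hp.pos, Nat.add_sub_cancel]
      have hk1 : k - 1 ≠ 0 := fun e => hne (orderOf_eq_one_iff.mp (by rw [h1, e, pow_zero]))
      have h2 := hord x (hk ▸ dvd_pow_self p hk0) hx
      have h3 := hord (x ^ p) (h1 ▸ dvd_pow_self p hk1) hvx
      rw [hk] at h2
      rw [h1, ← h2] at h3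
      have := Nat.pow_right_injective hp.two_le h3
      omega
  have hrel := Cfsg.Agent.VanishOrd.relIndex_pCore_dvd (p := p) (Nat.card G) G le_rfl hv P
  set π := QuotientGroup.mk' (Cfsg.pCore p G) with hπ
  have hcard : Nat.card ((P : Subgroup G).map π) ∣ p := by
    have h1 := Subgroup.relIndex_map_map π (Cfsg.pCore p G) (P : Subgroup G)
    rw [hπ, QuotientGroup.map_mk'_self, Subgroup.relIndex_bot_left, QuotientGroup.ker_mk', sup_idem,
      sup_eq_left.mpr (Cfsg.Agent.Cores.pCore_le_sylow P)] at h1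
    rw [hπ, h1]
    exact hrel
  haveI hcyc : IsCyclic ((P : Subgroup G).map π) := isCyclic_of_card_dvd_prime hcard
  refine ⟨?_, hcyc⟩
  set D := (commutator ↥(P : Subgroup G)).map (P : Subgroup G).subtype with hD
  have hDO : D ≤ Cfsg.pCore p G := by
    rw [hD, commutator_def, Subgroup.map_commutator, ← MonoidHom.range_eq_map,
      Subgroup.range_subtype, Subgroup.commutator_le]
    intro a ha c hc
    rw [← QuotientGroup.eq_one_iff, ← QuotientGroup.mk'_apply, map_commutatorElement,
      commutatorElement_eq_one_iff_commute]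
    exact congrArg Subtype.val
      (IsCyclic.commGroup.mul_comm (⟨π a, Subgroup.mem_map_of_mem π ha⟩ : (P : Subgroup G).map π)
        ⟨π c, Subgroup.mem_map_of_mem π hc⟩)
  haveI := (Cfsg.Agent.Cores.pCore_isPGroup (p := p) (G := G)).isNilpotent
  exact Subgroup.IsSubnormal.trans hDO (Cfsg.Agent.FGSev.isSubnormal_of_isNilpotent _)
    (Subgroup.Normal.isSubnormal inferInstance)

end Cfsg.Agent.S4850
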