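import Cfsg.Statements.S4856
import Cfsg.Agent.Char.Kernel
-- import your own Cfsg.Agent.* helpers here

set_option autoImplicit false
open Cfsg

namespace Cfsg.Agent.S4856

/-- For an element z of a finite group G, the number of pairs (x, y) of elements with x y x⁻¹ y⁻¹ = z equals the order of G times the sum over the irreducible characters χ of χ(z)/χ(1). -/
theorem result {G : Type*} [Group G] [Finite G] (z : G) : (Nat.card {xy : G × G // xy.1 * xy.2 * xy.1⁻¹ * xy.2⁻¹ = z} : ℂ) = (Nat.card G : ℂ) * ∑ᶠ χ : Cfsg.IrrCharacter G, (χ : G → ℂ) z / (χ : G → ℂ) 1 := by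
  classical
  letI := Fintype.ofFinite G
  have hcard : ∀ x : G, (Nat.card {y : G // x * y * x⁻¹ * y⁻¹ = z} : ℂ) =
      ∑ χ : Cfsg.IrrCharacter G, (starRingEnd ℂ) ((χ : G → ℂ) x) * (χ : G → ℂ) (z⁻¹ * x) := by
    intro x
    have h := Agent.Char.sum_irr_mul_conj x⁻¹ (x⁻¹ * z)
    have h2 : ∀ χ : Cfsg.IrrCharacter G,
        (χ : G → ℂ) x⁻¹ * (starRingEnd ℂ) ((χ : G → ℂ) (x⁻¹ * z)) =
        (starRingEnd ℂ) ((χ : G → ℂ) x) * (χ : G → ℂ) (z⁻¹ * x) := fun χ => by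
      rw [Agent.Char.irr_inv χ.2, ← Agent.Char.irr_inv χ.2 (x⁻¹ * z), mul_inv_rev, inv_inv]
    rw [Finset.sum_congr rfl fun χ _ => (h2 χ).symm, h]
    by_cases hc : IsConj x⁻¹ (x⁻¹ * z)
    · rw [if_pos hc]
      obtain ⟨c, hc'⟩ := isConj_iff.mp hc
      congr 1
      refine Nat.card_congr ⟨fun y => ⟨c⁻¹ * y, ?_⟩, fun y => ⟨c * y, ?_⟩, fun y => ?_, fun y => ?_⟩
      · rw [Subgroup.mem_centralizer_singleton_iff]
        calc c⁻¹ * y.1 * x⁻¹ = c⁻¹ * (x⁻¹ * (x * y.1 * x⁻¹ * y.1⁻¹)) * y.1 := by group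
          _ = c⁻¹ * (c * x⁻¹ * c⁻¹) * y.1 := by rw [y.2, hc']
          _ = x⁻¹ * (c⁻¹ * y.1) := by group
      · have hy := Subgroup.mem_centralizer_singleton_iff.mp y.2
        calc x * (c * y) * x⁻¹ * (c * y)⁻¹ = x * (c * (y * x⁻¹) * ((y : G)⁻¹ * c⁻¹)) := by group
          _ = x * (c * x⁻¹ * c⁻¹) := by rw [hy]; group
          _ = z := by rw [hc']; group
      · exact Subtype.ext (mul_inv_cancel_left c y.1)
      · exact Subtype.ext (inv_mul_cancel_left c (y : G))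
    · rw [if_neg hc, Nat.cast_eq_zero, Nat.card_eq_zero]
      refine Or.inl ⟨fun y => hc (isConj_iff.mpr ⟨y.1, ?_⟩)⟩
      calc y.1 * x⁻¹ * y.1⁻¹ = x⁻¹ * (x * y.1 * x⁻¹ * y.1⁻¹) := by group
        _ = x⁻¹ * z := by rw [y.2]
  have hsum : ∀ χ : Cfsg.IrrCharacter G,
      ∑ x : G, (starRingEnd ℂ) ((χ : G → ℂ) x) * (χ : G → ℂ) (z⁻¹ * x) =
        (Nat.card G : ℂ) * ((χ : G → ℂ) z⁻¹ / (χ : G → ℂ) 1) := by
    intro χ
    obtain ⟨n, ρ, hρ, hχ⟩ := χ.2
    haveI := hρ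
    have hf : Cfsg.IsClassFunction G (fun g => (starRingEnd ℂ) ((χ : G → ℂ) g)) := fun g h =>
      congrArg (starRingEnd ℂ) (Agent.Char.irr_isClassFunction χ.2 g h)
    have h := congrArg (fun T => LinearMap.trace ℂ _ (ρ z⁻¹ * T)) (Agent.Char.sum_smul_eq_smul_id ρ hf)
    have hs : ∑ g : G, (starRingEnd ℂ) ((χ : G → ℂ) g) * ρ.character g = (Nat.card G : ℂ) := by
      have h3 := Agent.Char.sum_mul_conj_eq_card_mul_classInner (χ : G → ℂ) (χ : G → ℂ)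
      rw [Agent.Char.classInner_irr_self χ.2, mul_one] at h3
      rw [← h3]
      exact Finset.sum_congr rfl fun g _ => by rw [hχ, mul_comm]
    simp only [Finset.mul_sum, mul_smul_comm, ← map_mul, map_sum, map_smul, ← Module.End.one_eq_id,
      mul_one, smul_eq_mul, hs] at h
    have h1 : (χ : G → ℂ) 1 = (Module.finrank ℂ (Fin n → ℂ) : ℂ) := by
      rw [← hχ]; exact ρ.char_one
    rw [h1, ← hχ]
    rw [← hχ] at h
    calc ∑ x : G, (starRingEnd ℂ) (ρ.character x) * ρ.character (z⁻¹ * x)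
        = (Nat.card G : ℂ) / (Module.finrank ℂ (Fin n → ℂ) : ℂ) * ρ.character z⁻¹ := h
      _ = _ := by ring
  have hN : (Nat.card {xy : G × G // xy.1 * xy.2 * xy.1⁻¹ * xy.2⁻¹ = z} : ℂ) =
      ∑ x : G, (Nat.card {y : G // x * y * x⁻¹ * y⁻¹ = z} : ℂ) := by
    rw [← Nat.cast_sum, ← Nat.card_sigma]
    congr 1
    exact Nat.card_congr ⟨fun a => ⟨a.1.1, a.1.2, a.2⟩, fun a => ⟨(a.1, a.2.1), a.2.2⟩,
      fun _ => rfl, fun _ => rfl⟩
  have key := congrArg (starRingEnd ℂ) (hN.trans ((Finset.sum_congr rfl fun x _ => hcard x).trans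
    (Finset.sum_comm.trans (Finset.sum_congr rfl fun χ _ => hsum χ))))
  rw [Complex.conj_natCast] at key
  rw [key, map_sum, finsum_eq_sum_of_fintype, Finset.mul_sum]
  refine Finset.sum_congr rfl fun χ _ => ?_
  obtain ⟨m, -, hm⟩ := Agent.Char.irr_one_pos χ.2
  rw [map_mul, map_div₀, Complex.conj_natCast, hm, Complex.conj_natCast,
    ← Agent.Char.irr_inv χ.2, inv_inv]

end Cfsg.Agent.S4856
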