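import Cfsg.Statements.S4864
import Cfsg.Agent.RealDeg.RealMeet

set_option autoImplicit false
open Cfsg

namespace Cfsg.Agent.S4864

/-- Let p be a prime and G a finite group such that the subgroup generated by the p-elements of G is solvable and every real-valued irreducible complex character of G has degree prime to p. Then the normalizer of a Sylow p-subgroup of G contains an element of every real conjugacy class of G: every element conjugate to its inverse is conjugate to an element of that normalizer. -/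
theorem result {G : Type*} [Group G] [Finite G] (p : ℕ) [Fact p.Prime] (hsolv : Group.IsSolvable ↥(Subgroup.closure {g : G | ∃ k : ℕ, orderOf g = p ^ k})) (hreal : ∀ χ : Cfsg.IrrCharacter G, (∀ g : G, ((χ : G → ℂ) g).im = 0) → ¬ p ∣ Cfsg.charDegree (χ : G → ℂ)) (P : Sylow p G) (x : G) (hx : IsConj x x⁻¹) : ∃ y ∈ Subgroup.normalizer ((P : Subgroup G) : Set G), IsConj x y := by
  classical
  haveI : Fact (Nat.Prime 2) := ⟨Nat.prime_two⟩
  set K := Cfsg.Agent.RealDeg.elemGen 2 G with hKdef
  have h2mem : ∀ y : G, ∀ a : ℕ, y ^ (2 ^ a) = 1 → y ∈ K := fun y a hy => by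
    obtain ⟨i, -, hi⟩ := (Nat.dvd_prime_pow Nat.prime_two).mp (orderOf_dvd_of_pow_eq_one hy)
    exact Cfsg.Agent.RealDeg.mem_elemGen ⟨i, hi⟩
  -- the index is odd
  have hodd : Odd K.index := by
    rw [← Nat.not_even_iff_odd, even_iff_two_dvd, Subgroup.index_eq_card]
    intro hdvd
    obtain ⟨z, hz⟩ := exists_prime_orderOf_dvd_card' 2 hdvd
    have h1 : z ∈ (K.map (QuotientGroup.mk' K)) := by
      refine (Cfsg.Agent.RealDeg.map_elemGen Nat.prime_two K).symm ▸ ?_
      exact Cfsg.Agent.RealDeg.mem_elemGen ⟨1, by rw [hz, pow_one]⟩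
    rw [QuotientGroup.map_mk'_self, Subgroup.mem_bot] at h1
    rw [h1, orderOf_one] at hz
    exact absurd hz (by norm_num)
  -- a conjugating element and `x` itself lie in `K`
  obtain ⟨g, hg⟩ := isConj_iff.mp hx
  set o := orderOf g with ho
  set m := ordCompl[2] o with hm
  have hmodd : Odd m := by
    rw [← Nat.not_even_iff_odd, even_iff_two_dvd]
    exact Nat.not_dvd_ordCompl Nat.prime_two (orderOf_pos g).ne'
  have hgK : g ^ m ∈ K := h2mem _ (o.factorization 2) (by
    rw [← pow_mul, mul_comm, Nat.ordProj_mul_ordCompl_eq_self, ho, pow_orderOf_eq_one])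
  have hit : ∀ j : ℕ, g ^ j * x * (g ^ j)⁻¹ = (fun y : G => y⁻¹)^[j] x := by
    intro j
    induction j with
    | zero => simp
    | succ j ih =>
      rw [Function.iterate_succ_apply', ← ih]
      calc g ^ (j + 1) * x * (g ^ (j + 1))⁻¹ = g ^ j * (g * x * g⁻¹) * (g ^ j)⁻¹ := by
            rw [pow_succ]; group
        _ = (g ^ j * x * (g ^ j)⁻¹)⁻¹ := by rw [hg]; group
  have hinv : g ^ m * x * (g ^ m)⁻¹ = x⁻¹ := by
    rw [hit, Function.Involutive.iterate_odd inv_involutive hmodd]
  have hx2 : x ^ 2 ∈ K := by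
    have h1 : g ^ m * (x * (g ^ m)⁻¹ * x⁻¹) ∈ K :=
      K.mul_mem hgK (Subgroup.Normal.conj_mem inferInstance _ (K.inv_mem hgK) x)
    rw [← mul_assoc, ← mul_assoc, hinv] at h1
    have h2 := K.inv_mem h1
    rwa [mul_inv_rev, inv_inv, ← pow_two] at h2
  have hxK : x ∈ K := by
    set m' := ordCompl[2] (orderOf x) with hm'
    have h1 : x ^ m' ∈ K := h2mem _ ((orderOf x).factorization 2) (by
      rw [← pow_mul, mul_comm, Nat.ordProj_mul_ordCompl_eq_self, pow_orderOf_eq_one])
    obtain ⟨t, ht⟩ : Odd m' := by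
      rw [← Nat.not_even_iff_odd, even_iff_two_dvd]
      exact Nat.not_dvd_ordCompl Nat.prime_two (orderOf_pos x).ne'
    rw [ht, pow_succ, pow_mul] at h1
    exact (K.mul_mem_cancel_left (K.pow_mem hx2 t)).mp h1
  -- the Sylow subgroup of `K`
  obtain ⟨R⟩ : Nonempty (Sylow p K) := inferInstance
  set Q : Subgroup G := (R : Subgroup K).map K.subtype with hQdef
  have hQK : Q ≤ K := Subgroup.map_subtype_le _
  have hidx : ¬ p ∣ Q.relIndex K := by
    rw [Subgroup.relIndex, Subgroup.subgroupOf, hQdef,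
      Subgroup.comap_map_eq_self_of_injective K.subtype_injective]
    exact R.not_dvd_index
  have hQp : IsPGroup p Q := R.isPGroup'.map K.subtype
  haveI hQn : Q.Normal := Cfsg.Agent.RealDeg.normal_of_hyp (Nat.card G) G le_rfl hsolv hreal K Q
    inferInstance le_rfl ⟨0, by rw [pow_zero, ← hKdef, Subgroup.relIndex_self]⟩ hQp hQK hidx
  have hQP : Q ≤ (P : Subgroup G) := IsPGroup.le_sylow_of_normal hQp P
  set π := QuotientGroup.mk' Q with hπdef
  have hπ : Function.Surjective π := QuotientGroup.mk'_surjective Q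
  haveI : (K.map π).Normal := Subgroup.Normal.map inferInstance π hπ
  have hodd' : Odd (K.map π).index := by
    rw [Subgroup.index_map_eq K hπ (by rw [QuotientGroup.ker_mk']; exact hQK)]
    exact hodd
  have hK' : ¬ p ∣ Nat.card (K.map π) := by
    have h1 : (Q.map π).relIndex (K.map π) = Q.relIndex K := by
      rw [Subgroup.relIndex_map_map π, QuotientGroup.ker_mk', sup_idem, sup_eq_left.mpr hQK]
    rw [hπdef, QuotientGroup.map_mk'_self, Subgroup.relIndex_bot_left] at h1
    rwa [h1]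
  obtain ⟨c, hc⟩ := Cfsg.Agent.RealDeg.exists_conj_commute
    (Cfsg.Agent.RealDeg.hyp_quotient hreal Q) (K.map π) hodd' hK' (P.mapSurjective hπ)
    ⟨π x, Subgroup.mem_map_of_mem π hxK⟩ (isConj_iff.mpr ⟨⟨π (g ^ m), Subgroup.mem_map_of_mem π hgK⟩,
      Subtype.ext (by
        show π (g ^ m) * π x * (π (g ^ m))⁻¹ = (π x)⁻¹
        rw [← map_inv, ← map_mul, ← map_mul, hinv, map_inv])⟩)
  obtain ⟨c, rfl⟩ := hπ c
  refine ⟨c * x * c⁻¹, ?_, isConj_iff.mpr ⟨c, rfl⟩⟩
  set y := c * x * c⁻¹ with hy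
  have hconj : ∀ u ∈ (P : Subgroup G), y * u * y⁻¹ ∈ (P : Subgroup G) := by
    intro u hu
    have h1 : π u * (π c * π x * (π c)⁻¹) * (π u)⁻¹ = π c * π x * (π c)⁻¹ :=
      hc (π u) (by rw [Sylow.coe_mapSurjective]; exact Subgroup.mem_map_of_mem π hu)
    rw [← map_inv, ← map_mul, ← map_mul, ← map_inv, ← map_mul, ← map_mul, ← hy] at h1
    have h2 : u⁻¹ * (y * u * y⁻¹) ∈ Q := by
      rw [← QuotientGroup.eq_one_iff (N := Q), ← QuotientGroup.mk'_apply, ← hπdef, map_mul,
        map_mul, map_mul, map_inv, map_inv]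
      rw [map_mul, map_mul, map_inv, mul_inv_eq_iff_eq_mul] at h1
      rw [← h1]; group
    have h3 := (P : Subgroup G).mul_mem hu (hQP h2)
    rwa [mul_inv_cancel_left] at h3
  exact Subgroup.mem_normalizer_fintype (fun u hu => hconj u hu)

end Cfsg.Agent.S4864
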