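import Cfsg.Statements.S4870
import Cfsg.Agent.RealChar.LinearCount
-- import your own Cfsg.Agent.* helpers here

set_option autoImplicit false
open Cfsg

namespace Cfsg.Agent.S4870

/-- Let G be a finite group with a non-abelian minimal normal subgroup N, and let φ be an irreducible complex character of N with stabilizer I in G (the elements g with φ(g n g⁻¹) = φ(n) for all n ∈ N) such that φ extends to an irreducible character of I. Put d = φ(1)·[G : I]. Then the number of linear characters of G is at most [G : I] times the number of irreducible characters of G of degree d. -/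
theorem result {G : Type*} [Group G] [Finite G] (N : Subgroup G) (hN : N.Normal) (hN1 : N ≠ ⊥) (hmin : ∀ M : Subgroup G, M.Normal → M ≤ N → M = ⊥ ∨ M = N) (hna : ¬ IsMulCommutative ↥N) (φ : Cfsg.IrrCharacter ↥N) (I : Subgroup G) (hI : ∀ g : G, g ∈ I ↔ ∀ n n' : ↥N, (n' : G) = g * (n : G) * g⁻¹ → (φ : ↥N → ℂ) n' = (φ : ↥N → ℂ) n) (hNI : N ≤ I) (hext : ∃ ψ : Cfsg.IrrCharacter ↥I, ∀ n : ↥N, (ψ : ↥I → ℂ) (Subgroup.inclusion hNI n) = (φ : ↥N → ℂ) n) : Nat.card {χ : Cfsg.IrrCharacter G // Cfsg.charDegree (χ : G → ℂ) = 1} ≤ I.index * Nat.card {χ : Cfsg.IrrCharacter G // Cfsg.charDegree (χ : G → ℂ) = Cfsg.charDegree (φ : ↥N → ℂ) * I.index} := by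
  classical
  letI := Fintype.ofFinite G
  letI := Fintype.ofFinite ↥I
  haveI := hN
  have hperf : ∀ (f : G →* ℂˣ) (n : ↥N), f n = 1 := by
    intro f n
    have htop : (commutator ↥N).map N.subtype = N := by
      refine (hmin _ inferInstance (Subgroup.map_subtype_le _)).resolve_left fun h => hna ?_
      rw [Subgroup.map_eq_bot_iff_of_injective _ N.subtype_injective, commutator_def,
        Subgroup.commutator_eq_bot_iff_le_centralizer] at h
      exact ⟨⟨fun a b => (h (Subgroup.mem_top b) a (Subgroup.mem_top a))⟩⟩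
    have hmem : (n : G) ∈ commutator G := by
      have h1 : (n : G) ∈ (commutator ↥N).map N.subtype := by rw [htop]; exact n.2
      rw [Subgroup.map_subtype_commutator] at h1
      exact Subgroup.commutator_mono le_top le_top h1
    exact (Abelianization.commutator_subset_ker f) hmem
  haveI : Finite (G →* ℂˣ) := Agent.Char.monoidHom_complex_finite
  haveI : Finite (↥I →* ℂˣ) := Agent.Char.monoidHom_complex_finite
  obtain ⟨ψ, hψ⟩ := hext
  obtain ⟨F, hF, hF'⟩ := Agent.RealChar.exists_injective_induced N hN φ I hI hNI ψ hψ hperf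
  have h1 := Agent.RealChar.card_le_index_mul_image I (Set.univ : Set (G →* ℂˣ))
  have h2 : Nat.card {χ : Cfsg.IrrCharacter G // Cfsg.charDegree (χ : G → ℂ) = 1} ≤
      (Set.univ : Set (G →* ℂˣ)).ncard := by
    rw [Set.ncard_univ]
    choose f hf using fun χ : {χ : Cfsg.IrrCharacter G // Cfsg.charDegree (χ : G → ℂ) = 1} =>
      Agent.Char.exists_monoidHom_of_degree_one (Agent.Char.isCharacter_of_irr χ.1.2)
        (by rw [Agent.RealChar.eq_charDegree (Agent.Char.isCharacter_of_irr χ.1.2), χ.2]; simp)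
    exact Nat.card_le_card_of_injective f fun a b hab => Subtype.ext (Subtype.ext (funext fun g => by
      rw [hf a g, hf b g, hab]))
  refine h2.trans (h1.trans (Nat.mul_le_mul_left _ ?_))
  rw [← Nat.card_coe_set_eq]
  refine Nat.card_le_card_of_injective
    (fun l => ⟨F ⟨l.1, by obtain ⟨f, -, hf⟩ := l.2; exact ⟨f, hf⟩⟩, (hF' _).2.1⟩) fun a b hab => ?_
  exact Subtype.ext (congrArg Subtype.val (hF (congrArg (fun z => z.1) hab)) :)

end Cfsg.Agent.S4870
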