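import Cfsg.Statements.S4871
import Cfsg.Agent.RealChar.OddByTwo
-- import your own Cfsg.Agent.* helpers here

set_option autoImplicit false
open Cfsg

namespace Cfsg.Agent.S4871

/-- Let G be a finite group that is the semidirect product of a normal elementary abelian subgroup N of odd order by a non-trivial 2-subgroup P, with N the unique minimal normal subgroup of G. Consider the strongly real irreducible complex characters of G (Frobenius–Schur indicator +1) whose degree is 1 or even. Then their average degree is at least 4/3: four times their number is at most three times the sum of their degrees. -/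
theorem result {G : Type*} [Group G] [Finite G] (N P : Subgroup G) (hN : N.Normal) (q : ℕ) [Fact q.Prime] (hq : q ≠ 2) (hNel : Cfsg.IsElementaryAbelian q N) (hP : IsPGroup 2 ↥P) (hP1 : P ≠ ⊥) (hdisj : N ⊓ P = ⊥) (hprod : N ⊔ P = ⊤) (hmin : N ≠ ⊥ ∧ ∀ M : Subgroup G, M.Normal → M ≠ ⊥ → N ≤ M) : 4 * Nat.card {χ : Cfsg.IrrCharacter G // (Cfsg.charDegree (χ : G → ℂ) = 1 ∨ 2 ∣ Cfsg.charDegree (χ : G → ℂ)) ∧ (Nat.card G : ℂ)⁻¹ * ∑ᶠ g : G, (χ : G → ℂ) (g * g) = 1} ≤ 3 * (∑ᶠ χ : {χ : Cfsg.IrrCharacter G // (Cfsg.charDegree (χ : G → ℂ) = 1 ∨ 2 ∣ Cfsg.charDegree (χ : G → ℂ)) ∧ (Nat.card G : ℂ)⁻¹ * ∑ᶠ g : G, (χ : G → ℂ) (g * g) = 1}, Cfsg.charDegree (χ.1 : G → ℂ)) := by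
  exact Agent.RealChar.four_thirds_bound N P hN q hq hNel hP hP1 hdisj hprod hmin

end Cfsg.Agent.S4871
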