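import Cfsg.Statements.S4911
import Cfsg.Agent.GlauberCorr.RealFixed
-- import your own Cfsg.Agent.* helpers here

set_option autoImplicit false
open Cfsg

namespace Cfsg.Agent.S4911

/-- Let P and K be subgroups of a finite group with P a p-group normalizing K and K of order prime to p. Then the number of P-invariant real-valued irreducible complex characters of K equals the number of conjugacy classes of K that are real (closed under inversion) and P-invariant. Moreover, if every real-valued irreducible character of K is P-invariant, then every real element of K (one conjugate in K to its inverse) is conjugate in K to an element centralized by P. -/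
theorem result {G : Type*} [Group G] [Finite G] (p : ℕ) [Fact p.Prime] (P K : Subgroup G) (hP : IsPGroup p ↥P) (hK : ¬ p ∣ Nat.card ↥K) (hPK : P ≤ Subgroup.normalizer (K : Set G)) : Nat.card {θ : Cfsg.IrrCharacter ↥K // (∀ k : ↥K, ((θ : ↥K → ℂ) k).im = 0) ∧ (∀ x ∈ P, ∀ k k' : ↥K, (k' : G) = x * (k : G) * x⁻¹ → (θ : ↥K → ℂ) k' = (θ : ↥K → ℂ) k)} = Nat.card {c : ConjClasses ↥K // (∀ k : ↥K, ConjClasses.mk k = c → IsConj k k⁻¹) ∧ ∀ k : ↥K, ConjClasses.mk k = c → ∀ x ∈ P, ∀ k' : ↥K, (k' : G) = x * (k : G) * x⁻¹ → ConjClasses.mk k' = c} ∧ ((∀ θ : Cfsg.IrrCharacter ↥K, (∀ k : ↥K, ((θ : ↥K → ℂ) k).im = 0) → (∀ x ∈ P, ∀ k k' : ↥K, (k' : G) = x * (k : G) * x⁻¹ → (θ : ↥K → ℂ) k' = (θ : ↥K → ℂ) k)) → ∀ k : ↥K, IsConj k k⁻¹ → ∃ k' : ↥K, IsConj k k' ∧ ∀ x ∈ P, x * (k' : G) * x⁻¹ = (k' : G)) := by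
  classical
  have h := Agent.GlauberCorr.real_inv_count (Agent.GlauberCorr.conjAct P K hPK) hP hK
  have hinv : ∀ θ : Cfsg.IrrCharacter ↥K, (∀ x ∈ P, ∀ k k' : ↥K,
      (k' : G) = x * (k : G) * x⁻¹ → (θ : ↥K → ℂ) k' = (θ : ↥K → ℂ) k) ↔
      Agent.GlauberCorr.InvFun (Agent.GlauberCorr.conjAct P K hPK) (θ : ↥K → ℂ) := by
    intro θ
    refine ⟨fun hx a k => hx a a.2 k _ rfl, fun hi x hx k k' he => ?_⟩
    rw [← hi ⟨x, hx⟩ k]
    exact congrArg _ (Subtype.ext he)
  refine ⟨(Nat.card_congr (Equiv.subtypeEquivRight fun θ => and_congr Iff.rfl (hinv θ))).trans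
    (h.1.trans (Nat.card_congr (Equiv.subtypeEquivRight fun c => and_congr Iff.rfl
      ⟨fun hc k hk x hx k' he => ?_, fun hc k hk a => hc k hk a a.2 _ rfl⟩))), fun hall k hk => ?_⟩
  · rw [← hc k hk ⟨x, hx⟩]
    exact congrArg _ (Subtype.ext he)
  · obtain ⟨k', hk', hfix⟩ := h.2 (fun θ hθ => (hinv θ).mp (hall θ hθ)) k hk
    exact ⟨k', hk', fun x hx => congrArg Subtype.val (hfix ⟨x, hx⟩)⟩

end Cfsg.Agent.S4911
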