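import Cfsg.Statements.S4912
import Cfsg.Agent.RealChar.LinearCount
-- import your own Cfsg.Agent.* helpers here

set_option autoImplicit false
open Cfsg

namespace Cfsg.Agent.S4912

/-- Let G be a finite group with a non-abelian minimal normal subgroup N, and let φ be an irreducible complex character of N with stabilizer I in G such that φ extends to an irreducible character of I with Frobenius–Schur indicator +1. Put d = φ(1)·[G : I]. Then the number of linear characters of G with Frobenius–Schur indicator +1 is at most [G : I] times the number of irreducible characters of G of degree d with Frobenius–Schur indicator +1. -/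
theorem result {G : Type*} [Group G] [Finite G] (N : Subgroup G) (hN : N.Normal) (hN1 : N ≠ ⊥) (hmin : ∀ M : Subgroup G, M.Normal → M ≤ N → M = ⊥ ∨ M = N) (hna : ¬ IsMulCommutative ↥N) (φ : Cfsg.IrrCharacter ↥N) (I : Subgroup G) (hI : ∀ g : G, g ∈ I ↔ ∀ n n' : ↥N, (n' : G) = g * (n : G) * g⁻¹ → (φ : ↥N → ℂ) n' = (φ : ↥N → ℂ) n) (hNI : N ≤ I) (hext : ∃ ψ : Cfsg.IrrCharacter ↥I, (Nat.card ↥I : ℂ)⁻¹ * ∑ᶠ g : ↥I, (ψ : ↥I → ℂ) (g * g) = 1 ∧ ∀ n : ↥N, (ψ : ↥I → ℂ) (Subgroup.inclusion hNI n) = (φ : ↥N → ℂ) n) : Nat.card {χ : Cfsg.IrrCharacter G // Cfsg.charDegree (χ : G → ℂ) = 1 ∧ (Nat.card G : ℂ)⁻¹ * ∑ᶠ g : G, (χ : G → ℂ) (g * g) = 1} ≤ I.index * Nat.card {χ : Cfsg.IrrCharacter G // Cfsg.charDegree (χ : G → ℂ) = Cfsg.charDegree (φ : ↥N → ℂ) * I.index ∧ (Nat.card G : ℂ)⁻¹ * ∑ᶠ g : G, (χ : G → ℂ) (g * g) = 1} := by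
  classical
  letI := Fintype.ofFinite G
  letI := Fintype.ofFinite ↥I
  haveI := hN
  have hperf : ∀ (f : G →* ℂˣ) (n : ↥N), f n = 1 := by
    intro f n
    have htop : (commutator ↥N).map N.subtype = N := by
      refine (hmin _ inferInstance (Subgroup.map_subtype_le _)).resolve_left fun h => hna ?_
      rw [Subgroup.map_eq_bot_iff_of_injective _ N.subtype_injective, commutator_def,
        Subgroup.commutator_eq_bot_iff_le_centralizer] at h
      exact ⟨⟨fun a b => (h (Subgroup.mem_top b) a (Subgroup.mem_top a))⟩⟩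
    have hmem : (n : G) ∈ commutator G := by
      have h1 : (n : G) ∈ (commutator ↥N).map N.subtype := by rw [htop]; exact n.2
      rw [Subgroup.map_subtype_commutator] at h1
      exact Subgroup.commutator_mono le_top le_top h1
    exact (Abelianization.commutator_subset_ker f) hmem
  haveI : Finite (G →* ℂˣ) := Agent.Char.monoidHom_complex_finite
  haveI : Finite (↥I →* ℂˣ) := Agent.Char.monoidHom_complex_finite
  obtain ⟨ψ, hψ1, hψ⟩ := hext
  obtain ⟨F, hF, hF'⟩ := Agent.RealChar.exists_injective_induced N hN φ I hI hNI ψ hψ hperf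
  let S : Set (G →* ℂˣ) := {f | ∀ g : G, f g * f g = 1}
  have h1 := Agent.RealChar.card_le_index_mul_image I S
  have hψν : Agent.RealChar.fsNu (ψ : ↥I → ℂ) = 1 := hψ1
  have hψreal : ∀ i : ↥I, (starRingEnd ℂ) ((ψ : ↥I → ℂ) i) = (ψ : ↥I → ℂ) i :=
    Agent.RealChar.real_of_fsNu_ne_zero ψ.2 (by rw [hψν]; exact one_ne_zero)
  have h2 : Nat.card {χ : Cfsg.IrrCharacter G // Cfsg.charDegree (χ : G → ℂ) = 1 ∧
      (Nat.card G : ℂ)⁻¹ * ∑ᶠ g : G, (χ : G → ℂ) (g * g) = 1} ≤ S.ncard := by
    rw [← Nat.card_coe_set_eq]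
    choose f hf using fun χ : {χ : Cfsg.IrrCharacter G // Cfsg.charDegree (χ : G → ℂ) = 1 ∧
        (Nat.card G : ℂ)⁻¹ * ∑ᶠ g : G, (χ : G → ℂ) (g * g) = 1} =>
      Agent.Char.exists_monoidHom_of_degree_one (Agent.Char.isCharacter_of_irr χ.1.2)
        (by rw [Agent.RealChar.eq_charDegree (Agent.Char.isCharacter_of_irr χ.1.2), χ.2.1]; simp)
    have hmem : ∀ χ, f χ ∈ S := by
      intro χ g
      have hr := Agent.RealChar.real_of_fsNu_ne_zero χ.1.2
        (by rw [show Agent.RealChar.fsNu (χ.1 : G → ℂ) = 1 from χ.2.2]; exact one_ne_zero) g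
      have hone : (f χ g : ℂ) ^ orderOf g = 1 := by
        rw [← Units.val_pow_eq_pow_val, ← map_pow, pow_orderOf_eq_one, map_one, Units.val_one]
      rw [hf χ g] at hr
      apply Units.ext
      rw [Units.val_mul, Units.val_one]
      nth_rw 2 [← hr]
      rw [Complex.mul_conj', Complex.norm_eq_one_of_pow_eq_one hone (orderOf_pos g).ne']
      simp
    exact Nat.card_le_card_of_injective (fun χ => (⟨f χ, hmem χ⟩ : S)) fun a b hab =>
      Subtype.ext (Subtype.ext (funext fun g => by rw [hf a g, hf b g, show f a = f b from congrArg Subtype.val hab]))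
  have hν : ∀ l : {l : ↥I →* ℂˣ // ∃ f : G →* ℂˣ, f.comp I.subtype = l},
      (∀ i, l.1 i * l.1 i = 1) → Agent.RealChar.fsNu ((F l : G → ℂ)) = 1 := by
    intro l hl
    have hlreal : ∀ i : ↥I, (starRingEnd ℂ) (l.1 i : ℂ) = (l.1 i : ℂ) := by
      intro i
      have h := congrArg Units.val (hl i)
      rw [Units.val_mul, Units.val_one, mul_self_eq_one_iff] at h
      rcases h with h | h <;> simp [h]
    let θ : ↥I → ℂ := fun i => (ψ : ↥I → ℂ) i * (l.1 i : ℂ)
    have hθreal : ∀ i, (starRingEnd ℂ) (θ i) = θ i := fun i => by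
      simp only [θ, map_mul, hψreal, hlreal]
    have hθirr : Cfsg.IsIrrCharacter ↥I θ := by
      refine Agent.Char.isIrrCharacter_iff_classInner.mpr ⟨Agent.Char.isCharacter_mul
        (Agent.Char.isCharacter_of_irr ψ.2)
        (Agent.Char.isCharacter_of_irr (Agent.Char.isIrrCharacter_monoidHom l.1)), ?_⟩
      rw [← Agent.Char.classInner_irr_self ψ.2]
      unfold Cfsg.classInner
      congr 1
      refine Finset.sum_congr rfl fun i _ => ?_
      rw [hθreal, hψreal]
      have h := congrArg Units.val (hl i)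
      rw [Units.val_mul, Units.val_one] at h
      simp only [θ]
      linear_combination ((ψ : ↥I → ℂ) i * (ψ : ↥I → ℂ) i) * h
    have hFeq : (F l : G → ℂ) = Cfsg.indFun I θ := funext (hF' l).1
    have hFreal : ∀ g, (starRingEnd ℂ) ((F l : G → ℂ) g) = (F l : G → ℂ) g := by
      intro g
      rw [hFeq]
      have h := congrFun (Agent.CharInd.indFun_conj I θ) g
      rwa [funext hθreal] at h
    rw [Agent.RealChar.fsNu_eq_of_restrict I (F l).2 hθirr hFreal hθreal (hF' l).2.2, ← hψν]
    unfold Agent.RealChar.fsNu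
    congr 1
    refine finsum_congr fun i => ?_
    simp only [θ, map_mul, Units.val_mul]
    have h := congrArg Units.val (hl i)
    rw [Units.val_mul, Units.val_one] at h
    linear_combination (ψ : ↥I → ℂ) (i * i) * h
  refine h2.trans (h1.trans (Nat.mul_le_mul_left _ ?_))
  rw [← Nat.card_coe_set_eq]
  refine Nat.card_le_card_of_injective
    (fun l => ⟨F ⟨l.1, by obtain ⟨f, -, hf⟩ := l.2; exact ⟨f, hf⟩⟩, (hF' _).2.1,
      hν _ (by obtain ⟨f, hf, hfl⟩ := l.2; intro i; show l.1 i * l.1 i = 1; rw [← hfl]; exact hf i)⟩)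
    fun a b hab => ?_
  exact Subtype.ext (congrArg Subtype.val (hF (congrArg (fun z => z.1) hab)) :)

end Cfsg.Agent.S4912
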