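import Cfsg.Statements.S4916
import Mathlib
import Cfsg.Agent.Block.Idempotent
import Cfsg.Agent.Char.Virtual
-- import your own Cfsg.Agent.* helpers here

set_option autoImplicit false
open Cfsg

namespace Cfsg.Agent.S4916

/-- Let G be a finite group, p a prime and M a maximal ideal of the algebraic integers containing p. Then the principal character is the only irreducible character of degree prime to p in the principal p-block of G if and only if p does not divide the order of G. -/
theorem result {G : Type*} [Group G] [Finite G] (p : ℕ) [Fact p.Prime] (M : Ideal Cfsg.AlgInt) (hM : Cfsg.IsPModular p M) : (∀ χ : Cfsg.IrrCharacter G, χ ∈ Cfsg.principalBlock M G → ¬ p ∣ Cfsg.charDegree (χ : G → ℂ) → (χ : G → ℂ) = fun _ => (1 : ℂ)) ↔ ¬ p ∣ Nat.card G := by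
  classical
  haveI := Cfsg.Agent.Block.isPrime_of_isPModular hM
  letI := Fintype.ofFinite G
  constructor
  · intro h hp
    have hB : Cfsg.IsPBlock M (Cfsg.principalBlock M G) :=
      ⟨(Cfsg.Agent.Char.trivialIrr G), rfl⟩
    set B := Cfsg.principalBlock M G
    have h1 := Cfsg.Agent.Block.blockCoeff_memLocalRing hB (1 : G)
    have h2 : Cfsg.MemLocalIdeal M ((Nat.card G : ℂ) * Cfsg.blockCoeff B (1 : G)) :=
      Cfsg.Agent.Block.memLocalIdeal_mul_right
        ((Cfsg.Agent.Block.memLocalIdeal_natCast_iff hM _).mpr hp) h1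
    rw [Cfsg.blockCoeff, mul_inv_cancel_left₀ (Nat.cast_ne_zero.mpr Nat.card_pos.ne'),
      finsum_mem_eq_toFinset_sum] at h2
    have hone : (Cfsg.Agent.Char.trivialIrr G) ∈ B.toFinset :=
      Set.mem_toFinset.mpr (Cfsg.Agent.Block.sameBlock_refl _)
    rw [← Finset.add_sum_erase _ _ hone] at h2
    have h3 : Cfsg.MemLocalIdeal M (∑ χ ∈ B.toFinset.erase (Cfsg.Agent.Char.trivialIrr G),
        (χ : G → ℂ) 1 * (starRingEnd ℂ) ((χ : G → ℂ) 1)) := by
      refine Cfsg.Agent.Block.memLocalIdeal_sum _ _ fun χ hχ => ?_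
      rw [Finset.mem_erase, Set.mem_toFinset] at hχ
      obtain ⟨d, -, hd⟩ := Cfsg.Agent.Char.irr_one_pos χ.2
      have hpd : p ∣ d := by
        by_contra hpd
        refine hχ.1 (Subtype.ext (h χ hχ.2 ?_))
        simpa [Cfsg.charDegree, hd] using hpd
      rw [hd, Complex.conj_natCast]
      exact Cfsg.Agent.Block.memLocalIdeal_mul_right
        ((Cfsg.Agent.Block.memLocalIdeal_natCast_iff hM _).mpr hpd)
        (Cfsg.Agent.Block.memLocalRing_natCast d)
    have h4 := Cfsg.Agent.Block.memLocalIdeal_sub h2 h3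
    rw [add_sub_cancel_right] at h4
    simp [Cfsg.Agent.Char.trivialIrr] at h4
    exact Cfsg.Agent.Block.not_memLocalIdeal_one h4
  · intro hp χ hχ hd
    by_contra hne
    have h0 := Cfsg.Agent.Char.irr_sum_eq_zero χ.2 hne
    have hterm : ∀ g : G, Cfsg.MemLocalIdeal M (1 - (χ : G → ℂ) g / (χ : G → ℂ) 1) := by
      intro g
      set m := (Subgroup.centralizer ({g} : Set G)).index
      have hpm : ¬ p ∣ m := fun h => hp (h.trans (Subgroup.index_dvd_card _))
      have hm : (m : ℂ) ≠ 0 := Nat.cast_ne_zero.mpr Subgroup.index_ne_zero_of_finite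
      have h1 := Cfsg.Agent.Block.memLocalIdeal_mul_left
        (Cfsg.Agent.Block.memLocalRing_natCast_inv hM hpm) (hχ g)
      convert h1 using 1
      simp only [Cfsg.centralChar]
      field_simp
      simp [m]
    have h1 := Cfsg.Agent.Block.memLocalIdeal_sum Finset.univ _ fun g (_ : g ∈ Finset.univ) => hterm g
    rw [Finset.sum_sub_distrib, ← Finset.sum_div, h0, zero_div, sub_zero, Finset.sum_const,
      Finset.card_univ, nsmul_one, Cfsg.Agent.Block.memLocalIdeal_natCast_iff hM,
      ← Nat.card_eq_fintype_card] at h1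
    exact hp h1

end Cfsg.Agent.S4916
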