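import Cfsg.Statements.S4923
import Cfsg.Agent.FieldTwo.MaxClass

set_option autoImplicit false
open Cfsg

namespace Cfsg.Agent.S4923

/-- Let G be a finite group with Sylow 2-subgroup P of order 2^n ≥ 8, and let ζ be a primitive 2^(n−1)-th root of unity in ℂ. Then the commutator subgroup of P has index 4 in P if and only if there is an element g of P whose conjugacy class in G has even size and such that the field generated over ℚ by the values at g of all irreducible complex characters of G equals ℚ(ζ + ζ⁻¹) or ℚ(ζ − ζ⁻¹). -/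
theorem result {G : Type*} [Group G] [Finite G] (P : Sylow 2 G) (n : ℕ) (hn : 3 ≤ n) (hP : Nat.card P = 2 ^ n) (ζ : ℂ) (hζ : IsPrimitiveRoot ζ (2 ^ (n - 1))) :
    (commutator ↥P).index = 4 ↔
      ∃ g : G, g ∈ (P : Subgroup G) ∧ 2 ∣ (Subgroup.centralizer ({g} : Set G)).index ∧
        (IntermediateField.adjoin ℚ {z : ℂ | ∃ χ : Cfsg.IrrCharacter G, (χ : G → ℂ) g = z} = IntermediateField.adjoin ℚ ({ζ + ζ⁻¹} : Set ℂ) ∨
          IntermediateField.adjoin ℚ {z : ℂ | ∃ χ : Cfsg.IrrCharacter G, (χ : G → ℂ) g = z} = IntermediateField.adjoin ℚ ({ζ - ζ⁻¹} : Set ℂ)) := by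
  obtain ⟨d, rfl⟩ : ∃ d, n = d + 1 := ⟨n - 1, by omega⟩
  rw [Nat.add_sub_cancel] at hζ
  have hd : 2 ≤ d := by omega
  refine ⟨fun h4 => Cfsg.Agent.FieldTwo.exists_of_index_four hd hP h4 hζ, ?_⟩
  rintro ⟨g, hgP, heven, hF⟩
  rcases hd.eq_or_lt with rfl | hd3
  · exact Cfsg.Agent.FieldTwo.index_four_of_order_eight (by rw [hP]; norm_num) hgP heven
  · rcases hF with hF | hF
    · have hk : Cfsg.Agent.FieldTwo.IsTwist d (2 ^ d - 1) := Or.inl rfl
      refine Cfsg.Agent.FieldTwo.index_four_of_field hd3 hP hk hζ hgP heven ?_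
      have e : ζ * ζ ^ (2 ^ d - 1) = 1 := by
        rw [← pow_succ', Nat.sub_add_cancel Nat.one_le_two_pow, hζ.pow_eq_one]
      rw [eq_inv_of_mul_eq_one_right e]
      exact hF
    · have hk : Cfsg.Agent.FieldTwo.IsTwist d (2 ^ (d - 1) - 1) := Or.inr ⟨hd3, rfl⟩
      refine Cfsg.Agent.FieldTwo.index_four_of_field hd3 hP hk hζ hgP heven ?_
      rcases hk.root hd hζ with ⟨h, -, -⟩ | ⟨-, e, -⟩
      · exfalso
        have := Nat.pow_lt_pow_right (show 1 < 2 by norm_num) (show d - 1 < d by omega)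
        have := Nat.one_le_two_pow (n := d - 1)
        omega
      · rw [e, ← sub_eq_add_neg]
        exact hF

end Cfsg.Agent.S4923
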