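import Cfsg.Statements.S4930
import Cfsg.Agent.OddSquareSum.Complement
import Cfsg.Agent.OddSquareSum.Converse

set_option autoImplicit false
open Cfsg

namespace Cfsg.Agent.S4930

/-- Let G be a finite group, P a Sylow 2-subgroup of G with normalizer N, and P′ the commutator subgroup of P. Then the sum of the squares of the degrees of the irreducible complex characters of G of odd degree is at least the index of P′ in N (the order of N divided by the order of P′), and equality holds if and only if N has a normal complement in G: a normal subgroup K of G with K ∩ N = 1 and KN = G. -/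
theorem result {G : Type*} [Group G] [Finite G] (P : Sylow 2 G) :
    Nat.card (Subgroup.normalizer ((P : Subgroup G) : Set G)) ≤ Nat.card (commutator ↥P) * (∑ᶠ χ : {χ : Cfsg.IrrCharacter G // ¬ 2 ∣ Cfsg.charDegree (χ : G → ℂ)}, Cfsg.charDegree (χ.1 : G → ℂ) ^ 2) ∧
    (Nat.card (Subgroup.normalizer ((P : Subgroup G) : Set G)) = Nat.card (commutator ↥P) * (∑ᶠ χ : {χ : Cfsg.IrrCharacter G // ¬ 2 ∣ Cfsg.charDegree (χ : G → ℂ)}, Cfsg.charDegree (χ.1 : G → ℂ) ^ 2) ↔
      ∃ K : Subgroup G, K.Normal ∧ K ⊓ Subgroup.normalizer ((P : Subgroup G) : Set G) = ⊥ ∧ K ⊔ Subgroup.normalizer ((P : Subgroup G) : Set G) = ⊤) := by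
  obtain ⟨hle, hext⟩ := OddSquareSum.main_bound P
  have hcard := OddSquareSum.card_nor P
  have hs : OddSquareSum.oddSum G = ∑ᶠ χ : {χ : Cfsg.IrrCharacter G // ¬ 2 ∣ Cfsg.charDegree (χ : G → ℂ)}, Cfsg.charDegree (χ.1 : G → ℂ) ^ 2 := rfl
  rw [← hs]
  refine ⟨hcard ▸ Nat.mul_le_mul_left _ hle, ⟨fun h => ?_, ?_⟩⟩
  · exact OddSquareSum.exists_complement_of_extends P
      (hext (Nat.eq_of_mul_eq_mul_left Nat.card_pos (hcard.symm.trans h)))
  · rintro ⟨K, hK, hinf, hsup⟩
    haveI := hK
    exact hcard.trans (congrArg _ (le_antisymm hle (OddSquareSum.sum_le_of_complement P K hinf hsup)))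

end Cfsg.Agent.S4930
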