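import Cfsg.Statements.S4931
import Cfsg.Agent.BlkChar.SylowExtend
-- import your own Cfsg.Agent.* helpers here

set_option autoImplicit false
open Cfsg

namespace Cfsg.Agent.S4931

/-- Let G be a finite group, p a prime and P a Sylow p-subgroup of G with normalizer N. Then every irreducible complex character of N of degree not divisible by p is the restriction of an irreducible character of G if and only if there is a normal subgroup K of G with KN = G and K ∩ N = 1. -/
theorem result {G : Type*} [Group G] [Finite G] (p : ℕ) [Fact p.Prime] (P : Sylow p G) :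
    (∀ θ : Cfsg.IrrCharacter ↥(Subgroup.normalizer ((P : Subgroup G) : Set G)), ¬ p ∣ Cfsg.charDegree (θ : ↥(Subgroup.normalizer ((P : Subgroup G) : Set G)) → ℂ) →
        ∃ χ : Cfsg.IrrCharacter G, ∀ x : ↥(Subgroup.normalizer ((P : Subgroup G) : Set G)), (χ : G → ℂ) x = (θ : ↥(Subgroup.normalizer ((P : Subgroup G) : Set G)) → ℂ) x) ↔
      ∃ K : Subgroup G, K.Normal ∧ K ⊔ Subgroup.normalizer ((P : Subgroup G) : Set G) = ⊤ ∧ K ⊓ Subgroup.normalizer ((P : Subgroup G) : Set G) = ⊥ := by
  constructor
  · exact Cfsg.Agent.SylowExtend.exists_complement P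
  · rintro ⟨K, hKn, hsup, hinf⟩
    haveI := hKn
    set N := Subgroup.normalizer ((P : Subgroup G) : Set G) with hN
    intro θ _
    let f : ↥N →* G ⧸ K := (QuotientGroup.mk' K).comp N.subtype
    have hf : Function.Bijective f := by
      constructor
      · rw [injective_iff_map_eq_one]
        intro x hx
        have h1 : (x : G) ∈ K ⊓ N := ⟨(QuotientGroup.eq_one_iff _).mp hx, x.2⟩
        rw [hinf, Subgroup.mem_bot] at h1
        exact Subtype.ext h1
      · intro q
        obtain ⟨g, rfl⟩ := QuotientGroup.mk_surjective q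
        have hg : g ∈ K ⊔ N := by rw [hsup]; exact Subgroup.mem_top g
        obtain ⟨k, hk, x, hx, rfl⟩ := Subgroup.mem_sup_of_normal_left.mp hg
        refine ⟨⟨x, hx⟩, ?_⟩
        show (x : G ⧸ K) = ((k * x : G) : G ⧸ K)
        rw [QuotientGroup.mk_mul, (QuotientGroup.eq_one_iff k).mpr hk, one_mul]
    let e := MulEquiv.ofBijective f hf
    refine ⟨⟨_, Cfsg.Agent.Char.isIrrCharacter_comp θ.2 (e.symm.toMonoidHom.comp (QuotientGroup.mk' K))
      (e.symm.surjective.comp (QuotientGroup.mk'_surjective K))⟩, fun x => ?_⟩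
    show (θ : ↥N → ℂ) (e.symm (e x)) = _
    rw [MulEquiv.symm_apply_apply]

end Cfsg.Agent.S4931
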