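import Cfsg.Statements.S4958
import Mathlib
import Cfsg.Agent.BlkChar.Knorr
import Cfsg.Agent.BlkChar.AbelianWeight
-- import your own Cfsg.Agent.* helpers here

set_option autoImplicit false
open Cfsg

namespace Cfsg.Agent.S4958

/-- Let X be a finite group and V a normal subgroup of X in which every element has order dividing the prime p, whose index in X is prime to p and which is its own centralizer in X; so V is an elementary abelian normal Sylow p-subgroup, and any complement G to V in X is a group of order prime to p acting faithfully on the vector space V by conjugation (the coprime linear setting of the k(GV) problem). Let G be a complement to V in X and suppose that for some v in V the centralizer of v in G is abelian. Then the number of conjugacy classes of X is at most the order of V (the abelian-stabilizer criterion for the k(GV) problem). -/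
theorem result {X : Type*} [Group X] [Finite X] (p : ℕ) [Fact p.Prime] (V : Subgroup X) [V.Normal] (hVexp : ∀ v ∈ V, v ^ p = 1) (hidx : ¬ p ∣ V.index) (hself : Subgroup.centralizer (V : Set X) = V) (G : Subgroup X) (hGV : Subgroup.IsComplement' V G) (v : X) (hv : v ∈ V) (hab : ∀ a ∈ G ⊓ Subgroup.centralizer ({v} : Set X), ∀ b ∈ G ⊓ Subgroup.centralizer ({v} : Set X), a * b = b * a) : Nat.card (ConjClasses X) ≤ Nat.card V := by
  classical
  set H := G ⊓ Subgroup.centralizer ({v} : Set X) with hH
  letI : Fintype ↥H := Fintype.ofFinite _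
  haveI : Finite (↥H →* ℂˣ) := Cfsg.Agent.Char.monoidHom_complex_finite
  letI : Fintype (↥H →* ℂˣ) := Fintype.ofFinite _
  have hcomm : ∀ a b : ↥H, a * b = b * a := fun a b => Subtype.ext (hab a a.2 b b.2)
  have habV : ∀ a ∈ V, ∀ b ∈ V, a * b = b * a := fun a ha b hb =>
    (Subgroup.mem_centralizer_iff.mp (hself.symm.le hb) a ha)
  have hVp : IsPGroup p V := fun x => ⟨1, Subtype.ext (by simpa using hVexp x x.2)⟩
  have hcop : (Nat.card V).Coprime (Nat.card H) :=
    (Cfsg.Agent.Kgv.coprime_card hVp hidx hGV).coprime_dvd_right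
      (Subgroup.card_dvd_of_le inf_le_left)
  haveI : NeZero (Nat.card X) := ⟨Nat.card_pos.ne'⟩
  obtain ⟨w, B, hw0, hgood, hker, hbound⟩ := Cfsg.Agent.AbWeight.exists_weight
    (n := Nat.card X) V habV H hcomm hcop V le_rfl
    (fun c x hx => ‹V.Normal›.conj_mem x hx _)
  have hkerT : ∀ c : ↥H, (∀ f ∈ B, f c = 1) → c = 1 := by
    intro c hc
    have h1 : (c : X) ∈ V := by
      rw [← hself, Subgroup.mem_centralizer_iff]
      intro x hx
      have := (hker c).mp hc x hx
      calc x * (c : X) = ((c : X) * x * (c : X)⁻¹) * (c : X) := by rw [this]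
        _ = (c : X) * x := by group
    have h2 := hGV.disjoint
    rw [Subgroup.disjoint_def] at h2
    exact Subtype.ext (h2 h1 c.2.1)
  refine Cfsg.Agent.Kgv.criterion V hVp hidx habV G hGV hv H rfl w hw0 hbound fun χ => ?_
  obtain ⟨z, hz, hzχ⟩ := Cfsg.Agent.Kgv.exists_family (n := Nat.card X)
    (Cfsg.Agent.Char.isCharacter_of_irr χ.2) (v := v) pow_card_eq_one' H
    (fun c hc => (Subgroup.mem_centralizer_singleton_iff.mp hc.2).symm)
  let e : (↥H →* ℂˣ) ≃ Cfsg.IrrCharacter ↥H :=
    Equiv.ofBijective (fun f => ⟨_, Cfsg.Agent.Char.isIrrCharacter_monoidHom f⟩)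
      ⟨fun f g h => Cfsg.Agent.Char.monoidHom_coe_injective (congrArg Subtype.val h),
       fun φ => by
        obtain ⟨f, hf⟩ := Cfsg.Agent.Char.irr_exists_monoidHom_of_comm hcomm φ.2
        exact ⟨f, Subtype.ext (funext fun x => (hf x).symm)⟩⟩
  have hsum : ∀ (a : (ZMod (Nat.card X))ˣ) (c : ↥H),
      (χ : X → ℂ) (v ^ (a : ZMod (Nat.card X)).val * (c : X)) =
        ∑ f : ↥H →* ℂˣ, z (e f) a * (f c : ℂ) := fun a c => by
    rw [hzχ, ← Equiv.sum_comp e]
    rfl
  have hne : ∃ f : ↥H →* ℂˣ, ∃ a, z (e f) a ≠ 0 := by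
    by_contra h
    push Not at h
    refine Cfsg.Agent.Kgv.ne_zero_of_mem V hVp hidx habV G hGV χ
      (V.pow_mem hv ((1 : (ZMod (Nat.card X))ˣ) : ZMod (Nat.card X)).val) ?_
    have h1 := hsum 1 1
    rw [Subgroup.coe_one, mul_one] at h1
    rw [h1]
    exact Finset.sum_eq_zero fun f _ => by rw [h, zero_mul]
  have hall : (Finset.univ.filter (Cfsg.Agent.AbWeight.Supp B fun f => z (e f))) = Finset.univ := by
    rw [Finset.filter_true_of_mem]
    intro f _
    obtain ⟨g, a, ha⟩ := hne
    exact ⟨g, Cfsg.Agent.AbWeight.mem_of_forall_ker_trivial B hkerT _, a, ha⟩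
  have h1 := hgood (fun f => z (e f)) fun f => hz _
  rw [hall, Finset.card_univ, ← Nat.card_eq_fintype_card (α := ↥H →* ℂˣ), Nat.card_congr e,
    Cfsg.Agent.Char.card_irr_eq_card_conjClasses] at h1
  simp only [← hsum] at h1
  linarith

end Cfsg.Agent.S4958
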