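import Cfsg.Statements.S4969
import Mathlib
import Cfsg.Agent.BlkChar.Sums
-- import your own Cfsg.Agent.* helpers here

set_option autoImplicit false
open Cfsg

namespace Cfsg.Agent.S4969

/-- Let G be a finite group with k conjugacy classes, g ∈ G, and N > 0. Then the sum over the irreducible complex characters χ of G with χ(1) ≥ N of |χ(g)|/χ(1) is at most √(k · #C_G(g)) / N. -/
theorem result {G : Type*} [Group G] [Finite G] (g : G) (N : ℝ) (hN : 0 < N) :
    ∑ᶠ χ : Cfsg.IrrCharacter G, (if N ≤ ‖(χ : G → ℂ) 1‖ then ‖(χ : G → ℂ) g‖ / ‖(χ : G → ℂ) 1‖ else 0) ≤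
      Real.sqrt ((Nat.card (ConjClasses G) : ℝ) * (Nat.card ↥(Subgroup.centralizer ({g} : Set G)) : ℝ)) / N := by
  classical
  letI := Fintype.ofFinite G
  rw [finsum_eq_sum_of_fintype]
  set A : ℝ := ∑ χ : Cfsg.IrrCharacter G, ‖(χ : G → ℂ) g‖
  have h1 : ∀ χ : Cfsg.IrrCharacter G,
      (if N ≤ ‖(χ : G → ℂ) 1‖ then ‖(χ : G → ℂ) g‖ / ‖(χ : G → ℂ) 1‖ else 0) ≤
        ‖(χ : G → ℂ) g‖ / N := fun χ => by
    split_ifs with h
    · exact div_le_div_of_nonneg_left (norm_nonneg _) hN h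
    · exact div_nonneg (norm_nonneg _) hN.le
  refine (Finset.sum_le_sum fun χ _ => h1 χ).trans ?_
  rw [← Finset.sum_div]
  refine div_le_div_of_nonneg_right ?_ hN.le
  apply Real.le_sqrt_of_sq_le
  have h2 := sq_sum_le_card_mul_sum_sq (s := (Finset.univ : Finset (Cfsg.IrrCharacter G)))
    (f := fun χ => ‖(χ : G → ℂ) g‖)
  rwa [Cfsg.Agent.GalAvg.irr_sum_norm_sq, Finset.card_univ, ← Nat.card_eq_fintype_card,
    Cfsg.Agent.Char.card_irr_eq_card_conjClasses] at h2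

end Cfsg.Agent.S4969
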