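import Cfsg.Statements.S4989
import Mathlib
import Cfsg.Agent.BlkChar.Sums
-- import your own Cfsg.Agent.* helpers here

set_option autoImplicit false
open Cfsg

namespace Cfsg.Agent.S4989

/-- Let H be a subgroup of the finite group G and χ an irreducible complex character of G. Then the inner product of the restriction of χ to H with itself, (1/#H)·Σ_{h ∈ H} |χ(h)|², is at most 1 + #(Z ∖ H)/#H, where Z is the set of zeros of χ in G. -/
theorem result {G : Type*} [Group G] [Finite G] (H : Subgroup G) (χ : Cfsg.IrrCharacter G) : (Nat.card ↥H : ℝ)⁻¹ * ∑ᶠ h : ↥H, ‖(χ : G → ℂ) h‖ ^ 2 ≤ 1 + (Set.ncard ({x : G | (χ : G → ℂ) x = 0} \ (H : Set G)) : ℝ) / (Nat.card ↥H : ℝ) := by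
  classical
  letI := Fintype.ofFinite G
  have htot := Cfsg.Agent.GalAvg.irr_norm_sq_sum χ.2
  rw [← Finset.sum_filter_add_sum_filter_not _ (fun g => g ∈ H)] at htot
  set s := Finset.univ.filter (fun g => ¬ g ∈ H) with hs
  have hlow := Cfsg.Agent.GalAvg.card_nonzero_le_sum_norm_sq
    (Cfsg.Agent.Char.isCharacter_of_irr χ.2) s (fun a g => by
      simp [hs, Cfsg.Agent.GalAvg.pow_unit_mem_iff])
  have hZ : (Set.ncard ({x : G | (χ : G → ℂ) x = 0} \ (H : Set G)) : ℝ) =
      ((s.filter fun g => (χ : G → ℂ) g = 0).card : ℝ) := by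
    rw [Nat.cast_inj, ← Set.ncard_coe_finset]
    congr 1
    ext x
    simp [hs, and_comm]
  have hH : ((Finset.univ.filter fun g => g ∈ H).card : ℝ) = (Nat.card H : ℝ) := by
    rw [Nat.cast_inj, Nat.card_eq_fintype_card]
    exact (Fintype.card_subtype _).symm
  have hsum : ∑ᶠ h : ↥H, ‖(χ : G → ℂ) h‖ ^ 2 =
      ∑ g ∈ Finset.univ.filter (fun g => g ∈ H), ‖(χ : G → ℂ) g‖ ^ 2 := by
    rw [finsum_eq_sum_of_fintype]
    exact (Finset.sum_subtype _ (fun x => by simp) fun g => ‖(χ : G → ℂ) g‖ ^ 2).symm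
  have hcard : (Nat.card G : ℝ) = (Nat.card H : ℝ) +
      (((s.filter fun g => (χ : G → ℂ) g = 0).card : ℝ) +
        ((s.filter fun g => (χ : G → ℂ) g ≠ 0).card : ℝ)) := by
    rw [← hH, ← Nat.cast_add, ← Nat.cast_add, Finset.card_filter_add_card_filter_not,
      Finset.card_filter_add_card_filter_not, Finset.card_univ, Nat.card_eq_fintype_card]
  have hpos : (0 : ℝ) < Nat.card H := Nat.cast_pos.mpr Nat.card_pos
  rw [hZ, hsum, inv_mul_le_iff₀ hpos, mul_add, mul_one, mul_div_cancel₀ _ hpos.ne']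
  linarith

end Cfsg.Agent.S4989
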