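import Cfsg.Statements.S4996
import Mathlib
import Cfsg.Agent.BlkChar.Sums
import Cfsg.Agent.Char.Virtual
-- import your own Cfsg.Agent.* helpers here

set_option autoImplicit false
open Cfsg

namespace Cfsg.Agent.S4996

/-- Let N be a normal subgroup of the finite group G and χ an irreducible complex character of G. Then the restriction of χ to N is not irreducible if and only if χ vanishes on some whole coset Nx of N in G. -/
theorem result {G : Type*} [Group G] [Finite G] (N : Subgroup G) [N.Normal] (χ : Cfsg.IrrCharacter G) : ¬ Cfsg.IsIrrCharacter ↥N (fun n : ↥N => (χ : G → ℂ) n) ↔ ∃ x : G, ∀ n : ↥N, (χ : G → ℂ) ((n : G) * x) = 0 := by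
  classical
  letI := Fintype.ofFinite G
  letI := Fintype.ofFinite ↥N
  obtain ⟨d, ρ, hρ, hχ⟩ := χ.2
  set τ := Representation.linHom ρ ρ with hτ
  let τ' : Representation ℂ G ↥(Representation.invariants (τ.comp N.subtype)) := τ.toInvariants N
  set ψ : G → ℂ := Representation.character (k := ℂ)
    (V := ↥(Representation.invariants (τ.comp N.subtype))) τ' with hψ
  have hτc : ∀ g, τ.character g = ((‖(χ : G → ℂ) g‖ ^ 2 : ℝ) : ℂ) := fun g => by
    rw [hτ, Representation.char_linHom, Cfsg.Agent.Char.character_inv, hχ, mul_comm,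
      Complex.mul_conj, Complex.normSq_eq_norm_sq]
  have hNne : (Nat.card N : ℂ) ≠ 0 := Nat.cast_ne_zero.mpr Nat.card_pos.ne'
  have key : ∀ x, (Nat.card N : ℂ) * ψ x =
      ((∑ n : ↥N, ‖(χ : G → ℂ) ((n : G) * x)‖ ^ 2 : ℝ) : ℂ) := by
    intro x
    set F : Module.End ℂ ((Fin d → ℂ) →ₗ[ℂ] Fin d → ℂ) :=
      (Nat.card N : ℂ)⁻¹ • ∑ n : ↥N, τ ((n : G) * x) with hF
    have hmem : ∀ v, F v ∈ Representation.invariants (τ.comp N.subtype) := by
      intro v m
      simp only [hF, MonoidHom.comp_apply, Subgroup.coe_subtype, LinearMap.smul_apply,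
        LinearMap.sum_apply, map_smul, map_sum]
      congr 1
      refine Fintype.sum_equiv (Equiv.mulLeft m) _ _ fun n => ?_
      rw [← Module.End.mul_apply, ← map_mul, Equiv.coe_mulLeft, Subgroup.coe_mul, mul_assoc]
    have hres : ∀ (w : ↥(Representation.invariants (τ.comp N.subtype))),
        F (w : _) = τ x (w : _) := by
      intro w
      have hconst : ∀ n : ↥N, τ ((n : G) * x) (w : _) = τ x (w : _) := fun n => by
        rw [map_mul, Module.End.mul_apply]
        exact (τ.le_comap_invariants N x w.2) n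
      simp only [hF, LinearMap.smul_apply, LinearMap.sum_apply, hconst, Finset.sum_const,
        Finset.card_univ, ← Nat.card_eq_fintype_card]
      rw [← Nat.cast_smul_eq_nsmul ℂ, inv_smul_smul₀ hNne]
    have h1 : ψ x = LinearMap.trace ℂ _ F := by
      rw [← LinearMap.trace_restrict_eq_of_forall_mem _ F hmem]
      exact congrArg (LinearMap.trace ℂ _) (LinearMap.ext fun w => Subtype.ext (hres w).symm)
    rw [h1, hF, map_smul, smul_eq_mul, mul_inv_cancel_left₀ hNne, map_sum, Complex.ofReal_sum]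
    exact Finset.sum_congr rfl fun n _ => hτc _
  have hzero : ∀ x, ψ x = 0 ↔ ∀ n : ↥N, (χ : G → ℂ) ((n : G) * x) = 0 := by
    intro x
    rw [show ψ x = 0 ↔ (Nat.card N : ℂ) * ψ x = 0 by simp, key, Complex.ofReal_eq_zero,
      Finset.sum_eq_zero_iff_of_nonneg (fun n _ => by positivity)]
    simp
  set D := Module.finrank ℂ ↥(Representation.invariants (τ.comp N.subtype)) with hD
  have hψ1 : ψ 1 = (D : ℂ) := Representation.char_one _
  have hirr : Cfsg.IsIrrCharacter ↥N (fun n : ↥N => (χ : G → ℂ) n) ↔ D = 1 := by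
    have hinner : Cfsg.classInner (fun n : ↥N => (χ : G → ℂ) n) (fun n : ↥N => (χ : G → ℂ) n)
        = (D : ℂ) := by
      have h := key 1
      rw [hψ1] at h
      simp only [mul_one] at h
      have h2 : ∑ n : ↥N, (χ : G → ℂ) n * (starRingEnd ℂ) ((χ : G → ℂ) n)
          = ((∑ n : ↥N, ‖(χ : G → ℂ) n‖ ^ 2 : ℝ) : ℂ) := by
        rw [Complex.ofReal_sum]
        exact Finset.sum_congr rfl fun n _ => by rw [Complex.mul_conj, Complex.normSq_eq_norm_sq]
      rw [Cfsg.classInner, h2, ← h, inv_mul_cancel_left₀ hNne]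
    constructor
    · intro h
      have := Cfsg.Agent.Char.classInner_irr_self h
      rw [hinner] at this
      exact_mod_cast this
    · intro h
      refine Cfsg.Agent.Char.isIrrCharacter_iff_classInner.mpr ⟨?_, ?_⟩
      · exact Cfsg.Agent.Char.isCharacter_restrict (Cfsg.Agent.Char.isCharacter_of_irr χ.2) N
      · rw [hinner, h, Nat.cast_one]
  simp_rw [← hzero]
  rw [hirr]
  constructor
  · intro hD1
    by_contra hne
    push Not at hne
    haveI : NeZero (Nat.card G) := ⟨Nat.card_pos.ne'⟩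
    set U : ℝ := (Fintype.card (ZMod (Nat.card G))ˣ : ℝ) with hU
    have hUpos : 0 < U := Nat.cast_pos.mpr Fintype.card_pos
    have hD0 : D ≠ 0 := fun h => hne 1 (by rw [hψ1, h, Nat.cast_zero])
    have hψn : ∀ x, ‖ψ x‖ = (Nat.card N : ℝ)⁻¹ * ∑ n : ↥N, ‖(χ : G → ℂ) ((n : G) * x)‖ ^ 2 := by
      intro x
      have h := congrArg (fun z : ℂ => ‖z‖) (key x)
      simp only [norm_mul, Complex.norm_natCast, Complex.norm_real, Real.norm_eq_abs,
        abs_of_nonneg (Finset.sum_nonneg (s := Finset.univ) fun (n : ↥N) _ => sq_nonneg (‖(χ : G → ℂ) ((n : G) * x)‖))] at h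
      rw [← h, inv_mul_cancel_left₀ (Nat.cast_ne_zero.mpr Nat.card_pos.ne')]
    have hsum : ∑ x : G, ‖ψ x‖ = (Nat.card G : ℝ) := by
      simp only [hψn, ← Finset.mul_sum]
      rw [Finset.sum_comm]
      have : ∀ n : ↥N, ∑ x : G, ‖(χ : G → ℂ) ((n : G) * x)‖ ^ 2 = (Nat.card G : ℝ) := fun n => by
        rw [← Cfsg.Agent.GalAvg.irr_norm_sq_sum χ.2]
        exact Fintype.sum_equiv (Equiv.mulLeft (n : G)) _ _ fun x => rfl
      simp only [this, Finset.sum_const, Finset.card_univ, nsmul_eq_mul,
        ← Nat.card_eq_fintype_card]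
      rw [inv_mul_cancel_left₀ (Nat.cast_ne_zero.mpr Nat.card_pos.ne')]
    have hlow : ∀ x : G, (if x = 1 then (D : ℝ) * U else U) ≤
        ∑ a : (ZMod (Nat.card G))ˣ, ‖ψ (x ^ (a : ZMod (Nat.card G)).val)‖ := by
      intro x
      split_ifs with hx
      · subst hx
        simp [hψ1, hU, mul_comm]
      · have := Cfsg.Agent.GalAvg.mul_card_le_sum_norm (n := Nat.card G)
          (Cfsg.Agent.GalAvg.character_pow_mem (V := ↥(Representation.invariants (τ.comp N.subtype))) τ' x pow_card_eq_one') 1 one_pos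
          (fun a => by simpa [hψ] using Cfsg.Agent.Char.character_isIntegral (V := ↥(Representation.invariants (τ.comp N.subtype))) τ' (x ^ (a : ZMod (Nat.card G)).val)) ⟨1, hne _⟩
        simpa [hU] using this
    have htot := Finset.sum_le_sum (s := Finset.univ) fun x _ => hlow x
    rw [Finset.sum_comm] at htot
    have hre : ∀ a : (ZMod (Nat.card G))ˣ,
        ∑ x : G, ‖ψ (x ^ (a : ZMod (Nat.card G)).val)‖ = (Nat.card G : ℝ) := fun a => by
      rw [← hsum]
      exact Fintype.sum_equiv (Cfsg.Agent.GalAvg.powUnit a) _ _ fun x => by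
        rw [Cfsg.Agent.GalAvg.powUnit_apply]
    simp only [hre, Finset.sum_const, Finset.card_univ, nsmul_eq_mul, ← hU] at htot
    rw [Finset.sum_ite, Finset.filter_eq' _ (1 : G), Finset.filter_ne' _ (1 : G),
      if_pos (Finset.mem_univ _), Finset.sum_singleton, Finset.sum_const,
      Finset.card_erase_of_mem (Finset.mem_univ _), Finset.card_univ, ← Nat.card_eq_fintype_card,
      nsmul_eq_mul, Nat.cast_sub Nat.card_pos, Nat.cast_one] at htot
    have h2 : (2 : ℝ) ≤ D := by
      exact_mod_cast (show 2 ≤ D by omega)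
    nlinarith [mul_le_mul_of_nonneg_right h2 hUpos.le]
  · rintro ⟨x, hx⟩ h1
    have hn1 : Nontrivial (Fin d → ℂ) := Cfsg.Agent.Char.nontrivial_of_isIrreducible ρ
    have hid : (LinearMap.id : (Fin d → ℂ) →ₗ[ℂ] Fin d → ℂ) ∈ Representation.invariants (τ.comp N.subtype) := fun n => by
      ext v
      simp [hτ, Representation.linHom_apply]
    have hne : (LinearMap.id : (Fin d → ℂ) →ₗ[ℂ] Fin d → ℂ) ≠ 0 := fun h0 => by
      obtain ⟨v, hv⟩ := exists_ne (0 : Fin d → ℂ)
      exact hv (LinearMap.congr_fun h0 v)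
    have hspan : (ℂ ∙ (LinearMap.id : (Fin d → ℂ) →ₗ[ℂ] Fin d → ℂ)) = Representation.invariants (τ.comp N.subtype) :=
      Submodule.eq_of_le_of_finrank_eq ((Submodule.span_singleton_le_iff_mem _ _).mpr hid)
        (by rw [finrank_span_singleton hne, ← hD, h1])
    have hfix : τ' x = 1 := LinearMap.ext fun w => Subtype.ext (by
      obtain ⟨c, hc⟩ := Submodule.mem_span_singleton.mp ((SetLike.ext_iff.mp hspan w.1).mpr w.2)
      show τ x w.1 = w.1
      rw [← hc, map_smul]
      congr 1
      ext v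
      simp [hτ, Representation.linHom_apply])
    have : ψ x = ψ 1 := by simp only [hψ, Representation.character, hfix, map_one]
    rw [hx, hψ1, h1, Nat.cast_one] at this
    exact zero_ne_one this

end Cfsg.Agent.S4996
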