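import Cfsg.Statements.S5001
import Cfsg.Agent.Block.Degrees
import Cfsg.Agent.BlkChar.Knorr
import Cfsg.Agent.BlkChar.Scalar
import Cfsg.Agent.Char.Linear
-- import your own Cfsg.Agent.* helpers here

set_option autoImplicit false
open Cfsg

namespace Cfsg.Agent.S5001

/-- Let p be a prime, G a finite group and B a p-block of G (relative to a maximal ideal M of the algebraic integers containing p) with defect group D. Let Z be a central p-subgroup of G contained in D and λ a linear character of Z (a homomorphism to the nonzero complex numbers). Say an irreducible character χ of G lies over λ when χ(z) = χ(1)λ(z) for all z ∈ Z. If some irreducible character in B lying over λ has height zero, then λ extends to a linear character of D. -/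
theorem result {G : Type*} [Group G] [Finite G] (p : ℕ) [Fact p.Prime] (M : Ideal Cfsg.AlgInt) (hM : Cfsg.IsPModular p M) (B : Set (Cfsg.IrrCharacter G)) (hB : Cfsg.IsPBlock M B) (D : Subgroup G) (hD : Cfsg.IsDefectGroup p M B D) (Z : Subgroup G) (hZc : Z ≤ Subgroup.center G) (hZp : IsPGroup p ↥Z) (hZD : Z ≤ D) (lam : ↥Z →* ℂˣ) (χ : Cfsg.IrrCharacter G) (hχ : χ ∈ B) (hover : (∀ z : ↥Z, (χ : G → ℂ) z = (χ : G → ℂ) 1 * (lam z : ℂ))) (h0 : Cfsg.blockHeight p B (χ : G → ℂ) = 0) : (∃ μ : ↥D →* ℂˣ, ∀ z : ↥Z, μ ⟨(z : G), hZD z.2⟩ = lam z) := by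
  classical
  letI := Fintype.ofFinite G
  letI : Fintype ↥D := Fintype.ofFinite _
  haveI : M.IsPrime := Cfsg.Agent.Block.isPrime_of_isPModular hM
  haveI : NeZero (Nat.card G) := ⟨Nat.card_pos.ne'⟩
  obtain ⟨g, hg, hgD⟩ := Cfsg.Agent.Block.isDefectGroup_iff.1 hD
  have hgc : ∀ c ∈ D, g * c = c * g := fun c hc =>
    (Subgroup.mem_centralizer_singleton_iff.mp (hgD.le_centralizer hc)).symm
  obtain ⟨z, hz, hzχ⟩ := Cfsg.Agent.Kgv.exists_family (n := Nat.card G)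
    (Cfsg.Agent.Char.isCharacter_of_irr χ.2) (v := g) pow_card_eq_one' D hgc
  have h1 : g ^ ((1 : (ZMod (Nat.card G))ˣ) : ZMod (Nat.card G)).val = g := by
    rw [Units.val_one, ZMod.val_one_eq_one_mod, pow_mod_natCard, pow_one]
  have hf : ∀ c : ↥D, (χ : G → ℂ) (g * c) =
      ∑ φ : Cfsg.IrrCharacter ↥D, z φ 1 * (φ : ↥D → ℂ) c := fun c => by
    rw [← hzχ 1 c, h1]
  obtain ⟨φ, hφ0, hφ⟩ : ∃ φ : Cfsg.IrrCharacter ↥D, z φ 1 ≠ 0 ∧
      ¬ MemLocalIdeal M (z φ 1 * (φ : ↥D → ℂ) 1) := by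
    by_contra hall
    refine Cfsg.Agent.Block.not_memLocalIdeal_char_of_height_zero hM hB hg hχ h0 ?_
    have := hf 1
    rw [Subgroup.coe_one, mul_one] at this
    rw [this]
    refine Cfsg.Agent.Block.memLocalIdeal_sum _ _ fun φ _ => ?_
    by_contra hne
    exact hall ⟨φ, fun h => hne (by rw [h, zero_mul]; exact Cfsg.Agent.Block.memLocalIdeal_zero), hne⟩
  obtain ⟨d, hd0, hd, hdvd⟩ := Cfsg.Agent.Char.irr_degree_dvd_card φ.2
  have hd1 : d = 1 := by
    obtain ⟨k, hk⟩ := IsPGroup.iff_card.mp (Cfsg.Agent.Block.isDefectGroup_isPGroup hD)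
    rw [hk] at hdvd
    obtain ⟨j, -, rfl⟩ := (Nat.dvd_prime_pow Fact.out).mp hdvd
    rcases j with _ | j
    · rfl
    · refine absurd ?_ hφ
      rw [hd]
      exact Cfsg.Agent.Block.memLocalIdeal_mul_left
        (Cfsg.Agent.Block.memLocalRing_of_isIntegral (Cfsg.Agent.GalAvg.isIntegral (hz φ) 1))
        ((Cfsg.Agent.Block.memLocalIdeal_natCast_iff hM _).mpr (dvd_pow_self p j.succ_ne_zero))
  obtain ⟨μ, hμ⟩ := Cfsg.Agent.Char.exists_monoidHom_of_degree_one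
    (Cfsg.Agent.Char.isCharacter_of_irr φ.2) (by rw [hd, hd1, Nat.cast_one])
  refine ⟨μ, fun w => Units.ext ?_⟩
  set w' : ↥D := ⟨(w : G), hZD w.2⟩ with hw'
  obtain ⟨s, hs1, hs⟩ := Cfsg.Agent.BlkChar.irr_mul_center χ.2 (hZc w.2)
  have hne : (χ : G → ℂ) 1 ≠ 0 := by
    rw [(Cfsg.Agent.Block.irr_one_eq_charDegree χ.2).1, Nat.cast_ne_zero]
    exact (Cfsg.Agent.Block.irr_one_eq_charDegree χ.2).2.1.ne'
  have hsl : s = (lam w : ℂ) :=
    mul_right_cancel₀ hne (hs1.symm.trans ((hover w).trans (mul_comm _ _)))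
  have hin : ∑ c : ↥D, (χ : G → ℂ) (g * c) * (starRingEnd ℂ) ((φ : ↥D → ℂ) c) =
      (Nat.card ↥D : ℂ) * z φ 1 := by
    rw [Cfsg.Agent.Char.sum_mul_conj_eq_card_mul_classInner (fun c : ↥D => (χ : G → ℂ) (g * c))]
    congr 1
    have : (fun c : ↥D => (χ : G → ℂ) (g * c)) =
        ∑ ψ : Cfsg.IrrCharacter ↥D, z ψ 1 • (ψ : ↥D → ℂ) := by
      funext c; simp [hf, Finset.sum_apply]
    rw [this, Cfsg.Agent.Char.classInner_sum_left]
    simp only [Cfsg.Agent.Char.classInner_smul_left]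
    rw [Finset.sum_eq_single φ]
    · rw [Cfsg.Agent.Char.classInner_irr φ.2 φ.2, if_pos rfl, mul_one]
    · intro ψ _ hψ
      rw [Cfsg.Agent.Char.classInner_irr ψ.2 φ.2, if_neg (fun h => hψ (Subtype.ext h)), mul_zero]
    · exact fun h => absurd (Finset.mem_univ _) h
  have hshift : ∑ c : ↥D, (χ : G → ℂ) (g * c) * (starRingEnd ℂ) ((φ : ↥D → ℂ) c) =
      ((lam w : ℂ) * (starRingEnd ℂ) (μ w' : ℂ)) *
        ∑ c : ↥D, (χ : G → ℂ) (g * c) * (starRingEnd ℂ) ((φ : ↥D → ℂ) c) := by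
    rw [Finset.mul_sum]
    refine (Fintype.sum_equiv (Equiv.mulRight w') _ _ fun c => ?_).symm
    rw [Equiv.coe_mulRight, Subgroup.coe_mul]
    rw [show g * ((c : G) * (w' : G)) = (g * c) * (w : G) from (mul_assoc _ _ _).symm, hs, hsl]
    simp only [hμ, map_mul, Units.val_mul]
    ring
  have hk : (lam w : ℂ) * (starRingEnd ℂ) (μ w' : ℂ) = 1 := by
    have h2 : ∑ c : ↥D, (χ : G → ℂ) (g * c) * (starRingEnd ℂ) ((φ : ↥D → ℂ) c) ≠ 0 := by
      rw [hin]; exact mul_ne_zero (Nat.cast_ne_zero.mpr Nat.card_pos.ne') hφ0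
    exact (mul_eq_right₀ h2).mp hshift.symm
  have hn1 : ‖(μ w' : ℂ)‖ = 1 := by
    refine Complex.norm_eq_one_of_pow_eq_one (n := Nat.card ↥D) ?_ Nat.card_pos.ne'
    rw [← Units.val_pow_eq_pow_val, ← map_pow, pow_card_eq_one', map_one, Units.val_one]
  rw [← Complex.inv_eq_conj hn1, mul_inv_eq_one₀ (Units.ne_zero _)] at hk
  exact hk.symm

end Cfsg.Agent.S5001
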