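import Cfsg.Statements.S5011
import Mathlib
-- import your own Cfsg.Agent.* helpers here

set_option autoImplicit false
open Cfsg

namespace Cfsg.Agent.S5011

/-- Let G be a finite non-abelian simple group and ρ an irreducible complex representation of G on a space of dimension greater than one (irreducible in the sense that the only subspaces invariant under every ρ(x) are 0 and the whole space). Then for every non-identity element g of G, the centralizer of g does not act irreducibly: there is a non-zero proper subspace invariant under ρ(c) for every c commuting with g. -/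
theorem result {G : Type*} [Group G] [Finite G] [IsSimpleGroup G]
    (hG : ¬ IsMulCommutative G) {V : Type*} [AddCommGroup V] [Module ℂ V] [FiniteDimensional ℂ V]
    (ρ : Representation ℂ G V)
    (hirr : ∀ W : Submodule ℂ V, (∀ x : G, ∀ v ∈ W, ρ x v ∈ W) → W = ⊥ ∨ W = ⊤)
    (hdim : 1 < Module.finrank ℂ V) (g : G) (hg : g ≠ 1) :
    ∃ W : Submodule ℂ V, W ≠ ⊥ ∧ W ≠ ⊤ ∧ ∀ c ∈ Subgroup.centralizer ({g} : Set G), ∀ v ∈ W, ρ c v ∈ W := by
  classical
  by_contra hno
  push Not at hno
  haveI : Nontrivial V := Module.nontrivial_of_finrank_pos (R := ℂ) (by omega)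
  obtain ⟨μ, hμ⟩ := Module.End.exists_eigenvalue (ρ g)
  set E := Module.End.eigenspace (ρ g) μ with hE
  have hscal : ∀ v, ρ g v = μ • v := by
    intro v
    by_contra hv
    obtain ⟨c, hc, w, hw, hcw⟩ := hno E hμ
      (fun ht => hv (Module.End.mem_eigenspace_iff.mp (by rw [← hE, ht]; trivial)))
    refine hcw (Module.End.mem_eigenspace_iff.mpr ?_)
    have hgc : g * c = c * g := (Subgroup.mem_centralizer_iff.mp hc) g rfl
    have : ρ g (ρ c w) = ρ c (ρ g w) := by
      rw [← Module.End.mul_apply, ← map_mul, hgc, map_mul, Module.End.mul_apply]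
    rw [this, Module.End.mem_eigenspace_iff.mp hw, map_smul]
  let K : Subgroup G :=
    { carrier := {x | ∃ a : ℂ, ∀ v, ρ x v = a • v}
      one_mem' := ⟨1, fun v => by simp⟩
      mul_mem' := by
        rintro x y ⟨a, ha⟩ ⟨b, hb⟩
        exact ⟨a * b, fun v => by
          rw [map_mul, Module.End.mul_apply, hb, map_smul, ha, smul_smul, mul_comm]⟩
      inv_mem' := by
        rintro x ⟨a, ha⟩
        refine ⟨a⁻¹, fun v => ?_⟩
        have h1 : a • ρ x⁻¹ v = v := by
          rw [← ha, ← Module.End.mul_apply, ← map_mul, mul_inv_cancel, map_one,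
            Module.End.one_apply]
        rcases eq_or_ne a 0 with h0 | h0
        · rw [h0, zero_smul] at h1; rw [← h1, map_zero, smul_zero]
        · exact (eq_inv_smul_iff₀ h0).mpr h1 }
  have hKn : K.Normal := by
    constructor
    rintro x ⟨a, ha⟩ y
    refine ⟨a, fun v => ?_⟩
    rw [map_mul, map_mul, Module.End.mul_apply, Module.End.mul_apply, ha, map_smul,
      ← Module.End.mul_apply, ← map_mul, mul_inv_cancel, map_one, Module.End.one_apply]
  have hKtop : K = ⊤ := (IsSimpleGroup.eq_bot_or_eq_top_of_normal K hKn).resolve_left fun hb => by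
    have : g ∈ K := ⟨μ, hscal⟩
    rw [hb, Subgroup.mem_bot] at this
    exact hg this
  obtain ⟨v, hv⟩ := exists_ne (0 : V)
  rcases hirr (ℂ ∙ v) (fun x w hw => by
    obtain ⟨a, ha⟩ := (show x ∈ K by rw [hKtop]; trivial)
    rw [ha]; exact Submodule.smul_mem _ a hw) with h | h
  · exact hv (by simpa using h)
  · have := finrank_span_singleton (K := ℂ) hv
    rw [h, finrank_top] at this
    omega

end Cfsg.Agent.S5011
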