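import Cfsg.Statements.S5075
import Cfsg.Agent.RootSub.Transv.Decomp

set_option autoImplicit false
open Cfsg Cfsg.Agent.RootSub
open scoped commutatorElement

namespace Cfsg.Agent.S5075

/-- Let p be an odd prime, V a finite-dimensional vector space over the field with p elements, and H a group of linear automorphisms of V generated by transvections (elements of order p fixing a hyperplane pointwise) and having no nontrivial normal p-subgroup. Then for some n ≥ 1 there are a decomposition V = V₀ ⊕ V₁ ⊕ ⋯ ⊕ Vₙ into H-invariant subspaces and a decomposition of H as the internal direct product of normal subgroups H₁, …, Hₙ such that Hⱼ acts trivially on every Vᵢ with i ≠ j, and Hⱼ induces on Vⱼ exactly the special linear group of Vⱼ or exactly the isometry group of a non-degenerate alternating form on Vⱼ. -/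
theorem result {p : ℕ} [Fact p.Prime] (hp : Odd p) {V : Type*} [AddCommGroup V] [Module (ZMod p) V] [Finite V]
    (H : Subgroup (V ≃ₗ[ZMod p] V)) (T : Set (V ≃ₗ[ZMod p] V)) (hHT : H = Subgroup.closure T)
    (hT : ∀ t ∈ T, orderOf t = p ∧
      Module.finrank (ZMod p) ↥(LinearMap.ker ((t : V →ₗ[ZMod p] V) - LinearMap.id)) + 1 =
        Module.finrank (ZMod p) V)
    (hOp : Cfsg.pCore p ↥H = ⊥) :
    ∃ (n : ℕ) (W : Fin (n + 1) → Submodule (ZMod p) V) (K : Fin n → Subgroup (V ≃ₗ[ZMod p] V)),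
      1 ≤ n ∧ DirectSum.IsInternal W ∧
      (∀ h ∈ H, ∀ i, (W i).map (h : V →ₗ[ZMod p] V) = W i) ∧
      (∀ j, K j ≤ H ∧ ((K j).subgroupOf H).Normal) ∧ ⨆ j, K j = H ∧
      (∀ j, K j ⊓ (⨆ j' ∈ {j' : Fin n | j' ≠ j}, K j') = ⊥) ∧
      (∀ j j', j ≠ j' → ∀ a ∈ K j, ∀ b ∈ K j', a * b = b * a) ∧
      (∀ j, ∀ h ∈ K j, ∀ i : Fin (n + 1), i ≠ j.succ → ∀ v ∈ W i, h v = v) ∧
      (∀ j, ∃ ρ : ↥(K j) →* (↥(W j.succ) ≃ₗ[ZMod p] ↥(W j.succ)),
        (∀ (h : ↥(K j)) (v : ↥(W j.succ)), ((ρ h v : ↥(W j.succ)) : V) = (h : V ≃ₗ[ZMod p] V) (v : V)) ∧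
        ((ρ.range : Set (↥(W j.succ) ≃ₗ[ZMod p] ↥(W j.succ))) =
            {f : ↥(W j.succ) ≃ₗ[ZMod p] ↥(W j.succ) | LinearMap.det (f : ↥(W j.succ) →ₗ[ZMod p] ↥(W j.succ)) = 1} ∨
          ∃ B : LinearMap.BilinForm (ZMod p) ↥(W j.succ), B.IsAlt ∧ B.Nondegenerate ∧
            (ρ.range : Set (↥(W j.succ) ≃ₗ[ZMod p] ↥(W j.succ))) = {f : ↥(W j.succ) ≃ₗ[ZMod p] ↥(W j.succ) | ∀ x y, B (f x) (f y) = B x y})) := by
  classical
  have h2 : (2 : ZMod p) ≠ 0 := by
    intro h
    have h' : ((2 : ℕ) : ZMod p) = 0 := by exact_mod_cast h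
    have := (Nat.prime_dvd_prime_iff_eq (Fact.out : p.Prime) Nat.prime_two).1
      ((ZMod.natCast_eq_zero_iff 2 p).1 h')
    subst this
    exact absurd hp (by decide)
  have hTv : ∀ t ∈ T, ∃ Z ∈ Transv.Tvs H, ∀ v, t v = v + Z.2 v • Z.1 := by
    intro t ht
    obtain ⟨ho, hk⟩ := hT t ht
    set N : V →ₗ[ZMod p] V := (t : V →ₗ[ZMod p] V) - LinearMap.id with hN
    have hr : Module.finrank (ZMod p) (LinearMap.range N) = 1 := by
      have := LinearMap.finrank_range_add_finrank_ker N
      omega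
    obtain ⟨⟨x, hxr⟩, hx0, hspan⟩ := finrank_eq_one_iff'.1 hr
    have hx : x ≠ 0 := fun h => hx0 (Subtype.ext h)
    obtain ⟨θ, hθ⟩ := Module.Projective.exists_dual_ne_zero (ZMod p) hx
    let φ : Module.Dual (ZMod p) V := (θ x)⁻¹ • θ.comp N
    have htv : ∀ v, t v = v + φ v • x := by
      intro v
      obtain ⟨c, hc⟩ := hspan ⟨N v, ⟨v, rfl⟩⟩
      have hc' : c • x = N v := congrArg Subtype.val hc
      have hφ : φ v = c := by
        show (θ x)⁻¹ * θ (N v) = c
        rw [← hc', map_smul, smul_eq_mul, mul_comm c, ← mul_assoc, inv_mul_cancel₀ hθ, one_mul]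
      rw [hφ, hc', hN]
      simp
    have hpow : ∀ k : ℕ, (t ^ k) x = (1 + φ x) ^ k • x := by
      intro k
      induction k with
      | zero => simp
      | succ k ih =>
        rw [pow_succ', LinearEquiv.mul_apply, ih, map_smul, htv x, pow_succ, mul_smul, add_smul,
          one_smul]
    have hφx : φ x = 0 := by
      have h := hpow p
      have htp : t ^ p = 1 := orderOf_dvd_iff_pow_eq_one.1 (dvd_of_eq ho)
      rw [htp, LinearEquiv.coe_one, id, ZMod.pow_card] at h
      have h' : (φ x) • x = 0 := by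
        rw [add_smul, one_smul, left_eq_add] at h
        exact h
      exact (smul_eq_zero.1 h').resolve_right hx
    have hφ0 : φ ≠ 0 := by
      intro h0
      have : t = 1 := LinearEquiv.ext fun v => by rw [htv v, h0]; simp
      rw [this, orderOf_one] at ho
      exact (Fact.out : p.Prime).one_lt.ne ho
    exact ⟨(x, φ), ⟨hx, hφ0, Transv.isTv_of_mem (hHT ▸ Subgroup.subset_closure ht) hφx htv⟩, htv⟩
  have hs : Transv.Setup H := by
    refine ⟨?_, hOp, h2⟩
    intro g hg
    rw [hHT] at hg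
    refine Subgroup.closure_mono ?_ hg
    intro t ht
    exact hTv t ht
  by_cases hne : (Transv.Tvs H).Nonempty
  swap
  · have hbot : H = ⊥ := by
      rw [eq_bot_iff]
      refine hs.gen.trans ((Subgroup.closure_le _).2 ?_)
      rintro g ⟨Z, hZ, -⟩
      exact absurd ⟨Z, hZ⟩ hne
    refine ⟨1, ![⊤, ⊥], fun _ => ⊥, le_rfl, ?_, ?_, ?_, ?_, ?_, ?_, ?_, ?_⟩
    · exact (DirectSum.isInternal_submodule_iff_isCompl _ (i := (0 : Fin 2)) (j := 1) (by decide)
        (by ext i; fin_cases i <;> simp)).2 (by simpa using isCompl_top_bot)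
    · intro h hh i
      rw [hbot, Subgroup.mem_bot] at hh
      subst hh
      exact Submodule.map_id _
    · intro j; subst hbot; exact ⟨le_rfl, inferInstance⟩
    · subst hbot; simp
    · intro j; simp
    · intro j j' _ a ha b hb
      rw [Subgroup.mem_bot] at ha hb
      rw [ha, hb]
    · intro j h hh i _ v _
      rw [Subgroup.mem_bot] at hh
      rw [hh]; rfl
    · intro j
      have hsub : ∀ a : ↥((![⊤, ⊥] : Fin 2 → Submodule (ZMod p) V) j.succ), a = 0 := by
        intro a
        have ha := a.2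
        fin_cases j
        exact Subtype.ext ((Submodule.mem_bot (ZMod p)).1 ha)
      refine ⟨1, fun h v => ?_, Or.inl ?_⟩
      · rw [hsub v]; simp
      · have hone : ∀ f : ↥((![⊤, ⊥] : Fin 2 → Submodule (ZMod p) V) j.succ) ≃ₗ[ZMod p]
            ↥((![⊤, ⊥] : Fin 2 → Submodule (ZMod p) V) j.succ), f = 1 :=
          fun f => LinearEquiv.ext fun a => by rw [hsub a, map_zero, map_zero]
        refine Set.ext fun f => ⟨fun _ => ?_, fun _ => ⟨1, ?_⟩⟩
        · show LinearMap.det _ = 1
          rw [hone f]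
          exact LinearMap.det_id
        · rw [hone f]; exact map_one _
  -- the components
  haveI : Finite (Module.Dual (ZMod p) V) := Finite.of_injective _ DFunLike.coe_injective
  let st : Setoid ↥(Transv.Tvs H) :=
    { r := fun a b => Transv.TConn H a.1 b.1
      iseqv := ⟨fun _ => Relation.ReflTransGen.refl, fun h => h.symm hs, fun h h' => h.trans h'⟩ }
  let σ := (Finite.equivFin (Quotient st)).symm
  set n := Nat.card (Quotient st) with hn
  have hn1 : 1 ≤ n := by
    haveI : Nonempty (Quotient st) := ⟨Quotient.mk st ⟨_, hne.some_mem⟩⟩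
    exact Nat.card_pos
  let f : Fin n → V × Module.Dual (ZMod p) V := fun j => ((σ j).out : ↥(Transv.Tvs H)).1
  have hfT : ∀ j, f j ∈ Transv.Tvs H := fun j => ((σ j).out : ↥(Transv.Tvs H)).2
  have hdist : ∀ j k, j ≠ k → ¬ Transv.TConn H (f j) (f k) := by
    intro j k hjk h
    apply hjk
    apply σ.injective
    rw [← Quotient.out_eq (σ j), ← Quotient.out_eq (σ k)]
    exact Quotient.sound h
  have hcover : ∀ Z ∈ Transv.Tvs H, ∃ j, Z ∈ Transv.cls H (f j) := by
    intro Z hZ
    refine ⟨σ.symm (Quotient.mk st ⟨Z, hZ⟩), hZ, ?_⟩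
    have : (σ (σ.symm (Quotient.mk st ⟨Z, hZ⟩))).out ≈ (⟨Z, hZ⟩ : ↥(Transv.Tvs H)) :=
      Quotient.exact (by rw [Quotient.out_eq, σ.apply_symm_apply])
    exact this
  have hsplit := fun j => Transv.component_structure hs (hfT j)
  let S : Fin n → Submodule (ZMod p) V := fun j => Transv.clsSpan H (f j)
  let F : Fin n → Submodule (ZMod p) V := fun j => Transv.clsFix H (f j)
  have hSF : ∀ j k, j ≠ k → S j ≤ F k := by
    intro j k hjk
    refine Submodule.span_le.2 ?_
    rintro _ ⟨Z, hZ, rfl⟩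
    refine Transv.mem_clsFix.2 fun W hW => ?_
    exact (Transv.pairing_zero hs hZ hW.1 fun h => hdist j k hjk (h.trans (hW.2.symm hs))).1
  have hdis : ∀ j, ∀ v ∈ S j, v ∈ F j → v = 0 := fun j v h h' =>
    (Submodule.mem_bot (ZMod p)).1 ((hsplit j).1 ▸ (⟨h, h'⟩ : v ∈ S j ⊓ F j))
  have hind0 : ∀ A : Finset (Fin n), ∀ v ∈ (⨅ k, F k), v ∈ (⨆ k ∈ A, S k) → v = 0 := by
    intro A
    induction A using Finset.induction with
    | empty => intro v _ hv; simpa using hv
    | @insert a A ha ih =>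
      intro v hv hvA
      rw [Finset.iSup_insert, Submodule.mem_sup] at hvA
      obtain ⟨s, hs', r, hr, hsr⟩ := hvA
      have hrF : r ∈ F a := (iSup₂_le fun k hk => hSF k a (by rintro rfl; exact ha hk)) hr
      have hsF : s ∈ F a := by
        have := sub_mem ((Submodule.mem_iInf _).1 hv a) hrF
        rw [← hsr, add_sub_cancel_right] at this
        exact this
      rw [hdis a s hs' hsF, zero_add] at hsr
      exact ih v hv (hsr ▸ hr)
  have htop : ∀ A : Finset (Fin n), (⨆ k ∈ A, S k) ⊔ (⨅ k ∈ A, F k) = ⊤ := by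
    intro A
    induction A using Finset.induction with
    | empty => simp
    | @insert a A ha ih =>
      rw [eq_top_iff]
      intro v _
      obtain ⟨s, hs', r, hr, rfl⟩ := Submodule.mem_sup.1 (ih.ge (Submodule.mem_top (x := v)))
      obtain ⟨s', hs'', r', hr', rfl⟩ := Submodule.mem_sup.1
        ((hsplit a).2.1.ge (Submodule.mem_top (x := r)))
      rw [← add_assoc]
      refine Submodule.add_mem_sup (add_mem ?_ ?_) ?_
      · rw [Finset.iSup_insert]; exact Submodule.mem_sup_right hs'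
      · rw [Finset.iSup_insert]; exact Submodule.mem_sup_left hs''
      · rw [Finset.iInf_insert]
        refine ⟨hr', ?_⟩
        simp only [SetLike.mem_coe, Submodule.mem_iInf] at hr ⊢
        intro k hk
        have hs'F : s' ∈ F k := hSF a k (fun h => ha (h ▸ hk)) hs''
        have := sub_mem (hr k hk) hs'F
        rwa [add_sub_cancel_left] at this
  let W : Fin (n + 1) → Submodule (ZMod p) V :=
    Fin.cases (⨅ k, F k) S
  have hWF : ∀ (j : Fin n) (i : Fin (n + 1)), i ≠ j.succ → W i ≤ F j := by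
    intro j i
    refine Fin.cases (fun _ => ?_) (fun k hk => ?_) i
    · exact iInf_le _ j
    · exact hSF k j fun h => hk (h ▸ rfl)
  refine ⟨n, W, fun j => Transv.clsGroup H (f j), hn1, ?_, ?_, ?_, ?_, ?_, ?_, ?_, ?_⟩
  · refine DirectSum.isInternal_submodule_of_iSupIndep_of_iSup_eq_top ?_ ?_
    · intro i
      refine Submodule.disjoint_def.2 fun v hv hv' => ?_
      revert hv hv'
      refine Fin.cases (fun hv hv' => ?_) (fun j hv hv' => ?_) i
      · refine hind0 Finset.univ v hv ?_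
        have hle : (⨆ k, ⨆ (_ : k ≠ (0 : Fin (n + 1))), W k) ≤ ⨆ k ∈ (Finset.univ : Finset (Fin n)), S k := by
          refine iSup_le fun k => ?_
          refine Fin.cases (iSup_le fun h => absurd rfl h) (fun j => iSup_le fun _ => ?_) k
          exact le_iSup₂_of_le (f := fun k (_ : k ∈ (Finset.univ : Finset (Fin n))) => S k) j
            (Finset.mem_univ j) le_rfl
        exact hle hv'
      · exact hdis j v hv ((iSup₂_le fun k hk => hWF j k hk) hv')
    · rw [eq_top_iff, ← htop Finset.univ]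
      refine sup_le (iSup₂_le fun k _ => le_iSup W k.succ) ?_
      refine le_trans (le_of_eq ?_) (le_iSup W 0)
      show _ = ⨅ k, F k
      simp
  · intro h hh i
    have hmem : ∀ g ∈ H, ∀ v ∈ W i, g v ∈ W i := by
      intro g hg
      refine Fin.cases (fun v hv => ?_) (fun k v hv => ?_) i
      · exact (Submodule.mem_iInf _).2 fun k =>
          Transv.apply_mem_clsFix hs g hg v ((Submodule.mem_iInf _).1 hv k)
      · exact Transv.apply_mem_clsSpan hs g hg v hv
    refine le_antisymm ?_ ?_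
    · rintro _ ⟨v, hv, rfl⟩; exact hmem h hh v hv
    · intro v hv; exact ⟨h⁻¹ v, hmem _ (inv_mem hh) v hv, h.apply_symm_apply v⟩
  · intro j
    refine ⟨Transv.clsGroup_le _, ⟨fun a ha g => ?_⟩⟩
    rw [Subgroup.mem_subgroupOf] at ha ⊢
    exact Transv.conj_mem_clsGroup hs _ g g.2 a ha
  · refine le_antisymm (iSup_le fun j => Transv.clsGroup_le _) (hs.gen.trans ?_)
    rw [Subgroup.closure_le]
    rintro g ⟨Z, hZ, hg⟩
    obtain ⟨j, hj⟩ := hcover Z hZ
    exact Subgroup.mem_iSup_of_mem j (Subgroup.subset_closure ⟨Z, hj, hg⟩)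
  · intro j
    rw [eq_bot_iff]
    rintro g ⟨hg, hg'⟩
    have h1 : g ∈ Transv.fixing (F j) := (Transv.clsGroup_move (f j) hg).2
    have h2' : g ∈ Transv.fixing (S j) := by
      refine (iSup₂_le (fun k (hk : k ≠ j) => ?_) :
        (⨆ k ∈ {k : Fin n | k ≠ j}, Transv.clsGroup H (f k)) ≤ Transv.fixing (S j)) hg'
      exact fun b hb v hv => (Transv.clsGroup_move (f k) hb).2 v (hSF j k (Ne.symm hk) hv)
    rw [Subgroup.mem_bot]
    refine LinearEquiv.ext fun v => ?_
    obtain ⟨s, hs', r, hr, rfl⟩ := Submodule.mem_sup.1 ((hsplit j).2.1.ge (Submodule.mem_top (x := v)))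
    rw [map_add, h2' s hs', h1 r hr]
    rfl
  · intro j k hjk
    exact Transv.commute_clsGroup hs (hdist j k hjk)
  · intro j h hh i hi v hv
    exact (Transv.clsGroup_move (f j) hh).2 v (hWF j i hi hv)
  · intro j
    exact (hsplit j).2.2

end Cfsg.Agent.S5075
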