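import Cfsg.Statements.S5103
import Cfsg.Agent.FusionSys.Realized
import Cfsg.Agent.Cores.Basic

set_option autoImplicit false
open Cfsg

namespace Cfsg.Agent.S5103

/-- A fusion system over a finite p-group that has a model (a finite group realizing it on a Sylow p-subgroup with self-centralizing largest normal p-subgroup) is constrained. -/
theorem result {Ω : Type*} [Group Ω] {S : Subgroup Ω} [Finite S] (p : ℕ) [Fact p.Prime] (hS : IsPGroup p S) (F : Cfsg.FusionSystem S) {G : Type*} [Group G] (ι : S →* G) (hG : F.IsModel p G ι) : F.IsConstrained p := by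
  obtain ⟨hfin, hR, ⟨T, hT⟩, hC⟩ := hG
  refine ⟨FusionSys.saturated_of_realized hR T hT, ?_⟩
  obtain ⟨Q, hQS, hQ⟩ := FusionSys.exists_img_eq (ι := ι) (K := pCore p G)
    ((Cfsg.Agent.Cores.pCore_le_sylow T).trans hT.le)
  have hn : (FusionSys.img ι Q).Normal := by
    rw [hQ]
    infer_instance
  refine ⟨Q, FusionSys.isNormal_of_normal hR hQS hn, hQS, fun R hR' => ?_⟩
  obtain ⟨-, hRS, g, hg⟩ := (FusionSys.isConj_iff_conj hR).1 hR'
  have := hn
  replace hg : FusionSys.img ι Q = FusionSys.img ι R := (Subgroup.Normal.map_conj_eq (FusionSys.img ι Q) g).symm.trans hg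
  obtain rfl := FusionSys.img_injective hR.1 hQS hRS hg
  intro x hx
  have h1 : ι ⟨x, hx.1⟩ ∈ Subgroup.centralizer (FusionSys.img ι Q : Set G) := by
    have h2 : ι ⟨x, hx.1⟩ ∈ FusionSys.img ι (Cfsg.FusionSystem.centralizerIn S Q) :=
      FusionSys.mem_img.2 ⟨_, hx, rfl⟩
    rw [FusionSys.img_centralizerIn hR.1 hQS] at h2
    exact h2.2
  rw [hQ] at h1
  exact (FusionSys.img_apply_mem_iff hR.1 (x := ⟨x, hx.1⟩)).1 (hQ.symm ▸ hC h1)

end Cfsg.Agent.S5103
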