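import Cfsg.Agent.FusionAlperin.SeriesCriteria
import Cfsg.Statements.S5125
-- import your own Cfsg.Agent.* helpers here

set_option autoImplicit false
open Cfsg

namespace Cfsg.Agent.S5125

open Cfsg.Agent.FusionAlperin Cfsg.Agent.FusionSys Cfsg.FusionSystem


/-- Let F be a saturated fusion system over a finite p-group S and Q a subgroup strongly closed in F. If Q has a subgroup Q₁ that is normal in F, with Q/Q₁ abelian and Aut_F(Q₁) a p-group, then Q is normal in F. -/
theorem result {Ω : Type*} [Group Ω] {S : Subgroup Ω} [Finite S] (p : ℕ) [Fact p.Prime] (hS : IsPGroup p S) (F : Cfsg.FusionSystem S) (hF : F.IsSaturated p) (Q Q₁ : Subgroup Ω) (hQ : F.StronglyClosed Q) (hQ₁Q : Q₁ ≤ Q) (hQ₁ : F.IsNormal Q₁) (hab : ⁅Q, Q⁆ ≤ Q₁) (hAut : IsPGroup p ↥(F.autGroup Q₁)) : F.IsNormal Q := by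
  refine isNormal_of_stronglyClosed hS hF hQ fun P hP => ?_
  have hP' := hP.1.1
  have hno := noOuterPNormal_of_essential hP
  have hQ₁P : Q₁ ≤ P := normal_le_of_noOuter hS hP.1 hno hQ₁
  have hsc₁ := isNormal_stronglyClosed hQ₁
  refine le_of_series_base hS hP.1 hno (n := 1) (Qs := ![Q₁, Q]) rfl
    (Fin.monotone_iff_le_succ.2 fun i => by fin_cases i; exact hQ₁Q) hQ hsc₁
    (fun i => by fin_cases i; exact hQ)
    (fun i a ha b hb => by fin_cases i; exact hab (Subgroup.commutator_mem_commutator ha hb))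
    ⊤ (fun _ _ _ _ => trivial) (fun _ _ _ => trivial) fun α hα _ => ?_
  -- the restriction of `α` to `Q₁` is an automorphism of the system of `p`-power order
  set φ : Q₁ →* Ω := restr hQ₁P (P.subtype.comp α.toMonoidHom) with hφdef
  have hφ : φ ∈ F.Hom Q₁ := restr_mem F hQ₁P (autGroup_mem_hom F hP' hα)
  have hr : φ.range = Q₁ := by
    haveI : Finite Q₁ := finite_of_le ‹_› hQ₁.1
    refine range_eq_of_image_le (F.injective_of_mem hφ) ?_ le_rfl
    rintro _ ⟨x, rfl⟩
    exact sc_map_mem hsc₁ hφ x.2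
  set β : F.autGroup Q₁ := ⟨toIso F hφ hr, toIso_mem_autGroup F hφ hr⟩ with hβ
  obtain ⟨k, hk⟩ := hAut β
  refine ⟨k, fun x hx => ?_⟩
  have key : ∀ n : ℕ, ∀ y : Q₁, ((α ^ n) (Subgroup.inclusion hQ₁P y) : Ω) =
      ((β : MulAut Q₁) ^ n) y := by
    intro n
    induction n with
    | zero => intro y; rfl
    | succ n ih =>
      intro y
      rw [pow_succ', MulAut.mul_apply, pow_succ', MulAut.mul_apply]
      have e : (α ^ n) (Subgroup.inclusion hQ₁P y) =
          Subgroup.inclusion hQ₁P (((β : MulAut Q₁) ^ n) y) := Subtype.ext (ih y)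
      rw [e]
      rfl
  have hx' : (x : Ω) ∈ Q₁ := hx
  have h1 := key (p ^ k) ⟨x, hx'⟩
  have h2 : (β : MulAut Q₁) ^ p ^ k = 1 := congrArg Subtype.val hk
  rw [h2] at h1
  exact Subtype.ext h1

end Cfsg.Agent.S5125
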