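import Cfsg.Agent.FusionAlperin.NormalCriteria
import Cfsg.Agent.FusionSys.NormCentSaturated
import Cfsg.Agent.FusionAux.NormSys
import Cfsg.Agent.FusionSys.Realized
import Cfsg.Agent.Cores.Basic
import Cfsg.Statements.S5126
-- import your own Cfsg.Agent.* helpers here

set_option autoImplicit false
open Cfsg

namespace Cfsg.Agent.S5126

open Cfsg.Agent.FusionAlperin Cfsg.Agent.FusionSys Cfsg.FusionSystem


/-- In a saturated fusion system over a finite p-group S, the normalizer system of a fully normalized, centric, radical subgroup R is constrained, and in every model of that normalizer system the largest normal p-subgroup is the image of R. -/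
theorem result {Ω : Type*} [Group Ω] {S : Subgroup Ω} [Finite S] (p : ℕ) [Fact p.Prime] (hS : IsPGroup p S) (F : Cfsg.FusionSystem S) (hF : F.IsSaturated p) (R : Subgroup Ω) (hRn : F.IsFullyNormalized R) (hRc : F.IsCentric R) (hRr : F.IsRadical p R) (E : Cfsg.FusionSystem (Cfsg.FusionSystem.normalizerIn S R)) (hE : F.IsNormalizerSystem R E) {G : Type*} [Group G] (ι : ↥(Cfsg.FusionSystem.normalizerIn S R) →* G) : E.IsConstrained p ∧ (E.IsModel p G ι → (Cfsg.pCore p G : Subgroup G) = (R.subgroupOf (Cfsg.FusionSystem.normalizerIn S R)).map ι) := by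
  have hRS := hRn.1
  have hRN : R ≤ normalizerIn S R := le_normalizerIn hRS
  haveI : Finite (normalizerIn S R) := finite_of_le ‹_› (normalizerIn_le R)
  have hNp : IsPGroup p (normalizerIn S R) := hS.to_le (normalizerIn_le R)
  have hsat := normalizerSystem_saturated hS hF hRn hE
  have hnormal : E.IsNormal R := by
    refine ⟨hRN, fun P φ hφ => ?_⟩
    have hPN : P ≤ normalizerIn S R := le_S E hφ
    rw [hE P] at hφ
    obtain ⟨-, -, hval, ψ, hψ, hψe, hψm⟩ := hφ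
    refine ⟨ψ, ?_, hψe, hψm⟩
    rw [hE (P ⊔ R)]
    refine ⟨hψ, sup_le hPN hRN, fun x => ?_, ?_⟩
    · exact sup_le le_rfl hRN (Cfsg.Agent.FusionAux.ext_image_le hψm
        (R := normalizerIn S R) (fun y => (hψe y).symm ▸ hval y) x)
    · have hle : P ⊔ R ⊔ R ≤ P ⊔ R := sup_le le_rfl le_sup_right
      refine ⟨restr hle ψ, restr_mem F hle hψ, fun x => rfl, ?_⟩
      ext y
      rw [mem_map_subgroupOf]
      constructor
      · rintro ⟨x, hx, rfl⟩
        exact Cfsg.Agent.FusionAux.apply_mem_of_map_eq hψm (x := ⟨x, hle x.2⟩) hx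
      · intro hy
        obtain ⟨x, hx, rfl⟩ := Cfsg.Agent.FusionAux.exists_of_map_eq hψm hy
        exact ⟨⟨x, Subgroup.mem_sup_left x.2⟩, hx, rfl⟩
  have hcentric : E.IsCentric R := by
    refine ⟨hRN, fun Q hQ => ?_⟩
    obtain ⟨φ, hφ, hr⟩ := hQ
    rw [hE R] at hφ
    exact (inf_le_inf_right _ (normalizerIn_le R)).trans (hRc.2 Q ⟨φ, hφ.1, hr⟩)
  refine ⟨⟨hsat, R, hnormal, hcentric⟩, fun hmodel => ?_⟩
  obtain ⟨hfin, hreal, ⟨T, hT⟩, hcent⟩ := hmodel
  haveI := hfin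
  set R₁ := (R.subgroupOf (normalizerIn S R)).map ι with hR₁
  have hR₁p : IsPGroup p R₁ := ((hS.to_le hRS).of_equiv (Subgroup.subgroupOfEquivOfLe hRN).symm).map ι
  set C := Cfsg.pCore p G with hC
  have hCp : IsPGroup p C := Sylow.sSup_of_normal _ (fun H hH => hH.2)
    (fun H hH => hH.1)
  haveI hCn : C.Normal := inferInstance
  have hCr : C ≤ ι.range := hT ▸ hCp.le_sylow_of_normal T
  obtain ⟨U, hUN, hU⟩ := exists_img_eq hCr
  have hUn : E.IsNormal U := isNormal_of_normal hreal hUN (hU.symm ▸ hCn)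
  have hrangeN : ∀ w ∈ ι.range, ∀ r ∈ R₁, w * r * w⁻¹ ∈ R₁ := by
    rintro _ ⟨s, rfl⟩ _ ⟨r, hr, rfl⟩
    refine ⟨s * r * s⁻¹, ?_, by simp⟩
    exact (Subgroup.mem_normalizer_iff.1 s.2.2 _).1 hr
  -- the image of `R` is normal
  have hnorm : R₁.Normal := by
    refine ⟨fun r hr g => ?_⟩
    have hgU : ∀ y ∈ img ι U, g * y * g⁻¹ ∈ ι.range := fun y hy =>
      hCr (hCn.conj_mem y (hU ▸ hy) g)
    obtain ⟨φ, hφ, hφe⟩ := exists_hom_of_conj hreal hUN hgU
    obtain ⟨ψ, hψ, hψe, hψm⟩ := hnormal.2 U φ hφ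
    obtain ⟨k, hk, -⟩ := hom_conj hreal hψ
    have hkU : k⁻¹ * g ∈ Subgroup.centralizer (C : Set G) := by
      refine Subgroup.mem_centralizer_iff.2 fun c hc => ?_
      obtain ⟨u, hu, rfl⟩ := mem_img.1 (hU.symm ▸ hc : c ∈ img ι U)
      have h1 := hk ⟨u, Subgroup.mem_sup_left hu⟩
      have h2 := hφe ⟨u, hu⟩ (map_mem_S E hφ _)
      have h3 : (⟨ψ ⟨u, Subgroup.mem_sup_left hu⟩, map_mem_S E hψ _⟩ : normalizerIn S R) =
          ⟨φ ⟨u, hu⟩, map_mem_S E hφ _⟩ := Subtype.ext (hψe ⟨u, hu⟩)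
      rw [h3, h2] at h1
      have h4 : g * ι u * g⁻¹ = k * ι u * k⁻¹ := h1
      calc ι u * (k⁻¹ * g) = k⁻¹ * (k * ι u * k⁻¹) * g := by group
        _ = k⁻¹ * g * ι u := by rw [← h4]; group
    have hw := hrangeN _ (hCr (hcent hkU)) r hr
    obtain ⟨z, hz, hze⟩ := hw
    have h5 := hk ⟨z, Subgroup.mem_sup_right (Subgroup.mem_subgroupOf.1 hz)⟩
    refine ⟨⟨ψ ⟨z, Subgroup.mem_sup_right (Subgroup.mem_subgroupOf.1 hz)⟩, map_mem_S E hψ _⟩,
      Cfsg.Agent.FusionAux.apply_mem_of_map_eq hψm (Subgroup.mem_subgroupOf.1 hz), ?_⟩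
    rw [h5]
    show k * ι z * k⁻¹ = _
    rw [hze]
    group
  refine le_antisymm ?_ (le_sSup ⟨hnorm, hR₁p⟩)
  have hno : NoOuterPNormal E p R := by
    intro K hK hKn hKp
    rw [Cfsg.Agent.FusionAux.normalizerSystem_autGroup_self hE hRS] at hK hKn
    exact noOuterPNormal_of_radical hRr K hK hKn hKp
  have hUR : U ≤ R := normal_le_of_noOuter hNp hcentric hno hUn
  calc C = img ι U := hU.symm
    _ ≤ R₁ := Subgroup.map_mono fun x hx => hUR hx

end Cfsg.Agent.S5126
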