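import Cfsg.Agent.FusionAlperin.Factor
import Cfsg.Agent.FusionAlperin.GroupLemmas
import Cfsg.Statements.S5135
-- import your own Cfsg.Agent.* helpers here

set_option autoImplicit false
open Cfsg

namespace Cfsg.Agent.S5135

open Cfsg.Agent.FusionAlperin Cfsg.Agent.FusionSys Cfsg.FusionSystem
open scoped Pointwise


/-- Let G be a finite group, S a Sylow p-subgroup and H a normal subgroup of G. Then the fusion system of G/H on the image SH/H of S is the factor system of the fusion system of G on S modulo S ∩ H, read through the quotient map restricted to S: for each subgroup P' of SH/H, the conjugation maps by elements of G/H defined on P' with values in SH/H are exactly the homomorphisms induced by the conjugation maps by elements of G defined on the full preimage of P' in S with values in S. -/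
theorem result {G : Type*} [Group G] [Finite G] (p : ℕ) [Fact p.Prime] (S : Sylow p G) (H : Subgroup G) [H.Normal] : (Cfsg.groupFusionSystem (S : Subgroup G)).IsFactorSystem ((S : Subgroup G) ⊓ H) ((QuotientGroup.mk' H).comp (S : Subgroup G).subtype) (Cfsg.groupFusionSystem ((S : Subgroup G).map (QuotientGroup.mk' H))) := by
  set θ := (QuotientGroup.mk' H).comp (S : Subgroup G).subtype with hθ
  have hker : ∀ s : (S : Subgroup G), θ s = 1 ↔ (s : G) ∈ (S : Subgroup G) ⊓ H := fun s =>
    ⟨fun h => ⟨s.2, (QuotientGroup.eq_one_iff _).1 h⟩, fun h => (QuotientGroup.eq_one_iff _).2 h.2⟩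
  have hrange : θ.range = (S : Subgroup G).map (QuotientGroup.mk' H) := by
    rw [hθ, MonoidHom.range_comp, Subgroup.range_subtype]
  refine ⟨inf_le_left, hker, hrange, fun P' φ' => ⟨?_, ?_⟩⟩
  · rintro ⟨hP', hval, gq, hg⟩
    refine ⟨hP', ?_⟩
    obtain ⟨g, rfl⟩ := QuotientGroup.mk'_surjective H gq
    set P := preimageAlong θ P' with hPdef
    have hP : P ≤ (S : Subgroup G) := preimageAlong_le P'
    set N := (S : Subgroup G) ⊔ H with hN
    have hSN : SylIn p (S : Subgroup G) N := by
      refine ⟨le_sup_left, S.subtype le_sup_left, ?_⟩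
      rw [Sylow.coe_subtype]
    have hX : P.map (MulAut.conj g).toMonoidHom ≤ N := by
      rintro _ ⟨x, hx, rfl⟩
      have h1 := hval ⟨_, theta_mem_of_mem_preimage ⟨x, hx⟩⟩
      rw [hg] at h1
      obtain ⟨s, hs, hse⟩ := h1
      have h2 : s⁻¹ * (g * x * g⁻¹) ∈ H := by
        rw [← QuotientGroup.eq]
        exact hse.trans (by simp [θ])
      have := N.mul_mem (Subgroup.mem_sup_left hs : s ∈ N) (Subgroup.mem_sup_right h2)
      simpa [mul_assoc] using this
    obtain ⟨m, hm, hconj⟩ := hSN.exists_conj_le hX ((S.2.to_le hP).map _)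
    have hm' : m ∈ ((S : Subgroup G) : Set G) * (H : Set G) := by
      rw [← Subgroup.mul_normal (S : Subgroup G) H]
      exact hm
    obtain ⟨s, hs, h, hh, rfl⟩ := hm'
    have hin : ∀ x : P, (h * g) * (x : G) * (h * g)⁻¹ ∈ (S : Subgroup G) := by
      intro x
      have h1 := mul_mem (mul_mem (inv_mem (show s ∈ (S : Subgroup G) from hs))
        (hconj (g * x * g⁻¹) ⟨x, x.2, rfl⟩)) (show s ∈ (S : Subgroup G) from hs)
      have e : s⁻¹ * (s * h * (g * (x : G) * g⁻¹) * (s * h)⁻¹) * s = h * g * x * (h * g)⁻¹ := by group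
      exact e ▸ h1
    refine ⟨Cfsg.conjHom P (h * g), ⟨hP, hin, h * g, fun x => rfl⟩, hP, hin,
      theta_mem_of_mem_preimage, fun x => ?_⟩
    rw [hg]
    show _ = QuotientGroup.mk' H (h * g * (x : G) * (h * g)⁻¹)
    rw [map_mul, map_mul, map_inv, map_mul,
      show QuotientGroup.mk' H h = 1 from (QuotientGroup.eq_one_iff h).2 hh, one_mul]
    rfl
  · rintro ⟨hP', φ, ⟨-, hφS, g, hg⟩, hP, hφ, hmem, he⟩
    have key : ∀ x : P', ∃ y : preimageAlong θ P', x = ⟨_, hmem y⟩ := fun x => by
      obtain ⟨y, hy⟩ := exists_preimage (hrange ▸ hP') x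
      exact ⟨y, Subtype.ext hy.symm⟩
    refine ⟨hP', fun x => ?_, QuotientGroup.mk' H g, fun x => ?_⟩
    · obtain ⟨y, rfl⟩ := key x
      rw [he y]
      exact hrange ▸ ⟨_, rfl⟩
    · obtain ⟨y, rfl⟩ := key x
      rw [he y]
      show QuotientGroup.mk' H (φ y) = QuotientGroup.mk' H g * QuotientGroup.mk' H (y : G) * _
      rw [hg y, map_mul, map_mul, map_inv]

end Cfsg.Agent.S5135
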