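import Cfsg.Statements.S5138
import Cfsg.Agent.Tech.ProductNormal
import Cfsg.Agent.S5129

set_option autoImplicit false
open Cfsg

namespace Cfsg.Agent.S5138

/-- Let F be a saturated fusion system over a finite p-group S and E₁, E₂ normal subsystems over T₁, T₂ with [T₁, T₂] = 1. Then there is a normal subsystem of F over T₁T₂ which, if moreover T₁ ∩ T₂ lies in the centre of E₁ and in the centre of E₂, is a central product of E₁ and E₂ (the factor system of a direct product of E₁ and E₂ modulo a subgroup of its centre meeting both factors trivially). -/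
theorem result {Ω : Type*} [Group Ω] {S : Subgroup Ω} [Finite S] (p : ℕ) [Fact p.Prime] (hS : IsPGroup p S) (F : Cfsg.FusionSystem S) (hF : F.IsSaturated p) {T₁ T₂ : Subgroup Ω} (E₁ : Cfsg.FusionSystem T₁) (E₂ : Cfsg.FusionSystem T₂) (hE₁ : E₁.IsNormalIn F p) (hE₂ : E₂.IsNormalIn F p) (hc : ⁅T₁, T₂⁆ = ⊥) : ∃ D : Cfsg.FusionSystem (T₁ ⊔ T₂), D.IsNormalIn F p ∧ (T₁ ⊓ T₂ ≤ E₁.center → T₁ ⊓ T₂ ≤ E₂.center → Cfsg.FusionSystem.IsCentralProductOf E₁ E₂ D) := by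
  have hcomm : ∀ a ∈ T₁, ∀ b ∈ T₂, a * b = b * a := fun a ha b hb =>
    commutatorElement_eq_one_iff_mul_comm.1
      (Subgroup.mem_bot.1 (hc ▸ Subgroup.commutator_mem_commutator ha hb))
  have : Finite T₁ := Agent.FusionSys.finite_of_le ‹Finite S› hE₁.1.2.2.2.1.1
  have : Finite T₂ := Agent.FusionSys.finite_of_le ‹Finite S› hE₂.1.2.2.2.1.1
  by_cases hZ : T₁ ⊓ T₂ ≤ E₁.center ∧ T₁ ⊓ T₂ ≤ E₂.center
  · obtain ⟨D, hD, -, hP⟩ := Agent.Tech.CProd.exists_normal_product hS hF hE₁ hE₂ hcomm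
      (Agent.Tech.Meet.isCentral_mono (Agent.FusionAlperin.isCentral_center E₁) hZ.1)
      (Agent.Tech.Meet.isCentral_mono (Agent.FusionAlperin.isCentral_center E₂) hZ.2)
    exact ⟨D, hD, fun _ _ => hP⟩
  · have h₁ := hE₁.1.2.2.2.1
    have h₂ := hE₂.1.2.2.2.1
    have hR : F.IsNormal (T₁ ⊓ T₂) := Agent.Tech.Commuting.sc_comm_normal hS hF
      (Agent.FusionAlperin.sc_inf h₁ h₂) fun a ha b hb => hcomm a ha.1 b hb.2
    have hC := Agent.FusionAlperin.centSys_normal hS hF hR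
    have part : ∀ (T : Subgroup Ω) (E : Cfsg.FusionSystem T), E.IsNormalIn F p →
        T ≤ Cfsg.FusionSystem.centralizerIn S (T₁ ⊓ T₂) → T₁ ⊓ T₂ ≤ T →
          ∃ N : Cfsg.FusionSystem T, N.IsNormalIn F p ∧ N.IsCentral (T₁ ⊓ T₂) := by
      intro T E hE hT hRT
      obtain ⟨N, ⟨hN, -, hNC⟩, -⟩ := Agent.S5129.result p hS F hF E _ hE hC
      have gen : ∀ X : Subgroup Ω, X = T → ∀ N : Cfsg.FusionSystem X, N.IsNormalIn F p →
          Agent.FusionAlperin.Centralizes F N (T₁ ⊓ T₂) →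
          ∃ N : Cfsg.FusionSystem T, N.IsNormalIn F p ∧ N.IsCentral (T₁ ⊓ T₂) := by
        rintro _ rfl N hN hNc
        exact ⟨N, hN, Agent.Tech.Meet.isCentral_mono
          (Agent.Tech.Commuting.isCentral_of_centralizes hS hN.1 hR hNc) (le_inf hRT le_rfl)⟩
      exact gen _ (inf_eq_left.2 hT) N hN fun P φ hφ => hNC.1.2.2.1 P hφ
    obtain ⟨N₁, hN₁, hc₁⟩ := part T₁ E₁ hE₁ (fun x hx => ⟨h₁.1 hx,
      Subgroup.mem_centralizer_iff.2 fun r hr => (hcomm x hx r hr.2).symm⟩) inf_le_left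
    obtain ⟨N₂, hN₂, hc₂⟩ := part T₂ E₂ hE₂ (fun x hx => ⟨h₂.1 hx,
      Subgroup.mem_centralizer_iff.2 fun r hr => hcomm r hr.1 x hx⟩) inf_le_right
    obtain ⟨D, hD, -, -⟩ := Agent.Tech.CProd.exists_normal_product hS hF hN₁ hN₂ hcomm hc₁ hc₂
    exact ⟨D, hD, fun a b => absurd ⟨a, b⟩ hZ⟩

end Cfsg.Agent.S5138
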