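import Cfsg.Agent.FusionAlperin.GroupConstrained
import Cfsg.Agent.S5135
import Cfsg.Statements.S5147
-- import your own Cfsg.Agent.* helpers here

set_option autoImplicit false
open Cfsg

namespace Cfsg.Agent.S5147

open Cfsg.Agent.FusionAlperin Cfsg.Agent.FusionSys Cfsg.FusionSystem


/-- Let G be a finite group with Sylow 2-subgroup S whose 2-fusion system on S is constrained, and L a component of G (a subnormal quasisimple subgroup). Then the 2-fusion system of L/Z(L) on the image of S ∩ L is constrained. -/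
theorem result {G : Type*} [Group G] [Finite G] (S : Sylow 2 G) (hF : (Cfsg.groupFusionSystem (S : Subgroup G)).IsConstrained 2) (L : Subgroup G) (hL : Cfsg.IsComponent L) : (Cfsg.groupFusionSystem (((S : Subgroup G).subgroupOf L).map (QuotientGroup.mk' (Subgroup.center L)))).IsConstrained 2 := by
  obtain ⟨⟨-, P, hP⟩, hL'⟩ := constrained_subgroupOf S hF hL.1
  rw [Subgroup.inf_subgroupOf_right] at hP
  rw [← hP] at hL' ⊢
  have hfac := Cfsg.Agent.S5135.result 2 P (Subgroup.center L)
  refine constrained_factor P.2 hL' ⟨inf_le_left, fun Q φ hφ => ?_⟩ hfac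
  obtain ⟨hQ, hv, g, hg⟩ := hφ
  have hfix : ∀ z ∈ Subgroup.center L, g * z * g⁻¹ = z := fun z hz => by
    rw [Subgroup.mem_center_iff.1 hz g, mul_inv_cancel_right]
  have hle : Q ⊔ ((P : Subgroup L) ⊓ Subgroup.center L) ≤
      (P : Subgroup L).comap (MulAut.conj g).toMonoidHom := by
    refine sup_le (fun x hx => ?_) fun z hz => ?_
    · show g * x * g⁻¹ ∈ (P : Subgroup L)
      rw [← hg ⟨x, hx⟩]
      exact hv ⟨x, hx⟩
    · show g * z * g⁻¹ ∈ (P : Subgroup L)
      rw [hfix z hz.2]
      exact hz.1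
  exact ⟨Cfsg.conjHom _ g, ⟨sup_le hQ inf_le_left, fun x => hle x.2, g, fun _ => rfl⟩,
    fun x => (hg x).symm, fun z => hfix z z.2.2⟩

end Cfsg.Agent.S5147
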