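import Cfsg.Statements.S5154
import Cfsg.Agent.FusionSub.ComponentImage

set_option autoImplicit false
open Cfsg Cfsg.FusionSystem Cfsg.Agent.FusionSys Cfsg.Agent.FusionAlperin Cfsg.Agent.Tech.IsoTransport
  Cfsg.Agent.FusionSub

namespace Cfsg.Agent.S5154

/-- Let F be a saturated fusion system over a finite p-group S, C a component of F over T, and γ a map of F with source T. Then the image of C under γ — the fusion system over γ(T) whose maps are the homomorphisms induced along γ by the maps of C — is again a component of F. -/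
theorem result {Ω : Type*} [Group Ω] {S : Subgroup Ω} [Finite S] (p : ℕ) [Fact p.Prime] (hS : IsPGroup p S) (F : Cfsg.FusionSystem S) (hF : F.IsSaturated p) {T : Subgroup Ω} (C : Cfsg.FusionSystem T) (hC : C.IsComponentIn F p) (γ : T →* Ω) (hγ : γ ∈ F.Hom T) (E : Cfsg.FusionSystem γ.range) (hE : C.IsFactorSystem ⊥ γ E) : E.IsComponentIn F p := by
  have hinj : Function.Injective γ := F.injective_of_mem hγ
  have hTS : T ≤ S := ComponentImage.le_of_subnormal hC.1
  haveI : Finite T := finite_of_le ‹_› hTS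
  obtain ⟨-, hker, -, hmem⟩ := hE
  set σ := MonoidHom.ofInjective hinj with hσ
  have hev : ∀ {x : Ω} (hx : x ∈ T), ev σ x = γ ⟨x, hx⟩ := fun hx =>
    ComponentImage.ev_ofInjective hinj hx
  have hcorr : Corr σ C E := by
    refine ⟨le_rfl, le_rfl, sImg_top, fun P φ hφ => ?_, fun P φ' hφ' => ?_⟩
    · have hP : P ≤ T := le_S C hφ
      obtain ⟨φ', hφ', he⟩ := (corr_imgSys σ le_rfl sImg_top C).fwd P φ hφ
      refine ⟨φ', (hmem _ φ').2 ⟨sImg_le P, ?_⟩, he⟩
      have hle : preimageAlong γ (sImg σ P) ≤ P := fun y hy => by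
        obtain ⟨hyT, hy'⟩ := mem_preimageAlong.1 hy
        exact (ev_mem_sImg_iff (σ := σ) hyT).1 ((hev hyT).symm ▸ hy')
      refine ⟨restr hle φ, restr_mem C hle hφ, preimageAlong_le _,
        fun y => map_mem_S C hφ _, theta_mem_of_mem_preimage, fun y => ?_⟩
      have hyT : (y : Ω) ∈ T := preimageAlong_le _ y.2
      have h1 := he (Subgroup.inclusion hle y) (ev_mem_sImg hP (hle y.2))
      rw [hev (map_mem_S C hφ _)] at h1
      refine Eq.trans (congrArg φ' (Subtype.ext ?_)) h1
      exact (hev hyT).symm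
    · obtain ⟨hP, φ, hφ, hPT, hφS, hP', he⟩ := (hmem P φ').1 hφ'
      have hle : sImg σ.symm P ≤ preimageAlong γ P := fun y hy => by
        obtain ⟨z, hz, hzS, rfl⟩ := mem_sImg.1 hy
        refine mem_preimageAlong.2 ⟨ev_mem hzS, ?_⟩
        rw [← hev, ev_ev_symm hzS]
        exact hz
      refine ⟨restr hle φ, restr_mem C hle hφ, fun x h => ?_⟩
      have h1 := he (Subgroup.inclusion hle ⟨_, h⟩)
      rw [restr_apply]
      rw [← hev (hφS _)] at h1
      refine Eq.trans (ev_symm_ev (σ := σ) (hφS _)).symm (congrArg (ev σ.symm) (h1.symm.trans ?_))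
      refine congrArg φ' (Subtype.ext ?_)
      exact (hev _).symm.trans (ev_ev_symm (hP x.2))
  exact ⟨ComponentImage.subnormal_image_hom hC.1 hS ‹_› γ hγ hinj E hcorr,
    hcorr.quasisimple (hS.to_le hTS) hC.2⟩

end Cfsg.Agent.S5154
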