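import Cfsg.Statements.S5200
import Cfsg.Agent.Tech.SmallCentralizer
import Cfsg.Agent.Tech.SmallOdd.Main

set_option autoImplicit false
open Cfsg

namespace Cfsg.Agent.S5200

/-- Let F be a saturated fusion system over a finite p-group S and E a normal subsystem of F over T whose centralizer in S lies in T: every subgroup Y of C_S(T) such that E is contained in the centralizer fusion system of Y in F satisfies Y ≤ T. Then T·C_S(T)/T is abelian (the commutator subgroup of T·C_S(T) lies in T), and if p is odd then C_S(T) ≤ T. -/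
theorem result {Ω : Type*} [Group Ω] {S : Subgroup Ω} [Finite S] (p : ℕ) [Fact p.Prime] (hS : IsPGroup p S) (F : Cfsg.FusionSystem S) (hF : F.IsSaturated p) {T : Subgroup Ω} (E : Cfsg.FusionSystem T) (hE : E.IsNormalIn F p) (hCE : ∀ Y : Subgroup Ω, Y ≤ Cfsg.FusionSystem.centralizerIn S T → (∀ C : Cfsg.FusionSystem (Cfsg.FusionSystem.centralizerIn S Y), F.IsCentralizerSystem Y C → E.IsSubsystemOf C) → Y ≤ T) : ⁅T ⊔ Cfsg.FusionSystem.centralizerIn S T, T ⊔ Cfsg.FusionSystem.centralizerIn S T⁆ ≤ T ∧ (p ≠ 2 → Cfsg.FusionSystem.centralizerIn S T ≤ T) := by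
  refine ⟨Tech.SmallCentralizer.commutator_le hS hF hE hCE, fun hp x hx => ?_⟩
  obtain ⟨v, hv, hy, hcent⟩ := Tech.SmallOdd.exists_centralized hp hS hF hE hx
  have hY : Subgroup.zpowers (x * v) ≤ T :=
    hCE _ (Subgroup.zpowers_le.2 hy) fun C hC P φ hφ => hC P ▸ hcent P hφ
  have h := T.mul_mem (hY (Subgroup.mem_zpowers _)) (T.inv_mem hv)
  rwa [mul_inv_cancel_right] at h

end Cfsg.Agent.S5200
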