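import Cfsg.Statements.S5201
import Cfsg.Agent.Tech.SmallCentralizer
-- import your own Cfsg.Agent.* helpers here

set_option autoImplicit false
open Cfsg

namespace Cfsg.Agent.S5201

/-- A reduction to normal subsystems. Let F be a saturated fusion system over a finite p-group S and E a normal subsystem of F over T whose centralizer in S lies in T (every subgroup Y of C_S(T) with E contained in the centralizer fusion system of Y in F satisfies Y ≤ T), and suppose Aut_F(T)/Aut_E(T) is p-solvable. Then F and E have the same residual limit: if F∞ is the residual limit of F (reached by alternately passing to the p-residual and the p'-residual subsystem until nothing changes) and E∞ that of E, then F∞ and E∞ have the same maps. -/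
theorem result {Ω : Type*} [Group Ω] {S : Subgroup Ω} [Finite S] (p : ℕ) [Fact p.Prime] (hS : IsPGroup p S) (F : Cfsg.FusionSystem S) (hF : F.IsSaturated p) {T : Subgroup Ω} (E : Cfsg.FusionSystem T) (hE : E.IsNormalIn F p) (hCE : ∀ Y : Subgroup Ω, Y ≤ Cfsg.FusionSystem.centralizerIn S T → (∀ C : Cfsg.FusionSystem (Cfsg.FusionSystem.centralizerIn S Y), F.IsCentralizerSystem Y C → E.IsSubsystemOf C) → Y ≤ T) [hn : ((E.autGroup T).subgroupOf (F.autGroup T)).Normal] (hsolv : Cfsg.IsPSolvable p (↥(F.autGroup T) ⧸ (E.autGroup T).subgroupOf (F.autGroup T))) {U V : Subgroup Ω} (Finf : Cfsg.FusionSystem U) (hFinf : Finf.IsResidualLimitOf F p) (Einf : Cfsg.FusionSystem V) (hEinf : Einf.IsResidualLimitOf E p) : ∀ P : Subgroup Ω, Finf.Hom P = Einf.Hom P := by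
  exact Cfsg.Agent.Tech.SmallCentralizer.limit_eq hS hF hE hCE hsolv hFinf hEinf

end Cfsg.Agent.S5201
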