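import Cfsg.Statements.S5214
import Cfsg.Agent.H73.Resistant.Basic
import Cfsg.Agent.S1137
import Cfsg.Agent.S1138

set_option autoImplicit false
open Cfsg Cfsg.FusionSystem Cfsg.Agent.FusionSys Cfsg.Agent.FusionAlperin

namespace Cfsg.Agent.S5214

/-- Let S be a Suzuki 2-group (a finite nonabelian 2-group with more than one involution admitting a cyclic group of automorphisms permuting its involutions regularly). Then S is normal in every saturated fusion system over S (such a group is resistant). -/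
theorem result {Ω : Type*} [Group Ω] {S : Subgroup Ω} [Finite S] (hS : IsPGroup 2 S) (F : Cfsg.FusionSystem S) (hF : F.IsSaturated 2) (hsz : Cfsg.IsSuzukiTwoGroup ↥S) : F.IsNormal S := by
  haveI : Fact (Nat.Prime 2) := ⟨Nat.prime_two⟩
  obtain ⟨hinv, hsq⟩ := Cfsg.Agent.S1137.result hsz
  obtain ⟨-, hcomm, -, -⟩ := Cfsg.Agent.S1138.result hsz
  refine isNormal_of_autGroups hS hF fun P hP => ?_
  have key : P ≤ S ∧ S ≤ P := by
    rcases hP with rfl | hE
    · exact ⟨le_rfl, le_rfl⟩
    have hc := hE.1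
    have hPS : P ≤ S := hc.1
    haveI : Finite P := finite_of_le ‹_› hPS
    have hZP : ∀ z : S, z ∈ Subgroup.center S → (z : Ω) ∈ P := fun z hz =>
      hc.2 P (isConj_refl F hPS) (mem_centralizerIn_iff_conj.2 ⟨z.2, fun x => by
        have h1 : (x : Ω) * z = z * x :=
          congrArg Subtype.val (Subgroup.mem_center_iff.1 hz ⟨x, hPS x.2⟩)
        rw [← h1, mul_inv_cancel_right]⟩)
    refine ⟨hPS, fun g hg => ?_⟩
    have hgN : g ∈ normalizerIn S P := by
      refine mem_normalizerIn.2 ⟨hg, Subgroup.mem_normalizer_fintype fun x hx => ?_⟩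
      have h1 := hZP _ (hcomm ⟨x, hPS hx⟩ ⟨g⁻¹, S.inv_mem hg⟩)
      have h2 : g * x * g⁻¹ = x * (x⁻¹ * g⁻¹⁻¹ * x * g⁻¹) := by group
      rw [SetLike.mem_coe, h2]
      exact P.mul_mem hx h1
    let D : Subgroup P := (Subgroup.center S).comap (Subgroup.inclusion hPS)
    have hD : ∀ x : P, x ∈ D ↔ x * x = 1 := by
      intro x
      rw [Subgroup.mem_comap]
      constructor
      · intro h
        exact Subgroup.inclusion_injective hPS (by rw [map_mul, map_one]; exact hsq _ h)
      · intro h
        by_cases h1 : Subgroup.inclusion hPS x = 1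
        · rw [h1]; exact one_mem _
        · exact ((hinv _).1 ⟨h1, by rw [← map_mul, h, map_one]⟩).1
    refine H73.Resistant.mem_of_stab (hS.to_le hPS) hc (noOuterPNormal_of_essential hE)
      (bot_le (a := D)) bot_le
      (fun α _ => H73.Resistant.map_eq_of_forall_mem fun x hx => (hD _).2 (by
        rw [← map_mul, (hD x).1 hx, map_one]))
      (fun α _ => Subgroup.map_bot _) hgN (H73.Resistant.mem_stab.2 ⟨fun e => ?_, fun d hd => ?_⟩)
    · show Subgroup.inclusion hPS _ ∈ Subgroup.center S
      have h1 := hcomm ⟨(e : Ω), hPS e.2⟩ ⟨g⁻¹, S.inv_mem hg⟩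
      convert h1 using 1
      refine Subtype.ext ?_
      simp [mul_assoc]
    · rw [Subgroup.mem_bot]
      refine Subtype.ext ?_
      have h1 : (g : Ω) * d = d * g :=
        congrArg Subtype.val (Subgroup.mem_center_iff.1 hd ⟨g, hg⟩)
      show (d : Ω)⁻¹ * (g * d * g⁻¹) = 1
      rw [h1, mul_inv_cancel_right, inv_mul_cancel]
  refine ⟨key.2, fun α _ => ?_⟩
  rw [Subgroup.subgroupOf_eq_top.2 key.1, Subgroup.map_top_of_surjective _ α.surjective]

end Cfsg.Agent.S5214
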