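import Cfsg.Statements.S5219
import Cfsg.Agent.FusionAux.AgemoCenter
import Cfsg.Agent.FusionAux.CenterExponent

set_option autoImplicit false
open Cfsg

namespace Cfsg.Agent.S5219

/-- Let p be a prime, n a natural number, S a nontrivial finite p-group of nilpotence class at most n(p−1)+1, and F a saturated fusion system over S with no nontrivial normal subgroup (O_p(F) = 1). Then S has exponent dividing p^(n²(p−1)+n). -/
theorem result {Ω : Type*} [Group Ω] {S : Subgroup Ω} [Finite S] (p : ℕ) [Fact p.Prime] (hS : IsPGroup p S) (F : Cfsg.FusionSystem S) (hF : F.IsSaturated p) (n : ℕ) (hS1 : S ≠ ⊥) (hcl : Subgroup.lowerCentralSeries S (n * (p - 1) + 1) = ⊥) (hcore : F.core = ⊥) : Monoid.exponent ↥S ∣ p ^ (n ^ 2 * (p - 1) + n) := by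
  have hW := Cfsg.Agent.FusionAux.isNormal_agemo_center hS hF hcl
  have hbot : Cfsg.powerClosure p n (S ⊓ Subgroup.centralizer (S : Set Ω)) = ⊥ :=
    le_bot_iff.1 (hcore ▸ le_sSup hW)
  have hm : ∀ z ∈ Subgroup.center ↥S, z ^ p ^ n = 1 := by
    intro z hz
    have h : (z : Ω) ^ p ^ n ∈ Cfsg.powerClosure p n (S ⊓ Subgroup.centralizer (S : Set Ω)) :=
      Subgroup.subset_closure ⟨z, ⟨z.2, fun y hy =>
        congrArg Subtype.val (Subgroup.mem_center_iff.1 hz ⟨y, hy⟩)⟩, rfl⟩
    rw [hbot, Subgroup.mem_bot] at h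
    exact Subtype.ext (by simpa using h)
  have hc : Subgroup.lowerCentralSeries (⊤ : Subgroup ↥S) (n * (p - 1) + 1) = ⊥ := by
    rw [← Subgroup.map_eq_bot_iff_of_injective _ S.subtype_injective,
      Cfsg.Agent.FusionAux.lowerCentralSeries_map_subtype, hcl]
  have h := Cfsg.Agent.FusionAux.exponent_dvd_of_center hm hc
  rwa [← pow_mul, show n * (n * (p - 1) + 1) = n ^ 2 * (p - 1) + n by ring] at h

end Cfsg.Agent.S5219
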