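import Cfsg.Statements.S5220
import Cfsg.Agent.FusionAux.QuadraticEscape
import Cfsg.Agent.FusionAux.Induction
import Cfsg.Agent.FusionAlperin.Alperin
import Cfsg.Agent.FusionSys.Centric
-- import your own Cfsg.Agent.* helpers here

set_option autoImplicit false
open Cfsg

namespace Cfsg.Agent.S5220

open Cfsg.FusionSystem Cfsg.Agent.FusionSys Cfsg.Agent.FusionAux Cfsg.Agent.Modules

variable {Ω : Type*} [Group Ω] {S : Subgroup Ω}

/-- If no element of `N_S(Q)` outside `Q` fixes `℧¹(Z(Q))`, then `J(S) ≤ Q`. -/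
theorem thompson_le {p : ℕ} [Fact p.Prime] [Finite S] (hS : IsPGroup p S) {Q : Subgroup Ω}
    (hQS : Q ≤ S) (hno : ∀ g ∈ powFix p (normalizerIn S Q) (Q ⊓ Subgroup.centralizer (Q : Set Ω)),
      g ∈ Q) : thompsonSubgroupAOf S ≤ Q := by
  set T := normalizerIn S Q with hT
  have hTS : T ≤ S := inf_le_left
  have : Finite Q := finite_of_le ‹_› hQS
  have : Finite T := finite_of_le ‹_› hTS
  have hQT : Q ≤ T := le_normalizerIn hQS
  have hJT : thompsonSubgroupAOf T ≤ Q := by
    by_contra h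
    obtain ⟨a, ha, haQ⟩ := exists_powFix_not_mem (hS.to_le hTS) hQT inf_le_right h
    exact haQ (hno a ha)
  set R := thompsonSubgroupAOf T with hR
  have hRQ : thompsonSubgroupAOf Q = R := thompsonSubgroupAOf_eq_of_le hQT hJT
  set U := normalizerIn S R with hU
  have hUS : U ≤ S := inf_le_left
  have : Finite U := finite_of_le ‹_› hUS
  -- `T` normalizes `R = J(T)`
  have hnJ : ∀ (X : Subgroup Ω) (g : Ω), g ∈ Subgroup.normalizer (X : Set Ω) →
      g ∈ Subgroup.normalizer (thompsonSubgroupAOf X : Set Ω) := by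
    intro X g hg
    rw [Subgroup.mem_normalizer_iff_map_conj_eq] at hg ⊢
    rw [map_thompsonSubgroupAOf (MulAut.conj g).injective X, hg]
  have hTU : T ≤ U := le_inf hTS fun g hg => hnJ T g (Subgroup.le_normalizer hg)
  -- the largest normal subgroup of `U` between `R` and `Q`
  obtain ⟨W, ⟨hRW, hWQ, hWn⟩, hmax⟩ :=
    (setOf_le_finite.subset fun W (hW : R ≤ W ∧ W ≤ Q ∧ U ≤ Subgroup.normalizer (W : Set Ω)) =>
      hW.2.1.trans hQS : {W : Subgroup Ω | R ≤ W ∧ W ≤ Q ∧
        U ≤ Subgroup.normalizer (W : Set Ω)}.Finite).exists_maximal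
      ⟨R, le_rfl, hJT, inf_le_right⟩
  have hWU : W ≤ U := hWQ.trans (hQT.trans hTU)
  have hJU : thompsonSubgroupAOf U ≤ W := by
    by_contra h
    obtain ⟨a, ha, haW⟩ := exists_powFix_not_mem (hS.to_le hUS) hWU hWn h
    set V := W ⊓ Subgroup.centralizer (W : Set Ω) with hV
    have hUV : U ≤ Subgroup.normalizer (V : Set Ω) := by
      intro g hg
      rw [Subgroup.mem_normalizer_iff_map_conj_eq]
      have h1 := Subgroup.mem_normalizer_iff_map_conj_eq.1 (hWn hg)
      refine le_antisymm ?_ ?_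
      · refine (map_inf_centralizer (MulAut.conj g).injective W W).trans_le ?_
        exact le_of_eq (by rw [h1, hV])
      · refine le_trans (le_of_eq ?_) (map_inf_centralizer (MulAut.conj g).injective W W).ge
        rw [h1, hV]
    set N := powFix p U V with hN
    have hWN : W ≤ N := fun w hw => ⟨hWU hw, fun m hm => by
      rw [Subgroup.mem_centralizer_iff.1 (pow_mem hm.2 p) w hw, mul_inv_cancel_right]⟩
    have hNU : N ≤ U := fun x hx => hx.1
    have hNQ : N ≤ Q := by
      -- the centre of `Q` lies in that of `W`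
      have hZ : Q ⊓ Subgroup.centralizer (Q : Set Ω) ≤ V := by
        obtain ⟨A, hA⟩ := maxAbIn_nonempty T
        rintro z ⟨hzQ, hzC⟩
        refine ⟨hRW (le_thompsonSubgroupAOf hA (mem_maxAbIn_of_centralizing hA (hQT hzQ) ?_)),
          Subgroup.mem_centralizer_iff.2 fun w hw =>
            Subgroup.mem_centralizer_iff.1 hzC w (hWQ hw)⟩
        exact Subgroup.mem_centralizer_iff.2 fun w hw =>
          Subgroup.mem_centralizer_iff.1 hzC w (hJT (le_thompsonSubgroupAOf hA hw))
      by_contra hne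
      have hQU : Q ≤ U := hQT.trans hTU
      have hsup : Q ⊔ N ≤ S := sup_le hQS (hNU.trans hUS)
      have : Finite ↥(Q ⊔ N) := finite_of_le ‹_› hsup
      obtain ⟨g, hg, hgn, hgQ⟩ := FusionAlperin.exists_normalizer_mem_not_mem (hS.to_le hsup)
        (lt_of_le_of_ne le_sup_left fun h' => hne (h' ▸ le_sup_right) : Q < Q ⊔ N)
      rw [← SetLike.mem_coe, Subgroup.coe_mul_of_left_le_normalizer_right _ _
        (hQU.trans (powFix_normal hUV))] at hg
      obtain ⟨q, hq, n, hn, rfl⟩ := hg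
      refine hgQ (Q.mul_mem hq (hno n ⟨⟨hUS (hNU hn), ?_⟩, fun m hm => hn.2 m (hZ hm)⟩))
      simpa using mul_mem (inv_mem (Subgroup.le_normalizer (H := Q) hq)) hgn
    exact haW ((hmax ⟨hRW.trans hWN, hNQ, powFix_normal hUV⟩ hWN) ha)
  have hJU' : thompsonSubgroupAOf U = R := by
    rw [← thompsonSubgroupAOf_eq_of_le hWU hJU, ← hRQ]
    exact thompsonSubgroupAOf_eq_of_le hWQ (hRQ.le.trans hRW)
  have hUeq : U = S := by
    by_contra hne
    refine (lt_normalizerIn hS hUS hne).not_ge fun g hg => ⟨hg.1, ?_⟩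
    exact hJU' ▸ hnJ U g hg.2
  exact hUeq ▸ (hJU.trans hWQ)

/-- Let F be a saturated fusion system over a nontrivial finite p-group S, let J(S) be the subgroup generated by the abelian subgroups of S of largest order, and let V be the subgroup generated by the p-th powers of the elements of Z(S). Then F is generated by the centralizer fusion system of V and the normalizer fusion system of J(S): every fusion system over S containing the maps of both contains every map of F. -/
theorem result {Ω : Type*} [Group Ω] {S : Subgroup Ω} [Finite S] (p : ℕ) [Fact p.Prime] (hS : IsPGroup p S) (F : Cfsg.FusionSystem S) (hF : F.IsSaturated p) (hS1 : S ≠ ⊥) (C : Cfsg.FusionSystem (Cfsg.FusionSystem.centralizerIn S (Cfsg.powerClosure p 1 (S ⊓ Subgroup.centralizer (S : Set Ω))))) (hC : F.IsCentralizerSystem (Cfsg.powerClosure p 1 (S ⊓ Subgroup.centralizer (S : Set Ω))) C) (N : Cfsg.FusionSystem (Cfsg.FusionSystem.normalizerIn S (Cfsg.thompsonSubgroupAOf S))) (hN : F.IsNormalizerSystem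 (Cfsg.thompsonSubgroupAOf S) N) (E : Cfsg.FusionSystem S) (hCE : C.IsSubsystemOf E) (hNE : N.IsSubsystemOf E) : F.IsSubsystemOf E := by
  let V := Cfsg.powerClosure p 1 (S ⊓ Subgroup.centralizer (S : Set Ω))
  let J := Cfsg.thompsonSubgroupAOf S
  suffices h : F ≤ E from h
  refine FusionAlperin.hom_subset_of_essential_step hS hF E fun Q hQ ih α hα => ?_
  obtain ⟨hQfn, hQc⟩ : F.IsFullyNormalized Q ∧ centralizerIn S Q ≤ Q := by
    rcases hQ with rfl | h
    · exact ⟨self_fullyNormalized F, inf_le_left⟩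
    · exact ⟨h.2.1, centralizerIn_self_centric h.1⟩
  have hQS : Q ≤ S := hQfn.1
  have hZ : ∀ x ∈ S ⊓ Subgroup.centralizer (S : Set Ω), x ∈ Q ⊓ Subgroup.centralizer (Q : Set Ω) := by
    intro x hx
    have h1 : x ∈ Subgroup.centralizer (Q : Set Ω) :=
      Subgroup.centralizer_le (SetLike.coe_subset_coe.2 hQS) hx.2
    exact ⟨hQc ⟨hx.1, h1⟩, h1⟩
  have hVQ : V ≤ Q := (Subgroup.closure_le _).2 fun y ⟨x, hx, hy⟩ => hy ▸ Q.pow_mem (hZ x hx).1 _
  have hVcen : S ≤ centralizerIn S V := by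
    refine le_inf le_rfl ?_
    rw [Subgroup.le_centralizer_iff]
    refine (Subgroup.closure_le _).2 fun y ⟨x, hx, hy⟩ => ?_
    exact hy ▸ Subgroup.pow_mem _ hx.2 _
  by_cases hcase : ∀ g ∈ powFix p (normalizerIn S Q) (Q ⊓ Subgroup.centralizer (Q : Set Ω)), g ∈ Q
  · -- `J(S) = J(Q)`: the automorphism lies in `N_F(J(S))`
    have hJQ : J ≤ Q := thompson_le hS hQS hcase
    have hJS : S ≤ normalizerIn S J := by
      refine le_inf le_rfl fun g hg => ?_
      have h1 := Subgroup.mem_normalizer_iff_map_conj_eq.1 (Subgroup.le_normalizer (H := S) hg)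
      show g ∈ Subgroup.normalizer (Cfsg.thompsonSubgroupAOf S : Set Ω)
      rw [Subgroup.mem_normalizer_iff_map_conj_eq,
        map_thompsonSubgroupAOf (MulAut.conj g).injective, h1]
    have hφ := autGroup_mem_hom F hQS hα
    have hJeq : Cfsg.thompsonSubgroupAOf Q = J := thompsonSubgroupAOf_eq_of_le hQS hJQ
    have hmem : Q.subtype.comp α.toMonoidHom ∈ N.Hom Q := by
      rw [hN Q]
      have hle : Q ⊔ J ≤ Q := sup_le le_rfl hJQ
      refine ⟨hφ, hQS.trans hJS, fun x => hJS (hQS (α x).2),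
        restr hle (Q.subtype.comp α.toMonoidHom), restr_mem F hle hφ, fun x => rfl, ?_⟩
      have h1 : (J.subgroupOf Q).map (Q.subtype.comp α.toMonoidHom) = J := by
        have hT : thompsonSubgroupAOf (⊤ : Subgroup Q) = J.subgroupOf Q :=
          Subgroup.map_injective Q.subtype_injective (by
            rw [Subgroup.map_subgroupOf_eq_of_le hJQ,
              map_thompsonSubgroupAOf Q.subtype_injective, ← MonoidHom.range_eq_map,
              Subgroup.range_subtype, hJeq])
        rw [← hT, map_thompsonSubgroupAOf (fun a b hab => α.injective (Q.subtype_injective hab)),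
          ← MonoidHom.range_eq_map, range_subtype_comp, hJeq]
      ext y
      rw [mem_map_subgroupOf]
      constructor
      · rintro ⟨x, hx, rfl⟩
        exact h1.le ⟨⟨x, hle x.2⟩, hx, rfl⟩
      · intro hy
        obtain ⟨x, hx, rfl⟩ := h1.ge hy
        exact ⟨⟨x, Subgroup.mem_sup_left x.2⟩, hx, rfl⟩
    exact (mem_autGroup E hQS).2 (hNE Q hmem)
  -- Frattini: `α = h k` with `k` fixing `V` and `h` extendable
  push Not at hcase
  obtain ⟨g, hg, hgQ⟩ := hcase
  let K : Subgroup (F.autGroup Q) :=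
    { carrier := {β | ∀ m : Q, (m : Ω) ∈ Subgroup.centralizer (Q : Set Ω) →
        (β : MulAut Q) (m ^ p) = m ^ p}
      one_mem' := fun m _ => rfl
      mul_mem' := fun {a b} ha hb m hm => by
        rw [Subgroup.coe_mul, MulAut.mul_apply, hb m hm, ha m hm]
      inv_mem' := fun {a} ha m hm => by
        conv_lhs => rw [← ha m hm]
        simp }
  have hKn : K.Normal := by
    refine ⟨fun β hβ γ m hm => ?_⟩
    have h1 : (((γ : MulAut Q)⁻¹ m : Q) : Ω) ∈ Subgroup.centralizer (Q : Set Ω) := by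
      rw [Subgroup.mem_centralizer_iff]
      intro q hq
      have h2 : (γ : MulAut Q) ⟨q, hq⟩ * m = m * (γ : MulAut Q) ⟨q, hq⟩ :=
        Subtype.ext (Subgroup.mem_centralizer_iff.1 hm _ ((γ : MulAut Q) ⟨q, hq⟩).2)
      have h3 := congrArg (fun t => (((γ : MulAut Q)⁻¹ t : Q) : Ω)) h2
      simpa using h3
    have h3 : (β : MulAut Q) ((γ : MulAut Q)⁻¹ (m ^ p)) = (γ : MulAut Q)⁻¹ (m ^ p) := by
      rw [map_pow (γ : MulAut Q)⁻¹]
      exact hβ _ h1
    show (γ : MulAut Q) ((β : MulAut Q) ((γ : MulAut Q)⁻¹ (m ^ p))) = m ^ p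
    rw [h3, MulAut.apply_inv_self]
  obtain ⟨h, k, N₁, N₂, e, hQN, hαeq, hk, he, -, hNn, hag, hext⟩ :=
    exists_frattini_extend hS hF hQfn K ⟨α, hα⟩
  have hgN : g ∈ N₁ := by
    refine hext g hg.1 ⟨⟨Q.normalizerMonoidHom ⟨g, hg.1.2⟩, autInducedBy_le_autGroup F hQS
      (mem_autInducedBy.2 ⟨g, hg.1.1, fun y => rfl⟩)⟩, fun m hm => Subtype.ext ?_, fun y => rfl⟩
    exact hg.2 m ⟨m.2, hm⟩
  have hlt : Q < N₁ := lt_of_le_of_ne hQN fun h' => hgQ (h' ▸ hgN)
  have heE := ih N₁ (hNn.trans inf_le_left) (card_lt_card_of_lt (hNn.trans inf_le_left) hlt) he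
  have hhE : (h : MulAut Q) ∈ E.autGroup Q := (mem_autGroup E hQS).2
    (mem_of_restricts E hQN heE fun x => (hag x).symm)
  have hkE : (k : MulAut Q) ∈ E.autGroup Q := by
    refine (mem_autGroup E hQS).2 (hCE Q ?_)
    rw [hC Q]
    have hle : Q ⊔ V ≤ Q := sup_le le_rfl hVQ
    have hφ := autGroup_mem_hom F hQS k.2
    refine ⟨hφ, hQS.trans hVcen, fun x => hVcen (hQS ((k : MulAut Q) x).2),
      restr hle (Q.subtype.comp (k : MulAut Q).toMonoidHom), restr_mem F hle hφ, fun x => rfl, ?_⟩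
    intro x
    have hfix : V ≤ ((MonoidHom.eqLocus (k : MulAut Q).toMonoidHom (MonoidHom.id Q))).map Q.subtype :=
      (Subgroup.closure_le _).2 fun y ⟨z, hz, hy⟩ => ⟨⟨z, (hZ z hz).1⟩ ^ p, hk _ (hZ z hz).2,
        by rw [hy, pow_one]; rfl⟩
    obtain ⟨y, hy, hyx⟩ := hfix x.2
    show (((k : MulAut Q) ⟨x, _⟩ : Q) : Ω) = x
    rw [show (⟨(x : Ω), hle (Subgroup.mem_sup_right x.2)⟩ : Q) = y from Subtype.ext hyx.symm]
    exact (congrArg Subtype.val (show (k : MulAut Q) y = y from hy)).trans hyx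
  rw [show α = (h : MulAut Q) * (k : MulAut Q) from congrArg Subtype.val hαeq]
  exact mul_mem hhE hkE

end Cfsg.Agent.S5220
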