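import Cfsg.Statements.S5221
import Cfsg.Agent.FusionAux.NPCInstances

set_option autoImplicit false
open Cfsg Cfsg.FusionSystem Cfsg.Agent.FusionSys Cfsg.Agent.FusionModel Cfsg.Agent.FusionAux
  Cfsg.Agent.FusionAux.NPC

namespace Cfsg.Agent.S5221

/-- Let F be a sparse fusion system over a finite p-group S: a saturated fusion system, not the inner fusion system of S, whose only saturated fusion systems over S contained in it are F itself and the inner one. If p is odd, or F is S₄-free (the symmetric group of degree 4 is not involved in any model of the normalizer system of a fully normalized F-centric subgroup), then F is constrained. -/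
theorem result {Ω : Type*} [Group Ω] {S : Subgroup Ω} [Finite S] (p : ℕ) [Fact p.Prime] (hS : IsPGroup p S) (F : Cfsg.FusionSystem S) (hF : F.IsSaturated p) (hsp : ¬ (∀ P : Subgroup Ω, F.Hom P = (Cfsg.innerFusionSystem S).Hom P) ∧ ∀ E : Cfsg.FusionSystem S, E.IsSaturated p → E.IsSubsystemOf F → (∀ P : Subgroup Ω, E.Hom P = F.Hom P) ∨ (∀ P : Subgroup Ω, E.Hom P = (Cfsg.innerFusionSystem S).Hom P)) (hp : p ≠ 2 ∨ F.IsSectionFree p (Equiv.Perm (Fin 4))) : F.IsConstrained p := by
  have hover : ∀ (T : Subgroup Ω) (N : FusionSystem T), T = S → N.IsSaturated p →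
      ∃ E : FusionSystem S, E.IsSaturated p ∧ ∀ P, E.Hom P = N.Hom P := by
    rintro T N rfl hN
    exact ⟨N, hN, fun _ => rfl⟩
  have dich : ∀ V, V ≤ S → S ≤ Subgroup.normalizer (V : Set Ω) → ¬ F.IsNormal V →
      NormP F p V := by
    intro V hVS hVn hnV
    have hfn := Cfsg.Agent.FusionCrit.isFullyNormalized_of_normal F hVS hVn
    have hT : normalizerIn S V = S := inf_eq_left.2 hVn
    obtain ⟨E, hEs, hE⟩ := hover _ _ hT (normSys_saturated hS hF hfn)
    have hsub : E.IsSubsystemOf F := fun P φ h => by rw [hE] at h; exact h.1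
    rcases hsp.2 E hEs hsub with heq | heq
    · refine absurd (⟨hVS, fun P φ hφ => ?_⟩ : F.IsNormal V) hnV
      rw [← heq P, hE P] at hφ
      exact hφ.2.2.2
    · intro P hP hVP α hα hαV
      have : Finite V := finite_of_le ‹_› hVS
      have h1 := autGroup_mem_hom _ hP (mem_normSys_autGroup hfn.1 hP hVP hα hαV)
      rw [← hE, heq] at h1
      have hPS : P ≤ S := hP.trans (normalizerIn_le V)
      obtain ⟨k, hk⟩ := autP_inner hS P hPS ⟨α, (mem_autGroup_iff_hom _ hPS).2 h1⟩
      exact ⟨k, congrArg Subtype.val hk⟩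
  rcases inner_or_constrained hS hF
    (hp.imp_right fun h => locallyFree_of_sectionFree hS hF h) dich with h | h
  · exact absurd (fun P => by rw [h]) hsp.1
  · exact ⟨hF, F.core, Cfsg.Agent.FusionAlperin.isNormal_core F, h.2⟩

end Cfsg.Agent.S5221
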