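import Cfsg.Statements.S5222
import Cfsg.Agent.FusionAux.Tate
import Cfsg.Agent.FusionAux.NormSys
import Cfsg.Agent.FusionSys.NormCentSaturated
-- import your own Cfsg.Agent.* helpers here

set_option autoImplicit false
open Cfsg

namespace Cfsg.Agent.S5222

open Cfsg.FusionSystem Cfsg.Agent.FusionSys Cfsg.Agent.FusionAux
open scoped commutatorElement

/-- Let F be a saturated fusion system over a finite p-group S whose normalizer fusion system of S is the inner fusion system of S (Aut_F(S) is a p-group). Then for every subgroup Q of S with [S, S] ≤ Q ≤ Φ(S), the normalizer fusion system of Q in F is the inner fusion system of N_S(Q) = S. -/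
theorem result {Ω : Type*} [Group Ω] {S : Subgroup Ω} [Finite S] (p : ℕ) [Fact p.Prime] (hS : IsPGroup p S) (F : Cfsg.FusionSystem S) (hF : F.IsSaturated p) (hN : ∀ N : Cfsg.FusionSystem (Cfsg.FusionSystem.normalizerIn S S), F.IsNormalizerSystem S N → ∀ P : Subgroup Ω, N.Hom P = (Cfsg.innerFusionSystem (Cfsg.FusionSystem.normalizerIn S S)).Hom P) (Q : Subgroup Ω) (h1 : (commutator ↥S).map S.subtype ≤ Q) (h2 : Q ≤ (frattini ↥S).map S.subtype) : ∀ N : Cfsg.FusionSystem (Cfsg.FusionSystem.normalizerIn S Q), F.IsNormalizerSystem Q N → ∀ P : Subgroup Ω, N.Hom P = (Cfsg.innerFusionSystem (Cfsg.FusionSystem.normalizerIn S Q)).Hom P := by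
  have hn : normalizerIn S S = S := le_antisymm inf_le_left (le_inf le_rfl Subgroup.le_normalizer)
  have hQS : Q ≤ S := h2.trans (Subgroup.map_subtype_le _)
  have hd : ⁅S, S⁆ ≤ Q := (Subgroup.map_subtype_commutator S).ge.trans h1
  have hnQ : normalizerIn S Q = S := by
    refine le_antisymm inf_le_left (le_inf le_rfl fun g hg => ?_)
    refine Subgroup.mem_normalizer_iff.2 fun y => ⟨fun hy => ?_, fun hy => ?_⟩
    · have h := Q.mul_mem (hd (Subgroup.commutator_mem_commutator hg (hQS hy))) hy
      simpa [commutatorElement_def, mul_assoc] using h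
    · have h := Q.mul_mem (hd (Subgroup.commutator_mem_commutator (S.inv_mem hg) (hQS hy))) hy
      simpa [commutatorElement_def, mul_assoc] using h
  have hFinn : ∀ φ ∈ F.Hom S, ∃ g ∈ S, ∀ x : S, φ x = g * x * g⁻¹ := by
    intro φ hφ
    have hr : φ.range = S :=
      eq_of_le_of_card_le (range_le_S F hφ)
        (Nat.card_congr (MonoidHom.ofInjective (F.injective_of_mem hφ)).toEquiv).le
    have hNS := normSys_spec F S le_rfl
    have h1 := (normalizerSystem_autGroup_self hNS le_rfl).symm ▸ toIso_mem_autGroup F hφ hr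
    have h2 := autGroup_mem_hom (normSys F S le_rfl) hn.ge h1
    rw [hN _ hNS S] at h2
    obtain ⟨-, g, hg, hge⟩ := h2
    exact ⟨g, inf_le_left (a := S) hg, fun x => hge x⟩
  intro N hNQ P
  have hfn : F.IsFullyNormalized Q := ⟨hQS, fun R _ => by
    rw [hnQ]; exact Subgroup.card_le_of_le (normalizerIn_le R)⟩
  have : Finite ↥(normalizerIn S Q) := finite_of_le ‹_› inf_le_left
  have hNsat := normalizerSystem_saturated hS hF hfn hNQ
  have hTn : (frattini ↥S).map S.subtype ≤
      (frattini ↥(normalizerIn S Q)).map (normalizerIn S Q).subtype := by rw [hnQ]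
  have hsc : N.StronglyClosed Q := by
    refine ⟨hQS.trans hnQ.ge, fun R hR φ hφ x => ?_⟩
    rw [hNQ R] at hφ
    obtain ⟨-, -, -, ψ, -, hψ, hψQ⟩ := hφ
    rw [← hψ x]
    exact apply_mem_of_map_eq hψQ (hR x.2)
  rw [inner_of_sc_le_frattini (S := normalizerIn S Q) (hS.to_le inf_le_left) hNsat hsc
    ((Subgroup.commutator_mono inf_le_left inf_le_left).trans hd) (h2.trans hTn) ?_]
  intro α hα
  have h3 := normalizerSystem_hom hNQ (autGroup_mem_hom N le_rfl hα)
  obtain ⟨g, hg, hge⟩ := hFinn _ (restr_mem F hnQ.ge h3)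
  exact ⟨g, hnQ.ge hg, fun x => hge ⟨x, inf_le_left (a := S) x.2⟩⟩

end Cfsg.Agent.S5222
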