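import Cfsg.Statements.S5223
import Cfsg.Agent.FusionAux.Tate
-- import your own Cfsg.Agent.* helpers here

set_option autoImplicit false
open Cfsg

namespace Cfsg.Agent.S5223

open Cfsg.FusionSystem Cfsg.Agent.FusionSys Cfsg.Agent.FusionAux

/-- Let F be a saturated fusion system over a finite p-group S. Suppose there are subgroups Q₀ = S, Q₁, …, Qₙ = 1 (not required to be nested) such that for each i < n the focal subgroup of Qᵢ (generated by the elements x⁻¹φ(x), x ∈ Qᵢ, φ a map of F defined on the cyclic group generated by x) lies in Qᵢ₊₁. Then F is the inner fusion system of S. -/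
theorem result {Ω : Type*} [Group Ω] {S : Subgroup Ω} [Finite S] (p : ℕ) [Fact p.Prime] (hS : IsPGroup p S) (F : Cfsg.FusionSystem S) (hF : F.IsSaturated p) (n : ℕ) (Q : Fin (n + 1) → Subgroup Ω) (hQ0 : Q 0 = S) (hQn : Q (Fin.last n) = ⊥) (hstep : ∀ i : Fin n, Subgroup.closure {y : Ω | ∃ x ∈ Q i.castSucc, ∃ φ ∈ F.Hom (Subgroup.zpowers x), y = x⁻¹ * φ ⟨x, Subgroup.mem_zpowers x⟩} ≤ Q i.succ) : ∀ P : Subgroup Ω, F.Hom P = (Cfsg.innerFusionSystem S).Hom P := by
  have key : ∀ (P : Subgroup Ω) (hP : P ≤ S) (α : MulAut P), α ∈ F.autGroup P →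
      Nat.Coprime (orderOf α) p → ∀ (i : Fin (n + 1)) (x : P), (x : Ω) ∈ Q i → α x = x := by
    intro P hP α hα hco i
    induction i using Fin.reverseInduction with
    | last =>
      intro x hx
      rw [hQn, Subgroup.mem_bot] at hx
      rw [show x = 1 from Subtype.ext hx, map_one]
    | cast i ih =>
      intro x hx
      have hle : Subgroup.zpowers (x : Ω) ≤ P := Subgroup.zpowers_le.2 x.2
      have hmem : ((x⁻¹ * α x : P) : Ω) ∈ Q i.succ := hstep i (Subgroup.subset_closure
        ⟨x, hx, _, restr_mem F hle (autGroup_mem_hom F hP hα), rfl⟩)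
      have hfix := ih _ hmem
      have hm : ∀ m : ℕ, (α ^ m) x = x * (x⁻¹ * α x) ^ m := by
        intro m
        induction m with
        | zero => simp
        | succ m ihm =>
          rw [pow_succ' α, MulAut.mul_apply, ihm, map_mul, map_pow, hfix,
            pow_succ' (x⁻¹ * α x)]
          simp [mul_assoc]
      have h1 := hm (orderOf α)
      rw [pow_orderOf_eq_one] at h1
      obtain ⟨k, hk⟩ := (hS.to_le hP) (x⁻¹ * α x)
      have h2 := Nat.dvd_gcd
        (orderOf_dvd_of_pow_eq_one (left_eq_mul.1 (show x = _ from h1)))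
        (orderOf_dvd_of_pow_eq_one hk)
      rw [(hco.pow_right k).gcd_eq_one, Nat.dvd_one, orderOf_eq_one_iff, inv_mul_eq_one] at h2
      exact h2.symm
  have hhyp : F.hyperfocalSubgroup p = ⊥ := by
    rw [eq_bot_iff, hyperfocalSubgroup, Subgroup.closure_le]
    rintro _ ⟨P, α, x, hP, hα, rfl⟩
    have hker : pResidual p (F.autGroup P) ≤ ⊥ := by
      rw [pResidual, Subgroup.closure_le]
      intro β hβ
      refine Subtype.ext (MulEquiv.ext fun y => ?_)
      exact key P hP β β.2 (by rwa [Subgroup.orderOf_coe]) 0 y (hQ0.ge (hP y.2))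
    rw [Subgroup.mem_bot.1 (hker hα)]
    simp
  intro P
  rw [inner_of_hyperfocal_eq_bot hS hF hhyp]

end Cfsg.Agent.S5223
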