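import Cfsg.Statements.S5224
import Cfsg.Agent.FusionAux.Tate
-- import your own Cfsg.Agent.* helpers here

set_option autoImplicit false
open Cfsg

namespace Cfsg.Agent.S5224

open Cfsg.FusionSystem Cfsg.Agent.FusionSys Cfsg.Agent.FusionAux

/-- Tate's Theorem for fusion systems. Let F be a saturated fusion system over a finite p-group S and H a saturated fusion system over S contained in F. Then the following are equivalent: the elementary focal subgroups Φ(S)·foc agree for F and H; the focal subgroups of F and H agree; the hyperfocal subgroups of F and H agree. -/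
theorem result {Ω : Type*} [Group Ω] {S : Subgroup Ω} [Finite S] (p : ℕ) [Fact p.Prime] (hS : IsPGroup p S) (F : Cfsg.FusionSystem S) (hF : F.IsSaturated p) (H : Cfsg.FusionSystem S) (hH : H.IsSaturated p) (hHF : H.IsSubsystemOf F) : (((frattini ↥S).map S.subtype ⊔ F.focalSubgroup) = ((frattini ↥S).map S.subtype ⊔ H.focalSubgroup) ↔ F.focalSubgroup = H.focalSubgroup) ∧ (F.focalSubgroup = H.focalSubgroup ↔ F.hyperfocalSubgroup p = H.hyperfocalSubgroup p) := by
  have hle : H.hyperfocalSubgroup p ≤ F.hyperfocalSubgroup p := by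
    rw [hyperfocalSubgroup, Subgroup.closure_le]
    rintro _ ⟨P, α, x, hP, hα, rfl⟩
    exact focal_gen_mem_hyperfocal F (α := Subgroup.inclusion (autGroup_mono hHF P) α) hP
      (Cfsg.Agent.Transfer.map_pResidual_le _ ⟨α, hα, rfl⟩) x
  have hdΦ : ⁅S, S⁆ ≤ (frattini ↥S).map S.subtype := by
    rw [← Subgroup.map_subtype_commutator]
    exact Subgroup.map_mono (PGroup.commutator_le_frattini hS)
  have eF := focal_eq_hyperfocal_sup hS hF
  have eH := focal_eq_hyperfocal_sup hS hH
  have key : (frattini ↥S).map S.subtype ⊔ F.focalSubgroup =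
      (frattini ↥S).map S.subtype ⊔ H.focalSubgroup →
      F.hyperfocalSubgroup p = H.hyperfocalSubgroup p := fun h => le_antisymm
    (hyperfocal_le_of_le_frattini_sup hS hF hle (hyperfocal_le_normalizer H)
      (((hyperfocal_le_focal F).trans le_sup_right).trans (h.le.trans (by
        rw [eH]
        exact sup_le le_sup_left (sup_le le_sup_right (hdΦ.trans le_sup_left)))))) hle
  refine ⟨⟨fun h => ?_, fun h => by rw [h]⟩, ⟨fun h => key (by rw [h]), fun h => ?_⟩⟩
  · rw [eF, eH, key h]
  · rw [eF, eH, h]

end Cfsg.Agent.S5224
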