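import Cfsg.Statements.S5225
import Cfsg.Agent.FusionSys.Yoshida

set_option autoImplicit false
open Cfsg

namespace Cfsg.Agent.S5225

/-- Yoshida's Theorem for fusion systems. Let F be a saturated fusion system over a finite p-group S and N the normalizer fusion system of S in F. If the focal subgroups of F and N differ (N does not control transfer in F), then S has a quotient isomorphic to the wreath product C_p ≀ C_p (realised as a Sylow p-subgroup of the symmetric group of degree p²). -/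
theorem result {Ω : Type*} [Group Ω] {S : Subgroup Ω} [Finite S] (p : ℕ) [Fact p.Prime] (hS : IsPGroup p S) (F : Cfsg.FusionSystem S) (hF : F.IsSaturated p) (N : Cfsg.FusionSystem (Cfsg.FusionSystem.normalizerIn S S)) (hN : F.IsNormalizerSystem S N) (hne : N.focalSubgroup ≠ F.focalSubgroup) : ∃ (W : Sylow p (Equiv.Perm (Fin (p ^ 2)))) (f : ↥S →* ↥(W : Subgroup (Equiv.Perm (Fin (p ^ 2))))), Function.Surjective f := by
  have hSS : Cfsg.FusionSystem.normalizerIn S S = S := inf_eq_left.2 Subgroup.le_normalizer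
  have hle : N.focalSubgroup ≤ F.focalSubgroup := by
    refine (Subgroup.closure_le _).2 ?_
    rintro _ ⟨P, φ, x, hφ, rfl⟩
    rw [hN P] at hφ
    exact Subgroup.subset_closure ⟨P, φ, x, hφ.1, rfl⟩
  have hKS : N.focalSubgroup ≤ S := by
    refine (Subgroup.closure_le _).2 ?_
    rintro _ ⟨P, φ, x, hφ, rfl⟩
    rw [hN P] at hφ
    exact S.mul_mem (S.inv_mem (Cfsg.Agent.FusionSys.le_S F hφ.1 x.2))
      (Cfsg.Agent.FusionSys.map_mem_S F hφ.1 x)
  refine Cfsg.Agent.FusionSys.yoshida hS hF hKS ?_ (lt_of_le_of_ne hle hne) ?_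
  · exact (Subgroup.commutator_mono hSS.ge hSS.ge).trans
      (Cfsg.Agent.FusionSys.commutator_le_focal N)
  · intro α hα x
    have hφ := Cfsg.Agent.FusionSys.autGroup_mem_hom F le_rfl hα
    refine Subgroup.subset_closure ⟨S, S.subtype.comp α.toMonoidHom, x, ?_, rfl⟩
    rw [hN S]
    refine ⟨hφ, hSS.ge, fun y => hSS.ge (α y).2, Cfsg.Agent.FusionSys.restr (sup_le le_rfl le_rfl) _,
      Cfsg.Agent.FusionSys.restr_mem F _ hφ, fun y => rfl, ?_⟩
    ext y
    rw [Cfsg.Agent.FusionSys.mem_map_subgroupOf]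
    constructor
    · rintro ⟨z, -, rfl⟩
      exact (α _).2
    · intro hy
      refine ⟨⟨(α.symm ⟨y, hy⟩ : S), Subgroup.mem_sup_left (α.symm ⟨y, hy⟩).2⟩,
        (α.symm ⟨y, hy⟩).2, ?_⟩
      show ((α (α.symm ⟨y, hy⟩) : S) : Ω) = y
      rw [MulEquiv.apply_symm_apply]

end Cfsg.Agent.S5225
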