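import Cfsg.Statements.S5236
import Cfsg.Agent.FusionAux.NormalRadical
import Mathlib.GroupTheory.Nilpotent

set_option autoImplicit false
open Cfsg Cfsg.FusionSystem Cfsg.Agent.FusionSys Cfsg.Agent.FusionAlperin Cfsg.Agent.FusionAux
open scoped commutatorElement

namespace Cfsg.Agent.S5236

/-- An automorphism of order prime to `p` stabilizing a subgroup `A` with `α` fixing the elements
of order `p` of `A` and moving all elements only inside `A` is trivial. -/
theorem eq_one_of_stab {Q : Type*} [Group Q] [Finite Q] {p : ℕ} [Fact p.Prime] (hp : p ≠ 2)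
    (hQ : IsPGroup p Q) {α : MulAut Q} (hcop : (orderOf α).Coprime p) {A : Subgroup Q}
    (hA : A.map α.toMonoidHom = A) (hom : ∀ x ∈ A, x ^ p = 1 → α x = x)
    (hmod : ∀ x : Q, x⁻¹ * α x ∈ A) : α = 1 := by
  let β : MulAut A := (α.subgroupMap A).trans (MulEquiv.subgroupCongr hA)
  have hpow : ∀ (n : ℕ) (a : A), ((β ^ n) a : Q) = (α ^ n) a := by
    intro n
    induction n with
    | zero => intro a; rfl
    | succ n ih =>
      intro a
      rw [pow_succ', pow_succ', MulAut.mul_apply, MulAut.mul_apply, ← ih]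
      rfl
  have hβ : β = 1 := by
    refine eq_one_of_fix_omega hp (hQ.to_subgroup A) (hcop.coprime_dvd_left ?_) fun a ha => ?_
    · refine orderOf_dvd_of_pow_eq_one ?_
      ext a
      rw [hpow, pow_orderOf_eq_one]
      rfl
    · exact Subtype.ext (hom a a.2 (by simpa using congrArg Subtype.val ha))
  refine MulEquiv.ext fun x => PGroup.apply_eq_of_fixed_commutator hQ α hcop ?_
  exact congrArg Subtype.val (DFunLike.congr_fun hβ ⟨_, hmod x⟩)

/-- Let p be an odd prime, F a saturated fusion system over a finite p-group S and P a subgroup of S strongly closed in F. Then P is normal in F if and only if Ω₁(P) (the subgroup generated by the elements of order p of P) has a chain of subgroups 1 = Q₀ ≤ Q₁ ≤ ⋯ ≤ Qₙ = Ω₁(P), each strongly closed in F, with [Qᵢ₊₁, P] ≤ Qᵢ for all i. -/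
theorem result {Ω : Type*} [Group Ω] {S : Subgroup Ω} [Finite S] (p : ℕ) [Fact p.Prime] (hS : IsPGroup p S) (F : Cfsg.FusionSystem S) (hF : F.IsSaturated p) (hp : p ≠ 2) (P : Subgroup Ω) (hP : F.StronglyClosed P) : F.IsNormal P ↔ ∃ (n : ℕ) (Q : Fin (n + 1) → Subgroup Ω), Q 0 = ⊥ ∧ Q (Fin.last n) = Cfsg.omegaOne p P ∧ Monotone Q ∧ (∀ i : Fin (n + 1), F.StronglyClosed (Q i)) ∧ ∀ i : Fin n, ⁅Q i.succ, P⁆ ≤ Q i.castSucc := by
  constructor
  · intro hN
    have hPS := hP.1
    have : Finite P := finite_of_le ‹_› hPS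
    have : Group.IsNilpotent P := (hS.to_le hPS).isNilpotent
    obtain ⟨n, hn⟩ := Group.IsNilpotent.nilpotent P
    let Z : ℕ → Subgroup Ω := fun i => (Subgroup.upperCentralSeries P i).map P.subtype
    have homP : omegaOne p P ≤ P := (Subgroup.closure_le _).2 fun x hx => hx.1
    -- characteristic subgroups of the normal `P` are strongly closed
    have hchar : ∀ {R : Subgroup Ω} {φ : R →* Ω}, φ ∈ F.Hom R → ∀ x : R, (x : Ω) ∈ P →
        ∃ β : MulAut P, ∀ h : (x : Ω) ∈ P, φ x = (β ⟨x, h⟩ : Ω) := by
      intro R φ hφ x hx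
      obtain ⟨ψ, hψ, hψe, hψP⟩ := hN.2 R φ hφ
      have hle : P ≤ R ⊔ P := le_sup_right
      refine ⟨toIso F (restr_mem F hle hψ) ((range_restr hle ψ).trans hψP), fun h => ?_⟩
      rw [toIso_coe, restr_apply, ← hψe x]
      rfl
    refine ⟨n, fun i => omegaOne p P ⊓ Z i, ?_, ?_, fun i j h => inf_le_inf_left _
      (Subgroup.map_mono (Subgroup.upperCentralSeries_mono P h)), fun i => ?_, fun i => ?_⟩
    · simp [Z]
    · show omegaOne p P ⊓ Z n = omegaOne p P
      refine inf_eq_left.2 (homP.trans_eq ?_)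
      simp only [Z, hn]
      rw [← MonoidHom.range_eq_map, Subgroup.range_subtype]
    · refine sc_of_elements (inf_le_left.trans (homP.trans hPS)) fun R φ hφ x hx => ?_
      obtain ⟨β, hβ⟩ := hchar hφ x (homP hx.1)
      rw [hβ (homP hx.1)]
      refine ⟨?_, ?_⟩
      · have key : omegaOne p P ≤ ((omegaOne p P).comap (P.subtype.comp β.toMonoidHom)).map P.subtype := by
          refine (Subgroup.closure_le _).2 fun y hy => ?_
          refine ⟨⟨y, hy.1⟩, Subgroup.subset_closure ⟨(β ⟨y, hy.1⟩).2, ?_⟩, rfl⟩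
          show ((β ⟨y, hy.1⟩ : P) : Ω) ^ p = 1
          rw [← Subgroup.coe_pow, ← map_pow, show (⟨y, hy.1⟩ : P) ^ p = 1 from Subtype.ext hy.2,
            map_one]
          rfl
        obtain ⟨z, hz, hzx⟩ := key hx.1
        obtain rfl : z = ⟨x, homP hx.1⟩ := Subtype.ext hzx
        exact hz
      · obtain ⟨z, hz, hzx⟩ := hx.2
        obtain rfl : z = ⟨x, homP hx.1⟩ := Subtype.ext hzx
        exact ⟨_, (Subgroup.characteristic_iff_le_comap.1 inferInstance β) hz, rfl⟩
    · refine le_inf ?_ ?_
      · -- `Ω₁(P)` is normalized by `P`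
        refine le_trans (Subgroup.commutator_mono inf_le_left le_rfl) ?_
        rw [Subgroup.commutator_le]
        intro a ha b hb
        have key : omegaOne p P ≤ (omegaOne p P).comap (MulAut.conj b).toMonoidHom := by
          refine (Subgroup.closure_le _).2 fun y hy => Subgroup.subset_closure ⟨?_, ?_⟩
          · exact P.mul_mem (P.mul_mem hb hy.1) (P.inv_mem hb)
          · show (b * y * b⁻¹) ^ p = 1
            rw [conj_pow, hy.2, mul_one, mul_inv_cancel]
        have := (omegaOne p P).mul_mem ha (key ((omegaOne p P).inv_mem ha))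
        simpa [commutatorElement_def, mul_assoc] using this
      · refine le_trans (Subgroup.commutator_mono inf_le_right le_rfl) ?_
        have h := Subgroup.map_mono (f := P.subtype)
          (Subgroup.commutator_upperCentralSeries_top_le P (i : ℕ))
        rw [Subgroup.map_commutator, ← MonoidHom.range_eq_map, Subgroup.range_subtype] at h
        exact h
  · rintro ⟨n, Q, hQ0, hQn, hQmono, hQsc, hQcomm⟩
    refine isNormal_of_sc_radical hS hF hP fun R hR hcent hrad => ?_
    have hRS := hR.1
    have hnS := sc_le_normalizer hP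
    have hRfin : Finite R := finite_of_le ‹_› hRS
    let q : ℕ → Subgroup Ω := fun j => Q ⟨min j n, by omega⟩
    have hq0 : q 0 = ⊥ := (congrArg Q (Fin.ext (Nat.zero_min n))).trans hQ0
    have hqn : q n = omegaOne p P := (congrArg Q (Fin.ext (min_self n))).trans hQn
    let top : ℕ → Subgroup Ω := fun j => if j = 0 then P else ⊤
    have h1 : ∀ i ≤ n, ∀ a ∈ F.autGroup R, ∀ x : R, (x : Ω) ∈ q i → ((a x : R) : Ω) ∈ q i :=
      fun i _ a ha x hx => sc_map_mem (hQsc _) (autGroup_mem_hom F hRS ha) hx
    have h2 : ∀ i ≤ 1, ∀ a ∈ F.autGroup R, ∀ x : R, (x : Ω) ∈ top i → ((a x : R) : Ω) ∈ top i := by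
      intro i _ a ha x hx
      by_cases hi : i = 0
      · simp only [top, if_pos hi] at hx ⊢
        exact sc_map_mem hP (autGroup_mem_hom F hRS ha) hx
      · simp [top, if_neg hi]
    let M := seriesStab F R q n h1 ⊓ seriesStab F R top 1 h2
    have hMn : M.Normal := by
      have := seriesStab_normal F R q n h1
      have := seriesStab_normal F R top 1 h2
      exact Subgroup.normal_inf_normal _ _
    have hM : IsPGroup p M := by
      refine isPGroup_of_pow_eq_one _ fun a ha => ?_
      obtain ⟨e, he⟩ := exists_pow_fix_series (hS.to_le hRS) (α := (a : MulAut R))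
        (fun i => (q i).subgroupOf R)
        (fun x hx => by
          have : x = 1 := Subtype.ext (by simpa [Subgroup.mem_subgroupOf, hq0] using hx)
          simp [this])
        n (fun i hi => Subgroup.comap_mono (hQmono (show min i n ≤ min (i + 1) n by omega)))
        (fun i hi x hx => by simpa [Subgroup.mem_subgroupOf] using ha.1 i hi x hx) n le_rfl
      obtain ⟨i, c, hc, hord⟩ := Nat.exists_eq_pow_mul_and_not_dvd (orderOf_pos (a : MulAut R)).ne' p
        (Fact.out : p.Prime).ne_one
      refine ⟨e + i, Subtype.ext ?_⟩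
      rw [Subgroup.coe_pow]
      set b : MulAut R := (a : MulAut R) ^ p ^ (e + i) with hb
      have hcop : (orderOf b).Coprime p := by
        refine Nat.Coprime.coprime_dvd_left (orderOf_dvd_of_pow_eq_one ?_)
          ((Fact.out : p.Prime).coprime_iff_not_dvd.2 hc).symm
        rw [hb, ← pow_mul, pow_add, mul_assoc, ← hord, mul_comm, pow_mul, pow_orderOf_eq_one,
          one_pow]
      have hbG : b ∈ F.autGroup R := pow_mem a.2 _
      have hbmap : (P.subgroupOf R).map b.toMonoidHom = P.subgroupOf R := by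
        ext x
        rw [Subgroup.mem_map]
        constructor
        · rintro ⟨y, hy, rfl⟩
          exact sc_map_mem hP (autGroup_mem_hom F hRS hbG) hy
        · intro hx
          exact ⟨b.symm x, sc_map_mem hP (autGroup_mem_hom F hRS (inv_mem hbG)) hx,
            b.apply_symm_apply x⟩
      refine eq_one_of_stab hp (hS.to_le hRS) hcop hbmap (fun x hx hxp => ?_) fun x => ?_
      · rw [hb, pow_add, pow_mul]
        have hxO : x ∈ (q n).subgroupOf R := by
          rw [Subgroup.mem_subgroupOf, hqn]
          exact Subgroup.subset_closure ⟨hx, by simpa using congrArg Subtype.val hxp⟩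
        have hfix : ((a : MulAut R) ^ p ^ e) x = x := he x hxO
        generalize (a : MulAut R) ^ p ^ e = c at hfix ⊢
        induction p ^ i with
        | zero => rfl
        | succ m ih => rw [pow_succ, MulAut.mul_apply, hfix, ih]
      · refine inv_mul_pow_apply_mem (A := P.subgroupOf R) (fun y hy =>
          sc_map_mem hP (autGroup_mem_hom F hRS a.2) hy) ?_ _
        have h4 := ha.2 0 Nat.one_pos x (by simp [top])
        simpa [Subgroup.mem_subgroupOf, top] using h4
    have key : ∀ g ∈ P, g ∈ normalizerIn S R → g ∈ R := by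
      intro g hg hgN
      refine mem_of_normal_pGroup hcent hrad hM hgN
        (a := ⟨R.normalizerMonoidHom ⟨g, hgN.2⟩, autInducedBy_le_autGroup F hRS
          (mem_autInducedBy.2 ⟨g, hgN.1, fun _ => rfl⟩)⟩) ⟨fun i hi x hx => ?_, fun i hi x hx => ?_⟩
        (fun x => rfl)
      · show (x : Ω)⁻¹ * (g * x * g⁻¹) ∈ q i
        have e1 : q (i + 1) = Q (⟨i, hi⟩ : Fin n).succ :=
          congrArg Q (Fin.ext (min_eq_left (Nat.succ_le_of_lt hi)))
        have e2 : q i = Q (⟨i, hi⟩ : Fin n).castSucc := congrArg Q (Fin.ext (min_eq_left hi.le))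
        rw [e1] at hx
        rw [e2]
        have h5 : ⁅(x : Ω)⁻¹, g⁆ ∈ Q (⟨i, hi⟩ : Fin n).castSucc :=
          hQcomm ⟨i, hi⟩ (Subgroup.commutator_mem_commutator (Subgroup.inv_mem _ hx) hg)
        simpa [commutatorElement_def, mul_assoc] using h5
      · show (x : Ω)⁻¹ * (g * x * g⁻¹) ∈ top i
        obtain rfl : i = 0 := by omega
        simp only [top, if_pos]
        have h7 := sc_conj_mem hP (S.inv_mem (hRS x.2)) hg
        simpa [mul_assoc] using P.mul_mem h7 (P.inv_mem hg)
    by_contra hnot
    have hsupS : R ⊔ P ≤ S := sup_le hRS hP.1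
    have : Finite ↥(R ⊔ P) := finite_of_le ‹_› hsupS
    obtain ⟨g, hg, hgN, hgR⟩ := exists_normalizer_mem_not_mem (hS.to_le hsupS)
      (lt_of_le_of_ne le_sup_left fun h => hnot (h ▸ le_sup_right) : R < R ⊔ P)
    rw [← SetLike.mem_coe, Subgroup.coe_mul_of_left_le_normalizer_right _ _ (hRS.trans hnS)] at hg
    obtain ⟨r, hr, t, ht, rfl⟩ := hg
    refine hgR (R.mul_mem hr (key t ht ⟨hP.1 ht, ?_⟩))
    simpa using mul_mem (inv_mem (Subgroup.le_normalizer (H := R) hr)) hgN

end Cfsg.Agent.S5236
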