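import Cfsg.Statements.S5257
import Cfsg.Agent.FusionAux.UniqueAbelian

set_option autoImplicit false
open Cfsg Cfsg.Agent.FusionAux.UniqueAbelian
open scoped commutatorElement

namespace Cfsg.Agent.S5257

/-- Let p be an odd prime, S a finite nonabelian p-group with a unique abelian subgroup A of index p, and F a saturated fusion system over S having an F-essential subgroup other than A. Then the second centre Z₂(S) lies in A; Z(S) ∩ [S, S] has order p; Z(S)[S, S] has index p in A; Z(S) has index p in Z₂(S); and S/Z(S) has maximal nilpotency class (if S/Z(S) has order pᵐ with m ≥ 3 then the term of index m − 2 of the lower central series of S, counting S as index 0, is not contained in Z(S)). -/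
theorem result {Ω : Type*} [Group Ω] {S : Subgroup Ω} [Finite S] (p : ℕ) [Fact p.Prime] (hS : IsPGroup p S) (F : Cfsg.FusionSystem S) (hF : F.IsSaturated p) (hp : p ≠ 2) (hna : ¬ IsMulCommutative ↥S) (A : Subgroup Ω) (hA : A ≤ S ∧ IsMulCommutative ↥A ∧ (A.subgroupOf S).index = p) (huniq : ∀ B : Subgroup Ω, B ≤ S → IsMulCommutative ↥B → (B.subgroupOf S).index = p → B = A) (P : Subgroup Ω) (hP : F.IsEssential p P) (hPA : P ≠ A) : ((upperCentralSeries ↥S 2).map S.subtype) ≤ A ∧ Nat.card ↥((S ⊓ Subgroup.centralizer (S : Set Ω)) ⊓ ((commutator ↥S).map S.subtype)) = p ∧ (((S ⊓ Subgroup.centralizer (S : Set Ω)) ⊔ ((commutator ↥S).map S.subtype)).subgroupOf A).index = p ∧ (((S ⊓ Subgroup.centralizer (S : Set Ω))).subgroupOf ((upperCentralSeries ↥S 2).map S.subtype)).index = p ∧ ∀ m : ℕ, ((S ⊓ Subgroup.centralizer (S : Set Ω)).subgroupOf S).index = p ^ m → 3 ≤ m → ¬ Subgroup.lowerCentralSeries S (m - 2) ≤ (S ⊓ Subgroup.centralizer (S : Set Ω)) := by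
  have hcomm : ∀ a ∈ A, ∀ b ∈ A, a * b = b * a := fun a ha b hb =>
    congrArg Subtype.val (hA.2.1.is_comm.comm ⟨a, ha⟩ ⟨b, hb⟩)
  obtain ⟨x, hxP, hxA⟩ := exists_mem_notMem (hS := hS) hP hA.1 hcomm hPA
  have h : Setup F p A P x := ⟨hS, hF, hA.1, hcomm, hA.2.2, hna, huniq, hP, hxP, hxA⟩
  have hAfin : Finite A := Cfsg.Agent.FusionSys.finite_of_le ‹_› hA.1
  have : IsMulCommutative A := hA.2.1
  have hpp : p.Prime := Fact.out
  set Z := zS S with hZdef
  set ZA := Z.subgroupOf A with hZA
  set R := h.disp.range with hR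
  have hker : h.disp.ker = ZA := by
    ext a
    exact h.disp_eq_one
  have hD : (commutator S).map S.subtype = R.map A.subtype := by
    apply le_antisymm
    · have hconj : ∀ g ∈ S, ∀ w ∈ R.map A.subtype, g * w * g⁻¹ ∈ R.map A.subtype := by
        intro g hg w hw
        obtain ⟨_, ⟨a, rfl⟩, rfl⟩ := hw
        obtain ⟨b, hb, n, rfl⟩ := h.decomp h.xS h.hxA g hg
        have hA' : x ^ n * (a : Ω) * (x ^ n)⁻¹ ∈ A := h.normA _ (S.pow_mem h.xS n) a a.2
        refine ⟨h.disp ⟨_, hA'⟩, ⟨_, rfl⟩, ?_⟩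
        show ⁅x ^ n * (a : Ω) * (x ^ n)⁻¹, x⁆ = b * x ^ n * ⁅(a : Ω), x⁆ * (b * x ^ n)⁻¹
        rw [mul_inv_rev, show b * x ^ n * ⁅(a : Ω), x⁆ * ((x ^ n)⁻¹ * b⁻¹) =
          b * (x ^ n * ⁅(a : Ω), x⁆ * (x ^ n)⁻¹) * b⁻¹ by simp [mul_assoc],
          h.comm b hb _ (h.normA _ (S.pow_mem h.xS n) _ (h.comm_mem_A a.2 h.xS)),
          mul_inv_cancel_right]
        have hx : Commute (x ^ n) x := (Commute.refl x).pow_left n
        calc ⁅x ^ n * (a : Ω) * (x ^ n)⁻¹, x⁆
            = ⁅x ^ n * (a : Ω) * (x ^ n)⁻¹, x ^ n * x * (x ^ n)⁻¹⁆ := by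
              rw [hx.eq, mul_inv_cancel_right]
          _ = _ := by simp [commutatorElement_def, mul_assoc]
      have hA1 : ∀ a ∈ A, ∀ n : ℕ, ⁅a, x ^ n⁆ ∈ R.map A.subtype := fun a ha n =>
        comm_pow_mem (hconj x h.xS)
          (show ⁅a, x⁆ ∈ R.map A.subtype from ⟨_, ⟨⟨a, ha⟩, rfl⟩, rfl⟩) n
      rw [Subgroup.map_le_iff_le_comap, commutator_def, Subgroup.commutator_le]
      intro g _ k _
      show S.subtype ⁅g, k⁆ ∈ R.map A.subtype
      rw [map_commutatorElement]
      show ⁅(g : Ω), (k : Ω)⁆ ∈ R.map A.subtype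
      obtain ⟨a, ha, n, hg⟩ := h.decomp h.xS h.hxA g g.2
      obtain ⟨b, hb, m, hk⟩ := h.decomp h.xS h.hxA k k.2
      rw [hg, hk, show ⁅a * x ^ n, b * x ^ m⁆ = (a * ⁅x ^ n, b * x ^ m⁆ * a⁻¹) * ⁅a, b * x ^ m⁆ by
        simp [commutatorElement_def, mul_assoc]]
      refine Subgroup.mul_mem _ (hconj a (h.hAS ha) _ ?_) ?_
      · rw [show ⁅x ^ n, b * x ^ m⁆ = ⁅x ^ n, b⁆ by
          have hx : Commute (x ^ n) (x ^ m) := (Commute.refl x).pow_pow n m
          calc ⁅x ^ n, b * x ^ m⁆ = x ^ n * b * (x ^ m * (x ^ n)⁻¹) * (x ^ m)⁻¹ * b⁻¹ := by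
                simp [commutatorElement_def, mul_assoc]
            _ = _ := by rw [← hx.inv_left.eq]; simp [commutatorElement_def, mul_assoc],
          ← commutatorElement_inv]
        exact Subgroup.inv_mem _ (hA1 b hb n)
      · rw [show ⁅a, b * x ^ m⁆ = ⁅a, b⁆ * (b * ⁅a, x ^ m⁆ * b⁻¹) by
          simp [commutatorElement_def, mul_assoc],
          commutatorElement_eq_one_iff_mul_comm.2 (h.comm a ha b hb), one_mul]
        exact hconj b (h.hAS hb) _ (hA1 a ha m)
    · rintro _ ⟨_, ⟨a, rfl⟩, rfl⟩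
      refine ⟨⁅(⟨a, h.hAS a.2⟩ : S), (⟨x, h.xS⟩ : S)⁆,
        Subgroup.commutator_mem_commutator (Subgroup.mem_top _) (Subgroup.mem_top _), ?_⟩
      exact map_commutatorElement S.subtype _ _
  have hZle : Z ≤ A := h.center_le
  have hZmap : Z = ZA.map A.subtype := by
    rw [hZA, Subgroup.subgroupOf_map_subtype, inf_eq_left.2 hZle]
  -- the intersection with the commutator subgroup
  have hint : Nat.card (R ⊓ ZA : Subgroup A) = p := by
    rw [hR, ← Subgroup.map_comap_eq h.disp ZA, ← Subgroup.relIndex_ker, hker]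
    exact h.relIndex_second
  refine ⟨h.upperTwo_le, ?_, ?_, ?_, ?_⟩
  · show Nat.card ↥(Z ⊓ (commutator S).map S.subtype) = p
    rw [hD, hZmap, ← Subgroup.map_inf _ _ A.subtype A.subtype_injective,
      Subgroup.card_map_of_injective A.subtype_injective, inf_comm, hint]
  · show ((Z ⊔ (commutator S).map S.subtype).subgroupOf A).index = p
    rw [hD, hZmap, ← Subgroup.map_sup, Subgroup.subgroupOf,
      Subgroup.comap_map_eq_self_of_injective A.subtype_injective]
    have h1 : ZA.relIndex (ZA ⊔ R) * (ZA ⊔ R).index = ZA.index :=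
      Subgroup.relIndex_mul_index le_sup_left
    rw [sup_comm ZA R, Subgroup.relIndex_sup_right] at h1
    have h2 : Nat.card R = ZA.index := by
      rw [← hker, hR, ← Subgroup.index_ker]
    have h3 : Nat.card (R ⊓ ZA : Subgroup A) * ZA.relIndex R = Nat.card R := by
      rw [← Subgroup.relIndex_bot_left, inf_comm, ← Subgroup.inf_relIndex_right ZA R,
        ← Subgroup.relIndex_bot_left (H := R)]
      exact Subgroup.relIndex_mul_relIndex _ _ _ bot_le inf_le_right
    rw [hint, h2, ← h1] at h3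
    rw [sup_comm]
    refine (Nat.eq_of_mul_eq_mul_left (Nat.pos_of_ne_zero (relIndex_ne_zero' ZA R)) ?_).symm
    rw [mul_comm]
    exact h3
  · show Z.relIndex ((Subgroup.upperCentralSeries S 2).map S.subtype) = p
    rw [h.upperTwo_eq, hZmap, Subgroup.relIndex_map_map_of_injective _ _ A.subtype_injective]
    exact h.relIndex_second
  · intro m hm hm3 hle
    let J : ℕ → Subgroup A := fun k => Nat.rec (motive := fun _ => Subgroup A) ⊤
      (fun _ X => X.map h.disp) k
    have hJ0 : J 0 = ⊤ := rfl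
    have hJs : ∀ k, J (k + 1) = (J k).map h.disp := fun _ => rfl
    have hJR : ∀ k, J (k + 1) ≤ R := fun k => by
      rw [hJs, hR]
      exact Subgroup.map_le_range _ _
    have hJL : ∀ k, (J k).map A.subtype ≤ Subgroup.lowerCentralSeries S k := by
      intro k
      induction k with
      | zero =>
        rintro _ ⟨a, -, rfl⟩
        exact h.hAS a.2
      | succ k ih =>
        rw [hJs]
        rintro _ ⟨_, ⟨a, ha, rfl⟩, rfl⟩
        exact Subgroup.commutator_mem_commutator (ih ⟨a, ha, rfl⟩) h.xS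
    have hstep : ∀ k, Nat.card (J (k + 2)) * p ≥ Nat.card (J (k + 1)) := by
      intro k
      have e1 : Nat.card (J (k + 2)) = ZA.relIndex (J (k + 1)) := by
        rw [hJs (k + 1), ← Subgroup.relIndex_ker, hker]
      have e2 : Nat.card (ZA ⊓ J (k + 1) : Subgroup A) * ZA.relIndex (J (k + 1)) =
          Nat.card (J (k + 1)) := by
        rw [← Subgroup.relIndex_bot_left, ← Subgroup.inf_relIndex_right ZA (J (k + 1)),
          ← Subgroup.relIndex_bot_left (H := J (k + 1))]
        exact Subgroup.relIndex_mul_relIndex _ _ _ bot_le inf_le_right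
      rw [e1, ← e2, mul_comm]
      refine Nat.mul_le_mul_right _ ?_
      rw [← hint, inf_comm R ZA]
      exact Subgroup.card_le_of_le (inf_le_inf_left _ (hJR k))
    have hJ1 : Nat.card (J 1) = p ^ (m - 1) := by
      have e1 : Nat.card (J 1) = ZA.index := by
        show Nat.card ((⊤ : Subgroup A).map h.disp) = ZA.index
        rw [← Subgroup.relIndex_ker, hker, Subgroup.relIndex_top_right]
      have e2 : ZA.index * p = p ^ m := by
        rw [← hm]
        show Z.relIndex A * p = Z.relIndex S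
        rw [← show A.relIndex S = p from hA.2.2]
        exact Subgroup.relIndex_mul_relIndex Z A S hZle hA.1
      rw [show m = (m - 1) + 1 by omega, pow_succ] at e2
      rw [e1]
      exact Nat.eq_of_mul_eq_mul_right hpp.pos e2
    have hlow : ∀ k, Nat.card (J (k + 1)) * p ^ k ≥ p ^ (m - 1) := by
      intro k
      induction k with
      | zero => simp [hJ1]
      | succ k ih =>
        refine ih.trans ?_
        rw [pow_succ', ← mul_assoc]
        exact Nat.mul_le_mul_right _ (hstep k)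
    have hbig := hlow (m - 3)
    have hsmall : Nat.card (J (m - 3 + 1)) ≤ p := by
      rw [← hint]
      refine Subgroup.card_le_of_le (le_inf (hJR _) fun a ha => ?_)
      have := hJL (m - 3 + 1) ⟨a, ha, rfl⟩
      rw [show m - 3 + 1 = m - 2 by omega] at this
      exact hle this
    have h4 := hbig.trans (Nat.mul_le_mul_right _ hsmall)
    rw [← pow_succ'] at h4
    have := (Nat.pow_le_pow_iff_right hpp.one_lt).1 h4
    omega

end Cfsg.Agent.S5257
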