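import Cfsg.Statements.S5244
import Mathlib
import Cfsg.Agent.FGSev.MaxClass
import Cfsg.Agent.S5257
import Cfsg.Agent.H73.UniqueAb.CoreFree
-- import your own Cfsg.Agent.* helpers here

set_option autoImplicit false
set_option linter.style.haveILetI false
open Cfsg Cfsg.Agent.FusionAux.UniqueAbelian

namespace Cfsg.Agent.S5244

/-- Let p be an odd prime, S a finite nonabelian p-group with a unique abelian subgroup A of index p, and F a saturated fusion system over S with no nontrivial normal subgroup (O_p(F) = 1) in which A is not F-essential. Then some subgroup Z(S)⟨x⟩ with x ∈ S outside A is F-essential, the centre Z(S) is contained in the commutator subgroup of S, and S has maximal nilpotency class (if S has order pⁿ with n ≥ 3, the term of index n − 2 of its lower central series, counting S itself as the term of index 0, is nontrivial). -/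
theorem result {Ω : Type*} [Group Ω] {S : Subgroup Ω} [Finite S] (p : ℕ) [Fact p.Prime] (hS : IsPGroup p S) (F : Cfsg.FusionSystem S) (hF : F.IsSaturated p) (hp : p ≠ 2) (hna : ¬ IsMulCommutative ↥S) (A : Subgroup Ω) (hA : A ≤ S ∧ IsMulCommutative ↥A ∧ (A.subgroupOf S).index = p) (huniq : ∀ B : Subgroup Ω, B ≤ S → IsMulCommutative ↥B → (B.subgroupOf S).index = p → B = A) (hcore : F.core = ⊥) (hAe : ¬ F.IsEssential p A) : (∃ x ∈ S, x ∉ A ∧ F.IsEssential p ((S ⊓ Subgroup.centralizer (S : Set Ω)) ⊔ Subgroup.zpowers x)) ∧ (S ⊓ Subgroup.centralizer (S : Set Ω)) ≤ (commutator ↥S).map S.subtype ∧ ∀ n : ℕ, Nat.card S = p ^ n → 3 ≤ n → Subgroup.lowerCentralSeries S (n - 2) ≠ ⊥ := by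
  classical
  have hpp := (Fact.out : p.Prime)
  have hcomm : ∀ a ∈ A, ∀ b ∈ A, a * b = b * a := fun a ha b hb =>
    congrArg Subtype.val (hA.2.1.is_comm.comm ⟨a, ha⟩ ⟨b, hb⟩)
  have hsetup : ∀ Q, F.IsEssential p Q → ∃ y, Setup F p A Q y := by
    intro Q hQ
    obtain ⟨y, hyQ, hyA⟩ := exists_mem_notMem (hS := hS) hQ hA.1 hcomm fun e => hAe (e ▸ hQ)
    exact ⟨y, hS, hF, hA.1, hcomm, hA.2.2, hna, huniq, hQ, hyQ, hyA⟩
  obtain ⟨P, x, h, hab⟩ : ∃ P x, Setup F p A P x ∧ P ⊓ A ≤ zS S := by
    by_contra! hall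
    have hnorm : F.IsNormal (zS S) := by
      refine FusionAlperin.isNormal_of_autGroups hS hF fun R hR => ?_
      have hR' : R ≤ S ∧ zS S ≤ R ∧ ∀ α ∈ F.autGroup R, ∀ v : R, (v : Ω) ∈ zS S →
          ((α v : R) : Ω) ∈ zS S := by
        rcases hR with rfl | hR
        · refine ⟨le_rfl, inf_le_left, fun α _ v hv => ⟨(α v).2, fun g hg => ?_⟩⟩
          obtain ⟨g', hg'⟩ := α.surjective ⟨g, hg⟩
          have h1 : g' * v = v * g' := Subtype.ext (hv.2 g' g'.2)
          exact congrArg Subtype.val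
            (by rw [← hg', ← map_mul, h1, map_mul] : (⟨g, hg⟩ : R) * α v = α v * ⟨g, hg⟩)
        · obtain ⟨y, hy⟩ := hsetup R hR
          exact ⟨hy.hPS, hy.center_le_P, fun α _ v hv => hy.center_inv (hall R y hy) hv⟩
      haveI : Finite R := FusionSys.finite_of_le ‹_› hR'.1
      exact ⟨hR'.2.1, fun α hα =>
        H73.Resistant.map_eq_of_forall_mem fun v hv => hR'.2.2 α hα v hv⟩
    have hbot : zS S = ⊥ :=
      le_bot_iff.1 ((le_sSup (s := {Q : Subgroup Ω | F.IsNormal Q}) hnorm).trans hcore.le)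
    haveI : Nontrivial S := (not_subsingleton_iff_nontrivial.1 fun _ =>
      hna ⟨⟨fun a b => Subsingleton.elim _ _⟩⟩)
    haveI := hS.center_nontrivial
    obtain ⟨z, hz⟩ := exists_ne (1 : Subgroup.center S)
    refine hz (Subtype.ext (Subtype.ext (Subgroup.mem_bot.1 (hbot.le
      ⟨(z : S).2, fun g hg => congrArg Subtype.val (Subgroup.mem_center_iff.1 z.2 ⟨g, hg⟩)⟩))))
  have hPA : P ≠ A := fun e => hAe (e ▸ h.hP)
  have hD : Nat.card (H73.UniqueAb.dS S) = p :=
    (S5257.result p hS F hF hp hna A hA huniq P h.hP hPA).2.1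
  have hZD := H73.UniqueAb.center_eq h hab hp hD hcore hAe
  have hPeq := H73.UniqueAb.eq_sup h hab
  refine ⟨⟨x, h.xS, h.hxA, ?_⟩, hZD.le.trans inf_le_right, fun n hn hn3 => ?_⟩
  · show F.IsEssential p (zS S ⊔ Subgroup.zpowers x)
    rw [← hPeq]
    exact h.hP
  haveI := hS.isNilpotent
  have hZcard : Nat.card (zS S) = p := by rw [hZD]; exact hD
  have hPcard : Nat.card P = p ^ 2 := by
    haveI : Finite P := FusionSys.finite_of_le ‹_› h.hPS
    have h1 := (A.subgroupOf P).card_mul_index
    rw [show (A.subgroupOf P).index = p from h.relA h.hPS fun e => h.hxA (e h.hxP),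
      ← Subgroup.inf_subgroupOf_left, H73.UniqueAb.inf_eq_center h hab,
      Nat.card_congr (Subgroup.subgroupOfEquivOfLe h.center_le_P).toEquiv, hZcard] at h1
    rw [pow_two, h1]
  have hsmall : Nat.card (Subgroup.centralizer ({⟨x, h.xS⟩} : Set S)) ≤ p ^ 2 := by
    haveI : Finite P := FusionSys.finite_of_le ‹_› h.hPS
    rw [← hPcard]
    have hmem : ∀ v ∈ Subgroup.centralizer ({⟨x, h.xS⟩} : Set S), (v : Ω) ∈ P := by
      intro v hv
      have hx : x * (v : Ω) = v * x :=
        (congrArg Subtype.val (Subgroup.mem_centralizer_singleton_iff.1 hv)).symm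
      have hle : P ≤ Subgroup.centralizer ({(v : Ω)} : Set Ω) := by
        rw [hPeq]
        exact sup_le (fun z hz => Subgroup.mem_centralizer_singleton_iff.2 (hz.2 v v.2).symm)
          (Subgroup.zpowers_le.2 (Subgroup.mem_centralizer_singleton_iff.2 hx))
      exact FusionSys.centralizerIn_self_centric h.hP.1 ⟨v.2, fun u hu =>
        Subgroup.mem_centralizer_singleton_iff.1 (hle hu)⟩
    exact Nat.card_le_card_of_injective (fun v => (⟨_, hmem v v.2⟩ : P))
      fun u v e => Subtype.ext (Subtype.ext (congrArg (fun t : P => (t : Ω)) e))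
  intro hbot
  have hcl := FGSev.nilpotencyClass_of_small_centralizer n S hn (by omega) _ hsmall
  have h1 : (⊤ : Subgroup S).lowerCentralSeries (n - 2) = ⊥ := by
    rw [← Subgroup.map_eq_bot_iff_of_injective _ S.subtype_injective,
      Subgroup.top_subtype_lowerCentralSeries, hbot]
  have := Subgroup.lowerCentralSeries_eq_bot_iff_nilpotencyClass_le.1 h1
  omega

end Cfsg.Agent.S5244
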