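import Cfsg.Statements.S5245
import Cfsg.Agent.FusionAux.Tate
import Cfsg.Agent.FusionAux.CyclicExtension
-- import your own Cfsg.Agent.* helpers here

set_option autoImplicit false
open Cfsg

namespace Cfsg.Agent.S5245

open Cfsg.FusionSystem Cfsg.Agent.FusionSys Cfsg.Agent.FusionAux

/-- A nontrivial automorphism of order prime to `p` of a finite `p`-group moves some `x⁻¹ β x`. -/
theorem exists_moved {T : Type*} [Group T] {p : ℕ} [Fact p.Prime] (hT : IsPGroup p T) {β : MulAut T}
    (hco : Nat.Coprime (orderOf β) p) (h : ∀ x : T, β (x⁻¹ * β x) = x⁻¹ * β x) : β = 1 := by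
  ext x
  have hm : ∀ m : ℕ, (β ^ m) x = x * (x⁻¹ * β x) ^ m := by
    intro m
    induction m with
    | zero => simp
    | succ m ihm =>
      rw [pow_succ' β, MulAut.mul_apply, ihm, map_mul, map_pow, h x, pow_succ' (x⁻¹ * β x)]
      simp [mul_assoc]
  have h1 := hm (orderOf β)
  rw [pow_orderOf_eq_one] at h1
  obtain ⟨k, hk⟩ := hT (x⁻¹ * β x)
  have h2 := Nat.dvd_gcd (orderOf_dvd_of_pow_eq_one (left_eq_mul.1 (show x = _ from h1)))
    (orderOf_dvd_of_pow_eq_one hk)
  rw [(hco.pow_right k).gcd_eq_one, Nat.dvd_one, orderOf_eq_one_iff, inv_mul_eq_one] at h2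
  exact h2.symm

/-- Let F be an extremely sparse fusion system over a finite p-group S (saturated, not the inner system, and every saturated fusion system over any subgroup T of S contained in F is F itself or the inner system of T). Then S is normal in F, the focal and hyperfocal subgroups of F are both S, and Aut_F(S) is generated by the inner automorphisms of S together with a single automorphism of prime order q ≠ p (F is the fusion system of the semidirect product of S by a cyclic group of prime order). -/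
theorem result {Ω : Type*} [Group Ω] {S : Subgroup Ω} [Finite S] (p : ℕ) [Fact p.Prime] (hS : IsPGroup p S) (F : Cfsg.FusionSystem S) (hF : F.IsSaturated p) (hxs : ¬ (∀ P : Subgroup Ω, F.Hom P = (Cfsg.innerFusionSystem S).Hom P) ∧ ∀ (T : Subgroup Ω) (E : Cfsg.FusionSystem T), E.IsSaturated p → E.IsSubsystemOf F → (T = S ∧ ∀ P : Subgroup Ω, E.Hom P = F.Hom P) ∨ (∀ P : Subgroup Ω, E.Hom P = (Cfsg.innerFusionSystem T).Hom P)) : F.IsNormal S ∧ F.focalSubgroup = S ∧ F.hyperfocalSubgroup p = S ∧ ∃ (q : ℕ) (β : MulAut ↥S), q.Prime ∧ q ≠ p ∧ β ∈ F.autGroup S ∧ orderOf β = q ∧ (F.autGroup S : Subgroup (MulAut ↥S)) = Cfsg.Inn ↥S ⊔ Subgroup.zpowers β := by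
  obtain ⟨hninn, hsub⟩ := hxs
  -- an automorphism of prime order different from `p`
  obtain ⟨P, hP, q, β, hq, hβq, hqp⟩ : ∃ P : Subgroup Ω, P ≤ S ∧ ∃ (q : ℕ) (β : F.autGroup P),
      q.Prime ∧ orderOf β = q ∧ q ≠ p := by
    by_contra hno
    refine hninn fun P => ?_
    rw [inner_of_hyperfocal_eq_bot hS hF]
    rw [eq_bot_iff, hyperfocalSubgroup, Subgroup.closure_le]
    rintro _ ⟨P, α, x, hP, hα, rfl⟩
    have : Finite P := finite_of_le ‹_› hP
    have hker : pResidual p (F.autGroup P) ≤ ⊥ := by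
      rw [pResidual, Subgroup.closure_le]
      intro γ hγ
      by_contra hne
      have h1 : orderOf γ ≠ 1 := fun h => hne (orderOf_eq_one_iff.1 h)
      obtain ⟨q, hq, hqd⟩ := Nat.exists_prime_and_dvd h1
      refine hno ⟨P, hP, q, γ ^ (orderOf γ / q), hq,
        orderOf_pow_orderOf_div (orderOf_pos γ).ne' hqd, fun he => ?_⟩
      have h2 := Nat.Coprime.eq_one_of_dvd (Nat.Coprime.symm hγ) (he ▸ hqd)
      exact (Fact.out : p.Prime).ne_one h2
    rw [Subgroup.mem_bot.1 (hker hα)]
    simp
  -- the extension of `T` by an automorphism of prime order is the whole system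
  have main : ∀ (T : Subgroup Ω), T ≤ S → ∀ γ : MulAut T, γ ∈ F.autGroup T → orderOf γ = q →
      T = S ∧ ∀ R : Subgroup Ω, (cyclicExt γ).Hom R = F.Hom R := by
    intro T hT γ hγ hγq
    have : Finite T := finite_of_le ‹_› hT
    have hTp : IsPGroup p T := hS.to_le hT
    have hle : (cyclicExt γ).IsSubsystemOf F := by
      rintro R φ ⟨hR, g, i, h⟩
      have h1 := autGroup_mem_hom F hT ((F.autGroup T).zpow_mem hγ i)
      refine comp_mem' F (restr_mem F hR h1) (F.conj_mem hT (hT g.2))
        (fun x => SetLike.coe_mem _) fun x => ?_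
      rw [h]
      rfl
    have hnd : ¬ p ∣ orderOf γ := by
      rw [hγq]
      exact fun h => hqp ((Nat.prime_dvd_prime_iff_eq Fact.out hq).1 h).symm
    rcases hsub T _ (cyclicExt_saturated hTp γ hnd) hle with h | h
    · exact h
    exfalso
    have h1 := cyclicExt_self γ
    rw [h T] at h1
    obtain ⟨-, g, hg, hge⟩ := h1
    have h2 : γ = MulAut.conj (⟨g, hg⟩ : T) := by
      ext x
      exact hge x
    obtain ⟨k, hk⟩ := hTp ⟨g, hg⟩
    have h3 : orderOf γ ∣ p ^ k := orderOf_dvd_of_pow_eq_one (by rw [h2, ← map_pow, hk, map_one])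
    rw [hγq] at h3
    exact hqp ((Nat.prime_dvd_prime_iff_eq hq Fact.out).1 (hq.dvd_of_dvd_pow h3))
  obtain ⟨hPS, hEF⟩ := main P hP β β.2 (by rw [Subgroup.orderOf_coe, hβq])
  subst hPS
  have hco : Nat.Coprime (orderOf β) p := by
    rw [hβq]
    exact (Nat.coprime_primes hq Fact.out).2 hqp
  have hβres : β ∈ pResidual p (F.autGroup P) := Subgroup.subset_closure hco
  have hR : F.hyperfocalSubgroup p = P := by
    set R := F.hyperfocalSubgroup p with hRdef
    have hRP : R ≤ P := hyperfocal_le F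
    have hmem : ∀ x : P, ((x⁻¹ * (β : MulAut P) x : P) : Ω) ∈ R := fun x =>
      focal_gen_mem_hyperfocal F le_rfl hβres x
    have hinv : ∀ x : P, (x : Ω) ∈ R → (((β : MulAut P) x : P) : Ω) ∈ R := fun x hx => by
      simpa using R.mul_mem hx (hmem x)
    have : Finite R := finite_of_le ‹_› hRP
    let f : R →* R := (restr hRP (P.subtype.comp (β : MulAut P).toMonoidHom)).codRestrict R
      fun x => hinv ⟨x, hRP x.2⟩ x.2
    have hf : Function.Injective f := fun a b h => Subgroup.inclusion_injective hRP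
      ((β : MulAut P).injective (Subtype.ext (congrArg Subtype.val h :)))
    let γ : MulAut R := MulEquiv.ofBijective f (Finite.injective_iff_bijective.1 hf)
    have hγm : γ ∈ F.autGroup R := (mem_autGroup F hRP).2
      (mem_of_restricts F hRP (autGroup_mem_hom F le_rfl β.2) fun x => rfl)
    have hβ1 : ((β : MulAut P) : MulAut P) ≠ 1 := fun h => hq.ne_one (by
      rw [← hβq, ← Subgroup.orderOf_coe, h, orderOf_one])
    have hγq : orderOf γ = q := by
      have : Fact q.Prime := ⟨hq⟩
      have hpow : ∀ (m : ℕ) (x : R),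
          ((γ ^ m) x : Ω) = (((β : MulAut P) ^ m) ⟨x, hRP x.2⟩ : P) := by
        intro m
        induction m with
        | zero => intro x; rfl
        | succ m ih =>
          intro x
          rw [pow_succ' γ, pow_succ' (β : MulAut P), MulAut.mul_apply, MulAut.mul_apply]
          show (((β : MulAut P) _ : P) : Ω) = _
          exact congrArg Subtype.val (congrArg (β : MulAut P) (Subtype.ext (ih x)))
      refine orderOf_eq_prime ?_ fun h => hβ1 (exists_moved hS ?_ fun x => ?_)
      · ext x
        rw [hpow, ← hβq, ← SubgroupClass.coe_pow, pow_orderOf_eq_one]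
        rfl
      · rwa [Subgroup.orderOf_coe]
      · have h1 := hpow 1 ⟨_, hmem x⟩
        rw [pow_one, pow_one, h] at h1
        exact Subtype.ext h1.symm
    exact (main R hRP γ hγm hγq).1
  refine ⟨⟨le_rfl, fun R φ hφ => ?_⟩, ?_, hR, q, β, hq, hqp, β.2,
    by rw [Subgroup.orderOf_coe, hβq], ?_⟩
  · rw [← hEF R] at hφ
    obtain ⟨hRP, g, i, h⟩ := hφ
    have hle : R ⊔ P ≤ P := sup_le hRP le_rfl
    let ψ : ↥(R ⊔ P) →* Ω := P.subtype.comp
      ((MulAut.conj g * (β : MulAut P) ^ i).toMonoidHom.comp (Subgroup.inclusion hle))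
    refine ⟨ψ, ?_, fun x => (h x).symm, ?_⟩
    · rw [← hEF]
      exact ⟨hle, g, i, fun x => rfl⟩
    · ext y
      rw [mem_map_subgroupOf]
      constructor
      · rintro ⟨x, -, rfl⟩
        exact SetLike.coe_mem _
      · intro hy
        refine ⟨⟨((MulAut.conj g * (β : MulAut P) ^ i)⁻¹ ⟨y, hy⟩ : P),
          Subgroup.mem_sup_right (SetLike.coe_mem _)⟩, SetLike.coe_mem _, ?_⟩
        exact congrArg Subtype.val ((MulAut.conj g * (β : MulAut P) ^ i).apply_symm_apply ⟨y, hy⟩)
  · refine le_antisymm ?_ (hR.ge.trans (hyperfocal_le_focal F))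
    rw [focalSubgroup, Subgroup.closure_le]
    rintro _ ⟨R, φ, x, hφ, rfl⟩
    exact P.mul_mem (P.inv_mem (le_S F hφ x.2)) (map_mem_S F hφ x)
  · refine le_antisymm (fun α hα => ?_) (sup_le ?_ (Subgroup.zpowers_le.2 β.2))
    · have h1 := autGroup_mem_hom F le_rfl hα
      rw [← hEF P] at h1
      obtain ⟨_, g, i, h⟩ := h1
      have : α = MulAut.conj g * (β : MulAut P) ^ i := by
        ext x
        exact h x
      rw [this]
      exact Subgroup.mul_mem_sup ⟨g, rfl⟩ (Subgroup.zpow_mem_zpowers _ i)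
    · exact (inn_eq_autInducedBy P).trans_le (autInducedBy_le_autGroup F le_rfl)

end Cfsg.Agent.S5245
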