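import Cfsg.Statements.S5247
import Cfsg.Agent.FusionAux.NormSys
import Cfsg.Agent.FusionAux.Quadratic

set_option autoImplicit false
open Cfsg Cfsg.FusionSystem Cfsg.Agent.FusionSys Cfsg.Agent.FusionAux

namespace Cfsg.Agent.S5247

/-- Let p be an odd prime and F a saturated fusion system over a finite p-group S. Call a fusion system E (over any subgroup) p-stable when, for every fully E-normalized subgroup Q and every χ ∈ Aut_E(Q) with χ(a⁻¹)·a·χ(a⁻¹)·χ(χ(a)) = 1 for all a ∈ Q (χ acts quadratically), χ lies in O_p(Aut_E(Q)). Then F is p-stable if and only if every normalizer fusion system N_F(R) of every non-cyclic fully F-normalized subgroup R of S is p-stable. -/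
theorem result {Ω : Type*} [Group Ω] {S : Subgroup Ω} [Finite S] (p : ℕ) [Fact p.Prime] (hS : IsPGroup p S) (F : Cfsg.FusionSystem S) (hF : F.IsSaturated p) (hp : p ≠ 2) : (∀ Q : Subgroup Ω, F.IsFullyNormalized Q → ∀ χ : MulAut ↥Q, χ ∈ F.autGroup Q → (∀ a : ↥Q, (χ a⁻¹) * a * (χ a⁻¹) * (χ (χ a)) = 1) → χ ∈ ((Cfsg.pCore p ↥(F.autGroup Q)).map (F.autGroup Q).subtype : Subgroup (MulAut ↥Q))) ↔ ∀ R : Subgroup Ω, F.IsFullyNormalized R → ¬ IsCyclic ↥R → ∀ N : Cfsg.FusionSystem (Cfsg.FusionSystem.normalizerIn S R), F.IsNormalizerSystem R N → (∀ Q : Subgroup Ω, N.IsFullyNormalized Q → ∀ χ : MulAut ↥Q, χ ∈ N.autGroup Q → (∀ a : ↥Q, (χ a⁻¹) * a * (χ a⁻¹) * (χ (χ a)) = 1) → χ ∈ ((Cfsg.pCore p ↥(N.autGroup Q)).map (N.autGroup Q).subtype : Subgroup (MulAut ↥Q))) := by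
  constructor
  · intro hF' R hR _ N hN Q hQ χ hχ hquad
    have hQN : Q ≤ normalizerIn S R := hQ.1
    have hQS : Q ≤ S := hQN.trans inf_le_left
    have hχF : χ ∈ F.autGroup Q := normalizerSystem_autGroup_le hN hQN hχ
    obtain ⟨Q', hconj, hQ'⟩ := exists_fullyNormalized F hQS
    obtain ⟨e, he⟩ := (isConj_iff_exists_iso F).1 hconj
    have h1 : MulAut.congr e χ ∈
        (pCore p ↥(F.autGroup Q')).map (F.autGroup Q').subtype := by
      refine hF' Q' hQ' _ (autCongr_mem F he hχF) fun a => ?_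
      rw [quadratic_iff]
      have h0 := (quadratic_iff χ (e.symm a)).1 (hquad (e.symm a))
      simp only [autCongr_apply, map_mul, map_inv, MulEquiv.symm_apply_apply] at h0 ⊢
      rw [← map_inv e (χ (e.symm a)), ← map_mul, h0, map_mul, map_inv, MulEquiv.apply_symm_apply]
    have h2 := mem_pCore_autGroup_congr F he.symm h1
    rw [show MulAut.congr e.symm (MulAut.congr e χ) = χ from by ext a; simp] at h2
    exact mem_pCore_map_of_le (normalizerSystem_autGroup_le hN hQN) hχ h2
  · intro hN' Q hQ χ hχ hquad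
    have hQp : IsPGroup p Q := hS.to_le hQ.1
    have : Finite Q := finite_of_le ‹_› hQ.1
    by_cases hc : IsCyclic Q
    · exact mem_pCore_of_comm (fun a _ b _ => mulAut_comm_of_isCyclic a b) hχ
        (isPGroup_zpowers_of_quadratic hQp hquad)
    · have hN := normSys_spec F Q hQ.1
      have hself := normalizerSystem_autGroup_self hN hQ.1
      rw [← hself]
      refine hN' Q hQ hc _ hN Q ⟨le_normalizerIn hQ.1, fun R hR => ?_⟩ χ (hself.symm ▸ hχ) hquad
      obtain ⟨φ, hφ, hr⟩ := hR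
      obtain ⟨ψ, -, hψP, hψQ⟩ := hφ.2.2.2
      have : R = Q := by
        rw [← hr]
        ext y
        constructor
        · rintro ⟨x, rfl⟩
          rw [← hψP x]
          exact apply_mem_of_map_eq hψQ x.2
        · intro hy
          obtain ⟨x, hx, rfl⟩ := exists_of_map_eq hψQ hy
          exact ⟨⟨x, hx⟩, (hψP ⟨x, hx⟩).symm.trans (congrArg ψ (Subtype.ext rfl))⟩
      rw [this]

end Cfsg.Agent.S5247
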