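import Cfsg.Statements.S5251
import Cfsg.Agent.FusionSys.Centric
import Cfsg.Agent.FusionAlperin.Normal
import Cfsg.Agent.FusionAlperin.Gen
import Cfsg.Agent.FusionAux.SeriesStab
import Cfsg.Agent.FusionAux.Quadratic

set_option autoImplicit false
open Cfsg

namespace Cfsg.Agent.S5251

open Cfsg.Agent.FusionSys Cfsg.FusionSystem
open scoped Pointwise

/-- Radicality is invariant under conjugation in the system. -/
theorem isRadical_of_iso {Ω : Type*} [Group Ω] {S : Subgroup Ω} {F : Cfsg.FusionSystem S} {p : ℕ}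
    {P R : Subgroup Ω} {e : P ≃* R} (he : IsIso F e) (hrad : F.IsRadical p P) :
    ∀ α ∈ (Cfsg.pCore p ↥(F.autGroup R)).map (F.autGroup R).subtype, α ∈ Inn R := by
  intro α hα
  have h := hrad.2.le (FusionAux.mem_pCore_autGroup_congr F he.symm hα)
  obtain ⟨r, hr⟩ := h
  refine ⟨e r, MulEquiv.ext fun y => ?_⟩
  obtain ⟨x, rfl⟩ := e.surjective y
  have h2 := congrArg (fun f : MulAut P => e (f x)) hr
  simp only [autCongr_apply, MulEquiv.symm_symm, MulEquiv.apply_symm_apply, MulAut.conj_apply,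
    map_mul, map_inv] at h2
  simpa using h2

/-- Let F be a saturated fusion system over a finite p-group S, E a normal subsystem of F over T, and P an F-centric subgroup of S such that P ∩ T is not E-centric. Then some F-conjugate P* of P satisfies Out_S(P*) ∩ O_p(Out_F(P*)) ≠ 1: there is an element of N_S(P*) outside P* whose conjugation action on P* lies in O_p(Aut_F(P*)). In particular P is not both centric and radical in F. -/
theorem result {Ω : Type*} [Group Ω] {S : Subgroup Ω} [Finite S] (p : ℕ) [Fact p.Prime] (hS : IsPGroup p S) (F : Cfsg.FusionSystem S) (hF : F.IsSaturated p) {T : Subgroup Ω} (E : Cfsg.FusionSystem T) (hE : E.IsNormalIn F p) (P : Subgroup Ω) (hP : F.IsCentric P) (hPT : ¬ E.IsCentric (P ⊓ T)) : (∃ φ ∈ F.Hom P, ∃ x ∈ S ⊓ Subgroup.normalizer (φ.range : Set Ω), x ∉ φ.range ∧ ∃ α ∈ ((Cfsg.pCore p ↥(F.autGroup φ.range)).map (F.autGroup φ.range).subtype : Subgroup (MulAut ↥φ.range)), ∀ y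 : ↥φ.range, ((α y : ↥φ.range) : Ω) = x * (y : Ω) * x⁻¹) ∧ ¬ F.IsRadical p P := by
  have hTS : T ≤ S := hE.1.2.2.2.1.1
  have hsc : F.StronglyClosed T := hE.1.2.2.2.1
  have hEF : E.IsSubsystemOf F := hE.1.2.2.1
  set Q := P ⊓ T with hQdef
  have hQT : Q ≤ T := inf_le_right
  have hQS : Q ≤ S := hQT.trans hTS
  obtain ⟨Q', hQQ', g, hgC, hgQ'⟩ : ∃ Q', E.IsConj Q Q' ∧ ∃ g ∈ centralizerIn T Q', g ∉ Q' := by
    by_contra hcon
    push Not at hcon
    exact hPT ⟨hQT, fun Q' h g hg => hcon Q' h g hg⟩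
  obtain ⟨φ₀, hφ₀, hr₀⟩ := hQQ'
  have hQQ'F : F.IsConj Q Q' := ⟨φ₀, hEF Q hφ₀, hr₀⟩
  obtain ⟨R, hQR, hR⟩ := exists_fullyNormalized F hQS
  obtain ⟨θ, hθ, -, hθm⟩ := exists_normalizer_map_fullyNormalized hS hF hR hQR
  obtain ⟨θ', hθ', -, hθm'⟩ :=
    exists_normalizer_map_fullyNormalized hS hF hR (isConj_trans (isConj_symm hQQ'F) hQR)
  have hPN : P ≤ normalizerIn S Q := fun x hx => ⟨hP.1 hx, Subgroup.mem_normalizer_iff.2 fun y => by
    have key : ∀ u ∈ P, ∀ w ∈ Q, u * w * u⁻¹ ∈ Q := fun u hu w hw =>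
      ⟨P.mul_mem (P.mul_mem hu hw.1) (P.inv_mem hu),
        FusionAlperin.sc_map_mem hsc (F.conj_mem hTS (hP.1 hu)) (x := ⟨w, hw.2⟩) hw.2⟩
    exact ⟨key x hx y, fun h => by simpa [mul_assoc] using key x⁻¹ (P.inv_mem hx) _ h⟩⟩
  set φ := restr hPN θ with hφdef
  have hφ : φ ∈ F.Hom P := restr_mem F hPN hθ
  set P' := φ.range with hP'
  have hP'S : P' ≤ S := range_le_S F hφ
  have hinter : ∀ y, y ∈ P' → (y ∈ T ↔ y ∈ R) := by
    rintro _ ⟨x, rfl⟩
    constructor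
    · intro h
      have hxT : (x : Ω) ∈ T := (FusionAlperin.sc_map_mem_iff hsc hφ x).1 h
      exact hθm.le ((mem_map_subgroupOf θ).2 ⟨Subgroup.inclusion hPN x, ⟨x.2, hxT⟩, rfl⟩)
    · intro h
      obtain ⟨w, hw, hwx⟩ := (mem_map_subgroupOf θ).1 (hθm.ge h)
      have : w = Subgroup.inclusion hPN x := F.injective_of_mem hθ hwx
      subst this
      exact FusionAlperin.sc_map_mem hsc hφ (x := x) hw.2
  have hRP' : R ≤ P' := fun y hy => by
    obtain ⟨w, hw, rfl⟩ := (mem_map_subgroupOf θ).1 (hθm.ge hy)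
    exact ⟨⟨w, hw.1⟩, rfl⟩
  have hRT : R ≤ T := fun y hy => (hinter y (hRP' hy)).2 hy
  -- the image of `g`
  have hgS : g ∈ centralizerIn S Q' := ⟨hTS hgC.1, hgC.2⟩
  set c := θ' ⟨g, centralizerIn_le_normalizerIn Q' hgS⟩ with hcdef
  have hQ'N : Q' ≤ normalizerIn S Q' := le_normalizerIn (hr₀ ▸ range_le_S F (hEF Q hφ₀))
  have hcC : c ∈ centralizerIn S R :=
    ⟨map_mem_S F hθ' _, map_mem_centralizer hQ'N hθm' (mem_centralizerIn.1 hgS).2⟩
  have hcT : c ∈ T :=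
    FusionAlperin.sc_map_mem hsc hθ' (x := ⟨g, centralizerIn_le_normalizerIn Q' hgS⟩) hgC.1
  have hcR : c ∉ R := fun h => by
    obtain ⟨w, hw, hwc⟩ := (mem_map_subgroupOf θ').1 (hθm'.ge h)
    have := congrArg Subtype.val (F.injective_of_mem hθ' hwc)
    simp only at this
    exact hgQ' (this ▸ hw)
  have hcP' : c ∉ P' := fun h => hcR ((hinter c h).1 hcT)
  -- an element outside `P'` normalizing it
  set C := T ⊓ centralizerIn S R with hC
  have hnT : ∀ y ∈ S, ∀ w ∈ T, y * w * y⁻¹ ∈ T := fun y hy w hw =>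
    FusionAlperin.sc_map_mem hsc (F.conj_mem hTS hy) (x := ⟨w, hw⟩) hw
  have hP'R : ∀ y ∈ P', ∀ w ∈ R, y * w * y⁻¹ ∈ R := fun y hy w hw =>
    (hinter _ (P'.mul_mem (P'.mul_mem hy (hRP' hw)) (P'.inv_mem hy))).1
      (hnT y (hP'S hy) w (hRT hw))
  have hP'C : ∀ y ∈ P', ∀ w ∈ C, y * w * y⁻¹ ∈ C := by
    intro y hy w hw
    refine ⟨hnT y (hP'S hy) w hw.1, mem_centralizerIn.2
      ⟨S.mul_mem (S.mul_mem (hP'S hy) (hTS hw.1)) (S.inv_mem (hP'S hy)), fun r hr => ?_⟩⟩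
    have h := (mem_centralizerIn.1 hw.2).2 (y⁻¹ * r * y) (by
      simpa using hP'R y⁻¹ (P'.inv_mem hy) r hr)
    calc r * (y * w * y⁻¹) = y * ((y⁻¹ * r * y) * w) * y⁻¹ := by group
      _ = y * (w * (y⁻¹ * r * y)) * y⁻¹ := by rw [h]
      _ = y * w * y⁻¹ * r := by group
  have hle : P' ≤ Subgroup.normalizer (C : Set Ω) := fun y hy => Subgroup.mem_normalizer_iff.2
    fun w => ⟨hP'C y hy w, fun h => by simpa [mul_assoc] using hP'C y⁻¹ (P'.inv_mem hy) _ h⟩
  have hHS : P' ⊔ C ≤ S := sup_le hP'S (inf_le_left.trans hTS)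
  haveI : Finite ↥(P' ⊔ C) := finite_of_le ‹_› hHS
  have hlt : P' < P' ⊔ C := lt_of_le_of_ne le_sup_left fun e =>
    hcP' (e ▸ Subgroup.mem_sup_right (⟨hcT, hcC⟩ : c ∈ C))
  obtain ⟨x, ⟨hxH, hxN⟩, hxP'⟩ := SetLike.exists_of_lt (lt_normalizerIn_of_lt (hS.to_le hHS) hlt)
  obtain ⟨q, hq, d, hd, rfl⟩ : ∃ q ∈ P', ∃ d ∈ C, q * d = x := by
    have : (↑(P' ⊔ C) : Set Ω) = (P' : Set Ω) * (C : Set Ω) :=
      Subgroup.coe_mul_of_left_le_normalizer_right P' C hle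
    have hxH' : x ∈ (↑(P' ⊔ C) : Set Ω) := hxH
    rw [this] at hxH'
    exact Set.mem_mul.1 hxH'
  have hdN : d ∈ Subgroup.normalizer (P' : Set Ω) := by
    simpa using mul_mem (inv_mem (Subgroup.le_normalizer hq)) hxN
  have hdP' : d ∉ P' := fun h => hxP' (P'.mul_mem hq h)
  have hdS : d ∈ S := hTS hd.1
  -- conjugation by `d` stabilizes `1 ≤ R ≤ P'`
  haveI : Finite P' := finite_of_le ‹_› hP'S
  let D : ℕ → Subgroup Ω := fun i => if i = 0 then ⊥ else if i = 1 then R else P'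
  have hinv : ∀ i ≤ 2, ∀ a ∈ F.autGroup P', ∀ y : P', (y : Ω) ∈ D i → ((a y : P') : Ω) ∈ D i := by
    intro i hi a ha y hy
    interval_cases i
    · simp only [D, ↓reduceIte, Subgroup.mem_bot, OneMemClass.coe_eq_one] at hy ⊢
      simp [hy]
    · simp only [D, one_ne_zero, ↓reduceIte] at hy ⊢
      exact (hinter _ (a y).2).1 (FusionAlperin.sc_map_mem hsc (autGroup_mem_hom F hP'S ha)
        (x := y) (hRT hy))
    · exact (a y).2
  haveI := FusionAux.seriesStab_normal F P' D 2 hinv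
  have hM : IsPGroup p (FusionAux.seriesStab F P' D 2 hinv) := by
    refine FusionAux.isPGroup_of_pow_eq_one _ fun a ha => ?_
    obtain ⟨e, he⟩ := FusionAux.exists_pow_fix_series (hS.to_le hP'S) (α := (a : MulAut P'))
      (fun i => (D i).subgroupOf P')
      (fun y hy => by
        have : y = 1 := Subtype.ext (by simpa [Subgroup.mem_subgroupOf, D] using hy)
        simp [this])
      2 (fun i hi => Subgroup.comap_mono (by interval_cases i <;> simp [D, hRP']))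
      (fun i hi y hy => by simpa [Subgroup.mem_subgroupOf] using ha i hi y hy) 2 le_rfl
    exact ⟨e, Subtype.ext (MulEquiv.ext fun y => he y y.2)⟩
  let α : F.autGroup P' := ⟨P'.normalizerMonoidHom ⟨d, hdN⟩,
    autInducedBy_le_autGroup F hP'S (mem_autInducedBy.2 ⟨d, hdS, fun _ => rfl⟩)⟩
  have hαM : α ∈ FusionAux.seriesStab F P' D 2 hinv := by
    intro i hi y hy
    show (y : Ω)⁻¹ * (d * y * d⁻¹) ∈ D i
    interval_cases i
    · simp only [D, zero_add, one_ne_zero, ↓reduceIte] at hy ⊢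
      rw [(mem_centralizerIn_iff_conj.1 hd.2).2 ⟨y, hy⟩]
      simp
    · simp only [D, one_ne_zero, ↓reduceIte]
      refine (hinter _ (P'.mul_mem (P'.inv_mem y.2)
        ((Subgroup.mem_normalizer_iff.1 hdN y).1 y.2))).1 ?_
      have := T.mul_mem (hnT (y : Ω)⁻¹ (S.inv_mem (hP'S y.2)) d hd.1) (T.inv_mem hd.1)
      simpa [mul_assoc] using this
  have hα : (α : MulAut P') ∈ (Cfsg.pCore p ↥(F.autGroup P')).map (F.autGroup P').subtype :=
    Subgroup.mem_map_of_mem _ (Cores.le_pCore inferInstance hM hαM)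
  refine ⟨⟨φ, hφ, d, ⟨hdS, hdN⟩, hdP', α, hα, fun y => rfl⟩, fun hrad => hdP' ?_⟩
  obtain ⟨r, hr⟩ := isRadical_of_iso (toIso_isIso F hφ rfl) hrad _ hα
  have hcen : (r : Ω)⁻¹ * d ∈ centralizerIn S P' := by
    refine mem_centralizerIn_iff_conj.2 ⟨S.mul_mem (S.inv_mem (hP'S r.2)) hdS, fun y => ?_⟩
    have h : (r : Ω) * y * (r : Ω)⁻¹ = d * y * d⁻¹ :=
      congrArg (fun f : MulAut P' => (f y : Ω)) hr
    calc (r : Ω)⁻¹ * d * y * ((r : Ω)⁻¹ * d)⁻¹ = (r : Ω)⁻¹ * (d * y * d⁻¹) * r := by group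
      _ = y := by rw [← h]; group
  have := P'.mul_mem r.2 (centralizerIn_self_centric (isCentric_of_isConj hP ⟨φ, hφ, rfl⟩) hcen)
  simpa using this

end Cfsg.Agent.S5251
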