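import Cfsg.Statements.S5255
import Cfsg.Agent.FusionAux.ModStronglyClosed

set_option autoImplicit false
open Cfsg Cfsg.FusionSystem Cfsg.Agent.FusionSys Cfsg.Agent.FusionAlperin Cfsg.Agent.FusionAux

namespace Cfsg.Agent.S5255

/-- Let F be a saturated fusion system over a finite p-group S and T a subgroup of S strongly closed in F. Then T·C_S(T) is strongly closed in F. -/
theorem result {Ω : Type*} [Group Ω] {S : Subgroup Ω} [Finite S] (p : ℕ) [Fact p.Prime] (hS : IsPGroup p S) (F : Cfsg.FusionSystem S) (hF : F.IsSaturated p) (T : Subgroup Ω) (hT : F.StronglyClosed T) : F.StronglyClosed (T ⊔ Cfsg.FusionSystem.centralizerIn S T) := by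
  refine ⟨sup_le hT.1 inf_le_left, fun R hR φ hφ x => ?_⟩
  have hC : centralizerIn S T ≤ Subgroup.normalizer (T : Set Ω) :=
    inf_le_left.trans (sc_le_normalizer hT)
  have hx := hR x.2
  rw [sup_comm, ← SetLike.mem_coe, Subgroup.coe_mul_of_left_le_normalizer_right _ _ hC] at hx
  obtain ⟨c, hc, t, ht, hxe⟩ := hx
  obtain ⟨ψ, hψ, hψc⟩ := exists_extend_mod hS hF hT R φ.range (toIso F hφ rfl) (toIso_isIso F hφ rfl)
  have hcR : c ∈ R ⊔ T := by
    have := (R ⊔ T).mul_mem (Subgroup.mem_sup_left x.2 : (x : Ω) ∈ R ⊔ T)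
      (Subgroup.mem_sup_right (T.inv_mem ht))
    rwa [← hxe, mul_inv_cancel_right] at this
  have h1 : ψ ⟨c, hcR⟩ ∈ centralizerIn S T := by
    refine ⟨map_mem_S F hψ _, fun u hu => ?_⟩
    obtain ⟨v, hv, rfl⟩ := sc_exists_preimage hT hψ le_sup_right hu
    rw [← map_mul, ← map_mul]
    exact congrArg ψ (Subtype.ext (hc.2 v hv))
  have h2 : ψ ⟨t, Subgroup.mem_sup_right ht⟩ ∈ T := sc_map_mem hT hψ ht
  have h3 := hψc x
  have e : Subgroup.inclusion le_sup_left x = (⟨c, hcR⟩ : ↥(R ⊔ T)) * ⟨t, Subgroup.mem_sup_right ht⟩ :=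
    Subtype.ext hxe.symm
  rw [e, map_mul, toIso_coe] at h3
  have h4 : ψ ⟨c, hcR⟩ * ψ ⟨t, Subgroup.mem_sup_right ht⟩ ∈ T ⊔ centralizerIn S T :=
    mul_mem (Subgroup.mem_sup_right h1) (Subgroup.mem_sup_left h2)
  have h5 := mul_mem h4 (Subgroup.mem_sup_left (S := T) (T := centralizerIn S T) (T.inv_mem h3))
  simpa [mul_assoc] using h5

end Cfsg.Agent.S5255
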