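import Cfsg.Statements.S5276
import Cfsg.Agent.FusionAux.Tate
import Cfsg.Agent.FusionAux.NormSys
-- import your own Cfsg.Agent.* helpers here

set_option autoImplicit false
open Cfsg

namespace Cfsg.Agent.S5276

open Cfsg.FusionSystem Cfsg.Agent.FusionSys Cfsg.Agent.FusionAux
open scoped commutatorElement

/-- Let p be a prime and F a saturated fusion system over a finite p-group S. Then F is the inner fusion system of S if and only if the normalizer fusion system of S itself in F is the inner fusion system (equivalently, Aut_F(S) is induced by S) and the Frattini subgroup Φ(S) is strongly closed in F. -/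
theorem result {Ω : Type*} [Group Ω] {S : Subgroup Ω} [Finite S] (p : ℕ) [Fact p.Prime] (hS : IsPGroup p ↥S) (F : Cfsg.FusionSystem S) (hF : F.IsSaturated p) : (∀ P : Subgroup Ω, F.Hom P = (Cfsg.innerFusionSystem S).Hom P) ↔ (∀ N : Cfsg.FusionSystem (Cfsg.FusionSystem.normalizerIn S S), F.IsNormalizerSystem S N → ∀ P : Subgroup Ω, N.Hom P = (Cfsg.innerFusionSystem (Cfsg.FusionSystem.normalizerIn S S)).Hom P) ∧ F.StronglyClosed ((frattini ↥S).map S.subtype) := by
  have hn : normalizerIn S S = S := le_antisymm inf_le_left (le_inf le_rfl Subgroup.le_normalizer)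
  have hdΦ : ⁅S, S⁆ ≤ (frattini ↥S).map S.subtype := by
    rw [← Subgroup.map_subtype_commutator]
    exact Subgroup.map_mono (PGroup.commutator_le_frattini hS)
  constructor
  · intro h
    refine ⟨fun N hN P => Set.Subset.antisymm (fun φ hφ => ?_) (innerFusionSystem_le N P), ?_⟩
    · have h1 := normalizerSystem_hom hN hφ
      rw [h P] at h1
      obtain ⟨hP, g, hg, hge⟩ := h1
      exact ⟨hP.trans hn.ge, g, hn.ge hg, hge⟩
    · refine ⟨(Subgroup.map_subtype_le _), fun P hP φ hφ x => ?_⟩
      rw [h P] at hφ
      obtain ⟨-, g, hg, hge⟩ := hφ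
      have hx := hP x.2
      have h1 := ((frattini ↥S).map S.subtype).mul_mem hx (hdΦ (Subgroup.commutator_mem_commutator
        (S.inv_mem (Subgroup.map_subtype_le _ hx)) hg))
      rw [hge]
      simpa [commutatorElement_def, mul_assoc] using h1
  · rintro ⟨hN, hsc⟩ P
    have hinn : ∀ α ∈ F.autGroup S, ∃ g ∈ S, ∀ x : S, (α x : Ω) = g * x * g⁻¹ := by
      intro α hα
      have hNS := normSys_spec F S le_rfl
      have h1 : α ∈ (normSys F S le_rfl).autGroup S :=
        (normalizerSystem_autGroup_self hNS le_rfl).symm ▸ hα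
      have h2 := autGroup_mem_hom (normSys F S le_rfl) hn.ge h1
      rw [hN _ hNS S] at h2
      obtain ⟨-, g, hg, hge⟩ := h2
      exact ⟨g, inf_le_left (a := S) hg, fun x => hge x⟩
    rw [inner_of_sc_le_frattini hS hF hsc hdΦ le_rfl hinn]

end Cfsg.Agent.S5276
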