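import Cfsg.Statements.S5278
import Cfsg.Agent.FFTorus.Fusion
import Cfsg.Agent.FusionAux.NormSys

set_option autoImplicit false
open Cfsg

namespace Cfsg.Agent.S5278

open Cfsg.Agent.FFTorus (im)

/-- Let p be an odd prime, F a saturated fusion system over a finite p-group S, and T a subgroup of Z(S) such that the normalizer fusion system of J(S) in F is contained in the normalizer fusion system of T, J(S) being the subgroup generated by the abelian subgroups of S of largest order. Then either T is weakly closed in F, or Aut_F(T) has a nontrivial cyclic subgroup X of order prime to p that permutes transitively the non-identity elements of the commutator [T, X] (the subgroup of T generated by the elements ψ(t)·t⁻¹ with ψ in X and t in T). -/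
theorem result {Ω : Type*} [Group Ω] {S : Subgroup Ω} [Finite S] (p : ℕ) [Fact p.Prime] (hS : IsPGroup p ↥S) (F : Cfsg.FusionSystem S) (hF : F.IsSaturated p) (hp : p ≠ 2) (T : Subgroup Ω) (hT : T ≤ S ⊓ Subgroup.centralizer (S : Set Ω)) (hJT : ∀ NJ : Cfsg.FusionSystem (Cfsg.FusionSystem.normalizerIn S (Cfsg.thompsonSubgroupAOf S)), F.IsNormalizerSystem (Cfsg.thompsonSubgroupAOf S) NJ → ∀ NT : Cfsg.FusionSystem (Cfsg.FusionSystem.normalizerIn S T), F.IsNormalizerSystem T NT → NJ.IsSubsystemOf NT) : F.WeaklyClosed T ∨ ∃ X : Subgroup (MulAut ↥T), X ≤ F.autGroup T ∧ X ≠ ⊥ ∧ IsCyclic ↥X ∧ (Nat.card ↥X).Coprime p ∧ ∀ a b : ↥T, a ∈ Subgroup.closure {y : ↥T | ∃ ψ ∈ X, ∃ t : ↥T, y = ψ t * t⁻¹} → b ∈ Subgroup.closure {y : ↥T | ∃ ψ ∈ X, ∃ t : ↥T, y = ψ t * t⁻¹} → a ≠ 1 → b ≠ 1 → ∃ ψ ∈ X, ψ a = b := by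
  set J := thompsonSubgroupAOf S with hJdef
  have hJS : J ≤ S := Modules.thompsonSubgroupAOf_le S
  have hTS : T ≤ S := hT.trans inf_le_left
  have hJ : ∀ φ ∈ F.Hom J, φ.range = J → im φ T = T := by
    intro φ hφ hr
    have hmem : φ ∈ (FusionAux.normSys F J hJS).Hom J := by
      refine ⟨hφ, FusionSys.le_normalizerIn hJS,
        fun x => FusionSys.le_normalizerIn hJS (hr.le ⟨x, rfl⟩),
        FusionSys.restr (le_of_eq (sup_idem J)) φ, FusionSys.restr_mem F _ hφ, fun x => rfl, ?_⟩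
      refine le_antisymm ?_ ?_
      · rintro _ ⟨x, -, rfl⟩
        exact hr.le ⟨_, rfl⟩
      · intro y hy
        obtain ⟨x, rfl⟩ := hr.ge hy
        exact ⟨Subgroup.inclusion le_sup_left x, x.2, rfl⟩
    obtain ⟨-, -, -, ψ, hψ, hψe, hψT⟩ :=
      hJT _ (FusionAux.normSys_spec F J hJS) _ (FusionAux.normSys_spec F T hTS) J hmem
    have hTJ : T ≤ J := FFTorus.le_thompson_of_central hTS fun t ht x hx => ((hT ht).2 x hx).symm
    refine Eq.trans ?_ hψT
    ext y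
    rw [FFTorus.mem_im, FusionSys.mem_map_subgroupOf]
    constructor
    · rintro ⟨x, hx, rfl⟩
      exact ⟨Subgroup.inclusion le_sup_left x, hx, hψe x⟩
    · rintro ⟨x, hx, rfl⟩
      exact ⟨⟨x, hTJ hx⟩, hx, (hψe ⟨x, hTJ hx⟩).symm⟩
  rcases FFTorus.dichotomy hp hS hF hT hJ with h | ⟨ψ, hψ, ⟨n, hn, hn1⟩, hne, htr⟩
  · exact Or.inl h
  refine Or.inr ⟨Subgroup.zpowers ψ, Subgroup.zpowers_le.2 hψ, Subgroup.zpowers_ne_bot.2 hne,
    inferInstance, ?_, fun a b ha hb ha1 hb1 => ?_⟩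
  · rw [Nat.card_zpowers]
    exact Nat.Coprime.coprime_dvd_left (orderOf_dvd_of_pow_eq_one hn1) hn
  have hmem : ∀ a : ↥T, a ∈ Subgroup.closure {y : ↥T | ∃ χ ∈ Subgroup.zpowers ψ, ∃ t : ↥T, y = χ t * t⁻¹} →
      a ∈ Subgroup.closure {y : ↥T | ∃ t : ↥T, y = ψ t * t⁻¹} := by
    intro a ha
    refine (Subgroup.closure_le _).2 ?_ ha
    rintro y ⟨χ, hχ, t, rfl⟩
    haveI : Finite ↥T := FFTorus.finite_of_le hTS
    obtain ⟨k, rfl⟩ := mem_powers_iff_mem_zpowers.2 hχ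
    induction k generalizing t with
    | zero => simp
    | succ k ih =>
      show (ψ ^ (k + 1)) t * t⁻¹ ∈ _
      rw [pow_succ', MulAut.mul_apply, show ψ ((ψ ^ k) t) * t⁻¹ =
        ψ ((ψ ^ k) t) * ((ψ ^ k) t)⁻¹ * ((ψ ^ k) t * t⁻¹) by simp [mul_assoc]]
      exact mul_mem (Subgroup.subset_closure ⟨(ψ ^ k) t, rfl⟩) (ih t (Subgroup.npow_mem_zpowers ψ k))
  obtain ⟨k, hk⟩ := htr a b (hmem a ha) (hmem b hb) ha1 hb1
  exact ⟨ψ ^ k, Subgroup.npow_mem_zpowers ψ k, hk⟩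

end Cfsg.Agent.S5278
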