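import Cfsg.Statements.S5281
import Cfsg.Agent.Tech.CentricRadicalReach
import Cfsg.Agent.FusionAux.Quadratic

set_option autoImplicit false
open Cfsg Cfsg.FusionSystem Cfsg.Agent.FusionSys Cfsg.Agent.FusionAux

namespace Cfsg.Agent.S5281

theorem quad_congr {G H : Type*} [Group G] [Group H] (e : G ≃* H) {χ : MulAut G}
    (hq : ∀ a : G, χ a⁻¹ * a * χ a⁻¹ * χ (χ a) = 1) (a : H) :
    MulAut.congr e χ a⁻¹ * a * MulAut.congr e χ a⁻¹ * MulAut.congr e χ (MulAut.congr e χ a) = 1 := by
  have hv : ∀ b : H, MulAut.congr e χ b = e (χ (e.symm b)) := fun b => rfl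
  simp only [hv, MulEquiv.symm_apply_apply]
  obtain ⟨b, rfl⟩ := e.surjective a
  simp only [← map_inv e, MulEquiv.symm_apply_apply, ← map_mul e, hq b, map_one]

/-- Let p be an odd prime and F a saturated fusion system over a finite p-group S. Call a fusion system E (over any subgroup) p-stable when, for every fully E-normalized subgroup Q and every χ in Aut_E(Q) with χ(a⁻¹)·a·χ(a⁻¹)·χ(χ(a)) = 1 for all a in Q (χ acts quadratically), χ lies in O_p(Aut_E(Q)). Then F is p-stable if and only if the normalizer fusion system of R in F is p-stable for every fully F-normalized, F-centric, F-radical subgroup R of S. -/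
theorem result {Ω : Type*} [Group Ω] {S : Subgroup Ω} [Finite S] (p : ℕ) [Fact p.Prime] (hS : IsPGroup p ↥S) (F : Cfsg.FusionSystem S) (hF : F.IsSaturated p) (hp : p ≠ 2) : (∀ Q : Subgroup Ω, F.IsFullyNormalized Q → ∀ χ : MulAut ↥Q, χ ∈ F.autGroup Q → (∀ a : ↥Q, (χ a⁻¹) * a * (χ a⁻¹) * (χ (χ a)) = 1) → χ ∈ ((Cfsg.pCore p ↥(F.autGroup Q)).map (F.autGroup Q).subtype : Subgroup (MulAut ↥Q))) ↔ ∀ R : Subgroup Ω, F.IsFullyNormalized R → F.IsCentric R → F.IsRadical p R → ∀ N : Cfsg.FusionSystem (Cfsg.FusionSystem.normalizerIn S R), F.IsNormalizerSystem R N → (∀ Q : Subgroup Ω, N.IsFullyNormalized Q → ∀ χ : MulAut ↥Q, χ ∈ N.autGroup Q → (∀ a : ↥Q, (χ a⁻¹) * a * (χ a⁻¹) * (χ (χ a)) = 1) → χ ∈ ((Cfsg.pCore p ↥(N.autGroup Q)).map (N.autGroup Q).subtype : Subgroup (MulAut ↥Q))) := by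
  constructor
  · intro hF' R hR _ _ N hN Q hQ χ hχ hquad
    have hQN : Q ≤ normalizerIn S R := hQ.1
    have hQS : Q ≤ S := hQN.trans inf_le_left
    obtain ⟨Q', hconj, hQ'⟩ := exists_fullyNormalized F hQS
    obtain ⟨e, he⟩ := (isConj_iff_exists_iso F).1 hconj
    have hχF : χ ∈ F.autGroup Q := normalizerSystem_autGroup_le hN hQN hχ
    have h2 := mem_pCore_autGroup_congr F he.symm
      (hF' Q' hQ' _ (autCongr_mem F he hχF) (quad_congr e hquad))
    rw [show MulAut.congr e.symm (MulAut.congr e χ) = χ from by ext a; simp] at h2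
    exact mem_pCore_map_of_le (normalizerSystem_autGroup_le hN hQN) hχ h2
  · intro hN' Q hQ χ hχ hquad
    obtain ⟨Q', R, hconj, hR, hRc, hRr, hreach⟩ :=
      Tech.exists_centricRadical_autReach hS hF (saturated_fullyNormalized hS hF hQ).1
    obtain ⟨e, he⟩ := (isConj_iff_exists_iso F).1 hconj
    have hN := normSys_spec F R hR.1
    have heq := Tech.autReach_autGroup_eq hreach hN
    have : Finite (normalizerIn S R) := finite_of_le ‹_› (normalizerIn_le R)
    obtain ⟨Q₃, hconj₃, hQ₃⟩ := exists_fullyNormalized (normSys F R hR.1) hreach.2.1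
    obtain ⟨e₃, he₃⟩ := (isConj_iff_exists_iso (normSys F R hR.1)).1 hconj₃
    have hχ' : MulAut.congr e χ ∈ (normSys F R hR.1).autGroup Q' :=
      heq.symm ▸ autCongr_mem F he hχ
    have h3 := mem_pCore_autGroup_congr (normSys F R hR.1) he₃.symm
      (hN' R hR hRc hRr _ hN Q₃ hQ₃ _ (autCongr_mem _ he₃ hχ')
        (quad_congr e₃ (quad_congr e hquad)))
    rw [show MulAut.congr e₃.symm (MulAut.congr e₃ (MulAut.congr e χ)) = MulAut.congr e χ from by
      ext a; simp, heq] at h3
    have h4 := mem_pCore_autGroup_congr F he.symm h3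
    rwa [show MulAut.congr e.symm (MulAut.congr e χ) = χ from by ext a; simp] at h4

end Cfsg.Agent.S5281
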