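import Cfsg.Statements.S5290
import Cfsg.Agent.FusionBatch.Basic

set_option autoImplicit false
set_option maxHeartbeats 1000000
open Cfsg
open Cfsg.FusionSystem Cfsg.Agent.FusionSys Cfsg.Agent.FusionBatch

namespace Cfsg.Agent.S5290

/-- Let F be a saturated fusion system over a finite p-group S and Q a subgroup of S. Then Q is normal in F (F = N_F(Q)) if and only if the inner fusion system of Q, consisting of the conjugations by elements of Q on subgroups of Q, is a weakly normal subsystem of F (both saturated, Q strongly closed, invariant under F-conjugation, with the Frattini property). -/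
theorem result {Ω : Type*} [Group Ω] {S : Subgroup Ω} [Finite S] (p : ℕ) [Fact p.Prime] (hS : IsPGroup p S)
    (F : Cfsg.FusionSystem S) (hF : F.IsSaturated p)
    (Q : Subgroup Ω) (hQ : Q ≤ S) :
    F.IsNormal Q ↔ (Cfsg.innerFusionSystem Q).IsWeaklyNormalIn F p := by
  haveI : Finite ↥Q := finite_of_le inferInstance hQ
  constructor
  · intro hN
    refine ⟨inner_saturated hS hQ, hF, fun P φ ⟨hP, g, hg, h⟩ =>
        conj_mem' F (hP.trans hQ) (hQ hg) h,
      Cfsg.Agent.FusionAlperin.isNormal_stronglyClosed hN, ?_, ?_⟩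
    · rintro P hPT φ ⟨-, g, hg, h⟩ α -
      refine ⟨conjHom _ ((α ⟨g, hg⟩ : ↥Q) : Ω), ⟨?_, _, (α ⟨g, hg⟩).2, fun _ => rfl⟩, fun x hφx hαx => ?_⟩
      · rintro _ ⟨y, -, rfl⟩
        exact (α y).2
      · rw [conjHom_apply, show (⟨φ x, hφx⟩ : ↥Q) = ⟨g, hg⟩ * ⟨x, hPT x.2⟩ * ⟨g, hg⟩⁻¹ from
          Subtype.ext (h x), map_mul, map_mul, map_inv]
        rfl
    · intro P hP φ hφ
      obtain ⟨ψ, hψ, h1, h2⟩ := hN.2 P φ hφ
      have hr : (restr (le_sup_right : Q ≤ P ⊔ Q) ψ).range = Q := by rw [range_restr, h2]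
      refine ⟨toIso F (restr_mem F le_sup_right hψ) hr, toIso_mem_autGroup F _ hr, P.subtype,
        ⟨hP, 1, Q.one_mem, fun x => by simp⟩, fun x hx => ?_⟩
      rw [toIso_coe, ← h1]
      rfl
  · rintro ⟨-, -, -, hsc, -, hfr⟩
    refine isNormal_of_sc_extends hS hF hsc fun P φ hP hφ => ?_
    obtain ⟨α, hα, φ₀, ⟨-, g, hg, h0⟩, h⟩ := hfr P hP φ hφ
    refine ⟨α * MulAut.conj (⟨g, hg⟩ : ↥Q),
      Subgroup.mul_mem _ hα (inn_le_autGroup F hQ ⟨⟨g, hg⟩, rfl⟩), fun x hx => ?_⟩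
    rw [h x (h0 x ▸ Q.mul_mem (Q.mul_mem hg hx) (Q.inv_mem hg)), MulAut.mul_apply]
    exact congrArg (fun y : ↥Q => ((α y : ↥Q) : Ω)) (Subtype.ext (h0 x))

end Cfsg.Agent.S5290
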