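import Cfsg.Statements.S5291
import Cfsg.Agent.FusionBatch.Basic

set_option autoImplicit false
set_option maxHeartbeats 1000000
open Cfsg
open Cfsg.FusionSystem Cfsg.Agent.FusionSys Cfsg.Agent.FusionBatch

namespace Cfsg.Agent.S5291

section helpers

variable {Ω : Type*} [Group Ω] {S T : Subgroup Ω}

/-- Image of a subgroup under an automorphism of `T`. -/
def img (α : MulAut T) (P : Subgroup Ω) : Subgroup Ω :=
  (P.subgroupOf T).map (T.subtype.comp α.toMonoidHom)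

theorem mem_img {α : MulAut T} {P : Subgroup Ω} {y : Ω} :
    y ∈ img α P ↔ ∃ x : T, (x : Ω) ∈ P ∧ (α x : Ω) = y := by
  simp [img, Subgroup.mem_map, Subgroup.mem_subgroupOf]

theorem img_le (α : MulAut T) (P : Subgroup Ω) : img α P ≤ T := by
  intro y hy
  obtain ⟨x, -, rfl⟩ := mem_img.1 hy
  exact (α x).2

theorem img_sup (α : MulAut T) {A B : Subgroup Ω} (hA : A ≤ T) (hB : B ≤ T) :
    img α (A ⊔ B) = img α A ⊔ img α B := by
  rw [img, Subgroup.subgroupOf_sup hA hB, Subgroup.map_sup, img, img]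

theorem aai (α : MulAut T) (x : T) : α (α⁻¹ x) = x := α.apply_symm_apply x

theorem img_inv (α : MulAut T) {P : Subgroup Ω} (hP : P ≤ T) : img α (img α⁻¹ P) = P := by
  ext y
  rw [mem_img]
  constructor
  · rintro ⟨x, hx, rfl⟩
    obtain ⟨z, hz, he⟩ := mem_img.1 hx
    have : x = α⁻¹ z := (Subtype.ext he).symm
    rw [this, aai]
    exact hz
  · intro hy
    exact ⟨α⁻¹ ⟨y, hP hy⟩, mem_img.2 ⟨⟨y, hP hy⟩, hy, rfl⟩, by rw [aai]⟩

/-- An automorphism carries a subgroup normal in the invariant system to a normal one. -/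
theorem normal_transport {F : FusionSystem S} {E : FusionSystem T} [Finite T]
    (hE : E.IsInvariantIn F) {R : Subgroup Ω} (hR : E.IsNormal R) {α : MulAut T}
    (hα : α ∈ F.autGroup T) : E.IsNormal (img α R) := by
  obtain ⟨-, -, hinv, -⟩ := hE
  refine ⟨img_le α R, fun P φ hφ => ?_⟩
  have hP := le_S E hφ
  obtain ⟨χ, hχ, hχe⟩ := hinv P hP φ hφ α⁻¹ (inv_mem hα)
  obtain ⟨ψ, hψ, hψ1, hψ2⟩ := hR.2 _ χ hχ
  have hle : img α⁻¹ P ⊔ R ≤ T := sup_le (img_le _ P) hR.1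
  obtain ⟨ψ', hψ', hψ'e⟩ := hinv _ hle ψ hψ α hα
  change ψ' ∈ E.Hom (img α (img α⁻¹ P ⊔ R)) at hψ'
  have hsrc : P ⊔ img α R ≤ img α (img α⁻¹ P ⊔ R) := by
    rw [img_sup α (img_le _ P) hR.1, img_inv α hP]
  haveI : Finite (img α R) := finite_of_le inferInstance (img_le α R)
  have happ : ∀ (w : ↥(img α⁻¹ P ⊔ R)) (y : ↥(P ⊔ img α R)), ((α ⟨w, hle w.2⟩ : T) : Ω) = y →
      restr hsrc ψ' y = ((α ⟨ψ w, map_mem_S E hψ w⟩ : T) : Ω) := by
    intro w y hwy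
    refine (congrArg ψ' (Subtype.ext hwy.symm)).trans
      (hψ'e w (map_mem_S E hψ w) (mem_img.2 ⟨⟨w, hle w.2⟩, w.2, rfl⟩))
  refine ⟨restr hsrc ψ', restr_mem E hsrc hψ', fun x => ?_, ?_⟩
  · have hx : ((α⁻¹ ⟨x, hP x.2⟩ : T) : Ω) ∈ img α⁻¹ P := mem_img.2 ⟨_, x.2, rfl⟩
    rw [happ ⟨_, le_sup_left (b := R) hx⟩ (Subgroup.inclusion le_sup_left x)
      (congrArg Subtype.val (aai α (⟨x, hP x.2⟩ : T)))]
    have e1 : ψ ⟨_, le_sup_left (b := R) hx⟩ = ((α⁻¹ ⟨φ x, map_mem_S E hφ x⟩ : T) : Ω) :=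
      (hψ1 ⟨_, hx⟩).trans (hχe x (map_mem_S E hφ x) hx)
    refine (congrArg (fun y : T => ((α y : T) : Ω)) (Subtype.ext e1)).trans ?_
    show ((α (α⁻¹ _) : T) : Ω) = _
    rw [aai]
  · refine eq_of_le_of_card_le ?_ (le_of_eq ?_)
    · intro z hz
      obtain ⟨y, hy, rfl⟩ := (mem_map_subgroupOf _).1 hz
      obtain ⟨w, hw, hwe⟩ := mem_img.1 hy
      rw [happ ⟨w, le_sup_right (a := img α⁻¹ P) hw⟩ y hwe]
      exact mem_img.2 ⟨_, hψ2.le ((mem_map_subgroupOf _).2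
        ⟨⟨w, le_sup_right (a := img α⁻¹ P) hw⟩, hw, rfl⟩), rfl⟩
    · rw [← Nat.card_congr (Subgroup.equivMapOfInjective _ _
        (E.injective_of_mem (restr_mem E hsrc hψ'))).toEquiv,
        Nat.card_congr (Subgroup.subgroupOfEquivOfLe (le_sup_right : img α R ≤ P ⊔ img α R)).toEquiv]

theorem isNormal_closure [Finite S] {p : ℕ} [Fact p.Prime] (hS : IsPGroup p S) {F : FusionSystem S}
    (hF : F.IsSaturated p) (E : FusionSystem T) (hE : E.IsWeaklyNormalIn F p) (R : Subgroup Ω)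
    (hR : E.IsNormal R) :
    F.IsNormal (Subgroup.closure {x : Ω | ∃ φ ∈ F.Hom R, ∃ r : R, x = φ r}) := by
  obtain ⟨-, -, hinv⟩ := hE
  obtain ⟨hsub, hscT, -, hfr⟩ := id hinv
  haveI : Finite T := finite_of_le inferInstance hscT.1
  set X := Subgroup.closure {x : Ω | ∃ φ ∈ F.Hom R, ∃ r : R, x = φ r}
  have hTS := hscT.1
  have hsimg : ∀ φ ∈ F.Hom R, ∃ α ∈ F.autGroup T, ∀ r : R, φ r ∈ img α R := by
    intro φ hφ
    obtain ⟨α, hα, φ₀, hφ₀, h⟩ := hfr R hR.1 φ hφ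
    refine ⟨α, hα, fun r => mem_img.2 ⟨⟨φ₀ r, map_mem_S E hφ₀ r⟩, ?_, (h r _).symm⟩⟩
    obtain ⟨ψ, -, h1, h2⟩ := hR.2 R φ₀ hφ₀
    show φ₀ r ∈ R
    rw [← h1 r]
    exact h2.le ((mem_map_subgroupOf _).2 ⟨_, r.2, rfl⟩)
  have himgX : ∀ α ∈ F.autGroup T, img α R ≤ X := by
    intro α hα y hy
    obtain ⟨x, hx, rfl⟩ := mem_img.1 hy
    exact Subgroup.subset_closure ⟨_, restr_mem F hR.1 (autGroup_mem_hom F hTS hα), ⟨x, hx⟩, rfl⟩
  have hXT : X ≤ T := (Subgroup.closure_le T).2 (by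
    rintro _ ⟨φ, hφ, r, rfl⟩
    obtain ⟨α, -, h⟩ := hsimg φ hφ
    exact img_le α R (h r))
  let s : Set (Subgroup Ω) := {Y | E.IsNormal Y ∧ Y ≤ X}
  have hsX : sSup s = X := by
    refine le_antisymm (sSup_le fun Y hY => hY.2) ((Subgroup.closure_le _).2 ?_)
    rintro _ ⟨φ, hφ, r, rfl⟩
    obtain ⟨α, hα, h⟩ := hsimg φ hφ
    have h' : img α R ≤ sSup s := le_sSup ⟨normal_transport hinv hR hα, himgX α hα⟩
    exact h' (h r)
  have hXn : E.IsNormal X := hsX ▸ (Cfsg.Agent.FusionAlperin.sSup_mem_of_sup_closed (S := T) (s := s)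
    (fun Y hY => hY.1.1) ⟨Cfsg.Agent.FusionAlperin.isNormal_bot E, bot_le⟩
    (fun A hA B hB => ⟨Cfsg.Agent.FusionAlperin.isNormal_sup hA.1 hB.1, sup_le hA.2 hB.2⟩)).1
  have hXinv : ∀ α ∈ F.autGroup T, ∀ x : T, (x : Ω) ∈ X → (α x : Ω) ∈ X := by
    intro α hα x hx
    let K : Subgroup T := (X.subgroupOf T).comap α.toMonoidHom
    have : X ≤ K.map T.subtype := by
      refine (Subgroup.closure_le _).2 ?_
      rintro _ ⟨φ, hφ, r, rfl⟩
      obtain ⟨β, hβ, h⟩ := hsimg φ hφ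
      obtain ⟨w, hw, hwe⟩ := mem_img.1 (h r)
      refine ⟨β w, ?_, hwe⟩
      show ((α (β w) : T) : Ω) ∈ X
      exact himgX (α * β) (mul_mem hα hβ) (mem_img.2 ⟨w, hw, rfl⟩)
    obtain ⟨x', hx', he⟩ := this hx
    obtain rfl : x' = x := Subtype.ext he
    exact hx'
  have hXscE := Cfsg.Agent.FusionAlperin.isNormal_stronglyClosed hXn
  have hsc : F.StronglyClosed X := ⟨hXT.trans hTS, fun P hP φ hφ x => by
    obtain ⟨α, hα, φ₀, hφ₀, h⟩ := hfr P (hP.trans hXT) φ hφ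
    rw [h x (map_mem_S E hφ₀ x)]
    exact hXinv α hα _ (hXscE.2 P hP φ₀ hφ₀ x)⟩
  refine isNormal_of_sc_extends hS hF hsc fun P φ hP hφ => ?_
  obtain ⟨α, hα, φ₀, hφ₀, h⟩ := hfr P (hP.trans hXT) φ hφ
  obtain ⟨ψ₀, hψ₀, h1, h2⟩ := hXn.2 P φ₀ hφ₀
  have hr1 : (restr (le_sup_right : X ≤ P ⊔ X) ψ₀).range = X := by rw [range_restr, h2]
  have hm1 := restr_mem F (le_sup_right : X ≤ P ⊔ X) (hsub _ hψ₀)
  haveI : Finite X := finite_of_le inferInstance (hXT.trans hTS)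
  have hr2 : (restr hXT (T.subtype.comp α.toMonoidHom)).range = X :=
    range_eq_of_image_le (F.injective_of_mem (restr_mem F hXT (autGroup_mem_hom F hTS hα)))
      (by rintro _ ⟨x, rfl⟩; exact hXinv α hα _ x.2) le_rfl
  refine ⟨toIso F (restr_mem F hXT (autGroup_mem_hom F hTS hα)) hr2 * toIso F hm1 hr1,
    mul_mem (toIso_mem_autGroup F _ hr2) (toIso_mem_autGroup F _ hr1), fun x hx => ?_⟩
  rw [h x (map_mem_S E hφ₀ x), MulAut.mul_apply, toIso_coe]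
  refine congrArg (fun y : T => ((α y : T) : Ω)) (Subtype.ext ?_)
  show φ₀ x = ((toIso F hm1 hr1 ⟨x, hx⟩ : X) : Ω)
  rw [toIso_coe, ← h1 x]
  rfl

end helpers

/-- Let F be a saturated fusion system over a finite p-group S and E a weakly normal subsystem of F over a subgroup T. Suppose a subgroup R of T is normal in E (E = N_E(R)), and let R* be the subgroup of T generated by the images of R under all maps of F with source R. Then R* is normal in F (F = N_F(R*)). -/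
theorem result {Ω : Type*} [Group Ω] {S : Subgroup Ω} [Finite S] (p : ℕ) [Fact p.Prime] (hS : IsPGroup p S)
    (F : Cfsg.FusionSystem S) (hF : F.IsSaturated p)
    {T : Subgroup Ω} (E : Cfsg.FusionSystem T) (hE : E.IsWeaklyNormalIn F p)
    (R : Subgroup Ω) (hR : E.IsNormal R) :
    F.IsNormal (Subgroup.closure {x : Ω | ∃ φ ∈ F.Hom R, ∃ r : R, x = φ r}) := by
  exact isNormal_closure hS hF E hE R hR

end Cfsg.Agent.S5291
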