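import Cfsg.Statements.S5292
import Cfsg.Agent.Tech.SimpleRealized
import Cfsg.Agent.PSolv.HallHigman
import Cfsg.Agent.S5103
import Cfsg.Agent.FusionModel.Exists
import Cfsg.Agent.FusionBatch.CoreRadical
import Cfsg.Agent.FusionSys.Model

set_option autoImplicit false
set_option linter.style.haveILetI false
universe u
open Cfsg Cfsg.FusionSystem Cfsg.Agent.FusionSys

namespace Cfsg.Agent.S5292

theorem model_core_aut {Ω : Type u} [Group Ω] {S : Subgroup Ω} [Finite S] {p : ℕ} [Fact p.Prime]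
    (hS : IsPGroup p S) {F : FusionSystem S} (hF : F.IsConstrained p) {G : Type u} [Group G]
    {ι : S →* G} (hG : F.IsModel p G ι) :
    IsPSolvable p G ↔ IsPSolvable p ↥(F.autGroup F.core) := by
  obtain ⟨Q₀, hQ₀n, hQ₀c⟩ := hF.2
  have hQn := Cfsg.Agent.FusionAlperin.isNormal_core F
  have hQc := Cfsg.Agent.FusionBatch.core_isCentric hQ₀n hQ₀c
  obtain ⟨Q, hQ⟩ : ∃ Q, Q = F.core := ⟨_, rfl⟩
  rw [← hQ] at hQn hQc ⊢
  obtain ⟨hn, hcen⟩ := model_normal_centric hG hQn hQc
  obtain ⟨hfin, hR, -, -⟩ := hG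
  have := hn
  have hQS : Q ≤ S := hQn.1
  let e : Q ≃* img ι Q :=
    (Subgroup.subgroupOfEquivOfLe hQS).symm.trans (Subgroup.equivMapOfInjective _ ι hR.1)
  have he : ∀ x : Q, (e x : G) = ι ⟨x, hQS x.2⟩ := fun x => rfl
  let ρ : G →* MulAut Q := (MulAut.congr e.symm).toMonoidHom.comp MulAut.conjNormal
  have hρ : ∀ (g : G) (x : Q), ι ⟨(ρ g x : Q), hQS (ρ g x).2⟩ = g * ι ⟨x, hQS x.2⟩ * g⁻¹ := by
    intro g x
    rw [← he, ← he]
    have h1 : e (ρ g x) = MulAut.conjNormal g (e x) := e.apply_symm_apply _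
    rw [h1, MulAut.conjNormal_apply]
  have hmem : ∀ g, ρ g ∈ F.autGroup Q := by
    intro g
    obtain ⟨φ, hφ, hφe⟩ := exists_hom_of_conj hR hQS (g := g) fun y hy =>
      img_le_range Q (hn.conj_mem y hy g)
    refine (mem_autGroup F hQS).2 (mem_hom_congr F hφ fun x => ?_)
    exact congrArg (fun z : S => (z : Ω))
      (hR.1 ((hρ g x).trans (hφe x (map_mem_S F hφ x)).symm))
  have hsurj : Function.Surjective (ρ.codRestrict _ hmem) := by
    rintro ⟨a, ha⟩
    obtain ⟨g, hg, -⟩ := hom_conj hR (autGroup_mem_hom F hQS ha)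
    exact ⟨g, Subtype.ext (MulEquiv.ext fun x => Subtype.ext
      (congrArg (fun z : S => (z : Ω)) (hR.1 ((hρ g x).trans (hg x).symm))))⟩
  refine ⟨fun h => PSolv.isPSolvable_of_surjective _ hsurj h, fun h => ?_⟩
  have hker : IsPGroup p (ρ.codRestrict _ hmem).ker := by
    refine ((hS.to_le hQS).of_equiv e).to_le fun k hk => hcen fun y hy => ?_
    obtain ⟨x, rfl⟩ : ∃ x : Q, (e x : G) = y := ⟨e.symm ⟨y, hy⟩, by simp⟩
    have h1 := hρ k x
    rw [show ρ k = 1 from congrArg Subtype.val hk] at h1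
    rw [he]
    exact (mul_inv_eq_iff_eq_mul.1 h1.symm).symm
  exact PSolv.isPSolvable_of_extension _ (PSolv.isPSolvable_of_isPGroup hker)
    (PSolv.isPSolvable_of_equiv (QuotientGroup.quotientKerEquivOfSurjective _ hsurj).symm h)

/-- Let F be a saturated fusion system over a finite p-group S. Then F is the fusion system of some finite p-solvable group on a Sylow p-subgroup if and only if F is constrained (some subgroup normal in F is centric in F) and the group of automorphisms that F induces on its largest normal subgroup O_p(F) is p-solvable. -/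
theorem result {Ω : Type u} [Group Ω] {S : Subgroup Ω} [Finite S] (p : ℕ) [Fact p.Prime] (hS : IsPGroup p S)
    (F : Cfsg.FusionSystem S) (hF : F.IsSaturated p) :
    (∃ (G : Type u) (_ : Group G) (_ : Finite G) (ι : S →* G), Cfsg.IsPSolvable p G ∧ F.IsRealizedBy ι ∧
        ∃ T : Sylow p G, (T : Subgroup G) = ι.range) ↔
      (F.IsConstrained p ∧ Cfsg.IsPSolvable p ↥(F.autGroup F.core)) := by
  constructor
  · rintro ⟨G, hGg, hGf, ι, hsol, hR, T, hT⟩
    letI := hGg
    haveI := hGf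
    have hK := PSolv.coprime_card_pPrimeCore p G
    have hR' := Tech.SimpleReal.realized_quotient hR T hT (pPrimeCore p G) hK
    have hsol' := PSolv.isPSolvable_quotient hsol (pPrimeCore p G)
    have hmodel : F.IsModel p (G ⧸ pPrimeCore p G)
        ((QuotientGroup.mk' (pPrimeCore p G)).comp ι) :=
      ⟨inferInstance, hR', ⟨T.mapSurjective (QuotientGroup.mk'_surjective _), by
        rw [Sylow.coe_mapSurjective, hT, MonoidHom.range_eq_map, Subgroup.map_map,
          ← MonoidHom.range_eq_map]⟩,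
        PSolv.centralizer_pCore_le hsol' (PSolv.pPrimeCore_quotient_eq_bot p G)⟩
    have hc := S5103.result p hS F _ hmodel
    exact ⟨hc, (model_core_aut hS hc hmodel).1 hsol'⟩
  · rintro ⟨hc, hsol⟩
    obtain ⟨-, Q, hQn, hQc⟩ := id hc
    obtain ⟨G, hGg, ι, hG⟩ := FusionModel.exists_model_of_normal_centric hS hF hQn hQc
    letI := hGg
    haveI := hG.1
    exact ⟨G, hGg, hG.1, ι, (model_core_aut hS hc hG).2 hsol, hG.2.1, hG.2.2.1⟩

end Cfsg.Agent.S5292
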