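import Cfsg.Statements.S5294
import Cfsg.Agent.FusionBatch.Basic
import Cfsg.Agent.FusionAux.NormalCriterion

set_option autoImplicit false
set_option maxHeartbeats 1000000
universe u
open Cfsg
open Cfsg.FusionSystem Cfsg.Agent.FusionSys Cfsg.Agent.FusionBatch
open scoped IsMulCommutative

namespace Cfsg.Agent.S5294

section helpers

variable {Ω : Type*} [Group Ω] {S : Subgroup Ω}

theorem center_factor [Finite S] {p : ℕ} [Fact p.Prime] (hS : IsPGroup p S) {F : FusionSystem S}
    (hF : F.IsSaturated p) (hZ : (S ⊓ Subgroup.centralizer (S : Set Ω)) ≤ F.core) :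
    ∃ K : Subgroup Ω, K ≤ (S ⊓ Subgroup.centralizer (S : Set Ω)) ∧ F.center ⊓ K = ⊥ ∧
      F.center ⊔ K = (S ⊓ Subgroup.centralizer (S : Set Ω)) := by
  classical
  set Q := F.core
  have hQn : F.IsNormal Q := Cfsg.Agent.FusionAlperin.isNormal_core F
  have hQS := hQn.1
  haveI : Finite Q := finite_of_le inferInstance hQS
  have hQfn : F.IsFullyNormalized Q := ⟨hQS, fun R _ => by
    rw [show normalizerIn S Q = S from
      inf_eq_left.2 (Cfsg.Agent.FusionAlperin.isNormal_le_normalizer hQn)]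
    exact Subgroup.card_le_of_le (normalizerIn_le R)⟩
  set A := F.autGroup Q
  obtain ⟨-, R, hR⟩ := (saturated_fullyNormalized hS hF hQfn).2
  set ZS := S ⊓ Subgroup.centralizer (S : Set Ω) with hZS
  let Z' : Subgroup Q := ZS.subgroupOf Q
  have hmemC : ∀ z : Q, z ∈ Z' → z ∈ Subgroup.center Q := fun z hz => by
    refine Subgroup.mem_center_iff.2 fun q => Subtype.ext ?_
    exact (Subgroup.mem_subgroupOf.1 hz).2 q (hQS q.2)
  let act : A → (Subgroup.center Q →* Subgroup.center Q) := fun a =>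
    ((a : MulAut Q).toMonoidHom.comp (Subgroup.center Q).subtype).codRestrict _ fun z =>
      Cfsg.Agent.FusionAux.center_apply_mem _ z.2
  letI : Fintype (A ⧸ (R : Subgroup A)) := Fintype.ofFinite _
  have hfixR : ∀ r ∈ (R : Subgroup A), ∀ z : Q, z ∈ Z' → (r : MulAut Q) z = z := by
    intro r hr z hz
    rw [hR, Subgroup.mem_subgroupOf] at hr
    obtain ⟨g, hg, he⟩ := mem_autInducedBy.1 hr
    apply Subtype.ext
    rw [he, (Subgroup.mem_subgroupOf.1 hz).2 g hg, mul_inv_cancel_right]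
  let incl : Z' →* Subgroup.center Q := Z'.subtype.codRestrict _ fun z => hmemC z z.2
  let f : Z' →* Subgroup.center Q :=
    { toFun := fun z => ∏ q : A ⧸ (R : Subgroup A), act q.out (incl z)
      map_one' := by simp
      map_mul' := fun a b => by simp only [map_mul, Finset.prod_mul_distrib] }
  have hinv : ∀ (a : A) (z : Z'), act a (f z) = f z := by
    intro a z
    show act a (∏ q : A ⧸ (R : Subgroup A), act q.out (incl z)) = _
    rw [map_prod]
    refine Fintype.prod_equiv (MulAction.toPerm a) _ _ fun q => ?_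
    rw [MulAction.toPerm_apply]
    obtain ⟨r, hr⟩ : ∃ r : (R : Subgroup A), (a • q).out = a * q.out * r := by
      have h1 : ((a * q.out : A) : A ⧸ (R : Subgroup A)) = a • q := by
        conv_rhs => rw [← QuotientGroup.out_eq' q]
        rfl
      refine ⟨⟨(a * q.out)⁻¹ * (a • q).out, QuotientGroup.eq.1 (h1.trans (QuotientGroup.out_eq' _).symm)⟩, ?_⟩
      exact (mul_inv_cancel_left (a * q.out) _).symm
    apply Subtype.ext
    show (a : MulAut Q) ((q.out : MulAut Q) (z : Q)) = (((a • q).out : A) : MulAut Q) (z : Q)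
    rw [hr, Subgroup.coe_mul, Subgroup.coe_mul, MulAut.mul_apply, MulAut.mul_apply, hfixR r r.2 z z.2]
  have hfz : ∀ z : Z', ((f z : Q) : Ω) ∈ F.center := by
    intro z
    refine (mem_center_iff hS hF).2 ⟨hQS (f z : Q).2, fun P φ hφ x hx => ?_⟩
    obtain ⟨ψ, hψ, h1, h2⟩ := hQn.2 P φ hφ
    have hm := restr_mem F (le_sup_right : Q ≤ P ⊔ Q) hψ
    have hr : (restr (le_sup_right : Q ≤ P ⊔ Q) ψ).range = Q := by rw [range_restr, h2]
    have := congrArg (fun w : Subgroup.center Q => ((w : Q) : Ω)) (hinv ⟨_, toIso_mem_autGroup F hm hr⟩ z)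
    change ((toIso F hm hr (f z : Q) : Q) : Ω) = ((f z : Q) : Ω) at this
    rw [toIso_coe, restr_apply] at this
    rw [← h1 x]
    exact (congrArg ψ (Subtype.ext hx)).trans this
  have hcZS : F.center ≤ ZS := fun x hx =>
    ⟨(Cfsg.Agent.FusionAlperin.isCentral_center F).1 hx, F.center_le_centralizer hx⟩
  set n := (R : Subgroup A).index
  have hpow : ∀ z : Z', ((z : Q) : Ω) ∈ F.center → f z = incl z ^ n := by
    intro z hz
    show ∏ q : A ⧸ (R : Subgroup A), act q.out (incl z) = _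
    rw [Finset.prod_congr rfl (g := fun _ => incl z) fun q _ => ?_, Finset.prod_const, Finset.card_univ,
      ← Nat.card_eq_fintype_card]
    · rfl
    refine Subtype.ext (Subtype.ext ?_)
    exact ((mem_center_iff hS hF).1 hz).2 _ _ (autGroup_mem_hom F hQS (q.out).2) (z : Q) rfl
  obtain ⟨k, hk⟩ := hS.exists_card_eq
  have hcop : ∀ x ∈ S, (orderOf (x : Ω)).Coprime n := by
    intro x hx
    refine Nat.Coprime.coprime_dvd_left ?_
      (Nat.Coprime.pow_left k ((Fact.out : p.Prime).coprime_iff_not_dvd.2 R.not_dvd_index))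
    rw [← hk, show x = ((⟨x, hx⟩ : S) : Ω) from rfl, Subgroup.orderOf_coe]
    exact orderOf_dvd_natCard _
  refine ⟨(f.ker.map Z'.subtype).map Q.subtype, ?_, ?_, ?_⟩
  · rintro _ ⟨_, ⟨z, -, rfl⟩, rfl⟩
    exact z.2
  · rw [eq_bot_iff]
    rintro _ ⟨hc, _, ⟨z, hz, rfl⟩, rfl⟩
    rw [Subgroup.mem_bot]
    rw [SetLike.mem_coe, MonoidHom.mem_ker, hpow z hc] at hz
    have h1 : ((z : Q) : Ω) ^ n = 1 := congrArg (fun w : Subgroup.center Q => ((w : Q) : Ω)) hz
    have h2 := hcop _ (hQS (z : Q).2)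
    exact orderOf_eq_one_iff.1 (Nat.Coprime.eq_one_of_dvd h2 (orderOf_dvd_of_pow_eq_one h1))
  · refine le_antisymm (sup_le hcZS ?_) fun x hx => ?_
    · rintro _ ⟨_, ⟨z, -, rfl⟩, rfl⟩
      exact z.2
    · let z : Z' := ⟨⟨x, hZ hx⟩, hx⟩
      have hw := hfz z
      obtain ⟨m, hm⟩ := mem_zpowers_pow_iff.2 (hcop _ (hQS (f z : Q).2)).symm
      -- a root in the centre
      have hroot : ((((f z : Q) : Ω)) ^ m) ^ n = ((f z : Q) : Ω) := by
        rw [← zpow_natCast (((f z : Q) : Ω) ^ m), ← zpow_mul, mul_comm, zpow_mul, zpow_natCast]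
        exact hm
      have hwc : ((f z : Q) : Ω) ^ m ∈ F.center := Subgroup.zpow_mem _ hw m
      let w : Z' := ⟨⟨_, hZ (hcZS hwc)⟩, hcZS hwc⟩
      have hfw : f w = f z := by
        rw [hpow w hwc]
        exact Subtype.ext (Subtype.ext hroot)
      have hker : w⁻¹ * z ∈ f.ker := by rw [MonoidHom.mem_ker, map_mul, map_inv, hfw, inv_mul_cancel]
      have hx' : x = (((w : Q) : Ω)) * ((((w⁻¹ * z : Z') : Q)) : Ω) := by simp [z]
      rw [hx']
      exact Subgroup.mul_mem_sup hwc ⟨_, ⟨_, hker, rfl⟩, rfl⟩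

end helpers

/-- Let F be a saturated fusion system over a finite p-group S whose centre Z(S) lies in the largest subgroup O_p(F) normal in F. Then the centre Z(F) of F is a direct factor of Z(S): there is a subgroup K of Z(S) with Z(F) ∩ K = 1 and Z(F)K = Z(S). -/
theorem result {Ω : Type u} [Group Ω] {S : Subgroup Ω} [Finite S] (p : ℕ) [Fact p.Prime] (hS : IsPGroup p S)
    (F : Cfsg.FusionSystem S) (hF : F.IsSaturated p) (hZ : (S ⊓ Subgroup.centralizer (S : Set Ω)) ≤ F.core) :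
    ∃ K : Subgroup Ω, K ≤ (S ⊓ Subgroup.centralizer (S : Set Ω)) ∧ F.center ⊓ K = ⊥ ∧ F.center ⊔ K = (S ⊓ Subgroup.centralizer (S : Set Ω)) := by
  exact center_factor hS hF hZ

end Cfsg.Agent.S5294
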