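import Cfsg.Statements.S5295
import Cfsg.Agent.FusionBatch.ThompsonCenter
import Cfsg.Agent.S5294

set_option autoImplicit false
set_option maxHeartbeats 1000000
universe u
open Cfsg
open Cfsg.FusionSystem Cfsg.Agent.FusionSys Cfsg.Agent.FusionBatch

namespace Cfsg.Agent.S5295

/-- Let F be a saturated fusion system over a finite p-group S with p odd. Then the centre Z(F) of F is a direct factor of Z(S): there is a subgroup K of Z(S) with Z(F) ∩ K = 1 and Z(F)K = Z(S). (At the prime 2 this can fail.) -/
theorem result {Ω : Type u} [Group Ω] {S : Subgroup Ω} [Finite S] (p : ℕ) [Fact p.Prime] (hp : p ≠ 2) (hS : IsPGroup p S)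
    (F : Cfsg.FusionSystem S) (hF : F.IsSaturated p) :
    ∃ K : Subgroup Ω, K ≤ (S ⊓ Subgroup.centralizer (S : Set Ω)) ∧ F.center ⊓ K = ⊥ ∧ F.center ⊔ K = (S ⊓ Subgroup.centralizer (S : Set Ω)) := by
  set J := thompsonSubgroupAOf S
  have hW := ThompsonCenter.jA_natural.{u} p
  have hfn : F.IsFullyNormalized J := Cfsg.Agent.FusionModel.fullyNormalized_wOf hW hS F
  have hnS : normalizerIn S J = S := ThompsonCenter.normalizerIn_thompsonAOf hS
  set N := Cfsg.Agent.FusionAux.normSys F J hfn.1
  have hN : F.IsNormalizerSystem J N := Cfsg.Agent.FusionAux.normSys_spec F J hfn.1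
  have hNsat := normalizerSystem_saturated hS hF hfn hN
  have hJN : N.IsNormal J := normalizerSystem_isNormal hfn.1 hN
  have hZeq : ∀ T : Subgroup Ω, T = S →
      T ⊓ Subgroup.centralizer (T : Set Ω) = S ⊓ Subgroup.centralizer (S : Set Ω) := by
    rintro T rfl; rfl
  have hle : normalizerIn S J ⊓ Subgroup.centralizer (normalizerIn S J : Set Ω) ≤ N.core := by
    rw [hZeq _ hnS]
    exact (Cfsg.Agent.Modules.center_le_centerThompsonAOf S |>.trans inf_le_left).trans
      (le_sSup (s := {Q | N.IsNormal Q}) hJN)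
  haveI : Finite ↥(normalizerIn S J) := finite_of_le ‹_› (normalizerIn_le J)
  have h := Cfsg.Agent.S5294.center_factor (S := normalizerIn S J) (hS.to_le inf_le_left) hNsat hle
  rw [ThompsonCenter.center_normalizer_eq hp hS hF N hN, hZeq _ hnS] at h
  exact h

end Cfsg.Agent.S5295
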