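import Cfsg.Statements.S5298
import Cfsg.Agent.FusionBatch.SmallExponent

set_option autoImplicit false
set_option maxHeartbeats 1000000
universe u
open Cfsg
open Cfsg.FusionSystem Cfsg.Agent.FusionSys Cfsg.Agent.FusionBatch

namespace Cfsg.Agent.S5298

theorem hom_eq_inner {Ω : Type*} [Group Ω] {S : Subgroup Ω} [Finite S] {p : ℕ} [Fact p.Prime]
    (hS : IsPGroup p S) {F : FusionSystem S} (hF : F.IsSaturated p)
    (h : ∀ A B : Subgroup Ω, A ≤ (F.hyperfocalSubgroup p) → B ≤ (F.hyperfocalSubgroup p) →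
      IsCyclic ↥A → (Nat.card ↥A = p ∨ Nat.card ↥A = 4) → IsCyclic ↥B →
      (Nat.card ↥B = p ∨ Nat.card ↥B = 4) → F.homSet A B ⊆ (innerFusionSystem S).Hom A) :
    ∀ P : Subgroup Ω, F.Hom P = (innerFusionSystem S).Hom P := by
  have hN : F.IsNormal S := SmallExp.isNormal_self_of_cyclic hS hF
    fun A B hA hB h1 h2 h3 h4 φ hφ => by
      obtain ⟨hAS, g, hg, hφg⟩ := h A B hA hB h1 h2 h3 h4 hφ
      have hnS : normalizerIn S S = S := inf_eq_left.2 Subgroup.le_normalizer
      have hsup : A ⊔ S ≤ S := sup_le hAS le_rfl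
      refine ⟨hφ.1, hnS.symm ▸ hAS, fun x => hnS.symm ▸ map_mem_S F hφ.1 x, conjHom (A ⊔ S) g,
        F.conj_mem hsup hg, fun x => (hφg x).symm, ?_⟩
      ext y
      rw [mem_map_subgroupOf]
      constructor
      · rintro ⟨x, hx, rfl⟩
        exact S.mul_mem (S.mul_mem hg hx) (S.inv_mem hg)
      · intro hy
        have hm : g⁻¹ * y * g ∈ S := S.mul_mem (S.mul_mem (S.inv_mem hg) hy) hg
        exact ⟨⟨g⁻¹ * y * g, Subgroup.mem_sup_right hm⟩, hm, by simp [mul_assoc]⟩
  have hp : ∀ a ∈ F.autGroup S, ∃ e : ℕ, a ^ p ^ e = 1 := by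
    intro a ha
    obtain ⟨D, hDR, hDh, hexp, hDinv, hdet⟩ := SmallExp.exists_detecting hS F (le_refl S)
    haveI : Group.IsNilpotent S := hS.isNilpotent
    refine SmallExp.isPow_of_stabilizes hS le_rfl
      (fun i => D ⊓ (Subgroup.upperCentralSeries S i).map S.subtype) (Group.nilpotencyClass S)
      (by simp) (fun i _ => inf_le_inf_left _ (Subgroup.map_mono (Subgroup.upperCentralSeries_mono _ (Nat.le_succ i))))
      (fun b hb hcop hfix => hdet b hb hcop fun x hx => hfix x ⟨hx, x, by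
        rw [Subgroup.upperCentralSeries_nilpotencyClass]; exact Subgroup.mem_top x, rfl⟩)
      ha ?_
    rintro i _ x ⟨hxD, y, hy, hyx⟩
    obtain rfl : y = x := Subtype.ext hyx
    by_cases h1 : (y : Ω) = 1
    · rw [show y = 1 from Subtype.ext h1, map_one]
      simp
    set z : Ω := ((a y : S) : Ω) with hz
    have hzD : z ∈ D := hDinv a ha y hxD
    have hz1 : z ≠ 1 := by
      intro hc
      have : a y = 1 := Subtype.ext hc
      rw [EmbeddingLike.map_eq_one_iff] at this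
      exact h1 (congrArg Subtype.val this)
    have hAS : Subgroup.zpowers (y : Ω) ≤ S := Subgroup.zpowers_le.2 y.2
    have hφ : restr hAS (S.subtype.comp a.toMonoidHom) ∈
        F.homSet (Subgroup.zpowers (y : Ω)) (Subgroup.zpowers z) := by
      refine ⟨restr_mem F hAS (autGroup_mem_hom F le_rfl ha), fun w => ?_⟩
      obtain ⟨n, hn⟩ := Subgroup.mem_zpowers_iff.1 w.2
      refine Subgroup.mem_zpowers_iff.2 ⟨n, ?_⟩
      show z ^ n = ((a ⟨(w : Ω), hAS w.2⟩ : S) : Ω)
      rw [show (⟨(w : Ω), hAS w.2⟩ : S) = y ^ n from Subtype.ext (by simpa using hn.symm), map_zpow,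
        SubgroupClass.coe_zpow]
    obtain ⟨-, g, hg, hφg⟩ := h _ _ (Subgroup.zpowers_le.2 (hDh hxD)) (Subgroup.zpowers_le.2 (hDh hzD))
      inferInstance (SmallExp.cyclic_small (hexp _ hxD) h1) inferInstance
      (SmallExp.cyclic_small (hexp _ hzD) hz1) hφ
    have h2 : z = g * (y : Ω) * g⁻¹ := hφg ⟨y, Subgroup.mem_zpowers _⟩
    refine ⟨D.mul_mem (D.inv_mem hxD) hzD, y⁻¹ * ((⟨g, hg⟩ : S) * y * (⟨g, hg⟩ : S)⁻¹),
      SmallExp.mem_ucs_step hy, ?_⟩
    simp [h2]
  obtain ⟨R, hR⟩ := autGroup_self_sylow hS hF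
  have hA : IsPGroup p (F.autGroup S) := fun a => (hp a a.2).imp fun e he => Subtype.ext (by simpa using he)
  have hRtop : (R : Subgroup (F.autGroup S)) = ⊤ :=
    (R.3 (hA.to_subgroup ⊤) le_top).symm
  intro P
  ext φ
  refine ⟨fun hφ => ⟨le_S F hφ, ?_⟩, fun hφ => ?_⟩
  · obtain ⟨ψ, hψ, hψe, hψS⟩ := hN.2 P φ hφ
    have hres := restr_mem F (le_sup_right (a := P)) hψ
    have hrng : (restr (le_sup_right (a := P)) ψ).range = S := by rw [range_restr]; exact hψS
    have hmem : (⟨_, toIso_mem_autGroup F hres hrng⟩ : F.autGroup S) ∈ (R : Subgroup (F.autGroup S)) :=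
      hRtop ▸ Subgroup.mem_top _
    rw [hR] at hmem
    obtain ⟨s, hs⟩ := hmem
    refine ⟨s, s.2, fun x => ?_⟩
    have h3 := congrArg (fun f : MulAut S => ((f ⟨x, le_S F hφ x.2⟩ : S) : Ω)) hs
    simp only [Subgroup.coe_subtype] at h3
    rw [toIso_coe, restr_apply] at h3
    rw [← hψe x]
    exact (h3.trans (congrArg ψ (Subtype.ext rfl))).symm
  · obtain ⟨hPS, g, hg, hφg⟩ := hφ
    rw [show φ = conjHom P g from MonoidHom.ext fun x => (hφg x).trans rfl]
    exact F.conj_mem hPS hg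

/-- Let F be a saturated fusion system over a finite p-group S. If every map of F between cyclic subgroups of the hyperfocal subgroup of F of order p or 4 is conjugation by an element of S, then F is the inner fusion system of S. -/
theorem result {Ω : Type u} [Group Ω] {S : Subgroup Ω} [Finite S] (p : ℕ) [Fact p.Prime] (hS : IsPGroup p S)
    (F : Cfsg.FusionSystem S) (hF : F.IsSaturated p)
    (h : ∀ A B : Subgroup Ω, A ≤ (F.hyperfocalSubgroup p) → B ≤ (F.hyperfocalSubgroup p) → IsCyclic ↥A → (Nat.card ↥A = p ∨ Nat.card ↥A = 4) → IsCyclic ↥B → (Nat.card ↥B = p ∨ Nat.card ↥B = 4) →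
      F.homSet A B ⊆ (Cfsg.innerFusionSystem S).Hom A) :
    ∀ P : Subgroup Ω, F.Hom P = (Cfsg.innerFusionSystem S).Hom P := by
  exact hom_eq_inner hS hF h

end Cfsg.Agent.S5298
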