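import Cfsg.Statements.S5301
import Cfsg.Agent.FusionBatch.Basic

set_option autoImplicit false
set_option maxHeartbeats 1000000
universe u
open Cfsg
open Cfsg.FusionSystem Cfsg.Agent.FusionSys Cfsg.Agent.FusionBatch

namespace Cfsg.Agent.S5301

/-- Let F be a saturated fusion system over a finite p-group S. If for every subgroup P of S that is fully normalized, centric and radical in F the automorphism group that F induces on P has a normal Sylow p-subgroup, then S is normal in F. -/
theorem result {Ω : Type u} [Group Ω] {S : Subgroup Ω} [Finite S] (p : ℕ) [Fact p.Prime] (hS : IsPGroup p S)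
    (F : Cfsg.FusionSystem S) (hF : F.IsSaturated p)
    (hcl : ∀ P : Subgroup Ω, F.IsFullyNormalized P → F.IsCentric P → F.IsRadical p P →
      ∃ R : Sylow p ↥(F.autGroup P), (R : Subgroup ↥(F.autGroup P)).Normal) :
    F.IsNormal S := by
  refine isNormal_of_mem_radical hS hF fun P hn hc hr => ⟨?_, fun α _ x _ => hn.1 (α x).2⟩
  haveI : Finite ↥P := finite_of_le inferInstance hn.1
  obtain ⟨R, hR⟩ := hcl P hn hc hr
  by_contra hle
  have hlt : P < S := lt_of_le_of_ne hn.1 fun h => hle h.symm.le
  obtain ⟨g, hgN, hgP⟩ := SetLike.exists_of_lt (Cfsg.Agent.FusionSys.lt_normalizerIn_of_lt hS hlt)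
  refine hgP (mem_of_mem_pCore hS hc hr hgN ?_)
  have hg : P.normalizerMonoidHom ⟨g, hgN.2⟩ ∈ autInducedBy S P :=
    mem_autInducedBy.2 ⟨g, hgN.1, fun x => rfl⟩
  have hle' := autInducedBy_le_autGroup F hn.1
  have hA : IsPGroup p ↥((autInducedBy S P).subgroupOf (F.autGroup P)) :=
    (isPGroup_autInducedBy hS P).of_equiv (Subgroup.subgroupOfEquivOfLe hle').symm
  haveI := hR
  have h1 : (autInducedBy S P).subgroupOf (F.autGroup P) ≤ (R : Subgroup ↥(F.autGroup P)) := by
    have := R.is_maximal' (hA.to_sup_of_normal_right R.2) le_sup_right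
    exact this ▸ le_sup_left
  exact ⟨⟨_, hle' hg⟩, Cfsg.Agent.Cores.le_pCore hR R.2 (h1 (Subgroup.mem_subgroupOf.2 hg)), rfl⟩

end Cfsg.Agent.S5301
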