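import Cfsg.Statements.S5310
import Cfsg.Agent.FusionAlperin.ConstrainedComponent
import Cfsg.Agent.FusionAlperin.NormalSubgroupSystems
import Cfsg.Agent.S5148

set_option autoImplicit false
open Cfsg Cfsg.FusionSystem Cfsg.Agent.FusionSys Cfsg.Agent.FusionAlperin

namespace Cfsg.Agent.S5310

/-- The inner system of `Q` is a central product of itself and the trivial system. -/
theorem inner_centralProduct {Ω : Type*} [Group Ω] (Q : Subgroup Ω) :
    IsCentralProductOf (innerFusionSystem Q) (innerFusionSystem (⊥ : Subgroup Ω))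
      (innerFusionSystem Q) := by
  have hsnd : ∀ x : ↥(Q.prod (⊥ : Subgroup Ω)), (x : Ω × Ω).2 = 1 := fun x =>
    Subgroup.mem_bot.1 x.2.2
  refine ⟨innerFusionSystem (Q.prod ⊥), fun P φ => ⟨?_, ?_⟩, ⊥,
    (MonoidHom.fst Ω Ω).comp (Q.prod ⊥).subtype, bot_le, bot_inf_eq _, bot_inf_eq _,
    fun x hx => rfl, fun y hy => ?_, ?_⟩
  · rintro ⟨hP, ⟨g, g'⟩, hg, h⟩
    have hg' : g' = 1 := Subgroup.mem_bot.1 hg.2
    subst hg'
    refine ⟨hP, conjHom (P.map (MonoidHom.fst Ω Ω)) g, ⟨?_, g, hg.1, fun _ => rfl⟩,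
      conjHom (P.map (MonoidHom.snd Ω Ω)) 1, ⟨?_, 1, one_mem _, fun _ => rfl⟩, fun x h₁ h₂ => ?_⟩
    · rintro _ ⟨x, hx, rfl⟩; exact (hP hx).1
    · rintro _ ⟨x, hx, rfl⟩; exact (hP hx).2
    · rw [h x]
      rfl
  · rintro ⟨hP, φ₁, ⟨-, g, hg, h1⟩, φ₂, ⟨-, k, hk, h2⟩, hφ⟩
    refine ⟨hP, (g, 1), ⟨hg, one_mem _⟩, fun x => ?_⟩
    rw [hφ x ⟨x, x.2, rfl⟩ ⟨x, x.2, rfl⟩, h1, h2, Subgroup.mem_bot.1 hk]
    rfl
  · show (1 : Ω) = y
    exact (Subgroup.mem_bot.1 hy.2).symm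
  · refine ⟨bot_le, fun s => ?_, ?_, fun P' φ' => ⟨?_, ?_⟩⟩
    · rw [Subgroup.mem_bot]
      exact ⟨fun h => Prod.ext h (hsnd s), fun h => congrArg Prod.fst h⟩
    · ext y
      exact ⟨fun ⟨x, hx⟩ => hx ▸ x.2.1, fun hy => ⟨⟨(y, 1), hy, one_mem _⟩, rfl⟩⟩
    · rintro ⟨hP', g, hg, h⟩
      refine ⟨hP', conjHom _ (g, 1), (innerFusionSystem _).conj_mem
        (preimageAlong_le P') ⟨hg, one_mem _⟩, preimageAlong_le P',
        map_mem_S _ ((innerFusionSystem _).conj_mem (preimageAlong_le P') ⟨hg, one_mem _⟩),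
        theta_mem_of_mem_preimage, fun x => ?_⟩
      rw [h]
      rfl
    · rintro ⟨hP', φ, ⟨-, ⟨g, g'⟩, hg, h⟩, hP, hφ, hP'', he⟩
      refine ⟨hP', g, hg.1, fun y => ?_⟩
      have hy : ((y : Ω), 1) ∈ preimageAlong ((MonoidHom.fst Ω Ω).comp (Q.prod ⊥).subtype) P' :=
        mem_preimageAlong.2 ⟨⟨hP' y.2, one_mem _⟩, y.2⟩
      refine (congrArg φ' (Subtype.ext rfl)).trans ((he ⟨_, hy⟩).trans ?_)
      show (φ ⟨_, hy⟩).1 = _
      rw [h]
      rfl

/-- A saturated fusion system F over a finite p-group S is constrained (its largest normal subgroup O_p(F) is centric) if and only if the inner fusion system of O_p(F) is itself a generalized Fitting subsystem of F (that is, F*(F) = O_p(F)). -/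
theorem result {Ω : Type*} [Group Ω] {S : Subgroup Ω} [Finite S] (p : ℕ) [Fact p.Prime] (hS : IsPGroup p S) (F : Cfsg.FusionSystem S) (hF : F.IsSaturated p) :
    F.IsConstrained p ↔ (Cfsg.innerFusionSystem F.core).IsGeneralizedFittingOf F p := by
  have hQn := isNormal_core F
  constructor
  · intro hc
    refine ⟨⊥, innerFusionSystem ⊥, ⟨innerSystem_normal hS hF (isNormal_bot F),
      fun U C hC => absurd ⟨U, C, hC⟩ (not_component_of_constrained hS hc),
      fun R D _ _ P φ hφ => ?_⟩, inner_centralProduct F.core⟩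
    obtain ⟨hP, g, hg, h⟩ := hφ
    exact mem_hom_congr D (D.conj_mem (hP.trans bot_le) (one_mem R)) fun x => by
      rw [h, conjHom_apply, Subgroup.mem_bot.1 hg]
  · rintro ⟨T, E, hE, D₀, -, Z, θ, -, -, -, -, hθ2, hfac⟩
    refine (constrained_or_component hS hF).resolve_right ?_
    rintro ⟨U, C, hC⟩
    have hTQ : T ≤ F.core := fun y hy =>
      hfac.2.2.1.le ⟨⟨(1, y), one_mem _, hy⟩, hθ2 y _⟩
    have hUT : U ≤ T := le_S E (hE.2.1 U C hC U (subtype_mem C le_rfl))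
    have hUC : U ≤ centralizerIn S F.core :=
      (component_centralizes hS hF hC hQn U (subtype_mem C le_rfl)).2.1
    have : Finite U := finite_of_le ‹_› ((hUT.trans hTQ).trans hQn.1)
    refine S5148.result p (hS.to_le ((hUT.trans hTQ).trans hQn.1)) C hC.2 ⟨⟨fun a b => ?_⟩⟩
    exact Subtype.ext ((Subgroup.mem_centralizer_iff.1 (hUC b.2).2) a (hTQ (hUT a.2)))

end Cfsg.Agent.S5310
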