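import Cfsg.Statements.S5311
import Cfsg.Agent.Tech.IsoTransport

set_option autoImplicit false
open Cfsg Cfsg.FusionSystem Cfsg.Agent.FusionSys Cfsg.Agent.Tech.IsoTransport

namespace Cfsg.Agent.S5311

/-- The layer of a saturated fusion system F over a finite p-group S is characteristic in F: for every automorphism α of S that is an automorphism of F (α and its inverse are morphisms from F to F) and every layer E of F over T, α carries T onto T and, for every map φ of E with source P, the map induced by α on α(P) (that is, α ∘ φ ∘ α⁻¹) is a map of E. -/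
theorem result {Ω : Type*} [Group Ω] {S : Subgroup Ω} [Finite S] (p : ℕ) [Fact p.Prime] (hS : IsPGroup p S) (F : Cfsg.FusionSystem S) (hF : F.IsSaturated p)
    (α : ↥S ≃* ↥S) (hα : F.IsMorphism F (S.subtype.comp α.toMonoidHom))
    (hα' : F.IsMorphism F (S.subtype.comp α.symm.toMonoidHom))
    {T : Subgroup Ω} (E : Cfsg.FusionSystem T) (hE : E.IsLayerOf F p) :
    Cfsg.FusionSystem.imageAlong (S.subtype.comp α.toMonoidHom) T = T ∧
      ∀ (P : Subgroup Ω) (φ : ↥P →* Ω), φ ∈ E.Hom P →
        ∀ φ' : ↥(Cfsg.FusionSystem.imageAlong (S.subtype.comp α.toMonoidHom) P) →* Ω,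
          Cfsg.FusionSystem.InducedAlong (S.subtype.comp α.toMonoidHom) φ φ' →
            φ' ∈ E.Hom (Cfsg.FusionSystem.imageAlong (S.subtype.comp α.toMonoidHom) P) := by
  have hF₁ := corr_of_morphism F α hα hα'
  have hTS : T ≤ S := hE.1.1.2.2.2.1.1
  have h1 := corr_imgSys α hTS rfl E
  have h2 := corr_imgSys α.symm hTS rfl E
  have s1 : E.IsSubsystemOf (imgSys α hTS rfl E) := layer_subsystem hS hF₁ hE h1
  have s2 : E.IsSubsystemOf (imgSys α.symm hTS rfl E) := layer_subsystem hS hF₁.symm hE h2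
  refine ⟨?_, fun P φ hφ φ' hind => ?_⟩
  · show sImg α T = T
    have : Finite (sImg α T) := finite_of_le ‹_› (sImg_le T)
    exact (eq_of_le_of_card_le (le_S (imgSys α hTS rfl E) (s1 T (subtype_mem E le_rfl)))
      (card_sImg hTS).le).symm
  · obtain ⟨χ, hχ, hχe⟩ := h2.bwd P φ (s2 P hφ)
    obtain ⟨hP, hφS, hP', he⟩ := hind
    refine mem_hom_congr E (show χ ∈ E.Hom (sImg α P) from hχ) fun y => ?_
    obtain ⟨x, hx, rfl⟩ := exists_ev (σ := α) y
    refine Eq.trans ?_ (hχe x hx).symm
    exact ((congrArg φ' (Subtype.ext (ev_coe (σ := α) ⟨x, hP x.2⟩))).trans (he x)).trans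
      (ev_coe (σ := α) ⟨φ x, hφS x⟩).symm

end Cfsg.Agent.S5311
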