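import Cfsg.Statements.S5315
import Cfsg.Agent.FusionBatch.Basic
import Cfsg.Agent.FusionAux.FactorAut
import Cfsg.Agent.FusionSys.Focal

set_option autoImplicit false
set_option maxHeartbeats 1000000
open Cfsg
open Cfsg.FusionSystem Cfsg.Agent.FusionSys Cfsg.Agent.FusionBatch

namespace Cfsg.Agent.S5315

section helpers

variable {Ω Ω' : Type*} [Group Ω] [Group Ω'] {S : Subgroup Ω} {S' : Subgroup Ω'}

theorem center_factor_eq_bot [Finite S] {p : ℕ} [Fact p.Prime] (hS : IsPGroup p S) {F : FusionSystem S}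
    (hF : F.IsSaturated p) (hperf : F.hyperfocalSubgroup p = S) (θ : S →* Ω')
    (hker : ∀ s : S, θ s = 1 ↔ (s : Ω) ∈ F.center) (E : FusionSystem S')
    (hE : F.IsFactorSystem F.center θ E) : E.center = ⊥ := by
  classical
  set Z := F.center with hZd
  have hZS : Z ≤ S := (Cfsg.Agent.FusionAlperin.isCentral_center F).1
  have hZc : ∀ z ∈ Z, ∀ s ∈ S, s * z = z * s := fun z hz s hs => F.center_le_centralizer hz s hs
  have hrange : θ.range = S' := hE.2.2.1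
  have hEc : ∀ (P' : Subgroup Ω') (φ' : P' →* Ω'), φ' ∈ E.Hom P' → ∀ y ∈ E.center,
      ∀ w : P', (w : Ω') = y → φ' w = y := by
    intro P' φ' hφ' y hy w hw
    haveI : Finite S' := hrange ▸ Finite.of_surjective θ.rangeRestrict θ.rangeRestrict_surjective
    obtain ⟨ψ, -, h1, h2⟩ := (Cfsg.Agent.FusionAlperin.isCentral_center E).2 P' φ' hφ'
    rw [← h1 w, show Subgroup.inclusion (le_sup_left : P' ≤ P' ⊔ E.center) w =
      Subgroup.inclusion le_sup_right (⟨y, hy⟩ : E.center) from Subtype.ext hw, h2]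
  have hEcS : E.center ≤ S' := sSup_le fun Q hQ => hQ.1
  rw [eq_bot_iff]
  intro y hy
  obtain ⟨x, rfl⟩ := hrange.ge (hEcS hy)
  -- commutators with `x` lie in the centre
  have hd : ∀ s : S, ((s * x * s⁻¹ * x⁻¹ : S) : Ω) ∈ Z := by
    intro s
    rw [← hker, map_mul, map_mul, map_mul, map_inv, map_inv]
    have h := hEc S' (conjHom S' (θ s)) (E.conj_mem le_rfl (hrange ▸ ⟨s, rfl⟩)) _ hy
      ⟨θ x, hrange ▸ ⟨x, rfl⟩⟩ rfl
    rw [conjHom_apply] at h
    rw [h, mul_inv_cancel]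
  let d : S → Ω := fun s => ((s * x * s⁻¹ * x⁻¹ : S) : Ω)
  have hdd : ∀ s, d s = (s : Ω) * x * (s : Ω)⁻¹ * (x : Ω)⁻¹ := fun s => by simp [d]
  have hdZ : ∀ (s : S), ∀ t ∈ S, t * d s = d s * t := fun s t ht => hZc _ (hd s) t ht
  have hdmul : ∀ s t : S, d (s * t) = d s * d t := by
    intro s t
    have h1 : d (s * t) = (s : Ω) * d t * (s : Ω)⁻¹ * d s := by
      rw [hdd, hdd, hdd]; simp [mul_assoc]
    rw [h1, hdZ t s s.2, mul_inv_cancel_right, hdZ s _ (hZS (hd t))]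
  -- the maps preserving these commutators form a system containing `F`
  let E₁ : FusionSystem S := Cfsg.Agent.FusionAlperin.subSystem F
    (fun P φ => ∀ (a : P) (h1 : (a : Ω) ∈ S) (h2 : φ a ∈ S), d ⟨φ a, h2⟩ = d ⟨a, h1⟩)
    (fun {P g} hP hg a h1 h2 => by
      have e : (⟨conjHom P g a, h2⟩ : S) = ⟨g, hg⟩ * ⟨a, h1⟩ * ⟨g, hg⟩⁻¹ := Subtype.ext rfl
      rw [e, hdmul, hdmul]
      have e1 : d ⟨g, hg⟩ * d ⟨g, hg⟩⁻¹ = 1 := by
        rw [← hdmul, mul_inv_cancel, hdd]; simp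
      rw [hdZ ⟨a, h1⟩ _ (hZS (hd ⟨g, hg⟩)), mul_assoc, e1, mul_one])
    (fun {P Q φ ψ} hφ hψ h1 h2 h a ha1 ha2 => by
      rw [← h1 a ha1 (map_mem_S F hφ a)]
      exact h2 ⟨φ a, h a⟩ _ _)
    (fun {P φ} hφ h1 ψ hψ he a ha1 ha2 => by
      obtain ⟨_, w, rfl⟩ := a
      rw [show (⟨ψ ⟨φ w, w, rfl⟩, ha2⟩ : S) = ⟨w, le_S F hφ w.2⟩ from Subtype.ext (he w)]
      exact (h1 w _ ha1).symm)
  have hcr : ∀ R, F.IsFullyNormalized R → F.IsCentric R → Z ≤ R := fun R hR hRc z hz =>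
    centralizerIn_self_centric hRc ⟨hZS hz, fun r hr => hZc z hz r (hR.1 hr)⟩
  have hE1 : F ≤ E₁ := le_of_centric_radical hS hF E₁ fun R hR hRc _ α hα => by
    have hRS := hR.1
    haveI : Finite R := finite_of_le inferInstance hRS
    refine (mem_autGroup E₁ hRS).2 ⟨autGroup_mem_hom F hRS hα, fun a h1 h2 => ?_⟩
    obtain ⟨γ, hγ, -, hγe⟩ := Cfsg.Agent.FusionAux.exists_induced_aut
      (Cfsg.Agent.FusionAlperin.isNormal_stronglyClosed
        (Cfsg.Agent.FusionAlperin.isCentral_isNormal (Cfsg.Agent.FusionAlperin.isCentral_center F)))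
      hE hRS (hcr R hR hRc) hα
    haveI : Finite S' := hrange ▸ Finite.of_surjective θ.rangeRestrict θ.rangeRestrict_surjective
    set R' := imageAlong θ R
    have hR'S : R' ≤ S' := hrange ▸ Subgroup.map_le_range _ _
    obtain ⟨ψ', hψ', hψ'1, hψ'2⟩ := (Cfsg.Agent.FusionAlperin.isCentral_center E).2 R' _
      (autGroup_mem_hom E hR'S hγ)
    obtain ⟨-, ψ, hψ, hind⟩ := (hE.2.2.2 _ ψ').1 hψ'
    have hapre : (a : Ω) ∈ preimageAlong θ (R' ⊔ E.center) :=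
      ⟨⟨a, h1⟩, Subgroup.mem_comap.2 (Subgroup.mem_sup_left ⟨⟨a, h1⟩, a.2, rfl⟩), rfl⟩
    have hxpre : (x : Ω) ∈ preimageAlong θ (R' ⊔ E.center) :=
      ⟨x, Subgroup.mem_comap.2 (Subgroup.mem_sup_right hy), rfl⟩
    obtain ⟨hP, hψS, hP', hθψ⟩ := hind
    have ha' : θ ⟨a, h1⟩ ∈ R' := ⟨⟨a, h1⟩, a.2, rfl⟩
    have ea : θ ⟨ψ ⟨a, hapre⟩, hψS _⟩ = θ ⟨(α a : R), h2⟩ := by
      rw [← hθψ ⟨a, hapre⟩]
      exact (hψ'1 ⟨θ ⟨a, h1⟩, ha'⟩).trans (hγe a ha')
    have ex' : θ ⟨ψ ⟨x, hxpre⟩, hψS _⟩ = θ x := by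
      rw [← hθψ ⟨x, hxpre⟩]
      exact hψ'2 ⟨θ x, hy⟩
    set sa : S := ⟨ψ ⟨a, hapre⟩, hψS _⟩
    set sx : S := ⟨ψ ⟨x, hxpre⟩, hψS _⟩
    set s2 : S := ⟨(α a : R), h2⟩
    have hza : ((s2⁻¹ * sa : S) : Ω) ∈ Z := by rw [← hker, map_mul, map_inv, ea, inv_mul_cancel]
    have hzx : ((x⁻¹ * sx : S) : Ω) ∈ Z := by rw [← hker, map_mul, map_inv, ex', inv_mul_cancel]
    set za : Ω := ((s2⁻¹ * sa : S) : Ω)
    set zx : Ω := ((x⁻¹ * sx : S) : Ω)
    have hsa : (sa : Ω) = (s2 : Ω) * za := by simp [za]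
    have hsx : (sx : Ω) = (x : Ω) * zx := by simp [zx]
    have hfixd : ψ (⟨a, hapre⟩ * ⟨x, hxpre⟩ * ⟨a, hapre⟩⁻¹ * ⟨x, hxpre⟩⁻¹) = d ⟨a, h1⟩ :=
      ((mem_center_iff hS hF).1 (hd ⟨a, h1⟩)).2 _ ψ hψ _ (by simp)
    rw [map_mul, map_mul, map_mul, map_inv, map_inv] at hfixd
    rw [← hfixd, show ψ ⟨a, hapre⟩ = (sa : Ω) from rfl, show ψ ⟨x, hxpre⟩ = (sx : Ω) from rfl,
      hsa, hsx, hdd]
    have c1 : za * ((x : Ω) * zx) = (x : Ω) * zx * za :=
      (hZc za hza _ (mul_mem x.2 (hZS hzx))).symm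
    have c2 : (s2 : Ω) * zx = zx * (s2 : Ω) := hZc zx hzx _ s2.2
    show _ = (s2 : Ω) * za * ((x : Ω) * zx) * ((s2 : Ω) * za)⁻¹ * ((x : Ω) * zx)⁻¹
    calc (s2 : Ω) * x * (s2 : Ω)⁻¹ * (x : Ω)⁻¹
        = (s2 : Ω) * x * (s2 : Ω)⁻¹ * (zx * zx⁻¹) * (x : Ω)⁻¹ := by group
      _ = (s2 : Ω) * x * ((s2 : Ω)⁻¹ * zx) * zx⁻¹ * (x : Ω)⁻¹ := by group
      _ = (s2 : Ω) * x * (zx * (s2 : Ω)⁻¹) * zx⁻¹ * (x : Ω)⁻¹ := by
          rw [show (s2 : Ω)⁻¹ * zx = zx * (s2 : Ω)⁻¹ from hZc zx hzx _ (inv_mem s2.2)]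
      _ = (s2 : Ω) * (((x : Ω) * zx * za) * za⁻¹) * (s2 : Ω)⁻¹ * zx⁻¹ * (x : Ω)⁻¹ := by group
      _ = _ := by rw [← c1]; group
  have hxZ : ∀ s : S, d s = 1 := by
    have hkerd : F.focalSubgroup ≤ ((MonoidHom.mk' (fun s : S => (⟨d s, hd s⟩ : Z))
        fun a b => Subtype.ext (hdmul a b)).ker).map S.subtype := by
      refine (Subgroup.closure_le _).2 ?_
      rintro _ ⟨P, φ, a, hφ, rfl⟩
      refine ⟨⟨a, le_S F hφ a.2⟩⁻¹ * ⟨φ a, map_mem_S F hφ a⟩, ?_, rfl⟩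
      rw [SetLike.mem_coe, MonoidHom.mem_ker, map_mul, map_inv]
      exact inv_mul_eq_one.2 (Subtype.ext ((hE1 P hφ).2 a _ _).symm)
    intro s
    obtain ⟨t, ht, he⟩ := hkerd (hyperfocal_le_focal (p := p) F (hperf.ge s.2))
    obtain rfl : t = s := Subtype.ext he
    exact congrArg Subtype.val (MonoidHom.mem_ker.1 ht)
  have hxc : ∀ s ∈ S, s * (x : Ω) = (x : Ω) * s := by
    intro s hs
    have h := hxZ ⟨s, hs⟩
    rw [hdd, mul_inv_eq_one, mul_inv_eq_iff_eq_mul] at h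
    exact h
  -- `x` is fixed by every map
  let E₂ : FusionSystem S := Cfsg.Agent.FusionAlperin.subSystem F
    (fun P φ => ∀ a : P, (a : Ω) = x ↔ φ a = x)
    (fun {P g} _ hg a => by
      rw [conjHom_apply, mul_inv_eq_iff_eq_mul, ← hxc g hg, mul_right_inj])
    (fun {P Q φ ψ} hφ hψ h1 h2 h a => (h1 a).trans (h2 ⟨φ a, h a⟩))
    (fun {P φ} hφ h1 ψ hψ he a => by
      obtain ⟨_, w, rfl⟩ := a
      rw [he w]
      exact (h1 w).symm)
  have hfin : (x : Ω) ∈ Z := by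
    refine (mem_center_iff hS hF).2 ⟨x.2, fun P φ hφ a ha => (((le_of_centric_radical hS hF E₂ ?_) P hφ).2 a).1 ha⟩
    intro R hR hRc _
    have hRS := hR.1
    haveI : Finite R := finite_of_le inferInstance hRS
    have hxR : (x : Ω) ∈ R := centralizerIn_self_centric hRc ⟨x.2, fun r hr => hxc r (hRS hr)⟩
    let xr : R := ⟨x, hxR⟩
    set A := F.autGroup R
    have hdz : ∀ a : A, ((((a : MulAut R) xr : R)) : Ω) * (x : Ω)⁻¹ ∈ Z := by
      intro a
      obtain ⟨γ, hγ, -, hγe⟩ := Cfsg.Agent.FusionAux.exists_induced_aut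
        (Cfsg.Agent.FusionAlperin.isNormal_stronglyClosed
          (Cfsg.Agent.FusionAlperin.isCentral_isNormal (Cfsg.Agent.FusionAlperin.isCentral_center F)))
        hE hRS (hcr R hR hRc) a.2
      have hx' : θ x ∈ imageAlong θ R := ⟨x, hxR, rfl⟩
      have h1 := hγe xr hx'
      rw [show ((γ ⟨_, hx'⟩ : imageAlong θ R) : Ω') = θ x from
        hEc _ _ (autGroup_mem_hom E (hrange ▸ Subgroup.map_le_range _ _) hγ) _ hy ⟨_, hx'⟩ rfl] at h1
      have := (hker (⟨(((a : MulAut R) xr : R) : Ω), hRS ((a : MulAut R) xr).2⟩ * x⁻¹)).1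
        (by rw [map_mul, map_inv, ← h1, mul_inv_cancel])
      exact this
    let δ : A →* Z := MonoidHom.mk' (fun a => ⟨_, hdz a⟩) fun a b => by
      apply Subtype.ext
      have hb : (b : MulAut R) xr = ⟨_, hcr R hR hRc (hdz b)⟩ * xr := Subtype.ext (by simp [xr])
      show ((((a : MulAut R) * (b : MulAut R)) xr : R) : Ω) * (x : Ω)⁻¹ = _
      have e := congrArg (fun w => (((a : MulAut R) w : R) : Ω)) hb
      simp only [map_mul] at e
      rw [MulAut.mul_apply, e]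
      have hzb : ((((a : MulAut R) ⟨_, hcr R hR hRc (hdz b)⟩ : R)) : Ω) =
          (((b : MulAut R) xr : R) : Ω) * (x : Ω)⁻¹ :=
        ((mem_center_iff hS hF).1 (hdz b)).2 _ _ (autGroup_mem_hom F hRS a.2) _ rfl
      rw [Subgroup.coe_mul, hzb, mul_assoc]
      exact (hZc _ (hdz b) _ (mul_mem (hRS ((a : MulAut R) xr).2) (inv_mem x.2))).symm
    obtain ⟨-, U, hU⟩ := (saturated_fullyNormalized hS hF hR).2
    have hUle : (U : Subgroup A) ≤ δ.ker := by
      intro u hu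
      rw [hU, Subgroup.mem_subgroupOf] at hu
      obtain ⟨g, hg, he⟩ := mem_autInducedBy.1 hu
      rw [MonoidHom.mem_ker]
      apply Subtype.ext
      show ((((u : MulAut R) xr) : R) : Ω) * (x : Ω)⁻¹ = 1
      rw [he, hxc g hg, mul_inv_cancel_right, mul_inv_cancel]
    haveI : Finite Z := finite_of_le inferInstance hZS
    have hidx : δ.ker.index = 1 := by
      have h1 : δ.ker.index ∣ (U : Subgroup A).index := Subgroup.index_dvd_of_le hUle
      obtain ⟨k, hk⟩ := ((hS.to_le hZS).to_subgroup δ.range).exists_card_eq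
      rw [Subgroup.index_ker, hk] at h1 ⊢
      rcases Nat.eq_zero_or_pos k with rfl | hk0
      · exact pow_zero p
      · exact absurd ((dvd_pow_self p hk0.ne').trans h1) U.not_dvd_index
    intro α hα
    refine (mem_autGroup E₂ hRS).2 ⟨autGroup_mem_hom F hRS hα, fun a => ?_⟩
    have hk : (⟨α, hα⟩ : A) ∈ δ.ker := by rw [Subgroup.index_eq_one.1 hidx]; trivial
    have := congrArg Subtype.val (MonoidHom.mem_ker.1 hk)
    change ((α xr : R) : Ω) * (x : Ω)⁻¹ = 1 at this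
    have hx1 : α xr = xr := Subtype.ext (mul_inv_eq_one.1 this)
    constructor
    · intro ha
      show ((α a : R) : Ω) = x
      rw [show a = xr from Subtype.ext ha, hx1]
    · intro ha
      have h2 : α a = α xr := Subtype.ext (ha.trans (congrArg Subtype.val hx1).symm)
      rw [α.injective h2]
  rw [Subgroup.mem_bot, hker]
  exact hfin

end helpers

/-- An analogue of Grün's lemma for fusion systems. Let F be a saturated fusion system over a finite p-group S that is perfect in the sense that its hyperfocal subgroup is all of S (F coincides with its p-residual subsystem). Then the second centre of F equals its centre: every fusion system over S/(Z(F) ∩ S) that is the factor system of F modulo its centre Z(F), read through the quotient map, has trivial centre. -/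
theorem result {Ω : Type*} [Group Ω] {S : Subgroup Ω} [Finite S] (p : ℕ) [Fact p.Prime] (hS : IsPGroup p S) (F : Cfsg.FusionSystem S) (hF : F.IsSaturated p)
    (hperf : F.hyperfocalSubgroup p = S)
    (E : Cfsg.FusionSystem (⊤ : Subgroup (↥S ⧸ (F.center).subgroupOf S)))
    (hE : F.IsFactorSystem F.center (QuotientGroup.mk' ((F.center).subgroupOf S)) E) : E.center = ⊥ := by
  exact center_factor_eq_bot hS hF hperf _ (fun s => (hE.2.1 s)) E hE

end Cfsg.Agent.S5315
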