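import Cfsg.Statements.S5328
import Cfsg.Agent.FusionBiset.Basic

set_option autoImplicit false
universe u
open Cfsg

namespace Cfsg.Agent.S5328

/-- Every fusion system over a finite p-group S, saturated or not, is realized inside some finite group: there is a finite group G and an injective homomorphism ι of S into G such that the maps of the system are exactly the homomorphisms between subgroups of S that become conjugations by elements of G (the image of S need not be a Sylow p-subgroup of G). -/
theorem result {Ω : Type u} [Group Ω] {S : Subgroup Ω} [Finite S] (p : ℕ) [Fact p.Prime] (hS : IsPGroup p S) (F : Cfsg.FusionSystem S) : ∃ (G : Type u) (_ : Group G) (_ : Finite G) (ι : ↥S →* G), F.IsRealizedBy ι := by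
  obtain ⟨c, hc, hd, hst⟩ := Cfsg.Agent.FusionBiset.exists_semicharacteristic F
  exact ⟨Cfsg.Agent.FusionBiset.parkGroup c, inferInstance, inferInstance, Cfsg.Agent.FusionBiset.parkHom c,
    Cfsg.Agent.FusionBiset.parkHom_isRealizedBy hc hd hst⟩

end Cfsg.Agent.S5328
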