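import Cfsg.Statements.S5329
import Cfsg.Agent.FusionBiset.Transfer

set_option autoImplicit false
open Cfsg

namespace Cfsg.Agent.S5329

/-- For a saturated fusion system F over a finite p-group S, the focal subgroup and the derived subgroup of S meet the centre Z(F) of the system in the same subgroup: foc(F) ∩ Z(F) = S′ ∩ Z(F). -/
theorem result {Ω : Type*} [Group Ω] {S : Subgroup Ω} [Finite S] (p : ℕ) [Fact p.Prime] (hS : IsPGroup p S) (F : Cfsg.FusionSystem S) (hF : F.IsSaturated p) : F.focalSubgroup ⊓ F.center = ⁅(S : Subgroup Ω), (S : Subgroup Ω)⁆ ⊓ F.center := by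
  exact Cfsg.Agent.FusionBiset.focal_inf_center hS hF

end Cfsg.Agent.S5329
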