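import Cfsg.Statements.S5330
import Cfsg.Agent.FusionBatch.Basic
import Cfsg.Agent.FusionBiset.Transfer

set_option autoImplicit false
set_option maxHeartbeats 1000000
open Cfsg
open Cfsg.FusionSystem Cfsg.Agent.FusionSys Cfsg.Agent.FusionBatch

namespace Cfsg.Agent.S5330

section helpers

variable {Ω : Type*} [Group Ω] {S : Subgroup Ω}

theorem center_focal [Finite S] {p : ℕ} [Fact p.Prime] (hS : IsPGroup p S) {F : FusionSystem S}
    (hF : F.IsSaturated p) (hab : ∀ x ∈ S, ∀ y ∈ S, x * y = y * x) :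
    F.center ⊓ F.focalSubgroup = ⊥ ∧ F.center ⊔ F.focalSubgroup = S := by
  have hcS : F.center ≤ S := sSup_le fun Q hQ => hQ.1
  have hfS : F.focalSubgroup ≤ S := (Subgroup.closure_le S).2 (by
    rintro _ ⟨P, φ, x, hφ, rfl⟩
    exact S.mul_mem (S.inv_mem (le_S F hφ x.2)) (map_mem_S F hφ x))
  refine ⟨?_, le_antisymm (sup_le hcS hfS) fun x hx => ?_⟩
  · rw [inf_comm, Cfsg.Agent.FusionBiset.focal_inf_center hS hF]
    refine le_bot_iff.1 (inf_le_left.trans ?_)
    rw [Subgroup.commutator_le]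
    intro a ha b hb
    rw [Subgroup.mem_bot, commutatorElement_def, hab a ha b hb]
    simp
  · classical
    letI : CommGroup S := { (inferInstance : Group S) with
      mul_comm := fun a b => Subtype.ext (hab _ a.2 _ b.2) }
    letI : Fintype (F.autGroup S) := Fintype.ofFinite _
    set z : S := ∏ a : F.autGroup S, (a : MulAut S) ⟨x, hx⟩ with hz
    have hzc : (z : Ω) ∈ F.center := by
      refine (mem_center_iff hS hF).2 ⟨z.2, fun P φ hφ w hw => ?_⟩
      obtain ⟨α, hα, he⟩ := abelian_extends hS hF hab hφ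
      rw [he w, show (⟨(w : Ω), le_S F hφ w.2⟩ : S) = z from Subtype.ext hw]
      congr 1
      rw [hz, map_prod]
      exact Fintype.prod_equiv (Equiv.mulLeft ⟨α, hα⟩) _ _ (fun a => rfl)
    set K : Subgroup S := (F.center ⊔ F.focalSubgroup).subgroupOf S
    have hzK : z ∈ K := Subgroup.mem_subgroupOf.2 (Subgroup.mem_sup_left hzc)
    have hdiff : z⁻¹ * (⟨x, hx⟩ : S) ^ Nat.card (F.autGroup S) ∈ K := by
      rw [Nat.card_eq_fintype_card, ← Finset.card_univ, ← Finset.prod_const, hz, ← Finset.prod_inv_distrib,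
        ← Finset.prod_mul_distrib]
      refine K.prod_mem fun a _ => Subgroup.mem_subgroupOf.2 (Subgroup.mem_sup_right ?_)
      have := Subgroup.inv_mem F.focalSubgroup (Subgroup.subset_closure
        (⟨S, _, ⟨x, hx⟩, autGroup_mem_hom F le_rfl a.2, rfl⟩ :
          ∃ (P : Subgroup Ω) (φ : P →* Ω) (w : P), φ ∈ F.Hom P ∧
            (x : Ω)⁻¹ * ((((a : MulAut S) ⟨x, hx⟩ : S)) : Ω) = (w : Ω)⁻¹ * φ w))
      simpa using this
    have hpow : (⟨x, hx⟩ : S) ^ Nat.card (F.autGroup S) ∈ K := by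
      have := K.mul_mem hzK hdiff
      rwa [mul_inv_cancel_left] at this
    obtain ⟨R, hR⟩ := autGroup_self_sylow hS hF
    have hnd : ¬ p ∣ Nat.card (F.autGroup S) := by
      have h1 : (R : Subgroup (F.autGroup S)) = ⊥ := by
        rw [hR, Subgroup.subgroupOf_eq_bot]
        refine disjoint_iff_inf_le.2 ?_
        rintro _ ⟨⟨g, rfl⟩, -⟩
        rw [Subgroup.mem_bot]
        exact MulEquiv.ext fun y => by simp [MulAut.conj_apply, mul_comm g y]
      have := R.not_dvd_index
      rwa [h1, Subgroup.index_bot] at this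
    obtain ⟨k, hk⟩ := hS.exists_card_eq
    have hcop : (Nat.card S).Coprime (Nat.card (F.autGroup S)) :=
      hk ▸ Nat.Coprime.pow_left _ ((Fact.out : p.Prime).coprime_iff_not_dvd.2 hnd)
    have hfin := (powCoprime hcop).surjective
    have hxK : (⟨x, hx⟩ : S) ∈ K := by
      have h2 : (⟨x, hx⟩ : S) ∈ Subgroup.zpowers ((⟨x, hx⟩ : S) ^ Nat.card (F.autGroup S)) :=
        mem_zpowers_pow_iff.2 (Nat.Coprime.symm (hcop.coprime_dvd_left (orderOf_dvd_natCard _)))
      exact Subgroup.zpowers_le.2 hpow h2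
    exact Subgroup.mem_subgroupOf.1 hxK

end helpers

/-- Let F be a saturated fusion system over a finite abelian p-group S. Then S is the internal direct product of the centre of the system and the focal subgroup: Z(F) ∩ foc(F) = 1 and Z(F)·foc(F) = S. -/
theorem result {Ω : Type*} [Group Ω] {S : Subgroup Ω} [Finite S] (p : ℕ) [Fact p.Prime] (hS : IsPGroup p S) (F : Cfsg.FusionSystem S) (hF : F.IsSaturated p) (hab : ∀ x ∈ S, ∀ y ∈ S, x * y = y * x) : F.center ⊓ F.focalSubgroup = ⊥ ∧ F.center ⊔ F.focalSubgroup = S := by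
  exact center_focal hS hF hab

end Cfsg.Agent.S5330
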