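import Cfsg.Statements.S5331
import Cfsg.Agent.FusionBatch.AbelianLayers
import Cfsg.Agent.FusionBatch.Basic

set_option autoImplicit false
set_option maxHeartbeats 1000000
open Cfsg

namespace Cfsg.Agent.S5331

open Cfsg.Agent.FusionBatch.AbelianLayers in
theorem aut_two_group {M : Type*} [Group M] [Finite M] {n : ℕ} {a : Fin n → ℕ} (ha : Function.Injective a)
    (e : M ≃* Multiplicative ((i : Fin n) → ZMod (2 ^ a i))) (α : MulAut M) : ∃ k : ℕ, α ^ 2 ^ k = 1 := by
  set N := ∑ i, a i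
  have hN : ∀ i, a i ≤ N := fun i => Finset.single_le_sum (fun j _ => Nat.zero_le (a j)) (Finset.mem_univ i)
  have hcomm : ∀ x y : M, Commute x y := fun x y => e.injective (by rw [map_mul, map_mul, mul_comm])
  have hM : IsPGroup 2 M := fun x => ⟨N, div_zero_of_large e hN ⟨x, rfl⟩⟩
  let C : ℕ → Subgroup M := fun i =>
    { carrier := {x | x ^ 2 = 1 ∧ Div 2 (N - i) x}
      one_mem' := ⟨one_pow _, 1, one_pow _⟩
      mul_mem' := by
        rintro x y ⟨hx, u, rfl⟩ ⟨hy, v, rfl⟩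
        exact ⟨by rw [(hcomm _ _).mul_pow, hx, hy, one_mul], u * v, (hcomm _ _).mul_pow _⟩
      inv_mem' := by
        rintro x ⟨hx, u, rfl⟩
        exact ⟨by rw [inv_pow, hx, inv_one], u⁻¹, inv_pow _ _⟩ }
  have hC0 : ∀ x ∈ C 0, x = 1 := fun x hx => div_zero_of_large e hN (by simpa using hx.2)
  obtain ⟨k, hk⟩ := FusionAux.exists_pow_fix_series hM (α := α) C
    (fun x hx => by rw [hC0 x hx, map_one]) N
    (fun i hi x hx => ⟨hx.1, by
      have := hx.2
      rw [show N - i = N - (i + 1) + 1 by omega] at this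
      exact div_succ this⟩)
    (fun i hi x hx => by
      have hk : N - i = N - (i + 1) + 1 := by omega
      refine ⟨by rw [(hcomm _ _).mul_pow, inv_pow, hx.1, ← map_pow, hx.1, map_one, inv_one, one_mul], ?_⟩
      rw [hk]
      have hinv : x⁻¹ = x := inv_eq_of_mul_eq_one_right (by rw [← pow_two]; exact hx.1)
      by_cases hd : Div 2 (N - (i + 1) + 1) x
      · obtain ⟨u, hu⟩ := hd
        exact ⟨u⁻¹ * α u, by rw [(hcomm _ _).mul_pow, inv_pow, ← map_pow, hu]⟩
      · have hαx : (α x) ^ 2 = 1 := by rw [← map_pow, hx.1, map_one]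
        obtain ⟨m, hm⟩ := layer_step ha e hx.1 hx.2 hd hαx (div_map α hx.2)
        rcases Nat.even_or_odd' m with ⟨c, rfl | rfl⟩
        · rw [pow_mul, hx.1, one_pow, mul_one] at hm
          have h2 := div_map α.symm hm
          rw [MulEquiv.symm_apply_apply] at h2
          exact absurd h2 hd
        · rw [pow_succ, pow_mul, hx.1, one_pow, one_mul] at hm
          rwa [hinv, (hcomm x (α x)).eq]) N le_rfl
  set β := α ^ 2 ^ k with hβ
  obtain ⟨f, m, hm, hfm⟩ := Nat.exists_eq_pow_mul_and_not_dvd (orderOf_pos β).ne' 2 (by norm_num)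
  set γ := β ^ 2 ^ f with hγ
  have hc1 : γ ^ m = 1 := by rw [hγ, ← pow_mul, ← hfm, pow_orderOf_eq_one]
  have hcop : (orderOf γ).Coprime 2 :=
    Nat.Coprime.coprime_dvd_left (orderOf_dvd_of_pow_eq_one hc1)
      ((Nat.prime_two.coprime_iff_not_dvd).2 hm).symm
  have hfix2 : ∀ j : ℕ, ∀ x : M, x ^ 2 = 1 → (β ^ j) x = x := by
    intro j
    induction j with
    | zero => intro x _; rfl
    | succ j ih =>
      intro x hx
      rw [pow_succ, MulAut.mul_apply, hk x ⟨hx, by rw [Nat.sub_self]; exact ⟨x, by simp⟩⟩, ih x hx]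
  have hone : ∀ (l : ℕ) (x : M), x ^ 2 ^ l = 1 → γ x = x := by
    intro l
    induction l with
    | zero => intro x hx; rw [pow_zero, pow_one] at hx; rw [hx, map_one]
    | succ l ih =>
      intro x hx
      refine PGroup.apply_eq_of_fixed_commutator hM γ hcop (hfix2 _ _ ?_)
      rw [(hcomm _ _).mul_pow, inv_pow, ← map_pow, ih (x ^ 2) (by rw [← pow_mul, ← pow_succ']; exact hx),
        inv_mul_cancel]
  refine ⟨k + f, ?_⟩
  rw [pow_add, pow_mul]
  ext x
  obtain ⟨l, hl⟩ := hM x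
  exact hone l x hl

open Cfsg.FusionSystem Cfsg.Agent.FusionSys Cfsg.Agent.FusionBatch in
theorem hom_eq {Ω : Type*} [Group Ω] {S : Subgroup Ω} [Finite S] {n : ℕ} (a : Fin n → ℕ)
    (ha : Function.Injective a) (e : ↥S ≃* Multiplicative ((i : Fin n) → ZMod (2 ^ a i)))
    (F : Cfsg.FusionSystem S) (hF : F.IsSaturated 2) (P : Subgroup Ω) :
    F.Hom P = (Cfsg.innerFusionSystem S).Hom P := by
  set N := ∑ i, a i
  have hN : ∀ i, a i ≤ N := fun i => Finset.single_le_sum (fun j _ => Nat.zero_le (a j)) (Finset.mem_univ i)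
  have hS : IsPGroup 2 S := fun x => ⟨N, AbelianLayers.div_zero_of_large e hN ⟨x, rfl⟩⟩
  have hab : ∀ x ∈ S, ∀ y ∈ S, x * y = y * x := fun x hx y hy =>
    congrArg Subtype.val (e.injective (by rw [map_mul, map_mul, mul_comm]) :
      (⟨x, hx⟩ : S) * ⟨y, hy⟩ = ⟨y, hy⟩ * ⟨x, hx⟩)
  have hA : IsPGroup 2 (F.autGroup S) := fun α =>
    (aut_two_group ha e (α : MulAut S)).imp fun k hk => Subtype.ext (by simpa using hk)
  obtain ⟨R, hR⟩ := autGroup_self_sylow hS hF
  have hRtop : (R : Subgroup (F.autGroup S)) = ⊤ := (R.3 (hA.to_subgroup ⊤) le_top).symm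
  ext φ
  refine ⟨fun hφ => ?_, fun ⟨hPS, g, hg, h⟩ => ?_⟩
  · obtain ⟨α, hα, h⟩ := abelian_extends hS hF hab hφ
    have hmem : (⟨α, hα⟩ : F.autGroup S) ∈ (R : Subgroup (F.autGroup S)) := hRtop ▸ Subgroup.mem_top _
    rw [hR] at hmem
    obtain ⟨s, hs⟩ := hmem
    refine ⟨le_S F hφ, s, s.2, fun x => ?_⟩
    have h3 := congrArg (fun f : MulAut S => ((f ⟨x, le_S F hφ x.2⟩ : S) : Ω)) hs
    simp only [Subgroup.coe_subtype] at h3
    rw [h x]
    exact h3.symm
  · rw [show φ = conjHom P g from MonoidHom.ext fun x => (h x).trans rfl]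
    exact F.conj_mem hPS hg

/-- Let S be a finite abelian 2-group that is a direct product of cyclic groups of pairwise distinct orders 2^{a_1} < 2^{a_2} < ⋯ < 2^{a_n} (all a_i ≥ 1). Then every saturated fusion system over S is the inner one: its maps are exactly the conjugations by elements of S. -/
theorem result {Ω : Type*} [Group Ω] {S : Subgroup Ω} [Finite S] (n : ℕ) (a : Fin n → ℕ) (ha : StrictMono a) (ha1 : ∀ i, 1 ≤ a i) (e : ↥S ≃* Multiplicative ((i : Fin n) → ZMod (2 ^ a i))) (F : Cfsg.FusionSystem S) (hF : F.IsSaturated 2) (P : Subgroup Ω) : F.Hom P = (Cfsg.innerFusionSystem S).Hom P := by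
  exact hom_eq a ha.injective e F hF P

end Cfsg.Agent.S5331
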