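import Cfsg.Statements.S5332
import Cfsg.Agent.FusionBatch.ConstrainedWitness
-- import your own Cfsg.Agent.* helpers here

set_option autoImplicit false
open Cfsg

namespace Cfsg.Agent.S5332

/-- Let p be odd and F a saturated fusion system over a finite p-group S that is not the inner system of S. Then F contains a saturated constrained subsystem over S that is itself not the inner system. -/
theorem result {Ω : Type*} [Group Ω] {S : Subgroup Ω} [Finite S] (p : ℕ) [Fact p.Prime] (hS : IsPGroup p S) (F : Cfsg.FusionSystem S) (hF : F.IsSaturated p) (hp : p ≠ 2) (hne : ∃ P : Subgroup Ω, F.Hom P ≠ (Cfsg.innerFusionSystem S).Hom P) : ∃ E : Cfsg.FusionSystem S, E ≤ F ∧ E.IsConstrained p ∧ ∃ P : Subgroup Ω, E.Hom P ≠ (Cfsg.innerFusionSystem S).Hom P := by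
  by_contra hcon
  push Not at hcon
  obtain ⟨P, hP⟩ := hne
  have key : ∀ (T : Subgroup Ω) (E : Cfsg.FusionSystem T), T = S → (∀ P, E.Hom P ⊆ F.Hom P) →
      E.IsConstrained p → ∀ P, E.Hom P = (Cfsg.innerFusionSystem T).Hom P := by
    rintro T E rfl hle hc
    exact hcon E hle hc
  have hloc : Cfsg.Agent.FusionBatch.ConstrainedWitness.LocalP F p := by
    intro Q hQ hn hc
    have hT : Cfsg.FusionSystem.normalizerIn S Q = S := inf_eq_left.2 hn
    have hfn := Cfsg.Agent.FusionCrit.isFullyNormalized_of_normal F hQ hn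
    refine Cfsg.Agent.FusionAux.NPC.normP_of_inner hS hQ fun P => key _ (Cfsg.Agent.FusionAux.normSys F Q hQ) hT (fun P φ hφ => hφ.1)
      ⟨Cfsg.Agent.FusionModel.normSys_saturated hS hF hfn, Q,
        Cfsg.Agent.FusionBatch.ConstrainedWitness.normSys_isNormal F hQ, ?_, ?_⟩ P
    · exact le_inf hQ Subgroup.le_normalizer
    · intro Y hY
      obtain ⟨φ, hφ, hr⟩ := hY
      obtain ⟨hφF, -, -, ψ, hψ, hψe, hψQ⟩ := hφ
      have hYQ : Y = Q := by
        rw [← hr]
        refine Eq.trans ?_ hψQ
        ext y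
        constructor
        · rintro ⟨x, rfl⟩
          exact ⟨Subgroup.inclusion le_sup_left x, x.2, hψe x⟩
        · rintro ⟨x, hx, rfl⟩
          exact ⟨⟨x, hx⟩, (hψe _).symm⟩
      rw [hYQ]
      exact fun c hc' => hc ⟨hc'.1.1, hc'.2⟩
  exact hP (by rw [Cfsg.Agent.FusionBatch.ConstrainedWitness.inner_of_localP hp (Nat.card S) hS F hF hloc rfl])

end Cfsg.Agent.S5332
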