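import Cfsg.Statements.S5342
import Cfsg.Agent.FusionBatch.CoreRadical

set_option autoImplicit false
set_option maxHeartbeats 1000000
open Cfsg
open Cfsg.FusionSystem Cfsg.Agent.FusionSys Cfsg.Agent.FusionBatch

namespace Cfsg.Agent.S5342

section helpers

variable {Ω : Type*} [Group Ω]

theorem constrained_of_normal {p : ℕ} [Fact p.Prime] {S T : Subgroup Ω} [Finite S] (hS : IsPGroup p S)
    {F : FusionSystem S} (hF : F.IsConstrained p) {E : FusionSystem T} (hE : E.IsNormalIn F p) :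
    E.IsConstrained p := by
  obtain ⟨⟨hEsat, hFsat, hsub, hscT, -, -⟩, -⟩ := hE
  obtain ⟨-, Q₀, hQ₀n, hQ₀c⟩ := hF
  have hTS := hscT.1
  haveI : Finite T := finite_of_le inferInstance hTS
  obtain ⟨Q, hQn, hQmax, hQc⟩ : ∃ Q, F.IsNormal Q ∧ (∀ W, F.IsNormal W → W ≤ Q) ∧ F.IsCentric Q :=
    ⟨F.core, Cfsg.Agent.FusionAlperin.isNormal_core F, fun W hW => le_sSup hW, core_isCentric hQ₀n hQ₀c⟩
  haveI : Finite Q := finite_of_le inferInstance hQn.1
  have hscQ := Cfsg.Agent.FusionAlperin.isNormal_stronglyClosed hQn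
  set R := T ⊓ Q
  have hscR : E.StronglyClosed R := ⟨inf_le_left, fun P hP φ hφ x =>
    ⟨map_mem_S E hφ x, hscQ.2 P (hP.trans inf_le_right) φ (hsub P hφ) x⟩⟩
  have hRn : E.IsNormal R := by
    refine isNormal_of_mem_radical (hS.to_le hTS) hEsat fun P hPn hPc hPr => ⟨?_, fun α hα x hx =>
      Cfsg.Agent.FusionAlperin.sc_map_mem hscR (autGroup_mem_hom E hPn.1 hα) hx⟩
    refine le_radical_of_carried (hS.to_le hTS) hscR hPc hPr fun γ hγ r hr => ?_
    obtain ⟨ψ, hψ, h1, h2⟩ := hQn.2 P _ (hsub P (autGroup_mem_hom E hPn.1 hγ))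
    refine ⟨ψ ⟨r, le_sup_right (a := P) hr.2⟩,
      ⟨Cfsg.Agent.FusionAlperin.sc_map_mem hscT hψ hr.1, h2.le ((mem_map_subgroupOf _).2 ⟨_, hr.2, rfl⟩)⟩,
      fun x y _ hy => ?_⟩
    have e1 := h1 x
    have e2 := h1 y
    simp only [MonoidHom.comp_apply, MulEquiv.coe_toMonoidHom, Subgroup.coe_subtype] at e1 e2
    rw [← e1, ← e2, show Subgroup.inclusion (le_sup_left : P ≤ P ⊔ Q) y =
      ⟨r, le_sup_right (a := P) hr.2⟩ * Subgroup.inclusion le_sup_left x * ⟨r, le_sup_right (a := P) hr.2⟩⁻¹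
      from Subtype.ext hy, map_mul, map_mul, map_inv]
  refine ⟨hEsat, R, hRn, inf_le_left, fun R' hR' => ?_⟩
  obtain rfl : R' = R := by
    obtain ⟨φ, hφ, rfl⟩ := hR'
    haveI : Finite R := finite_of_le inferInstance (inf_le_left.trans hTS)
    exact range_eq_of_image_le (E.injective_of_mem hφ)
      (by rintro _ ⟨x, rfl⟩; exact hscR.2 R le_rfl φ hφ x) le_rfl
  rintro t ⟨htT, htc⟩
  refine ⟨htT, ?_⟩
  have hnorm : ∀ s ∈ S, s ∈ Subgroup.normalizer (Q : Set Ω) :=
    fun s hs => Cfsg.Agent.FusionAlperin.isNormal_le_normalizer hQn hs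
  let M : Subgroup (MulAut Q) :=
    { carrier := {a | a ∈ F.autGroup Q ∧ (∀ x : Q, (x : Ω)⁻¹ * (a x : Ω) ∈ T) ∧
        ∀ x : Q, (x : Ω) ∈ T → a x = x}
      one_mem' := ⟨one_mem _, fun x => by simp, fun x _ => rfl⟩
      mul_mem' := fun {a b} ha hb => by
        refine ⟨mul_mem ha.1 hb.1, fun x => ?_, fun x hx => ?_⟩
        · have := T.mul_mem (hb.2.1 x) (ha.2.1 (b x))
          simpa [mul_assoc] using this
        · rw [MulAut.mul_apply, hb.2.2 x hx, ha.2.2 x hx]
      inv_mem' := fun {a} ha => by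
        refine ⟨inv_mem ha.1, fun x => ?_, fun x hx => ?_⟩
        · have := T.inv_mem (ha.2.1 (a⁻¹ x))
          simpa using this
        · conv_lhs => rw [← ha.2.2 x hx]
          exact a.symm_apply_apply x }
  refine mem_core_of_normal_pGroup hS hFsat hQn hQmax hQc M ?_ ?_ (g := t)
    ⟨hTS htT, hnorm t (hTS htT)⟩ ?_
  · intro a ha m hm
    refine ⟨mul_mem (mul_mem ha hm.1) (inv_mem ha), fun x => ?_, fun x hx => ?_⟩
    · have hxy : a (a⁻¹ x) = x := a.apply_symm_apply x
      have h1 := Cfsg.Agent.FusionAlperin.sc_map_mem hscT (autGroup_mem_hom F hQn.1 ha)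
        (x := (a⁻¹ x)⁻¹ * m (a⁻¹ x)) (hm.2.1 (a⁻¹ x))
      simp only [MonoidHom.comp_apply, MulEquiv.coe_toMonoidHom, map_mul, map_inv, hxy] at h1
      exact h1
    · have hmem : ((a⁻¹ x : Q) : Ω) ∈ T := Cfsg.Agent.FusionAlperin.sc_map_mem hscT
        (autGroup_mem_hom F hQn.1 (inv_mem ha)) hx
      rw [MulAut.mul_apply, MulAut.mul_apply, hm.2.2 (a⁻¹ x) hmem]
      exact a.apply_symm_apply x
  · intro m
    obtain ⟨n, hn⟩ := (hS.to_le hQn.1).exists_card_eq
    refine ⟨n, Subtype.ext (MulEquiv.ext fun x => ?_)⟩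
    set α : MulAut Q := (m : MulAut Q)
    set d : Q := x⁻¹ * α x
    have hd : α d = d := m.2.2.2 d (m.2.2.1 x)
    have hstep : ∀ k : ℕ, (α ^ k) x = x * d ^ k := by
      intro k
      induction k with
      | zero => simp
      | succ k ih => rw [pow_succ' α k, MulAut.mul_apply, ih, map_mul, map_pow, hd, pow_succ']; simp [d, mul_assoc]
    show ((m ^ p ^ n : M) : MulAut Q) x = x
    rw [SubmonoidClass.coe_pow, hstep, ← hn, pow_card_eq_one', mul_one]
  · refine ⟨autInducedBy_le_autGroup F hQn.1 (mem_autInducedBy.2 ⟨t, hTS htT, fun x => rfl⟩),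
      fun x => ?_, fun x hx => ?_⟩
    · show (x : Ω)⁻¹ * (t * x * t⁻¹) ∈ T
      have := Cfsg.Agent.FusionAlperin.sc_conj_mem hscT (inv_mem (hQn.1 x.2)) htT
      rw [inv_inv] at this
      rw [show (x : Ω)⁻¹ * (t * x * t⁻¹) = ((x : Ω)⁻¹ * t * x) * t⁻¹ by group]
      exact T.mul_mem this (T.inv_mem htT)
    · apply Subtype.ext
      show t * x * t⁻¹ = (x : Ω)
      rw [← htc x ⟨hx, x.2⟩, mul_inv_cancel_right]

theorem constrained_of_subnormal {p : ℕ} {S T : Subgroup Ω} {F : FusionSystem S}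
    (E : FusionSystem T) (hE : E.IsSubnormalIn F p) (hS : IsPGroup p S) (hfin : Finite S)
    (hp : Fact p.Prime) (hF : F.IsConstrained p) : E.IsConstrained p := by
  induction hE with
  | refl => exact hF
  | step _ hD ih =>
    have hsc := hD.1.2.2.2.1.1
    exact ih (hS.to_le hsc) (finite_of_le hfin hsc) hp (constrained_of_normal hS hF hD)

end helpers

/-- Let F be a constrained saturated fusion system over a finite p-group S. Then every subsystem of F that is subnormal in F (reached from F by a finite chain of successive normal subsystems) is constrained. -/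
theorem result {Ω : Type*} [Group Ω] {S : Subgroup Ω} [Finite S] (p : ℕ) [Fact p.Prime] (hS : IsPGroup p S) (F : Cfsg.FusionSystem S) (hF : F.IsConstrained p) {T : Subgroup Ω} (E : Cfsg.FusionSystem T) (hE : E.IsSubnormalIn F p) : E.IsConstrained p := by
  exact (constrained_of_subnormal E hE hS inferInstance inferInstance hF)

end Cfsg.Agent.S5342
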