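import Cfsg.Statements.S5521
import Cfsg.Agent.Golay.M24

set_option autoImplicit false
open Cfsg

namespace Cfsg.Agent.S5521

theorem base_card : ((Finset.range 7).image Cfsg.Agent.Golay.basePt).card = 7 := by decide +kernel

/-- The Mathieu group M₂₄ in its natural action on the 24 coordinate positions of the binary Golay code has minimal base size exactly 7: every set of at most 6 positions is fixed pointwise by some non-identity element of M₂₄, while some set of 7 positions is fixed pointwise only by the identity. -/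
theorem result :
    (∀ B : Finset Cfsg.GolayPt, B.card ≤ 6 → ∃ g ∈ Cfsg.M24, g ≠ 1 ∧ ∀ b ∈ B, g b = b) ∧
    (∃ B : Finset Cfsg.GolayPt, B.card = 7 ∧ ∀ g ∈ Cfsg.M24, (∀ b ∈ B, g b = b) → g = 1) := by
  classical
  constructor
  · intro B hB
    have hlt : Fintype.card (B ↪ Cfsg.GolayPt) < Fintype.card Cfsg.M24 := by
      rw [← Nat.card_eq_fintype_card (α := Cfsg.M24), Cfsg.Agent.Golay.card_M24,
        Fintype.card_embedding_eq, Fintype.card_coe, Cfsg.Agent.Golay.card_golayPt]
      interval_cases B.card <;> decide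
    obtain ⟨g, g', hne, he⟩ := Fintype.exists_ne_map_eq_of_card_lt
      (fun g : Cfsg.M24 => (Function.Embedding.subtype (· ∈ B)).trans
        (g : Equiv.Perm Cfsg.GolayPt).toEmbedding) hlt
    refine ⟨((g : Equiv.Perm Cfsg.GolayPt))⁻¹ * g', mul_mem (inv_mem g.2) g'.2, ?_, ?_⟩
    · rw [Ne, inv_mul_eq_one]
      exact fun h => hne (Subtype.ext h)
    · intro b hb
      have h := DFunLike.congr_fun he ⟨b, hb⟩
      rw [Equiv.Perm.mul_apply, Equiv.Perm.inv_eq_iff_eq]
      exact h.symm
  · refine ⟨(Finset.range 7).image Cfsg.Agent.Golay.basePt, base_card, fun g hg h => ?_⟩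
    exact Cfsg.Agent.Golay.eq_one_of_stepsValid hg _ _ Cfsg.Agent.Golay.rigidSteps_valid h

end Cfsg.Agent.S5521
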