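import Cfsg.Statements.S5560
import Cfsg.Agent.Invol.RankOneQuot

set_option autoImplicit false
open Cfsg

namespace Cfsg.Agent.S5560

open Subgroup in
/-- Some conjugate of a Sylow subgroup of a normal subgroup of odd order is normalized by `d`. -/
theorem exists_normalized {G : Type*} [Group G] [Finite G] {H : Subgroup G} [H.Normal]
    (hH : ¬ 2 ∣ Nat.card H) {d : G} (hd : orderOf d = 2) {r : ℕ} [Fact r.Prime] (R : Sylow r H) :
    ∃ R' : Subgroup G, R' ≤ H ∧ Nat.card R' = r ^ (Nat.card H).factorization r ∧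
      ∀ x ∈ R', d * x * d⁻¹ ∈ R' := by
  set Q := (R : Subgroup H).map H.subtype
  have hQH : Q ≤ H := map_subtype_le _
  have htop : normalizer (Q : Set G) ⊔ H = ⊤ := R.normalizer_sup_eq_top
  have hd' : d ∈ normalizer (Q : Set G) ⊔ H := htop ▸ mem_top d
  obtain ⟨n, hn, h, hh, hnh⟩ := mem_sup_of_normal_right.1 hd'
  set m := Nat.card H
  have hmo : Odd m := Nat.odd_iff.2 (Nat.two_dvd_ne_zero.1 hH)
  have hndH : d⁻¹ * n ∈ H := by
    rw [← hnh, mul_inv_rev, mul_assoc, inv_mul_cancel, mul_one]; exact H.inv_mem hh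
  have hn2 : n ^ 2 ∈ H := by
    have e : n ^ 2 = (d * (d⁻¹ * n) * d⁻¹) * (d * d) * (d⁻¹ * n) := by rw [pow_two]; group
    rw [e, Invol.inv_mul_self hd, mul_one]
    exact H.mul_mem (Subgroup.Normal.conj_mem inferInstance _ hndH d) hndH
  set d' := n ^ m with hd'def
  have hd'H : d⁻¹ * d' ∈ H := by
    obtain ⟨k, hk⟩ := hmo
    have e : d⁻¹ * d' = (d⁻¹ * n) * (n ^ 2) ^ k := by
      rw [hd'def, hk, pow_succ', pow_mul, mul_assoc]
    rw [e]
    exact H.mul_mem hndH (H.pow_mem hn2 k)
  have hd'2 : orderOf d' = 2 := by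
    refine Invol.orderOf_eq_two ?_ fun e => ?_
    · rw [hd'def, ← pow_add, ← two_mul, pow_mul]
      exact congrArg Subtype.val (pow_card_eq_one' (x := (⟨_, hn2⟩ : H)) :)
    · rw [e, mul_one] at hd'H
      have h2 := Subgroup.orderOf_dvd_natCard H hd'H
      rw [orderOf_inv, hd] at h2
      exact hH h2
  have hodd : Odd (orderOf (d' * d)) := by
    refine hmo.of_dvd_nat ?_
    rw [show orderOf (d' * d) = orderOf (d * d') by
      rw [← orderOf_inv (d * d'), mul_inv_rev, Invol.inv_eq hd, Invol.inv_eq hd'2]]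
    rw [Invol.inv_eq hd] at hd'H
    exact Subgroup.orderOf_dvd_natCard H hd'H
  obtain ⟨c, -, hc⟩ := Invol.exists_conj_eq_of_odd hd'2 hd hodd
  refine ⟨Q.map (MulAut.conj c).toMonoidHom, ?_, ?_, ?_⟩
  · rintro _ ⟨x, hx, rfl⟩
    exact Subgroup.Normal.conj_mem inferInstance x (hQH hx) c
  · rw [card_map_of_injective (MulAut.conj c).injective,
      card_map_of_injective H.subtype_injective]
    exact R.card_eq_multiplicity
  · rintro _ ⟨x, hx, rfl⟩
    refine ⟨d' * x * d'⁻¹, (mem_normalizer_iff.1 (pow_mem hn m) x).1 hx, ?_⟩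
    rw [← hc]
    simp only [MulEquiv.coe_toMonoidHom, MulAut.conj_apply]
    group

/-- A Z*-type result for an odd prime p. Let G be a finite group and d an involution of G such that the product of any two conjugates of d has order a power of p. Then the product of any two conjugates of d lies in the largest normal p-subgroup O_p(G); in other words the conjugacy class of d lies in the coset O_p(G)d, and d is central modulo O_p(G). -/
theorem result {G : Type*} [Group G] [Finite G] {p : ℕ} (hp : p.Prime) (hp2 : p ≠ 2)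
    (d : G) (hd : orderOf d = 2)
    (hprod : ∀ a ∈ conjugatesOf d, ∀ b ∈ conjugatesOf d, ∃ k : ℕ, orderOf (a * b) = p ^ k) :
    ∀ a ∈ conjugatesOf d, ∀ b ∈ conjugatesOf d, a * b ∈ Cfsg.pCore p G := by
  classical
  have : Fact p.Prime := ⟨hp⟩
  have h2' : Fact (Nat.Prime 2) := ⟨Nat.prime_two⟩
  have hprod' : ∀ g : G, ∃ k : ℕ, orderOf (d * (g * d * g⁻¹)) = p ^ k := fun g =>
    hprod d (mem_conjugatesOf_self) _ (Invol.isConj_conj g d)
  have hppodd : Odd p := hp.odd_of_ne_two hp2
  have hiso : Invol.IsIsolatedInv d := (Invol.isIsolatedInv_iff_odd hd).2 fun g => by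
    rw [Invol.commutator_eq_of_inv hd]
    obtain ⟨k, hk⟩ := hprod' g
    rw [hk]; exact hppodd.pow
  set H := Cfsg.pPrimeCore 2 G with hHdef
  have hHn : H.Normal := by rw [hHdef]; infer_instance
  have hH : ¬ 2 ∣ Nat.card H := Cores.not_dvd_card_pPrimeCore
  have hmemH : ∀ g : G, d * (g * d * g⁻¹) ∈ H := fun g => by
    have := Invol.zStar_theorem G d hiso g
    rwa [Invol.commutator_eq_of_inv hd] at this
  set C := H ⊓ Subgroup.centralizer ({d} : Set G) with hCdef
  have hC0 : Nat.card C ∣ Nat.card H := Subgroup.card_dvd_of_le inf_le_left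
  set i := Nat.card H / Nat.card C with hi
  have hiC : i * Nat.card C = Nat.card H := Nat.div_mul_cancel hC0
  have hi0 : i ≠ 0 := fun e => by
    rw [e, zero_mul] at hiC; exact Nat.card_pos.ne' hiC.symm
  have hip : ∀ q : ℕ, q.Prime → q ∣ i → q = p := by
    intro q hq hqi
    by_contra hne
    have : Fact q.Prime := ⟨hq⟩
    obtain ⟨R, hRH, hRcard, hRd⟩ := exists_normalized (d := d) hH hd (default : Sylow q H)
    have hRC : R ≤ C := fun x hx => ⟨hRH hx, by
      have h1 : d * (x * d * x⁻¹) ∈ R := by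
        rw [← mul_assoc, ← mul_assoc]
        nth_rewrite 2 [← Invol.inv_eq hd]
        exact R.mul_mem (hRd x hx) (R.inv_mem hx)
      obtain ⟨k, hk⟩ := hprod' x
      have h2 := Subgroup.orderOf_dvd_natCard R h1
      rw [hk, hRcard] at h2
      have h3 : p ^ k = 1 := Nat.eq_one_of_dvd_coprimes
        (((Nat.coprime_primes hp hq).2 (Ne.symm hne)).pow k ((Nat.card H).factorization q))
        dvd_rfl h2
      rw [h3, orderOf_eq_one_iff] at hk
      refine Subgroup.mem_centralizer_singleton_iff.2 ?_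
      have h4 : x * d * x⁻¹ = d := by
        rw [eq_inv_of_mul_eq_one_right hk, Invol.inv_eq hd]
      exact mul_inv_eq_iff_eq_mul.1 h4⟩
    have h5 : q * q ^ (Nat.card H).factorization q ∣ Nat.card H := by
      have h6 := mul_dvd_mul hqi (Subgroup.card_dvd_of_le hRC)
      rwa [hiC, hRcard] at h6
    rw [← pow_succ'] at h5
    exact Nat.pow_succ_factorization_not_dvd Nat.card_pos.ne' hq h5
  obtain ⟨P, hPH, hPcard, hPd⟩ := exists_normalized (d := d) hH hd (default : Sylow p H)
  have hP : IsPGroup p P := IsPGroup.of_card hPcard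
  -- `H = P * C`
  have hsurj : ∀ h ∈ H, ∃ x ∈ P, x⁻¹ * h ∈ C := by
    have hPC : Nat.card (C.subgroupOf P) * i ∣ Nat.card P := by
      obtain ⟨a, ha⟩ := (hP.to_subgroup (C.subgroupOf P)).exists_card_eq
      obtain ⟨b, hb⟩ : ∃ b, i = p ^ b := ⟨_, Nat.eq_prime_pow_of_unique_prime_dvd hi0
        fun {q} hq hqi => hip q hq hqi⟩
      have hd1 : Nat.card (C.subgroupOf P) ∣ Nat.card C :=
        (Subgroup.card_map_of_injective (K := C.subgroupOf P) P.subtype_injective) ▸
          Subgroup.card_dvd_of_le (fun x hx => by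
            obtain ⟨y, hy, rfl⟩ := hx
            exact hy)
      have hd2 : Nat.card (C.subgroupOf P) * i ∣ Nat.card H := by
        rw [← hiC, mul_comm i]
        exact mul_dvd_mul hd1 dvd_rfl
      rw [ha, hb, ← pow_add] at hd2 ⊢
      rw [hPcard]
      exact pow_dvd_pow p ((hp.pow_dvd_iff_le_factorization Nat.card_pos.ne').1 hd2)
    let f : P ⧸ C.subgroupOf P → H ⧸ C.subgroupOf H :=
      Quotient.map' (fun x => ⟨x.1, hPH x.2⟩) fun a b h => by
        rw [QuotientGroup.leftRel_apply] at h ⊢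
        exact h
    have hf : Function.Injective f := by
      rintro ⟨a⟩ ⟨b⟩ h
      have h' : (⟨a.1, hPH a.2⟩ : H)⁻¹ * ⟨b.1, hPH b.2⟩ ∈ C.subgroupOf H :=
        QuotientGroup.eq.1 (h : QuotientGroup.mk (s := C.subgroupOf H) (⟨a.1, hPH a.2⟩ : H) =
          QuotientGroup.mk (⟨b.1, hPH b.2⟩ : H))
      exact QuotientGroup.eq.2 h'
    have hcard : Nat.card (H ⧸ C.subgroupOf H) ≤ Nat.card (P ⧸ C.subgroupOf P) := by
      have e1 := Subgroup.card_eq_card_quotient_mul_card_subgroup (C.subgroupOf H)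
      rw [Nat.card_congr (Subgroup.subgroupOfEquivOfLe (inf_le_left : C ≤ H)).toEquiv] at e1
      have e2 := Subgroup.card_eq_card_quotient_mul_card_subgroup (C.subgroupOf P)
      have e3 : Nat.card (H ⧸ C.subgroupOf H) = i :=
        Nat.eq_of_mul_eq_mul_right Nat.card_pos (e1.symm.trans hiC.symm)
      rw [e3]
      have e4 := Nat.le_of_dvd Nat.card_pos hPC
      rw [e2, mul_comm] at e4
      exact Nat.le_of_mul_le_mul_right e4 Nat.card_pos
    have hbij := hf.bijective_of_nat_card_le hcard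
    intro h hh
    obtain ⟨x, hx⟩ := hbij.2 (QuotientGroup.mk (⟨h, hh⟩ : H))
    obtain ⟨x, rfl⟩ := QuotientGroup.mk_surjective x
    exact ⟨x.1, x.2, show ((⟨x.1, hPH x.2⟩ : H)⁻¹ * ⟨h, hh⟩ : H) ∈ C.subgroupOf H from
      QuotientGroup.eq.1 hx⟩
  have hmemP : ∀ g : G, d * (g * d * g⁻¹) ∈ P := by
    intro g
    set e := g * d * g⁻¹
    have he2 : orderOf e = 2 := (Invol.orderOf_conj g d).trans hd
    obtain ⟨k, hk⟩ := hprod' g
    obtain ⟨c, hc, hce⟩ := Invol.exists_conj_eq_of_odd hd he2 (hk ▸ hppodd.pow)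
    obtain ⟨x, hx, h, hh, hxh⟩ : ∃ x ∈ P, ∃ h, Commute h d ∧ c * d * c⁻¹ = x * (h * d * h⁻¹) * x⁻¹ := by
      have hle : Subgroup.closure ({d, e} : Set G) ≤ H ⊔ Subgroup.zpowers d := by
        rw [Subgroup.closure_le]
        rintro y (rfl | rfl)
        · exact Subgroup.mem_sup_right (Subgroup.mem_zpowers _)
        · have h0 : d * (d * e) ∈ H ⊔ Subgroup.zpowers d :=
            mul_mem (Subgroup.mem_sup_right (Subgroup.mem_zpowers d))
              (Subgroup.mem_sup_left (hmemH g))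
          rw [Invol.mul_self_cancel hd] at h0
          exact h0
      obtain ⟨c1, hc1, c2, hc2, hc12⟩ := Subgroup.mem_sup_of_normal_left.1 (hle hc)
      obtain ⟨x, hx, hxC⟩ := hsurj c1 hc1
      obtain ⟨j, rfl⟩ := hc2
      refine ⟨x, hx, x⁻¹ * c, ?_, by group⟩
      rw [← hc12, ← mul_assoc]
      have hx2 : Commute (x⁻¹ * c1) d := Subgroup.mem_centralizer_singleton_iff.1 hxC.2
      exact hx2.mul_left ((Commute.refl d).zpow_left j)
    rw [← hce, hxh, show h * d * h⁻¹ = d from Invol.commute_iff_conj.1 hh, ← mul_assoc, ← mul_assoc]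
    nth_rewrite 2 [← Invol.inv_eq hd]
    exact P.mul_mem (hPd x hx) (P.inv_mem hx)
  have hsub : ∀ a ∈ conjugatesOf d, ∀ b ∈ conjugatesOf d, a * b ∈ P := by
    intro a ha b hb
    obtain ⟨g, rfl⟩ := isConj_iff.1 (show IsConj d a from ha)
    obtain ⟨k, rfl⟩ := isConj_iff.1 (show IsConj d b from hb)
    have h1 := P.mul_mem (P.inv_mem (hmemP g)) (hmemP k)
    rwa [mul_inv_rev, Invol.inv_eq ((Invol.orderOf_conj g d).trans hd), Invol.inv_eq hd,
      mul_assoc, Invol.mul_self_cancel hd] at h1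
  set N := Subgroup.closure {z : G | ∃ a ∈ conjugatesOf d, ∃ b ∈ conjugatesOf d, a * b = z}
  have hNn : N.Normal := by
    refine ⟨fun n hn g => ?_⟩
    suffices hle : N ≤ N.comap (MulAut.conj g).toMonoidHom from hle hn
    rw [Subgroup.closure_le]
    rintro _ ⟨a, ha, b, hb, rfl⟩
    refine Subgroup.subset_closure ?_
    exact ⟨g * a * g⁻¹, (show IsConj d _ from ha).trans (Invol.isConj_conj g a),
      g * b * g⁻¹, (show IsConj d _ from hb).trans (Invol.isConj_conj g b),
      by simp only [MulEquiv.coe_toMonoidHom, MulAut.conj_apply]; group⟩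
  have hNP : N ≤ P := by
    rw [Subgroup.closure_le]
    rintro _ ⟨a, ha, b, hb, rfl⟩
    exact hsub a ha b hb
  intro a ha b hb
  exact Cores.le_pCore hNn (hP.to_le hNP) (Subgroup.subset_closure ⟨a, ha, b, hb, rfl⟩)

end Cfsg.Agent.S5560
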