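import Cfsg.Statements.S5562
-- import your own Cfsg.Agent.* helpers here

set_option autoImplicit false
open Cfsg

namespace Cfsg.Agent.S5562

theorem sqrtUnique {G : Type*} [Group G] (v u : G) (h : Odd (orderOf v)) (hv : v ^ 2 = u) :
    v = u ^ ((orderOf u + 1) / 2) := by
  obtain ⟨m, hm⟩ := h
  have hou : orderOf u = orderOf v := by
    rw [← hv, orderOf_pow' _ (by norm_num)]
    have : Nat.gcd (orderOf v) 2 = 1 := by
      rw [hm]
      simp [Nat.gcd_comm]
    rw [this, Nat.div_one]
  rw [hou, ← hv, ← pow_mul]
  have : 2 * ((orderOf v + 1) / 2) = orderOf v + 1 := by omega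
  rw [this, pow_succ, pow_orderOf_eq_one, one_mul]

/-- Let G be a finite group, d an involution of G whose conjugates pairwise have products of odd order, and x any involution of G. Then the conjugacy class of d is the disjoint union, over the conjugates a of d commuting with x, of the sets of conjugates of d commuting with ax: every conjugate of d commutes with ax for exactly one conjugate a of d that commutes with x. -/
theorem result {G : Type*} [Group G] [Finite G] (d : G) (hd : orderOf d = 2)
    (hodd : ∀ a ∈ conjugatesOf d, ∀ b ∈ conjugatesOf d, Odd (orderOf (a * b)))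
    (x : G) (hx : orderOf x = 2) :
    ∀ e ∈ conjugatesOf d,
      ∃! a : G, a ∈ conjugatesOf d ∧ Commute a x ∧ Commute e (a * x) := by
  intro e he
  classical
  have inv2 : ∀ a ∈ conjugatesOf d, a * a = 1 := by
    intro a ha
    obtain ⟨g, hg⟩ := isConj_iff.mp ha
    rw [← hg, show g * d * g⁻¹ * (g * d * g⁻¹) = g * (d * d) * g⁻¹ by group]
    have h2 : d ^ 2 = 1 := hd ▸ pow_orderOf_eq_one d
    rw [← pow_two d, h2]
    group
  have xx : x * x = 1 := by rw [← pow_two, ← hx, pow_orderOf_eq_one]
  have xinv : x⁻¹ = x := inv_eq_of_mul_eq_one_left xx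
  have closed : ∀ a ∈ conjugatesOf d, ∀ g : G, g * a * g⁻¹ ∈ conjugatesOf d := fun a ha g =>
    IsConj.trans (show IsConj d a from ha) (isConj_iff.mpr ⟨g, rfl⟩)
  have he' : x * e * x ∈ conjugatesOf d := by
    have := closed e he x; rwa [xinv] at this
  set u := e * (x * e * x) with hu
  set k := (orderOf u + 1) / 2 with hk
  have ee : e * e = 1 := inv2 e he
  have einv : e⁻¹ = e := inv_eq_of_mul_eq_one_left ee
  have huodd : Odd (orderOf u) := hodd e he _ he'
  have h2k : u ^ (k + k) = u := by
    obtain ⟨m, hm⟩ := huodd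
    have : k + k = orderOf u + 1 := by omega
    rw [this, pow_succ, pow_orderOf_eq_one, one_mul]
  have eue : e * u * e = u⁻¹ := by
    have ee' : ∀ t : G, e * (e * t) = t := fun t => by rw [← mul_assoc, ee, one_mul]
    rw [hu]; simp [mul_assoc, einv, xinv, ee, ee']
  have xux : x * u * x = u⁻¹ := by
    have xx' : ∀ t : G, x * (x * t) = t := fun t => by rw [← mul_assoc, xx, one_mul]
    rw [hu]; simp [mul_assoc, einv, xinv, xx, xx']
  have epow : ∀ n : ℕ, e * u ^ n * e = (u ^ n)⁻¹ := by
    intro n
    have := conj_pow (i := n) (a := e) (b := u)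
    rw [einv] at this
    rw [← inv_pow, ← eue, this]
  have xpow : ∀ n : ℕ, x * u ^ n * x = (u ^ n)⁻¹ := by
    intro n
    have := conj_pow (i := n) (a := x) (b := u)
    rw [xinv] at this
    rw [← inv_pow, ← xux, this]
  refine ⟨e * u ^ k, ⟨?_, ?_, ?_⟩, ?_⟩
  · -- a conjugate of e by a power of u
    have hroot : ∃ j : ℕ, u ^ (j + j) = u ^ k := ⟨k * k, by
      rw [show k * k + k * k = (k + k) * k by ring, pow_mul, h2k]⟩
    obtain ⟨j, hj⟩ := hroot
    have : e * u ^ k = (u ^ j)⁻¹ * e * (u ^ j)⁻¹⁻¹ := by
      rw [inv_inv, ← epow j, ← hj, pow_add]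
      simp only [mul_assoc]
      rw [← mul_assoc e e, ee, one_mul]
    rw [this]
    exact closed e he _
  · show e * u ^ k * x = x * (e * u ^ k)
    have h1 : x * (e * u ^ k) * x = e * u ^ k := by
      have hxe : x * e * x = e * u := by rw [hu, ← mul_assoc, ee, one_mul]
      calc x * (e * u ^ k) * x = (x * e * x) * (x * u ^ k * x) := by
              simp only [mul_assoc]; rw [← mul_assoc x x, xx, one_mul]
        _ = e * u * (u ^ k)⁻¹ := by rw [hxe, xpow]
        _ = e * u ^ k := by
              rw [mul_assoc]; congr 1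
              rw [mul_inv_eq_iff_eq_mul, ← pow_add, h2k]
    calc e * u ^ k * x = x * (e * u ^ k) * x * x := by rw [h1]
      _ = x * (e * u ^ k) := by rw [mul_assoc _ x x, xx, mul_one]
  · show e * (e * u ^ k * x) = e * u ^ k * x * e
    have hxe : x * e = e * u * x := by
      rw [hu, ← mul_assoc, ee, one_mul, mul_assoc _ x x, xx, mul_one]
    have hm : u ^ k * e = e * (u ^ k)⁻¹ := by
      rw [← epow k]; simp only [← mul_assoc]; rw [ee, one_mul]
    calc e * (e * u ^ k * x) = u ^ k * x := by rw [← mul_assoc, ← mul_assoc, ee, one_mul]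
      _ = (u ^ k)⁻¹ * u ^ (k + k) * x := by rw [pow_add, inv_mul_cancel_left]
      _ = (u ^ k)⁻¹ * u * x := by rw [h2k]
      _ = e * (u ^ k * e) * u * x := by rw [hm, ← mul_assoc e e, ee, one_mul]
      _ = e * u ^ k * (e * u * x) := by simp only [mul_assoc]
      _ = e * u ^ k * x * e := by rw [← hxe, ← mul_assoc]
  · rintro a ⟨ha, hax, hea⟩
    have aa := inv2 a ha
    have hae : (e * a) ^ 2 = u := by
      have h1 : a * e * a = x * e * x := by
        have h2 : e * a * x = a * x * e := by rw [mul_assoc]; exact hea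
        calc a * e * a = a * (e * a * x) * x := by
              simp only [mul_assoc]; rw [xx, mul_one]
          _ = a * (a * x * e) * x := by rw [h2]
          _ = x * e * x := by
              simp only [mul_assoc]; rw [← mul_assoc a a, aa, one_mul]
      rw [pow_two, hu, ← h1]; simp only [mul_assoc]
    have := sqrtUnique (e * a) u (hodd e he a ha) hae
    calc a = e * (e * a) := by rw [← mul_assoc, ee, one_mul]
      _ = e * u ^ k := by rw [this, hk]

end Cfsg.Agent.S5562
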