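import Cfsg.Statements.S5713
import Cfsg.Agent.PrimDeg.Common
import Cfsg.Agent.PrimDeg.Babai

set_option autoImplicit false
open Cfsg

namespace Cfsg.Agent.S5713

/-- A classification-free minimal-degree bound. Let G be a finite group acting faithfully and primitively on a finite set Ω with n elements, and suppose that the image of G in the symmetric group on Ω does not contain the alternating group on Ω. Then every non-identity element of G moves at least (√n − 1)/2 points of Ω, that is, it fixes at most n − (√n − 1)/2 points. -/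
theorem result {G Ω : Type*} [Group G] [Finite G] [MulAction G Ω] [FaithfulSMul G Ω] [Fintype Ω] [DecidableEq Ω]
    (hprim : MulAction.IsPreprimitive G Ω)
    (hA : ¬ alternatingGroup Ω ≤ (MulAction.toPermHom G Ω).range)
    (g : G) (hg : g ≠ 1) :
    (Real.sqrt (Fintype.card Ω) - 1) / 2 ≤ (Fintype.card Ω : ℝ) - Nat.card (MulAction.fixedBy Ω g) := by
  classical
  haveI : Fintype G := Fintype.ofFinite G
  set Δ : Finset Ω := (MulAction.toPerm g : Equiv.Perm Ω).support with hΔ
  have hmem : ∀ x : Ω, x ∈ Δ ↔ g • x ≠ x := fun x => Equiv.Perm.mem_support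
  have hfix : Nat.card (MulAction.fixedBy Ω g) = Fintype.card Ω - Δ.card := by
    rw [← Finset.card_compl, ← Nat.card_eq_finsetCard]
    refine Nat.card_congr (Equiv.subtypeEquivRight fun x => ?_)
    simp [hmem]
  have hne : (MulAction.toPerm g : Equiv.Perm Ω) ≠ 1 := by
    intro e
    apply hg
    apply eq_of_smul_eq_smul (α := Ω)
    intro x
    simpa using Equiv.ext_iff.1 e x
  have h2 : 2 ≤ Δ.card := Equiv.Perm.two_le_card_support_of_ne_one hne
  have key : Fintype.card Ω ≤ 4 * Δ.card ^ 2 := by
    by_cases hnot : ∃ z x y : Ω, x ≠ z ∧ y ≠ z ∧ ¬ PrimDeg.SameColour G z x y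
    · obtain ⟨x, hx⟩ : ∃ x, x ∈ Δ := Finset.card_pos.1 (by omega)
      have hx' : g • x ≠ x := (hmem x).1 hx
      have h := PrimDeg.card_le_four_mul_dset_sq hprim hnot hx'.symm
      refine h.trans (Nat.mul_le_mul_left 4 (Nat.pow_le_pow_left (Finset.card_le_card ?_) 2))
      intro z hz
      rw [hmem]
      intro e
      exact (Finset.mem_filter.1 hz).2 ⟨g, e, rfl⟩
    · push Not at hnot
      haveI := hprim.toIsPretransitive
      have h2t : ∀ a a' b b' : Ω, a ≠ a' → b ≠ b' → ∃ h : G, h • a = b ∧ h • a' = b' := by
        intro a a' b b' ha hb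
        obtain ⟨k, hk⟩ := MulAction.exists_smul_eq G a b
        have hka : k • a' ≠ b := fun e => ha (MulAction.injective k (hk.trans e.symm))
        obtain ⟨h, h1, h2⟩ := hnot b (k • a') b' hka hb.symm
        exact ⟨h * k, by rw [mul_smul, hk, h1], by rw [mul_smul, h2]⟩
      have hno : ∀ h : G, (Δ.filter fun a => h • a ∈ Δ).card ≠ 1 := by
        intro h hone
        obtain ⟨α, hα⟩ := Finset.card_eq_one.1 hone
        apply hA
        let p : Equiv.Perm Ω := MulAction.toPerm g
        let q : Equiv.Perm Ω := MulAction.toPerm (h⁻¹ * g * h)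
        have hq : p.support ∩ q.support = {α} := by
          rw [← hα]
          ext x
          simp only [Finset.mem_inter, Finset.mem_filter, hmem, p, q, Equiv.Perm.mem_support,
            MulAction.toPerm_apply, mul_smul, ne_eq, inv_smul_eq_iff]
        have h3 := PrimDeg.isThreeCycle_commutator_of_supports_meet_once p q α hq
        have hprim' : MulAction.IsPreprimitive (MulAction.toPermHom G Ω).range Ω := by
          let φ : G → (MulAction.toPermHom G Ω).range :=
            fun k => ⟨MulAction.toPermHom G Ω k, k, rfl⟩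
          let f : Ω →ₑ[φ] Ω := { toFun := id, map_smul' := fun _ _ => rfl }
          exact MulAction.IsPreprimitive.of_surjective (φ := φ) (f := f) Function.surjective_id
        refine Equiv.Perm.alternatingGroup_le_of_isPreprimitive_of_isThreeCycle_mem hprim' h3 ?_
        exact ⟨g * (h⁻¹ * g * h) * g⁻¹ * (h⁻¹ * g * h)⁻¹, by
          rw [map_mul, map_mul, map_mul, map_inv, map_inv]
          exact rfl⟩
      have := PrimDeg.card_le_sq_of_two_transitive (G := G) h2t Δ h2 hno
      omega
  have hle : Δ.card ≤ Fintype.card Ω := Finset.card_le_univ _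
  rw [hfix, Nat.cast_sub hle]
  have key' : Real.sqrt (Fintype.card Ω : ℝ) ≤ 2 * (Δ.card : ℝ) := by
    rw [Real.sqrt_le_left (by positivity)]
    have : ((Fintype.card Ω : ℕ) : ℝ) ≤ ((4 * Δ.card ^ 2 : ℕ) : ℝ) := by exact_mod_cast key
    push_cast at this
    nlinarith
  linarith

end Cfsg.Agent.S5713
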