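import Cfsg.Statements.S5722
import Cfsg.Agent.CompLen.Main

set_option autoImplicit false
open Cfsg

namespace Cfsg.Agent.S5722

/-- If a finite group G acts faithfully on a finite set with n points and r orbits, then the composition length of G is at most 4(n − r)/3. Here the composition length is expressed through chains: the conclusion bounds the length l of every chain of subgroups 1 = H₀ < H₁ < ⋯ < H_l = G in which each term is normal in the next (the longest such chains are exactly the composition series). -/
theorem result {G Ω : Type*} [Group G] [Finite G] [MulAction G Ω] [FaithfulSMul G Ω] [Fintype Ω]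
    (l : ℕ) (H : Fin (l + 1) → Subgroup G) (h0 : H 0 = ⊥) (hl : H (Fin.last l) = ⊤)
    (hchain : ∀ i : Fin l, H i.castSucc < H i.succ ∧ ((H i.castSucc).subgroupOf (H i.succ)).Normal) :
    3 * l ≤ 4 * (Fintype.card Ω - Nat.card (Quotient (MulAction.orbitRel G Ω))) := by
  classical
  set F : ℕ → Subgroup G := fun i => H ⟨min i l, by omega⟩ with hF
  have hFi : ∀ i, (hi : i ≤ l) → F i = H ⟨i, by omega⟩ := fun i hi => by
    simp [hF, Nat.min_eq_left hi]
  have hc : Cfsg.Agent.CompLen.IsChain G l F := by
    refine ⟨by rw [hFi l le_rfl]; exact hl, fun i hi => ?_⟩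
    rw [hFi i hi.le, hFi (i + 1) hi]
    exact ⟨(hchain ⟨i, hi⟩).1.le, (hchain ⟨i, hi⟩).2⟩
  have hs : Cfsg.Agent.CompLen.steps l F = l := by
    rw [Cfsg.Agent.CompLen.steps, Finset.filter_true_of_mem, Finset.card_range]
    intro i hi
    rw [Finset.mem_range] at hi
    rw [hFi i hi.le, hFi (i + 1) hi]
    exact (hchain ⟨i, hi⟩).1.ne
  have h1 := Cfsg.Agent.CompLen.steps_le_cl hc
  have h2 := (Cfsg.Agent.CompLen.bound_all (Fintype.card Ω)).apply (G := G) (X := Ω)
    Nat.card_eq_fintype_card
  unfold Cfsg.Agent.CompLen.orbs at h2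
  omega

end Cfsg.Agent.S5722
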