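import Cfsg.Statements.S5729
import Cfsg.Agent.ClassicalMax.CameronCohen

set_option autoImplicit false
open Cfsg

namespace Cfsg.Agent.S5729

/-- Let a finite group G act faithfully and transitively on a set with n ≥ 3 points. Then either G is a Frobenius permutation group (Frobenius as a permutation group: transitive, some non-identity element fixes a point, and no non-identity element fixes two points) of order n(n − 1) and exactly |G|/n of its elements are derangements (fix no point), or the number of derangements is greater than |G|/n. -/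
theorem result {G Ω : Type*} [Group G] [Finite G] [MulAction G Ω] [FaithfulSMul G Ω] [Fintype Ω] (htr : MulAction.IsPretransitive G Ω) (hn : 3 ≤ Fintype.card Ω) :
    ((MulAction.IsPretransitive G Ω ∧ (∃ g : G, g ≠ 1 ∧ ∃ ω : Ω, g • ω = ω) ∧ ∀ g : G, g ≠ 1 → Nat.card (MulAction.fixedBy Ω g) ≤ 1) ∧ Nat.card G = Fintype.card Ω * (Fintype.card Ω - 1) ∧ Fintype.card Ω * Nat.card {g : G // ∀ ω : Ω, g • ω ≠ ω} = Nat.card G) ∨
    Nat.card G < Fintype.card Ω * Nat.card {g : G // ∀ ω : Ω, g • ω ≠ ω} := by
  refine (Cfsg.Agent.ClassicalMax.cameron_cohen htr hn).imp_left fun h => ⟨⟨htr, h.1⟩, h.2⟩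

end Cfsg.Agent.S5729
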