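import Cfsg.Statements.S5732
import Cfsg.Agent.DerangeIdx.Affine

set_option autoImplicit false
open Cfsg

namespace Cfsg.Agent.S5732

/-- There is a bound N such that for every finite group G acting faithfully and transitively on a set with n ≥ N points, either G is primitive and a Frobenius permutation group (Frobenius as a permutation group: transitive, some non-identity element fixes a point, and no non-identity element fixes two points), or the subgroup generated by the derangements of G has index at most √n − 1 in G. -/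
theorem result : ∃ N : ℕ, ∀ (G Ω : Type*) [Group G] [Finite G] [MulAction G Ω] [FaithfulSMul G Ω] [Fintype Ω],
      MulAction.IsPretransitive G Ω → N ≤ Fintype.card Ω →
      (MulAction.IsPreprimitive G Ω ∧ (MulAction.IsPretransitive G Ω ∧ (∃ g : G, g ≠ 1 ∧ ∃ ω : Ω, g • ω = ω) ∧ ∀ g : G, g ≠ 1 → Nat.card (MulAction.fixedBy Ω g) ≤ 1)) ∨
      ((Subgroup.closure {g : G | ∀ ω : Ω, g • ω ≠ ω}).index : ℝ) ≤ Real.sqrt (Fintype.card Ω) - 1 := by
  refine ⟨4, fun G Ω _ _ _ _ _ htr hN => ?_⟩
  classical
  haveI := htr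
  set D : Subgroup G := Subgroup.closure {g : G | ∀ ω : Ω, g • ω ≠ ω} with hD
  haveI hDn : D.Normal := by
    refine ⟨fun n hn g => ?_⟩
    suffices hle : D ≤ D.comap (MulAut.conj g).toMonoidHom from hle hn
    refine (Subgroup.closure_le _).mpr fun n hn => ?_
    change g * n * g⁻¹ ∈ D
    refine Subgroup.subset_closure fun ω hω => hn (g⁻¹ • ω) ?_
    rw [mul_smul, mul_smul] at hω
    exact eq_inv_smul_iff.mpr hω
  have hext : Cfsg.Agent.DerangeIdx.Ext D Ω := fun g hg => by
    by_contra hno
    exact hg (Subgroup.subset_closure fun ω hω => hno ⟨ω, hω⟩)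
  have hcard : Nat.card Ω = Fintype.card Ω := Nat.card_eq_fintype_card
  have hsqrt : ∀ m : ℕ, (m + 1) ^ 2 ≤ Fintype.card Ω →
      (m : ℝ) ≤ Real.sqrt (Fintype.card Ω) - 1 := fun m hm => by
    have h1 : ((m + 1 : ℕ) : ℝ) ≤ Real.sqrt (Fintype.card Ω) := by
      rw [Real.le_sqrt (by positivity) (by positivity)]
      exact_mod_cast hm
    push_cast at h1
    linarith
  by_cases hsmall : (D.index + 1) ^ 2 ≤ Fintype.card Ω
  · exact Or.inr (hsqrt _ hsmall)
  have hk : 2 ≤ D.index := by
    by_contra hlt
    exact hsmall (le_trans (Nat.pow_le_pow_left (show D.index + 1 ≤ 2 by omega) 2) hN)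
  have hbig : Nat.card Ω < (D.index + 1) ^ 2 := by omega
  left
  refine ⟨Cfsg.Agent.DerangeIdx.isPreprimitive_of_large hext (by omega) hbig, htr, ?_, ?_⟩
  · obtain ⟨g, hg⟩ : ∃ g : G, g ∉ D := by
      by_contra hall
      push Not at hall
      have : D.index = 1 := Subgroup.index_eq_one.mpr (eq_top_iff.mpr fun g _ => hall g)
      omega
    exact ⟨g, fun e => hg (e ▸ one_mem D), hext g hg⟩
  · obtain ⟨R, -, -, -, hfix⟩ :=
      Cfsg.Agent.DerangeIdx.exists_normal_regular hext (by omega) hbig hk
    intro g hg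
    haveI : Subsingleton (MulAction.fixedBy Ω g) :=
      ⟨fun p q => Subtype.ext (hfix g hg _ _ p.2 q.2)⟩
    exact Finite.card_le_one_iff_subsingleton.mpr inferInstance

end Cfsg.Agent.S5732
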