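import Cfsg.Statements.S5746
import Cfsg.Agent.HJGFour.Cosets

set_option autoImplicit false
open Cfsg

namespace Cfsg.Agent.S5746

open Cfsg.Agent.HJGFour Cfsg.Agent.GFour25

/-- `G₂(4)` on the cosets of `J₂` is extremely primitive. -/
theorem result {F : Type*} [Field F] [Fintype F] (hF : Fintype.card F = 4) :
    ∃ H : Subgroup (Cfsg.Lie.chevG2.group F), IsCoatom H ∧ Cfsg.Spor.IsoJ2 H ∧
      ∀ x : Cfsg.Lie.chevG2.group F, x ∉ H → IsCoatom ((H ⊓ H.map (MulAut.conj x).toMonoidHom).subgroupOf H) := by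
  obtain ⟨f⟩ := exists_ringEquiv hF
  obtain ⟨ι, hι⟩ := ChevTwSec.exists_group_embedding (D := Cfsg.Lie.chevG2) HJGFour.rules
    (Chev.rules_of_mem F (by simp)) f.toRingHom
  have hcard : Nat.card G24 = Nat.card ↥(Cfsg.Lie.chevG2.group F) := by
    rw [card_G24, Cfsg.Agent.S1059.result hF]
    norm_num
  let e : G24 ≃* ↥(Cfsg.Lie.chevG2.group F) :=
    MulEquiv.ofBijective ι ((Nat.bijective_iff_injective_and_card ι).2 ⟨hι, hcard⟩)
  let d : ↥HJ ≃* ↥(HJ.map e.toMonoidHom) := HJ.equivMapOfInjective e.toMonoidHom e.injective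
  refine ⟨HJ.map e.toMonoidHom, (e.mapSubgroup.isCoatom_iff _).2 isCoatom_HJ, ?_, ?_⟩
  · obtain ⟨j⟩ := iso_HJ
    exact ⟨d.symm.trans j⟩
  · intro x hx
    obtain ⟨y, rfl⟩ := e.surjective x
    have hy : y ∉ HJ := fun h => hx ⟨y, h, rfl⟩
    have h := (d.mapSubgroup.isCoatom_iff _).2 (isCoatom_inter hy)
    convert h using 1
    ext z
    obtain ⟨a, rfl⟩ := d.surjective z
    have hd : (d a : ↥(Cfsg.Lie.chevG2.group F)) = e a.1 := rfl
    rw [Subgroup.mem_subgroupOf, Subgroup.mem_inf]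
    constructor
    · rintro ⟨-, _, ⟨b, hb, rfl⟩, eb⟩
      refine ⟨a, Subgroup.mem_subgroupOf.2 ⟨a.2, b, hb, e.injective ?_⟩, rfl⟩
      refine Eq.trans ?_ (eb.trans hd)
      exact (map_mul e _ _).trans (congrArg₂ (· * ·) (map_mul e _ _) (map_inv e _))
    · rintro ⟨a', ha', ea⟩
      obtain rfl : a' = a := d.injective ea
      obtain ⟨-, b, hb, eb⟩ := Subgroup.mem_subgroupOf.1 ha'
      refine ⟨(d a').2, e b, ⟨b, hb, rfl⟩, ?_⟩
      rw [hd, ← eb]
      exact ((map_mul e _ _).trans (congrArg₂ (· * ·) (map_mul e _ _) (map_inv e _))).symm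

end Cfsg.Agent.S5746
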