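import Cfsg.Statements.S5747
import Cfsg.Agent.ClassicalMax.IrredundantBases

set_option autoImplicit false
open Cfsg

namespace Cfsg.Agent.S5747

/-- Let a finite group G act on a finite set Ω. An irredundant base is a sequence of points ω₁, …, ω_t whose pointwise stabiliser is trivial and in which each ω_i is moved by some element fixing ω₁, …, ω_{i−1}. Then all irredundant bases have the same length if and only if every reordering of an irredundant base is again an irredundant base. -/
theorem result {G Ω : Type*} [Group G] [Finite G] [MulAction G Ω] [Fintype Ω] :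
    (∀ (t t' : ℕ) (f : Fin t → Ω) (f' : Fin t' → Ω), ((∀ g : G, (∀ i : Fin t, g • f i = f i) → g = 1) ∧ ∀ i : Fin t, ∃ g : G, (∀ j : Fin t, j < i → g • f j = f j) ∧ g • f i ≠ f i) → ((∀ g : G, (∀ i : Fin t', g • f' i = f' i) → g = 1) ∧ ∀ i : Fin t', ∃ g : G, (∀ j : Fin t', j < i → g • f' j = f' j) ∧ g • f' i ≠ f' i) → t = t') ↔
    (∀ (t : ℕ) (f : Fin t → Ω) (σ : Equiv.Perm (Fin t)), ((∀ g : G, (∀ i : Fin t, g • f i = f i) → g = 1) ∧ ∀ i : Fin t, ∃ g : G, (∀ j : Fin t, j < i → g • f j = f j) ∧ g • f i ≠ f i) → ((∀ g : G, (∀ i : Fin t, g • (f ∘ σ) i = (f ∘ σ) i) → g = 1) ∧ ∀ i : Fin t, ∃ g : G, (∀ j : Fin t, j < i → g • (f ∘ σ) j = (f ∘ σ) j) ∧ g • (f ∘ σ) i ≠ (f ∘ σ) i)) := by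
  simp only [← ClassicalMax.irred_top_ofFn_iff]
  constructor
  · intro h t f σ hf
    refine (ClassicalMax.irred_length_eq_iff_reorderable.mp ?_) _ _ hf ((Equiv.Perm.ofFn_comp_perm σ f).symm)
    intro l l' hl hl'
    refine h l.length l'.length l.get l'.get ?_ ?_
    · rwa [List.ofFn_get]
    · rwa [List.ofFn_get]
  · intro h t t' f f' hf hf'
    classical
    have := (ClassicalMax.irred_length_eq_iff_reorderable.mpr ?_) _ _ hf hf'
    · simpa using this
    intro l l' hl hp
    let σ : Equiv.Perm (Fin l.length) :=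
      ((finCongr hp.length_eq).trans ((hp.nodup_iff.mp hl.nodup).getEquiv l')).trans
        ((Equiv.subtypeEquivRight fun x => hp.mem_iff.symm).trans (hl.nodup.getEquiv l).symm)
    have key := h l.length l.get σ (by rwa [List.ofFn_get])
    have : List.ofFn (l.get ∘ σ) = l' := by
      refine List.ext_getElem (by simp [hp.length_eq]) fun i h₁ h₂ => ?_
      rw [List.getElem_ofFn]
      simp [σ]
    rwa [this] at key

end Cfsg.Agent.S5747
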