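import Cfsg.Statements.S5751
import Cfsg.Agent.H66.CoresE8

set_option autoImplicit false
open Cfsg

namespace Cfsg.Agent.S5751

open Cfsg.Lie Cfsg.Agent.ChevGrp Cfsg.Agent.H66

/-- An extremal example for iterated cores of conjugate maximal subgroups: there exist a finite group G and two distinct conjugate maximal subgroups M₁, M₂ of G, with M₁ having trivial core in G, such that, if we define two descending sequences of subgroups by A₀ = M₁, B₀ = M₂ and, for every i, A_{i+1} = the core in M₁ of A_i ∩ B_i and B_{i+1} = the core in M₂ of A_i ∩ B_i (the core in M of a subgroup Y ≤ M is the largest normal subgroup of M contained in Y), the subgroup A₆ is trivial while A₅ is not (so the index 6 cannot be lowered to 5). (One example is a maximal parabolic subgroup of the Chevalley group of type E₈ over a finite field and a suitable conjugate of it.) -/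
theorem result :
    ∃ (G : Type) (_ : Group G) (_ : Finite G) (M₁ M₂ : Subgroup G) (g : G) (A B : ℕ → Subgroup G),
      IsCoatom M₁ ∧ M₂ = M₁.map (MulAut.conj g).toMonoidHom ∧ M₁ ≠ M₂ ∧ M₁.normalCore = ⊥ ∧ A 0 = M₁ ∧ B 0 = M₂ ∧
      (∀ i, A (i + 1) = ((A i ⊓ B i).subgroupOf M₁).normalCore.map M₁.subtype) ∧
      (∀ i, B (i + 1) = ((A i ⊓ B i).subgroupOf M₂).normalCore.map M₂.subtype) ∧ A 6 = ⊥ ∧ A 5 ≠ ⊥ := by
  have hS : Rules chevE8 (ZMod 2) := Chev.validE8.rules Chev.lenValidE8 (ZMod 2)
  have hR := rootTableE8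
  let S := groupSys hS (xGL_mem_group hS)
  have E : Setting S Chev.lenCertE8.len :=
    ⟨hS, hR, by decide, groupSys_Gbar hS _⟩
  have hsq := E.nI_sq branch
  refine ⟨↥(chevE8.group (ZMod 2)), inferInstance, inferInstance, S.PJ (Jd branch),
    (S.PJ (Jd branch)).map (MulAut.conj (S.nI branch)).toMonoidHom, S.nI branch,
    seqA (S.PJ (Jd branch)) (S.nI branch),
    fun n => (seqA (S.PJ (Jd branch)) (S.nI branch) n).map (MulAut.conj (S.nI branch)).toMonoidHom,
    E.isCoatom certBranch, rfl, E.conj_ne certBranch, ?_, rfl, rfl, fun _ => rfl,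
    fun n => seqB_succ hsq n, ?_, ?_⟩
  · have := (thm_simple hS (perfectData_E8 (ZMod 2))).1
    rcases (Subgroup.normalCore_normal (S.PJ (Jd branch))).eq_bot_or_eq_top with h | h
    · exact h
    · exact absurd (top_le_iff.1 (h ▸ Subgroup.normalCore_le _)) (E.isCoatom certBranch).1
  · rw [E.seqA_eq certBranch 5, Sys.US, Subgroup.closure_eq_bot_iff]
    rintro _ ⟨r, hr, -, rfl⟩
    obtain ⟨hlt, hge⟩ := pos_range hr.1
    have h := hr.2
    rw [vec_branch hlt] at h
    have := top_levels.1 r hlt hge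
    omega
  · rw [E.seqA_eq certBranch 4]
    intro h
    obtain ⟨r, hlt, hge, hc⟩ := top_levels.2
    have hpos : chevE8.IsPosRoot r := Chev.validE8.isPosRoot_iff.2 ⟨hge, hlt⟩
    have hmem : r ∈ lvlC chevE8 Chev.lenCertE8.len branch (((4 : ℕ) : ℤ) + 2) :=
      ⟨hpos, by rw [vec_branch hlt]; omega⟩
    have hx := S.x_mem_US hmem 1
    rw [h, Subgroup.mem_bot] at hx
    have hn := hR.neg_lt r hlt
    exact hR.neg_ne hlt
      (S.x_root_inj hR hlt hn one_ne_zero (hx.trans (S.x_zero hn).symm)).symm

end Cfsg.Agent.S5751
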