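import Cfsg.Statements.S5752
import Cfsg.Agent.ClassicalMax.ThompsonWielandt

set_option autoImplicit false
open Cfsg

namespace Cfsg.Agent.S5752

/-- A form of the Thompson–Wielandt Theorem on primitive permutation groups. Let G be a finite group and M₁, M₂ two distinct conjugate maximal subgroups of G with trivial core in G; define two descending sequences of subgroups by A₀ = M₁, B₀ = M₂ and, for every i, A_{i+1} = the core in M₁ of A_i ∩ B_i and B_{i+1} = the core in M₂ of A_i ∩ B_i (the core in M of a subgroup Y ≤ M is the largest normal subgroup of M contained in Y). If A₂ and B₂ are both non-trivial, then for some prime p the subgroup generated by A₂ and B₂ is a p-group, and for each j the generalized Fitting subgroups of M_j and of its first core (A₁, resp. B₁) are their largest normal p-subgroups. -/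
theorem result {G : Type*} [Group G] [Finite G] (M₁ M₂ : Subgroup G) (hmax : IsCoatom M₁) (g : G)
    (hconj : M₂ = M₁.map (MulAut.conj g).toMonoidHom) (hne : M₁ ≠ M₂) (hcore : M₁.normalCore = ⊥)
    (A B : ℕ → Subgroup G) (hA0 : A 0 = M₁) (hB0 : B 0 = M₂)
    (hA : ∀ i, A (i + 1) = ((A i ⊓ B i).subgroupOf M₁).normalCore.map M₁.subtype)
    (hB : ∀ i, B (i + 1) = ((A i ⊓ B i).subgroupOf M₂).normalCore.map M₂.subtype) (hA2 : A 2 ≠ ⊥) (hB2 : B 2 ≠ ⊥) :
    ∃ p : ℕ, p.Prime ∧ IsPGroup p ↥(A 2 ⊔ B 2) ∧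
      Cfsg.generalizedFittingSubgroup ↥M₁ = Cfsg.pCore p ↥M₁ ∧ Cfsg.generalizedFittingSubgroup ↥(A 1) = Cfsg.pCore p ↥(A 1) ∧
      Cfsg.generalizedFittingSubgroup ↥M₂ = Cfsg.pCore p ↥M₂ ∧ Cfsg.generalizedFittingSubgroup ↥(B 1) = Cfsg.pCore p ↥(B 1) := by
  have hmem : ∀ (M D : Subgroup G) (X : Subgroup G), X = (D.subgroupOf M).normalCore.map M.subtype →
      X ≤ D ∧ M ≤ Subgroup.normalizer (X : Set G) ∧
        ∀ Y : Subgroup G, Y ≤ D → Y ≤ M → M ≤ Subgroup.normalizer (Y : Set G) → Y ≤ X := by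
    rintro M D X rfl
    refine ⟨?_, ?_, ?_⟩
    · rintro _ ⟨x, hx, rfl⟩
      exact Subgroup.mem_subgroupOf.mp (Subgroup.normalCore_le _ hx)
    · refine (Subgroup.normal_subgroupOf_iff_le_normalizer (Subgroup.map_subtype_le _)).mp ?_
      rw [Subgroup.subgroupOf, Subgroup.comap_map_eq_self_of_injective M.subtype_injective]
      infer_instance
    · intro Y hYD hYM hY y hy
      have hn : (Y.subgroupOf M).Normal := (Subgroup.normal_subgroupOf_iff_le_normalizer hYM).mpr hY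
      exact ⟨⟨y, hYM hy⟩,
        Subgroup.normal_le_normalCore.mpr (Cfsg.Agent.ClassicalMax.subgroupOf_mono' hYD M) (Subgroup.mem_subgroupOf.mpr hy), rfl⟩
  obtain ⟨a1l, a1n, a1m⟩ := hmem M₁ (A 0 ⊓ B 0) (A 1) (hA 0)
  obtain ⟨b1l, b1n, b1m⟩ := hmem M₂ (A 0 ⊓ B 0) (B 1) (hB 0)
  obtain ⟨a2l, a2n, -⟩ := hmem M₁ (A 1 ⊓ B 1) (A 2) (hA 1)
  obtain ⟨b2l, b2n, -⟩ := hmem M₂ (A 1 ⊓ B 1) (B 2) (hB 1)
  rw [hA0, hB0] at a1l a1m b1l b1m
  have hmax₂ : IsCoatom M₂ := by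
    rw [hconj]
    exact (OrderIso.isCoatom_iff (MulEquiv.mapSubgroup (MulAut.conj g)) M₁).mpr hmax
  have hc₁ : ∀ X : Subgroup G, X ≤ M₁ → X.Normal → X = ⊥ := fun X hX hn =>
    le_bot_iff.mp (hcore ▸ Subgroup.normal_le_normalCore.mpr hX)
  have hc₂ : ∀ X : Subgroup G, X ≤ M₂ → X.Normal → X = ⊥ := by
    intro X hX hn
    refine hc₁ X ?_ hn
    intro x hx
    obtain ⟨y, hy, hyx⟩ : g * x * g⁻¹ ∈ M₁.map (MulAut.conj g).toMonoidHom :=
      hconj ▸ hX (hn.conj_mem x hx g)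
    rwa [← (MulAut.conj g).injective hyx]
  have d : Cfsg.Agent.ClassicalMax.TWData M₁ M₂ (A 1) (B 1) (A 2) (B 2) :=
    ⟨hmax, hmax₂, hne, hc₁, a1l, b1l, a1n, b1n, fun X h1 h2 => a1m X h1 (h1.trans inf_le_left) h2,
      fun X h1 h2 => b1m X h1 (h1.trans inf_le_right) h2, a2l, b2l, a2n, b2n, hA2, hB2⟩
  exact Cfsg.Agent.ClassicalMax.thompson_wielandt d hc₂ g hconj

end Cfsg.Agent.S5752
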