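import Cfsg.Statements.S5753
import Cfsg.Agent.BinAff.Setup

set_option autoImplicit false
open Cfsg

namespace Cfsg.Agent.S5753

/-- The binary primitive permutation groups of affine type (the known proof uses the classification of the finite simple groups). Let a finite group G act faithfully and primitively on a finite set Ω, with a non-trivial abelian normal subgroup, and suppose the action is binary: for every n ≥ 2 and all n-tuples I, J of points, if for every pair of positions some element of G carries the corresponding pair of entries of I to those of J, then a single element carries I to J. Then either Ω has a prime number of points and every point stabilizer has order at most 2, or Ω can be identified with a field E that is a quadratic extension of a subfield F in such a way that the permutations induced by G are exactly the maps x ↦ a·φ(x) + b with a ∈ E of norm 1 over F, φ an automorphism of E over F and b ∈ E (the affine group of the anisotropic plane orthogonal group). -/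
theorem result {G Ω : Type*} [Group G] [Finite G] [MulAction G Ω] [FaithfulSMul G Ω] [Fintype Ω]
    (hprim : MulAction.IsPreprimitive G Ω)
    (haff : ∃ N : Subgroup G, N.Normal ∧ N ≠ ⊥ ∧ IsMulCommutative ↥N)
    (hbin : ∀ (n : ℕ) (I J : Fin n → Ω), 2 ≤ n →
      (∀ i j : Fin n, i ≠ j → ∃ g : G, g • I i = J i ∧ g • I j = J j) → ∃ g : G, ∀ i, g • I i = J i) :
    ((Fintype.card Ω).Prime ∧ ∀ ω : Ω, Nat.card ↥(MulAction.stabilizer G ω) ≤ 2) ∨
    (∃ (F E : Type) (_ : Field F) (_ : Fintype F) (_ : Field E) (_ : Fintype E) (_ : Algebra F E) (e : Ω ≃ E),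
        Module.finrank F E = 2 ∧
        ∀ σ : Equiv.Perm Ω, σ ∈ (MulAction.toPermHom G Ω).range ↔
          ∃ (a b : E) (φ : E ≃ₐ[F] E), Algebra.norm F a = 1 ∧ ∀ ω : Ω, e (σ ω) = a * φ (e ω) + b) := by
  classical
  obtain ⟨p, d, hp, pt, H, hd, hG, hGs, hirr, hstab⟩ :=
    BinAff.exists_affine_coords hprim haff
  haveI := hp
  have B : BinAff.Bisect H := BinAff.bisect_of_binary fun n I J hn hp' => by
    obtain ⟨g, hg⟩ := hbin n (fun i => pt (I i)) (fun i => pt (J i)) hn fun i j hij => by
      obtain ⟨h, hh, e⟩ := hp' i j hij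
      obtain ⟨g, hg⟩ := hGs h hh (J j - h (I j))
      exact ⟨g, by rw [hg, ← add_sub_assoc, add_sub_right_comm, ← map_sub, e, sub_add_cancel],
        by rw [hg, add_sub_cancel]⟩
    obtain ⟨h, hh, b, hgb⟩ := hG g
    refine ⟨h, hh, fun i j => ?_⟩
    have e : ∀ k, h (I k) + b = J k := fun k => pt.injective ((hgb (I k)).symm.trans (hg k))
    rw [← e i, ← e j, map_sub]
    abel
  haveI : Nonempty (Fin d) := ⟨⟨0, hd⟩⟩
  have hcard : Nat.card (Fin d → ZMod p) = Fintype.card Ω := by
    rw [Nat.card_congr pt, Nat.card_eq_fintype_card]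
  rcases BinAff.classification B hirr with ⟨h1, h2⟩ | ⟨F, E, iF, iFf, iE, iEf, iA, e, hfin, he⟩
  · exact Or.inl ⟨hcard ▸ h1, fun ω => (hstab ω).trans_le h2⟩
  · refine Or.inr ⟨F, E, iF, iFf, iE, iEf, iA, pt.symm.trans e.toEquiv, hfin, fun σ => ?_⟩
    constructor
    · rintro ⟨g, rfl⟩
      obtain ⟨h, hh, b, hgb⟩ := hG g
      obtain ⟨a, φ, ha, hf⟩ := (he h).1 ⟨h, hh, fun v => rfl⟩
      refine ⟨a, e b, φ, ha, fun ω => ?_⟩
      obtain ⟨v, rfl⟩ := pt.surjective ω
      change e (pt.symm (g • pt v)) = a * φ (e (pt.symm (pt v))) + e b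
      rw [hgb, pt.symm_apply_apply, pt.symm_apply_apply, map_add, hf]
    · rintro ⟨a, b, φ, ha, hσ⟩
      obtain ⟨h, hh, hf⟩ := (he fun v => e.symm (a * φ (e v))).2
        ⟨a, φ, ha, fun v => e.apply_symm_apply _⟩
      obtain ⟨g, hg⟩ := hGs h hh (e.symm b)
      refine ⟨g, Equiv.ext fun ω => ?_⟩
      obtain ⟨v, rfl⟩ := pt.surjective ω
      change g • pt v = σ (pt v)
      have h3 : e (pt.symm (σ (pt v))) = a * φ (e (pt.symm (pt v))) + b := hσ (pt v)
      rw [pt.symm_apply_apply] at h3
      have h4 := congrArg e.symm h3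
      rw [e.symm_apply_apply, map_add, ← hf v] at h4
      rw [hg, ← h4, pt.apply_symm_apply]

end Cfsg.Agent.S5753
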