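import Cfsg.Statements.S5754
import Cfsg.Agent.ClassicalMax.Binary

set_option autoImplicit false
open Cfsg

namespace Cfsg.Agent.S5754

/-- Let V be a finite-dimensional vector space over a finite field F carrying an anisotropic quadratic form Q (Q(v) = 0 only for v = 0). Then the group of all maps v ↦ φ(v) + c, with φ an isometry of Q and c ∈ V, acts on V as a binary permutation group: given n ≥ 2 and two n-tuples u, u' of vectors such that every pair of corresponding entries of u is carried to that of u' by such a map, one such map carries u to u'. -/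
theorem result {F V : Type*} [Field F] [Finite F] [AddCommGroup V] [Module F V] [Module.Finite F V]
    (Q : QuadraticForm F V) (hQ : Q.Anisotropic) (n : ℕ) (hn : 2 ≤ n) (u u' : Fin n → V)
    (h2 : ∀ i j : Fin n, i ≠ j → ∃ (φ : Q.IsometryEquiv Q) (c : V), φ (u i) + c = u' i ∧ φ (u j) + c = u' j) :
    ∃ (φ : Q.IsometryEquiv Q) (c : V), ∀ i, φ (u i) + c = u' i := by
  exact Cfsg.Agent.ClassicalMax.anisotropic_binary hQ n hn u u' h2

end Cfsg.Agent.S5754
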