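import Cfsg.Statements.S5807
import Cfsg.Agent.CSixSeven.Lists
import Cfsg.Agent.CSixSeven.Odd
import Cfsg.Agent.MaxSub.SingerSeven.Main
import Cfsg.Agent.CSixSevenGFEight.Main

set_option autoImplicit false
open Cfsg

namespace Cfsg.Agent.S5807

/-- Maximal subgroups of SL_7(q) of geometric type, for a finite field F with q elements (any q); p denotes the characteristic. Each of the following subgroups of GL_7(F), intersected with SL_7(F), is a maximal subgroup of SL_7(F): (1) the stabiliser of any proper non-zero subspace of F^7; (2) for q ≥ 5, the stabiliser of any decomposition of F^7 into 7 independent 1-spaces; (3) the normaliser of any degree-7 subfield of the 7 × 7 matrix algebra over F (a commutative subalgebra of dimension 7 in which every non-zero element is invertible); (4) every subfield group (a conjugate of GL_7(F₀) times the scalars of F) for a subfield F₀ with |F| = |F₀|^r, r prime; (5) for q = p prime with p ≡ 1 mod 7, or q = p³ with p ≡ 2 or 4 mod 7, the normaliser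 of any absolutely irreducible 7-subgroup R of exponent 7 and order 7^(1+2m) with centre of order 7, all of whose characteristic abelian subgroups are cyclic, F being the smallest field of characteristic p containing the seventh roots of unity (here R is extraspecial of order 343); (6) for q odd, the group of similarities of any non-degenerate quadratic form on F^7; (7) the group of similarities of any non-degenerate unitary form on F^7 (these exist exactly when q is a square). -/
theorem result {F : Type*} [Field F] [Fintype F] :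
    (∀ W : Submodule F (Fin 7 → F), W ≠ ⊥ → W ≠ ⊤ → Cfsg.Geo.IsMaximalIn (Cfsg.Geo.specialLinear (Fin 7) F) (Cfsg.Geo.subspaceStabilizer W ⊓ Cfsg.Geo.specialLinear (Fin 7) F)) ∧
    (5 ≤ Fintype.card F → ∀ D : Fin 7 → Submodule F (Fin 7 → F), Cfsg.Geo.IsMDecomposition 1 D → Cfsg.Geo.IsMaximalIn (Cfsg.Geo.specialLinear (Fin 7) F) (Cfsg.Geo.decompositionStabilizer D ⊓ Cfsg.Geo.specialLinear (Fin 7) F)) ∧
    (∀ K : Subalgebra F (Matrix (Fin 7) (Fin 7) F), Cfsg.Geo.IsFieldSubalgebra 7 K → Cfsg.Geo.IsMaximalIn (Cfsg.Geo.specialLinear (Fin 7) F) (Cfsg.Geo.subalgebraNormalizer K ⊓ Cfsg.Geo.specialLinear (Fin 7) F)) ∧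
    (∀ (F₀ : Subfield F) (r : ℕ) (P : Matrix.GeneralLinearGroup (Fin 7) F), r.Prime → Fintype.card F = Nat.card F₀ ^ r → Cfsg.Geo.IsMaximalIn (Cfsg.Geo.specialLinear (Fin 7) F) (Cfsg.Geo.subfieldSubgroup F₀ P ⊓ Cfsg.Geo.specialLinear (Fin 7) F)) ∧
    ((∃ p : ℕ, p.Prime ∧ CharP F p ∧ ((Fintype.card F = p ∧ p % 7 = 1) ∨ (Fintype.card F = p ^ 3 ∧ (p % 7 = 2 ∨ p % 7 = 4)))) → ∀ R : Subgroup (Matrix.GeneralLinearGroup (Fin 7) F), Cfsg.Geo.IsLinearSymplecticTypeData 7 R → Cfsg.Geo.IsMaximalIn (Cfsg.Geo.specialLinear (Fin 7) F) (Cfsg.Geo.subgroupNormalizer R ⊓ Cfsg.Geo.specialLinear (Fin 7) F)) ∧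
    (Odd (Fintype.card F) → ∀ Q : (Fin 7 → F) → F, Cfsg.Geo.IsNondegenerateQuadraticForm Q → Cfsg.Geo.IsMaximalIn (Cfsg.Geo.specialLinear (Fin 7) F) (Cfsg.Geo.quadSimilarityGroup Q ⊓ Cfsg.Geo.specialLinear (Fin 7) F)) ∧
    (∀ (σ : F ≃+* F) (f : (Fin 7 → F) → (Fin 7 → F) → F), Cfsg.Geo.IsUnitaryForm σ f → Cfsg.Geo.IsMaximalIn (Cfsg.Geo.specialLinear (Fin 7) F) (Cfsg.Geo.similarityGroup f ⊓ Cfsg.Geo.specialLinear (Fin 7) F)) := by
  refine ⟨CSixSeven.Lists.sl7_clause1, CSixSeven.Lists.sl7_clause2,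
    fun K hK => MaxSub.SingerSeven.singer_maximal hK, CSixSeven.Lists.sl7_clause4, ?_,
    CSixSeven.Lists.sl7_clause6, CSixSeven.Lists.sl7_clause7⟩
  rintro ⟨p, hp, hchar, hcard⟩ R hR
  by_cases h2 : p = 2
  · subst h2
    have h8 : Fintype.card F = 8 := by
      rcases hcard with ⟨-, h⟩ | ⟨h, -⟩
      · norm_num at h
      · simpa using h
    exact CSixSevenGFEight.symplecticType_seven_maximal_eight h8 R hR
  · exact CSixSeven.symplecticType_seven_maximal_odd hp h2 hcard R hR

end Cfsg.Agent.S5807
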