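import Cfsg.Agent.GeoClasses.UnitParabolic
import Cfsg.Agent.GeoClasses.UnitNondeg
import Cfsg.Agent.GeoClasses.UnitSubfield
import Cfsg.Agent.GeoClasses.UnitRealSubfield
import Cfsg.Agent.DecompMax.UnitTop
import Cfsg.Agent.MaxSub.TensorPowU.Maximal

/-! Clauses 1, 2, 4, 6, 7 and 9 of the list of geometric maximal subgroups of `SU_9(q)`. -/

set_option autoImplicit false
open Cfsg

namespace Cfsg.Agent.SUNineList

variable {F : Type*} [Field F] [Fintype F] {q : ℕ}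

theorem clause1 (hF : Fintype.card F = q ^ 2) :
    (∀ W : Submodule F (Fin 9 → F), W ≠ ⊥ → Cfsg.Geo.IsTotallySingularFor (Cfsg.hermForm 9 F q) W → Cfsg.Geo.IsMaximalIn (Cfsg.GU 9 F q ⊓ Cfsg.Geo.specialLinear (Fin 9) F) (Cfsg.Geo.subspaceStabilizer W ⊓ (Cfsg.GU 9 F q ⊓ Cfsg.Geo.specialLinear (Fin 9) F))) :=
  fun W h0 hW => GeoClasses.suGL_singular_maximal (Classical.U.sqField_of_fintype hF) (by norm_num) h0 hW

theorem clause2 (hF : Fintype.card F = q ^ 2) :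
    (∀ W : Submodule F (Fin 9 → F), W ≠ ⊥ → Cfsg.Geo.IsNondegenerateOn (Cfsg.hermForm 9 F q) W → 2 * Module.finrank F W < 9 → Cfsg.Geo.IsMaximalIn (Cfsg.GU 9 F q ⊓ Cfsg.Geo.specialLinear (Fin 9) F) (Cfsg.Geo.subspaceStabilizer W ⊓ (Cfsg.GU 9 F q ⊓ Cfsg.Geo.specialLinear (Fin 9) F))) :=
  fun W h0 hW hd => GeoClasses.suGL_nondeg_maximal (Classical.U.sqField_of_fintype hF) (by norm_num) h0 hW hd

theorem clause4 (hF : Fintype.card F = q ^ 2) :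
    (∀ D : Fin 3 → Submodule F (Fin 9 → F), Cfsg.Geo.IsNondegenerateMDecomposition (Cfsg.hermForm 9 F q) 3 D → Cfsg.Geo.IsMaximalIn (Cfsg.GU 9 F q ⊓ Cfsg.Geo.specialLinear (Fin 9) F) (Cfsg.Geo.decompositionStabilizer D ⊓ (Cfsg.GU 9 F q ⊓ Cfsg.Geo.specialLinear (Fin 9) F))) :=
  fun D hD => DecompMax.UN.decomposition_maximal (Classical.U.sqField_of_fintype hF) (by norm_num) (by norm_num) (by omega) hD

theorem clause6 (hF : Fintype.card F = q ^ 2) :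
    (∀ (F₀ : Subfield F) (r : ℕ) (P : Matrix.GeneralLinearGroup (Fin 9) F), r.Prime → Odd r → Fintype.card F = Nat.card F₀ ^ r → Cfsg.Geo.IsFormRationalStructure (Cfsg.hermForm 9 F q) F₀ 1 P → Cfsg.Geo.IsMaximalIn (Cfsg.GU 9 F q ⊓ Cfsg.Geo.specialLinear (Fin 9) F) (Cfsg.Geo.subfieldSubgroup F₀ P ⊓ (Cfsg.GU 9 F q ⊓ Cfsg.Geo.specialLinear (Fin 9) F))) :=
  fun F₀ r P hr ho hc hP => GeoClasses.suGL_oddSubfield_maximal (Classical.U.sqField_of_fintype hF) (by norm_num) hr ho hc hP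

theorem clause7 (hF : Fintype.card F = q ^ 2) :
    (Odd q → ∀ (F₀ : Subfield F) (P : Matrix.GeneralLinearGroup (Fin 9) F), Fintype.card F = Nat.card F₀ ^ 2 → Cfsg.Geo.IsFormRationalStructure (Cfsg.hermForm 9 F q) F₀ 1 P → Cfsg.Geo.IsMaximalIn (Cfsg.GU 9 F q ⊓ Cfsg.Geo.specialLinear (Fin 9) F) (Cfsg.Geo.subfieldSubgroup F₀ P ⊓ (Cfsg.GU 9 F q ⊓ Cfsg.Geo.specialLinear (Fin 9) F))) :=
  fun hq F₀ P hc hP => by
  have hs := Classical.U.sqField_of_fintype hF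
  refine GeoClasses.suGL_realSubfield_maximal hs (by norm_num) hc
    (GeoClasses.ratStr_orth hs (by rw [Nat.card_eq_fintype_card, hc]) ?_ hP)
  rw [GeoClasses.two_ne_zero_iff_odd_card, hF]
  exact hq.pow

theorem clause9 (hF : Fintype.card F = q ^ 2) :
    (3 ≤ q → ∀ (e : Fin 9 ≃ (Fin 2 → Fin 3)) (P : Matrix.GeneralLinearGroup (Fin 9) F) (f₁ : (Fin 3 → F) → (Fin 3 → F) → F), Cfsg.Geo.IsUnitaryFormPow q f₁ → Cfsg.Geo.IsTensorPowerFormStructure (fun x : F => x ^ q) (Cfsg.hermForm 9 F q) f₁ e P → Cfsg.Geo.IsMaximalIn (Cfsg.GU 9 F q ⊓ Cfsg.Geo.specialLinear (Fin 9) F) (Cfsg.Geo.tensorWreathSubgroup 3 2 e P ⊓ (Cfsg.GU 9 F q ⊓ Cfsg.Geo.specialLinear (Fin 9) F))) :=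
  fun hq e P _ h1 hT => MaxSub.TensorPowU.suGL_tensorPow_maximal (Classical.U.sqField_of_fintype hF) (le_refl 3) (le_refl 2) (fun h => by omega) e P h1 hT

end Cfsg.Agent.SUNineList
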