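import Cfsg.Statements.S5831
import Cfsg.Agent.SUNineList
import Cfsg.Agent.DecompMax.UnitNineFrame
import Cfsg.Agent.MaxSub.UnitExt.Matrices
import Cfsg.Agent.CSixNineTwo.Clause
import Cfsg.Agent.CSixNineU.Main
import Cfsg.Agent.CSixNineU.Maximal
import Cfsg.Agent.CSixNineU.Dicho
import Cfsg.Agent.CSixNineU.DichoFive

set_option autoImplicit false
open Cfsg

namespace Cfsg.Agent.S5831

/-- Maximal subgroups of SU_9(q) of geometric type (any prime power q). Let F be the field with q² elements, f the standard unitary form Σ u_i v_i^q on F^9 and SU_9(q) its determinant-one isometry group inside GL_9(F). Each of the following, intersected with SU_9(q), is a maximal subgroup of SU_9(q): (1) the stabiliser of any non-zero subspace on which f vanishes identically (totally isotropic 1- to 4-spaces); (2) the stabiliser of any non-degenerate 1-, 2-, 3- or 4-space; (3) the stabiliser of any decomposition of F^9 into nine mutually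 orthogonal non-degenerate 1-spaces; (4) the stabiliser of any decomposition into three mutually orthogonal non-degenerate 3-spaces; (5) the normaliser of any degree-3 subfield of the matrix algebra closed under adjoints for f; (6) every subfield group for a subfield F₀ of odd prime index in F whose F₀-structure carries f; (7) for q odd, every subfield group for the subfield F₀ of index 2 whose F₀-structure carries f (orthogonal type); (8) for q = p prime with p ≡ 2 mod 3, the normaliser of any absolutely irreducible 3-group R of exponent 3, order 3^5 and centre of order 3 with all characteristic abelian subgroups cyclic, contained in the similarity group of f; (9) for q ≥ 3, the stabiliser of any decomposition of f as the tensor square of a unitary form on F^3 up to a scalar (tensor-wreath subgroup). -/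
theorem result {F : Type*} [Field F] [Fintype F] (q : ℕ) (hF : Fintype.card F = q ^ 2) :
    (∀ W : Submodule F (Fin 9 → F), W ≠ ⊥ → Cfsg.Geo.IsTotallySingularFor (Cfsg.hermForm 9 F q) W → Cfsg.Geo.IsMaximalIn (Cfsg.GU 9 F q ⊓ Cfsg.Geo.specialLinear (Fin 9) F) (Cfsg.Geo.subspaceStabilizer W ⊓ (Cfsg.GU 9 F q ⊓ Cfsg.Geo.specialLinear (Fin 9) F))) ∧
    (∀ W : Submodule F (Fin 9 → F), W ≠ ⊥ → Cfsg.Geo.IsNondegenerateOn (Cfsg.hermForm 9 F q) W → 2 * Module.finrank F W < 9 → Cfsg.Geo.IsMaximalIn (Cfsg.GU 9 F q ⊓ Cfsg.Geo.specialLinear (Fin 9) F) (Cfsg.Geo.subspaceStabilizer W ⊓ (Cfsg.GU 9 F q ⊓ Cfsg.Geo.specialLinear (Fin 9) F))) ∧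
    (∀ D : Fin 9 → Submodule F (Fin 9 → F), Cfsg.Geo.IsNondegenerateMDecomposition (Cfsg.hermForm 9 F q) 1 D → Cfsg.Geo.IsMaximalIn (Cfsg.GU 9 F q ⊓ Cfsg.Geo.specialLinear (Fin 9) F) (Cfsg.Geo.decompositionStabilizer D ⊓ (Cfsg.GU 9 F q ⊓ Cfsg.Geo.specialLinear (Fin 9) F))) ∧
    (∀ D : Fin 3 → Submodule F (Fin 9 → F), Cfsg.Geo.IsNondegenerateMDecomposition (Cfsg.hermForm 9 F q) 3 D → Cfsg.Geo.IsMaximalIn (Cfsg.GU 9 F q ⊓ Cfsg.Geo.specialLinear (Fin 9) F) (Cfsg.Geo.decompositionStabilizer D ⊓ (Cfsg.GU 9 F q ⊓ Cfsg.Geo.specialLinear (Fin 9) F))) ∧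
    (∀ K : Subalgebra F (Matrix (Fin 9) (Fin 9) F), Cfsg.Geo.IsFieldSubalgebra 3 K → Cfsg.Geo.IsAdjointClosedFor (Cfsg.hermForm 9 F q) K → Cfsg.Geo.IsMaximalIn (Cfsg.GU 9 F q ⊓ Cfsg.Geo.specialLinear (Fin 9) F) (Cfsg.Geo.subalgebraNormalizer K ⊓ (Cfsg.GU 9 F q ⊓ Cfsg.Geo.specialLinear (Fin 9) F))) ∧
    (∀ (F₀ : Subfield F) (r : ℕ) (P : Matrix.GeneralLinearGroup (Fin 9) F), r.Prime → Odd r → Fintype.card F = Nat.card F₀ ^ r → Cfsg.Geo.IsFormRationalStructure (Cfsg.hermForm 9 F q) F₀ 1 P → Cfsg.Geo.IsMaximalIn (Cfsg.GU 9 F q ⊓ Cfsg.Geo.specialLinear (Fin 9) F) (Cfsg.Geo.subfieldSubgroup F₀ P ⊓ (Cfsg.GU 9 F q ⊓ Cfsg.Geo.specialLinear (Fin 9) F))) ∧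
    (Odd q → ∀ (F₀ : Subfield F) (P : Matrix.GeneralLinearGroup (Fin 9) F), Fintype.card F = Nat.card F₀ ^ 2 → Cfsg.Geo.IsFormRationalStructure (Cfsg.hermForm 9 F q) F₀ 1 P → Cfsg.Geo.IsMaximalIn (Cfsg.GU 9 F q ⊓ Cfsg.Geo.specialLinear (Fin 9) F) (Cfsg.Geo.subfieldSubgroup F₀ P ⊓ (Cfsg.GU 9 F q ⊓ Cfsg.Geo.specialLinear (Fin 9) F))) ∧
    (∀ (p : ℕ) (R : Subgroup (Matrix.GeneralLinearGroup (Fin 9) F)), p.Prime → q = p → p % 3 = 2 → Cfsg.Geo.IsSymplecticTypeGroup 3 R → Cfsg.Geo.ActsAbsolutelyIrreducibly (Cfsg.Geo.matrixSet R) → R ≤ Cfsg.Geo.similarityGroup (Cfsg.hermForm 9 F q) → Nat.card R = 243 → Nat.card (Subgroup.center R) = 3 → Cfsg.Geo.IsMaximalIn (Cfsg.GU 9 F q ⊓ Cfsg.Geo.specialLinear (Fin 9) F) (Cfsg.Geo.subgroupNormalizer R ⊓ (Cfsg.GU 9 F q ⊓ Cfsg.Geo.specialLinear (Fin 9) F))) ∧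
    (3 ≤ q → ∀ (e : Fin 9 ≃ (Fin 2 → Fin 3)) (P : Matrix.GeneralLinearGroup (Fin 9) F) (f₁ : (Fin 3 → F) → (Fin 3 → F) → F), Cfsg.Geo.IsUnitaryFormPow q f₁ → Cfsg.Geo.IsTensorPowerFormStructure (fun x : F => x ^ q) (Cfsg.hermForm 9 F q) f₁ e P → Cfsg.Geo.IsMaximalIn (Cfsg.GU 9 F q ⊓ Cfsg.Geo.specialLinear (Fin 9) F) (Cfsg.Geo.tensorWreathSubgroup 3 2 e P ⊓ (Cfsg.GU 9 F q ⊓ Cfsg.Geo.specialLinear (Fin 9) F))) := by
  refine ⟨SUNineList.clause1 hF, SUNineList.clause2 hF,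
    fun D hD => DecompMax.UF.frame_maximal_nine ⟨inferInstance, by rw [Nat.card_eq_fintype_card, hF]⟩ hD,
    SUNineList.clause4 hF,
    fun K hK hac => MaxSub.UnitExt.suGL_extField_maximal_three hF Nat.prime_three (by decide)
      (by norm_num) (Or.inr le_rfl) K hK hac,
    SUNineList.clause6 hF, SUNineList.clause7 hF, ?_, SUNineList.clause9 hF⟩
  intro p R hp hq hp3 hst hirr hsim hR hZ
  rcases eq_or_ne p 2 with rfl | hp2
  · exact CSixNineTwo.suGL_symplecticType_three_maximal_two q hF hq R hst hirr hsim hR hZ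
  · subst hq
    refine CSixNineU.maximal_of hF hp hp3 hp2 (fun ω G hG hns A hA => ?_) hst hirr hsim hZ
    refine CSixNineU.all_nrm hG ?_ hns hA
    rcases eq_or_ne q 5 with rfl | hne
    · exact CSixNineU.dicho_five hG.fld hG.om hG.conj
    · exact CSixNineU.dicho_of_ne_five hG.fld hG.prime hG.five hne hG.om hG.conj

end Cfsg.Agent.S5831
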