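import Cfsg.Statements.S5885
-- import your own Cfsg.Agent.* helpers here

set_option autoImplicit false
open Cfsg

namespace Cfsg.Agent.S5885

open scoped Pointwise

section
variable {n : ℕ}

/-- The three-cycle `y ↦ z ↦ w ↦ y`. -/
def cyc (y z w : Fin n) : Equiv.Perm (Fin n) := Equiv.swap y z * Equiv.swap z w

theorem cyc_mem (y z w : Fin n) (h1 : y ≠ z) (h2 : z ≠ w) : cyc y z w ∈ alternatingGroup (Fin n) := by
  rw [Equiv.Perm.mem_alternatingGroup, cyc, map_mul, Equiv.Perm.sign_swap h1, Equiv.Perm.sign_swap h2]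
  rfl

theorem cyc_fix (y z w x : Fin n) (h1 : x ≠ y) (h2 : x ≠ z) (h3 : x ≠ w) : cyc y z w x = x := by
  simp [cyc, Equiv.swap_apply_of_ne_of_ne h2 h3, Equiv.swap_apply_of_ne_of_ne h1 h2]

theorem cyc_fst (y z w : Fin n) (h1 : y ≠ z) (h3 : y ≠ w) : cyc y z w y = z := by
  simp [cyc, Equiv.swap_apply_of_ne_of_ne h1 h3]

theorem cyc_snd (y z w : Fin n) (h2 : z ≠ w) (h3 : y ≠ w) : cyc y z w z = w := by
  simp [cyc, Equiv.swap_apply_of_ne_of_ne h3.symm h2.symm]

end


/-- Let n be an odd positive integer such that every primitive permutation group of degree n contains the alternating group (so the symmetric and alternating groups are the only primitive groups of degree n). Let G be a finite group, M a maximal subgroup of G of index n, and H a maximal subgroup of M. Then H is a second maximal subgroup of G: H is maximal in every maximal subgroup K of G containing H. -/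
theorem result {G : Type*} [Group G]
    [Finite G] (n : ℕ) (hodd : Odd n)
    (hA : ∀ P : Subgroup (Equiv.Perm (Fin n)), MulAction.IsPreprimitive P (Fin n) → alternatingGroup (Fin n) ≤ P)
    (M : Subgroup G) (hM : IsCoatom M) (hn : M.index = n) (H : Subgroup G) (hHM : H ≤ M)
    (hmax : IsCoatom (H.subgroupOf M)) (K : Subgroup G) (hK : IsCoatom K) (hHK : H ≤ K) :
    IsCoatom (H.subgroupOf K) := by
  classical
  have hcm : ∀ L : Subgroup G, H ≤ L → L ≤ M → L = H ∨ L = M := by
    intro L hL1 hL2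
    rcases eq_or_lt_of_le hL1 with h | h
    · exact Or.inl h.symm
    · refine Or.inr (le_antisymm hL2 ?_)
      have : H.subgroupOf M < L.subgroupOf M := by
        refine lt_of_le_not_ge (Subgroup.comap_mono hL1) fun hc => h.not_ge fun x hx => ?_
        exact Subgroup.mem_subgroupOf.mp (hc (show (⟨x, hL2 hx⟩ : M) ∈ L.subgroupOf M from hx))
      exact Subgroup.subgroupOf_eq_top.mp (hmax.2 _ this)
  by_cases hKM : K = M
  · subst hKM; exact hmax
  have hHne : H ≠ M := fun h => hmax.1 (by rw [h, Subgroup.subgroupOf_self])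
  have hKiM : K ⊓ M = H := by
    refine (hcm _ (le_inf hHK hHM) inf_le_right).resolve_right fun h => hKM ?_
    have hMK : M ≤ K := inf_eq_right.mp h
    exact (hM.le_iff.mp hMK).resolve_left hK.1
  have hKH : ¬ K ≤ H := fun h => hKM
    (((hK.le_iff.mp (h.trans hHM)).resolve_left hM.1).symm)
  -- it suffices to treat an intermediate subgroup
  suffices key : ∀ L : Subgroup G, H < L → L ≤ K → L = K by
    refine ⟨fun h => hKH (Subgroup.subgroupOf_eq_top.mp h), fun L hL => ?_⟩
    have hlt : H < L.map K.subtype := by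
      have := Subgroup.map_subtype_lt_map_subtype.mpr hL
      rwa [Subgroup.subgroupOf_map_subtype, inf_of_le_left hHK] at this
    have := key _ hlt (Subgroup.map_subtype_le L)
    apply Subgroup.map_injective K.subtype_injective
    rw [this, ← MonoidHom.range_eq_map, Subgroup.range_subtype]
  intro L hHL hLK
  by_cases hN : M.normalCore ≤ H
  swap
  · have hHN : H ⊔ M.normalCore = M := by
      refine (hcm _ le_sup_left (sup_le hHM (Subgroup.normalCore_le M))).resolve_left fun h => hN ?_
      exact h ▸ le_sup_right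
    have hle : M ≤ L ⊔ M.normalCore := le_trans (le_of_eq hHN.symm) (sup_le_sup_right hHL.le _)
    rcases (hM.le_iff.mp hle) with h | h
    · refine le_antisymm hLK fun k hk => ?_
      have hk' : k ∈ ((L ⊔ M.normalCore : Subgroup G) : Set G) := by rw [h]; trivial
      rw [Subgroup.coe_mul_of_left_le_normalizer_right L M.normalCore
        (fun x _ => Subgroup.normalizer_eq_top (M.normalCore) ▸ Subgroup.mem_top x)] at hk'
      obtain ⟨l, hl, m, hm, rfl⟩ := hk'
      refine L.mul_mem hl (hHL.le ?_)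
      rw [← hKiM]
      refine ⟨?_, Subgroup.normalCore_le M hm⟩
      have := K.mul_mem (K.inv_mem (hLK hl)) hk
      simpa using this
    · exfalso
      apply hHL.not_ge
      rw [← hKiM]
      exact le_inf hLK (h ▸ le_sup_left)
  -- now the action on the cosets of M is faithful modulo a subgroup of H
  haveI : Fintype (G ⧸ M) := Fintype.ofFinite _
  have hcard : Fintype.card (G ⧸ M) = n := by rw [← Nat.card_eq_fintype_card]; exact hn
  let e : G ⧸ M ≃ Fin n := Fintype.equivFinOfCardEq hcard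
  let φ : G →* Equiv.Perm (Fin n) := e.permCongrHom.toMonoidHom.comp (MulAction.toPermHom G (G ⧸ M))
  have φ_apply : ∀ g x, φ g (e x) = e (g • x) := fun g x => by simp [φ, Equiv.permCongrHom]
  set a := e ((1 : G) : G ⧸ M) with ha
  have hstab : ∀ g, φ g a = a ↔ g ∈ M := by
    intro g
    rw [ha, φ_apply, e.injective.eq_iff, ← MulAction.mem_stabilizer_iff, MulAction.stabilizer_quotient]
  have hker : ∀ g, φ g = 1 → g ∈ H := by
    intro g hg
    apply hN
    rw [Subgroup.normalCore_eq_ker, MonoidHom.mem_ker]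
    ext x
    apply e.injective
    have := φ_apply g x
    rw [hg] at this
    simpa using this.symm
  have hAle : alternatingGroup (Fin n) ≤ φ.range := by
    refine hA _ ?_
    haveI : Nontrivial (G ⧸ M) := by
      rw [← Finite.one_lt_card_iff_nontrivial]
      exact Subgroup.one_lt_index_of_ne_top hM.1
    haveI : MulAction.IsPreprimitive G (G ⧸ M) := by
      rw [← MulAction.isCoatom_stabilizer_iff_preprimitive G ((1 : G) : G ⧸ M),
        MulAction.stabilizer_quotient]
      exact hM
    let f : (G ⧸ M) →ₑ[φ.rangeRestrict] Fin n :=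
      { toFun := e, map_smul' := fun g x => (φ_apply g x).symm }
    exact MulAction.IsPreprimitive.of_surjective (f := f) e.surjective
  have lift : ∀ σ ∈ alternatingGroup (Fin n), ∃ s, φ s = σ := fun σ hσ => hAle hσ
  letI act : MulAction G (Fin n) := MulAction.compHom _ φ
  have act_def : ∀ (g : G) x, g • x = φ g x := fun _ _ => rfl
  let B : Set (Fin n) := MulAction.orbit L a
  let O : Set (Fin n) := MulAction.orbit K a
  have hB : ∀ x, x ∈ B ↔ ∃ l ∈ L, φ l a = x := by
    intro x
    exact ⟨fun ⟨l, hl⟩ => ⟨l.1, l.2, hl⟩, fun ⟨l, h1, h2⟩ => ⟨⟨l, h1⟩, h2⟩⟩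
  have hO : ∀ x, x ∈ O ↔ ∃ l ∈ K, φ l a = x := by
    intro x
    exact ⟨fun ⟨l, hl⟩ => ⟨l.1, l.2, hl⟩, fun ⟨l, h1, h2⟩ => ⟨⟨l, h1⟩, h2⟩⟩
  have hcardorb : ∀ S : Subgroup G, H ≤ S → S ≤ K → (MulAction.orbit S a).ncard = H.relIndex S := by
    intro S hHS hSK
    rw [← MulAction.index_stabilizer]
    show _ = (H.subgroupOf S).index
    congr 1
    ext s
    rw [MulAction.mem_stabilizer_iff, Subgroup.mem_subgroupOf, Subgroup.smul_def, act_def, hstab]
    exact ⟨fun h => hKiM ▸ ⟨hSK s.2, h⟩, fun h => hHM h⟩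
  -- an element of K moving a into B lies in L
  have inL : ∀ k ∈ K, φ k a ∈ B → k ∈ L := by
    intro k hk hkB
    obtain ⟨l, hl, hla⟩ := (hB _).mp hkB
    have : l⁻¹ * k ∈ K ⊓ M := by
      refine ⟨K.mul_mem (K.inv_mem (hLK hl)) hk, (hstab _).mp ?_⟩
      rw [map_mul, map_inv, Equiv.Perm.mul_apply, ← hla, Equiv.Perm.coe_inv, Equiv.symm_apply_apply]
    have := L.mul_mem hl (hHL.le (hKiM ▸ this))
    simpa using this
  by_contra hne
  have hHr : H.relIndex L * L.relIndex K = H.relIndex K := Subgroup.relIndex_mul_relIndex H L K hHL.le hLK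
  have hB2 : 2 ≤ B.ncard := by
    rw [hcardorb L hHL.le hLK]
    have h1 : H.relIndex L ≠ 1 := fun h => hHL.not_ge (Subgroup.relIndex_eq_one.mp h)
    have h0 : H.relIndex L ≠ 0 := Subgroup.index_ne_zero_of_finite
    omega
  have hOB : B.ncard * L.relIndex K = O.ncard := by
    rw [hcardorb L hHL.le hLK, hcardorb K hHK le_rfl, hHr]
  have hr2 : 2 ≤ L.relIndex K := by
    have h1 : L.relIndex K ≠ 1 := fun h => hne (le_antisymm hLK (Subgroup.relIndex_eq_one.mp h))
    have h0 : L.relIndex K ≠ 0 := Subgroup.index_ne_zero_of_finite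
    omega
  have hBO : B ⊆ O := fun x hx => by
    obtain ⟨l, hl, h⟩ := (hB x).mp hx
    exact (hO x).mpr ⟨l, hLK hl, h⟩
  have haB : a ∈ B := MulAction.mem_orbit_self a
  obtain ⟨x, hxB, hxa⟩ := Set.exists_ne_of_one_lt_ncard (by omega : 1 < B.ncard) a
  have hO4 : 2 * B.ncard ≤ O.ncard := by
    rw [← hOB, mul_comm]; exact Nat.mul_le_mul_left _ hr2
  obtain ⟨y, hyO, hyB⟩ := Set.exists_mem_notMem_of_ncard_lt_ncard
    (by omega : B.ncard < O.ncard) B.toFinite
  obtain ⟨z, hzO, hz⟩ := Set.exists_mem_notMem_of_ncard_lt_ncard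
    (show ({a, x, y} : Set (Fin n)).ncard < O.ncard by
      have : ({a, x, y} : Set (Fin n)).ncard ≤ 3 := by
        refine (Set.ncard_insert_le _ _).trans ?_
        have := Set.ncard_insert_le x ({y} : Set (Fin n))
        rw [Set.ncard_singleton] at this
        omega
      omega) (Set.toFinite _)
  simp only [Set.mem_insert_iff, Set.mem_singleton_iff, not_or] at hz
  obtain ⟨hza, hzx, hzy⟩ := hz
  have hya : y ≠ a := fun h => hyB (h ▸ haB)
  have hyx : y ≠ x := fun h => hyB (h ▸ hxB)
  -- a lift of the three-cycle x ↦ y ↦ z moves B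
  obtain ⟨s, hs⟩ := lift _ (cyc_mem x y z hyx.symm (Ne.symm hzy))
  have hsa : φ s a = a := by
    rw [hs]; exact cyc_fix _ _ _ _ hxa.symm hya.symm (Ne.symm hza)
  have hsx : φ s x = y := by
    rw [hs]; exact cyc_fst _ _ _ hyx.symm (Ne.symm hzx)
  have hsL : s ∉ L := by
    intro hsL
    obtain ⟨l, hl, hlx⟩ := (hB x).mp hxB
    apply hyB
    rw [hB]
    exact ⟨s * l, L.mul_mem hsL hl, by rw [map_mul, Equiv.Perm.mul_apply, hlx, hsx]⟩
  by_cases hOtop : O = Set.univ
  · -- transitive case
    let R : Subgroup G := M ⊓ (MulAction.stabilizer G B)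
    have hR : R = H := by
      refine (hcm R (le_inf hHM fun h hh => ?_) inf_le_left).resolve_right fun h => ?_
      · rw [MulAction.mem_stabilizer_iff]
        ext w
        rw [Set.mem_smul_set]
        constructor
        · rintro ⟨v, hv, rfl⟩
          obtain ⟨l, hl, rfl⟩ := (hB v).mp hv
          rw [hB]
          exact ⟨h * l, L.mul_mem (hHL.le hh) hl, by rw [map_mul]; rfl⟩
        · intro hw
          obtain ⟨l, hl, rfl⟩ := (hB w).mp hw
          refine ⟨φ (h⁻¹ * l) a, (hB _).mpr ⟨_, L.mul_mem (L.inv_mem (hHL.le hh)) hl, rfl⟩, ?_⟩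
          rw [act_def, ← Equiv.Perm.mul_apply, ← map_mul, mul_inv_cancel_left]
      · have hsR : s ∈ R := h ▸ (hstab s).mp hsa
        have : φ s x ∈ B := by
          have hsB : s • B = B := hsR.2
          rw [← hsB]
          exact ⟨x, hxB, rfl⟩
        exact hyB (hsx ▸ this)
    obtain ⟨k, hk, hka⟩ := (hO y).mp hyO
    set B' : Set (Fin n) := φ k '' B with hB'
    have hB'c : B'.ncard = B.ncard := Set.ncard_image_of_injective _ (φ k).injective
    have hdisj : ∀ v ∈ B, v ∉ B' := by
      rintro v hv ⟨u, hu, rfl⟩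
      obtain ⟨l, hl, rfl⟩ := (hB u).mp hu
      have hkl : k * l ∈ L := inL _ (K.mul_mem hk (hLK hl)) (by rw [map_mul]; exact hv)
      exact hyB (hka ▸ (hB _).mpr ⟨k, by simpa using L.mul_mem hkl (L.inv_mem hl), rfl⟩)
    have hyB' : y ∈ B' := ⟨a, haB, hka⟩
    obtain ⟨z', hz'B', hz'y⟩ := Set.exists_ne_of_one_lt_ncard (by omega : 1 < B'.ncard) y
    have hn' : O.ncard = n := by simp [hOtop]
    have hr3 : 3 ≤ L.relIndex K := by
      rcases lt_or_ge (L.relIndex K) 3 with h | h
      · exfalso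
        have h2 : L.relIndex K = 2 := by omega
        obtain ⟨c, hc⟩ := hodd
        rw [h2, hn'] at hOB
        omega
      · exact h
    obtain ⟨w, -, hw⟩ := Set.exists_mem_notMem_of_ncard_lt_ncard
      (show (B ∪ B').ncard < O.ncard by
        have h1 := Set.ncard_union_le B B'
        have : B.ncard * 3 ≤ O.ncard := by rw [← hOB]; exact Nat.mul_le_mul_left _ hr3
        omega) (Set.toFinite _)
    rw [Set.mem_union, not_or] at hw
    obtain ⟨t, ht⟩ := lift _ (cyc_mem y z' w hz'y.symm (fun h => hw.2 (h ▸ hz'B')))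
    have hyw : y ≠ w := fun h => hw.2 (h ▸ hyB')
    have hz'w : z' ≠ w := fun h => hw.2 (h ▸ hz'B')
    have hfix : ∀ v ∈ B, φ t v = v := by
      intro v hv
      rw [ht]
      exact cyc_fix _ _ _ _ (fun h => hyB (h ▸ hv)) (fun h => hdisj v hv (h ▸ hz'B')) (fun h => hw.1 (h ▸ hv))
    have htH : t ∈ H := by
      rw [← hR]
      refine ⟨(hstab t).mp (hfix a haB), ?_⟩
      show t • B = B
      rw [← Set.image_smul]
      exact (Set.image_congr (fun v hv => hfix v hv)).trans (Set.image_id' B)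
    obtain ⟨u, huB, hu⟩ := hz'B'
    obtain ⟨l, hl, hlu⟩ := (hB u).mp huB
    -- k⁻¹ t k moves a into B, hence lies in L
    have h1 : φ (k⁻¹ * t * k) a = u := by
      rw [map_mul, map_mul, map_inv, Equiv.Perm.mul_apply, Equiv.Perm.mul_apply, hka, ht,
        cyc_fst _ _ _ hz'y.symm hyw, ← hu, Equiv.Perm.coe_inv, Equiv.symm_apply_apply]
    have hL' : k⁻¹ * t * k ∈ L := inL _ (K.mul_mem (K.mul_mem (K.inv_mem hk) (hHK htH)) hk) (h1 ▸ huB)
    apply hw.2
    refine ⟨φ (k⁻¹ * t * k * l) a, (hB _).mpr ⟨_, L.mul_mem hL' hl, rfl⟩, ?_⟩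
    rw [← Equiv.Perm.mul_apply, ← map_mul, show k * (k⁻¹ * t * k * l) = t * (k * l) by group,
      map_mul, Equiv.Perm.mul_apply, map_mul, Equiv.Perm.mul_apply, hlu, hu, ht,
      cyc_snd _ _ _ hz'w hyw]
  · -- intransitive case: K is the stabiliser of the orbit
    have hKO : K ≤ MulAction.stabilizer G O := fun k hk => by
      exact MulAction.smul_orbit (⟨k, hk⟩ : K) a
    have hne' : MulAction.stabilizer G O ≠ ⊤ := by
      intro h
      obtain ⟨v, hv⟩ := (Set.ne_univ_iff_exists_notMem _).mp hOtop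
      obtain ⟨g, hg⟩ := QuotientGroup.mk_surjective (e.symm v)
      apply hv
      have hgO : g • O = O := (h ▸ Subgroup.mem_top g : g ∈ MulAction.stabilizer G O)
      rw [← hgO]
      refine ⟨a, MulAction.mem_orbit_self a, ?_⟩
      show φ g a = v
      rw [ha, φ_apply]
      simp [hg]
    have hKeq : MulAction.stabilizer G O = K := (hK.le_iff.mp hKO).resolve_left hne'
    apply hsL
    apply inL
    · rw [← hKeq, MulAction.mem_stabilizer_iff]
      apply Set.eq_of_subset_of_ncard_le _ (Set.ncard_smul_set s O).ge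
      rintro _ ⟨v, hv, rfl⟩
      show φ s v ∈ O
      by_cases h1 : v = x
      · rw [h1, hsx]; exact hyO
      by_cases h2 : v = y
      · rw [h2, hs, cyc_snd _ _ _ (Ne.symm hzy) (Ne.symm hzx)]; exact hzO
      by_cases h3 : v = z
      · rw [h3, hs]
        simp [cyc, hzx, hyx]
        exact hBO hxB
      · rw [hs, cyc_fix _ _ _ _ h1 h2 h3]; exact hv
    · rw [hsa]; exact haB


end Cfsg.Agent.S5885
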