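import Cfsg.Statements.S5886
import Cfsg.Agent.MaxSub.ExtField.Main

set_option autoImplicit false
open Cfsg

namespace Cfsg.Agent.S5886

/-- Let F be a finite field, n a positive integer and r a prime that divides n with r < n. Let K be a subalgebra of the algebra of n × n matrices over F which is a field of degree r over F (commutative, every non-zero element invertible, of dimension r over F; it contains the scalars). Then the normaliser N of K in GL_n(F) — the invertible F-linear maps that are semilinear over the field K, a group of type ΓL_{n/r}(F_{q^r}) for |F| = q — is a maximal subgroup of GL_n(F), and N ∩ SL_n(F) is a maximal subgroup of SL_n(F). No lower bound on n is assumed. -/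
theorem result {F : Type*} [Field F]
    [Fintype F] (n r : ℕ) (hr : r.Prime) (hrn : r ∣ n) (hlt : r < n) (K : Subalgebra F (Matrix (Fin n) (Fin n) F))
    (hK : Cfsg.Geo.IsFieldSubalgebra r K) :
    IsCoatom (Cfsg.Geo.subalgebraNormalizer K) ∧
      Cfsg.Geo.IsMaximalIn (Cfsg.Geo.specialLinear (Fin n) F)
        (Cfsg.Geo.subalgebraNormalizer K ⊓ Cfsg.Geo.specialLinear (Fin n) F) := by
  exact Cfsg.Agent.MaxSub.subalgebraNormalizer_maximal hr hrn hlt K hK

end Cfsg.Agent.S5886
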