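import Cfsg.Statements.S5887
import Cfsg.Agent.MaxSub.FieldSub
-- import your own Cfsg.Agent.* helpers here

set_option autoImplicit false
open Cfsg

namespace Cfsg.Agent.S5887

/-- Let F be a finite field, n a positive integer and r a composite number (r > 1, not prime) that divides n with r < n. Let K be a subalgebra of the algebra of n × n matrices over F which is a field of degree r over F (commutative, every non-zero element invertible, of dimension r over F). Then the normaliser N of K in GL_n(F) (a group of type ΓL_{n/r}(F_{q^r})) is not a maximal subgroup of GL_n(F), and N ∩ SL_n(F) is not a maximal subgroup of SL_n(F): both lie properly inside the normaliser of an intermediate subfield of prime degree over F. -/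
theorem result {F : Type*} [Field F]
    [Fintype F] (n r : ℕ) (hr1 : 1 < r) (hrp : ¬ r.Prime) (hrn : r ∣ n) (hlt : r < n)
    (K : Subalgebra F (Matrix (Fin n) (Fin n) F)) (hK : Cfsg.Geo.IsFieldSubalgebra r K) :
    ¬ IsCoatom (Cfsg.Geo.subalgebraNormalizer K) ∧
      ¬ Cfsg.Geo.IsMaximalIn (Cfsg.Geo.specialLinear (Fin n) F)
        (Cfsg.Geo.subalgebraNormalizer K ⊓ Cfsg.Geo.specialLinear (Fin n) F) := by
  haveI : Nonempty (Fin n) := ⟨⟨0, by omega⟩⟩
  obtain ⟨s, hs, hsr⟩ := Nat.exists_prime_and_dvd (show r ≠ 1 by omega)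
  have hsr' : s < r := lt_of_le_of_ne (Nat.le_of_dvd (by omega) hsr) fun h => hrp (h ▸ hs)
  obtain ⟨t, ht⟩ := hsr
  have ht2 : 2 ≤ t := by
    by_contra hc
    interval_cases t <;> omega
  have hn2 : 2 * r ≤ n := by
    obtain ⟨c, rfl⟩ := hrn
    have : 2 ≤ c := by
      by_contra hc
      interval_cases c <;> omega
    calc 2 * r = r * 2 := mul_comm _ _
      _ ≤ r * c := Nat.mul_le_mul_left r this
  have hs4 : 2 * s < n := by omega
  obtain ⟨L, hLK, hL, hle⟩ := Cfsg.Agent.MaxSub.exists_subfield_subalgebra hs.pos ⟨t, ht⟩ hK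
  obtain ⟨g, hg, hgL, hgK⟩ := Cfsg.Agent.MaxSub.exists_centralizer_not_normalizer hL hK hLK hsr'
    (by rw [Fintype.card_fin]; exact hs4)
  have hgN : g ∈ Cfsg.Geo.subalgebraNormalizer L := by
    rw [Cfsg.Agent.MaxSub.mem_normalizer_iff_map_le]
    intro l hl
    rw [hgL l hl, mul_assoc, ← Units.val_mul, mul_inv_cancel, Units.val_one, mul_one]
    exact hl
  have hSL := Cfsg.Agent.MaxSub.not_specialLinear_le_normalizer hs.one_lt
    (by rw [Fintype.card_fin]; have := hs.two_le; omega) hL
  constructor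
  · intro hco
    have hlt : Cfsg.Geo.subalgebraNormalizer K < Cfsg.Geo.subalgebraNormalizer L :=
      lt_of_le_not_ge hle fun h => hgK (h hgN)
    exact hSL ((hco.2 _ hlt).symm ▸ le_top)
  · intro hmax
    rcases hmax.2 (Cfsg.Geo.subalgebraNormalizer L ⊓ Cfsg.Geo.specialLinear (Fin n) F)
      (inf_le_inf_right _ hle) inf_le_right with h | h
    · exact hgK ((h ▸ ⟨hgN, hg⟩ : g ∈ Cfsg.Geo.subalgebraNormalizer K ⊓ Cfsg.Geo.specialLinear (Fin n) F)).1
    · exact hSL (inf_eq_right.mp h)


end Cfsg.Agent.S5887
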