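import Cfsg.Statements.S5890
import Cfsg.Agent.MaxSub.Dickson.Overgroups
import Cfsg.Agent.S5892

set_option autoImplicit false
open Cfsg Cfsg.Agent.MaxSub.Dickson MulAction
open scoped MatrixGroups OnePoint

namespace Cfsg.Agent.S5890

variable {F : Type*} [Field F] [Fintype F] [DecidableEq F]

noncomputable local instance : DecidableEq (AlgebraicClosure F) := Classical.decEq _

theorem forms (p : ℕ) [Fact p.Prime] [CharP F p] (hodd : Odd (Fintype.card F))
    (h4 : 4 ≤ Fintype.card F) {M : Subgroup PGL(2, F)} (hM : IsCoatom M) (hML : ¬ lsub F ≤ M) :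
    (∃ x : OnePoint F, M = stabilizer PGL(2, F) x) ∨
    (∃ (a b : OnePoint (AlgebraicClosure F)) (m : ℕ), IsPair F a b m ∧ M = pairStab a b ∧
      (Fintype.card F = 5 → m ≠ 4)) ∨
    ((Fintype.card F).Prime ∧ ¬ IsSquare (2 : F) ∧ Nonempty (M ≃* Equiv.Perm (Fin 4))) ∨
    (∃ (g : PGL(2, F)) (F₁ : Subfield F) (r : ℕ), r.Prime ∧ Odd r ∧
      Fintype.card F = Nat.card F₁ ^ r ∧
      M = (subPGL F₁).range.map (MulAut.conj g).toMonoidHom) := by
  classical
  have h2 := two_ne_zero_of_odd hodd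
  have hmax : ∀ N, M ≤ N → ¬ lsub F ≤ N → M = N := fun N hle hne =>
    (hM.le_iff.1 hle).elim (fun h => absurd (h ▸ le_top) hne) Eq.symm
  have notL : ¬ M ≤ lsub F := fun hle => by
    rcases hM.le_iff.1 hle with h | h
    · have := lsub_index_two hodd
      rw [h, Subgroup.index_top] at this
      omega
    · exact hML h.le
  have pglcase : ∀ (F₀ : Subfield F) (h : PGL(2, F)), F₀ ≠ ⊤ →
      M.map (MulAut.conj h⁻¹).toMonoidHom = (subPGL F₀).range →
      ∃ (g : PGL(2, F)) (F₁ : Subfield F) (r : ℕ), r.Prime ∧ Odd r ∧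
        Fintype.card F = Nat.card F₁ ^ r ∧
        M = (subPGL F₁).range.map (MulAut.conj g).toMonoidHom := by
    intro F₀ h hne he
    obtain ⟨r, hr, hc⟩ := subfield_of_maximal hmax h4 hne he
    refine ⟨h, F₀, r, hr, ?_, hc, ?_⟩
    · by_contra hev
      rw [Nat.not_odd_iff_even] at hev
      exact notL (le_lsub_of_conj_le (he.le.trans (subPGL_le_lsub_of_even hev hodd hc)))
    · rw [← he, Subgroup.map_map]
      ext z
      simp [mul_assoc]
  rcases classifyF (K := AlgebraicClosure F) (p := p) M with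
    ⟨a, b, m, -, -, hm, hle, hdvd⟩ | ⟨a, b, m, n, hm, hle, -, -, -, -, -⟩ | ⟨x, hfix, -⟩ |
    ⟨-, -, ⟨e⟩⟩ | ⟨-, hc, ⟨e⟩⟩ | ⟨-, -, ⟨e⟩⟩ | ⟨F₀, h, h04, he⟩ | ⟨F₀, h, h04, -, he⟩
  · exfalso
    have heq := hmax _ (hle.trans tor_le_pairStab) (hm.not_lsub_le h4)
    rw [heq, hm.stab.1] at hdvd
    have hpos : 0 < m := by
      obtain ⟨-, ⟨-, -, rfl⟩ | ⟨-, -, rfl⟩⟩ := hm <;> omega
    have := Nat.le_of_dvd hpos hdvd
    omega
  · have heq := hmax _ hle (hm.not_lsub_le h4)
    refine Or.inr (Or.inl ⟨a, b, m, hm, heq, fun hq5 hm4 => ?_⟩)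
    obtain ⟨hab, ⟨sa, sb, -⟩ | ⟨-, -, hm6⟩⟩ := id hm
    · obtain ⟨x, rfl⟩ := sig_eq_self_iff.1 sa
      obtain ⟨y, rfl⟩ := sig_eq_self_iff.1 sb
      have hxy : x ≠ y := fun e => hab (by rw [e])
      have h5 : (5 : F) = 0 := by
        have := FiniteField.cast_card_eq_zero F
        rwa [hq5, Nat.cast_ofNat] at this
      obtain ⟨N, t, hSN, hLN, htN, htS, -⟩ := split_pair_supergroup h2 (i := 2)
        (by linear_combination h5) hxy M hle (fun h _ _ u _ => by
          refine Units.ext ?_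
          have := FiniteField.pow_card_sub_one_eq_one (u : F) u.ne_zero
          rw [hq5] at this
          simpa using this)
      exact htS (hle ((hmax N hSN hLN).symm ▸ htN))
    · omega
  · exact Or.inl ⟨x, hmax (stabilizer PGL(2, F) x) hfix (not_lsub_le_stab h4 x)⟩
  · have : (lsub F).Normal := lsub_normal
    exact absurd (le_of_iso_alt (lsub_index_two hodd) e) notL
  · obtain ⟨hiff, g, hg⟩ := sym_four_data hodd e
    have hns : ¬ IsSquare (2 : F) := fun hs => notL (hiff.2 hs)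
    by_cases htop : (⊥ : Subfield F) = ⊤
    · refine Or.inr (Or.inr (Or.inl ⟨?_, hns, ⟨e⟩⟩))
      have hb := (subfield_eq_top_iff (⊥ : Subfield F)).1 htop
      rw [Subfield.card_bot F p] at hb
      rw [← hb]; exact Fact.out
    · refine Or.inr (Or.inr (Or.inr (pglcase ⊥ g htop ?_)))
      obtain ⟨r, hr1, hr⟩ := card_subfield_pow (⊥ : Subfield F)
      have hr2 : 2 ≤ r := by
        by_contra hh
        rw [show r = 1 by omega, pow_one] at hr
        exact htop ((subfield_eq_top_iff _).2 hr.symm)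
      have hle' : M ≤ (subPGL (⊥ : Subfield F)).range.map (MulAut.conj g).toMonoidHom := fun z hz =>
        ⟨g⁻¹ * z * g, hg ⟨z, hz, by simp⟩, by simp [mul_assoc]⟩
      rw [hmax _ hle' (not_lsub_le_subPGL h4 hr2 hr g), Subgroup.map_map]
      ext z
      simp [mul_assoc]
  · have : (lsub F).Normal := lsub_normal
    exact absurd (le_of_iso_alt (lsub_index_two hodd) e) notL
  · refine Or.inr (Or.inr (Or.inr (pglcase F₀ h (fun h0 => hM.1 ?_) he)))
    refine Subgroup.eq_top_of_card_eq _ ?_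
    rw [Nat.card_congr (M.equivMapOfInjective (MulAut.conj h⁻¹).toMonoidHom
      (MulAut.conj h⁻¹).injective).toEquiv, he, card_subPGL_range, card_pgl, (subfield_eq_top_iff F₀).1 h0]
  · exact absurd (le_lsub_of_conj_le (he.le.trans (subPSL_le_lsub F₀))) notL

theorem two_card_lsub (hodd : Odd (Fintype.card F)) : 2 * Nat.card (lsub F) =
    Fintype.card F * (Fintype.card F - 1) * (Fintype.card F + 1) := by
  have h := card_lsub_mul (F := F)
  rwa [Nat.gcd_eq_left (show 2 ∣ Fintype.card F - 1 by rw [Nat.odd_iff] at hodd; omega)] at h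

/-- The last two cases of the list: a subfield group inside `L` other than `L` is that of a proper
subfield. -/
theorem subfield_ne_top (hodd : Odd (Fintype.card F)) {H : Subgroup PGL(2, F)} (hL : H ≤ lsub F)
    (hne : H ≠ lsub F) {F₀ : Subfield F} {h : PGL(2, F)}
    (he : H.map (MulAut.conj h⁻¹).toMonoidHom = (subPGL F₀).range ∨
      H.map (MulAut.conj h⁻¹).toMonoidHom = (subPSL F₀).range) : F₀ ≠ ⊤ := by
  intro h0
  have hc : Nat.card H = Nat.card (H.map (MulAut.conj h⁻¹).toMonoidHom) :=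
    Nat.card_congr (H.equivMapOfInjective _ (MulAut.conj h⁻¹).injective).toEquiv
  have hle := Subgroup.card_le_of_le hL
  have h2 := two_card_lsub hodd
  have hq := (subfield_eq_top_iff F₀).1 h0
  refine hne (Subgroup.eq_of_le_of_card_ge hL ?_)
  rcases he with he | he <;> rw [he] at hc
  · rw [card_subPGL_range, hq] at hc
    omega
  · have c := card_subPSL_range F₀
    rw [hq, Nat.gcd_eq_left (show 2 ∣ Fintype.card F - 1 by rw [Nat.odd_iff] at hodd; omega)] at c
    omega

theorem subfield_map_le (F₀ : Subfield F) {H : Subgroup PGL(2, F)} {h : PGL(2, F)}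
    (he : H.map (MulAut.conj h⁻¹).toMonoidHom = (subPGL F₀).range ∨
      H.map (MulAut.conj h⁻¹).toMonoidHom = (subPSL F₀).range) {x : PGL(2, F)} (hx : x ∈ H) :
    h⁻¹ * x * h ∈ (subPGL F₀).range := by
  have h1 : h⁻¹ * x * h ∈ H.map (MulAut.conj h⁻¹).toMonoidHom := ⟨x, hx, by simp⟩
  rcases he with he | he <;> rw [he] at h1
  · exact h1
  · exact subPSL_le_subPGL F₀ h1

theorem borel_case (p : ℕ) [Fact p.Prime] [CharP F p] (hodd : Odd (Fintype.card F))
    (h13 : Fintype.card F = 5 ∨ 13 ≤ Fintype.card F) (x : OnePoint F) {H : Subgroup PGL(2, F)}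
    (h0 : stabilizer PGL(2, F) x ⊓ lsub F ≤ H) (hL : H ≤ lsub F) (hne : H ≠ lsub F) :
    H ≤ stabilizer PGL(2, F) x := by
  obtain ⟨f, hp, hq⟩ := FiniteField.card F p
  have hqodd := Nat.odd_iff.1 hodd
  obtain ⟨h, hx⟩ := exists_move x
  subst hx
  have hnot : ¬ stabilizer PGL(2, F) (h • (∞ : OnePoint F)) ≤ lsub F := by
    intro hle
    obtain ⟨c, hc⟩ := FiniteField.exists_nonsquare (F := F) (fun hc2 => by
      have := FiniteField.even_card_iff_char_two.1 hc2
      omega)
    have hc0 : c ≠ 0 := fun e => hc (e ▸ IsSquare.zero)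
    have hm := hle (x := h * aff (Units.mk0 c hc0) 0 * h⁻¹) (by
      rw [mem_stabilizer_iff, mul_smul, mul_smul, inv_smul_smul, aff_infty])
    have hm' := lsub_normal.conj_mem _ hm h⁻¹
    rw [show h⁻¹ * (h * aff (Units.mk0 c hc0) 0 * h⁻¹) * h⁻¹⁻¹ = aff (Units.mk0 c hc0) 0 by group,
      aff_mem_lsub_iff] at hm'
    exact hc hm'
  have hc0 := S5892.card_inf_lsub hodd hnot
  rw [card_stab] at hc0
  have hdvd : Nat.card (stabilizer PGL(2, F) (h • (∞ : OnePoint F)) ⊓ lsub F : Subgroup PGL(2, F)) ∣ Nat.card H :=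
    Subgroup.card_dvd_of_le h0
  have hp2 : p ≠ 2 := fun e => by
    rw [e] at hq
    rw [hq, Nat.pow_mod] at hqodd
    simp [f.ne_zero] at hqodd
  have hpH : p ∣ Nat.card H := by
    have h1 : p ∣ 2 * Nat.card (stabilizer PGL(2, F) (h • (∞ : OnePoint F)) ⊓ lsub F : Subgroup PGL(2, F)) := by
      rw [hc0, hq]; exact dvd_mul_of_dvd_left (dvd_pow_self p f.ne_zero) _
    exact (((Nat.coprime_primes hp Nat.prime_two).2 hp2).dvd_of_dvd_mul_left h1).trans hdvd
  have hbig : (Fintype.card F = 5 ∧ 10 ∣ Nat.card H ∧ Nat.card (lsub F) = 60) ∨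
      (13 ≤ Fintype.card F ∧ 78 ≤ Nat.card H) := by
    rcases h13 with h5 | h13
    · left
      refine ⟨h5, ?_, ?_⟩
      · rw [h5] at hc0
        have : Nat.card (stabilizer PGL(2, F) (h • (∞ : OnePoint F)) ⊓ lsub F : Subgroup PGL(2, F)) = 10 := by
          omega
        rwa [this] at hdvd
      · have := two_card_lsub hodd
        rw [h5] at this
        omega
    · right
      refine ⟨h13, ?_⟩
      have h1 := Nat.le_of_dvd Nat.card_pos hdvd
      have : 13 * 12 ≤ Fintype.card F * (Fintype.card F - 1) := Nat.mul_le_mul h13 (by omega)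
      omega
  rcases classifyF (K := AlgebraicClosure F) (p := p) H with
    ⟨a, b, m, hpc, -, -, -, -⟩ | ⟨a, b, m, n, -, -, -, hpn, -, hcard, -⟩ | ⟨y, hfix, -⟩ |
    ⟨-, hc, -⟩ | ⟨-, hc, -⟩ | ⟨-, hc, -⟩ | ⟨F₀, g, h04, he⟩ | ⟨F₀, g, h04, -, he⟩
  · exact absurd hpH hpc
  · rw [hcard] at hpH
    rcases hp.dvd_mul.1 hpH with h' | h'
    · exact absurd ((Nat.prime_dvd_prime_iff_eq hp Nat.prime_two).1 h') hp2
    · exact absurd h' hpn
  · have ht : h * aff 1 1 * h⁻¹ ∈ H := h0 ⟨by
      show (h * aff 1 1 * h⁻¹) • (h • (∞ : OnePoint F)) = h • ∞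
      rw [mul_smul, mul_smul, inv_smul_smul, aff_infty],
      lsub_normal.conj_mem _ ((aff_mem_lsub_iff 1 1).2 (by simp)) h⟩
    have hy := fixed_conj (g := h * aff 1 1 * h⁻¹) (h := h) (x := h⁻¹ • y)
      (by rw [smul_inv_smul]; exact hfix _ ht)
    rw [show h⁻¹ * (h * aff 1 1 * h⁻¹) * h = aff (1 : Fˣ) (1 : F) by group] at hy
    have hyx : y = h • (∞ : OnePoint F) := by
      rw [← inv_smul_eq_iff]
      generalize h⁻¹ • y = z at hy
      induction z using OnePoint.rec with
      | infty => rfl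
      | coe z =>
        rw [aff_coe, OnePoint.coe_eq_coe] at hy
        exact absurd (by simpa using hy) (one_ne_zero (α := F))
    intro g hg
    rw [mem_stabilizer_iff, ← hyx]
    exact hfix g hg
  · rcases hbig with ⟨-, hd, -⟩ | ⟨-, hb⟩
    · rw [hc] at hd; norm_num at hd
    · omega
  · rcases hbig with ⟨-, hd, -⟩ | ⟨-, hb⟩
    · rw [hc] at hd; norm_num at hd
    · omega
  · rcases hbig with ⟨-, -, h60⟩ | ⟨-, hb⟩
    · exact absurd (Subgroup.eq_of_le_of_card_ge hL (by omega)) hne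
    · omega
  all_goals
    exfalso
    have hne₀ : F₀ ≠ ⊤ := subfield_ne_top hodd hL hne (by first | exact Or.inl he | exact Or.inr he)
    obtain ⟨r, hr1, hr⟩ := card_subfield_pow F₀
    have hr2 : 2 ≤ r := by
      by_contra hh
      rw [show r = 1 by omega, pow_one] at hr
      exact hne₀ ((subfield_eq_top_iff _).2 hr.symm)
    have hH : Nat.card H ≤ Nat.card (subPGL F₀).range := by
      rw [Nat.card_congr (H.equivMapOfInjective (MulAut.conj g⁻¹).toMonoidHom (MulAut.conj g⁻¹).injective).toEquiv, he]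
      try exact Subgroup.card_le_of_le (subPSL_le_subPGL F₀)
    rw [card_subPGL_range] at hH
    have hlow := Nat.le_of_dvd Nat.card_pos hdvd
    have hsq : Nat.card F₀ * Nat.card F₀ ≤ Fintype.card F := by
      rw [hr, ← sq]; exact Nat.pow_le_pow_right (by omega) hr2
    generalize Nat.card F₀ = a at h04 hH hsq
    have e1 : a * (a - 1) * (a + 1) = a * (a * a - 1) := by
      obtain ⟨a', rfl⟩ : ∃ a', a = a' + 1 := ⟨a - 1, by omega⟩
      rw [Nat.add_sub_cancel, show (a' + 1) * (a' + 1) = a' * a' + 2 * a' + 1 by ring,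
        Nat.add_sub_cancel]
      ring
    have h6 : a * a * (a * a - 1) ≤ Fintype.card F * (Fintype.card F - 1) :=
      Nat.mul_le_mul hsq (by omega)
    have h7 : 4 * (a * (a * a - 1)) ≤ a * a * (a * a - 1) := by
      rw [mul_assoc a a]; exact Nat.mul_le_mul_right _ h04
    have h8 : 0 < a * (a * a - 1) := Nat.mul_pos (by omega) (by
      have : 4 * 4 ≤ a * a := Nat.mul_le_mul h04 h04
      omega)
    omega

theorem pair_case (p : ℕ) [Fact p.Prime] [CharP F p] (hodd : Odd (Fintype.card F))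
    (h13 : Fintype.card F = 5 ∨ 13 ≤ Fintype.card F) {a b : OnePoint (AlgebraicClosure F)} {m : ℕ}
    (hm : IsPair F a b m) (hm5 : Fintype.card F = 5 → m ≠ 4) {H : Subgroup PGL(2, F)}
    (h0 : pairStab a b ⊓ lsub F ≤ H) (hL : H ≤ lsub F) (hne : H ≠ lsub F) :
    H ≤ pairStab a b := by
  obtain ⟨k, hk, hTc, hPc, -⟩ := hm.stab_lsub hodd
  set T : Subgroup PGL(2, F) := tor a b ⊓ lsub F with hT
  set P : Subgroup PGL(2, F) := pairStab a b ⊓ lsub F with hP
  have hkcases : (Fintype.card F = 5 ∧ k = 3 ∧ Nat.card (lsub F) = 60) ∨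
      (13 ≤ Fintype.card F ∧ 6 ≤ k ∧ Fintype.card F ≤ 2 * k + 1) := by
    rcases h13 with h5 | h13
    · refine Or.inl ⟨h5, ?_, ?_⟩
      · obtain ⟨-, ⟨-, -, hm'⟩ | ⟨-, -, hm'⟩⟩ := hm <;> have := hm5 h5 <;> omega
      · have := two_card_lsub hodd; rw [h5] at this; omega
    · refine Or.inr ⟨h13, ?_, ?_⟩ <;>
        obtain ⟨-, ⟨-, -, hm'⟩ | ⟨-, -, hm'⟩⟩ := hm <;> omega
  have hk3 : 3 ≤ k := by rcases hkcases with ⟨-, h, -⟩ | ⟨-, h, -⟩ <;> omega
  -- a generator of the cyclic part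
  have hTcyc : IsCyclic T := isCyclic_two_fixed ((emb (AlgebraicClosure F)).comp T.subtype)
    (emb_injective.comp Subtype.val_injective) hm.1 (fun g => g.2.1)
  obtain ⟨c, hc⟩ := IsCyclic.exists_ofOrder_eq_natCard (α := T)
  rw [hTc, ← Subgroup.orderOf_coe] at hc
  have hcP : (c : PGL(2, F)) ∈ P := ⟨Or.inl c.2.1, c.2.2⟩
  have hcH : (c : PGL(2, F)) ∈ H := h0 hcP
  have hsame : ∀ {a' b' : OnePoint (AlgebraicClosure F)}, a' ≠ b' → H ≤ pairStab a' b' →
      H ≤ pairStab a b := by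
    intro a' b' hab' hle
    refine hle.trans (le_of_eq (pairStab_eq_of_fixed (c := (c : PGL(2, F)) * (c : PGL(2, F))) ?_ hm.1 hab' ?_ ?_ ?_ ?_))
    · intro e
      have := Nat.le_of_dvd (by norm_num) (orderOf_dvd_of_pow_eq_one (n := 2) (x := (c : PGL(2, F)))
        (by rw [pow_two]; exact e))
      omega
    · rw [map_mul, mul_smul, c.2.1.1, c.2.1.1]
    · rw [map_mul, mul_smul, c.2.1.2, c.2.1.2]
    all_goals
      rw [map_mul, mul_smul]
      rcases hle hcH with ⟨e1, e2⟩ | ⟨e1, e2⟩ <;> simp only [e1, e2]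
  rcases classifyF (K := AlgebraicClosure F) (p := p) H with
    ⟨a', b', m', -, -, hm', hle, -⟩ | ⟨a', b', m', n, hm', hle, -, -, -, -, -⟩ | ⟨y, hfix, -⟩ |
    ⟨-, hc12, ⟨e⟩⟩ | ⟨-, hc24, ⟨e⟩⟩ | ⟨-, hc60, ⟨e⟩⟩ | ⟨F₀, g, h04, he⟩ | ⟨F₀, g, h04, -, he⟩
  · exact hsame hm'.1 (hle.trans tor_le_pairStab)
  · exact hsame hm'.1 hle
  · exfalso
    obtain ⟨w, hwP, hwT⟩ : ∃ w ∈ P, w ∉ T := by
      refine SetLike.not_le_iff_exists.1 fun hle => ?_
      have := Subgroup.card_le_of_le hle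
      omega
    have hc1 : emb (AlgebraicClosure F) (c : PGL(2, F)) ≠ 1 := fun e => by
      rw [← map_one (emb (F := F) (AlgebraicClosure F))] at e
      rw [emb_injective e, orderOf_one] at hc
      omega
    have hy : ∀ g ∈ H, emb (AlgebraicClosure F) g • pt₀ (AlgebraicClosure F) y = pt₀ _ y :=
      fun g hg => by rw [emb_pt, hfix g hg]
    have hwy := hy w (h0 hwP)
    rcases hwP.1 with h' | ⟨w1, w2⟩
    · exact hwT ⟨h', hwP.2⟩
    · by_cases hya : pt₀ (AlgebraicClosure F) y = a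
      · rw [hya, w1] at hwy; exact hm.1 hwy.symm
      · by_cases hyb : pt₀ (AlgebraicClosure F) y = b
        · rw [hyb, w2] at hwy; exact hm.1 hwy
        · exact hc1 (eq_one_of_three hm.1 (Ne.symm hya) (Ne.symm hyb) c.2.1.1 c.2.1.2 (hy _ hcH))
  · exfalso
    rcases hkcases with ⟨-, hk', -⟩ | ⟨-, hk', -⟩
    · have hidx : ((P.subgroupOf H).index) = 2 := by
        have := (P.subgroupOf H).card_mul_index
        rw [Nat.card_congr (Subgroup.subgroupOfEquivOfLe h0).toEquiv, hPc, hk', hc12] at this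
        omega
      have : (P.subgroupOf H).Normal := Subgroup.normal_of_index_eq_two hidx
      have htop := le_of_iso_alt hidx (M := (⊤ : Subgroup H)) (Subgroup.topEquiv.trans e)
      have := Subgroup.card_le_of_le htop
      rw [Subgroup.card_top, hc12, Nat.card_congr (Subgroup.subgroupOfEquivOfLe h0).toEquiv, hPc, hk'] at this
      omega
    · have h1 : orderOf (e ⟨c, hcH⟩) = k := by
        rw [← hc, e.orderOf_eq, Subgroup.orderOf_mk]
      have key : ∀ σ : alternatingGroup (Fin 4), σ ^ 2 = 1 ∨ σ ^ 3 = 1 := by decide +kernel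
      rcases key (e ⟨c, hcH⟩) with h | h <;>
        have := orderOf_le_of_pow_eq_one (by norm_num) h <;> omega
  · exfalso
    rcases hkcases with ⟨-, -, h60⟩ | ⟨-, hk', -⟩
    · have := Subgroup.card_dvd_of_le hL
      rw [hc24, h60] at this
      norm_num at this
    · have h1 : orderOf (e ⟨c, hcH⟩) = k := by
        rw [← hc, e.orderOf_eq, Subgroup.orderOf_mk]
      have key : ∀ σ : Equiv.Perm (Fin 4), σ ^ 2 = 1 ∨ σ ^ 3 = 1 ∨ σ ^ 4 = 1 := by decide +kernel
      rcases key (e ⟨c, hcH⟩) with h | h | h <;>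
        have := orderOf_le_of_pow_eq_one (by norm_num) h <;> omega
  · exfalso
    rcases hkcases with ⟨-, -, h60⟩ | ⟨-, hk', -⟩
    · exact hne (Subgroup.eq_of_le_of_card_ge hL (by omega))
    · have h1 : orderOf (e ⟨c, hcH⟩) = k := by
        rw [← hc, e.orderOf_eq, Subgroup.orderOf_mk]
      have key : ∀ σ : alternatingGroup (Fin 5), σ ^ 2 = 1 ∨ σ ^ 3 = 1 ∨ σ ^ 5 = 1 := by decide +kernel
      rcases key (e ⟨c, hcH⟩) with h | h | h <;>
        have := orderOf_le_of_pow_eq_one (by norm_num) h <;> omega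
  all_goals
    exfalso
    have he' : H.map (MulAut.conj g⁻¹).toMonoidHom = (subPGL F₀).range ∨
        H.map (MulAut.conj g⁻¹).toMonoidHom = (subPSL F₀).range := by
      first | exact Or.inl he | exact Or.inr he
    have hne₀ : F₀ ≠ ⊤ := subfield_ne_top hodd hL hne he'
    obtain ⟨r, hr1, hr⟩ := card_subfield_pow F₀
    have hr2 : 2 ≤ r := by
      by_contra hh
      rw [show r = 1 by omega, pow_one] at hr
      exact hne₀ ((subfield_eq_top_iff _).2 hr.symm)
    have hsq : Nat.card F₀ * Nat.card F₀ ≤ Fintype.card F := by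
      rw [hr, ← sq]; exact Nat.pow_le_pow_right (by omega) hr2
    obtain ⟨z, hz⟩ := subfield_map_le F₀ he' hcH
    have : Fintype F₀ := Fintype.ofFinite _
    have hz' := orderOf_le_card_add_one z
    rw [← orderOf_injective _ (subPGL_injective F₀) z, hz,
      show g⁻¹ * (c : PGL(2, F)) * g = MulAut.conj g⁻¹ (c : PGL(2, F)) by simp,
      MulEquiv.orderOf_eq, hc, ← Nat.card_eq_fintype_card] at hz'
    have h6 : 4 * Nat.card F₀ ≤ Nat.card F₀ * Nat.card F₀ := Nat.mul_le_mul_right _ h04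
    rcases hkcases with ⟨h5, -, -⟩ | ⟨-, -, hkq⟩ <;> omega

theorem sym_case (p : ℕ) [Fact p.Prime] [CharP F p] (hodd : Odd (Fintype.card F))
    (h4 : 4 ≤ Fintype.card F) (hpr : (Fintype.card F).Prime) (hns : ¬ IsSquare (2 : F))
    (h40 : Fintype.card F % 40 ∉ ({11, 19, 21, 29} : Finset ℕ))
    {M : Subgroup PGL(2, F)} (e : M ≃* Equiv.Perm (Fin 4)) {H : Subgroup PGL(2, F)}
    (h0 : M ⊓ lsub F ≤ H) (hL : H ≤ lsub F) (hne : H ≠ lsub F) : H ≤ M := by
  obtain ⟨f, hp, hq⟩ := FiniteField.card F p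
  have hqp : Fintype.card F = p := by
    rcases (Nat.dvd_prime hpr).1 (hq ▸ dvd_pow_self p f.ne_zero : p ∣ Fintype.card F) with h | h
    · exact absurd h hp.one_lt.ne'
    · exact h.symm
  have hqodd := Nat.odd_iff.1 hodd
  have hnL : ¬ M ≤ lsub F := fun hle => hns ((sym_four_data hodd e).1.1 hle)
  have hc0 := S5892.card_inf_lsub hodd hnL
  rw [Nat.card_congr e.toEquiv, Nat.card_perm, Nat.card_fin, show Nat.factorial 4 = 24 from rfl] at hc0
  set M₀ : Subgroup PGL(2, F) := M ⊓ lsub F with hM₀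
  let φ : M₀ →* Equiv.Perm (Fin 4) := e.toMonoidHom.comp (Subgroup.inclusion inf_le_left)
  have hφ : Function.Injective φ := e.injective.comp (Subgroup.inclusion_injective _)
  have hr : φ.range = alternatingGroup (Fin 4) := by
    refine Equiv.Perm.eq_alternatingGroup_of_index_eq_two ?_
    have := φ.range.card_mul_index
    rw [← Nat.card_congr (MonoidHom.ofInjective hφ).toEquiv, Nat.card_perm, Nat.card_fin,
      show Nat.factorial 4 = 24 from rfl] at this
    rw [show Nat.card M₀ = 12 by omega] at this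
    omega
  let ψ : alternatingGroup (Fin 4) →* PGL(2, F) :=
    M₀.subtype.comp ((MonoidHom.ofInjective hφ).trans (MulEquiv.subgroupCongr hr)).symm.toMonoidHom
  have hψ : Function.Injective ψ := Subtype.val_injective.comp (MulEquiv.injective _)
  have hψH : ∀ σ, ψ σ ∈ H := fun σ => h0 (Subtype.prop _)
  have hnc : ∀ {a b : OnePoint (AlgebraicClosure F)}, a ≠ b → H ≤ pairStab a b → False := by
    intro a b hab hle
    have hx : ∀ σ : alternatingGroup (Fin 4), σ ^ 3 = 1 → ψ σ ∈ tor a b := fun σ hσ =>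
      mem_tor_of_odd_pow (hle (hψH σ)) (j := 1) (by
        show ψ σ ^ 3 = 1
        rw [← map_pow, hσ, map_one])
    have hcy := isCyclic_tor (F := F) (K := AlgebraicClosure F) hab
    let x : tor (F := F) a b := ⟨_, hx Perms.b4 Perms.four_rel.2.2.1⟩
    let y : tor (F := F) a b := ⟨_, hx (Perms.a4 * Perms.b4) Perms.four_rel.2.2.2.2.1⟩
    letI := hcy.commGroup
    have hxy : x * y = y * x := mul_comm x y
    have h' : ψ (Perms.b4 * (Perms.a4 * Perms.b4)) = ψ (Perms.a4 * Perms.b4 * Perms.b4) := by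
      rw [map_mul, map_mul ψ (Perms.a4 * Perms.b4)]
      exact congrArg Subtype.val hxy
    exact absurd (hψ h') (by decide +kernel)
  have h2p : p ≠ 2 := by omega
  rcases classifyF (K := AlgebraicClosure F) (p := p) H with
    ⟨a', b', m', -, -, hm', hle, -⟩ | ⟨a', b', m', n, hm', hle, -, -, -, -, -⟩ | ⟨y, hfix, -⟩ |
    ⟨-, hc12, -⟩ | ⟨-, -, ⟨e'⟩⟩ | ⟨-, hc60, ⟨e'⟩⟩ | ⟨F₀, g, -, he⟩ | ⟨F₀, g, -, -, he⟩
  · exact (hnc hm'.1 (hle.trans tor_le_pairStab)).elim
  · exact (hnc hm'.1 hle).elim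
  · exfalso
    have hcomm := commutator_pow_prime (p := p) (hfix _ (hψH Perms.a4)) (hfix _ (hψH Perms.b4))
    have hrel : Perms.a4 * Perms.b4 * Perms.a4⁻¹ * Perms.b4⁻¹ ≠ 1 ∧
        (Perms.a4 * Perms.b4 * Perms.a4⁻¹ * Perms.b4⁻¹) ^ 2 = 1 := by decide +kernel
    rw [← map_inv, ← map_inv, ← map_mul, ← map_mul, ← map_mul, ← map_pow, ← map_one ψ] at hcomm
    have h1 := hψ hcomm
    set z := Perms.a4 * Perms.b4 * Perms.a4⁻¹ * Perms.b4⁻¹
    have hd : orderOf z ∣ Nat.gcd p 2 :=
      Nat.dvd_gcd (orderOf_dvd_of_pow_eq_one h1) (orderOf_dvd_of_pow_eq_one hrel.2)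
    rw [(Nat.coprime_primes hp Nat.prime_two).2 h2p, Nat.dvd_one, orderOf_eq_one_iff] at hd
    exact hrel.1 hd
  · rw [← Subgroup.eq_of_le_of_card_ge h0 (by omega)]
    exact inf_le_left
  · exact absurd ((sym_four_data hodd e').1.1 hL) hns
  · exfalso
    have h5 : 5 ∣ 2 * Nat.card (lsub F) :=
      dvd_mul_of_dvd_right ((show 5 ∣ Nat.card H by rw [hc60]; norm_num).trans (Subgroup.card_dvd_of_le hL)) _
    rw [two_card_lsub hodd] at h5
    by_cases hp5 : Fintype.card F = 5
    · have := two_card_lsub hodd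
      rw [hp5] at this
      exact hne (Subgroup.eq_of_le_of_card_ge hL (by omega))
    · have h8 : Fintype.card F % 8 = 3 ∨ Fintype.card F % 8 = 5 := by
        by_contra hh
        push Not at hh
        exact hns (FiniteField.isSquare_two_iff.2 hh)
      have h10 : Fintype.card F % 5 = 1 ∨ Fintype.card F % 5 = 4 := by
        rcases Nat.prime_five.dvd_mul.1 h5 with h' | h'
        · rcases Nat.prime_five.dvd_mul.1 h' with h'' | h''
          · rcases (Nat.dvd_prime hpr).1 h'' with h1 | h1 <;> omega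
          · omega
        · omega
      apply h40
      simp only [Finset.mem_insert, Finset.mem_singleton]
      omega
  all_goals
    exfalso
    refine subfield_ne_top hodd hL hne (F₀ := F₀) (h := g) (by first | exact Or.inl he | exact Or.inr he) ?_
    obtain ⟨r, hr1, hr⟩ := card_subfield_pow F₀
    refine (subfield_eq_top_iff _).2 ?_
    have hd : Nat.card F₀ ∣ Fintype.card F := hr ▸ dvd_pow_self _ (by omega)
    rcases (Nat.dvd_prime hpr).1 hd with h | h
    · exact absurd h (Finite.one_lt_card (α := F₀)).ne'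
    · exact h

theorem subfield_case (p : ℕ) [Fact p.Prime] [CharP F p] (hodd : Odd (Fintype.card F))
    {F₁ : Subfield F} {r : ℕ} (hr : r.Prime) (hrodd : Odd r)
    (hc : Fintype.card F = Nat.card F₁ ^ r) {H : Subgroup PGL(2, F)}
    (h0 : (subPGL F₁).range ⊓ lsub F ≤ H) (hL : H ≤ lsub F) (hne : H ≠ lsub F) :
    H ≤ (subPGL F₁).range := by
  obtain ⟨f, hp, hq⟩ := FiniteField.card F p
  set R : Subgroup PGL(2, F) := (subPGL F₁).range with hR
  have hnL : ¬ R ≤ lsub F := S5892.subPGL_not_le_lsub hodd hrodd hc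
  have hc0 := S5892.card_inf_lsub hodd hnL
  rw [hR, card_subPGL_range, ← hR] at hc0
  have htrans : ∀ v ∈ F₁, aff (1 : Fˣ) v ∈ R ⊓ lsub F := fun v hv => ⟨⟨aff 1 ⟨v, hv⟩, by
      rw [subPGL, aff, aff, Matrix.ProjGenLinGroup.map_mk]
      refine congrArg Matrix.ProjGenLinGroup.mk (Matrix.GeneralLinearGroup.ext fun i j => ?_)
      fin_cases i <;> fin_cases j <;> simp [Matrix.GeneralLinearGroup.mkOfDetNeZero]⟩,
    (aff_mem_lsub_iff 1 v).2 (by simp)⟩
  have hrec : (recipP : PGL(2, F)) ∈ R := ⟨recipP, by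
    rw [subPGL, recipP, recipP, Matrix.ProjGenLinGroup.map_mk]
    refine congrArg Matrix.ProjGenLinGroup.mk (Matrix.GeneralLinearGroup.ext fun i j => ?_)
    fin_cases i <;> fin_cases j <;> simp [Matrix.GeneralLinearGroup.mkOfDetNeZero]⟩
  set U : PGL(2, F) := aff 1 1 with hU
  set U' : PGL(2, F) := recipP * U * recipP⁻¹ with hU'
  set U'' : PGL(2, F) := U * U' * U⁻¹ with hU''
  have hUm : U ∈ R ⊓ lsub F := htrans 1 (one_mem _)
  have hU'm : U' ∈ R ⊓ lsub F :=
    ⟨R.mul_mem (R.mul_mem hrec hUm.1) (R.inv_mem hrec), lsub_normal.conj_mem _ hUm.2 _⟩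
  have hU''m : U'' ∈ R ⊓ lsub F := mul_mem (mul_mem hUm hU'm) (inv_mem hUm)
  have hU1 : U ≠ 1 := fun e => one_ne_zero (aff_eq_one_iff.1 e).2
  have hUp : U ^ p = 1 := aff_one_pow_prime 1
  have hU'p : U' ^ p = 1 := by rw [hU', conj_pow, hUp]; group
  have hU''p : U'' ^ p = 1 := by rw [hU'', conj_pow, hU'p]; group
  have hU'1 : U' ≠ 1 := fun e => hU1 (conj_eq_one_iff.1 e)
  have hU''1 : U'' ≠ 1 := fun e => hU'1 (conj_eq_one_iff.1 e)
  have f0 : U' • ((0 : F) : OnePoint F) = ((0 : F) : OnePoint F) := by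
    rw [hU', hU, mul_smul, mul_smul,
      show (recipP : PGL(2, F))⁻¹ • ((0 : F) : OnePoint F) = ∞ by rw [inv_smul_eq_iff, recipP_infty],
      aff_infty, recipP_infty]
  have f1 : U'' • ((1 : F) : OnePoint F) = ((1 : F) : OnePoint F) := by
    rw [hU'', mul_smul, mul_smul,
      show U⁻¹ • ((1 : F) : OnePoint F) = ((0 : F) : OnePoint F) by
        rw [inv_smul_eq_iff, hU, aff_coe]; simp,
      f0, hU, aff_coe]
    simp
  have hfinf : U • (∞ : OnePoint F) = ∞ := aff_infty 1 1
  have hpR : p ∣ Nat.card (R ⊓ lsub F : Subgroup PGL(2, F)) := by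
    have h1 : orderOf (⟨U, hUm⟩ : (R ⊓ lsub F : Subgroup PGL(2, F))) = p := by
      rw [Subgroup.orderOf_mk]; exact orderOf_eq_prime hUp hU1
    exact h1 ▸ _root_.orderOf_dvd_natCard _
  have hpH : p ∣ Nat.card H := hpR.trans (Subgroup.card_dvd_of_le h0)
  have hqodd := Nat.odd_iff.1 hodd
  have hp2 : p ≠ 2 := fun e => by
    rw [e] at hq
    rw [hq, Nat.pow_mod] at hqodd
    simp [f.ne_zero] at hqodd
  obtain ⟨i, -, hi⟩ := (Nat.dvd_prime_pow hp).1
    (hq ▸ hc ▸ dvd_pow_self (Nat.card F₁) hr.ne_zero : Nat.card F₁ ∣ p ^ (f : ℕ))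
  have hi0 : i ≠ 0 := by
    rintro rfl
    exact (Finite.one_lt_card (α := F₁)).ne' (by rw [hi, pow_zero])
  have ha : Nat.card F₁ = 3 ∨ 5 ≤ Nat.card F₁ := by
    have h3 : 3 ≤ p := by have := hp.two_le; omega
    have hge : 3 ≤ Nat.card F₁ := hi ▸ h3.trans (Nat.le_self_pow hi0 p)
    have : Odd (Nat.card F₁) := (Nat.odd_pow_iff hr.ne_zero).1 (hc ▸ hodd)
    rw [Nat.odd_iff] at this
    omega
  have hsmall : ∀ N, Nat.card H = N → N ≤ 24 → N = 24 ∧ Nat.card F₁ = 3 ∨ H ≤ R := by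
    intro N hN hN24
    have hge := Subgroup.card_dvd_of_le h0
    rw [hN] at hge
    rcases ha with ha | ha
    · rw [ha] at hc0
      rw [show Nat.card (R ⊓ lsub F : Subgroup PGL(2, F)) = 12 by omega] at hge
      have hN0 : 0 < N := hN ▸ Nat.card_pos
      obtain ⟨t, rfl⟩ := hge
      rcases (show t = 1 ∨ t = 2 by omega) with rfl | rfl
      · exact Or.inr ((Subgroup.eq_of_le_of_card_ge h0 (by omega)).ge.trans inf_le_left)
      · exact Or.inl ⟨rfl, ha⟩
    · exfalso
      have h6 : 5 * 4 * 6 ≤ Nat.card F₁ * (Nat.card F₁ - 1) * (Nat.card F₁ + 1) :=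
        Nat.mul_le_mul (Nat.mul_le_mul ha (by omega)) (by omega)
      have := Nat.le_of_dvd (hN ▸ Nat.card_pos) hge
      omega
  rcases classifyF (K := AlgebraicClosure F) (p := p) H with
    ⟨a', b', m', hpc, -, -, -, -⟩ | ⟨a', b', m', n, -, -, -, hpn, -, hcard, -⟩ | ⟨y, hfix, -⟩ |
    ⟨-, hc12, -⟩ | ⟨-, hc24, ⟨e'⟩⟩ | ⟨-, hc60, -⟩ | ⟨F₀, g, -, he⟩ | ⟨F₀, g, -, -, he⟩
  · exact absurd hpH hpc
  · rw [hcard] at hpH
    rcases hp.dvd_mul.1 hpH with h' | h'
    · exact absurd ((Nat.prime_dvd_prime_iff_eq hp Nat.prime_two).1 h') hp2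
    · exact absurd h' hpn
  · exfalso
    have h1 := fixed_unique (g := U) hU1 hUp hfinf (hfix _ (h0 hUm))
    have h2 := fixed_unique (g := U') hU'1 hU'p f0 (hfix _ (h0 hU'm))
    exact OnePoint.coe_ne_infty (0 : F) (h2.trans h1.symm)
  · rcases hsmall 12 hc12 (by norm_num) with ⟨h, -⟩ | h
    · norm_num at h
    · exact h
  · rcases hsmall 24 hc24 (by norm_num) with ⟨-, ha3⟩ | h
    · exfalso
      obtain ⟨j, hj⟩ := hrodd
      have h8 : Fintype.card F % 8 = 3 := by
        rw [hc, ha3, hj, pow_succ, pow_mul, Nat.mul_mod, Nat.pow_mod]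
        simp
      exact (FiniteField.isSquare_two_iff.1 ((sym_four_data hodd e').1.1 hL)).1 h8
    · exact h
  · have hge := Subgroup.card_dvd_of_le h0
    rw [hc60] at hge
    rcases ha with ha | ha
    · exfalso
      obtain ⟨j, hj⟩ := hrodd
      have h5 : Fintype.card F % 5 = 2 ∨ Fintype.card F % 5 = 3 := by
        rw [hc, ha, hj, pow_succ, pow_mul, Nat.mul_mod, Nat.pow_mod]
        have h' : 4 ^ j % 5 = 1 ∨ 4 ^ j % 5 = 4 := by
          clear hj hc
          induction j with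
          | zero => simp
          | succ j ih => rw [pow_succ, Nat.mul_mod]; rcases ih with h | h <;> simp [h]
        rcases h' with h | h <;> simp [h]
      have hd : 5 ∣ 2 * Nat.card (lsub F) :=
        dvd_mul_of_dvd_right ((show 5 ∣ Nat.card H by rw [hc60]; norm_num).trans (Subgroup.card_dvd_of_le hL)) _
      rw [two_card_lsub hodd] at hd
      rcases Nat.prime_five.dvd_mul.1 hd with h' | h'
      · rcases Nat.prime_five.dvd_mul.1 h' with h'' | h'' <;> omega
      · omega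
    · rcases ha.eq_or_lt with ha5 | ha7
      · rw [← ha5] at hc0
        exact (Subgroup.eq_of_le_of_card_ge h0 (by omega)).ge.trans inf_le_left
      · exfalso
        have h6 : 6 * 5 * 7 ≤ Nat.card F₁ * (Nat.card F₁ - 1) * (Nat.card F₁ + 1) :=
          Nat.mul_le_mul (Nat.mul_le_mul ha7 (by omega)) (by omega)
        have := Nat.le_of_dvd (by norm_num) hge
        omega
  all_goals
    have he' : H.map (MulAut.conj g⁻¹).toMonoidHom = (subPGL F₀).range ∨
        H.map (MulAut.conj g⁻¹).toMonoidHom = (subPSL F₀).range := by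
      first | exact Or.inl he | exact Or.inr he
    have hne₀ : F₀ ≠ ⊤ := subfield_ne_top hodd hL hne he'
    have : Fintype F₀ := Fintype.ofFinite _
    have hrat : ∀ (t : PGL(2, F)) (x : OnePoint F), t ∈ H → t ≠ 1 → t ^ p = 1 → t • x = x →
        ∃ c : OnePoint F₀, g • pt₀ F c = x := by
      intro t x ht ht1 htp htx
      obtain ⟨z, hz⟩ := subfield_map_le F₀ he' ht
      have hz' : emb F z = g⁻¹ * t * g := hz
      have hz1 : z ≠ 1 := fun e => ht1 (by
        rw [e, map_one] at hz'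
        calc t = g * (g⁻¹ * t * g) * g⁻¹ := by group
          _ = 1 := by rw [← hz']; group)
      have hzp : z ^ p = 1 := emb_injective (K := F) (by
        rw [map_pow, map_one, hz']
        have := conj_pow (a := g⁻¹) (b := t) (i := p)
        rw [inv_inv] at this
        rw [this, htp]; group)
      obtain ⟨c, hc⟩ := fixed_rational (F := F₀) (K := F) (p := p) hz1 hzp (a := g⁻¹ • x)
        (by rw [hz', mul_smul, mul_smul, smul_inv_smul, htx])
      exact ⟨c, by rw [hc, smul_inv_smul]⟩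
    have hg : g ∈ (subPGL F₀).range := by
      refine mem_subPGL_of_points F₀ g ?_
      rintro x (rfl | rfl | rfl)
      · exact hrat U _ (h0 hUm) hU1 hUp hfinf
      · exact hrat U' _ (h0 hU'm) hU'1 hU'p f0
      · exact hrat U'' _ (h0 hU''m) hU''1 hU''p f1
    have hHle : H ≤ (subPGL F₀).range := fun x hx => by
      have := mul_mem (mul_mem hg (subfield_map_le F₀ he' hx)) (inv_mem hg)
      simpa [mul_assoc] using this
    have hF : F₁ ≤ F₀ := by
      intro v hv
      obtain ⟨z, hz⟩ := hHle (h0 (htrans v hv))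
      obtain ⟨u, w, rfl⟩ := exists_aff (g := z) (pt₀_injective (K := F) (by
        rw [← emb_pt, show emb F z = aff (1 : Fˣ) v from hz, pt₀_infty, aff_infty]))
      rw [show subPGL F₀ (aff u w) = emb F (aff u w) from rfl, emb_aff] at hz
      rw [← (aff_inj hz).2]
      exact w.2
    letI := (Subfield.inclusion hF).toAlgebra
    have hb : Nat.card F₀ = Nat.card F₁ ^ Module.finrank F₁ F₀ := Module.natCard_eq_pow_finrank
    obtain ⟨t, ht1, ht⟩ := card_subfield_pow F₀
    rw [hb, ← pow_mul, hc] at ht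
    have hst := Nat.pow_right_injective (Finite.one_lt_card (α := F₁)) ht
    have hs1 : Module.finrank F₁ F₀ = 1 := by
      rcases (Nat.dvd_prime hr).1 (hst ▸ dvd_mul_right (Module.finrank F₁ F₀) t) with h | h
      · exact h
      · exfalso
        refine hne₀ ((subfield_eq_top_iff _).2 ?_)
        rw [hb, h, hc]
    have hFF : F₁ = F₀ := SetLike.coe_injective (Set.eq_of_subset_of_ncard_le hF (by
      rw [← Nat.card_coe_set_eq, ← Nat.card_coe_set_eq, SetLike.coe_sort_coe, SetLike.coe_sort_coe,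
        hb, hs1, pow_one]))
    rw [← hFF] at hHle
    exact hHle

/-- Let F be a finite field with q ≥ 4 elements, let L ≤ PGL₂(F) be the image of SL₂(F) (a copy of PSL₂(F), of index gcd(2, q − 1)), and let M be a maximal subgroup of PGL₂(F) that does not contain L. Suppose q ∉ {7, 9, 11} and that q is not a prime congruent to ±11 or ±19 modulo 40. Then M ∩ L is a maximal subgroup of L. (For the excluded q there are maximal subgroups of PGL₂(q) — dihedral groups of order 12 and 16 at q = 7, of order 20 and 16 at q = 9, of order 20 at q = 11, and S₄ at the excluded primes — whose intersection with L is not maximal in L.) -/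
theorem result {F : Type*} [Field F]
    [Fintype F] (h4 : 4 ≤ Fintype.card F) (h7 : Fintype.card F ≠ 7) (h9 : Fintype.card F ≠ 9) (h11 : Fintype.card F ≠ 11)
    (h40 : (Fintype.card F).Prime → Fintype.card F % 40 ∉ ({11, 19, 21, 29} : Finset ℕ))
    (M : Subgroup (Matrix.ProjGenLinGroup (Fin 2) F)) (hM : IsCoatom M)
    (hML : ¬ (Matrix.ProjGenLinGroup.mk.comp Matrix.SpecialLinearGroup.toGL).range ≤ M) :
    IsCoatom ((M ⊓ (Matrix.ProjGenLinGroup.mk.comp Matrix.SpecialLinearGroup.toGL).range).subgroupOf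
      (Matrix.ProjGenLinGroup.mk.comp Matrix.SpecialLinearGroup.toGL).range) := by
  classical
  obtain ⟨f, hp, hq⟩ := FiniteField.card F (ringChar F)
  haveI : Fact (ringChar F).Prime := ⟨hp⟩
  haveI : CharP F (ringChar F) := ringChar.charP F
  suffices key : ∀ H : Subgroup PGL(2, F), M ⊓ lsub F ≤ H → H ≤ lsub F → H ≠ lsub F → H ≤ M by
    refine ⟨fun e => hML ?_, fun K hK => ?_⟩
    · rw [Subgroup.subgroupOf_eq_top] at e
      exact e.trans inf_le_left
    · by_contra hne
      have h1 : M ⊓ lsub F ≤ K.map (lsub F).subtype := by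
        rw [← Subgroup.map_subgroupOf_eq_of_le (inf_le_right : M ⊓ lsub F ≤ lsub F)]
        exact Subgroup.map_mono hK.le
      have h2 := key _ h1 (Subgroup.map_subtype_le K) (fun e => hne (Subgroup.map_injective
        (Subgroup.subtype_injective _) (by rw [e, ← MonoidHom.range_eq_map, Subgroup.range_subtype])))
      exact hK.not_ge fun x hx => ⟨h2 ⟨x, hx, rfl⟩, x.2⟩
  intro H h0 hL hne
  rcases Nat.even_or_odd (Fintype.card F) with heven | hodd
  · rw [lsub_eq_top heven] at h0 hne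
    rw [inf_top_eq] at h0
    exact ((hM.le_iff.1 h0).resolve_left hne).le
  have hne9 : Fintype.card F = 5 ∨ 13 ≤ Fintype.card F := by
    have := Nat.odd_iff.1 hodd
    omega
  rcases forms (ringChar F) hodd h4 hM hML with ⟨x, rfl⟩ | ⟨a, b, m, hm, rfl, hm5⟩ |
    ⟨hpr, hns, ⟨e⟩⟩ | ⟨g, F₁, r, hr, hrodd, hc, rfl⟩
  · exact borel_case (ringChar F) hodd hne9 x h0 hL hne
  · exact pair_case (ringChar F) hodd hne9 hm hm5 h0 hL hne
  · exact sym_case (ringChar F) hodd h4 hpr hns (h40 hpr) e h0 hL hne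
  · intro z hz
    have hback : ∀ {A : Subgroup PGL(2, F)}, A ≤ lsub F →
        A.map (MulAut.conj g⁻¹).toMonoidHom ≤ lsub F := fun hA =>
      (Subgroup.map_mono hA).trans (map_conj_lsub _).le
    have := subfield_case (ringChar F) hodd hr hrodd hc
      (H := H.map (MulAut.conj g⁻¹).toMonoidHom) (fun y hy => ?_) (hback hL) (fun e => hne ?_)
      ⟨z, hz, rfl⟩
    · exact ⟨_, this, by simp [mul_assoc]⟩
    · exact ⟨g * y * g⁻¹, h0 ⟨⟨y, hy.1, rfl⟩, lsub_normal.conj_mem _ hy.2 g⟩, by simp [mul_assoc]⟩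
    · rw [← map_conj_lsub g, ← e, Subgroup.map_map]
      ext w
      simp [mul_assoc]

end Cfsg.Agent.S5890
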