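import Cfsg.Statements.S5891
import Cfsg.Agent.MaxSub.Dickson.Platonic
import Cfsg.Agent.MaxSub.Dickson.SmallPairs

set_option autoImplicit false
open Cfsg Cfsg.Agent.MaxSub.Dickson
open scoped MatrixGroups

namespace Cfsg.Agent.S5891

/-- Let F be a finite field of odd order q > 3 and characteristic p, and let M be a maximal subgroup of PGL₂(F) not containing the image L of SL₂(F) (a copy of PSL₂(F) of index 2). Then one of the following holds: |M| = q(q − 1) (M is the stabiliser of a point of the projective line); q ≠ 5 and M is dihedral of order 2(q − 1); M is dihedral of order 2(q + 1); q = p ≡ ±3 (mod 8) and M ≅ S₄; or q = q₀^r for an odd prime r and M ≅ PGL₂(F₀) with |F₀| = q₀. -/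
theorem result {F : Type*} [Field F] [Fintype F]
    (hodd : Odd (Fintype.card F)) (h3 : 3 < Fintype.card F) (M : Subgroup (Matrix.ProjGenLinGroup (Fin 2) F)) (hM : IsCoatom M)
    (hML : ¬ (Matrix.ProjGenLinGroup.mk.comp Matrix.SpecialLinearGroup.toGL).range ≤ M) :
    Nat.card M = Fintype.card F * (Fintype.card F - 1) ∨
    (Fintype.card F ≠ 5 ∧ Nonempty (M ≃* DihedralGroup (Fintype.card F - 1))) ∨
    Nonempty (M ≃* DihedralGroup (Fintype.card F + 1)) ∨
    ((Fintype.card F).Prime ∧ (Fintype.card F % 8 = 3 ∨ Fintype.card F % 8 = 5) ∧ Nonempty (M ≃* Equiv.Perm (Fin 4))) ∨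
    (∃ (F₀ : Type) (_ : Field F₀) (_ : Fintype F₀) (r : ℕ), r.Prime ∧ Odd r ∧ Fintype.card F = Fintype.card F₀ ^ r ∧
        Nonempty (M ≃* Matrix.ProjGenLinGroup (Fin 2) F₀)) := by
  classical
  obtain ⟨f, hp, hq⟩ := FiniteField.card F (ringChar F)
  haveI : Fact (ringChar F).Prime := ⟨hp⟩
  haveI : CharP F (ringChar F) := ringChar.charP F
  have h4 : 4 ≤ Fintype.card F := h3
  have h2 := two_ne_zero_of_odd hodd
  have hmax : ∀ N, M ≤ N → ¬ lsub F ≤ N → M = N := fun N hle hne =>
    (hM.le_iff.1 hle).elim (fun h => absurd (h ▸ le_top) hne) Eq.symm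
  have notL : ¬ M ≤ lsub F := fun hle => by
    rcases hM.le_iff.1 hle with h | h
    · have := lsub_index_two hodd
      rw [h, Subgroup.index_top] at this
      omega
    · exact hML h.le
  have pglcase : ∀ (F₀ : Subfield F) (h : PGL(2, F)), F₀ ≠ ⊤ →
      M.map (MulAut.conj h⁻¹).toMonoidHom = (subPGL F₀).range →
      ∃ (E : Type) (_ : Field E) (_ : Fintype E) (r : ℕ), r.Prime ∧ Odd r ∧
        Fintype.card F = Fintype.card E ^ r ∧ Nonempty (M ≃* PGL(2, E)) := by
    intro F₀ h hne he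
    obtain ⟨r, hr, hc⟩ := subfield_of_maximal hmax h4 hne he
    obtain ⟨E, hE1, hE2, hEc, ⟨e1⟩, -⟩ := exists_small_model F₀
    refine ⟨E, hE1, hE2, r, hr, ?_, by rw [hEc]; exact hc, ?_⟩
    · by_contra hev
      rw [Nat.not_odd_iff_even] at hev
      exact notL (le_lsub_of_conj_le (he.le.trans (subPGL_le_lsub_of_even hev hodd hc)))
    · exact ⟨(M.equivMapOfInjective (MulAut.conj h⁻¹).toMonoidHom (MulAut.conj h⁻¹).injective).trans
        ((MulEquiv.subgroupCongr he).trans ((MonoidHom.ofInjective (subPGL_injective F₀)).symm.trans e1))⟩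
  rcases classifyF (K := AlgebraicClosure F) (p := ringChar F) M with
    ⟨a, b, m, -, -, hm, hle, hdvd⟩ | ⟨a, b, m, n, hm, hle, -, -, -, -, -⟩ | ⟨x, hfix, -⟩ |
    ⟨-, -, ⟨e⟩⟩ | ⟨-, hc, ⟨e⟩⟩ | ⟨-, -, ⟨e⟩⟩ | ⟨F₀, h, h04, he⟩ | ⟨F₀, h, h04, -, he⟩
  · exfalso
    have heq := hmax _ (hle.trans tor_le_pairStab) (hm.not_lsub_le h4)
    rw [heq, hm.stab.1] at hdvd
    have hpos : 0 < m := by
      obtain ⟨-, ⟨-, -, rfl⟩ | ⟨-, -, rfl⟩⟩ := hm <;> omega
    have := Nat.le_of_dvd hpos hdvd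
    omega
  · have heq := hmax _ hle (hm.not_lsub_le h4)
    obtain ⟨-, ⟨iso⟩⟩ := hm.stab
    obtain ⟨hab, ⟨sa, sb, rfl⟩ | ⟨-, -, rfl⟩⟩ := hm
    · refine Or.inr (Or.inl ⟨fun hq5 => ?_, ⟨(MulEquiv.subgroupCongr heq).trans iso⟩⟩)
      obtain ⟨x, rfl⟩ := sig_eq_self_iff.1 sa
      obtain ⟨y, rfl⟩ := sig_eq_self_iff.1 sb
      have hxy : x ≠ y := fun e => hab (by rw [e])
      have h5 : (5 : F) = 0 := by
        have := FiniteField.cast_card_eq_zero F
        rwa [hq5, Nat.cast_ofNat] at this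
      obtain ⟨N, t, hSN, hLN, htN, htS, -⟩ := split_pair_supergroup h2 (i := 2)
        (by linear_combination h5) hxy M hle (fun h _ _ u _ => by
          refine Units.ext ?_
          have := FiniteField.pow_card_sub_one_eq_one (u : F) u.ne_zero
          rw [hq5] at this
          simpa using this)
      exact htS (hle ((hmax N hSN hLN).symm ▸ htN))
    · exact Or.inr (Or.inr (Or.inl ⟨(MulEquiv.subgroupCongr heq).trans iso⟩))
  · left
    rw [hmax (MulAction.stabilizer PGL(2, F) x) hfix (not_lsub_le_stab h4 x), card_stab]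
  · have : (lsub F).Normal := lsub_normal
    exact absurd (le_of_iso_alt (lsub_index_two hodd) e) notL
  · obtain ⟨hiff, g, hg⟩ := sym_four_data hodd e
    have hns : ¬ IsSquare (2 : F) := fun hs => notL (hiff.2 hs)
    have h8 : Fintype.card F % 8 = 3 ∨ Fintype.card F % 8 = 5 := by
      by_contra hh
      push Not at hh
      exact hns (FiniteField.isSquare_two_iff.2 hh)
    by_cases htop : (⊥ : Subfield F) = ⊤
    · refine Or.inr (Or.inr (Or.inr (Or.inl ⟨?_, h8, ⟨e⟩⟩)))
      have hb := (subfield_eq_top_iff (⊥ : Subfield F)).1 htop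
      rw [Subfield.card_bot F (ringChar F)] at hb
      rw [← hb]; exact hp
    · refine Or.inr (Or.inr (Or.inr (Or.inr (pglcase ⊥ g htop ?_))))
      obtain ⟨r, hr1, hr⟩ := card_subfield_pow (⊥ : Subfield F)
      have hr2 : 2 ≤ r := by
        by_contra hh
        rw [show r = 1 by omega, pow_one] at hr
        exact htop ((subfield_eq_top_iff _).2 hr.symm)
      have hle' : M ≤ (subPGL (⊥ : Subfield F)).range.map (MulAut.conj g).toMonoidHom := fun z hz =>
        ⟨g⁻¹ * z * g, hg ⟨z, hz, by simp⟩, by simp [mul_assoc]⟩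
      rw [hmax _ hle' (not_lsub_le_subPGL h4 hr2 hr g), Subgroup.map_map]
      ext z
      simp [mul_assoc]
  · have : (lsub F).Normal := lsub_normal
    exact absurd (le_of_iso_alt (lsub_index_two hodd) e) notL
  · refine Or.inr (Or.inr (Or.inr (Or.inr (pglcase F₀ h (fun h0 => hM.1 ?_) he))))
    refine Subgroup.eq_top_of_card_eq _ ?_
    rw [Nat.card_congr (M.equivMapOfInjective (MulAut.conj h⁻¹).toMonoidHom
      (MulAut.conj h⁻¹).injective).toEquiv, he, card_subPGL_range, card_pgl, (subfield_eq_top_iff F₀).1 h0]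
  · exact absurd (le_lsub_of_conj_le (he.le.trans (subPSL_le_lsub F₀))) notL

end Cfsg.Agent.S5891
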