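import Cfsg.Statements.S5894
import Cfsg.Agent.MaxSub.Imprimitive
-- import your own Cfsg.Agent.* helpers here

set_option autoImplicit false
open Cfsg

namespace Cfsg.Agent.S5894

/-- For every m ≥ 2 the symmetric group on 2m letters has a maximal subgroup M of index 2m together with a maximal subgroup H of M that is not second maximal: some maximal subgroup K of the symmetric group contains H without H being maximal in K. (One may take M the stabiliser of a letter, H ≅ S_m × S_{m−1} inside it, and K ≅ S_m ≀ S₂ the stabiliser of a partition into two m-sets, with H < S_m × S_m < K.) So the prime-index hypothesis in the second-maximality criterion cannot be relaxed to any even index ≥ 4. -/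
theorem result (m : ℕ) (hm : 2 ≤ m) :
    ∃ M H K : Subgroup (Equiv.Perm (Fin (2 * m))), IsCoatom M ∧ M.index = 2 * m ∧ H ≤ M ∧ IsCoatom (H.subgroupOf M) ∧
      IsCoatom K ∧ H ≤ K ∧ ¬ IsCoatom (H.subgroupOf K) := by
  classical
  open scoped Pointwise in
  let f : Fin (2 * m) → Bool := fun x => decide ((x : ℕ) < m)
  let O : Set (Fin (2 * m)) := {x | (x : ℕ) < m}
  have hO : O.ncard = m := by
    have : O = Fin.castLE (by omega : m ≤ 2 * m) '' Set.univ := by
      ext x
      constructor
      · intro hx; exact ⟨⟨x, hx⟩, trivial, rfl⟩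
      · rintro ⟨y, -, rfl⟩; exact y.2
    rw [this, Set.ncard_image_of_injective _ (Fin.castLE_injective _), Set.ncard_univ, Nat.card_fin]
  have hOc : Oᶜ.ncard = m := by
    have := Set.ncard_add_ncard_compl O
    rw [hO, Nat.card_fin] at this; omega
  have fO : ∀ x, f x = true ↔ x ∈ O := fun x => decide_eq_true_iff
  have hf : Cfsg.Agent.MaxSub.IsEquiPartition f m := by
    refine ⟨fun x => ?_, hm, fun x => ?_⟩
    · by_cases hx : x ∈ O
      · refine Eq.trans ?_ hO; congr 1; ext y
        rw [Set.mem_ofPred_eq, (fO x).mpr hx]; exact fO y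
      · refine Eq.trans ?_ hOc; congr 1; ext y
        have hx' : f x = false := Bool.eq_false_iff.mpr (fun h => hx ((fO x).mp h))
        rw [Set.mem_ofPred_eq, hx', Set.mem_compl_iff, ← fO, Bool.not_eq_true]
    · by_cases hx : x ∈ O
      · exact ⟨⟨m, by omega⟩, by simp [f]; exact hx⟩
      · exact ⟨⟨0, by omega⟩, by simp [f]; show ¬ _; intro h; exact hx (by first | exact h.mp (by omega) | exact h)⟩
  let a : Fin (2 * m) := ⟨0, by omega⟩
  have haO : a ∈ O := show 0 < m by omega
  let p : Fin (2 * m) → Prop := fun x => x ≠ a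
  let O' : Set (Subtype p) := {x | (x : Fin (2 * m)) ∈ O}
  let ι : Equiv.Perm (Subtype p) →* Equiv.Perm (Fin (2 * m)) := Equiv.Perm.ofSubtype
  have hι : Function.Injective ι := Equiv.Perm.ofSubtype_injective
  let M := MulAction.stabilizer (Equiv.Perm (Fin (2 * m))) a
  let S := MulAction.stabilizer (Equiv.Perm (Fin (2 * m))) O
  have hrange : ι.range = M := by
    ext g
    constructor
    · rintro ⟨h, rfl⟩
      exact Equiv.Perm.ofSubtype_apply_of_not_mem h (by simp [p])
    · intro (hg : g a = a)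
      have h1 : ∀ x, p (g x) ↔ p x := fun x =>
        not_congr ⟨fun h => g.injective (h.trans hg.symm), fun h => h ▸ hg⟩
      exact ⟨g.subtypePerm h1, Equiv.Perm.ofSubtype_subtypePerm h1
        (fun x hx e => hx (e ▸ hg))⟩
  have hne : (Fintype.card (Fin (2 * m))) = 2 * m := Fintype.card_fin _
  have hO' : Nat.card (Subtype p) ≠ 2 * O'.ncard := by
    rw [Nat.card_eq_fintype_card]
    have : Fintype.card (Subtype p) = 2 * m - 1 := by
      rw [Fintype.card_subtype_compl, hne]; simp
    omega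
  have hO'ne : O'.Nonempty := ⟨⟨⟨1, by omega⟩, by simp [p, a]⟩, show 1 < m by omega⟩
  have hO'c : O'ᶜ.Nonempty := ⟨⟨⟨m, by omega⟩, by simp [p, a]; omega⟩, by simp [O', O]⟩
  have hco := Equiv.Perm.isCoatom_stabilizer hO'ne hO'c hO'
  let P := MulAction.stabilizer (Equiv.Perm (Subtype p)) O'
  have memS : ∀ g : Equiv.Perm (Fin (2 * m)), g ∈ S ↔ ∀ x, g x ∈ O ↔ x ∈ O := fun g => by
    rw [MulAction.mem_stabilizer_set]; rfl
  have hPS : ∀ h, h ∈ P ↔ ι h ∈ S := by
    intro h
    rw [memS, MulAction.mem_stabilizer_set]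
    constructor
    · intro hh x
      by_cases hx : p x
      · rw [Equiv.Perm.ofSubtype_apply_of_mem h hx]; exact hh ⟨x, hx⟩
      · rw [Equiv.Perm.ofSubtype_apply_of_not_mem h hx]
    · intro hh x
      have := hh x
      rw [Equiv.Perm.ofSubtype_apply_coe] at this
      exact this
  have hmap : P.map ι = M ⊓ S := by
    ext g
    constructor
    · rintro ⟨h, hh, rfl⟩
      exact ⟨hrange ▸ ⟨h, rfl⟩, (hPS h).mp hh⟩
    · rintro ⟨hg, hg'⟩
      obtain ⟨h, rfl⟩ := hrange.symm ▸ hg
      exact ⟨h, (hPS h).mpr hg', rfl⟩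
  have hSK : S ≤ Cfsg.Agent.MaxSub.partGroup f := by
    intro g hg x y
    rw [memS] at hg
    simp only [Bool.eq_iff_iff, fO, hg]
  refine ⟨M, M ⊓ S, Cfsg.Agent.MaxSub.partGroup f, ?_, ?_, inf_le_left, ?_,
    Cfsg.Agent.MaxSub.isCoatom_partGroup hf a, inf_le_right.trans hSK, ?_⟩
  · have : MulAction.stabilizer (Equiv.Perm (Fin (2 * m))) ({a} : Set (Fin (2 * m))) = M :=
      MulAction.stabilizer_singleton a
    rw [← this]
    exact Equiv.Perm.isCoatom_stabilizer ⟨a, rfl⟩
      ⟨⟨1, by omega⟩, by simp [a]⟩ (by rw [Nat.card_fin, Set.ncard_singleton]; omega)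
  · rw [show M.index = _ from MulAction.index_stabilizer _ a, MulAction.orbit_eq_univ,
      Set.ncard_univ, Nat.card_fin]
  · refine ⟨fun h => ?_, fun L hL => ?_⟩
    · apply hco.1
      rw [eq_top_iff]
      intro g _
      exact (hPS g).mpr (Subgroup.subgroupOf_eq_top.mp h (hrange ▸ ⟨g, rfl⟩)).2
    · have hlt : P < (L.map M.subtype).comap ι := by
        refine lt_of_le_not_ge (fun g hg => ?_) fun hc => hL.not_ge fun l hl => ?_
        · exact ⟨⟨ι g, hrange ▸ ⟨g, rfl⟩⟩, hL.le (show ι g ∈ M ⊓ S from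
            ⟨hrange ▸ ⟨g, rfl⟩, (hPS g).mp hg⟩), rfl⟩
        · obtain ⟨g, hg⟩ : (l : Equiv.Perm (Fin (2 * m))) ∈ ι.range := by rw [hrange]; exact l.2
          have : g ∈ P := hc ⟨l, hl, hg.symm⟩
          exact Subgroup.mem_subgroupOf.mpr ⟨l.2, hg ▸ (hPS g).mp this⟩
      have htop := hco.2 _ hlt
      rw [eq_top_iff]
      intro l _
      obtain ⟨g, hg⟩ : (l : Equiv.Perm (Fin (2 * m))) ∈ ι.range := by rw [hrange]; exact l.2
      obtain ⟨l', hl', he⟩ : ι g ∈ L.map M.subtype :=
        (show g ∈ (L.map M.subtype).comap ι from htop ▸ Subgroup.mem_top g)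
      exact (Subtype.ext (he.trans hg) : l' = l) ▸ hl'
  · intro hcoat
    have hlt : (M ⊓ S).subgroupOf (Cfsg.Agent.MaxSub.partGroup f) <
        S.subgroupOf (Cfsg.Agent.MaxSub.partGroup f) := by
      refine lt_of_le_not_ge (Subgroup.comap_mono inf_le_right) fun hc => ?_
      have hs : Equiv.swap a ⟨1, by omega⟩ ∈ S :=
        Equiv.Perm.swap_mem_stabilizer haO (show 1 < m by omega)
      have := (hc (show (⟨_, hSK hs⟩ : Cfsg.Agent.MaxSub.partGroup f) ∈ _ from hs)).1
      have h' : Equiv.swap a ⟨1, by omega⟩ a = a := this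
      rw [Equiv.swap_apply_left] at h'
      exact absurd (congrArg Fin.val h') (by simp [a])
    have htop := Subgroup.subgroupOf_eq_top.mp (hcoat.2 _ hlt)
    obtain ⟨g, hg, hga, -⟩ := Cfsg.Agent.MaxSub.exists_partGroup_map hf.card_eq a ⟨m, by omega⟩
    have := ((memS g).mp (htop hg) a).mpr haO
    rw [hga] at this
    exact (lt_irrefl m) this


end Cfsg.Agent.S5894
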