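import Cfsg.Statements.S5895
-- import your own Cfsg.Agent.* helpers here

set_option autoImplicit false
open Cfsg

namespace Cfsg.Agent.S5895

/-- For every prime p and every d ≥ 2 there is a finite group G with a maximal subgroup M of index p^d and a maximal subgroup H of M that is not second maximal in G: some maximal subgroup K of G contains H without H being maximal in K. (One may take G the affine group V ⋊ GL(V) of V = 𝔽_p^d, M = GL(V), H the stabiliser in M of a line W of V, and K = V ⋊ H, with H < W ⋊ H < K.) So the prime-index hypothesis in the second-maximality criterion cannot be relaxed to prime-power index. -/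
theorem result (p d : ℕ) (hp : p.Prime)
    (hd : 2 ≤ d) :
    ∃ (G : Type) (_ : Group G) (_ : Finite G) (M H K : Subgroup G), IsCoatom M ∧ M.index = p ^ d ∧ H ≤ M ∧
      IsCoatom (H.subgroupOf M) ∧ IsCoatom K ∧ H ≤ K ∧ ¬ IsCoatom (H.subgroupOf K) := by
  open SemidirectProduct in
  haveI : Fact p.Prime := ⟨hp⟩
  haveI : NeZero p := ⟨hp.ne_zero⟩
  let V := Fin d → ZMod p
  let A := V ≃ₗ[ZMod p] V
  let φ : A →* MulAut (Multiplicative V) :=
    { toFun := fun a => AddEquiv.toMultiplicative a.toAddEquiv
      map_one' := rfl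
      map_mul' := fun a b => rfl }
  let G := Multiplicative V ⋊[φ] A
  haveI : Finite A := Finite.of_injective (fun a : A => (a : V → V)) DFunLike.coe_injective
  haveI : Finite G := Finite.of_equiv _ SemidirectProduct.equivProd.symm
  have trans : ∀ v w : V, v ≠ 0 → w ≠ 0 → ∃ a : A, a v = w := by
    intro v w hv hw
    obtain ⟨g, hg⟩ := Submodule.exists_linearEquiv_restrict_eq
      ((LinearEquiv.toSpanNonzeroSingleton (ZMod p) V v hv).symm ≪≫ₗ
        LinearEquiv.toSpanNonzeroSingleton (ZMod p) V w hw)
    refine ⟨g, ?_⟩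
    have := hg ⟨v, Submodule.mem_span_singleton_self v⟩
    rw [← this]
    have e : (LinearEquiv.toSpanNonzeroSingleton (ZMod p) V v hv) 1 = ⟨v, Submodule.mem_span_singleton_self v⟩ := by
      apply Subtype.ext; simp
    rw [← e]
    rw [LinearEquiv.trans_apply, LinearEquiv.symm_apply_apply]
    simp
  let e0 : V := Pi.single ⟨0, by omega⟩ 1
  let e1 : V := Pi.single ⟨1, by omega⟩ 1
  have he0 : e0 ≠ 0 := fun h => one_ne_zero (α := ZMod p) ((Pi.single_eq_same (M := fun _ : Fin d => ZMod p) ⟨0, by omega⟩ 1).symm.trans (congrFun h ⟨0, by omega⟩))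
  have he1 : e1 ≠ 0 := fun h => one_ne_zero (α := ZMod p) ((Pi.single_eq_same (M := fun _ : Fin d => ZMod p) ⟨1, by omega⟩ 1).symm.trans (congrFun h ⟨1, by omega⟩))
  have hnot : ∀ c : ZMod p, c • e0 ≠ e1 := by
    intro c h
    have := congrFun h ⟨1, by omega⟩
    change c * (Pi.single (M := fun _ : Fin d => ZMod p) ⟨0, by omega⟩ 1 ⟨1, by omega⟩) =
      (Pi.single (M := fun _ : Fin d => ZMod p) ⟨1, by omega⟩ 1 ⟨1, by omega⟩) at this
    rw [Pi.single_eq_same, Pi.single_eq_of_ne (by simp [Fin.ext_iff]), mul_zero] at this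
    exact zero_ne_one this
  let D := Projectivization.mk (ZMod p) e0 he0
  haveI : Nontrivial (Projectivization (ZMod p) V) :=
    ⟨D, Projectivization.mk (ZMod p) e1 he1, fun h => by
      obtain ⟨c, hc⟩ := (Projectivization.mk_eq_mk_iff' _ _ _ he0 he1).mp h
      exact hnot c⁻¹ (by
        have hc0 : c ≠ 0 := fun h0 => he0 (by rw [← hc, h0, zero_smul])
        rw [← hc, smul_smul, inv_mul_cancel₀ hc0, one_smul])⟩
  haveI : MulAction.IsPreprimitive A (Projectivization (ZMod p) V) :=
    MulAction.isPreprimitive_of_is_two_pretransitive inferInstance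
  let H0 := MulAction.stabilizer A D
  have hH0 : IsCoatom H0 := (MulAction.isCoatom_stabilizer_iff_preprimitive A D).mpr inferInstance
  let π : G →* A := rightHom
  let M : Subgroup G := (inr : A →* G).range
  let H : Subgroup G := H0.map inr
  let K : Subgroup G := H0.comap π
  let U : Submodule (ZMod p) V := Submodule.span (ZMod p) {e0}
  -- the subgroup W ⋊ H
  let L : Subgroup G :=
    { carrier := {x | Multiplicative.toAdd x.left ∈ U ∧ x.right ∈ H0}
      one_mem' := ⟨U.zero_mem, H0.one_mem⟩
      mul_mem' := by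
        intro x y hx hy
        refine ⟨U.add_mem hx.1 ?_, H0.mul_mem hx.2 hy.2⟩
        obtain ⟨c, hc⟩ := Submodule.mem_span_singleton.mp hy.1
        show x.right (Multiplicative.toAdd y.left) ∈ U
        have hfix : Projectivization.mk (ZMod p) (x.right e0) _ = D :=
          (Projectivization.smul_mk (K := ZMod p) x.right he0).symm.trans hx.2
        obtain ⟨k, hk⟩ := (Projectivization.mk_eq_mk_iff' _ _ _ _ he0).mp hfix
        rw [← hc, map_smul, ← hk]
        exact U.smul_mem _ (U.smul_mem _ (Submodule.mem_span_singleton_self e0))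
      inv_mem' := by
        intro x hx
        refine ⟨?_, H0.inv_mem hx.2⟩
        obtain ⟨c, hc⟩ := Submodule.mem_span_singleton.mp hx.1
        show x.right⁻¹ (-(Multiplicative.toAdd x.left)) ∈ U
        have hfix : Projectivization.mk (ZMod p) (x.right⁻¹ e0) _ = D :=
          (Projectivization.smul_mk (K := ZMod p) x.right⁻¹ he0).symm.trans (H0.inv_mem hx.2)
        obtain ⟨k, hk⟩ := (Projectivization.mk_eq_mk_iff' _ _ _ _ he0).mp hfix
        rw [← hc, ← neg_smul, map_smul, ← hk]
        exact U.smul_mem _ (U.smul_mem _ (Submodule.mem_span_singleton_self e0)) }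
  have hπ : Function.Surjective π := fun a => ⟨inr a, rfl⟩
  refine ⟨G, inferInstance, inferInstance, M, H, K, ?_, ?_, Subgroup.map_le_range _ _, ?_,
    Subgroup.isCoatom_comap_of_surjective hπ hH0, ?_, ?_⟩
  · refine ⟨fun h => ?_, fun S hS => ?_⟩
    · obtain ⟨a, ha⟩ := (h ▸ Subgroup.mem_top (inl (Multiplicative.ofAdd e0)) : (inl (Multiplicative.ofAdd e0) : G) ∈ M)
      have := congrArg SemidirectProduct.left ha
      simp only [left_inr, left_inl] at this
      exact he0 (congrArg Multiplicative.toAdd this).symm
    · obtain ⟨x, hxS, hxM⟩ := SetLike.exists_of_lt hS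
      have hr : ∀ a : A, (inr a : G) ∈ S := fun a => hS.le ⟨a, rfl⟩
      have hxl : (inl x.left : G) ∈ S := by
        have := S.mul_mem hxS (S.inv_mem (hr x.right))
        rw [← inl_left_mul_inr_right x, mul_assoc] at this
        simpa using this
      have hv : Multiplicative.toAdd x.left ≠ 0 := by
        intro h
        apply hxM
        refine ⟨x.right, ?_⟩
        apply SemidirectProduct.ext
        · rw [left_inr]; exact (Multiplicative.toAdd.injective (h.trans toAdd_one.symm)).symm
        · rw [right_inr]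
      have hl : ∀ w : Multiplicative V, (inl w : G) ∈ S := by
        intro w
        by_cases hw : Multiplicative.toAdd w = 0
        · rw [show w = 1 from Multiplicative.toAdd.injective (hw.trans toAdd_one.symm), map_one]
          exact S.one_mem
        obtain ⟨a, ha⟩ := trans _ _ hv hw
        have := S.mul_mem (S.mul_mem (hr a) hxl) (hr a⁻¹)
        rw [← inl_aut] at this
        convert this using 2
        exact (Multiplicative.toAdd.injective ha).symm
      rw [eq_top_iff]
      intro y _
      rw [← inl_left_mul_inr_right y]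
      exact S.mul_mem (hl _) (hr _)
  · have hc := M.index_mul_card
    have hM : Nat.card M = Nat.card A :=
      (Nat.card_congr (MonoidHom.ofInjective (inr_injective (φ := φ))).toEquiv).symm
    rw [hM, Nat.card_congr (SemidirectProduct.equivProd (φ := φ)), Nat.card_prod] at hc
    have hV : Nat.card (Multiplicative V) = p ^ d := by
      rw [Nat.card_congr Multiplicative.toAdd, Nat.card_fun, Nat.card_fin, Nat.card_zmod]
    rw [hV] at hc
    exact Nat.eq_of_mul_eq_mul_right Nat.card_pos hc
  · refine ⟨fun h => hH0.1 ?_, fun S hS => ?_⟩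
    · rw [eq_top_iff]
      intro a _
      obtain ⟨b, hb, he⟩ := Subgroup.subgroupOf_eq_top.mp h ⟨a, rfl⟩
      exact inr_injective he ▸ hb
    · have hlt : H0 < (S.map M.subtype).comap inr := by
        refine lt_of_le_not_ge (fun a ha => ⟨⟨inr a, a, rfl⟩, hS.le (show inr a ∈ H from ⟨a, ha, rfl⟩), rfl⟩)
          fun hc => hS.not_ge fun s hs => ?_
        obtain ⟨a, ha⟩ := s.2
        exact Subgroup.mem_subgroupOf.mpr ⟨a, hc ⟨s, hs, ha.symm⟩, ha⟩
      have htop := hH0.2 _ hlt
      rw [eq_top_iff]
      intro s _
      obtain ⟨a, ha⟩ := s.2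
      obtain ⟨s', hs', he⟩ := (show a ∈ (S.map M.subtype).comap inr from htop ▸ Subgroup.mem_top a)
      exact (Subtype.ext (he.trans ha) : s' = s) ▸ hs'
  · rintro _ ⟨a, ha, rfl⟩
    exact ha
  · intro hco
    have hlt : H.subgroupOf K < L.subgroupOf K := by
      refine lt_of_le_not_ge (Subgroup.comap_mono ?_) fun hc => ?_
      · rintro _ ⟨a, ha, rfl⟩
        exact ⟨U.zero_mem, ha⟩
      · have hmem : (inl (Multiplicative.ofAdd e0) : G) ∈ K := by
          show rightHom (inl _) ∈ H0
          rw [rightHom_inl]; exact H0.one_mem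
        have hL : (⟨_, hmem⟩ : K) ∈ L.subgroupOf K :=
          ⟨Submodule.mem_span_singleton_self e0, H0.one_mem⟩
        obtain ⟨a, -, ha⟩ := hc hL
        have := congrArg SemidirectProduct.left ha
        exact he0 (congrArg Multiplicative.toAdd this).symm
    have htop := Subgroup.subgroupOf_eq_top.mp (hco.2 _ hlt)
    have hmem : (inl (Multiplicative.ofAdd e1) : G) ∈ K := by
      show rightHom (inl _) ∈ H0
      rw [rightHom_inl]; exact H0.one_mem
    obtain ⟨c, hc⟩ := Submodule.mem_span_singleton.mp (htop hmem).1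
    exact hnot c hc


end Cfsg.Agent.S5895
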