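import Cfsg.Statements.S5896
import Cfsg.Agent.MaxSub.Wreath
import Cfsg.Agent.Char.Burnside
-- import your own Cfsg.Agent.* helpers here

set_option autoImplicit false
open Cfsg
open scoped Pointwise

namespace Cfsg.Agent.S5896

/-- Finite perfect groups have solvable maximal subgroups of unbounded derived length: for every d there is a finite perfect group G (equal to its commutator subgroup) with a solvable maximal subgroup H whose derived length exceeds d, i.e. the d-th term of the derived series of H is non-trivial. (Take the derived subgroup of a wreath product S ≀ A₅ with S solvable of large derived length, and H the preimage of a maximal subgroup of A₅.) -/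
theorem result (d : ℕ) :
    ∃ (G : Type) (_ : Group G) (_ : Finite G) (H : Subgroup G), commutator G = ⊤ ∧ IsCoatom H ∧ Group.IsSolvable H ∧
      derivedSeries H d ≠ ⊥ := by
  open SemidirectProduct commutatorElement Cfsg.Agent.MaxSub Pointwise in
  classical
  obtain ⟨S, _, _, hS, hd⟩ := Cfsg.Agent.MaxSub.exists_solvable_derivedSeries_ne_bot d
  let P : Subgroup (Equiv.Perm (Fin 5)) := alternatingGroup (Fin 5)
  let W := (Fin 5 → S) ⋊[Cfsg.Agent.MaxSub.Wr.act P] P
  let gens : Set W := Set.range (inr : P → W) ∪
    {w | ∃ (i j : Fin 5) (s : S), i ≠ j ∧ w = inl (Cfsg.Agent.MaxSub.Wr.delta i j s)}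
  let G := Subgroup.closure gens
  haveI : Finite W := Finite.of_equiv _ SemidirectProduct.equivProd.symm
  have hmemr : ∀ p : P, (inr p : W) ∈ G := fun p => Subgroup.subset_closure (Or.inl ⟨p, rfl⟩)
  have hmemd : ∀ i j : Fin 5, i ≠ j → ∀ s : S, (inl (Cfsg.Agent.MaxSub.Wr.delta i j s) : W) ∈ G :=
    fun i j h s => Subgroup.subset_closure (Or.inr ⟨i, j, s, h, rfl⟩)
  have hperfW : G ≤ ⁅G, G⁆ := by
    refine (Subgroup.closure_le _).mpr ?_
    rintro w (⟨p, rfl⟩ | ⟨i, j, s, hij, rfl⟩)
    · have hp : p ∈ commutator P := by
        rw [commutator_alternatingGroup_eq_top (by simp)]; trivial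
      have hm : (inr p : W) ∈ (commutator P).map (inr : P →* W) := ⟨p, hp, rfl⟩
      rw [commutator_def, Subgroup.map_commutator] at hm
      refine Subgroup.commutator_mono ?_ ?_ hm <;>
      · rintro _ ⟨q, -, rfl⟩; exact hmemr q
    · obtain ⟨p, hp, k, hjk, hik, h1, h2⟩ : ∃ p : Equiv.Perm (Fin 5), p ∈ P ∧ ∃ k, j ≠ k ∧ i ≠ k ∧
          p k = k ∧ p j = i := by
        revert hij
        revert i j
        intro i j hij
        obtain ⟨k, hk⟩ : ∃ k, k ∉ ({i, j} : Finset (Fin 5)) := by
          by_contra hc
          push Not at hc
          have := Finset.card_le_card (show (Finset.univ : Finset (Fin 5)) ⊆ {i, j} from fun x _ => hc x)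
          simp at this
          have := this.trans Finset.card_le_two
          omega
        obtain ⟨l, hl⟩ : ∃ l, l ∉ ({i, j, k} : Finset (Fin 5)) := by
          by_contra hc
          push Not at hc
          have := Finset.card_le_card (show (Finset.univ : Finset (Fin 5)) ⊆ {i, j, k} from fun x _ => hc x)
          simp at this
          have := this.trans Finset.card_le_three
          omega
        simp only [Finset.mem_insert, Finset.mem_singleton, not_or] at hk hl
        refine ⟨Equiv.swap i l * Equiv.swap l j, ?_, k, Ne.symm hk.2, Ne.symm hk.1, ?_, ?_⟩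
        · show _ ∈ alternatingGroup (Fin 5)
          rw [Equiv.Perm.mem_alternatingGroup, map_mul, Equiv.Perm.sign_swap (Ne.symm hl.1),
            Equiv.Perm.sign_swap hl.2.1]
          rfl
        · rw [Equiv.Perm.mul_apply, Equiv.swap_apply_of_ne_of_ne (Ne.symm hl.2.2) hk.2,
            Equiv.swap_apply_of_ne_of_ne hk.1 (Ne.symm hl.2.2)]
        · rw [Equiv.Perm.mul_apply, Equiv.swap_apply_right, Equiv.swap_apply_right]
      have e : Cfsg.Agent.MaxSub.Wr.delta i j s = Cfsg.Agent.MaxSub.Wr.delta k j s *
          (Cfsg.Agent.MaxSub.Wr.act P ⟨p, hp⟩ (Cfsg.Agent.MaxSub.Wr.delta k j s))⁻¹ := by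
        rw [Cfsg.Agent.MaxSub.Wr.act_delta, h1, h2]
        funext m
        simp only [Cfsg.Agent.MaxSub.Wr.delta, Pi.mul_apply, Pi.inv_apply, Pi.mulSingle_apply]
        by_cases m1 : m = i
        · subst m1; simp [hik, hij]
        by_cases m2 : m = j
        · subst m2; simp [hjk, m1]
        by_cases m3 : m = k <;> simp [m1, m2, m3, Ne.symm hik, Ne.symm hjk]
      have hc := Subgroup.commutator_mem_commutator (hmemd k j (Ne.symm hjk) s) (hmemr ⟨p, hp⟩)
      rw [SetLike.mem_coe]
      refine (?_ : (inl (Cfsg.Agent.MaxSub.Wr.delta i j s) : W) = _).symm ▸ hc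
      rw [commutatorElement_def, mul_assoc, mul_assoc, ← mul_assoc (inr (⟨p, hp⟩ : P) : W),
        ← map_inv, Cfsg.Agent.MaxSub.Wr.conj_inl, ← map_mul, e, map_inv]
  -- the projection to the point action
  let π : G →* P := (rightHom : W →* P).comp G.subtype
  have hπ : Function.Surjective π := fun p => ⟨⟨inr p, hmemr p⟩, rfl⟩
  let A : Subgroup P := MulAction.stabilizer (alternatingGroup (Fin 5)) ({0} : Set (Fin 5))
  have hA : IsCoatom A := alternatingGroup.isCoatom_stabilizer_singleton (by simp)
    (Set.singleton_nonempty _) (Set.subsingleton_singleton)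
  refine ⟨G, inferInstance, inferInstance, A.comap π, ?_, ?_, ?_, ?_⟩
  · apply Subgroup.map_injective G.subtype_injective
    rw [Subgroup.map_subtype_commutator, ← MonoidHom.range_eq_map, Subgroup.range_subtype]
    exact le_antisymm (Subgroup.commutator_le.mpr fun a ha b hb => by
      rw [commutatorElement_def]; exact mul_mem (mul_mem (mul_mem ha hb) (inv_mem ha)) (inv_mem hb)) hperfW
  · exact Subgroup.isCoatom_comap_of_surjective hπ hA
  · have hA12 : Nat.card A = 12 := by
      have h60 : Nat.card P = 60 := by
        have := two_mul_nat_card_alternatingGroup (α := Fin 5)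
        rw [Nat.card_perm, Nat.card_fin, show Nat.factorial 5 = 120 from rfl] at this
        simp only [Nat.card_eq_fintype_card] at this ⊢
        show Fintype.card (alternatingGroup (Fin 5)) = 60
        omega
      haveI : MulAction.IsPretransitive (alternatingGroup (Fin 5)) (Fin 5) :=
        alternatingGroup.isPretransitive_of_three_le_card (Fin 5) (by simp)
      have hi : A.index = 5 := by
        show (MulAction.stabilizer (alternatingGroup (Fin 5)) ({0} : Set (Fin 5))).index = 5
        rw [MulAction.stabilizer_singleton, MulAction.index_stabilizer, MulAction.orbit_eq_univ,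
          Set.ncard_univ, Nat.card_fin]
      have := A.card_mul_index
      rw [hi, h60] at this
      omega
    have hAsol : Group.IsSolvable A :=
      Cfsg.Agent.Char.solvable_of_card_eq_pow_mul_pow 2 3 Nat.prime_two Nat.prime_three 12 hA12
        (by
          intro r hr hd
          have : r ∣ 2 ^ 2 * 3 := hd
          rcases (Nat.Prime.dvd_mul hr).mp this with h | h
          · exact Or.inl ((Nat.prime_dvd_prime_iff_eq hr Nat.prime_two).mp (hr.dvd_of_dvd_pow h))
          · exact Or.inr ((Nat.prime_dvd_prime_iff_eq hr Nat.prime_three).mp h))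
    have hSpow : Group.IsSolvable (Fin 5 → S) := by
      let e : (Fin 5 → S) →* S × S × S × S × S := (Pi.evalMonoidHom _ 0).prod ((Pi.evalMonoidHom _ 1).prod
        ((Pi.evalMonoidHom _ 2).prod ((Pi.evalMonoidHom _ 3).prod (Pi.evalMonoidHom _ 4))))
      refine Group.isSolvable_of_isSolvable_injective (f := e) fun f g h => ?_
      simp only [e, MonoidHom.prod_apply, Pi.evalMonoidHom_apply, Prod.mk.injEq] at h
      funext x; fin_cases x <;> simp [h]
    haveI : Group.IsSolvable π.ker := by
      have hker : ∀ w : π.ker, ((w : G) : W).right = 1 := fun w => w.2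
      let e : π.ker →* (Fin 5 → S) :=
        { toFun := fun w => ((w : G) : W).left
          map_one' := rfl
          map_mul' := fun v w => by
            show (((v : G) : W) * ((w : G) : W)).left = _
            rw [mul_left, hker v, map_one]; rfl }
      exact Group.isSolvable_of_isSolvable_injective (f := e) fun v w h =>
        Subtype.ext (Subtype.ext (SemidirectProduct.ext h ((hker v).trans (hker w).symm)))
    let π' : A.comap π →* A := π.subgroupComap A
    refine Group.isSolvable_of_ker_le_range (Subgroup.inclusion (show π.ker ≤ A.comap π from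
      Subgroup.ker_le_comap _ _)) π' fun w hw => ?_
    exact ⟨⟨w.1, congrArg Subtype.val hw⟩, rfl⟩
  · intro hbot
    apply hd
    have hker : π.ker ≤ A.comap π := Subgroup.ker_le_comap _ _
    let proj : π.ker →* S :=
      { toFun := fun w => ((w : G) : W).left 0
        map_one' := rfl
        map_mul' := fun v w => by
          show (((v : G) : W) * ((w : G) : W)).left 0 = _
          rw [mul_left, show ((v : G) : W).right = 1 from v.2, map_one]; rfl }
    have hsurj : Function.Surjective proj := fun s =>
      ⟨⟨⟨_, hmemd 0 1 (by decide) s⟩, rfl⟩, Cfsg.Agent.MaxSub.Wr.delta_self_apply (by decide) s⟩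
    rw [eq_bot_iff]
    rw [← map_derivedSeries_eq hsurj d]
    have h1 := map_derivedSeries_le_derivedSeries (Subgroup.inclusion hker) d
    rw [hbot, le_bot_iff, Subgroup.map_eq_bot_iff_of_injective _ (Subgroup.inclusion_injective hker)] at h1
    rw [h1, Subgroup.map_bot]


end Cfsg.Agent.S5896
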