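import Cfsg.Statements.S5902
import Cfsg.Agent.S5901
-- import your own Cfsg.Agent.* helpers here

set_option autoImplicit false
open Cfsg

namespace Cfsg.Agent.S5902


theorem compl_conj {G : Type*} [Group G] (H C : Subgroup G) (g : G)
    (h1 : H.map (MulAut.conj g).toMonoidHom ⊔ C = ⊤) (h2 : H.map (MulAut.conj g).toMonoidHom ⊓ C = ⊥) :
    ∃ D : Subgroup G, H ⊔ D = ⊤ ∧ H ⊓ D = ⊥ := by
  have he : ∀ S : Subgroup G, (S.map (MulAut.conj g).toMonoidHom) = (MulAut.conj g).mapSubgroup S := fun S => rfl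
  refine ⟨(MulAut.conj g).mapSubgroup.symm C, ?_, ?_⟩
  · apply (MulAut.conj g).mapSubgroup.injective
    rw [OrderIso.map_sup, OrderIso.apply_symm_apply, ← he, h1, OrderIso.map_top]
  · apply (MulAut.conj g).mapSubgroup.injective
    rw [OrderIso.map_inf, OrderIso.apply_symm_apply, ← he, h2, OrderIso.map_bot]


/-- Let G be a finite group, X a subgroup whose own subgroup lattice is complemented, and suppose X lies in exactly one maximal subgroup M of G. Then every subgroup H of G not contained in the normal core of M has a complement in the subgroup lattice of G (some C with H ⊔ C = G and H ⊓ C = 1); in particular the subgroup lattice of G modulo the normal core of M is complemented. -/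
theorem result {G : Type*} [Group G] [Finite G] (X M : Subgroup G)
    (hK : ComplementedLattice (Subgroup X))
    (hM : IsCoatom M) (hXM : X ≤ M) (huniq : ∀ M' : Subgroup G, IsCoatom M' → X ≤ M' → M' = M) :
    (∀ H : Subgroup G, ¬ H ≤ M.normalCore → ∃ C : Subgroup G, H ⊔ C = ⊤ ∧ H ⊓ C = ⊥) ∧
    ComplementedLattice (Subgroup (G ⧸ M.normalCore)) := by
  have hXtop : X ≠ ⊤ := fun h => hM.1 (top_unique (h ▸ hXM))
  have hint : ∀ Y : Subgroup G, ⊥ ≤ Y → Y ≤ X →
      ∃ C : Subgroup G, ⊥ ≤ C ∧ C ≤ X ∧ Y ⊔ C = X ∧ Y ⊓ C = ⊥ := by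
    intro Y _ hYX
    obtain ⟨C, hC⟩ := hK.exists_isCompl (Y.subgroupOf X)
    refine ⟨C.map X.subtype, bot_le, Subgroup.map_subtype_le C, ?_, ?_⟩
    · have := congrArg (Subgroup.map X.subtype) hC.sup_eq_top
      rwa [Subgroup.map_sup, Subgroup.subgroupOf_map_subtype, inf_of_le_left hYX,
        ← MonoidHom.range_eq_map, Subgroup.range_subtype] at this
    · have := congrArg (Subgroup.map X.subtype) hC.inf_eq_bot
      rwa [Subgroup.map_inf _ _ _ X.subtype_injective, Subgroup.subgroupOf_map_subtype,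
        inf_of_le_left hYX, Subgroup.map_bot] at this
  have key : ∀ H : Subgroup G, ¬ H ≤ M.normalCore → ∃ C : Subgroup G, H ⊔ C = ⊤ ∧ H ⊓ C = ⊥ := by
    intro H hH
    obtain ⟨g, hg⟩ : ∃ g : G, ¬ H.map (MulAut.conj g).toMonoidHom ≤ M := by
      by_contra hc
      push Not at hc
      exact hH fun x hx g => hc g ⟨x, hx, rfl⟩
    obtain ⟨C, h1, h2⟩ := Cfsg.Agent.S5901.result ⊥ X M bot_le hXtop hint hM hXM huniq _ hg (inf_bot_eq _)
    exact compl_conj H C g h1 h2
  refine ⟨key, ⟨fun K => ?_⟩⟩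
  set N := M.normalCore
  have hsurj := QuotientGroup.mk'_surjective N
  have hker : ∀ K : Subgroup (G ⧸ N), N ≤ K.comap (QuotientGroup.mk' N) := fun K =>
    (QuotientGroup.ker_mk' N).symm.le.trans (Subgroup.ker_le_comap _ _)
  by_cases hb : K = ⊥
  · exact ⟨⊤, hb ▸ isCompl_bot_top⟩
  have hH : ¬ K.comap (QuotientGroup.mk' N) ≤ N := by
    intro h
    apply hb
    rw [← Subgroup.map_comap_eq_self_of_surjective hsurj K]
    rw [eq_bot_iff]
    refine (Subgroup.map_mono h).trans ?_
    rw [QuotientGroup.map_mk'_self]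
  obtain ⟨C, h1, h2⟩ := key _ hH
  refine ⟨C.map (QuotientGroup.mk' N), IsCompl.of_eq ?_ ?_⟩
  · rw [eq_bot_iff]
    rintro x ⟨hxK, c, hc, rfl⟩
    have : c ∈ K.comap (QuotientGroup.mk' N) ⊓ C := ⟨hxK, hc⟩
    rw [h2, Subgroup.mem_bot] at this
    simp [this]
  · have := congrArg (Subgroup.map (QuotientGroup.mk' N)) h1
    rwa [Subgroup.map_sup, Subgroup.map_comap_eq_self_of_surjective hsurj,
      ← MonoidHom.range_eq_map, MonoidHom.range_eq_top.mpr hsurj] at this


end Cfsg.Agent.S5902
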