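import Cfsg.Statements.S5903
import Cfsg.Agent.S5902
-- import your own Cfsg.Agent.* helpers here

set_option autoImplicit false
open Cfsg

namespace Cfsg.Agent.S5903

/-- Let G be a finite simple group, X a subgroup lying in exactly one maximal subgroup M of G, and N a subgroup of prime order with N ≤ X that is central in M. If the subgroup lattice of X/N is complemented, then the subgroup lattice of G is complemented. -/
theorem result {G : Type*} [Group G] [Finite G] [IsSimpleGroup G] (X M N : Subgroup G)
    (hM : IsCoatom M) (hXM : X ≤ M) (huniq : ∀ M' : Subgroup G, IsCoatom M' → X ≤ M' → M' = M)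
    (hNX : N ≤ X) (hN : (Nat.card N).Prime) (hcen : ∀ n ∈ N, ∀ m ∈ M, m * n = n * m)
    [(N.subgroupOf X).Normal] (hK : ComplementedLattice (Subgroup (X ⧸ N.subgroupOf X))) :
    ComplementedLattice (Subgroup G) := by
  refine ⟨fun H => ?_⟩
  by_cases hHb : H = ⊥
  · exact ⟨⊤, hHb ▸ isCompl_bot_top⟩
  by_cases hHt : H = ⊤
  · exact ⟨⊥, hHt ▸ isCompl_top_bot⟩
  have hNbot : N ≠ ⊥ := fun h => by
    rw [h, Subgroup.card_bot] at hN
    exact Nat.not_prime_one hN
  -- some conjugate of H neither lies in M nor contains N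
  obtain ⟨g, hgM, hgN⟩ : ∃ g : G, ¬ H.map (MulAut.conj g).toMonoidHom ≤ M ∧
      ¬ N ≤ H.map (MulAut.conj g).toMonoidHom := by
    by_contra hc
    push Not at hc
    have hle : Subgroup.normalClosure (N : Set G) ≤ Subgroup.normalizer (H : Set G) := by
      refine (Subgroup.closure_le _).mpr ?_
      intro x hx
      obtain ⟨n, hn, hconj⟩ := Group.mem_conjugatesOfSet_iff.mp hx
      obtain ⟨c, hc'⟩ := isConj_iff.mp hconj
      -- x = c n c⁻¹
      by_cases hM' : H.map (MulAut.conj c⁻¹).toMonoidHom ≤ M
      · -- x centralises H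
        have hcomm : ∀ h ∈ H, x * h = h * x := by
          intro h hh
          have hm := hcen n hn _ (hM' ⟨h, hh, rfl⟩)
          simp only [MulEquiv.toMonoidHom_eq_coe, MonoidHom.coe_coe, MulAut.conj_apply, inv_inv] at hm
          rw [← hc']
          calc c * n * c⁻¹ * h = c * (n * (c⁻¹ * h * c)) * c⁻¹ := by group
            _ = c * ((c⁻¹ * h * c) * n) * c⁻¹ := by rw [hm]
            _ = h * (c * n * c⁻¹) := by group
        refine Subgroup.mem_normalizer_iff.mpr fun h => ⟨fun hh => ?_, fun hh => ?_⟩
        · rw [hcomm h hh, mul_inv_cancel_right]; exact hh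
        · have := hcomm _ hh
          have e : h = x * h * x⁻¹ := by
            have h' : x * (x * h * x⁻¹) * x⁻¹ = x * h * x⁻¹ := by
              rw [this, mul_inv_cancel_right]
            have := congrArg (fun z => x⁻¹ * z * x) h'
            group at this ⊢
            exact this.symm
          rwa [← e] at hh
      · obtain ⟨h, hh, he⟩ := hc c⁻¹ hM' hn
        apply Subgroup.le_normalizer
        simp only [MulEquiv.toMonoidHom_eq_coe, MonoidHom.coe_coe, MulAut.conj_apply, inv_inv] at he
        rw [← hc', ← he]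
        simpa [mul_assoc] using hh
    have hnc : Subgroup.normalClosure (N : Set G) = ⊤ := by
      refine (Subgroup.normalClosure_normal.eq_bot_or_eq_top).resolve_left fun h => hNbot ?_
      exact le_bot_iff.mp (h ▸ Subgroup.le_normalClosure)
    have hHn : H.Normal := Subgroup.normalizer_eq_top_iff.mp (top_unique (hnc ▸ hle))
    exact (hHn.eq_bot_or_eq_top).elim hHb hHt
  have hXtop : X ≠ ⊤ := fun h => hM.1 (top_unique (h ▸ hXM))
  have hint : ∀ Y : Subgroup G, N ≤ Y → Y ≤ X →
      ∃ C : Subgroup G, N ≤ C ∧ C ≤ X ∧ Y ⊔ C = X ∧ Y ⊓ C = N := by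
    intro Y hNY hYX
    set π := QuotientGroup.mk' (N.subgroupOf X)
    have hsurj : Function.Surjective π := QuotientGroup.mk'_surjective _
    have hker : π.ker = N.subgroupOf X := QuotientGroup.ker_mk' _
    obtain ⟨K, hK'⟩ := hK.exists_isCompl ((Y.subgroupOf X).map π)
    have hY' : ((Y.subgroupOf X).map π).comap π = Y.subgroupOf X :=
      Subgroup.comap_map_eq_self (hker.le.trans (Subgroup.comap_mono hNY))
    refine ⟨(K.comap π).map X.subtype, ?_, Subgroup.map_subtype_le _, ?_, ?_⟩
    · refine le_trans (le_of_eq ?_) (Subgroup.map_mono (f := X.subtype) (hker.symm.le.trans (Subgroup.ker_le_comap _ _)))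
      rw [Subgroup.subgroupOf_map_subtype, inf_of_le_left hNX]
    · have := congrArg (fun S => (Subgroup.comap π S).map X.subtype) hK'.sup_eq_top
      rw [← Subgroup.comap_sup_eq π _ _ hsurj, hY', Subgroup.map_sup, Subgroup.comap_top,
        Subgroup.subgroupOf_map_subtype, inf_of_le_left hYX, ← MonoidHom.range_eq_map,
        Subgroup.range_subtype] at this
      exact this
    · have := congrArg (fun S => (Subgroup.comap π S).map X.subtype) hK'.inf_eq_bot
      rw [Subgroup.comap_inf, hY', Subgroup.map_inf _ _ _ X.subtype_injective,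
        Subgroup.subgroupOf_map_subtype, inf_of_le_left hYX, MonoidHom.comap_bot, hker,
        Subgroup.subgroupOf_map_subtype, inf_of_le_left hNX] at this
      exact this
  have hHN : H.map (MulAut.conj g).toMonoidHom ⊓ N = ⊥ := by
    rcases eq_or_ne (H.map (MulAut.conj g).toMonoidHom ⊓ N) ⊥ with h | h
    · exact h
    · exfalso
      apply hgN
      have hle : H.map (MulAut.conj g).toMonoidHom ⊓ N ≤ N := inf_le_right
      have hd := Subgroup.card_dvd_of_le hle
      rcases (Nat.dvd_prime hN).mp hd with h1 | h1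
      · exact absurd (Subgroup.eq_bot_of_card_eq _ h1) h
      · have := Subgroup.eq_of_le_of_card_ge hle h1.ge
        exact this ▸ inf_le_left
  obtain ⟨C, h1, h2⟩ := Cfsg.Agent.S5901.result N X M hNX hXtop hint hM hXM huniq _ hgM hHN
  obtain ⟨D, d1, d2⟩ := Cfsg.Agent.S5902.compl_conj H C g h1 h2
  exact ⟨D, IsCompl.of_eq d2 d1⟩

end Cfsg.Agent.S5903
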