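import Cfsg.Statements.S5904
-- import your own Cfsg.Agent.* helpers here

set_option autoImplicit false
open scoped Pointwise
open Cfsg

namespace Cfsg.Agent.S5904

open scoped Pointwise


/-- Let Ω be a finite set with more than two elements and O ⊆ Ω a subset with exactly as many elements as its complement. Then the setwise stabilizer of O in the symmetric group on Ω is not a maximal subgroup (it is properly contained in the stabilizer of the partition {O, Ω ∖ O}, which is proper). -/
theorem result {Ω : Type*} [Fintype Ω] [DecidableEq Ω] (hΩ : 2 < Fintype.card Ω)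
    (O : Set Ω) (hO : Nat.card O = Nat.card ↥Oᶜ) :
    ¬ IsCoatom (MulAction.stabilizer (Equiv.Perm Ω) O) := by
  classical
  intro h
  have hne : ∀ s : Set Ω, Nat.card s = s.ncard := fun s => Nat.card_coe_set_eq s
  rw [hne, hne] at hO
  have hsum := Set.ncard_add_ncard_compl O
  rw [Nat.card_eq_fintype_card] at hsum
  have h2 : 1 < O.ncard := by omega
  obtain ⟨x, hx, x', hx', hxx'⟩ := (Set.one_lt_ncard O.toFinite).mp h2
  obtain ⟨y, hy⟩ : Oᶜ.Nonempty := by
    rw [← Set.ncard_pos Oᶜ.toFinite]; omega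
  -- the partition stabiliser
  let P : Subgroup (Equiv.Perm Ω) := MulAction.stabilizer (Equiv.Perm Ω) ({O, Oᶜ} : Set (Set Ω))
  have hle : MulAction.stabilizer (Equiv.Perm Ω) O ≤ P := by
    intro g hg
    have hg' : g • O = O := hg
    show g • ({O, Oᶜ} : Set (Set Ω)) = {O, Oᶜ}
    rw [Set.smul_set_insert, Set.smul_set_singleton, Set.smul_set_compl, hg']
  -- a permutation exchanging O and its complement
  obtain ⟨e⟩ : Nonempty (O ≃ (Oᶜ : Set Ω)) := by
    rw [← hne, ← hne] at hO
    exact ⟨(Finite.card_eq.mp hO).some⟩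
  let g : Equiv.Perm Ω :=
    (Equiv.Set.sumCompl O).symm.trans (((Equiv.sumComm _ _).trans (Equiv.sumCongr e.symm e)).trans (Equiv.Set.sumCompl O))
  have g1 : ∀ z ∈ O, g z ∈ Oᶜ := by
    intro z hz
    simp [g, Equiv.Set.sumCompl_symm_apply_of_mem hz]
  have g2 : ∀ z ∈ Oᶜ, g z ∈ O := by
    intro z hz
    simp [g, Equiv.Set.sumCompl_symm_apply_of_notMem hz]
  have hgO : g • O = Oᶜ := by
    apply Set.Subset.antisymm
    · rintro _ ⟨z, hz, rfl⟩
      exact g1 z hz
    · intro z hz
      refine ⟨g.symm z, ?_, g.apply_symm_apply z⟩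
      by_contra hc
      have := g2 _ hc
      rw [Equiv.apply_symm_apply] at this
      exact hz this
  have hgP : g ∈ P := by
    show g • ({O, Oᶜ} : Set (Set Ω)) = {O, Oᶜ}
    rw [Set.smul_set_insert, Set.smul_set_singleton, Set.smul_set_compl, hgO, compl_compl, Set.pair_comm]
  rcases lt_or_eq_of_le hle with hlt | heq
  · have htop := h.2 P hlt
    have hs : Equiv.swap x y ∈ P := htop ▸ Subgroup.mem_top _
    have hs' : Equiv.swap x y • O ∈ ({O, Oᶜ} : Set (Set Ω)) := by
      have : Equiv.swap x y • ({O, Oᶜ} : Set (Set Ω)) = {O, Oᶜ} := hs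
      rw [← this]
      exact Set.smul_mem_smul_set (Set.mem_insert _ _)
    have hyx : y ≠ x' := fun e => hy (e ▸ hx')
    have m1 : y ∈ Equiv.swap x y • O := ⟨x, hx, Equiv.swap_apply_left x y⟩
    have m2 : x' ∈ Equiv.swap x y • O := ⟨x', hx', Equiv.swap_apply_of_ne_of_ne hxx'.symm hyx.symm⟩
    rcases hs' with he | he
    · rw [he] at m1; exact hy m1
    · rw [Set.mem_singleton_iff] at he
      rw [he] at m2; exact m2 hx'
  · have : g • O = O := (heq ▸ hgP : g ∈ MulAction.stabilizer (Equiv.Perm Ω) O)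
    rw [hgO] at this
    exact (this ▸ hy : y ∈ O) |> hy


end Cfsg.Agent.S5904
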