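import Cfsg.Statements.S5905
import Cfsg.Agent.MaxSub.Imprimitive
-- import your own Cfsg.Agent.* helpers here

set_option autoImplicit false
open Cfsg

namespace Cfsg.Agent.S5905

/-- Let Ω be a finite set and f : Ω → Fin b a map onto b ≥ 2 labels whose fibres all have the same size a ≥ 2 (a partition of Ω into b blocks of size a, so |Ω| = ab). Then the stabilizer of this partition in the symmetric group on Ω — the permutations g such that x and y lie in the same block exactly when g x and g y do, a group isomorphic to the imprimitive wreath product S_a ≀ S_b — is a maximal subgroup of the symmetric group. -/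
theorem result {Ω : Type*} [Fintype Ω] [DecidableEq Ω] (a b : ℕ) (ha : 2 ≤ a) (hb : 2 ≤ b)
    (f : Ω → Fin b) (hf : ∀ i : Fin b, Nat.card {x : Ω // f x = i} = a) :
    IsCoatom (Subgroup.closure {g : Equiv.Perm Ω | ∀ x y : Ω, f x = f y ↔ f (g x) = f (g y)}) := by
  have hf' : Cfsg.Agent.MaxSub.IsEquiPartition f a := by
    refine ⟨fun x => ?_, ha, fun x => ?_⟩
    · rw [← Nat.card_coe_set_eq]; exact hf (f x)
    · obtain ⟨j, hj⟩ := Fintype.exists_ne_of_one_lt_card (by rw [Fintype.card_fin]; exact hb : 1 < Fintype.card (Fin b)) (f x)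
      have hj' := hf j
      haveI : Nonempty {y : Ω // f y = j} := (Nat.card_pos_iff.mp (by omega)).1
      obtain ⟨y, hy⟩ := Classical.arbitrary {y : Ω // f y = j}
      exact ⟨y, hy ▸ hj⟩
  have x₀ : Ω := by
    haveI : Nonempty {y : Ω // f y = ⟨0, by omega⟩} :=
      (Nat.card_pos_iff.mp (by rw [hf]; omega)).1
    exact (Classical.choice ‹Nonempty {y : Ω // f y = _}›).1
  rw [Cfsg.Agent.MaxSub.closure_eq_partGroup]
  exact Cfsg.Agent.MaxSub.isCoatom_partGroup hf' x₀


end Cfsg.Agent.S5905
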