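import Cfsg.Statements.S5908
import Cfsg.Agent.MaxSub.PSU32
-- import your own Cfsg.Agent.* helpers here

set_option autoImplicit false
open Cfsg Cfsg.Agent.MaxSub.U32

namespace Cfsg.Agent.S5908

/-- The subgroup lattice of PSU₃(2) (the solvable group of order 72, realised over the field with 4 elements) is not complemented: some subgroup H has no subgroup X with H ⊔ X = ⊤ and H ⊓ X = ⊥. -/
theorem result {F : Type*} [Field F] [Fintype F] (hF : Fintype.card F = 4) :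
    ¬ ComplementedLattice (Subgroup (Cfsg.PSU 3 F 2)) := by
  classical
  intro hlat
  obtain ⟨w, hq, -⟩ := exists_omega hF
  have h2 := two_eq_zero hF
  have h3 : w ^ 3 = 1 := by linear_combination (w - 1) * hq
  have hw0 : w ≠ 0 := fun h => by rw [h] at hq; norm_num at hq
  have hw1 : w ≠ 1 := fun h => by
    rw [h] at hq
    exact one_ne_zero (show (1 : F) = 0 by linear_combination hq - h2)
  have form : ∀ u v : Fin 3 → F, Cfsg.hermForm 3 F 2 u v = u 0 * v 0 ^ 2 + u 1 * v 1 ^ 2 + u 2 * v 2 ^ 2 :=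
    fun u v => Fin.sum_univ_three _
  let D : Matrix.SpecialLinearGroup (Fin 3) F := ⟨!![w, 0, 0; 0, w ^ 2, 0; 0, 0, 1], by
    rw [Matrix.det_fin_three]; simp; linear_combination h3⟩
  let P : Matrix.SpecialLinearGroup (Fin 3) F := ⟨!![0, 1, 0; 0, 0, 1; 1, 0, 0], by
    rw [Matrix.det_fin_three]; simp⟩
  let W : Matrix.SpecialLinearGroup (Fin 3) F := ⟨!![1, 1, 1; 1, w, w ^ 2; 1, w ^ 2, w], by
    rw [Matrix.det_fin_three]; simp; linear_combination 3 * hq - (2 * w + 2 - w * 0) * h2 + (-w) * h3 - w * h2⟩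
  have hD : D ∈ Cfsg.SU 3 F 2 := mem_SU fun u v => by
    rw [form, form]; simp [D, Matrix.mulVec, dotProduct, Fin.sum_univ_three]
    linear_combination (u 0 * v 0 ^ 2 + (w ^ 3 + 1) * (u 1 * v 1 ^ 2)) * h3
  have hP : P ∈ Cfsg.SU 3 F 2 := mem_SU fun u v => by
    rw [form, form]; simp [P, Matrix.mulVec, dotProduct, Fin.sum_univ_three]; ring
  have hW : W ∈ Cfsg.SU 3 F 2 := mem_SU fun u v => by
    rw [form, form]; simp [W, Matrix.mulVec, dotProduct, Fin.sum_univ_three, sq_add hF, mul_pow, ← pow_mul]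
    have h4 : w ^ 4 = w := by linear_combination w * h3
    rw [h4]
    linear_combination (u 0 * v 0 ^ 2 + u 1 * v 1 ^ 2 + u 2 * v 2 ^ 2) * h2 +
      (u 0 * v 1 ^ 2 + u 0 * v 2 ^ 2 + u 1 * v 0 ^ 2 + u 2 * v 0 ^ 2) * hq +
      (2 * (u 1 * v 1 ^ 2) + 2 * (u 2 * v 2 ^ 2)) * h3 +
      (u 1 * v 2 ^ 2 + u 2 * v 1 ^ 2) * (hq + w * h3)
  have hWfull : Full (W : Matrix (Fin 3) (Fin 3) F) := by
    intro i j
    fin_cases i <;> fin_cases j <;> simp [W, hw0]
  -- the centre consists of scalars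
  have hcen : ∀ z ∈ Subgroup.center (Cfsg.SU 3 F 2), ∃ c : F,
      ((z : Matrix.SpecialLinearGroup (Fin 3) F) : Matrix (Fin 3) (Fin 3) F) = c • 1 := by
    intro z hz
    have cD : D * (z : Matrix.SpecialLinearGroup (Fin 3) F) = (z : Matrix.SpecialLinearGroup (Fin 3) F) * D :=
      congrArg Subtype.val (Subgroup.mem_center_iff.mp hz ⟨D, hD⟩)
    have cP : P * (z : Matrix.SpecialLinearGroup (Fin 3) F) = (z : Matrix.SpecialLinearGroup (Fin 3) F) * P :=
      congrArg Subtype.val (Subgroup.mem_center_iff.mp hz ⟨P, hP⟩)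
    set M := ((z : Matrix.SpecialLinearGroup (Fin 3) F) : Matrix (Fin 3) (Fin 3) F)
    have eD : !![w, 0, 0; 0, w ^ 2, 0; 0, 0, 1] * M = M * !![w, 0, 0; 0, w ^ 2, 0; 0, 0, 1] :=
      congrArg Subtype.val cD
    have eP : !![(0 : F), 1, 0; 0, 0, 1; 1, 0, 0] * M = M * !![0, 1, 0; 0, 0, 1; 1, 0, 0] :=
      congrArg Subtype.val cP
    have hd : ∀ i j, ![w, w ^ 2, 1] i * M i j = M i j * ![w, w ^ 2, 1] j := by
      intro i j
      have := congrFun (congrFun eD i) j
      fin_cases i <;> fin_cases j <;> simpa [Matrix.mul_apply, Fin.sum_univ_three] using this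
    have hne2 : w ^ 2 ≠ 1 := fun h => hw0 (by linear_combination hq - h - h2)
    have hne : ∀ i j : Fin 3, i ≠ j → ![w, w ^ 2, 1] i ≠ ![w, w ^ 2, 1] j := by
      intro i j hij
      have n1 : w ≠ w ^ 2 := fun h => hw1 (mul_left_cancel₀ hw0 (by linear_combination -h))
      fin_cases i <;> fin_cases j <;>
        first
        | exact absurd rfl hij
        | simp [n1, n1.symm, hne2, hne2.symm, hw1, Ne.symm hw1]
    have hoff : ∀ i j, i ≠ j → M i j = 0 := by
      intro i j hij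
      by_contra h
      exact hne i j hij (mul_left_cancel₀ h (by rw [mul_comm, hd]))
    have e01 : M 1 1 = M 0 0 := by
      simpa [Matrix.mul_apply, Fin.sum_univ_three] using congrFun (congrFun eP 0) 1
    have e12 : M 2 2 = M 1 1 := by
      simpa [Matrix.mul_apply, Fin.sum_univ_three] using congrFun (congrFun eP 1) 2
    refine ⟨M 0 0, ?_⟩
    ext i j
    by_cases hij : i = j
    · subst hij; fin_cases i <;> simp [e01, e12]
    · rw [hoff i j hij]; simp [Matrix.one_apply_ne hij]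
  set π := QuotientGroup.mk' (Subgroup.center (Cfsg.SU 3 F 2))
  obtain ⟨X, hX⟩ := hlat.exists_isCompl ((Mono : Subgroup (Cfsg.SU 3 F 2)).map π)
  have hker : Subgroup.center (Cfsg.SU 3 F 2) ≤ Mono := by
    intro z hz
    rw [mem_Mono hF]
    obtain ⟨c, hc⟩ := hcen z hz
    intro hfull
    exact hfull 0 1 (by rw [hc]; simp)
  have hXbot : X = ⊥ := by
    rw [eq_bot_iff]
    intro x hx
    obtain ⟨g, rfl⟩ := QuotientGroup.mk'_surjective _ x
    have hsqM : g * g ∈ (Mono : Subgroup (Cfsg.SU 3 F 2)) :=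
      (mem_Mono hF _).mpr (sq_not_full hF g.2)
    have hsq : π (g * g) ∈ (Mono : Subgroup (Cfsg.SU 3 F 2)).map π ⊓ X :=
      ⟨⟨_, hsqM, rfl⟩, by rw [map_mul]; exact X.mul_mem hx hx⟩
    rw [hX.inf_eq_bot, Subgroup.mem_bot, ← MonoidHom.mem_ker, QuotientGroup.ker_mk'] at hsq
    obtain ⟨c, hc⟩ := hcen _ hsq
    have hgM : g ∈ (Mono : Subgroup (Cfsg.SU 3 F 2)) :=
      (mem_Mono hF g).mpr fun hfull => sq_ne_scalar hF g.2 hfull c hc
    have : π g ∈ (Mono : Subgroup (Cfsg.SU 3 F 2)).map π ⊓ X := ⟨⟨g, hgM, rfl⟩, hx⟩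
    rwa [hX.inf_eq_bot] at this
  have htop := hX.sup_eq_top
  rw [hXbot, sup_bot_eq] at htop
  have hWM : (⟨W, hW⟩ : Cfsg.SU 3 F 2) ∈ (Mono : Subgroup (Cfsg.SU 3 F 2)) := by
    have hmem : π ⟨W, hW⟩ ∈ (Mono : Subgroup (Cfsg.SU 3 F 2)).map π := htop ▸ Subgroup.mem_top _
    have : (⟨W, hW⟩ : Cfsg.SU 3 F 2) ∈ ((Mono : Subgroup (Cfsg.SU 3 F 2)).map π).comap π := hmem
    rwa [Subgroup.comap_map_eq_self (by rw [QuotientGroup.ker_mk']; exact hker)] at this
  exact (mem_Mono hF _).mp hWM hWfull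


end Cfsg.Agent.S5908
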