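import Cfsg.Statements.S5909
import Cfsg.Agent.MaxSub.Imprimitive
-- import your own Cfsg.Agent.* helpers here

set_option autoImplicit false
open Cfsg

namespace Cfsg.Agent.S5909

/-- Let Ω be a finite set whose size is not 8, and f : Ω → Fin b a labelling with b ≥ 2 whose fibres all have the same size a ≥ 2 (a partition into b blocks of size a). Then the even permutations preserving the partition — the intersection of the imprimitive wreath product S_a ≀ S_b with the alternating group — form a maximal subgroup of the alternating group on Ω. -/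
theorem result {Ω : Type*} [Fintype Ω] [DecidableEq Ω] (h8 : Fintype.card Ω ≠ 8) (a b : ℕ) (ha : 2 ≤ a) (hb : 2 ≤ b)
    (f : Ω → Fin b) (hf : ∀ i : Fin b, Nat.card {x : Ω // f x = i} = a) :
    IsCoatom ((Subgroup.closure {g : Equiv.Perm Ω | ∀ x y : Ω, f x = f y ↔ f (g x) = f (g y)} ⊓ alternatingGroup Ω).subgroupOf (alternatingGroup Ω)) := by
  classical
  have hf' : Cfsg.Agent.MaxSub.IsEquiPartition f a := by
    refine ⟨fun x => ?_, ha, fun x => ?_⟩
    · rw [← Nat.card_coe_set_eq]; exact hf (f x)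
    · obtain ⟨j, hj⟩ := Fintype.exists_ne_of_one_lt_card (by rw [Fintype.card_fin]; exact hb : 1 < Fintype.card (Fin b)) (f x)
      have hj' := hf j
      haveI : Nonempty {y : Ω // f y = j} := (Nat.card_pos_iff.mp (by omega)).1
      obtain ⟨y, hy⟩ := Classical.arbitrary {y : Ω // f y = j}
      exact ⟨y, hy ▸ hj⟩
  have x₀ : Ω := by
    haveI : Nonempty {y : Ω // f y = ⟨0, by omega⟩} :=
      (Nat.card_pos_iff.mp (by rw [hf]; omega)).1
    exact (Classical.choice ‹Nonempty {y : Ω // f y = _}›).1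
  rw [Cfsg.Agent.MaxSub.closure_eq_partGroup]
  open Cfsg.Agent.MaxSub Equiv Equiv.Perm in
  refine ⟨fun h => partGroup_ne_top hf' x₀ fun g hg => ?_, fun L hL => ?_⟩
  · exact (Subgroup.subgroupOf_eq_top.mp h hg).1
  -- work in Perm Ω
  have hsub : Cfsg.Agent.MaxSub.partGroup f ⊓ alternatingGroup Ω ≤ L.map (alternatingGroup Ω).subtype :=
    fun g hg => ⟨⟨g, hg.2⟩, hL.le hg, rfl⟩
  set G := L.map (alternatingGroup Ω).subtype with hGdef
  have hGA : G ≤ alternatingGroup Ω := Subgroup.map_subtype_le L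
  have hG : ¬ G ≤ Cfsg.Agent.MaxSub.partGroup f := fun h => hL.not_ge fun g hg =>
    Subgroup.mem_subgroupOf.mpr ⟨h ⟨g, hg, rfl⟩, g.2⟩
  suffices key : alternatingGroup Ω ≤ G by
    rw [eq_top_iff]
    intro g _
    obtain ⟨l, hl, he⟩ := key g.2
    exact (Subtype.ext he : l = g) ▸ hl
  have hcard : Fintype.card Ω = a * b := by
    rw [← Fintype.card_congr (Equiv.sigmaFiberEquiv f), Fintype.card_sigma,
      Finset.sum_congr rfl (fun i _ => (Nat.card_eq_fintype_card (α := {x // f x = i})).symm.trans (hf i))]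
    simp [mul_comm]
  have hthird : 3 ≤ b → ∀ x y, ∃ t, f t ≠ f x ∧ f t ≠ f y := by
    intro hb3 x y
    obtain ⟨j, -, hj⟩ := Finset.exists_mem_notMem_of_card_lt_card
      (show ({f x, f y} : Finset (Fin b)).card < (Finset.univ : Finset (Fin b)).card by
        simp only [Finset.card_univ, Fintype.card_fin]
        exact Finset.card_le_two.trans_lt hb3)
    simp only [Finset.mem_insert, Finset.mem_singleton, not_or] at hj
    haveI : Nonempty {t : Ω // f t = j} := (Nat.card_pos_iff.mp (by rw [hf]; omega)).1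
    obtain ⟨t, ht⟩ := Classical.arbitrary {t : Ω // f t = j}
    exact ⟨t, ht ▸ hj.1, ht ▸ hj.2⟩
  by_cases hbig : 3 ≤ a ∨ 3 ≤ b
  · have hW := Cfsg.Agent.MaxSub.isBigIn_alternating hf' (hbig.imp id hthird)
    have hp := Cfsg.Agent.MaxSub.isPreprimitive_of_isBigIn hf' hW hsub hG x₀
    obtain ⟨c, hcG, hc⟩ : ∃ c ∈ G, Equiv.Perm.IsThreeCycle c := by
      by_cases ha3 : 3 ≤ a
      · obtain ⟨c, hc1, hc2⟩ := Cfsg.Agent.MaxSub.exists_threeCycle_of_three_le hf' ha3 x₀
        exact ⟨c, hsub hc1, hc2⟩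
      · exact Cfsg.Agent.MaxSub.exists_threeCycle_of_two hf' (by omega)
          (hthird (hbig.resolve_left ha3)) h8 hsub hG
    exact Equiv.Perm.alternatingGroup_le_of_isPreprimitive_of_isThreeCycle_mem hp hc hcG
  · -- four points
    have ha2 : a = 2 := by omega
    have hb2 : b = 2 := by omega
    set V := Cfsg.Agent.MaxSub.partGroup f ⊓ alternatingGroup Ω
    have htr : ∀ y, ∃ g ∈ V, g x₀ = y := by
      intro y
      obtain ⟨g, hg, hgy, -⟩ := Cfsg.Agent.MaxSub.exists_partGroup_map hf'.card_eq x₀ y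
      by_cases hs : Equiv.Perm.sign g = 1
      · exact ⟨g, ⟨hg, hs⟩, hgy⟩
      obtain ⟨t, ht⟩ := hf'.exists_ne y
      obtain ⟨u, hu, hfu⟩ := hf'.exists_same t
      refine ⟨Equiv.swap u t * g, ⟨mul_mem (Cfsg.Agent.MaxSub.swap_mem_partGroup hfu) hg,
        Cfsg.Agent.MaxSub.sign_swap_mul_of_ne_one hu hs⟩, ?_⟩
      rw [Equiv.Perm.mul_apply, hgy]
      exact Equiv.swap_apply_of_ne_of_ne (fun e => ht (by rw [← hfu, ← e])) (fun e => ht (by rw [e]))
    choose w hw1 hw2 using htr
    have h4 : 4 ≤ Nat.card V := by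
      have := Nat.card_le_card_of_injective (fun y => (⟨w y, hw1 y⟩ : V)) fun y z h => by
        have h' : w y = w z := congrArg Subtype.val h
        rw [← hw2 y, ← hw2 z, h']
      rwa [Nat.card_eq_fintype_card, hcard, ha2, hb2] at this
    have hΩ : Fintype.card Ω = 4 := by rw [hcard, ha2, hb2]
    haveI : Nontrivial Ω := Fintype.one_lt_card_iff_nontrivial.mp (by omega)
    have hA : Nat.card (alternatingGroup Ω) = 12 := by
      have := two_mul_nat_card_alternatingGroup (α := Ω)
      rw [Nat.card_perm, Nat.card_eq_fintype_card (α := Ω), hΩ] at this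
      have h24 : Nat.factorial 4 = 24 := rfl
      rw [h24] at this
      simp only [Nat.card_eq_fintype_card] at this ⊢
      omega
    have h1 := Subgroup.card_dvd_of_le hsub
    have h2 := Subgroup.card_dvd_of_le hGA
    have h3 : Nat.card V < Nat.card G :=
      lt_of_le_of_ne (Nat.le_of_dvd Nat.card_pos h1) fun h =>
        hG ((Subgroup.eq_of_le_of_card_ge hsub h.ge).ge.trans inf_le_left)
    rw [hA] at h2
    have h5 : Nat.card G = 12 := by
      have hle := Nat.le_of_dvd (by norm_num) h2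
      have hdd := dvd_trans h1 h2
      have : ∀ g < 13, ∀ v < 13, 4 ≤ v → v < g → v ∣ g → g ∣ 12 → g = 12 := by
        intro g hg v hv
        interval_cases g <;> interval_cases v <;> norm_num
      exact this _ (by omega) _ (by omega) h4 h3 h1 h2
    exact (Subgroup.eq_of_le_of_card_ge hGA (by rw [hA, h5])).ge


end Cfsg.Agent.S5909
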