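import Cfsg.Statements.S5910


set_option autoImplicit false
open Cfsg

namespace Cfsg.Agent.S5910

abbrev Pts := (ZMod 2 × ZMod 2) × ZMod 2

theorem four_distinct : ∀ a b c d : ZMod 2 × ZMod 2,
    a ≠ b → a ≠ c → b ≠ c → a ≠ d → b ≠ d → c ≠ d → d = a + b + c := by decide

theorem sum_distinct : ∀ a b c : ZMod 2 × ZMod 2,
    a ≠ b → a ≠ c → b ≠ c → a ≠ a + b + c ∧ b ≠ a + b + c ∧ c ≠ a + b + c := by decide

theorem dup_left : ∀ a b : ZMod 2 × ZMod 2, a + a + b = b := by decide
theorem dup_mid : ∀ a b : ZMod 2 × ZMod 2, a + b + a = b := by decide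
theorem dup_right : ∀ a b : ZMod 2 × ZMod 2, b + a + a = b := by decide

theorem injective_affine (s : ZMod 2 × ZMod 2 → ZMod 2 × ZMod 2) (hs : Function.Injective s)
    (a b c : ZMod 2 × ZMod 2) : s (a + b + c) = s a + s b + s c := by
  by_cases hab : a = b
  · subst hab; rw [dup_left, dup_left]
  by_cases hac : a = c
  · subst hac; rw [dup_mid, dup_mid]
  by_cases hbc : b = c
  · subst hbc; rw [dup_right, dup_right]
  obtain ⟨h1, h2, h3⟩ := sum_distinct a b c hab hac hbc
  exact four_distinct _ _ _ _ (hs.ne hab) (hs.ne hac) (hs.ne hbc) (hs.ne h1) (hs.ne h2) (hs.ne h3)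

def fourVal (a b c d : ZMod 2) (p : ZMod 2 × ZMod 2) : ZMod 2 :=
  if p = (0, 0) then a else if p = (0, 1) then b else if p = (1, 0) then c else d

theorem even_affine_aux : ∀ a b c d : ZMod 2,
    a + b + c + d = 0 → ∀ i j k : ZMod 2 × ZMod 2,
      fourVal a b c d (i + j + k) = fourVal a b c d i + fourVal a b c d j + fourVal a b c d k := by
  decide

theorem sign_addRight_two : ∀ c : ZMod 2,
    Equiv.Perm.sign (Equiv.addRight c : Equiv.Perm (ZMod 2)) = if c = 0 then 1 else -1 := by decide

theorem two_values : ∀ b u v : ZMod 2, b ≠ 0 → u ≠ v → u = b + v := by decide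

theorem parity_four : ∀ a b c d : ZMod 2,
    (if a = 0 then (1 : ℤˣ) else -1) * (if b = 0 then (1 : ℤˣ) else -1) *
      (if c = 0 then (1 : ℤˣ) else -1) * (if d = 0 then (1 : ℤˣ) else -1) = 1 →
    a + b + c + d = 0 := by decide

/-- An even permutation of the eight points preserving the four pairs is affine. -/
theorem even_affine (h : Equiv.Perm Pts) (hp : ∀ x y : Pts, x.1 = y.1 ↔ (h x).1 = (h y).1)
    (hsgn : Equiv.Perm.sign h = 1) (x y z : Pts) : h (x + y + z) = h x + h y + h z := by
  let s : ZMod 2 × ZMod 2 → ZMod 2 × ZMod 2 := fun p => (h (p, 0)).1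
  let c : ZMod 2 × ZMod 2 → ZMod 2 := fun p => (h (p, 0)).2
  have hs : Function.Injective s := fun p q hpq => ((hp (p, 0) (q, 0)).2 hpq)
  have hform : ∀ (p : ZMod 2 × ZMod 2) (b : ZMod 2), h (p, b) = (s p, b + c p) := by
    intro p b
    have h1 : (h (p, b)).1 = s p := (hp (p, b) (p, 0)).1 rfl
    refine Prod.ext h1 ?_
    by_cases hb : b = 0
    · subst hb; simp [c]
    · have hne : (h (p, b)).2 ≠ c p := fun he => hb (congrArg Prod.snd (h.injective (Prod.ext h1 he :
        h (p, b) = h (p, 0))))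
      exact two_values _ _ _ hb hne
  let σ : Equiv.Perm (ZMod 2 × ZMod 2) := Equiv.ofBijective s (Finite.injective_iff_bijective.1 hs)
  have hdec : h = Equiv.prodCongrLeft (fun _ : ZMod 2 => σ) *
      Equiv.prodCongrRight (fun p => (Equiv.addRight (c p) : Equiv.Perm (ZMod 2))) := by
    ext1 ⟨p, b⟩
    rw [hform]; rfl
  rw [hdec, map_mul, Equiv.Perm.sign_prodCongrLeft, Equiv.Perm.sign_prodCongrRight,
    Finset.prod_const, Finset.card_univ, ZMod.card, Int.units_sq, one_mul] at hsgn
  simp only [sign_addRight_two] at hsgn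
  rw [Fintype.prod_prod_type] at hsgn
  simp only [show (Finset.univ : Finset (ZMod 2)) = {0, 1} by decide,
    Finset.prod_pair (show (0 : ZMod 2) ≠ 1 by decide)] at hsgn
  rw [← mul_assoc] at hsgn
  have hsum := parity_four _ _ _ _ hsgn
  have hc : c = fourVal (c (0, 0)) (c (0, 1)) (c (1, 0)) (c (1, 1)) := by
    funext p
    have : p = (0, 0) ∨ p = (0, 1) ∨ p = (1, 0) ∨ p = (1, 1) := by revert p; decide
    rcases this with rfl | rfl | rfl | rfl <;> simp [fourVal]
  obtain ⟨p, a⟩ := x
  obtain ⟨q, b⟩ := y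
  obtain ⟨r, d⟩ := z
  simp only [Prod.mk_add_mk, hform]
  refine Prod.ext (injective_affine s hs p q r) ?_
  show a + b + d + c (p + q + r) = a + c p + (b + c q) + (d + c r)
  rw [hc, even_affine_aux _ _ _ _ hsum p q r]
  abel

def linWitness : Equiv.Perm Pts where
  toFun x := ((x.2, x.1.2), x.1.1)
  invFun x := ((x.2, x.1.2), x.1.1)
  left_inv _ := rfl
  right_inv _ := rfl

theorem sign_linWitness : Equiv.Perm.sign linWitness = 1 := by decide +kernel


/-- Let Ω be a set with 8 elements and f : Ω → Fin 4 a labelling whose four fibres all have size 2 (a partition of the 8 points into 4 pairs). Then the group of even permutations preserving this partition, (S₂ ≀ S₄) ∩ A₈, is not a maximal subgroup of the alternating group A₈ (it lies in a subgroup isomorphic to the affine group AGL₃(2)). -/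
theorem result {Ω : Type*} [Fintype Ω] [DecidableEq Ω] (h8 : Fintype.card Ω = 8)
    (f : Ω → Fin 4) (hf : ∀ i : Fin 4, Nat.card {x : Ω // f x = i} = 2) :
    ¬ IsCoatom ((Subgroup.closure {g : Equiv.Perm Ω | ∀ x y : Ω, f x = f y ↔ f (g x) = f (g y)} ⊓ alternatingGroup Ω).subgroupOf (alternatingGroup Ω)) := by
  let ι : Fin 4 ≃ ZMod 2 × ZMod 2 := Fintype.equivOfCardEq (by simp)
  have hfib : ∀ i, Nat.card {x : Ω // f x = i} = Nat.card (ZMod 2) := fun i => by
    rw [hf, Nat.card_zmod]
  let ef : ∀ i, {x : Ω // f x = i} ≃ ZMod 2 := fun i =>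
    Classical.choice ((Finite.card_eq).1 (hfib i))
  let e : Ω ≃ Pts := (Equiv.sigmaFiberEquiv f).symm.trans
    ((Equiv.sigmaCongrRight ef).trans ((Equiv.sigmaEquivProd (Fin 4) (ZMod 2)).trans
      (ι.prodCongr (Equiv.refl _))))
  have he : ∀ x, (e x).1 = ι (f x) := fun x => rfl
  let W : Subgroup (Equiv.Perm Ω) :=
    { carrier := {g | ∀ x y : Ω, f x = f y ↔ f (g x) = f (g y)}
      mul_mem' := fun {a b} ha hb x y => (hb x y).trans (ha _ _)
      one_mem' := fun x y => Iff.rfl
      inv_mem' := fun {a} ha x y => by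
        have := ha (a⁻¹ x) (a⁻¹ y)
        simpa using this.symm }
  let K : Subgroup (Equiv.Perm Ω) :=
    { carrier := {g | ∀ x y z : Pts, e.permCongr g (x + y + z) =
        e.permCongr g x + e.permCongr g y + e.permCongr g z}
      mul_mem' := fun {a b} ha hb x y z => by
        have h1 : ∀ u, e.permCongr (a * b) u = e.permCongr a (e.permCongr b u) := fun u => by simp
        simp only [h1]
        rw [hb x y z, ha]
      one_mem' := fun x y z => by simp
      inv_mem' := fun {a} ha x y z => by
        have h1 : ∀ u, e.permCongr a (e.permCongr a⁻¹ u) = u := fun u => by simp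
        apply (e.permCongr a).injective
        rw [h1, ha, h1, h1, h1] }
  intro hco
  set M := (Subgroup.closure {g : Equiv.Perm Ω | ∀ x y : Ω, f x = f y ↔ f (g x) = f (g y)} ⊓
    alternatingGroup Ω)
  have hMW : M ≤ W := inf_le_left.trans ((Subgroup.closure_le _).2 fun g hg => hg)
  have hMK : M ≤ K := by
    intro g hg
    show ∀ x y z : Pts, _
    refine even_affine _ (fun x y => ?_) ?_
    · have := hMW hg (e.symm x) (e.symm y)
      rw [← ι.injective.eq_iff, ← he, ← he, e.apply_symm_apply, e.apply_symm_apply,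
        ← ι.injective.eq_iff, ← he, ← he] at this
      exact this
    · rw [Equiv.Perm.sign_permCongr]
      exact Equiv.Perm.mem_alternatingGroup.1 hg.2
  have hlt : M.subgroupOf (alternatingGroup Ω) < K.subgroupOf (alternatingGroup Ω) := by
    refine lt_of_le_of_ne (Subgroup.comap_mono hMK) fun heq => ?_
    let g : Equiv.Perm Ω := e.symm.permCongr linWitness
    have hg : g ∈ alternatingGroup Ω := by
      rw [Equiv.Perm.mem_alternatingGroup]
      exact (Equiv.Perm.sign_permCongr _ _).trans sign_linWitness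
    have hgg : e.permCongr g = linWitness := by ext1 u; simp [g]
    have hgK : (⟨g, hg⟩ : alternatingGroup Ω) ∈ K.subgroupOf (alternatingGroup Ω) := by
      show ∀ x y z : Pts, _
      intro x y z
      show e.permCongr g (x + y + z) = e.permCongr g x + e.permCongr g y + e.permCongr g z
      rw [hgg]; rfl
    rw [← heq] at hgK
    have := hMW hgK (e.symm ((0, 0), 0)) (e.symm ((0, 0), 1))
    rw [← ι.injective.eq_iff, ← he, ← he, e.apply_symm_apply, e.apply_symm_apply,
      ← ι.injective.eq_iff, ← he, ← he] at this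
    have h2 : (e (g (e.symm ((0, 0), 0)))).1 = (e (g (e.symm ((0, 0), 1)))).1 := this.1 rfl
    simp [g, linWitness] at h2
  have htop := hco.2 _ hlt
  let w : Equiv.Perm Pts := Equiv.swap ((0, 0), 0) ((0, 0), 1) * Equiv.swap ((0, 0), 1) ((0, 1), 0)
  have hw : e.symm.permCongr w ∈ alternatingGroup Ω := by
    rw [Equiv.Perm.mem_alternatingGroup, Equiv.Perm.sign_permCongr, map_mul,
      Equiv.Perm.sign_swap (by decide), Equiv.Perm.sign_swap (by decide)]
    rfl
  have hwK : (⟨_, hw⟩ : alternatingGroup Ω) ∈ K.subgroupOf (alternatingGroup Ω) :=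
    htop ▸ Subgroup.mem_top _
  have hbad := hwK ((0, 0), 1) ((0, 1), 0) ((1, 0), 0)
  simp only [Subgroup.coe_subtype] at hbad
  rw [show e.permCongr (e.symm.permCongr w) = w from by ext1 u; simp] at hbad
  revert hbad
  decide

end Cfsg.Agent.S5910
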