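import Cfsg.Statements.S5911
import Cfsg.Agent.SymIndex.Six
import Cfsg.Agent.SymIndex.Small

set_option autoImplicit false
open Cfsg

namespace Cfsg.Agent.S5911

/-- Let Ω be a finite set whose size n is not 6. Then every subgroup of the symmetric group on Ω of index n is the stabilizer of a point. -/
theorem result {Ω : Type*} [Fintype Ω] [DecidableEq Ω] (h6 : Fintype.card Ω ≠ 6)
    (H : Subgroup (Equiv.Perm Ω)) (hH : H.index = Fintype.card Ω) :
    ∃ x : Ω, H = MulAction.stabilizer (Equiv.Perm Ω) x := by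
  classical
  have hpos : 0 < Fintype.card Ω := by
    rcases Nat.eq_zero_or_pos (Fintype.card Ω) with h | h
    · exact absurd (hH.trans h) Subgroup.index_ne_zero_of_finite
    · exact h
  suffices h : ∃ x : Ω, H ≤ MulAction.stabilizer (Equiv.Perm Ω) x by
    obtain ⟨x, hx⟩ := h
    exact ⟨x, SymIndex.eq_stabilizer_of_le hH hx⟩
  rcases le_or_gt 5 (Fintype.card Ω) with h5 | h5
  · obtain ⟨ψ, y, rfl⟩ := SymIndex.exists_mulEquiv_map_stabilizer h5 hH
    obtain ⟨x, hx⟩ := SymIndex.map_stabilizer_of_map_swap (by omega) ψ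
      (fun t ht => SymIndex.isSwap_map_of_cycleType_ne h5 h6 ψ ht) y
    exact ⟨x, hx.le⟩
  · have hord : Nat.card H * Fintype.card Ω = (Fintype.card Ω).factorial := by
      rw [← hH, H.card_mul_index, Nat.card_perm, Nat.card_eq_fintype_card, hH]
    rcases (show Fintype.card Ω ≤ 2 ∨ Fintype.card Ω = 3 ∨ Fintype.card Ω = 4 by omega) with h | h | h
    · have : Nonempty Ω := Fintype.card_pos_iff.1 hpos
      have hbot : H = ⊥ := Subgroup.eq_bot_of_card_eq H (by
        rcases (show Fintype.card Ω = 1 ∨ Fintype.card Ω = 2 by omega) with h' | h' <;>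
          rw [h'] at hord <;> norm_num [Nat.factorial] at hord ⊢ <;> omega)
      exact ⟨Classical.arbitrary Ω, hbot ▸ bot_le⟩
    · exact SymIndex.exists_fixed_three h (by rw [h, show Nat.factorial 3 = 6 from rfl] at hord; omega)
    · exact SymIndex.exists_fixed_four h (by rw [h, show Nat.factorial 4 = 24 from rfl] at hord; omega)

end Cfsg.Agent.S5911
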