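import Cfsg.Statements.S5912
import Cfsg.Agent.SymIndex.Six

set_option autoImplicit false
open Cfsg

namespace Cfsg.Agent.S5912

/-- The symmetric group on a 6-element set Ω has exactly two conjugacy classes of subgroups of index 6: there are two non-conjugate subgroups of index 6 (a point stabilizer and a transitive subgroup isomorphic to S₅), and every subgroup of index 6 is conjugate to one of them. -/
theorem result {Ω : Type*} [Fintype Ω] [DecidableEq Ω] (h6 : Fintype.card Ω = 6) :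
    ∃ H₁ H₂ : Subgroup (Equiv.Perm Ω), H₁.index = 6 ∧ H₂.index = 6 ∧
      (¬ ∃ g : Equiv.Perm Ω, Subgroup.map (MulAut.conj g).toMonoidHom H₁ = H₂) ∧
      ∀ H : Subgroup (Equiv.Perm Ω), H.index = 6 →
        ∃ g : Equiv.Perm Ω, Subgroup.map (MulAut.conj g).toMonoidHom H₁ = H ∨ Subgroup.map (MulAut.conj g).toMonoidHom H₂ = H := by
  classical
  obtain ⟨y⟩ : Nonempty Ω := Fintype.card_pos_iff.1 (by omega)
  obtain ⟨E, hE, hE'⟩ := SymIndex.exists_exotic h6
  refine ⟨MulAction.stabilizer (Equiv.Perm Ω) y, E, ?_, hE, ?_, ?_⟩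
  · rw [MulAction.index_stabilizer_of_transitive (Equiv.Perm Ω) y, Nat.card_eq_fintype_card, h6]
  · rintro ⟨g, hg⟩
    rw [SymIndex.map_conj_stabilizer] at hg
    exact hE' _ hg.symm
  · intro H hH
    by_cases hx : ∃ x : Ω, H = MulAction.stabilizer (Equiv.Perm Ω) x
    · obtain ⟨x, rfl⟩ := hx
      refine ⟨Equiv.swap y x, Or.inl ?_⟩
      rw [SymIndex.map_conj_stabilizer, Equiv.swap_apply_left]
    · push Not at hx
      obtain ⟨ψ, a, b, ha, hb⟩ := SymIndex.exotic_conj h6 hE hH hE' hx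
      obtain ⟨g, hg⟩ := SymIndex.exists_conj_map_stabilizer ψ a b
      exact ⟨g, Or.inr (by rw [ha, hb]; exact hg)⟩

end Cfsg.Agent.S5912
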