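import Cfsg.Statements.S5913


set_option autoImplicit false
open Cfsg

namespace Cfsg.Agent.S5913

/-- Let S be a non-abelian simple group and n a natural number. Every normal subgroup N of the direct power S^n (functions Fin n → S) is a subproduct: there is a set T of coordinates such that N consists exactly of the elements whose coordinates outside T are trivial. In particular the minimal normal subgroups of S^n are its n factors. -/
theorem result {S : Type*} [Group S] [IsSimpleGroup S] (hS : ¬ IsMulCommutative S) (n : ℕ)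
    (N : Subgroup (Fin n → S)) [N.Normal] :
    ∃ T : Finset (Fin n), ∀ x : Fin n → S, x ∈ N ↔ ∀ i, i ∉ T → x i = 1 := by
  classical
  have key : ∀ (x : Fin n → S) (i : Fin n), x ∈ N → x i ≠ 1 → ∀ s : S, Pi.mulSingle i s ∈ N := by
    intro x i hx hxi
    have hne : ∃ s, s * x i * s⁻¹ * (x i)⁻¹ ≠ 1 := by
      by_contra h
      push Not at h
      have hc : x i ∈ Subgroup.center S := Subgroup.mem_center_iff.2 fun s => by
        have := h s
        rwa [mul_inv_eq_one, mul_inv_eq_iff_eq_mul] at this
      rcases (inferInstance : (Subgroup.center S).Normal).eq_bot_or_eq_top with hb | ht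
      · rw [hb] at hc; exact hxi hc
      · exact hS ⟨⟨fun a b => (Subgroup.mem_center_iff.1 (ht ▸ Subgroup.mem_top b) a)⟩⟩
    obtain ⟨s, hs⟩ := hne
    let M : Subgroup S := N.comap (MonoidHom.mulSingle (fun _ : Fin n => S) i)
    have hM : M.Normal := Subgroup.normal_comap _
    have hmem : s * x i * s⁻¹ * (x i)⁻¹ ∈ M := by
      have h2 := N.mul_mem (Subgroup.Normal.conj_mem ‹_› x hx (Pi.mulSingle i s)) (N.inv_mem hx)
      show Pi.mulSingle i (s * x i * s⁻¹ * (x i)⁻¹) ∈ N
      convert h2 using 1
      funext j
      by_cases hj : j = i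
      · subst hj; simp
      · simp [hj]
    rcases hM.eq_bot_or_eq_top with hb | ht
    · rw [hb] at hmem; exact absurd hmem hs
    · intro u
      have : u ∈ M := ht ▸ Subgroup.mem_top u
      exact this
  refine ⟨Finset.univ.filter fun i => ∃ x ∈ N, x i ≠ 1, fun x => ⟨fun hx i hi => ?_, fun hx => ?_⟩⟩
  · by_contra h
    exact hi (Finset.mem_filter.2 ⟨Finset.mem_univ _, x, hx, h⟩)
  · refine Subgroup.pi_mem_of_mulSingle_mem x fun i => ?_
    by_cases hi : x i = 1
    · simp [hi]
    · have : i ∈ Finset.univ.filter fun i => ∃ x ∈ N, x i ≠ 1 := by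
        by_contra h
        exact hi (hx i h)
      obtain ⟨y, hy, hyi⟩ := (Finset.mem_filter.1 this).2
      exact key y i hy hyi _

end Cfsg.Agent.S5913
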