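import Cfsg.Statements.S5914
import Cfsg.Agent.S5913

set_option autoImplicit false
open Cfsg

namespace Cfsg.Agent.S5914

section aux

variable {G : Type*} [Group G]

theorem extend_step {N : Type*} [Group N] {k : ℕ} (f : (Fin k → N) →* G) (hf : Function.Injective f)
    (hfn : f.range.Normal) (g : N →* G) (hg : Function.Injective g) (hgn : g.range.Normal)
    (hd : Disjoint g.range f.range) :
    ∃ f' : (Fin (k + 1) → N) →* G, Function.Injective f' ∧ f'.range.Normal ∧
      f.range ≤ f'.range ∧ g.range ≤ f'.range := by
  have comm : ∀ a b, Commute (g a) (f b) := fun a b =>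
    Subgroup.commute_of_normal_of_disjoint _ _ hgn hfn hd _ _ ⟨a, rfl⟩ ⟨b, rfl⟩
  let e : (Fin (k + 1) → N) ≃* N × (Fin k → N) :=
    { toFun := fun x => (x 0, fun i => x i.succ)
      invFun := fun p => Fin.cons p.1 p.2
      left_inv := fun x => by
        funext i
        refine Fin.cases ?_ ?_ i <;> simp
      right_inv := fun p => by simp
      map_mul' := fun x y => rfl }
  refine ⟨(g.noncommCoprod f comm).comp e.toMonoidHom, ?_, ?_, ?_, ?_⟩
  · exact ((MonoidHom.noncommCoprod_injective g f comm).2 ⟨hg, hf, hd⟩).comp e.injective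
  all_goals
    rw [MonoidHom.range_comp, show e.toMonoidHom.range = ⊤ from MonoidHom.range_eq_top.2 e.surjective, ← MonoidHom.range_eq_map,
      MonoidHom.noncommCoprod_range]
  · exact Subgroup.sup_normal _ _
  · exact le_sup_right
  · exact le_sup_left

/-- A characteristically simple finite group is a power of any of its minimal normal subgroups. -/
theorem exists_power_iso [Finite G] (hG : ∀ H : Subgroup G, H.Characteristic → H = ⊥ ∨ H = ⊤)
    (N : Subgroup G) (hN : N.Normal) (hne : N ≠ ⊥)
    (hmin : ∀ M : Subgroup G, M.Normal → M ≠ ⊥ → Nat.card N ≤ Nat.card M) :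
    ∃ k, Nonempty ((Fin k → N) ≃* G) := by
  let C : Subgroup G := ⨆ θ : MulAut G, N.map θ.toMonoidHom
  have hC : C.Characteristic := Subgroup.characteristic_iff_map_le.2 fun θ => by
    rw [Subgroup.map_iSup]
    refine iSup_le fun τ => ?_
    rw [Subgroup.map_map]
    exact le_iSup_of_le (τ.trans θ) le_rfl
  have hCN : N ≤ C := le_iSup_of_le (MulEquiv.refl G) (by simp)
  have hCtop : C = ⊤ := (hG C hC).resolve_left fun h => hne (le_bot_iff.1 (h ▸ hCN))
  have hbig : ∀ m : ℕ, ∀ (k : ℕ) (f : (Fin k → N) →* G), Function.Injective f → f.range.Normal →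
      Nat.card G - Nat.card f.range ≤ m → ∃ k, Nonempty ((Fin k → N) ≃* G) := by
    intro m
    induction m using Nat.strong_induction_on with
    | _ m ih =>
      intro k f hf hfn hm
      by_cases htop : f.range = ⊤
      · exact ⟨k, ⟨(MonoidHom.ofInjective hf).trans
          ((MulEquiv.subgroupCongr htop).trans Subgroup.topEquiv)⟩⟩
      · obtain ⟨θ, hθ⟩ : ∃ θ : MulAut G, ¬ N.map θ.toMonoidHom ≤ f.range := by
          by_contra! h
          exact htop (top_unique (hCtop ▸ iSup_le h))
        let g : N →* G := θ.toMonoidHom.comp N.subtype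
        have hgr : g.range = N.map θ.toMonoidHom := by
          rw [MonoidHom.range_comp, Subgroup.range_subtype]
        have hgn : g.range.Normal := hgr ▸ hN.map θ.toMonoidHom θ.surjective
        have hg : Function.Injective g := θ.injective.comp Subtype.val_injective
        have hcard : Nat.card g.range = Nat.card N :=
          (Nat.card_congr (MonoidHom.ofInjective hg).toEquiv).symm
        have hd : Disjoint g.range f.range := by
          rw [disjoint_iff]
          by_contra hb
          have := hmin _ inferInstance hb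
          exact hθ (hgr ▸ inf_eq_left.1 (Subgroup.eq_of_le_of_card_ge inf_le_left (hcard ▸ this)))
        obtain ⟨f', hf', hfn', hle, hle'⟩ := extend_step f hf hfn g hg hgn hd
        have hlt : Nat.card f.range < Nat.card f'.range :=
          lt_of_le_of_ne (Subgroup.card_le_of_le hle) fun h => hθ (by
            rw [← hgr, Subgroup.eq_of_le_of_card_ge hle h.ge]; exact hle')
        have := Subgroup.card_le_card_group f'.range
        exact ih (Nat.card G - Nat.card f'.range) (by omega) (k + 1) f' hf' hfn' le_rfl
  refine hbig _ 0 (1 : (Fin 0 → N) →* G) (Function.injective_of_subsingleton _) ?_ le_rfl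
  rw [show (1 : (Fin 0 → N) →* G).range = ⊥ from MonoidHom.range_eq_bot_iff.2 rfl]
  infer_instance

theorem power_simple_char {S : Type*} [Group S] [IsSimpleGroup S] {n : ℕ}
    (H : Subgroup (Fin n → S)) (hH : H.Characteristic) : H = ⊥ ∨ H = ⊤ := by
  classical
  by_cases hb : H = ⊥
  · exact Or.inl hb
  refine Or.inr (eq_top_iff.2 fun y _ => Subgroup.pi_mem_of_mulSingle_mem y fun i => ?_)
  obtain ⟨x, hx, hx1⟩ : ∃ x ∈ H, x ≠ 1 := by
    by_contra! h
    exact hb ((Subgroup.eq_bot_iff_forall _).2 h)
  obtain ⟨j, hj⟩ : ∃ j, x j ≠ 1 := by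
    by_contra! h
    exact hx1 (funext h)
  have hHn : H.Normal := Subgroup.normal_of_characteristic H
  by_cases hc : IsMulCommutative S
  · have hcomm : ∀ a b : S, a * b = b * a := hc.is_comm.comm
    -- from a non-trivial coordinate, a shear puts a whole different factor into `H`
    have shear : ∀ (x : Fin n → S) (a b : Fin n), x ∈ H → x a ≠ 1 → b ≠ a →
        ∀ s : S, Pi.mulSingle b s ∈ H := by
      intro x a b hx hxa hba
      let θ : (Fin n → S) ≃* (Fin n → S) :=
        { toFun := fun y => y * Pi.mulSingle b (y a)
          invFun := fun y => y * Pi.mulSingle b (y a)⁻¹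
          left_inv := fun y => by simp [Ne.symm hba, Pi.mulSingle_inv]
          right_inv := fun y => by simp [Ne.symm hba, Pi.mulSingle_inv]
          map_mul' := fun y z => by
            funext i
            by_cases hi : i = b
            · subst hi
              simp only [Pi.mul_apply, Pi.mulSingle_eq_same]
              rw [mul_assoc, mul_assoc, ← mul_assoc (z i), hcomm (z i) (y a), mul_assoc (y a)]
            · simp [hi] }
      have hθ : θ x ∈ H := (Subgroup.characteristic_iff_map_le.1 hH θ) ⟨x, hx, rfl⟩
      have hm : Pi.mulSingle b (x a) ∈ H := by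
        have h2 := H.mul_mem (H.inv_mem hx) hθ
        rwa [show θ x = x * Pi.mulSingle b (x a) from rfl, inv_mul_cancel_left] at h2
      intro s
      have hK : (H.comap (MonoidHom.mulSingle (fun _ : Fin n => S) b)).Normal :=
        Subgroup.normal_comap _
      rcases hK.eq_bot_or_eq_top with h | h
      · have hm' : x a ∈ H.comap (MonoidHom.mulSingle (fun _ : Fin n => S) b) := hm
        rw [h] at hm'
        exact absurd hm' hxa
      · have : s ∈ H.comap (MonoidHom.mulSingle (fun _ : Fin n => S) b) := h ▸ Subgroup.mem_top s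
        exact this
    by_cases hij : i = j
    · subst hij
      by_cases hu : ∃ b : Fin n, b ≠ i
      · obtain ⟨b, hb⟩ := hu
        refine shear (Pi.mulSingle b (x i)) b i (shear x i b hx hj hb _) ?_ hb.symm _
        simpa using hj
      · push Not at hu
        have hK : (H.comap (MonoidHom.mulSingle (fun _ : Fin n => S) i)).Normal :=
          Subgroup.normal_comap _
        have hxe : x = Pi.mulSingle i (x i) := funext fun b => by rw [hu b]; simp
        rcases hK.eq_bot_or_eq_top with h | h
        · have hm : x i ∈ H.comap (MonoidHom.mulSingle (fun _ : Fin n => S) i) := by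
            show Pi.mulSingle i (x i) ∈ H
            exact hxe ▸ hx
          rw [h] at hm
          exact absurd hm hj
        · have : y i ∈ H.comap (MonoidHom.mulSingle (fun _ : Fin n => S) i) := h ▸ Subgroup.mem_top _
          exact this
    · exact shear x j i hx hj hij _
  · obtain ⟨T, hT⟩ := Cfsg.Agent.S5913.result hc n H
    have hjT : j ∈ T := by
      by_contra h
      exact hj ((hT x).1 hx j h)
    let θ : (Fin n → S) ≃* (Fin n → S) :=
      { toFun := fun y => y ∘ Equiv.swap i j
        invFun := fun y => y ∘ Equiv.swap i j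
        left_inv := fun y => by funext k; simp
        right_inv := fun y => by funext k; simp
        map_mul' := fun _ _ => rfl }
    have h1 : (Pi.mulSingle j (y i) : Fin n → S) ∈ H := (hT _).2 fun k hk => by
      have hkj : k ≠ j := fun h => hk (by rw [h]; exact hjT)
      simp [hkj]
    have h2 : θ (Pi.mulSingle j (y i)) ∈ H :=
      (Subgroup.characteristic_iff_map_le.1 hH θ) ⟨_, h1, rfl⟩
    convert h2 using 1
    funext k
    show (Pi.mulSingle i (y i) : Fin n → S) k = (Pi.mulSingle j (y i) : Fin n → S) (Equiv.swap i j k)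
    by_cases hk : k = i
    · subst hk; simp
    · rw [Pi.mulSingle_eq_of_ne hk, Pi.mulSingle_eq_of_ne]
      intro h
      exact hk ((Equiv.swap i j).injective (h.trans (Equiv.swap_apply_left i j).symm))

end aux

/-- A non-trivial finite group G is characteristically simple (its only characteristic subgroups are 1 and G) if and only if G is isomorphic to a direct power S^n (n ≥ 1) of some simple group S (possibly cyclic of prime order). -/
theorem result {G : Type*} [Group G] [Finite G] [Nontrivial G] :
    (∀ H : Subgroup G, H.Characteristic → H = ⊥ ∨ H = ⊤) ↔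
    ∃ (S : Type) (_ : Group S) (_ : IsSimpleGroup S) (n : ℕ), 1 ≤ n ∧ Nonempty (G ≃* (Fin n → S)) := by
  constructor
  · intro hG
    have hex : ∃ c, ∃ M : Subgroup G, M.Normal ∧ M ≠ ⊥ ∧ Nat.card M = c :=
      ⟨_, ⊤, inferInstance, top_ne_bot, rfl⟩
    classical
    obtain ⟨N, hN, hne, hcard⟩ := Nat.find_spec hex
    have hmin : ∀ M : Subgroup G, M.Normal → M ≠ ⊥ → Nat.card N ≤ Nat.card M := fun M hM hMb =>
      hcard ▸ Nat.find_min' hex ⟨M, hM, hMb, rfl⟩
    obtain ⟨k, ⟨e⟩⟩ := exists_power_iso hG N hN hne hmin
    have hk : 1 ≤ k := by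
      rcases Nat.eq_zero_or_pos k with rfl | hk
      · exact absurd e.symm.injective.subsingleton (not_subsingleton G)
      · exact hk
    have hNnt : Nontrivial N := (Subgroup.nontrivial_iff_ne_bot N).2 hne
    have hs : IsSimpleGroup N := by
      refine ⟨fun M hM => ?_⟩
      let i0 : Fin k := ⟨0, hk⟩
      let ι : N →* G := e.toMonoidHom.comp (MonoidHom.mulSingle (fun _ : Fin k => N) i0)
      have hinj : Function.Injective ι := e.injective.comp (Pi.mulSingle_injective (M := fun _ : Fin k => N) i0)
      have hn' : (M.map (MonoidHom.mulSingle (fun _ : Fin k => N) i0)).Normal := by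
        refine ⟨?_⟩
        rintro _ ⟨a, ha, rfl⟩ g
        refine ⟨g i0 * a * (g i0)⁻¹, hM.conj_mem a ha _, ?_⟩
        funext b
        by_cases hb : b = i0
        · subst hb; simp
        · simp [hb]
      have hn : (M.map ι).Normal := by
        rw [show M.map ι = (M.map (MonoidHom.mulSingle (fun _ : Fin k => N) i0)).map e.toMonoidHom
          from (Subgroup.map_map _ _ _).symm]
        exact hn'.map _ e.surjective
      by_cases hb : M = ⊥
      · exact Or.inl hb
      · refine Or.inr (Subgroup.eq_top_of_le_card M ?_)
        have := hmin _ hn (fun h => hb ((Subgroup.map_eq_bot_iff_of_injective M hinj).1 h))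
        rwa [Subgroup.card_map_of_injective hinj] at this
    let eN : Shrink.{0} N ≃* N := Shrink.mulEquiv
    have hs' : IsSimpleGroup (Shrink.{0} N) := eN.isSimpleGroup
    exact ⟨Shrink.{0} N, inferInstance, hs', k, hk,
      ⟨e.symm.trans (MulEquiv.piCongrRight fun _ => eN.symm)⟩⟩
  · rintro ⟨S, _, _, n, -, ⟨e⟩⟩ H hH
    have hchar : (H.map e.toMonoidHom).Characteristic := by
      refine Subgroup.characteristic_iff_map_le.2 fun θ => ?_
      rintro _ ⟨_, ⟨h, hh, rfl⟩, rfl⟩
      refine ⟨(e.trans (θ.trans e.symm)) h,
        (Subgroup.characteristic_iff_map_le.1 hH _) ⟨h, hh, rfl⟩, ?_⟩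
      simp
    rcases power_simple_char _ hchar with h | h
    · exact Or.inl ((Subgroup.map_eq_bot_iff_of_injective H e.injective).1 h)
    · refine Or.inr (eq_top_iff.2 fun g _ => ?_)
      obtain ⟨g', hg', he⟩ : e g ∈ H.map e.toMonoidHom := h ▸ Subgroup.mem_top _
      exact e.injective he ▸ hg' 

end Cfsg.Agent.S5914
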