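import Cfsg.Statements.S5939
import Cfsg.Agent.MaxSubTwo.Coatom
import Cfsg.Agent.S0804

set_option autoImplicit false
open Cfsg

namespace Cfsg.Agent.S5939

/-- A field of cardinality `p` has no proper subfield. -/
theorem subfield_full {F : Type*} [Field F] [Fintype F] {p : ℕ} (hp : p.Prime) (hF : Fintype.card F = p)
    (F₀ : Subfield F) : Nat.card F₀ = p := by
  have he : Fintype.card F = Nat.card F₀ ^ Module.finrank F₀ F := by
    rw [← Nat.card_eq_fintype_card]; exact Module.natCard_eq_pow_finrank (K := F₀) (V := F)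
  rw [hF] at he
  exact ((Nat.Prime.pow_eq_iff hp).1 he.symm).1

/-- Let p be a prime and F a finite field of characteristic p such that either F has p elements and p ≡ ±1 (mod 10), or F has p² elements and p ≡ ±3 (mod 10). Then PSL_2(F) has a maximal subgroup isomorphic to the alternating group A_5. -/
theorem result {F : Type*} [Field F] [Fintype F] (p : ℕ) [Fact p.Prime] [CharP F p] (h : (Fintype.card F = p ∧ (p % 10 = 1 ∨ p % 10 = 9)) ∨ (Fintype.card F = p ^ 2 ∧ (p % 10 = 3 ∨ p % 10 = 7))) : ∃ H : Subgroup (Matrix.ProjectiveSpecialLinearGroup (Fin 2) F), IsCoatom H ∧ Nonempty (H ≃* alternatingGroup (Fin 5)) := by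
  classical
  have hp := (Fact.out : p.Prime)
  have hcases : (Fintype.card F = p ∧ 11 ≤ p) ∨ (Fintype.card F = p ^ 2 ∧ 3 ≤ p) := by
    rcases h with ⟨h1, h2⟩ | ⟨h1, h2⟩
    · refine Or.inl ⟨h1, ?_⟩
      have := hp.two_le
      by_contra hlt
      interval_cases p <;> first | omega | exact absurd hp (by norm_num)
    · exact Or.inr ⟨h1, by have := hp.two_le; omega⟩
  have hq9 : 9 ≤ Fintype.card F := by
    rcases hcases with ⟨h1, h2⟩ | ⟨h1, h2⟩
    · omega
    · rw [h1]; exact Nat.pow_le_pow_left h2 2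
  have hodd : Odd (Fintype.card F) := by
    rcases h with ⟨h1, h2⟩ | ⟨h1, h2⟩
    · rw [h1, Nat.odd_iff]; omega
    · rw [h1]; exact Odd.pow (Nat.odd_iff.2 (by omega))
  obtain ⟨H, ⟨e⟩⟩ := (S0804.result (F := F) rfl).2 (Dvd.dvd.mul_left (Nat.dvd_of_mod_eq_zero (by
    rcases h with ⟨h1, h2⟩ | ⟨h1, h2⟩
    · have hmod : p ^ 2 % 5 = 1 := by
        rw [Nat.pow_mod]; rcases (show p % 5 = 1 ∨ p % 5 = 4 by omega) with h | h <;> rw [h]
      rw [h1]; omega
    · have hmod : (p ^ 2) ^ 2 % 5 = 1 := by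
        rw [← pow_mul, Nat.pow_mod]; rcases (show p % 5 = 3 ∨ p % 5 = 2 by omega) with h | h <;> rw [h]
      rw [h1]; omega)) _)
  have hG := Linear.card_PSL_two_of_odd (F := F) hodd
  have hH : Nat.card H = 60 := by
    rw [Nat.card_congr e.toEquiv, nat_card_alternatingGroup, Nat.card_fin]; rfl
  refine ⟨H, MaxSubTwo.isCoatom_of_card H ?_ fun M hM hMlt => ?_, ⟨e⟩⟩
  · have h1 : 9 * 8 * 10 ≤ Fintype.card F * (Fintype.card F - 1) * (Fintype.card F + 1) :=
      Nat.mul_le_mul (Nat.mul_le_mul hq9 (by omega)) (by omega)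
    omega
  cases MaxSubTwo.exists_over p M with
  | tame ht =>
    exact absurd ((ht.of_injective (Subgroup.inclusion hM) (Subgroup.inclusion_injective hM)).of_injective
      e.symm.toMonoidHom e.symm.injective) (MaxSubTwo.not_tame_of_witness (by rcases hcases with h | h <;> omega) hp
        (a := ⟨Equiv.swap 0 1 * Equiv.swap 1 2, by simp [Equiv.Perm.mem_alternatingGroup]⟩)
        (b := ⟨Equiv.swap 1 2 * Equiv.swap 2 3, by simp [Equiv.Perm.mem_alternatingGroup]⟩)
        (c := ⟨Equiv.swap 0 1 * Equiv.swap 1 2, by simp [Equiv.Perm.mem_alternatingGroup]⟩)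
        (d := ⟨Equiv.swap 1 2 * Equiv.swap 2 3, by simp [Equiv.Perm.mem_alternatingGroup]⟩)
        (by decide +kernel) (by decide +kernel) (by decide +kernel) (by decide +kernel) (by decide +kernel))
  | small hp' hs =>
    rcases hs with h' | ⟨h', -⟩ | ⟨h', -⟩ <;> omega
  | field F₀ h4 hs =>
    exfalso
    have : Fintype F₀ := Fintype.ofFinite _
    have hd : 60 ∣ Nat.card M := hH ▸ Subgroup.card_dvd_of_le hM
    have he : Fintype.card F = Nat.card F₀ ^ Module.finrank F₀ F := by
      rw [← Nat.card_eq_fintype_card]; exact Module.natCard_eq_pow_finrank (K := F₀) (V := F)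
    have hsub : Nat.card F₀ = Fintype.card F ∨ (Nat.card F₀ = p ∧ Fintype.card F = p ^ 2) := by
      rcases hcases with ⟨h1, -⟩ | ⟨h1, -⟩
      · exact Or.inl (h1 ▸ subfield_full hp h1 F₀)
      · rw [h1] at he ⊢
        obtain ⟨a, ha, hcard⟩ := (Nat.dvd_prime_pow hp).1 (show Nat.card F₀ ∣ p ^ 2 from
          he ▸ dvd_pow_self _ (Module.finrank_pos (R := F₀) (M := F)).ne')
        interval_cases a
        · rw [pow_zero] at hcard; omega
        · exact Or.inr ⟨by rw [hcard, pow_one], rfl⟩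
        · exact Or.inl hcard
    rw [Nat.card_eq_fintype_card] at hsub
    rcases hsub with h0 | ⟨h0, h00⟩
    · rcases hs with ⟨⟨f⟩⟩ | ⟨hodd', ⟨f⟩⟩
      · rw [Nat.card_congr f.toEquiv, MaxSubTwo.card_pgl, h0] at hMlt
        omega
      · have := Linear.card_PSL_two_of_odd (F := F₀) (by rwa [← Nat.card_eq_fintype_card])
        rw [Nat.card_congr f.toEquiv] at hMlt
        rw [h0] at this
        omega
    · have hp' : p % 10 = 3 ∨ p % 10 = 7 := by
        rcases h with ⟨h1, -⟩ | ⟨-, h2⟩
        · rw [h1] at h00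
          have : p * 2 ≤ p ^ 2 := by rw [pow_two]; exact Nat.mul_le_mul_left _ hp.two_le
          have := hp.pos
          omega
        · exact h2
      have h5 : 5 ∣ 2 * (p * (p - 1) * (p + 1)) := by
        rcases hs with ⟨⟨f⟩⟩ | ⟨hodd', ⟨f⟩⟩
        · rw [Nat.card_congr f.toEquiv, MaxSubTwo.card_pgl, h0] at hd
          exact Dvd.dvd.mul_left ((by norm_num : 5 ∣ 60).trans hd) 2
        · have := Linear.card_PSL_two_of_odd (F := F₀) (by rwa [← Nat.card_eq_fintype_card])
          rw [h0] at this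
          rw [Nat.card_congr f.toEquiv] at hd
          rw [← this]
          exact Dvd.dvd.mul_left (Dvd.dvd.mul_left ((by norm_num : 5 ∣ 60).trans hd) 2) 2
      rcases (Nat.Prime.dvd_mul Nat.prime_five).1 h5 with h' | h'
      · omega
      rcases (Nat.Prime.dvd_mul Nat.prime_five).1 h' with h' | h'
      · rcases (Nat.Prime.dvd_mul Nat.prime_five).1 h' with h' | h' <;> omega
      · omega

end Cfsg.Agent.S5939
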