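import Cfsg.Statements.S5940
import Cfsg.Agent.MaxSubTwo.Coatom
import Cfsg.Agent.S0802
import Cfsg.Agent.S0803
import Cfsg.Agent.S0804

set_option autoImplicit false
open Cfsg

namespace Cfsg.Agent.S5940

/-- A field of cardinality `p` has no proper subfield. -/
theorem subfield_full {F : Type*} [Field F] [Fintype F] {p : ℕ} (hp : p.Prime) (hF : Fintype.card F = p)
    (F₀ : Subfield F) : Nat.card F₀ = p := by
  have he : Fintype.card F = Nat.card F₀ ^ Module.finrank F₀ F := by
    rw [← Nat.card_eq_fintype_card]; exact Module.natCard_eq_pow_finrank (K := F₀) (V := F)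
  rw [hF] at he
  exact ((Nat.Prime.pow_eq_iff hp).1 he.symm).1

/-- Let p ≥ 5 be a prime with p ≡ ±3 (mod 8) and p ≢ ±1 (mod 10), and F a field with p elements. Then PSL_2(F) has a maximal subgroup isomorphic to the alternating group A_4. -/
theorem result {F : Type*} [Field F] [Fintype F] (p : ℕ) [Fact p.Prime] (hF : Fintype.card F = p) (h5 : 5 ≤ p) (h8 : p % 8 = 3 ∨ p % 8 = 5) (h10 : p % 10 ≠ 1 ∧ p % 10 ≠ 9) : ∃ H : Subgroup (Matrix.ProjectiveSpecialLinearGroup (Fin 2) F), IsCoatom H ∧ Nonempty (H ≃* alternatingGroup (Fin 4)) := by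
  classical
  subst hF
  have hodd : Odd (Fintype.card F) := by rw [Nat.odd_iff]; omega
  have : CharP F (Fintype.card F) := charP_of_card_eq_prime rfl
  obtain ⟨H, ⟨e⟩⟩ := (S0802.result (F := F) (Fintype.card F) 1 (by rw [pow_one])).2 (fun h => by omega)
  have hG := Linear.card_PSL_two_of_odd (F := F) hodd
  have hH : Nat.card H = 12 := by
    rw [Nat.card_congr e.toEquiv, nat_card_alternatingGroup, Nat.card_fin]; rfl
  refine ⟨H, MaxSubTwo.isCoatom_of_card H ?_ fun M hM hMlt => ?_, ⟨e⟩⟩
  · have h1 : 5 * 4 * 6 ≤ Fintype.card F * (Fintype.card F - 1) * (Fintype.card F + 1) :=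
      Nat.mul_le_mul (Nat.mul_le_mul h5 (by omega)) (by omega)
    omega
  cases MaxSubTwo.exists_over (Fintype.card F) M with
  | tame h =>
    exact absurd h (MaxSubTwo.not_tame_of_alt_four (by omega) Fact.out
      ((Subgroup.inclusion hM).comp e.symm.toMonoidHom) ((Subgroup.inclusion_injective hM).comp e.symm.injective))
  | small hp h =>
    rcases h with h | ⟨-, hiso⟩ | ⟨h, hiso⟩
    · omega
    · exfalso
      have h16 := (S0803.result (F := F) rfl).1 ⟨M, hiso⟩
      rw [Nat.pow_mod] at h16
      rcases (show Fintype.card F % 16 = 3 ∨ Fintype.card F % 16 = 5 ∨ Fintype.card F % 16 = 11 ∨ Fintype.card F % 16 = 13 by omega) with h | h | h | h <;> rw [h] at h16 <;> norm_num at h16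
    · exfalso
      have h60 := (S0804.result (F := F) rfl).1 ⟨M, hiso⟩
      rcases (Nat.Prime.dvd_mul Nat.prime_five).1 h60 with h' | h'
      · have := ((Nat.prime_dvd_prime_iff_eq Nat.prime_five Fact.out).1 h')
        rw [← this] at hG
        omega
      · have hm : Fintype.card F % 5 = 2 ∨ Fintype.card F % 5 = 3 ∨ Fintype.card F % 5 = 0 := by omega
        rcases hm with h | h | h
        · have : Fintype.card F ^ 2 % 5 = 4 := by rw [Nat.pow_mod, h]
          omega
        · have : Fintype.card F ^ 2 % 5 = 4 := by rw [Nat.pow_mod, h]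
          omega
        · have := ((Nat.prime_dvd_prime_iff_eq Nat.prime_five Fact.out).1 (Nat.dvd_of_mod_eq_zero h))
          rw [← this] at hG
          omega
  | field F₀ h4 h =>
    have : Fintype F₀ := Fintype.ofFinite _
    have h0 : Fintype.card F₀ = Fintype.card F := by
      rw [← Nat.card_eq_fintype_card]; exact subfield_full Fact.out rfl F₀
    rcases h with ⟨⟨f⟩⟩ | ⟨hodd', ⟨f⟩⟩
    · rw [Nat.card_congr f.toEquiv, MaxSubTwo.card_pgl, h0] at hMlt
      omega
    · have := Linear.card_PSL_two_of_odd (F := F₀) (by rwa [← Nat.card_eq_fintype_card])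
      rw [Nat.card_congr f.toEquiv] at hMlt
      rw [h0] at this
      omega

end Cfsg.Agent.S5940
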