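import Cfsg.Statements.S5947


set_option autoImplicit false
open Cfsg

namespace Cfsg.Agent.S5947

universe u v

theorem units_count_aux (Q : ℕ) (hQ : 2 ≤ Q) : ∀ (c : ℕ) (A : Type u) [CommRing A] [Finite A]
    (M : Type v) [AddCommGroup M] [Finite M] [Module A M], Nat.card M = c → Nontrivial M →
    (∀ a : A, (∀ m : M, a • m = 0) → a = 0) → (∀ a : A, a ^ Q = a) →
    Nat.card Aˣ ≤ c - 1 ∧ (Nat.card Aˣ = c - 1 → IsField A) := by
  intro c
  induction c using Nat.strong_induction_on with
  | _ c ih =>
    intro A _ _ M _ _ _ hc hMn hf hp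
    classical
    have hA01 : (0 : A) ≠ 1 := fun h => by
      obtain ⟨x, hx⟩ := exists_ne (0 : M)
      apply hx
      rw [← one_smul A x, ← h, zero_smul]
    by_cases hF : ∀ a : A, a ≠ 0 → IsUnit a
    · have hfield : IsField A := ⟨⟨0, 1, hA01⟩, mul_comm, fun {a} ha => (hF a ha).exists_right_inv⟩
      refine ⟨?_, fun _ => hfield⟩
      obtain ⟨x, hx⟩ := exists_ne (0 : M)
      have hi : Function.Injective fun a : A => a • x := by
        intro a b hab
        by_contra hne
        obtain ⟨u, hu⟩ := (hF _ (sub_ne_zero.2 hne)).exists_left_inv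
        apply hx
        have hab' : a • x = b • x := hab
        rw [← one_smul A x, ← hu, mul_smul, sub_smul, hab', sub_self, smul_zero]
      have : Nontrivial A := ⟨⟨0, 1, hA01⟩⟩
      let j : Aˣ → {m : M // m ≠ 0} := fun w => ⟨(w : A) • x, fun h =>
        w.ne_zero (hi (h.trans (zero_smul A x).symm))⟩
      have hj : Function.Injective j := fun w w' h => Units.ext (hi (congrArg Subtype.val h))
      have hle := Nat.card_le_card_of_injective j hj
      have : Fintype M := Fintype.ofFinite M
      rw [Nat.card_eq_fintype_card (α := {m : M // m ≠ 0})] at hle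
      rw [← hc, Nat.card_eq_fintype_card (α := M)]
      simpa [Fintype.card_subtype_compl] using hle
    · push Not at hF
      obtain ⟨a, ha, hau⟩ := hF
      obtain ⟨e, he, he0, he1⟩ : ∃ e : A, e * e = e ∧ e ≠ 0 ∧ e ≠ 1 := by
        refine ⟨a ^ (Q - 1), ?_, ?_, ?_⟩
        · rw [← pow_add, show Q - 1 + (Q - 1) = Q + (Q - 2) by omega, pow_add, hp, ← pow_succ',
            show Q - 2 + 1 = Q - 1 by omega]
        · intro h
          apply ha
          rw [← hp a, show Q = Q - 1 + 1 by omega, pow_succ, h, zero_mul]
        · intro h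
          refine hau (isUnit_iff_exists_inv.2 ⟨a ^ (Q - 2), ?_⟩)
          rw [← pow_succ', show Q - 2 + 1 = Q - 1 by omega, h]
      let M1 : Submodule A M := LinearMap.range (LinearMap.lsmul A M e)
      let M2 : Submodule A M := LinearMap.range (LinearMap.lsmul A M (1 - e))
      have fix1 : ∀ m ∈ M1, e • m = m := by
        rintro _ ⟨m, rfl⟩
        show e • e • m = e • m
        rw [smul_smul, he]
      have fix2 : ∀ m ∈ M2, e • m = 0 := by
        rintro _ ⟨m, rfl⟩
        show e • (1 - e) • m = 0
        rw [smul_smul, mul_sub, mul_one, he, sub_self, zero_smul]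
      let split : M ≃ M1 × M2 :=
        { toFun := fun m => (⟨e • m, m, rfl⟩, ⟨(1 - e) • m, m, rfl⟩)
          invFun := fun p => (p.1 : M) + (p.2 : M)
          left_inv := fun m => by simp [sub_smul]
          right_inv := fun p => by
            have h1 := fix1 _ p.1.2
            have h2 := fix2 _ p.2.2
            refine Prod.ext (Subtype.ext ?_) (Subtype.ext ?_) <;>
              simp [smul_add, sub_smul, h1, h2] }
      have hcard : c = Nat.card M1 * Nat.card M2 := by
        rw [← hc, Nat.card_congr split, Nat.card_prod]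
      have hn1 : Nontrivial M1 := by
        by_contra h
        rw [not_nontrivial_iff_subsingleton] at h
        exact he0 (hf e fun m => congrArg Subtype.val
          (Subsingleton.elim (⟨e • m, m, rfl⟩ : M1) 0))
      have hn2 : Nontrivial M2 := by
        by_contra h
        rw [not_nontrivial_iff_subsingleton] at h
        exact he1 (sub_eq_zero.1 (hf (1 - e) fun m => congrArg Subtype.val
          (Subsingleton.elim (⟨(1 - e) • m, m, rfl⟩ : M2) 0))).symm
      have h1 : 1 < Nat.card M1 := Finite.one_lt_card
      have h2 : 1 < Nat.card M2 := Finite.one_lt_card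
      let f1 : A →+* AddMonoid.End M1 := Module.toAddMonoidEnd A M1
      let f2 : A →+* AddMonoid.End M2 := Module.toAddMonoidEnd A M2
      have hqfin : ∀ I : Ideal A, Finite (A ⧸ I) := fun I =>
        Finite.of_surjective (Ideal.Quotient.mk I) Ideal.Quotient.mk_surjective
      have := hqfin (RingHom.ker f1)
      have := hqfin (RingHom.ker f2)
      have bound : ∀ (N : Submodule A M), Nontrivial N → Nat.card N < c →
          Nat.card (A ⧸ RingHom.ker (Module.toAddMonoidEnd A N))ˣ ≤ Nat.card N - 1 := by
        intro N hN hlt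
        have := hqfin (RingHom.ker (Module.toAddMonoidEnd A N))
        letI : Module (A ⧸ RingHom.ker (Module.toAddMonoidEnd A N)) N :=
          Module.compHom N (RingHom.kerLift (Module.toAddMonoidEnd A N))
        refine (ih (Nat.card N) hlt (A ⧸ RingHom.ker (Module.toAddMonoidEnd A N)) N rfl hN ?_ ?_).1
        · intro b hb
          obtain ⟨b, rfl⟩ := Ideal.Quotient.mk_surjective b
          rw [Ideal.Quotient.eq_zero_iff_mem, RingHom.mem_ker]
          exact AddMonoidHom.ext fun m => hb m
        · intro b
          obtain ⟨b, rfl⟩ := Ideal.Quotient.mk_surjective b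
          rw [← map_pow, hp]
      let j : Aˣ →* (A ⧸ RingHom.ker f1)ˣ × (A ⧸ RingHom.ker f2)ˣ :=
        (Units.map (Ideal.Quotient.mk (RingHom.ker f1)).toMonoidHom).prod
          (Units.map (Ideal.Quotient.mk (RingHom.ker f2)).toMonoidHom)
      have hj : Function.Injective j := by
        intro w w' h
        have e1 : Ideal.Quotient.mk (RingHom.ker f1) (w : A) = Ideal.Quotient.mk _ (w' : A) :=
          congrArg (fun z : (A ⧸ RingHom.ker f1)ˣ × (A ⧸ RingHom.ker f2)ˣ =>
            ((z.1 : _) : A ⧸ RingHom.ker f1)) h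
        have e2 : Ideal.Quotient.mk (RingHom.ker f2) (w : A) = Ideal.Quotient.mk _ (w' : A) :=
          congrArg (fun z : (A ⧸ RingHom.ker f1)ˣ × (A ⧸ RingHom.ker f2)ˣ =>
            ((z.2 : _) : A ⧸ RingHom.ker f2)) h
        rw [Ideal.Quotient.eq, RingHom.mem_ker] at e1 e2
        refine Units.ext (sub_eq_zero.1 (hf _ fun m => ?_))
        have z1 := congrArg Subtype.val (DFunLike.congr_fun e1 (⟨e • m, m, rfl⟩ : M1))
        have z2 := congrArg Subtype.val (DFunLike.congr_fun e2 (⟨(1 - e) • m, m, rfl⟩ : M2))
        have z1' : ((w : A) - w') • e • m = 0 := z1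
        have z2' : ((w : A) - w') • (1 - e) • m = 0 := z2
        have := congrArg₂ (· + ·) z1' z2'
        rw [← smul_add, ← add_smul, add_sub_cancel, one_smul, add_zero] at this
        exact this
      have hle := Nat.card_le_card_of_injective j hj
      rw [Nat.card_prod] at hle
      have b1 := bound M1 hn1 (by rw [hcard]; exact lt_mul_of_one_lt_right (by omega) h2)
      have b2 := bound M2 hn2 (by rw [hcard]; exact lt_mul_of_one_lt_left (by omega) h1)
      have : Nat.card Aˣ < c - 1 := by
        have hle' := hle.trans (Nat.mul_le_mul b1 b2)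
        obtain ⟨a1, ha1⟩ := Nat.exists_eq_add_of_le h1
        obtain ⟨a2, ha2⟩ := Nat.exists_eq_add_of_le h2
        rw [ha1, ha2] at hcard hle'
        simp only [Nat.succ_eq_add_one, show 1 + 1 + a1 - 1 = a1 + 1 by omega,
          show 1 + 1 + a2 - 1 = a2 + 1 by omega] at hle'
        have : (a1 + 1) * (a2 + 1) + 2 ≤ c := by rw [hcard]; nlinarith
        omega
      exact ⟨this.le, fun h => absurd h this.ne⟩


/-- Let F ⊆ K be finite fields with |F| = q and [K : F] = n ≥ 2, regard K as an n-dimensional F-vector space, and let M ≤ GL_F(K) be the Singer group of multiplications by non-zero elements of K (cyclic of order q^n − 1). Assume (n, q) ≠ (6, 2), and that it is not the case that n = 2 with q a prime such that q + 1 is a power of 2. Then every abelian subgroup of GL_F(K) of order q^n − 1 is conjugate to M. -/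
theorem result {F K : Type*} [Field F] [Fintype F] [Field K] [Fintype K] [Algebra F K] (n : ℕ) (hn : 2 ≤ n) (hdim : Module.finrank F K = n)
    (hex1 : ¬ (n = 6 ∧ Fintype.card F = 2))
    (hex2 : ¬ (n = 2 ∧ (Fintype.card F).Prime ∧ ∃ a : ℕ, Fintype.card F + 1 = 2 ^ a))
    (U : Subgroup (Module.End F K)ˣ) (hU : IsMulCommutative U) (hcard : Nat.card U = Fintype.card K - 1) :
    ∃ g : (Module.End F K)ˣ, U.map (MulAut.conj g).toMonoidHom = (Units.map ((Algebra.lmul F K : K →ₐ[F] Module.End F K) : K →* Module.End F K)).range := by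
  classical
  have : FiniteDimensional F K := Module.Finite.of_finite
  obtain ⟨p, hp⟩ := CharP.exists F
  obtain ⟨d, hpp, hFc⟩ := FiniteField.card F p
  have : Fact p.Prime := ⟨hpp⟩
  let S : Set (Module.End F K) := Units.val '' (U : Set (Module.End F K)ˣ)
  let A : Subalgebra F (Module.End F K) := Algebra.adjoin F S
  have hcomm : ∀ x ∈ S, ∀ y ∈ S, x * y = y * x := by
    rintro _ ⟨a, ha, rfl⟩ _ ⟨b, hb, rfl⟩
    exact congrArg (fun z : U => ((z : (Module.End F K)ˣ) : Module.End F K))
      (hU.is_comm.comm ⟨a, ha⟩ ⟨b, hb⟩)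
  have hAc : IsMulCommutative A := Algebra.isMulCommutative_adjoin F hcomm
  letI : CommRing A := { (inferInstance : Ring A) with mul_comm := hAc.is_comm.comm }
  have : Finite (Module.End F K) :=
    Finite.of_injective (fun f => (f : K → K)) DFunLike.coe_injective
  have hnt : Nontrivial A := ⟨⟨0, 1, fun h => zero_ne_one' (Module.End F K) (congrArg Subtype.val h)⟩⟩
  have : CharP A p := charP_of_injective_algebraMap (algebraMap F A).injective p
  have hQ : Fintype.card K = p ^ (d * n) := by
    rw [Module.card_eq_pow_finrank (K := F) (V := K), hdim, hFc, ← pow_mul]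
  have hQ2 : 2 ≤ Fintype.card K := Fintype.one_lt_card
  have hpow : ∀ a : A, a ^ Fintype.card K = a := by
    rintro ⟨x, hx⟩
    induction hx using Algebra.adjoin_induction with
    | mem x hx =>
      obtain ⟨u, hu, rfl⟩ := hx
      have h1 : u ^ Nat.card U = 1 := by
        have := congrArg Subtype.val (pow_card_eq_one' (x := (⟨u, hu⟩ : U)))
        simp only [SubgroupClass.coe_pow, OneMemClass.coe_one] at this
        exact this
      apply Subtype.ext
      show (u : Module.End F K) ^ Fintype.card K = u
      rw [← Units.val_pow_eq_pow_val, show Fintype.card K = Nat.card U + 1 by omega, pow_succ, h1,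
        one_mul]
    | algebraMap r =>
      show (algebraMap F A r) ^ Fintype.card K = algebraMap F A r
      rw [← map_pow, Module.card_eq_pow_finrank (K := F) (V := K), FiniteField.pow_card_pow]
    | add x y hx hy ihx ihy =>
      show ((⟨x, hx⟩ : A) + ⟨y, hy⟩) ^ Fintype.card K = ⟨x, hx⟩ + ⟨y, hy⟩
      rw [hQ, add_pow_char_pow, ← hQ, ihx, ihy]
    | mul x y hx hy ihx ihy =>
      show ((⟨x, hx⟩ : A) * ⟨y, hy⟩) ^ Fintype.card K = ⟨x, hx⟩ * ⟨y, hy⟩
      rw [mul_pow, ihx, ihy]
  have hcount := units_count_aux (Fintype.card K) hQ2 (Fintype.card K) A K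
    Nat.card_eq_fintype_card inferInstance
    (fun a ha => Subtype.ext (LinearMap.ext ha)) hpow
  let incl : U →* Aˣ :=
    { toFun := fun u => ⟨⟨((u : (Module.End F K)ˣ) : Module.End F K), Algebra.subset_adjoin ⟨_, u.2, rfl⟩⟩,
        ⟨(((u⁻¹ : U) : (Module.End F K)ˣ) : Module.End F K), Algebra.subset_adjoin ⟨_, (u⁻¹).2, rfl⟩⟩,
        Subtype.ext (by simp), Subtype.ext (by simp)⟩
      map_one' := Units.ext (Subtype.ext rfl)
      map_mul' := fun u w => Units.ext (Subtype.ext rfl) }
  have hincl : Function.Injective incl := fun u w h =>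
    Subtype.ext (Units.ext (congrArg (fun z : Aˣ => ((z : A) : Module.End F K)) h))
  have hUle := Nat.card_le_card_of_injective incl hincl
  have hAeq : Nat.card Aˣ = Fintype.card K - 1 := le_antisymm hcount.1 (hcard ▸ hUle)
  have hfld : IsField A := hcount.2 hAeq
  have hbij : Function.Bijective incl :=
    (Nat.bijective_iff_injective_and_card incl).2 ⟨hincl, by rw [hcard, hAeq]⟩
  letI : Field A := hfld.toField
  have : Fintype A := Fintype.ofFinite A
  have hAK : Fintype.card A = Fintype.card K := by
    have h := hAeq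
    rw [Nat.card_units, Nat.card_eq_fintype_card] at h
    have := Fintype.card_pos (α := A)
    omega
  have hfr : Module.finrank F A = n := by
    have h1 := hAK
    rw [Module.card_eq_pow_finrank (K := F) (V := A), Module.card_eq_pow_finrank (K := F) (V := K),
      hdim] at h1
    exact Nat.pow_right_injective Fintype.one_lt_card h1
  obtain ⟨σ⟩ := (FiniteField.nonempty_algHom_iff_finrank_dvd (F := F) (K := K) (L := A)).2
    (by rw [hdim, hfr])
  have hσ : Function.Injective σ := σ.toRingHom.injective
  let G0 : K →ₗ[F] K :=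
    { toFun := fun x => (σ x : Module.End F K) 1
      map_add' := fun x y => by simp
      map_smul' := fun r x => by simp }
  have hG0 : Function.Injective G0 := by
    rw [← LinearMap.ker_eq_bot, LinearMap.ker_eq_bot']
    intro x hx
    by_contra hne
    obtain ⟨b, hb⟩ := hfld.mul_inv_cancel (a := σ x) (fun h => hne (hσ (h.trans (map_zero σ).symm)))
    rw [mul_comm] at hb
    have := congrArg (fun z : A => (z : Module.End F K) 1) hb
    simp only [Subalgebra.coe_mul, Module.End.mul_apply, Subalgebra.coe_one, Module.End.one_apply] at this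
    rw [show (σ x : Module.End F K) 1 = 0 from hx, map_zero] at this
    exact zero_ne_one this
  let e : K ≃ₗ[F] K := LinearEquiv.ofBijective G0 ⟨hG0, LinearMap.injective_iff_surjective.1 hG0⟩
  let g : (Module.End F K)ˣ := ⟨e.toLinearMap, e.symm.toLinearMap,
    LinearMap.ext fun x => e.apply_symm_apply x, LinearMap.ext fun x => e.symm_apply_apply x⟩
  have hint : ∀ c x : K, (g : Module.End F K) (c * x) = (σ c : Module.End F K) ((g : Module.End F K) x) :=
    fun c x => by
      show (σ (c * x) : Module.End F K) 1 = (σ c : Module.End F K) ((σ x : Module.End F K) 1)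
      rw [map_mul]; rfl
  refine ⟨g⁻¹, ?_⟩
  symm
  refine Subgroup.eq_of_le_of_card_ge ?_ ?_
  · rintro _ ⟨c, rfl⟩
    obtain ⟨u, hu⟩ := hbij.2 (Units.map (σ : K →* A) c)
    refine ⟨u, u.2, ?_⟩
    have hu' : ((u : (Module.End F K)ˣ) : Module.End F K) = (σ (c : K) : Module.End F K) :=
      congrArg (fun z : Aˣ => ((z : A) : Module.End F K)) hu
    rw [MulEquiv.coe_toMonoidHom, MulAut.conj_apply, inv_inv, mul_assoc, inv_mul_eq_iff_eq_mul]
    refine Units.ext (LinearMap.ext fun x => ?_)
    simp only [Units.val_mul, Module.End.mul_apply, hu']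
    exact (hint c x).symm
  · rw [Subgroup.card_map_of_injective (MulAut.conj _).injective, hcard,
      ← Nat.card_congr (MonoidHom.ofInjective (f := Units.map ((Algebra.lmul F K : K →ₐ[F] Module.End F K) : K →* Module.End F K))
        (fun a b h => Units.ext (by
          simpa using congrArg (fun z : (Module.End F K)ˣ => (z : Module.End F K) 1) h))).toEquiv,
      Nat.card_units, Nat.card_eq_fintype_card]

end Cfsg.Agent.S5947
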